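import Cfsg.Statements.S2430
import Cfsg.Agent.Lib.Helper41.SylowTorus
import Cfsg.Agent.Lib.Helper5.LinearCard
import Cfsg.Agent.S2428
import Cfsg.Agent.S2429

set_option autoImplicit false
open Cfsg

namespace Cfsg.Agent.S2430

open Cfsg.Agent.Lib.Helper41
open scoped Pointwise

theorem conclude {G : Type*} [Group G] [Finite G] (T : Subgroup G) (hcyc : IsCyclic T) (n : ℕ)
    (hcard : Nat.card T = n) (hN : Nat.card (Subgroup.normalizer (T : Set G)) = 2 * n)
    (ℓ : ℕ) [Fact ℓ.Prime] (hℓ2 : ℓ ≠ 2) (hℓT : ℓ ∣ n) (hidx : ¬ ℓ ∣ T.index)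
    (hC : ∀ g ∈ T, g * g ≠ 1 → Subgroup.centralizer ({g} : Set G) = T)
    (P : Sylow ℓ G) :
    Nat.card (Subgroup.centralizer ((P : Subgroup G) : Set G)) = n ∧
    IsCyclic (Subgroup.centralizer ((P : Subgroup G) : Set G)) ∧
    Nat.card (Subgroup.normalizer ((P : Subgroup G) : Set G)) = 2 * n := by
  have hcomm : ∀ a ∈ T, ∀ b ∈ T, a * b = b * a := by
    intro a ha b hb
    letI := IsCyclic.commGroup (α := T)
    exact congrArg Subtype.val (mul_comm (⟨a, ha⟩ : T) ⟨b, hb⟩)
  obtain ⟨x, h1, h2⟩ := sylow_in_torus T hcomm ℓ hℓ2 (hcard ▸ hℓT) hidx hC P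
  rw [h1, h2]
  refine ⟨?_, ?_, ?_⟩
  · rw [← Nat.card_congr (Subgroup.equivSMul (MulAut.conj x) T).toEquiv, hcard]
  · exact isCyclic_of_surjective (Subgroup.equivSMul (MulAut.conj x) T) (Subgroup.equivSMul (MulAut.conj x) T).surjective
  · rw [← Nat.card_congr (Subgroup.equivSMul (MulAut.conj x) (Subgroup.normalizer (T : Set G))).toEquiv, hN]

/-- Let F be a finite field with q elements, q odd, ℓ an odd prime, and P a Sylow ℓ-subgroup of SL₂ over F. If ℓ divides q − 1, the centraliser of P is cyclic of order q − 1 (a split torus) and the normaliser of P has order 2(q − 1); if ℓ divides q + 1, the centraliser of P is cyclic of order q + 1 (a non-split torus) and the normaliser of P has order 2(q + 1). -/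
theorem result {F : Type*} [Field F] [Fintype F] (hodd : Odd (Fintype.card F)) (ℓ : ℕ) [Fact ℓ.Prime] (hℓ : ℓ ≠ 2)
    (P : Sylow ℓ (Matrix.SpecialLinearGroup (Fin 2) F)) :
    (ℓ ∣ Fintype.card F - 1 →
      Nat.card (Subgroup.centralizer ((P : Subgroup (Matrix.SpecialLinearGroup (Fin 2) F)) : Set (Matrix.SpecialLinearGroup (Fin 2) F))) = Fintype.card F - 1 ∧
      IsCyclic (Subgroup.centralizer ((P : Subgroup (Matrix.SpecialLinearGroup (Fin 2) F)) : Set (Matrix.SpecialLinearGroup (Fin 2) F))) ∧
      Nat.card (Subgroup.normalizer ((P : Subgroup (Matrix.SpecialLinearGroup (Fin 2) F)) : Set (Matrix.SpecialLinearGroup (Fin 2) F))) = 2 * (Fintype.card F - 1)) ∧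
    (ℓ ∣ Fintype.card F + 1 →
      Nat.card (Subgroup.centralizer ((P : Subgroup (Matrix.SpecialLinearGroup (Fin 2) F)) : Set (Matrix.SpecialLinearGroup (Fin 2) F))) = Fintype.card F + 1 ∧
      IsCyclic (Subgroup.centralizer ((P : Subgroup (Matrix.SpecialLinearGroup (Fin 2) F)) : Set (Matrix.SpecialLinearGroup (Fin 2) F))) ∧
      Nat.card (Subgroup.normalizer ((P : Subgroup (Matrix.SpecialLinearGroup (Fin 2) F)) : Set (Matrix.SpecialLinearGroup (Fin 2) F))) = 2 * (Fintype.card F + 1)) := by
  classical
  have hℓp : ℓ.Prime := Fact.out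
  have hodd' : Fintype.card F % 2 = 1 := Nat.odd_iff.1 hodd
  have h2 : (2 : F) ≠ 0 := two_ne_zero_of_odd_card hodd'
  have hq1 : 1 < Fintype.card F := Fintype.one_lt_card
  have hG := Cfsg.Agent.Lib.Helper5.card_SL2 (F := F)
  have e1 : Fintype.card F ^ 2 - 1 = (Fintype.card F + 1) * (Fintype.card F - 1) := by
    have := Nat.sq_sub_sq (Fintype.card F) 1
    simpa using this
  rw [e1] at hG
  have hℓ3 : 3 ≤ ℓ := by
    have := hℓp.two_le
    omega
  constructor
  · intro hdvd
    -- a unit of order ℓ
    obtain ⟨u, hu⟩ := exists_prime_orderOf_dvd_card' (G := Fˣ) ℓ (by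
      rw [Nat.card_units, Nat.card_eq_fintype_card]; exact hdvd)
    have hu2 : (u : F) ^ 2 ≠ 1 := by
      intro h
      have h' : u ^ 2 = 1 := Units.ext (by simpa using h)
      have := Nat.le_of_dvd (by norm_num) (orderOf_dvd_of_pow_eq_one h')
      omega
    obtain ⟨hmem, hcardN, -, -⟩ := Cfsg.Agent.S2428.result hodd (Cfsg.Agent.S2428.dg u)
      (by rw [Cfsg.Agent.S2428.dg_coe]; simp) (by rw [Cfsg.Agent.S2428.dg_coe]; simp)
      (by rw [Cfsg.Agent.S2428.dg_coe]; simpa using hu2)
    set T := Subgroup.centralizer ({Cfsg.Agent.S2428.dg u} : Set (Matrix.SpecialLinearGroup (Fin 2) F)) with hT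
    -- the torus as the range of a homomorphism
    let φ : Fˣ →* Matrix.SpecialLinearGroup (Fin 2) F :=
      { toFun := Cfsg.Agent.S2428.dg
        map_one' := by
          apply Subtype.ext
          rw [Cfsg.Agent.S2428.dg_coe, Matrix.SpecialLinearGroup.coe_one]
          ext i j
          fin_cases i <;> fin_cases j <;> simp
        map_mul' := by
          intro a b
          apply Subtype.ext
          rw [Matrix.SpecialLinearGroup.coe_mul, Cfsg.Agent.S2428.dg_coe, Cfsg.Agent.S2428.dg_coe,
            Cfsg.Agent.S2428.dg_coe, Matrix.mul_fin_two]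
          ext i j
          fin_cases i <;> fin_cases j <;> simp [mul_comm] }
    have hφinj : Function.Injective φ := by
      intro a b h
      have h' := congrArg Subtype.val h
      have := congrFun (congrFun h' 0) 0
      exact Units.ext this
    have hrange : φ.range = T := by
      ext g
      rw [hmem]
      constructor
      · rintro ⟨a, rfl⟩
        change ((Cfsg.Agent.S2428.dg a : Matrix (Fin 2) (Fin 2) F) 0 1 = 0 ∧ (Cfsg.Agent.S2428.dg a : Matrix (Fin 2) (Fin 2) F) 1 0 = 0)
        rw [Cfsg.Agent.S2428.dg_coe]; simp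
      · rintro ⟨h1, h2⟩
        have hgdet := sl2_det g
        rw [h1, h2] at hgdet
        have hu : (g : Matrix (Fin 2) (Fin 2) F) 0 0 * (g : Matrix (Fin 2) (Fin 2) F) 1 1 = 1 := by
          linear_combination hgdet
        refine ⟨⟨(g : Matrix (Fin 2) (Fin 2) F) 0 0, (g : Matrix (Fin 2) (Fin 2) F) 1 1, hu, by rw [mul_comm]; exact hu⟩, ?_⟩
        apply Subtype.ext
        change ((Cfsg.Agent.S2428.dg _ : Matrix.SpecialLinearGroup (Fin 2) F) : Matrix (Fin 2) (Fin 2) F) = _
        rw [Cfsg.Agent.S2428.dg_coe]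
        ext i j
        fin_cases i <;> fin_cases j <;> simp [h1, h2]
    have hcardT : Nat.card T = Fintype.card F - 1 := by
      rw [← hrange, ← Nat.card_congr (MonoidHom.ofInjective hφinj).toEquiv, Nat.card_units,
        Nat.card_eq_fintype_card]
    have hcyc : IsCyclic T := by
      rw [← hrange]
      exact isCyclic_of_surjective (MonoidHom.ofInjective hφinj) (MonoidHom.ofInjective hφinj).surjective
    apply conclude T hcyc _ hcardT hcardN ℓ hℓ hdvd
    · intro hi
      have h3 := Subgroup.card_mul_index T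
      rw [hcardT, hG] at h3
      have h4 : T.index = Fintype.card F * (Fintype.card F + 1) := by
        apply Nat.eq_of_mul_eq_mul_left (show 0 < Fintype.card F - 1 by omega)
        rw [h3]; ring
      rw [h4] at hi
      rcases (Nat.Prime.dvd_mul hℓp).1 hi with h | h
      · have : ℓ ∣ 1 := by
          have h5 := (Nat.dvd_sub h hdvd)
          have h6 : Fintype.card F - (Fintype.card F - 1) = 1 := by omega
          rwa [h6] at h5
        have := Nat.le_of_dvd (by norm_num) this
        omega
      · have : ℓ ∣ 2 := by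
          have h5 := (Nat.dvd_sub h hdvd)
          have h6 : Fintype.card F + 1 - (Fintype.card F - 1) = 2 := by omega
          rwa [h6] at h5
        have := Nat.le_of_dvd (by norm_num) this
        omega
    · intro g hg hgg
      have hgs := (hmem g).1 hg
      ext k
      rw [hmem, Cfsg.Agent.S2428.mem_centralizer_diag g hgs.1 hgs.2]
      intro h
      apply hgg
      have hgdet := sl2_det g
      rw [hgs.1, hgs.2] at hgdet
      have h11 : (g : Matrix (Fin 2) (Fin 2) F) 1 1 = (g : Matrix (Fin 2) (Fin 2) F) 0 0 := by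
        have : (g : Matrix (Fin 2) (Fin 2) F) 1 1 = (g : Matrix (Fin 2) (Fin 2) F) 0 0 ^ 2 * (g : Matrix (Fin 2) (Fin 2) F) 1 1 := by
          rw [h, one_mul]
        rw [this]
        linear_combination (g : Matrix (Fin 2) (Fin 2) F) 0 0 * hgdet
      rw [sl2_eq_one_iff, Matrix.SpecialLinearGroup.coe_mul]
      ext i j
      fin_cases i <;> fin_cases j <;> simp [Matrix.mul_apply, Fin.sum_univ_two, hgs.1, hgs.2, h11, ← pow_two, h]
  · intro hdvd
    obtain ⟨T, hcyc, hcardT, -, hC, -, hcardN, -, -⟩ := Cfsg.Agent.S2429.result hodd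
    apply conclude T hcyc _ hcardT hcardN ℓ hℓ hdvd
    · intro hi
      have h3 := Subgroup.card_mul_index T
      rw [hcardT, hG] at h3
      have h4 : T.index = Fintype.card F * (Fintype.card F - 1) := by
        apply Nat.eq_of_mul_eq_mul_left (show 0 < Fintype.card F + 1 by omega)
        rw [h3]; ring
      rw [h4] at hi
      rcases (Nat.Prime.dvd_mul hℓp).1 hi with h | h
      · have : ℓ ∣ 1 := by
          have h5 := (Nat.dvd_sub hdvd h)
          have h6 : Fintype.card F + 1 - Fintype.card F = 1 := by omega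
          rwa [h6] at h5
        have := Nat.le_of_dvd (by norm_num) this
        omega
      · have : ℓ ∣ 2 := by
          have h5 := (Nat.dvd_sub hdvd h)
          have h6 : Fintype.card F + 1 - (Fintype.card F - 1) = 2 := by omega
          rwa [h6] at h5
        have := Nat.le_of_dvd (by norm_num) this
        omega
    · intro g hg hgg
      apply hC g hg
      · intro h
        apply hgg
        rw [(sl2_eq_one_iff g).2 h, mul_one]
      · intro h
        apply hgg
        rw [(sl2_eq_neg_one_iff g).2 h]; simp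

end Cfsg.Agent.S2430
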