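import Cfsg.Statements.S4126
import Mathlib
import Cfsg.Agent.Lib.Helper1.FusionSmall
import Cfsg.Agent.Lib.Helper69.CoprimeIndex

set_option autoImplicit false
open Cfsg

namespace Cfsg.Agent.S4126


/-- Let G be a finite group and p a prime. Suppose every element of order p, and when p = 2 also every element of order 4, has a conjugacy class of p-power size. Then G has a normal p-complement. -/
theorem result {G : Type*} [Group G] [Finite G] (p : ℕ) [Fact p.Prime]
    (h : ∀ x : G, (orderOf x = p ∨ (p = 2 ∧ orderOf x = 4)) → ∃ a : ℕ, (Subgroup.centralizer ({x} : Set G)).index = p ^ a) :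
    Cfsg.HasNormalPComplement p G := by
  have hp : p.Prime := Fact.out
  obtain ⟨P⟩ : Nonempty (Sylow p G) := inferInstance
  apply Cfsg.Agent.Lib.Helper1.OmegaLemma.hasNormalPComplement_of_controls_small P
  intro a ha hsmall g _
  by_cases ha1 : a = 1
  · exact ⟨1, Subgroup.one_mem _, by simp [ha1]⟩
  have hord : orderOf a = p ∨ (p = 2 ∧ orderOf a = 4) := by
    rcases hsmall with h1 | ⟨h2, h4⟩
    · left
      exact orderOf_eq_prime h1 ha1
    · subst h2
      have hd : orderOf a ∣ 2 ^ 2 := orderOf_dvd_of_pow_eq_one (by norm_num; exact h4)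
      obtain ⟨k, hk, hk'⟩ := (Nat.dvd_prime_pow Nat.prime_two).1 hd
      interval_cases k
      · exact absurd (orderOf_eq_one_iff.1 (by simpa using hk')) ha1
      · left; simpa using hk'
      · right; exact ⟨rfl, by simpa using hk'⟩
  obtain ⟨k, hk⟩ := h a hord
  have hcop : (Subgroup.centralizer ({a} : Set G)).index.Coprime (P : Subgroup G).index := by
    rw [hk]
    exact Nat.Coprime.pow_left _ ((Nat.Prime.coprime_iff_not_dvd hp).2 P.not_dvd_index)
  obtain ⟨x, hx, c, hc, rfl⟩ := Cfsg.Agent.Lib.Helper69.exists_mul_of_coprime_index _ _ hcop g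
  refine ⟨x, hx, ?_⟩
  have hca : c * a = a * c := ((Subgroup.mem_centralizer_iff.1 hc) a rfl).symm
  have : c * a * c⁻¹ = a := by rw [hca]; simp
  calc x * c * a * (x * c)⁻¹ = x * (c * a * c⁻¹) * x⁻¹ := by group
    _ = x * a * x⁻¹ := by rw [this]

end Cfsg.Agent.S4126
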