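import Cfsg.Statements.S4488
import Cfsg.Agent.Lib.Helper74.CharBasic
import Cfsg.Agent.Lib.Helper76.GaloisChar
import Cfsg.Agent.Lib.Helper76.Eigen
import Cfsg.Agent.Lib.Helper79.LocalRing
import Cfsg.Agent.Lib.Helper16.LocalRed

set_option autoImplicit false
open Cfsg Cfsg.Agent.Lib.Helper16

namespace Cfsg.Agent.S4488

theorem sum_prod_dvd {P : Type*} [Group P] [Fintype P] {ψ : P → ℂ} (hψ : IsCharacter P ψ)
    (c : ℕ → ℤ) (m : ℕ) :
    ∀ θ : P → ℂ, IsCharacter P θ → ∃ K : ℤ,
      ∑ x, θ x * ∏ t ∈ Finset.range m, (ψ x - (c t : ℂ)) = (Nat.card P : ℂ) * K := by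
  induction m with
  | zero =>
    intro θ hθ
    obtain ⟨k, hk⟩ := Lib.Helper74.IsCharacter.classInner_irr_nat hθ
      ⟨fun _ => 1, Lib.Helper74.isIrrCharacter_one⟩
    refine ⟨k, ?_⟩
    simp only [Finset.range_zero, Finset.prod_empty, mul_one]
    unfold classInner at hk
    simp only [map_one, mul_one] at hk
    have hne : (Nat.card P : ℂ) ≠ 0 := by
      exact_mod_cast Nat.card_pos.ne'
    rw [Int.cast_natCast, ← hk, mul_inv_cancel_left₀ hne]
  | succ m ih =>
    intro θ hθ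
    obtain ⟨K1, h1⟩ := ih (θ * ψ) (Lib.Helper74.IsCharacter.mul hθ hψ)
    obtain ⟨K2, h2⟩ := ih θ hθ
    refine ⟨K1 - c m * K2, ?_⟩
    have h3 : ∀ x, θ x * ∏ t ∈ Finset.range (m + 1), (ψ x - (c t : ℂ))
        = (θ * ψ) x * ∏ t ∈ Finset.range m, (ψ x - (c t : ℂ))
          - (c m : ℂ) * (θ x * ∏ t ∈ Finset.range m, (ψ x - (c t : ℂ))) := by
      intro x
      rw [Finset.prod_range_succ, Pi.mul_apply]
      ring
    rw [Finset.sum_congr rfl (fun x _ => h3 x), Finset.sum_sub_distrib, ← Finset.mul_sum, h1, h2]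
    push_cast
    ring

theorem sum_filter_dvd {A : Type*} [AddCommMonoid A] (p q : ℕ) (hp : 0 < p) (f : ℕ → A) :
    ∑ k ∈ (Finset.range (p * q)).filter (p ∣ ·), f k = ∑ k ∈ Finset.range q, f (p * k) := by
  symm
  apply Finset.sum_nbij' (fun k => p * k) (fun k => k / p)
  · intro k hk
    simp only [Finset.mem_range, Finset.mem_filter] at hk ⊢
    exact ⟨Nat.mul_lt_mul_of_pos_left hk hp, dvd_mul_right _ _⟩
  · intro k hk
    simp only [Finset.mem_range, Finset.mem_filter] at hk ⊢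
    exact Nat.div_lt_of_lt_mul hk.1
  · intro k _
    exact Nat.mul_div_cancel_left k hp
  · intro k hk
    simp only [Finset.mem_range, Finset.mem_filter] at hk
    exact Nat.mul_div_cancel' hk.2
  · intro k _
    rfl

theorem geom_root' {ζ : ℂ} {m : ℕ} (h : ζ ^ m = 1) :
    ∑ k ∈ Finset.range m, ζ ^ k = if ζ = 1 then (m : ℂ) else 0 := by
  split_ifs with h1
  · simp [h1]
  · have := mul_neg_geom_sum ζ m
    rw [h, sub_self] at this
    rcases mul_eq_zero.1 this with h2 | h2
    · exact absurd (sub_eq_zero.1 h2).symm h1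
    · exact h2

theorem one_sub_root_mem {p : ℕ} {M : Ideal AlgInt} (hM : IsPModular p M) {μ : ℂ} {s : ℕ}
    (h : μ ^ (p ^ s) = 1) : MemLocalIdeal M (1 - μ) := by
  haveI : M.IsMaximal := hM.2.1
  haveI : CharP (FM M) p := charP_FM hM
  haveI : Fact p.Prime := ⟨hM.1⟩
  have hMp := Lib.Helper79.isPrime_of_isPModular hM
  have hint : IsIntegral ℤ μ := IsIntegral.of_pow (pow_pos hM.1.pos s) (by rw [h]; exact isIntegral_one)
  have hmem : MemLocalRing M μ := Lib.Helper79.memLocalRing_of_isIntegral hMp hint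
  have h1 : (redC M μ) ^ (p ^ s) = 1 := by
    have := redC_prod (M := M) (Finset.range (p ^ s)) (fun _ => μ) (fun _ _ => hmem)
    rw [Finset.prod_const, Finset.prod_const, Finset.card_range, h, redC_one] at this
    exact this.symm
  have h2 : (redC M μ - 1) ^ (p ^ s) = 0 := by
    rw [sub_pow_char_pow, h1, one_pow, sub_self]
  have h3 : redC M μ = 1 := sub_eq_zero.1 (pow_eq_zero_iff (pow_pos hM.1.pos s).ne' |>.1 h2)
  rw [← redC_eq_zero_iff (Lib.Helper79.memLocalRing_sub hMp (Lib.Helper79.memLocalRing_one hMp) hmem),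
    redC_sub (Lib.Helper79.memLocalRing_one hMp) hmem, redC_one, h3, sub_self]

theorem value_form {P : Type*} [Group P] [Finite P] {p : ℕ} (hp : p.Prime) {χ : P → ℂ}
    (hχ : IsCharacter P χ) (x : P) (s : ℕ) (hx : x ^ (p ^ s) = 1)
    (hinv : ∀ j : ℕ, ¬ p ∣ j → χ (x ^ j) = χ x) :
    ∃ t : ℕ, χ x = (charDegree χ : ℂ) - (p : ℂ) * t ∧ t * (p - 1) ≤ charDegree χ := by
  classical
  obtain ⟨n, ρ, rfl⟩ := hχ
  rw [Lib.Helper74.charDegree_rep]
  have hq' : 0 < p ^ s := pow_pos hp.pos s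
  have hx' : x ^ (p * p ^ s) = 1 := by rw [mul_comm, pow_mul, hx, one_pow]
  obtain ⟨μ, h1, h2⟩ := Lib.Helper76.exists_char_eigenvalues ρ x (p * p ^ s)
    (Nat.mul_pos hp.pos hq') hx'
  have hN : Module.finrank ℂ (Fin n → ℂ) = n := Module.finrank_fin_fun ℂ
  set c0 := (Finset.univ.filter (fun i => μ i = 1)).card with hc0
  set c1 := (Finset.univ.filter (fun i => μ i ^ p = 1)).card with hc1
  have hc01 : c0 ≤ c1 := by
    apply Finset.card_le_card
    intro i hi
    simp only [Finset.mem_filter, Finset.mem_univ, true_and] at hi ⊢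
    rw [hi, one_pow]
  have hc1n : c1 ≤ n := by
    have := Finset.card_filter_le (Finset.univ : Finset (Fin (Module.finrank ℂ (Fin n → ℂ))))
      (fun i => μ i ^ p = 1)
    rw [Finset.card_univ, Fintype.card_fin] at this
    exact this.trans hN.le
  -- the three sums
  have hall : ∑ k ∈ Finset.range (p * p ^ s), ρ.character (x ^ k) = ((p * p ^ s : ℕ) : ℂ) * c0 := by
    rw [Finset.sum_congr rfl (fun k _ => h2 k), Finset.sum_comm,
      Finset.sum_congr rfl (fun i _ => geom_root' (h1 i)), Finset.sum_ite, Finset.sum_const,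
      Finset.sum_const_zero, add_zero, nsmul_eq_mul, mul_comm]
  have hdiv : ∑ k ∈ Finset.range (p ^ s), ρ.character (x ^ (p * k)) = ((p ^ s : ℕ) : ℂ) * c1 := by
    have h3 : ∀ i, (μ i ^ p) ^ (p ^ s) = 1 := fun i => by rw [← pow_mul]; exact h1 i
    rw [Finset.sum_congr rfl (fun k _ => h2 (p * k)), Finset.sum_comm,
      Finset.sum_congr rfl (fun i _ => Finset.sum_congr rfl (fun k _ => pow_mul (μ i) p k)),
      Finset.sum_congr rfl (fun i _ => geom_root' (h3 i)), Finset.sum_ite, Finset.sum_const,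
      Finset.sum_const_zero, add_zero, nsmul_eq_mul, mul_comm]
  have hcard : ((Finset.range (p * p ^ s)).filter (fun k => ¬ p ∣ k)).card + p ^ s = p * p ^ s := by
    have h4 := Finset.card_filter_add_card_filter_not (s := Finset.range (p * p ^ s)) (fun k => p ∣ k)
    have h5 : ((Finset.range (p * p ^ s)).filter (fun k => p ∣ k)).card = p ^ s := by
      rw [Finset.card_eq_sum_ones, sum_filter_dvd p (p ^ s) hp.pos (fun _ => 1)]
      simp
    rw [h5, Finset.card_range] at h4
    omega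
  have hnd : ∑ k ∈ (Finset.range (p * p ^ s)).filter (fun k => ¬ p ∣ k), ρ.character (x ^ k)
      = (((Finset.range (p * p ^ s)).filter (fun k => ¬ p ∣ k)).card : ℂ) * ρ.character x := by
    rw [Finset.sum_congr rfl (fun k hk => hinv k (Finset.mem_filter.1 hk).2), Finset.sum_const,
      nsmul_eq_mul]
  have hsplit := Finset.sum_filter_add_sum_filter_not (Finset.range (p * p ^ s)) (fun k => p ∣ k)
    (fun k => ρ.character (x ^ k))
  rw [sum_filter_dvd p (p ^ s) hp.pos (fun k => ρ.character (x ^ k)), hdiv, hnd, hall] at hsplit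
  have hcardC : (((Finset.range (p * p ^ s)).filter (fun k => ¬ p ∣ k)).card : ℂ)
      = ((p : ℂ) - 1) * ((p ^ s : ℕ) : ℂ) := by
    have := congrArg (fun z : ℕ => (z : ℂ)) hcard
    simp only [Nat.cast_add, Nat.cast_mul] at this
    linear_combination this
  rw [hcardC] at hsplit
  have hqne : ((p ^ s : ℕ) : ℂ) ≠ 0 := by exact_mod_cast hq'.ne'
  have hkey : ((p : ℂ) - 1) * ρ.character x = (p : ℂ) * c0 - c1 := by
    apply mul_left_cancel₀ hqne
    rw [Nat.cast_mul] at hsplit
    linear_combination hsplit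
  -- integrality
  have hchi : ρ.character x = ∑ i, μ i := by
    have := h2 1
    simpa using this
  have hnsum : (n : ℂ) = ∑ _i : Fin (Module.finrank ℂ (Fin n → ℂ)), (1 : ℂ) := by
    simp [hN]
  have hle : p * c0 ≤ (p - 1) * n + c1 := by
    have h6 : p * c0 = (p - 1) * c0 + c0 := by
      obtain ⟨p', rfl⟩ : ∃ p', p = p' + 1 := ⟨p - 1, (Nat.succ_pred_eq_of_pos hp.pos).symm⟩
      simp only [Nat.add_sub_cancel]
      ring
    rw [h6]
    exact Nat.add_le_add (Nat.mul_le_mul_left _ (hc01.trans hc1n)) hc01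
  have hp1 : ((p - 1 : ℕ) : ℂ) = (p : ℂ) - 1 := by
    rw [Nat.cast_sub hp.one_le, Nat.cast_one]
  have hp1ne : ((p - 1 : ℕ) : ℂ) ≠ 0 := by
    have : p - 1 ≠ 0 := by have := hp.two_le; omega
    exact_mod_cast this
  have hdivform : (((p - 1) * n + c1 - p * c0 : ℕ) : ℂ) / ((p - 1 : ℕ) : ℂ)
      = (n : ℂ) - ρ.character x := by
    rw [div_eq_iff hp1ne, Nat.cast_sub hle, Nat.cast_add, Nat.cast_mul, Nat.cast_mul, hp1]
    linear_combination hkey
  have hint : IsIntegral ℤ ((n : ℂ) - ρ.character x) := by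
    apply IsIntegral.sub (isIntegral_natCast n)
    rw [hchi]
    apply IsIntegral.sum
    intro i _
    exact IsIntegral.of_pow (Nat.mul_pos hp.pos hq') (by rw [h1 i]; exact isIntegral_one)
  rw [← hdivform] at hint
  obtain ⟨w, hw⟩ := Lib.Helper79.dvd_of_isIntegral_div (by have := hp.two_le; omega) hint
  have hwC : (n : ℂ) - ρ.character x = w := by
    rw [← hdivform, hw, Nat.cast_mul, mul_div_cancel_left₀ _ hp1ne]
  -- divisibility by p
  obtain ⟨M, hM⟩ := Lib.Helper79.exists_isPModular hp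
  have hMp := Lib.Helper79.isPrime_of_isPModular hM
  have hpw : p ∣ w := by
    rw [← Lib.Helper79.memLocalIdeal_natCast_iff hM, ← hwC, hchi, hnsum, ← Finset.sum_sub_distrib]
    apply Lib.Helper79.memLocalIdeal_sum hMp
    intro i _
    apply one_sub_root_mem hM (s := s + 1)
    rw [pow_succ, mul_comm]
    exact h1 i
  obtain ⟨t, rfl⟩ := hpw
  refine ⟨t, ?_, ?_⟩
  · rw [Nat.cast_mul] at hwC
    linear_combination (-1 : ℂ) * hwC
  · have h7 : (p - 1) * (p * t) ≤ (p - 1) * n + n := by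
      rw [← hw]
      omega
    have h8 : (p - 1) * n + n = p * n := by
      obtain ⟨p', rfl⟩ : ∃ p', p = p' + 1 := ⟨p - 1, (Nat.succ_pred_eq_of_pos hp.pos).symm⟩
      simp only [Nat.add_sub_cancel]
      ring
    rw [h8] at h7
    have h9 : p * (t * (p - 1)) ≤ p * n := by
      calc p * (t * (p - 1)) = (p - 1) * (p * t) := by ring
        _ ≤ p * n := h7
    exact Nat.le_of_mul_le_mul_left h9 hp.pos

theorem galois_inv {P : Type*} [Group P] [Finite P] {p a r : ℕ} (hp : p.Prime)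
    (hP : Nat.card P = p ^ a) (hr : 0 < r) (hpr : ¬ p ∣ r) {ψ : P → ℂ} (hψ : IsCharacter P ψ)
    (hrat : ∀ g : P, ψ g ∈ IntermediateField.adjoin ℚ
      ({Complex.exp (2 * Real.pi * Complex.I / r)} : Set ℂ))
    (x : P) (j : ℕ) (hj : ¬ p ∣ j) : ψ (x ^ j) = ψ x := by
  have hcop : Nat.Coprime r (p ^ a) :=
    Nat.Coprime.pow_right a ((Nat.Prime.coprime_iff_not_dvd hp).2 hpr).symm
  obtain ⟨k, hk1, hk2⟩ := Nat.chineseRemainder hcop 1 j
  have hkr : Nat.Coprime k r := by
    have := hk1.gcd_eq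
    rw [Nat.gcd_one_left] at this
    exact this
  have hkp : Nat.Coprime k (p ^ a) := by
    have h1 := hk2.gcd_eq
    have h2 : Nat.Coprime j (p ^ a) :=
      Nat.Coprime.pow_right a ((Nat.Prime.coprime_iff_not_dvd hp).2 hj).symm
    exact h1.trans h2
  obtain ⟨τ, hτ⟩ := Lib.Helper76.exists_ringAut_complex (r * p ^ a)
    (Nat.mul_pos hr (pow_pos hp.pos a)) k (Nat.Coprime.mul_right hkr hkp)
  have h1 : τ.toRingHom (ψ x) = ψ (x ^ k) := by
    apply Lib.Helper76.IsCharacter.map_ringHom_apply hψ τ.toRingHom k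
    intro w hw
    apply hτ
    rw [hP] at hw
    rw [mul_comm, pow_mul, hw, one_pow]
  have hxk : x ^ k = x ^ j := by
    have hx : x ^ (p ^ a) = 1 := by rw [← hP]; exact pow_card_eq_one'
    rw [pow_eq_pow_mod k hx, pow_eq_pow_mod j hx]
    exact congrArg _ hk2
  set ζ : ℂ := Complex.exp (2 * Real.pi * Complex.I / r) with hζ
  have hζr : ζ ^ r = 1 := by
    rw [hζ, ← Complex.exp_nat_mul]
    have hr' : (r : ℂ) ≠ 0 := by exact_mod_cast hr.ne'
    rw [mul_div_cancel₀ _ hr']
    exact Complex.exp_two_pi_mul_I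
  have hτζ : τ ζ = ζ := by
    rw [hτ ζ (by rw [pow_mul, hζr, one_pow]), pow_eq_pow_mod k hζr]
    have : k % r = 1 % r := hk1
    rw [this, ← pow_eq_pow_mod 1 hζr, pow_one]
  have hfix : ∀ z ∈ IntermediateField.adjoin ℚ ({ζ} : Set ℂ), τ z = z := by
    intro z hz
    induction hz using IntermediateField.adjoin_induction with
    | mem y hy =>
      rw [Set.mem_singleton_iff] at hy
      rw [hy, hτζ]
    | algebraMap q => exact map_ratCast τ q
    | add y z _ _ hy hz => rw [map_add, hy, hz]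
    | inv y _ hy => rw [map_inv₀, hy]
    | mul y z _ _ hy hz => rw [map_mul, hy, hz]
  have h2 : τ.toRingHom (ψ x) = ψ x := hfix _ (hrat x)
  rw [← hxk, ← h1, h2]

/-- Let the finite group G have a faithful p-rational character χ of degree n (all values of χ lie in the field generated over ℚ by a root of unity of order prime to p), and let p^a be the order of a Sylow p-subgroup of G. Then a ≤ Σ_{i ≥ 0} ⌊n / ((p − 1)·p^i)⌋ (a finite sum; the terms vanish once (p − 1)p^i > n). -/
theorem result {G : Type*} [Group G] [Finite G] (p : ℕ) (hp : p.Prime) (χ : G → ℂ) (hχ : Cfsg.IsCharacter G χ) (hfaith : ∀ g : G, χ g = χ 1 → g = 1) (hrat : (∃ r : ℕ, 0 < r ∧ ¬ p ∣ r ∧ ∀ g : G, χ g ∈ IntermediateField.adjoin ℚ ({Complex.exp (2 * Real.pi * Complex.I / r)} : Set ℂ))) (n : ℕ) (hn : Cfsg.charDegree χ = n) : (Nat.card G).factorization p ≤ ∑ i ∈ Finset.range (n + 1), n / ((p - 1) * p ^ i) := by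
  classical
  haveI : Fact p.Prime := ⟨hp⟩
  obtain ⟨r, hr, hpr, hrat⟩ := hrat
  obtain ⟨P⟩ : Nonempty (Sylow p G) := inferInstance
  cases nonempty_fintype ↥(P : Subgroup G)
  set a := (Nat.card G).factorization p with ha
  have hP : Nat.card ↥(P : Subgroup G) = p ^ a := Sylow.card_eq_multiplicity P
  set ψ : ↥(P : Subgroup G) → ℂ := fun x => χ (x : G) with hψdef
  have hψ : IsCharacter ↥(P : Subgroup G) ψ := Lib.Helper74.IsCharacter.restrict hχ _
  have hdeg : charDegree ψ = n := by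
    rw [← hn]
    rfl
  have hn1 : χ 1 = n := by rw [← hn]; exact (Lib.Helper74.IsCharacter.charDegree_eq hχ).symm
  set m := n / (p - 1) with hm
  have hp1 : 0 < p - 1 := by have := hp.two_le; omega
  set c : ℕ → ℤ := fun t => (n : ℤ) - p * (t + 1) with hc
  have hvan : ∀ x : ↥(P : Subgroup G), x ≠ 1 → ∏ t ∈ Finset.range m, (ψ x - (c t : ℂ)) = 0 := by
    intro x hx
    obtain ⟨t, ht1, ht2⟩ := value_form hp hψ x a (by rw [← hP]; exact pow_card_eq_one')
      (fun j hj => galois_inv hp hP hr hpr hψ (fun g => hrat g) x j hj)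
    rw [hdeg] at ht1 ht2
    have ht0 : t ≠ 0 := by
      rintro rfl
      apply hx
      have : χ (x : G) = χ 1 := by
        rw [hn1]
        simpa using ht1
      exact Subtype.ext (hfaith _ this)
    have htm : t - 1 ∈ Finset.range m := by
      rw [Finset.mem_range, hm]
      have : t ≤ n / (p - 1) := (Nat.le_div_iff_mul_le hp1).2 ht2
      omega
    apply Finset.prod_eq_zero htm
    rw [ht1, hc]
    have : ((t - 1 : ℕ) : ℂ) = (t : ℂ) - 1 := by
      rw [Nat.cast_sub (Nat.one_le_iff_ne_zero.2 ht0), Nat.cast_one]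
    push_cast
    rw [this]
    ring
  obtain ⟨K, hK⟩ := sum_prod_dvd hψ c m (fun _ => 1)
    (Lib.Helper74.IsIrrCharacter.isCharacter Lib.Helper74.isIrrCharacter_one)
  rw [Finset.sum_eq_single (1 : ↥(P : Subgroup G)) (fun x _ hx => by rw [hvan x hx, mul_zero])
    (fun h => absurd (Finset.mem_univ _) h), one_mul] at hK
  have hval : ∏ t ∈ Finset.range m, (ψ 1 - (c t : ℂ)) = ((p ^ m * m.factorial : ℕ) : ℂ) := by
    have h1 : ∀ t ∈ Finset.range m, ψ 1 - (c t : ℂ) = (p : ℂ) * ((t + 1 : ℕ) : ℂ) := by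
      intro t _
      have : ψ 1 = n := hn1
      rw [this, hc]
      push_cast
      ring
    rw [Finset.prod_congr rfl h1, Finset.prod_mul_distrib, Finset.prod_const, Finset.card_range,
      ← Nat.cast_prod, Finset.prod_range_add_one_eq_factorial]
    push_cast
    ring
  rw [hval, hP] at hK
  have hK' : ((p ^ m * m.factorial : ℕ) : ℤ) = ((p ^ a : ℕ) : ℤ) * K := by exact_mod_cast hK
  have hdvd : p ^ a ∣ p ^ m * m.factorial := by
    have : ((p ^ a : ℕ) : ℤ) ∣ ((p ^ m * m.factorial : ℕ) : ℤ) := ⟨K, hK'⟩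
    exact_mod_cast this
  have hne : p ^ m * m.factorial ≠ 0 := Nat.mul_ne_zero (pow_pos hp.pos m).ne' m.factorial_ne_zero
  have hle := (Nat.Prime.pow_dvd_iff_le_factorization hp hne).1 hdvd
  rw [Nat.factorization_mul (pow_pos hp.pos m).ne' m.factorial_ne_zero, Finsupp.add_apply,
    Nat.Prime.factorization_pow hp, Finsupp.single_eq_same,
    Nat.factorization_factorial hp (b := n + 1)
      (by
        have h1 : Nat.log p m ≤ m := Nat.log_le_self p m
        have h2 : m ≤ n := Nat.div_le_self n (p - 1)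
        omega)] at hle
  refine hle.trans (le_of_eq ?_)
  rw [Finset.range_eq_Ico, Finset.sum_eq_sum_Ico_succ_bot (Nat.succ_pos n)]
  congr 1
  · simp [hm]
  · apply Finset.sum_congr rfl
    intro i _
    rw [hm, Nat.div_div_eq_div_mul]

end Cfsg.Agent.S4488
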