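import Cfsg.Statements.S0995
import Cfsg.Agent.Lib.Helper80.ClassSize

set_option autoImplicit false
open Cfsg

namespace Cfsg.Agent.S0995

open Subgroup

theorem card_fib {α β : Type*} [Finite α] [Finite β] (f : α → β) (k : ℕ)
    (h : ∀ b, Nat.card {a // f a = b} = k) : Nat.card α = Nat.card β * k := by
  classical
  have := Fintype.ofFinite β
  rw [← Nat.card_congr (Equiv.sigmaFiberEquiv f), Nat.card_sigma]
  simp [h]

theorem centralizer_singleton_eq {G : Type*} [Group G] (g : G) :
    centralizer ({g} : Set G) = centralizer (zpowers g : Set G) := by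
  rw [zpowers_eq_closure, centralizer_closure]

theorem aux {G : Type*} [Group G] [Finite G] (p : ℕ) [Fact p.Prime] (z : G) (hz : orderOf z = p) (hC : Subgroup.centralizer ({z} : Set G) = Subgroup.zpowers z) : ∃ n t : ℕ, t = Nat.card {c : ConjClasses G // ∃ g : G, ConjClasses.mk g = c ∧ orderOf g = p} ∧ t ∣ p - 1 ∧ Nat.card (Sylow p G) = 1 + n * p ∧ Nat.card G * t = (p - 1) * p * (1 + n * p) := by
  classical
  have hp : p.Prime := Fact.out
  have hPc : Nat.card (zpowers z) = p := by rw [Nat.card_zpowers, hz]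
  have hz1 : z ≠ 1 := by
    intro h; rw [h, orderOf_one] at hz; exact hp.one_lt.ne hz
  -- a subgroup of order p is generated by any nontrivial element
  have hgen : ∀ (H : Subgroup G), Nat.card H = p → ∀ c ∈ H, c ≠ 1 → zpowers c = H := by
    intro H hH c hc hc1
    apply Subgroup.eq_of_le_of_card_ge (zpowers_le.mpr hc)
    rw [hH, Nat.card_zpowers]
    have h1 : orderOf c ∣ p := by rw [← hH]; exact Subgroup.orderOf_dvd_natCard H hc
    rcases (Nat.dvd_prime hp).mp h1 with h | h
    · exact absurd (orderOf_eq_one_iff.mp h) hc1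
    · exact h.ge
  obtain ⟨S, hS⟩ := (IsPGroup.of_card (n := 1) (by rw [hPc, pow_one]) :
    IsPGroup p (zpowers z)).exists_le_sylow
  have hzS : z ∈ S := hS (mem_zpowers z)
  have hSP : (S : Subgroup G) = zpowers z := by
    apply le_antisymm _ hS
    have : Nontrivial S := ⟨⟨z, hzS⟩, 1, by
      intro h; exact hz1 (congrArg Subtype.val h)⟩
    have := S.2.center_nontrivial
    obtain ⟨c, hc⟩ := exists_ne (1 : center S)
    have hc1 : ((c : S) : G) ≠ 1 := by
      intro h; apply hc; ext; exact h
    have hcz : ((c : S) : G) ∈ zpowers z := by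
      rw [← hC, mem_centralizer_singleton_iff]
      have := (mem_center_iff.mp c.2) ⟨z, hzS⟩
      exact (congrArg Subtype.val this).symm
    have h2 := hgen _ hPc _ hcz hc1
    have hzc : z ∈ zpowers ((c : S) : G) := h2 ▸ mem_zpowers z
    obtain ⟨k, hk⟩ := mem_zpowers_iff.mp hzc
    intro s hs
    rw [← hC, mem_centralizer_singleton_iff, ← hk]
    have h3 := (mem_center_iff.mp ((center S).zpow_mem c.2 k)) ⟨s, hs⟩
    have h4 := congrArg Subtype.val h3
    simpa using h4
  have hcardS : ∀ T : Sylow p G, Nat.card T = p := by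
    intro T
    rw [T.card_eq_multiplicity, ← S.card_eq_multiplicity]
    show Nat.card (S : Subgroup G) = p
    rw [hSP, hPc]
  -- every element of order p generates a Sylow subgroup
  have hsyl : ∀ g : G, orderOf g = p → ∃ T : Sylow p G, zpowers g = T := by
    intro g hg
    have hc : Nat.card (zpowers g) = p := by rw [Nat.card_zpowers, hg]
    obtain ⟨T, hT⟩ := (IsPGroup.of_card (n := 1) (by rw [hc, pow_one]) :
      IsPGroup p (zpowers g)).exists_le_sylow
    exact ⟨T, Subgroup.eq_of_le_of_card_ge hT (by rw [hc]; exact (hcardS T).le)⟩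
  have hne1 : ∀ g : G, orderOf g = p → g ≠ 1 := by
    intro g hg h; rw [h, orderOf_one] at hg; exact hp.one_lt.ne hg
  -- class sizes of elements of order p
  have hclass : ∀ g : G, orderOf g = p → Nat.card {x : G // IsConj g x} * p = Nat.card G := by
    intro g hg
    obtain ⟨T, hT⟩ := hsyl g hg
    obtain ⟨h, hh⟩ := MulAction.exists_smul_eq G T S
    have hgT : g ∈ T := by
      have : g ∈ (T : Subgroup G) := hT ▸ mem_zpowers g
      exact this
    have hg' : h * g * h⁻¹ ∈ zpowers z := by
      rw [← hSP, ← hh, Sylow.smul_def, Sylow.pointwise_smul_def]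
      exact ⟨g, hgT, rfl⟩
    have hord : orderOf (h * g * h⁻¹) = p := by
      rw [← hg]; exact (MulAut.conj h).orderOf_eq g
    have h2 := hgen _ hPc _ hg' (hne1 _ hord)
    have h3 : centralizer ({h * g * h⁻¹} : Set G) = zpowers z := by
      rw [centralizer_singleton_eq, h2, ← centralizer_singleton_eq, hC]
    have h4 := Lib.Helper80.card_conj_mul_card_centralizer (h * g * h⁻¹)
    rw [h3, hPc] at h4
    rw [← h4]
    congr 1
    apply Nat.card_congr
    apply Equiv.subtypeEquivRight
    intro x
    have hc : IsConj g (h * g * h⁻¹) := isConj_iff.mpr ⟨h, rfl⟩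
    exact ⟨fun hx => hc.symm.trans hx, fun hx => hc.trans hx⟩
  -- first count
  have hX1 : Nat.card {g : G // orderOf g = p} = Nat.card (Sylow p G) * (p - 1) := by
    apply card_fib (fun a : {g : G // orderOf g = p} => (hsyl a.1 a.2).choose)
    intro T
    have e1 : ∀ a : {g : G // orderOf g = p}, (hsyl a.1 a.2).choose = T ↔ (a : G) ∈ T := by
      intro a
      have hspec := (hsyl a.1 a.2).choose_spec
      constructor
      · intro h
        have : (a : G) ∈ ((hsyl a.1 a.2).choose : Subgroup G) := hspec ▸ mem_zpowers _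
        rw [h] at this
        exact this
      · intro h
        apply Sylow.ext
        rw [← hspec]
        exact hgen _ (hcardS T) _ h (hne1 _ a.2)
    rw [Nat.card_congr (Equiv.subtypeEquivRight e1),
      Nat.card_congr (Equiv.subtypeSubtypeEquivSubtypeInter (fun g : G => orderOf g = p)
        (fun g : G => g ∈ T))]
    have h1 : {g : G | orderOf g = p ∧ g ∈ T} = ((T : Subgroup G) : Set G) \ {1} := by
      ext g
      simp only [Set.mem_ofPred_eq, Set.mem_sdiff, SetLike.mem_coe, Set.mem_singleton_iff]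
      constructor
      · rintro ⟨h1, h2⟩
        exact ⟨h2, hne1 g h1⟩
      · rintro ⟨h1, h2⟩
        refine ⟨?_, h1⟩
        have h3 := hgen _ (hcardS T) g h1 h2
        rw [← Nat.card_zpowers, h3]
        exact hcardS T
    show Nat.card ↥{g : G | orderOf g = p ∧ g ∈ T} = _
    rw [h1, Nat.card_coe_set_eq, Set.ncard_sdiff_singleton_of_mem (one_mem _), ← Nat.card_coe_set_eq]
    exact congrArg (· - 1) (hcardS T)
  -- second count
  have hX2 : Nat.card {g : G // orderOf g = p} * p =
      Nat.card {c : ConjClasses G // ∃ g : G, ConjClasses.mk g = c ∧ orderOf g = p} *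
        Nat.card G := by
    have h0 : Nat.card {g : G // orderOf g = p} =
      Nat.card {c : ConjClasses G // ∃ g : G, ConjClasses.mk g = c ∧ orderOf g = p} *
        (Nat.card G / p) := by
      apply card_fib (fun a : {g : G // orderOf g = p} =>
        (⟨ConjClasses.mk a.1, a.1, rfl, a.2⟩ :
          {c : ConjClasses G // ∃ g : G, ConjClasses.mk g = c ∧ orderOf g = p}))
      rintro ⟨c, g0, rfl, hg0⟩
      have e1 : ∀ a : {g : G // orderOf g = p},
          (⟨ConjClasses.mk a.1, a.1, rfl, a.2⟩ :
          {c : ConjClasses G // ∃ g : G, ConjClasses.mk g = c ∧ orderOf g = p}) =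
            ⟨ConjClasses.mk g0, g0, rfl, hg0⟩ ↔ IsConj g0 (a : G) := by
        intro a
        rw [Subtype.mk.injEq, ConjClasses.mk_eq_mk_iff_isConj, isConj_comm]
      rw [Nat.card_congr (Equiv.subtypeEquivRight e1),
        Nat.card_congr (Equiv.subtypeSubtypeEquivSubtypeInter (fun g : G => orderOf g = p)
          (fun g : G => IsConj g0 g))]
      have e2 : ∀ g : G, (orderOf g = p ∧ IsConj g0 g) ↔ IsConj g0 g := by
        intro g
        refine ⟨fun h => h.2, fun h => ⟨?_, h⟩⟩
        obtain ⟨c, hc⟩ := isConj_iff.mp h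
        rw [← hc, ← hg0]
        exact (MulAut.conj c).orderOf_eq g0
      rw [Nat.card_congr (Equiv.subtypeEquivRight e2), ← hclass g0 hg0,
        Nat.mul_div_cancel _ hp.pos]
    have hdvd : p ∣ Nat.card G := ⟨_, (by rw [mul_comm]; exact (hclass z hz).symm)⟩
    rw [h0, mul_assoc, Nat.div_mul_cancel hdvd]
  have hmod := card_sylow_modEq_one p G
  have hpos : 0 < Nat.card (Sylow p G) := Nat.card_pos
  obtain ⟨n, hn⟩ := (Nat.modEq_iff_dvd' hpos).mp hmod.symm
  have hn' : Nat.card (Sylow p G) = 1 + n * p := by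
    rw [mul_comm n p, ← hn]; omega
  have hlast : Nat.card G *
      Nat.card {c : ConjClasses G // ∃ g : G, ConjClasses.mk g = c ∧ orderOf g = p} =
        (p - 1) * p * (1 + n * p) := by
    rw [mul_comm, ← hX2, hX1, hn']; ring
  refine ⟨n, _, rfl, ?_, hn', hlast⟩
  obtain ⟨m, hm⟩ : p ∣ Nat.card (normalizer ((S : Subgroup G) : Set G)) := by
    have := Subgroup.card_dvd_of_le (le_normalizer (H := (S : Subgroup G)))
    rwa [show Nat.card (S : Subgroup G) = p from hcardS S] at this
  have hidx : Nat.card (Sylow p G) = (normalizer ((S : Subgroup G) : Set G)).index :=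
    S.card_eq_index_normalizer
  have hmul := (normalizer ((S : Subgroup G) : Set G)).card_mul_index
  rw [← hidx, hm, hn'] at hmul
  rw [← hmul] at hlast
  refine ⟨m, ?_⟩
  have hpp : 0 < p * (1 + n * p) := Nat.mul_pos hp.pos (by omega)
  apply Nat.eq_of_mul_eq_mul_left hpp
  rw [mul_comm _ m]
  nlinarith [hlast]

theorem result {G : Type*} [Group G] [Finite G] (hperf : commutator G = ⊤) (p : ℕ) [Fact p.Prime] (z : G) (hz : orderOf z = p) (hC : Subgroup.centralizer ({z} : Set G) = Subgroup.zpowers z) : ∃ n t : ℕ, t = Nat.card {c : ConjClasses G // ∃ g : G, ConjClasses.mk g = c ∧ orderOf g = p} ∧ t ∣ p - 1 ∧ Nat.card (Sylow p G) = 1 + n * p ∧ Nat.card G * t = (p - 1) * p * (1 + n * p) := by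
  exact aux p z hz hC

end Cfsg.Agent.S0995
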