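import Cfsg.Statements.S0989
import Cfsg.Agent.S0995

set_option autoImplicit false
open Cfsg

namespace Cfsg.Agent.S0989

open Subgroup Equiv.Perm

theorem result {α : Type*} [Fintype α] [DecidableEq α] (p : ℕ) [Fact p.Prime] (hα : Fintype.card α = p ∨ Fintype.card α = p + 1) (P : Sylow p (Equiv.Perm α)) : Nat.card ↥(Subgroup.normalizer ((P : Subgroup (Equiv.Perm α)) : Set (Equiv.Perm α))) = p * (p - 1) := by
  classical
  have hp : p.Prime := Fact.out
  have hle : p ≤ Fintype.card α := by rcases hα with h | h <;> omega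
  have hlt : Fintype.card α < 2 * p := by
    have := hp.two_le
    rcases hα with h | h <;> omega
  have hdvd : p ∣ Nat.card (Equiv.Perm α) := by
    rw [Nat.card_eq_fintype_card, Fintype.card_perm]
    exact Nat.dvd_factorial hp.pos hle
  obtain ⟨z, hz⟩ := exists_prime_orderOf_dvd_card' p hdvd
  have hct : ∀ g : Equiv.Perm α, orderOf g = p → g.cycleType = {p} := by
    intro g hg
    have hc : g.IsCycle := isCycle_of_prime_order' (hg ▸ hp) (hg ▸ hlt)
    rw [hc.cycleType, ← hc.orderOf, hg]
  have hC : centralizer ({z} : Set (Equiv.Perm α)) = zpowers z := by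
    symm
    apply Subgroup.eq_of_le_of_card_ge
    · rw [zpowers_le, mem_centralizer_singleton_iff]
    · rw [nat_card_centralizer, hct z hz, Nat.card_zpowers, hz]
      have : (Fintype.card α - p).factorial = 1 := by
        rcases hα with h | h
        · rw [h]; simp
        · rw [h]; simp
      simp [this]
  obtain ⟨n, t, ht, -, hn, hG⟩ := S0995.aux p z hz hC
  have ht1 : t = 1 := by
    rw [ht, Nat.card_eq_one_iff_unique]
    refine ⟨⟨?_⟩, ⟨⟨ConjClasses.mk z, z, rfl, hz⟩⟩⟩
    rintro ⟨_, a, rfl, ha⟩ ⟨_, b, rfl, hb⟩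
    rw [Subtype.mk.injEq, ConjClasses.mk_eq_mk_iff_isConj, isConj_iff_cycleType_eq, hct a ha,
      hct b hb]
  have hidx : Nat.card (Sylow p (Equiv.Perm α)) =
      (normalizer ((P : Subgroup (Equiv.Perm α)) : Set (Equiv.Perm α))).index :=
    P.card_eq_index_normalizer
  have hmul := (normalizer ((P : Subgroup (Equiv.Perm α)) : Set (Equiv.Perm α))).card_mul_index
  rw [← hidx, hn] at hmul
  rw [ht1, mul_one, ← hmul] at hG
  have hpos : 0 < 1 + n * p := by omega
  have := Nat.eq_of_mul_eq_mul_right hpos hG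
  rw [this, mul_comm]

end Cfsg.Agent.S0989
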