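import Mathlib
import Cfsg.Agent.Lib.Helper4.SylowConj
import Cfsg.Agent.S0199
import Cfsg.Statements.S0200

set_option autoImplicit false
open Cfsg

namespace Cfsg.Agent.S0200

/-- An involution lying in no normal 2-subgroup of a finite group inverts a nontrivial element of odd order (a consequence of the Baer–Suzuki Theorem). -/
theorem result {G : Type*} [Group G] [Finite G] (t : G) (ht : orderOf t = 2) (hO : ∀ N : Subgroup G, N.Normal → IsPGroup 2 N → t ∉ N) : ∃ h : G, h ≠ 1 ∧ Odd (orderOf h) ∧ t * h * t⁻¹ = h⁻¹ := by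
  haveI : Fact (Nat.Prime 2) := ⟨Nat.prime_two⟩
  have ht2 := Lib.Helper4.sq_eq_one_of_orderOf_two ht
  have hX : IsPGroup 2 (Subgroup.zpowers t) :=
    IsPGroup.of_card (n := 1) (by rw [Nat.card_zpowers, ht, pow_one])
  have hex : ∃ g : G, ¬ IsPGroup 2
      ↥(Subgroup.zpowers t ⊔ (Subgroup.zpowers t).map (MulAut.conj g).toMonoidHom) := by
    by_contra hall
    push Not at hall
    obtain ⟨N, hN, hN2, hle⟩ := Cfsg.Agent.S0199.result (p := 2) (Subgroup.zpowers t) hX hall
    exact hO N hN hN2 (hle (Subgroup.mem_zpowers t))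
  obtain ⟨g, hg⟩ := hex
  set v := g * t * g⁻¹ with hv
  have hvo : orderOf v = 2 := by rw [hv, Lib.Helper4.orderOf_conj_eq, ht]
  have hv2 := Lib.Helper4.sq_eq_one_of_orderOf_two hvo
  have hsup : Subgroup.zpowers t ⊔ (Subgroup.zpowers t).map (MulAut.conj g).toMonoidHom =
      Subgroup.closure ({t, v} : Set G) := by
    rw [MonoidHom.map_zpowers, Subgroup.zpowers_eq_closure, Subgroup.zpowers_eq_closure,
      ← Subgroup.closure_union]
    rfl
  rw [hsup] at hg
  obtain ⟨k, m, hm, hkm⟩ := Nat.exists_eq_two_pow_mul_odd (orderOf_pos (t * v)).ne'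
  have hm1 : m ≠ 1 := by
    rintro rfl
    rw [mul_one] at hkm
    exact hg (Lib.Helper4.isPGroup_closure_pair ht hvo hkm)
  have hord : orderOf ((t * v) ^ (2 ^ k)) = m := by
    rw [orderOf_pow_of_dvd (by positivity) ⟨m, hkm⟩, hkm, Nat.mul_div_cancel_left _ (by positivity)]
  refine ⟨(t * v) ^ (2 ^ k), ?_, ?_, ?_⟩
  · intro h
    rw [h, orderOf_one] at hord
    exact hm1 hord.symm
  · rw [hord]; exact hm
  · rw [← conj_pow, Lib.Helper4.invol_inverts_mul ht2 hv2, inv_pow]

end Cfsg.Agent.S0200
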