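import Cfsg.Statements.S1691

set_option autoImplicit false
open Cfsg

namespace Cfsg.Agent.S1691

open Cfsg.Spor Cfsg.Spor.Fi24

abbrev rels : Set (FreeGroup Gen) := coxRelators edges ∪ {r | r ∈ extra}

/-- the sign map on generators -/
def sgn : Gen → Multiplicative (ZMod 2) := fun _ => Multiplicative.ofAdd 1

lemma sq_one (x : Multiplicative (ZMod 2)) : x * x = 1 := by
  revert x; decide

lemma pow_even_one (x : Multiplicative (ZMod 2)) (n : ℕ) (h : Even n) : x ^ n = 1 := by
  obtain ⟨k, rfl⟩ := h
  rw [pow_add, ← mul_pow, sq_one, one_pow]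

lemma sgn_rels : ∀ r ∈ rels, FreeGroup.lift sgn r = 1 := by
  intro r hr
  rcases hr with hr | hr
  · obtain ⟨x, _, y, _, rfl⟩ := hr
    rw [map_pow, map_mul, FreeGroup.lift_apply_of, FreeGroup.lift_apply_of]
    simp only [sgn]
    rw [sq_one, one_pow]
  · simp only [extra, List.mem_cons, List.mem_nil_iff, or_false, Set.mem_setOf_eq] at hr
    rcases hr with rfl | rfl
    · simp only [map_mul, map_inv, map_pow, FreeGroup.lift_apply_of, sgn]
      decide
    · simp only [map_mul, map_inv, map_pow, FreeGroup.lift_apply_of, sgn]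
      decide

def sgnHom : Fi24 →* Multiplicative (ZMod 2) := PresentedGroup.toGroup sgn_rels

lemma node_mem (x : Gen) : x ∈ coxNodes edges := by
  cases x <;> decide

lemma rel_pair (x y : Gen) :
    ((PresentedGroup.of x : Fi24) * PresentedGroup.of y) ^ coxLabel edges x y = 1 := by
  have : (FreeGroup.of x * FreeGroup.of y) ^ coxLabel edges x y ∈ rels :=
    Or.inl ⟨x, node_mem x, y, node_mem y, rfl⟩
  have h := PresentedGroup.one_of_mem this
  rwa [map_pow, map_mul] at h

abbrev ab : Fi24 →* Abelianization Fi24 := Abelianization.of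

lemma ab_sq (x : Gen) : ab (PresentedGroup.of x) * ab (PresentedGroup.of x) = 1 := by
  have h := rel_pair x x
  have h1 : coxLabel edges x x = 1 := by simp [coxLabel]
  rw [h1, pow_one] at h
  rw [← map_mul, h, map_one]

lemma ab_eq_of_three (x y : Gen) (h3 : coxLabel edges x y = 3) :
    ab (PresentedGroup.of x) = ab (PresentedGroup.of y) := by
  have h := rel_pair x y
  rw [h3] at h
  have h' := congrArg ab h
  rw [map_pow, map_mul, map_one] at h'
  have hx := ab_sq x
  have hy := ab_sq y
  set X := ab (PresentedGroup.of x)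
  set Y := ab (PresentedGroup.of y)
  have e1 : (X * Y) ^ 3 = (X * X) * (Y * Y) * (X * Y) := by
    rw [pow_succ, pow_two]
    simp only [mul_assoc, mul_comm, mul_left_comm]
  rw [e1, hx, hy, one_mul, one_mul] at h'
  calc X = X * (Y * Y) := by rw [hy, mul_one]
    _ = (X * Y) * Y := by rw [mul_assoc]
    _ = Y := by rw [h', one_mul]

lemma ab_eq_d (x : Gen) : ab (PresentedGroup.of x) = ab (PresentedGroup.of Gen.d) := by
  have lk := ab_eq_of_three .l .k (by decide)
  have ka := ab_eq_of_three .k .a (by decide)
  have hab := ab_eq_of_three .a .b (by decide)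
  have bc := ab_eq_of_three .b .c (by decide)
  have cd := ab_eq_of_three .c .d (by decide)
  have de := ab_eq_of_three .d .e (by decide)
  have dh := ab_eq_of_three .d .h (by decide)
  have ef := ab_eq_of_three .e .f (by decide)
  have fg := ab_eq_of_three .f .g (by decide)
  have gj := ab_eq_of_three .g .j (by decide)
  have hi := ab_eq_of_three .h .i (by decide)
  cases x
  · rw [lk, ka, hab, bc, cd]
  · rw [ka, hab, bc, cd]
  · rw [hab, bc, cd]
  · rw [bc, cd]
  · rw [cd]
  · rfl
  · rw [de]
  · rw [de, ef]
  · rw [de, ef, fg]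
  · rw [de, ef, fg, gj]
  · rw [dh]
  · rw [dh, hi]

lemma ab_cases (g : Fi24) : ab g = 1 ∨ ab g = ab (PresentedGroup.of Gen.d) := by
  let D := ab (PresentedGroup.of Gen.d)
  have hD : D * D = 1 := ab_sq .d
  let H : Subgroup Fi24 :=
    { carrier := {g | ab g = 1 ∨ ab g = D}
      one_mem' := Or.inl (map_one _)
      mul_mem' := by
        intro a b ha hb
        simp only [Set.mem_setOf_eq] at *
        rw [map_mul]
        rcases ha with ha | ha <;> rcases hb with hb | hb <;> rw [ha, hb]
        · left; rw [one_mul]
        · right; rw [one_mul]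
        · right; rw [mul_one]
        · left; exact hD
      inv_mem' := by
        intro a ha
        simp only [Set.mem_setOf_eq] at *
        rw [map_inv]
        rcases ha with ha | ha <;> rw [ha]
        · left; rw [inv_one]
        · right; exact inv_eq_of_mul_eq_one_left hD }
  exact PresentedGroup.generated_by _ H (fun j => Or.inr (ab_eq_d j)) g

lemma ker_eq : sgnHom.ker = commutator Fi24 := by
  apply le_antisymm
  · intro g hg
    rw [MonoidHom.mem_ker] at hg
    rcases ab_cases g with h | h
    · rwa [← Abelianization.ker_of, MonoidHom.mem_ker]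
    · exfalso
      have h2 : Abelianization.lift sgnHom (ab g) = Abelianization.lift sgnHom (ab (PresentedGroup.of Gen.d)) := by
        rw [h]
      rw [Abelianization.lift_apply_of, Abelianization.lift_apply_of, hg] at h2
      have h3 : sgnHom (PresentedGroup.of Gen.d) = Multiplicative.ofAdd 1 :=
        PresentedGroup.toGroup.of sgn_rels
      rw [h3] at h2
      exact absurd h2 (by decide)
  · exact Abelianization.commutator_subset_ker sgnHom

lemma sgn_surj : Function.Surjective sgnHom := by
  intro y
  have h3 : sgnHom (PresentedGroup.of Gen.d) = Multiplicative.ofAdd 1 :=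
    PresentedGroup.toGroup.of sgn_rels
  have : y = 1 ∨ y = Multiplicative.ofAdd 1 := by revert y; decide
  rcases this with rfl | rfl
  · exact ⟨1, map_one _⟩
  · exact ⟨_, h3⟩

/-- The commutator subgroup of the presented group Fi₂₄ has index 2 (the presented group is Fi₂₄′:2 with Fi₂₄′ its derived subgroup). -/
theorem result : (commutator Cfsg.Spor.Fi24).index = 2 := by
  rw [← ker_eq, Subgroup.index_ker, MonoidHom.range_eq_top.mpr sgn_surj]
  simp [Nat.card_eq_fintype_card]

end Cfsg.Agent.S1691
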