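import Cfsg.Statements.S3153
import Cfsg.Agent.S0058
import Cfsg.Agent.Lib.Helper9.KleinFour
import Cfsg.Agent.Lib.Helper4.KleinSylow
import Cfsg.Agent.Lib.Helper1.Nilpotent
import Cfsg.Agent.Lib.Helper21.Rank
import Cfsg.Agent.Lib.Helper21.Quasisimple
import Cfsg.Agent.Lib.Helper21.Layer
import Cfsg.Agent.Lib.Helper23.PComp4
import Cfsg.Agent.Lib.Lead.Cores

set_option autoImplicit false
open Cfsg

namespace Cfsg.Agent.S3153

open Subgroup
open scoped commutatorElement

/-- In a group of 2-rank at most one, an involution-or-one commuting with the involution `t` is `1` or `t`. -/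
theorem eq_of_rank_one {X : Type*} [Group X] (K : Subgroup X) (hr : PRankLE 2 1 K) {t u : X}
    (ht : t ∈ K) (hu : u ∈ K) (ht1 : t ≠ 1) (ht2 : t ^ 2 = 1) (hu2 : u ^ 2 = 1) (hc : t * u = u * t) :
    u = 1 ∨ u = t := by
  by_contra h
  push Not at h
  have hV := Cfsg.Agent.Lib.Helper9.isKleinFour_closure_pair ht1 h.1 (Ne.symm h.2) ht2 hu2 hc
  have h1 := (Cfsg.Agent.Lib.Helper21.pRankLE_subgroup_iff 2 1 K).1 hr (closure {t, u})
    ((closure_le K).2 (by rintro x (rfl | rfl) <;> assumption)) IsKleinFour.isMulCommutative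
    (fun a ha => Cfsg.Agent.Lib.Helper9.IsKleinFour.sq_eq_one hV ha)
  rw [IsKleinFour.card_four] at h1
  omega

/-- A 2-group `T` normalising `K` of 2-rank at most one centralises every involution of `T ∩ K`. -/
theorem central_of_rank_one {X : Type*} [Group X] [Finite X] (K T : Subgroup X) (hr : PRankLE 2 1 K)
    (hT : IsPGroup 2 T) (hTK : T ≤ normalizer (K : Set X)) {t : X} (htK : t ∈ K) (htT : t ∈ T)
    (ht : orderOf t = 2) : ∀ x ∈ T, x * t = t * x := by
  have : Fact (Nat.Prime 2) := ⟨Nat.prime_two⟩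
  have ht1 : t ≠ 1 := by
    rintro rfl
    rw [orderOf_one] at ht
    omega
  have ht2 : t ^ 2 = 1 := by rw [← ht]; exact pow_orderOf_eq_one t
  have hnil : Group.IsNilpotent T := hT.isNilpotent
  have hn : (K.subgroupOf T).Normal := normal_subgroupOf_of_le_normalizer hTK
  have hne : K.subgroupOf T ≠ ⊥ := by
    intro h
    have h1 : (⟨t, htT⟩ : T) ∈ K.subgroupOf T := htK
    rw [h, mem_bot] at h1
    exact ht1 (congrArg Subtype.val h1)
  have h1 := Cfsg.Agent.Lib.Helper1.normal_inf_center_ne_bot hne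
  have h2 : IsPGroup 2 ↥(K.subgroupOf T ⊓ center T) := hT.to_subgroup _
  have h3 : 2 ∣ Nat.card ↥(K.subgroupOf T ⊓ center T) := by
    obtain ⟨n, hn⟩ := IsPGroup.iff_card.1 h2
    rw [hn]
    cases n with
    | zero =>
      exfalso
      rw [pow_zero] at hn
      exact h1 ((Subgroup.card_eq_one).1 hn)
    | succ n => exact dvd_pow_self 2 (Nat.succ_ne_zero n)
  obtain ⟨z, hz⟩ := exists_prime_orderOf_dvd_card' 2 h3
  have hzK : ((z : T) : X) ∈ K := (mem_inf.1 z.2).1
  have hzc : (z : T) ∈ center T := (mem_inf.1 z.2).2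
  have hz2 : orderOf ((z : T) : X) = 2 := by rwa [Subgroup.orderOf_coe, Subgroup.orderOf_coe]
  have hz2' : ((z : T) : X) ^ 2 = 1 := by rw [← hz2]; exact pow_orderOf_eq_one _
  have hcomm : t * ((z : T) : X) = ((z : T) : X) * t := by
    have := mem_center_iff.1 hzc ⟨t, htT⟩
    exact congrArg Subtype.val this
  rcases eq_of_rank_one K hr htK hzK ht1 ht2 hz2' hcomm with h | h
  · rw [h, orderOf_one] at hz2
    omega
  · intro x hx
    rw [← h]
    have := mem_center_iff.1 hzc ⟨x, hx⟩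
    exact congrArg Subtype.val this

/-- A 2-subgroup `T` which is maximal among the 2-subgroups of `N` contains each `g ∈ N` normalising it with `g ^ 2 ∈ T`. -/
theorem mem_of_max {X : Type*} [Group X] [Finite X] (N T : Subgroup X) (hT : IsPGroup 2 T)
    (hTN : T ≤ N)
    (hmax : ∀ Q : Subgroup X, Q ≤ N → IsPGroup 2 Q → T ≤ Q → Q = T)
    (g : X) (hgN : ∀ s ∈ T, g * s * g⁻¹ ∈ T) (hg2 : g ^ 2 ∈ T) (hg : g ∈ N) : g ∈ T := by
  have : Fact (Nat.Prime 2) := ⟨Nat.prime_two⟩
  have hgn : g ∈ normalizer (T : Set X) := by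
    rw [mem_normalizer_iff]
    intro h
    refine ⟨hgN h, fun hh => ?_⟩
    have h1 := hgN _ hh
    have h2 : h = (g ^ 2)⁻¹ * (g * (g * h * g⁻¹) * g⁻¹) * g ^ 2 := by group
    rw [h2]
    exact mul_mem (mul_mem (inv_mem hg2) h1) hg2
  have hz : IsPGroup 2 (zpowers g) := by
    obtain ⟨k, hk⟩ := hT ⟨g ^ 2, hg2⟩
    have hk' : g ^ (2 ^ (k + 1)) = 1 := by
      have h1 : (g ^ 2) ^ (2 ^ k) = 1 := congrArg Subtype.val hk
      rw [pow_succ', pow_mul]
      exact h1
    rintro ⟨x, m, rfl⟩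
    refine ⟨k + 1, Subtype.ext ?_⟩
    change (g ^ m) ^ (2 ^ (k + 1)) = 1
    rw [← zpow_natCast, ← zpow_mul, mul_comm, zpow_mul, zpow_natCast, hk', one_zpow]
  have hQ : IsPGroup 2 (zpowers g ⊔ T : Subgroup X) := hz.to_sup_of_normal_right' hT (zpowers_le.2 hgn)
  have h3 := hmax _ (sup_le (zpowers_le.2 hg) hTN) hQ le_sup_right
  rw [← h3]
  exact (le_sup_left : zpowers g ≤ zpowers g ⊔ T) (mem_zpowers g)

/-- Splitting an involution of `P C(P)` when `Z(P)` has odd order. -/
theorem split_involution {X : Type*} [Group X] [Finite X] (P : Subgroup X)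
    (hZ : Odd (Nat.card ↥(Subgroup.center ↥P))) (s : X) (hs : s ∈ P ⊔ centralizer (P : Set X))
    (hs2 : s ^ 2 = 1) :
    ∃ p ∈ P, ∃ k ∈ centralizer (P : Set X), s = p * k ∧ p ^ 2 = 1 ∧ k ^ 2 = 1 := by
  obtain ⟨p, hp, k, hk, rfl⟩ := Cfsg.Agent.Lib.Helper21.mem_sup_of_commute
    (fun a ha c hc => mem_centralizer_iff.1 hc a ha) hs
  have hcomm0 : Commute p k := mem_centralizer_iff.1 hk p hp
  have h1 : p ^ 2 * k ^ 2 = 1 := by rw [← hcomm0.mul_pow, hs2]
  have hpk : p ^ 2 = (k ^ 2)⁻¹ := eq_inv_of_mul_eq_one_left h1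
  have hp2K : p ^ 2 ∈ centralizer (P : Set X) := by
    rw [hpk]
    exact inv_mem (pow_mem hk 2)
  obtain ⟨n, hn⟩ := hZ
  have hzc : (⟨p ^ 2, pow_mem hp 2⟩ : P) ∈ center P := by
    rw [mem_center_iff]
    intro y
    apply Subtype.ext
    exact mem_centralizer_iff.1 hp2K y y.2
  have hz : (p ^ 2) ^ (2 * n + 1) = 1 := by
    have h2 := pow_card_eq_one' (G := center P) (x := ⟨⟨p ^ 2, pow_mem hp 2⟩, hzc⟩)
    rw [hn] at h2
    exact congrArg (fun x : center P => ((x : P) : X)) h2
  have hq : p * (p ^ 2) ^ n ∈ P := mul_mem hp (pow_mem (pow_mem hp 2) n)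
  have hk' : ((p ^ 2) ^ n)⁻¹ * k ∈ centralizer (P : Set X) := mul_mem (inv_mem (pow_mem hp2K n)) hk
  have hq2 : (p * (p ^ 2) ^ n) ^ 2 = 1 := by
    rw [← hz, ← pow_mul, ← pow_succ', ← pow_mul, ← pow_mul]
    congr 1
    ring
  have hqk : p * (p ^ 2) ^ n * (((p ^ 2) ^ n)⁻¹ * k) = p * k := by group
  refine ⟨_, hq, _, hk', hqk.symm, hq2, ?_⟩
  have hcomm : Commute (p * (p ^ 2) ^ n) (((p ^ 2) ^ n)⁻¹ * k) := mem_centralizer_iff.1 hk' _ hq
  have h3 := hcomm.mul_pow 2
  rw [hqk, hs2, hq2, one_mul] at h3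
  exact h3.symm

theorem part1 {X : Type*} [Group X] [Finite X] (P : Subgroup X) (hP : Cfsg.IsStandardSubgroup P)
    (hr : Cfsg.PRankLE 2 1 ↥(Subgroup.centralizer (P : Set X))) (hZ : Odd (Nat.card ↥(Subgroup.center ↥P)))
    (T : Subgroup X) (hTN : T ≤ normalizer (P : Set X)) (hT2 : IsPGroup 2 T)
    (hTmax : ∀ Q : Subgroup X, Q ≤ normalizer (P : Set X) → IsPGroup 2 Q → T ≤ Q → Q = T)
    (t : X) (ht : orderOf t = 2) (htS : t ∈ T) (htP : t ∈ centralizer (P : Set X))
    (g : X) (hgN : ∀ s ∈ T, g * s * g⁻¹ ∈ T) (hgS : g ∉ T) (hg2 : g ^ 2 ∈ T)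
    (hgt : g * t * g⁻¹ ∈ P ⊔ centralizer (P : Set X)) :
    ⁅P, Cfsg.oddCore X⁆ = ⊥ ∧ ¬ P ≤ Cfsg.oddCore X := by
  obtain ⟨hq, ⟨hKeven, hKtight⟩, -, hNN⟩ := hP
  obtain ⟨hPP, hPbot, hPn⟩ := Cfsg.Agent.Lib.Helper31.isQuasisimple_subgroup_iff.1 hq
  have hWodd : (Nat.card (oddCore X)).Coprime 2 := Cfsg.Agent.Lib.Lead.card_pPrimeCore_coprime 2
  have hWn : (oddCore X).Normal := inferInstance
  generalize oddCore X = W at hWodd hWn ⊢
  have ht1 : t ≠ 1 := by
    rintro rfl
    rw [orderOf_one] at ht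
    omega
  have ht2 : t ^ 2 = 1 := by rw [← ht]; exact pow_orderOf_eq_one t
  -- the centraliser of `t` normalises `P`
  have hCt : ∀ x, x * t = t * x → x ∈ normalizer (P : Set X) := by
    intro x hx
    rw [hNN]
    by_contra hxn
    have hodd := hKtight x hxn
    have hmem : t ∈ centralizer (P : Set X) ⊓ (centralizer (P : Set X)).map (MulAut.conj x).toMonoidHom := by
      refine mem_inf.2 ⟨htP, ⟨t, htP, ?_⟩⟩
      simp [hx]
    have h2 : 2 ∣ Nat.card ↥(centralizer (P : Set X) ⊓ (centralizer (P : Set X)).map (MulAut.conj x).toMonoidHom) := by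
      have h3 := orderOf_dvd_natCard (⟨t, hmem⟩ : ↥(centralizer (P : Set X) ⊓ (centralizer (P : Set X)).map (MulAut.conj x).toMonoidHom))
      rwa [Subgroup.orderOf_mk, ht] at h3
    exact (Nat.not_even_iff_odd.2 hodd) (even_iff_two_dvd.2 h2)
  have hgP : g ∉ normalizer (P : Set X) := fun h => hgS (mem_of_max _ T hT2 hTN hTmax g hgN hg2 h)
  have hrank : ∀ u ∈ centralizer (P : Set X), u ^ 2 = 1 → t * u = u * t → u = 1 ∨ u = t :=
    fun u hu hu2 hc => eq_of_rank_one _ hr htP hu ht1 ht2 hu2 hc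
  have htZ : ∀ x ∈ T, x * t = t * x := central_of_rank_one _ T hr hT2 (hNN ▸ hTN) htP htS ht
  -- the conjugate involution `s`
  have hsT : g * t * g⁻¹ ∈ T := hgN t htS
  have hs2 : (g * t * g⁻¹) ^ 2 = 1 := by rw [conj_pow, ht2]; group
  have hs1 : g * t * g⁻¹ ≠ 1 := by
    intro h
    apply ht1
    have : t = g⁻¹ * (g * t * g⁻¹) * g := by group
    rw [this, h]
    group
  have hst : g * t * g⁻¹ ≠ t := by
    intro h
    apply hgP
    apply hCt
    rw [mul_inv_eq_iff_eq_mul] at h
    exact h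
  have hcomm : g * t * g⁻¹ * t = t * (g * t * g⁻¹) := htZ _ hsT
  have hgs : g * (g * t * g⁻¹) * g⁻¹ = t := by
    have h1 := htZ _ hg2
    have h2 : g * (g * t * g⁻¹) * g⁻¹ = g ^ 2 * t * (g ^ 2)⁻¹ := by
      rw [sq]
      group
    rw [h2, h1]
    group
  have hgs' : g⁻¹ * (g * t * g⁻¹) * g = t := by group
  generalize g * t * g⁻¹ = s at *
  obtain ⟨p, hp, k, hk, hpk, hp2, hk2⟩ := split_involution P hZ s hgt hs2
  have htp : t * p = p * t := (mem_centralizer_iff.1 htP p hp).symm
  have hkp : p * k = k * p := mem_centralizer_iff.1 hk p hp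
  have hkt : k = 1 ∨ k = t := by
    apply hrank k hk hk2
    have hk' : k = p⁻¹ * s := by rw [hpk]; group
    have htp' : t * p⁻¹ = p⁻¹ * t := by
      rw [eq_inv_mul_iff_mul_eq, ← mul_assoc, ← htp, mul_assoc, mul_inv_cancel, mul_one]
    rw [hk', ← mul_assoc, htp', mul_assoc, ← hcomm, mul_assoc]
  have hpK : p ∉ centralizer (P : Set X) := by
    intro h
    have hsK : s ∈ centralizer (P : Set X) := hpk ▸ mul_mem h hk
    rcases hrank s hsK hs2 hcomm.symm with h1 | h1
    · exact hs1 h1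
    · exact hst h1
  have hp1 : p ≠ 1 := fun h => hpK (h ▸ one_mem _)
  have hPW : ¬ P ≤ W := by
    intro h
    have h1 : orderOf p = 2 := orderOf_eq_prime hp2 hp1
    have h2 := orderOf_dvd_natCard (⟨p, h hp⟩ : W)
    rw [Subgroup.orderOf_mk, h1] at h2
    have h3 := Nat.Coprime.eq_one_of_dvd hWodd.symm h2
    omega
  refine ⟨?_, hPW⟩
  have hWP : W ⊓ P ≤ centralizer (P : Set X) := by
    have hnorm : P ≤ normalizer ((W ⊓ P : Subgroup X) : Set X) := by
      rw [le_normalizer_iff]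
      intro x hx y hy
      exact mem_inf.2 ⟨hWn.conj_mem y (mem_inf.1 hy).1 x,
        mul_mem (mul_mem hx (mem_inf.1 hy).2) (inv_mem hx)⟩
    rcases hPn (W ⊓ P) inf_le_right hnorm with h | h
    · exact absurd (h ▸ inf_le_left) hPW
    · exact h
  have hD : ∀ D : Subgroup X, D ≤ W → D ≤ normalizer (P : Set X) → D ≤ centralizer (P : Set X) := by
    intro D hDW hDN
    have h1 : ⁅P, D⁆ = ⊥ := by
      apply Cfsg.Agent.Lib.Helper21.commutator_eq_bot_of_perfect P D hPP
      rw [commutator_eq_bot_iff_le_centralizer]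
      refine le_trans (le_inf ?_ ?_) hWP
      · exact (commutator_mono hDW le_rfl).trans (commutator_le_left W P)
      · exact le_normalizer_iff_commutator_le_right.1 hDN
    rw [commutator_comm, commutator_eq_bot_iff_le_centralizer] at h1
    exact h1
  have hDt : W ⊓ centralizer {t} ≤ centralizer (P : Set X) := by
    apply hD _ inf_le_left
    intro x hx
    apply hCt
    exact mem_centralizer_singleton_iff.1 (mem_inf.1 hx).2
  have h1 : W ⊓ centralizer {t} ≤ centralizer {s} := by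
    intro d hd
    rw [mem_centralizer_singleton_iff]
    have hdp : p * d = d * p := mem_centralizer_iff.1 (hDt hd) p hp
    have hdt : d * t = t * d := mem_centralizer_singleton_iff.1 (mem_inf.1 hd).2
    have hdk : d * k = k * d := by
      rcases hkt with rfl | rfl
      · simp
      · exact hdt
    rw [hpk, ← mul_assoc, ← hdp, mul_assoc, hdk, mul_assoc]
  have h2 : W ⊓ centralizer {s} ≤ centralizer {t} := by
    intro d hd
    have hds : d * s = s * d := mem_centralizer_singleton_iff.1 (mem_inf.1 hd).2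
    have hd' : g * d * g⁻¹ ∈ W ⊓ centralizer {t} := by
      refine mem_inf.2 ⟨hWn.conj_mem d (mem_inf.1 hd).1 g, ?_⟩
      rw [mem_centralizer_singleton_iff, ← hgs]
      calc g * d * g⁻¹ * (g * s * g⁻¹) = g * (d * s) * g⁻¹ := by group
        _ = g * (s * d) * g⁻¹ := by rw [hds]
        _ = g * s * g⁻¹ * (g * d * g⁻¹) := by group
    have h3 := mem_centralizer_singleton_iff.1 (h1 hd')
    rw [mem_centralizer_singleton_iff, ← hgs']
    calc d * (g⁻¹ * s * g) = g⁻¹ * (g * d * g⁻¹ * s) * g := by group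
      _ = g⁻¹ * (s * (g * d * g⁻¹)) * g := by rw [h3]
      _ = g⁻¹ * s * g * d := by group
  have hV : IsKleinFour (closure ({t, s} : Set X)) :=
    Cfsg.Agent.Lib.Helper9.isKleinFour_closure_pair ht1 hs1 hst.symm ht2 hs2 hcomm.symm
  have hVc : IsMulCommutative (closure ({t, s} : Set X)) := IsKleinFour.isMulCommutative
  have hVn : ¬ IsCyclic (closure ({t, s} : Set X)) := IsKleinFour.not_isCyclic
  have hVW : closure ({t, s} : Set X) ≤ normalizer (W : Set X) := by
    rw [normalizer_eq_top]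
    exact le_top
  have hcop : (Nat.card (closure ({t, s} : Set X))).Coprime (Nat.card W) := by
    rw [IsKleinFour.card_four]
    exact (Nat.Coprime.pow_right 2 hWodd).symm
  have hgen := Cfsg.Agent.S0058.result _ W hVn hVW hcop
  have h3 : W ≤ centralizer {t * s} := by
    conv_lhs => rw [← hgen]
    refine iSup₂_le fun a ha => ?_
    have hts : ∀ d, d * t = t * d → d * s = s * d → d * (t * s) = t * s * d := by
      intro d e1 e2
      rw [← mul_assoc, e1, mul_assoc, e2, mul_assoc]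
    by_cases hat : a = t
    · subst hat
      intro d hd
      rw [mem_centralizer_singleton_iff]
      exact hts d (mem_centralizer_singleton_iff.1 (mem_inf.1 hd).2)
        (mem_centralizer_singleton_iff.1 (h1 hd))
    by_cases has : a = s
    · subst has
      intro d hd
      rw [mem_centralizer_singleton_iff]
      exact hts d (mem_centralizer_singleton_iff.1 (h2 hd))
        (mem_centralizer_singleton_iff.1 (mem_inf.1 hd).2)
    have h4 := Cfsg.Agent.Lib.Helper4.klein_third hV (subset_closure (by simp))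
      (subset_closure (by simp)) ha.1 ht1 hs1 hst.symm ha.2 hat has
    rw [h4]
    exact inf_le_right
  have hc : t * s ∈ centralizer (W : Set X) := by
    rw [mem_centralizer_iff]
    intro w hw
    exact mem_centralizer_singleton_iff.1 (h3 hw)
  obtain ⟨c, hcK, hcp⟩ : ∃ c ∈ centralizer (P : Set X), t * s = c * p := by
    refine ⟨t * k, mul_mem htP hk, ?_⟩
    rw [hpk, mul_assoc, ← hkp]
  have hCWn : (centralizer (W : Set X)).Normal := normal_centralizer
  have hM : P ⊓ centralizer (W : Set X) = P ∨ P ⊓ centralizer (W : Set X) ≤ centralizer (P : Set X) := by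
    apply hPn _ inf_le_left
    rw [le_normalizer_iff]
    intro x hx y hy
    exact mem_inf.2 ⟨mul_mem (mul_mem hx (mem_inf.1 hy).1) (inv_mem hx),
      hCWn.conj_mem y (mem_inf.1 hy).2 x⟩
  rcases hM with hM | hM
  · rw [commutator_eq_bot_iff_le_centralizer]
    exact hM ▸ inf_le_right
  · exfalso
    apply hpK
    have h4 : ⁅zpowers p, P⁆ ≤ P ⊓ centralizer (W : Set X) := by
      rw [commutator_le]
      intro a ha x hx
      rcases Cfsg.Agent.Lib.Helper9.eq_one_or_eq_of_mem_zpowers hp2 ha with rfl | rfl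
      · simp
      · refine mem_inf.2 ⟨?_, ?_⟩
        · rw [commutatorElement_def]
          exact mul_mem (mul_mem (mul_mem hp hx) (inv_mem hp)) (inv_mem hx)
        · have hy : (a * x * a⁻¹) * c = c * (a * x * a⁻¹) :=
            mem_centralizer_iff.1 hcK _ (mul_mem (mul_mem hp hx) (inv_mem hp))
          have h5 : ⁅a, x⁆ = (c * a) * (x * (c * a)⁻¹ * x⁻¹) := by
            calc ⁅a, x⁆ = a * x * a⁻¹ * x⁻¹ := rfl
              _ = (a * x * a⁻¹ * c) * c⁻¹ * x⁻¹ := by group
              _ = c * (a * x * a⁻¹) * c⁻¹ * x⁻¹ := by rw [hy]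
              _ = (c * a) * (x * (c * a)⁻¹ * x⁻¹) := by group
          rw [h5, ← hcp]
          exact mul_mem hc (hCWn.conj_mem _ (inv_mem hc) x)
    have h5 : ⁅P, zpowers p⁆ = ⊥ := by
      apply Cfsg.Agent.Lib.Helper21.commutator_eq_bot_of_perfect P _ hPP
      rw [commutator_eq_bot_iff_le_centralizer]
      exact h4.trans hM
    rw [commutator_comm, commutator_eq_bot_iff_le_centralizer] at h5
    exact h5 (mem_zpowers p)

/-- Let X be a finite group and P a standard subgroup of X whose centralizer has 2-rank at most 1 and whose centre has odd order. Let S be a Sylow 2-subgroup of N_X(P) and t an involution of S centralizing P. Suppose some element g of X normalizes S, does not lie in S, has its square in S, and conjugates t into P·C_X(P). Then P commutes elementwise with the largest normal odd-order subgroup O(X) of X; consequently every t-invariant 2-component of X containing P is quasisimple. -/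
theorem result {X : Type*} [Group X] [Finite X] (P : Subgroup X) (hP : Cfsg.IsStandardSubgroup P)
    (hr : Cfsg.PRankLE 2 1 ↥(Subgroup.centralizer (P : Set X))) (hZ : Odd (Nat.card ↥(Subgroup.center ↥P)))
    (S : Sylow 2 ↥(Subgroup.normalizer (P : Set X))) (t : X) (ht : orderOf t = 2) (htS : t ∈ (S : Subgroup ↥(Subgroup.normalizer (P : Set X))).map (Subgroup.normalizer (P : Set X)).subtype)
    (htP : t ∈ Subgroup.centralizer (P : Set X))
    (g : X) (hgN : ∀ s ∈ (S : Subgroup ↥(Subgroup.normalizer (P : Set X))).map (Subgroup.normalizer (P : Set X)).subtype, g * s * g⁻¹ ∈ (S : Subgroup ↥(Subgroup.normalizer (P : Set X))).map (Subgroup.normalizer (P : Set X)).subtype)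
    (hgS : g ∉ (S : Subgroup ↥(Subgroup.normalizer (P : Set X))).map (Subgroup.normalizer (P : Set X)).subtype) (hg2 : g ^ 2 ∈ (S : Subgroup ↥(Subgroup.normalizer (P : Set X))).map (Subgroup.normalizer (P : Set X)).subtype)
    (hgt : g * t * g⁻¹ ∈ P ⊔ Subgroup.centralizer (P : Set X)) :
    ⁅P, Cfsg.oddCore X⁆ = ⊥ ∧
      ∀ L : Subgroup X, Cfsg.IsPComponent 2 L → P ≤ L → (∀ l ∈ L, t * l * t⁻¹ ∈ L) → Cfsg.IsQuasisimple ↥L := by
  have : Fact (Nat.Prime 2) := ⟨Nat.prime_two⟩
  have hTN : (S : Subgroup ↥(normalizer (P : Set X))).map (normalizer (P : Set X)).subtype ≤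
      normalizer (P : Set X) := map_subtype_le _
  have hT2 : IsPGroup 2 ↥((S : Subgroup ↥(normalizer (P : Set X))).map (normalizer (P : Set X)).subtype) :=
    S.2.map _
  have hTmax : ∀ Q : Subgroup X, Q ≤ normalizer (P : Set X) → IsPGroup 2 Q →
      (S : Subgroup ↥(normalizer (P : Set X))).map (normalizer (P : Set X)).subtype ≤ Q →
      Q = (S : Subgroup ↥(normalizer (P : Set X))).map (normalizer (P : Set X)).subtype := by
    intro Q hQN hQ2 hSQ
    have h1 : IsPGroup 2 ↥(Q.subgroupOf (normalizer (P : Set X))) :=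
      hQ2.comap_of_injective _ (subtype_injective _)
    have h2 : (S : Subgroup ↥(normalizer (P : Set X))) ≤ Q.subgroupOf (normalizer (P : Set X)) := by
      intro x hx
      exact hSQ (mem_map_of_mem _ hx)
    have h3 := S.is_maximal' h1 h2
    rw [← h3, map_subgroupOf_eq_of_le hQN]
  obtain ⟨h1, hPW⟩ := part1 P hP hr hZ _ hTN hT2 hTmax t ht htS htP g hgN hgS hg2 hgt
  refine ⟨h1, ?_⟩
  intro L hL hPL _
  have hPP : ⁅P, P⁆ = P := (Cfsg.Agent.Lib.Helper31.isQuasisimple_subgroup_iff.1 hP.1).1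
  rw [Cfsg.Agent.Lib.Helper23.isPComponent_isQuasisimple_iff 2 hL]
  have hcore : Cfsg.Agent.Lib.Helper23.coreOf 2 L ≤ oddCore X :=
    Cfsg.Agent.Lib.Helper23.coreOf_le_of_isSubnormal 2 hL.1
  have hM : (L ⊓ centralizer (oddCore X : Set X)).IsSubnormal :=
    hL.1.inf (Normal.isSubnormal normal_centralizer)
  rcases Cfsg.Agent.Lib.Helper23.isPComponent_eq_or_commutator_le 2 hL hM inf_le_left with h | h
  · have h2 : L ≤ centralizer (oddCore X : Set X) := h ▸ inf_le_right
    rw [commutator_eq_bot_iff_le_centralizer]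
    exact h2.trans (centralizer_le hcore)
  · exfalso
    apply hPW
    have h2 : P ≤ L ⊓ centralizer (oddCore X : Set X) :=
      le_inf hPL (commutator_eq_bot_iff_le_centralizer.1 h1)
    calc P = ⁅P, P⁆ := hPP.symm
      _ ≤ ⁅L ⊓ centralizer (oddCore X : Set X), L⁆ := commutator_mono h2 hPL
      _ ≤ _ := h.trans hcore

end Cfsg.Agent.S3153
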