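import Cfsg.Statements.S0228
import Mathlib

set_option autoImplicit false

open Cfsg

namespace Cfsg.Agent.S0228

open Subgroup

/-- a group of order 12 with a normal subgroup of order 3 has a central involution -/
theorem central_involution {G : Type*} [Group G] [Finite G] (hG : Nat.card G = 12)
    (P : Subgroup G) (hP : Nat.card P = 3) (hn : P.Normal) :
    ∃ z : G, orderOf z = 2 ∧ z ∈ center G := by
  classical
  haveI : Fact (Nat.Prime 2) := ⟨Nat.prime_two⟩
  haveI : Fact (Nat.Prime 3) := ⟨Nat.prime_three⟩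
  obtain ⟨Q, hQ⟩ := Sylow.exists_subgroup_card_pow_prime (G := G) 2 (n := 2) (by rw [hG]; norm_num)
  have hQc : IsMulCommutative Q := IsPGroup.isMulCommutative_of_card_eq_prime_sq hQ
  -- generator of P
  obtain ⟨a', ha'⟩ := exists_prime_orderOf_dvd_card' (G := P) 3 (by rw [hP])
  set a : G := (a' : G) with ha
  have hao : orderOf a = 3 := by rw [ha, Subgroup.orderOf_coe, ha']
  have haP : a ∈ P := a'.2
  have hPz : P = zpowers a := by
    symm
    refine Subgroup.eq_of_le_of_card_ge (by rwa [zpowers_le]) ?_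
    rw [Nat.card_zpowers, hao, hP]
  have ha3 : a ^ 3 = 1 := by rw [← hao, pow_orderOf_eq_one]
  have ha1 : a ≠ 1 := by
    intro h
    rw [h, orderOf_one] at hao
    omega
  have hconj : ∀ g : G, g * a * g⁻¹ = a ∨ g * a * g⁻¹ = a ^ 2 := by
    intro g
    have h1 : g * a * g⁻¹ ∈ zpowers a := hPz ▸ hn.conj_mem a haP g
    rw [← mem_powers_iff_mem_zpowers, mem_powers_iff_mem_range_orderOf, hao] at h1
    simp only [Finset.mem_image, Finset.mem_range] at h1
    obtain ⟨k, hk, hk2⟩ := h1
    interval_cases k
    · exfalso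
      apply ha1
      rw [pow_zero] at hk2
      have : g * a * g⁻¹ = g * 1 * g⁻¹ := by rw [← hk2]; group
      exact mul_left_cancel (mul_right_cancel this)
    · left; rw [← hk2, pow_one]
    · right; exact hk2.symm
  -- a nontrivial element of Q centralizing a
  have hex : ∃ w ∈ Q, w ≠ 1 ∧ w * a * w⁻¹ = a := by
    have hQ4 : Nat.card Q = 4 := by rw [hQ]; norm_num
    have h2 : 2 < Nat.card Q := by omega
    haveI : Fintype Q := Fintype.ofFinite Q
    rw [Nat.card_eq_fintype_card] at h2
    obtain ⟨u, v, w, huv, huw, hvw⟩ := Fintype.two_lt_card_iff.1 h2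
    -- among u, v, w two are different from 1
    have key : ∀ u v : Q, u ≠ 1 → v ≠ 1 → u ≠ v → ∃ w ∈ Q, w ≠ 1 ∧ w * a * w⁻¹ = a := by
      intro u v hu hv huv
      rcases hconj u with h1 | h1
      · exact ⟨u, u.2, fun h => hu (Subtype.ext h), h1⟩
      rcases hconj v with h2 | h2
      · exact ⟨v, v.2, fun h => hv (Subtype.ext h), h2⟩
      refine ⟨(u : G)⁻¹ * v, mul_mem (inv_mem u.2) v.2, ?_, ?_⟩
      · intro h
        apply huv
        apply Subtype.ext
        exact (inv_mul_eq_one.1 h)
      · have h3 : (u : G)⁻¹ * a ^ 2 * u = a := by rw [← h1]; group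
        calc (u : G)⁻¹ * v * a * ((u : G)⁻¹ * v)⁻¹ = (u : G)⁻¹ * (v * a * (v : G)⁻¹) * u := by group
          _ = a := by rw [h2, h3]
    by_cases hu : u = 1
    · exact key v w (fun h => huv (hu.trans h.symm)) (fun h => huw (hu.trans h.symm)) hvw
    by_cases hv : v = 1
    · exact key u w hu (fun h => hvw (hv.trans h.symm)) huw
    · exact key u v hu hv huv
  obtain ⟨w, hwQ, hw1, hwa⟩ := hex
  set D := Q ⊓ centralizer ({a} : Set G) with hD
  have hwD : w ∈ D := by
    refine mem_inf.2 ⟨hwQ, ?_⟩
    rw [mem_centralizer_singleton_iff]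
    calc w * a = (w * a * w⁻¹) * w := by group
      _ = a * w := by rw [hwa]
  have hD2 : 2 ∣ Nat.card D := by
    have hDp : IsPGroup 2 D := (IsPGroup.of_card hQ).to_le inf_le_left
    obtain ⟨k, hk⟩ := hDp.exists_card_eq
    rcases Nat.eq_zero_or_pos k with rfl | hk0
    · exfalso
      rw [pow_zero, Subgroup.card_eq_one] at hk
      rw [hk, mem_bot] at hwD
      exact hw1 hwD
    · rw [hk]; exact dvd_pow_self 2 (by omega)
  obtain ⟨t', ht'⟩ := exists_prime_orderOf_dvd_card' (G := D) 2 hD2
  refine ⟨t', by rw [Subgroup.orderOf_coe, ht'], ?_⟩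
  set t : G := (t' : G) with ht
  have htD : t ∈ D := t'.2
  set H := centralizer ({t} : Set G) with hH
  have hQH : Q ≤ H := by
    intro e he
    rw [hH, mem_centralizer_singleton_iff]
    exact congrArg Subtype.val (mul_comm' (⟨e, he⟩ : Q) ⟨t, htD.1⟩)
  have haH : a ∈ H := by
    rw [hH, mem_centralizer_singleton_iff]
    exact (mem_centralizer_singleton_iff.1 htD.2).symm
  have h4 : 4 ∣ Nat.card H := by
    have := Subgroup.card_dvd_of_le hQH
    rw [hQ] at this
    exact this
  have h3 : 3 ∣ Nat.card H := by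
    have := Subgroup.card_dvd_of_le ((zpowers_le (H := H)).2 haH)
    rw [Nat.card_zpowers, hao] at this
    exact this
  have h12 : 12 ∣ Nat.card H := by
    have : Nat.Coprime 4 3 := by norm_num
    exact this.mul_dvd_of_dvd_of_dvd h4 h3
  have hHtop : H = ⊤ := by
    refine Subgroup.eq_of_le_of_card_ge le_top ?_
    rw [Subgroup.card_top, hG]
    exact Nat.le_of_dvd Nat.card_pos h12
  rw [mem_center_iff]
  intro g
  have : g ∈ H := hHtop ▸ mem_top g
  exact mem_centralizer_singleton_iff.1 this

/-- A group of order 12 in which no involution is central is isomorphic to the alternating group on four letters. -/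
theorem result {G : Type*} [Group G] [Finite G] (hG : Nat.card G = 12) (hz : ∀ z : G, orderOf z = 2 → z ∉ Subgroup.center G) : Nonempty (G ≃* alternatingGroup (Fin 4)) := by
  haveI : Fact (Nat.Prime 3) := ⟨Nat.prime_three⟩
  obtain ⟨P, hP⟩ := Sylow.exists_subgroup_card_pow_prime (G := G) 3 (n := 1) (by rw [hG]; norm_num)
  rw [pow_one] at hP
  have hcore : P.normalCore = ⊥ := by
    have hdvd := Subgroup.card_dvd_of_le P.normalCore_le
    rw [hP] at hdvd
    rcases (Nat.dvd_prime Nat.prime_three).1 hdvd with h1 | h1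
    · exact Subgroup.card_eq_one.1 h1
    · exfalso
      have : P.normalCore = P := Subgroup.eq_of_le_of_card_ge P.normalCore_le (by rw [h1, hP])
      have hn : P.Normal := this ▸ P.normalCore_normal
      obtain ⟨z, hz1, hz2⟩ := central_involution hG P hP hn
      exact hz z hz1 hz2
  have hidx : Nat.card (G ⧸ P) = 4 := by
    have := Subgroup.card_mul_index P
    rw [hP, hG, Subgroup.index_eq_card] at this
    omega
  let e : (G ⧸ P) ≃ Fin 4 := Finite.equivFinOfCardEq hidx
  let ψ : G →* Equiv.Perm (Fin 4) := (e.permCongrHom).toMonoidHom.comp (MulAction.toPermHom G (G ⧸ P))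
  have hinj : Function.Injective ψ := by
    refine (e.permCongrHom).injective.comp ?_
    rw [← MonoidHom.ker_eq_bot_iff, ← Subgroup.normalCore_eq_ker, hcore]
  have hcard : Nat.card ψ.range = 12 := by
    rw [← hG]
    exact (Nat.card_congr (MonoidHom.ofInjective hinj).toEquiv).symm
  have hindex : ψ.range.index = 2 := by
    have := Subgroup.card_mul_index ψ.range
    rw [hcard, Nat.card_perm, Nat.card_eq_fintype_card, Fintype.card_fin] at this
    have h24 : Nat.factorial 4 = 24 := rfl
    omega
  have hr := Equiv.Perm.eq_alternatingGroup_of_index_eq_two hindex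
  exact ⟨(MonoidHom.ofInjective hinj).trans (MulEquiv.subgroupCongr hr)⟩

end Cfsg.Agent.S0228
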