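import Cfsg.Statements.S1954
import Cfsg.Agent.Lib.Helper34.Radical
import Cfsg.Agent.Lib.Helper11.SylowNormal

set_option autoImplicit false
open Cfsg
open scoped Pointwise

namespace Cfsg.Agent.S1954

open Cfsg.Agent.Lib.Helper34

variable {G : Type*} [Group G]

/-- `N_N(V)` controls strong fusion in `T` with respect to `N`. -/
def Ctrl (T N V : Subgroup G) : Prop :=
  ∀ A : Subgroup G, A ≤ T → ∀ n ∈ N, A.map (MulAut.conj n).toMonoidHom ≤ T →
    ∃ h ∈ N ⊓ Subgroup.normalizer (V : Set G), ∃ c ∈ N ⊓ Subgroup.centralizer (A : Set G), n = h * c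

theorem Ctrl.conj {T N V : Subgroup G} [hN : N.Normal] (h : Ctrl T N V) {x : G}
    (hx : x ∈ Subgroup.normalizer (T : Set G)) : Ctrl T N (V.map (MulAut.conj x).toMonoidHom) := by
  intro A hA n hn hAn
  have hxT : T.map (MulAut.conj x⁻¹).toMonoidHom = T :=
    map_conj_eq_self_of_mem_normalizer (Subgroup.inv_mem _ hx)
  have hA' : A.map (MulAut.conj x⁻¹).toMonoidHom ≤ T := by
    rw [← hxT]; exact Subgroup.map_mono hA
  have hn' : x⁻¹ * n * x ∈ N := by simpa using hN.conj_mem n hn x⁻¹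
  have hAn' : (A.map (MulAut.conj x⁻¹).toMonoidHom).map
      (MulAut.conj (x⁻¹ * n * x)).toMonoidHom ≤ T := by
    rw [map_conj_map_conj]
    have e : x⁻¹ * n * x * x⁻¹ = x⁻¹ * n := by group
    rw [e, ← map_conj_map_conj, ← hxT]
    exact Subgroup.map_mono hAn
  obtain ⟨h', hh', c', hc', e⟩ := h _ hA' _ hn' hAn'
  refine ⟨x * h' * x⁻¹, Subgroup.mem_inf.mpr ⟨hN.conj_mem _ (Subgroup.mem_inf.mp hh').1 x, ?_⟩,
    x * c' * x⁻¹, Subgroup.mem_inf.mpr ⟨hN.conj_mem _ (Subgroup.mem_inf.mp hc').1 x, ?_⟩, ?_⟩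
  · rw [normalizer_map_conj]; exact conj_mem_map_conj (Subgroup.mem_inf.mp hh').2
  · have := conj_mem_map_conj (g := x) (Subgroup.mem_inf.mp hc').2
    rw [← centralizer_map_conj, map_conj_map_conj, mul_inv_cancel, map_conj_one] at this
    exact this
  · calc n = x * (x⁻¹ * n * x) * x⁻¹ := by group
      _ = x * (h' * c') * x⁻¹ := by rw [e]
      _ = _ := by group

theorem ctrl_family {T N : Subgroup G} (F : Finset (Subgroup G))
    (hF : ∀ V' ∈ F, V' ≤ T ∧ Ctrl T N V') :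
    ∀ A : Subgroup G, A ≤ T → ∀ n ∈ N, A.map (MulAut.conj n).toMonoidHom ≤ T →
      ∃ h ∈ N, (∀ V' ∈ F, h ∈ Subgroup.normalizer (V' : Set G)) ∧
        ∃ c ∈ N ⊓ Subgroup.centralizer (A : Set G), n = h * c := by
  classical
  induction F using Finset.induction_on with
  | empty =>
    intro A hA n hn _
    exact ⟨n, hn, by simp, 1, Subgroup.one_mem _, by simp⟩
  | insert V'' F hnot ih =>
    intro A hA n hn hAn
    have ih' := ih (fun V' hV' => hF V' (Finset.mem_insert_of_mem hV'))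
    obtain ⟨hV''T, hV''c⟩ := hF V'' (Finset.mem_insert_self _ _)
    obtain ⟨h₁, hh₁, c₁, hc₁, rfl⟩ := hV''c A hA n hn hAn
    obtain ⟨hh₁N, hh₁V⟩ := Subgroup.mem_inf.mp hh₁
    obtain ⟨hc₁N, hc₁A⟩ := Subgroup.mem_inf.mp hc₁
    have hA1 : A.map (MulAut.conj h₁).toMonoidHom ≤ T := by
      rw [← map_conj_map_conj, map_conj_eq_self_of_mem_normalizer
        (Subgroup.centralizer_le_normalizer _ hc₁A)] at hAn
      exact hAn
    have hAV : (A ⊔ V'').map (MulAut.conj h₁).toMonoidHom ≤ T := by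
      rw [Subgroup.map_sup, map_conj_eq_self_of_mem_normalizer hh₁V]
      exact sup_le hA1 hV''T
    obtain ⟨h₂, hh₂, hh₂F, c₂, hc₂, e⟩ := ih' (A ⊔ V'') (sup_le hA hV''T) h₁ hh₁N hAV
    obtain ⟨hc₂N, hc₂A⟩ := Subgroup.mem_inf.mp hc₂
    have hc₂A' : c₂ ∈ Subgroup.centralizer (A : Set G) :=
      Subgroup.centralizer_le (SetLike.coe_subset_coe.mpr le_sup_left) hc₂A
    have hc₂V : c₂ ∈ Subgroup.centralizer (V'' : Set G) :=
      Subgroup.centralizer_le (SetLike.coe_subset_coe.mpr le_sup_right) hc₂A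
    refine ⟨h₂, hh₂, ?_, c₂ * c₁, Subgroup.mem_inf.mpr ⟨N.mul_mem hc₂N hc₁N,
      Subgroup.mul_mem _ hc₂A' hc₁A⟩, by rw [e]; group⟩
    intro V' hV'
    rcases Finset.mem_insert.mp hV' with rfl | hV'
    · have : h₂ = h₁ * c₂⁻¹ := by rw [e]; group
      rw [this]
      exact Subgroup.mul_mem _ hh₁V
        (Subgroup.inv_mem _ (Subgroup.centralizer_le_normalizer _ hc₂V))
    · exact hh₂F V' hV'

theorem conj_closure_le {S : Set G} {g : G} (h : ∀ s ∈ S, g * s * g⁻¹ ∈ Subgroup.closure S) :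
    (Subgroup.closure S).map (MulAut.conj g).toMonoidHom ≤ Subgroup.closure S := by
  rw [MonoidHom.map_closure, Subgroup.closure_le]
  rintro _ ⟨s, hs, rfl⟩
  exact h s hs

/-- the elements of `G` acting on `U₀` like an element of `N_W(U₀)`. -/
def actSub (W U₀ : Subgroup G) : Subgroup G where
  carrier := {x | ∃ w ∈ W, w ∈ Subgroup.normalizer (U₀ : Set G) ∧
    ∀ u ∈ U₀, x * u * x⁻¹ = w * u * w⁻¹}
  one_mem' := ⟨1, W.one_mem, Subgroup.one_mem _, fun _ _ => rfl⟩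
  mul_mem' := by
    rintro x₁ x₂ ⟨w₁, hw₁, hn₁, h₁⟩ ⟨w₂, hw₂, hn₂, h₂⟩
    refine ⟨w₁ * w₂, W.mul_mem hw₁ hw₂, Subgroup.mul_mem _ hn₁ hn₂, fun u hu => ?_⟩
    have hu2 : w₂ * u * w₂⁻¹ ∈ U₀ := (Subgroup.mem_normalizer_iff.mp hn₂ u).mp hu
    calc x₁ * x₂ * u * (x₁ * x₂)⁻¹ = x₁ * (x₂ * u * x₂⁻¹) * x₁⁻¹ := by group
      _ = x₁ * (w₂ * u * w₂⁻¹) * x₁⁻¹ := by rw [h₂ u hu]
      _ = w₁ * (w₂ * u * w₂⁻¹) * w₁⁻¹ := h₁ _ hu2
      _ = w₁ * w₂ * u * (w₁ * w₂)⁻¹ := by group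
  inv_mem' := by
    rintro x ⟨w, hw, hn, h⟩
    refine ⟨w⁻¹, W.inv_mem hw, Subgroup.inv_mem _ hn, fun u hu => ?_⟩
    have hu2 : w⁻¹ * u * w⁻¹⁻¹ ∈ U₀ :=
      (Subgroup.mem_normalizer_iff.mp (Subgroup.inv_mem _ hn) u).mp hu
    have h3 := h _ hu2
    calc x⁻¹ * u * x⁻¹⁻¹ = x⁻¹ * (w * (w⁻¹ * u * w⁻¹⁻¹) * w⁻¹) * x⁻¹⁻¹ := by group
      _ = x⁻¹ * (x * (w⁻¹ * u * w⁻¹⁻¹) * x⁻¹) * x⁻¹⁻¹ := by rw [h3]
      _ = w⁻¹ * u * w⁻¹⁻¹ := by group

theorem mem_actSub {W U₀ : Subgroup G} {x : G} : x ∈ actSub W U₀ ↔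
    ∃ w ∈ W, w ∈ Subgroup.normalizer (U₀ : Set G) ∧ ∀ u ∈ U₀, x * u * x⁻¹ = w * u * w⁻¹ := Iff.rfl

theorem actSub_pow {p : ℕ} {W U₀ : Subgroup G} (hW : IsPGroup p W) {x : G} (hx : x ∈ actSub W U₀) :
    ∃ k : ℕ, ∀ u ∈ U₀, x ^ p ^ k * u * (x ^ p ^ k)⁻¹ = u := by
  obtain ⟨w, hw, hn, h⟩ := hx
  have key : ∀ j : ℕ, ∀ u ∈ U₀, x ^ j * u * (x ^ j)⁻¹ = w ^ j * u * (w ^ j)⁻¹ := by
    intro j
    induction j with
    | zero => intro u _; simp
    | succ j ih =>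
      intro u hu
      have hu2 : w * u * w⁻¹ ∈ U₀ := (Subgroup.mem_normalizer_iff.mp hn u).mp hu
      calc x ^ (j+1) * u * (x ^ (j+1))⁻¹ = x ^ j * (x * u * x⁻¹) * (x ^ j)⁻¹ := by
            rw [pow_succ]; group
        _ = x ^ j * (w * u * w⁻¹) * (x ^ j)⁻¹ := by rw [h u hu]
        _ = w ^ j * (w * u * w⁻¹) * (w ^ j)⁻¹ := ih _ hu2
        _ = w ^ (j+1) * u * (w ^ (j+1))⁻¹ := by rw [pow_succ]; group
  obtain ⟨k, hk⟩ := hW ⟨w, hw⟩
  have hk' : w ^ p ^ k = 1 := congrArg Subtype.val hk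
  refine ⟨k, fun u hu => ?_⟩
  rw [key _ u hu, hk']; simp

theorem actSub_conj {W U₀ : Subgroup G} {x m c : G} (hx : x ∈ actSub W U₀)
    (hmW : m ∈ Subgroup.normalizer (W : Set G)) (hmU : m ∈ Subgroup.normalizer (U₀ : Set G))
    (hc : c ∈ Subgroup.centralizer (U₀ : Set G)) :
    (m * c) * x * (m * c)⁻¹ ∈ actSub W U₀ := by
  obtain ⟨w, hw, hn, h⟩ := hx
  have hcu : ∀ u ∈ U₀, c * u * c⁻¹ = u := by
    intro u hu
    rw [← Subgroup.mem_centralizer_iff.mp hc u hu]; group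
  have hcu' : ∀ u ∈ U₀, c⁻¹ * u * c = u := by
    intro u hu
    rw [mul_assoc, Subgroup.mem_centralizer_iff.mp hc u hu]; group
  refine ⟨m * w * m⁻¹, (Subgroup.mem_normalizer_iff.mp hmW w).mp hw,
    Subgroup.mul_mem _ (Subgroup.mul_mem _ hmU hn) (Subgroup.inv_mem _ hmU), fun u hu => ?_⟩
  have hu1 : m⁻¹ * u * m ∈ U₀ := by
    have := (Subgroup.mem_normalizer_iff.mp (Subgroup.inv_mem _ hmU) u).mp hu
    simpa using this
  have hu2 : w * (m⁻¹ * u * m) * w⁻¹ ∈ U₀ := (Subgroup.mem_normalizer_iff.mp hn _).mp hu1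
  calc m * c * x * (m * c)⁻¹ * u * (m * c * x * (m * c)⁻¹)⁻¹
      = m * (c * (x * (c⁻¹ * (m⁻¹ * u * m) * c) * x⁻¹) * c⁻¹) * m⁻¹ := by group
    _ = m * (c * (x * (m⁻¹ * u * m) * x⁻¹) * c⁻¹) * m⁻¹ := by rw [hcu' _ hu1]
    _ = m * (c * (w * (m⁻¹ * u * m) * w⁻¹) * c⁻¹) * m⁻¹ := by rw [h _ hu1]
    _ = m * (w * (m⁻¹ * u * m) * w⁻¹) * m⁻¹ := by rw [hcu _ hu2]
    _ = m * w * m⁻¹ * u * (m * w * m⁻¹)⁻¹ := by group

/-- Let N be a normal subgroup of the finite group G, P a Sylow p-subgroup of G, and V a subgroup of P ∩ N normal in P ∩ N such that N_N(V) controls strong fusion in P ∩ N with respect to N (whenever a subgroup A of P ∩ N has n A n⁻¹ ≤ P ∩ N for some n in N, then n = h c with h in N_N(V) and c in C_N(A)). Let W be the subgroup generated by the conjugates of V under N_G(P ∩ N). Then N_G(W) controls strong fusion in P with respect to G. -/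
theorem result {G : Type*} [Group G] [Finite G] {p : ℕ} [Fact p.Prime] (N : Subgroup G) [N.Normal] (P : Sylow p G) (V : Subgroup G)
    (hV : V ≤ (P : Subgroup G) ⊓ N) (hVn : ∀ x ∈ (P : Subgroup G) ⊓ N, V.map (MulAut.conj x).toMonoidHom = V)
    (hctrl : ∀ A : Subgroup G, A ≤ (P : Subgroup G) ⊓ N → ∀ n ∈ N, A.map (MulAut.conj n).toMonoidHom ≤ (P : Subgroup G) ⊓ N →
      ∃ h ∈ N ⊓ Subgroup.normalizer (V : Set G), ∃ c ∈ N ⊓ Subgroup.centralizer (A : Set G), n = h * c)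
    (W : Subgroup G) (hW : W = Subgroup.closure (⋃ x ∈ Subgroup.normalizer (((P : Subgroup G) ⊓ N : Subgroup G) : Set G),
      ((V.map (MulAut.conj x).toMonoidHom : Subgroup G) : Set G))) :
    ∀ A : Subgroup G, A ≤ (P : Subgroup G) → ∀ g : G, A.map (MulAut.conj g).toMonoidHom ≤ (P : Subgroup G) →
        ∃ h ∈ Subgroup.normalizer (W : Set G), ∃ c ∈ Subgroup.centralizer (A : Set G), g = h * c := by
  have hN : N.Normal := inferInstance
  have hNconj : ∀ x : G, N.map (MulAut.conj x).toMonoidHom = N := fun x =>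
    map_conj_eq_self_of_mem_normalizer (by rw [Subgroup.normalizer_eq_top]; trivial)
  set T : Subgroup G := (P : Subgroup G) ⊓ N with hT
  have hTP : T ≤ (P : Subgroup G) := inf_le_left
  have hTN : T ≤ N := inf_le_right
  have hPT : (P : Subgroup G) ≤ Subgroup.normalizer (T : Set G) := by
    intro x hx
    apply mem_normalizer_of_map_conj_eq
    rw [hT, map_conj_inf, map_conj_eq_self_of_mem hx, hNconj]
  have hVx_le : ∀ x ∈ Subgroup.normalizer (T : Set G), V.map (MulAut.conj x).toMonoidHom ≤ T :=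
    fun x hx => (Subgroup.map_mono hV).trans_eq (map_conj_eq_self_of_mem_normalizer hx)
  have hWT : W ≤ T := by
    rw [hW, Subgroup.closure_le]
    intro v hv
    simp only [Set.mem_iUnion] at hv
    obtain ⟨x, hx, hv⟩ := hv
    exact hVx_le x hx hv
  have hWp : IsPGroup p W := P.2.to_le (hWT.trans hTP)
  have hnormW : ∀ g : G, (∀ x ∈ Subgroup.normalizer (T : Set G),
      ∃ x' ∈ Subgroup.normalizer (T : Set G), (V.map (MulAut.conj x).toMonoidHom).map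
        (MulAut.conj g).toMonoidHom = V.map (MulAut.conj x').toMonoidHom) →
      g ∈ Subgroup.normalizer (W : Set G) := by
    intro g hg
    apply mem_normalizer_of_conj_le
    rw [hW]
    apply conj_closure_le
    intro s hs
    simp only [Set.mem_iUnion] at hs
    obtain ⟨x, hx, hs⟩ := hs
    obtain ⟨x', hx', e⟩ := hg x hx
    apply Subgroup.subset_closure
    refine Set.mem_biUnion hx' ?_
    rw [← e]
    exact conj_mem_map_conj hs
  have hNTW : Subgroup.normalizer (T : Set G) ≤ Subgroup.normalizer (W : Set G) := by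
    intro m hm
    apply hnormW
    intro x hx
    exact ⟨m * x, Subgroup.mul_mem _ hm hx, map_conj_map_conj _ _ _⟩
  have hctrlW : ∀ A : Subgroup G, A ≤ T → ∀ n ∈ N, A.map (MulAut.conj n).toMonoidHom ≤ T →
      ∃ h ∈ N ⊓ Subgroup.normalizer (W : Set G), ∃ c ∈ N ⊓ Subgroup.centralizer (A : Set G),
        n = h * c := by
    intro A hA n hn hAn
    obtain ⟨h, hhN, hhF, c, hc, e⟩ := ctrl_family (T := T) (N := N)
      (Set.toFinite {V' : Subgroup G | ∃ x ∈ Subgroup.normalizer (T : Set G),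
        V' = V.map (MulAut.conj x).toMonoidHom}).toFinset (by
        intro V' hV'
        rw [Set.Finite.mem_toFinset] at hV'
        obtain ⟨x, hx, rfl⟩ := hV'
        exact ⟨hVx_le x hx, Ctrl.conj hctrl hx⟩) A hA n hn hAn
    refine ⟨h, Subgroup.mem_inf.mpr ⟨hhN, hnormW h ?_⟩, c, hc, e⟩
    intro x hx
    refine ⟨x, hx, map_conj_eq_self_of_mem_normalizer (hhF _ ?_)⟩
    rw [Set.Finite.mem_toFinset]
    exact ⟨x, hx, rfl⟩
  have hfrat : ∀ g : G, ∃ m ∈ Subgroup.normalizer (T : Set G), ∃ n ∈ N, g = m * n := by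
    intro g
    have h1 : g ∈ Subgroup.normalizer (T : Set G) ⊔ N := by
      rw [Cfsg.Agent.Lib.Helper11.normalizer_sylow_inf_sup_eq_top P N]; trivial
    rw [← SetLike.mem_coe, Subgroup.mul_normal, Set.mem_mul] at h1
    obtain ⟨m, hm, n, hn, rfl⟩ := h1
    exact ⟨m, hm, n, hn, rfl⟩
  have hG : ∀ A : Subgroup G, A ≤ T → ∀ g : G, A.map (MulAut.conj g).toMonoidHom ≤ T →
      ∃ h ∈ Subgroup.normalizer (W : Set G), ∃ c ∈ Subgroup.centralizer (A : Set G), g = h * c := by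
    intro A hA g hAg
    obtain ⟨m, hm, n, hn, rfl⟩ := hfrat g
    have hAn : A.map (MulAut.conj n).toMonoidHom ≤ T := by
      rw [← map_conj_map_conj, map_conj_le_iff,
        map_conj_eq_self_of_mem_normalizer (Subgroup.inv_mem _ hm)] at hAg
      exact hAg
    obtain ⟨h, hh, c, hc, rfl⟩ := hctrlW A hA n hn hAn
    exact ⟨m * h, Subgroup.mul_mem _ (hNTW hm) (Subgroup.mem_inf.mp hh).2, c,
      (Subgroup.mem_inf.mp hc).2, by group⟩
  have h4 : ∀ g : G, W.map (MulAut.conj g).toMonoidHom ≤ T →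
      g ∈ Subgroup.normalizer (W : Set G) := by
    intro g hg
    obtain ⟨h, hh, c, hc, rfl⟩ := hG W hWT g hg
    exact Subgroup.mul_mem _ hh (Subgroup.centralizer_le_normalizer _ hc)
  have h5 : ∀ U ∈ Cfsg.Agent.Lib.Helper33.AGFam p (P : Subgroup G), W ≤ U := by
    intro U hU
    have hUP : U ≤ (P : Subgroup G) := hU.1.1
    have hU₀T : U ⊓ N ≤ T := inf_le_inf_right N hUP
    have hMU₀ : Subgroup.normalizer (U : Set G) ≤ Subgroup.normalizer ((U ⊓ N : Subgroup G) : Set G) := by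
      intro m hm
      apply mem_normalizer_of_map_conj_eq
      rw [map_conj_inf, map_conj_eq_self_of_mem_normalizer hm, hNconj]
    have hY : W ⊓ Subgroup.normalizer (U : Set G) ≤ U := by
      intro y hy
      obtain ⟨hyW, hyM⟩ := Subgroup.mem_inf.mp hy
      obtain ⟨k, hk⟩ := hWp ⟨y, hyW⟩
      have hk' : y ^ p ^ k = 1 := congrArg Subtype.val hk
      refine mem_of_AGFam hU (Subgroup.normalizer (U : Set G) ⊓ N ⊓ actSub W (U ⊓ N))
        (inf_le_left.trans inf_le_left) ?_ ?_ (y := y) ?_ hk'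
      · intro m hm x hx
        obtain ⟨hx1, hx3⟩ := Subgroup.mem_inf.mp hx
        obtain ⟨hx1, hx2⟩ := Subgroup.mem_inf.mp hx1
        refine Subgroup.mem_inf.mpr ⟨Subgroup.mem_inf.mpr ⟨Subgroup.mul_mem _
          (Subgroup.mul_mem _ hm hx1) (Subgroup.inv_mem _ hm), hN.conj_mem x hx2 m⟩, ?_⟩
        obtain ⟨h, hh, c, hc, rfl⟩ := hG (U ⊓ N) hU₀T m
          ((map_conj_eq_self_of_mem_normalizer (hMU₀ hm)).le.trans hU₀T)
        refine actSub_conj hx3 hh ?_ hc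
        have e : h = h * c * c⁻¹ := by group
        rw [e]
        exact Subgroup.mul_mem _ (hMU₀ hm)
          (Subgroup.inv_mem _ (Subgroup.centralizer_le_normalizer _ hc))
      · intro x hx
        obtain ⟨hx1, hx3⟩ := Subgroup.mem_inf.mp hx
        obtain ⟨hx1, hx2⟩ := Subgroup.mem_inf.mp hx1
        obtain ⟨k₁, hk₁⟩ := actSub_pow hWp hx3
        obtain ⟨b, hb⟩ := (IsPGroup.iff_card).mp (P.2.to_le (hU₀T.trans hTP))
        refine ⟨k₁ + b, ?_⟩
        rw [pow_add, pow_mul, ← hb]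
        refine pow_card_mem_centralizer_of_stabilizes hk₁ ?_
        intro u hu
        have hxk1 : x ^ p ^ k₁ ∈ Subgroup.normalizer (U : Set G) := Subgroup.pow_mem _ hx1 _
        have hxk2 : x ^ p ^ k₁ ∈ N := Subgroup.pow_mem _ hx2 _
        refine Subgroup.mem_inf.mpr ⟨U.mul_mem (U.inv_mem hu)
          ((Subgroup.mem_normalizer_iff.mp hxk1 u).mp hu), ?_⟩
        have e : u⁻¹ * (x ^ p ^ k₁ * u * (x ^ p ^ k₁)⁻¹)
            = (u⁻¹ * x ^ p ^ k₁ * u⁻¹⁻¹) * (x ^ p ^ k₁)⁻¹ := by group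
        rw [e]
        exact N.mul_mem (hN.conj_mem _ hxk2 _) (N.inv_mem hxk2)
      · exact Subgroup.mem_inf.mpr ⟨Subgroup.mem_inf.mpr ⟨hyM, hTN (hWT hyW)⟩,
          y, hyW, hMU₀ hyM, fun _ _ => rfl⟩
    have hUW : U ≤ Subgroup.normalizer (W : Set G) := hUP.trans (hPT.trans hNTW)
    have hD : U = U ⊔ W := by
      refine eq_of_inf_normalizer_le (p := p) (P.2.to_le (sup_le hUP (hWT.trans hTP))) le_sup_left ?_
      intro d hd
      obtain ⟨hd1, hd2⟩ := Subgroup.mem_inf.mp hd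
      rw [← SetLike.mem_coe, Subgroup.coe_mul_of_left_le_normalizer_right U W hUW,
        Set.mem_mul] at hd1
      obtain ⟨u, hu, w, hw, rfl⟩ := hd1
      refine U.mul_mem hu (hY (Subgroup.mem_inf.mpr ⟨hw, ?_⟩))
      have e : w = u⁻¹ * (u * w) := by group
      rw [e]
      exact Subgroup.mul_mem _ (Subgroup.inv_mem _ (Subgroup.le_normalizer hu)) hd2
    rw [hD]
    exact le_sup_right
  have h6 : ∀ U ∈ Cfsg.Agent.Lib.Helper33.AGFam p (P : Subgroup G),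
      Subgroup.normalizer (U : Set G) ≤ Subgroup.normalizer (W : Set G) := by
    intro U hU x hx
    apply h4
    have h7 : W ≤ U ⊓ N := le_inf (h5 U hU) (hWT.trans hTN)
    refine (Subgroup.map_mono h7).trans ?_
    rw [map_conj_inf, map_conj_eq_self_of_mem_normalizer hx, hNconj]
    exact inf_le_inf_right N hU.1.1
  intro A hA g hg
  obtain ⟨g', hchain, hg'⟩ := Cfsg.Agent.Lib.Helper33.alperin_goldschmidt P (A : Set G) g hA (by
    rintro _ ⟨a, ha, rfl⟩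
    exact hg ⟨a, ha, rfl⟩)
  obtain ⟨x, hx, hxa⟩ : Cfsg.Agent.Lib.Helper33.Good1 (Subgroup.normalizer (W : Set G))
      (A : Set G) g' :=
    (Cfsg.Agent.Lib.Helper33.fusionRel_good1 _).of_stepChain
      (fun B x ⟨U, hU, hx, _⟩ => ⟨x, h6 U hU hx, fun _ _ => rfl⟩) hchain
  refine ⟨x, hx, x⁻¹ * g, ?_, by group⟩
  rw [Subgroup.mem_centralizer_iff]
  intro a ha
  have h8 : x * a * x⁻¹ = g * a * g⁻¹ := (hxa a ha).trans (hg' a ha)
  calc a * (x⁻¹ * g) = x⁻¹ * (x * a * x⁻¹) * g := by group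
    _ = x⁻¹ * (g * a * g⁻¹) * g := by rw [h8]
    _ = x⁻¹ * g * a := by group

end Cfsg.Agent.S1954
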