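import Cfsg.Statements.S1898
-- import your own Cfsg.Agent.* helpers here

set_option autoImplicit false
open Cfsg

namespace Cfsg.Agent.S1898

open scoped commutatorElement

/-- Let X be a finite 2-group whose derived subgroup is elementary abelian and central. Then the subgroup generated by the elements of order dividing 4 has exponent dividing 4, and every automorphism of X fixing each element of order dividing 4 has 2-power order. -/
theorem result {X : Type*} [Group X] [Finite X] (hX : IsPGroup 2 X)
    (hel : Cfsg.IsElementaryAbelian 2 (commutator X)) (hcen : commutator X ≤ Subgroup.center X) :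
    (∀ x ∈ Subgroup.closure {g : X | g ^ 4 = 1}, x ^ 4 = 1) ∧
      ∀ φ : MulAut X, (∀ g : X, g ^ 4 = 1 → φ g = g) → ∃ k : ℕ, φ ^ (2 ^ k) = 1 := by
  have hcm : ∀ a b : X, ⁅a, b⁆ ∈ commutator X := fun a b =>
    Subgroup.commutator_mem_commutator (Subgroup.mem_top a) (Subgroup.mem_top b)
  have hcc : ∀ a b g : X, g * ⁅a, b⁆ = ⁅a, b⁆ * g := fun a b g =>
    Subgroup.mem_center_iff.mp (hcen (hcm a b)) g
  have hc2 : ∀ a b : X, ⁅a, b⁆ * ⁅a, b⁆ = 1 := fun a b => by
    have := hel.2 _ (hcm a b)
    rwa [pow_two] at this
  have hyx : ∀ x y : X, y * x = ⁅y, x⁆ * x * y := by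
    intro x y
    rw [commutatorElement_def]; group
  -- squares are central
  have hsq : ∀ x y : X, y * y * x = x * (y * y) := by
    intro x y
    calc y * y * x = y * (y * x) := by group
      _ = y * (⁅y, x⁆ * x * y) := by rw [← hyx]
      _ = (y * ⁅y, x⁆) * x * y := by group
      _ = ⁅y, x⁆ * (y * x) * y := by rw [hcc]; group
      _ = ⁅y, x⁆ * (⁅y, x⁆ * x * y) * y := by rw [← hyx]
      _ = (⁅y, x⁆ * ⁅y, x⁆) * x * (y * y) := by group
      _ = x * (y * y) := by rw [hc2]; group
  have hmul4 : ∀ x y : X, (x * y) ^ 4 = x ^ 4 * y ^ 4 := by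
    intro x y
    have e2 : (x * y) * (x * y) = ⁅y, x⁆ * (x * x) * (y * y) := by
      calc (x * y) * (x * y) = x * (y * x) * y := by group
        _ = x * (⁅y, x⁆ * x * y) * y := by rw [← hyx]
        _ = (x * ⁅y, x⁆) * x * (y * y) := by group
        _ = ⁅y, x⁆ * (x * x) * (y * y) := by rw [hcc]; group
    have gen : ∀ a b c : X, (∀ g, g * c = c * g) → c * c = 1 → b * a = a * b →
        c * a * b * (c * a * b) = a * a * (b * b) := by
      intro a b c h1 h2 h3
      calc c * a * b * (c * a * b) = c * ((a * b) * c) * a * b := by simp only [mul_assoc]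
        _ = c * (c * (a * b)) * a * b := by rw [h1]
        _ = (c * c) * a * (b * a) * b := by simp only [mul_assoc]
        _ = a * (a * b) * b := by rw [h2, h3, one_mul]
        _ = a * a * (b * b) := by simp only [mul_assoc]
    calc (x * y) ^ 4 = ((x * y) * (x * y)) * ((x * y) * (x * y)) := by
          simp only [pow_succ, pow_zero, one_mul, mul_assoc]
      _ = (⁅y, x⁆ * (x * x) * (y * y)) * (⁅y, x⁆ * (x * x) * (y * y)) := by rw [e2]
      _ = (x * x) * (x * x) * ((y * y) * (y * y)) :=
          gen _ _ _ (hcc y x) (hc2 y x) (hsq (x * x) y)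
      _ = x ^ 4 * y ^ 4 := by simp only [pow_succ, pow_zero, one_mul, mul_assoc]
  constructor
  · intro x hx
    induction hx using Subgroup.closure_induction with
    | mem g hg => exact hg
    | one => simp
    | mul a b _ _ ha hb => rw [hmul4, ha, hb, one_mul]
    | inv a _ ha => rw [inv_pow, ha, inv_one]
  · intro φ hφ
    have hN : 0 < orderOf φ := orderOf_pos φ
    obtain ⟨k, m, hm, hkm⟩ := Nat.exists_eq_two_pow_mul_odd hN.ne'
    refine ⟨k, ?_⟩
    set ψ : MulAut X := φ ^ (2 ^ k) with hψ
    have hψm : ψ ^ m = 1 := by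
      rw [hψ, ← pow_mul, ← hkm, pow_orderOf_eq_one]
    have hφpow : ∀ (i : ℕ) (g : X), g ^ 4 = 1 → (φ ^ i) g = g := by
      intro i g hg
      induction i with
      | zero => simp
      | succ i ih => rw [pow_succ, MulAut.mul_apply, hφ g hg, ih]
    have hψfix : ∀ g : X, g ^ 4 = 1 → ψ g = g := fun g hg => hφpow _ g hg
    have key : ∀ (j : ℕ) (x : X), x ^ (2 ^ j) = 1 → ψ x = x := by
      intro j
      induction j with
      | zero => intro x hx; simp at hx; subst hx; simp
      | succ j ih =>
        intro x hx
        have hx2 : (x * x) ^ (2 ^ j) = 1 := by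
          rw [← pow_two, ← pow_mul, ← pow_succ']; exact hx
        have h2 : ψ (x * x) = x * x := ih _ hx2
        set c : X := x⁻¹ * ψ x with hc
        have hψx : ψ x = x * c := by rw [hc]; group
        rw [map_mul, hψx] at h2
        -- x c x c = x x
        have h3 : c * x * c = x := by
          have : x * (c * x * c) = x * x := by rw [← h2]; group
          exact mul_left_cancel this
        have h4 : ⁅x⁻¹, c⁆ = c⁻¹ * c⁻¹ := by
          rw [commutatorElement_def]
          have : c * x = x * c⁻¹ := by
            calc c * x = (c * x * c) * c⁻¹ := by group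
              _ = x * c⁻¹ := by rw [h3]
          calc x⁻¹ * c * x⁻¹⁻¹ * c⁻¹ = x⁻¹ * (c * x) * c⁻¹ := by group
            _ = x⁻¹ * (x * c⁻¹) * c⁻¹ := by rw [this]
            _ = c⁻¹ * c⁻¹ := by group
        have h5 : c ^ 4 = 1 := by
          have := hc2 x⁻¹ c
          rw [h4] at this
          have h6 : (c ^ 4)⁻¹ = 1 := by rw [← this]; group
          rwa [inv_eq_one] at h6
        have hψc : ψ c = c := hψfix c h5
        have hpow : ∀ i : ℕ, (ψ ^ i) x = x * c ^ i := by
          intro i
          induction i with
          | zero => simp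
          | succ i ih2 =>
            rw [pow_succ', MulAut.mul_apply, ih2, map_mul, map_pow, hψc, hψx, pow_succ']
            group
        have h7 : c ^ m = 1 := by
          have := hpow m
          rw [hψm, MulAut.one_apply] at this
          exact (mul_eq_left.mp this.symm)
        have h8 : c = 1 := by
          have d1 : orderOf c ∣ m := orderOf_dvd_of_pow_eq_one h7
          have d2 : orderOf c ∣ 4 := orderOf_dvd_of_pow_eq_one h5
          have hcop : Nat.Coprime m 4 := by
            have : Nat.Coprime m 2 := Nat.coprime_two_right.mpr hm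
            exact Nat.Coprime.pow_right 2 this
          have : orderOf c ∣ 1 := by
            have := Nat.dvd_gcd d1 d2
            rwa [hcop] at this
          exact orderOf_eq_one_iff.mp (Nat.dvd_one.mp this)
        rw [hψx, h8, mul_one]
    ext x
    obtain ⟨j, hj⟩ := hX x
    rw [MulAut.one_apply]
    exact key j x hj

end Cfsg.Agent.S1898
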