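import Cfsg.Statements.S4014
import Cfsg.Agent.Lib.Helper2.PGroupFrattini

set_option autoImplicit false
open Cfsg

namespace Cfsg.Agent.S4014

theorem relIndex_commutator {Q : Type*} [Group Q] {p : ℕ} [Fact p.Prime] (H S : Subgroup Q)
    [Finite H] (hH : IsPGroup p H) (hS : ¬ H ≤ S) : S.relIndex ⁅H, H⁆ * p ≤ S.relIndex H := by
  have hne : S.subgroupOf H ≠ ⊤ := by
    rw [Ne, Subgroup.subgroupOf_eq_top]; exact hS
  obtain ⟨M, hM, hSM⟩ := (eq_top_or_exists_le_coatom (S.subgroupOf H)).resolve_left hne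
  obtain ⟨hMn, hMi⟩ := Cfsg.Agent.Lib.Helper2.isCoatom_normal_index hH hM
  have hcM : commutator H ≤ M :=
    (Cfsg.Agent.Lib.Helper2.commutator_le_frattini hH).trans (frattini_le_coatom hM)
  have h1 : (S.subgroupOf H).relIndex M * p = S.relIndex H := by
    rw [← hMi, Subgroup.relIndex_mul_index hSM]; rfl
  have h2 : S.relIndex ⁅H, H⁆ = (S.subgroupOf H).relIndex (commutator H) := by
    rw [Subgroup.subgroupOf, Subgroup.relIndex_comap, commutator_def, Subgroup.map_commutator,
      ← MonoidHom.range_eq_map, Subgroup.range_subtype]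
  rw [← h1, h2]
  apply Nat.mul_le_mul_right
  apply Subgroup.relIndex_le_of_le_right hcM
  intro h0
  have := Subgroup.relIndex_dvd_card (S.subgroupOf H) M
  rw [h0, zero_dvd_iff] at this
  exact Nat.card_pos.ne' this

theorem iterate_le {Q : Type*} [Group Q] (k : ℕ) (H : Subgroup Q) :
    (fun K : Subgroup Q => ⁅K, K⁆)^[k] H ≤ H := by
  induction k with
  | zero => exact le_rfl
  | succ k ih =>
    rw [Function.iterate_succ_apply']
    exact (Subgroup.commutator_le_self _).trans ih

theorem iter_le {Q : Type*} [Group Q] {p : ℕ} [Fact p.Prime] (S : Subgroup Q) :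
    ∀ (k : ℕ) (H : Subgroup Q), Finite H → IsPGroup p H → S.relIndex H < p ^ (k + 1) →
      (fun K : Subgroup Q => ⁅K, K⁆)^[k] H ≤ S := by
  have hp : p.Prime := Fact.out
  intro k
  induction k with
  | zero =>
    intro H hfin hH hlt
    obtain ⟨m, hm⟩ := hH.exists_card_eq
    have h1 : S.relIndex H ∣ p ^ m := hm ▸ Subgroup.relIndex_dvd_card S H
    obtain ⟨j, -, hj⟩ := (Nat.dvd_prime_pow hp).1 h1
    rcases j with _ | j
    · rw [pow_zero, Subgroup.relIndex_eq_one] at hj
      exact hj
    · exfalso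
      rw [hj] at hlt
      have := (Nat.pow_lt_pow_iff_right hp.one_lt).1 hlt
      omega
  | succ k ih =>
    intro H hfin hH hlt
    by_cases hS : H ≤ S
    · exact (iterate_le _ H).trans hS
    · have h1 := relIndex_commutator H S hH hS
      rw [Function.iterate_succ_apply]
      have hle : ⁅H, H⁆ ≤ H := Subgroup.commutator_le_self H
      apply ih ⁅H, H⁆ (Finite.of_injective _ (Subgroup.inclusion_injective hle)) (hH.to_le hle)
      have h2 : S.relIndex ⁅H, H⁆ * p < p ^ (k + 1) * p := by
        calc S.relIndex ⁅H, H⁆ * p ≤ S.relIndex H := h1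
          _ < p ^ (k + 1 + 1) := hlt
          _ = p ^ (k + 1) * p := pow_succ _ _
      exact Nat.lt_of_mul_lt_mul_right h2

theorem map_derivedSeries_subtype {Q : Type*} [Group Q] (H : Subgroup Q) (k : ℕ) :
    (derivedSeries H k).map H.subtype = (fun K : Subgroup Q => ⁅K, K⁆)^[k] H := by
  induction k with
  | zero =>
    rw [derivedSeries_zero, ← MonoidHom.range_eq_map, Subgroup.range_subtype]; rfl
  | succ k ih =>
    rw [Function.iterate_succ_apply', derivedSeries_succ, Subgroup.map_commutator, ih]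

theorem upper (p : ℕ) [Fact p.Prime] (n : ℕ) (hn : 1 ≤ n) (P : Subgroup (Equiv.Perm (Fin n)))
    (hP : IsPGroup p P) : derivedSeries P (Nat.log p n) = ⊥ := by
  have hp : p.Prime := Fact.out
  rw [← (Subgroup.map_eq_bot_iff_of_injective _ P.subtype_injective), map_derivedSeries_subtype,
    eq_bot_iff]
  intro g hg
  rw [Subgroup.mem_bot]
  ext y
  have h1 : (MulAction.stabilizer (Equiv.Perm (Fin n)) y).relIndex P < p ^ (Nat.log p n + 1) := by
    have h2 : (MulAction.stabilizer (Equiv.Perm (Fin n)) y).relIndex P =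
        (MulAction.orbit P y).ncard := by
      rw [← MulAction.index_stabilizer]
      rfl
    have h3 : (MulAction.orbit P y).ncard ≤ n := by
      calc (MulAction.orbit P y).ncard ≤ Nat.card (Fin n) := Set.ncard_le_card _
        _ = n := Nat.card_fin n
    rw [h2]
    exact lt_of_le_of_lt h3 (Nat.lt_pow_succ_log_self hp.one_lt n)
  have h4 := iter_le (MulAction.stabilizer (Equiv.Perm (Fin n)) y) _ P inferInstance hP h1 hg
  have h5 : g y = y := h4
  rw [h5]; rfl

theorem map_derivedSeries_subtype_le {W : Type*} [Group W] (K : Subgroup W) (m : ℕ)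
    (hK : K ≤ derivedSeries W m) (j : ℕ) :
    (derivedSeries K j).map K.subtype ≤ derivedSeries W (m + j) := by
  induction j with
  | zero =>
    rw [derivedSeries_zero, ← MonoidHom.range_eq_map, Subgroup.range_subtype]; exact hK
  | succ j ih =>
    rw [← add_assoc, derivedSeries_succ, derivedSeries_succ, Subgroup.map_commutator]
    exact Subgroup.commutator_mono ih ih

open RegularWreathProduct in
open scoped commutatorElement in
theorem wreath_derived {D Q : Type*} [Group D] [Group Q] (q0 : Q) (hq0 : q0 ≠ 1) (j : ℕ)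
    (h : derivedSeries (D ≀ᵣ Q) (j + 1) = ⊥) : derivedSeries D j = ⊥ := by
  classical
  let K : Subgroup (D ≀ᵣ Q) := commutator (D ≀ᵣ Q) ⊓ (rightHom : D ≀ᵣ Q →* Q).ker
  let ev : K →* D :=
    { toFun := fun w => w.1.left 1
      map_one' := rfl
      map_mul' := by
        rintro ⟨a, ha⟩ ⟨b, hb⟩
        have ha2 : a.right = 1 := ha.2
        show (a * b).left 1 = a.left 1 * b.left 1
        simp [ha2] }
  have hsurj : Function.Surjective ev := by
    intro d
    let f : D ≀ᵣ Q := ⟨Pi.mulSingle 1 d, 1⟩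
    let s : D ≀ᵣ Q := inl q0
    have hc : ⁅f, s⁆ ∈ K := by
      refine ⟨Subgroup.commutator_mem_commutator (Subgroup.mem_top f) (Subgroup.mem_top s), ?_⟩
      show (f * s * f⁻¹ * s⁻¹).right = 1
      simp [f, s]
    refine ⟨⟨⁅f, s⁆, hc⟩, ?_⟩
    show (f * s * f⁻¹ * s⁻¹).left 1 = d
    have hq : q0⁻¹ ≠ 1 := by simpa using hq0
    simp [f, s, Pi.mulSingle_apply, hq]
  have h1 := map_derivedSeries_subtype_le K 1 (by rw [derivedSeries_one]; exact inf_le_left) j
  rw [add_comm, h, le_bot_iff, Subgroup.map_eq_bot_iff_of_injective _ K.subtype_injective] at h1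
  rw [← map_derivedSeries_eq hsurj j, h1, Subgroup.map_bot]

theorem iterated_ne_bot (G : Type) [Group G] (q0 : G) (hq0 : q0 ≠ 1) :
    ∀ k : ℕ, derivedSeries (IteratedWreathProduct G (k + 1)) k ≠ ⊥ := by
  intro k
  induction k with
  | zero =>
    intro h
    rw [derivedSeries_zero] at h
    let w : IteratedWreathProduct G (0 + 1) :=
      (RegularWreathProduct.inl q0 : IteratedWreathProduct G 0 ≀ᵣ G)
    have h1 : w ∈ (⊤ : Subgroup (IteratedWreathProduct G (0 + 1))) := Subgroup.mem_top _
    rw [h, Subgroup.mem_bot] at h1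
    have h2 : (RegularWreathProduct.inl q0 : IteratedWreathProduct G 0 ≀ᵣ G) = 1 := h1
    exact hq0 (congrArg RegularWreathProduct.right h2)
  | succ k ih =>
    intro h
    exact ih (wreath_derived q0 hq0 k h)

theorem lower (p : ℕ) [Fact p.Prime] (n : ℕ) (hn : 1 ≤ n) (P : Sylow p (Equiv.Perm (Fin n)))
    (hk : 1 ≤ Nat.log p n) :
    derivedSeries ↥(P : Subgroup (Equiv.Perm (Fin n))) (Nat.log p n - 1) ≠ ⊥ := by
  have hp : p.Prime := Fact.out
  obtain ⟨k, hk'⟩ : ∃ k, Nat.log p n = k + 1 := ⟨Nat.log p n - 1, by omega⟩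
  rw [hk', Nat.add_sub_cancel]
  let G := Multiplicative (ZMod p)
  have hG : Nat.card G = p := by
    show Nat.card (Multiplicative (ZMod p)) = p
    rw [Nat.card_eq_fintype_card, Fintype.card_multiplicative, ZMod.card]
  obtain ⟨q0, hq0⟩ : ∃ q0 : G, q0 ≠ 1 := by
    have : Nontrivial G := by
      rw [← Finite.one_lt_card_iff_nontrivial, hG]; exact hp.one_lt
    exact exists_ne 1
  have hW : IsPGroup p (IteratedWreathProduct G (k + 1)) := by
    apply IsPGroup.of_card (n := ∑ i ∈ Finset.range (k + 1), p ^ i)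
    rw [IteratedWreathProduct.card, hG]
  have hcard : Fintype.card (Fin (k + 1) → G) ≤ Fintype.card (Fin n) := by
    rw [← Nat.card_eq_fintype_card, ← Nat.card_eq_fintype_card, Nat.card_fun, hG, Nat.card_fin,
      Nat.card_fin, ← hk']
    exact Nat.pow_log_le_self p (by omega)
  obtain ⟨ι⟩ := Function.Embedding.nonempty_of_card_le hcard
  let f1 : IteratedWreathProduct G (k + 1) →* Equiv.Perm (Fin n) :=
    (Equiv.Perm.viaEmbeddingHom ι).comp (iteratedWreathToPermHom G (k + 1))
  have hf1 : Function.Injective f1 :=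
    (Equiv.Perm.viaEmbeddingHom_injective ι).comp (iteratedWreathToPermHomInj G (k + 1))
  have hR : IsPGroup p f1.range := hW.of_surjective f1.rangeRestrict f1.rangeRestrict_surjective
  obtain ⟨Q, hQ⟩ := hR.exists_le_sylow
  let F : IteratedWreathProduct G (k + 1) →* ↥(P : Subgroup (Equiv.Perm (Fin n))) :=
    (Sylow.equiv Q P).toMonoidHom.comp ((Subgroup.inclusion hQ).comp f1.rangeRestrict)
  have hF : Function.Injective F := by
    refine (Sylow.equiv Q P).injective.comp ((Subgroup.inclusion_injective hQ).comp ?_)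
    exact MonoidHom.rangeRestrict_injective_iff.2 hf1
  intro h
  have h1 := map_derivedSeries_le_derivedSeries F k
  rw [h, le_bot_iff, Subgroup.map_eq_bot_iff_of_injective _ hF] at h1
  exact iterated_ne_bot G q0 hq0 k h1

/-- Let p be a prime, n ≥ 1, and P a Sylow p-subgroup of the symmetric group on n letters. Then the derived length of P is exactly k = ⌊log_p n⌋ (the largest k with p^k ≤ n): the k-th derived subgroup of P is trivial and, when k ≥ 1, the (k−1)-st is not. -/
theorem result (p : ℕ) [Fact p.Prime] (n : ℕ) (hn : 1 ≤ n) (P : Sylow p (Equiv.Perm (Fin n))) : derivedSeries ↥(P : Subgroup (Equiv.Perm (Fin n))) (Nat.log p n) = ⊥ ∧ (1 ≤ Nat.log p n → derivedSeries ↥(P : Subgroup (Equiv.Perm (Fin n))) (Nat.log p n - 1) ≠ ⊥) :=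
  ⟨upper p n hn P P.2, lower p n hn P⟩

end Cfsg.Agent.S4014
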