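import Cfsg.Statements.S0519
import Cfsg.Agent.Lib.Helper73.Cyc2Normal
import Cfsg.Agent.Lib.Helper73.DihedralRec
import Cfsg.Agent.Lib.Helper29.NormalRankTwo
import Cfsg.Agent.Lib.Helper25.SelfCentralizing

set_option autoImplicit false
open Cfsg

namespace Cfsg.Agent.S0519

open Cfsg.Agent.Lib.Helper73

theorem two_case {P : Type*} [Group P] [Finite P]
    (hP : IsPGroup 2 P) (hn : ∀ A : Subgroup P, A.Normal → IsMulCommutative A → IsCyclic A)
    (hm : ∃ B : Subgroup P, IsMulCommutative B ∧ ¬ IsCyclic B) :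
    ((∃ n : ℕ, Nonempty (P ≃* QuaternionGroup n)) ∨ (∃ n : ℕ, 8 ≤ n ∧ Nonempty (P ≃* DihedralGroup n)) ∨
      Cfsg.IsQuasiDihedral P) := by
  have : Fact (Nat.Prime 2) := ⟨Nat.prime_two⟩
  have hnil : Group.IsNilpotent P := hP.isNilpotent
  obtain ⟨A, hAn, hAc, hCA⟩ := Cfsg.Agent.Lib.Helper25.exists_normal_abelian_selfCentralizing (R := P)
  obtain ⟨a', ha'⟩ := hn A hAn hAc
  obtain ⟨a, haA⟩ : ∃ a : P, a = a' := ⟨_, rfl⟩
  have hAeq : A = Subgroup.zpowers a := by
    apply le_antisymm
    · intro x hx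
      obtain ⟨i, hi⟩ := Subgroup.mem_zpowers_iff.mp (ha' ⟨x, hx⟩)
      rw [Subgroup.mem_zpowers_iff]
      exact ⟨i, by rw [haA, ← Subgroup.coe_zpow, hi]⟩
    · rw [Subgroup.zpowers_le, haA]; exact a'.2
  have hcent : ∀ g : P, g * a = a * g → g ∈ Subgroup.zpowers a := by
    intro g hg
    rw [← hAeq]
    apply hCA
    rw [Subgroup.mem_centralizer_iff]
    intro x hx
    rw [SetLike.mem_coe, hAeq] at hx
    obtain ⟨i, rfl⟩ := Subgroup.mem_zpowers_iff.mp hx
    exact ((Commute.zpow_right (show Commute g a from hg) i)).symm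
  have hnorm : ∀ g : P, g * a * g⁻¹ ∈ Subgroup.zpowers a := by
    intro g
    rw [← hAeq]
    exact hAn.conj_mem a (by rw [hAeq]; exact Subgroup.mem_zpowers a) g
  have htop : Subgroup.zpowers a ≠ ⊤ := by
    intro htop
    obtain ⟨B, -, hB⟩ := hm
    have : IsCyclic P := ⟨a, fun x => by
      have hx : x ∈ Subgroup.zpowers a := by rw [htop]; trivial
      exact Subgroup.mem_zpowers_iff.mp hx⟩
    exact hB inferInstance
  obtain ⟨x₀, hx₀⟩ : ∃ x₀ : P, x₀ ∉ Subgroup.zpowers a := by
    by_contra hcon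
    push Not at hcon
    exact htop (eq_top_iff.mpr fun x _ => hcon x)
  obtain ⟨m, hm'⟩ := hP.exists_orderOf_eq_pow a
  have hm2 : 2 ≤ m := by
    by_contra hcon
    have ha2 : a ^ 2 = 1 := by
      have h1 : orderOf a ∣ 2 := by
        rw [hm']
        have : m = 0 ∨ m = 1 := by omega
        rcases this with rfl | rfl <;> norm_num
      exact orderOf_dvd_iff_pow_eq_one.mp h1
    apply hx₀
    apply hcent
    rcases eq_one_or_eq_of_mem_zpowers ha2 (hnorm x₀) with h | h
    · have : a = 1 := by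
        have h1 : a = x₀⁻¹ * (x₀ * a * x₀⁻¹) * x₀ := by group
        rw [h1, h]; group
      rw [this]; simp
    · calc x₀ * a = x₀ * a * x₀⁻¹ * x₀ := by group
        _ = a * x₀ := by rw [h]
  obtain ⟨k, rfl⟩ : ∃ k, m = k + 2 := ⟨m - 2, by omega⟩
  obtain ⟨M, hM⟩ : ∃ M, M = 2 ^ k := ⟨_, rfl⟩
  have hMpos : 0 < M := by rw [hM]; positivity
  have hoa : orderOf a = 4 * M := by rw [hm', hM]; ring
  have ha4 : a ^ (4 * M) = 1 := by rw [← hoa]; exact pow_orderOf_eq_one a
  obtain ⟨c, hcdef⟩ : ∃ c, c = a ^ (2 * M) := ⟨_, rfl⟩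
  have hc2 : c * c = 1 := by rw [hcdef, ← pow_add, ← ha4]; congr 1; ring
  have hc1 : c ≠ 1 := by
    rw [hcdef]; intro h1
    have := orderOf_dvd_of_pow_eq_one h1
    rw [hoa] at this
    have := Nat.le_of_dvd (by positivity) this
    omega
  have hcc : ∀ g : P, g * c * g⁻¹ = c := by
    intro g; rw [hcdef]
    exact conj_half a (2 * M) (by omega) (by rw [hoa]; ring) g (hnorm g)
  have hcA : c ∈ Subgroup.zpowers a := by rw [hcdef]; exact Subgroup.npow_mem_zpowers a _
  -- a normal four-group gives a contradiction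
  have hfour : ∀ b : P, b ∉ Subgroup.zpowers a → b ^ 2 = 1 →
      (∀ g : P, g * b * g⁻¹ = b ∨ g * b * g⁻¹ = c * b) → False := by
    intro b hb hb2 hconj
    have hb2' : b * b = 1 := by rw [← sq]; exact hb2
    have hcb : b * c = c * b := by
      calc b * c = b * c * b⁻¹ * b := by group
        _ = c * b := by rw [hcc b]
    have hb1 : b ≠ 1 := by rintro rfl; exact hb (one_mem _)
    have hbc : b ≠ c := by rintro rfl; exact hb hcA
    exact fourGroup_not_isCyclic c b hc2 hb2' hcb hc1 hb1 hbc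
      (hn _ (fourGroup_normal c b hc2 hb2' hcb hcc hconj) (fourGroup_comm c b hc2 hb2' hcb))
  rcases cyc2_normal_core hP a k M hM hoa hnorm hcent ⟨x₀, hx₀⟩ with
    ⟨hidx, b, hb, h⟩ | ⟨hM2, b, hb, hb2, hba⟩
  · have hcard : Nat.card P = 8 * M := by
      have := (Subgroup.zpowers a).card_mul_index
      rw [hidx, Nat.card_zpowers, hoa] at this
      omega
    rcases h with ⟨hb2, hba⟩ | ⟨hb2, hba⟩ | ⟨hM2, hb2, hba⟩
    · by_cases hM1 : M = 1
      · -- dihedral of order 8 has a normal four-group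
        exfalso
        subst hM1
        apply hfour b hb hb2
        have hbi : ∀ i : ℕ, a ^ i * b * (a ^ i)⁻¹ = b ∨ a ^ i * b * (a ^ i)⁻¹ = c * b := by
          intro i
          have h1 : b * (a ^ i)⁻¹ * b⁻¹ = a ^ i := by
            have : b * (a ^ i)⁻¹ * b⁻¹ = ((b * a * b⁻¹) ^ i)⁻¹ := by rw [conj_pow]; group
            rw [this, hba, inv_pow, inv_inv]
          have h2 : a ^ i * b * (a ^ i)⁻¹ = c ^ i * b := by
            calc a ^ i * b * (a ^ i)⁻¹ = a ^ i * (b * (a ^ i)⁻¹ * b⁻¹) * b := by group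
              _ = c ^ i * b := by rw [h1, hcdef, ← pow_add, ← pow_mul]; congr 2; ring
          rw [h2]
          rcases eq_one_or_eq_of_mem_zpowers (by rw [sq]; exact hc2)
            (Subgroup.npow_mem_zpowers c i) with h | h
          · left; rw [h, one_mul]
          · right; rw [h]
        have hfin : IsOfFinOrder a := isOfFinOrder_of_finite a
        intro g
        by_cases hg : g ∈ Subgroup.zpowers a
        · have h3 := (hfin.mem_powers_iff_mem_zpowers).mpr hg
          rw [Submonoid.mem_powers_iff] at h3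
          obtain ⟨i, rfl⟩ := h3
          exact hbi i
        · have hgb : g * b⁻¹ ∈ Subgroup.zpowers a := by
            rw [Subgroup.mul_mem_iff_of_index_two hidx]
            simp [hg, hb]
          have h3 := (hfin.mem_powers_iff_mem_zpowers).mpr hgb
          rw [Submonoid.mem_powers_iff] at h3
          obtain ⟨i, hi⟩ := h3
          have e : g * b * g⁻¹ = (g * b⁻¹) * b * (g * b⁻¹)⁻¹ := by group
          rw [e, ← hi]
          exact hbi i
      · right; left
        refine ⟨4 * M, by omega, ?_⟩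
        have : NeZero (4 * M) := ⟨by omega⟩
        exact nonempty_mulEquiv_dihedralGroup (4 * M) a b hoa hb2 hba hb (by rw [hcard]; ring)
    · left
      refine ⟨2 * M, ?_⟩
      have : NeZero (2 * M) := ⟨by omega⟩
      exact nonempty_mulEquiv_quaternionGroup (2 * M) a b (by rw [hoa]; ring) hb2 hba hb
        (by rw [hcard]; ring)
    · right; right
      have hk : 1 ≤ k := by
        rcases k with _ | k
        · rw [hM] at hM2; omega
        · omega
      refine ⟨k + 2, by omega, by rw [hcard, hM]; ring, a, b, hm', ?_, ?_⟩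
      · apply orderOf_eq_prime hb2
        rintro rfl; exact hb (one_mem _)
      · rw [hba]; congr 1
        rw [show k + 2 - 1 = k + 1 by omega, hM]; ring_nf
  · exfalso
    apply hfour b hb hb2
    intro g
    rw [hcdef]
    exact conj_modular a b k M hM hM2 hoa hnorm hcent hb2 hba g

/-- Let P be a finite p-group in which every abelian normal subgroup is cyclic, but which has a non-cyclic abelian
subgroup. Then p = 2 and P is generalized quaternion, dihedral of order at least 16, or quasi-dihedral. -/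
theorem result {P : Type*} [Group P] [Finite P] (p : ℕ) [Fact p.Prime]
    (hP : IsPGroup p P) (hn : ∀ A : Subgroup P, A.Normal → IsMulCommutative A → IsCyclic A)
    (hm : ∃ B : Subgroup P, IsMulCommutative B ∧ ¬ IsCyclic B) :
    p = 2 ∧ ((∃ n : ℕ, Nonempty (P ≃* QuaternionGroup n)) ∨ (∃ n : ℕ, 8 ≤ n ∧ Nonempty (P ≃* DihedralGroup n)) ∨
      Cfsg.IsQuasiDihedral P) := by
  have hp : p.Prime := Fact.out
  by_cases hp2 : p = 2
  · subst hp2
    exact ⟨rfl, two_case hP hn hm⟩
  · exfalso
    have hnc' : ¬ IsCyclic (⊤ : Subgroup P) := by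
      intro h
      have h1 : IsCyclic P := isCyclic_of_surjective (Subgroup.topEquiv : (⊤ : Subgroup P) ≃* P)
        (Subgroup.topEquiv : (⊤ : Subgroup P) ≃* P).surjective
      obtain ⟨B, -, hB⟩ := hm
      exact hB inferInstance
    obtain ⟨A, -, hAn, hAc, hAp, hAcard⟩ :=
      Cfsg.Agent.Lib.Helper29.exists_normal_elemAb_sq_of_not_isCyclic hp2 hP ⊤ hnc'
    have hcyc := hn A hAn hAc
    obtain ⟨g, hg⟩ := isCyclic_iff_exists_orderOf_eq_natCard.mp hcyc
    have h1 : (g : P) ^ p = 1 := hAp g g.2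
    have h2 : orderOf g ∣ p := by
      rw [← Subgroup.orderOf_coe]; exact orderOf_dvd_of_pow_eq_one h1
    rw [hg, hAcard] at h2
    have := Nat.le_of_dvd hp.pos h2
    have h3 := hp.two_le
    nlinarith

end Cfsg.Agent.S0519
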