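import Cfsg.Statements.S2353
import Cfsg.Agent.Lib.Helper39.PolyMat

set_option autoImplicit false
open Cfsg

namespace Cfsg.Agent.S2353

open Polynomial Cfsg.Agent.Lib.Helper39

/-- lower unitriangular element of `GL₂`. -/
def lo {R : Type*} [CommRing R] (p : R) : Matrix.GeneralLinearGroup (Fin 2) R :=
  ⟨!![1, 0; p, 1], !![1, 0; -p, 1], by simp [Matrix.one_fin_two],
    by simp [Matrix.one_fin_two]⟩

/-- upper unitriangular element of `GL₂`. -/
def up {R : Type*} [CommRing R] (p : R) : Matrix.GeneralLinearGroup (Fin 2) R :=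
  ⟨!![1, p; 0, 1], !![1, -p; 0, 1], by simp [Matrix.one_fin_two],
    by simp [Matrix.one_fin_two]⟩

theorem lo_inv {R : Type*} [CommRing R] (p : R) : (lo p)⁻¹ = lo (-p) := by
  apply Units.ext; rfl

theorem up_inv {R : Type*} [CommRing R] (p : R) : (up p)⁻¹ = up (-p) := by
  apply Units.ext; rfl

theorem lo_mul {R : Type*} [CommRing R] (p q : R) : lo p * lo q = lo (p + q) := by
  apply Units.ext
  simp [lo, add_comm]

theorem up_mul {R : Type*} [CommRing R] (p q : R) : up p * up q = up (p + q) := by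
  apply Units.ext
  simp [up, add_comm]

theorem dominant_lo {F : Type*} [Field F] (p : F[X]) (hp : 0 < p.degree) :
    Dominant (lo p : Matrix (Fin 2) (Fin 2) F[X]) 1 0 := by
  have hp0 : p ≠ 0 := by rintro rfl; simp at hp
  refine ⟨by simpa [lo] using hp0, ?_, ?_⟩
  · intro i hi
    fin_cases i
    · simpa [lo] using hp
    · exact absurd rfl hi
  · intro i j
    fin_cases i <;> fin_cases j <;> simp [lo, hp.le]

theorem dominant_up {F : Type*} [Field F] (p : F[X]) (hp : 0 < p.degree) :
    Dominant (up p : Matrix (Fin 2) (Fin 2) F[X]) 0 1 := by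
  have hp0 : p ≠ 0 := by rintro rfl; simp at hp
  refine ⟨by simpa [up] using hp0, ?_, ?_⟩
  · intro i hi
    fin_cases i
    · exact absurd rfl hi
    · simpa [up] using hp
  · intro i j
    fin_cases i <;> fin_cases j <;> simp [up, hp.le]

theorem deg_pow {F : Type*} [Field F] (i : ℕ) : 0 < ((X : F[X]) ^ (i + 1)).degree := by
  rw [degree_X_pow]; exact_mod_cast Nat.succ_pos i

theorem deg_neg_pow {F : Type*} [Field F] (i : ℕ) : 0 < (-(X : F[X]) ^ (i + 1)).degree := by
  rw [degree_neg]; exact deg_pow i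

theorem deg_diff {F : Type*} [Field F] (i j : ℕ) (hij : i ≠ j) :
    0 < (-(X : F[X]) ^ (i + 1) + X ^ (j + 1)).degree := by
  rcases lt_or_gt_of_ne hij with h | h
  · rw [degree_add_eq_right_of_degree_lt]
    · exact deg_pow j
    · rw [degree_neg, degree_X_pow, degree_X_pow]; exact_mod_cast Nat.succ_lt_succ h
  · rw [degree_add_eq_left_of_degree_lt]
    · exact deg_neg_pow i
    · rw [degree_neg, degree_X_pow, degree_X_pow]; exact_mod_cast Nat.succ_lt_succ h

theorem deg_diff' {F : Type*} [Field F] (i j : ℕ) (hij : i ≠ j) :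
    0 < ((X : F[X]) ^ (i + 1) + -X ^ (j + 1)).degree := by
  rw [add_comm]; exact deg_diff j i hij.symm

theorem entry_lo {F : Type*} [Field F] (p : F[X]) :
    EntryDegLE (lo p : Matrix (Fin 2) (Fin 2) F[X]) p.natDegree := by
  intro i j
  fin_cases i <;> fin_cases j <;> simp [lo]

theorem entry_up {F : Type*} [Field F] (p : F[X]) :
    EntryDegLE (up p : Matrix (Fin 2) (Fin 2) F[X]) p.natDegree := by
  intro i j
  fin_cases i <;> fin_cases j <;> simp [up]

/-- the special linear versions. -/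
def sl {F : Type*} [Field F] (t : F) (i : ℕ) : Matrix.SpecialLinearGroup (Fin 2) F :=
  ⟨!![1, 0; t ^ (i + 1), 1] * !![1, t ^ (i + 1); 0, 1], by simp [Matrix.det_fin_two]⟩

theorem base_up {F : Type*} [Field F] (p : F[X]) (hp : 0 < p.degree) :
    (up p : Matrix (Fin 2) (Fin 2) F[X]).mulVec ![1, 1] ∈ Lead (0 : Fin 2) := by
  have h1 : ((1 : F[X]) + p).degree = p.degree :=
    degree_add_eq_right_of_degree_lt (by simpa using hp)
  have hv : (up p : Matrix (Fin 2) (Fin 2) F[X]).mulVec ![1, 1] = ![1 + p, 1] := by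
    ext i; fin_cases i <;> simp [up, Matrix.mulVec, dotProduct]
  rw [hv]
  refine ⟨?_, ?_⟩
  · intro h0
    simp only [Matrix.cons_val_zero] at h0
    rw [h0] at h1
    rw [← h1] at hp
    simp at hp
  · intro j hj
    fin_cases j
    · exact absurd rfl hj
    · simpa [h1] using hp

theorem base_lo {F : Type*} [Field F] (p : F[X]) (hp : 0 < p.degree) :
    (lo p : Matrix (Fin 2) (Fin 2) F[X]).mulVec ![1, 1] ∈ Lead (1 : Fin 2) := by
  have h1 : (p + (1 : F[X])).degree = p.degree :=
    degree_add_eq_left_of_degree_lt (by simpa using hp)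
  have hv : (lo p : Matrix (Fin 2) (Fin 2) F[X]).mulVec ![1, 1] = ![1, p + 1] := by
    ext i; fin_cases i <;> simp [lo, Matrix.mulVec, dotProduct]
  rw [hv]
  refine ⟨?_, ?_⟩
  · intro h0
    simp only [Matrix.cons_val_one, Matrix.cons_val_zero] at h0
    rw [h0] at h1
    rw [← h1] at hp
    simp at hp
  · intro j hj
    fin_cases j
    · simpa [h1] using hp
    · exact absurd rfl hj

theorem key {F : Type*} [Field F] (w : FreeGroup ℕ) (hw : w ≠ 1) :
    ∃ d : F[X], d ≠ 0 ∧ d.natDegree ≤ (w.toWord.map (fun x => (x.1 + 1) + (x.1 + 1))).sum ∧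
      ∀ t : F, d.eval t =
        ((FreeGroup.lift (sl t) w : Matrix.SpecialLinearGroup (Fin 2) F) : Matrix (Fin 2) (Fin 2) F) 0 0 +
        ((FreeGroup.lift (sl t) w : Matrix.SpecialLinearGroup (Fin 2) F) : Matrix (Fin 2) (Fin 2) F) 0 1 -
        ((FreeGroup.lift (sl t) w : Matrix.SpecialLinearGroup (Fin 2) F) : Matrix (Fin 2) (Fin 2) F) 1 0 -
        ((FreeGroup.lift (sl t) w : Matrix.SpecialLinearGroup (Fin 2) F) : Matrix (Fin 2) (Fin 2) F) 1 1 := by
  classical
  let _ := glAction (Fin 2) F[X]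
  set U : ℕ → Matrix.GeneralLinearGroup (Fin 2) F[X] := fun i => lo (X ^ (i + 1)) with hU
  set T : ℕ → Matrix.GeneralLinearGroup (Fin 2) F[X] := fun i => up (X ^ (i + 1)) with hT
  set z₀ : Fin 2 → F[X] := ![1, 1] with hz₀
  have hpp := pingpong_UT U T (Lead (1 : Fin 2)) (Lead (0 : Fin 2)) z₀
    (fun i z hz => (dominant_lo _ (deg_pow i)).mulVec_mem hz)
    (fun i z hz => by
      rw [hU, lo_inv]; exact (dominant_lo _ (deg_neg_pow i)).mulVec_mem hz)
    (fun i j hij z hz => by
      rw [hU]; simp only [lo_inv, lo_mul]; exact (dominant_lo _ (deg_diff i j hij)).mulVec_mem hz)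
    (fun i z hz => (dominant_up _ (deg_pow i)).mulVec_mem hz)
    (fun i z hz => by
      rw [hT, up_inv]; exact (dominant_up _ (deg_neg_pow i)).mulVec_mem hz)
    (fun i j hij z hz => by
      rw [hT]; simp only [up_inv, up_mul]; exact (dominant_up _ (deg_diff' i j hij)).mulVec_mem hz)
    (fun i => base_up _ (deg_pow i))
    (fun i => by rw [hU, lo_inv]; exact base_lo _ (deg_neg_pow i))
    w hw
  set W : Matrix.GeneralLinearGroup (Fin 2) F[X] := FreeGroup.lift (fun i => U i * T i) w with hW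
  have hWz : W • z₀ = (W : Matrix (Fin 2) (Fin 2) F[X]).mulVec z₀ := rfl
  have hv0 : (W : Matrix (Fin 2) (Fin 2) F[X]).mulVec z₀ 0 =
      (W : Matrix (Fin 2) (Fin 2) F[X]) 0 0 + (W : Matrix (Fin 2) (Fin 2) F[X]) 0 1 := by
    simp [hz₀, Matrix.mulVec, dotProduct]
  have hv1 : (W : Matrix (Fin 2) (Fin 2) F[X]).mulVec z₀ 1 =
      (W : Matrix (Fin 2) (Fin 2) F[X]) 1 0 + (W : Matrix (Fin 2) (Fin 2) F[X]) 1 1 := by
    simp [hz₀, Matrix.mulVec, dotProduct]
  have hdeg : EntryDegLE (W : Matrix (Fin 2) (Fin 2) F[X])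
      ((w.toWord.map (fun x => (x.1 + 1) + (x.1 + 1))).sum) := by
    refine entryDegLE_lift (fun i => U i * T i) (fun i => (i + 1) + (i + 1)) ?_ ?_ w
    · intro i
      rw [Units.val_mul]
      refine EntryDegLE.mul ?_ ?_
      · simpa using entry_lo ((X : F[X]) ^ (i + 1))
      · simpa using entry_up ((X : F[X]) ^ (i + 1))
    · intro i
      rw [mul_inv_rev, Units.val_mul, hU, hT, lo_inv, up_inv]
      refine EntryDegLE.mul ?_ ?_
      · simpa using entry_up (-(X : F[X]) ^ (i + 1))
      · simpa using entry_lo (-(X : F[X]) ^ (i + 1))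
  refine ⟨(W : Matrix (Fin 2) (Fin 2) F[X]) 0 0 + (W : Matrix (Fin 2) (Fin 2) F[X]) 0 1 -
      (W : Matrix (Fin 2) (Fin 2) F[X]) 1 0 - (W : Matrix (Fin 2) (Fin 2) F[X]) 1 1, ?_, ?_, ?_⟩
  · intro h0
    have heq : (W : Matrix (Fin 2) (Fin 2) F[X]).mulVec z₀ 0 =
        (W : Matrix (Fin 2) (Fin 2) F[X]).mulVec z₀ 1 := by
      rw [hv0, hv1]; linear_combination h0
    rw [hWz] at hpp
    rcases hpp with h | h
    · have := h.2 0 (by decide)
      rw [heq] at this
      exact lt_irrefl _ this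
    · have := h.2 1 (by decide)
      rw [heq] at this
      exact lt_irrefl _ this
  · refine le_trans (natDegree_sub_le _ _) (max_le ?_ (hdeg 1 1))
    refine le_trans (natDegree_sub_le _ _) (max_le ?_ (hdeg 1 0))
    exact le_trans (natDegree_add_le _ _) (max_le (hdeg 0 0) (hdeg 0 1))
  · intro t
    have h1 : Matrix.GeneralLinearGroup.map (evalRingHom t) W =
        Matrix.SpecialLinearGroup.toGL (FreeGroup.lift (sl t) w) := by
      rw [hW, map_lift, map_lift]
      congr 2
      funext i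
      apply Units.ext
      rw [Matrix.SpecialLinearGroup.coe_GL_coe_matrix]
      ext a b
      fin_cases a <;> fin_cases b <;>
        simp [hU, hT, lo, up, sl, Matrix.GeneralLinearGroup.map, Matrix.mul_apply, Fin.sum_univ_two]
    have h2 : ∀ a b, ((FreeGroup.lift (sl t) w : Matrix.SpecialLinearGroup (Fin 2) F) :
        Matrix (Fin 2) (Fin 2) F) a b = ((W : Matrix (Fin 2) (Fin 2) F[X]) a b).eval t := by
      intro a b
      have := congrArg (fun g : Matrix.GeneralLinearGroup (Fin 2) F =>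
        (g : Matrix (Fin 2) (Fin 2) F) a b) h1
      simpa using this.symm
    simp only [h2, eval_sub, eval_add]

/-- A non-trivial law holds in PSL_2 over only finitely many finite fields: for every non-trivial element w of the free group on countably many generators there is N such that over every finite field with at least N elements some substitution of elements of PSL_2 into w is not the identity. -/
theorem result (w : FreeGroup ℕ) (hw : w ≠ 1) :
    ∃ N : ℕ, ∀ (F : Type*) [Field F] [Fintype F], N ≤ Fintype.card F →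
      ∃ f : ℕ → Matrix.ProjectiveSpecialLinearGroup (Fin 2) F, FreeGroup.lift f w ≠ 1 := by
  refine ⟨(w.toWord.map (fun x => (x.1 + 1) + (x.1 + 1))).sum + 1, ?_⟩
  intro F _ _ hN
  obtain ⟨d, hd0, hdeg, hev⟩ := key (F := F) w hw
  obtain ⟨t, ht⟩ := exists_eval_ne_zero_of_natDegree_lt_card d hd0 (by
    rw [Cardinal.mk_fintype]
    exact_mod_cast lt_of_le_of_lt hdeg (Nat.lt_of_succ_le hN))
  refine ⟨fun i => QuotientGroup.mk' _ (sl t i), ?_⟩
  intro h1
  rw [← map_lift] at h1
  have hc : FreeGroup.lift (sl t) w ∈ Subgroup.center (Matrix.SpecialLinearGroup (Fin 2) F) := by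
    simpa using h1
  rw [Matrix.SpecialLinearGroup.mem_center_iff] at hc
  obtain ⟨r, -, hr⟩ := hc
  apply ht
  rw [hev t, ← hr]
  simp

end Cfsg.Agent.S2353
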