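import Cfsg.Statements.S2352
import Cfsg.Agent.S2353

set_option autoImplicit false
open Cfsg

namespace Cfsg.Agent.S2352

open Cfsg.Agent.Lib.Helper39

/-- Every finite group embeds in the alternating group of degree `n` for `n ≥ 2 * |H|`. -/
theorem exists_embedding_alternating (H : Type) [Group H] [Finite H] (n : ℕ)
    (hn : 2 * Nat.card H ≤ n) :
    ∃ ψ : H →* alternatingGroup (Fin n), Function.Injective ψ := by
  classical
  haveI := Fintype.ofFinite H
  have hcard : Fintype.card (H ⊕ H) ≤ Fintype.card (Fin n) := by
    rw [Fintype.card_sum, Fintype.card_fin, ← Nat.card_eq_fintype_card]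
    omega
  obtain ⟨ι⟩ := Function.Embedding.nonempty_of_card_le hcard
  let e : (H ⊕ H) ≃ Subtype (fun x => x ∈ Set.range ι) := Equiv.ofInjective ι ι.injective
  let φ : H →* Equiv.Perm (Fin n) :=
    (Equiv.Perm.extendDomainHom e).comp
      ((Equiv.Perm.sumCongrHom H H).comp
        ((MulAction.toPermHom H H).prod (MulAction.toPermHom H H)))
  have hφ : Function.Injective φ := by
    refine (Equiv.Perm.extendDomainHom_injective e).comp
      (Equiv.Perm.sumCongrHom_injective.comp ?_)
    intro a b hab
    have := congrArg Prod.fst hab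
    exact MulAction.toPerm_injective this
  have hmem : ∀ x, φ x ∈ alternatingGroup (Fin n) := by
    intro x
    rw [Equiv.Perm.mem_alternatingGroup]
    change Equiv.Perm.sign (Equiv.Perm.extendDomain
      (Equiv.Perm.sumCongr (MulAction.toPerm x) (MulAction.toPerm x)) e) = 1
    rw [Equiv.Perm.sign_extendDomain, Equiv.Perm.sign_sumCongr]
    exact Int.units_mul_self _
  refine ⟨φ.codRestrict _ hmem, ?_⟩
  intro a b hab
  apply hφ
  exact congrArg Subtype.val hab

/-- A non-trivial law holds in only finitely many alternating groups: for every non-trivial element w of the free group on countably many generators there is N such that for all n ≥ N some substitution of elements of the alternating group of degree n into w is not the identity. -/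
theorem result (w : FreeGroup ℕ) (hw : w ≠ 1) :
    ∃ N : ℕ, ∀ n : ℕ, N ≤ n → ∃ f : ℕ → alternatingGroup (Fin n), FreeGroup.lift f w ≠ 1 := by
  obtain ⟨N, hN⟩ := Cfsg.Agent.S2353.result.{0} w hw
  obtain ⟨p, hpN, hp⟩ := Nat.exists_infinite_primes N
  haveI : Fact p.Prime := ⟨hp⟩
  obtain ⟨f, hf⟩ := hN (ZMod p) (by rw [ZMod.card]; exact hpN)
  haveI : Finite (Matrix.SpecialLinearGroup (Fin 2) (ZMod p)) := Subtype.finite
  haveI : Finite (Matrix.ProjectiveSpecialLinearGroup (Fin 2) (ZMod p)) := Quotient.finite _
  refine ⟨2 * Nat.card (Matrix.ProjectiveSpecialLinearGroup (Fin 2) (ZMod p)), ?_⟩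
  intro n hn
  obtain ⟨ψ, hψ⟩ := exists_embedding_alternating _ n hn
  refine ⟨fun i => ψ (f i), ?_⟩
  rw [← map_lift]
  intro h1
  apply hf
  apply hψ
  rw [h1, map_one]

end Cfsg.Agent.S2352
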