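import Cfsg.Statements.S2544
import Cfsg.Agent.S2421
import Cfsg.Agent.S2424
import Cfsg.Agent.S0165
import Cfsg.Agent.Lib.Helper15.CoprimeCount
import Cfsg.Agent.Lib.Helper78.DefectZero
import Cfsg.Agent.Lib.Helper5.LinearCard
import Cfsg.Agent.Lib.Helper80.Inflation

set_option autoImplicit false
open Cfsg

namespace Cfsg.Agent.S2544


section arith
open Finset


/-- q-integer -/
def Qn (q m : ℕ) : ℕ := ∑ l ∈ range m, q ^ l
/-- q-factorial -/
def Qf (q m : ℕ) : ℕ := ∏ j ∈ range m, Qn q (j + 1)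

theorem Qn_pos (q m : ℕ) : 0 < Qn q (m + 1) := by
  unfold Qn
  rw [sum_range_succ']
  simp

theorem Qf_pos (q m : ℕ) : 0 < Qf q m := prod_pos fun j _ => Qn_pos q j

theorem Qn_add (q a b : ℕ) : Qn q (a + b) = Qn q a + q ^ a * Qn q b := by
  unfold Qn
  rw [sum_range_add, mul_sum]
  simp [pow_add]

def Sx (n : ℕ) : ℕ := ∑ i ∈ range n, (1 + i) * (n - 1 - i)

theorem Sx_succ (n : ℕ) : Sx (n + 1) = Sx n + n * (n + 1) / 2 := by
  unfold Sx
  rw [sum_range_succ]
  have h1 : (1 + n) * (n + 1 - 1 - n) = 0 := by simp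
  rw [h1, add_zero]
  have h2 : ∀ i ∈ range n, (1 + i) * (n + 1 - 1 - i) = (1 + i) * (n - 1 - i) + (1 + i) := by
    intro i hi
    have := mem_range.1 hi
    have e : n + 1 - 1 - i = (n - 1 - i) + 1 := by omega
    rw [e]; ring
  rw [sum_congr rfl h2, sum_add_distrib]
  congr 1
  have h3 : ∑ i ∈ range n, (1 + i) = ∑ i ∈ range (n + 1), i := by
    rw [sum_range_succ']
    simp [add_comm]
  rw [h3, sum_range_id]
  simp [mul_comm]

theorem six_Sx (n : ℕ) : 6 * Sx (n + 1) = (n + 2) * (n + 1) * n := by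
  induction n with
  | zero => simp [Sx]
  | succ k ih =>
    rw [Sx_succ, mul_add, ih]
    have h : 2 ∣ (k + 1) * (k + 1 + 1) := (Nat.even_mul_succ_self (k+1)).two_dvd
    obtain ⟨c, hc⟩ := h
    rw [hc, Nat.mul_div_cancel_left _ (by norm_num)]
    have : 6 * c = 3 * ((k + 1) * (k + 1 + 1)) := by rw [hc]; ring
    rw [this]; ring

theorem Sx_eq (n : ℕ) : Sx n = n * (n - 1) * (n - 2) / 6 + n * (n - 1) / 2 := by
  rcases n with _ | _ | m
  · simp [Sx]
  · simp [Sx]
  · rw [Sx_succ]
    have h1 : (m + 1 + 1) * (m + 1 + 1 - 1) * (m + 1 + 1 - 2) / 6 = Sx (m + 1) := by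
      have : (m + 1 + 1) * (m + 1 + 1 - 1) * (m + 1 + 1 - 2) = 6 * Sx (m + 1) := by
        rw [six_Sx]; simp
      rw [this, Nat.mul_div_cancel_left _ (by norm_num)]
    rw [h1]
    congr 2
    simp [mul_comm]

theorem inner (q n : ℕ) (i : Fin n) :
    ∏ j ∈ Finset.univ.filter (fun j : Fin n => i < j),
      (((∑ l ∈ Finset.range (1 + j.val), q ^ l : ℕ) : ℂ) - ((∑ l ∈ Finset.range (1 + i.val), q ^ l : ℕ) : ℂ))
    = ((q ^ ((1 + i.val) * (n - 1 - i.val)) * Qf q (n - 1 - i.val) : ℕ) : ℂ) := by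
  have h1 : ∀ j ∈ Finset.univ.filter (fun j : Fin n => i < j),
      (((∑ l ∈ Finset.range (1 + j.val), q ^ l : ℕ) : ℂ) - ((∑ l ∈ Finset.range (1 + i.val), q ^ l : ℕ) : ℂ))
      = ((q ^ (1 + i.val) * Qn q (j.val - i.val) : ℕ) : ℂ) := by
    intro j hj
    have hij : i.val < j.val := (Finset.mem_filter.1 hj).2
    have e : 1 + j.val = (1 + i.val) + (j.val - i.val) := by omega
    have := Qn_add q (1 + i.val) (j.val - i.val)
    rw [← e] at this
    unfold Qn at this
    rw [this]
    unfold Qn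
    push_cast
    ring
  rw [Finset.prod_congr rfl h1, Finset.prod_filter]
  have h2 := Fin.prod_univ_eq_prod_range
    (fun j : ℕ => if i.val < j then ((q ^ (1 + i.val) * Qn q (j - i.val) : ℕ) : ℂ) else 1) n
  have h3 : (∏ a : Fin n, if i < a then ((q ^ (1 + i.val) * Qn q (a.val - i.val) : ℕ) : ℂ) else 1)
      = ∏ a : Fin n, (fun j : ℕ => if i.val < j then ((q ^ (1 + i.val) * Qn q (j - i.val) : ℕ) : ℂ) else 1) a.val := by
    apply Finset.prod_congr rfl
    intro a _
    simp only [Fin.lt_def]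
  rw [h3, h2, ← Finset.prod_filter]
  have h4 : (Finset.range n).filter (fun j => i.val < j) = Finset.Ico (i.val + 1) n := by
    ext j; simp only [Finset.mem_filter, Finset.mem_range, Finset.mem_Ico]; omega
  rw [h4, Finset.prod_Ico_eq_prod_range]
  have e5 : n - (i.val + 1) = n - 1 - i.val := by omega
  rw [e5, ← Nat.cast_prod, Finset.prod_mul_distrib, Finset.prod_const, Finset.card_range, ← pow_mul]
  congr 2
  unfold Qf
  apply Finset.prod_congr rfl
  intro d _
  congr 1
  omega

theorem key (q n : ℕ) (γ : ℂ) (T : ℕ)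
    (h : γ * (q : ℂ) ^ T *
        ∏ i : Fin n, ∏ j ∈ Finset.range (1 + i.val), ((∑ l ∈ Finset.range (j + 1), q ^ l : ℕ) : ℂ) =
      (∏ j ∈ Finset.range n, ((∑ l ∈ Finset.range (j + 1), q ^ l : ℕ) : ℂ)) *
        ∏ i : Fin n, ∏ j ∈ Finset.univ.filter (fun j : Fin n => i < j),
          (((∑ l ∈ Finset.range (1 + j.val), q ^ l : ℕ) : ℂ) - ((∑ l ∈ Finset.range (1 + i.val), q ^ l : ℕ) : ℂ))) :
    γ * (q : ℂ) ^ T = (q : ℂ) ^ Sx n := by
  have hL : ∏ i : Fin n, ∏ j ∈ Finset.range (1 + i.val), ((∑ l ∈ Finset.range (j + 1), q ^ l : ℕ) : ℂ)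
      = ((∏ i ∈ range n, Qf q (i + 1) : ℕ) : ℂ) := by
    rw [← Fin.prod_univ_eq_prod_range (fun i => Qf q (i + 1)) n]
    push_cast
    apply Finset.prod_congr rfl
    intro i _
    unfold Qf Qn
    rw [add_comm 1 i.val]
    push_cast
    rfl
  have hR1 : (∏ j ∈ Finset.range n, ((∑ l ∈ Finset.range (j + 1), q ^ l : ℕ) : ℂ)) = ((Qf q n : ℕ) : ℂ) := by
    unfold Qf Qn
    push_cast
    rfl
  have hR2 : ∏ i : Fin n, ∏ j ∈ Finset.univ.filter (fun j : Fin n => i < j),
          (((∑ l ∈ Finset.range (1 + j.val), q ^ l : ℕ) : ℂ) - ((∑ l ∈ Finset.range (1 + i.val), q ^ l : ℕ) : ℂ))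
      = ((q ^ Sx n * ∏ i ∈ range n, Qf q i : ℕ) : ℂ) := by
    rw [Finset.prod_congr rfl (fun i _ => inner q n i), ← Nat.cast_prod,
      Fin.prod_univ_eq_prod_range (fun i => q ^ ((1 + i) * (n - 1 - i)) * Qf q (n - 1 - i)) n,
      Finset.prod_mul_distrib, Finset.prod_pow_eq_pow_sum,
      Finset.prod_range_reflect (fun i => Qf q i) n]
    rfl
  have hshift : ∏ i ∈ range n, Qf q (i + 1) = (∏ i ∈ range n, Qf q i) * Qf q n := by
    have a := Finset.prod_range_succ (fun i => Qf q i) n
    have b := Finset.prod_range_succ' (fun i => Qf q i) n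
    rw [a] at b
    have c : Qf q 0 = 1 := by simp [Qf]
    rw [c, mul_one] at b
    exact b.symm
  rw [hL, hR1, hR2, hshift] at h
  have hne : (((∏ i ∈ range n, Qf q i) * Qf q n : ℕ) : ℂ) ≠ 0 := by
    have : 0 < (∏ i ∈ range n, Qf q i) * Qf q n :=
      Nat.mul_pos (prod_pos fun i _ => Qf_pos q i) (Qf_pos q n)
    exact_mod_cast this.ne'
  apply mul_right_cancel₀ hne
  rw [h]
  push_cast
  ring


end arith

open scoped MatrixGroups

section grp

theorem fixedPointCharacter_central {G : Type*} [Group G] (H : Subgroup G) (z : G)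
    (hz : z ∈ Subgroup.center G) (hzH : z ∈ H) :
    Cfsg.fixedPointCharacter H z = Cfsg.fixedPointCharacter H 1 := by
  unfold Cfsg.fixedPointCharacter
  have h : MulAction.fixedBy (G ⧸ H) z = MulAction.fixedBy (G ⧸ H) (1 : G) := by
    ext x
    obtain ⟨g, rfl⟩ := QuotientGroup.mk_surjective x
    simp only [MulAction.mem_fixedBy, one_smul, iff_true]
    change ((z * g : G) : G ⧸ H) = (g : G ⧸ H)
    rw [eq_comm, QuotientGroup.eq, ← (Subgroup.mem_center_iff.1 hz g), ← mul_assoc, inv_mul_cancel, one_mul]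
    exact hzH
  rw [h]

variable {F : Type*} [Field F] [Fintype F]

theorem st_irr (n : ℕ) :
    Cfsg.IsIrrCharacter (GL (Fin n) F) (Cfsg.unipotentCharacterGL n F (fun _ => 1)) :=
  Cfsg.Agent.S2421.result (fun _ => 1) monotone_const (by simp)

theorem st_one (n : ℕ) :
    Cfsg.unipotentCharacterGL n F (fun _ => 1) 1 = ((Fintype.card F : ℕ) : ℂ) ^ (n * (n - 1) / 2) := by
  have h := Cfsg.Agent.S2424.result (F := F) rfl (n := n) (fun _ => 1) monotone_const (by simp)
  have h2 := key (Fintype.card F) n _ _ h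
  rw [Sx_eq, pow_add, mul_comm] at h2
  have hq : ((Fintype.card F : ℕ) : ℂ) ≠ 0 := by
    exact_mod_cast (Fintype.card_pos (α := F)).ne'
  exact mul_left_cancel₀ (pow_ne_zero _ hq) h2

theorem st_scalar (n : ℕ) (z : GL (Fin n) F) (r : F)
    (hz : (z : Matrix (Fin n) (Fin n) F) = r • (1 : Matrix (Fin n) (Fin n) F)) :
    Cfsg.unipotentCharacterGL n F (fun _ => 1) z = Cfsg.unipotentCharacterGL n F (fun _ => 1) 1 := by
  have hc : z ∈ Subgroup.center (GL (Fin n) F) := by
    rw [Subgroup.mem_center_iff]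
    intro g
    apply Units.ext
    simp [hz]
  unfold Cfsg.unipotentCharacterGL
  apply Finset.sum_congr rfl
  intro κ _
  split_ifs with h
  · rw [fixedPointCharacter_central _ z hc]
    change (z : Matrix (Fin n) (Fin n) F).BlockTriangular _
    rw [hz]
    intro i j hij
    have hne : i ≠ j := by
      rintro rfl
      exact lt_irrefl _ hij
    simp [Matrix.one_apply, hne]
  · rfl

theorem card_GL_factor (p : ℕ) [Fact p.Prime] [CharP F p] (n : ℕ) :
    ∃ m : ℕ, m.Coprime p ∧ Nat.card (GL (Fin n) F) = Fintype.card F ^ (n * (n - 1) / 2) * m := by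
  refine ⟨∏ i : Fin n, (Fintype.card F ^ (n - i.val) - 1), ?_, ?_⟩
  · apply Nat.Coprime.prod_left
    intro i _
    have hp : p ∣ Fintype.card F ^ (n - i.val) := by
      obtain ⟨k, _, hk⟩ := FiniteField.card F p
      rw [hk]
      apply dvd_pow (dvd_pow_self p k.pos.ne')
      have := i.2
      omega
    have hpos : 0 < Fintype.card F ^ (n - i.val) := pow_pos Fintype.card_pos _
    rw [Nat.coprime_comm, Nat.Prime.coprime_iff_not_dvd (Fact.out : p.Prime)]
    intro h
    have h1 : p ∣ 1 := by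
      have := (Nat.dvd_sub hp h)
      rwa [Nat.sub_sub_self hpos] at this
    exact (Fact.out : p.Prime).one_lt.ne' (Nat.dvd_one.1 h1)
  · rw [Matrix.card_GL_field, ← Finset.sum_range_id, ← Finset.prod_pow_eq_pow_sum,
      ← Fin.prod_univ_eq_prod_range (fun i => Fintype.card F ^ i) n, ← Finset.prod_mul_distrib]
    apply Finset.prod_congr rfl
    intro i _
    have := i.2
    rw [Nat.mul_sub, mul_one, ← pow_add]
    congr 2
    omega

end grp

/-- Let F be a finite field of characteristic p and consider the projective special linear group PSL_n(F) with n ≥ 2. This group has an irreducible complex character χ whose degree equals the order of a Sylow p-subgroup (namely q^(n(n−1)/2) when #F = q) and whose restriction to any Sylow p-subgroup P is the regular character of P: χ vanishes on the non-identity elements of P. (This is the Steinberg character.) -/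
theorem result {F : Type*} [Field F] [Fintype F] (p : ℕ) [Fact p.Prime] [CharP F p] (n : ℕ) (hn : 2 ≤ n) : ∃ χ : Matrix.ProjectiveSpecialLinearGroup (Fin n) F → ℂ, Cfsg.IsIrrCharacter (Matrix.ProjectiveSpecialLinearGroup (Fin n) F) χ ∧ ∀ P : Sylow p (Matrix.ProjectiveSpecialLinearGroup (Fin n) F), χ 1 = Nat.card P ∧ ∀ x : Matrix.ProjectiveSpecialLinearGroup (Fin n) F, x ∈ P → x ≠ 1 → χ x = 0 := by
  classical
  have hp : p.Prime := Fact.out
  obtain ⟨f, _, hf⟩ := FiniteField.card F p
  set N := n * (n - 1) / 2 with hN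
  have hirr := st_irr (F := F) n
  have hone := st_one (F := F) n
  have hdeg : Cfsg.charDegree (Cfsg.unipotentCharacterGL n F (fun _ => 1)) = Fintype.card F ^ N := by
    have h := Cfsg.Agent.Lib.Helper80.char_one_eq_charDegree
      (Cfsg.Agent.Lib.Helper80.isCharacter_of_irr hirr)
    rw [hone] at h
    exact_mod_cast h.symm
  let K : Subgroup (GL (Fin n) F) :=
    (Matrix.GeneralLinearGroup.det : GL (Fin n) F →* Fˣ).ker
  have hcop : (Cfsg.charDegree (Cfsg.unipotentCharacterGL n F (fun _ => 1))).Coprime K.index := by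
    rw [hdeg, hf]
    apply Nat.Coprime.pow_left
    apply Nat.Coprime.pow_left
    rw [Nat.Prime.coprime_iff_not_dvd hp]
    intro h
    have h1 : K.index ∣ Nat.card Fˣ := by
      rw [Subgroup.index_ker]
      exact Subgroup.card_subgroup_dvd_card _
    have h2 : p ∣ Fintype.card F - 1 := by
      have := h.trans h1
      rwa [Nat.card_eq_fintype_card, Fintype.card_units] at this
    have h3 : p ∣ Fintype.card F := by rw [hf]; exact dvd_pow_self p f.pos.ne'
    have h4 : p ∣ 1 := by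
      have := Nat.dvd_sub h3 h2
      rwa [Nat.sub_sub_self Fintype.card_pos] at this
    exact hp.one_lt.ne' (Nat.dvd_one.1 h4)
  have hK := Cfsg.Agent.Lib.Helper15.restrict_irr_of_coprime K hirr hcop
  let φ : Matrix.SpecialLinearGroup (Fin n) F →* K :=
    (Matrix.SpecialLinearGroup.toGL).codRestrict K (fun s => by
      rw [MonoidHom.mem_ker]
      exact Matrix.SpecialLinearGroup.coeToGL_det s)
  have hφ : Function.Surjective φ := by
    rintro ⟨g, hg⟩
    have : g ∈ (Matrix.SpecialLinearGroup.toGL :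
        Matrix.SpecialLinearGroup (Fin n) F →* GL (Fin n) F).range := by
      rw [Cfsg.Agent.Lib.Helper5.range_toGL_eq_ker_det]; exact hg
    obtain ⟨s, rfl⟩ := this
    exact ⟨s, rfl⟩
  have hSL := Cfsg.Agent.Lib.Helper80.isIrrCharacter_comp φ hφ hK
  obtain ⟨ψ, hψ, hψχ⟩ := Cfsg.Agent.Lib.Helper80.exists_deflate_irr
    (Subgroup.center (Matrix.SpecialLinearGroup (Fin n) F)) hSL (by
      intro z hz
      obtain ⟨r, _, hr⟩ := Matrix.SpecialLinearGroup.mem_center_iff.1 hz
      change Cfsg.unipotentCharacterGL n F (fun _ => 1) (Matrix.SpecialLinearGroup.toGL z) =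
        Cfsg.unipotentCharacterGL n F (fun _ => 1) (Matrix.SpecialLinearGroup.toGL 1)
      rw [map_one]
      apply st_scalar n _ r
      change (z : Matrix (Fin n) (Fin n) F) = _
      rw [← hr]
      ext i j
      simp [Matrix.scalar_apply, Matrix.diagonal_apply, Matrix.one_apply])
  have hψ1 : ψ 1 = ((Fintype.card F ^ N : ℕ) : ℂ) := by
    have := hψχ 1
    rw [QuotientGroup.mk_one] at this
    rw [this]
    change Cfsg.unipotentCharacterGL n F (fun _ => 1) (Matrix.SpecialLinearGroup.toGL 1) = _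
    rw [map_one, hone]
    push_cast
    rfl
  have hψdeg : Cfsg.charDegree ψ = Fintype.card F ^ N := by
    have h := Cfsg.Agent.Lib.Helper80.char_one_eq_charDegree
      (Cfsg.Agent.Lib.Helper80.isCharacter_of_irr hψ)
    rw [hψ1] at h
    exact_mod_cast h.symm
  have hd1 : p ^ (f * N) ∣ Nat.card (Matrix.ProjectiveSpecialLinearGroup (Fin n) F) := by
    have := Cfsg.Agent.Lib.Helper78.irr_charDegree_dvd_card
      (⟨ψ, hψ⟩ : Cfsg.IrrCharacter (Matrix.ProjectiveSpecialLinearGroup (Fin n) F))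
    change Cfsg.charDegree ψ ∣ _ at this
    rwa [hψdeg, hf, ← pow_mul] at this
  obtain ⟨m, hm, hGL⟩ := card_GL_factor (F := F) p n
  have hd2 : Nat.card (Matrix.ProjectiveSpecialLinearGroup (Fin n) F) ∣ p ^ (f * N) * m := by
    have a : Nat.card (Matrix.ProjectiveSpecialLinearGroup (Fin n) F) ∣
        Nat.card (Matrix.SpecialLinearGroup (Fin n) F) :=
      Subgroup.card_quotient_dvd_card _
    have b : Nat.card (Matrix.SpecialLinearGroup (Fin n) F) ∣ Nat.card (GL (Fin n) F) :=
      Subgroup.card_dvd_of_injective _ Matrix.SpecialLinearGroup.toGL_injective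
    have c := a.trans b
    rwa [hGL, hf, ← pow_mul] at c
  have hcardP : ∀ P : Sylow p (Matrix.ProjectiveSpecialLinearGroup (Fin n) F),
      Nat.card P = p ^ (f * N) := by
    intro P
    apply Nat.dvd_antisymm
    · have h1 : Nat.card P ∣ p ^ (f * N) * m := (Subgroup.card_subgroup_dvd_card _).trans hd2
      obtain ⟨k, hk⟩ := (IsPGroup.iff_card.1 P.2)
      apply Nat.Coprime.dvd_of_dvd_mul_right _ h1
      rw [hk]
      exact (Nat.Coprime.pow_left k hm.symm)
    · exact P.pow_dvd_card_of_pow_dvd_card hd1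
  refine ⟨ψ, hψ, fun P => ⟨?_, ?_⟩⟩
  · rw [hψ1, hcardP P, hf, ← pow_mul]
  · intro x hx hx1
    have hpx : p ∣ orderOf x := by
      obtain ⟨k, hk⟩ := (IsPGroup.iff_orderOf.1 P.2) ⟨x, hx⟩
      rw [Subgroup.orderOf_mk] at hk
      rw [hk]
      apply dvd_pow_self
      rintro rfl
      apply hx1
      simpa using hk
    obtain ⟨d, ρ, hρ, rfl⟩ := hψ
    have := hρ
    have hd : d = Fintype.card F ^ N := by
      rw [← hψdeg, Cfsg.Agent.Lib.Helper80.charDegree_of_rep]
    refine Cfsg.Agent.S0165.result ρ p (f * N) hp hd1 ?_ ?_ x hpx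
    · intro h
      have h1 := h.trans hd2
      rw [pow_succ] at h1
      have h2 : p ∣ m := Nat.dvd_of_mul_dvd_mul_left (pow_pos hp.pos _) h1
      exact (Nat.Prime.coprime_iff_not_dvd hp).1 hm.symm h2
    · rw [Module.finrank_fin_fun, hd, hf, ← pow_mul]

end Cfsg.Agent.S2544
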