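import Cfsg.Statements.S0955
import Cfsg.Agent.Lib.Helper16.FirstMain
-- import your own Cfsg.Agent.* helpers here

set_option autoImplicit false
open Cfsg Cfsg.Agent.Lib.Helper78 Cfsg.Agent.Lib.Helper16 Cfsg.Agent.Lib

namespace Cfsg.Agent.S0955

/-- Let D be a defect group of a block of the finite group G relative to a maximal ideal M of the algebraic integers containing the prime p. Then D is the largest normal p-subgroup of its own normalizer: O_p(N_G(D)) = D. -/
theorem result {G : Type*} [Group G] [Finite G] (p : ℕ) [Fact p.Prime] (M : Ideal Cfsg.AlgInt) (hM : Cfsg.IsPModular p M) (B : Set (Cfsg.IrrCharacter G)) (hB : Cfsg.IsPBlock M B) (D : Subgroup G) (hD : Cfsg.IsDefectGroup p M B D) : (Cfsg.pCore p (Subgroup.normalizer (D : Set G))).map (Subgroup.normalizer (D : Set G)).subtype = D := by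
  classical
  cases nonempty_fintype G
  haveI : M.IsMaximal := hM.2.1
  haveI : CharP (FM M) p := charP_FM hM
  have hDp := IsDefectGroup.isPGroup hD
  have hDN : D ≤ Subgroup.normalizer (D : Set G) := Subgroup.le_normalizer
  have hCN : Subgroup.centralizer (D : Set G) ≤ Subgroup.normalizer (D : Set G) :=
    Subgroup.centralizer_le_normalizer _
  obtain ⟨b, hind⟩ := exists_induced_of_le_defect M p (Subgroup.normalizer (D : Set G)) hM hDp
    hDN hCN le_rfl hB hD le_rfl
  have hDb := isDefectGroup_subgroupOf_of_induced M p _ hM hDN le_rfl hind hD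
  have h1 := Cfsg.Agent.S0912.result p M hM b hind.1 _ hDb
  have h2 : D.subgroupOf (Subgroup.normalizer (D : Set G)) ≤
      Cfsg.pCore p (Subgroup.normalizer (D : Set G)) :=
    Cfsg.Agent.Lib.Lead.le_pCore ((Subgroup.normal_subgroupOf_iff_le_normalizer hDN).2 le_rfl)
      hDp.comap_subtype
  rw [le_antisymm h1 h2, Subgroup.map_subgroupOf_eq_of_le hDN]

end Cfsg.Agent.S0955
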