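import Cfsg.Statements.S4443
import Cfsg.Agent.Lib.Helper79.ClassCountP
import Cfsg.Agent.Lib.Helper79.RankField
import Cfsg.Agent.Lib.Helper79.LocalRing
import Cfsg.Agent.Lib.Helper16.DefectAPI
import Cfsg.Agent.Lib.Helper78.DefectCard
import Cfsg.Agent.Lib.Helper78.BlockOrth
import Cfsg.Agent.Lib.Helper77.ResField
import Cfsg.Agent.Lib.Helper77.BlockBasic

set_option autoImplicit false
open Cfsg

namespace Cfsg.Agent.S4443

open Cfsg.Agent.Lib.Helper78 Cfsg.Agent.Lib.Helper16 Cfsg.Agent.Lib.Helper77
open scoped ComplexConjugate Pointwise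

section aux
variable {G : Type*} [Group G]

open Classical in
/-- The counting number as a sum of structure constants. -/
theorem card_pairs_eq [Fintype G] (P : Subgroup G) [Fintype P] (x y : G) :
    ((Nat.card {yz : G × G // yz.1 ∈ (ConjClasses.mk y).carrier ∧
        yz.2 ∈ (ConjClasses.mk x).carrier ∧ yz.2 * yz.1⁻¹ ∈ P} : ℕ) : ℂ)
      = ∑ z : P, conv (classInd x) (classInd y⁻¹) z := by
  have h1 : ∑ z : P, conv (classInd x) (classInd y⁻¹) z
      = ∑ z : G, if z ∈ P then conv (classInd x) (classInd y⁻¹) z else 0 := by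
    rw [← Finset.sum_filter]
    exact (Finset.sum_subtype (Finset.univ.filter (· ∈ P)) (by simp)
      (fun z => conv (classInd x) (classInd y⁻¹) z)).symm
  rw [h1, Nat.card_eq_fintype_card, Fintype.card_subtype, Finset.card_filter]
  push_cast
  rw [Fintype.sum_prod_type_right]
  have h2 : ∑ z : G, (if z ∈ P then conv (classInd x) (classInd y⁻¹) z else 0)
      = ∑ z : G, ∑ u : G, (if z ∈ P then classInd x u * classInd y⁻¹ (u⁻¹ * z) else 0) := by
    refine Finset.sum_congr rfl fun z _ => ?_
    split_ifs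
    · rfl
    · simp
  rw [h2]
  conv_rhs => rw [Finset.sum_comm]
  refine Finset.sum_congr rfl fun u _ => ?_
  conv_rhs => rw [← Equiv.sum_comp ((Equiv.inv G).trans (Equiv.mulLeft u))]
  refine Finset.sum_congr rfl fun a _ => ?_
  simp only [Equiv.trans_apply, Equiv.inv_apply, Equiv.coe_mulLeft, inv_mul_cancel_left]
  unfold classInd
  have e1 : a ∈ (ConjClasses.mk y).carrier ↔ IsConj y⁻¹ a⁻¹ := by
    rw [ConjClasses.mem_carrier_iff_mk_eq, ConjClasses.mk_eq_mk_iff_isConj]
    constructor
    · intro h; exact Cfsg.Agent.Lib.Helper79.isConj_inv_inv_of h.symm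
    · intro h
      have := Cfsg.Agent.Lib.Helper79.isConj_inv_inv_of h.symm
      simpa using this
  have e2 : u ∈ (ConjClasses.mk x).carrier ↔ IsConj x u := by
    rw [ConjClasses.mem_carrier_iff_mk_eq, ConjClasses.mk_eq_mk_iff_isConj]
    exact ⟨fun h => h.symm, fun h => h.symm⟩
  rw [e1, e2]
  by_cases c1 : IsConj y⁻¹ a⁻¹ <;> by_cases c2 : IsConj x u <;> by_cases c3 : u * a⁻¹ ∈ P <;>
    simp only [c1, c2, c3, true_and, and_true, false_and, and_false, if_true, if_false, mul_one,
      mul_zero, zero_mul, and_self]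

theorem cj_eq_of_normal (D : Subgroup G) [D.Normal] (x : G) : cj x D = D := by
  ext y
  rw [mem_cj]
  constructor
  · intro h
    have := (inferInstance : D.Normal).conj_mem _ h x
    simpa [mul_assoc] using this
  · intro h
    have := (inferInstance : D.Normal).conj_mem _ h x⁻¹
    simpa [mul_assoc] using this

variable {p : ℕ} {M : Ideal AlgInt}

open Classical in
theorem sum_block_mult [Fintype G] (hM : IsPModular p M) {B : Set (IrrCharacter G)}
    (hB : IsPBlock M B) (P : Subgroup G) (hP : IsPGroup p P) [Fintype P] (x : G)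
    (hx : ¬ p ∣ orderOf x) (m : IrrCharacter G → ℕ)
    (hm : ∀ χ : IrrCharacter G, ∑ z : P, conj ((χ : G → ℂ) z) = (Nat.card P : ℂ) * m χ) :
    (Nat.card P : ℂ) * ∑ χ : IrrCharacter G,
        (if χ ∈ B then conj ((χ : G → ℂ) x) * (m χ : ℂ) else 0)
      = (Nat.card G : ℂ) * blockCoeff B x := by
  have hp := hM.1
  have : Fact p.Prime := ⟨hp⟩
  have h1 : (Nat.card P : ℂ) * ∑ χ : IrrCharacter G,
        (if χ ∈ B then conj ((χ : G → ℂ) x) * (m χ : ℂ) else 0)
      = ∑ z : P, Cfsg.Agent.Lib.Helper78.blockKer B x⁻¹ z := by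
    unfold Cfsg.Agent.Lib.Helper78.blockKer
    rw [Finset.sum_comm, Finset.mul_sum]
    refine Finset.sum_congr rfl fun χ _ => ?_
    split_ifs
    · rw [← Finset.mul_sum, hm χ, irr_inv]; ring
    · simp
  rw [h1, Finset.sum_eq_single (1 : P)]
  · unfold Cfsg.Agent.Lib.Helper78.blockKer
    rw [blockCoeff_eq_sum, Nat.card_eq_fintype_card, ← mul_assoc,
      mul_inv_cancel₀ (by exact_mod_cast Fintype.card_ne_zero), one_mul]
    refine Finset.sum_congr rfl fun χ _ => ?_
    split_ifs
    · rw [Subgroup.coe_one, irr_conj_one, irr_inv]; ring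
    · simp
  · intro z _ hz
    apply blockKer_eq_zero hM hB
    · rwa [orderOf_inv]
    · obtain ⟨k, hk⟩ := (IsPGroup.iff_orderOf.1 hP) z
      rw [Subgroup.orderOf_coe, hk]
      rcases Nat.eq_zero_or_pos k with rfl | hk0
      · rw [pow_zero, orderOf_eq_one_iff] at hk
        exact absurd hk hz
      · exact dvd_pow_self p hk0.ne'
  · intro h; exact absurd (Finset.mem_univ _) h

open Classical in
theorem memLocalIdeal_block_sum [Fintype G] (hM : IsPModular p M) {B : Set (IrrCharacter G)}
    (hB : IsPBlock M B) {χ0 : IrrCharacter G} (hχ0 : χ0 ∈ B) (P : Subgroup G) (hP : IsPGroup p P)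
    [Fintype P] (x y : G) (hy : ¬ p ∣ orderOf y) (m : IrrCharacter G → ℕ)
    (hm : ∀ χ : IrrCharacter G, ∑ z : P, conj ((χ : G → ℂ) z) = (Nat.card P : ℂ) * m χ) :
    MemLocalIdeal M (∑ χ : IrrCharacter G,
        (if χ ∈ B then centralChar (χ : G → ℂ) x * conj ((χ : G → ℂ) y) * (m χ : ℂ) else 0)
      - centralChar (χ0 : G → ℂ) x * ((P.index : ℂ) * blockCoeff B y)) := by
  have hMp := pmod_isPrime hM
  have h1 := sum_block_mult hM hB P hP y hy m hm
  have hPc : (Nat.card P : ℂ) ≠ 0 := by exact_mod_cast Nat.card_pos.ne'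
  have h2 : (Nat.card P : ℂ) * (P.index : ℂ) = (Nat.card G : ℂ) := by
    exact_mod_cast P.card_mul_index
  have h3 : (P.index : ℂ) * blockCoeff B y = ∑ χ : IrrCharacter G,
        (if χ ∈ B then conj ((χ : G → ℂ) y) * (m χ : ℂ) else 0) := by
    apply mul_left_cancel₀ hPc
    rw [h1, ← mul_assoc, h2]
  rw [h3, Finset.mul_sum, ← Finset.sum_sub_distrib]
  apply MemLocalIdeal.sum hMp
  intro χ _
  split_ifs with hχ
  · have e : centralChar (χ : G → ℂ) x * conj ((χ : G → ℂ) y) * (m χ : ℂ)
        - centralChar (χ0 : G → ℂ) x * (conj ((χ : G → ℂ) y) * (m χ : ℂ))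
        = (centralChar (χ : G → ℂ) x - centralChar (χ0 : G → ℂ) x)
          * (conj ((χ : G → ℂ) y) * (m χ : ℂ)) := by ring
    rw [e]
    apply MemLocalIdeal.mul_right hMp (IsPBlock.sameBlock hMp hB hχ hχ0 x)
    apply MemLocalRing.mul hMp _ (memLocalRing_natCast hMp _)
    rw [← irr_inv]
    exact memLocalRing_of_isIntegral hMp (irr_isIntegral χ _)
  · simpa using memLocalIdeal_zero hMp

theorem memLocalIdeal_mul_of_not_defect [Finite G] [Fact p.Prime] (hM : IsPModular p M)
    {B : Set (IrrCharacter G)} (hB : IsPBlock M B) {χ0 : IrrCharacter G} (hχ0 : χ0 ∈ B)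
    (D : Subgroup G) (hDp : IsPGroup p D) (hnD : ¬ IsDefectGroup p M B D) (x y : G)
    (hx : Nat.card D = p ^ (Nat.card (Subgroup.centralizer ({x} : Set G))).factorization p)
    (hy : D ≤ Subgroup.centralizer ({y} : Set G)) :
    MemLocalIdeal M (centralChar (χ0 : G → ℂ) x * blockCoeff B y) := by
  cases nonempty_fintype G
  have hp : p.Prime := Fact.out
  have hMp := pmod_isPrime hM
  by_contra h
  rw [memLocalIdeal_mul_iff hMp (memLocalRing_centralChar hMp χ0 x)
    (memLocalRing_blockCoeff hMp hB y)] at h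
  push Not at h
  obtain ⟨h1, h2⟩ := h
  obtain ⟨E, hE⟩ := exists_isDefectGroup hM hB
  have hEcard := card_of_isDefectGroup hM hB hE
  obtain ⟨u, hu⟩ := minmax_b hM hB hE hχ0 h1
  obtain ⟨v, hv⟩ := minmax_a hM hB hE h2 D hDp hy
  have hle : blockDefect p B ≤ (Nat.card (Subgroup.centralizer ({x} : Set G))).factorization p := by
    have h3 : p ^ blockDefect p B ∣ Nat.card (Subgroup.centralizer ({x} : Set G)) := by
      rw [← hEcard, ← card_cj u E]
      exact Subgroup.card_dvd_of_le hu
    exact (hp.pow_dvd_iff_le_factorization Nat.card_pos.ne').1 h3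
  have hcard : Nat.card (cj v E) ≤ Nat.card D := by
    rw [card_cj, hEcard, hx]
    exact Nat.pow_le_pow_right hp.pos hle
  have heq : D = cj v E := Subgroup.eq_of_le_of_card_ge hv hcard
  apply hnD
  rw [heq]
  exact IsDefectGroup.conj hE v

theorem exists_sylow_of_not_memLocalIdeal [Finite G] [Fact p.Prime] (hM : IsPModular p M)
    {B B' : Set (IrrCharacter G)} (hB : IsPBlock M B) (hB' : IsPBlock M B')
    (D : Subgroup G) [D.Normal] (hD : IsDefectGroup p M B D) (hD' : IsDefectGroup p M B' D)
    {χ : IrrCharacter G} (hχ : χ ∈ B) (g : G)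
    (h : ¬ MemLocalIdeal M (blockCoeff B' g * centralChar (χ : G → ℂ) g)) :
    ¬ p ∣ orderOf g ∧ ∃ Q : Sylow p (Subgroup.centralizer ({g} : Set G)),
      (Q : Subgroup (Subgroup.centralizer ({g} : Set G))).map
        (Subgroup.centralizer ({g} : Set G)).subtype = D := by
  cases nonempty_fintype G
  have hp : p.Prime := Fact.out
  have hMp := pmod_isPrime hM
  rw [memLocalIdeal_mul_iff hMp (memLocalRing_blockCoeff hMp hB' g)
    (memLocalRing_centralChar hMp χ g)] at h
  push Not at h
  obtain ⟨h1, h2⟩ := h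
  refine ⟨fun hdvd => h1 ?_, ?_⟩
  · rw [blockCoeff_eq_zero_of_singular hM hB' g hdvd]
    exact memLocalIdeal_zero hMp
  obtain ⟨u, hu⟩ := minmax_b hM hB hD hχ h2
  rw [cj_eq_of_normal] at hu
  obtain ⟨Q⟩ : Nonempty (Sylow p (Subgroup.centralizer ({g} : Set G))) := inferInstance
  obtain ⟨hQle, hQcard⟩ := (sylow_image_iff (p := p) (Subgroup.centralizer ({g} : Set G))
    ((Q : Subgroup (Subgroup.centralizer ({g} : Set G))).map
        (Subgroup.centralizer ({g} : Set G)).subtype)).1 ⟨Q, rfl⟩
  obtain ⟨v, hv⟩ := minmax_a hM hB' hD' h1 _ (Q.isPGroup'.map _) hQle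
  rw [cj_eq_of_normal] at hv
  refine ⟨Q, ?_⟩
  apply Subgroup.eq_of_le_of_card_ge hv
  rw [hQcard]
  obtain ⟨k, hk⟩ := IsPGroup.iff_card.1 (IsDefectGroup.isPGroup hD)
  rw [hk]
  apply Nat.pow_le_pow_right hp.pos
  apply (hp.pow_dvd_iff_le_factorization Nat.card_pos.ne').1
  rw [← hk]
  exact Subgroup.card_dvd_of_le hu

end aux

/-- Let D be a normal p-subgroup of the finite group G, of order p^d, let p^a be the p-part of the order of G, and fix a Sylow p-subgroup S and a maximal ideal M of the algebraic integers containing p. Index by a finite type ι (via an injective map K) exactly the conjugacy classes of p-regular elements x of G for which D is a Sylow p-subgroup of C_G(x). For classes K_i, K_j let ω(i, j) be the number of pairs (y, z) ∈ K_i × K_j with z y⁻¹ ∈ S; this number is divisible by p^(a−d). Then the number of p-blocks of G having D as a defect group equals the rank over ℤ/pℤ of the matrix with (i, j) entry ω(i, j)/p^(a−d) reduced modulo p. -/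
theorem result {G : Type*} [Group G] [Finite G] (p : ℕ) [Fact p.Prime] (M : Ideal Cfsg.AlgInt) (hM : Cfsg.IsPModular p M) (D : Subgroup G) [D.Normal] (hD : IsPGroup p D) (S : Sylow p G) {ι : Type*} [Fintype ι] [DecidableEq ι] (K : ι → ConjClasses G) (hKinj : Function.Injective K) (hK : ∀ C : ConjClasses G, (∃ i, K i = C) ↔ ∃ x ∈ C.carrier, ¬ p ∣ orderOf x ∧ ∃ Q : Sylow p (Subgroup.centralizer ({x} : Set G)), (Q : Subgroup (Subgroup.centralizer ({x} : Set G))).map (Subgroup.centralizer ({x} : Set G)).subtype = D) : Nat.card {B : Set (Cfsg.IrrCharacter G) // Cfsg.IsPBlock M B ∧ Cfsg.IsDefectGroup p M B D} = (Matrix.of fun i j : ι => ((Nat.card {yz : G × G // yz.1 ∈ (K i).carrier ∧ yz.2 ∈ (K j).carrier ∧ yz.2 * yz.1⁻¹ ∈ (S : Subgroup G)} / p ^ ((Nat.card G).factorization p - (Nat.card D).factorization p) : ℕ) : ZMod p)).rank := by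
  classical
  have := Fintype.ofFinite G
  have hp : p.Prime := Fact.out
  have hMp := pmod_isPrime hM
  have : CharP (ResF M) p := resF_charP hM
  set a := (Nat.card G).factorization p with ha
  set d := (Nat.card D).factorization p with hd
  -- representatives
  choose x hxK hxreg hxQ using fun i => (hK (K i)).1 ⟨i, rfl⟩
  have hKx : ∀ i, K i = ConjClasses.mk (x i) := fun i =>
    (ConjClasses.mem_carrier_iff_mk_eq.1 (hxK i)).symm
  have hD' : ∀ i, D ≤ Subgroup.centralizer ({x i} : Set G) ∧
      Nat.card D = p ^ (Nat.card (Subgroup.centralizer ({x i} : Set G))).factorization p := by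
    intro i
    obtain ⟨Q, hQ⟩ := hxQ i
    exact (sylow_image_iff _ D).1 ⟨Q, hQ.symm⟩
  have hDcard : Nat.card D = p ^ d := by
    obtain ⟨k, hk⟩ := IsPGroup.iff_card.1 hD
    rw [hd, hk, hp.factorization_pow]; simp
  have hdi : ∀ i, (Nat.card (Subgroup.centralizer ({x i} : Set G))).factorization p = d := fun i =>
    Nat.pow_right_injective hp.two_le ((hD' i).2.symm.trans hDcard)
  have hda : d ≤ a := by
    apply (hp.pow_dvd_iff_le_factorization Nat.card_pos.ne').1
    rw [← hDcard]
    exact Subgroup.card_subgroup_dvd_card D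
  have hScard : Nat.card S = p ^ a := S.card_eq_multiplicity
  -- the `p'`-parts of the centralizer orders
  set c : ι → ℕ := fun i => Nat.card (Subgroup.centralizer ({x i} : Set G)) / p ^ d with hc
  have hcmul : ∀ i, p ^ d * c i = Nat.card (Subgroup.centralizer ({x i} : Set G)) := by
    intro i
    have := Nat.ordProj_mul_ordCompl_eq_self (Nat.card (Subgroup.centralizer ({x i} : Set G))) p
    rw [hdi i] at this
    exact this
  have hcndvd : ∀ i, ¬ p ∣ c i := by
    intro i
    have := Nat.not_dvd_ordCompl hp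
      (Nat.card_pos (α := Subgroup.centralizer ({x i} : Set G))).ne'
    rw [hdi i] at this
    exact this
  -- multiplicities of the trivial character of `S`
  choose m hm using fun χ : IrrCharacter G =>
    Cfsg.Agent.Lib.Helper79.exists_sum_conj_subgroup_eq
      (Cfsg.Agent.Lib.Helper74.IrrCharacter.isCharacter χ) (S : Subgroup G)
  set N : ι → ι → ℕ := fun i j => Nat.card {yz : G × G // yz.1 ∈ (K i).carrier ∧
    yz.2 ∈ (K j).carrier ∧ yz.2 * yz.1⁻¹ ∈ (S : Subgroup G)} with hN
  set T : ι → ι → ℂ := fun i j => ∑ χ : IrrCharacter G,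
    centralChar (χ : G → ℂ) (x j) * conj ((χ : G → ℂ) (x i)) * (m χ : ℂ) with hT
  have hpc : (p : ℂ) ≠ 0 := by exact_mod_cast hp.ne_zero
  have hbasic : ∀ i j, (c i : ℂ) * (N i j : ℂ) = (p : ℂ) ^ (a - d) * T i j := by
    intro i j
    have h1 := Cfsg.Agent.Lib.Helper79.card_centralizer_mul_sum_conv (S : Subgroup G)
      (x j) (x i) m hm
    rw [← card_pairs_eq, ← hKx, ← hKx, ← hcmul i, hScard] at h1
    have h2 : (p : ℂ) ^ a = (p : ℂ) ^ d * (p : ℂ) ^ (a - d) := by
      rw [← pow_add]; congr 1; omega
    push_cast at h1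
    rw [h2, mul_assoc, mul_assoc] at h1
    exact mul_left_cancel₀ (pow_ne_zero _ hpc) h1
  have hTloc : ∀ i j, MemLocalRing M (T i j) := by
    intro i j
    apply MemLocalRing.sum hMp
    intro χ _
    apply MemLocalRing.mul hMp (MemLocalRing.mul hMp (memLocalRing_centralChar hMp χ _) _)
      (memLocalRing_natCast hMp _)
    rw [← irr_inv]
    exact memLocalRing_of_isIntegral hMp (irr_isIntegral χ _)
  have hcC : ∀ i, (c i : ℂ) ≠ 0 := by
    intro i h
    apply hcndvd i
    have : c i = 0 := by exact_mod_cast h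
    rw [this]; exact dvd_zero p
  have hdvd : ∀ i j, p ^ (a - d) ∣ N i j := by
    intro i j
    rcases Nat.eq_zero_or_pos (N i j) with h0 | hpos
    · rw [h0]; exact dvd_zero _
    · have h1 : MemLocalRing M ((N i j : ℂ) / ((p ^ (a - d) : ℕ) : ℂ)) := by
        have e : (N i j : ℂ) / ((p ^ (a - d) : ℕ) : ℂ) = (c i : ℂ)⁻¹ * T i j := by
          have := hbasic i j
          have h3 := hcC i
          push_cast
          field_simp
          rw [mul_comm (N i j : ℂ), this]
        rw [e]
        exact MemLocalRing.mul hMp (memLocalRing_inv_natCast hM (hcndvd i)) (hTloc i j)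
      have h2 := Cfsg.Agent.Lib.Helper79.factorization_le_of_memLocalRing_div hM hpos.ne'
        (pow_ne_zero _ hp.ne_zero) h1
      rw [hp.factorization_pow] at h2
      simp only [Finsupp.single_eq_same] at h2
      exact (hp.pow_dvd_iff_le_factorization hpos.ne').2 h2
  set n : ι → ι → ℕ := fun i j => N i j / p ^ (a - d) with hn
  have hnT : ∀ i j, (c i : ℂ) * (n i j : ℂ) = T i j := by
    intro i j
    have h1 : N i j = p ^ (a - d) * n i j := (Nat.mul_div_cancel' (hdvd i j)).symm
    have h2 := hbasic i j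
    rw [h1] at h2
    push_cast at h2
    apply mul_left_cancel₀ (pow_ne_zero (a - d) hpc)
    rw [← h2]; ring
  -- the blocks with defect group `D`
  have : Fintype {B : Set (IrrCharacter G) // IsPBlock M B ∧ IsDefectGroup p M B D} :=
    Fintype.ofFinite _
  set rep : Set (IrrCharacter G) → IrrCharacter G := fun B =>
    if h : B.Nonempty then h.some else trivIrr G with hrep
  have hrepmem : ∀ B : Set (IrrCharacter G), IsPBlock M B → rep B ∈ B := by
    intro B hB
    have h := IsPBlock.nonempty hMp hB
    simp only [hrep, dif_pos h]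
    exact h.some_mem
  have hidx : ¬ p ∣ (S : Subgroup G).index := S.not_dvd_index
  -- the main congruence
  have hcong : ∀ i j, MemLocalIdeal M (T i j -
      ∑ B : {B : Set (IrrCharacter G) // IsPBlock M B ∧ IsDefectGroup p M B D},
        centralChar (rep B.1 : G → ℂ) (x j) *
          (((S : Subgroup G).index : ℂ) * blockCoeff B.1 (x i))) := by
    intro i j
    have e1 : T i j = ∑ B : Set (IrrCharacter G),
        ∑ χ ∈ Finset.univ.filter (fun χ : IrrCharacter G => blockOf M (χ : G → ℂ) = B),
          centralChar (χ : G → ℂ) (x j) * conj ((χ : G → ℂ) (x i)) * (m χ : ℂ) :=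
      (Finset.sum_fiberwise _ _ _).symm
    have e2 : ∑ B : {B : Set (IrrCharacter G) // IsPBlock M B ∧ IsDefectGroup p M B D},
        centralChar (rep B.1 : G → ℂ) (x j) *
          (((S : Subgroup G).index : ℂ) * blockCoeff B.1 (x i))
        = ∑ B : Set (IrrCharacter G), if IsPBlock M B ∧ IsDefectGroup p M B D then
          centralChar (rep B : G → ℂ) (x j) *
            (((S : Subgroup G).index : ℂ) * blockCoeff B (x i)) else 0 := by
      rw [← Finset.sum_filter]
      exact (Finset.sum_subtype (Finset.univ.filter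
        (fun B : Set (IrrCharacter G) => IsPBlock M B ∧ IsDefectGroup p M B D)) (by simp)
        (fun B => centralChar (rep B : G → ℂ) (x j) *
            (((S : Subgroup G).index : ℂ) * blockCoeff B (x i)))).symm
    rw [e1, e2, ← Finset.sum_sub_distrib]
    apply MemLocalIdeal.sum hMp
    intro B _
    by_cases hB : IsPBlock M B
    · have e3 : ∑ χ ∈ Finset.univ.filter (fun χ : IrrCharacter G => blockOf M (χ : G → ℂ) = B),
          centralChar (χ : G → ℂ) (x j) * conj ((χ : G → ℂ) (x i)) * (m χ : ℂ)
          = ∑ χ : IrrCharacter G, (if χ ∈ B then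
            centralChar (χ : G → ℂ) (x j) * conj ((χ : G → ℂ) (x i)) * (m χ : ℂ) else 0) := by
        rw [← Finset.sum_filter]
        congr 1
        ext χ
        simp only [Finset.mem_filter, Finset.mem_univ, true_and]
        constructor
        · intro h; rw [← h]; exact mem_blockOf_self hMp χ
        · intro h; exact (IsPBlock.eq_blockOf hMp hB h).symm
      have h1 := memLocalIdeal_block_sum hM hB (hrepmem B hB) (S : Subgroup G) S.2 (x j) (x i)
        (hxreg i) m hm
      rw [e3]
      by_cases hBD : IsDefectGroup p M B D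
      · rw [if_pos ⟨hB, hBD⟩]; exact h1
      · rw [if_neg (fun h => hBD h.2), sub_zero]
        have h2 := memLocalIdeal_mul_of_not_defect hM hB (hrepmem B hB) D hD hBD (x j) (x i)
          (hD' j).2 (hD' i).1
        have h3 : MemLocalIdeal M (centralChar (rep B : G → ℂ) (x j) *
            (((S : Subgroup G).index : ℂ) * blockCoeff B (x i))) := by
          have e : centralChar (rep B : G → ℂ) (x j) *
            (((S : Subgroup G).index : ℂ) * blockCoeff B (x i))
            = ((S : Subgroup G).index : ℂ) *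
              (centralChar (rep B : G → ℂ) (x j) * blockCoeff B (x i)) := by ring
          rw [e]
          exact MemLocalIdeal.mul_left hMp (memLocalRing_natCast hMp _) h2
        have := MemLocalIdeal.add hMp h1 h3
        simpa using this
    · rw [if_neg (fun h => hB h.1), sub_zero, Finset.sum_eq_zero]
      · exact memLocalIdeal_zero hMp
      · intro χ hχ
        exfalso
        apply hB
        rw [← (Finset.mem_filter.1 hχ).2]
        exact isPBlock_blockOf χ
  -- the second congruence: orthogonality of central characters and idempotents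
  have hcong2 : ∀ B B' : {B : Set (IrrCharacter G) // IsPBlock M B ∧ IsDefectGroup p M B D},
      MemLocalIdeal M ((if B = B' then (1 : ℂ) else 0) -
        ∑ j : ι, centralChar (rep B.1 : G → ℂ) (x j) * blockCoeff B'.1 (x j)) := by
    intro B B'
    have h1 := omega_blockCoeff B'.1 (rep B.1)
    rw [omega_eq_sum_conjClasses (irr_isClassFunction _) (blockCoeff_isClassFunction _)] at h1
    have h2 : (rep B.1 ∈ B'.1) ↔ B = B' := by
      constructor
      · intro h
        exact Subtype.ext (IsPBlock.eq_of_mem_mem hMp B.2.1 B'.2.1 (hrepmem B.1 B.2.1) h)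
      · intro h; rw [← h]; exact hrepmem B.1 B.2.1
    have h3 : ∑ j : ι, centralChar (rep B.1 : G → ℂ) (x j) * blockCoeff B'.1 (x j)
        = ∑ C ∈ Finset.univ.image K, blockCoeff B'.1 (Quotient.out C) *
          centralChar (rep B.1 : G → ℂ) (Quotient.out C) := by
      rw [Finset.sum_image (fun i _ j _ h => hKinj h)]
      refine Finset.sum_congr rfl fun j _ => ?_
      have hconj : IsConj (x j) (Quotient.out (K j)) := by
        rw [← ConjClasses.mk_eq_mk_iff_isConj, ← hKx]
        exact (Quotient.out_eq (K j)).symm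
      obtain ⟨t, ht⟩ := isConj_iff.1 hconj
      rw [← ht, centralChar_conj, blockCoeff_conj, mul_comm]
    rw [h3, ← if_congr h2 rfl rfl, ← h1,
      ← Finset.sum_sdiff (Finset.subset_univ (Finset.univ.image K)), add_sub_cancel_right]
    apply MemLocalIdeal.sum hMp
    intro C hC
    by_contra hcon
    obtain ⟨hreg, Q, hQ⟩ := exists_sylow_of_not_memLocalIdeal hM B.2.1 B'.2.1 D B.2.2 B'.2.2
      (hrepmem B.1 B.2.1) (Quotient.out C) hcon
    obtain ⟨i, hi⟩ := (hK C).2 ⟨Quotient.out C,
      ConjClasses.mem_carrier_iff_mk_eq.2 (Quotient.out_eq C), hreg, Q, hQ⟩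
    apply (Finset.mem_sdiff.1 hC).2
    exact Finset.mem_image.2 ⟨i, Finset.mem_univ _, hi⟩
  -- matrices over the residue field
  let A : Matrix ι {B : Set (IrrCharacter G) // IsPBlock M B ∧ IsDefectGroup p M B D} (ResF M) :=
    fun i B => red M (blockCoeff B.1 (x i))
  let Y : Matrix {B : Set (IrrCharacter G) // IsPBlock M B ∧ IsDefectGroup p M B D} ι (ResF M) :=
    fun B j => red M (centralChar (rep B.1 : G → ℂ) (x j))
  have hYA : Y * A = 1 := by
    ext B B'
    rw [Matrix.mul_apply, Matrix.one_apply]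
    have h1 := hcong2 B B'
    have hloc : MemLocalRing M (∑ j : ι, centralChar (rep B.1 : G → ℂ) (x j) *
        blockCoeff B'.1 (x j)) :=
      MemLocalRing.sum hMp _ _ fun j _ => MemLocalRing.mul hMp (memLocalRing_centralChar hMp _ _)
        (memLocalRing_blockCoeff hMp B'.2.1 _)
    have hloc1 : MemLocalRing M (if B = B' then (1 : ℂ) else 0) := by
      split_ifs
      · exact memLocalRing_one hMp
      · exact memLocalRing_zero hMp
    rw [← red_eq_iff hloc1 hloc, red_sum _ _ (fun j _ => MemLocalRing.mul hMp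
      (memLocalRing_centralChar hMp _ _) (memLocalRing_blockCoeff hMp B'.2.1 _))] at h1
    have h2 : red M (if B = B' then (1 : ℂ) else 0) = if B = B' then (1 : ResF M) else 0 := by
      split_ifs <;> simp
    rw [← h2, h1]
    refine Finset.sum_congr rfl fun j _ => ?_
    rw [red_mul (memLocalRing_centralChar hMp _ _) (memLocalRing_blockCoeff hMp B'.2.1 _)]
  have hcF : ∀ i, (c i : ResF M) ≠ 0 := by
    intro i h
    rw [← red_natCast, red_eq_zero_iff (memLocalRing_natCast hMp _),
      memLocalIdeal_natCast_iff hM] at h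
    exact hcndvd i h
  have hidxF : (((S : Subgroup G).index : ℕ) : ResF M) ≠ 0 := by
    intro h
    rw [← red_natCast, red_eq_zero_iff (memLocalRing_natCast hMp _),
      memLocalIdeal_natCast_iff hM] at h
    exact hidx h
  have hentry : ∀ i j, (c i : ResF M) * (n i j : ResF M)
      = (((S : Subgroup G).index : ℕ) : ResF M) * (A * Y) i j := by
    intro i j
    have h1 := hcong i j
    have hterm : ∀ B : {B : Set (IrrCharacter G) // IsPBlock M B ∧ IsDefectGroup p M B D},
        MemLocalRing M (((S : Subgroup G).index : ℂ) * blockCoeff B.1 (x i)) := fun B =>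
      MemLocalRing.mul hMp (memLocalRing_natCast hMp _) (memLocalRing_blockCoeff hMp B.2.1 _)
    have hloc : ∀ B : {B : Set (IrrCharacter G) // IsPBlock M B ∧ IsDefectGroup p M B D},
        MemLocalRing M (centralChar (rep B.1 : G → ℂ) (x j) *
          (((S : Subgroup G).index : ℂ) * blockCoeff B.1 (x i))) := fun B =>
      MemLocalRing.mul hMp (memLocalRing_centralChar hMp _ _) (hterm B)
    rw [← red_eq_iff (hTloc i j) (MemLocalRing.sum hMp _ _ fun B _ => hloc B),
      red_sum _ _ (fun B _ => hloc B), ← hnT i j,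
      red_mul (memLocalRing_natCast hMp _) (memLocalRing_natCast hMp _), red_natCast,
      red_natCast] at h1
    rw [h1, Matrix.mul_apply, Finset.mul_sum]
    refine Finset.sum_congr rfl fun B _ => ?_
    rw [red_mul (memLocalRing_centralChar hMp _ _) (hterm B),
      red_mul (memLocalRing_natCast hMp _) (memLocalRing_blockCoeff hMp B.2.1 _), red_natCast]
    change _ = _ * (red M (blockCoeff B.1 (x i)) * red M (centralChar (rep B.1 : G → ℂ) (x j)))
    ring
  let φ : ZMod p →+* ResF M := ZMod.castHom (dvd_refl p) (ResF M)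
  let U : ι → ResF M := fun i => (((S : Subgroup G).index : ℕ) : ResF M) * (c i : ResF M)⁻¹
  have hΩ : (Matrix.of fun i j : ι => ((n i j : ℕ) : ZMod p)).map φ
      = Matrix.diagonal U * (A * Y) := by
    ext i j
    rw [Matrix.diagonal_mul, Matrix.map_apply, Matrix.of_apply, map_natCast]
    change _ = (((S : Subgroup G).index : ℕ) : ResF M) * (c i : ResF M)⁻¹ * (A * Y) i j
    have h1 := hentry i j
    have h2 := hcF i
    field_simp
    rw [mul_comm, h1]
  have hdet : IsUnit (Matrix.diagonal U).det := by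
    rw [Matrix.det_diagonal, isUnit_iff_ne_zero, Finset.prod_ne_zero_iff]
    intro i _
    exact mul_ne_zero hidxF (inv_ne_zero (hcF i))
  change _ = (Matrix.of fun i j : ι => ((n i j : ℕ) : ZMod p)).rank
  rw [← Cfsg.Agent.Lib.Helper79.rank_map_field φ, hΩ,
    Matrix.rank_mul_eq_right_of_isUnit_det _ _ hdet,
    Cfsg.Agent.Lib.Helper79.rank_mul_of_mul_eq_one A Y hYA, Nat.card_eq_fintype_card]

end Cfsg.Agent.S4443
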