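import Cfsg.Statements.S0953
import Cfsg.Agent.S0920
import Cfsg.Agent.S4443
import Cfsg.Agent.Lib.Helper16.FirstMain2
import Cfsg.Agent.Lib.Helper69.ClassSize
-- import your own Cfsg.Agent.* helpers here

set_option autoImplicit false
open Cfsg Cfsg.Agent.Lib.Helper78 Cfsg.Agent.Lib.Helper16 Cfsg.Agent.Lib

namespace Cfsg.Agent.S0953

theorem eq_of_mul_inv_mem {N : Type*} [Group N] [Finite N] {p : ℕ} [Fact p.Prime] {D : Subgroup N}
    (hD : IsPGroup p D) {y z : N} (hy : ∀ u ∈ D, u * y = y * u) (hz : ¬ p ∣ orderOf z)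
    (hy' : ¬ p ∣ orderOf y) (h : z * y⁻¹ ∈ D) : z = y := by
  set u := z * y⁻¹ with hu
  have hzu : z = u * y := by rw [hu]; group
  have hcomm : Commute u y := hy u h
  obtain ⟨k, hk⟩ := (IsPGroup.iff_orderOf.1 hD) ⟨u, h⟩
  have hk' : orderOf u = p ^ k := by
    rw [← hk]; exact (Subgroup.orderOf_mk u h).symm
  have hcop : Nat.Coprime (orderOf u) (orderOf y) := by
    rw [hk']
    exact Nat.Coprime.pow_left k ((Nat.Prime.coprime_iff_not_dvd Fact.out).2 hy')
  have ho := hcomm.orderOf_mul_eq_mul_orderOf_of_coprime hcop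
  rw [← hzu] at ho
  have hk0 : k = 0 := by
    by_contra hk0
    apply hz
    rw [ho, hk']
    exact Dvd.dvd.mul_right (dvd_pow_self p hk0) _
  rw [hk0, pow_zero, orderOf_eq_one_iff] at hk'
  rw [hzu, hk', one_mul]

theorem aux {G : Type*} [Group G] [Finite G] (p : ℕ) [Fact p.Prime] (M : Ideal Cfsg.AlgInt)
    (hM : Cfsg.IsPModular p M) (P : Sylow p G) :
    Nat.card {b : Set (IrrCharacter (Subgroup.normalizer ((P : Subgroup G) : Set G))) //
      IsPBlock M b ∧ IsDefectGroup p M b
        ((P : Subgroup G).subgroupOf (Subgroup.normalizer ((P : Subgroup G) : Set G)))}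
    = Nat.card {C : ConjClasses (Subgroup.normalizer ((P : Subgroup G) : Set G)) //
        ∀ n : Subgroup.normalizer ((P : Subgroup G) : Set G), ConjClasses.mk n = C →
          ¬ p ∣ orderOf n ∧ (n : G) ∈ Subgroup.centralizer ((P : Subgroup G) : Set G)} := by
  classical
  set N := Subgroup.normalizer ((P : Subgroup G) : Set G) with hN
  set D : Subgroup N := (P : Subgroup G).subgroupOf N with hD
  have hPN : (P : Subgroup G) ≤ N := Subgroup.le_normalizer
  have hDp : IsPGroup p D := P.isPGroup'.comap_subtype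
  let S : Sylow p N := P.subtype hPN
  have hS : (S : Subgroup N) = D := rfl
  let ι := {C : ConjClasses N // ∀ n : N, ConjClasses.mk n = C →
          ¬ p ∣ orderOf n ∧ (n : G) ∈ Subgroup.centralizer ((P : Subgroup G) : Set G)}
  letI : Fintype ι := Fintype.ofFinite ι
  have hcent : ∀ x : N, (x : G) ∈ Subgroup.centralizer ((P : Subgroup G) : Set G) ↔
      D ≤ Subgroup.centralizer ({x} : Set N) := by
    intro x
    constructor
    · intro hx u hu
      rw [Subgroup.mem_centralizer_singleton_iff]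
      apply Subtype.ext
      have := hx (u : G) (Subgroup.mem_subgroupOf.1 hu)
      exact this
    · intro hx u hu
      have := hx (show (⟨u, hPN hu⟩ : N) ∈ D from Subgroup.mem_subgroupOf.2 hu)
      rw [Subgroup.mem_centralizer_singleton_iff] at this
      exact (congrArg Subtype.val this)
  have hK : ∀ C : ConjClasses N, (∃ i : ι, i.1 = C) ↔ ∃ x ∈ C.carrier, ¬ p ∣ orderOf x ∧
      ∃ Q : Sylow p (Subgroup.centralizer ({x} : Set N)),
        (Q : Subgroup (Subgroup.centralizer ({x} : Set N))).map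
          (Subgroup.centralizer ({x} : Set N)).subtype = D := by
    intro C
    constructor
    · rintro ⟨i, rfl⟩
      obtain ⟨x, hx⟩ := ConjClasses.exists_rep i.1
      obtain ⟨hx1, hx2⟩ := i.2 x hx
      have hle : (S : Subgroup N) ≤ Subgroup.centralizer ({x} : Set N) := by
        rw [hS]; exact (hcent x).1 hx2
      refine ⟨x, ConjClasses.mem_carrier_iff_mk_eq.2 hx, hx1, S.subtype hle, ?_⟩
      rw [Sylow.coe_subtype, Subgroup.subgroupOf_map_subtype, inf_eq_left.2 hle, hS]
    · rintro ⟨x, hxC, hx1, Q, hQ⟩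
      have hle : D ≤ Subgroup.centralizer ({x} : Set N) := by
        rw [← hQ]
        exact Subgroup.map_subtype_le _
      have hx2 := (hcent x).2 hle
      refine ⟨⟨C, ?_⟩, rfl⟩
      intro n hn
      have hconj : IsConj x n := by
        rw [← ConjClasses.mk_eq_mk_iff_isConj, hn]
        exact ConjClasses.mem_carrier_iff_mk_eq.1 hxC
      obtain ⟨c, hc⟩ := isConj_iff.1 hconj
      constructor
      · rw [← hc]
        have : orderOf (c * x * c⁻¹) = orderOf x := by
          simpa using orderOf_injective (MulAut.conj c).toMonoidHom (MulAut.conj c).injective x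
        rw [this]; exact hx1
      · rw [← hc]
        have := conj_mem_centralizer_of_mem_normalizer (P := (P : Subgroup G)) c.2 hx2
        simpa using this
  have key := Cfsg.Agent.S4443.result p M hM D hDp S (fun i : ι => i.1) Subtype.val_injective hK
  rw [key]
  have hexp : (Nat.card N).factorization p - (Nat.card D).factorization p = 0 := by
    have : Nat.card D = p ^ (Nat.card N).factorization p := S.card_eq_multiplicity
    rw [this, Nat.Prime.factorization_pow Fact.out, Finsupp.single_eq_same, Nat.sub_self]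
  have hmat : (Matrix.of fun i j : ι => ((Nat.card {yz : N × N // yz.1 ∈ (i.1).carrier ∧
      yz.2 ∈ (j.1).carrier ∧ yz.2 * yz.1⁻¹ ∈ (S : Subgroup N)} /
        p ^ ((Nat.card N).factorization p - (Nat.card D).factorization p) : ℕ) : ZMod p))
      = Matrix.diagonal (fun i : ι => ((Nat.card (i.1).carrier : ℕ) : ZMod p)) := by
    ext i j
    rw [Matrix.of_apply, hexp, pow_zero, Nat.div_one]
    have hforce : ∀ yz : N × N, yz.1 ∈ (i.1).carrier → yz.2 ∈ (j.1).carrier →
        yz.2 * yz.1⁻¹ ∈ (S : Subgroup N) → yz.2 = yz.1 := by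
      intro yz hy hz hyz
      obtain ⟨hy1, hy2⟩ := i.2 yz.1 (ConjClasses.mem_carrier_iff_mk_eq.1 hy)
      obtain ⟨hz1, hz2⟩ := j.2 yz.2 (ConjClasses.mem_carrier_iff_mk_eq.1 hz)
      refine eq_of_mul_inv_mem hDp ?_ hz1 hy1 hyz
      intro u hu
      have := (hcent yz.1).1 hy2 hu
      rw [Subgroup.mem_centralizer_singleton_iff] at this
      exact this
    by_cases hij : i = j
    · subst hij
      rw [Matrix.diagonal_apply_eq]
      congr 1
      apply Nat.card_congr
      refine ⟨fun yz => ⟨yz.1.1, yz.2.1⟩, fun y => ⟨(y.1, y.1), y.2, y.2, by simp⟩, ?_, ?_⟩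
      · intro yz
        apply Subtype.ext
        apply Prod.ext
        · rfl
        · exact (hforce yz.1 yz.2.1 yz.2.2.1 yz.2.2.2).symm
      · intro y
        rfl
    · rw [Matrix.diagonal_apply_ne _ hij]
      have : IsEmpty {yz : N × N // yz.1 ∈ (i.1).carrier ∧
          yz.2 ∈ (j.1).carrier ∧ yz.2 * yz.1⁻¹ ∈ (S : Subgroup N)} := by
        constructor
        rintro ⟨yz, hy, hz, hyz⟩
        apply hij
        apply Subtype.ext
        have e := hforce yz hy hz hyz
        rw [← ConjClasses.mem_carrier_iff_mk_eq.1 hy, ← ConjClasses.mem_carrier_iff_mk_eq.1 hz, e]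
      rw [Nat.card_of_isEmpty, Nat.cast_zero]
  rw [hmat, Matrix.rank_diagonal, ← Nat.card_eq_fintype_card]
  apply Nat.card_congr
  refine Equiv.subtypeUnivEquiv ?_
  intro i
  obtain ⟨x, hx⟩ := ConjClasses.exists_rep i.1
  obtain ⟨hx1, hx2⟩ := i.2 x hx
  rw [← hx, ← Cfsg.Agent.Lib.Helper69.index_centralizer_eq_card_carrier, Ne,
    ZMod.natCast_eq_zero_iff]
  intro hdvd
  have h3 : (Subgroup.centralizer ({x} : Set N)).index ∣ D.index :=
    Subgroup.index_dvd_of_le ((hcent x).1 hx2)
  exact S.not_dvd_index (hdvd.trans h3)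

/-- Let P be a Sylow p-subgroup of the finite group G with normalizer N, and fix a maximal ideal M of the algebraic integers containing p. The number of blocks of G having P as a defect group equals the number of conjugacy classes of N consisting of elements of order prime to p that centralize P. -/
theorem result {G : Type*} [Group G] [Finite G] (p : ℕ) [Fact p.Prime] (M : Ideal Cfsg.AlgInt) (hM : Cfsg.IsPModular p M) (P : Sylow p G) : Nat.card {B : Set (Cfsg.IrrCharacter G) // Cfsg.IsPBlock M B ∧ Cfsg.IsDefectGroup p M B (P : Subgroup G)} = Nat.card {C : ConjClasses (Subgroup.normalizer ((P : Subgroup G) : Set G)) // ∀ n : Subgroup.normalizer ((P : Subgroup G) : Set G), ConjClasses.mk n = C → ¬ p ∣ orderOf n ∧ (n : G) ∈ Subgroup.centralizer ((P : Subgroup G) : Set G)} := by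
  classical
  cases nonempty_fintype G
  haveI : M.IsMaximal := hM.2.1
  have hPp : IsPGroup p (P : Subgroup G) := P.isPGroup'
  obtain ⟨h1, h2⟩ := Cfsg.Agent.S0920.result p M hM (P : Subgroup G) hPp
  have hcard1 : Nat.card {b : Set (IrrCharacter (Subgroup.normalizer ((P : Subgroup G) : Set G))) //
      IsPBlock M b ∧ IsDefectGroup p M b
        ((P : Subgroup G).subgroupOf (Subgroup.normalizer ((P : Subgroup G) : Set G)))}
      = Nat.card {B : Set (IrrCharacter G) // IsPBlock M B ∧ IsDefectGroup p M B (P : Subgroup G)} := by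
    apply Nat.card_eq_of_bijective (fun b => ⟨(h1 b.1 b.2.1 b.2.2).choose,
      (h1 b.1 b.2.1 b.2.2).choose_spec.1, (h1 b.1 b.2.1 b.2.2).choose_spec.2.1⟩)
    constructor
    · intro b b' hbb'
      have e : (h1 b.1 b.2.1 b.2.2).choose = (h1 b'.1 b'.2.1 b'.2.2).choose :=
        congrArg Subtype.val hbb'
      obtain ⟨b0, -, huniq⟩ := h2 _ (h1 b.1 b.2.1 b.2.2).choose_spec.1
        (h1 b.1 b.2.1 b.2.2).choose_spec.2.1
      have e1 := huniq b.1 ⟨b.2.1, b.2.2, (h1 b.1 b.2.1 b.2.2).choose_spec.2.2⟩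
      have e2 := huniq b'.1 ⟨b'.2.1, b'.2.2, by
        rw [e]; exact (h1 b'.1 b'.2.1 b'.2.2).choose_spec.2.2⟩
      exact Subtype.ext (e1.trans e2.symm)
    · intro B
      obtain ⟨b, ⟨hb1, hb2, hb3⟩, -⟩ := h2 B.1 B.2.1 B.2.2
      refine ⟨⟨b, hb1, hb2⟩, Subtype.ext ?_⟩
      exact induced_unique M _ (h1 b hb1 hb2).choose_spec.2.2 hb3
  rw [← hcard1]
  exact aux p M hM P

end Cfsg.Agent.S0953
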