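import Cfsg.Statements.S0175
import Cfsg.Agent.Lib.Helper3.Mono3

set_option autoImplicit false
open Cfsg

namespace Cfsg.Agent.S0175

open Cfsg.Agent.Lib.Helper3 Module Representation
open scoped commutatorElement

/-- If the permutation character of `G` on `G/H` takes the value `|G:H|` at `x`, then `x ∈ H`. -/
theorem mem_of_indFun_one_eq {G : Type*} [Group G] [Fintype G] (H : Subgroup G) (x : G)
    (h : indFun H (fun _ => (1 : ℂ)) x = indFun H (fun _ => (1 : ℂ)) 1) : x ∈ H := by
  classical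
  have hH : (Nat.card H : ℂ) ≠ 0 := by exact_mod_cast Nat.card_pos.ne'
  rw [indFun_apply, indFun_apply] at h
  have h1 := mul_left_cancel₀ (inv_ne_zero hH) h
  have h2 : ∀ z : G, extendByZero H (fun _ => (1 : ℂ)) z = if z ∈ H then 1 else 0 := by
    intro z
    split_ifs with hz
    · rw [extendByZero_apply_mem H _ hz]
    · rw [extendByZero_apply_not_mem H _ hz]
  simp only [h2, Finset.sum_boole] at h1
  have h3 : (Finset.univ.filter fun y : G => y⁻¹ * x * y ∈ H).card =
      (Finset.univ.filter fun y : G => y⁻¹ * 1 * y ∈ H).card := by exact_mod_cast h1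
  have h4 : (Finset.univ.filter fun y : G => y⁻¹ * 1 * y ∈ H) = Finset.univ := by
    apply Finset.filter_true_of_mem
    intro y _
    simp [H.one_mem]
  rw [h4, Finset.card_filter_eq_iff] at h3
  simpa using h3 1 (Finset.mem_univ _)

theorem aux {G : Type*} [Group G] [Fintype G]
    (hM : ∀ χ : G → ℂ, Cfsg.IsIrrCharacter G χ →
      ∃ (H : Subgroup G) (lam : H →* ℂˣ), χ = Cfsg.indFun H (fun h => (lam h : ℂ))) (d : ℕ) :
    ∀ χ : G → ℂ, IsIrrCharacter G χ → ∀ m : ℕ, χ 1 = m → m ≤ d →
      ∀ g ∈ derivedSeries G d, χ g = χ 1 := by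
  induction d with
  | zero =>
    intro χ hχ m hm hle
    exfalso
    apply IsIrrCharacter.apply_one_ne_zero hχ
    rw [hm, Nat.le_zero.mp hle, Nat.cast_zero]
  | succ d ih =>
    intro χ hχ m hm hle g hg
    obtain ⟨H, lam, hlam⟩ := hM χ hχ
    classical
    have := Fintype.ofFinite (IrrCharacter G)
    have := Fintype.ofFinite H
    set π : G → ℂ := indFun H (fun _ => (1 : ℂ)) with hπdef
    have hπ : IsCharacter G π :=
      isCharacter_indFun H (IsIrrCharacter.isCharacter isIrrCharacter_one)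
    obtain ⟨c, hc⟩ := IsCharacter.exists_decomp hπ
    have hπ1 : π 1 = H.index := by rw [hπdef, indFun_one]; simp
    have hχ1 : χ 1 = H.index := by rw [hlam, indFun_one]; simp
    have hmH : m = H.index := by
      rw [hm] at hχ1
      exact_mod_cast hχ1
    have hc1 : c (oneIrr G) = 1 := by
      have h1 : classInner π (oneIrr G : G → ℂ) = (c (oneIrr G) : ℂ) := by
        have := classInner_sum_irr (fun ψ => (c ψ : ℂ)) (oneIrr G)
        rw [hc]
        simpa [Nat.cast_smul_eq_nsmul] using this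
      rw [hπdef, frobenius_reciprocity H _ (IsIrrCharacter.isClassFunction (oneIrr G).2)] at h1
      have h2 : classInner (fun _ : H => (1 : ℂ)) (fun h : H => (oneIrr G : G → ℂ) h) = 1 :=
        classInner_irr_self (isIrrCharacter_one (G := H))
      rw [h2] at h1
      exact_mod_cast h1.symm
    have hdeg : ∀ ψ : IrrCharacter G, ∃ k : ℕ, (ψ : G → ℂ) 1 = k := fun ψ =>
      IsCharacter.apply_one_eq_natCast (IsIrrCharacter.isCharacter ψ.2)
    choose deg hdeg using hdeg
    have hsum : H.index = ∑ ψ, c ψ * deg ψ := by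
      have h1 := congrFun hc 1
      rw [hπ1] at h1
      rw [Finset.sum_apply] at h1
      simp only [Pi.smul_apply, hdeg, nsmul_eq_mul] at h1
      exact_mod_cast h1
    have hdeg1 : deg (oneIrr G) = 1 := by
      have : ((oneIrr G : IrrCharacter G) : G → ℂ) 1 = 1 := rfl
      rw [hdeg] at this
      exact_mod_cast this
    have hle' : ∀ ψ : IrrCharacter G, ψ ≠ oneIrr G → c ψ ≠ 0 → deg ψ ≤ d := by
      intro ψ hψ1 hcψ
      have h1 : ∑ φ ∈ ({ψ, oneIrr G} : Finset (IrrCharacter G)), c φ * deg φ ≤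
          ∑ φ, c φ * deg φ :=
        Finset.sum_le_sum_of_subset (Finset.subset_univ _)
      rw [Finset.sum_pair hψ1, hc1, hdeg1, ← hsum, ← hmH] at h1
      have h2 : deg ψ ≤ c ψ * deg ψ := Nat.le_mul_of_pos_left _ (Nat.pos_of_ne_zero hcψ)
      omega
    have hN : ∀ x ∈ derivedSeries G d, π x = π 1 := by
      intro x hx
      rw [hc]
      simp only [Finset.sum_apply, Pi.smul_apply]
      refine Finset.sum_congr rfl fun ψ _ => ?_
      by_cases hψ1 : ψ = oneIrr G
      · rw [hψ1]; rfl
      · by_cases hcψ : c ψ = 0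
        · rw [hcψ, zero_smul, zero_smul]
        · rw [ih ψ ψ.2 (deg ψ) (hdeg ψ) (hle' ψ hψ1 hcψ) x hx]
    have hNH : derivedSeries G d ≤ H := fun x hx => mem_of_indFun_one_eq H x (hN x hx)
    have hker : derivedSeries G (d + 1) ≤ (lam.ker).map H.subtype := by
      rw [derivedSeries_succ, Subgroup.commutator_le]
      intro a ha b hb
      refine ⟨⁅(⟨a, hNH ha⟩ : H), (⟨b, hNH hb⟩ : H)⁆, ?_, rfl⟩
      simp only [SetLike.mem_coe, MonoidHom.mem_ker, map_commutatorElement]
      rw [commutatorElement_eq_one_iff_mul_comm, mul_comm]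
    have hnorm : (derivedSeries G (d + 1)).Normal := inferInstance
    have hval : ∀ y : G, extendByZero H (fun h => (lam h : ℂ)) (y⁻¹ * g * y) =
        extendByZero H (fun h => (lam h : ℂ)) (y⁻¹ * 1 * y) := by
      intro y
      have h1 : y⁻¹ * g * y ∈ derivedSeries G (d + 1) := by
        have := hnorm.conj_mem g hg y⁻¹
        rwa [inv_inv] at this
      obtain ⟨z, hz, hzy⟩ := hker h1
      have h2 : y⁻¹ * 1 * y = ((1 : H) : G) := by simp
      rw [← hzy, h2]
      simp only [Subgroup.subtype_apply, extendByZero_apply_coe]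
      rw [MonoidHom.mem_ker.mp hz, map_one]
    rw [hlam, indFun_apply, indFun_apply]
    simp only [hval]

theorem result {G : Type*} [Group G] [Fintype G] (hM : ∀ χ : G → ℂ, Cfsg.IsIrrCharacter G χ → ∃ (H : Subgroup G) (lam : H →* ℂˣ), χ = Cfsg.indFun H (fun h => (lam h : ℂ))) : Group.IsSolvable G := by
  classical
  have := Fintype.ofFinite (IrrCharacter G)
  refine ⟨⟨Nat.card G, ?_⟩⟩
  rw [eq_bot_iff]
  intro g hg
  rw [Subgroup.mem_bot]
  have h1 : IsConj g 1 := by
    rw [isConj_iff_forall_irr]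
    intro χ
    obtain ⟨H, lam, hlam⟩ := hM χ χ.2
    have hχ1 : (χ : G → ℂ) 1 = (H.index : ℕ) := by rw [hlam, indFun_one]; simp
    exact aux hM (Nat.card G) χ χ.2 H.index hχ1
      (Nat.le_of_dvd Nat.card_pos (Subgroup.index_dvd_card H)) g hg
  exact isConj_one_left.mp h1

end Cfsg.Agent.S0175
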