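import Cfsg.Statements.S0894
import Cfsg.Agent.Lib.Helper15.Extraspecial

set_option autoImplicit false
open Cfsg

namespace Cfsg.Agent.S0894

open Cfsg.Agent.Lib Cfsg.Agent.Lib.Helper15

/-- Let P be an extraspecial p-group of order p ^ (2 * n + 1). Then every irreducible character of P has degree 1 or p ^ n, and exactly p - 1 of them have degree p ^ n. -/
theorem result {P : Type*} [Group P] [Finite P] (p n : ℕ) [Fact p.Prime] (hP : Cfsg.IsExtraspecial p P) (hcard : Nat.card P = p ^ (2 * n + 1)) : (∀ χ : Cfsg.IrrCharacter P, (χ : P → ℂ) 1 = 1 ∨ (χ : P → ℂ) 1 = (p : ℂ) ^ n) ∧ Nat.card {χ : Cfsg.IrrCharacter P // (χ : P → ℂ) 1 = (p : ℂ) ^ n} = p - 1 := by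
  classical
  have hp : p.Prime := Fact.out
  have hdeg : ∀ χ : IrrCharacter P, (χ : P → ℂ) 1 ≠ 1 → (χ : P → ℂ) 1 = (p : ℂ) ^ n :=
    fun χ h => es_degree hP hcard χ.2 h
  refine ⟨fun χ => ?_, ?_⟩
  · by_cases h : (χ : P → ℂ) 1 = 1
    · exact Or.inl h
    · exact Or.inr (hdeg χ h)
  have hn := es_n_ne_zero hP hcard
  have hpn : (p : ℂ) ^ n ≠ 1 := by
    have : p ^ n ≠ 1 := by
      intro h
      rcases (Nat.pow_eq_one.1 h) with h | h
      · exact hp.one_lt.ne' h
      · exact hn h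
    exact_mod_cast this
  have hiff : ∀ χ : IrrCharacter P, (χ : P → ℂ) 1 = (p : ℂ) ^ n ↔ ¬ (χ : P → ℂ) 1 = 1 := by
    intro χ
    constructor
    · intro h h1
      exact hpn (h ▸ h1)
    · exact hdeg χ
  have hsum := Helper80.sum_sq_charDegree (G := P)
  have hlin := Helper80.card_linear (G := P)
  have hidx : (commutator P).index = p ^ (2 * n) := by
    have h := Subgroup.index_mul_card (commutator P)
    rw [hP.1.2.2, hP.2, hcard, pow_succ] at h
    rw [hP.1.2.2]
    exact Nat.eq_of_mul_eq_mul_right hp.pos h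
  rw [hidx] at hlin
  rw [Nat.card_congr (Equiv.subtypeEquivRight hiff)]
  rw [← Finset.sum_filter_add_sum_filter_not Finset.univ
    (fun χ : IrrCharacter P => (χ : P → ℂ) 1 = 1)] at hsum
  have h1 : ∑ χ ∈ Finset.univ.filter (fun χ : IrrCharacter P => (χ : P → ℂ) 1 = 1),
      (charDegree (χ : P → ℂ)) ^ 2 = p ^ (2 * n) := by
    rw [← hlin, Nat.card_eq_fintype_card, Fintype.card_subtype, Finset.card_eq_sum_ones]
    apply Finset.sum_congr rfl
    intro χ hχ
    rw [Finset.mem_filter] at hχ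
    have h := hχ.2
    rw [Helper80.char_one_eq_charDegree (irr_char χ.2)] at h
    have h' : charDegree (χ : P → ℂ) = 1 := by exact_mod_cast h
    rw [h', one_pow]
  have h2 : ∑ χ ∈ Finset.univ.filter (fun χ : IrrCharacter P => ¬ (χ : P → ℂ) 1 = 1),
      (charDegree (χ : P → ℂ)) ^ 2
      = Nat.card {χ : IrrCharacter P // ¬ (χ : P → ℂ) 1 = 1} * p ^ (2 * n) := by
    rw [Nat.card_eq_fintype_card, Fintype.card_subtype, Finset.card_eq_sum_ones, Finset.sum_mul]
    apply Finset.sum_congr rfl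
    intro χ hχ
    rw [Finset.mem_filter] at hχ
    have h := hdeg χ hχ.2
    rw [Helper80.char_one_eq_charDegree (irr_char χ.2)] at h
    have h' : charDegree (χ : P → ℂ) = p ^ n := by exact_mod_cast h
    rw [h', one_mul, ← pow_mul, mul_comm]
  rw [h1, h2, hcard, pow_succ] at hsum
  have h3 : (1 + Nat.card {χ : IrrCharacter P // ¬ (χ : P → ℂ) 1 = 1}) * p ^ (2 * n)
      = p * p ^ (2 * n) := by
    rw [add_mul, one_mul, hsum, mul_comm]
  have h4 := Nat.eq_of_mul_eq_mul_right (pow_pos hp.pos _) h3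
  omega

end Cfsg.Agent.S0894
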