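import Cfsg.Statements.S4454
import Cfsg.Agent.Lib.Helper15.FullyRam

set_option autoImplicit false
open Cfsg
open Cfsg.Agent.Lib Cfsg.Agent.Lib.Helper15
open scoped ComplexConjugate

namespace Cfsg.Agent.S4454

/-- Let N ≤ G be normal subgroups of the finite group Γ with Γ/G cyclic and Γ/N a Frobenius group with kernel G/N: G ≠ Γ, N ≠ G, and no element of Γ outside G fixes a non-identity coset of N in G under conjugation. Let ϑ be an irreducible character of N invariant under conjugation by Γ and suppose ϑ is fully ramified in G: the character of G induced from ϑ equals e·χ for an irreducible character χ of G and a natural number e. Then the index of G in Γ divides e − 1 or e + 1. -/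
theorem result {Γ : Type*} [Group Γ] [Fintype Γ] (G N : Subgroup Γ) [hG : G.Normal] [hN : N.Normal] [Fintype G] [Fintype N] (hNG : N ≤ G) (hGlt : G ≠ ⊤) (hNlt : N ≠ G) (hcyc : IsCyclic (Γ ⧸ G)) (hfrob : ∀ x : Γ, x ∉ G → ∀ g : Γ, g ∈ G → x * g * x⁻¹ * g⁻¹ ∈ N → g ∈ N) (θ : Cfsg.IrrCharacter N) (hinv : ∀ (x : Γ) (n : N), (θ : N → ℂ) ⟨x * n * x⁻¹, hN.conj_mem n n.2 x⟩ = (θ : N → ℂ) n) (χ : Cfsg.IrrCharacter G) (e : ℕ) (hram : Cfsg.indFun (N.subgroupOf G) (fun n : N.subgroupOf G => (θ : N → ℂ) ⟨(n : G), n.2⟩) = fun g => (e : ℂ) * (χ : G → ℂ) g) : (G.index : ℤ) ∣ (e : ℤ) - 1 ∨ (G.index : ℤ) ∣ (e : ℤ) + 1 := by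
  classical
  have hram' : indFun (N.subgroupOf G) (downFun N G θ) = (e : ℂ) • (χ : G → ℂ) := hram
  have hcj : ∀ x : Γ, cj N x (θ : N → ℂ) = θ := fun x => funext (fun n => hinv x n)
  have := Fintype.ofFinite (N.subgroupOf G)
  have hθ' : IsIrrCharacter (N.subgroupOf G) (downFun N G θ) := irr_downFun hNG θ.2
  have hinv' : ∀ g : G, cj (N.subgroupOf G) g (downFun N G θ) = downFun N G θ := by
    intro g
    rw [cj_downFun, hcj]
  -- `e ^ 2 = |G : N|`
  have hnorm := norm_indFun_of_invariant (N.subgroupOf G) hθ' hinv'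
  rw [hram', classInner_smul_left, classInner_smul_right, irr_inner_self χ.2,
    Complex.conj_natCast, mul_one] at hnorm
  have hd0 : ((N.subgroupOf G).index : ℂ) ≠ 0 := by
    have : (N.subgroupOf G).index ≠ 0 := Subgroup.index_ne_zero_of_finite
    exact_mod_cast this
  have he0 : (e : ℂ) ≠ 0 := by
    intro h
    rw [h, mul_zero] at hnorm
    exact hd0 hnorm.symm
  -- `χ_N = e θ`
  have hres : ∀ n : N, (χ : G → ℂ) ⟨n, hNG n.2⟩ = e * (θ : N → ℂ) n := by
    intro n
    have h1 := congrFun (restrict_indFun_of_invariant (N.subgroupOf G) _ hinv')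
      ⟨⟨n, hNG n.2⟩, Subgroup.mem_subgroupOf.2 n.2⟩
    rw [hram', ← hnorm] at h1
    simp only [Pi.smul_apply, smul_eq_mul] at h1
    rw [mul_assoc] at h1
    exact mul_left_cancel₀ he0 h1
  -- `χ` is invariant
  have hχinv : ∀ (x : Γ) (g : G), (χ : G → ℂ) ⟨x * g * x⁻¹, hG.conj_mem g g.2 x⟩
      = (χ : G → ℂ) g := by
    intro x
    have h1 : IsIrrCharacter G (cj G x (χ : G → ℂ)) := irr_cj G x χ.2
    have h2 : (fun n : N.subgroupOf G => cj G x (χ : G → ℂ) n) = (e : ℂ) • downFun N G θ := by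
      funext n
      have := hres ⟨x * ((n : G) : Γ) * x⁻¹, hN.conj_mem _ (Subgroup.mem_subgroupOf.1 n.2) x⟩
      rw [hinv x ⟨((n : G) : Γ), Subgroup.mem_subgroupOf.1 n.2⟩] at this
      exact this
    have h3 := classInner_indFun_left (N.subgroupOf G) (downFun N G θ) _ (irr_cf h1)
    rw [h2, hram', classInner_smul_left, classInner_smul_right, irr_inner_self hθ',
      Complex.conj_natCast, mul_one] at h3
    have h4 : classInner (χ : G → ℂ) (cj G x (χ : G → ℂ)) ≠ 0 := by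
      intro h
      rw [h, mul_zero] at h3
      exact he0 h3.symm
    have h5 := irr_eq_of_inner_ne_zero χ.2 h1 h4
    intro g
    exact (congrFun h5 g).symm
  obtain ⟨χh, hχh, hχhG⟩ := Cfsg.Agent.S0886.result G hcyc χ χ.2 hχinv
  -- the complement
  obtain ⟨q, hq⟩ := hcyc.exists_generator
  obtain ⟨t₀, rfl⟩ := QuotientGroup.mk_surjective q
  have hgen : ∀ x : Γ, ∃ k : ℤ, x * (t₀ ^ k)⁻¹ ∈ G := by
    intro x
    obtain ⟨k, hk⟩ := Subgroup.mem_zpowers_iff.1 (hq (x : Γ ⧸ G))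
    refine ⟨k, ?_⟩
    rw [← QuotientGroup.eq_one_iff, QuotientGroup.mk_mul, QuotientGroup.mk_inv,
      QuotientGroup.mk_zpow, hk, mul_inv_cancel]
  have ht₀ : t₀ ∉ G := by
    intro h
    apply hGlt
    rw [eq_top_iff]
    intro x _
    obtain ⟨k, hk⟩ := hgen x
    have := G.mul_mem hk (G.zpow_mem h k)
    rwa [inv_mul_cancel_right] at this
  set T : Subgroup Γ := N ⊔ Subgroup.zpowers t₀ with hT
  have hNT : N ≤ T := le_sup_left
  have hTG : ∀ x ∈ T, x ∈ G → x ∈ N := by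
    intro x hx hxG
    have hx' : x ∈ (↑(N ⊔ Subgroup.zpowers t₀) : Set Γ) := hx
    rw [Subgroup.normal_mul] at hx'
    obtain ⟨n, hn, z, hz, rfl⟩ := Set.mem_mul.1 hx'
    obtain ⟨k, rfl⟩ := Subgroup.mem_zpowers_iff.1 hz
    have h1 : t₀ ^ k ∈ G := (G.mul_mem_cancel_left (hNG hn)).1 hxG
    have h2 : t₀ ^ k ∈ N := by
      apply hfrob t₀ ht₀ _ h1
      have : t₀ * t₀ ^ k * t₀⁻¹ * (t₀ ^ k)⁻¹ = 1 := by group
      rw [this]
      exact N.one_mem
    exact N.mul_mem hn h2
  have hsup : G ⊔ T = ⊤ := by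
    rw [eq_top_iff]
    intro x _
    obtain ⟨k, hk⟩ := hgen x
    have h1 : t₀ ^ k ∈ T := (le_sup_right : Subgroup.zpowers t₀ ≤ T)
      (Subgroup.zpow_mem_zpowers t₀ k)
    have := (G ⊔ T).mul_mem ((le_sup_left : G ≤ G ⊔ T) hk) ((le_sup_right : T ≤ G ⊔ T) h1)
    rwa [inv_mul_cancel_right] at this
  have hEq : G.subgroupOf T = N.subgroupOf T := by
    ext x
    rw [Subgroup.mem_subgroupOf, Subgroup.mem_subgroupOf]
    exact ⟨fun h => hTG x x.2 h, fun h => hNG h⟩
  let e1 : T ⧸ N.subgroupOf T ≃* Γ ⧸ G :=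
    (QuotientGroup.quotientMulEquivOfEq hEq.symm).trans (quotEquivOfSup G T hsup)
  have hcycT : IsCyclic (T ⧸ N.subgroupOf T) :=
    isCyclic_of_surjective e1.symm e1.symm.surjective
  have hidx : (N.subgroupOf T).index = G.index := by
    rw [Subgroup.index_eq_card, Subgroup.index_eq_card]
    exact Nat.card_congr e1.toEquiv
  have hab : ∀ a b : T ⧸ N.subgroupOf T, a * b = b * a :=
    fun a b => IsCyclic.commGroup.mul_comm a b
  have := Fintype.ofFinite T
  have := Fintype.ofFinite (N.subgroupOf T)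
  have hθ'' : IsIrrCharacter (N.subgroupOf T) (downFun N T θ) := irr_downFun hNT θ.2
  obtain ⟨θh, hθh, hθhN⟩ := Cfsg.Agent.S0886.result (N.subgroupOf T) hcycT (downFun N T θ) hθ''
    (fun g n => congrFun (by rw [cj_downFun, hcj] :
      cj (N.subgroupOf T) g (downFun N T θ) = downFun N T θ) n)
  have hθhN' : (fun n : N.subgroupOf T => θh n) = downFun N T θ := funext hθhN
  rw [← hidx]
  apply ram_abstract (N.subgroupOf T) hab hθh (by rw [hθhN']; exact hθ'')
    (char_restrict (irr_char hχh) T) e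
  · intro n
    rw [hθhN n]
    have h1 := hχhG ⟨((n : T) : Γ), hNG (Subgroup.mem_subgroupOf.1 n.2)⟩
    have h2 := hres ⟨((n : T) : Γ), Subgroup.mem_subgroupOf.1 n.2⟩
    exact h1.trans h2
  · intro t ht
    have htG : (t : Γ) ∉ G := fun h => ht (Subgroup.mem_subgroupOf.2 (hTG t t.2 h))
    have h1 := congrFun ((Cfsg.Agent.S0868.result G χh hχh
      (by rw [show (fun n : G => χh n) = χ from funext hχhG]; exact χ.2) χh hχh _ rfl).2.2 rfl)
      (t : Γ)
    have hcf : IsClassFunction Γ (fun y => χh y * conj (χh y)) := by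
      intro a b
      change χh _ * conj (χh _) = _
      rw [irr_cf hχh a b]
    have h2 := sum_coset_frob G N (t : Γ) (hfrob t htG) hNG _ hcf
    have hG0 : (Nat.card G : ℂ) ≠ 0 := card_ne_zero G
    have h3 : ∑ g : G, χh ((g : Γ) * t) * conj (χh ((g : Γ) * t)) = Nat.card G := by
      rw [inv_mul_eq_iff_eq_mul₀ hG0, mul_one] at h1
      exact h1
    rw [h3, mul_comm] at h2
    have h4 := mul_left_cancel₀ hG0 h2
    rw [card_subgroupOf_of_le hNT, h4]
    exact Fintype.sum_equiv (Subgroup.subgroupOfEquivOfLe hNT).toEquiv _ _ (fun n => rfl)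

end Cfsg.Agent.S4454
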