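import Cfsg.Statements.S0173
import Cfsg.Agent.Lib.Helper81.BrauerPerm

set_option autoImplicit false
open Cfsg

namespace Cfsg.Agent.S0173

theorem result {G : Type*} [Group G] [Finite G] (α : G ≃* G) : Nat.card {C : ConjClasses G // ConjClasses.map α.toMonoidHom C = C} = Nat.card {χ : Cfsg.IrrCharacter G // (χ : G → ℂ) ∘ α = (χ : G → ℂ)} := by
  have h := Cfsg.Agent.Lib.Helper81.brauer_perm (G := G) (fun g => α g)
    (fun χ => ⟨(χ : G → ℂ) ∘ α.toMonoidHom,
      Cfsg.Agent.Lib.Helper74.IsIrrCharacter.comp_surjective χ.2 α.toMonoidHom α.surjective⟩)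
    (fun χ g => rfl) (ConjClasses.map α.toMonoidHom) (fun g => rfl)
  rw [← h]
  refine Nat.card_congr (Equiv.subtypeEquivRight fun χ => ?_)
  constructor
  · intro h1
    exact congrArg Subtype.val h1
  · intro h1
    exact Subtype.ext h1

end Cfsg.Agent.S0173
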