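import Cfsg.Statements.S0171
import Cfsg.Agent.S0173
import Cfsg.Agent.Lib.Helper15.Clifford
import Cfsg.Agent.Lib.Helper81.Frobenius

set_option autoImplicit false
open Cfsg

namespace Cfsg.Agent.S0171

open Cfsg.Agent.Lib.Helper15 Cfsg.Agent.Lib.Helper81

/-- Let G = K H with K normal, K ⊓ H trivial, and no non-identity element of H commuting with a non-identity element of K (a Frobenius group with kernel K and complement H). Then every non-principal irreducible character of K induces to an irreducible character of G. -/
theorem result {G : Type*} [Group G] [Fintype G] (K H : Subgroup G) [K.Normal] (hKH : K ⊓ H = ⊥) (hKH' : K ⊔ H = ⊤) (hfpf : ∀ h ∈ H, h ≠ 1 → ∀ k ∈ K, h * k = k * h → k = 1) (τ : K → ℂ) (hτ : Cfsg.IsIrrCharacter K τ) (hτ1 : τ ≠ fun _ => 1) : Cfsg.IsIrrCharacter G (Cfsg.indFun K τ) := by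
  classical
  have hinert : ∀ g : G, cj K g τ = τ ↔ g ∈ K := by
    intro g
    constructor
    · intro hg
      by_contra hgK
      set α : K ≃* K := MulAut.conjNormal g with hα
      have h173 := Cfsg.Agent.S0173.result α
      have hL : Nat.card {C : ConjClasses K // ConjClasses.map α.toMonoidHom C = C} ≤ 1 := by
        rw [Finite.card_le_one_iff_subsingleton]
        have hone : ∀ C : {C : ConjClasses K // ConjClasses.map α.toMonoidHom C = C},
            C.1 = ConjClasses.mk 1 := by
          rintro ⟨C, hC⟩
          obtain ⟨k, rfl⟩ := ConjClasses.exists_rep C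
          have h1 : IsConj (α k) k := ConjClasses.mk_eq_mk_iff_isConj.1 hC
          obtain ⟨v, hv⟩ := isConj_iff.1 h1
          have hv' : (v : G) * (g * k * g⁻¹) * (v : G)⁻¹ = k := by
            have := congrArg Subtype.val hv
            simpa [hα] using this
          by_cases hk1 : (k : G) = 1
          · have : k = 1 := Subtype.ext hk1
            exact congrArg ConjClasses.mk this
          · exfalso
            have hc : ((v : G) * g) * k = k * ((v : G) * g) := by
              calc ((v : G) * g) * k = ((v : G) * (g * k * g⁻¹) * (v : G)⁻¹) * ((v : G) * g) := by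
                    group
                _ = k * ((v : G) * g) := by rw [hv']
            have := frob_centralizer_le K H hKH' hfpf k.2 hk1 hc
            apply hgK
            have h2 : g = (v : G)⁻¹ * ((v : G) * g) := by group
            rw [h2]
            exact K.mul_mem (K.inv_mem v.2) this
        exact ⟨fun a b => Subtype.ext ((hone a).trans (hone b).symm)⟩
      rw [h173] at hL
      rw [Finite.card_le_one_iff_subsingleton] at hL
      have e := hL.elim
        (⟨⟨τ, hτ⟩, by rw [← cj_eq_comp]; exact hg⟩ :
          {χ : Cfsg.IrrCharacter K // (χ : K → ℂ) ∘ α = (χ : K → ℂ)})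
        ⟨⟨fun _ => 1, Cfsg.Agent.Lib.Helper74.isIrrCharacter_one⟩, rfl⟩
      exact hτ1 (congrArg (fun z => z.1.1) e)
    · intro hg
      exact cj_of_mem K hg (irr_cf hτ)
  rw [isIrr_iff]
  refine ⟨char_indFun K (irr_char hτ), ?_⟩
  rw [norm_indFun_normal K hτ]
  have : Nat.card {g : G // cj K g τ = τ} = Nat.card K :=
    Nat.card_congr (Equiv.subtypeEquivRight hinert)
  rw [this]
  exact inv_mul_cancel₀ (card_ne_zero K)

end Cfsg.Agent.S0171
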