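import Cfsg.Statements.S0881
import Cfsg.Agent.Lib.Helper6.Zas6
import Cfsg.Agent.Lib.Helper6.IndNorm

set_option autoImplicit false
open Cfsg

namespace Cfsg.Agent.S0881

/-- Let G be a finite simple Zassenhaus group on Ω with n points, a ≠ b points with two-point stabilizer E of odd order less than n - 2, and let H be the subgroup of the stabilizer of a consisting of the identity and the elements fixing no point other than a (given here as a subgroup of the stabilizer of order one less than the number of points whose non-identity elements fix only a; it is the Frobenius kernel of the stabilizer). Let μ be a character of degree 1 of the stabilizer of a that is identically 1 on H but not identically 1. Then the function induced from μ to G is an irreducible character of G, and it takes the value 1 at every non-identity element of H. -/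
theorem result {G Ω : Type*} [Group G] [Fintype G] [MulAction G Ω] [Fintype Ω] (hZ : Cfsg.IsZassenhausGroup G Ω) {a b : Ω} (hab : a ≠ b) [IsSimpleGroup G] (hodd : Odd (Nat.card ↥(MulAction.stabilizer G a ⊓ MulAction.stabilizer G b : Subgroup G))) (hlt : Nat.card ↥(MulAction.stabilizer G a ⊓ MulAction.stabilizer G b : Subgroup G) < Fintype.card Ω - 2) (H : Subgroup G) (hHa : H ≤ MulAction.stabilizer G a) (hHcard : Nat.card H + 1 = Fintype.card Ω) (hHfix : ∀ u ∈ H, u ≠ 1 → ∀ c : Ω, u • c = c → c = a) (μ : MulAction.stabilizer G a → ℂ) (hμ : Cfsg.IsCharacter (MulAction.stabilizer G a) μ ∧ μ 1 = 1) (hμH : ∀ u : MulAction.stabilizer G a, (u : G) ∈ H → μ u = 1) (hμne : μ ≠ fun _ => 1) : Cfsg.IsIrrCharacter G (Cfsg.indFun (MulAction.stabilizer G a) μ) ∧ ∀ u ∈ H, u ≠ 1 → Cfsg.indFun (MulAction.stabilizer G a) μ u = 1 := by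
  classical
  have hb := Cfsg.Agent.Lib.Helper6.Zas.base_of_zassenhaus hZ
  have : Fintype (MulAction.stabilizer G a) := Fintype.ofFinite (MulAction.stabilizer G a)
  obtain ⟨f, hf⟩ := Cfsg.Agent.Lib.Helper3.exists_hom_of_apply_one_eq_one hμ.1 hμ.2
  have hμf : μ = fun x : (MulAction.stabilizer G a) => ((f x : ℂˣ) : ℂ) := funext hf
  obtain ⟨h, hh⟩ : ∃ h, Fintype.card Ω = h + 1 :=
    ⟨Fintype.card Ω - 1, by have : 0 < Fintype.card Ω := Fintype.card_pos_iff.2 ⟨a⟩; omega⟩
  -- conjugation invariance of `f`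
  have hfconj : ∀ z x : (MulAction.stabilizer G a), f (z * x * z⁻¹) = f x := by
    intro z x
    rw [map_mul, map_mul, map_inv, mul_comm (f z), mul_assoc, mul_inv_cancel, mul_one]
  -- the elements fixing only `a` lie in `H`
  have hSH : ∀ g : G, g • a = a → (∀ d : Ω, g • d = d → d = a) → g ∈ H := by
    have hSa := hb.card_fix_only hab rfl hh a
    set Sa := Finset.univ.filter (fun g : G => g • a = a ∧ ∀ d : Ω, g • d = d → d = a) with hSa'
    set Hf := (Finset.univ.filter (fun g : G => g ∈ H)).erase 1 with hHf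
    have h1 : Hf ⊆ Sa := by
      intro g hg
      rw [hHf, Finset.mem_erase, Finset.mem_filter] at hg
      rw [hSa', Finset.mem_filter]
      exact ⟨Finset.mem_univ _, hHa hg.2.2, hHfix g hg.2.2 hg.1⟩
    have h2 : Hf.card + 1 = h := by
      have h3 : (Finset.univ.filter (fun g : G => g ∈ H)).card = Nat.card H := by
        rw [Nat.card_eq_fintype_card, ← Fintype.card_subtype]
      rw [hHf, Finset.card_erase_of_mem (by simp [H.one_mem]), h3]
      have : 0 < Nat.card H := Nat.card_pos
      omega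
    have h4 : Hf = Sa := Finset.eq_of_subset_of_card_le h1 (by omega)
    intro g hga hg
    have h5 : g ∈ Sa := by
      rw [hSa', Finset.mem_filter]
      exact ⟨Finset.mem_univ _, hga, hg⟩
    rw [← h4, hHf, Finset.mem_erase, Finset.mem_filter] at h5
    exact h5.2.2
  -- `f ^ 2` is non-trivial on every two point stabiliser
  have hnontriv : ∀ c : Ω, c ≠ a → ∃ x : (MulAction.stabilizer G a), (x : G) • c = c ∧ (f x) ^ 2 ≠ 1 := by
    intro c hca
    by_contra hcon
    push Not at hcon
    have h1 : ∀ x : (MulAction.stabilizer G a), (x : G) • c = c → f x = 1 := by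
      intro x hx
      have h2 := hcon x hx
      have hodd' : Odd (Nat.card ↥(MulAction.stabilizer G a ⊓ MulAction.stabilizer G c : Subgroup G)) := by
        rw [hb.card_stab2 hab hca.symm]; exact hodd
      have hxE : (x : G) ∈ (MulAction.stabilizer G a ⊓ MulAction.stabilizer G c : Subgroup G) :=
        Subgroup.mem_inf.2 ⟨x.2, MulAction.mem_stabilizer_iff.2 hx⟩
      have h3 : orderOf (⟨x, hxE⟩ : ↥(MulAction.stabilizer G a ⊓ MulAction.stabilizer G c : Subgroup G)) ∣
          Nat.card ↥(MulAction.stabilizer G a ⊓ MulAction.stabilizer G c : Subgroup G) :=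
        orderOf_dvd_natCard _
      rw [Subgroup.orderOf_mk, Subgroup.orderOf_coe] at h3
      obtain ⟨k, hk⟩ := Odd.of_dvd_nat hodd' h3
      have h4 : (f x) ^ orderOf x = 1 := by rw [← map_pow, pow_orderOf_eq_one, map_one]
      rw [hk, pow_succ, pow_mul, h2, one_pow, one_mul] at h4
      exact h4
    apply hμne
    funext x
    by_cases hxH : (x : G) ∈ H
    · exact hμH x hxH
    · have h2 : ∃ d : Ω, (x : G) • d = d ∧ d ≠ a := by
        by_contra h3
        push Not at h3
        exact hxH (hSH x x.2 h3)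
      obtain ⟨d, hxd, hda⟩ := h2
      obtain ⟨z, hza, hzd⟩ := hb.two hda.symm hca.symm
      have h3 := h1 ((⟨z, hza⟩ : (MulAction.stabilizer G a)) * x * (⟨z, hza⟩ : (MulAction.stabilizer G a))⁻¹) (by
        show (z * (x : G) * z⁻¹) • c = c
        have : z⁻¹ • c = d := by rw [inv_smul_eq_iff, hzd]
        rw [mul_smul, mul_smul, this, hxd, hzd])
      rw [hfconj] at h3
      rw [hf x, h3, Units.val_one]
  have hnorm : Cfsg.classInner (Cfsg.indFun (MulAction.stabilizer G a) μ) (Cfsg.indFun (MulAction.stabilizer G a) μ) = 1 := by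
    rw [hμf]
    apply Cfsg.Agent.Lib.Helper6.IndNorm.classInner_indFun_self
    intro y hy
    have hca : y • a ≠ a := hy
    set c := y • a with hc
    obtain ⟨s, hsa, hsc⟩ := hb.two hca.symm hca
    obtain ⟨hs2, hsinv⟩ :=
      Cfsg.Agent.Lib.Helper6.Zas.swap_inverts_of_simple hZ hab hodd hca.symm s hsa hsc
    have hsi : s⁻¹ = s := (eq_inv_of_mul_eq_one_right hs2).symm
    have hzA : s⁻¹ * y ∈ (MulAction.stabilizer G a) := by
      show (s⁻¹ * y) • a = a
      rw [mul_smul, ← hc, hsi, hsc]
    set B : Subgroup (MulAction.stabilizer G a) := (MulAction.stabilizer G c).subgroupOf (MulAction.stabilizer G a) with hB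
    have memB : ∀ x : (MulAction.stabilizer G a), x ∈ B ↔ (x : G) • c = c := fun x => Iff.rfl
    have hterm : ∀ x : (MulAction.stabilizer G a), ((f x : ℂˣ) : ℂ) * (starRingEnd ℂ)
        (Cfsg.extendByZero (MulAction.stabilizer G a) (fun x : (MulAction.stabilizer G a) => ((f x : ℂˣ) : ℂ)) (y⁻¹ * x * y))
        = if x ∈ B then (((f x) ^ 2 : ℂˣ) : ℂ) else 0 := by
      intro x
      split_ifs with hx
      · rw [memB] at hx
        have h1 : s * (x : G) * s⁻¹ = (x : G)⁻¹ := hsinv x ⟨x.2, hx⟩
        have h2 : y⁻¹ * (x : G) * y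
            = (((⟨s⁻¹ * y, hzA⟩ : (MulAction.stabilizer G a))⁻¹ * x⁻¹ * (⟨s⁻¹ * y, hzA⟩ : (MulAction.stabilizer G a))⁻¹⁻¹ : (MulAction.stabilizer G a)) : G) := by
          show y⁻¹ * (x : G) * y = (s⁻¹ * y)⁻¹ * (x : G)⁻¹ * (s⁻¹ * y)⁻¹⁻¹
          rw [← h1, hsi]
          have : (s * y)⁻¹ * (s * (x : G) * s) * (s * y)⁻¹⁻¹ = y⁻¹ * (s⁻¹ * s) * x * (s * s) * y := by
            group
          rw [this, hs2, inv_mul_cancel, mul_one, mul_one]
        rw [h2, Cfsg.Agent.Lib.Helper3.extendByZero_apply_coe, hfconj,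
          Cfsg.Agent.Lib.Helper6.IndNorm.conj_hom, inv_inv, pow_two, Units.val_mul]
      · rw [memB] at hx
        rw [Cfsg.Agent.Lib.Helper3.extendByZero_apply_not_mem, map_zero, mul_zero]
        intro h1
        apply hx
        have h2 : (y⁻¹ * (x : G) * y) • a = a := h1
        rw [mul_smul, mul_smul, inv_smul_eq_iff] at h2
        exact h2
    rw [Finset.sum_congr rfl (fun x _ => hterm x), ← Finset.sum_filter]
    have : Fintype B := Fintype.ofFinite B
    rw [Finset.sum_subtype (p := fun x => x ∈ B) _ (fun x => by simp)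
      (fun x : (MulAction.stabilizer G a) => (((f x) ^ 2 : ℂˣ) : ℂ))]
    let ψ : B →* ℂ := (Units.coeHom ℂ).comp ((powMonoidHom 2).comp (f.comp B.subtype))
    have hψ : ψ ≠ 1 := by
      intro h1
      obtain ⟨x₀, hx₀, hx₀'⟩ := hnontriv c hca
      apply hx₀'
      have h2 : ψ ⟨x₀, (memB x₀).2 hx₀⟩ = 1 := by rw [h1]; rfl
      exact Units.ext h2
    exact sum_hom_units_eq_zero ψ hψ
  refine ⟨Cfsg.Agent.Lib.Helper15.isIrr_iff.2
    ⟨Cfsg.Agent.Lib.Helper3.isCharacter_indFun (MulAction.stabilizer G a) hμ.1, hnorm⟩, ?_⟩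
  intro u hu hu1
  rw [Cfsg.Agent.Lib.Helper3.indFun_apply]
  have hterm : ∀ y : G, Cfsg.extendByZero (MulAction.stabilizer G a) μ (y⁻¹ * u * y) = if y ∈ (MulAction.stabilizer G a) then 1 else 0 := by
    intro y
    split_ifs with hy
    · have h2 : y⁻¹ * u * y = (((⟨y, hy⟩ : (MulAction.stabilizer G a))⁻¹ * ⟨u, hHa hu⟩ * (⟨y, hy⟩ : (MulAction.stabilizer G a))⁻¹⁻¹ : (MulAction.stabilizer G a)) : G) := by
        show y⁻¹ * u * y = y⁻¹ * u * y⁻¹⁻¹
        rw [inv_inv]
      rw [h2, Cfsg.Agent.Lib.Helper3.extendByZero_apply_coe, hf, hfconj, ← hf]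
      exact hμH _ hu
    · rw [Cfsg.Agent.Lib.Helper3.extendByZero_apply_not_mem]
      intro h1
      apply hy
      have h2 : (y⁻¹ * u * y) • a = a := h1
      rw [mul_smul, mul_smul, inv_smul_eq_iff] at h2
      exact hHfix u hu hu1 _ h2
  rw [Finset.sum_congr rfl (fun y _ => hterm y), Finset.sum_boole]
  have h6 : (Finset.univ.filter (fun y : G => y ∈ (MulAction.stabilizer G a))).card = Nat.card (MulAction.stabilizer G a) := by
    rw [Nat.card_eq_fintype_card, ← Fintype.card_subtype]
  rw [h6]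
  have hA0 : (Nat.card (MulAction.stabilizer G a) : ℂ) ≠ 0 := by exact_mod_cast Nat.card_pos.ne'
  exact inv_mul_cancel₀ hA0

end Cfsg.Agent.S0881
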