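import Cfsg.Statements.S0327
import Cfsg.Agent.Lib.Helper37.Suzuki.Trans

set_option autoImplicit false
open Cfsg

namespace Cfsg.Agent.S0327

open Cfsg.Agent.Lib.Helper37.Suz

/-- The Suzuki group (`m ≥ 1`) is a Zassenhaus group on the `q² + 1` points of the Suzuki–Tits ovoid. -/
theorem result {F : Type*} [Field F] [Fintype F] {m : ℕ} (hm : 1 ≤ m)
    (hF : Fintype.card F = 2 ^ (2 * m + 1)) :
    Cfsg.IsZassenhausGroup (Cfsg.Sz F m) (Cfsg.suzukiOvoid F m) := by
  have : SzField F m := ⟨hm, hF⟩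
  refine ⟨⟨?_⟩, ?_, ?_, ?_, ?_⟩
  · -- faithful
    intro g h hgh
    have h1 : (h⁻¹ * g : Cfsg.Sz F m).1 = 1 := by
      apply faithful m (h⁻¹ * g).2
      intro p hp
      have := congrArg Subtype.val (hgh ⟨p, hp⟩)
      show (h.1⁻¹ * g.1) • p = p
      rw [mul_smul, inv_smul_eq_iff]
      exact this
    have h2 : h⁻¹ * g = 1 := Subtype.ext h1
    exact (inv_mul_eq_one.1 h2).symm
  · rw [MulAction.is_two_pretransitive_iff]
    intro a b c d hab hcd
    obtain ⟨g, hg, g1, g2⟩ := two_transitive m a.2 b.2 c.2 d.2 (fun h => hab (Subtype.ext h))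
      (fun h => hcd (Subtype.ext h))
    exact ⟨⟨g, hg⟩, Subtype.ext g1, Subtype.ext g2⟩
  · intro g a b c hab hbc hac ga gb gc
    apply Subtype.ext
    exact eq_one_of_fix_three m g.2 a.2 b.2 c.2 (fun h => hab (Subtype.ext h)) (fun h => hbc (Subtype.ext h))
      (fun h => hac (Subtype.ext h)) (congrArg Subtype.val ga) (congrArg Subtype.val gb) (congrArg Subtype.val gc)
  · obtain ⟨k, hk⟩ := exists_unit_ne_one (F := F) m
    refine ⟨hS m k, ?_, ⟨inf, inf_mem m⟩, ⟨pt m 0 0, pt_mem m 0 0⟩, ?_, ?_, ?_⟩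
    · intro h
      apply hk
      apply hh_injective m
      rw [hh_one]
      exact congrArg Subtype.val h
    · intro h
      exact pt_ne_inf m 0 0 (congrArg Subtype.val h).symm
    · exact Subtype.ext (hh_smul_inf m k)
    · apply Subtype.ext
      show hh m k • pt m (0 : F) 0 = pt m 0 0
      rw [hh_smul_pt]; simp
  · intro N hN htr
    by_contra hcon
    push Not at hcon
    obtain ⟨n, hn⟩ := htr.exists_smul_eq (⟨inf, inf_mem m⟩ : Cfsg.suzukiOvoid F m) ⟨pt m 0 0, pt_mem m 0 0⟩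
    have hn0 : (n : Cfsg.Sz F m).1 • (inf : Projectivization F (Fin 4 → F)) = pt m 0 0 := congrArg Subtype.val hn
    obtain ⟨l, hl⟩ := exists_unit_ne_one (F := F) m
    apply not_commute_of_inf_zero m (n : Cfsg.Sz F m).2 hn0 hl
    let x : N := n⁻¹ * ⟨hS m l * n * (hS m l)⁻¹, hN.conj_mem _ n.2 _⟩
    have hx : x ∈ MulAction.stabilizer N (⟨inf, inf_mem m⟩ : Cfsg.suzukiOvoid F m) := by
      rw [MulAction.mem_stabilizer_iff]
      apply Subtype.ext
      show ((n : Cfsg.Sz F m).1⁻¹ * (hh m l * (n : Cfsg.Sz F m).1 * (hh m l)⁻¹)) • (inf : Projectivization F (Fin 4 → F)) = inf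
      rw [mul_smul, mul_smul, mul_smul, hh_inv, hh_smul_inf, hn0, hh_smul_pt, inv_smul_eq_iff, hn0]
      simp
    rw [hcon, Subgroup.mem_bot] at hx
    have hx2 : (n : Cfsg.Sz F m).1⁻¹ * (hh m l * (n : Cfsg.Sz F m).1 * (hh m l)⁻¹) = 1 :=
      congrArg (fun y : N => (y : Cfsg.Sz F m).1) hx
    rw [inv_mul_eq_one] at hx2
    rw [eq_mul_inv_iff_mul_eq] at hx2
    exact hx2.symm

end Cfsg.Agent.S0327
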