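import Cfsg.Statements.S0756
import Cfsg.Agent.Lib.Helper13.SymmForm

set_option autoImplicit false
open Cfsg

namespace Cfsg.Agent.S0756

open Module Cfsg.Agent.Lib.Helper13 in
theorem aux {F V : Type*} [Field F] [Finite F] [AddCommGroup V] [Module F V] [FiniteDimensional F V]
    (h2 : (2 : F) ≠ 0) (B : LinearMap.BilinForm F V) (hS : B.IsSymm) (α : F) (hα : ¬ IsSquare α) :
    ∀ n : ℕ, ∀ W : Submodule F V, finrank F W = n + 1 →
    (∀ w ∈ W, (∀ w' ∈ W, B w w' = 0) → w = 0) →
    ∃ v : Fin (n + 1) → V, (∀ i, v i ∈ W) ∧ (∀ i j, i ≠ j → B (v i) (v j) = 0) ∧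
      (∀ i, i ≠ Fin.last n → B (v i) (v i) = 1) ∧
      (B (v (Fin.last n)) (v (Fin.last n)) = 1 ∨ B (v (Fin.last n)) (v (Fin.last n)) = α) ∧
      W ≤ Submodule.span F (Set.range v) := by
  have hsym : ∀ a b, B a b = B b a := fun a b => hS.eq a b
  intro n
  induction n with
  | zero =>
    intro W hW hnd
    obtain ⟨w, hw, hne⟩ := symm_exists_anisotropic h2 B hS W (by omega) hnd
    obtain ⟨hdec, hrank, _⟩ := symm_split B hS W w hw hne
    have hbot : (W ⊓ LinearMap.ker (B w) : Submodule F V) = ⊥ := by
      rw [← Submodule.finrank_eq_zero]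
      omega
    have hα0 : α ≠ 0 := by
      rintro rfl
      exact hα ⟨0, by simp⟩
    obtain ⟨c, hc0, hc⟩ : ∃ c : F, c ≠ 0 ∧ (c ^ 2 * B w w = 1 ∨ c ^ 2 * B w w = α) := by
      by_cases hsq : IsSquare (B w w)
      · obtain ⟨r, hr⟩ := hsq
        have hr0 : r ≠ 0 := by
          rintro rfl
          simp at hr
          exact hne hr
        refine ⟨r⁻¹, inv_ne_zero hr0, Or.inl ?_⟩
        rw [hr]
        field_simp
      · obtain ⟨r, hr⟩ := isSquare_mul_of_not_isSquare h2 hsq hα
        have hr0 : r ≠ 0 := by
          rintro rfl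
          simp at hr
          rcases hr with h | h
          · exact hne h
          · exact hα0 h
        refine ⟨α / r, div_ne_zero hα0 hr0, Or.inr ?_⟩
        field_simp
        linear_combination hr
    refine ⟨fun _ => c • w, fun _ => W.smul_mem _ hw, ?_, ?_, ?_, ?_⟩
    · intro i j hij
      exact absurd ((Fin.subsingleton_one).elim i j) hij
    · intro i hi
      exact absurd ((Fin.subsingleton_one).elim i _) hi
    · simp only [map_smul, LinearMap.smul_apply, smul_eq_mul]
      rcases hc with h | h
      · left; linear_combination h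
      · right; linear_combination h
    · intro u hu
      have h1 := hdec u hu
      rw [hbot, Submodule.mem_bot, sub_eq_zero] at h1
      rw [h1]
      have : (B w u / B w w) • w = ((B w u / B w w) * c⁻¹) • (c • w) := by
        rw [smul_smul, mul_assoc, inv_mul_cancel₀ hc0, mul_one]
      rw [this]
      exact Submodule.smul_mem _ _ (Submodule.subset_span ⟨0, rfl⟩)
  | succ n ih =>
    intro W hW hnd
    obtain ⟨v0, hv0W, hvv⟩ := symm_exists_norm h2 B hS W (by omega) hnd 1
    have hne : B v0 v0 ≠ 0 := by rw [hvv]; exact one_ne_zero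
    obtain ⟨hdec, hrank, hnd'⟩ := symm_split B hS W v0 hv0W hne
    obtain ⟨v, hvW, hvo, hv1, hvl, hspan⟩ := ih _ (by omega) (hnd' hnd)
    have hW'mem : ∀ w, w ∈ (W ⊓ LinearMap.ker (B v0) : Submodule F V) ↔ w ∈ W ∧ B v0 w = 0 := by
      intro w
      simp
    have hlast : Fin.last (n + 1) = (Fin.last n).succ := rfl
    refine ⟨Fin.cons v0 v, ?_, ?_, ?_, ?_, ?_⟩
    · intro i
      refine Fin.cases ?_ (fun i => ?_) i
      · exact hv0W
      · exact ((hW'mem _).mp (hvW i)).1
    · intro i j
      refine Fin.cases ?_ (fun i => ?_) i <;> refine Fin.cases ?_ (fun j => ?_) j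
      · intro h; exact absurd rfl h
      · intro _
        simp only [Fin.cons_zero, Fin.cons_succ]
        exact ((hW'mem _).mp (hvW j)).2
      · intro _
        simp only [Fin.cons_zero, Fin.cons_succ]
        rw [hsym]
        exact ((hW'mem _).mp (hvW i)).2
      · intro h
        simp only [Fin.cons_succ]
        exact hvo i j (fun h' => h (by rw [h']))
    · intro i
      refine Fin.cases ?_ (fun i => ?_) i
      · intro _
        simpa using hvv
      · intro h
        simp only [Fin.cons_succ]
        apply hv1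
        intro h'
        apply h
        rw [h', hlast]
    · rw [hlast]
      simpa only [Fin.cons_succ] using hvl
    · set S := Submodule.span F (Set.range (Fin.cons v0 v : Fin (n + 1 + 1) → V)) with hS'
      have hsub : Submodule.span F (Set.range v) ≤ S := by
        apply Submodule.span_mono
        rintro z ⟨i, rfl⟩
        exact ⟨i.succ, by simp⟩
      have hv0S : v0 ∈ S := Submodule.subset_span ⟨0, by simp⟩
      intro w hw
      have hd := hsub (hspan (hdec w hw))
      have h2' : w = (B v0 w / B v0 v0) • v0 + (w - (B v0 w / B v0 v0) • v0) := by abel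
      rw [h2']
      exact S.add_mem (S.smul_mem _ hv0S) hd

/-- Classification of symmetric bilinear forms over finite fields of odd characteristic: if B is non-degenerate symmetric on V of dimension n + 1 and α is a fixed non-square of F, there is an orthogonal basis b_0, ..., b_n with B(b_i, b_i) = 1 for i < n and B(b_n, b_n) ∈ {1, α}. -/
theorem result {F V : Type*} [Field F] [Finite F] [AddCommGroup V] [Module F V] [FiniteDimensional F V] (h2 : (2 : F) ≠ 0) (B : LinearMap.BilinForm F V) (hS : B.IsSymm) (hB : B.Nondegenerate) {n : ℕ} (hn : Module.finrank F V = n + 1) (α : F) (hα : ¬ IsSquare α) : ∃ b : Module.Basis (Fin (n + 1)) F V, (∀ i j, i ≠ j → B (b i) (b j) = 0) ∧ (∀ i, i ≠ Fin.last n → B (b i) (b i) = 1) ∧ (B (b (Fin.last n)) (b (Fin.last n)) = 1 ∨ B (b (Fin.last n)) (b (Fin.last n)) = α) := by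
  obtain ⟨v, _, hvo, hv1, hvl, hspan⟩ := aux h2 B hS α hα n ⊤ (by rw [finrank_top, hn])
    (fun w _ hw => hB.1 w (fun w' => hw w' trivial))
  refine ⟨basisOfTopLeSpanOfCardEqFinrank v hspan (by simp [hn]), ?_, ?_, ?_⟩
  · intro i j hij
    simpa using hvo i j hij
  · intro i hi
    simpa using hv1 i hi
  · simpa using hvl

end Cfsg.Agent.S0756
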