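import Mathlib
import Cfsg.Statements.S2618
import Cfsg.Agent.Lib.Helper14.WittDecomp

set_option autoImplicit false
open Cfsg

namespace Cfsg.Agent.S2618

open Cfsg.Agent.Lib.Helper14

/-- Standard (parabolic) basis of a non-degenerate quadratic space of odd dimension 2m + 1 over a finite field (the non-degeneracy of the polar form forces the characteristic to be odd): there is a basis e_i, f_i (i < m), x with Q(e_i) = Q(f_i) = 0, B(e_i, f_j) = δ_ij (B the polar form), the e's pairwise orthogonal and the f's pairwise orthogonal, x orthogonal to all of them and Q(x) ≠ 0. -/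
theorem result {F V : Type*} [Field F] [Finite F] [AddCommGroup V] [Module F V] [FiniteDimensional F V] {m : ℕ} (hV : Module.finrank F V = 2 * m + 1) (Q : QuadraticForm F V) (hQ : (QuadraticMap.polarBilin Q).Nondegenerate) : ∃ b : Module.Basis (Unit ⊕ (Fin m ⊕ Fin m)) F V, Q (b (Sum.inl ())) ≠ 0 ∧ (∀ i, QuadraticMap.polar ⇑Q (b (Sum.inl ())) (b (Sum.inr (Sum.inl i))) = 0 ∧ QuadraticMap.polar ⇑Q (b (Sum.inl ())) (b (Sum.inr (Sum.inr i))) = 0) ∧ (∀ i, Q (b (Sum.inr (Sum.inl i))) = 0 ∧ Q (b (Sum.inr (Sum.inr i))) = 0) ∧ (∀ i j, QuadraticMap.polar ⇑Q (b (Sum.inr (Sum.inl i))) (b (Sum.inr (Sum.inr j))) = if i = j then 1 else 0) ∧ (∀ i j, QuadraticMap.polar ⇑Q (b (Sum.inr (Sum.inl i))) (b (Sum.inr (Sum.inl j))) = 0 ∧ QuadraticMap.polar ⇑Q (b (Sum.inr (Sum.inr i))) (b (Sum.inr (Sum.inr j))) = 0) := by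
  obtain ⟨e, f, A, hsys, horth, hA, hnd⟩ := witt_core 1 le_rfl m Q hQ hV
  obtain ⟨x, hxA, hx⟩ := core_one Q A hA hnd
  have hx0 : x ≠ 0 := by
    rintro rfl
    simp at hx
  have hli := hsys.linearIndependent_sum (fun _ : Unit => x) (linearIndependent_unique_iff.mpr hx0)
    (fun i _ => horth i x hxA)
  obtain ⟨B, hB⟩ := exists_basis_of_li _ hli (by simp [hV]; ring)
  refine ⟨B.reindex (Equiv.sumComm _ _), ?_, ?_, ?_, ?_, ?_⟩
  · simpa [hB] using hx
  · intro i
    simp only [Module.Basis.reindex_apply, hB, Equiv.sumComm_symm, Equiv.sumComm_apply,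
      Sum.swap_inl, Sum.swap_inr, Sum.elim_inl, Sum.elim_inr]
    rw [QuadraticMap.polar_comm _ x, QuadraticMap.polar_comm _ x]
    exact horth i x hxA
  · intro i
    simp only [Module.Basis.reindex_apply, hB, Equiv.sumComm_symm, Equiv.sumComm_apply,
      Sum.swap_inl, Sum.swap_inr, Sum.elim_inl, Sum.elim_inr]
    exact ⟨hsys.Qe i, hsys.Qf i⟩
  · intro i j
    simp only [Module.Basis.reindex_apply, hB, Equiv.sumComm_symm, Equiv.sumComm_apply,
      Sum.swap_inl, Sum.swap_inr, Sum.elim_inl, Sum.elim_inr]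
    exact hsys.ef i j
  · intro i j
    simp only [Module.Basis.reindex_apply, hB, Equiv.sumComm_symm, Equiv.sumComm_apply,
      Sum.swap_inl, Sum.swap_inr, Sum.elim_inl, Sum.elim_inr]
    exact ⟨hsys.ee i j, hsys.ff i j⟩

end Cfsg.Agent.S2618
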