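import Cfsg.Statements.S0304
import Cfsg.Agent.Lib.Helper13.SympTrans
import Cfsg.Agent.Lib.Helper43.GLEquiv

set_option autoImplicit false
open Cfsg

namespace Cfsg.Agent.S0304

open Matrix Cfsg.Agent.Lib.Helper13 Cfsg.Agent.Lib.Helper43

variable {F : Type*} [Field F] {m : ℕ}

theorem odd_eq (v : Unit ⊕ (Fin m ⊕ Fin m) → F) :
    Cfsg.quadFormOdd m F v = v (Sum.inl ()) ^ 2 + Cfsg.quadFormPlus m F (v ∘ Sum.inr) := rfl

theorem plus_add (h2 : (2 : F) = 0) (w w' : Fin m ⊕ Fin m → F) :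
    Cfsg.quadFormPlus m F (w + w') = Cfsg.quadFormPlus m F w + Cfsg.quadFormPlus m F w'
      + Cfsg.sympForm m F w w' := by
  rw [sympForm_eq_sum]
  simp only [Cfsg.quadFormPlus, Pi.add_apply]
  rw [← Finset.sum_add_distrib, ← Finset.sum_add_distrib]
  apply Finset.sum_congr rfl
  intro i _
  linear_combination (w (Sum.inl i) * w' (Sum.inr i)) * h2

theorem plus_smul (c : F) (w : Fin m ⊕ Fin m → F) :
    Cfsg.quadFormPlus m F (c • w) = c ^ 2 * Cfsg.quadFormPlus m F w := by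
  simp only [Cfsg.quadFormPlus, Pi.smul_apply, smul_eq_mul, Finset.mul_sum]
  apply Finset.sum_congr rfl
  intro i _
  ring

theorem plus_zero : Cfsg.quadFormPlus m F 0 = 0 := by
  simp [Cfsg.quadFormPlus]

theorem odd_add (h2 : (2 : F) = 0) (u v : Unit ⊕ (Fin m ⊕ Fin m) → F) :
    Cfsg.quadFormOdd m F (u + v) = Cfsg.quadFormOdd m F u + Cfsg.quadFormOdd m F v
      + Cfsg.sympForm m F (u ∘ Sum.inr) (v ∘ Sum.inr) := by
  rw [odd_eq, odd_eq, odd_eq]
  have : (u + v) ∘ Sum.inr = u ∘ Sum.inr + v ∘ (Sum.inr : Fin m ⊕ Fin m → Unit ⊕ (Fin m ⊕ Fin m)) := rfl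
  rw [this, plus_add h2, Pi.add_apply]
  linear_combination (u (Sum.inl ()) * v (Sum.inl ())) * h2

abbrev OO (m : ℕ) (F : Type*) [Field F] := ↥(Cfsg.isometryGroup F (Cfsg.quadFormOdd m F))

/-- the underlying matrix -/
abbrev mat (g : OO m F) : Matrix (Unit ⊕ (Fin m ⊕ Fin m)) (Unit ⊕ (Fin m ⊕ Fin m)) F :=
  ((g : Matrix.GeneralLinearGroup (Unit ⊕ (Fin m ⊕ Fin m)) F) :
    Matrix (Unit ⊕ (Fin m ⊕ Fin m)) (Unit ⊕ (Fin m ⊕ Fin m)) F)

theorem iso_apply (g : OO m F) (v : Unit ⊕ (Fin m ⊕ Fin m) → F) :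
    Cfsg.quadFormOdd m F (mat g *ᵥ v) = Cfsg.quadFormOdd m F v := g.2 v 0

theorem mat_mul (g h : OO m F) : mat (g * h) = mat g * mat h := rfl

theorem mat_inv_mulVec (g : OO m F) (v : Unit ⊕ (Fin m ⊕ Fin m) → F) :
    mat g *ᵥ (mat g⁻¹ *ᵥ v) = v := by
  rw [Matrix.mulVec_mulVec, ← mat_mul, mul_inv_cancel]
  exact Matrix.one_mulVec v

theorem form_pres (h2 : (2 : F) = 0) (g : OO m F) (u v : Unit ⊕ (Fin m ⊕ Fin m) → F) :
    Cfsg.sympForm m F ((mat g *ᵥ u) ∘ Sum.inr) ((mat g *ᵥ v) ∘ Sum.inr)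
      = Cfsg.sympForm m F (u ∘ Sum.inr) (v ∘ Sum.inr) := by
  have h := iso_apply g (u + v)
  rw [Matrix.mulVec_add, odd_add h2, odd_add h2, iso_apply, iso_apply] at h
  exact add_left_cancel h

/-- The radical vector. -/
def e0 : Unit ⊕ (Fin m ⊕ Fin m) → F := Pi.single (Sum.inl ()) 1

theorem e0_inr : (e0 : Unit ⊕ (Fin m ⊕ Fin m) → F) ∘ Sum.inr = 0 := by
  funext i; simp [e0]

theorem e0_inl : (e0 : Unit ⊕ (Fin m ⊕ Fin m) → F) (Sum.inl ()) = 1 := by
  simp [e0]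

theorem mat_e0 (h2 : (2 : F) = 0) (g : OO m F) : mat g *ᵥ e0 = e0 := by
  have h1 : (mat g *ᵥ e0) ∘ Sum.inr = 0 := by
    apply sympForm_nondeg
    intro w
    have h := form_pres h2 g e0 (mat g⁻¹ *ᵥ (Sum.elim 0 w))
    rw [mat_inv_mulVec, e0_inr, sympForm_zero_left] at h
    exact h
  have h3 := iso_apply g e0
  rw [odd_eq, odd_eq, h1, e0_inr, e0_inl] at h3
  have h4 : ((mat g *ᵥ e0) (Sum.inl ()) - 1) ^ 2 = 0 := by
    linear_combination h3 + (1 - (mat g *ᵥ e0) (Sum.inl ())) * h2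
  have h5 : (mat g *ᵥ e0) (Sum.inl ()) = 1 := sub_eq_zero.mp (pow_eq_zero_iff (by norm_num) |>.mp h4)
  funext i
  rcases i with ⟨⟩ | i
  · rw [h5, e0_inl]
  · exact (congrFun h1 i).trans (congrFun e0_inr i).symm

theorem block21 (h2 : (2 : F) = 0) (g : OO m F) : (mat g).toBlocks₂₁ = 0 := by
  ext i j
  have h := congrFun (mat_e0 h2 g) (Sum.inr i)
  rw [e0, Matrix.mulVec_single_one] at h
  have h' : mat g (Sum.inr i) (Sum.inl ()) = 0 := by simpa using h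
  exact h'

theorem block11 (h2 : (2 : F) = 0) (g : OO m F) : (mat g).toBlocks₁₁ = 1 := by
  ext i j
  have h := congrFun (mat_e0 h2 g) (Sum.inl ())
  rw [e0, Matrix.mulVec_single_one] at h
  have h' : mat g (Sum.inl ()) (Sum.inl ()) = 1 := by simpa using h
  exact h'

theorem mat_eq (h2 : (2 : F) = 0) (g : OO m F) :
    mat g = Matrix.fromBlocks 1 (mat g).toBlocks₁₂ 0 (mat g).toBlocks₂₂ := by
  conv_lhs => rw [← Matrix.fromBlocks_toBlocks (mat g), block21 h2, block11 h2]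

theorem mulVec_inr (h2 : (2 : F) = 0) (g : OO m F) (v : Unit ⊕ (Fin m ⊕ Fin m) → F) :
    (mat g *ᵥ v) ∘ Sum.inr = (mat g).toBlocks₂₂ *ᵥ (v ∘ Sum.inr) := by
  conv_lhs => rw [mat_eq h2 g, Matrix.fromBlocks_mulVec]
  funext i
  simp

theorem block22_mem (h2 : (2 : F) = 0) (g : OO m F) :
    (mat g).toBlocks₂₂ ∈ Matrix.symplecticGroup (Fin m) F := by
  rw [mem_symplecticGroup_iff_preserves]
  intro u v
  have h := form_pres h2 g (Sum.elim 0 u) (Sum.elim 0 v)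
  rw [mulVec_inr h2, mulVec_inr h2] at h
  exact h

/-- The homomorphism `O_{2m+1} → Sp_{2m}`. -/
def toSp (h2 : (2 : F) = 0) : OO m F →* Matrix.symplecticGroup (Fin m) F where
  toFun g := ⟨(mat g).toBlocks₂₂, block22_mem h2 g⟩
  map_one' := by
    apply Subtype.ext
    show (1 : Matrix (Unit ⊕ (Fin m ⊕ Fin m)) (Unit ⊕ (Fin m ⊕ Fin m)) F).toBlocks₂₂ = 1
    rw [← Matrix.fromBlocks_one, Matrix.toBlocks_fromBlocks₂₂]
  map_mul' g h := by
    apply Subtype.ext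
    show (mat (g * h)).toBlocks₂₂ = (mat g).toBlocks₂₂ * (mat h).toBlocks₂₂
    rw [mat_mul]
    conv_lhs => rw [mat_eq h2 g, mat_eq h2 h, Matrix.fromBlocks_multiply, Matrix.toBlocks_fromBlocks₂₂]
    simp

theorem toSp_injective (h2 : (2 : F) = 0) : Function.Injective (toSp (m := m) h2) := by
  rw [injective_iff_map_eq_one]
  intro g hg
  have hd : (mat g).toBlocks₂₂ = 1 := congrArg Subtype.val hg
  have hb : (mat g).toBlocks₁₂ = 0 := by
    ext i j
    have h := iso_apply g (Sum.elim 0 (Pi.single j 1))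
    rw [odd_eq, odd_eq, mulVec_inr h2, hd, Matrix.one_mulVec] at h
    have h3 : (mat g *ᵥ Sum.elim 0 (Pi.single j 1)) (Sum.inl ()) = (mat g).toBlocks₁₂ i j := by
      conv_lhs => rw [mat_eq h2 g, Matrix.fromBlocks_mulVec]
      simp only [Sum.elim_inl, Sum.elim_comp_inl, Sum.elim_comp_inr, Matrix.mulVec_zero, zero_add,
        Matrix.mulVec_single_one]
      rfl
    rw [h3] at h
    simp only [Sum.elim_inl, Pi.zero_apply] at h
    have h4 : (mat g).toBlocks₁₂ i j ^ 2 = 0 := by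
      have := add_right_cancel h
      simpa using this
    exact pow_eq_zero_iff (by norm_num) |>.mp h4
  have h1 : mat g = 1 := by
    rw [mat_eq h2 g, hb, hd, Matrix.fromBlocks_one]
  apply Subtype.ext
  apply Units.ext
  exact h1

theorem toSp_surjective [Fintype F] [CharP F 2] (h2 : (2 : F) = 0) :
    Function.Surjective (toSp (m := m) h2) := by
  classical
  intro h
  have : Fact (Nat.Prime 2) := ⟨Nat.prime_two⟩
  set H : Matrix (Fin m ⊕ Fin m) (Fin m ⊕ Fin m) F := h.1 with hH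
  let φ : (Fin m ⊕ Fin m → F) →+ F := AddMonoidHom.mk'
    (fun w => Cfsg.quadFormPlus m F w + Cfsg.quadFormPlus m F (H *ᵥ w)) (by
      intro w w'
      rw [Matrix.mulVec_add, plus_add h2, plus_add h2, sp_preserves h]
      linear_combination (Cfsg.sympForm m F w w') * h2)
  have hφ : ∀ w, φ w = Cfsg.quadFormPlus m F w + Cfsg.quadFormPlus m F (H *ᵥ w) := fun _ => rfl
  have hφs : ∀ (c : F) w, φ (c • w) = c ^ 2 * φ w := by
    intro c w
    rw [hφ, hφ, Matrix.mulVec_smul, plus_smul, plus_smul]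
    ring
  have hsq : ∀ j, ∃ b : F, b * b = φ (Pi.single j 1) := by
    intro j
    obtain ⟨b, hb⟩ := FiniteField.isSquare_of_char_two (ringChar.eq F 2) (φ (Pi.single j 1))
    exact ⟨b, hb.symm⟩
  choose b hb using hsq
  have hkey : ∀ w : Fin m ⊕ Fin m → F, (∑ j, b j * w j) ^ 2 = φ w := by
    intro w
    rw [sum_pow_char 2]
    conv_rhs => rw [← Finset.univ_sum_single w, map_sum]
    apply Finset.sum_congr rfl
    intro j _
    have : (Pi.single j (w j) : Fin m ⊕ Fin m → F) = w j • Pi.single j 1 := by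
      rw [← Pi.single_smul, smul_eq_mul, mul_one]
    rw [this, hφs, ← hb]
    ring
  let B : Matrix Unit (Fin m ⊕ Fin m) F := Matrix.of fun _ j => b j
  let G : Matrix (Unit ⊕ (Fin m ⊕ Fin m)) (Unit ⊕ (Fin m ⊕ Fin m)) F := Matrix.fromBlocks 1 B 0 H
  have hdet : G.det ≠ 0 := by
    rw [Matrix.det_fromBlocks_zero₂₁, Matrix.det_one, one_mul]
    exact (SymplecticGroup.symplectic_det h.2).ne_zero
  let G' : Matrix.GeneralLinearGroup (Unit ⊕ (Fin m ⊕ Fin m)) F :=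
    Matrix.GeneralLinearGroup.mkOfDetNeZero G hdet
  have hG' : (G' : Matrix (Unit ⊕ (Fin m ⊕ Fin m)) (Unit ⊕ (Fin m ⊕ Fin m)) F) = G := rfl
  have hmem : G' ∈ Cfsg.isometryGroup F (Cfsg.quadFormOdd m F) := by
    intro u _
    show Cfsg.quadFormOdd m F (G *ᵥ u) = Cfsg.quadFormOdd m F u
    rw [odd_eq, odd_eq, Matrix.fromBlocks_mulVec]
    have h3 : (Sum.elim ((1 : Matrix Unit Unit F) *ᵥ (u ∘ Sum.inl) + B *ᵥ (u ∘ Sum.inr))
        ((0 : Matrix (Fin m ⊕ Fin m) Unit F) *ᵥ (u ∘ Sum.inl) + H *ᵥ (u ∘ Sum.inr)) :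
        Unit ⊕ (Fin m ⊕ Fin m) → F) (Sum.inl ()) = u (Sum.inl ()) + ∑ j, b j * u (Sum.inr j) := by
      simp [B, Matrix.mulVec, dotProduct]
    have h4 : (Sum.elim ((1 : Matrix Unit Unit F) *ᵥ (u ∘ Sum.inl) + B *ᵥ (u ∘ Sum.inr))
        ((0 : Matrix (Fin m ⊕ Fin m) Unit F) *ᵥ (u ∘ Sum.inl) + H *ᵥ (u ∘ Sum.inr)) :
        Unit ⊕ (Fin m ⊕ Fin m) → F) ∘ Sum.inr = H *ᵥ (u ∘ Sum.inr) := by
      funext i
      simp
    rw [h3, h4]
    have h5 := hkey (u ∘ Sum.inr)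
    rw [hφ] at h5
    simp only [Function.comp_apply] at h5
    linear_combination h5 + (u (Sum.inl ()) * ∑ j, b j * u (Sum.inr j)
      + Cfsg.quadFormPlus m F (H *ᵥ (u ∘ Sum.inr))) * h2
  refine ⟨⟨G', hmem⟩, ?_⟩
  apply Subtype.ext
  rfl

/-- In characteristic 2, O_{2m+1}(q) is isomorphic to Sp_{2m}(q). -/
theorem result {F : Type*} [Field F] [Fintype F] [CharP F 2] (m : ℕ) : Nonempty (Cfsg.isometryGroup F (Cfsg.quadFormOdd m F) ≃* Matrix.symplecticGroup (Fin m) F) := by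
  have h2 : (2 : F) = 0 := by
    have := CharP.cast_eq_zero F 2
    exact_mod_cast this
  exact ⟨MulEquiv.ofBijective (toSp h2) ⟨toSp_injective h2, toSp_surjective h2⟩⟩

end Cfsg.Agent.S0304
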