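import Cfsg.Statements.S3305
import Cfsg.Agent.Lib.Helper55.SylowTwo

set_option autoImplicit false
open Cfsg

namespace Cfsg.Agent.S3305

open Cfsg.Agent.Lib.Helper55

/-- If `S` is a Sylow `p`-subgroup, `H` is normal and `U ≤ S ⊔ H` is a `p`-subgroup then `U` is conjugate
into `S` by an element of `H`. -/
theorem exists_conj_mem_of_le_sup {G : Type*} [Group G] [Finite G] {p : ℕ} [Fact p.Prime]
    (S : Sylow p G) (H : Subgroup G) [H.Normal] (U : Subgroup G) (hU : IsPGroup p ↥U)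
    (hle : U ≤ (S : Subgroup G) ⊔ H) :
    ∃ h ∈ H, ∀ u ∈ U, h * u * h⁻¹ ∈ (S : Subgroup G) := by
  have hSK : (S : Subgroup G) ≤ (S : Subgroup G) ⊔ H := le_sup_left
  obtain ⟨g, hg⟩ := exists_conj_mem_sylow (S.subtype hSK) (U.subgroupOf ((S : Subgroup G) ⊔ H))
    (hU.comap_subtype)
  obtain ⟨s, hs, h, hh, hsh⟩ := Subgroup.mem_sup_of_normal_right.1 g.2
  refine ⟨h, hh, fun u hu => ?_⟩
  have h1 := hg ⟨u, hle hu⟩ (by rw [Subgroup.mem_subgroupOf]; exact hu)
  rw [Sylow.coe_subtype, Subgroup.mem_subgroupOf] at h1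
  have h2 : (g : G) * u * (g : G)⁻¹ ∈ (S : Subgroup G) := h1
  rw [← hsh] at h2
  have h3 : s⁻¹ * (s * h * u * (s * h)⁻¹) * s ∈ (S : Subgroup G) :=
    (S : Subgroup G).mul_mem ((S : Subgroup G).mul_mem ((S : Subgroup G).inv_mem hs) h2) hs
  have e : s⁻¹ * (s * h * u * (s * h)⁻¹) * s = h * u * h⁻¹ := by group
  rwa [e] at h3

/-- If any two distinct Sylow 2-subgroups of the finite group G intersect in a cyclic group, then the same holds in every quotient group G/H, H a normal subgroup of G. -/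
theorem result {G : Type*} [Group G] [Finite G]
    (hC : ∀ S T : Sylow 2 G, S ≠ T → IsCyclic ↥((S : Subgroup G) ⊓ (T : Subgroup G))) (H : Subgroup G) [H.Normal] :
    ∀ S T : Sylow 2 (G ⧸ H), S ≠ T → IsCyclic ↥((S : Subgroup (G ⧸ H)) ⊓ (T : Subgroup (G ⧸ H))) := by
  intro S' T' hne
  have hf : Function.Surjective (QuotientGroup.mk' H) := QuotientGroup.mk'_surjective H
  obtain ⟨S, rfl⟩ := Sylow.mapSurjective_surjective hf 2 S'
  obtain ⟨T, rfl⟩ := Sylow.mapSurjective_surjective hf 2 T'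
  rw [Sylow.coe_mapSurjective, Sylow.coe_mapSurjective]
  set U : Subgroup G := (T : Subgroup G) ⊓ ((S : Subgroup G) ⊔ H) with hU
  have hUp : IsPGroup 2 ↥U := T.2.to_inf_left
  obtain ⟨h, hh, hconj⟩ := exists_conj_mem_of_le_sup S H U hUp inf_le_right
  -- the Sylow subgroup `h⁻¹ • S`
  have hne' : h⁻¹ • S ≠ T := by
    intro heq
    apply hne
    apply Sylow.ext
    rw [Sylow.coe_mapSurjective, Sylow.coe_mapSurjective, ← heq, Sylow.coe_subgroup_smul]
    ext y
    simp only [Subgroup.mem_map]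
    constructor
    · rintro ⟨s, hs, rfl⟩
      refine ⟨h⁻¹ * s * h, ?_, ?_⟩
      · rw [Subgroup.mem_pointwise_smul_iff_inv_smul_mem]
        have : (MulAut.conj h⁻¹)⁻¹ • (h⁻¹ * s * h) = s := by
          simp [MulAut.smul_def, mul_assoc]
        rw [this]; exact hs
      · have hh1 : (QuotientGroup.mk' H) h = 1 := (QuotientGroup.eq_one_iff h).2 hh
        rw [map_mul, map_mul, map_inv, hh1]; simp
    · rintro ⟨s, hs, rfl⟩
      rw [Subgroup.mem_pointwise_smul_iff_inv_smul_mem] at hs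
      refine ⟨_, hs, ?_⟩
      have hh1 : (h : G ⧸ H) = 1 := (QuotientGroup.eq_one_iff h).2 hh
      simp [MulAut.smul_def, hh1]
  have hcyc := hC (h⁻¹ • S) T hne'
  have hUle : U ≤ ((h⁻¹ • S : Sylow 2 G) : Subgroup G) ⊓ (T : Subgroup G) := by
    intro u hu
    rw [Subgroup.mem_inf]
    refine ⟨?_, hu.1⟩
    rw [Sylow.coe_subgroup_smul, Subgroup.mem_pointwise_smul_iff_inv_smul_mem]
    have : (MulAut.conj h⁻¹)⁻¹ • u = h * u * h⁻¹ := by
      simp [MulAut.smul_def]
    rw [this]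
    exact hconj u hu
  have hUcyc : IsCyclic ↥U := Subgroup.isCyclic_of_le hUle
  have hmap : (S : Subgroup G).map (QuotientGroup.mk' H) ⊓ (T : Subgroup G).map (QuotientGroup.mk' H)
      = U.map (QuotientGroup.mk' H) := by
    ext y
    simp only [Subgroup.mem_inf, Subgroup.mem_map]
    constructor
    · rintro ⟨⟨s, hs, rfl⟩, ⟨t, ht, hts⟩⟩
      refine ⟨t, ⟨ht, ?_⟩, hts⟩
      have h1 : s⁻¹ * t ∈ H := by
        rw [← QuotientGroup.eq_one_iff]
        have : ((s⁻¹ * t : G) : G ⧸ H) = ((QuotientGroup.mk' H) s)⁻¹ * (QuotientGroup.mk' H) t := rfl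
        rw [this, hts]; simp
      have h2 : t = s * (s⁻¹ * t) := by group
      rw [h2]
      exact Subgroup.mul_mem_sup hs h1
    · rintro ⟨u, hu, rfl⟩
      refine ⟨?_, ⟨u, hu.1, rfl⟩⟩
      obtain ⟨s, hs, k, hk, hsk⟩ := Subgroup.mem_sup_of_normal_right.1 hu.2
      refine ⟨s, hs, ?_⟩
      rw [← hsk, map_mul]
      have hk1 : (QuotientGroup.mk' H) k = 1 := (QuotientGroup.eq_one_iff k).2 hk
      rw [hk1, mul_one]
  rw [hmap]
  exact isCyclic_of_surjective ((QuotientGroup.mk' H).subgroupMap U)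
    ((QuotientGroup.mk' H).subgroupMap_surjective U)

end Cfsg.Agent.S3305
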