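import Cfsg.Statements.S4195
import Mathlib

set_option autoImplicit false
open Cfsg

namespace Cfsg.Agent.S4195

theorem card_isConj_eq_index {G : Type*} [Group G] (x : G) :
    Nat.card {y : G // IsConj x y} = (Subgroup.centralizer ({x} : Set G)).index := by
  have h1 := MulAction.index_stabilizer (ConjAct G) x
  rw [ConjAct.stabilizer_eq_centralizer] at h1
  have h2 : (Subgroup.centralizer ({x} : Set G)).index = (Subgroup.centralizer {ConjAct.toConjAct x}).index := rfl
  rw [h2, h1, ← Nat.card_coe_set_eq]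
  apply Nat.card_congr
  refine Equiv.subtypeEquivRight ?_
  intro y
  rw [ConjAct.mem_orbit_conjAct, isConj_comm]

theorem isConj_inv_inv {G : Type*} [Group G] {a b : G} (h : IsConj a b) : IsConj a⁻¹ b⁻¹ := by
  obtain ⟨c, hc⟩ := isConj_iff.mp h
  exact isConj_iff.mpr ⟨c, by rw [← hc]; group⟩

/-- Let x be a non-identity element of a finite group G whose centralizer contains a Sylow 2-subgroup of G. If x is conjugate to its inverse, then x has order 2. -/
theorem result {G : Type*} [Group G] [Finite G] (x : G) (hx : x ≠ 1) (P : Sylow 2 G) (hP : (P : Subgroup G) ≤ Subgroup.centralizer ({x} : Set G)) (hreal : IsConj x x⁻¹) : orderOf x = 2 := by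
  classical
  have hodd : ¬ 2 ∣ Nat.card {y : G // IsConj x y} := by
    rw [card_isConj_eq_index]
    intro h
    exact P.not_dvd_index (h.trans (Subgroup.index_dvd_of_le hP))
  have : Fintype {y : G // IsConj x y} := Fintype.ofFinite _
  let σ : Equiv.Perm {y : G // IsConj x y} :=
    { toFun := fun y => ⟨y.1⁻¹, hreal.trans (isConj_inv_inv y.2)⟩
      invFun := fun y => ⟨y.1⁻¹, hreal.trans (isConj_inv_inv y.2)⟩
      left_inv := fun y => by simp
      right_inv := fun y => by simp }
  have hσ : σ ^ 2 ^ 1 = 1 := by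
    ext y
    simp [σ, pow_two]
  rw [Nat.card_eq_fintype_card] at hodd
  obtain ⟨y, hy⟩ := Equiv.Perm.exists_fixed_point_of_prime (p := 2) hodd hσ
  have hy' : y.1⁻¹ = y.1 := congrArg Subtype.val hy
  obtain ⟨c, hc⟩ := isConj_iff.mp y.2
  have hxx : x⁻¹ = x := by
    rw [← hc] at hy'
    have : c * x⁻¹ * c⁻¹ = c * x * c⁻¹ := by rw [← hy']; group
    simpa using this
  apply orderOf_eq_prime
  · rw [pow_two]; nth_rewrite 1 [← hxx]; simp
  · exact hx

end Cfsg.Agent.S4195
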