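import Cfsg.Statements.S0287
import Mathlib
import Cfsg.Agent.Lib.Helper5.GOPlusOdd

set_option autoImplicit false
open Cfsg

namespace Cfsg.Agent.S0287

/-- |GO^+_{2m}(q)| = 2 q^(m(m-1)) (q^m - 1) prod_{i=1}^{m-1} (q^(2i) - 1), m at least 1, all q. -/
theorem result {F : Type*} [Field F] [Fintype F] {q : ℕ} (hF : Fintype.card F = q) (m : ℕ) (hm : 1 ≤ m) : Nat.card (Cfsg.isometryGroup F (Cfsg.quadFormPlus m F)) = 2 * q ^ (m * (m - 1)) * (q ^ m - 1) * ∏ i ∈ Finset.range (m - 1), (q ^ (2 * (i + 1)) - 1) := by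
  obtain ⟨j, rfl⟩ : ∃ j, m = j + 1 := ⟨m - 1, by omega⟩
  have h := Cfsg.Agent.Lib.Helper5.card_GO_plus_mul (F := F) (j + 1)
  rw [hF, Finset.prod_range_succ] at h
  have hq1 : 1 ≤ q := by rw [← hF]; exact Fintype.card_pos
  have h5 : q ^ (2 * (j + 1)) - 1 = (q ^ (j + 1) - 1) * (q ^ (j + 1) + 1) := by
    obtain ⟨t, ht⟩ : ∃ t, q ^ (j + 1) = t + 1 := ⟨q ^ (j + 1) - 1, by
      have : 1 ≤ q ^ (j + 1) := Nat.one_le_pow _ _ hq1
      omega⟩
    have : q ^ (2 * (j + 1)) = (t + 1) * (t + 1) := by rw [← ht]; ring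
    rw [this, ht, Nat.add_sub_cancel]
    have : (t + 1) * (t + 1) = t * (t + 1 + 1) + 1 := by ring
    omega
  rw [h5] at h
  simp only [Nat.add_sub_cancel] at h ⊢
  apply Nat.eq_of_mul_eq_mul_right (show 0 < q ^ (j + 1) + 1 by omega)
  rw [h]
  ring

end Cfsg.Agent.S0287
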