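import Mathlib
import Cfsg.Statements.S4116
import Cfsg.Agent.Lib.Helper68.FixedPoint

set_option autoImplicit false
open Cfsg

namespace Cfsg.Agent.S4116

theorem result {G : Type*} [Group G] [Finite G] (H : Subgroup G)
    (hHall : (Nat.card H).Coprime H.index) (hTI : Cfsg.IsTISubset (H : Set G))
    (K : Subgroup G) (hK : ∀ q : ℕ, q.Prime → q ∣ Nat.card K → q ∣ Nat.card H) :
    ∃ g : G, K ≤ H.map (MulAut.conj g).toMonoidHom := by
  set N := Subgroup.normalizer (H : Set G) with hN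
  have hHN : H ≤ N := Subgroup.le_normalizer
  -- F2
  have F2 : ∀ y ∈ N, (∀ q : ℕ, q.Prime → q ∣ orderOf y → q ∣ Nat.card H) → y ∈ H := by
    intro y hy hq
    have h1 : y ^ H.relIndex N ∈ H := by
      have : (H.subgroupOf N).Normal := Subgroup.normal_in_normalizer
      have h2 := Subgroup.pow_index_mem (H.subgroupOf N) ⟨y, hy⟩
      rw [Subgroup.mem_subgroupOf] at h2
      exact h2
    have h2 : y ^ H.index ∈ H := by
      obtain ⟨c, hc⟩ := Subgroup.relIndex_dvd_index_of_le hHN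
      rw [hc, pow_mul]
      exact H.pow_mem h1 c
    have hcop : (H.index).gcd (orderOf y) = 1 := by
      apply Nat.Coprime.symm
      apply Nat.coprime_of_dvd
      intro q hqp hqy hqi
      have := Nat.dvd_gcd (hq q hqp hqy) hqi
      rw [hHall.gcd_eq_one] at this
      exact hqp.one_lt.ne' (Nat.dvd_one.mp this)
    have h3 : y ∈ Subgroup.zpowers (y ^ H.index) := mem_zpowers_pow_iff.mpr hcop
    exact (Subgroup.zpowers_le.mpr h2) h3
  -- TI contrapositive
  have TI : ∀ c a : G, a ∈ H → a ≠ 1 → c * a * c⁻¹ ∈ H → c ∈ N := by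
    intro c a ha ha1 hca
    by_contra hc
    exact ha1 (hTI c hc a ha hca)
  -- F3
  have F3 : ∀ (q : ℕ) (y : G), q.Prime → q ∣ Nat.card H → orderOf y = q → ∃ g : G, g⁻¹ * y * g ∈ H := by
    intro q y hq hqH hy
    have : Fact q.Prime := ⟨hq⟩
    have hpg : IsPGroup q (Subgroup.zpowers y) := by
      apply IsPGroup.of_card (n := 1)
      rw [Nat.card_zpowers, hy, pow_one]
    have hnd : ¬ q ∣ Nat.card (G ⧸ H) := by
      intro hqi
      have := Nat.dvd_gcd hqH hqi
      rw [← Subgroup.index, hHall.gcd_eq_one] at this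
      exact hq.one_lt.ne' (Nat.dvd_one.mp this)
    obtain ⟨a, ha⟩ := hpg.nonempty_fixed_point_of_prime_not_dvd_card (G ⧸ H) hnd
    obtain ⟨g, rfl⟩ := QuotientGroup.mk_surjective a
    refine ⟨g, ?_⟩
    have h1 := ha ⟨y, Subgroup.mem_zpowers y⟩
    have h2 : ((y * g : G) : G ⧸ H) = (g : G ⧸ H) := h1
    rw [eq_comm, QuotientGroup.eq] at h2
    simpa [mul_assoc] using h2
  have hord : ∀ (g k : G), orderOf (g⁻¹ * k * g) = orderOf k := by
    intro g k
    have := (MulAut.conj g⁻¹).orderOf_eq k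
    simpa using this
  have hKq : ∀ k ∈ K, ∀ q : ℕ, q.Prime → q ∣ orderOf k → q ∣ Nat.card H := by
    intro k hk q hq hqk
    apply hK q hq
    have : orderOf (⟨k, hk⟩ : K) ∣ Nat.card K := orderOf_dvd_natCard _
    rw [Subgroup.orderOf_mk] at this
    exact hqk.trans this
  by_cases hKbot : K = ⊥
  · exact ⟨1, by rw [hKbot]; exact bot_le⟩
  have : Nontrivial K := (Subgroup.nontrivial_iff_ne_bot K).mpr hKbot
  have hsmul : ∀ (k : K) (g : G), k • (g : G ⧸ N) = (g : G ⧸ N) ↔ g⁻¹ * k * g ∈ N := by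
    intro k g
    have h1 : k • (g : G ⧸ N) = (((k : G) * g : G) : G ⧸ N) := rfl
    rw [h1, eq_comm, QuotientGroup.eq, mul_assoc]
  obtain ⟨ω, hω⟩ := Cfsg.Agent.Lib.Helper68.exists_fixed_point_of_unique (K := K) (Ω := G ⧸ N) (by
    intro k hk1
    have hk1' : (k : G) ≠ 1 := fun h => hk1 (Subtype.ext h)
    have hone : orderOf (k : G) ≠ 1 := fun h => hk1' (orderOf_eq_one_iff.mp h)
    set q := (orderOf (k : G)).minFac with hq
    have hqp : q.Prime := Nat.minFac_prime hone
    have hqd : q ∣ orderOf (k : G) := Nat.minFac_dvd _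
    have hk'ord : orderOf ((k : G) ^ (orderOf (k : G) / q)) = q :=
      orderOf_pow_orderOf_div (orderOf_pos _).ne' hqd
    obtain ⟨g, hg⟩ := F3 q _ hqp (hKq k k.2 q hqp hqd) hk'ord
    refine ⟨(g : G ⧸ N), ?_, ?_⟩
    · change k • (g : G ⧸ N) = (g : G ⧸ N)
      rw [hsmul]
      apply TI _ _ hg
      · intro h1
        have h2 := hord g ((k : G) ^ (orderOf (k : G) / q))
        rw [h1, orderOf_one, hk'ord] at h2
        exact hqp.one_lt.ne h2
      · have : g⁻¹ * k * g * (g⁻¹ * (k : G) ^ (orderOf (k : G) / q) * g) * (g⁻¹ * k * g)⁻¹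
            = g⁻¹ * ((k : G) * (k : G) ^ (orderOf (k : G) / q) * (k : G)⁻¹) * g := by group
        rw [this]
        have h3 : (k : G) * (k : G) ^ (orderOf (k : G) / q) * (k : G)⁻¹ = (k : G) ^ (orderOf (k : G) / q) := by
          rw [← pow_succ', pow_succ, mul_inv_cancel_right]
        rw [h3]
        exact hg
    · intro ω' hω'
      obtain ⟨g', rfl⟩ := QuotientGroup.mk_surjective ω'
      replace hω' : k • (g' : G ⧸ N) = (g' : G ⧸ N) := hω'
      rw [hsmul] at hω'
      have hgN : g⁻¹ * k * g ∈ N := by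
        apply TI _ _ hg
        · intro h1
          have h2 := hord g ((k : G) ^ (orderOf (k : G) / q))
          rw [h1, orderOf_one, hk'ord] at h2
          exact hqp.one_lt.ne h2
        · have : g⁻¹ * k * g * (g⁻¹ * (k : G) ^ (orderOf (k : G) / q) * g) * (g⁻¹ * k * g)⁻¹
              = g⁻¹ * ((k : G) * (k : G) ^ (orderOf (k : G) / q) * (k : G)⁻¹) * g := by group
          rw [this]
          have h3 : (k : G) * (k : G) ^ (orderOf (k : G) / q) * (k : G)⁻¹ = (k : G) ^ (orderOf (k : G) / q) := by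
            rw [← pow_succ', pow_succ, mul_inv_cancel_right]
          rw [h3]
          exact hg
      have ha : g⁻¹ * k * g ∈ H := F2 _ hgN (by rw [hord]; exact hKq k k.2)
      have ha' : g'⁻¹ * k * g' ∈ H := F2 _ hω' (by rw [hord]; exact hKq k k.2)
      have ha1 : g⁻¹ * k * g ≠ 1 := by
        intro h1
        have h2 := hord g (k : G)
        rw [h1, orderOf_one] at h2
        exact hone h2.symm
      rw [QuotientGroup.eq]
      apply TI _ _ ha ha1
      have : g'⁻¹ * g * (g⁻¹ * k * g) * (g'⁻¹ * g)⁻¹ = g'⁻¹ * k * g' := by group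
      rw [this]
      exact ha')
  obtain ⟨g, rfl⟩ := QuotientGroup.mk_surjective ω
  refine ⟨g, ?_⟩
  intro k hk
  have h1 := (hsmul ⟨k, hk⟩ g).mp (hω ⟨k, hk⟩)
  have h2 : g⁻¹ * k * g ∈ H := F2 _ h1 (by rw [hord]; exact hKq k hk)
  refine Subgroup.mem_map.mpr ⟨_, h2, ?_⟩
  simp only [MulEquiv.coe_toMonoidHom, MulAut.conj_apply]
  group

end Cfsg.Agent.S4116
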