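import Cfsg.Statements.S0939
import Mathlib
import Cfsg.Agent.Lib.Helper82.PPrimeKer
import Cfsg.Agent.Lib.Helper82.QuotBlock
import Cfsg.Agent.Lib.Lead.Cores

set_option autoImplicit false
open Cfsg

namespace Cfsg.Agent.S0939

/-- Let G be a finite group with a normal p-complement (the largest normal subgroup O_p'(G) of order prime to p has p-power index). Then, relative to any maximal ideal M of the algebraic integers containing p, the principal block of G is the set of irreducible characters χ with χ n = χ 1 for every n ∈ O_p'(G). -/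
theorem result {G : Type*} [Group G] [Finite G] (p : ℕ) [Fact p.Prime] (M : Ideal Cfsg.AlgInt) (hM : Cfsg.IsPModular p M) (hnc : ∃ k : ℕ, (Cfsg.pPrimeCore p G).index = p ^ k) : Cfsg.principalBlock M G = {χ : Cfsg.IrrCharacter G | ∀ n ∈ Cfsg.pPrimeCore p G, (χ : G → ℂ) n = (χ : G → ℂ) 1} := by
  classical
  have hMp := Cfsg.Agent.Lib.Helper78.pmod_isPrime hM
  have hp : p.Prime := Fact.out
  set N := Cfsg.pPrimeCore p G with hNdef
  have hNn : N.Normal := inferInstance
  have hNc : ¬ p ∣ Nat.card N := by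
    have := Cfsg.Agent.Lib.Lead.card_pPrimeCore_coprime (G := G) p
    exact fun hd => (Nat.Prime.coprime_iff_not_dvd hp).1 this.symm hd
  ext χ
  simp only [Set.mem_ofPred_eq]
  constructor
  · intro hχ
    have h1 : Cfsg.SameBlock M ((Cfsg.Agent.Lib.Helper78.trivIrr G : Cfsg.IrrCharacter G) : G → ℂ)
        (χ : G → ℂ) := hχ
    exact Cfsg.Agent.Lib.Helper82.ker_of_sameBlock p hM N hNc h1 (fun n _ => rfl)
  · intro hχ
    obtain ⟨ψ, hψ, hψχ⟩ := Cfsg.Agent.Lib.Helper80.exists_deflate_irr N χ.2 hχ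
    have hQ : IsPGroup p (G ⧸ N) := by
      obtain ⟨k, hk⟩ := hnc
      apply IsPGroup.of_card (n := k)
      rw [← hk]
      rfl
    have h1 := Cfsg.Agent.Lib.Helper82.sameBlock_of_isPGroup p hM hQ
      (Cfsg.Agent.Lib.Helper78.trivIrr (G ⧸ N)) ⟨ψ, hψ⟩
    have h2 := Cfsg.Agent.Lib.Helper82.sameBlock_inflate N hMp h1
    have h3 : (χ : G → ℂ) = ψ ∘ QuotientGroup.mk := funext fun g => (hψχ g).symm
    show Cfsg.SameBlock M (fun _ : G => (1 : ℂ)) (χ : G → ℂ)
    rw [h3]
    exact h2

end Cfsg.Agent.S0939
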