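import Mathlib
import Cfsg.Agent.Lib.Helper4.PrincipalSection
import Cfsg.Agent.S0939
import Cfsg.Agent.Lib.Helper80.Quot
import Cfsg.Agent.Lib.Lead.Cores
import Cfsg.Statements.S0947

set_option autoImplicit false
open Cfsg

namespace Cfsg.Agent.S0947

open Cfsg.Agent.Lib.Helper78 in
/-- real sums of squared norms versus complex sums -/
theorem finsum_normSq_eq {K : Type*} [Group K] [Finite K] (A : Set (Cfsg.IrrCharacter K))
    (f : Cfsg.IrrCharacter K → ℂ) :
    ((∑ᶠ ζ ∈ A, ‖f ζ‖ ^ 2 : ℝ) : ℂ) = ∑ᶠ ζ ∈ A, f ζ * (starRingEnd ℂ) (f ζ) := by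
  classical
  rw [finsum_mem_irr, finsum_mem_irr]
  push_cast
  refine Finset.sum_congr rfl fun ζ _ => ?_
  split_ifs
  · rw [Complex.mul_conj, Complex.normSq_eq_norm_sq]
  · simp

/-- Let z ≠ 1 be a p-element of the finite group G with centralizer H, and fix a maximal ideal M of the algebraic integers containing p. (i) For every y ∈ H of order prime to p, the sum over ζ in the principal block of G of |ζ (z * y)|² equals the sum over χ in the principal block of H of |χ y|². (ii) If moreover H has a normal p-complement (its largest normal subgroup of order prime to p has p-power index), that common value is the largest power of p dividing the order of H. -/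
theorem result {G : Type*} [Group G] [Finite G] (p : ℕ) [Fact p.Prime] (M : Ideal Cfsg.AlgInt) (hM : Cfsg.IsPModular p M) (z : G) (hz : ∃ k : ℕ, orderOf z = p ^ k) (hz1 : z ≠ 1) (y : Subgroup.centralizer ({z} : Set G)) (hy : ¬ p ∣ orderOf y) : (∑ᶠ ζ ∈ Cfsg.principalBlock M G, ‖(ζ : G → ℂ) (z * (y : G))‖ ^ 2 = ∑ᶠ χ ∈ Cfsg.principalBlock M (Subgroup.centralizer ({z} : Set G)), ‖(χ : Subgroup.centralizer ({z} : Set G) → ℂ) y‖ ^ 2) ∧ ((∃ k : ℕ, (Cfsg.pPrimeCore p (Subgroup.centralizer ({z} : Set G))).index = p ^ k) → ∑ᶠ ζ ∈ Cfsg.principalBlock M G, ‖(ζ : G → ℂ) (z * (y : G))‖ ^ 2 = ((p ^ (Nat.card (Subgroup.centralizer ({z} : Set G))).factorization p : ℕ) : ℝ)) := by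
  classical
  haveI : Fintype G := Fintype.ofFinite G
  have hfirst : ∑ᶠ ζ ∈ Cfsg.principalBlock M G, ‖(ζ : G → ℂ) (z * (y : G))‖ ^ 2 = ∑ᶠ χ ∈ Cfsg.principalBlock M (Subgroup.centralizer ({z} : Set G)), ‖(χ : Subgroup.centralizer ({z} : Set G) → ℂ) y‖ ^ 2 := by
    apply Complex.ofReal_injective
    rw [finsum_normSq_eq, finsum_normSq_eq]
    exact Cfsg.Agent.Lib.Helper4.sum_principal_section hM z hz y y hy hy
  refine ⟨hfirst, ?_⟩
  intro hnc
  rw [hfirst, Cfsg.Agent.S0939.result p M hM hnc]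
  obtain ⟨k, hk⟩ := hnc
  haveI hnorm : (Cfsg.pPrimeCore p (Subgroup.centralizer ({z} : Set G))).Normal :=
    (Cfsg.Agent.Lib.Lead.pPrimeCore_mem p).1
  have hcop : (Nat.card (Cfsg.pPrimeCore p (Subgroup.centralizer ({z} : Set G)))).Coprime p :=
    Cfsg.Agent.Lib.Lead.card_pPrimeCore_coprime p
  -- `y` lies in the normal `p`-complement
  have hyK : y ∈ Cfsg.pPrimeCore p (Subgroup.centralizer ({z} : Set G)) := by
    rw [← QuotientGroup.eq_one_iff]
    have h1 : ((y : Subgroup.centralizer ({z} : Set G) ⧸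
        Cfsg.pPrimeCore p (Subgroup.centralizer ({z} : Set G)))) ^ (p ^ k) = 1 := by
      rw [← hk, Subgroup.index_eq_card]
      exact pow_card_eq_one'
    have h2 : ((y : Subgroup.centralizer ({z} : Set G) ⧸
        Cfsg.pPrimeCore p (Subgroup.centralizer ({z} : Set G)))) ^ (orderOf y) = 1 := by
      rw [← QuotientGroup.mk_pow, pow_orderOf_eq_one]; rfl
    have hc : Nat.Coprime (p ^ k) (orderOf y) :=
      ((Nat.Prime.coprime_iff_not_dvd (Fact.out : p.Prime)).2 hy).pow_left k
    have h3 := pow_gcd_eq_one.2 ⟨h1, h2⟩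
    rwa [hc.gcd_eq_one, pow_one] at h3
  have hsum := Cfsg.Agent.Lib.Helper80.sum_sq_charDegree_quot
    (Cfsg.pPrimeCore p (Subgroup.centralizer ({z} : Set G)))
  rw [Cfsg.Agent.Lib.Helper78.finsum_mem_irr]
  have hpow : p ^ (Nat.card (Subgroup.centralizer ({z} : Set G))).factorization p
      = (Cfsg.pPrimeCore p (Subgroup.centralizer ({z} : Set G))).index := by
    rw [hk, ← Subgroup.card_mul_index (Cfsg.pPrimeCore p (Subgroup.centralizer ({z} : Set G))), hk]
    have hp : p.Prime := Fact.out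
    rw [Nat.factorization_mul Nat.card_pos.ne' (pow_pos hp.pos k).ne']
    simp only [Finsupp.coe_add, Pi.add_apply]
    rw [Nat.factorization_eq_zero_of_not_dvd
      ((Nat.Prime.coprime_iff_not_dvd hp).1 hcop.symm), hp.factorization_pow]
    simp
  rw [hpow, ← hsum, Finset.sum_filter]
  push_cast
  refine Finset.sum_congr rfl fun χ _ => ?_
  by_cases hχ : ∀ n ∈ Cfsg.pPrimeCore p (Subgroup.centralizer ({z} : Set G)),
      (χ : Subgroup.centralizer ({z} : Set G) → ℂ) n = (χ : Subgroup.centralizer ({z} : Set G) → ℂ) 1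
  · simp only [Set.mem_ofPred_eq]
    rw [if_pos hχ, if_pos hχ, hχ y hyK, Cfsg.Agent.Lib.Helper78.irr_one_eq]
    simp
  · simp only [Set.mem_ofPred_eq]
    rw [if_neg hχ, if_neg hχ]

end Cfsg.Agent.S0947
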