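import Cfsg.Statements.S4709
import Cfsg.Agent.Lib.Helper74.AbSylowMain

set_option autoImplicit false
open Cfsg

namespace Cfsg.Agent.S4709

open Cfsg.Agent.Lib.Helper74 Cfsg.Agent.Lib.Helper78

/-- Let p be a prime, M a maximal ideal of the algebraic integers containing p, and G a finite group with a nontrivial abelian Sylow p-subgroup P; put N = N_G(P), C = C_G(P). Suppose N/C is cyclic of order m with 1 < m < #P − 1 (C has index m in N and N is generated by C and one element), and C_G(y) ∩ N = C for every non-identity y ∈ P. Put r = (#P − 1)/m. Then there is s ≤ m such that the principal p-block is the disjoint union of a set X of s characters containing the principal character and a set Y of r characters, with integers a_χ ≠ 0 (χ ∈ X), d and a sign δ = ±1, such that: every χ ∈ X takes the value a_χ at every element whose p-part is a non-identity element of P; there is a map ζ from the non-principal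 linear characters ψ of P onto Y, constant on N-conjugacy classes, with ζ_ψ(z) = d + δ·Σ ψ'(y) for every z whose p-part y is a non-identity element of P, the sum running over the N-conjugates ψ' of ψ; (d − δ)^2 + (r − 1) d^2 + Σ_{χ ∈ X} a_χ^2 = m + 1; all members of Y agree on p-regular elements; and (r d − δ) η(g) + Σ_{χ ∈ X} a_χ χ(g) = 0 for every η ∈ Y and every p-regular g. -/
theorem result {G : Type*} [Group G] [Finite G] (p : ℕ) [Fact p.Prime] (M : Ideal Cfsg.AlgInt) (hM : Cfsg.IsPModular p M) (P : Sylow p G) (hab : IsMulCommutative P) (hP1 : Nat.card P ≠ 1) (m : ℕ) (hm1 : 1 < m) (hm2 : m + 1 < Nat.card P) (hCN : (Subgroup.centralizer ((P : Subgroup G) : Set G)).relIndex (Subgroup.normalizer ((P : Subgroup G) : Set G)) = m) (hcyc : ∃ g : G, g ∈ Subgroup.normalizer ((P : Subgroup G) : Set G) ∧ Subgroup.centralizer ((P : Subgroup G) : Set G) ⊔ Subgroup.zpowers g = Subgroup.normalizer ((P : Subgroup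 G) : Set G)) (hfrob : ∀ y : G, y ∈ (P : Subgroup G) → y ≠ 1 → Subgroup.centralizer ({y} : Set G) ⊓ Subgroup.normalizer ((P : Subgroup G) : Set G) = Subgroup.centralizer ((P : Subgroup G) : Set G)) : ∃ (s : ℕ) (X Y : Set (Cfsg.IrrCharacter G)), s ≤ m ∧ Cfsg.principalBlock M G = X ∪ Y ∧ Disjoint X Y ∧ Nat.card X = s ∧ Nat.card Y = (Nat.card P - 1) / m ∧ (∃ χ₁ ∈ X, (χ₁ : G → ℂ) = fun _ => 1) ∧ ∃ (a : Cfsg.IrrCharacter G → ℤ) (d δ : ℤ) (ζ : (↥(P : Subgroup G) →* ℂˣ) → Cfsg.IrrCharacter G), (δ = 1 ∨ δ = -1) ∧ (∀ χ ∈ X, a χ ≠ 0 ∧ ∀ z y : G, Cfsg.IsPPart p z y → y ∈ (P : Subgroup G) → y ≠ 1 → (χ : G → ℂ) z = (a χ : ℂ)) ∧ (∀ ψ : ↥(P : Subgroup G) →* ℂˣ, ψ ≠ 1 → ζ ψ ∈ Y) ∧ (∀ η ∈ Y, ∃ ψ : ↥(P : Subgroup G) →* ℂˣ, ψ ≠ 1 ∧ ζ ψ = η) ∧ (∀ ψ ψ' : ↥(P : Subgroup G) →* ℂˣ, ψ ≠ 1 → (∃ n : G, n ∈ Subgroup.normalizer ((P : Subgroup G) : Set G) ∧ ∀ w w' : ↥(P : Subgroup G), (w' : G) = n * w * n⁻¹ → ψ' w' = ψ w) → ζ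 ψ' = ζ ψ) ∧ (∀ ψ : ↥(P : Subgroup G) →* ℂˣ, ψ ≠ 1 → ∀ (z : G) (y : ↥(P : Subgroup G)), Cfsg.IsPPart p z (y : G) → (y : G) ≠ 1 → (ζ ψ : G → ℂ) z = (d : ℂ) + (δ : ℂ) * ∑ᶠ ψ' ∈ {ψ' : ↥(P : Subgroup G) →* ℂˣ | ∃ n : G, n ∈ Subgroup.normalizer ((P : Subgroup G) : Set G) ∧ ∀ w w' : ↥(P : Subgroup G), (w' : G) = n * w * n⁻¹ → ψ' w' = ψ w}, ((ψ' y : ℂˣ) : ℂ)) ∧ ((d - δ) ^ 2 + ((Nat.card P - 1) / m - 1 : ℤ) * d ^ 2 + ∑ᶠ χ ∈ X, a χ ^ 2 = (m : ℤ) + 1) ∧ (∀ η ∈ Y, ∀ η' ∈ Y, ∀ g : G, ¬ p ∣ orderOf g → (η : G → ℂ) g = (η' : G → ℂ) g) ∧ (∀ η ∈ Y, ∀ g : G, ¬ p ∣ orderOf g → ((((Nat.card P - 1) / m : ℕ) : ℂ) * d - δ) * (η : G → ℂ) g + ∑ᶠ χ ∈ X, (a χ : ℂ) * (χ : G → ℂ) g = 0) := by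
  classical
  have : Fintype ↥(P : Subgroup G) := Fintype.ofFinite _
  have : Fintype (↥(P : Subgroup G) →* ℂˣ) := Fintype.ofFinite _
  have hcard : Nat.card (autS P) = m := (card_autS P).trans hCN
  have hm : Nat.card (autS P) + 1 < Nat.card ↥(P : Subgroup G) := by rw [hcard]; exact hm2
  obtain ⟨ε, w, θ, c, D⟩ := ab_exists_data hM P hab hfrob hm
  have hc := ab_hc P hab
  have hS := autS_semireg P hfrob
  have hr : (Yf θ).card = (Nat.card P - 1) / m := by rw [ab_card_Y P hab hfrob D, hcard]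
  have hrm : (Yf θ).card * m = Nat.card P - 1 := by
    have := D.card_Yf hc hS
    rwa [hcard] at this
  obtain ⟨μ₀, hμ₀⟩ : ∃ μ : ↥(P : Subgroup G) →* ℂˣ, μ ≠ 1 := by
    obtain ⟨l, _, hl, _⟩ := exists_not_dRel hc (autS P) hS hm
    exact ⟨l, hl⟩
  have hr2 : 2 ≤ (Yf θ).card := by
    by_contra hlt
    have h1 : (Yf θ).card ≤ 1 := by omega
    have h2 : (Yf θ).card * m ≤ 1 * m := Nat.mul_le_mul_right m h1
    have h3 : Nat.card P = Nat.card ↥(P : Subgroup G) := rfl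
    omega
  have hnorm := D.norm hμ₀
  rw [hcard] at hnorm
  have hεsq : ε ^ 2 = 1 := by rcases D.hε with h | h <;> rw [h] <;> norm_num
  have hrint : ((Nat.card P : ℤ) - 1) / (m : ℤ) = ((Yf θ).card : ℤ) := by
    have h1 : 1 ≤ Nat.card P := Nat.card_pos
    have h2 : ((Nat.card P : ℤ) - 1) = ((Yf θ).card : ℤ) * (m : ℤ) := by
      have : ((Nat.card P - 1 : ℕ) : ℤ) = (Nat.card P : ℤ) - 1 := by push_cast [h1]; ring
      rw [← this, ← hrm]; push_cast; ring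
    rw [h2]
    exact Int.mul_ediv_cancel _ (by omega)
  refine ⟨Nat.card ↥(principalBlock M G \ (↑(Yf θ) : Set (IrrCharacter G))),
    principalBlock M G \ (↑(Yf θ) : Set (IrrCharacter G)), ↑(Yf θ), ?_, ?_, ?_, rfl, ?_, ?_,
    fun χ => - w χ, -c, ε, θ, D.hε, ?_, ?_, ?_, ?_, ?_, ?_, ?_, ?_⟩
  · -- the number of non-exceptional characters
    have h1 : Nat.card ↥(principalBlock M G \ (↑(Yf θ) : Set (IrrCharacter G))) =
        ((Yf θ)ᶜ.filter (fun χ => χ ∈ principalBlock M G)).card := by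
      apply Nat.subtype_card
      intro χ
      simp only [Finset.mem_filter, Finset.mem_compl, Set.mem_sdiff, Finset.mem_coe]
      tauto
    have h2 : (((Yf θ)ᶜ.filter (fun χ => χ ∈ principalBlock M G)).card : ℤ) ≤
        ∑ i ∈ (Yf θ)ᶜ, w i ^ 2 := by
      calc (((Yf θ)ᶜ.filter (fun χ => χ ∈ principalBlock M G)).card : ℤ)
          = ∑ i ∈ (Yf θ)ᶜ.filter (fun χ => χ ∈ principalBlock M G), (1 : ℤ) := by simp
        _ ≤ ∑ i ∈ (Yf θ)ᶜ.filter (fun χ => χ ∈ principalBlock M G), w i ^ 2 := by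
            apply Finset.sum_le_sum
            intro χ hχ
            rw [Finset.mem_filter, Finset.mem_compl] at hχ
            have := ab_w_ne_zero hM P hab hfrob D hP1 hχ.2 hχ.1
            have h3 : 0 < w χ ^ 2 := by positivity
            omega
        _ ≤ ∑ i ∈ (Yf θ)ᶜ, w i ^ 2 :=
            Finset.sum_le_sum_of_subset_of_nonneg (Finset.filter_subset _ _)
              (fun _ _ _ => sq_nonneg _)
    have h3 : 1 ≤ (c + ε) ^ 2 + (((Yf θ).card : ℤ) - 1) * c ^ 2 := by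
      by_cases hc0 : c = 0
      · rw [hc0]; simp [hεsq]
      · have h4 : 0 < c ^ 2 := by positivity
        have h5 : (1 : ℤ) ≤ ((Yf θ).card : ℤ) - 1 := by
          have : (2 : ℤ) ≤ ((Yf θ).card : ℤ) := by exact_mod_cast hr2
          omega
        nlinarith [sq_nonneg (c + ε)]
    rw [h1]
    have : (((Yf θ)ᶜ.filter (fun χ => χ ∈ principalBlock M G)).card : ℤ) ≤ m := by omega
    exact_mod_cast this
  · exact (Set.sdiff_union_of_subset (fun χ hχ => ab_Y_subset P hab hfrob hm D hχ)).symm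
  · exact Set.disjoint_sdiff_left
  · rw [← hr]
    simp
  · exact ⟨trivIrr G, ⟨trivIrr_mem_principalBlock (pmod_isPrime hM),
      fun h => ab_triv_not_mem hM P hab hfrob hm D h⟩, rfl⟩
  · intro χ hχ
    have hY : χ ∉ Yf θ := fun h => hχ.2 h
    refine ⟨neg_ne_zero.2 (ab_w_ne_zero hM P hab hfrob D hP1 hχ.1 hY), fun z y hz hy hy1 => ?_⟩
    rw [ab_value_X hM P hab hfrob D hχ.1 hY hz hy hy1]
    push_cast; ring
  · intro ψ hψ
    exact Finset.mem_coe.2 (mem_Yf.2 ⟨ψ, hψ, rfl⟩)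
  · intro η hη
    exact mem_Yf.1 (Finset.mem_coe.1 hη)
  · intro ψ ψ' hψ h
    have h1 := (dRel_autS_iff P ψ ψ').2 h
    exact ((D.hθ ψ ψ' hψ (dRel_ne_one _ h1 hψ)).2 h1).symm
  · intro ψ hψ z y hz hy1
    rw [ab_value_Y hM P hab hfrob hm D hψ hz hy1]
    push_cast; ring
  · rw [hrint, ← ab_sum_compl P hab hfrob hm D (fun χ => (- w χ) ^ 2) (fun χ h => by simp [h])]
    rw [← hnorm]
    simp only [neg_sq]
    ring
  · intro η hη η' hη' g hg
    obtain ⟨μ, hμ, rfl⟩ := mem_Yf.1 (Finset.mem_coe.1 hη)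
    obtain ⟨μ', hμ', rfl⟩ := mem_Yf.1 (Finset.mem_coe.1 hη')
    exact D.const (fun χ => (χ : G → ℂ) g) (resX_reg hM P hg) hμ hμ'
  · intro η hη g hg
    obtain ⟨μ, hμ, rfl⟩ := mem_Yf.1 (Finset.mem_coe.1 hη)
    have h := D.rel (fun χ => (χ : G → ℂ) g) (resX_reg hM P hg) hμ
    rw [← ab_sum_compl P hab hfrob hm D (fun χ => ((- w χ : ℤ) : ℂ) * (χ : G → ℂ) g)
      (fun χ h => by simp [h]), ← hr]
    simp only [Int.cast_neg, neg_mul, Finset.sum_neg_distrib]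
    linear_combination -h

end Cfsg.Agent.S4709
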