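import Cfsg.Statements.S3972
import Cfsg.Agent.Lib.Helper59.Schur

set_option autoImplicit false
open Cfsg

namespace Cfsg.Agent.S3972

open MulAction Pointwise

/-- Let `p` be a prime, `m ≥ 2`, and `G` a transitive but not doubly transitive permutation group on `p ^ m` points containing a permutation of order `p ^ m` (necessarily a full cycle). Then `G` is imprimitive, and the normal closure in `G` of the `p ^ (m - 1)`-th power of that permutation is an intransitive normal subgroup. -/
theorem result {Ω : Type*} [Fintype Ω] [DecidableEq Ω] (p m : ℕ) (hp : p.Prime) (hm : 2 ≤ m) (hΩ : Fintype.card Ω = p ^ m) (G : Subgroup (Equiv.Perm Ω)) (htr : MulAction.IsPretransitive G Ω) (h2 : ¬ MulAction.IsMultiplyPretransitive G Ω 2) (g : G) (hg : orderOf g = p ^ m) : ¬ MulAction.IsPreprimitive G Ω ∧ ¬ MulAction.IsPretransitive (Subgroup.normalClosure ({g ^ (p ^ (m - 1))} : Set G)) Ω := by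
  classical
  have hpm : p ^ m = p ^ (m-1) * p := by
    rw [← pow_succ]; congr 1; omega
  have hppos : 0 < p ^ m := pow_pos hp.pos m
  -- Step 1: a point of full period
  have h1 : ∃ x : Ω, MulAction.period g x = p ^ m := by
    by_contra hcon
    push Not at hcon
    have hfix : ∀ x : Ω, g ^ (p ^ (m-1)) • x = x := by
      intro x
      have hd : MulAction.period g x ∣ p ^ m := hg ▸ MulAction.period_dvd_orderOf g x
      obtain ⟨k, hk, hkeq⟩ := (Nat.dvd_prime_pow hp).1 hd
      have hk' : k ≤ m - 1 := by
        rcases Nat.lt_or_ge k m with h | h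
        · omega
        · exfalso
          apply hcon x
          rw [hkeq]
          congr 1
          omega
      rw [MulAction.pow_smul_eq_iff_period_dvd, hkeq]
      exact pow_dvd_pow p hk'
    have hone : g ^ (p ^ (m-1)) = 1 := by
      apply Subtype.ext
      apply Equiv.ext
      intro x
      exact hfix x
    have hdvd : p ^ m ∣ p ^ (m-1) := hg ▸ orderOf_dvd_of_pow_eq_one hone
    have := Nat.le_of_dvd (pow_pos hp.pos _) hdvd
    have h3 : p ^ (m-1) < p ^ m := Nat.pow_lt_pow_right hp.one_lt (by omega)
    omega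
  obtain ⟨x, hx⟩ := h1
  set C : Subgroup G := Subgroup.zpowers g with hC
  have hcyc : IsCyclic C := by
    rw [hC]; infer_instance
  have hcardC : Nat.card C = p ^ m := by
    rw [hC, Nat.card_zpowers, hg]
  have horb : MulAction.orbit C x = Set.univ := by
    have hcard : Fintype.card (MulAction.orbit C x) = p ^ m := by
      rw [← MulAction.minimalPeriod_eq_card, ← MulAction.period_eq_minimalPeriod, hx]
    rw [Set.eq_univ_iff_ncard, ← Nat.card_coe_set_eq, Nat.card_eq_fintype_card,
      Nat.card_eq_fintype_card, hcard, hΩ]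
  have hCtr : MulAction.IsPretransitive C Ω := by
    rw [MulAction.isPretransitive_iff_base x]
    intro y
    have : y ∈ MulAction.orbit C x := by rw [horb]; trivial
    exact this
  have hCreg : ∀ a : Ω, MulAction.stabilizer C a = ⊥ := by
    intro a
    have h3 := MulAction.index_stabilizer_of_transitive C a
    have h4 := Subgroup.card_mul_index (MulAction.stabilizer C a)
    have hΩ' : Nat.card Ω = p ^ m := by rw [Nat.card_eq_fintype_card, hΩ]
    rw [h3, hcardC, hΩ'] at h4
    have h5 : Nat.card (MulAction.stabilizer C a) = 1 := by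
      have := Nat.eq_of_mul_eq_mul_right hppos (h4.trans (one_mul _).symm)
      exact this
    exact Subgroup.card_eq_one.1 h5
  have hnotprime : ¬ (Nat.card Ω).Prime := by
    rw [Nat.card_eq_fintype_card, hΩ]
    intro h
    have := (Nat.Prime.eq_one_of_pow h)
    omega
  have hcard2 : 2 ≤ Nat.card Ω := by
    rw [Nat.card_eq_fintype_card, hΩ]
    calc 2 ≤ p := hp.two_le
      _ = p ^ 1 := (pow_one p).symm
      _ ≤ p ^ m := Nat.pow_le_pow_right hp.pos (by omega)
  have hnprim : ¬ MulAction.IsPreprimitive G Ω := fun hprim =>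
    h2 (Cfsg.Agent.Lib.Helper59.Schur.two_transitive_of_regular_cyclic hprim C hcyc hCtr hCreg
      hnotprime hcard2)
  refine ⟨hnprim, ?_⟩
  -- a nontrivial block
  have hblock : ∃ B : Set Ω, MulAction.IsBlock G B ∧ ¬ MulAction.IsTrivialBlock B := by
    by_contra hcon
    push Not at hcon
    exact hnprim { toIsPretransitive := htr, isTrivialBlock_of_isBlock := fun {B} hB => hcon B hB }
  obtain ⟨B, hB, hBnt⟩ := hblock
  have hBns : ¬ B.Subsingleton := fun h => hBnt (Or.inl h)
  have hBnu : B ≠ Set.univ := fun h => hBnt (Or.inr h)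
  set z : G := g ^ (p ^ (m - 1)) with hz
  -- the kernel on the block system
  let K : Subgroup G :=
    { carrier := {y | ∀ g' : G, y • (g' • B) = g' • B}
      one_mem' := fun g' => one_smul _ _
      mul_mem' := by
        intro a b ha hb g'
        rw [mul_smul, hb g', ha g']
      inv_mem' := by
        intro a ha g'
        rw [inv_smul_eq_iff, ha g'] }
  have hKn : K.Normal := by
    constructor
    intro n hn y g'
    have := hn (y⁻¹ * g')
    rw [mul_smul, mul_smul, ← mul_smul y⁻¹, this, smul_smul, mul_inv_cancel_left]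
  have hzK : z ∈ K := by
    intro g'
    have hB' : MulAction.IsBlock G (g' • B) := hB.translate g'
    have hB'ns : ¬ (g' • B).Subsingleton := by
      intro h
      apply hBns
      intro a ha b hb
      have := h (Set.smul_mem_smul_set ha) (Set.smul_mem_smul_set hb)
      exact smul_left_cancel g' this
    rw [Set.not_subsingleton_iff] at hB'ns
    obtain ⟨a, ha, b, hb, hab⟩ := hB'ns
    obtain ⟨c, hc⟩ := hCtr.exists_smul_eq a b
    obtain ⟨c, hcC⟩ := c
    obtain ⟨k, hk⟩ := Subgroup.mem_zpowers_iff.1 hcC
    have hc' : c • a = b := hc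
    have hcH : c ∈ MulAction.stabilizer G (g' • B) := by
      rw [MulAction.mem_stabilizer_iff]
      exact hB'.smul_eq_of_mem ha (hc' ▸ hb)
    have hgpm : g ^ ((p ^ m : ℕ) : ℤ) = 1 := by
      rw [zpow_natCast, ← hg, pow_orderOf_eq_one]
    have hd : g ^ (Int.gcd k ((p ^ m : ℕ) : ℤ)) ∈ MulAction.stabilizer G (g' • B) := by
      rw [← zpow_natCast, Int.gcd_eq_gcd_ab, zpow_add, zpow_mul, zpow_mul, hgpm, one_zpow, mul_one, hk]
      exact Subgroup.zpow_mem _ hcH _
    have hdd : Int.gcd k ((p ^ m : ℕ) : ℤ) ∣ p ^ m := by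
      have := Int.gcd_dvd_right k ((p ^ m : ℕ) : ℤ)
      exact_mod_cast this
    obtain ⟨j, hj, hjeq⟩ := (Nat.dvd_prime_pow hp).1 hdd
    have hj' : j ≤ m - 1 := by
      rcases Nat.lt_or_ge j m with h | h
      · omega
      · exfalso
        have hjm : j = m := le_antisymm hj h
        have h7 : ((p ^ m : ℕ) : ℤ) ∣ k := by
          have := Int.gcd_dvd_left k ((p ^ m : ℕ) : ℤ)
          rw [hjeq, hjm] at this
          exact this
        obtain ⟨t, ht⟩ := h7
        have : c = 1 := by
          rw [← hk, ht, zpow_mul, hgpm, one_zpow]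
        apply hab
        rw [← hc', this, one_smul]
    have hzH : z ∈ MulAction.stabilizer G (g' • B) := by
      have : z = (g ^ (Int.gcd k ((p ^ m : ℕ) : ℤ))) ^ (p ^ (m - 1 - j)) := by
        rw [hjeq, ← pow_mul, ← pow_add, hz]
        congr 2
        omega
      rw [this]
      exact Subgroup.pow_mem _ hd _
    exact hzH
  intro hNtr
  have hle : Subgroup.normalClosure ({z} : Set G) ≤ K :=
    Subgroup.normalClosure_le_normal (by simpa using hzK)
  obtain ⟨a, ha⟩ : B.Nonempty := by
    by_contra h
    rw [Set.not_nonempty_iff_eq_empty] at h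
    exact hBns (h ▸ Set.subsingleton_empty)
  obtain ⟨b, hb⟩ : ∃ b, b ∉ B := by
    by_contra h
    push Not at h
    exact hBnu (Set.eq_univ_of_forall h)
  obtain ⟨y, hy⟩ := hNtr.exists_smul_eq a b
  have hyK : (y : G) ∈ K := hle y.2
  have h6 := hyK 1
  rw [one_smul] at h6
  apply hb
  rw [← hy, ← h6]
  exact Set.smul_mem_smul_set ha

end Cfsg.Agent.S3972
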