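import Cfsg.Statements.S4381
import Cfsg.Agent.Lib.Helper29.Holomorph
import Cfsg.Agent.Lib.Helper1.CoprimeSylow
import Cfsg.Agent.Lib.Helper2.PGroupFrattini
import Cfsg.Agent.Lib.Helper91.FrattiniMore
import Cfsg.Agent.S0660

set_option autoImplicit false
open Cfsg

namespace Cfsg.Agent.S4381

open Cfsg.Agent.Lib.Helper29 SemidirectProduct
open scoped Pointwise

variable {A G : Type*} [Group A] [Group G] [MulDistribMulAction A G]

/-- `A`-invariant subgroups -/
abbrev Inv (A : Type*) {G : Type*} [Group A] [Group G] [MulDistribMulAction A G] (L : Subgroup G) : Prop :=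
  ∀ a : A, ∀ x ∈ L, a • x ∈ L

theorem exists_inv_sylow [Finite A] [Finite G] (hcop : (Nat.card A).Coprime (Nat.card G))
    (hsol : Group.IsSolvable A ∨ Group.IsSolvable G) (r : ℕ) [Fact r.Prime] :
    ∃ P : Subgroup G, Inv A P ∧ IsPGroup r P ∧ ¬ r ∣ P.index := by
  let φ : A →* MulAut G := MulDistribMulAction.toMulAut A G
  have hfin : Finite (G ⋊[φ] A) := finite_semidirectProduct φ
  obtain ⟨P', hP'K, hP'p, hP'i, hP'A⟩ := Cfsg.Agent.Lib.Helper1.exists_invariant_sylow (sdA φ) (sdK φ)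
    (sdA_le_normalizer_sdK φ) (by rw [card_sdA, card_sdK]; exact hcop)
    (by
      rcases hsol with h | h
      · left
        exact Group.isSolvable_of_surjective (sdAEquiv φ).surjective
      · right
        exact Group.isSolvable_of_surjective (sdKEquiv φ).surjective) r
  refine ⟨P'.comap inl, ?_, hP'p.comap_of_injective _ inl_injective, ?_⟩
  · intro a x hx
    rw [Subgroup.mem_comap] at hx ⊢
    have h1 : (inl (a • x) : G ⋊[φ] A) = inr a * inl x * (inr a)⁻¹ :=
      (inr_mul_inl_mul_inr_inv φ a x).symm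
    rw [h1]
    exact (Subgroup.mem_normalizer_iff.mp (hP'A (inr_mem_sdA φ a)) _).mp hx
  · rw [Subgroup.index_comap]
    exact hP'i

theorem inv_frattini : Inv A (frattini G) := by
  intro a x hx
  have h := (frattini_characteristic (G := G)).fixed (MulDistribMulAction.toMulAut A G a⁻¹)
  rw [← h, Subgroup.mem_comap]
  simpa using hx

theorem le_comap_of_inv (N : Subgroup G) (hN : Inv A N) (a : A) :
    N ≤ N.comap (MulDistribMulAction.toMonoidHom G a) :=
  fun x hx => Subgroup.mem_comap.mpr (hN a x hx)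

/-- the induced map on a quotient by an invariant normal subgroup -/
def qmap (N : Subgroup G) [N.Normal] (hN : Inv A N) (a : A) : G ⧸ N →* G ⧸ N :=
  QuotientGroup.map N N (MulDistribMulAction.toMonoidHom G a) (le_comap_of_inv N hN a)

theorem qmap_mk (N : Subgroup G) [N.Normal] (hN : Inv A N) (a : A) (x : G) :
    qmap N hN a (x : G ⧸ N) = ((a • x : G) : G ⧸ N) := rfl

/-- the induced action on a quotient by an invariant normal subgroup -/
@[reducible] def quotAct (N : Subgroup G) [N.Normal] (hN : Inv A N) : MulDistribMulAction A (G ⧸ N) where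
  smul a := qmap N hN a
  one_smul := by
    intro q
    induction q using QuotientGroup.induction_on with
    | H x =>
      change qmap N hN 1 (x : G ⧸ N) = _
      rw [qmap_mk, one_smul]
  mul_smul := by
    intro a b q
    induction q using QuotientGroup.induction_on with
    | H x =>
      change qmap N hN (a * b) (x : G ⧸ N) = qmap N hN a (qmap N hN b (x : G ⧸ N))
      rw [qmap_mk, qmap_mk, qmap_mk, mul_smul]
  smul_mul := fun a x y => map_mul (qmap N hN a) x y
  smul_one := fun a => map_one (qmap N hN a)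

theorem exists_inv_compl [Finite A] [Finite G] (p : ℕ) [Fact p.Prime] (hG : IsPGroup p G)
    (hcop : (Nat.card A).Coprime (Nat.card G)) (M : Subgroup G) (hM : Inv A M) :
    ∃ N₀ : Subgroup G, Inv A N₀ ∧ frattini G ≤ N₀ ∧ M ⊓ N₀ ≤ frattini G ∧ M ⊔ N₀ = ⊤ := by
  classical
  have hcomm : ∀ x y : G ⧸ frattini G, x * y = y * x := by
    have : IsMulCommutative (G ⧸ frattini G) :=
      Subgroup.Normal.quotient_commutative_iff_commutator_le.mpr
        (Cfsg.Agent.Lib.Helper2.commutator_le_frattini hG)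
    exact fun x y => mul_comm' x y
  have hexp : ∀ x : G ⧸ frattini G, x ^ p = 1 := by
    intro q
    induction q using QuotientGroup.induction_on with
    | H x =>
      rw [← QuotientGroup.mk_pow, QuotientGroup.eq_one_iff]
      exact Cfsg.Agent.Lib.Helper2.pow_p_mem_frattini hG x
  let _ : CommGroup (G ⧸ frattini G) :=
    { (inferInstance : Group (G ⧸ frattini G)) with mul_comm := hcomm }
  let _ : Fintype A := Fintype.ofFinite A
  let _ : MulDistribMulAction A (G ⧸ frattini G) := quotAct (frattini G) inv_frattini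
  have hsm : ∀ (a : A) (x : G), a • (x : G ⧸ frattini G) = ((a • x : G) : G ⧸ frattini G) :=
    fun a x => rfl
  have hΦ := Cfsg.Agent.Lib.Helper2.frattini_eq_bot_of_elementary (p := p) hcomm hexp
  obtain ⟨U, hU⟩ : ∃ U, U = M.map (QuotientGroup.mk' (frattini G)) := ⟨_, rfl⟩
  have hUn : U.Normal := ⟨fun n hn g => by rw [hcomm g n, mul_inv_cancel_right]; exact hn⟩
  have hUc : IsMulCommutative U := ⟨⟨fun a b => Subtype.ext (hcomm a b)⟩⟩
  obtain ⟨W, hW⟩ := Cfsg.Agent.Lib.Helper91.exists_isComplement'_of_disjoint_frattini U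
    (by rw [hΦ, inf_bot_eq])
  obtain ⟨W', h1, h2, h3⟩ := Cfsg.Agent.S0660.abstract_maschke (V := G ⧸ frattini G) (A := A) U W
    (by
      rw [hU]
      rintro a _ ⟨m, hm, rfl⟩
      exact ⟨a • m, hM a m hm, rfl⟩)
    (by
      rw [← Nat.card_eq_fintype_card]
      exact Nat.Coprime.coprime_dvd_right (Subgroup.card_quotient_dvd_card _) hcop)
    hW.disjoint.eq_bot hW.sup_eq_top
  refine ⟨W'.comap (QuotientGroup.mk' (frattini G)), ?_, ?_, ?_, ?_⟩
  · intro a x hx
    rw [Subgroup.mem_comap] at hx ⊢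
    exact h1 a _ hx
  · intro x hx
    rw [Subgroup.mem_comap]
    have : QuotientGroup.mk' (frattini G) x = 1 := (QuotientGroup.eq_one_iff x).mpr hx
    rw [this]; exact one_mem _
  · rintro x ⟨hxM, hxW⟩
    have : QuotientGroup.mk' (frattini G) x ∈ U ⊓ W' := ⟨hU ▸ Subgroup.mem_map_of_mem _ hxM, hxW⟩
    rw [h2, Subgroup.mem_bot] at this
    exact (QuotientGroup.eq_one_iff x).mp this
  · rw [eq_top_iff]
    intro x _
    have hx : QuotientGroup.mk' (frattini G) x ∈ U ⊔ W' := h3 ▸ Subgroup.mem_top _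
    rw [Subgroup.mem_sup] at hx
    obtain ⟨u, hu, w, hw, huw⟩ := hx
    rw [hU] at hu
    obtain ⟨m, hm, rfl⟩ := hu
    have hw' : m⁻¹ * x ∈ W'.comap (QuotientGroup.mk' (frattini G)) := by
      rw [Subgroup.mem_comap, map_mul, ← huw, map_inv]
      simpa using hw
    have : x = m * (m⁻¹ * x) := by group
    rw [this]
    exact mul_mem (Subgroup.mem_sup_left hm) (Subgroup.mem_sup_right hw')

/-- maximal `A`-invariant subgroups -/
abbrev MaxInv (A : Type*) {G : Type*} [Group A] [Group G] [MulDistribMulAction A G]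
    (M : Subgroup G) : Prop :=
  M ≠ ⊤ ∧ (∀ a : A, ∀ x ∈ M, a • x ∈ M) ∧
    ∀ L : Subgroup G, M < L → (∀ a : A, ∀ x ∈ L, a • x ∈ L) → L = ⊤

theorem exists_maxInv_ge [Finite G] (L : Subgroup G) (hL : Inv A L) (hne : L ≠ ⊤) :
    ∃ M, MaxInv A M ∧ L ≤ M := by
  obtain ⟨M, hM, hmax⟩ := (Set.toFinite {K : Subgroup G | L ≤ K ∧ Inv A K ∧ K ≠ ⊤}).exists_maximal
    ⟨L, le_rfl, hL, hne⟩
  refine ⟨M, ⟨hM.2.2, hM.2.1, ?_⟩, hM.1⟩
  intro K hMK hK
  by_contra hKt
  exact absurd (hmax ⟨hM.1.trans hMK.le, hK, hKt⟩ hMK.le) (not_le_of_gt hMK)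

theorem inv_sup (M N : Subgroup G) [N.Normal] (hM : Inv A M) (hN : Inv A N) : Inv A (M ⊔ N) := by
  intro a x hx
  rw [Subgroup.mem_sup_of_normal_right] at hx
  obtain ⟨m, hm, n, hn, rfl⟩ := hx
  rw [smul_mul']
  exact mul_mem (Subgroup.mem_sup_left (hM a m hm)) (Subgroup.mem_sup_right (hN a n hn))

theorem frattini_le_of_maxInv [Finite G] (M : Subgroup G) (hM : MaxInv A M) : frattini G ≤ M := by
  by_contra hle
  have hlt : M < M ⊔ frattini G := by
    apply lt_of_le_of_ne le_sup_left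
    intro he
    exact hle (he ▸ le_sup_right)
  have := hM.2.2 _ hlt (inv_sup M (frattini G) hM.2.1 inv_frattini)
  exact hM.1 (frattini_nongenerating this)

theorem partB [Finite G]
    (h : ∀ L : Subgroup G, frattini G < L → (∀ a : A, ∀ x ∈ L, a • x ∈ L) → L = ⊤) (M : Subgroup G) :
    MaxInv A M ↔ (M = frattini G ∧ M ≠ ⊤) := by
  constructor
  · intro hM
    refine ⟨?_, hM.1⟩
    by_contra hne
    have hlt : frattini G < M := lt_of_le_of_ne (frattini_le_of_maxInv M hM) (Ne.symm hne)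
    exact hM.1 (h M hlt hM.2.1)
  · rintro ⟨rfl, hne⟩
    exact ⟨hne, inv_frattini, h⟩

theorem result {A G : Type*} [Group A] [Finite A]
    [Group G] [Finite G] [MulDistribMulAction A G] (hcop : (Nat.card A).Coprime (Nat.card G)) (hsol : Group.IsSolvable A ∨ Group.IsSolvable G) :
    ((∀ M N : Subgroup G, (M ≠ ⊤ ∧ (∀ a : A, ∀ x ∈ M, a • x ∈ M) ∧ ∀ L : Subgroup G, M < L → (∀ a : A, ∀ x ∈ L, a • x ∈ L) → L = ⊤) → (N ≠ ⊤ ∧ (∀ a : A, ∀ x ∈ N, a • x ∈ N) ∧ ∀ L : Subgroup G, N < L → (∀ a : A, ∀ x ∈ L, a • x ∈ L) → L = ⊤) →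
        ∃ c : G, (∀ a : A, a • c = c) ∧ N = MulAut.conj c • M) ↔
      ((∃ p : ℕ, p.Prime ∧ IsPGroup p G) ∧ ∀ L : Subgroup G, frattini G < L → (∀ a : A, ∀ x ∈ L, a • x ∈ L) → L = ⊤)) ∧
    (((∃ p : ℕ, p.Prime ∧ IsPGroup p G) ∧ ∀ L : Subgroup G, frattini G < L → (∀ a : A, ∀ x ∈ L, a • x ∈ L) → L = ⊤) →
      ∀ M : Subgroup G, (M ≠ ⊤ ∧ (∀ a : A, ∀ x ∈ M, a • x ∈ M) ∧ ∀ L : Subgroup G, M < L → (∀ a : A, ∀ x ∈ L, a • x ∈ L) → L = ⊤) ↔ (M = frattini G ∧ M ≠ ⊤)) := by
  refine ⟨⟨?_, ?_⟩, fun h M => partB h.2 M⟩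
  · intro h1
    have hp : ∃ p : ℕ, p.Prime ∧ IsPGroup p G := by
      by_contra hno
      push Not at hno
      have hbot : (⊥ : Subgroup G) ≠ ⊤ := by
        intro he
        apply hno 2 Nat.prime_two
        intro g
        have : g ∈ (⊥ : Subgroup G) := he ▸ Subgroup.mem_top g
        rw [Subgroup.mem_bot] at this
        exact ⟨0, by rw [this]; simp⟩
      obtain ⟨M, hM, _⟩ := exists_maxInv_ge (A := A) (⊥ : Subgroup G)
        (by intro a x hx; rw [Subgroup.mem_bot] at hx ⊢; rw [hx, smul_one]) hbot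
      apply hM.1
      rw [← Subgroup.index_eq_one]
      rw [Nat.eq_one_iff_not_exists_prime_dvd]
      intro r hr hrd
      have : Fact r.Prime := ⟨hr⟩
      obtain ⟨P, hPi, hPr, hPn⟩ := exists_inv_sylow (A := A) (G := G) hcop hsol r
      have hPt : P ≠ ⊤ := by
        rintro rfl
        exact hno r hr (hPr.of_equiv Subgroup.topEquiv)
      obtain ⟨N, hN, hPN⟩ := exists_maxInv_ge P hPi hPt
      obtain ⟨c, _, hc⟩ := h1 M N hM hN
      have hidx : N.index = M.index := by
        rw [hc]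
        exact Subgroup.index_map_equiv M (MulAut.conj c)
      exact hPn ((hidx ▸ hrd).trans (Subgroup.index_dvd_of_le hPN))
    refine ⟨hp, ?_⟩
    obtain ⟨p, hpp, hG⟩ := hp
    have : Fact p.Prime := ⟨hpp⟩
    intro L hL hLi
    by_contra hLt
    obtain ⟨M, hM, hLM⟩ := exists_maxInv_ge L hLi hLt
    obtain ⟨N₀, hN₀i, hΦN₀, hinf, hsup⟩ := exists_inv_compl p hG hcop M hM.2.1
    have hN₀t : N₀ ≠ ⊤ := by
      rintro rfl
      rw [inf_top_eq] at hinf
      exact absurd (hLM.trans hinf) (not_le_of_gt hL)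
    obtain ⟨N, hN, hN₀N⟩ := exists_maxInv_ge N₀ hN₀i hN₀t
    obtain ⟨c, _, hc⟩ := h1 M N hM hN
    have hMn : M.Normal := by
      constructor
      intro y hy x
      have e : x * y * x⁻¹ = (x * y * x⁻¹ * y⁻¹) * y := by group
      rw [e]
      refine mul_mem ((frattini_le_of_maxInv M hM) (Cfsg.Agent.Lib.Helper2.commutator_le_frattini hG ?_)) hy
      exact Subgroup.commutator_mem_commutator (Subgroup.mem_top x) (Subgroup.mem_top y)
    have hNM : N = M := by rw [hc]; exact Subgroup.Normal.conj_smul_eq_self c M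
    apply hM.1
    rw [← hsup]
    exact (sup_eq_left.mpr (hNM ▸ hN₀N)).symm
  · rintro ⟨_, h2⟩ M N hM hN
    refine ⟨1, fun a => smul_one a, ?_⟩
    rw [((partB h2 M).mp hM).1, ((partB h2 N).mp hN).1, map_one, one_smul]

end Cfsg.Agent.S4381
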