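import Mathlib
import Cfsg.Statements.S0676
import Cfsg.Agent.S0672
import Cfsg.Agent.S0675
import Cfsg.Agent.Lib.Helper12.PrimeInvol

set_option autoImplicit false
open Cfsg

namespace Cfsg.Agent.S0676

open Cfsg.Agent.Lib.Helper12 in
open scoped Pointwise in
/-- A non-solvable transitive permutation group of prime degree `p` whose Sylow `p`-normaliser has even order is triply transitive. -/
theorem result {α : Type*} [Fintype α] [DecidableEq α] {p : ℕ} [Fact p.Prime] (hα : Fintype.card α = p) (G : Subgroup (Equiv.Perm α)) [MulAction.IsPretransitive G α] (hG : ¬ Group.IsSolvable G) (P : Sylow p G) (heven : Even (Nat.card (Subgroup.normalizer ((P : Subgroup G) : Set G)))) : MulAction.IsMultiplyPretransitive G α 3 := by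
  have hpp : p.Prime := Fact.out
  have hp5 : 5 ≤ p := PrimeDegree.five_le_of_not_isSolvable hα G hG
  have hP := PrimeDegree.card_sylow hα G P
  obtain ⟨t, s, e, htP, hPt, hto, he, hs, hs2⟩ :=
    PrimeCoord.exists_coord_involution hα (by omega) G (P : Subgroup G) hP heven
  haveI : Fact (1 < p) := ⟨hpp.one_lt⟩
  have h2 : MulAction.IsMultiplyPretransitive G α 2 :=
    (S0675.result (by rw [hα]; exact hpp) G).resolve_left hG
  have h2ne : (2 : ZMod p) ≠ 0 := by
    intro h
    have : ((2 : ℕ) : ZMod p) = 0 := by exact_mod_cast h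
    rw [ZMod.natCast_eq_zero_iff] at this
    have := Nat.le_of_dvd (by norm_num) this
    omega
  refine S0672.result (K := ZMod p) (p := p) h2 (by rw [hα]) ?_ ?_
  · intro a
    have hα' : Nat.card α = p := by rw [Nat.card_eq_fintype_card, hα]
    have h1 : Nat.card (MulAction.stabilizer G a) * p = Nat.card G := by
      rw [← (MulAction.stabilizer G a).card_mul_index, MulAction.index_stabilizer_of_transitive,
        hα']
    have h3 : 2 ∣ Nat.card G :=
      (even_iff_two_dvd.mp heven).trans (Subgroup.card_subgroup_dvd_card _)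
    rw [← h1] at h3
    rw [even_iff_two_dvd]
    exact Nat.Coprime.dvd_of_dvd_mul_right
      ((Nat.coprime_primes Nat.prime_two hpp).mpr (by omega)) h3
  intro f hf
  let M := Cfsg.permSumZero (ZMod p) G α
  let u : α → ZMod p := fun x => e.symm x
  have huM : u ∈ M.toSubmodule := by
    rw [PermMod.mem_permSumZero_iff]
    have h1 : ∑ x, u x = ∑ j : ZMod p, j := Fintype.sum_equiv e.symm _ _ (fun x => rfl)
    have h3 : ∑ j : ZMod p, j = ∑ j : ZMod p, -j :=
      (Fintype.sum_equiv (Equiv.neg (ZMod p)) _ _ (fun x => rfl)).symm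
    rw [Finset.sum_neg_distrib] at h3
    rw [h1]
    have : (2 : ZMod p) * ∑ j : ZMod p, j = 0 := by linear_combination h3
    exact (mul_eq_zero.mp this).resolve_left h2ne
  have hCM := PermMod.constants_le_sumZero (G := G) (K := ZMod p) (p := p) (f := 1) (Ω := α)
    le_rfl (by rw [hα, pow_one])
  let U : M.toSubmodule := ⟨u, huM⟩
  let one : M.toSubmodule := ⟨fun _ => 1, hCM ((PermMod.mem_permConstants_iff _).mpr ⟨1, rfl⟩)⟩
  have hfone : f one = 0 := hf one ((PermMod.mem_permConstants_iff _).mpr ⟨1, rfl⟩)
  set F := f U with hF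
  -- the action of `t` and `s` on `u`
  have htinv : ∀ j : ZMod p, (t⁻¹ : G) • e j = e (j - 1) := by
    intro j
    rw [inv_smul_eq_iff]
    have := he (j - 1) 1
    rw [sub_add_cancel, ZMod.val_one, pow_one] at this
    exact this
  have hsinv : ∀ j : ZMod p, (s⁻¹ : G) • e j = e (-j) := by
    intro j
    rw [inv_smul_eq_iff]
    have := hs (-j)
    rw [neg_neg] at this
    exact this.symm
  have h1 : M.toRepresentation t U = U - one := by
    apply Subtype.ext
    funext x
    obtain ⟨j, rfl⟩ := e.surjective x
    change u ((t⁻¹ : G) • e j) = u (e j) - 1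
    rw [htinv]
    simp [u]
  have h3 : M.toRepresentation s U = - U := by
    apply Subtype.ext
    funext x
    obtain ⟨j, rfl⟩ := e.surjective x
    change u ((s⁻¹ : G) • e j) = - u (e j)
    rw [hsinv]
    simp [u]
  have hFt : ∀ S, F ((t⁻¹ : G) • S) = F S := by
    intro S
    have := f.isIntertwining _ _ t U
    rw [h1, map_sub, hfone, sub_zero] at this
    exact (congrFun this S).symm
  have hFs : ∀ S, F ((s⁻¹ : G) • S) = - F S := by
    intro S
    have := f.isIntertwining _ _ s U
    rw [h3, map_neg] at this
    exact (congrFun this S).symm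
  have hFt' : ∀ S, F (t • S) = F S := by
    intro S
    have := hFt (t • S)
    rw [inv_smul_smul] at this
    exact this.symm
  have hFk : ∀ (k : ℕ) S, F (t ^ k • S) = F S := by
    intro k
    induction k with
    | zero => intro S; simp
    | succ k ih =>
      intro S
      rw [pow_succ, mul_smul, ih, hFt']
  have hF0 : F = 0 := by
    funext S
    obtain ⟨x, y, hxy, hS⟩ := Finset.card_eq_two.mp S.2
    obtain ⟨i, rfl⟩ := e.surjective x
    obtain ⟨j, rfl⟩ := e.surjective y
    have hSS : (s⁻¹ : G) • S = t ^ (-i - j).val • S := by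
      have hcoe : ∀ (g : G) (S : Set.powersetCard α 2),
          ((g • S : Set.powersetCard α 2) : Finset α) = g • (S : Finset α) := fun g S => rfl
      apply Subtype.ext
      rw [hcoe, hcoe, hS]
      simp only [Finset.smul_finset_insert, Finset.smul_finset_singleton]
      rw [hsinv, hsinv]
      have e1 : t ^ (-i - j).val • e i = e (-j) := by
        have := he i (-i - j)
        rw [show i + (-i - j) = -j by ring] at this
        exact this.symm
      have e2 : t ^ (-i - j).val • e j = e (-i) := by
        have := he j (-i - j)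
        rw [show j + (-i - j) = -i by ring] at this
        exact this.symm
      rw [e1, e2, Finset.pair_comm]
    have h4 := hFs S
    rw [hSS, hFk] at h4
    have : (2 : ZMod p) * F S = 0 := by linear_combination h4
    exact (mul_eq_zero.mp this).resolve_left h2ne
  -- the kernel of `f`
  let W : Subrepresentation (Cfsg.permRep (ZMod p) G α) :=
    { toSubmodule := (LinearMap.ker f.toLinearMap).map M.toSubmodule.subtype
      apply_mem_toSubmodule := by
        rintro g _ ⟨w, hw, rfl⟩
        refine ⟨M.toRepresentation g w, ?_, rfl⟩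
        have hw' : f w = 0 := hw
        change f (M.toRepresentation g w) = 0
        rw [f.isIntertwining, hw', map_zero] }
  have hWC : (Cfsg.permConstants (ZMod p) G α).toSubmodule ≤ W.toSubmodule := by
    intro v hv
    exact ⟨⟨v, hCM hv⟩, hf ⟨v, hCM hv⟩ hv, rfl⟩
  have hWM : W.toSubmodule ≤ M.toSubmodule := by
    rintro _ ⟨w, _, rfl⟩
    exact w.2
  have huW : u ∈ W.toSubmodule := ⟨U, hF0, rfl⟩
  rcases S0674.result hα G hG W hWC hWM with h | h
  · exfalso
    rw [h] at huW
    obtain ⟨c, hc⟩ := (PermMod.mem_permConstants_iff _).mp huW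
    have c0 := congrFun hc (e 0)
    have c1 := congrFun hc (e 1)
    simp only [u, Equiv.symm_apply_apply] at c0 c1
    rw [← c0] at c1
    exact one_ne_zero c1
  · ext v
    have hv : (v : α → ZMod p) ∈ W.toSubmodule := by rw [h]; exact v.2
    obtain ⟨w, hw, hwv⟩ := hv
    have : w = v := Subtype.ext hwv
    rw [← this]
    exact congrFun hw _

end Cfsg.Agent.S0676
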