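import Cfsg.Statements.S0678
import Mathlib
import Cfsg.Agent.S0675
import Cfsg.Agent.S0676

set_option autoImplicit false
set_option linter.unusedSectionVars false
open Cfsg

namespace Cfsg.Agent.S0678


open MulAction Subgroup Equiv

section general

theorem exists_abelian_normal {G : Type*} [Group G] [Finite G] : ∀ (n : ℕ) (M : Subgroup G),
    Nat.card M ≤ n → M.Normal → M ≠ ⊥ → Group.IsSolvable M →
    ∃ A : Subgroup G, A.Normal ∧ A ≠ ⊥ ∧ A ≤ M ∧ ∀ a ∈ A, ∀ b ∈ A, a * b = b * a := by
  intro n
  induction n with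
  | zero =>
    intro M hM
    have := Nat.card_pos (α := M)
    omega
  | succ n ih =>
    intro M hM hMn hM1 hMs
    by_cases hc : ⁅M, M⁆ = ⊥
    · refine ⟨M, hMn, hM1, le_rfl, fun a ha b hb => ?_⟩
      rw [Subgroup.commutator_eq_bot_iff_le_centralizer] at hc
      exact (mem_centralizer_iff.1 (hc hb) a ha)
    · have hle : ⁅M, M⁆ ≤ M := Subgroup.commutator_le_left M M
      have hlt : ⁅M, M⁆ < M := by
        refine lt_of_le_of_ne hle fun heq => ?_
        have : Nontrivial M := (Subgroup.nontrivial_iff_ne_bot M).2 hM1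
        have h1 := Group.IsSolvable.commutator_lt_top_of_nontrivial (G := M)
        apply h1.ne
        apply Subgroup.map_injective M.subtype_injective
        rw [commutator_def, Subgroup.map_commutator, ← MonoidHom.range_eq_map, Subgroup.range_subtype, heq]
      have hcard : Nat.card (⁅M, M⁆ : Subgroup G) < Nat.card M := by
        have h1 := Set.ncard_lt_ncard (SetLike.coe_ssubset_coe.2 hlt) (Set.toFinite _)
        rw [← Nat.card_coe_set_eq, ← Nat.card_coe_set_eq] at h1
        exact h1
      have hs : Group.IsSolvable (⁅M, M⁆ : Subgroup G) :=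
        Group.isSolvable_of_isSolvable_injective (Subgroup.inclusion_injective hle)
      obtain ⟨A, hA1, hA2, hA3, hA4⟩ := ih ⁅M, M⁆ (by omega) (Subgroup.commutator_normal M M) hc hs
      exact ⟨A, hA1, hA2, hA3.trans hle, hA4⟩

end general




section seven

variable {α : Type*} [Fintype α] [DecidableEq α]

instance fact7 : Fact (Nat.Prime 7) := ⟨by norm_num⟩

theorem card_dvd (hα : Fintype.card α = 7) (G : Subgroup (Perm α)) : Nat.card G ∣ 5040 := by
  have h := Subgroup.card_subgroup_dvd_card G
  rw [Nat.card_perm, Nat.card_eq_fintype_card (α := α), hα] at h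
  exact h

theorem card_emb_dvd (G : Subgroup (Perm α)) (t : ℕ) (h : IsMultiplyPretransitive G α t)
    (ht : t ≤ Fintype.card α) : (Fintype.card α).descFactorial t ∣ Nat.card G := by
  obtain ⟨x⟩ : Nonempty (Fin t ↪ α) := Function.Embedding.nonempty_of_card_le (by simpa using ht)
  have h1 := @index_stabilizer_of_transitive G _ _ _ x h
  rw [Nat.card_eq_fintype_card, Fintype.card_embedding_eq, Fintype.card_fin] at h1
  rw [← h1]
  exact Subgroup.index_dvd_card _

theorem seven_dvd (hα : Fintype.card α = 7) (G : Subgroup (Perm α)) [IsPretransitive G α] :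
    7 ∣ Nat.card G := by
  have : Nonempty α := Fintype.card_pos_iff.1 (by omega)
  obtain ⟨x⟩ := this
  have h1 := index_stabilizer_of_transitive G x
  rw [Nat.card_eq_fintype_card, hα] at h1
  rw [← h1]
  exact Subgroup.index_dvd_card _

theorem sylow_card (hα : Fintype.card α = 7) (G : Subgroup (Perm α)) [IsPretransitive G α]
    (P : Sylow 7 G) : Nat.card P = 7 := by
  obtain ⟨n, hn⟩ := IsPGroup.iff_card.1 P.2
  have h1 : 7 ∣ Nat.card P := P.dvd_card_of_dvd_card (seven_dvd hα G)
  have h2 : Nat.card P ∣ 5040 := (Subgroup.card_subgroup_dvd_card _).trans (card_dvd hα G)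
  rw [hn] at h1 h2 ⊢
  match n with
  | 0 => norm_num at h1
  | 1 => rfl
  | (n + 2) =>
    exfalso
    have : 49 ∣ 5040 := Dvd.dvd.trans ⟨7 ^ n, by ring⟩ h2
    norm_num at this

theorem sylow_trans (hα : Fintype.card α = 7) (G : Subgroup (Perm α)) [IsPretransitive G α]
    (P : Sylow 7 G) : IsPretransitive (P : Subgroup G) α := by
  have hP := sylow_card hα G P
  obtain ⟨a, ha⟩ : ∃ a : α, Nat.card (orbit (P : Subgroup G) a) ≠ 1 := by
    by_contra hcon
    push Not at hcon
    have hbot : (P : Subgroup G) = ⊥ := by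
      rw [Subgroup.eq_bot_iff_forall]
      intro g hg
      apply Subtype.ext
      ext a
      have h1 := hcon a
      rw [Nat.card_eq_one_iff_unique] at h1
      have h2 := h1.1.elim ⟨(⟨g, hg⟩ : (P : Subgroup G)) • a, mem_orbit _ _⟩ ⟨a, mem_orbit_self a⟩
      exact congrArg Subtype.val h2
    rw [hbot] at hP
    simp at hP
  have h1 : Nat.card (orbit (P : Subgroup G) a) ∣ 7 := by
    have h3 := Subgroup.index_dvd_card (stabilizer (P : Subgroup G) a)
    rw [hP, index_stabilizer, ← Nat.card_coe_set_eq] at h3
    exact h3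
  have h2 : Nat.card (orbit (P : Subgroup G) a) = 7 := by
    rcases (Nat.dvd_prime (by norm_num : Nat.Prime 7)).1 h1 with h | h
    · exact absurd h ha
    · exact h
  rw [isPretransitive_iff_orbit_eq_univ a]
  rw [Set.eq_univ_iff_ncard, ← Nat.card_coe_set_eq, h2, Nat.card_eq_fintype_card, hα]

theorem sylow_comm (hα : Fintype.card α = 7) (G : Subgroup (Perm α)) [IsPretransitive G α]
    (P : Sylow 7 G) (x y : G) (hx : x ∈ P) (hy : y ∈ P) : x * y = y * x := by
  have hc : IsCyclic (P : Subgroup G) := isCyclic_of_prime_card (sylow_card hα G P)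
  obtain ⟨g, hg⟩ := hc.exists_generator
  obtain ⟨i, hi⟩ := mem_zpowers_iff.1 (hg ⟨x, hx⟩)
  obtain ⟨j, hj⟩ := mem_zpowers_iff.1 (hg ⟨y, hy⟩)
  have h1 : (⟨x, hx⟩ : (P : Subgroup G)) * ⟨y, hy⟩ = ⟨y, hy⟩ * ⟨x, hx⟩ := by
    rw [← hi, ← hj, ← zpow_add, ← zpow_add, add_comm]
  exact congrArg Subtype.val h1

theorem centralizer_eq (hα : Fintype.card α = 7) (G : Subgroup (Perm α)) [IsPretransitive G α]
    (P : Sylow 7 G) : centralizer ((P : Subgroup G) : Set G) = P := by
  have htr := sylow_trans hα G P
  have : Nonempty α := Fintype.card_pos_iff.1 (by omega)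
  obtain ⟨a⟩ := this
  apply le_antisymm
  · intro c hc
    obtain ⟨x, hx⟩ := htr.exists_smul_eq a (c • a)
    have hx' : (x : G) • a = c • a := hx
    have h1 : (x : G)⁻¹ * c = 1 := by
      apply Subtype.ext
      ext b
      obtain ⟨z, hz⟩ := htr.exists_smul_eq a b
      have hz' : (z : G) • a = b := hz
      show ((x : G)⁻¹ * c) • b = b
      have hcz : c * (z : G) = (z : G) * c := (mem_centralizer_iff.1 hc z z.2).symm
      have hxz : (x : G)⁻¹ * (z : G) = (z : G) * (x : G)⁻¹ :=
        sylow_comm hα G P _ _ (inv_mem x.2) z.2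
      rw [← hz', ← mul_smul, mul_assoc, hcz, ← mul_assoc, hxz, mul_assoc, mul_smul, mul_smul, ← hx',
        inv_smul_smul]
    have h2 : c = x := by
      rw [inv_mul_eq_one] at h1
      exact h1.symm
    rw [h2]; exact x.2
  · intro x hx
    rw [mem_centralizer_iff]
    intro y hy
    exact sylow_comm hα G P _ _ hy hx

theorem card_normalizer (hα : Fintype.card α = 7) (G : Subgroup (Perm α)) [IsPretransitive G α]
    (P : Sylow 7 G) : ∃ k, k ∣ 6 ∧ Nat.card (normalizer ((P : Subgroup G) : Set G)) = 7 * k := by
  have hc : IsCyclic (P : Subgroup G) := isCyclic_of_prime_card (sylow_card hα G P)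
  have key := card_dvd_of_injective _ (QuotientGroup.kerLift_injective (P : Subgroup G).normalizerMonoidHom)
  rw [normalizerMonoidHom_ker, ← index, ← relIndex, hc.card_mulAut, centralizer_eq hα G P,
    sylow_card hα G P] at key
  refine ⟨_, key, ?_⟩
  have h1 := Subgroup.relIndex_mul_relIndex ⊥ (P : Subgroup G) (normalizer ((P : Subgroup G) : Set G))
    bot_le le_normalizer
  rw [relIndex_bot_left, relIndex_bot_left, sylow_card hα G P] at h1
  exact h1.symm

theorem seven_dvd' (hα : Fintype.card α = 7) {H : Type*} [Group H] [Finite H] [MulAction H α]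
    (h : IsPretransitive H α) : 7 ∣ Nat.card H := by
  have : Nonempty α := Fintype.card_pos_iff.1 (by omega)
  obtain ⟨x⟩ := this
  have h1 := index_stabilizer_of_transitive H x
  rw [Nat.card_eq_fintype_card, hα] at h1
  rw [← h1]
  exact Subgroup.index_dvd_card _

theorem im_trans (G : Subgroup (Perm α)) (M : Subgroup G) (h : IsPretransitive M α) :
    IsPretransitive (M.map G.subtype) α := by
  constructor
  intro a b
  obtain ⟨m, hm⟩ := h.exists_smul_eq a b
  exact ⟨⟨((m : G) : Perm α), ⟨m, m.2, rfl⟩⟩, hm⟩

theorem im_card (G : Subgroup (Perm α)) (M : Subgroup G) :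
    Nat.card (M.map G.subtype) = Nat.card M :=
  card_map_of_injective (subtype_injective _)

theorem solvable_of_im (G : Subgroup (Perm α)) (M : Subgroup G)
    (h : Group.IsSolvable (M.map G.subtype)) : Group.IsSolvable M :=
  Group.isSolvable_of_isSolvable_injective
    (f := (M.equivMapOfInjective G.subtype (subtype_injective _)).toMonoidHom)
    (M.equivMapOfInjective G.subtype (subtype_injective _)).injective

theorem normal_trans (G : Subgroup (Perm α)) (h2 : IsMultiplyPretransitive G α 2) (M : Subgroup G)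
    [M.Normal] (hM : M ≠ ⊥) : IsPretransitive M α := by
  have hprim : IsPreprimitive G α := isPreprimitive_of_is_two_pretransitive h2
  apply IsQuasiPreprimitive.isPretransitive_of_normal (G := G)
  intro h
  apply hM
  rw [eq_bot_iff_forall]
  intro g hg
  apply Subtype.ext
  ext a
  have h1 : a ∈ fixedPoints M α := by rw [h]; trivial
  exact h1 ⟨g, hg⟩

theorem solvable_or_dvd (hα : Fintype.card α = 7) (G : Subgroup (Perm α))
    (h2 : IsMultiplyPretransitive G α 2) (M : Subgroup G) [M.Normal] (hM : M ≠ ⊥) :
    Group.IsSolvable M ∨ 42 ∣ Nat.card M := by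
  have := im_trans G M (normal_trans G h2 M hM)
  rcases Cfsg.Agent.S0675.result (by rw [hα]; norm_num) (M.map G.subtype) with h | h
  · exact Or.inl (solvable_of_im G M h)
  · right
    have h1 := card_emb_dvd (M.map G.subtype) 2 h (by omega)
    rw [hα, im_card] at h1
    exact h1

theorem alt_le_of_index_le (hα : Fintype.card α = 7) (G : Subgroup (Perm α)) (h : G.index ≤ 3) :
    alternatingGroup α ≤ G := by
  have hK : G.normalCore ≠ ⊥ := by
    intro hbot
    rw [Subgroup.normalCore_eq_ker] at hbot
    have hinj : Function.Injective (MulAction.toPermHom (Perm α) (Perm α ⧸ G)) :=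
      (MonoidHom.ker_eq_bot_iff _).1 hbot
    have h1 := Nat.card_le_card_of_injective _ hinj
    rw [Nat.card_perm, Nat.card_perm, Nat.card_eq_fintype_card (α := α), hα] at h1
    have h2 : (Nat.card (Perm α ⧸ G)).factorial ≤ 6 := by
      show (G.index).factorial ≤ 6
      exact (Nat.factorial_le h).trans (by decide)
    have h3 : (7).factorial = 5040 := rfl
    omega
  have hnt : Nontrivial G.normalCore := (Subgroup.nontrivial_iff_ne_bot _).2 hK
  exact (Equiv.Perm.alternatingGroup_le_of_normal
    (by rw [Nat.card_eq_fintype_card, hα]; norm_num) hnt).trans (Subgroup.normalCore_le G)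

theorem not_two_odd (hα : Fintype.card α = 7) (G : Subgroup (Perm α))
    (hG : ¬ Group.IsSolvable G) (h2 : IsMultiplyPretransitive G α 2) (c : ℕ)
    (hc : Nat.card G = 2 * c) (hodd : Odd c) (hc1 : c ≠ 1) : False := by
  obtain ⟨P2⟩ : Nonempty (Sylow 2 G) := inferInstance
  have hP2 : Nat.card P2 = 2 := by
    obtain ⟨n, hn⟩ := IsPGroup.iff_card.1 P2.2
    have h1 : 2 ∣ Nat.card P2 := P2.dvd_card_of_dvd_card ⟨c, hc⟩
    have h3 : Nat.card P2 ∣ 2 * c := hc ▸ Subgroup.card_subgroup_dvd_card _
    rw [hn] at h1 h3 ⊢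
    match n with
    | 0 => norm_num at h1
    | 1 => rfl
    | (n + 2) =>
      exfalso
      have h4 : 4 ∣ 2 * c := Dvd.dvd.trans ⟨2 ^ n, by ring⟩ h3
      obtain ⟨d, rfl⟩ := hodd
      omega
  have hcyc : IsCyclic (P2 : Subgroup G) := isCyclic_of_prime_card hP2
  have hmin : (Nat.card G).minFac = 2 := by
    rw [hc]; exact (Nat.minFac_eq_two_iff _).2 ⟨c, rfl⟩
  have hcompl := IsCyclic.isComplement' hmin hcyc
  have hcard := hcompl.card_mul_card
  rw [hP2, hc] at hcard
  have hK : (MonoidHom.transferSylow P2 (hcyc.normalizer_le_centralizer hmin)).ker ≠ ⊥ := by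
    intro h
    rw [h, Subgroup.card_bot] at hcard
    omega
  rcases solvable_or_dvd hα G h2 _ hK with hs | h42
  · apply hG
    have hs2 : Group.IsSolvable (P2 : Subgroup G) :=
      Group.isSolvable_of_comm (fun a b => hcyc.commGroup.mul_comm a b)
    exact Group.isSolvable_of_ker_le_range
      (MonoidHom.transferSylow P2 (hcyc.normalizer_le_centralizer hmin)).ker.subtype
      (MonoidHom.transferSylow P2 (hcyc.normalizer_le_centralizer hmin)) (by simp)
  · obtain ⟨d, rfl⟩ := hodd
    omega

end seven


section final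

variable {α : Type*} [Fintype α] [DecidableEq α]

theorem card_eq (hα : Fintype.card α = 7) (G : Subgroup (Perm α)) [IsPretransitive G α]
    (hG : ¬ Group.IsSolvable G) (hA : ¬ alternatingGroup α ≤ G) : Nat.card G = 168 := by
  have h2 : IsMultiplyPretransitive G α 2 :=
    (Cfsg.Agent.S0675.result (by rw [hα]; norm_num) G).resolve_left hG
  have hdvd := card_dvd hα G
  have h42 : 42 ∣ Nat.card G := by
    have := card_emb_dvd G 2 h2 (by omega)
    rwa [hα] at this
  obtain ⟨P⟩ : Nonempty (Sylow 7 G) := inferInstance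
  obtain ⟨k, hk6, hk⟩ := card_normalizer hα G P
  have hn7 := card_sylow_modEq_one 7 G
  rw [P.card_eq_index_normalizer] at hn7
  have hidx := Subgroup.card_mul_index (normalizer ((P : Subgroup G) : Set G))
  rw [hk] at hidx
  have hk1 : k ≠ 1 := by
    rintro rfl
    have hNP : (P : Subgroup G) = normalizer ((P : Subgroup G) : Set G) := by
      apply Subgroup.eq_of_le_of_card_ge le_normalizer
      rw [hk, sylow_card hα G P]
    have hNC : normalizer ((P : Subgroup G) : Set G) ≤ centralizer ((P : Subgroup G) : Set G) := by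
      rw [centralizer_eq hα G P, ← hNP]
    have hcompl := MonoidHom.ker_transferSylow_isComplement' P hNC
    have hcard := hcompl.card_mul_card
    rw [sylow_card hα G P] at hcard
    by_cases hK : (MonoidHom.transferSylow P hNC).ker = ⊥
    · rw [hK, Subgroup.card_bot] at hcard
      omega
    · have htr := normal_trans G h2 _ hK
      have h7 := seven_dvd' hα htr
      obtain ⟨d, hd⟩ := h7
      rw [hd] at hcard
      have : 49 ∣ 5040 := Dvd.dvd.trans ⟨d, by rw [← hcard]; ring⟩ hdvd
      norm_num at this
  have h210 : k % 2 = 0 → 210 ∣ Nat.card G := by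
    intro hke
    have h3 := Cfsg.Agent.S0676.result hα G hG P (by
      rw [hk]; exact (Nat.even_iff.2 hke).mul_left 7)
    have := card_emb_dvd G 3 h3 (by omega)
    rwa [hα] at this
  obtain ⟨m, hm⟩ := h42
  rw [hm] at hdvd hidx h210
  have hm120 : m ∣ 120 := Nat.dvd_of_mul_dvd_mul_left (by norm_num : 0 < 42) (by simpa using hdvd)
  have hmle : m ≤ 120 := Nat.le_of_dvd (by norm_num) hm120
  have hkle : k ≤ 6 := Nat.le_of_dvd (by norm_num) hk6
  have hn7' : (normalizer ((P : Subgroup G) : Set G)).index % 7 = 1 := hn7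
  generalize (normalizer ((P : Subgroup G) : Set G)).index = n7 at *
  have key : m = 4 ∨ m = 5 ∨ m = 15 ∨ m = 40 ∨ m = 60 ∨ m = 120 := by
    have hk' : k = 2 ∨ k = 3 ∨ k = 6 := by
      interval_cases k <;> omega
    rcases hk' with rfl | rfl | rfl
    · have h5 := h210 (by norm_num)
      interval_cases m <;> omega
    · interval_cases m <;> omega
    · have h5 := h210 (by norm_num)
      interval_cases m <;> omega
  have hGi := Subgroup.card_mul_index G
  rw [Nat.card_perm, Nat.card_eq_fintype_card (α := α), hα, hm] at hGi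
  have h7f : (7).factorial = 5040 := rfl
  rw [h7f] at hGi
  rcases key with rfl | rfl | rfl | rfl | rfl | rfl
  · rw [hm]
  · exact (not_two_odd hα G hG h2 105 (by rw [hm]) (by decide) (by norm_num)).elim
  · exact (not_two_odd hα G hG h2 315 (by rw [hm]) (by decide) (by norm_num)).elim
  · exact (hA (alt_le_of_index_le hα G (by omega))).elim
  · exact (hA (alt_le_of_index_le hα G (by omega))).elim
  · exact (hA (alt_le_of_index_le hα G (by omega))).elim

end final

/-- A non-solvable transitive permutation group on 7 points that does not contain the alternating group is a simple group of order 168. -/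
theorem result {α : Type*} [Fintype α] [DecidableEq α] (hα : Fintype.card α = 7) (G : Subgroup (Equiv.Perm α)) [MulAction.IsPretransitive G α] (hG : ¬ Group.IsSolvable G) (hA : ¬ alternatingGroup α ≤ G) : Nat.card G = 168 ∧ IsSimpleGroup G := by
  have hcard := card_eq hα G hG hA
  refine ⟨hcard, ?_⟩
  have h2 : IsMultiplyPretransitive G α 2 :=
    (Cfsg.Agent.S0675.result (by rw [hα]; norm_num) G).resolve_left hG
  have hnt : Nontrivial G := by
    rw [← Finite.one_lt_card_iff_nontrivial, hcard]; norm_num
  refine ⟨fun M hM => ?_⟩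
  by_cases hM1 : M = ⊥
  · exact Or.inl hM1
  right
  have htr := normal_trans G h2 M hM1
  by_cases hs : Group.IsSolvable M
  · exfalso
    obtain ⟨A, hA1, hA2, -, hA4⟩ := exists_abelian_normal _ M le_rfl hM hM1 hs
    have hAtr := normal_trans G h2 A hA2
    have : Nonempty α := Fintype.card_pos_iff.1 (by omega)
    obtain ⟨x⟩ := this
    have hstab : stabilizer A x = ⊥ := by
      rw [eq_bot_iff_forall]
      intro a ha
      apply Subtype.ext
      apply Subtype.ext
      ext y
      obtain ⟨b, hb⟩ := hAtr.exists_smul_eq x y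
      have hb' : (b : G) • x = y := hb
      have ha' : (a : G) • x = x := ha
      show (a : G) • y = y
      rw [← hb', ← mul_smul, hA4 _ a.2 _ b.2, mul_smul, ha']
    have hAc : Nat.card A = 7 := by
      have h1 := index_stabilizer_of_transitive A x
      rw [hstab, Subgroup.index_bot, Nat.card_eq_fintype_card (α := α), hα] at h1
      exact h1
    have hAp : IsPGroup 7 A := IsPGroup.of_card (n := 1) (by simpa using hAc)
    obtain ⟨Q, hQ⟩ := hAp.exists_le_sylow
    have hAQ : A = Q := Subgroup.eq_of_le_of_card_ge hQ (by rw [hAc, sylow_card hα G Q])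
    obtain ⟨k, hk6, hk⟩ := card_normalizer hα G Q
    rw [← hAQ, Subgroup.normalizer_eq_top, Subgroup.card_top, hcard] at hk
    have hkle : k ≤ 6 := Nat.le_of_dvd (by norm_num) hk6
    omega
  · have := im_trans G M htr
    have h1 := card_eq hα (M.map G.subtype) (fun h => hs (solvable_of_im G M h))
      (fun h => hA (h.trans (by
        rintro _ ⟨m, -, rfl⟩
        exact m.2)))
    rw [im_card] at h1
    exact Subgroup.eq_top_of_card_eq M (by rw [h1, hcard])

end Cfsg.Agent.S0678
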