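import Cfsg.Statements.S3768

set_option autoImplicit false
open Cfsg
open scoped Pointwise

namespace Cfsg.Agent.S3768

theorem mem_conj_smul {G : Type*} [Group G] (H : Subgroup G) (g x : G) :
    x ∈ MulAut.conj g • H ↔ g⁻¹ * x * g ∈ H := by
  rw [Subgroup.mem_pointwise_smul_iff_inv_smul_mem]
  simp [MulAut.smul_def]

variable {G : Type*} [Group G]

theorem mem_of_conj_mem {R : Subgroup G} (hR : IsFrobeniusComplement R) {y g : G} (hy : y ∈ R)
    (hy1 : y ≠ 1) (hg : g * y * g⁻¹ ∈ R) : g ∈ R := by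
  by_contra hgR
  have h := hR.2.2 g hgR
  have hmem : g * y * g⁻¹ ∈ R ⊓ (MulAut.conj g • R) := by
    refine Subgroup.mem_inf.mpr ⟨hg, ?_⟩
    rw [mem_conj_smul]
    simpa [mul_assoc] using hy
  rw [h, Subgroup.mem_bot] at hmem
  apply hy1
  have : y = g⁻¹ * (g * y * g⁻¹) * g := by group
  rw [this, hmem]; simp

theorem mem_of_commute {R : Subgroup G} (hR : IsFrobeniusComplement R) {y c : G} (hy : y ∈ R)
    (hy1 : y ≠ 1) (hc : c * y = y * c) : c ∈ R := by
  apply mem_of_conj_mem hR hy hy1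
  rw [hc]; simpa using hy

theorem pgroup_le [Finite G] {R : Subgroup G} (hR : IsFrobeniusComplement R) {q : ℕ} [Fact q.Prime]
    (Q : Subgroup G) (hQ : IsPGroup q Q) {y : G} (hyQ : y ∈ Q) (hy : y ∈ R) (hy1 : y ≠ 1) : Q ≤ R := by
  have : Nontrivial Q := ⟨⟨⟨y, hyQ⟩, 1, fun h => hy1 (congrArg Subtype.val h)⟩⟩
  have := hQ.center_nontrivial
  obtain ⟨z, hz⟩ := exists_ne (1 : Subgroup.center Q)
  have hz1 : ((z : Q) : G) ≠ 1 := fun h => hz (Subtype.ext (Subtype.ext h))
  have hzc := Subgroup.mem_center_iff.mp z.2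
  have hzR : ((z : Q) : G) ∈ R := by
    apply mem_of_commute hR hy hy1
    have := hzc ⟨y, hyQ⟩
    exact (congrArg Subtype.val this).symm
  intro u hu
  apply mem_of_commute hR hzR hz1
  have := hzc ⟨u, hu⟩
  exact congrArg Subtype.val this

theorem zpowers_isPGroup {q : ℕ} {x : G} (hx : orderOf x = q) : IsPGroup q (Subgroup.zpowers x) := by
  apply IsPGroup.of_card (n := 1)
  rw [Nat.card_zpowers, hx, pow_one]

theorem exists_conj_of_prime_order [Finite G] {R : Subgroup G} (hR : IsFrobeniusComplement R) {q : ℕ}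
    [Fact q.Prime] (hq : q ∣ Nat.card R) {x : G} (hx : orderOf x = q) : ∃ g : G, x ∈ MulAut.conj g • R := by
  have hqp : q.Prime := Fact.out
  obtain ⟨y, hy⟩ := exists_prime_orderOf_dvd_card' q hq
  have hy' : orderOf (y : G) = q := by rw [Subgroup.orderOf_coe, hy]
  have hy1 : (y : G) ≠ 1 := by
    intro h
    rw [h, orderOf_one] at hy'
    exact hqp.one_lt.ne hy'
  obtain ⟨Q, hQ⟩ := (zpowers_isPGroup hy').exists_le_sylow
  obtain ⟨Q', hQ'⟩ := (zpowers_isPGroup hx).exists_le_sylow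
  have hQR : (Q : Subgroup G) ≤ R :=
    pgroup_le hR Q Q.2 (hQ (Subgroup.mem_zpowers _)) y.2 hy1
  obtain ⟨g, hg⟩ := MulAction.exists_smul_eq G Q Q'
  refine ⟨g, ?_⟩
  have hxQ' : x ∈ (Q' : Subgroup G) := hQ' (Subgroup.mem_zpowers _)
  rw [← hg, Sylow.coe_subgroup_smul, mem_conj_smul] at hxQ'
  rw [mem_conj_smul]
  exact hQR hxQ'

theorem coprime_of_mem_kernel [Finite G] {R : Subgroup G} (hR : IsFrobeniusComplement R) {k : G}
    (hk : k ∈ frobeniusKernel R) (hk1 : k ≠ 1) : (orderOf k).Coprime (Nat.card R) := by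
  by_contra hcop
  obtain ⟨q, hq, hqk, hqR⟩ := Nat.Prime.not_coprime_iff_dvd.mp hcop
  have : Fact q.Prime := ⟨hq⟩
  have hx : orderOf (k ^ (orderOf k / q)) = q :=
    orderOf_pow_orderOf_div (orderOf_pos k).ne' hqk
  obtain ⟨g, hg⟩ := exists_conj_of_prime_order hR hqR hx
  rw [mem_conj_smul] at hg
  have hx1 : g⁻¹ * k ^ (orderOf k / q) * g ≠ 1 := by
    intro h
    have h2 : k ^ (orderOf k / q) = 1 := by
      have : k ^ (orderOf k / q) = g * (g⁻¹ * k ^ (orderOf k / q) * g) * g⁻¹ := by group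
      rw [this, h]; simp
    rw [h2, orderOf_one] at hx
    exact hq.one_lt.ne hx
  have hkR : g⁻¹ * k * g ∈ R := by
    apply mem_of_commute hR hg hx1
    have hc : k * k ^ (orderOf k / q) = k ^ (orderOf k / q) * k := by
      rw [← pow_succ, ← pow_succ']
    calc g⁻¹ * k * g * (g⁻¹ * k ^ (orderOf k / q) * g) = g⁻¹ * (k * k ^ (orderOf k / q)) * g := by group
      _ = g⁻¹ * (k ^ (orderOf k / q) * k) * g := by rw [hc]
      _ = g⁻¹ * k ^ (orderOf k / q) * g * (g⁻¹ * k * g) := by group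
  rcases hk with hk | hk
  · exact hk1 hk
  · exact hk g ((mem_conj_smul _ _ _).mpr hkR)

theorem sup_eq_top [Finite G] {R : Subgroup G} (hR : IsFrobeniusComplement R) (N : Subgroup G) [N.Normal]
    (hNR : N ⊓ R ≠ ⊥) : R ⊔ N = ⊤ := by
  have hnt : Nontrivial ↥(N ⊓ R) := (Subgroup.nontrivial_iff_ne_bot _).mpr hNR
  have hcard : Nat.card ↥(N ⊓ R) ≠ 1 := by
    intro h
    exact hNR ((Subgroup.card_eq_one).mp h)
  obtain ⟨q, hq, hqd⟩ := Nat.exists_prime_and_dvd hcard
  have : Fact q.Prime := ⟨hq⟩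
  obtain ⟨y, hy⟩ := exists_prime_orderOf_dvd_card' q hqd
  have hy' : orderOf (y : G) = q := by rw [Subgroup.orderOf_coe, hy]
  have hy1 : (y : G) ≠ 1 := by
    intro h
    rw [h, orderOf_one] at hy'
    exact hq.one_lt.ne hy'
  have hyN : (y : G) ∈ N := y.2.1
  have hyR : (y : G) ∈ R := y.2.2
  have hyN' : orderOf (⟨y, hyN⟩ : N) = q := by
    rw [← Subgroup.orderOf_coe]; exact hy'
  obtain ⟨P, hP⟩ := (zpowers_isPGroup hyN').exists_le_sylow
  have hyP : (y : G) ∈ (P : Subgroup N).map N.subtype :=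
    ⟨⟨y, hyN⟩, hP (Subgroup.mem_zpowers _), rfl⟩
  have hPR : (P : Subgroup N).map N.subtype ≤ R :=
    pgroup_le hR _ (P.2.map _) hyP hyR hy1
  have hnorm : Subgroup.normalizer (((P : Subgroup N).map N.subtype : Subgroup G) : Set G) ≤ R := by
    intro g hg
    apply mem_of_conj_mem hR hyR hy1
    apply hPR
    exact (Subgroup.mem_normalizer_iff.mp hg _).mp hyP
  have hfr := Sylow.normalizer_sup_eq_top P
  exact top_le_iff.mp (hfr ▸ sup_le_sup_right hnorm N)

theorem kernel_subset [Finite G] {R : Subgroup G} (hR : IsFrobeniusComplement R) (N : Subgroup G) [N.Normal]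
    (hNR : N ⊓ R ≠ ⊥) : frobeniusKernel R ⊆ N := by
  intro k hk
  by_cases hk1 : k = 1
  · rw [hk1]; exact N.one_mem
  have hcop := coprime_of_mem_kernel hR hk hk1
  have htop := sup_eq_top hR N hNR
  have hkm : k ∈ R ⊔ N := htop ▸ Subgroup.mem_top k
  rw [← SetLike.mem_coe, Subgroup.mul_normal] at hkm
  obtain ⟨r, hr, n, hn, hrn⟩ := hkm
  have hrn' : r * n = k := hrn
  subst hrn'
  have h1 : (QuotientGroup.mk' N (r * n)) = QuotientGroup.mk' N r := by
    have : QuotientGroup.mk' N n = 1 := (QuotientGroup.eq_one_iff n).mpr hn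
    rw [map_mul, this, mul_one]
  have h2 : (QuotientGroup.mk' N (r * n)) ^ Nat.card R = 1 := by
    rw [h1, ← map_pow]
    have : r ^ Nat.card R = 1 := by
      have := pow_card_eq_one' (x := (⟨r, hr⟩ : R))
      exact congrArg Subtype.val this
    rw [this, map_one]
  have h3 : (QuotientGroup.mk' N (r * n)) ^ orderOf (r * n) = 1 := by
    rw [← map_pow, pow_orderOf_eq_one, map_one]
  have h4 := pow_gcd_eq_one.mpr ⟨h3, h2⟩
  rw [Nat.Coprime] at hcop
  rw [hcop, pow_one] at h4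
  exact (QuotientGroup.eq_one_iff _).mp h4

/-- if `N ∩ R = 1`, every element of the coset `N r` (`r ≠ 1`) is an `N`-conjugate of `r`. -/
theorem exists_conj_eq [Finite G] {R : Subgroup G} (hR : IsFrobeniusComplement R) (N : Subgroup G) [hN : N.Normal]
    (hNR : N ⊓ R = ⊥) {r : G} (hr : r ∈ R) (hr1 : r ≠ 1) {m : G} (hm : m ∈ N) :
    ∃ n ∈ N, m * r = n * r * n⁻¹ := by
  let f : N → N := fun n => ⟨(n : G) * r * (n : G)⁻¹ * r⁻¹, by
    have h1 : r * (n : G)⁻¹ * r⁻¹ ∈ N := hN.conj_mem _ (N.inv_mem n.2) r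
    have : (n : G) * r * (n : G)⁻¹ * r⁻¹ = (n : G) * (r * (n : G)⁻¹ * r⁻¹) := by group
    rw [this]
    exact N.mul_mem n.2 h1⟩
  have hinj : Function.Injective f := by
    intro a b hab
    have h1 : (a : G) * r * (a : G)⁻¹ * r⁻¹ = (b : G) * r * (b : G)⁻¹ * r⁻¹ := congrArg Subtype.val hab
    have h2 : (a : G) * r * (a : G)⁻¹ = (b : G) * r * (b : G)⁻¹ := mul_right_cancel h1
    have h3 : ((b : G)⁻¹ * a) * r = r * ((b : G)⁻¹ * a) := by
      calc ((b : G)⁻¹ * a) * r = (b : G)⁻¹ * ((a : G) * r * (a : G)⁻¹) * a := by group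
        _ = (b : G)⁻¹ * ((b : G) * r * (b : G)⁻¹) * a := by rw [h2]
        _ = r * ((b : G)⁻¹ * a) := by group
    have h4 : (b : G)⁻¹ * a ∈ R := mem_of_commute hR hr hr1 h3
    have h5 : (b : G)⁻¹ * a ∈ N ⊓ R := ⟨N.mul_mem (N.inv_mem b.2) a.2, h4⟩
    rw [hNR, Subgroup.mem_bot] at h5
    apply Subtype.ext
    exact (inv_mul_eq_one.mp h5).symm
  obtain ⟨n, hn⟩ := (Finite.injective_iff_surjective.mp hinj) ⟨m, hm⟩
  refine ⟨n, n.2, ?_⟩
  have h1 : (n : G) * r * (n : G)⁻¹ * r⁻¹ = m := congrArg Subtype.val hn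
  rw [← h1]; group

/-- Let G be a finite Frobenius group with Frobenius complement R and Frobenius kernel K (the identity together with the elements in no conjugate of R), and let N be a normal subgroup of G not containing K. Then G/N is a Frobenius group with Frobenius complement RN/N whose Frobenius kernel is the image of K. -/
theorem result {G : Type*} [Group G] [Finite G] (R : Subgroup G) (hR : Cfsg.IsFrobeniusComplement R) (N : Subgroup G) [N.Normal] (hKN : ¬ Cfsg.frobeniusKernel R ⊆ N) : Cfsg.IsFrobeniusComplement (R.map (QuotientGroup.mk' N)) ∧ Cfsg.frobeniusKernel (R.map (QuotientGroup.mk' N)) = QuotientGroup.mk' N '' Cfsg.frobeniusKernel R := by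
  have hN : N.Normal := inferInstance
  have hNR : N ⊓ R = ⊥ := by
    by_contra h
    exact hKN (kernel_subset hR N h)
  -- key: an element of `R N` outside `N` is conjugate into `R` by an element of `N`
  have key : ∀ x : G, QuotientGroup.mk' N x ∈ R.map (QuotientGroup.mk' N) → x ∉ N →
      ∃ n ∈ N, ∃ r ∈ R, r ≠ 1 ∧ x = n * r * n⁻¹ := by
    intro x hx hxN
    obtain ⟨r, hr, hrx⟩ := hx
    have h1 : x * r⁻¹ ∈ N := by
      rw [← QuotientGroup.eq_one_iff, ← QuotientGroup.mk'_apply, map_mul, map_inv, hrx]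
      simp
    have hr1 : r ≠ 1 := by
      intro h
      rw [h] at h1
      exact hxN (by simpa using h1)
    obtain ⟨n, hn, hne⟩ := exists_conj_eq hR N hNR hr hr1 h1
    exact ⟨n, hn, r, hr, hr1, by rw [← hne]; group⟩
  have hmkN : ∀ n ∈ N, QuotientGroup.mk' N n = 1 := fun n hn => (QuotientGroup.eq_one_iff n).mpr hn
  refine ⟨⟨?_, ?_, ?_⟩, ?_⟩
  · intro h
    apply hR.1
    rw [eq_bot_iff]
    intro r hr
    have h1 : QuotientGroup.mk' N r ∈ R.map (QuotientGroup.mk' N) := ⟨r, hr, rfl⟩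
    rw [h, Subgroup.mem_bot] at h1
    have h2 : r ∈ N ⊓ R := ⟨(QuotientGroup.eq_one_iff r).mp h1, hr⟩
    rwa [hNR] at h2
  · intro h
    apply hKN
    intro k hk
    by_contra hkN
    have h1 : QuotientGroup.mk' N k ∈ R.map (QuotientGroup.mk' N) := h ▸ Subgroup.mem_top _
    obtain ⟨n, _, r, hr, _, hx⟩ := key k h1 hkN
    rcases hk with hk | hk
    · exact hkN (hk ▸ N.one_mem)
    · apply hk n
      rw [mem_conj_smul, hx]
      have : n⁻¹ * (n * r * n⁻¹) * n = r := by group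
      rw [this]; exact hr
  · intro gbar hg
    obtain ⟨g, rfl⟩ := QuotientGroup.mk'_surjective N gbar
    rw [eq_bot_iff]
    intro xbar hx
    obtain ⟨x, rfl⟩ := QuotientGroup.mk'_surjective N xbar
    rw [Subgroup.mem_bot]
    by_contra hx1
    have hxN : x ∉ N := fun h => hx1 (hmkN x h)
    obtain ⟨hxa, hxb⟩ := Subgroup.mem_inf.mp hx
    rw [mem_conj_smul, ← map_inv, ← map_mul, ← map_mul] at hxb
    have hxN' : g⁻¹ * x * g ∉ N := by
      intro h
      apply hxN
      have := hN.conj_mem _ h g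
      have e : g * (g⁻¹ * x * g) * g⁻¹ = x := by group
      rwa [e] at this
    obtain ⟨n, hn, r, hr, hr1, hxe⟩ := key x hxa hxN
    obtain ⟨n', hn', r', hr', hr1', hxe'⟩ := key _ hxb hxN'
    -- (n⁻¹ g n') r' (n⁻¹ g n')⁻¹ = r
    have h2 : (n⁻¹ * g * n') * r' * (n⁻¹ * g * n')⁻¹ = r := by
      calc (n⁻¹ * g * n') * r' * (n⁻¹ * g * n')⁻¹ = n⁻¹ * (g * (n' * r' * n'⁻¹) * g⁻¹) * n := by group
        _ = n⁻¹ * (g * (g⁻¹ * x * g) * g⁻¹) * n := by rw [hxe']
        _ = n⁻¹ * x * n := by group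
        _ = n⁻¹ * (n * r * n⁻¹) * n := by rw [← hxe]
        _ = r := by group
    have h3 : n⁻¹ * g * n' ∈ R := mem_of_conj_mem hR hr' hr1' (h2 ▸ hr)
    apply hg
    refine ⟨_, h3, ?_⟩
    rw [map_mul, map_mul, map_inv, hmkN n hn, hmkN n' hn']
    simp
  · ext xbar
    obtain ⟨x, rfl⟩ := QuotientGroup.mk'_surjective N xbar
    constructor
    · rintro (h | h)
      · exact ⟨1, Or.inl rfl, by rw [h, map_one]⟩
      · refine ⟨x, Or.inr ?_, rfl⟩
        intro g hg
        apply h (QuotientGroup.mk' N g)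
        rw [mem_conj_smul] at hg ⊢
        rw [← map_inv, ← map_mul, ← map_mul]
        exact ⟨_, hg, rfl⟩
    · rintro ⟨k, hk, hkx⟩
      rw [← hkx]
      by_cases hkN : k ∈ N
      · exact Or.inl (hmkN k hkN)
      · right
        intro gbar hg
        obtain ⟨g, rfl⟩ := QuotientGroup.mk'_surjective N gbar
        rw [mem_conj_smul, ← map_inv, ← map_mul, ← map_mul] at hg
        have hkN' : g⁻¹ * k * g ∉ N := by
          intro h
          apply hkN
          have := hN.conj_mem _ h g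
          have e : g * (g⁻¹ * k * g) * g⁻¹ = k := by group
          rwa [e] at this
        obtain ⟨n, _, r, hr, _, hxe⟩ := key _ hg hkN'
        rcases hk with hk | hk
        · exact hkN (hk ▸ N.one_mem)
        · apply hk (g * n)
          rw [mem_conj_smul]
          have : (g * n)⁻¹ * k * (g * n) = n⁻¹ * (g⁻¹ * k * g) * n := by group
          rw [this, hxe]
          have : n⁻¹ * (n * r * n⁻¹) * n = r := by group
          rw [this]; exact hr

end Cfsg.Agent.S3768
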