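import Mathlib
import Cfsg.Statements.S3703
import Cfsg.Agent.S0034
import Cfsg.Agent.S3768

set_option autoImplicit false
open Cfsg

namespace Cfsg.Agent.S3703

/-- Frobenius partition/trace argument: if the trace of `y` vanishes on `A`, then `v ^ |Q|` is `Q`-fixed. -/
theorem fixed_of_trace {T A : Type*} [Group T] [CommGroup A] (φ : T →* MulAut A)
    (Q : Subgroup T) [Finite Q] (y : T) (r : ℕ) (hr : 0 < r)
    (hn : ∀ u ∈ Q, y * u * y⁻¹ ∈ Q)
    (hc : ∀ j, 0 < j → j < r → ∀ u ∈ Q, u * y ^ j = y ^ j * u → u = 1)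
    (htr : ∀ v : A, ∏ j ∈ Finset.range r, φ (y ^ j) v = 1) (v : A) (u : T) (hu : u ∈ Q) :
    φ u (v ^ Nat.card Q) = v ^ Nat.card Q := by
  classical
  have : Fintype Q := Fintype.ofFinite Q
  have hnj : ∀ j : ℕ, ∀ u ∈ Q, y ^ j * u * (y ^ j)⁻¹ ∈ Q := by
    intro j
    induction j with
    | zero => intro u hu; simpa using hu
    | succ j ih =>
      intro u hu
      have := hn _ (ih u hu)
      have h2 : y ^ (j + 1) * u * (y ^ (j + 1))⁻¹ = y * (y ^ j * u * (y ^ j)⁻¹) * y⁻¹ := by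
        rw [pow_succ']; group
      rw [h2]; exact this
  have h1 : ∏ g : Q, ∏ j ∈ Finset.range r, φ ((g : T) * y ^ j * (g : T)⁻¹) v = 1 := by
    apply Finset.prod_eq_one
    intro g _
    have h2 : ∀ j, φ ((g : T) * y ^ j * (g : T)⁻¹) v = φ (g : T) (φ (y ^ j) (φ (g : T)⁻¹ v)) := by
      intro j
      rw [← MulAut.mul_apply, ← MulAut.mul_apply, ← map_mul, ← map_mul]
    simp only [h2]
    rw [← map_prod, htr, map_one]
  rw [Finset.prod_comm] at h1
  obtain ⟨r', rfl⟩ : ∃ r', r = r' + 1 := ⟨r - 1, by omega⟩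
  rw [Finset.prod_range_succ'] at h1
  have h0 : ∏ g : Q, φ ((g : T) * y ^ 0 * (g : T)⁻¹) v = v ^ Nat.card Q := by
    simp [Nat.card_eq_fintype_card]
  rw [h0] at h1
  have hfix : ∀ j ∈ Finset.range r', φ u (∏ g : Q, φ ((g : T) * y ^ (j + 1) * (g : T)⁻¹) v)
      = ∏ g : Q, φ ((g : T) * y ^ (j + 1) * (g : T)⁻¹) v := by
    intro j' hj'
    set j := j' + 1 with hj
    have hjr : j < r' + 1 := by have := Finset.mem_range.mp hj'; omega
    have hj0' : 0 < j := by omega
    let e : Q → Q := fun g => ⟨(g : T) * y ^ j * (g : T)⁻¹ * (y ^ j)⁻¹, by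
      have := Q.mul_mem g.2 (hnj j _ (Q.inv_mem g.2))
      have h2 : (g : T) * y ^ j * (g : T)⁻¹ * (y ^ j)⁻¹ = (g : T) * (y ^ j * (g : T)⁻¹ * (y ^ j)⁻¹) := by
        group
      rw [h2]; exact this⟩
    have he : Function.Injective e := by
      intro g h hgh
      have h1 : (g : T) * y ^ j * (g : T)⁻¹ * (y ^ j)⁻¹ = (h : T) * y ^ j * (h : T)⁻¹ * (y ^ j)⁻¹ :=
        congrArg Subtype.val hgh
      have h2 : (g : T) * y ^ j * (g : T)⁻¹ = (h : T) * y ^ j * (h : T)⁻¹ := mul_right_cancel h1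
      have h3 : ((h : T)⁻¹ * (g : T)) * y ^ j = y ^ j * ((h : T)⁻¹ * (g : T)) := by
        calc ((h : T)⁻¹ * (g : T)) * y ^ j = (h : T)⁻¹ * ((g : T) * y ^ j * (g : T)⁻¹) * (g : T) := by group
          _ = (h : T)⁻¹ * ((h : T) * y ^ j * (h : T)⁻¹) * (g : T) := by rw [h2]
          _ = y ^ j * ((h : T)⁻¹ * (g : T)) := by group
      have h4 := hc j hj0' hjr _ (Q.mul_mem (Q.inv_mem h.2) g.2) h3
      apply Subtype.ext
      exact (inv_mul_eq_one.mp h4).symm
    have hbij : Function.Bijective e := Finite.injective_iff_bijective.mp he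
    have h2 : ∏ g : Q, φ ((g : T) * y ^ j * (g : T)⁻¹) v = ∏ g : Q, φ ((e g : Q) : T) (φ (y ^ j) v) := by
      apply Finset.prod_congr rfl
      intro g _
      rw [← MulAut.mul_apply, ← map_mul]
      congr 2
      simp only [e]
      group
    rw [h2, hbij.prod_comp (fun w : Q => φ (w : T) (φ (y ^ j) v))]
    rw [map_prod]
    have h3 : ∀ w : Q, φ u (φ (w : T) (φ (y ^ j) v)) = φ (((⟨u, hu⟩ : Q) * w : Q) : T) (φ (y ^ j) v) := by
      intro w
      rw [← MulAut.mul_apply, ← map_mul]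
      rfl
    simp only [h3]
    exact Equiv.prod_comp (Equiv.mulLeft (⟨u, hu⟩ : Q)) (fun w : Q => φ (w : T) (φ (y ^ j) v))
  have h5 : v ^ Nat.card Q = (∏ j ∈ Finset.range r', ∏ g : Q, φ ((g : T) * y ^ (j + 1) * (g : T)⁻¹) v)⁻¹ :=
    eq_inv_of_mul_eq_one_right h1
  rw [h5, map_inv, map_prod]
  congr 1
  exact Finset.prod_congr rfl hfix

/-- the action of automorphisms on the abelianization -/
def abAut (P : Type*) [Group P] : MulAut P →* MulAut (Abelianization P) where
  toFun e := MulEquiv.abelianizationCongr e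
  map_one' := by
    ext x
    obtain ⟨x, rfl⟩ := QuotientGroup.mk_surjective x
    rfl
  map_mul' := by
    intro a b
    ext x
    obtain ⟨x, rfl⟩ := QuotientGroup.mk_surjective x
    rfl

theorem abAut_of (P : Type*) [Group P] (e : MulAut P) (x : P) :
    abAut P e (Abelianization.of x) = Abelianization.of (e x) := rfl

theorem comm_lt {X : Type*} [Group X] (E : Subgroup X) [Group.IsSolvable E] (hE : E ≠ ⊥) : ⁅E, E⁆ < E := by
  rw [← Subgroup.nontrivial_iff_ne_bot] at hE
  rw [← E.map_subtype_commutator]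
  have := Group.IsSolvable.commutator_lt_top_of_nontrivial E
  calc (commutator E).map E.subtype < (⊤ : Subgroup E).map E.subtype :=
        (Subgroup.map_subtype_lt_map_subtype).2 this
    _ = E := by rw [← MonoidHom.range_eq_map, Subgroup.range_subtype]

theorem pow_card_of_mem {X : Type*} [Group X] (R : Subgroup X) [Finite R] {u : X} (hu : u ∈ R) :
    u ^ Nat.card R = 1 := by
  have : (⟨u, hu⟩ : R) ^ Nat.card R = 1 := pow_card_eq_one'
  exact congrArg Subtype.val this

theorem centralizes {X : Type*} [Group X] [Finite X] (R : Subgroup X) (h : X) (n : ℕ) (hn0 : 0 < n)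
    (hnR : ∀ u ∈ R, h * u * h⁻¹ ∈ R)
    (hc : ∀ j, 0 < j → j < n → ∀ u ∈ R, u * h ^ j = h ^ j * u → u = 1) :
    ∀ (m : ℕ) (D : Subgroup X), Nat.card D = m → D.Normal → Group.IsSolvable D →
      (Nat.card D).Coprime (Nat.card R) → (∀ v ∈ D, (v * h) ^ n = 1) →
      ∀ u ∈ R, ∀ v ∈ D, u * v * u⁻¹ = v := by
  intro m
  induction m using Nat.strong_induction_on with
  | _ m ih =>
  intro D hm hDn hDs hcop hcoset u hu v hv
  by_cases hD : D = ⊥
  · subst hD
    have := Subgroup.mem_bot.mp hv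
    subst this
    simp
  have hlt := comm_lt D hD
  have hD'n : (⁅D, D⁆).Normal := Subgroup.commutator_normal D D
  have hcardlt : Nat.card (⁅D, D⁆ : Subgroup X) < m := by
    rw [← hm]
    exact Set.ncard_lt_ncard (SetLike.coe_ssubset_coe.2 hlt) (Set.toFinite _)
  have hD's : Group.IsSolvable (⁅D, D⁆ : Subgroup X) :=
    Group.isSolvable_of_isSolvable_injective (Subgroup.inclusion_injective hlt.le)
  have hcent := ih _ hcardlt ⁅D, D⁆ rfl hD'n hD's
    (Nat.Coprime.coprime_dvd_left (Subgroup.card_dvd_of_le hlt.le) hcop)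
    (fun v hv => hcoset v (hlt.le hv))
  -- trace
  let φ : X →* MulAut (Abelianization D) := (abAut D).comp (MulAut.conjNormal (H := D))
  have hφ : ∀ (g : X) (d : D), φ g (Abelianization.of d)
      = Abelianization.of ⟨g * d * g⁻¹, hDn.conj_mem _ d.2 g⟩ := fun g d => rfl
  have hh : h ^ n = 1 := by simpa using hcoset 1 D.one_mem
  have htr : ∀ w : Abelianization D, ∏ j ∈ Finset.range n, φ (h ^ j) w = 1 := by
    intro w
    obtain ⟨d, rfl⟩ := QuotientGroup.mk_surjective w
    have key : ∀ k : ℕ, ∃ e : D, ((d : X) * h) ^ k = e * h ^ k ∧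
        Abelianization.of e = ∏ j ∈ Finset.range k, φ (h ^ j) (Abelianization.of d) := by
      intro k
      induction k with
      | zero => exact ⟨1, by simp, by simp⟩
      | succ k ihk =>
        obtain ⟨e, he1, he2⟩ := ihk
        refine ⟨e * ⟨h ^ k * d * (h ^ k)⁻¹, hDn.conj_mem _ d.2 _⟩, ?_, ?_⟩
        · rw [pow_succ, he1]
          simp only [Subgroup.coe_mul]
          rw [pow_succ]
          group
        · rw [map_mul, he2, Finset.prod_range_succ, hφ]
    obtain ⟨e, he1, he2⟩ := key n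
    rw [hcoset d d.2, hh, mul_one] at he1
    have h1 : e = 1 := Subtype.ext he1.symm
    have h2 : ∏ j ∈ Finset.range n, φ (h ^ j) (Abelianization.of d) = 1 := by
      rw [← he2, h1, map_one]
    exact h2
  have hcopA : (Nat.card (Abelianization D)).Coprime (Nat.card R) :=
    Nat.Coprime.coprime_dvd_left (Subgroup.card_quotient_dvd_card (commutator D)) hcop
  have hfixA : ∀ w : Abelianization D, φ u w = w := by
    intro w
    have h1 := fixed_of_trace φ R h n hn0 hnR hc htr w u hu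
    rw [map_pow] at h1
    exact (powCoprime hcopA).injective h1
  have h1 := hfixA (Abelianization.of ⟨v, hv⟩)
  rw [hφ] at h1
  obtain ⟨c, hcdef⟩ : ∃ c : X, c = u * v * u⁻¹ * v⁻¹ := ⟨_, rfl⟩
  have hcD' : c ∈ ⁅D, D⁆ := by
    rw [← D.map_subtype_commutator, hcdef]
    have h2 : (⟨u * v * u⁻¹, hDn.conj_mem _ hv u⟩ : D) * (⟨v, hv⟩ : D)⁻¹ ∈ commutator D := by
      rw [← Abelianization.ker_of, MonoidHom.mem_ker, map_mul, map_inv, h1, mul_inv_cancel]
    exact ⟨_, h2, rfl⟩
  have hcc : u * c * u⁻¹ = c := hcent u hu c hcD'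
  have hpow : ∀ k : ℕ, u ^ k * v * (u ^ k)⁻¹ = c ^ k * v := by
    intro k
    induction k with
    | zero => simp
    | succ k ihk =>
      have e1 : u ^ (k + 1) * v * (u ^ (k + 1))⁻¹ = u * (u ^ k * v * (u ^ k)⁻¹) * u⁻¹ := by
        rw [pow_succ']; group
      have e2 : u * (c ^ k * v) * u⁻¹ = (u * c * u⁻¹) ^ k * (u * v * u⁻¹) := by
        rw [conj_pow]; group
      have e3 : u * v * u⁻¹ = c * v := by rw [hcdef]; group
      rw [e1, ihk, e2, hcc, e3, pow_succ, mul_assoc]
  have h3 := hpow (Nat.card R)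
  rw [pow_card_of_mem R hu] at h3
  have h4 : c ^ Nat.card R = 1 := by
    have : c ^ Nat.card R * v = 1 * v := by rw [← h3]; simp
    exact mul_right_cancel this
  have h5 : c ^ Nat.card D = 1 := pow_card_of_mem D (hlt.le hcD')
  have h6 := pow_gcd_eq_one.mpr ⟨h5, h4⟩
  rw [Nat.Coprime.gcd_eq_one hcop, pow_one] at h6
  have : u * v * u⁻¹ = c * v := by rw [hcdef]; group
  rw [this, h6, one_mul]

theorem index_dvd_card_of_sup_eq_top {G : Type*} [Group G] [Finite G] (Y N : Subgroup G) [N.Normal]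
    (h : Y ⊔ N = ⊤) : Y.index ∣ Nat.card N := by
  have e1 : N.relIndex Y = N.index := by
    rw [← Subgroup.relIndex_sup_right Y N, h, Subgroup.relIndex_top_right]
  have e2 := N.card_mul_index
  have e3 := Y.card_mul_index
  have e4 := (N.subgroupOf Y).card_mul_index
  have e5 : (N.subgroupOf Y).index = N.index := e1
  rw [e5] at e4
  have hi : 0 < N.index := Nat.pos_of_ne_zero Subgroup.index_ne_zero_of_finite
  refine ⟨Nat.card (N.subgroupOf Y), ?_⟩
  have : Nat.card N * N.index = (Y.index * Nat.card (N.subgroupOf Y)) * N.index := by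
    rw [e2, ← e3, ← e4]; ring
  exact Nat.eq_of_mul_eq_mul_right hi this

theorem mem_of_pow_of_coprime_index {G : Type*} [Group G] [Finite G] (K : Subgroup G) [K.Normal] {x : G}
    {m : ℕ} (hx : x ^ m = 1) (hcop : m.Coprime K.index) : x ∈ K := by
  rw [← QuotientGroup.eq_one_iff]
  have h1 : (x : G ⧸ K) ^ m = 1 := by rw [← QuotientGroup.mk_pow, hx]; rfl
  have h2 : (x : G ⧸ K) ^ K.index = 1 := by rw [Subgroup.index]; exact pow_card_eq_one'
  have h3 := pow_gcd_eq_one.mpr ⟨h1, h2⟩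
  rwa [Nat.Coprime.gcd_eq_one hcop, pow_one] at h3

section frob

variable {Q : Type*} [Group Q] [Finite Q] (Fb Hb : Subgroup Q)

omit [Finite Q] in
theorem frob_inf (hker : Cfsg.frobeniusKernel Hb = (Fb : Set Q)) : Fb ⊓ Hb = ⊥ := by
  rw [eq_bot_iff]
  intro x hx
  have h1 : x ∈ Cfsg.frobeniusKernel Hb := by rw [hker]; exact hx.1
  rcases h1 with h1 | h1
  · exact Subgroup.mem_bot.mpr h1
  · exact absurd (by simpa using hx.2) (h1 1)

theorem frob_card (hHb : Cfsg.IsFrobeniusComplement Hb) (hker : Cfsg.frobeniusKernel Hb = (Fb : Set Q)) :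
    Fb.index = Nat.card Hb ∧ (Nat.card Fb).Coprime (Nat.card Hb) := by
  obtain ⟨h1, h2⟩ := Cfsg.Agent.S0034.result Hb hHb
  rw [hker] at h1
  have h1' : Nat.card Fb = Hb.index := h1
  have e1 := Fb.card_mul_index
  have e2 := Hb.card_mul_index
  have hi : 0 < Hb.index := Nat.pos_of_ne_zero Subgroup.index_ne_zero_of_finite
  constructor
  · rw [h1'] at e1
    have : Hb.index * Fb.index = Hb.index * Nat.card Hb := by rw [e1, ← e2]; ring
    exact Nat.eq_of_mul_eq_mul_left hi this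
  · rw [h1']
    have h3 : Nat.gcd Hb.index (Nat.card Hb) = Nat.gcd 1 (Nat.card Hb) := by
      rw [Nat.gcd_comm, Nat.gcd_rec (Nat.card Hb) Hb.index, h2, ← Nat.gcd_rec, Nat.gcd_comm]
    rw [Nat.Coprime, h3, Nat.gcd_one_left]

end frob

theorem sylow_le_comap {G : Type*} [Group G] [Finite G] (N : Subgroup G) [N.Normal]
    (Fb Hb : Subgroup (G ⧸ N)) [Fb.Normal] (hHb : Cfsg.IsFrobeniusComplement Hb)
    (hker : Cfsg.frobeniusKernel Hb = (Fb : Set (G ⧸ N)))
    (r : ℕ) [Fact r.Prime] (hr : r ∣ Nat.card Fb) (R : Sylow r G) :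
    (R : Subgroup G) ≤ Fb.comap (QuotientGroup.mk' N) := by
  obtain ⟨hidx, hcopFH⟩ := frob_card Fb Hb hHb hker
  intro u hu
  obtain ⟨k, hk⟩ := (IsPGroup.iff_card.mp R.2)
  apply mem_of_pow_of_coprime_index (m := Nat.card R) _ (pow_card_of_mem _ hu)
  rw [Subgroup.index_comap_of_surjective _ (QuotientGroup.mk'_surjective N), hidx, hk]
  apply Nat.Coprime.pow_left
  exact Nat.Coprime.coprime_dvd_left hr hcopFH

theorem SL {G : Type*} [Group G] [Finite G] (N : Subgroup G) [N.Normal]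
    (Fb Hb : Subgroup (G ⧸ N)) [Fb.Normal] (hHb : Cfsg.IsFrobeniusComplement Hb)
    (hker : Cfsg.frobeniusKernel Hb = (Fb : Set (G ⧸ N)))
    (hcop : (Nat.card Fb).Coprime (Nat.card N))
    (g0 : G) (hg0 : QuotientGroup.mk' N g0 ∈ Hb) (hg0o : orderOf (QuotientGroup.mk' N g0) = Nat.card Hb)
    (step0 : ∀ g : G, orderOf (QuotientGroup.mk' N g) = Nat.card Hb → g ^ Nat.card Hb = 1)
    (r : ℕ) [Fact r.Prime] (hr : r ∣ Nat.card Fb) (R : Sylow r G) (S : Subgroup G) (hSN : S ≤ N)
    (hSsol : Group.IsSolvable S) (hY : Subgroup.normalizer (S : Set G) ⊔ N = ⊤)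
    (hRY : (R : Subgroup G) ≤ Subgroup.normalizer (S : Set G)) :
    ∀ u ∈ (R : Subgroup G), ∀ v ∈ S, u * v * u⁻¹ = v := by
  obtain ⟨hidx, hcopFH⟩ := frob_card Fb Hb hHb hker
  have hFH := frob_inf Fb Hb hker
  set n := Nat.card Hb with hn
  set mk := QuotientGroup.mk' N with hmk
  set Y := Subgroup.normalizer (S : Set G) with hYdef
  set K := Fb.comap mk with hK
  have hRK : (R : Subgroup G) ≤ K := sylow_le_comap N Fb Hb hHb hker r hr R
  have hn1 : n ≠ 1 := by
    intro h
    exact hHb.1 (Subgroup.card_eq_one.mp h)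
  have hn0 : 0 < n := Nat.card_pos
  have hg01 : mk g0 ≠ 1 := by
    intro h
    rw [h, orderOf_one] at hg0o
    exact hn1 hg0o.symm
  obtain ⟨k, hk⟩ := (IsPGroup.iff_card.mp R.2)
  have hrN : (Nat.card R).Coprime (Nat.card N) := by
    rw [hk]
    apply Nat.Coprime.pow_left
    exact Nat.Coprime.coprime_dvd_left hr hcop
  have hRN : ∀ u ∈ (R : Subgroup G), u ∈ N → u = 1 := by
    intro u hu huN
    have h1 := pow_card_of_mem _ hu
    have h2 := pow_card_of_mem _ huN
    have h3 := pow_gcd_eq_one.mpr ⟨h1, h2⟩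
    rwa [Nat.Coprime.gcd_eq_one hrN, pow_one] at h3
  -- find h
  have hg0top : g0 ∈ Y ⊔ N := by rw [hY]; trivial
  obtain ⟨y, hy, u0, hu0, hyu⟩ := Subgroup.mem_sup_of_normal_right.mp hg0top
  have hRL : (R : Subgroup G) ≤ Y ⊓ K := le_inf hRY hRK
  have hyRL : ((y • R : Sylow r G) : Subgroup G) ≤ Y ⊓ K := by
    intro x hx
    rw [Sylow.coe_subgroup_smul, Cfsg.Agent.S0034.mem_conj_smul] at hx
    have hx' : x = y * (y⁻¹ * x * y) * y⁻¹ := by group
    rw [hx']
    refine ⟨Y.mul_mem (Y.mul_mem hy (hRY hx)) (Y.inv_mem hy), ?_⟩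
    exact (inferInstance : K.Normal).conj_mem _ (hRK hx) y
  obtain ⟨l, hl⟩ := MulAction.exists_smul_eq ↥(Y ⊓ K) (R.subtype hRL) ((y • R).subtype hyRL)
  rw [Sylow.smul_subtype] at hl
  have hl2 : l • R = y • R := Sylow.subtype_injective hl
  have hl3 : (l : G) • R = y • R := hl2
  obtain ⟨h, hh⟩ : ∃ h : G, h = (l : G)⁻¹ * y := ⟨_, rfl⟩
  have hhR : h • R = R := by
    rw [hh, mul_smul, ← hl3, inv_smul_smul]
  have hhN : h ∈ Subgroup.normalizer ((R : Subgroup G) : Set G) := Sylow.smul_eq_iff_mem_normalizer.mp hhR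
  have hhY : h ∈ Y := by
    rw [hh]; exact Y.mul_mem (Y.inv_mem l.2.1) hy
  have hmkh : mk h = (mk l)⁻¹ * mk g0 := by
    rw [hh, ← hyu, map_mul, map_mul, map_inv]
    have : mk u0 = 1 := (QuotientGroup.eq_one_iff u0).mpr hu0
    rw [this, mul_one]
  have hlF : (mk l)⁻¹ ∈ Fb := Fb.inv_mem l.2.2
  obtain ⟨c, hcF, hc⟩ := Cfsg.Agent.S3768.exists_conj_eq hHb Fb hFH hg0 hg01 hlF
  rw [← hmkh] at hc
  have hoh : orderOf (mk h) = n := by
    rw [hc, ← hg0o]
    exact (MulAut.conj c).orderOf_eq (mk g0)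
  have hcent : ∀ j, 0 < j → j < n → ∀ u ∈ (R : Subgroup G), u * h ^ j = h ^ j * u → u = 1 := by
    intro j hj0 hjn u hu hcomm
    apply hRN u hu
    rw [← QuotientGroup.eq_one_iff]
    have h1 : mk u * (mk h) ^ j = (mk h) ^ j * mk u := by
      rw [← map_pow, ← map_mul, ← map_mul, hcomm]
    rw [hc, conj_pow] at h1
    have h2 : (c⁻¹ * mk u * c) * (mk g0) ^ j = (mk g0) ^ j * (c⁻¹ * mk u * c) := by
      calc (c⁻¹ * mk u * c) * (mk g0) ^ j = c⁻¹ * (mk u * (c * mk g0 ^ j * c⁻¹)) * c := by group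
        _ = c⁻¹ * ((c * mk g0 ^ j * c⁻¹) * mk u) * c := by rw [h1]
        _ = (mk g0) ^ j * (c⁻¹ * mk u * c) := by group
    have h3 : (mk g0) ^ j ≠ 1 := pow_ne_one_of_lt_orderOf hj0.ne' (by rw [hg0o]; exact hjn)
    have h4 := Cfsg.Agent.S3768.mem_of_commute hHb (Hb.pow_mem hg0 j) h3 h2
    have h5 : c⁻¹ * mk u * c ∈ Fb := by
      have := (inferInstance : Fb.Normal).conj_mem _ (hRK hu) c⁻¹
      simpa using this
    have h6 : c⁻¹ * mk u * c ∈ Fb ⊓ Hb := ⟨h5, h4⟩
    rw [hFH, Subgroup.mem_bot] at h6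
    have h7 : mk u = c * (c⁻¹ * mk u * c) * c⁻¹ := by group
    rw [h6] at h7
    have h8 : mk u = 1 := by simpa using h7
    exact h8
  -- apply `centralizes` in `Y`
  have hSY : S ≤ Y := Subgroup.le_normalizer
  have hDn : (S.subgroupOf Y).Normal := Subgroup.normal_in_normalizer
  have hDs : Group.IsSolvable (S.subgroupOf Y) :=
    Group.isSolvable_of_isSolvable_injective (f := (Subgroup.subgroupOfEquivOfLe hSY).toMonoidHom)
      (Subgroup.subgroupOfEquivOfLe hSY).injective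
  have hcardD : Nat.card (S.subgroupOf Y) = Nat.card S :=
    Nat.card_congr (Subgroup.subgroupOfEquivOfLe hSY).toEquiv
  have hcardR : Nat.card ((R : Subgroup G).subgroupOf Y) = Nat.card R :=
    Nat.card_congr (Subgroup.subgroupOfEquivOfLe hRY).toEquiv
  have main := centralizes ((R : Subgroup G).subgroupOf Y) (⟨h, hhY⟩ : Y) n hn0
    (by
      intro u hu
      rw [Subgroup.mem_subgroupOf] at hu ⊢
      exact (Subgroup.mem_normalizer_iff.mp hhN _).mp hu)
    (by
      intro j hj0 hjn u hu hcomm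
      rw [Subgroup.mem_subgroupOf] at hu
      apply Subtype.ext
      exact hcent j hj0 hjn _ hu (congrArg Subtype.val hcomm))
    _ (S.subgroupOf Y) rfl hDn hDs
    (by
      rw [hcardD, hcardR]
      exact (Nat.Coprime.coprime_dvd_right (Subgroup.card_dvd_of_le hSN) hrN).symm)
    (by
      intro v hv
      rw [Subgroup.mem_subgroupOf] at hv
      apply Subtype.ext
      have h0 : mk (v : G) = 1 := (QuotientGroup.eq_one_iff (v : G)).mpr (hSN hv)
      have h1 : orderOf (mk ((v : G) * h)) = n := by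
        rw [map_mul, h0, one_mul, hoh]
      exact step0 _ h1)
  intro u hu v hv
  have := main ⟨u, hRY hu⟩ (Subgroup.mem_subgroupOf.mpr hu) ⟨v, hSY hv⟩ (Subgroup.mem_subgroupOf.mpr hv)
  exact congrArg Subtype.val this

theorem MC {G : Type*} [Group G] [Finite G] (N : Subgroup G) [hNn : N.Normal]
    (Fb Hb : Subgroup (G ⧸ N)) [Fb.Normal] (hHb : Cfsg.IsFrobeniusComplement Hb)
    (hker : Cfsg.frobeniusKernel Hb = (Fb : Set (G ⧸ N)))
    (hcop : (Nat.card Fb).Coprime (Nat.card N))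
    (g0 : G) (hg0 : QuotientGroup.mk' N g0 ∈ Hb) (hg0o : orderOf (QuotientGroup.mk' N g0) = Nat.card Hb)
    (step0 : ∀ g : G, orderOf (QuotientGroup.mk' N g) = Nat.card Hb → g ^ Nat.card Hb = 1)
    (r : ℕ) [hrp : Fact r.Prime] (hr : r ∣ Nat.card Fb) (R0 : Sylow r G) :
    (R0 : Subgroup G) ≤ Subgroup.centralizer (N : Set G) := by
  set CN := N ⊓ Subgroup.centralizer ((R0 : Subgroup G) : Set G) with hCN
  have key : CN.relIndex N = 1 := by
    by_contra hne
    obtain ⟨p, hp, hpd⟩ := Nat.exists_prime_and_dvd hne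
    have : Fact p.Prime := ⟨hp⟩
    let S : Sylow p N := default
    obtain ⟨SG, hSG⟩ : ∃ SG : Subgroup G, SG = (S : Subgroup N).map N.subtype := ⟨_, rfl⟩
    have hY := Sylow.normalizer_sup_eq_top S
    rw [← hSG] at hY
    have hidx := index_dvd_card_of_sup_eq_top _ N hY
    have hrN : ¬ r ∣ Nat.card N := by
      intro h
      have := Nat.dvd_gcd hr h
      rw [Nat.Coprime.gcd_eq_one hcop] at this
      exact hrp.out.one_lt.ne' (Nat.dvd_one.mp this)
    have hrY : ¬ r ∣ Nat.card (G ⧸ Subgroup.normalizer (SG : Set G)) := fun h => hrN (h.trans hidx)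
    obtain ⟨q, hq⟩ := R0.2.nonempty_fixed_point_of_prime_not_dvd_card
      (G ⧸ Subgroup.normalizer (SG : Set G)) hrY
    obtain ⟨g, rfl⟩ := QuotientGroup.mk_surjective q
    have hq' : ∀ x ∈ (R0 : Subgroup G), g⁻¹ * x * g ∈ Subgroup.normalizer (SG : Set G) := fun x hx =>
      (Cfsg.Agent.S0034.smul_coe_eq_iff _ x g).mp (hq ⟨x, hx⟩)
    obtain ⟨R, hR⟩ : ∃ R : Sylow r G, R = g⁻¹ • R0 := ⟨_, rfl⟩
    have hRmem : ∀ u, u ∈ (R : Subgroup G) ↔ g * u * g⁻¹ ∈ (R0 : Subgroup G) := by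
      intro u
      rw [hR, Sylow.coe_subgroup_smul, Cfsg.Agent.S0034.mem_conj_smul]
      simp
    have hRY : (R : Subgroup G) ≤ Subgroup.normalizer (SG : Set G) := by
      intro u hu
      have := hq' _ ((hRmem u).mp hu)
      convert this using 1
      group
    have hSN : SG ≤ N := by rw [hSG]; exact Subgroup.map_subtype_le _
    have hSp : IsPGroup p SG := by rw [hSG]; exact S.2.map _
    have hSnil : Group.IsNilpotent SG := hSp.isNilpotent
    have hSsol : Group.IsSolvable SG := inferInstance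
    have hc := SL N Fb Hb hHb hker hcop g0 hg0 hg0o step0 r hr R SG hSN hSsol hY hRY
    obtain ⟨S', hS'⟩ : ∃ S' : Subgroup G, S' = SG.map (MulAut.conj g).toMonoidHom := ⟨_, rfl⟩
    have hS'CN : S' ≤ CN := by
      rw [hS']
      rintro _ ⟨v, hv, rfl⟩
      refine Subgroup.mem_inf.mpr ⟨hNn.conj_mem v (hSN hv) g, ?_⟩
      rw [Subgroup.mem_centralizer_iff]
      intro x hx
      have hx' : g⁻¹ * x * g ∈ (R : Subgroup G) := by
        rw [hRmem]
        have e : g * (g⁻¹ * x * g) * g⁻¹ = x := by group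
        rw [e]
        exact hx
      have h1 := hc (g⁻¹ * x * g) hx' v hv
      have h2 : g⁻¹ * x * g * v = v * (g⁻¹ * x * g) := mul_inv_eq_iff_eq_mul.mp h1
      show x * (g * v * g⁻¹) = g * v * g⁻¹ * x
      calc x * (g * v * g⁻¹) = g * (g⁻¹ * x * g * v) * g⁻¹ := by group
        _ = g * (v * (g⁻¹ * x * g)) * g⁻¹ := by rw [h2]
        _ = g * v * g⁻¹ * x := by group
    have hS'N : S' ≤ N := hS'CN.trans inf_le_left
    have hcard : Nat.card S' = p ^ (Nat.card N).factorization p := by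
      rw [hS', Subgroup.card_map_of_injective (MulAut.conj g).injective, hSG,
        Subgroup.card_map_of_injective N.subtype_injective]
      exact S.card_eq_multiplicity
    have e1 := (S'.subgroupOf N).card_mul_index
    rw [Nat.card_congr (Subgroup.subgroupOfEquivOfLe hS'N).toEquiv, hcard] at e1
    have e2 : p ∣ (S'.subgroupOf N).index := hpd.trans (Subgroup.relIndex_dvd_of_le_left N hS'CN)
    apply Nat.pow_succ_factorization_not_dvd (n := Nat.card N) Nat.card_pos.ne' hp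
    rw [pow_succ]
    exact (Nat.mul_dvd_mul_left _ e2).trans (dvd_of_eq e1)
  rw [Subgroup.relIndex_eq_one] at key
  intro x hx
  rw [Subgroup.mem_centralizer_iff]
  intro v hv
  have h1 := (Subgroup.mem_inf.mp (key hv)).2
  rw [Subgroup.mem_centralizer_iff] at h1
  exact (h1 x hx).symm

theorem step0 {G : Type*} [Group G] [Finite G] (N : Subgroup G) [N.Normal] (n : ℕ) (hn : 0 < n)
    (hcon : ∀ p : ℕ, p.Prime → p ∣ Nat.card N → ∀ g : G, orderOf g ≠ p * n)
    (g : G) (hg : orderOf (QuotientGroup.mk' N g) = n) : g ^ n = 1 := by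
  by_contra hne
  have hzN : g ^ n ∈ N := by
    rw [← QuotientGroup.eq_one_iff]
    have : (QuotientGroup.mk' N g) ^ n = 1 := by rw [← hg]; exact pow_orderOf_eq_one _
    exact this
  have hm1 : orderOf (g ^ n) ≠ 1 := by
    intro h
    exact hne (orderOf_eq_one_iff.mp h)
  obtain ⟨p, hp, hpd⟩ := Nat.exists_prime_and_dvd hm1
  have hmN : orderOf (g ^ n) ∣ Nat.card N := by
    have := orderOf_dvd_natCard (⟨g ^ n, hzN⟩ : N)
    rwa [← Subgroup.orderOf_coe] at this
  have hnd : n ∣ orderOf g := hg ▸ orderOf_map_dvd (QuotientGroup.mk' N) g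
  have ho : orderOf (g ^ n) = orderOf g / n := orderOf_pow_of_dvd hn.ne' hnd
  obtain ⟨t, ht⟩ := hpd
  have hog : orderOf g = n * (p * t) := by
    rw [← ht, ho, Nat.mul_div_cancel' hnd]
  have ht0 : t ≠ 0 := by
    rintro rfl
    rw [mul_zero, mul_zero] at hog
    exact (orderOf_pos g).ne' hog
  apply hcon p hp ((Dvd.intro _ ht.symm).trans hmN) (g ^ t)
  rw [orderOf_pow_of_dvd ht0 (by rw [hog]; exact ⟨n * p, by ring⟩), hog]
  have : n * (p * t) = (p * n) * t := by ring
  rw [this, Nat.mul_div_cancel _ (Nat.pos_of_ne_zero ht0)]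

/-- Let N be a normal subgroup of the finite group G such that G/N is a Frobenius group with kernel F and cyclic complement H, where the order of F is coprime to that of N and F is not contained in the image of C_G(N) in G/N. Then G has an element of order p·#H for some prime p dividing the order of N. (A standard tool in recognising groups by their element orders.) -/
theorem result {G : Type*} [Group G] [Finite G] (N : Subgroup G) [N.Normal]
    (Fb Hb : Subgroup (G ⧸ N)) [Fb.Normal] (hHb : Cfsg.IsFrobeniusComplement Hb) (hker : Cfsg.frobeniusKernel Hb = (Fb : Set (G ⧸ N)))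
    (hcyc : IsCyclic Hb) (hcop : (Nat.card Fb).Coprime (Nat.card N))
    (hnot : ¬ Fb ≤ (Subgroup.centralizer (N : Set G)).map (QuotientGroup.mk' N)) :
    ∃ p : ℕ, p.Prime ∧ p ∣ Nat.card N ∧ ∃ g : G, orderOf g = p * Nat.card Hb := by
  by_contra hcon
  push Not at hcon
  have hs0 := step0 N (Nat.card Hb) Nat.card_pos hcon
  obtain ⟨g0b, hg0b⟩ := hcyc.exists_generator
  have hog0b : orderOf g0b = Nat.card Hb := orderOf_eq_card_of_forall_mem_zpowers hg0b
  obtain ⟨g0, hg0⟩ := QuotientGroup.mk'_surjective N (g0b : G ⧸ N)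
  have hg0H : QuotientGroup.mk' N g0 ∈ Hb := by rw [hg0]; exact g0b.2
  have hg0o : orderOf (QuotientGroup.mk' N g0) = Nat.card Hb := by
    rw [hg0, Subgroup.orderOf_coe, hog0b]
  apply hnot
  set E := (Subgroup.centralizer (N : Set G)).map (QuotientGroup.mk' N) ⊓ Fb with hE
  have key : E.relIndex Fb = 1 := by
    by_contra hne
    obtain ⟨r, hr, hrd⟩ := Nat.exists_prime_and_dvd hne
    have : Fact r.Prime := ⟨hr⟩
    have hrF : r ∣ Nat.card Fb := hrd.trans (Subgroup.relIndex_dvd_card _ _)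
    let R0 : Sylow r G := default
    have h1 := MC N Fb Hb hHb hker hcop g0 hg0H hg0o hs0 r hrF R0
    have h2 := sylow_le_comap N Fb Hb hHb hker r hrF R0
    have h3 : (R0 : Subgroup G).map (QuotientGroup.mk' N) ≤ E := by
      apply le_inf (Subgroup.map_mono h1)
      rw [Subgroup.map_le_iff_le_comap]
      exact h2
    have h4 : E.relIndex Fb ∣ E.index := ⟨_, (Subgroup.relIndex_mul_index inf_le_right).symm⟩
    have h5 : E.index ∣ (R0 : Subgroup G).index :=
      (Subgroup.index_dvd_of_le h3).trans (Subgroup.index_map_dvd _ (QuotientGroup.mk'_surjective N))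
    exact R0.not_dvd_index (hrd.trans (h4.trans h5))
  rw [Subgroup.relIndex_eq_one] at key
  exact key.trans inf_le_left

end Cfsg.Agent.S3703
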