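import Mathlib
import Cfsg.Agent.Lib.Helper4.SecondMainD
import Cfsg.Agent.S0923
import Cfsg.Agent.S0917
import Cfsg.Agent.S0912
import Cfsg.Statements.S0924

set_option autoImplicit false
open Cfsg

namespace Cfsg.Agent.S0924

/-- Let χ be an irreducible character of the finite group G and g ∈ G, and fix a maximal ideal M of the algebraic integers containing the prime p. If the p-part of g is contained in no defect group of the block of χ, then χ g = 0. -/
theorem result {G : Type*} [Group G] [Finite G] (p : ℕ) [Fact p.Prime] (M : Ideal Cfsg.AlgInt) (hM : Cfsg.IsPModular p M) (χ : Cfsg.IrrCharacter G) (g x : G) (hx : Cfsg.IsPPart p g x) (hD : ∀ D : Subgroup G, Cfsg.IsDefectGroup p M (Cfsg.blockOf M (χ : G → ℂ)) D → x ∉ D) : (χ : G → ℂ) g = 0 := by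
  classical
  haveI : Fintype G := Fintype.ofFinite G
  have hMp : M.IsPrime := hM.2.1.isPrime
  obtain ⟨y, hxy, hcomm, hxo, hyo⟩ := hx
  have hxC : x ∈ Subgroup.centralizer ({x} : Set G) := Subgroup.mem_centralizer_singleton_iff.2 rfl
  have hyC : y ∈ Subgroup.centralizer ({x} : Set G) :=
    Subgroup.mem_centralizer_singleton_iff.2 hcomm.symm.eq
  have hcl := Cfsg.Agent.S0923.twist_isClassFunction x (Cfsg.Agent.Lib.Helper78.irr_isClassFunction χ)
  have h1 := Cfsg.Agent.Lib.Helper4.blockPart_univ hcl ⟨y, hyC⟩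
  have h2 : (χ : G → ℂ) g = Cfsg.blockPart (Set.univ : Set (Cfsg.IrrCharacter (Subgroup.centralizer ({x} : Set G))))
      (fun c : Subgroup.centralizer ({x} : Set G) => (χ : G → ℂ) (x * (c : G))) ⟨y, hyC⟩ := by
    rw [h1, ← hxy]
  rw [h2, Cfsg.Agent.Lib.Helper4.blockPart_def]
  apply Cfsg.Agent.Lib.Helper4.finsum_union_blocks_eq_zero hMp
  · intro ψ _; exact Set.subset_univ _
  · intro ψ _
    rw [← Cfsg.Agent.Lib.Helper4.blockPart_def]
    apply Cfsg.Agent.S0923.result p M hM x hxo (Cfsg.blockOf M (χ : G → ℂ))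
      (Cfsg.Agent.Lib.Helper78.isPBlock_blockOf χ) χ (Cfsg.Agent.Lib.Helper78.mem_blockOf_self hMp χ)
      _ (Cfsg.Agent.Lib.Helper78.isPBlock_blockOf ψ)
    · intro hind
      obtain ⟨Db, hDb⟩ := Cfsg.Agent.Lib.Helper16.exists_isDefectGroup (p := p) hM
        (Cfsg.Agent.Lib.Helper78.isPBlock_blockOf (M := M) ψ)
      have hcore := Cfsg.Agent.S0912.result p M hM _ (Cfsg.Agent.Lib.Helper78.isPBlock_blockOf ψ) Db hDb
      obtain ⟨E, hE, hDE⟩ := Cfsg.Agent.S0917.result p M hM _ _
        (Cfsg.Agent.Lib.Helper78.isPBlock_blockOf ψ) _ (Cfsg.Agent.Lib.Helper78.isPBlock_blockOf χ)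
        hind Db hDb
      apply hD E hE
      apply hDE
      refine ⟨⟨x, hxC⟩, hcore ?_, rfl⟩
      -- `x` lies in the `p`-core of its centralizer
      have hle : Subgroup.zpowers (⟨x, hxC⟩ : Subgroup.centralizer ({x} : Set G))
          ≤ Cfsg.pCore p (Subgroup.centralizer ({x} : Set G)) := by
        apply le_sSup
        refine ⟨?_, ?_⟩
        · constructor
          rintro w ⟨j, rfl⟩ t
          have ht : Commute t (⟨x, hxC⟩ : Subgroup.centralizer ({x} : Set G)) := by
            apply Subtype.ext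
            exact Subgroup.mem_centralizer_singleton_iff.1 t.2
          have : t * (⟨x, hxC⟩ : Subgroup.centralizer ({x} : Set G)) ^ j * t⁻¹
              = (⟨x, hxC⟩ : Subgroup.centralizer ({x} : Set G)) ^ j := by
            rw [(ht.zpow_right j).eq]; group
          simp only
          rw [this]
          exact ⟨j, rfl⟩
        · obtain ⟨k, hk⟩ := hxo
          apply IsPGroup.of_card (n := k)
          rw [Nat.card_zpowers, ← hk, ← Subgroup.orderOf_coe]
      exact hle (Subgroup.mem_zpowers _)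
    · rw [← Subgroup.orderOf_coe]; exact hyo

end Cfsg.Agent.S0924
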