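import Cfsg.Statements.S4665
import Cfsg.Agent.Lib.Helper74.CharBasic

set_option autoImplicit false
open Cfsg

namespace Cfsg.Agent.S4665

open Cfsg.Agent.Lib.Helper74

/-- The sum of an irreducible character over a subgroup is the order of the subgroup times a natural number. -/
theorem sum_subgroup {G : Type*} [Group G] [Fintype G] (P : Subgroup G) [Fintype P] (ψ : IrrCharacter G) :
    ∃ m : ℕ, ∑ x : P, (ψ : G → ℂ) x = (Nat.card P : ℂ) * m := by
  have h1 : IsCharacter P (fun x : P => (ψ : G → ℂ) x) :=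
    IsCharacter.restrict (IrrCharacter.isCharacter ψ) P
  obtain ⟨m, hm⟩ := IsCharacter.classInner_irr_nat h1 ⟨fun _ => (1 : ℂ), isIrrCharacter_one⟩
  refine ⟨m, ?_⟩
  rw [← hm]
  unfold classInner
  have hne : (Nat.card P : ℂ) ≠ 0 := by
    exact_mod_cast Nat.card_pos.ne'
  rw [← mul_assoc, mul_inv_cancel₀ hne, one_mul]
  simp

/-- Fix a prime p, a maximal ideal M of the algebraic integers containing p, and a p-block B of the finite group G, and let p^a be the p-part of the order of G. Let χ be an integer combination of the irreducible characters in B. If the function that agrees with χ on p-regular elements and vanishes on p-singular elements is again an integer combination of the irreducible characters in B, then p^a divides χ(1). -/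
theorem result {G : Type*} [Group G] [Fintype G] (p : ℕ) [Fact p.Prime] (M : Ideal Cfsg.AlgInt) (hM : Cfsg.IsPModular p M) (B : Set (Cfsg.IrrCharacter G)) (hB : Cfsg.IsPBlock M B) (χ : G → ℂ) (hχ : (∃ n : Cfsg.IrrCharacter G → ℤ, ∀ g : G, χ g = ∑ᶠ ψ ∈ B, (n ψ : ℂ) * (ψ : G → ℂ) g)) (h0 : (∃ n : Cfsg.IrrCharacter G → ℤ, ∀ g : G, Cfsg.pRegularPart p χ g = ∑ᶠ ψ ∈ B, (n ψ : ℂ) * (ψ : G → ℂ) g)) : ∃ k : ℤ, χ 1 = (p ^ (Nat.card G).factorization p : ℂ) * k := by
  classical
  obtain ⟨n, hn⟩ := h0
  have hp : p.Prime := Fact.out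
  obtain ⟨P⟩ : Nonempty (Sylow p G) := inferInstance
  have hPcard : Nat.card (P : Subgroup G) = p ^ (Nat.card G).factorization p := P.card_eq_multiplicity
  -- the sum of the p-regular part over P
  have h1 : ∑ x : (P : Subgroup G), pRegularPart p χ x = χ 1 := by
    rw [Finset.sum_eq_single (1 : (P : Subgroup G))]
    · unfold pRegularPart IsPRegular
      simp [hp.one_lt.ne', Nat.dvd_one]
    · intro x _ hx
      unfold pRegularPart IsPRegular
      rw [if_neg]
      rw [not_not]
      obtain ⟨k, hk⟩ := (IsPGroup.iff_orderOf.1 P.isPGroup') x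
      rw [Subgroup.orderOf_coe, hk]
      have hk0 : k ≠ 0 := by
        rintro rfl
        rw [pow_zero, orderOf_eq_one_iff] at hk
        exact hx hk
      exact dvd_pow_self p hk0
    · intro h; exact absurd (Finset.mem_univ _) h
  choose m hm using fun ψ : IrrCharacter G => sum_subgroup (P : Subgroup G) ψ
  have hfin : ∀ g : G, ∑ᶠ ψ ∈ B, (n ψ : ℂ) * (ψ : G → ℂ) g
      = ∑ ψ ∈ Finset.univ.filter (· ∈ B), (n ψ : ℂ) * (ψ : G → ℂ) g := by
    intro g
    rw [finsum_mem_eq_finite_toFinset_sum _ (Set.toFinite B)]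
    apply Finset.sum_congr _ (fun _ _ => rfl)
    ext ψ; simp
  refine ⟨∑ ψ ∈ Finset.univ.filter (· ∈ B), n ψ * (m ψ : ℤ), ?_⟩
  rw [← h1]
  simp_rw [hn, hfin]
  rw [Finset.sum_comm]
  simp_rw [← Finset.mul_sum, hm, hPcard]
  push_cast
  rw [Finset.mul_sum]
  apply Finset.sum_congr rfl
  intro ψ _
  ring

end Cfsg.Agent.S4665
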