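import Cfsg.Statements.S4666
import Cfsg.Agent.Lib.Helper97.BlockRank
import Cfsg.Agent.Lib.Helper78.RegInner2
import Cfsg.Agent.S0164
import Cfsg.Agent.Lib.Helper77.BlockBasic

set_option autoImplicit false
open Cfsg Cfsg.Agent.Lib.Helper77
open Cfsg

namespace Cfsg.Agent.S4666

/-- Fix a prime p and a maximal ideal M of the algebraic integers containing p, and a p-block B of the finite group G of defect d. For every integer combination χ of the irreducible characters in B, p^d times the function that agrees with χ on p-regular elements and vanishes elsewhere is again an integer combination of the irreducible characters in B. -/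
theorem result {G : Type*} [Group G] [Fintype G] (p : ℕ) [Fact p.Prime] (M : Ideal Cfsg.AlgInt) (hM : Cfsg.IsPModular p M) (B : Set (Cfsg.IrrCharacter G)) (hB : Cfsg.IsPBlock M B) (χ : G → ℂ) (hχ : (∃ n : Cfsg.IrrCharacter G → ℤ, ∀ g : G, χ g = ∑ᶠ ψ ∈ B, (n ψ : ℂ) * (ψ : G → ℂ) g)) : (∃ n : Cfsg.IrrCharacter G → ℤ, ∀ g : G, (p ^ Cfsg.blockDefect p B : ℂ) * Cfsg.pRegularPart p χ g = ∑ᶠ ψ ∈ B, (n ψ : ℂ) * (ψ : G → ℂ) g) := by
  classical
  have hp : p.Prime := hM.1
  have hMp := Cfsg.Agent.Lib.Helper78.pmod_isPrime hM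
  have hBr : Cfsg.Agent.Lib.Helper78.BrauerChar G :=
    fun θ hθ hE => Cfsg.Agent.S0164.result θ hθ hE
  have hBne := Cfsg.Agent.Lib.Helper78.IsPBlock.nonempty hMp hB
  set m := Cfsg.Agent.Lib.Helper78.minDeg p B with hm
  have hma : m ≤ (Nat.card G).factorization p := Cfsg.Agent.Lib.Helper78.minDeg_le_card hBne
  have hd : Cfsg.blockDefect p B + m = (Nat.card G).factorization p := by
    rw [Cfsg.Agent.Lib.Helper78.blockDefect_eq]; omega
  have hpm : ((p : ℂ) ^ m) ≠ 0 := pow_ne_zero _ (by exact_mod_cast hp.ne_zero)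
  -- the single character case
  have key : ∀ ψ : Cfsg.IrrCharacter G, ψ ∈ B → ∃ b : Cfsg.IrrCharacter G → ℤ, ∀ g : G,
      (p ^ Cfsg.blockDefect p B : ℂ) * Cfsg.pRegularPart p (ψ : G → ℂ) g =
        ∑ θ : Cfsg.IrrCharacter G, if θ ∈ B then (b θ : ℂ) * (θ : G → ℂ) g else 0 := by
    intro ψ hψ
    choose a ha using Cfsg.Agent.Lib.Helper78.exists_int_classInner_tilde hBr hp ψ
    have hdv : ∀ θ, ((p ^ m : ℕ) : ℤ) ∣ a θ := by
      intro θ
      refine dvd_trans ?_ (Cfsg.Agent.Lib.Helper78.pow_dvd_of_classInner_tilde hp ψ θ (ha θ))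
      exact_mod_cast pow_dvd_pow p (Cfsg.Agent.Lib.Helper78.minDeg_le hψ)
    choose b hb using hdv
    refine ⟨b, fun g => ?_⟩
    have h1 := Cfsg.Agent.Lib.Helper3.classFunction_expansion
      (Cfsg.Agent.Lib.Helper78.tilde_isClassFunction p
        (Cfsg.Agent.Lib.Helper78.irr_isClassFunction ψ))
    have h2 := congrFun h1 g
    rw [Finset.sum_apply] at h2
    have h3 : Cfsg.Agent.Lib.Helper78.tilde p (ψ : G → ℂ) g =
        (p : ℂ) ^ m * ((p ^ Cfsg.blockDefect p B : ℂ) * Cfsg.pRegularPart p (ψ : G → ℂ) g) := by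
      unfold Cfsg.Agent.Lib.Helper78.tilde
      by_cases hg : p ∣ orderOf g
      · rw [if_pos hg, Cfsg.Agent.Lib.Helper97.pRegularPart_of_sing _ hg]; simp
      · rw [if_neg hg, Cfsg.Agent.Lib.Helper97.pRegularPart_of_reg _ hg, ← hd]
        push_cast
        ring
    rw [h3] at h2
    apply mul_left_cancel₀ hpm
    rw [h2, Finset.mul_sum]
    refine Finset.sum_congr rfl fun θ _ => ?_
    rw [Pi.smul_apply, smul_eq_mul]
    by_cases hθ : θ ∈ B
    · rw [if_pos hθ, ha, hb]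
      push_cast
      ring
    · rw [if_neg hθ, Cfsg.Agent.Lib.Helper78.classInner_tilde_eq_zero hM hB hψ hθ]
      simp
  obtain ⟨n, hn⟩ := hχ
  have key' : ∀ ψ : Cfsg.IrrCharacter G, ∃ b : Cfsg.IrrCharacter G → ℤ, ψ ∈ B → ∀ g : G,
      (p ^ Cfsg.blockDefect p B : ℂ) * Cfsg.pRegularPart p (ψ : G → ℂ) g =
        ∑ θ : Cfsg.IrrCharacter G, if θ ∈ B then (b θ : ℂ) * (θ : G → ℂ) g else 0 := by
    intro ψ
    by_cases hψ : ψ ∈ B
    · obtain ⟨b, hb⟩ := key ψ hψ
      exact ⟨b, fun _ => hb⟩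
    · exact ⟨0, fun h => absurd h hψ⟩
  choose b hb using key'
  refine ⟨fun θ => ∑ ψ : Cfsg.IrrCharacter G, if ψ ∈ B then n ψ * b ψ θ else 0, fun g => ?_⟩
  rw [Cfsg.Agent.Lib.Helper78.finsum_mem_irr]
  have h4 : Cfsg.pRegularPart p χ g = ∑ ψ : Cfsg.IrrCharacter G,
      if ψ ∈ B then (n ψ : ℂ) * Cfsg.pRegularPart p (ψ : G → ℂ) g else 0 := by
    by_cases hg : p ∣ orderOf g
    · rw [Cfsg.Agent.Lib.Helper97.pRegularPart_of_sing _ hg]
      symm
      apply Finset.sum_eq_zero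
      intro ψ _
      rw [Cfsg.Agent.Lib.Helper97.pRegularPart_of_sing _ hg]; simp
    · rw [Cfsg.Agent.Lib.Helper97.pRegularPart_of_reg _ hg, hn,
        Cfsg.Agent.Lib.Helper78.finsum_mem_irr]
      refine Finset.sum_congr rfl fun ψ _ => ?_
      rw [Cfsg.Agent.Lib.Helper97.pRegularPart_of_reg _ hg]
  rw [h4, Finset.mul_sum]
  have h5 : ∀ ψ : Cfsg.IrrCharacter G,
      (p ^ Cfsg.blockDefect p B : ℂ) *
        (if ψ ∈ B then (n ψ : ℂ) * Cfsg.pRegularPart p (ψ : G → ℂ) g else 0) =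
      ∑ θ : Cfsg.IrrCharacter G, if θ ∈ B then
        ((if ψ ∈ B then n ψ * b ψ θ else 0 : ℤ) : ℂ) * (θ : G → ℂ) g else 0 := by
    intro ψ
    by_cases hψ : ψ ∈ B
    · simp only [if_pos hψ]
      rw [mul_left_comm, hb ψ hψ g, Finset.mul_sum]
      refine Finset.sum_congr rfl fun θ _ => ?_
      split_ifs
      · push_cast; ring
      · simp
    · simp [if_neg hψ]
  simp only [h5]
  rw [Finset.sum_comm]
  refine Finset.sum_congr rfl fun θ _ => ?_
  by_cases hθ : θ ∈ B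
  · simp only [if_pos hθ]
    rw [Int.cast_sum, Finset.sum_mul]
  · simp [if_neg hθ]

end Cfsg.Agent.S4666
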