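import Cfsg.Statements.S0189
import Cfsg.Agent.Lib.Helper74.CharBasic

set_option autoImplicit false
open Cfsg

namespace Cfsg.Agent.S0189

open Cfsg.Agent.Lib.Helper74

/-- If a complex character of a finite group vanishes at every non-identity element of a Sylow p-subgroup P, then |P| divides its degree. -/
theorem result {G : Type*} [Group G] [Finite G] (p : ℕ) [Fact p.Prime] (P : Sylow p G) (χ : G → ℂ) (hχ : Cfsg.IsCharacter G χ) (hvan : ∀ g : G, g ∈ P → g ≠ 1 → χ g = 0) : ∃ k : ℕ, χ 1 = (Nat.card P : ℂ) * k := by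
  classical
  have := Fintype.ofFinite (P : Subgroup G)
  obtain ⟨k, hk⟩ := IsCharacter.classInner_irr_nat (IsCharacter.restrict hχ (P : Subgroup G))
    ⟨fun _ => 1, isIrrCharacter_one⟩
  refine ⟨k, ?_⟩
  rw [← hk]
  unfold Cfsg.classInner
  have hc : (Nat.card (P : Subgroup G) : ℂ) ≠ 0 := by
    exact_mod_cast (Nat.card_pos (α := (P : Subgroup G))).ne'
  have hs : ∑ g : (P : Subgroup G), χ g * (starRingEnd ℂ) ((1 : ℂ)) = χ 1 := by
    rw [Finset.sum_eq_single (1 : (P : Subgroup G))]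
    · simp
    · intro g _ hg
      rw [hvan g g.2 (fun h => hg (Subtype.ext h)), zero_mul]
    · simp
  change χ 1 = (Nat.card (P : Subgroup G) : ℂ) * ((Nat.card (P : Subgroup G) : ℂ)⁻¹ * _)
  rw [hs, ← mul_assoc, mul_inv_cancel₀ hc, one_mul]

end Cfsg.Agent.S0189
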