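import Cfsg.Statements.S0292
import Mathlib
import Cfsg.Agent.Lib.Helper5.POmegaOrder
import Cfsg.Agent.S0286

set_option autoImplicit false
open Cfsg Cfsg.Agent.Lib.Helper5 Cfsg.Agent.Lib.Helper44 QuadraticMap

namespace Cfsg.Agent.S0292

/-- 2 |PΩ_{2m+1}(q)| = q^(m^2) prod_{i=1}^{m} (q^(2i) - 1), for q odd and m at least 3 (type B_m). -/
theorem result {F : Type*} [Field F] [Fintype F] {q : ℕ} (hF : Fintype.card F = q) (hodd : Odd q) (m : ℕ) (hm : 3 ≤ m) : 2 * Nat.card (Cfsg.POmega F (Cfsg.quadFormOdd m F)) = q ^ (m ^ 2) * ∏ i ∈ Finset.range m, (q ^ (2 * (i + 1)) - 1) := by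
  have h2 : (2 : F) ≠ 0 := two_ne_zero_of_odd_card (by rw [hF]; exact hodd)
  have hO := Cfsg.Agent.S0286.result hF hodd m
  have hmul := card_POmega_mul (F := F) (Cfsg.quadFormOdd m F)
  have hidx : (Cfsg.Omega F (Cfsg.quadFormOdd m F)).index = 4 := by
    have := index_Omega_odd h2 (oddQF m F) (oddQF_nondeg m F h2) (by simp; omega)
    rwa [oddQF_coe] at this
  have hZ : Nat.card (Subgroup.center (Cfsg.Omega F (Cfsg.quadFormOdd m F))) = 1 := by
    let i0 : Fin m := ⟨0, by omega⟩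
    have := card_center_Omega_eq_one (oddQF m F) (oddQF_nondeg m F h2)
      (e := Pi.single (Sum.inr (Sum.inl i0)) 1) (f := Pi.single (Sum.inr (Sum.inr i0)) 1)
      (w0 := Pi.single (Sum.inl ()) 1)
      (by rw [oddQF_apply]; simp)
      (by rw [oddQF_apply]; simp)
      (by rw [oddQF_polar_single_inl]; simp)
      (by rw [oddQF_apply]; simp)
      (by rw [oddQF_polar_single_inl]; simp)
      (by rw [oddQF_polar_single_inr]; simp)
      (Or.inr (by
        rintro ⟨g, hg, hg1⟩
        have hdet := det_eq_one_of_mem_Omega _ g hg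
        rw [hg1, Matrix.det_neg, Matrix.det_one, mul_one] at hdet
        have hc : Fintype.card (Unit ⊕ (Fin m ⊕ Fin m)) = 2 * m + 1 := by simp; ring
        rw [hc, pow_succ, pow_mul] at hdet
        simp at hdet
        apply h2
        linear_combination -hdet))
    rwa [oddQF_coe] at this
  rw [hidx, hZ, hO] at hmul
  have e : 2 * q ^ m ^ 2 * ∏ i ∈ Finset.range m, (q ^ (2 * (i + 1)) - 1)
      = 2 * (q ^ m ^ 2 * ∏ i ∈ Finset.range m, (q ^ (2 * (i + 1)) - 1)) := by ring
  rw [e] at hmul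
  omega

end Cfsg.Agent.S0292
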