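import Cfsg.Statements.S0112
import Mathlib

set_option autoImplicit false
open Cfsg

namespace Cfsg.Agent.S0112

open scoped commutatorElement IsMulCommutative

theorem card_lt_card_of_lt' {G : Type*} [Group G] [Finite G] {D E : Subgroup G} (h : D < E) :
    Nat.card D < Nat.card E := by
  by_contra hcon
  exact h.ne (Subgroup.eq_of_le_of_card_ge h.le (not_lt.mp hcon))

theorem card_comap_mk' {G : Type*} [Group G] [Finite G] (N : Subgroup G) [N.Normal]
    (K : Subgroup (G ⧸ N)) :
    Nat.card (K.comap (QuotientGroup.mk' N)) = Nat.card K * Nat.card N := by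
  have h1 := Subgroup.index_mul_card (K.comap (QuotientGroup.mk' N))
  have h2 := Subgroup.index_mul_card K
  have h3 : (K.comap (QuotientGroup.mk' N)).index = K.index :=
    Subgroup.index_comap_of_surjective K (QuotientGroup.mk'_surjective N)
  have h4 := Subgroup.card_eq_card_quotient_mul_card_subgroup N
  rw [h3, h4, ← h2, mul_assoc] at h1
  exact Nat.eq_of_mul_eq_mul_left (Nat.pos_of_ne_zero (Subgroup.index_ne_zero_of_finite)) h1

/-- The centralizer of `aZ` in `X/Z(X)` has order at most that of `C_X(a)`. -/
theorem card_centralizer_quotient_le {X : Type*} [Group X] [Finite X] (a : X) :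
    Nat.card (Subgroup.centralizer {(a : X ⧸ Subgroup.center X)}) ≤
      Nat.card (Subgroup.centralizer {a}) := by
  set Z := Subgroup.center X with hZ
  set C := Subgroup.centralizer {(a : X ⧸ Z)} with hC
  set D := C.comap (QuotientGroup.mk' Z) with hD
  have hmem : ∀ x : D, ⁅(x : X), a⁆ ∈ Z := by
    intro x
    have h1 : ((x : X) : X ⧸ Z) ∈ C := x.2
    rw [hC, Subgroup.mem_centralizer_singleton_iff] at h1
    rw [← QuotientGroup.eq_one_iff]
    have h2 : ((⁅(x : X), a⁆ : X) : X ⧸ Z) = ⁅((x : X) : X ⧸ Z), (a : X ⧸ Z)⁆ := by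
      simp [commutatorElement_def]
    rw [h2, commutatorElement_eq_one_iff_mul_comm]
    exact h1
  let φ : D →* Z :=
    { toFun := fun x => ⟨⁅(x : X), a⁆, hmem x⟩
      map_one' := by apply Subtype.ext; simp
      map_mul' := by
        intro x1 x2
        apply Subtype.ext
        change ⁅(x1 : X) * (x2 : X), a⁆ = ⁅(x1 : X), a⁆ * ⁅(x2 : X), a⁆
        have h3 : (x1 : X) * ⁅(x2 : X), a⁆ = ⁅(x2 : X), a⁆ * x1 :=
          (Subgroup.mem_center_iff.mp (hmem x2)) x1
        have h5 : ⁅(x1 : X), a⁆ * ⁅(x2 : X), a⁆ = ⁅(x2 : X), a⁆ * ⁅(x1 : X), a⁆ :=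
          (Subgroup.mem_center_iff.mp (hmem x2)) _
        have h4 : ⁅(x1 : X) * (x2 : X), a⁆ = ((x1 : X) * ⁅(x2 : X), a⁆) * (x1 : X)⁻¹ * ⁅(x1 : X), a⁆ := by
          simp only [commutatorElement_def]; group
        rw [h4, h3, h5]; group }
  have h1 : Nat.card φ.ker ≤ Nat.card (Subgroup.centralizer {a}) := by
    apply Nat.card_le_card_of_injective
      (fun x : φ.ker => (⟨((x : D) : X), by
        rw [Subgroup.mem_centralizer_singleton_iff]
        have h2 : φ (x : D) = 1 := x.2
        have h3 : ⁅((x : D) : X), a⁆ = 1 := congrArg Subtype.val h2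
        exact commutatorElement_eq_one_iff_mul_comm.mp h3⟩ : Subgroup.centralizer {a}))
    intro x y hxy
    apply Subtype.ext; apply Subtype.ext
    exact congrArg (fun z : Subgroup.centralizer {a} => (z : X)) hxy
  have h2 : Nat.card φ.ker * Nat.card φ.range = Nat.card D := by
    rw [← Subgroup.index_ker]; exact Subgroup.card_mul_index _
  have h3 : Nat.card φ.range ≤ Nat.card Z := Subgroup.card_le_card_group _
  have h4 : Nat.card D = Nat.card C * Nat.card Z := card_comap_mk' Z C
  have h5 : Nat.card C * Nat.card Z ≤ Nat.card (Subgroup.centralizer {a}) * Nat.card Z := by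
    rw [← h4, ← h2]
    exact Nat.mul_le_mul h1 h3
  exact Nat.le_of_mul_le_mul_right h5 Nat.card_pos

theorem aux {p : ℕ} [Fact p.Prime] (n : ℕ) : ∀ (X : Type*) [Group X] [Finite X],
    Nat.card X = p ^ (n + 2) → ∀ a : X, Nat.card (Subgroup.centralizer {a}) ≤ p ^ 2 →
    Group.nilpotencyClass X = n + 1 := by
  have hp : p.Prime := Fact.out
  induction n with
  | zero =>
    intro X _ _ hX a _
    have hPG : IsPGroup p X := IsPGroup.of_card hX
    haveI : Group.IsNilpotent X := hPG.isNilpotent
    haveI : Nontrivial X := by
      rw [← Finite.one_lt_card_iff_nontrivial, hX]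
      exact Nat.one_lt_pow (by omega) hp.one_lt
    rw [Group.nilpotencyClass_eq_quotient_center_plus_one]
    have hc := (IsPGroup.isMulCommutative_of_card_eq_prime_sq hX).is_comm.comm
    have : Subgroup.center X = ⊤ := by
      rw [eq_top_iff]
      intro x _
      rw [Subgroup.mem_center_iff]
      intro g
      exact hc g x
    have h2 : Subsingleton (X ⧸ Subgroup.center X) := by
      rw [this]; exact QuotientGroup.subsingleton_quotient_top
    rw [Group.nilpotencyClass_zero_iff_subsingleton.mpr h2]
  | succ n ih =>
    intro X _ _ hX a ha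
    have hPG : IsPGroup p X := IsPGroup.of_card hX
    haveI : Group.IsNilpotent X := hPG.isNilpotent
    haveI : Nontrivial X := by
      rw [← Finite.one_lt_card_iff_nontrivial, hX]
      exact Nat.one_lt_pow (by omega) hp.one_lt
    rw [Group.nilpotencyClass_eq_quotient_center_plus_one]
    have haZ : a ∉ Subgroup.center X := by
      intro h
      have : Subgroup.centralizer {a} = ⊤ := by
        rw [eq_top_iff]
        intro x _
        rw [Subgroup.mem_centralizer_singleton_iff]
        exact (Subgroup.mem_center_iff.mp h) x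
      rw [this, Subgroup.card_top, hX] at ha
      have := Nat.pow_le_pow_iff_right hp.one_lt |>.mp ha
      omega
    have hZlt : Subgroup.center X < Subgroup.centralizer {a} := by
      refine lt_of_le_of_ne (Subgroup.center_le_centralizer _) ?_
      intro h
      apply haZ
      rw [h, Subgroup.mem_centralizer_singleton_iff]
    have hZcard : Nat.card (Subgroup.center X) < p ^ 2 :=
      lt_of_lt_of_le (card_lt_card_of_lt' hZlt) ha
    haveI := hPG.center_nontrivial
    obtain ⟨j, hj⟩ := IsPGroup.iff_card.mp (hPG.to_subgroup (Subgroup.center X))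
    have hj1 : j = 1 := by
      have h1 : j < 2 := by
        rw [hj] at hZcard
        exact (Nat.pow_lt_pow_iff_right hp.one_lt).mp hZcard
      have h2 : j ≠ 0 := by
        rintro rfl
        rw [pow_zero] at hj
        have := Finite.one_lt_card_iff_nontrivial.mpr (inferInstance : Nontrivial (Subgroup.center X))
        omega
      omega
    rw [hj1, pow_one] at hj
    have hq : Nat.card (X ⧸ Subgroup.center X) = p ^ (n + 2) := by
      have h4 := Subgroup.card_eq_card_quotient_mul_card_subgroup (Subgroup.center X)
      rw [hX, hj, pow_succ] at h4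
      exact (Nat.eq_of_mul_eq_mul_right hp.pos h4).symm
    rw [ih (X ⧸ Subgroup.center X) hq (a : X ⧸ Subgroup.center X)
      ((card_centralizer_quotient_le a).trans ha)]

/-- A p-group with a self-centralizing subgroup of order p^2 is of maximal class. -/
theorem result {X : Type*} [Group X] [Finite X] {p : ℕ} [Fact p.Prime] (n : ℕ) (hX : Nat.card X = p ^ n) (A : Subgroup X) (hA : Nat.card A = p ^ 2) (hC : Subgroup.centralizer (A : Set X) = A) : Group.nilpotencyClass X = n - 1 := by
  have hp : p.Prime := Fact.out
  have hPG : IsPGroup p X := IsPGroup.of_card hX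
  have hn2 : 2 ≤ n := by
    have h1 : Nat.card A ∣ Nat.card X := Subgroup.card_subgroup_dvd_card A
    rw [hA, hX] at h1
    exact (Nat.pow_dvd_pow_iff_le_right hp.one_lt).mp h1
  obtain ⟨m, rfl⟩ : ∃ m, n = m + 2 := ⟨n - 2, by omega⟩
  have hgoal : m + 2 - 1 = m + 1 := by omega
  rw [hgoal]
  haveI : Nontrivial X := by
    rw [← Finite.one_lt_card_iff_nontrivial, hX]
    exact Nat.one_lt_pow (by omega) hp.one_lt
  by_cases hAtop : A = ⊤
  · apply aux m X hX 1
    rw [← hA, hAtop, Subgroup.card_top]
    exact Subgroup.card_le_card_group _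
  · have hZA : Subgroup.center X ≤ A := by
      rw [← hC]; exact Subgroup.center_le_centralizer _
    have hZne : Subgroup.center X ≠ A := by
      intro h
      apply hAtop
      rw [← hC, ← h, eq_top_iff]
      intro x _
      rw [Subgroup.mem_centralizer_iff]
      intro z hz
      exact ((Subgroup.mem_center_iff.mp hz) x).symm
    obtain ⟨a, haA, haZ⟩ := SetLike.exists_of_lt (lt_of_le_of_ne hZA hZne)
    apply aux m X hX a
    set K := Subgroup.zpowers a ⊔ Subgroup.center X with hK
    have hKA : K ≤ A := sup_le (by rw [Subgroup.zpowers_le]; exact haA) hZA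
    have hZK : Subgroup.center X < K := by
      refine lt_of_le_of_ne le_sup_right ?_
      intro h
      apply haZ
      rw [h]
      exact (le_sup_left : Subgroup.zpowers a ≤ K) (Subgroup.mem_zpowers a)
    haveI := hPG.center_nontrivial
    obtain ⟨i, hi⟩ := IsPGroup.iff_card.mp (hPG.to_subgroup (Subgroup.center X))
    obtain ⟨j, hj⟩ := IsPGroup.iff_card.mp (hPG.to_subgroup K)
    have hi0 : i ≠ 0 := by
      rintro rfl
      rw [pow_zero] at hi
      have := Finite.one_lt_card_iff_nontrivial.mpr (inferInstance : Nontrivial (Subgroup.center X))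
      omega
    have hij : i < j := by
      have := card_lt_card_of_lt' hZK
      rw [hi, hj] at this
      exact (Nat.pow_lt_pow_iff_right hp.one_lt).mp this
    have hKeq : K = A := by
      apply Subgroup.eq_of_le_of_card_ge hKA
      rw [hA, hj]
      exact Nat.pow_le_pow_right hp.pos (by omega)
    have hle : Subgroup.centralizer {a} ≤ A := by
      conv_rhs => rw [← hC, ← hKeq]
      intro x hx
      rw [Subgroup.mem_centralizer_singleton_iff] at hx
      have h1 : K ≤ Subgroup.centralizer {x} := by
        apply sup_le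
        · rw [Subgroup.zpowers_le, Subgroup.mem_centralizer_singleton_iff]
          exact hx.symm
        · exact Subgroup.center_le_centralizer _
      rw [Subgroup.mem_centralizer_iff]
      intro k hk
      have := h1 hk
      rw [Subgroup.mem_centralizer_singleton_iff] at this
      exact this
    rw [← hA]
    exact Subgroup.card_le_of_le hle

end Cfsg.Agent.S0112
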