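import Cfsg.Statements.S5892
import Cfsg.Agent.Lib.Helper41.Dickson.MaxOddSub

set_option autoImplicit false
set_option linter.style.haveILetI false
open Cfsg

namespace Cfsg.Agent.S5892

open Cfsg.Agent.Lib.Helper41 Cfsg.Agent.Lib.Helper41.Dickson

/-- Let F be a finite field of odd order q ≥ 5 and characteristic p, and let M be a maximal subgroup of PSL₂(F). Then one of the following holds: |M| = q(q − 1)/2 (the stabiliser of a point of the projective line); q ≥ 13 and M is dihedral of order q − 1; q ∉ {7, 9} and M is dihedral of order q + 1; q = q₀² and M ≅ PGL₂(F₀) with |F₀| = q₀; q = q₀^r for an odd prime r and M ≅ PSL₂(F₀) with |F₀| = q₀; q ≡ ±1 (mod 10) with q = p or q = p², p ≡ ±3 (mod 10), and M ≅ A₅; q = p ≡ ±3 (mod 8), q ≢ ±1 (mod 10), and M ≅ A₄; or q = p ≡ ±1 (mod 8) and M ≅ S₄. -/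
theorem result {F : Type*} [Field F] [Fintype F] (p : ℕ)
    [Fact p.Prime] [CharP F p] (hodd : Odd (Fintype.card F)) (h5 : 5 ≤ Fintype.card F)
    (M : Subgroup (Matrix.ProjectiveSpecialLinearGroup (Fin 2) F)) (hM : IsCoatom M) :
    2 * Nat.card M = Fintype.card F * (Fintype.card F - 1) ∨
    (13 ≤ Fintype.card F ∧ (∃ k : ℕ, 2 * k = Fintype.card F - 1 ∧ Nonempty (M ≃* DihedralGroup k))) ∨
    (Fintype.card F ≠ 7 ∧ Fintype.card F ≠ 9 ∧ (∃ k : ℕ, 2 * k = Fintype.card F + 1 ∧ Nonempty (M ≃* DihedralGroup k))) ∨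
    (∃ (F₀ : Type) (_ : Field F₀) (_ : Fintype F₀), Fintype.card F = Fintype.card F₀ ^ 2 ∧
        Nonempty (M ≃* Matrix.ProjGenLinGroup (Fin 2) F₀)) ∨
    (∃ (F₀ : Type) (_ : Field F₀) (_ : Fintype F₀) (r : ℕ), r.Prime ∧ Odd r ∧ Fintype.card F = Fintype.card F₀ ^ r ∧
        Nonempty (M ≃* Matrix.ProjectiveSpecialLinearGroup (Fin 2) F₀)) ∨
    ((Fintype.card F % 10 = 1 ∨ Fintype.card F % 10 = 9) ∧
        (Fintype.card F = p ∨ (Fintype.card F = p ^ 2 ∧ (p % 10 = 3 ∨ p % 10 = 7))) ∧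
        Nonempty (M ≃* alternatingGroup (Fin 5))) ∨
    (Fintype.card F = p ∧ (p % 8 = 3 ∨ p % 8 = 5) ∧ ¬ (p % 10 = 1 ∨ p % 10 = 9) ∧
        Nonempty (M ≃* alternatingGroup (Fin 4))) ∨
    (Fintype.card F = p ∧ (p % 8 = 1 ∨ p % 8 = 7) ∧ Nonempty (M ≃* Equiv.Perm (Fin 4))) := by
  classical
  have hp : p.Prime := Fact.out
  have hp2 := char_ne_two_of_odd p hodd
  have hgcd : Nat.gcd 2 (Fintype.card F - 1) = 2 := by
    obtain ⟨a, ha⟩ := hodd
    rw [ha]
    simp
  have hdih : ∀ c : Matrix.ProjectiveSpecialLinearGroup (Fin 2) F, c ^ p ≠ 1 →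
      (∀ g ∈ M, g * c * g⁻¹ ∈ Subgroup.zpowers c) →
      (13 ≤ Fintype.card F ∧ (∃ k : ℕ, 2 * k = Fintype.card F - 1 ∧
        Nonempty (M ≃* DihedralGroup k))) ∨
      (Fintype.card F ≠ 7 ∧ Fintype.card F ≠ 9 ∧ (∃ k : ℕ, 2 * k = Fintype.card F + 1 ∧
        Nonempty (M ≃* DihedralGroup k))) := by
    intro c hc hn
    obtain ⟨k, hk, ⟨he⟩⟩ := dihedral_of_normal_cyclic p (by omega) M hM c hc hn
    rw [hgcd] at hk
    have hex := dihedral_excl hodd h5 M hM k he
    rcases hk with hk | hk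
    · exact Or.inl ⟨hex.1 hk, k, hk, ⟨he⟩⟩
    · exact Or.inr ⟨(hex.2 hk).1, (hex.2 hk).2, k, hk, ⟨he⟩⟩
  have hcyc : IsCyclic M → 2 * Nat.card M = Fintype.card F * (Fintype.card F - 1) ∨
      (13 ≤ Fintype.card F ∧ (∃ k : ℕ, 2 * k = Fintype.card F - 1 ∧
        Nonempty (M ≃* DihedralGroup k))) ∨
      (Fintype.card F ≠ 7 ∧ Fintype.card F ≠ 9 ∧ (∃ k : ℕ, 2 * k = Fintype.card F + 1 ∧
        Nonempty (M ≃* DihedralGroup k))) := by
    intro hcyc
    obtain ⟨c, hgen⟩ := IsCyclic.exists_generator (α := M)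
    have hpow : ∀ g ∈ M, ∃ n : ℤ, g = (c : Matrix.ProjectiveSpecialLinearGroup (Fin 2) F) ^ n := by
      intro g hg
      obtain ⟨n, hn⟩ := Subgroup.mem_zpowers_iff.1 (hgen ⟨g, hg⟩)
      refine ⟨n, ?_⟩
      have := congrArg Subtype.val hn
      simpa using this.symm
    by_cases hc : (c : Matrix.ProjectiveSpecialLinearGroup (Fin 2) F) ^ p = 1
    · left
      have h1 : IsPGroup p M := by
        rintro ⟨g, hg⟩
        refine ⟨1, Subtype.ext ?_⟩
        obtain ⟨n, rfl⟩ := hpow g hg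
        simp only [pow_one, Subgroup.coe_pow, Subgroup.coe_one]
        rw [← zpow_natCast, ← zpow_mul, mul_comm, zpow_mul, zpow_natCast, hc, one_zpow]
      have := card_of_pgroup p M hM h1
      rwa [hgcd] at this
    · right
      apply hdih _ hc
      intro g hg
      obtain ⟨n, rfl⟩ := hpow g hg
      refine ⟨1, ?_⟩
      simp only [zpow_one]
      rw [← zpow_add_one, add_comm, zpow_one_add, mul_assoc, mul_inv_cancel, mul_one]
  rcases dickson_card p M with ⟨hcy, -⟩ | ⟨k, hkd, ⟨e⟩, hkc⟩ | ⟨P, hP⟩ | ⟨⟨e⟩, -⟩ | ⟨⟨e⟩, -⟩ |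
    ⟨⟨e⟩, -⟩ | ⟨K, m, hm, hqm, hK2, hK⟩
  · -- cyclic
    rcases hcyc hcy with h | h | h
    · exact Or.inl h
    · exact Or.inr (Or.inl h)
    · exact Or.inr (Or.inr (Or.inl h))
  · -- dihedral
    set c : M := e.symm (DihedralGroup.r 1) with hcdef
    by_cases hc : (c : Matrix.ProjectiveSpecialLinearGroup (Fin 2) F) ^ p = 1
    · -- then `k = 1` and `M` is cyclic of order two
      have hck : orderOf c = k := by
        rw [hcdef, e.symm.orderOf_eq, DihedralGroup.orderOf_r_one]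
      have hkp : k ∣ p := by
        rw [← hck, ← Subgroup.orderOf_coe]
        exact orderOf_dvd_of_pow_eq_one hc
      have hk1 : k = 1 := by
        rcases (Nat.dvd_prime hp).1 hkp with h | h
        · exact h
        · exfalso
          subst h
          obtain ⟨n, -, hn⟩ := FiniteField.card F k
          have hkq : k ∣ Fintype.card F := by rw [hn]; exact dvd_pow_self k n.pos.ne'
          have h1 : k ∣ 1 := by
            rcases hkd with h | h
            · have h3 : k ∣ Fintype.card F - 1 := (Dvd.intro_left _ rfl).trans h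
              have := Nat.dvd_sub hkq h3
              rwa [Nat.sub_sub_self (by omega)] at this
            · have h3 : k ∣ Fintype.card F + 1 := (Dvd.intro_left _ rfl).trans h
              have := Nat.dvd_sub h3 hkq
              rwa [Nat.add_sub_cancel_left] at this
          exact hp.one_lt.ne' (Nat.dvd_one.1 h1)
      haveI : Fact (Nat.Prime 2) := ⟨by norm_num⟩
      have hcy : IsCyclic M := isCyclic_of_prime_card (p := 2) (by rw [hkc, hk1])
      rcases hcyc hcy with h | h | h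
      · exact Or.inl h
      · exact Or.inr (Or.inl h)
      · exact Or.inr (Or.inr (Or.inl h))
    · have := hdih _ hc (by
        intro g hg
        obtain ⟨n, hn⟩ := dihedral_conj_r k (e ⟨g, hg⟩)
        refine ⟨n, ?_⟩
        have h1 : c ^ n = ⟨g, hg⟩ * c * (⟨g, hg⟩ : M)⁻¹ := by
          apply e.injective
          rw [map_zpow, map_mul, map_mul, map_inv, hcdef, e.apply_symm_apply]
          exact hn
        have := congrArg Subtype.val h1
        simpa using this)
      rcases this with h | h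
      · exact Or.inr (Or.inl h)
      · exact Or.inr (Or.inr (Or.inl h))
  · left
    have := card_of_le_normalizer p M hM P hP
    rwa [hgcd] at this
  · rcases alt_four_case p hodd h5 M hM e with h | h
    · exact Or.inr (Or.inr (Or.inr (Or.inr (Or.inl h))))
    · exact Or.inr (Or.inr (Or.inr (Or.inr (Or.inr (Or.inr (Or.inl h))))))
  · rcases perm_four_case p hodd h5 M hM e with h | h
    · exact Or.inr (Or.inr (Or.inr (Or.inl h)))
    · exact Or.inr (Or.inr (Or.inr (Or.inr (Or.inr (Or.inr (Or.inr h))))))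
  · rcases alt_five_case p hodd h5 M hM e with h | h
    · exact Or.inr (Or.inr (Or.inr (Or.inr (Or.inl h))))
    · exact Or.inr (Or.inr (Or.inr (Or.inr (Or.inr (Or.inl h)))))
  · rcases hK with ⟨⟨e⟩, hc⟩ | ⟨⟨e⟩, hc⟩
    · rw [hgcd] at hc
      exact Or.inr (Or.inr (Or.inr (Or.inr (Or.inl (psl_sub_case p hodd h5 M hM K m hm hqm e hc)))))
    · exact Or.inr (Or.inr (Or.inr (Or.inl (pgl_sub_case p hodd M hM K m hm hqm e hc))))

end Cfsg.Agent.S5892
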