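import Mathlib
import Cfsg.Statements.S0006
import Cfsg.Agent.S0144
import Cfsg.Agent.Lib.Helper1.MinimalNormal
import Cfsg.Agent.Lib.Helper1.Tools
import Cfsg.Agent.Lib.Helper91.Fitting
-- import your own Cfsg.Agent.* helpers here

set_option autoImplicit false
open Cfsg

namespace Cfsg.Agent.S0006


universe u

/-- `G` has a `p`-complement for every prime `p`. -/
def HC (G : Type*) [Group G] : Prop :=
  ∀ p : ℕ, p.Prime → ∃ H : Subgroup G, (Nat.card H).Coprime p ∧ ∃ k : ℕ, H.index = p ^ k

theorem relIndex_eq_of_coprime {G : Type*} [Group G] [Finite G] {H K : Subgroup G}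
    (h : (H.index).Coprime K.index) : K.relIndex H = K.index := by
  have h1 : (H ⊓ K).index ≤ H.index * K.index := Subgroup.index_inf_le
  have h2 : H.index ∣ (H ⊓ K).index := Subgroup.index_dvd_of_le inf_le_left
  have h3 : K.index ∣ (H ⊓ K).index := Subgroup.index_dvd_of_le inf_le_right
  have h4 : H.index * K.index ∣ (H ⊓ K).index := h.mul_dvd_of_dvd_of_dvd h2 h3
  have h0 : 0 < (H ⊓ K).index := Nat.pos_of_ne_zero Subgroup.index_ne_zero_of_finite
  have h5 : (H ⊓ K).index = H.index * K.index := le_antisymm h1 (Nat.le_of_dvd h0 h4)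
  have h6 : (H ⊓ K).relIndex H * H.index = (H ⊓ K).index := Subgroup.relIndex_mul_index inf_le_left
  rw [Subgroup.inf_relIndex_left, h5, mul_comm] at h6
  exact Nat.eq_of_mul_eq_mul_left (Nat.pos_of_ne_zero Subgroup.index_ne_zero_of_finite) h6

theorem card_subgroupOf_dvd {G : Type*} [Group G] (K H : Subgroup G) :
    Nat.card (K.subgroupOf H) ∣ Nat.card K := by
  have h1 : Nat.card ((K.subgroupOf H).map H.subtype) = Nat.card (K.subgroupOf H) :=
    Subgroup.card_map_of_injective H.subtype_injective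
  rw [← h1, Subgroup.subgroupOf_map_subtype]
  exact Subgroup.card_dvd_of_le inf_le_left

theorem HC.subgroup {G : Type*} [Group G] [Finite G] (hG : HC G) {p k : ℕ} (hp : p.Prime)
    (H : Subgroup G) (hc : (Nat.card H).Coprime p) (hk : H.index = p ^ k) : HC H := by
  intro r hr
  by_cases hrp : r = p
  · subst hrp
    refine ⟨⊤, ?_, 0, ?_⟩
    · rw [Subgroup.card_top]; exact hc
    · rw [Subgroup.index_top, pow_zero]
  · obtain ⟨K, hKc, l, hKl⟩ := hG r hr
    refine ⟨K.subgroupOf H, Nat.Coprime.coprime_dvd_left (card_subgroupOf_dvd K H) hKc, l, ?_⟩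
    have hcop : (H.index).Coprime K.index := by
      rw [hk, hKl]
      exact Nat.Coprime.pow _ _ ((Nat.coprime_primes hp hr).2 (Ne.symm hrp))
    have := relIndex_eq_of_coprime hcop
    rw [hKl] at this
    exact this

theorem HC.quotient {G : Type*} [Group G] [Finite G] (hG : HC G) (M : Subgroup G) [M.Normal] :
    HC (G ⧸ M) := by
  intro r hr
  obtain ⟨K, hKc, l, hKl⟩ := hG r hr
  refine ⟨K.map (QuotientGroup.mk' M), ?_, ?_⟩
  · exact Nat.Coprime.coprime_dvd_left (Subgroup.card_map_dvd K _) hKc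
  · have h1 : (K.map (QuotientGroup.mk' M)).index ∣ K.index :=
      Subgroup.index_map_dvd K (QuotientGroup.mk'_surjective M)
    rw [hKl] at h1
    obtain ⟨j, -, hj⟩ := (Nat.dvd_prime_pow hr).1 h1
    exact ⟨j, hj⟩

/-- a normal `q`-subgroup of `H` lies in every subgroup `K` of `G` whose index is coprime to `q` and to the
index of `H`. -/
theorem map_le_of_coprime {G : Type*} [Group G] [Finite G] {q : ℕ} (hq : q.Prime) (H K : Subgroup G)
    (N : Subgroup H) [N.Normal] (hN : IsPGroup q N) (h1 : (H.index).Coprime K.index)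
    (h2 : (K.index).Coprime q) : N.map H.subtype ≤ K := by
  have e1 : (K.subgroupOf H).index = K.index := relIndex_eq_of_coprime h1
  have e2 : (K.subgroupOf H).relIndex N ∣ (K.subgroupOf H).index :=
    Cfsg.Agent.Lib.Helper91.relIndex_dvd_index_of_normal_right _ _
  have e3 : (K.subgroupOf H).relIndex N ∣ Nat.card N := Subgroup.relIndex_dvd_card _ _
  have := Fact.mk hq
  obtain ⟨m, hm⟩ := IsPGroup.iff_card.1 hN
  rw [e1] at e2
  rw [hm] at e3
  have e4 : (K.subgroupOf H).relIndex N = 1 :=
    Nat.eq_one_of_dvd_coprimes (Nat.Coprime.pow_right m h2) e2 e3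
  have e5 : N ≤ K.subgroupOf H := Subgroup.relIndex_eq_one.1 e4
  rintro _ ⟨x, hx, rfl⟩
  exact Subgroup.mem_subgroupOf.1 (e5 hx)

theorem main (n : ℕ) : ∀ (G : Type u) [Group G] [Finite G], Nat.card G = n → HC G →
    Group.IsSolvable G := by
  induction n using Nat.strong_induction_on with
  | _ n ih =>
  intro G _ _ hn hG
  by_cases htriv : Subsingleton G
  · infer_instance
  have hnt : Nontrivial G := not_subsingleton_iff_nontrivial.1 htriv
  have hcard1 : Nat.card G ≠ 1 := by
    intro h
    exact htriv (Nat.card_eq_one_iff_unique.1 h).1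
  obtain ⟨p, hp, hpd⟩ := Nat.exists_prime_and_dvd hcard1
  -- every complement for a prime divisor is a proper solvable subgroup
  have hcompl : ∀ (r : ℕ), r.Prime → r ∣ Nat.card G → ∀ (K : Subgroup G) (l : ℕ),
      (Nat.card K).Coprime r → K.index = r ^ l → K ≠ ⊤ ∧ Group.IsSolvable K := by
    intro r hr hrd K l hKc hKl
    have hne : K ≠ ⊤ := by
      rintro rfl
      rw [Subgroup.card_top] at hKc
      exact hr.one_lt.ne' (Nat.Coprime.eq_one_of_dvd hKc.symm hrd)
    refine ⟨hne, ?_⟩
    exact ih (Nat.card K) (hn ▸ Cfsg.Agent.Lib.Helper1.card_subgroup_lt_of_ne_top hne) K rfl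
      (hG.subgroup hr K hKc hKl)
  obtain ⟨H, hHc, k, hHk⟩ := hG p hp
  obtain ⟨hHne, hHsol⟩ := hcompl p hp hpd H k hHc hHk
  by_cases hHb : H = ⊥
  · apply Cfsg.Agent.S0144.result p p k 0 hp hp
    rw [pow_zero, mul_one, ← hHk, hHb, Subgroup.index_bot]
  have hHnt : Nontrivial H := (Subgroup.nontrivial_iff_ne_bot H).2 hHb
  obtain ⟨q, N, hq, hNn, hNne, hNq, -, -⟩ :=
    Cfsg.Agent.Lib.Helper1.exists_normal_pSubgroup_of_solvable (G := H)
  by_cases hr : ∃ r : ℕ, r.Prime ∧ r ∣ Nat.card G ∧ r ≠ p ∧ r ≠ q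
  · obtain ⟨r, hr, hrd, hrp, hrq⟩ := hr
    obtain ⟨K, hKc, l, hKl⟩ := hG r hr
    obtain ⟨hKne, hKsol⟩ := hcompl r hr hrd K l hKc hKl
    set M := K.normalCore with hM
    have hMK : M ≤ K := Subgroup.normalCore_le K
    have hNM : N.map H.subtype ≤ M := by
      intro x hx b
      let K' : Subgroup G := K.comap (MulAut.conj b).toMonoidHom
      have hK' : K'.index = K.index :=
        Subgroup.index_comap_of_surjective K (MulAut.conj b).surjective
      have h1 : (H.index).Coprime K'.index := by
        rw [hK', hHk, hKl]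
        exact Nat.Coprime.pow _ _ ((Nat.coprime_primes hp hr).2 (Ne.symm hrp))
      have h2 : (K'.index).Coprime q := by
        rw [hK', hKl]
        exact Nat.Coprime.pow_left _ ((Nat.coprime_primes hr hq).2 hrq)
      have := map_le_of_coprime hq H K' N hNq h1 h2 hx
      simpa [K', Subgroup.mem_comap] using this
    have hMne : M ≠ ⊥ := by
      intro h
      rw [h, le_bot_iff, Subgroup.map_eq_bot_iff_of_injective _ H.subtype_injective] at hNM
      exact hNne hNM
    have hMsol : Group.IsSolvable M := Cfsg.Agent.Lib.Helper1.isSolvable_of_le hMK hKsol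
    have hQsol : Group.IsSolvable (G ⧸ M) :=
      ih (Nat.card (G ⧸ M)) (hn ▸ Cfsg.Agent.Lib.Helper1.card_quotient_lt_of_ne_bot hMne) (G ⧸ M) rfl
        (hG.quotient M)
    exact Group.isSolvable_of_ker_le_range M.subtype (QuotientGroup.mk' M) (by simp)
  · push Not at hr
    obtain ⟨K, hKc, l, hKl⟩ := hG q hq
    have h1 : Nat.card K = p ^ (Nat.card K).primeFactorsList.length := by
      apply Nat.eq_prime_pow_of_unique_prime_dvd Nat.card_pos.ne'
      intro d hd hdK
      by_contra hdp
      have := hr d hd (hdK.trans (Subgroup.card_subgroup_dvd_card K)) hdp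
      subst this
      exact hd.one_lt.ne' (Nat.Coprime.eq_one_of_dvd hKc.symm hdK)
    apply Cfsg.Agent.S0144.result p q _ l hp hq
    rw [← K.card_mul_index, hKl, ← h1]

/-- Converse of Hall's Theorem: if for every prime p a finite group has a subgroup of index equal to the p-part of the group order (a Hall p-complement), then the group is solvable. -/
theorem result {G : Type*} [Group G] [Finite G]
    (h : ∀ p : ℕ, p.Prime → ∃ H : Subgroup G, H.index = p ^ (Nat.card G).factorization p) :
    Group.IsSolvable G := by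
  apply main (Nat.card G) G rfl
  intro p hp
  obtain ⟨H, hH⟩ := h p hp
  refine ⟨H, ?_, _, hH⟩
  have h1 : Nat.card H * H.index = Nat.card G := H.card_mul_index
  have h2 : Nat.card H = Nat.card G / p ^ (Nat.card G).factorization p := by
    rw [← hH, ← h1, Nat.mul_div_cancel _ (Nat.pos_of_ne_zero Subgroup.index_ne_zero_of_finite)]
  rw [h2]
  exact (Nat.coprime_ordCompl hp Nat.card_pos.ne').symm

end Cfsg.Agent.S0006
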