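import Cfsg.Statements.S0015
import Mathlib
import Cfsg.Agent.Lib.Helper1.Nilpotent

set_option autoImplicit false
open Cfsg

namespace Cfsg.Agent.S0015


/-- In a finite nilpotent group, an abelian normal subgroup that is maximal among abelian normal subgroups equals its own centralizer. -/
theorem result {G : Type*} [Group G] [Finite G] [Group.IsNilpotent G]
    (N : Subgroup G) [N.Normal] [IsMulCommutative N]
    (hmax : ∀ M : Subgroup G, M.Normal → IsMulCommutative M → N ≤ M → M = N) :
    Subgroup.centralizer (N : Set G) = N := by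
  have hNC : N ≤ Subgroup.centralizer (N : Set G) :=
    Subgroup.le_centralizer_iff_isMulCommutative.2 inferInstance
  by_contra hne
  set C := Subgroup.centralizer (N : Set G) with hC
  let f := QuotientGroup.mk' N
  have hf : Function.Surjective f := QuotientGroup.mk'_surjective N
  have hker : f.ker = N := QuotientGroup.ker_mk' N
  have hCn : (C.map f).Normal := Subgroup.Normal.map inferInstance f hf
  have hCne : C.map f ≠ ⊥ := by
    intro h
    rw [Subgroup.map_eq_bot_iff, hker] at h
    exact hne (le_antisymm h hNC)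
  obtain ⟨⟨x', hx'⟩, hx1'⟩ := Subgroup.ne_bot_iff_exists_ne_one.1
    (Cfsg.Agent.Lib.Helper1.normal_inf_center_ne_bot hCne)
  have hx1 : x' ≠ 1 := fun h1 => hx1' (Subtype.ext h1)
  obtain ⟨⟨x, hxC, rfl⟩, hxZ⟩ := hx'
  have hxN : x ∉ N := fun h => hx1 ((QuotientGroup.eq_one_iff x).2 h)
  let M : Subgroup G := N ⊔ Subgroup.zpowers x
  have hMn : M.Normal := by
    have h1 : M = (Subgroup.zpowers (f x)).comap f := by
      rw [← MonoidHom.map_zpowers, Subgroup.comap_map_eq, hker, sup_comm]
    rw [h1]
    have h2 : (Subgroup.zpowers (f x)).Normal :=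
      Cfsg.Agent.Lib.Helper1.normal_of_le_center (by rw [Subgroup.zpowers_le]; exact hxZ)
    exact h2.comap f
  have hzC : Subgroup.zpowers x ≤ C := by rw [Subgroup.zpowers_le]; exact hxC
  have hMc : IsMulCommutative M := by
    refine ⟨⟨?_⟩⟩
    rintro ⟨a, ha⟩ ⟨b, hb⟩
    apply Subtype.ext
    change a * b = b * a
    rw [Subgroup.mem_sup_of_normal_left] at ha hb
    obtain ⟨n, hn, z, hz, rfl⟩ := ha
    obtain ⟨n', hn', z', hz', rfl⟩ := hb
    have c1 : Commute n n' := (Subgroup.mem_centralizer_iff.1 (hNC hn') n hn)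
    have c2 : Commute n z' := (Subgroup.mem_centralizer_iff.1 (hzC hz') n hn)
    have c3 : Commute z n' := (Subgroup.mem_centralizer_iff.1 (hzC hz) n' hn').symm
    have c4 : Commute z z' := by
      obtain ⟨i, rfl⟩ := hz
      obtain ⟨j, rfl⟩ := hz'
      exact (Commute.refl x).zpow_zpow i j
    exact ((c1.mul_right c2).mul_left (c3.mul_right c4)).eq
  have h1 := hmax M hMn hMc le_sup_left
  apply hxN
  rw [← h1]
  exact Subgroup.mem_sup_right (Subgroup.mem_zpowers x)

end Cfsg.Agent.S0015
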