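import Cfsg.Statements.S0095
import Cfsg.Agent.Lib.Helper2.Pairing

set_option autoImplicit false
open Cfsg

namespace Cfsg.Agent.S0095

open scoped commutatorElement IsMulCommutative
open Cfsg.Agent.Lib.Helper2

/-- The order of an extraspecial p-group is an odd power p^(2n+1) of p with n ≥ 1. -/
theorem result {P : Type*} [Group P] [Finite P] {p : ℕ} [Fact p.Prime] (h : Cfsg.IsExtraspecial p P) : ∃ n : ℕ, 1 ≤ n ∧ Nat.card P = p ^ (2 * n + 1) := by
  have hp : p.Prime := Fact.out
  obtain ⟨⟨hP, _, hcomm⟩, hcard⟩ := h
  haveI : IsCyclic (Subgroup.center P) := isCyclic_of_prime_card hcard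
  have hc : ∀ x y : P, ⁅x, y⁆ ∈ Subgroup.center P := by
    intro x y
    rw [← hcomm, commutator_def]
    exact Subgroup.commutator_mem_commutator (Subgroup.mem_top x) (Subgroup.mem_top y)
  obtain ⟨A, hA⟩ := (Set.toFinite {A : Subgroup P | IsMulCommutative A}).exists_maximal
    ⟨⊥, (inferInstance : IsMulCommutative (⊥ : Subgroup P))⟩
  have hCA : Subgroup.centralizer (A : Set P) = A := centralizer_eq_of_maximal_abelian hA
  have hZA : Subgroup.center P ≤ A := by
    rw [← hCA]; exact Subgroup.center_le_centralizer _
  let β : A →* (P →* Subgroup.center P) := (commPair hc).comp A.subtype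
  have hker : β.ker = (Subgroup.center P).subgroupOf A := by
    ext a
    rw [MonoidHom.mem_ker, Subgroup.mem_subgroupOf, Subgroup.mem_center_iff]
    constructor
    · intro ha x
      have h1 := DFunLike.congr_fun ha x
      have h2 : ⁅(a : P), x⁆ = 1 := congrArg Subtype.val h1
      exact (commutatorElement_eq_one_iff_mul_comm.mp h2).symm
    · intro ha
      ext x
      change ⁅(a : P), x⁆ = 1
      rw [commutatorElement_eq_one_iff_mul_comm]
      exact (ha x).symm
  have hfker : β.flip.ker = A := by
    conv_rhs => rw [← hCA]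
    ext x
    rw [MonoidHom.mem_ker, Subgroup.mem_centralizer_iff]
    constructor
    · intro hx a ha
      have h1 := DFunLike.congr_fun hx ⟨a, ha⟩
      have h2 : ⁅a, x⁆ = 1 := congrArg Subtype.val h1
      exact commutatorElement_eq_one_iff_mul_comm.mp h2
    · intro hx
      ext a
      change ⁅(a : P), x⁆ = 1
      rw [commutatorElement_eq_one_iff_mul_comm]
      exact hx a.1 a.2
  have hidx : (Subgroup.center P).relIndex A = A.index := by
    have := index_ker_eq_index_flip_ker β
    rwa [hker, hfker] at this
  have h1 : (Subgroup.center P).relIndex A * A.index = (Subgroup.center P).index :=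
    Subgroup.relIndex_mul_index hZA
  have h2 : Nat.card (Subgroup.center P) * (Subgroup.center P).index = Nat.card P :=
    Subgroup.card_mul_index _
  obtain ⟨k, hk⟩ := IsPGroup.iff_card.mp hP
  have h3 : A.index ∣ p ^ k := by rw [← hk]; exact Subgroup.index_dvd_card A
  obtain ⟨n, _, hn⟩ := (Nat.dvd_prime_pow hp).mp h3
  refine ⟨n, ?_, ?_⟩
  · by_contra hn0
    have hn0' : n = 0 := by omega
    rw [hn0', pow_zero, Subgroup.index_eq_one] at hn
    have hAc : IsMulCommutative A := hA.prop
    have h4 : Subgroup.center P = ⊥ := by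
      rw [← hcomm, commutator_def, Subgroup.commutator_eq_bot_iff_le_centralizer, ← hn, hCA]
    rw [h4] at hcard
    simp at hcard
    exact hp.one_lt.ne hcard
  · rw [← h2, ← h1, hidx, hcard, hn]
    ring

end Cfsg.Agent.S0095
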