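import Cfsg.Statements.S0101
import Cfsg.Agent.Lib.Helper2.TransferBasic
import Cfsg.Agent.Lib.Helper2.PGroupFrattini

set_option autoImplicit false
open Cfsg

namespace Cfsg.Agent.S0101

open Cfsg.Agent.Lib.Helper2

/-- `P ∩ Z(H) ∩ H' ≤ P'` for a Sylow subgroup `P`. -/
theorem central_commutator_mem {H : Type*} [Group H] [Finite H] {p : ℕ} [Fact p.Prime] (P : Sylow p H)
    (z : H) (hz : z ∈ Subgroup.center H) (hzP : z ∈ (P : Subgroup H)) (hz' : z ∈ commutator H) :
    (⟨z, hzP⟩ : (P : Subgroup H)) ∈ commutator (P : Subgroup H) := by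
  have hp : p.Prime := Fact.out
  have h1 := map_pow_index_eq_one_of_central_commutator
    (Abelianization.of (G := (P : Subgroup H))) z hz hzP hz'
  have hPQ : IsPGroup p (Abelianization (P : Subgroup H)) := P.2.to_quotient _
  obtain ⟨k, hk⟩ := hPQ (Abelianization.of (⟨z, hzP⟩ : (P : Subgroup H)))
  have hcop : Nat.Coprime (p ^ k) (P : Subgroup H).index :=
    Nat.Coprime.pow_left k ((Nat.Prime.coprime_iff_not_dvd hp).mpr P.not_dvd_index)
  have h3 := eq_one_of_pow_eq_one_of_coprime hk h1 hcop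
  exact (QuotientGroup.eq_one_iff _).mp h3

/-- In a perfect central extension, the kernel meets each Sylow p-subgroup P inside the Frattini subgroup of P. -/
theorem result {H : Type*} {G : Type*} [Group H] [Group G] [Finite H] (σ : H →* G) (hσ : Function.Surjective σ) (hc : σ.ker ≤ Subgroup.center H) (hH : commutator H = ⊤) {p : ℕ} [Fact p.Prime] (P : Sylow p H) : σ.ker ⊓ (P : Subgroup H) ≤ (frattini P).map (P : Subgroup H).subtype := by
  rintro z ⟨hzk, hzP⟩
  have h1 := central_commutator_mem P z (hc hzk) hzP (by rw [hH]; exact Subgroup.mem_top z)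
  exact ⟨⟨z, hzP⟩, commutator_le_frattini P.2 h1, rfl⟩

end Cfsg.Agent.S0101
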