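import Cfsg.Statements.S0102
import Cfsg.Agent.S0101
import Cfsg.Agent.S0088

set_option autoImplicit false
open Cfsg

namespace Cfsg.Agent.S0102

open Subgroup

/-- A finite perfect group with cyclic Sylow p-subgroups has no perfect central extension whose kernel has order divisible by p. -/
theorem result {G : Type*} {H : Type*} [Group G] [Group H] [Finite G] [Finite H] (hG : commutator G = ⊤) {p : ℕ} [Fact p.Prime] (hcyc : ∀ P : Sylow p G, IsCyclic P) (σ : H →* G) (hσ : Function.Surjective σ) (hz : σ.ker ≤ Subgroup.center H) (hH : commutator H = ⊤) : ¬ p ∣ Nat.card σ.ker := by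
  intro hdvd
  obtain ⟨P⟩ : Nonempty (Sylow p H) := inferInstance
  have h1 := Cfsg.Agent.S0101.result σ hσ hz hH P
  -- the image of P is cyclic
  have h2 : IsCyclic ((P : Subgroup H).map σ) := hcyc (P.mapSurjective hσ)
  obtain ⟨⟨y, hy⟩, hgen⟩ := h2.exists_generator
  obtain ⟨x, hx, rfl⟩ := hy
  -- P is cyclic
  have h3 : Subgroup.zpowers (⟨x, hx⟩ : (P : Subgroup H)) ⊔ frattini (P : Subgroup H) = ⊤ := by
    rw [eq_top_iff]
    intro w _
    have hw : (⟨σ w, ⟨w, w.2, rfl⟩⟩ : (P : Subgroup H).map σ) ∈ Subgroup.zpowers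
        (⟨σ x, ⟨x, hx, rfl⟩⟩ : (P : Subgroup H).map σ) := hgen _
    obtain ⟨k, hk⟩ := Subgroup.mem_zpowers_iff.mp hw
    have hk' : σ x ^ k = σ w := by
      have := congrArg Subtype.val hk
      simpa using this
    have h4 : (x ^ k)⁻¹ * (w : H) ∈ σ.ker ⊓ (P : Subgroup H) := by
      refine ⟨?_, (P : Subgroup H).mul_mem ((P : Subgroup H).inv_mem ((P : Subgroup H).zpow_mem hx k)) w.2⟩
      change (x ^ k)⁻¹ * (w : H) ∈ σ.ker
      rw [MonoidHom.mem_ker, map_mul, map_inv, map_zpow, hk', inv_mul_cancel]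
    obtain ⟨f, hf, hf'⟩ := h1 h4
    have h5 : w = (⟨x, hx⟩ : (P : Subgroup H)) ^ k * f := by
      apply Subtype.ext
      have : (f : H) = (x ^ k)⁻¹ * (w : H) := hf'
      simp [this]
    rw [h5]
    exact Subgroup.mul_mem _ (Subgroup.mem_sup_left (Subgroup.zpow_mem _ (Subgroup.mem_zpowers _) k))
      (Subgroup.mem_sup_right hf)
  have h4 := frattini_nongenerating h3
  have hPc : IsCyclic (P : Subgroup H) := isCyclic_iff_exists_zpowers_eq_top.mpr ⟨_, h4⟩
  have hPcomm : IsMulCommutative (P : Subgroup H) := inferInstance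
  have h5 := Cfsg.Agent.S0088.result (P : Subgroup H) hPcomm P.card_coprime_index
  -- an element of order p in the kernel
  obtain ⟨z, hzo⟩ := exists_prime_orderOf_dvd_card' p hdvd
  have hzc : (z : H) ∈ center H := hz z.2
  have hzo' : orderOf (z : H) = p := by rw [Subgroup.orderOf_coe, hzo]
  have hpz : IsPGroup p (Subgroup.zpowers (z : H)) := by
    apply IsPGroup.of_card (n := 1)
    rw [Nat.card_zpowers, hzo', pow_one]
  haveI : (Subgroup.zpowers (z : H)).Normal := by
    refine ⟨fun n hn g => ?_⟩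
    obtain ⟨k, rfl⟩ := Subgroup.mem_zpowers_iff.mp hn
    have : (z : H) ^ k ∈ center H := Subgroup.zpow_mem _ hzc k
    rw [(mem_center_iff.mp this g), mul_assoc, mul_inv_cancel, mul_one]
    exact hn
  have hzP : (z : H) ∈ (P : Subgroup H) := hpz.le_sylow_of_normal P (Subgroup.mem_zpowers _)
  have h6 : (z : H) ∈ (P : Subgroup H) ⊓ commutator H ⊓ center H :=
    ⟨⟨hzP, by rw [hH]; exact mem_top _⟩, hzc⟩
  rw [h5, mem_bot] at h6
  rw [h6, orderOf_one] at hzo'
  exact (Fact.out : p.Prime).one_lt.ne hzo'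

end Cfsg.Agent.S0102
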