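import Cfsg.Statements.S0106
import Cfsg.Agent.Lib.Helper62.SL23c
import Cfsg.Agent.Lib.Helper2.Frobenius

set_option autoImplicit false
open Cfsg

namespace Cfsg.Agent.S0106

open Cfsg.Agent.Lib

/-- A finite group with generalized quaternion Sylow 2-subgroups either has a normal 2-complement or has a section isomorphic to SL(2,3). -/
theorem result {G : Type*} [Group G] [Finite G] (T : Sylow 2 G) (n : ℕ) (hn : 1 ≤ n) (hT : Nonempty ((T : Subgroup G) ≃* QuaternionGroup (2 ^ n))) : Cfsg.HasNormalPComplement 2 G ∨ ∃ (H K : Subgroup G) (hK : (K.subgroupOf H).Normal), Nonempty ((H ⧸ K.subgroupOf H) ≃* Matrix.SpecialLinearGroup (Fin 2) (ZMod 3)) := by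
  by_cases hc : Cfsg.HasNormalPComplement 2 G
  · exact Or.inl hc
  right
  rw [Helper2.hasNormalPComplement_iff_frobCond] at hc
  unfold Helper2.FrobCond at hc
  push Not at hc
  obtain ⟨Q, hQ, g, hgN, hgo, hgC⟩ := hc
  have hodd : Odd (orderOf g) := Nat.coprime_two_right.1 hgo
  obtain ⟨eT⟩ := hT
  obtain ⟨P, hQP⟩ := hQ.exists_le_sylow
  obtain ⟨ψ, hψ⟩ : ∃ ψ : Q →* QuaternionGroup (2 ^ n), Function.Injective ψ :=
    ⟨(eT.toMonoidHom.comp (Sylow.equiv P T).toMonoidHom).comp (Subgroup.inclusion hQP),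
      (eT.injective.comp (Sylow.equiv P T).injective).comp (Subgroup.inclusion_injective hQP)⟩
  have e2 := MonoidHom.ofInjective hψ
  rcases Helper5.subgroup_quaternionGroup_two_pow n ψ.range with h | ⟨j, hj, ⟨e3⟩⟩
  · exfalso
    have hcyc : IsCyclic Q := isCyclic_of_surjective e2.symm e2.symm.surjective
    exact hgC (Helper55.mem_centralizer_of_odd_of_cyclic Q hcyc hQ g hgN hodd)
  · obtain rfl | hj2 : j = 1 ∨ 2 ≤ j := by omega
    · exact Helper62.exists_sl23_section (e2.trans e3) hgN hgC hodd (pow_orderOf_eq_one g)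
    · exfalso
      obtain ⟨k, rfl⟩ : ∃ k, j = k + 2 := ⟨j - 2, by omega⟩
      obtain ⟨α, hα⟩ := Helper55.quatLike_of_equiv Q k (e2.trans e3)
      exact hgC (Helper62.mem_centralizer_of_quatLike hα hgN hodd)

end Cfsg.Agent.S0106
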