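import Cfsg.Statements.S0113
import Cfsg.Agent.Lib.Helper73.Taussky

set_option autoImplicit false
open Cfsg

namespace Cfsg.Agent.S0113

open Cfsg.Agent.Lib.Helper73
open scoped commutatorElement

universe u

/-- For a group of order `2^n`, `n ≥ 2`, the class is at most `n-1`, and in case of equality the
commutator subgroup has index 4. -/
theorem class_aux : ∀ (n : ℕ) (X : Type u) [Group X] [Finite X], Nat.card X = 2 ^ n → 2 ≤ n →
    Group.nilpotencyClass X ≤ n - 1 ∧
      (Group.nilpotencyClass X = n - 1 → (commutator X).index = 4) := by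
  intro n
  induction n using Nat.strong_induction_on with
  | _ n ih =>
  intro X _ _ hcard hn
  have : Fact (Nat.Prime 2) := ⟨Nat.prime_two⟩
  have hX : IsPGroup 2 X := IsPGroup.of_card hcard
  have hnil : Group.IsNilpotent X := hX.isNilpotent
  have hnt : Nontrivial X := by
    rw [← Finite.one_lt_card_iff_nontrivial, hcard]
    exact Nat.one_lt_two_pow (by omega)
  have hcl := Group.nilpotencyClass_eq_quotient_center_plus_one (G := X)
  have hZnt : Nontrivial (Subgroup.center X) := hX.center_nontrivial
  obtain ⟨j, hj0, hj⟩ := (hX.to_subgroup (Subgroup.center X)).nontrivial_iff_card.mp hZnt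
  have hmul := Subgroup.card_eq_card_quotient_mul_card_subgroup (Subgroup.center X)
  rw [hcard, hj] at hmul
  have hjn : j ≤ n := by
    have h1 : 2 ^ j ∣ 2 ^ n := ⟨_, by rw [hmul, mul_comm]⟩
    exact (Nat.pow_dvd_pow_iff_le_right (by norm_num)).mp h1
  have hq : Nat.card (X ⧸ Subgroup.center X) = 2 ^ (n - j) := by
    have h2 : (2 : ℕ) ^ n = 2 ^ (n - j) * 2 ^ j := by rw [← pow_add]; congr 1; omega
    rw [h2] at hmul
    exact (Nat.eq_of_mul_eq_mul_right (by positivity) hmul).symm
  by_cases hsmall : n - j ≤ 1
  · -- the quotient by the centre is cyclic, so `X` is abelian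
    have hcyc : IsCyclic (X ⧸ Subgroup.center X) := by
      rcases Nat.le_one_iff_eq_zero_or_eq_one.mp hsmall with h | h
      · rw [h, pow_zero] at hq
        have : Subsingleton (X ⧸ Subgroup.center X) := (Nat.card_eq_one_iff_unique.mp hq).1
        infer_instance
      · rw [h, pow_one] at hq
        exact isCyclic_of_prime_card hq
    have hcomm : ∀ a b : X, a * b = b * a :=
      (MonoidHom.isMulCommutative_of_isCyclic_of_ker_le_center
        (QuotientGroup.mk' (Subgroup.center X)) (by rw [QuotientGroup.ker_mk'])).is_comm.comm
    have hctop : Subgroup.center X = ⊤ := by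
      rw [eq_top_iff]; intro x _
      rw [Subgroup.mem_center_iff]; intro g; exact hcomm g x
    have hsub : Subsingleton (X ⧸ Subgroup.center X) := by
      rw [hctop]; exact QuotientGroup.subsingleton_quotient_top
    have h0 : Group.nilpotencyClass (X ⧸ Subgroup.center X) = 0 :=
      Group.nilpotencyClass_zero_iff_subsingleton.mpr hsub
    have hc' : commutator X = ⊥ := commutator_eq_bot_of_comm hcomm
    refine ⟨by omega, fun h => ?_⟩
    have hn2 : n = 2 := by omega
    rw [hc', Subgroup.index_bot, hcard, hn2]; norm_num
  · push Not at hsmall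
    obtain ⟨ih1, ih2⟩ := ih (n - j) (by omega) (X ⧸ Subgroup.center X) hq (by omega)
    refine ⟨by omega, fun h => ?_⟩
    have hj1 : j = 1 := by omega
    have hidxq := ih2 (by omega)
    have hS' : commutator X ≠ ⊥ := by
      intro hbot
      have hcomm : ∀ a b : X, a * b = b * a := by
        intro a b
        have h1 : ⁅a, b⁆ ∈ commutator X := by
          rw [commutator_def]
          exact Subgroup.commutator_mem_commutator (Subgroup.mem_top a) (Subgroup.mem_top b)
        rw [hbot, Subgroup.mem_bot] at h1
        exact commutatorElement_eq_one_iff_mul_comm.mp h1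
      have hctop : Subgroup.center X = ⊤ := by
        rw [eq_top_iff]; intro x _
        rw [Subgroup.mem_center_iff]; intro g; exact hcomm g x
      rw [hctop, Subgroup.card_top, hcard] at hj
      have := Nat.pow_right_injective (le_refl 2) hj
      omega
    obtain ⟨z, hzS', hzc, hz2⟩ := exists_central_orderOf_eq_prime hX (commutator X) hS'
    have hZle : Subgroup.center X ≤ commutator X := by
      have h1 : Subgroup.zpowers z = Subgroup.center X := by
        apply Subgroup.eq_of_le_of_card_ge (Subgroup.zpowers_le.mpr hzc)
        rw [Nat.card_zpowers, hz2, hj, hj1]; norm_num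
      rw [← h1]; exact Subgroup.zpowers_le.mpr hzS'
    have hπ : Function.Surjective (QuotientGroup.mk' (Subgroup.center X)) :=
      QuotientGroup.mk'_surjective _
    have h1 : commutator (X ⧸ Subgroup.center X) =
        (commutator X).map (QuotientGroup.mk' (Subgroup.center X)) := by
      rw [commutator_def, commutator_def, Subgroup.map_commutator,
        Subgroup.map_top_of_surjective _ hπ]
    rw [h1, Subgroup.index_map_eq _ hπ (by rw [QuotientGroup.ker_mk']; exact hZle)] at hidxq
    exact hidxq

/-- A 2-group of maximal class contains a cyclic subgroup of index 2. -/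
theorem result {X : Type*} [Group X] [Finite X] (n : ℕ) (hn : 3 ≤ n) (hX : Nat.card X = 2 ^ n) (hc : Group.nilpotencyClass X = n - 1) : ∃ C : Subgroup X, IsCyclic C ∧ C.index = 2 := by
  have h := (class_aux n X hX (by omega)).2 hc
  obtain ⟨a, ha⟩ := exists_cyclic_index_two _ X rfl (IsPGroup.of_card hX) h
  exact ⟨Subgroup.zpowers a, inferInstance, ha⟩

end Cfsg.Agent.S0113
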