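import Cfsg.Statements.S0157
import Cfsg.Agent.Lib.Helper3.Perm

set_option autoImplicit false
open Cfsg

namespace Cfsg.Agent.S0157

open Cfsg.Agent.Lib.Helper3 MulAction
open scoped ComplexConjugate

theorem result {G : Type*} [Group G] [Finite G] (X : Type*) [MulAction G X] [Finite X] [MulAction.IsPretransitive G X] (hX : 2 ≤ Nat.card X) : Cfsg.IsIrrCharacter G (fun g => (Nat.card (MulAction.fixedBy X g) : ℂ) - 1) ↔ MulAction.IsMultiplyPretransitive G X 2 := by
  classical
  have := Fintype.ofFinite G
  have := Fintype.ofFinite (IrrCharacter G)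
  have hXne : Nonempty X := by
    by_contra h
    rw [not_nonempty_iff] at h
    simp at hX
  have hYne : Nonempty (Fin 2 ↪ X) := by
    have := Fintype.ofFinite X
    rw [Function.Embedding.nonempty_iff_card_le, Fintype.card_fin, ← Nat.card_eq_fintype_card]
    exact hX
  set π : G → ℂ := fun g => (Nat.card (fixedBy X g) : ℂ) with hπ
  set one : G → ℂ := fun _ => 1 with hone
  have hθ : (fun g => (Nat.card (MulAction.fixedBy X g) : ℂ) - 1) = π - one := rfl
  have hπchar : IsCharacter G π := isCharacter_card_fixedBy X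
  have horb : Nat.card (orbitRel.Quotient G X) = 1 :=
    (card_orbitRel_quotient_eq_one_iff X).mpr inferInstance
  have h1 : classInner π one = 1 := by
    rw [hπ, hone, classInner_card_fixedBy_one, horb, Nat.cast_one]
  have h1' : classInner one π = 1 := by
    rw [← classInner_conj_symm, h1, map_one]
  have h2 : classInner π π = 1 + (Nat.card (orbitRel.Quotient G (Fin 2 ↪ X)) : ℂ) := by
    rw [hπ, classInner_card_fixedBy_self, horb, Nat.cast_one]
  have h3 : classInner one one = 1 := classInner_irr_self isIrrCharacter_one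
  have hnorm : classInner (π - one) (π - one) =
      (Nat.card (orbitRel.Quotient G (Fin 2 ↪ X)) : ℂ) := by
    rw [classInner_sub_left, classInner_sub_right, classInner_sub_right, h1, h1', h2, h3]
    ring
  have hchar : IsCharacter G (π - one) := by
    rw [isCharacter_iff]
    refine ⟨IsClassFunction.sub (IsCharacter.isClassFunction hπchar)
      (IsIrrCharacter.isClassFunction isIrrCharacter_one), fun χ => ?_⟩
    rw [classInner_sub_left]
    by_cases hχ : (χ : G → ℂ) = one
    · exact ⟨0, by rw [hχ, h1, h3]; simp⟩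
    · obtain ⟨n, hn⟩ := (isCharacter_iff.mp hπchar).2 χ
      refine ⟨n, ?_⟩
      rw [hn, classInner_irr_ne isIrrCharacter_one χ.2 (fun h => hχ h.symm), sub_zero]
  rw [hθ, isIrrCharacter_iff, hnorm]
  constructor
  · rintro ⟨-, h⟩
    have : Nat.card (orbitRel.Quotient G (Fin 2 ↪ X)) = 1 := by exact_mod_cast h
    exact (card_orbitRel_quotient_eq_one_iff (Fin 2 ↪ X)).mp this
  · intro h
    refine ⟨hchar, ?_⟩
    have : Nat.card (orbitRel.Quotient G (Fin 2 ↪ X)) = 1 :=
      (card_orbitRel_quotient_eq_one_iff (Fin 2 ↪ X)).mpr h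
    rw [this, Nat.cast_one]

end Cfsg.Agent.S0157
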