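import Cfsg.Statements.S0178
import Cfsg.Agent.Lib.Helper3.Table

set_option autoImplicit false
open Cfsg

namespace Cfsg.Agent.S0178

open Cfsg.Agent.Lib.Helper3 Module Representation

/-- A commutative group acting on a nonzero f.d. complex space has a common eigenvector. -/
theorem exists_common_eigenvector {A : Type*} [Group A] (hA : ∀ a b : A, a * b = b * a)
    {V : Type*} [AddCommGroup V] [Module ℂ V] [FiniteDimensional ℂ V] [Nontrivial V]
    (τ : Representation ℂ A V) : ∃ v : V, v ≠ 0 ∧ ∀ a : A, ∃ c : ℂ, τ a v = c • v := by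
  have : IsMulCommutative A := ⟨⟨hA⟩⟩
  obtain ⟨L, hL, -, hirr⟩ := exists_irreducible_le τ ⊤ (inv_top τ) top_ne_bot
  have h1 : finrank ℂ L = 1 := IsIrreducible.finrank_eq_one_of_isMulCommutative (subrep τ L hL)
  obtain ⟨v, hv0, hv⟩ := finrank_eq_one_iff'.mp h1
  refine ⟨v, fun h => hv0 (Subtype.ext h), fun a => ?_⟩
  obtain ⟨c, hc⟩ := hv (subrep τ L hL a v)
  exact ⟨c, (congrArg Subtype.val hc).symm⟩

/-- The degree of an irreducible complex character is at most the index of any abelian subgroup. -/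
theorem result {G : Type*} [Group G] [Finite G] {V : Type*} [AddCommGroup V] [Module ℂ V] [FiniteDimensional ℂ V] (ρ : Representation ℂ G V) [ρ.IsIrreducible] (A : Subgroup G) (hA : ∀ a ∈ A, ∀ b ∈ A, a * b = b * a) : Module.finrank ℂ V ≤ A.index := by
  classical
  have hirr : ρ.IsIrreducible := inferInstance
  have hnt := ((isIrreducible_iff ρ).mp hirr).1
  have := Fintype.ofFinite (G ⧸ A)
  obtain ⟨v, hv0, hv⟩ := exists_common_eigenvector (A := A)
    (fun a b => Subtype.ext (hA a a.2 b b.2)) (ρ.comp A.subtype)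
  let S : Submodule ℂ V := Submodule.span ℂ (Set.range fun q : G ⧸ A => ρ q.out v)
  have hS : Inv ρ S := by
    intro g
    rw [Submodule.span_le]
    rintro _ ⟨q, rfl⟩
    simp only [Submodule.comap_coe, Set.mem_preimage, SetLike.mem_coe]
    set q' : G ⧸ A := QuotientGroup.mk (g * q.out) with hq'
    have ha : q'.out⁻¹ * (g * q.out) ∈ A := by
      rw [← QuotientGroup.eq]; exact QuotientGroup.out_eq' _
    obtain ⟨c, hc⟩ := hv ⟨_, ha⟩
    have h1 : ρ g (ρ q.out v) = ρ q'.out (ρ (q'.out⁻¹ * (g * q.out)) v) := by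
      rw [← Module.End.mul_apply, ← Module.End.mul_apply, ← map_mul, ← map_mul]
      congr 2
      group
    have h2 : ρ (q'.out⁻¹ * (g * q.out)) v = c • v := hc
    rw [h1, h2, map_smul]
    exact Submodule.smul_mem _ _ (Submodule.subset_span ⟨q', rfl⟩)
  have hS0 : S ≠ ⊥ := by
    intro h0
    have h1 : ρ (QuotientGroup.mk 1 : G ⧸ A).out v ∈ S := Submodule.subset_span ⟨_, rfl⟩
    rw [h0, Submodule.mem_bot] at h1
    apply hv0
    have h2 : ρ (QuotientGroup.mk 1 : G ⧸ A).out⁻¹ (ρ (QuotientGroup.mk 1 : G ⧸ A).out v) = v := by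
      rw [← Module.End.mul_apply, ← map_mul, inv_mul_cancel, map_one, Module.End.one_apply]
    rw [← h2, h1, map_zero]
  have hStop : S = ⊤ := (((isIrreducible_iff ρ).mp hirr).2 S hS).resolve_left hS0
  calc finrank ℂ V = finrank ℂ S := by rw [hStop, finrank_top]
    _ ≤ Fintype.card (G ⧸ A) := finrank_range_le_card _
    _ = A.index := by rw [Subgroup.index, Nat.card_eq_fintype_card]

end Cfsg.Agent.S0178
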