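import Mathlib
import Cfsg.Agent.Lib.Helper4.SylowConj
import Cfsg.Agent.S0219
import Cfsg.Statements.S0220

set_option autoImplicit false
open Cfsg

namespace Cfsg.Agent.S0220

theorem unique_invol_of_isCyclic {H : Type*} [Group H] [Finite H] [IsCyclic H] {a b : H}
    (ha : orderOf a = 2) (hb : orderOf b = 2) : a = b := by
  classical
  haveI : Fintype H := Fintype.ofFinite H
  have hd : 2 ∣ Fintype.card H := by rw [← ha]; exact orderOf_dvd_card
  have h := IsCyclic.card_orderOf_eq_totient hd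
  rw [Nat.totient_two] at h
  exact Finset.card_le_one.1 h.le a (by simp [ha]) b (by simp [hb])

theorem aux {G : Type*} [Group G] [Finite G] (x : G) (hx : orderOf x = 2) (C : Subgroup G)
    (hC : C = Subgroup.centralizer ({x} : Set G)) (S : Sylow 2 ↥C)
    (hS : IsCyclic (S : Subgroup ↥C)) : ∃ H : Subgroup G, H.index = 2 := by
  haveI : Fact (Nat.Prime 2) := ⟨Nat.prime_two⟩
  have hxC : x ∈ C := by rw [hC]; exact Lib.Helper4.mem_centralizer_singleton.2 rfl
  have hxo : orderOf (⟨x, hxC⟩ : C) = 2 := by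
    rw [← Subgroup.orderOf_coe]; exact hx
  have hxS : (⟨x, hxC⟩ : C) ∈ S := by
    have hP : IsPGroup 2 (Subgroup.zpowers (⟨x, hxC⟩ : C)) :=
      IsPGroup.of_card (n := 1) (by rw [Nat.card_zpowers, hxo, pow_one])
    obtain ⟨c, hc⟩ := Lib.Helper4.exists_conj_le_sylow S hP
    have := hc _ (Subgroup.mem_zpowers _)
    have e : c * ⟨x, hxC⟩ * c⁻¹ = ⟨x, hxC⟩ :=
      Subtype.ext (Lib.Helper4.mem_centralizer_singleton_iff_conj.1 (hC ▸ c.2))
    rwa [e] at this
  have hS' : IsPGroup 2 ((S : Subgroup C).map C.subtype) := S.2.map _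
  obtain ⟨T, hT⟩ := hS'.exists_le_sylow
  have hb : (T : Subgroup G).subgroupOf C = S := by
    apply S.3
    · exact T.2.comap_subtype
    · intro c hc
      exact hT ⟨c, hc, rfl⟩
  have hxT : x ∈ (T : Subgroup G) := hT ⟨⟨x, hxC⟩, hxS, rfl⟩
  haveI : Nontrivial (T : Subgroup G) :=
    ⟨⟨⟨x, hxT⟩, 1, fun h => Lib.Helper4.ne_one_of_orderOf_two hx (congrArg Subtype.val h)⟩⟩
  haveI := T.2.center_nontrivial
  have hZp : IsPGroup 2 (Subgroup.center (T : Subgroup G)) := T.2.to_subgroup _
  obtain ⟨k, hk⟩ := hZp.exists_card_eq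
  have hk0 : k ≠ 0 := by
    rintro rfl
    rw [pow_zero] at hk
    have := Finite.one_lt_card (α := Subgroup.center (T : Subgroup G))
    omega
  have h2 : 2 ∣ Nat.card (Subgroup.center (T : Subgroup G)) := by
    rw [hk]; exact dvd_pow_self 2 hk0
  obtain ⟨z, hz⟩ := exists_prime_orderOf_dvd_card' (G := Subgroup.center (T : Subgroup G)) 2 h2
  have hzc := z.2
  rw [Subgroup.mem_center_iff] at hzc
  have hzx : x * (z : (T : Subgroup G)) = (z : (T : Subgroup G)) * x := by
    have := hzc ⟨x, hxT⟩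
    exact congrArg Subtype.val this
  have hzC : ((z : (T : Subgroup G)) : G) ∈ C := by
    rw [hC]; exact Lib.Helper4.mem_centralizer_singleton.2 hzx
  have hzS : (⟨((z : (T : Subgroup G)) : G), hzC⟩ : C) ∈ (S : Subgroup C) := by
    rw [← hb, Subgroup.mem_subgroupOf]
    exact (z : (T : Subgroup G)).2
  have hzo : orderOf ((z : (T : Subgroup G)) : G) = 2 := by
    rw [Subgroup.orderOf_coe, Subgroup.orderOf_coe]; exact hz
  have heq : (⟨⟨x, hxC⟩, hxS⟩ : (S : Subgroup C)) = ⟨⟨((z : (T : Subgroup G)) : G), hzC⟩, hzS⟩ := by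
    apply unique_invol_of_isCyclic
    · rw [← Subgroup.orderOf_coe, ← Subgroup.orderOf_coe]; exact hx
    · rw [← Subgroup.orderOf_coe, ← Subgroup.orderOf_coe]; exact hzo
  have heq' : x = ((z : (T : Subgroup G)) : G) := by
    have := congrArg (fun s : (S : Subgroup C) => ((s : C) : G)) heq
    exact this
  have hTC : (T : Subgroup G) ≤ C := by
    intro y hy
    rw [hC, Lib.Helper4.mem_centralizer_singleton, heq']
    have := hzc ⟨y, hy⟩
    exact (congrArg Subtype.val this).symm
  have hcyc : IsCyclic (T : Subgroup G) := by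
    have h1 : IsCyclic ((T : Subgroup G).subgroupOf C) := by rw [hb]; exact hS
    exact (Subgroup.subgroupOfEquivOfLe hTC).isCyclic.1 h1
  apply Cfsg.Agent.S0219.result _ T hcyc
  rw [even_iff_two_dvd, ← hx]
  exact orderOf_dvd_natCard x

/-- If x is an involution of a finite group G and a Sylow 2-subgroup of the centralizer of x is cyclic, then G has a subgroup of index 2; in particular G is not simple unless it has order 2. -/
theorem result {G : Type*} [Group G] [Finite G] (x : G) (hx : orderOf x = 2) (S : Sylow 2 ↥(Subgroup.centralizer ({x} : Set G))) (hS : IsCyclic (S : Subgroup ↥(Subgroup.centralizer ({x} : Set G)))) : ∃ H : Subgroup G, H.index = 2 := by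
  exact aux x hx _ rfl S hS

end Cfsg.Agent.S0220
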