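import Mathlib
import Cfsg.Agent.Lib.Helper4.ConjCount
import Cfsg.Agent.S0208
import Cfsg.Agent.S0209
import Cfsg.Agent.S0220
import Cfsg.Statements.S0213

set_option autoImplicit false
open Cfsg

namespace Cfsg.Agent.S0213

/-- Thompson Order Formula, two-class case: if every involution of the finite group G is conjugate to exactly one of the non-conjugate involutions x₁, x₂, and nᵢ is the number of pairs (u, v) with u conjugate to x₁, v conjugate to x₂ and xᵢ in the cyclic group generated by uv, then |G| = |C(x₂)| n₁ + |C(x₁)| n₂. -/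
theorem result {G : Type*} [Group G] [Finite G] (x₁ x₂ : G) (h₁ : orderOf x₁ = 2) (h₂ : orderOf x₂ = 2) (hnc : ¬ IsConj x₁ x₂) (hall : ∀ t : G, orderOf t = 2 → IsConj x₁ t ∨ IsConj x₂ t) : Nat.card G = Nat.card (Subgroup.centralizer ({x₂} : Set G)) * Nat.card {p : G × G // IsConj x₁ p.1 ∧ IsConj x₂ p.2 ∧ x₁ ∈ Subgroup.zpowers (p.1 * p.2)} + Nat.card (Subgroup.centralizer ({x₁} : Set G)) * Nat.card {p : G × G // IsConj x₁ p.1 ∧ IsConj x₂ p.2 ∧ x₂ ∈ Subgroup.zpowers (p.1 * p.2)} := by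
  classical
  haveI : Fintype G := Fintype.ofFinite G
  let P : G → G × G → Prop := fun w p =>
    IsConj x₁ p.1 ∧ IsConj x₂ p.2 ∧ w ∈ Subgroup.zpowers (p.1 * p.2)
  have hle : ∀ (a w : G), Nat.card {p // P w p} ≤ Nat.card {p // P (a * w * a⁻¹) p} := by
    intro a w
    apply Nat.card_le_card_of_injective (fun p : {p // P w p} =>
      (⟨(a * p.1.1 * a⁻¹, a * p.1.2 * a⁻¹), p.2.1.trans (isConj_iff.2 ⟨a, rfl⟩),
        p.2.2.1.trans (isConj_iff.2 ⟨a, rfl⟩), by
          obtain ⟨k, hk⟩ := Subgroup.mem_zpowers_iff.1 p.2.2.2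
          rw [Subgroup.mem_zpowers_iff]
          refine ⟨k, ?_⟩
          have : a * p.1.1 * a⁻¹ * (a * p.1.2 * a⁻¹) = a * (p.1.1 * p.1.2) * a⁻¹ := by group
          simp only
          rw [this, conj_zpow, hk]⟩ : {p // P (a * w * a⁻¹) p}))
    rintro ⟨⟨u, v⟩, hp⟩ ⟨⟨u', v'⟩, hp'⟩ h
    simp only [Subtype.mk.injEq, Prod.mk.injEq, mul_left_inj, mul_right_inj] at h
    obtain ⟨rfl, rfl⟩ := h
    rfl
  have heq : ∀ (a w : G), Nat.card {p // P (a * w * a⁻¹) p} = Nat.card {p // P w p} := by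
    intro a w
    apply le_antisymm _ (hle a w)
    have := hle a⁻¹ (a * w * a⁻¹)
    have e : a⁻¹ * (a * w * a⁻¹) * a⁻¹⁻¹ = w := by group
    rwa [e] at this
  set n₁ := Nat.card {p // P x₁ p} with hn₁
  set n₂ := Nat.card {p // P x₂ p} with hn₂
  set k₁ := Nat.card {v : G // IsConj x₁ v} with hk₁
  set k₂ := Nat.card {v : G // IsConj x₂ v} with hk₂
  set c₁ := Nat.card (Subgroup.centralizer ({x₁} : Set G)) with hc₁
  set c₂ := Nat.card (Subgroup.centralizer ({x₂} : Set G)) with hc₂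
  show Nat.card G = c₂ * n₁ + c₁ * n₂
  have hA : Nat.card (Σ w : {w : G // orderOf w = 2}, {p // P w.1 p}) = k₁ * k₂ := by
    rw [hk₁, hk₂, ← Nat.card_prod]
    apply Nat.card_congr
    apply Equiv.ofBijective (fun s => ((⟨s.2.1.1, s.2.2.1⟩ : {v : G // IsConj x₁ v}),
      (⟨s.2.1.2, s.2.2.2.1⟩ : {v : G // IsConj x₂ v})))
    constructor
    · rintro ⟨⟨w, hw⟩, ⟨⟨u, v⟩, hp⟩⟩ ⟨⟨w', hw'⟩, ⟨⟨u', v'⟩, hp'⟩⟩ h
      simp only [Prod.mk.injEq, Subtype.mk.injEq] at h
      obtain ⟨rfl, rfl⟩ := h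
      have hww : w = w' := by
        have h1 : (⟨w, hp.2.2⟩ : Subgroup.zpowers (u * v)) = ⟨w', hp'.2.2⟩ := by
          apply Cfsg.Agent.S0220.unique_invol_of_isCyclic
          · rw [← Subgroup.orderOf_coe]; exact hw
          · rw [← Subgroup.orderOf_coe]; exact hw'
        exact congrArg Subtype.val h1
      subst hww
      rfl
    · rintro ⟨⟨u, hu⟩, ⟨v, hv⟩⟩
      obtain ⟨a, ha⟩ := isConj_iff.1 hu
      obtain ⟨b, hb⟩ := isConj_iff.1 hv
      have huo : orderOf u = 2 := by rw [← ha, Lib.Helper4.orderOf_conj_eq, h₁]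
      have hvo : orderOf v = 2 := by rw [← hb, Lib.Helper4.orderOf_conj_eq, h₂]
      have heven : Even (orderOf (u * v)) := by
        rw [← Nat.not_odd_iff_even]
        intro hodd
        obtain ⟨d, _, hd⟩ := Cfsg.Agent.S0208.result u v huo hvo hodd
        exact hnc ((hu.trans (isConj_iff.2 ⟨d, hd⟩)).trans hv.symm)
      obtain ⟨hzo, _, _⟩ := Cfsg.Agent.S0209.result u v huo hvo heven
      exact ⟨⟨⟨_, hzo⟩, ⟨(u, v), hu, hv, Subgroup.pow_mem _ (Subgroup.mem_zpowers _) _⟩⟩, rfl⟩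
  rw [Nat.card_sigma] at hA
  have hI : ∑ w : {w : G // orderOf w = 2}, Nat.card {p // P w.1 p} =
      ∑ w ∈ Finset.univ.filter (fun w : G => orderOf w = 2), Nat.card {p // P w p} := by
    rw [Finset.sum_subtype (Finset.univ.filter (fun w : G => orderOf w = 2)) (p := fun w => orderOf w = 2)
      (by simp) (fun w => Nat.card {p // P w p})]
  have hU : Finset.univ.filter (fun w : G => orderOf w = 2) =
      Finset.univ.filter (fun w : G => IsConj x₁ w) ∪ Finset.univ.filter (fun w : G => IsConj x₂ w) := by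
    ext w
    simp only [Finset.mem_filter, Finset.mem_univ, true_and, Finset.mem_union]
    constructor
    · exact hall w
    · rintro (h | h)
      · obtain ⟨a, ha⟩ := isConj_iff.1 h
        rw [← ha, Lib.Helper4.orderOf_conj_eq, h₁]
      · obtain ⟨a, ha⟩ := isConj_iff.1 h
        rw [← ha, Lib.Helper4.orderOf_conj_eq, h₂]
  have hD : Disjoint (Finset.univ.filter (fun w : G => IsConj x₁ w))
      (Finset.univ.filter (fun w : G => IsConj x₂ w)) := by
    rw [Finset.disjoint_filter]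
    intro w _ h1 h2
    exact hnc (h1.trans h2.symm)
  have hS1 : ∑ w ∈ Finset.univ.filter (fun w : G => IsConj x₁ w), Nat.card {p // P w p} = k₁ * n₁ := by
    rw [hk₁, Nat.card_eq_fintype_card, Fintype.card_subtype, ← smul_eq_mul, ← Finset.sum_const]
    apply Finset.sum_congr rfl
    intro w hw
    obtain ⟨a, ha⟩ := isConj_iff.1 (Finset.mem_filter.1 hw).2
    rw [← ha, heq]
  have hS2 : ∑ w ∈ Finset.univ.filter (fun w : G => IsConj x₂ w), Nat.card {p // P w p} = k₂ * n₂ := by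
    rw [hk₂, Nat.card_eq_fintype_card, Fintype.card_subtype, ← smul_eq_mul, ← Finset.sum_const]
    apply Finset.sum_congr rfl
    intro w hw
    obtain ⟨a, ha⟩ := isConj_iff.1 (Finset.mem_filter.1 hw).2
    rw [← ha, heq]
  rw [hI, hU, Finset.sum_union hD, hS1, hS2] at hA
  have e1 := Lib.Helper4.card_conj_mul_card_centralizer x₁
  have e2 := Lib.Helper4.card_conj_mul_card_centralizer x₂
  rw [← hk₁, ← hc₁] at e1
  rw [← hk₂, ← hc₂] at e2
  set g := Nat.card G with hg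
  have hgpos : 0 < g := Nat.card_pos
  have key : g * g = g * (c₂ * n₁ + c₁ * n₂) := by
    calc g * g = (k₁ * c₁) * (k₂ * c₂) := by rw [e1, e2]
      _ = (k₁ * k₂) * (c₁ * c₂) := by ring
      _ = (k₁ * n₁ + k₂ * n₂) * (c₁ * c₂) := by rw [hA]
      _ = (k₁ * c₁) * (c₂ * n₁) + (k₂ * c₂) * (c₁ * n₂) := by ring
      _ = g * (c₂ * n₁ + c₁ * n₂) := by rw [e1, e2]; ring
  exact Nat.eq_of_mul_eq_mul_left hgpos key

end Cfsg.Agent.S0213
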