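import Cfsg.Statements.S0266
import Cfsg.Agent.Lib.Helper89.P1

set_option autoImplicit false
open scoped MatrixGroups
open Cfsg

namespace Cfsg.Agent.S0266

open Cfsg.Agent.Lib.Helper89.P1

/-- PGL_2(F) is sharply 3-transitive on the projective line: it is 3-transitive and the stabiliser of three distinct points is trivial. -/
theorem result {F : Type*} [Field F] : MulAction.IsMultiplyPretransitive (Matrix.ProjGenLinGroup (Fin 2) F) (Projectivization F (Fin 2 → F)) 3 ∧ ∀ (g : Matrix.ProjGenLinGroup (Fin 2) F) (a b c : Projectivization F (Fin 2 → F)), a ≠ b → a ≠ c → b ≠ c → g • a = a → g • b = b → g • c = c → g = 1 := by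
  constructor
  · rw [MulAction.IsMultiplyPretransitive,
      MulAction.isPretransitive_iff_base (triple (1 : F) one_ne_zero)]
    intro y
    obtain ⟨g, h0, h1, h2⟩ := exists_GL (y 0) (y 1) (y 2)
      (fun h => by simpa using y.injective h) (fun h => by simpa using y.injective h)
      (fun h => by simpa using y.injective h)
    refine ⟨Matrix.ProjGenLinGroup.mk g, ?_⟩
    ext i
    fin_cases i
    · exact h0
    · exact h1
    · exact h2
  · intro g a b c hab hac hbc ha hb hc
    induction g using Matrix.ProjGenLinGroup.induction_on with | mk g =>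
    rw [Matrix.ProjGenLinGroup.mk_eq_one]
    exact mem_center_of_fix g a b c hab hac hbc ha hb hc

end Cfsg.Agent.S0266
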