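import Cfsg.Statements.S0436
import Cfsg.Agent.Lib.Helper8.ThreeTransp

set_option autoImplicit false
open Cfsg

namespace Cfsg.Agent.S0436

open Cfsg.Agent.Lib.Helper8

/-- For distinct commuting members a, b of a set of 3-transpositions E, a member e of E centralises the product a * b if and only if it centralises both a and b. -/
theorem result {G : Type*} [Group G] {E : Set G} (hE : Cfsg.IsThreeTranspositionSet E) {a b e : G} (ha : a ∈ E) (hb : b ∈ E) (he : e ∈ E) (hab : a ≠ b) (hcomm : Commute a b) : Commute e (a * b) ↔ (Commute e a ∧ Commute e b) := by
  constructor
  · intro h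
    have haa := tt_mul_self hE ha
    have hbb := tt_mul_self hE hb
    have hee := tt_mul_self hE he
    rcases tt_commute_or_braid hE he ha with h1 | h1
    · refine ⟨h1, ?_⟩
      have : b = a * (a * b) := by rw [← mul_assoc, haa, one_mul]
      rw [this]
      exact h1.mul_right h
    rcases tt_commute_or_braid hE he hb with h2 | h2
    · refine ⟨?_, h2⟩
      have : a = (a * b) * b := by rw [mul_assoc, hbb, mul_one]
      rw [this]
      exact h.mul_right h2
    · exfalso
      apply hab
      -- e a b e = a b, (eae)(ebe) = ab, (aea)(beb) = ab
      have h3 : e * (a * b) * e = a * b := by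
        rw [h.eq, mul_assoc, hee, mul_one]
      have h4 : (e * a * e) * (e * b * e) = a * b := by
        calc (e * a * e) * (e * b * e) = e * a * (e * e) * b * e := by group
          _ = e * (a * b) * e := by rw [hee]; group
          _ = a * b := h3
      rw [h1, h2] at h4
      -- a e a b e b = a b
      have h5 : e * (a * b) * e = 1 := by
        calc e * (a * b) * e = a * ((a * e * a) * (b * e * b)) * b := by
              calc e * (a * b) * e = (a * a) * e * (a * b) * e * (b * b) := by
                    rw [haa, hbb]; group
                _ = a * ((a * e * a) * (b * e * b)) * b := by group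
          _ = a * (a * b) * b := by rw [h4]
          _ = (a * a) * (b * b) := by group
          _ = 1 := by rw [haa, hbb, one_mul]
      rw [h3] at h5
      calc a = a * (b * b) := by rw [hbb, mul_one]
        _ = (a * b) * b := by group
        _ = b := by rw [h5, one_mul]
  · rintro ⟨h1, h2⟩
    exact h1.mul_right h2

end Cfsg.Agent.S0436
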