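import Cfsg.Statements.S0437
import Cfsg.Agent.Lib.Helper8.ThreeTransp
import Cfsg.Agent.S0436

set_option autoImplicit false
open Cfsg

namespace Cfsg.Agent.S0437

open Cfsg.Agent.Lib.Helper8

/-- For three distinct, pairwise commuting members a, b, c of a set of 3-transpositions E, a member e of E centralises a * b * c if and only if it centralises each of a, b and c. -/
theorem result {G : Type*} [Group G] {E : Set G} (hE : Cfsg.IsThreeTranspositionSet E) {a b c e : G} (ha : a ∈ E) (hb : b ∈ E) (hc : c ∈ E) (he : e ∈ E) (hab : a ≠ b) (hac : a ≠ c) (hbc : b ≠ c) (h₁ : Commute a b) (h₂ : Commute a c) (h₃ : Commute b c) : Commute e (a * b * c) ↔ (Commute e a ∧ Commute e b ∧ Commute e c) := by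
  constructor
  · intro h
    have haa := tt_mul_self hE ha
    have hbb := tt_mul_self hE hb
    have hcc := tt_mul_self hE hc
    have hee := tt_mul_self hE he
    rcases tt_commute_or_braid hE he ha with h1 | h1
    · have h4 : Commute e (b * c) := by
        have : b * c = a * (a * b * c) := by
          calc b * c = (a * a) * b * c := by rw [haa, one_mul]
            _ = a * (a * b * c) := by group
        rw [this]
        exact h1.mul_right h
      have := (Cfsg.Agent.S0436.result hE hb hc he hbc h₃).mp h4
      exact ⟨h1, this.1, this.2⟩
    rcases tt_commute_or_braid hE he hb with h2 | h2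
    · have h4 : Commute e (a * c) := by
        have : a * c = b * (a * b * c) := by
          calc a * c = (b * b) * a * c := by rw [hbb, one_mul]
            _ = b * (b * a) * c := by group
            _ = b * (a * b) * c := by rw [h₁.eq]
            _ = b * (a * b * c) := by group
        rw [this]
        exact h2.mul_right h
      have := (Cfsg.Agent.S0436.result hE ha hc he hac h₂).mp h4
      exact ⟨this.1, h2, this.2⟩
    rcases tt_commute_or_braid hE he hc with h3 | h3
    · have h4 : Commute e (a * b) := by
        have : a * b = (a * b * c) * c := by
          rw [mul_assoc (a * b), hcc, mul_one]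
        rw [this]
        exact h.mul_right h3
      have := (Cfsg.Agent.S0436.result hE ha hb he hab h₁).mp h4
      exact ⟨this.1, this.2, h3⟩
    · exfalso
      -- (eae)(ebe)(ece) = abc
      have h5 : (e * a * e) * (e * b * e) * (e * c * e) = a * b * c := by
        calc (e * a * e) * (e * b * e) * (e * c * e)
            = e * a * (e * e) * b * (e * e) * c * e := by group
          _ = e * (a * b * c) * e := by rw [hee]; group
          _ = a * b * c := by rw [h.eq, mul_assoc, hee, mul_one]
      rw [h1, h2, h3] at h5
      -- a e a b e b c e c = a b c
      -- e (ab) e (bc) e = b
      have h6 : e * (a * b) * e * (b * c) * e = b := by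
        calc e * (a * b) * e * (b * c) * e
            = (a * a) * e * (a * b) * e * (b * c) * e * (c * c) := by rw [haa, hcc]; group
          _ = a * ((a * e * a) * (b * e * b) * (c * e * c)) * c := by group
          _ = a * (a * b * c) * c := by rw [h5]
          _ = (a * a) * b * (c * c) := by group
          _ = b := by rw [haa, hcc]; group
      -- e b e = (ab) e (bc)
      have h7 : e * b * e = (a * b) * e * (b * c) := by
        calc e * b * e = e * (e * (a * b) * e * (b * c) * e) * e := by rw [h6]
          _ = (e * e) * (a * b) * e * (b * c) * (e * e) := by group
          _ = (a * b) * e * (b * c) := by rw [hee]; group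
      rw [h2] at h7
      -- b e b = a b e b c ; so a = ... 
      have h8 : e * b = a * e * b * c := by
        calc e * b = (b * b) * e * b := by rw [hbb, one_mul]
          _ = b * (b * e * b) := by group
          _ = b * ((a * b) * e * (b * c)) := by rw [h7]
          _ = (b * a) * b * e * b * c := by group
          _ = (a * b) * b * e * b * c := by rw [h₁.eq]
          _ = a * (b * b) * e * b * c := by group
          _ = a * e * b * c := by rw [hbb, mul_one]
      -- a = e b c b e = e c e
      have h9 : a = e * c * e := by
        calc a = a * e * b * c * (c * b * e) := by
              calc a = a * (e * (b * (c * c) * b) * e) := by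
                    rw [hcc, mul_one, hbb, mul_one, hee, mul_one]
                _ = a * e * b * c * (c * b * e) := by group
          _ = e * b * (c * b * e) := by rw [← h8]
          _ = e * (b * c) * b * e := by group
          _ = e * (c * b) * b * e := by rw [h₃.eq]
          _ = e * c * (b * b) * e := by group
          _ = e * c * e := by rw [hbb, mul_one]
      rw [h3] at h9
      have h10 : e = a := by
        calc e = (c * c) * e * (c * c) := by rw [hcc]; group
          _ = c * (c * e * c) * c := by group
          _ = c * a * c := by rw [← h9]
          _ = a * c * c := by rw [h₂.eq]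
          _ = a := by rw [mul_assoc, hcc, mul_one]
      rw [h10] at h3
      -- a c a = c a c, a c = c a → a = c
      apply hac
      calc a = c * (c * a * c) * c * (a * a) := by
            rw [haa, mul_one]
            calc a = (c * c) * a * (c * c) := by rw [hcc]; group
              _ = c * (c * a * c) * c := by group
        _ = c * (a * c * a) * c * (a * a) := by rw [h3]
        _ = c * (a * c) * (a * c) * a * a := by group
        _ = c * (a * c) * (c * a) * a * a := by rw [h₂.eq]
        _ = c * (a * (c * c) * a) * (a * a) := by group
        _ = c := by rw [hcc, mul_one, haa, mul_one, mul_one]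
  · rintro ⟨h1, h2, h3⟩
    exact (h1.mul_right h2).mul_right h3

end Cfsg.Agent.S0437
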