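import Cfsg.Statements.S0445
import Mathlib

set_option autoImplicit false
open Cfsg

namespace Cfsg.Agent.S0445

open Matrix

abbrev F := ZMod 2
abbrev M5 := Matrix (Fin 5) (Fin 5) F

set_option maxRecDepth 1000000 in
theorem cardSL3 : Fintype.card (SpecialLinearGroup (Fin 3) F) = 168 := by
  decide +kernel

def toM (r : Fin 4 → F) (c : Fin 3 → F) (B : Matrix (Fin 3) (Fin 3) F) : M5 :=
  !![1, r 0, r 1, r 2, r 3;
     0, 1, 0, 0, 0;
     0, c 0, B 0 0, B 0 1, B 0 2;
     0, c 1, B 1 0, B 1 1, B 1 2;
     0, c 2, B 2 0, B 2 1, B 2 2]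

theorem det_toM (r : Fin 4 → F) (c : Fin 3 → F) (B : Matrix (Fin 3) (Fin 3) F) :
    (toM r c B).det = B.det := by
  rw [Matrix.det_succ_column_zero]
  simp [Fin.sum_univ_succ, toM]
  rw [Matrix.det_succ_row_zero]
  simp [Fin.sum_univ_succ]
  congr 1
  ext i j
  fin_cases i <;> fin_cases j <;> rfl

/-- shape condition equivalent to commuting with the transvection -/
def Shape (M : M5) : Prop :=
  M 0 0 = M 1 1 ∧ (∀ b : Fin 5, b ≠ 1 → M 1 b = 0) ∧ (∀ a : Fin 5, a ≠ 0 → M a 0 = 0)

theorem comm_iff (M : M5) : M * transvection 0 1 1 = transvection 0 1 1 * M ↔ Shape M := by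
  constructor
  · intro h
    refine ⟨?_, ?_, ?_⟩
    · have := congrFun (congrFun h 0) 1
      rw [mul_transvection_apply_same, transvection_mul_apply_same] at this
      simpa using this
    · intro b hb
      have := congrFun (congrFun h 0) b
      rw [mul_transvection_apply_of_ne _ _ _ _ hb, transvection_mul_apply_same] at this
      simpa using this
    · intro a ha
      have := congrFun (congrFun h a) 1
      rw [mul_transvection_apply_same, transvection_mul_apply_of_ne _ _ _ _ ha] at this
      simpa using this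
  · rintro ⟨h1, h2, h3⟩
    ext a b
    by_cases ha : a = 0 <;> by_cases hb : b = 1
    · subst ha; subst hb
      rw [mul_transvection_apply_same, transvection_mul_apply_same, h1]
    · subst ha
      rw [mul_transvection_apply_of_ne _ _ _ _ hb, transvection_mul_apply_same, h2 b hb]; simp
    · subst hb
      rw [mul_transvection_apply_same, transvection_mul_apply_of_ne _ _ _ _ ha, h3 a ha]; simp
    · rw [mul_transvection_apply_of_ne _ _ _ _ hb, transvection_mul_apply_of_ne _ _ _ _ ha]

theorem shape_toM (r : Fin 4 → F) (c : Fin 3 → F) (B : Matrix (Fin 3) (Fin 3) F) :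
    Shape (toM r c B) := by
  refine ⟨rfl, ?_, ?_⟩
  · intro b hb
    fin_cases b
    · rfl
    · exact absurd rfl hb
    · rfl
    · rfl
    · rfl
  · intro a ha
    fin_cases a
    · exact absurd rfl ha
    · rfl
    · rfl
    · rfl
    · rfl

def rOf (M : M5) : Fin 4 → F := fun j => M 0 j.succ
def cOf (M : M5) : Fin 3 → F := fun i => M i.succ.succ 1
def bOf (M : M5) : Matrix (Fin 3) (Fin 3) F := fun i j => M i.succ.succ j.succ.succ

theorem rOf_toM (r : Fin 4 → F) (c : Fin 3 → F) (B : Matrix (Fin 3) (Fin 3) F) :
    rOf (toM r c B) = r := by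
  ext j; fin_cases j <;> rfl
theorem cOf_toM (r : Fin 4 → F) (c : Fin 3 → F) (B : Matrix (Fin 3) (Fin 3) F) :
    cOf (toM r c B) = c := by
  ext j; fin_cases j <;> rfl
theorem bOf_toM (r : Fin 4 → F) (c : Fin 3 → F) (B : Matrix (Fin 3) (Fin 3) F) :
    bOf (toM r c B) = B := by
  ext i j; fin_cases i <;> fin_cases j <;> rfl

theorem zmod2_cases (a : F) : a = 0 ∨ a = 1 := by
  revert a; decide

theorem eq_toM (M : M5) (hs : Shape M) (hd : M.det = 1) : M = toM (rOf M) (cOf M) (bOf M) := by
  obtain ⟨h1, h2, h3⟩ := hs
  have h00 : M 0 0 = 1 := by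
    rcases zmod2_cases (M 0 0) with h | h
    · exfalso
      have : M.det = 0 := by
        apply Matrix.det_eq_zero_of_column_eq_zero 0
        intro i
        by_cases hi : i = 0
        · rw [hi, h]
        · exact h3 i hi
      rw [this] at hd
      exact zero_ne_one hd
    · exact h
  have h11 : M 1 1 = 1 := by rw [← h1, h00]
  ext i j
  fin_cases i <;> fin_cases j <;>
    first
    | rfl
    | exact h00
    | exact h11
    | exact h2 _ (by decide)
    | exact h3 _ (by decide)

/-- In the special linear group of dimension 5 over the field with two elements, the centraliser of a transvection has order 21504 = 2 ^ 7 · 168 (it is an extension of an extraspecial group of order 2 ^ 7 by the simple group of order 168). -/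
theorem result (s : Matrix.SpecialLinearGroup (Fin 5) (ZMod 2)) (hs : (s : Matrix (Fin 5) (Fin 5) (ZMod 2)) = Matrix.transvection 0 1 1) : Nat.card (Subgroup.centralizer ({s} : Set (Matrix.SpecialLinearGroup (Fin 5) (ZMod 2)))) = 21504 := by
  have hmem : ∀ g : SpecialLinearGroup (Fin 5) F, g ∈ Subgroup.centralizer ({s} : Set (SpecialLinearGroup (Fin 5) F)) ↔ Shape (g : M5) := by
    intro g
    rw [Subgroup.mem_centralizer_singleton_iff, ← comm_iff, ← hs]
    constructor
    · intro h
      have := congrArg (fun x : SpecialLinearGroup (Fin 5) F => (x : M5)) h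
      simpa using this
    · intro h
      apply Subtype.ext
      simpa using h
  let e : (Subgroup.centralizer ({s} : Set (SpecialLinearGroup (Fin 5) F))) ≃
      (Fin 4 → F) × (Fin 3 → F) × SpecialLinearGroup (Fin 3) F :=
    { toFun := fun g => (rOf (g.1 : M5), cOf (g.1 : M5), ⟨bOf (g.1 : M5), by
        have h := eq_toM (g.1 : M5) ((hmem g.1).mp g.2) g.1.2
        have h2 := g.1.2
        rw [h, det_toM] at h2
        exact h2⟩)
      invFun := fun p => ⟨⟨toM p.1 p.2.1 p.2.2.1, by rw [det_toM]; exact p.2.2.2⟩,
        (hmem _).mpr (shape_toM _ _ _)⟩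
      left_inv := by
        intro g
        apply Subtype.ext
        apply Subtype.ext
        exact (eq_toM (g.1 : M5) ((hmem g.1).mp g.2) g.1.2).symm
      right_inv := by
        rintro ⟨r, c, B, hB⟩
        simp only [rOf_toM, cOf_toM, bOf_toM] }
  rw [Nat.card_congr e, Nat.card_eq_fintype_card, Fintype.card_prod, Fintype.card_prod, cardSL3]
  simp [ZMod.card]

end Cfsg.Agent.S0445
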