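import Cfsg.Statements.S0447
import Cfsg.Agent.Lib.Helper66.DoubleCover
import Cfsg.Agent.Lib.Helper66.AltClifford
import Cfsg.Agent.Lib.Helper66.AltInvol

set_option autoImplicit false
open Cfsg

namespace Cfsg.Agent.S0447

open Equiv Equiv.Perm Cfsg.Agent.Lib.Helper66.AltInvol
open scoped commutatorElement

theorem finish {H : Type*} [Group H] [Finite H] {n : ℕ} (π : H →* Perm (Fin n))
    (hker : π.ker = Subgroup.center H) (hZ : Nat.card (Subgroup.center H) = 2)
    (hstar : ∀ y : H, π y * π y = 1 → y * y = 1) (hrange : ∀ σ, sign σ = 1 → ∃ y, π y = σ)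
    (hns : ∀ L : Subgroup H, ¬ (Subgroup.center H).IsComplement' L)
    (k j : ℕ) (hk : 0 < k)
    (hcard : Nat.card H = 2 * (2 * (2 * k)) * j) (hj : ¬ 2 ∣ j)
    (σ τ : Perm (Fin n)) (h1 : sign σ = 1) (h2 : sign τ = 1) (hs : σ * σ = 1) (ht : τ * τ = 1)
    (ho : orderOf (σ * τ) = 2 * k) (hnot : σ ∉ Subgroup.zpowers (σ * τ)) : False := by
  obtain ⟨s, rfl⟩ := hrange σ h1
  obtain ⟨t, rfl⟩ := hrange τ h2
  obtain ⟨L, hL⟩ := exists_complement π hker hZ hstar k j hk hcard hj s t hs ht
    (by rw [map_mul]; exact ho) (by rw [map_mul]; exact hnot)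
  exact hns L hL

theorem part1 (n : ℕ) (H : Type) [Group H] [Finite H] (hn : n ≤ 7)
    (hH : Cfsg.IsNonsplitDoubleCover H (alternatingGroup (Fin n))) (x : H) (hx : orderOf x = 2) :
    x ∈ Subgroup.center H := by
  obtain ⟨hZ, ⟨e⟩, hns⟩ := hH
  obtain ⟨π, hπ⟩ : ∃ π : H →* Perm (Fin n), ∀ y, π y = (e (QuotientGroup.mk y) : Perm (Fin n)) :=
    ⟨(alternatingGroup (Fin n)).subtype.comp
      (e.toMonoidHom.comp (QuotientGroup.mk' (Subgroup.center H))), fun _ => rfl⟩
  have hker : π.ker = Subgroup.center H := by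
    ext y
    rw [MonoidHom.mem_ker, hπ, OneMemClass.coe_eq_one, EmbeddingLike.map_eq_one_iff,
      QuotientGroup.eq_one_iff]
  have hrange : ∀ σ, sign σ = 1 → ∃ y, π y = σ := by
    intro σ hσ
    obtain ⟨q, hq⟩ := e.surjective ⟨σ, mem_alternatingGroup.mpr hσ⟩
    obtain ⟨y, rfl⟩ := QuotientGroup.mk_surjective q
    exact ⟨y, by rw [hπ, hq]⟩
  have hsign : ∀ y, sign (π y) = 1 := by
    intro y
    rw [hπ]
    exact mem_alternatingGroup.mp (e (QuotientGroup.mk y)).2
  by_contra hxc
  have hxx : x * x = 1 := by rw [← sq, ← hx, pow_orderOf_eq_one]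
  have ht1 : π x ≠ 1 := by
    intro h
    exact hxc (hker ▸ (MonoidHom.mem_ker.mpr h))
  have ht2 : π x * π x = 1 := by rw [← map_mul, hxx, map_one]
  obtain ⟨hct, h4⟩ := cycleType_of_even_involution hn (π x) ht1 ht2 (hsign x)
  have hcsq : ∀ c ∈ Subgroup.center H, c * c = 1 := by
    intro c hc
    have h1 : (⟨c, hc⟩ : Subgroup.center H) ^ Nat.card (Subgroup.center H) = 1 := pow_card_eq_one'
    rw [hZ, sq] at h1
    exact congrArg Subtype.val h1
  have hstar : ∀ y : H, π y * π y = 1 → y * y = 1 := by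
    intro y hy
    by_cases hy1 : π y = 1
    · exact hcsq y (hker ▸ (MonoidHom.mem_ker.mpr hy1))
    · obtain ⟨hcy, -⟩ := cycleType_of_even_involution hn (π y) hy1 hy (hsign y)
      obtain ⟨g, hg1, hg2⟩ := exists_even_conj (π y) (π x) (by rw [hcy, hct]) ht1 ht2
      obtain ⟨g, rfl⟩ := hrange g hg1
      have hc : (g * x * g⁻¹)⁻¹ * y ∈ Subgroup.center H := by
        rw [← hker, MonoidHom.mem_ker, map_mul, map_inv, map_mul, map_mul, map_inv, hg2,
          inv_mul_cancel]
      have hy' : y = (g * x * g⁻¹) * ((g * x * g⁻¹)⁻¹ * y) := by group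
      have hcomm := Subgroup.mem_center_iff.mp hc (g * x * g⁻¹)
      have hgx : (g * x * g⁻¹) * (g * x * g⁻¹) = 1 := by
        calc (g * x * g⁻¹) * (g * x * g⁻¹) = g * (x * x) * g⁻¹ := by group
          _ = 1 := by rw [hxx]; group
      generalize (g * x * g⁻¹)⁻¹ * y = c at hc hy' hcomm
      generalize g * x * g⁻¹ = u at hy' hcomm hgx
      rw [hy']
      calc u * c * (u * c) = u * (c * u) * c := by group
        _ = u * (u * c) * c := by rw [hcomm]
        _ = (u * u) * (c * c) := by group
        _ = 1 := by rw [hgx, hcsq c hc, one_mul]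
  have hnt : Nontrivial (Fin n) := Fin.nontrivial_iff_two_le.mpr (by omega)
  have hcard : Nat.card H = n.factorial := by
    rw [Subgroup.card_eq_card_quotient_mul_card_subgroup (Subgroup.center H), hZ,
      Nat.card_congr e.toEquiv, mul_comm, two_mul_nat_card_alternatingGroup, Nat.card_perm,
      Nat.card_eq_fintype_card, Fintype.card_fin]
  interval_cases n
  · refine finish π hker hZ hstar hrange hns 1 3 one_pos (by rw [hcard]; rfl) (by decide)
      (swap 0 1 * swap 2 3) (swap 0 2 * swap 1 3) (by decide) (by decide) (by decide) (by decide)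
      ?_ ?_
    · exact orderOf_eq_prime (p := 2) (by decide) (by decide)
    · rw [mem_zpowers_iff_mem_range_orderOf, orderOf_eq_prime (p := 2) (by decide) (by decide)]
      decide
  · refine finish π hker hZ hstar hrange hns 1 15 one_pos (by rw [hcard]; rfl) (by decide)
      (swap 0 1 * swap 2 3) (swap 0 2 * swap 1 3) (by decide) (by decide) (by decide) (by decide)
      ?_ ?_
    · exact orderOf_eq_prime (p := 2) (by decide) (by decide)
    · rw [mem_zpowers_iff_mem_range_orderOf, orderOf_eq_prime (p := 2) (by decide) (by decide)]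
      decide
  · refine finish π hker hZ hstar hrange hns 2 45 two_pos (by rw [hcard]; rfl) (by decide)
      (swap 0 2 * swap 4 5) (swap 0 1 * swap 2 3) (by decide) (by decide) (by decide) (by decide)
      ?_ ?_
    · exact orderOf_eq_prime_pow (p := 2) (n := 1) (by decide) (by decide)
    · rw [mem_zpowers_iff_mem_range_orderOf,
        orderOf_eq_prime_pow (p := 2) (n := 1) (by decide) (by decide)]
      decide
  · refine finish π hker hZ hstar hrange hns 2 315 two_pos (by rw [hcard]; rfl) (by decide)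
      (swap 0 2 * swap 4 5) (swap 0 1 * swap 2 3) (by decide) (by decide) (by decide) (by decide)
      ?_ ?_
    · exact orderOf_eq_prime_pow (p := 2) (n := 1) (by decide) (by decide)
    · rw [mem_zpowers_iff_mem_range_orderOf,
        orderOf_eq_prime_pow (p := 2) (n := 1) (by decide) (by decide)]
      decide

theorem commute_of_sq {Γ : Type*} [Group Γ] (z a b : Γ) (hz : ∀ g, g * z = z * g) (hz2 : z * z = 1)
    (ha : a * a = z) (hb : b * b = z) (hab : (a * b) * (a * b) = z) : b * a = a * b * z := by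
  have h1 : b * a * b = a := by
    apply mul_left_cancel (a := a)
    rw [ha, ← hab]
    group
  calc b * a = b * a * (z * z) := by rw [hz2, mul_one]
    _ = b * a * (b * b) * z := by rw [hb]; group
    _ = (b * a * b) * b * z := by group
    _ = a * b * z := by rw [h1]

theorem abc_sq {Γ : Type*} [Group Γ] (z a b c : Γ) (hz : ∀ g, g * z = z * g) (hz2 : z * z = 1)
    (ha : a * a = z) (hb : b * b = z) (hc : c * c = z) (hab : (a * b) * (a * b) = z)
    (hac : (a * c) * (a * c) = z) (hbc : (b * c) * (b * c) = z) :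
    (a * b * c) * (a * b * c) = 1 := by
  have hba := commute_of_sq z a b hz hz2 ha hb hab
  have hca := commute_of_sq z a c hz hz2 ha hc hac
  have hcomm : (b * c) * a = a * (b * c) := by
    calc (b * c) * a = b * (c * a) := by group
      _ = b * (a * c * z) := by rw [hca]
      _ = (b * a) * c * z := by group
      _ = (a * b * z) * c * z := by rw [hba]
      _ = a * b * (z * c) * z := by group
      _ = a * b * (c * z) * z := by rw [hz c]
      _ = a * b * c * (z * z) := by group
      _ = a * (b * c) := by rw [hz2]; group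
  calc (a * b * c) * (a * b * c) = a * ((b * c) * a) * (b * c) := by group
    _ = a * (a * (b * c)) * (b * c) := by rw [hcomm]
    _ = (a * a) * ((b * c) * (b * c)) := by group
    _ = 1 := by rw [ha, hbc, hz2]

theorem exists_noncentral_involution {Γ K : Type*} [Group Γ] [Group K] (π : Γ →* K) (z : Γ)
    (hz : ∀ g, g * z = z * g) (hz2 : z * z = 1) (hz1 : z ≠ 1)
    (hker : ∀ x, π x = 1 → x = 1 ∨ x = z) (a b c : Γ)
    (h : ∀ g ∈ ({a, b, c, a * b, a * c, b * c, a * b * c} : Set Γ), π g ≠ 1 ∧ π g * π g = 1) :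
    ∃ x, x * x = 1 ∧ π x ≠ 1 := by
  by_contra hcon
  push Not at hcon
  have key : ∀ g ∈ ({a, b, c, a * b, a * c, b * c, a * b * c} : Set Γ), g * g = z := by
    intro g hg
    obtain ⟨h1, h2⟩ := h g hg
    rcases hker (g * g) (by rw [map_mul, h2]) with h3 | h3
    · exact absurd (hcon g h3) h1
    · exact h3
  have h1 := abc_sq z a b c hz hz2 (key a (by simp)) (key b (by simp)) (key c (by simp))
    (key _ (by simp)) (key _ (by simp)) (key _ (by simp))
  rw [key (a * b * c) (by simp)] at h1
  exact hz1 h1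

theorem part2 : ∃ (H : Type) (_ : Group H) (_ : Finite H),
    Cfsg.IsNonsplitDoubleCover H (alternatingGroup (Fin 8)) ∧
      ∃ x y : H, x ≠ y ∧ orderOf x = 2 ∧ orderOf y = 2 := by
  obtain ⟨X, _, ξ, hsurj, hξ, w, hw1, hw2, hw⟩ :=
    Cfsg.Agent.Lib.Helper66.AltClifford.exists_central_extension 8 (by norm_num)
  obtain ⟨Γ, _, hfin, π, z, hπ, hzc, hz2, hzd, hker⟩ :=
    Cfsg.Agent.Lib.Helper66.exists_double_cover (alternatingGroup (Fin 8)) ξ hsurj hξ w hw1 hw2 hw
  have hcen : Subgroup.center Γ = π.ker := by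
    apply le_antisymm
    · intro x hx
      have h1 : π x ∈ Subgroup.center (alternatingGroup (Fin 8)) := by
        rw [Subgroup.mem_center_iff]
        intro g
        obtain ⟨g, rfl⟩ := hπ g
        rw [← map_mul, ← map_mul, Subgroup.mem_center_iff.mp hx g]
      rw [alternatingGroup.center_eq_bot (by simp)] at h1
      exact h1
    · rw [hker, Subgroup.zpowers_le]
      exact hzc
  have hzz : z * z = 1 := by rw [← sq, ← hz2, pow_orderOf_eq_one]
  have hz1 : z ≠ 1 := by
    rintro rfl
    simp at hz2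
  have hker' : ∀ x, π x = 1 → x = 1 ∨ x = z := by
    intro x hx
    have h1 : x ∈ Subgroup.zpowers z := hker ▸ (MonoidHom.mem_ker.mpr hx)
    classical
    rw [mem_zpowers_iff_mem_range_orderOf, hz2] at h1
    simp only [Finset.mem_image, Finset.mem_range] at h1
    obtain ⟨i, hi, rfl⟩ := h1
    interval_cases i
    · left; simp
    · right; simp
  refine ⟨Γ, inferInstance, hfin, ⟨?_, ?_, ?_⟩, ?_⟩
  · rw [hcen, hker, Nat.card_zpowers, hz2]
  · exact ⟨(QuotientGroup.quotientMulEquivOfEq hcen).trans
      (QuotientGroup.quotientKerEquivOfSurjective π hπ)⟩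
  · intro L hL
    have hidx : L.index = 2 := by
      rw [hL.index_eq_card, hcen, hker, Nat.card_zpowers, hz2]
    have hLn : L.Normal := Subgroup.normal_of_index_eq_two hidx
    have hcomm : commutator Γ ≤ L := by
      rw [commutator_def, Subgroup.commutator_le]
      intro a _ b _
      rw [commutatorElement_def, Subgroup.mul_mem_iff_of_index_two hidx, inv_mem_iff]
      constructor
      · intro h
        have := hLn.conj_mem _ h a⁻¹
        simpa [mul_assoc] using this
      · intro h
        exact hLn.conj_mem _ h a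
    have h1 : z ∈ Subgroup.center Γ ⊓ L := ⟨hzc, hcomm hzd⟩
    rw [hL.disjoint.eq_bot] at h1
    exact hz1 h1
  · obtain ⟨π', hπ'⟩ : ∃ π' : Γ →* Perm (Fin 8), ∀ y, π' y = (π y : Perm (Fin 8)) :=
      ⟨(alternatingGroup (Fin 8)).subtype.comp π, fun _ => rfl⟩
    have hlift : ∀ σ : Perm (Fin 8), sign σ = 1 → ∃ y, π' y = σ := by
      intro σ hσ
      obtain ⟨y, hy⟩ := hπ ⟨σ, mem_alternatingGroup.mpr hσ⟩
      exact ⟨y, by rw [hπ', hy]⟩
    obtain ⟨a, ha⟩ := hlift (swap 0 1 * swap 2 3 * swap 4 5 * swap 6 7) (by decide)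
    obtain ⟨b, hb⟩ := hlift (swap 0 2 * swap 1 3 * swap 4 6 * swap 5 7) (by decide)
    obtain ⟨c, hc⟩ := hlift (swap 0 4 * swap 1 5 * swap 2 6 * swap 3 7) (by decide)
    obtain ⟨x, hx1, hx2⟩ := exists_noncentral_involution π' z
      (fun g => Subgroup.mem_center_iff.mp hzc g) hzz hz1
      (fun x hx => hker' x (by rw [hπ', OneMemClass.coe_eq_one] at hx; exact hx)) a b c (by
        intro g hg
        simp only [Set.mem_insert_iff, Set.mem_singleton_iff] at hg
        rcases hg with rfl | rfl | rfl | rfl | rfl | rfl | rfl <;>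
          simp only [map_mul, ha, hb, hc] <;> exact ⟨by decide, by decide⟩)
    refine ⟨x, z, ?_, ?_, hz2⟩
    · rintro rfl
      apply hx2
      rw [hπ', OneMemClass.coe_eq_one]
      have h3 : x ∈ π.ker := hker ▸ Subgroup.mem_zpowers x
      exact h3
    · apply orderOf_eq_prime
      · rw [sq]; exact hx1
      · rintro rfl
        exact hx2 (map_one _)

/-- Involutions in double covers of alternating groups: for n ≤ 7, a finite non-split double cover of the alternating group of degree n has exactly one element of order 2 (the central one); for degree 8 there is a non-split double cover with two distinct involutions. -/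
theorem result : (∀ (n : ℕ) (H : Type) (_ : Group H) (_ : Finite H), n ≤ 7 → Cfsg.IsNonsplitDoubleCover H (alternatingGroup (Fin n)) → ∀ x y : H, orderOf x = 2 → orderOf y = 2 → x = y) ∧ ∃ (H : Type) (_ : Group H) (_ : Finite H), Cfsg.IsNonsplitDoubleCover H (alternatingGroup (Fin 8)) ∧ ∃ x y : H, x ≠ y ∧ orderOf x = 2 ∧ orderOf y = 2 := by
  refine ⟨?_, part2⟩
  intro n H _ _ hn hH x y hx hy
  have hxc := part1 n H hn hH x hx
  have hyc := part1 n H hn hH y hy
  obtain ⟨u, -, hu⟩ := (Nat.card_eq_two_iff' (1 : Subgroup.center H)).mp hH.1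
  have h1 : (⟨x, hxc⟩ : Subgroup.center H) = u := by
    apply hu
    intro h
    have : x = 1 := congrArg Subtype.val h
    rw [this] at hx
    simp at hx
  have h2 : (⟨y, hyc⟩ : Subgroup.center H) = u := by
    apply hu
    intro h
    have : y = 1 := congrArg Subtype.val h
    rw [this] at hy
    simp at hy
  exact congrArg Subtype.val (h1.trans h2.symm)

end Cfsg.Agent.S0447
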