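import Cfsg.Statements.S1689
import Cfsg.Agent.Lib.Helper40.Fi.L10f
import Cfsg.Agent.Lib.Helper40.Fi.F23Pg
import Cfsg.Agent.Lib.Helper40.Fi.F23Po
import Cfsg.Agent.Lib.Helper40.PresRank3

set_option autoImplicit false
open Cfsg

namespace Cfsg.Agent.S1689

open Cfsg.Agent.Lib.Helper40.PE in
theorem H_eq : ((Subgroup.closure ({Cfsg.Spor.Fi23.a, Cfsg.Spor.Fi23.b, Cfsg.Spor.Fi23.c, Cfsg.Spor.Fi23.d, Cfsg.Spor.Fi23.e, Cfsg.Spor.Fi23.f, Cfsg.Spor.Fi23.g, Cfsg.Spor.Fi23.h, Cfsg.Spor.Fi23.i} : Set (FreeGroup Cfsg.Spor.Fi23.Gen))).map (PresentedGroup.mk (Cfsg.Spor.coxRelators Cfsg.Spor.Fi23.edges ∪ {r | r ∈ Cfsg.Spor.Fi23.extra}))) = Hs F23.s F23P.Sw := by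
  rw [MonoidHom.map_closure]
  apply le_antisymm
  · rw [Subgroup.closure_le]
    rintro _ ⟨x, hx, rfl⟩
    simp only [Set.mem_insert_iff, Set.mem_singleton_iff] at hx
    rcases hx with rfl | rfl | rfl | rfl | rfl | rfl | rfl | rfl | rfl
    · exact Subgroup.subset_closure ⟨[8], by simp [F23P.Sw], by simp; rfl⟩
    · exact Subgroup.subset_closure ⟨[5], by simp [F23P.Sw], by simp; rfl⟩
    · exact Subgroup.subset_closure ⟨[0], by simp [F23P.Sw], by simp; rfl⟩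
    · exact Subgroup.subset_closure ⟨[1], by simp [F23P.Sw], by simp; rfl⟩
    · exact Subgroup.subset_closure ⟨[2], by simp [F23P.Sw], by simp; rfl⟩
    · exact Subgroup.subset_closure ⟨[4], by simp [F23P.Sw], by simp; rfl⟩
    · exact Subgroup.subset_closure ⟨[7], by simp [F23P.Sw], by simp; rfl⟩
    · exact Subgroup.subset_closure ⟨[3], by simp [F23P.Sw], by simp; rfl⟩
    · exact Subgroup.subset_closure ⟨[6], by simp [F23P.Sw], by simp; rfl⟩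
  · unfold Hs
    rw [Subgroup.closure_le]
    rintro _ ⟨w, hw, rfl⟩
    simp only [F23P.Sw, List.mem_cons, List.not_mem_nil, or_false] at hw
    rcases hw with rfl | rfl | rfl | rfl | rfl | rfl | rfl | rfl | rfl
    · exact Subgroup.subset_closure ⟨Cfsg.Spor.Fi23.c, by simp, by simp; rfl⟩
    · exact Subgroup.subset_closure ⟨Cfsg.Spor.Fi23.d, by simp, by simp; rfl⟩
    · exact Subgroup.subset_closure ⟨Cfsg.Spor.Fi23.e, by simp, by simp; rfl⟩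
    · exact Subgroup.subset_closure ⟨Cfsg.Spor.Fi23.h, by simp, by simp; rfl⟩
    · exact Subgroup.subset_closure ⟨Cfsg.Spor.Fi23.f, by simp, by simp; rfl⟩
    · exact Subgroup.subset_closure ⟨Cfsg.Spor.Fi23.b, by simp, by simp; rfl⟩
    · exact Subgroup.subset_closure ⟨Cfsg.Spor.Fi23.i, by simp, by simp; rfl⟩
    · exact Subgroup.subset_closure ⟨Cfsg.Spor.Fi23.g, by simp, by simp; rfl⟩
    · exact Subgroup.subset_closure ⟨Cfsg.Spor.Fi23.a, by simp, by simp; rfl⟩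

open Cfsg.Agent.Lib.Helper40.PE in
theorem good : F23P.P.Good F23.B := ⟨F23P.ptAll, F23.B_letters, F23.B_kk⟩

open Cfsg.Agent.Lib.Helper40.PE in
theorem main : (Hs F23.s F23P.Sw).index = 31671 ∧ ∃ q1 q2 : Cfsg.Spor.Fi23 ⧸ Hs F23.s F23P.Sw,
      (MulAction.orbit (Hs F23.s F23P.Sw) q1).ncard = 28160 ∧
      (MulAction.orbit (Hs F23.s F23P.Sw) q2).ncard = 3510 := by
  obtain ⟨ρ, hρ⟩ := F23.exists_rho (p := F23P.P) rfl good
  have hcov := L10.cov (s := F23.s) F23.s_inv F23.s_B (Hs F23.s F23P.Sw) (fun w hw => wp_mem_Hs _ hw)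
  have hub := card_quot_le_of_cover (H := Hs F23.s F23P.Sw) (N := 31671) _
    (fun g => hcov g (by rw [F23.pre_top]; trivial))
  exact rank3 (n1 := 28161) good hρ (by decide +kernel) hub (by decide) (by decide) F23P.orb0 F23P.orb1
    F23P.orb2 [9] [9, 7, 4, 2, 1, 0, 3, 1, 2, 4, 7, 9] (by decide) (by decide) F23P.root1 F23P.root2

/-- In the presented Fischer group Fi₂₃, let H be the subgroup generated by the images of a, …, i. Then H has index 31671, H has orbits of sizes 3510 and 28160 on the cosets of H other than H itself. -/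
theorem result : (((Subgroup.closure ({Cfsg.Spor.Fi23.a, Cfsg.Spor.Fi23.b, Cfsg.Spor.Fi23.c, Cfsg.Spor.Fi23.d, Cfsg.Spor.Fi23.e, Cfsg.Spor.Fi23.f, Cfsg.Spor.Fi23.g, Cfsg.Spor.Fi23.h, Cfsg.Spor.Fi23.i} : Set (FreeGroup Cfsg.Spor.Fi23.Gen))).map (PresentedGroup.mk (Cfsg.Spor.coxRelators Cfsg.Spor.Fi23.edges ∪ {r | r ∈ Cfsg.Spor.Fi23.extra})))).index = 31671 ∧ ∃ q₁ q₂ : Cfsg.Spor.Fi23 ⧸ (((Subgroup.closure ({Cfsg.Spor.Fi23.a, Cfsg.Spor.Fi23.b, Cfsg.Spor.Fi23.c, Cfsg.Spor.Fi23.d, Cfsg.Spor.Fi23.e, Cfsg.Spor.Fi23.f, Cfsg.Spor.Fi23.g, Cfsg.Spor.Fi23.h, Cfsg.Spor.Fi23.i} : Set (FreeGroup Cfsg.Spor.Fi23.Gen))).map (PresentedGroup.mk (Cfsg.Spor.coxRelators Cfsg.Spor.Fi23.edges ∪ {r | r ∈ Cfsg.Spor.Fi23.extra})))), (MulAction.orbit (((Subgroup.closure ({Cfsg.Spor.Fi23.a, Cfsg.Spor.Fi23.b, Cfsg.Spor.Fi23.c, Cfsg.Spor.Fi23.d, Cfsg.Spor.Fi23.e, Cfsg.Spor.Fi23.f, Cfsg.Spor.Fi23.g,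 Cfsg.Spor.Fi23.h, Cfsg.Spor.Fi23.i} : Set (FreeGroup Cfsg.Spor.Fi23.Gen))).map (PresentedGroup.mk (Cfsg.Spor.coxRelators Cfsg.Spor.Fi23.edges ∪ {r | r ∈ Cfsg.Spor.Fi23.extra})))) q₁).ncard = 3510 ∧ (MulAction.orbit (((Subgroup.closure ({Cfsg.Spor.Fi23.a, Cfsg.Spor.Fi23.b, Cfsg.Spor.Fi23.c, Cfsg.Spor.Fi23.d, Cfsg.Spor.Fi23.e, Cfsg.Spor.Fi23.f, Cfsg.Spor.Fi23.g, Cfsg.Spor.Fi23.h, Cfsg.Spor.Fi23.i} : Set (FreeGroup Cfsg.Spor.Fi23.Gen))).map (PresentedGroup.mk (Cfsg.Spor.coxRelators Cfsg.Spor.Fi23.edges ∪ {r | r ∈ Cfsg.Spor.Fi23.extra})))) q₂).ncard = 28160 := by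
  rw [H_eq]
  obtain ⟨h1, q1, q2, h2, h3⟩ := main
  exact ⟨h1, q2, q1, h3, h2⟩

end Cfsg.Agent.S1689
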