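import Cfsg.Statements.S0472
import Cfsg.Agent.S1688
import Cfsg.Agent.S1689
import Cfsg.Agent.S1696
import Cfsg.Agent.S1697
import Cfsg.Agent.Lib.Helper40.PresTransp

set_option autoImplicit false
open Cfsg

namespace Cfsg.Agent.S0472

open Cfsg.Agent.Lib.Helper40.PE Cfsg.Agent.S1697

/-- The Fischer group of order 4089470473293004800 exists as a 3-transposition group: a simple group of that order generated by a conjugacy class of 31671 3-transpositions, the centraliser of each being a non-split double cover of a simple group of order 64561751654400. -/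
theorem result : ∃ (G : Type) (_ : Group G) (_ : Finite G), Cfsg.IsFi23 G ∧ ∃ D : Set G, Cfsg.IsThreeTranspositionClass D ∧ Nat.card D = 31671 ∧ ∀ d ∈ D, ∃ (K : Type) (_ : Group K), Cfsg.IsFi22 K ∧ Cfsg.IsNonsplitDoubleCover (Subgroup.centralizer ({d} : Set G)) K := by
  obtain ⟨hfin, hub⟩ := upper
  obtain ⟨ρ, hρ⟩ := F23.exists_rho (p := F23P.P) rfl F23P.good
  obtain ⟨hcard, hbot⟩ := order_of_bounds hfin hub (F23P.lower hρ) (by norm_num)
  have htrans := F23P.trans hρ
  have hbN : ∀ b ∈ F23P.base, b < F23P.P.N := by decide +kernel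
  have hZ := PTab.center_trivial F23P.good hρ hbot hbN F23.pre_top (by decide) (A' := 9)
    (by decide) F23P.fix0 F23P.mov htrans
  -- `H` centralises the transposition `t0`
  have hc : ∀ h ∈ Hs F23.s F23P.Sw, h * wp F23.s t0w = wp F23.s t0w * h := by
    intro h hh
    induction hh using Subgroup.closure_induction with
    | mem x hx =>
      obtain ⟨w, hw, rfl⟩ := hx
      have key : ∀ w ∈ F23P.Sw, (∀ k ∈ w ++ t0w, k < F23P.P.A) ∧
          (∀ k ∈ t0w ++ w, k < F23P.P.A) ∧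
          allL (fun b => Nat.beq (F23P.P.walk (w ++ t0w).reverse b)
            (F23P.P.walk (t0w ++ w).reverse b)) F23P.base = true := by decide +kernel
      obtain ⟨k1, k2, k3⟩ := key w hw
      have := PTab.wp_eq_of_base F23P.good hρ hbot hbN (w ++ t0w) (t0w ++ w) k1 k2 k3
      rwa [wp_append, wp_append] at this
    | one => simp
    | mul x y _ _ hx hy => rw [mul_assoc, hy, ← mul_assoc, hx, mul_assoc]
    | inv x _ hx =>
      calc x⁻¹ * wp F23.s t0w = x⁻¹ * (wp F23.s t0w * x) * x⁻¹ := by group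
        _ = x⁻¹ * (x * wp F23.s t0w) * x⁻¹ := by rw [hx]
        _ = wp F23.s t0w * x⁻¹ := by group
  have hgen := closure_conj_top F23.pre_top conj_all
  have hcov := L10.cov (s := F23.s) F23.s_inv F23.s_B (Hs F23.s F23P.Sw) (fun w hw => wp_mem_Hs _ hw)
  have hub' := card_quot_le_of_cover (H := Hs F23.s F23P.Sw) (N := 31671) _
    (fun g => hcov g (by rw [F23.pre_top]; trivial))
  have hSw : ∀ w ∈ F23P.Sw, ∀ k ∈ w, k < F23P.P.A := by decide +kernel
  have hprim : MulAction.IsPreprimitive Cfsg.Spor.Fi23 (Cfsg.Spor.Fi23 ⧸ Hs F23.s F23P.Sw) :=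
    rank3_prim (n1 := 28161) F23P.good hρ hSw hub' (by decide) (by decide)
      F23P.orb0 F23P.orb1 F23P.orb2 [9] [9, 7, 4, 2, 1, 0, 3, 1, 2, 4, 7, 9] (by decide) (by decide)
      F23P.root1 F23P.root2 (by decide) (by decide)
  obtain ⟨m0, -⟩ := PTab.orb_spec (s := F23.s) F23P.good hρ hSw (by decide) F23P.orb0
  obtain ⟨-, t1⟩ := PTab.orb_spec (s := F23.s) F23P.good hρ hSw (by decide) F23P.orb1
  obtain ⟨-, t2⟩ := PTab.orb_spec (s := F23.s) F23P.good hρ hSw le_rfl F23P.orb2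
  have hfix := fix_of_orb m0
  obtain ⟨hidx, hinj, hlt⟩ := index_of_bounds hub' hfix htrans
  have e1 : ρ (wp F23.s [9])⁻¹ 0 = 1 := by
    rw [PTab.rho_wp_inv F23P.good hρ [9] (by decide) 0 (by decide), F23P.root1]
  have e2 : ρ (wp F23.s [9, 7, 4, 2, 1, 0, 3, 1, 2, 4, 7, 9])⁻¹ 0 = 28161 := by
    rw [PTab.rho_wp_inv F23P.good hρ [9, 7, 4, 2, 1, 0, 3, 1, 2, 4, 7, 9] (by decide) 0 (by decide),
      F23P.root2]
  have hdc := dc_of_rank3 hfix hinj hlt t1 t2 e1 e2
  -- word identities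
  have widen : ∀ w : List ℕ, (∀ k ∈ w, k < F23P.P.A) →
      allL (fun b => Nat.beq (F23P.P.walk w.reverse b) (F23P.P.walk ([] : List ℕ).reverse b))
        F23P.base = true → wp F23.s w = 1 := fun w h1 h2 =>
    PTab.wp_eq_of_base F23P.good hρ hbot hbN w [] h1 (by simp) h2
  have ht : wp F23.s t0w * wp F23.s t0w = 1 := by
    rw [← wp_append]
    exact widen _ (by decide +kernel) (by decide +kernel)
  have h3 : (wp F23.s t0w * ((wp F23.s [9])⁻¹ * wp F23.s t0w * (wp F23.s [9])⁻¹⁻¹)) ^ 3 = 1 := by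
    rw [inv_inv, ← wp_reverse _ F23.s_inv, ← wp_append, ← wp_append, ← wp_append,
      ← wp_flatten_replicate]
    exact widen _ (by decide +kernel) (by decide +kernel)
  have h2 : (wp F23.s t0w * ((wp F23.s [9, 7, 4, 2, 1, 0, 3, 1, 2, 4, 7, 9])⁻¹ * wp F23.s t0w *
      (wp F23.s [9, 7, 4, 2, 1, 0, 3, 1, 2, 4, 7, 9])⁻¹⁻¹)) ^ 2 = 1 := by
    rw [inv_inv, ← wp_reverse _ F23.s_inv, ← wp_append, ← wp_append, ← wp_append,
      ← wp_flatten_replicate]
    exact widen _ (by decide +kernel) (by decide +kernel)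
  have hne : wp F23.s t0w ≠ 1 := by
    intro h
    have h5 : (⊤ : Subgroup Cfsg.Spor.Fi23) = ⊥ := by
      rw [← hgen, Subgroup.closure_eq_bot_iff]
      rintro _ ⟨a, rfl⟩
      rw [h]; simp
    have h6 : Nat.card Cfsg.Spor.Fi23 = 1 := by
      rw [← Nat.card_congr (Subgroup.topEquiv (G := Cfsg.Spor.Fi23)).toEquiv, h5]
      simp
    rw [hcard] at h6
    norm_num at h6
  have hHtop : Hs F23.s F23P.Sw ≠ ⊤ := by
    intro h
    rw [h, Subgroup.index_top] at hidx
    norm_num at hidx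
  have hC := centralizer_eq hc hHtop hZ hne
  refine ⟨Cfsg.Spor.Fi23, inferInstance, hfin, Cfsg.Agent.S1697.result, conjugatesOf (wp F23.s t0w),
    ⟨⟨?_, transp_of_dc hc ht hdc h3 h2⟩, ⟨_, mem_conjugatesOf_self, rfl⟩, ?_⟩, ?_, ?_⟩
  · intro d hd
    obtain ⟨a, rfl⟩ := isConj_iff.mp (show IsConj (wp F23.s t0w) d from hd)
    apply orderOf_eq_prime
    · rw [conj_pow, pow_two, ht]; simp
    · intro h
      apply hne
      calc wp F23.s t0w = a⁻¹ * (a * wp F23.s t0w * a⁻¹) * a := by group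
        _ = 1 := by rw [h]; simp
  · rw [← hgen]
    apply le_antisymm
    · apply Subgroup.closure_mono
      intro x hx
      obtain ⟨a, rfl⟩ := isConj_iff.mp (show IsConj (wp F23.s t0w) x from hx)
      exact ⟨a, rfl⟩
    · apply Subgroup.closure_mono
      rintro _ ⟨a, rfl⟩
      exact isConj_iff.mpr ⟨a, rfl⟩
  · rw [card_conjugates hc hC, hidx]
  · intro d hd
    obtain ⟨a, rfl⟩ := isConj_iff.mp (show IsConj (wp F23.s t0w) d from hd)
    refine ⟨Cfsg.Spor.Fi22, inferInstance, Cfsg.Agent.S1696.result, ?_⟩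
    apply nonsplit_congr (centralizerConj a (wp F23.s t0w))
    apply nonsplit_congr (MulEquiv.subgroupCongr (Cfsg.Agent.S1689.H_eq.trans hC.symm))
    exact Cfsg.Agent.S1688.result

end Cfsg.Agent.S0472
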