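import Cfsg.Statements.S0473
import Cfsg.Agent.Lib.Helper30.Fi24.Fi24Sub

set_option autoImplicit false
open Cfsg

namespace Cfsg.Agent.S0473

open Cfsg.Agent.Lib.Helper28 Cfsg.Agent.Lib.Helper30.Fi24 Cfsg.Agent.Lib.Helper30.Fi24.F306936

/-- The largest Fischer 3-transposition group: a group of order 2 · 1255205709190661721292800 generated by a conjugacy class of 306936 3-transpositions, in which a transposition centraliser has order 2 · 4089470473293004800 and contains a simple subgroup of order 4089470473293004800; its subgroup of index 2 is simple and contains simple subgroups of orders 4089470473293004800 and 4030387200. -/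
theorem result : ∃ (G : Type) (_ : Group G) (_ : Finite G), Nat.card G = 2 * 1255205709190661721292800 ∧ ∃ D : Set G, Cfsg.IsThreeTranspositionClass D ∧ Nat.card D = 306936 ∧ (∀ d ∈ D, Nat.card (Subgroup.centralizer ({d} : Set G)) = 2 * 4089470473293004800 ∧ ∃ K : Subgroup G, K ≤ Subgroup.centralizer ({d} : Set G) ∧ Cfsg.IsFi23 K) ∧ ∃ H : Subgroup G, H.index = 2 ∧ Cfsg.IsFi24' H ∧ (∃ K : Subgroup H, Cfsg.IsFi23 K) ∧ (∃ K : Subgroup H, Cfsg.IsHe K) := by
  refine ⟨Q.Grp, inferInstance, finite_grp, by rw [card_inj.1], conjugatesOf (Q.val 0),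
    ⟨⟨?_, transp⟩, ⟨Q.val 0, mem_conjugatesOf_self, rfl⟩, closure_conj⟩, ?_, ?_,
    commutator Q.Grp, Cfsg.Agent.S1691.result, ⟨simple_commutator, card_commutator⟩, ?_, ?_⟩
  · intro d hd
    obtain ⟨a, rfl⟩ := isConj_iff.mp (show IsConj (Q.val 0) d from hd)
    apply orderOf_eq_prime
    · rw [conj_pow, pow_two, l_sq]; simp
    · intro h
      apply l_ne_one
      calc Q.val 0 = a⁻¹ * (a * Q.val 0 * a⁻¹) * a := by group
        _ = 1 := by rw [h]; simp
  · rw [Cfsg.Agent.Lib.Helper40.PE.card_conjugates central_l centralizer_l, ok.index.1]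
    rfl
  · intro d hd
    obtain ⟨a, rfl⟩ := isConj_iff.mp (show IsConj (Q.val 0) d from hd)
    constructor
    · rw [← Nat.card_congr (Cfsg.Agent.Lib.Helper40.PE.centralizerConj a (Q.val 0)).toEquiv, centralizer_l, card_H]
    · obtain ⟨f, hf, hc⟩ := exists_fi23
      refine ⟨(f.range).map (MulAut.conj a).toMonoidHom, ?_, ?_⟩
      · rintro _ ⟨_, ⟨u, rfl⟩, rfl⟩
        rw [Subgroup.mem_centralizer_singleton_iff]
        show a * f u * a⁻¹ * (a * Q.val 0 * a⁻¹) = a * Q.val 0 * a⁻¹ * (a * f u * a⁻¹)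
        calc a * f u * a⁻¹ * (a * Q.val 0 * a⁻¹) = a * (f u * Q.val 0) * a⁻¹ := by group
          _ = a * (Q.val 0 * f u) * a⁻¹ := by rw [hc u]
          _ = _ := by group
      · let E := (MonoidHom.ofInjective hf).trans
          (Subgroup.equivMapOfInjective f.range (MulAut.conj a).toMonoidHom (MulAut.conj a).injective)
        have hs := fi23_simple.1
        exact ⟨E.symm.isSimpleGroup, by rw [← Nat.card_congr E.toEquiv]; exact fi23_simple.2⟩
  · obtain ⟨f, hf, -⟩ := exists_fi23
    exact exists_sub_of_embedding fi23_simple.1 _ fi23_simple.2 (by norm_num) f hf _ Cfsg.Agent.S1691.result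
  · obtain ⟨f, hf⟩ := exists_he
    exact exists_sub_of_embedding he_simple.1 _ he_simple.2 (by norm_num) f hf _ Cfsg.Agent.S1691.result

end Cfsg.Agent.S0473
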