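import Cfsg.Statements.S0557
import Cfsg.Agent.Lib.Helper10.Card

set_option autoImplicit false
open Cfsg

namespace Cfsg.Agent.S0557

open Cfsg.Agent.Lib.Helper10
open scoped commutatorElement

theorem focal_mono {G : Type*} [Group G] {H K : Subgroup G} (h : H ≤ K) :
    H.focalSubgroup ≤ K.focalSubgroup := by
  rw [Subgroup.focalSubgroup_def, Subgroup.focalSubgroup_def]
  apply Subgroup.closure_mono
  rintro g ⟨hg, x, hx, u, rfl⟩
  exact ⟨h hg, x, h hx, u, rfl⟩

theorem focal_map_le {G : Type*} [Group G] (G₁ : Subgroup G) (K : Subgroup G₁) :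
    K.focalSubgroup.map G₁.subtype ≤ (K.map G₁.subtype).focalSubgroup := by
  rw [Subgroup.focalSubgroup_def, Subgroup.focalSubgroup_def, MonoidHom.map_closure]
  apply Subgroup.closure_mono
  rintro _ ⟨g, ⟨hg, x, hx, u, rfl⟩, rfl⟩
  exact ⟨⟨_, hg, rfl⟩, x, ⟨x, hx, rfl⟩, u, by simp [commutatorElement_def]⟩

theorem focal_iter_map_le {G : Type*} [Group G] (G₁ : Subgroup G) (n : ℕ) (K : Subgroup G₁) :
    ((fun K : Subgroup G₁ => Subgroup.focalSubgroup K)^[n] K).map G₁.subtype ≤
      (fun K : Subgroup G => Subgroup.focalSubgroup K)^[n] (K.map G₁.subtype) := by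
  induction n with
  | zero => simp
  | succ n ih =>
    rw [Function.iterate_succ_apply', Function.iterate_succ_apply']
    exact (focal_map_le G₁ _).trans (focal_mono ih)

/-- membership in a normal Hall subgroup -/
theorem mem_of_pow_card_eq_one {G : Type*} [Group G] [Finite G] (N : Subgroup G) [N.Normal]
    (h : (Nat.card N).Coprime N.index) (x : G) (hx : x ^ Nat.card N = 1) : x ∈ N := by
  rw [← QuotientGroup.eq_one_iff]
  have h1 : (x : G ⧸ N) ^ Nat.card N = 1 := by rw [← QuotientGroup.mk_pow, hx]; rfl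
  have h2 : orderOf (x : G ⧸ N) ∣ Nat.card N := orderOf_dvd_of_pow_eq_one h1
  have h3 : orderOf (x : G ⧸ N) ∣ N.index := by
    rw [Subgroup.index_eq_card]; exact orderOf_dvd_natCard _
  have h4 := Nat.eq_one_of_dvd_coprimes h h2 h3
  exact orderOf_eq_one_iff.mp h4

theorem aux (n : ℕ) : ∀ (G : Type*) [Group G] [Finite G] (H : Subgroup G),
    (Nat.card H).Coprime H.index →
    (fun K : Subgroup G => Subgroup.focalSubgroup K)^[n] H = ⊥ →
    ∃ N : Subgroup G, N.Normal ∧ Subgroup.IsComplement' N H := by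
  induction n with
  | zero =>
    intro G _ _ H _ hfoc
    have : H = ⊥ := hfoc
    exact ⟨⊤, inferInstance, this ▸ Subgroup.isComplement'_top_bot⟩
  | succ n ih =>
    intro G _ _ H hHall hfoc
    rw [Function.iterate_succ_apply] at hfoc
    set Hs := H.focalSubgroup with hHs
    have hHsH : Hs ≤ H := H.focalSubgroup_le
    set V := H.transferFocal with hV
    set G₁ := V.ker with hG₁
    have hcopQ : (Nat.card (H ⧸ H.focalSubgroupOf)).Coprime H.index :=
      Nat.Coprime.coprime_dvd_left (Subgroup.card_quotient_dvd_card _) hHall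
    have hbij := hcopQ.pow_left_bijective
    have hVH : ∀ x : H, V x = (x : H ⧸ H.focalSubgroupOf) ^ H.index := H.transferFocal_eq_pow
    have h1 : Hs ≤ G₁ := by
      intro x hx
      rw [hG₁, MonoidHom.mem_ker]
      have := hVH ⟨x, hHsH hx⟩
      have h2 : ((⟨x, hHsH hx⟩ : H) : H ⧸ H.focalSubgroupOf) = 1 := by
        rw [QuotientGroup.eq_one_iff, Subgroup.focalSubgroupOf_def, Subgroup.mem_subgroupOf]
        exact hx
      rw [h2, one_pow] at this
      exact this
    have h2 : G₁ ⊓ H ≤ Hs := by
      intro x hx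
      have h3 := hVH ⟨x, hx.2⟩
      have h4 : V x = 1 := hx.1
      have h5 : ((⟨x, hx.2⟩ : H) : H ⧸ H.focalSubgroupOf) ^ H.index = 1 ^ H.index := by
        rw [one_pow, ← h3]; exact h4
      have h6 := hbij.1 h5
      rw [QuotientGroup.eq_one_iff, Subgroup.focalSubgroupOf_def, Subgroup.mem_subgroupOf] at h6
      exact h6
    have hinf : G₁ ⊓ H = Hs := le_antisymm h2 (le_inf h1 hHsH)
    have hsup : G₁ ⊔ H = ⊤ := by
      rw [eq_top_iff]
      intro g _
      obtain ⟨q, hq⟩ := hbij.2 (V g)
      obtain ⟨h, rfl⟩ := QuotientGroup.mk_surjective q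
      have h3 : V (h : G) = V g := by rw [hVH]; exact hq
      have h4 : g * (h : G)⁻¹ ∈ G₁ := by
        rw [hG₁, MonoidHom.mem_ker, map_mul, map_inv, h3, mul_inv_cancel]
      have : g = (g * (h : G)⁻¹) * h := by group
      rw [this]
      exact mul_mem (Subgroup.mem_sup_left h4) (Subgroup.mem_sup_right h.2)
    -- cardinalities
    have e1 := card_sup_mul_card_inf' G₁ H Subgroup.le_normalizer_of_normal
    rw [hsup, hinf, Subgroup.card_top, ← Subgroup.card_mul_index H] at e1
    have e2 : Nat.card Hs * H.index = Nat.card G₁ := by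
      apply Nat.eq_of_mul_eq_mul_left (Nat.card_pos : 0 < Nat.card H)
      rw [mul_comm (Nat.card H) (Nat.card G₁), ← e1]; ring
    set H₁ : Subgroup G₁ := Hs.subgroupOf G₁ with hH₁
    have cH₁ : Nat.card H₁ = Nat.card Hs := Nat.card_congr (Subgroup.subgroupOfEquivOfLe h1).toEquiv
    have iH₁ : H₁.index = H.index := by
      have := Subgroup.card_mul_index H₁
      rw [cH₁, ← e2] at this
      exact Nat.eq_of_mul_eq_mul_left Nat.card_pos this
    have hHall₁ : (Nat.card H₁).Coprime H₁.index := by
      rw [cH₁, iH₁]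
      exact Nat.Coprime.coprime_dvd_left (Subgroup.card_dvd_of_le hHsH) hHall
    have hfoc₁ : (fun K : Subgroup G₁ => Subgroup.focalSubgroup K)^[n] H₁ = ⊥ := by
      have := focal_iter_map_le G₁ n H₁
      rw [hH₁, Subgroup.map_subgroupOf_eq_of_le h1, hfoc, le_bot_iff] at this
      exact (Subgroup.map_eq_bot_iff_of_injective _ G₁.subtype_injective).mp this
    obtain ⟨N₁, hN₁n, hN₁c⟩ := ih G₁ H₁ hHall₁ hfoc₁
    have cN₁ : Nat.card N₁ = H.index := by rw [← iH₁]; exact hN₁c.index_eq_card.symm
    have iN₁ : N₁.index = Nat.card H₁ := hN₁c.symm.index_eq_card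
    have hcopN : (Nat.card N₁).Coprime N₁.index := by
      rw [cN₁, iN₁, ← iH₁]; exact hHall₁.symm
    refine ⟨N₁.map G₁.subtype, ?_, ?_⟩
    · constructor
      rintro _ ⟨x, hx, rfl⟩ g
      have hG₁n : G₁.Normal := inferInstance
      have hmem : g * (x : G) * g⁻¹ ∈ G₁ := hG₁n.conj_mem x x.2 g
      refine ⟨⟨g * (x : G) * g⁻¹, hmem⟩, ?_, rfl⟩
      apply mem_of_pow_card_eq_one N₁ hcopN
      have hx1 : x ^ Nat.card N₁ = 1 := by
        have := pow_card_eq_one' (G := N₁) (x := ⟨x, hx⟩)
        exact congrArg Subtype.val this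
      apply Subtype.ext
      have hx2 : (x : G) ^ Nat.card N₁ = 1 := by
        have := congrArg Subtype.val hx1
        simpa using this
      show (g * (x : G) * g⁻¹) ^ Nat.card N₁ = 1
      rw [conj_pow, hx2]; group
    · have cN : Nat.card (N₁.map G₁.subtype) = H.index := by
        rw [Subgroup.card_map_of_injective G₁.subtype_injective, cN₁]
      apply Subgroup.isComplement'_of_coprime
      · rw [cN, mul_comm]; exact Subgroup.card_mul_index H
      · rw [cN]; exact hHall.symm

/-- Let H be a subgroup of a finite group G with order coprime to its index. If iterating the focal-subgroup construction starting from H reaches the trivial subgroup after finitely many steps, then H has a normal complement in G. -/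
theorem result {G : Type*} [Group G] [Finite G] (H : Subgroup G) (hHall : (Nat.card H).Coprime H.index) (n : ℕ) (hfoc : (fun K : Subgroup G => Subgroup.focalSubgroup K)^[n] H = ⊥) : ∃ N : Subgroup G, N.Normal ∧ Subgroup.IsComplement' N H := by
  exact aux n G H hHall hfoc

end Cfsg.Agent.S0557
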