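import Cfsg.Statements.S0614
import Cfsg.Agent.Lib.Helper48.FF4
import Cfsg.Agent.S0611

set_option autoImplicit false
open Cfsg

namespace Cfsg.Agent.S0614

/-- The commutator of the p'-core with a minimal nontrivially-acting best offender is a 3-group (when p = 2) or a non-abelian 2-group (when p = 3). -/
theorem result {G : Type*} [Group G] [Finite G] {p : ℕ} [Fact p.Prime] (V H : Subgroup G) (hV : Cfsg.IsElementaryAbelian p V) (hHV : H ≤ Subgroup.normalizer (V : Set G)) (hf : H ⊓ Subgroup.centralizer (V : Set G) = ⊥) (hS1 : Subgroup.centralizer (Cfsg.pPrimeCore p ↥H : Set ↥H) ≤ Cfsg.pPrimeCore p ↥H) (hS3 : H = ⨆ A : {A : Subgroup G // A ≤ H ∧ Cfsg.IsBestOffenderOn p V A}, (A : Subgroup G)) (hH1 : H ≠ ⊥) (A : Subgroup G) (hAH : A ≤ H) (hA : Cfsg.IsBestOffenderOn p V A) (hAV : ⁅V, A⁆ ≠ ⊥) (hmin : ∀ B : Subgroup G, B ≤ A → Cfsg.IsBestOffenderOn p V B → ⁅V, B⁆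 ≠ ⊥ → B = A) : (p = 2 ∧ IsPGroup 3 ↥(⁅((Cfsg.pPrimeCore p ↥H).map H.subtype), A⁆)) ∨ (p = 3 ∧ IsPGroup 2 ↥(⁅((Cfsg.pPrimeCore p ↥H).map H.subtype), A⁆) ∧ ¬ IsMulCommutative ↥(⁅((Cfsg.pPrimeCore p ↥H).map H.subtype), A⁆)) := by
  obtain ⟨h1, h2, -⟩ := Cfsg.Agent.S0611.result V H hV hHV hf hS1 hS3 hH1 A hAH hA hAV hmin
  have hMO : Cfsg.Agent.Lib.Helper48.MO p V H A := ⟨⟨hV, hHV, hf, hS1⟩, hAH, h1, h2⟩
  have hR := hMO.isPGroup_R
  rcases hMO.prime_cases with rfl | rfl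
  · left
    exact ⟨rfl, hR⟩
  · right
    refine ⟨rfl, hR, ?_⟩
    intro hc
    obtain ⟨y, hy, y', hy', hne⟩ := hMO.not_comm_R
    apply hne
    have := hc.is_comm.comm ⟨y, hy⟩ ⟨y', hy'⟩
    exact congrArg Subtype.val this

end Cfsg.Agent.S0614
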