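import Cfsg.Statements.S0619
import Cfsg.Agent.Lib.Helper50.FFTransport
import Cfsg.Agent.Lib.Helper48.PSolvDual
import Cfsg.Agent.Lib.Helper69.PSolv
import Cfsg.Agent.S0606
-- import your own Cfsg.Agent.* helpers here

set_option autoImplicit false
open Cfsg

namespace Cfsg.Agent.S0619

open Subgroup Cfsg.Agent.Lib.Helper10 Cfsg.Agent.Lib.Helper50 in
/-- `A₀ V` is again of maximal order, where `A₀ = C_A(V)`. -/
theorem sup_mem_maxEA {G : Type*} [Group G] [Finite G] {p : ℕ} [Fact p.Prime] (hsep : Cfsg.IsPSolvable p G)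
    (V : Subgroup G) [V.Normal] (hV : Cfsg.IsElementaryAbelian p V)
    (hO : Cfsg.pCore p (G ⧸ Subgroup.centralizer (V : Set G)) = ⊥) (A : Subgroup G)
    (hA : A ∈ Cfsg.maxElementaryAbelianSubgroups p G) :
    (A ⊓ centralizer (V : Set G)) ⊔ V ∈ Cfsg.maxElementaryAbelianSubgroups p G := by
  set C := centralizer (V : Set G) with hC
  have hVab := (isEA_iff.mp hV).1
  have hAab := (isEA_iff.mp hA.1).1
  have hVC : V ≤ C := by
    intro v hv
    rw [hC, mem_centralizer_iff]
    intro u hu
    exact hVab u hu v hv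
  have hS1 : centralizer (Cfsg.pPrimeCore p (G ⧸ C) : Set (G ⧸ C)) ≤ Cfsg.pPrimeCore p (G ⧸ C) :=
    Cfsg.Agent.Lib.Helper48.centralizer_pPrimeCore_le
      (Cfsg.Agent.Lib.Helper69.isPSolvable_of_surj (QuotientGroup.mk' C) (QuotientGroup.mk'_surjective C) hsep) hO
  have hoff := offSetup_hol V hV hS1
  have hbest := bestOffender_map V (Cfsg.Agent.S0606.result V hV A hA)
  have hmm := hoff.mm_eq_card _ (A.map (holPsi V)) rfl (map_le_range _ _) hbest
  unfold mm at hmm
  rw [card_holV_inf_centralizer_map] at hmm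
  have hcV : Nat.card (holV V) = Nat.card V :=
    Nat.card_congr (MonoidHom.ofInjective SemidirectProduct.inl_injective).symm.toEquiv
  rw [hcV] at hmm
  have hk := card_map_mul_card_inf_ker (holPsi V) A
  rw [holPsi_ker] at hk
  -- `C_V(A) = A ∩ V`
  have hCV : V ⊓ centralizer (A : Set G) = A ⊓ V := by
    apply le_antisymm
    · intro x hx
      refine ⟨?_, hx.1⟩
      have hxp : x ^ p = 1 := hV.2 x hx.1
      have hea : Cfsg.IsElementaryAbelian p (A ⊔ zpowers x) := by
        apply IsEA.sup hA.1 (isEA_zpowers hxp)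
        intro a ha b hb
        obtain ⟨m, rfl⟩ := mem_zpowers_iff.mp hb
        have : Commute a x := (mem_centralizer_iff.mp hx.2 a ha)
        exact (this.zpow_right m).eq
      have hle := hA.2 _ hea
      have : A = A ⊔ zpowers x := by
        apply eq_of_le_of_card_ge le_sup_left hle
      rw [this]
      exact mem_sup_right (mem_zpowers x)
    · intro x hx
      refine ⟨hx.2, ?_⟩
      refine mem_centralizer_iff.mpr ?_
      intro a ha
      exact hAab a ha x hx.1
  rw [hCV] at hmm
  set A₀ := A ⊓ C with hA₀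
  have hA₀V : A₀ ⊓ V = A ⊓ V := by
    rw [hA₀, inf_assoc, inf_eq_right.mpr hVC]
  have hs := card_sup_mul_card_inf A₀ V (le_trans le_top (normalizer_eq_top_iff.mpr inferInstance).ge)
  rw [hA₀V] at hs
  have hea : Cfsg.IsElementaryAbelian p (A₀ ⊔ V) := by
    apply IsEA.sup (IsEA.mono hA.1 inf_le_left) hV
    intro a ha v hv
    exact (mem_centralizer_iff.mp ha.2 v hv).symm
  refine ⟨hea, fun B hB => le_trans (hA.2 B hB) (le_of_eq ?_)⟩
  have hpos : 0 < Nat.card ↥(A ⊓ V) := Nat.card_pos
  apply Nat.eq_of_mul_eq_mul_right hpos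
  rw [hs, ← hk, ← hmm, inf_comm C A]
  ring

/-- For a p-separable group and a normal elementary abelian p-subgroup V with no nontrivial normal p-subgroup modulo its centralizer C, the Thompson subgroup J(G) moves Ω₁(Z(J(C))) only inside V. -/
theorem result {G : Type*} [Group G] [Finite G] {p : ℕ} [Fact p.Prime] (hsep : Cfsg.IsPSolvable p G) (V : Subgroup G) [V.Normal] (hV : Cfsg.IsElementaryAbelian p V) (hO : Cfsg.pCore p (G ⧸ Subgroup.centralizer (V : Set G)) = ⊥) : ⁅Cfsg.omegaOne p (Cfsg.centerThompsonOf p (Subgroup.centralizer (V : Set G))), Cfsg.thompsonSubgroup p G⁆ ≤ V := by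
  classical
  set C := Subgroup.centralizer (V : Set G) with hC
  set JC := Cfsg.thompsonSubgroupOf p C with hJC
  set W := Cfsg.omegaOne p (Cfsg.centerThompsonOf p C) with hW
  have hWZ : W ≤ Cfsg.centerThompsonOf p C := by
    rw [hW]; unfold Cfsg.omegaOne
    rw [Subgroup.closure_le]
    intro x hx; exact hx.1
  have hVab := (Cfsg.Agent.Lib.Helper10.isEA_iff.mp hV).1
  have hVC : V ≤ C := by
    intro v hv
    rw [hC, Subgroup.mem_centralizer_iff]
    intro u hu
    exact hVab u hu v hv
  -- `W` is elementary abelian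
  have hWcomm : ∀ x ∈ W, ∀ y ∈ W, x * y = y * x := by
    intro x hx y hy
    have h1 := (hWZ hx).2
    have h2 := (hWZ hy).1
    exact (Subgroup.mem_centralizer_iff.mp h1 y h2).symm
  have hWea : Cfsg.IsElementaryAbelian p W := by
    rw [Cfsg.Agent.Lib.Helper10.isEA_iff]
    refine ⟨hWcomm, ?_⟩
    intro x hx
    have hx' := hx
    rw [hW] at hx
    unfold Cfsg.omegaOne at hx
    induction hx using Subgroup.closure_induction with
    | mem y hy => exact hy.2
    | one => exact one_pow _
    | mul a b ha hb iha ihb =>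
      have ha' : a ∈ W := by rw [hW]; exact ha
      have hb' : b ∈ W := by rw [hW]; exact hb
      rw [(show Commute a b from hWcomm a ha' b hb').mul_pow, iha ha', ihb hb', one_mul]
    | inv a ha iha =>
      have ha' : a ∈ W := by rw [hW]; exact ha
      rw [inv_pow, iha ha', inv_one]
  -- reduce to a single `A`
  set K : Subgroup G := (Subgroup.centralizer ((W.map (QuotientGroup.mk' V)) : Set (G ⧸ V))).comap (QuotientGroup.mk' V) with hK
  have key : ∀ A ∈ Cfsg.maxElementaryAbelianSubgroups p G, A ≤ K := by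
    intro A hA
    have hB := sup_mem_maxEA hsep V hV hO A hA
    set B := (A ⊓ C) ⊔ V with hBdef
    have hBC : B ≤ C := sup_le inf_le_right hVC
    have hBJ : B ≤ JC := Cfsg.Agent.Lib.Helper10.le_thompsonSubgroupOf hB hBC
    have hWB : W ≤ B := by
      have hea : Cfsg.IsElementaryAbelian p (B ⊔ W) := by
        apply Cfsg.Agent.Lib.Helper10.IsEA.sup hB.1 hWea
        intro b hb w hw
        exact (Subgroup.mem_centralizer_iff.mp (hWZ hw).2 b (hBJ hb))
      have hle := hB.2 _ hea
      have : B = B ⊔ W := Subgroup.eq_of_le_of_card_ge le_sup_left hle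
      rw [this]; exact le_sup_right
    intro a ha
    rw [hK, Subgroup.mem_comap, Subgroup.mem_centralizer_iff]
    rintro _ ⟨w, hw, rfl⟩
    have hwB := hWB hw
    rw [hBdef, Subgroup.mem_sup_of_normal_right] at hwB
    obtain ⟨a₀, ha₀, v, hv, rfl⟩ := hwB
    have hAab := (Cfsg.Agent.Lib.Helper10.isEA_iff.mp hA.1).1
    have h1 : (QuotientGroup.mk' V) v = 1 := (QuotientGroup.eq_one_iff v).mpr hv
    rw [map_mul, h1, mul_one, ← map_mul, ← map_mul, hAab a₀ ha₀.1 a ha]
  have hJK : Cfsg.thompsonSubgroup p G ≤ K := by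
    unfold Cfsg.thompsonSubgroup
    exact sSup_le key
  rw [Subgroup.commutator_le]
  intro w hw j hj
  have h := hJK hj
  rw [hK, Subgroup.mem_comap, Subgroup.mem_centralizer_iff] at h
  have h2 := h _ (Subgroup.mem_map_of_mem (QuotientGroup.mk' V) hw)
  rw [← QuotientGroup.eq_one_iff, commutatorElement_def]
  have e : ((w * j * w⁻¹ * j⁻¹ : G) : G ⧸ V) = (QuotientGroup.mk' V w) * (QuotientGroup.mk' V j) * (QuotientGroup.mk' V w)⁻¹ * (QuotientGroup.mk' V j)⁻¹ := by
    simp
  rw [e, h2]
  group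

end Cfsg.Agent.S0619
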