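import Cfsg.Statements.S0638
import Cfsg.Agent.Lib.Helper29.Metacyclic

set_option autoImplicit false
open Cfsg

namespace Cfsg.Agent.S0638

/-- For odd p, in a non-cyclic metacyclic p-group the elements of order dividing p generate an elementary abelian subgroup of order p². -/
theorem result {R : Type*} [Group R] [Finite R] {p : ℕ} [Fact p.Prime] (hp : p ≠ 2) (hR : IsPGroup p R) (hm : Cfsg.IsMetacyclic R) (hnc : ¬ IsCyclic R) : Cfsg.IsElementaryAbelian p (Cfsg.omegaOne p (⊤ : Subgroup R)) ∧ Nat.card ↥(Cfsg.omegaOne p (⊤ : Subgroup R)) = p ^ 2 := by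
  obtain ⟨N, hNn, hN, hQ⟩ := hm
  obtain ⟨A, h1, h2, h3, h4⟩ := Cfsg.Agent.Lib.Helper29.exists_omega_of_metacyclic hp hR N hN hQ hnc
  have hA : Cfsg.omegaOne p (⊤ : Subgroup R) = A := by
    unfold Cfsg.omegaOne
    apply le_antisymm
    · rw [Subgroup.closure_le]
      rintro x ⟨-, hx⟩
      exact h4 x hx
    · intro a ha
      exact Subgroup.subset_closure ⟨Subgroup.mem_top a, h2 a ha⟩
  rw [hA]
  exact ⟨⟨h1, h2⟩, h3⟩

end Cfsg.Agent.S0638
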