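import Cfsg.Statements.S0666
import Cfsg.Agent.Lib.Helper52.FrobAction
import Cfsg.Agent.S0035

set_option autoImplicit false
open Cfsg

namespace Cfsg.Agent.S0666

open Subgroup Cfsg.Agent.Lib.Helper52
open scoped Pointwise

/-- A Frobenius group acting on a nontrivial abelian group of order prime to that of its kernel, with the kernel acting without nontrivial fixed points, has a complement with a nontrivial fixed point. -/
theorem result {G : Type*} [Group G] [Finite G] (V F : Subgroup G) (hVab : IsMulCommutative V) (hV1 : V ≠ ⊥) (hFV : F ≤ Subgroup.normalizer (V : Set G)) (H : Subgroup ↥F) (hH : Cfsg.IsFrobeniusComplement H) (hcop : (Nat.card V).Coprime (Nat.card (Cfsg.frobeniusKernel H))) (hCK : V ⊓ Subgroup.centralizer (Subtype.val '' Cfsg.frobeniusKernel H : Set G) = ⊥) : V ⊓ Subgroup.centralizer ((H.map F.subtype : Subgroup G) : Set G) ≠ ⊥ := by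
  intro hCH
  obtain ⟨N, hN, hNn, hNH⟩ := Cfsg.Agent.S0035.result H hH
  let _ : CommGroup V := { (inferInstance : Group V) with mul_comm := fun a b => mul_comm' a b }
  let act : MulDistribMulAction F V := MulDistribMulAction.compHom V (Subgroup.inclusion hFV)
  have hsmul : ∀ (a : F) (v : V), ((a • v : V) : G) = (a : G) * v * (a : G)⁻¹ := fun a v => rfl
  have hcomm : ∀ (a : F) (v : V), a • v = v → (a : G) * v = v * a := by
    intro a v hv
    have h3 := congrArg (fun x : V => (x : G)) hv
    simp only [hsmul] at h3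
    rwa [mul_inv_eq_iff_eq_mul] at h3
  have key := pow_card_eq_one_of_frobenius (V := V) N H ?_ ?_ ?_
  · apply hV1
    rw [eq_bot_iff]
    intro v hv
    have h1 := key ⟨v, hv⟩
    have h2 : orderOf (⟨v, hv⟩ : V) ∣ Nat.card N := orderOf_dvd_of_pow_eq_one h1
    have h3 : orderOf (⟨v, hv⟩ : V) ∣ Nat.card V := orderOf_dvd_natCard _
    have h4 : Nat.card N = Nat.card (Cfsg.frobeniusKernel H) :=
      congrArg (fun s : Set F => Nat.card s) hN
    rw [h4] at h2
    have h5 := Nat.eq_one_of_dvd_coprimes hcop h3 h2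
    rw [orderOf_eq_one_iff] at h5
    exact congrArg Subtype.val h5
  · intro h hh hh1 n hn hnh
    by_contra hn1
    have hnH : n ∉ H := by
      intro hnH
      have := hNH.disjoint.le_bot (mem_inf.2 ⟨hn, hnH⟩)
      exact hn1 this
    have h1 := hH.2.2 n hnH
    have h2 : h ∈ H ⊓ (MulAut.conj n • H) := by
      refine mem_inf.2 ⟨hh, ?_⟩
      rw [Subgroup.mem_pointwise_smul_iff_inv_smul_mem]
      have : (MulAut.conj n)⁻¹ • h = h := by
        simp only [MulAut.smul_def, MulAut.conj_inv_apply]
        rw [mul_assoc, ← hnh]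
        group
      rw [this]
      exact hh
    rw [h1] at h2
    exact hh1 h2
  · intro v hv
    have h1 : (v : G) ∈ V ⊓ Subgroup.centralizer (Subtype.val '' Cfsg.frobeniusKernel H : Set G) := by
      refine mem_inf.2 ⟨v.2, ?_⟩
      rw [mem_centralizer_iff]
      rintro _ ⟨n, hn, rfl⟩
      have hn' : n ∈ N := by
        have : n ∈ (N : Set F) := hN ▸ hn
        exact this
      exact hcomm n v (hv n hn')
    rw [hCK] at h1
    exact Subtype.ext h1
  · intro v hv
    have h1 : (v : G) ∈ V ⊓ Subgroup.centralizer ((H.map F.subtype : Subgroup G) : Set G) := by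
      refine mem_inf.2 ⟨v.2, ?_⟩
      rw [mem_centralizer_iff]
      rintro _ ⟨h, hh, rfl⟩
      exact hcomm h v (hv h hh)
    rw [hCH] at h1
    exact Subtype.ext h1

end Cfsg.Agent.S0666
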