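import Mathlib
import Cfsg.Statements.S0734

set_option autoImplicit false
open Cfsg

namespace Cfsg.Agent.S0734

open scoped Pointwise in
/-- Higman's criterion for primitivity: a transitive action on a finite set is primitive if and only if every non-trivial orbital graph (edges = images of a fixed pair of distinct points) is connected. -/
theorem result {G : Type*} [Group G] {Ω : Type*} [Finite Ω] [MulAction G Ω] [MulAction.IsPretransitive G Ω] [Nontrivial Ω] : MulAction.IsPreprimitive G Ω ↔ ∀ a b : Ω, a ≠ b → (SimpleGraph.fromRel fun x y : Ω => ∃ g : G, g • a = x ∧ g • b = y).Connected := by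
  classical
  constructor
  · intro hprim a b hab
    set Γ := SimpleGraph.fromRel fun x y : Ω => ∃ g : G, g • a = x ∧ g • b = y with hΓ
    have hadj : ∀ (g : G) x y, Γ.Adj x y → Γ.Adj (g • x) (g • y) := by
      intro g x y h
      rw [hΓ, SimpleGraph.fromRel_adj] at h ⊢
      refine ⟨fun h' => h.1 (MulAction.injective g h'), ?_⟩
      rcases h.2 with ⟨u, h1, h2⟩ | ⟨u, h1, h2⟩
      · exact Or.inl ⟨g * u, by rw [mul_smul, h1], by rw [mul_smul, h2]⟩
      · exact Or.inr ⟨g * u, by rw [mul_smul, h1], by rw [mul_smul, h2]⟩
    have hreach : ∀ (g : G) x y, Γ.Reachable x y → Γ.Reachable (g • x) (g • y) := by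
      intro g x y h
      obtain ⟨w⟩ := h
      induction w with
      | nil => exact SimpleGraph.Reachable.refl _
      | cons h _ ih => exact (hadj g _ _ h).reachable.trans ih
    let B : Set Ω := {x | Γ.Reachable a x}
    have hB : MulAction.IsBlock G B := by
      rw [MulAction.isBlock_iff_smul_eq_of_nonempty]
      intro g hne
      obtain ⟨x, hx1, hx2⟩ := hne
      obtain ⟨y, hy, rfl⟩ := hx1
      -- a ~ y, a ~ g y, so g a ~ g y ~ a
      have h1 : Γ.Reachable (g • a) a := (hreach g a y hy).trans (SimpleGraph.Reachable.symm hx2)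
      ext z
      constructor
      · rintro ⟨w, hw, rfl⟩
        exact h1.symm.trans (hreach g a w hw)
      · intro hz
        refine ⟨g⁻¹ • z, ?_, smul_inv_smul g z⟩
        have h2 := hreach g⁻¹ _ _ (h1.trans hz)
        rwa [inv_smul_smul] at h2
    have hBt := hprim.isTrivialBlock_of_isBlock hB
    have haB : a ∈ B := SimpleGraph.Reachable.refl _
    have hbB : b ∈ B := by
      apply SimpleGraph.Adj.reachable
      rw [hΓ, SimpleGraph.fromRel_adj]
      exact ⟨hab, Or.inl ⟨1, one_smul _ _, one_smul _ _⟩⟩
    rcases hBt with h | h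
    · exact absurd (h haB hbB) hab
    · haveI : Nonempty Ω := ⟨a⟩
      refine SimpleGraph.Connected.mk ?_
      intro x y
      have hx : x ∈ B := h ▸ Set.mem_univ x
      have hy : y ∈ B := h ▸ Set.mem_univ y
      exact (SimpleGraph.Reachable.symm hx).trans hy
  · intro hconn
    refine { toIsPretransitive := inferInstance, isTrivialBlock_of_isBlock := ?_ }
    intro B hB
    by_contra hcon
    unfold MulAction.IsTrivialBlock at hcon
    push Not at hcon
    obtain ⟨h1, h2'⟩ := hcon
    obtain ⟨a, ha, b, hb, hab⟩ := h1
    apply h2'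
    have hc := hconn a b hab
    set Γ := SimpleGraph.fromRel fun x y : Ω => ∃ g : G, g • a = x ∧ g • b = y with hΓ
    have hadj : ∀ x y, Γ.Adj x y → x ∈ B → y ∈ B := by
      intro x y h hx
      rw [hΓ, SimpleGraph.fromRel_adj] at h
      rcases h.2 with ⟨u, h1, h2⟩ | ⟨u, h1, h2⟩
      · have : u • B = B := hB.smul_eq_of_mem ha (by rw [h1]; exact hx)
        rw [← this, ← h2]
        exact Set.smul_mem_smul_set hb
      · have : u • B = B := hB.smul_eq_of_mem hb (by rw [h2]; exact hx)
        rw [← this, ← h1]
        exact Set.smul_mem_smul_set ha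
    have hreach : ∀ x y, Γ.Reachable x y → x ∈ B → y ∈ B := by
      intro x y h
      obtain ⟨w⟩ := h
      induction w with
      | nil => exact id
      | cons h _ ih => exact fun hx => ih (hadj _ _ h hx)
    rw [Set.eq_univ_iff_forall]
    intro x
    exact hreach a x (hc.preconnected a x) ha

end Cfsg.Agent.S0734
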