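import Cfsg.Statements.S0741
import Cfsg.Agent.Lib.Helper6.Zas2

set_option autoImplicit false
open Cfsg

namespace Cfsg.Agent.S0741

/-- If the two-point stabilisers of a finite Zassenhaus group of degree `n + 1` have even order `d`, then `2d ≥ n - 1`. -/
theorem result {G Ω : Type*} [Group G] [Finite G] [MulAction G Ω] [Fintype Ω] (hZ : Cfsg.IsZassenhausGroup G Ω) {a b : Ω} (hab : a ≠ b) (heven : Even (Nat.card ↥(MulAction.stabilizer G a ⊓ MulAction.stabilizer G b))) : Fintype.card Ω - 2 ≤ 2 * Nat.card ↥(MulAction.stabilizer G a ⊓ MulAction.stabilizer G b) := by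
  classical
  have hb := Cfsg.Agent.Lib.Helper6.Zas.base_of_zassenhaus hZ
  set H : Subgroup G := MulAction.stabilizer G a ⊓ MulAction.stabilizer G b with hH
  have key := fun c hca hcb => hb.exists_invol_fix_swap hab heven c hca hcb
  choose! T hT2 hTc hTa hTb using key
  set S : Finset Ω := Finset.univ \ {a, b} with hS
  have hScard : S.card = Fintype.card Ω - 2 := by
    rw [hS, Finset.card_univ_sdiff, Finset.card_pair hab]
  have hmemS : ∀ c, c ∈ S ↔ c ≠ a ∧ c ≠ b := by
    intro c
    simp [hS]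
  rw [← hScard]
  rcases S.eq_empty_or_nonempty with hemp | ⟨c0, hc0⟩
  · rw [hemp]; simp
  have hc0' := (hmemS c0).1 hc0
  have : Fintype H := Fintype.ofFinite H
  let T' : Ω → H := fun c => if h : c ∈ S then ⟨T c0 * T c, by
      have hc := (hmemS c).1 h
      constructor
      · show (T c0 * T c) • a = a
        rw [mul_smul, hTa c hc.1 hc.2, hTb c0 hc0'.1 hc0'.2]
      · show (T c0 * T c) • b = b
        rw [mul_smul, hTb c hc.1 hc.2, hTa c0 hc0'.1 hc0'.2]⟩ else 1
  have h1 := Finset.card_le_mul_card_image (f := T') S 2 (by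
    intro y _
    by_contra hlt
    push Not at hlt
    obtain ⟨x1, h1, x2, h2, x3, h3, h12, h13, h23⟩ := Finset.two_lt_card.1 hlt
    rw [Finset.mem_filter] at h1 h2 h3
    have hT : ∀ x x', x ∈ S → x' ∈ S → T' x = T' x' → T x = T x' := by
      intro x x' hx hx' he
      simp only [T', hx, hx', dif_pos] at he
      exact mul_left_cancel (congrArg Subtype.val he)
    have e12 := hT x1 x2 h1.1 h2.1 (h1.2.trans h2.2.symm)
    have e13 := hT x1 x3 h1.1 h3.1 (h1.2.trans h3.2.symm)
    have m1 := (hmemS x1).1 h1.1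
    have m2 := (hmemS x2).1 h2.1
    have m3 := (hmemS x3).1 h3.1
    have hone : T x1 = 1 := hb.three (T x1) x1 x2 x3 h12 h23 h13 (hTc x1 m1.1 m1.2)
      (e12 ▸ hTc x2 m2.1 m2.2) (e13 ▸ hTc x3 m3.1 m3.2)
    have := hTa x1 m1.1 m1.2
    rw [hone, one_smul] at this
    exact hab this)
  have h2 : (S.image T').card ≤ Nat.card H := by
    rw [Nat.card_eq_fintype_card]
    exact Finset.card_le_univ _
  calc S.card ≤ 2 * (S.image T').card := h1
    _ ≤ 2 * Nat.card H := Nat.mul_le_mul_left 2 h2

end Cfsg.Agent.S0741
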