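import Mathlib
import Cfsg.Statements.S0809
import Cfsg.Agent.Lib.Helper14.SL2Four
import Cfsg.Agent.Lib.Helper41.PSL2Trace
import Cfsg.Agent.S2428
import Cfsg.Agent.S2429

set_option autoImplicit false
open Cfsg

namespace Cfsg.Agent.S0809

open Cfsg.Agent.Lib.Helper14
open scoped Pointwise

/-- In SL_2(q), q odd: any two subgroups of order 4 are conjugate, and the normaliser of a subgroup of order 4 has order 2(q − 1) if q ≡ 1 (mod 4) and 2(q + 1) if q ≡ 3 (mod 4); consequently all involutions of PSL_2(q) are conjugate. -/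
theorem result {F : Type*} [Field F] [Fintype F] {q : ℕ} (hF : Fintype.card F = q) (hodd : Odd q) (A : Subgroup (Matrix.SpecialLinearGroup (Fin 2) F)) (hA : Nat.card A = 4) : (∀ B : Subgroup (Matrix.SpecialLinearGroup (Fin 2) F), Nat.card B = 4 → ∃ g : Matrix.SpecialLinearGroup (Fin 2) F, B = A.map (MulAut.conj g).toMonoidHom) ∧ (q % 4 = 1 → Nat.card ↥(Subgroup.normalizer (A : Set (Matrix.SpecialLinearGroup (Fin 2) F))) = 2 * (q - 1)) ∧ (q % 4 = 3 → Nat.card ↥(Subgroup.normalizer (A : Set (Matrix.SpecialLinearGroup (Fin 2) F))) = 2 * (q + 1)) ∧ (∀ x y : Matrix.ProjectiveSpecialLinearGroup (Fin 2) F, orderOf x = 2 → orderOf y = 2 → IsConj x y) := by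
  have hodd' : Fintype.card F % 2 = 1 := by rw [hF]; exact Nat.odd_iff.mp hodd
  have hoddF : Odd (Fintype.card F) := by rw [hF]; exact hodd
  have h2 : (2 : F) ≠ 0 := Cfsg.Agent.Lib.Helper41.two_ne_zero_of_odd_card hodd'
  obtain ⟨x, hx, hAx⟩ := sl2_exists_gen_of_card_four h2 A hA
  have part1 : ∀ B : Subgroup (Matrix.SpecialLinearGroup (Fin 2) F), Nat.card B = 4 →
      ∃ g : Matrix.SpecialLinearGroup (Fin 2) F, B = A.map (MulAut.conj g).toMonoidHom := by
    intro B hB
    obtain ⟨y, hy, hBy⟩ := sl2_exists_gen_of_card_four h2 B hB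
    obtain ⟨P, hP⟩ := sl2_conj_of_sq hodd' x y hx hy
    refine ⟨P, ?_⟩
    rw [hAx, hBy, MonoidHom.map_zpowers, hP]
    rfl
  -- the normaliser of `A` has the same order as that of any other subgroup of order four
  have hcardN : ∀ y : Matrix.SpecialLinearGroup (Fin 2) F, y * y = -1 →
      Nat.card ↥(Subgroup.normalizer (A : Set (Matrix.SpecialLinearGroup (Fin 2) F)))
        = Nat.card ↥(Subgroup.normalizer ((Subgroup.centralizer
          ({y} : Set (Matrix.SpecialLinearGroup (Fin 2) F)) :
            Subgroup (Matrix.SpecialLinearGroup (Fin 2) F)) :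
              Set (Matrix.SpecialLinearGroup (Fin 2) F))) := by
    intro y hy
    obtain ⟨g, hg⟩ := part1 (Subgroup.zpowers y)
      (by rw [Nat.card_zpowers, sl2_orderOf_eq_four h2 y hy])
    rw [← sl2_normalizer_zpowers h2 y hy, hg]
    have : A.map (MulAut.conj g).toMonoidHom = MulAut.conj g • A := rfl
    rw [this, Cfsg.Agent.Lib.Helper41.normalizer_conj_smul]
    exact Nat.card_congr (Subgroup.equivSMul _ _).toEquiv
  refine ⟨part1, ?_, ?_, ?_⟩
  · intro hq
    obtain ⟨i, hi⟩ : IsSquare (-1 : F) := by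
      rw [FiniteField.isSquare_neg_one_iff, hF]; omega
    let d : Matrix.SpecialLinearGroup (Fin 2) F := ⟨!![i, 0; 0, -i], by
      rw [Matrix.det_fin_two_of]
      linear_combination hi⟩
    have hd : d * d = -1 := by
      apply Subtype.ext
      rw [Matrix.SpecialLinearGroup.coe_mul]
      ext a b
      fin_cases a <;> fin_cases b <;> simp [d, Matrix.mul_apply, Fin.sum_univ_two, ← hi]
    rw [hcardN d hd]
    have := (Cfsg.Agent.S2428.result hoddF d rfl rfl (by
      show i ^ 2 ≠ 1
      rw [pow_two, ← hi]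
      intro h
      apply h2
      linear_combination -h)).2.1
    rw [this, hF]
  · intro hq
    obtain ⟨T', hcyc, hcard, -, hcent, -, hN, -, -⟩ := Cfsg.Agent.S2429.result hoddF
    obtain ⟨g₀, hg₀⟩ := hcyc.exists_generator
    have hord : orderOf g₀ = q + 1 := by
      rw [orderOf_eq_card_of_forall_mem_zpowers hg₀, hcard, hF]
    obtain ⟨k, hk⟩ : ∃ k, q + 1 = 4 * k := ⟨(q + 1) / 4, by omega⟩
    have hk0 : k ≠ 0 := by omega
    have hord4 : orderOf (g₀ ^ k) = 4 := by
      rw [orderOf_pow_of_dvd hk0 (by rw [hord, hk]; exact Dvd.intro_left 4 rfl), hord, hk]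
      exact Nat.mul_div_cancel _ (Nat.pos_of_ne_zero hk0)
    set y : Matrix.SpecialLinearGroup (Fin 2) F := ((g₀ ^ k : T') : Matrix.SpecialLinearGroup (Fin 2) F)
      with hy_def
    have hyord : orderOf y = 4 := by
      rw [hy_def, Subgroup.orderOf_coe, hord4]
    have hy4 : y ^ 4 = 1 := by rw [← hyord]; exact pow_orderOf_eq_one y
    have hy1 : y ≠ 1 := by
      intro h
      rw [h, orderOf_one] at hyord
      omega
    have hym1 : y ≠ -1 := by
      intro h
      have h3 : y ^ 2 = 1 := by rw [h, pow_two]; simp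
      have := orderOf_dvd_of_pow_eq_one h3
      rw [hyord] at this
      omega
    have hy := sl2_sq_neg_one_of_pow_four h2 y hy4 hy1 hym1
    rw [hcardN y hy, hcent y (g₀ ^ k : T').2 ?_ ?_, hN, hF]
    · intro h
      exact hy1 (Subtype.ext (by rw [h]; simp))
    · intro h
      exact hym1 (Subtype.ext (by rw [h]; simp))
  · intro a b ha hb
    obtain ⟨X, rfl⟩ := QuotientGroup.mk_surjective a
    obtain ⟨Y, rfl⟩ := QuotientGroup.mk_surjective b
    have key : ∀ Z : Matrix.SpecialLinearGroup (Fin 2) F,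
        orderOf (QuotientGroup.mk Z : Matrix.ProjectiveSpecialLinearGroup (Fin 2) F) = 2 →
        Z * Z = -1 := by
      intro Z hZ
      have h1 : (QuotientGroup.mk Z : Matrix.ProjectiveSpecialLinearGroup (Fin 2) F) ^ 2 = 1 := by
        have := pow_orderOf_eq_one (QuotientGroup.mk Z : Matrix.ProjectiveSpecialLinearGroup (Fin 2) F)
        rwa [hZ] at this
      have h3 : (QuotientGroup.mk Z : Matrix.ProjectiveSpecialLinearGroup (Fin 2) F) ≠ 1 := by
        intro h
        rw [h, orderOf_one] at hZ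
        omega
      rw [Cfsg.Agent.Lib.Helper41.psl2_pow_eq_one_iff] at h1
      rw [Cfsg.Agent.Lib.Helper41.psl2_mk_ne_one_iff] at h3
      rcases h1 with h1 | h1
      · exfalso
        apply h3
        have : Z * Z = 1 := by
          apply Subtype.ext
          rw [Matrix.SpecialLinearGroup.coe_mul, ← pow_two, h1]; simp
        rcases (Cfsg.Agent.Lib.Helper41.sl2_mul_self_eq_one_iff h2 Z).mp this with h | h
        · left; rw [h]; simp
        · right; rw [h]; simp
      · apply Subtype.ext
        rw [Matrix.SpecialLinearGroup.coe_mul, ← pow_two, h1]; simp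
    obtain ⟨P, hP⟩ := sl2_conj_of_sq hodd' X Y (key X ha) (key Y hb)
    rw [isConj_iff]
    refine ⟨QuotientGroup.mk P, ?_⟩
    rw [hP]
    rfl

end Cfsg.Agent.S0809
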