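import Cfsg.Statements.S0810
import Cfsg.Agent.Lib.Helper41.Dickson.Solv
import Cfsg.Agent.Lib.Helper41.Dickson.A5Exists
import Cfsg.Agent.Lib.Helper14.PSL2Embed

set_option autoImplicit false
set_option linter.style.haveILetI false
open Cfsg

namespace Cfsg.Agent.S0810

open Cfsg.Agent.Lib.Helper41.Dickson

theorem mono (a b : ℕ) (h : a ≤ b) : a * (a ^ 2 - 1) ≤ b * (b ^ 2 - 1) :=
  Nat.mul_le_mul h (Nat.sub_le_sub_right (Nat.pow_le_pow_left h 2) 1)

theorem smono (a b : ℕ) (ha : 2 ≤ a) (h : a < b) : a * (a ^ 2 - 1) < b * (b ^ 2 - 1) := by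
  have h1 : a ^ 2 - 1 ≤ b ^ 2 - 1 := Nat.sub_le_sub_right (Nat.pow_le_pow_left h.le 2) 1
  have h2 : 0 < b ^ 2 - 1 := by
    have : 2 ^ 2 ≤ b ^ 2 := Nat.pow_le_pow_left (by omega) 2
    omega
  calc a * (a ^ 2 - 1) ≤ a * (b ^ 2 - 1) := Nat.mul_le_mul_left _ h1
    _ < b * (b ^ 2 - 1) := Nat.mul_lt_mul_of_pos_right h h2

theorem mod5 (p : ℕ) (h : p % 5 = 2 ∨ p % 5 = 3) : (p * (p ^ 2 - 1)) % 5 ≠ 0 := by
  have h1 : p ^ 2 % 5 = 4 := by
    rw [Nat.pow_mod]
    rcases h with h | h <;> rw [h]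
  have h2 : (p ^ 2 - 1) % 5 = 3 := by omega
  rw [Nat.mul_mod, h2]
  rcases h with h | h <;> rw [h] <;> decide

theorem dvd_of_mod (q : ℕ) (h : q % 5 = 1 ∨ q % 5 = 4) : 5 ∣ q * (q ^ 2 - 1) := by
  have h1 : q ^ 2 % 5 = 1 := by
    rw [Nat.pow_mod]
    rcases h with h | h <;> rw [h]
  exact Dvd.dvd.mul_left (by omega) _

theorem three_pow_odd (s : ℕ) : 3 ^ (2 * s + 1) % 5 = 2 ∨ 3 ^ (2 * s + 1) % 5 = 3 := by
  induction s with
  | zero => simp
  | succ s ih =>
    have : 3 ^ (2 * (s + 1) + 1) = 9 * 3 ^ (2 * s + 1) := by ring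
    rw [this]
    omega

theorem two_pow_odd (s : ℕ) : 2 ^ (2 * s + 1) % 5 = 2 ∨ 2 ^ (2 * s + 1) % 5 = 3 := by
  induction s with
  | zero => simp
  | succ s ih =>
    have : 2 ^ (2 * (s + 1) + 1) = 4 * 2 ^ (2 * s + 1) := by ring
    rw [this]
    omega

theorem base_eq (l r q₁ m : ℕ) (hl : l.Prime) (hr : r.Prime) (hm : 2 ≤ m)
    (h : l ^ r = q₁ ^ m) : q₁ = l := by
  obtain ⟨b, -, rfl⟩ := (Nat.dvd_prime_pow hl).1 (show q₁ ∣ l ^ r by
    rw [h]; exact dvd_pow_self q₁ (by omega))
  rw [← pow_mul] at h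
  have h3 : r = b * m := Nat.pow_right_injective hl.two_le h
  have h5 : m = r := by
    rcases (Nat.dvd_prime hr).1 (Dvd.intro_left b h3.symm) with h6 | h6
    · omega
    · exact h6
  rw [h5] at h3
  have h6 : b = 1 := by
    have : 1 * r = b * r := by rw [one_mul]; exact h3
    exact (Nat.eq_of_mul_eq_mul_right hr.pos this).symm
  rw [h6, pow_one]

variable {F : Type*} [Field F] [Fintype F]

/-- proper subgroups: solvable unless `A₅` or a subfield subgroup over a field with `≥ 4` elements -/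
theorem solvable_or (p : ℕ) [Fact p.Prime] [CharP F p]
    (H : Subgroup (Matrix.ProjectiveSpecialLinearGroup (Fin 2) F)) (hH : H ≠ ⊤) :
    Group.IsSolvable H ∨ Nat.card H = 60 ∨
      ∃ q₁ m : ℕ, 2 ≤ m ∧ 4 ≤ q₁ ∧ Fintype.card F = q₁ ^ m := by
  have hg := natCard_PSL2 F
  rw [Nat.card_eq_fintype_card] at hg
  have hd0 : 0 < Nat.gcd 2 (Fintype.card F - 1) := Nat.gcd_pos_of_pos_left _ (by norm_num)
  have hne : Nat.card H ≠ Nat.card (Matrix.ProjectiveSpecialLinearGroup (Fin 2) F) :=
    fun h => hH (Subgroup.eq_top_of_card_eq H h)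
  rcases dickson_card p H with ⟨h, -⟩ | ⟨k, -, ⟨e⟩, -⟩ | ⟨P, hP⟩ | ⟨⟨e⟩, -⟩ | ⟨⟨e⟩, -⟩ | ⟨-, h⟩ |
    ⟨K, m, hm, hqm, hK2, hK⟩
  · left
    letI := IsCyclic.commGroup (α := H)
    infer_instance
  · left; exact solvable_of_mulEquiv e (dihedral_solvable k)
  · left; exact borel_solvable p P H hP
  · left; exact solvable_of_mulEquiv e Cfsg.Agent.Lib.Helper72.isSolvable_alternatingGroup_fin4
  · left; exact solvable_of_mulEquiv e Cfsg.Agent.Lib.Helper72.isSolvable_perm_fin4
  · right; left; exact h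
  · have hm2 : 2 ≤ m := by
      by_contra hcon
      have hm1 : m = 1 := by omega
      subst hm1
      rw [pow_one] at hqm
      rw [← hqm] at hK
      rcases hK with ⟨-, h⟩ | ⟨-, h⟩
      · rw [← hg] at h
        exact hne (Nat.eq_of_mul_eq_mul_left hd0 h)
      · rw [← hg] at h
        have h1 : Nat.card H ≤ Nat.card (Matrix.ProjectiveSpecialLinearGroup (Fin 2) F) :=
          Subgroup.card_le_card_group H
        have h2 : Nat.card (Matrix.ProjectiveSpecialLinearGroup (Fin 2) F) ≤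
            Nat.gcd 2 (Fintype.card F - 1) *
              Nat.card (Matrix.ProjectiveSpecialLinearGroup (Fin 2) F) :=
          Nat.le_mul_of_pos_left _ hd0
        omega
    by_cases h4 : 4 ≤ Nat.card K
    · right; right; exact ⟨Nat.card K, m, hm2, h4, hqm⟩
    · left
      haveI := Fintype.ofFinite K
      have h3 : Fintype.card K ≤ 3 := by rw [← Nat.card_eq_fintype_card]; omega
      rcases hK with ⟨⟨e⟩, -⟩ | ⟨⟨e⟩, -⟩
      · exact solvable_of_mulEquiv e (psl2_solvable h3)
      · exact solvable_of_mulEquiv e (pgl2_solvable h3)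

theorem not_minimal_of_subfield (hsolv : ∀ H : Subgroup (Matrix.ProjectiveSpecialLinearGroup (Fin 2) F),
    H ≠ ⊤ → Group.IsSolvable H) (K : Type) [Field K] [Fintype K] (m : ℕ) (hm : 2 ≤ m)
    (hK : Fintype.card K ^ m = Fintype.card F) (h4 : 4 ≤ Fintype.card K) : False := by
  obtain ⟨f⟩ := Cfsg.Agent.Lib.Helper14.exists_ringHom_of_card_pow m hK
  obtain ⟨φ, hφ⟩ := Cfsg.Agent.Lib.Helper14.exists_psl2_embedding f
  have hne : φ.range ≠ ⊤ := by
    intro hcon
    have h1 : Nat.card φ.range = Nat.card (Matrix.ProjectiveSpecialLinearGroup (Fin 2) F) := by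
      rw [hcon]; exact Subgroup.card_top
    rw [← Nat.card_congr (MonoidHom.ofInjective hφ).toEquiv] at h1
    have hg := natCard_PSL2 F
    have hg' := natCard_PSL2 K
    rw [Nat.card_eq_fintype_card] at hg hg'
    rw [← hK, gcd_two_pow _ _ (by omega) (by omega), ← h1, hg'] at hg
    have h2 : Fintype.card K < Fintype.card K ^ m := by
      calc Fintype.card K = Fintype.card K ^ 1 := (pow_one _).symm
        _ < Fintype.card K ^ m := Nat.pow_lt_pow_right (by omega) (by omega)
    have := smono _ _ (by omega) h2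
    omega
  have h1 := hsolv _ hne
  exact psl2_not_solvable h4 (solvable_of_mulEquiv (MonoidHom.ofInjective hφ) h1)

theorem not_minimal_of_five (hsolv : ∀ H : Subgroup (Matrix.ProjectiveSpecialLinearGroup (Fin 2) F),
    H ≠ ⊤ → Group.IsSolvable H) (h5 : 5 ∣ Fintype.card F * (Fintype.card F ^ 2 - 1))
    (h60 : Nat.card (Matrix.ProjectiveSpecialLinearGroup (Fin 2) F) ≠ 60) : False := by
  obtain ⟨H, ⟨e⟩⟩ := exists_alt_five h5
  have hne : H ≠ ⊤ := by
    intro hcon
    apply h60
    rw [← natCard_alt_five, ← Nat.card_congr e.toEquiv, hcon]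
    exact Subgroup.card_top.symm
  exact alt_five_not_solvable (solvable_of_mulEquiv e.symm (hsolv H hne))

/-- PSL_2(q) is minimal simple iff q is 2^r (r prime), 3^r (r an odd prime), a prime greater than 5 congruent to 2 or 3 mod 5, or 5. -/
theorem result {F : Type*} [Field F] [Fintype F] {q : ℕ} (hF : Fintype.card F = q) : Cfsg.IsMinimalSimple (Matrix.ProjectiveSpecialLinearGroup (Fin 2) F) ↔ ((∃ r : ℕ, r.Prime ∧ q = 2 ^ r) ∨ (∃ r : ℕ, r.Prime ∧ r ≠ 2 ∧ q = 3 ^ r) ∨ (q.Prime ∧ 5 < q ∧ (q % 5 = 2 ∨ q % 5 = 3)) ∨ q = 5) := by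
  obtain ⟨p, hch⟩ := CharP.exists F
  have hp : p.Prime := (CharP.char_is_prime_or_zero F p).resolve_right
    (CharP.char_ne_zero_of_finite F p)
  haveI : Fact p.Prime := ⟨hp⟩
  obtain ⟨n, -, hn⟩ := FiniteField.card F p
  have hg := natCard_PSL2 F
  rw [Nat.card_eq_fintype_card] at hg
  have hd2 : Nat.gcd 2 (Fintype.card F - 1) ≤ 2 := Nat.gcd_le_left _ (by norm_num)
  have hd0 : 0 < Nat.gcd 2 (Fintype.card F - 1) := Nat.gcd_pos_of_pos_left _ (by norm_num)
  constructor
  · rintro ⟨hs, hnc, hsolv⟩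
    have hq4 : 4 ≤ Fintype.card F := by
      by_contra hcon
      have h1 := psl2_solvable (F := F) (by omega)
      exact hnc ⟨⟨IsSimpleGroup.comm_iff_isSolvable.2 h1⟩⟩
    rcases (by have := n.pos; omega : (n : ℕ) = 1 ∨ 2 ≤ (n : ℕ)) with hn1 | hn2
    · rw [hn1, pow_one] at hn
      rw [hF] at hn hq4 hg hd2
      subst hn
      by_cases h5 : q = 5
      · right; right; right; exact h5
      · right; right; left
        have h4 : q ≠ 4 := by rintro rfl; revert hp; decide
        have h6 : q ≠ 6 := by rintro rfl; revert hp; decide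
        refine ⟨hp, by omega, ?_⟩
        by_contra hcon
        have h50 : ¬ 5 ∣ q := fun hd => h5 ((Nat.prime_dvd_prime_iff_eq Nat.prime_five hp).1 hd).symm
        apply not_minimal_of_five hsolv (by rw [hF]; exact dvd_of_mod q (by omega))
        intro h60
        rw [h60] at hg
        have := mono 7 q (by omega)
        have : Nat.gcd 2 (q - 1) * 60 ≤ 2 * 60 := Nat.mul_le_mul_right _ hd2
        omega
    · -- a proper subfield
      set r := Nat.minFac n with hr
      have hrp : r.Prime := Nat.minFac_prime (by omega)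
      obtain ⟨a, ha⟩ := Nat.minFac_dvd n
      rw [← hr] at ha
      have ha0 : a ≠ 0 := by
        rintro rfl
        rw [mul_zero] at ha
        omega
      letI : Fintype (GaloisField p a) := Fintype.ofFinite _
      have hcK : Fintype.card (GaloisField p a) = p ^ a := by
        rw [← Nat.card_eq_fintype_card, GaloisField.card p a ha0]
      have h1 : ¬ 4 ≤ p ^ a := by
        intro h4
        exact not_minimal_of_subfield hsolv (GaloisField p a) r hrp.two_le
          (by rw [hcK, hn, ha, ← pow_mul, mul_comm]) (by rw [hcK]; exact h4)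
      have ha1 : a = 1 := by
        by_contra hcon
        apply h1
        calc 4 = 2 ^ 2 := by norm_num
          _ ≤ p ^ 2 := Nat.pow_le_pow_left hp.two_le 2
          _ ≤ p ^ a := Nat.pow_le_pow_right hp.pos (by omega)
      rw [ha1, pow_one] at h1
      rw [ha1, mul_one] at ha
      rw [ha] at hn
      have hp23 : p = 2 ∨ p = 3 := by have := hp.two_le; omega
      rcases hp23 with rfl | rfl
      · left; exact ⟨r, hrp, by rw [← hF, hn]⟩
      · right; left
        refine ⟨r, hrp, ?_, by rw [← hF, hn]⟩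
        intro hr2
        rw [hr2] at hn
        apply not_minimal_of_five hsolv (by rw [hn]; decide)
        intro h60
        rw [h60, hn] at hg
        revert hg; decide
  · intro hq
    have hq4 : 4 ≤ q := by
      rcases hq with ⟨r, hr, rfl⟩ | ⟨r, hr, -, rfl⟩ | ⟨-, h, -⟩ | rfl
      · calc 4 = 2 ^ 2 := by norm_num
          _ ≤ 2 ^ r := Nat.pow_le_pow_right (by norm_num) hr.two_le
      · calc 4 ≤ 3 ^ 2 := by norm_num
          _ ≤ 3 ^ r := Nat.pow_le_pow_right (by norm_num) hr.two_le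
      · omega
      · norm_num
    refine ⟨Matrix.ProjectiveSpecialLinearGroup.rank_two_simple
      (by rw [Nat.card_eq_fintype_card, hF]; exact hq4), fun h => psl2_not_comm h.is_comm.comm, ?_⟩
    intro H hH
    rcases solvable_or p H hH with h | h | ⟨q₁, m, hm, h4, hqm⟩
    · exact h
    · exfalso
      have hne : Nat.card H ≠ Nat.card (Matrix.ProjectiveSpecialLinearGroup (Fin 2) F) :=
        fun h => hH (Subgroup.eq_top_of_card_eq H h)
      have hdvd : Nat.card H ∣ Nat.card (Matrix.ProjectiveSpecialLinearGroup (Fin 2) F) :=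
        Subgroup.card_subgroup_dvd_card H
      rw [h] at hne hdvd
      rw [hF] at hg
      have h5 : 5 ∣ q * (q ^ 2 - 1) := by
        rw [← hg]
        exact Dvd.dvd.mul_left ((by norm_num : 5 ∣ 60).trans hdvd) _
      have key : q % 5 = 2 ∨ q % 5 = 3 → False := fun hh => mod5 q hh (Nat.mod_eq_zero_of_dvd h5)
      rcases hq with ⟨r, hr, rfl⟩ | ⟨r, hr, hr2, rfl⟩ | ⟨-, -, h⟩ | rfl
      · rcases hr.eq_two_or_odd' with rfl | ⟨s, rfl⟩
        · apply hne
          have : Nat.gcd 2 (2 ^ 2 - 1) = 1 := by decide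
          rw [this] at hg
          omega
        · exact key (two_pow_odd s)
      · obtain ⟨s, rfl⟩ := hr.odd_of_ne_two hr2
        exact key (three_pow_odd s)
      · exact key h
      · apply hne
        have : Nat.gcd 2 (5 - 1) = 2 := by decide
        rw [this] at hg
        omega
    · exfalso
      rw [hF] at hqm
      rcases hq with ⟨r, hr, rfl⟩ | ⟨r, hr, -, rfl⟩ | ⟨h, -, -⟩ | rfl
      · have := base_eq 2 r q₁ m Nat.prime_two hr hm hqm
        omega
      · have := base_eq 3 r q₁ m Nat.prime_three hr hm hqm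
        omega
      · have := (h.pow_eq_iff).1 hqm.symm
        omega
      · have := (Nat.prime_five.pow_eq_iff).1 hqm.symm
        omega

end Cfsg.Agent.S0810
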