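import Cfsg.Statements.S0824
import Cfsg.Agent.Lib.Helper57.IsoPerm
import Cfsg.Agent.Lib.Helper57.OrthTransp

set_option autoImplicit false
open Cfsg

namespace Cfsg.Agent.S0824

open Matrix Cfsg.Agent.Lib.Helper57 Cfsg.Agent.Lib.Helper44 QuadraticMap

/-- the four-dimensional space -/
abbrev V : Type := (Fin 1 ⊕ Fin 1) ⊕ Fin 2 → ZMod 2

/-- the minus type form -/
abbrev q : V → ZMod 2 := Cfsg.quadFormMinus 1 (ZMod 2) 1 1

/-- the five singular vectors -/
def P : Fin 5 → V :=
  ![Sum.elim (Sum.elim ![1] ![0]) ![0, 0], Sum.elim (Sum.elim ![0] ![1]) ![0, 0],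
    Sum.elim (Sum.elim ![1] ![1]) ![1, 0], Sum.elim (Sum.elim ![1] ![1]) ![0, 1],
    Sum.elim (Sum.elim ![1] ![1]) ![1, 1]]

/-- the transvection formula -/
def T (v x : V) : V := x + (q (v + x) - q v - q x) • v

theorem F1 : ∀ v : V, v ≠ 0 → q v = 0 → ∃ a : Fin 5, v = P a := by decide +kernel

theorem F2 : Function.Injective P := by decide +kernel

theorem F3 : ∀ x : V, x = ∑ j : Fin 5,
    (![x (.inl (.inl 0)) + x (.inr 0) + x (.inr 1), x (.inl (.inr 0)) + x (.inr 0) + x (.inr 1),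
      x (.inr 0), x (.inr 1), 0] : Fin 5 → ZMod 2) j • P j := by
  decide +kernel

theorem F4 : ∀ a b : Fin 5, a ≠ b → q (P a + P b) = 1 ∧ ∀ i : Fin 5,
    T (P a + P b) (P i) = P (Equiv.swap a b i) := by decide +kernel

theorem F5 : ∀ i : Fin 5, P i ≠ 0 ∧ q (P i) = 0 := by decide +kernel

/-- the form as a Mathlib quadratic form -/
noncomputable abbrev QQ : QuadraticForm (ZMod 2) V := minusQF 1 (ZMod 2) 1 1

theorem QQ_apply (v : V) : QQ v = q v := by
  have := minusQF_coe 1 (ZMod 2) 1 1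
  exact congrFun this v

/-- the group over `ZMod 2` -/
abbrev GG : Type := ↥(Cfsg.isometryGroup (ZMod 2) ⇑QQ)

/-- the action on vectors -/
def act (g : GG) (x : V) : V := ((g : GL ((Fin 1 ⊕ Fin 1) ⊕ Fin 2) (ZMod 2)) : Matrix _ _ (ZMod 2)) *ᵥ x

theorem act_mul (g h : GG) (x : V) : act (g * h) x = act g (act h x) := by
  simp [act, Matrix.mulVec_mulVec]

theorem act_one (x : V) : act 1 x = x := by simp [act]

theorem act_inv_act (g : GG) (x : V) : act g⁻¹ (act g x) = x := by
  rw [← act_mul, inv_mul_cancel, act_one]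

theorem act_zero (g : GG) : act g 0 = 0 := by simp [act]

theorem q_act (g : GG) (x : V) : q (act g x) = q x := by
  rw [← QQ_apply, ← QQ_apply]
  exact mem_isometryGroup.1 g.2 x

theorem act_reflElt {a : V} (ha : q a = 1) (x : V) : act (reflElt QQ a) x = T a x := by
  have ha' : QQ a = 1 := by rw [QQ_apply]; exact ha
  unfold act
  rw [reflElt_coe, reflectionMatrix_mulVec, refl2_apply QQ ha']
  unfold T QuadraticMap.polar
  rw [QQ_apply, QQ_apply, QQ_apply]

/-- the relation between isometries and permutations -/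
def R (g : GG) (σ : Equiv.Perm (Fin 5)) : Prop := ∀ i : Fin 5, act g (P i) = P (σ i)

theorem R_mul (g g' : GG) (σ σ' : Equiv.Perm (Fin 5)) (h : R g σ) (h' : R g' σ') :
    R (g * g') (σ * σ') := by
  intro i
  rw [act_mul, h' i, h]; rfl

theorem R_uniq (g : GG) (σ σ' : Equiv.Perm (Fin 5)) (h : R g σ) (h' : R g σ') : σ = σ' := by
  ext i
  congr 1
  apply F2
  rw [← h i, ← h' i]

theorem R_inj (g : GG) (h : R g 1) : g = 1 := by
  have hP : ∀ i, act g (P i) = P i := fun i => h i
  apply isometryGroup_ext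
  apply matrix_ext_mulVec
  intro x
  show act g x = _
  have h1 : ((1 : GG) : GL ((Fin 1 ⊕ Fin 1) ⊕ Fin 2) (ZMod 2)) = 1 := rfl
  rw [h1, Units.val_one, Matrix.one_mulVec]
  conv_lhs => rw [F3 x]
  conv_rhs => rw [F3 x]
  unfold act
  rw [Matrix.mulVec_sum]
  apply Finset.sum_congr rfl
  intro j _
  rw [Matrix.mulVec_smul]
  congr 1
  exact hP j

theorem R_swap (a b : Fin 5) (hab : a ≠ b) : R (reflElt QQ (P a + P b)) (Equiv.swap a b) := by
  intro i
  rw [act_reflElt (F4 a b hab).1]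
  exact (F4 a b hab).2 i

theorem R_ex (g : GG) : ∃ σ, R g σ := by
  have h : ∀ i, ∃ k, act g (P i) = P k := by
    intro i
    apply F1
    · intro h0
      apply (F5 i).1
      rw [← act_inv_act g (P i), h0, act_zero]
    · rw [q_act]; exact (F5 i).2
  choose f hf using h
  have hinj : Function.Injective f := by
    intro i j hij
    apply F2
    rw [← act_inv_act g (P i), ← act_inv_act g (P j), hf, hf, hij]
  exact ⟨Equiv.ofBijective f (Finite.injective_iff_bijective.1 hinj), hf⟩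

theorem main : Nonempty (GG ≃* Equiv.Perm (Fin 5)) :=
  nonempty_mulEquiv_perm_of_rel R R_ex R_mul R_uniq R_inj (fun a b hab => ⟨_, R_swap a b hab⟩)

/-- O⁻_4(2) ≅ S_5: the isometry group of the form x y + z_1² + z_1 z_2 + z_2² over the field with 2 elements is isomorphic to the symmetric group on 5 letters. -/
theorem result {F : Type*} [Field F] [Fintype F] (hF : Fintype.card F = 2) : Nonempty (↥(Cfsg.isometryGroup F (Cfsg.quadFormMinus 1 F 1 1)) ≃* Equiv.Perm (Fin 5)) := by
  obtain ⟨E⟩ := main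
  have hE : ⇑QQ = Cfsg.quadFormMinus 1 (ZMod 2) 1 1 := minusQF_coe 1 (ZMod 2) 1 1
  let e : F ≃+* ZMod 2 := (ZMod.ringEquivOfPrime F Nat.prime_two hF).symm
  have h : ∀ v, e (Cfsg.quadFormMinus 1 F 1 1 v) = ⇑QQ (e ∘ v) := by
    intro v
    rw [hE]
    simp [Cfsg.quadFormMinus, map_sum, map_mul]
  exact ⟨(isometryGroupCongr e _ _ h).trans E⟩

end Cfsg.Agent.S0824
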