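import Cfsg.Statements.S0859
import Cfsg.Agent.Lib.Helper81.Berger
import Cfsg.Agent.Lib.Helper81.Taunt
import Cfsg.Agent.Lib.Helper3.Mono3
import Cfsg.Agent.Lib.Helper15.RelGl1
import Cfsg.Agent.Lib.Helper1.Tools

set_option autoImplicit false
open Cfsg

namespace Cfsg.Agent.S0859

open Cfsg.Agent.Lib Cfsg.Agent.Lib.Helper15 Cfsg.Agent.Lib.Helper81
open scoped commutatorElement

universe u

variable {H : Type u} [Group H] [Fintype H]

/-- a character with irreducible restriction to `N` is only induced from `T` if `T N = H` -/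
theorem sup_eq_top_of_ind (N T : Subgroup H) [N.Normal] {η : T → ℂ} (hη : IsCharacter T η)
    (hψ : IsIrrCharacter H (indFun T η)) (hN : IsIrrCharacter N (fun n : N => indFun T η n)) :
    T ⊔ N = ⊤ := by
  classical
  by_contra h
  obtain ⟨ν, hν, hind⟩ := exists_ind_of_le (le_sup_left : T ≤ T ⊔ N) hη
  have h1 : IsIrrCharacter (N.subgroupOf (T ⊔ N)) (downFun N (T ⊔ N) (fun n : N => indFun T η n)) :=
    irr_downFun le_sup_right hN
  have h2 : IsIrrCharacter (T ⊔ N : Subgroup H) (fun w : (T ⊔ N : Subgroup H) => indFun T η w) :=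
    irr_of_restrict_irr (N.subgroupOf (T ⊔ N)) (char_restrict (irr_char hψ) _) h1
  exact not_induced_of_homog (T ⊔ N) h hψ h2 1 (by simp) hν hind

theorem index_eq_relIndex (N T : Subgroup H) [N.Normal] (hTN : T ⊔ N = ⊤) :
    (T ⊓ N).relIndex N = T.index := by
  have h1 := Helper1.card_sup_mul_card_inf (H := T) (K := N) (by
    rw [Subgroup.normalizer_eq_top]; exact le_top)
  rw [hTN, Subgroup.card_top] at h1
  have h2 := T.card_mul_index
  have h3 : (T ⊓ N).relIndex N * Nat.card (T ⊓ N : Subgroup H) = Nat.card N := by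
    have := ((T ⊓ N).subgroupOf N).card_mul_index
    rw [card_subgroupOf_of_le inf_le_right] at this
    rw [mul_comm]
    exact this
  have h4 : 0 < Nat.card T := Nat.card_pos
  have h5 : 0 < Nat.card (T ⊓ N : Subgroup H) := Nat.card_pos
  have h6 : (T ⊓ N).relIndex N * (Nat.card T * Nat.card (T ⊓ N : Subgroup H))
      = T.index * (Nat.card T * Nat.card (T ⊓ N : Subgroup H)) := by
    calc (T ⊓ N).relIndex N * (Nat.card T * Nat.card (T ⊓ N : Subgroup H))
        = Nat.card T * ((T ⊓ N).relIndex N * Nat.card (T ⊓ N : Subgroup H)) := by ring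
      _ = Nat.card T * Nat.card N := by rw [h3]
      _ = Nat.card H * Nat.card (T ⊓ N : Subgroup H) := h1.symm
      _ = T.index * (Nat.card T * Nat.card (T ⊓ N : Subgroup H)) := by rw [← h2]; ring
  exact Nat.eq_of_mul_eq_mul_right (Nat.mul_pos h4 h5) h6

/-- if `ψ = η^H`, `T N = H` and `ψ_N` is irreducible then `η` restricted to `T ∩ N` is
irreducible -/
theorem irr_inf_of_ind (N T : Subgroup H) [N.Normal] (hTN : T ⊔ N = ⊤) {η : T → ℂ}
    (hη : IsIrrCharacter T η) (hψ : IsIrrCharacter H (indFun T η))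
    (hN : IsIrrCharacter N (fun n : N => indFun T η n)) :
    IsIrrCharacter (T ⊓ N : Subgroup H) (resFun inf_le_left η) := by
  classical
  set ψ := indFun T η with hψdef
  set μ : (T ⊓ N : Subgroup H) → ℂ := resFun inf_le_left η with hμdef
  have hμ : IsCharacter (T ⊓ N : Subgroup H) μ := char_resFun _ (irr_char hη)
  have hTinner : classInner (fun t : T => ψ t) η ≠ 0 := by
    have h1 := classInner_indFun_right T η ψ (irr_cf hψ)
    rw [← h1, ← hψdef, irr_inner_self hψ]
    exact one_ne_zero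
  have hγ : IsCharacter T ((fun t : T => ψ t) - η) :=
    char_sub_irr (char_restrict (irr_char hψ) T) hη hTinner
  set γ₀ : (T ⊓ N : Subgroup H) → ℂ := resFun inf_le_left ((fun t : T => ψ t) - η) with hγ₀def
  have hγ₀ : IsCharacter (T ⊓ N : Subgroup H) γ₀ := char_resFun _ hγ
  have hsum : resFun (inf_le_right : T ⊓ N ≤ N) (fun n : N => ψ n) = μ + γ₀ := by
    funext d
    simp only [hμdef, hγ₀def, resFun_apply, Pi.add_apply, Pi.sub_apply]
    ring
  obtain ⟨a, ha⟩ := inner_nat hμ hμ
  obtain ⟨b, hb⟩ := inner_nat hμ hγ₀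
  have ha0 : a ≠ 0 := by
    rintro rfl
    rw [Nat.cast_zero] at ha
    have h0 := classInner_self_eq_zero ha
    exact irr_one_ne_zero hη (congrFun h0 1)
  have hfrob : classInner (relInd (T ⊓ N) N μ) (fun n : N => ψ n) = ((a + b : ℕ) : ℂ) := by
    rw [classInner_relInd_left inf_le_right μ (irr_cf hN), hsum, classInner_add_right, ha, hb]
    push_cast
    ring
  have heq : relInd (T ⊓ N) N μ = fun n : N => ψ n := by
    apply eq_of_constituent_of_degree (char_relInd inf_le_right hμ) hN
    · rw [hfrob]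
      exact_mod_cast (by omega : a + b ≠ 0)
    · rw [relInd_one, index_eq_relIndex N T hTN]
      change _ = ψ 1
      rw [hψdef, indFun_one]
      rfl
  rw [heq, irr_inner_self hN] at hfrob
  have hab : a + b = 1 := by exact_mod_cast hfrob.symm
  have ha1 : a = 1 := by omega
  rw [isIrr_iff]
  exact ⟨hμ, by rw [ha, ha1, Nat.cast_one]⟩

theorem main (n : ℕ) : ∀ (H : Type u) [Group H] [Fintype H] [Group.IsSolvable H] (N : Subgroup H)
    [N.Normal], Nat.card H ≤ n → AGroup N → ∀ ψ : H → ℂ, IsIrrCharacter H ψ →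
    IsIrrCharacter N (fun n : N => ψ n) →
    ∃ (U : Subgroup H) (lam : U →* ℂˣ), ψ = indFun U (fun h => (lam h : ℂ)) := by
  classical
  induction n with
  | zero =>
    intro H _ _ _ N _ hn
    exact absurd hn (by have := Nat.card_pos (α := H); omega)
  | succ n ih =>
    intro H _ _ _ N _ hn hA ψ hψ hN
    obtain ⟨m, ρ, hirr, hρ⟩ := id hψ
    by_cases hcase : ∀ x ∈ ⁅N, N⁆, ρ x = 1
    · -- `ψ` is linear
      have h1 : (fun n : N => ψ n) 1 = 1 := by
        apply (Helper80.char_one_eq_one_iff ⟨_, hN⟩).2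
        intro x hx
        have hx' : (x : H) ∈ ⁅N, N⁆ := by
          rw [← Subgroup.map_subtype_commutator]
          exact ⟨x, hx, rfl⟩
        change ψ x = ψ 1
        rw [← hρ]
        change LinearMap.trace ℂ _ (ρ x) = LinearMap.trace ℂ _ (ρ 1)
        rw [hcase x hx', map_one ρ]
      exact Helper3.exists_monomial_of_apply_one_eq_one (irr_char hψ) h1
    · push Not at hcase
      have hex : ∃ m : ℕ, ∃ A : Subgroup H, A.Normal ∧ A ≤ ⁅N, N⁆ ∧ (∃ a ∈ A, ρ a ≠ 1) ∧
          Nat.card A = m := ⟨_, ⁅N, N⁆, inferInstance, le_rfl, hcase, rfl⟩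
      obtain ⟨A, hAn, hAN, ⟨a, haA, ha1⟩, hAm⟩ := Nat.find_spec hex
      have hAne : A ≠ ⊥ := by
        rintro rfl
        rw [Subgroup.mem_bot] at haA
        rw [haA, map_one] at ha1
        exact ha1 rfl
      have hlt : ⁅A, A⁆ < A := Group.IsSolvable.commutator_lt_of_ne_bot hAne
      have hAA : ∀ x ∈ ⁅A, A⁆, ρ x = 1 := by
        by_contra hcon
        push Not at hcon
        have := Nat.find_min' hex ⟨⁅A, A⁆, inferInstance, hlt.le.trans hAN, hcon, rfl⟩
        have h5 : Nat.card (⁅A, A⁆ : Subgroup H) < Nat.card A := Helper1.card_lt_of_lt hlt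
        omega
      have hAcomm : ∀ x ∈ A, ∀ y ∈ A, ρ x ∘ₗ ρ y = ρ y ∘ₗ ρ x := by
        intro x hx y hy
        have h1 : x * y = ⁅x, y⁆ * (y * x) := by
          rw [commutatorElement_def]; group
        have h2 : ρ (x * y) = ρ (y * x) := by
          rw [h1, map_mul, hAA _ (Subgroup.commutator_mem_commutator hx hy), one_mul]
        rw [map_mul, map_mul] at h2
        exact h2
      have hNN : ⁅N, N⁆ ≤ N := Subgroup.commutator_le_left N N
      have ha : ¬ ∃ c : ℂ, ρ a = c • LinearMap.id := by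
        rintro ⟨c, hc⟩
        apply ha1
        have hcomm : ∀ x : H, ρ (a * x) = ρ (x * a) := by
          intro x
          rw [map_mul, map_mul, hc]
          ext v
          simp
        have := taunt_rel hA (MonoidHom.ker (ρ.comp N.subtype)) ⟨a, hNN (hAN haA)⟩ (by
          have h1 : a ∈ (commutator N).map N.subtype := by
            rw [Subgroup.map_subtype_commutator]; exact hAN haA
          obtain ⟨y, hy, hya⟩ := h1
          have : y = ⟨a, hNN (hAN haA)⟩ := Subtype.ext hya
          rwa [← this]) (by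
          intro x
          rw [MonoidHom.mem_ker]
          change ρ (a * x * a⁻¹ * (x : H)⁻¹) = 1
          rw [mul_assoc, map_mul, hcomm, ← map_mul]
          have : (x : H) * a * (a⁻¹ * (x : H)⁻¹) = 1 := by group
          rw [this, map_one])
        exact this
      obtain ⟨T, hT, hAT, η, hη, hind⟩ := Helper3.exists_induced_of_normal_comm ρ A hAcomm a haA ha
      rw [hρ] at hind
      subst hind
      have hTN : T ⊔ N = ⊤ := sup_eq_top_of_ind N T (irr_char hη) hψ hN
      have hirrD := irr_inf_of_ind N T hTN hη hψ hN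
      have hnorm : ((T ⊓ N).subgroupOf T).Normal := by
        constructor
        intro x hx t
        rw [Subgroup.mem_subgroupOf] at hx ⊢
        refine ⟨(t * x * t⁻¹).2, ?_⟩
        have : ((t * x * t⁻¹ : T) : H) = (t : H) * x * (t : H)⁻¹ := rfl
        rw [this]
        exact Subgroup.Normal.conj_mem inferInstance _ hx.2 _
      have hAT' : AGroup ((T ⊓ N).subgroupOf T) := by
        refine AGroup.of_injective
          (((T.subtype).comp ((T ⊓ N).subgroupOf T).subtype).codRestrict N
            (fun x => (Subgroup.mem_inf.1 (Subgroup.mem_subgroupOf.1 x.2)).2)) ?_ hA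
        intro x y hxy
        have := congrArg Subtype.val hxy
        exact Subtype.ext (Subtype.ext this)
      have hcard : Nat.card T ≤ n := by
        have : Nat.card T < Nat.card H := by
          rw [← Subgroup.card_top (G := H)]
          exact Helper1.card_lt_of_lt (lt_top_iff_ne_top.2 hT)
        omega
      have h4 := ih T ((T ⊓ N).subgroupOf T) hcard hAT' η hη (irr_downFun inf_le_left hirrD)
      exact Helper3.exists_monomial_of_induced T h4

theorem result {G : Type*} [Group G] [Fintype G] [Group.IsSolvable G] (N : Subgroup G) [N.Normal] (hab : ∀ (p : ℕ) [Fact p.Prime] (P : Sylow p N), ∀ a ∈ P, ∀ b ∈ P, a * b = b * a) (hrel : ∀ χ : G → ℂ, Cfsg.IsIrrCharacter G χ → ∃ (H : Subgroup G) (hNH : N ≤ H) (ψ : H → ℂ), Cfsg.IsIrrCharacter H ψ ∧ Cfsg.indFun H ψ = χ ∧ Cfsg.IsIrrCharacter N (fun n : N => ψ ⟨(n : G), hNH n.2⟩)) (χ : G → ℂ) (hχ : Cfsg.IsIrrCharacter G χ) : ∃ (U : Subgroup G) (lam : U → ℂ), Cfsg.IsCharacter U lam ∧ lam 1 = 1 ∧ Cfsg.indFun U lam = χ := by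
  classical
  obtain ⟨H, hNH, ψ, hψ, hind, hN⟩ := hrel χ hχ
  have hA : AGroup (N.subgroupOf H) :=
    AGroup.of_injective (Subgroup.subgroupOfEquivOfLe hNH).toMonoidHom
      (Subgroup.subgroupOfEquivOfLe hNH).injective hab
  have h1 := main _ H (N.subgroupOf H) le_rfl hA ψ hψ (irr_downFun hNH hN)
  obtain ⟨U, lam, h2⟩ := Helper3.exists_monomial_of_induced H h1
  refine ⟨U, fun h => (lam h : ℂ), irr_char (Helper3.isIrrCharacter_of_hom lam), by simp, ?_⟩
  rw [← h2, hind]

end Cfsg.Agent.S0859
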