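import Cfsg.Statements.S0896
import Cfsg.Agent.Lib.Helper81.Dade
import Cfsg.Agent.S0874

set_option autoImplicit false
set_option linter.unusedSectionVars false
open scoped ComplexConjugate
open Cfsg

namespace Cfsg.Agent.S0896

open Cfsg.Agent.Lib Cfsg.Agent.Lib.Helper15 Cfsg.Agent.Lib.Helper81

variable {G : Type*} [Group G] [Fintype G]

/-- the linear functional `f ↦ [f ϑ, ϑ]` -/
noncomputable def L (N : Subgroup G) [Fintype N] (ϑ : N → ℂ) (f : G → ℂ) : ℂ :=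
  classInner (fun n : N => f n * ϑ n) ϑ

theorem L_add (N : Subgroup G) [Fintype N] (ϑ : N → ℂ) (f g : G → ℂ) :
    L N ϑ (f + g) = L N ϑ f + L N ϑ g := by
  unfold L
  rw [← classInner_add_left]
  congr 1
  funext n
  simp [add_mul]

theorem L_smul (N : Subgroup G) [Fintype N] (ϑ : N → ℂ) (c : ℂ) (f : G → ℂ) :
    L N ϑ (c • f) = c * L N ϑ f := by
  unfold L
  rw [← classInner_smul_left]
  congr 1
  funext n
  simp [mul_assoc]

theorem L_zero (N : Subgroup G) [Fintype N] (ϑ : N → ℂ) : L N ϑ 0 = 0 := by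
  unfold L
  have : (fun n : N => (0 : G → ℂ) n * ϑ n) = 0 := by funext n; simp
  rw [this, classInner_zero_left]

theorem list_sum (N : Subgroup G) [Fintype N] (ϑ : N → ℂ) (p : ℕ)
    (l : List ((E : Subgroup G) × ((E → ℂ) × ℤ)))
    (h : ∀ t ∈ l, ∃ z : ℤ, (p : ℤ) ∣ z ∧ L N ϑ (indFun t.1 t.2.1) = z) :
    ∃ z : ℤ, (p : ℤ) ∣ z ∧
      L N ϑ (l.map fun t => (t.2.2 : ℂ) • indFun t.1 t.2.1).sum = z := by
  induction l with
  | nil => exact ⟨0, dvd_zero _, by simp [L_zero]⟩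
  | cons t l ih =>
    obtain ⟨z₁, hz₁, h₁⟩ := h t (List.mem_cons_self)
    obtain ⟨z₂, hz₂, h₂⟩ := ih (fun s hs => h s (List.mem_cons_of_mem _ hs))
    refine ⟨t.2.2 * z₁ + z₂, dvd_add (Dvd.dvd.mul_left hz₁ _) hz₂, ?_⟩
    rw [List.map_cons, List.sum_cons, L_add, L_smul, h₁, h₂]
    push_cast
    ring

theorem result {G : Type*} [Group G] [Fintype G] (p : ℕ) (hp : p.Prime) (N : Subgroup G) [hN : N.Normal] (hind : ∃ k : ℕ, N.index = p ^ k) (ϑ : N → ℂ) (hϑ : Cfsg.IsIrrCharacter N ϑ) (hinv : ∀ (g : G) (n : N), ϑ ⟨g * n * g⁻¹, hN.conj_mem (n : G) n.2 g⟩ = ϑ n) : ∃ (E : Subgroup G) (φ : ↥(E ⊓ N) → ℂ), Cfsg.IsElementary p E ∧ E ⊔ N = ⊤ ∧ Cfsg.IsIrrCharacter ↥(E ⊓ N) φ ∧ (∀ (g : G) (hg : g ∈ E) (x : ↥(E ⊓ N)), φ ⟨g * x * g⁻¹, ⟨(E.mul_mem (E.mul_mem hg x.2.1) (E.inv_mem hg)), hN.conj_mem (x : G) x.2.2 g⟩⟩ = φ x) ∧ ∃ m : ℕ, ¬ p ∣ m ∧ (Nat.card ↥(E ⊓ N) : ℂ)⁻¹ * ∑ᶠ x : ↥(E ⊓ N), ϑ ⟨(x : G), x.2.2⟩ * conj (φ x) = (m : ℂ) := by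
  classical
  have : Fact p.Prime := ⟨hp⟩
  have hinv' : ∀ g : G, cj N g ϑ = ϑ := fun g => (cj_eq_iff N g ϑ).2 (hinv g)
  obtain ⟨m, l, hm, hl, hsum⟩ := S0874.result (G := G) p hp
  -- a good triple
  have hgood : ∃ t ∈ l, t.1 ⊔ N = ⊤ ∧ ∃ I : ℕ, ¬ p ∣ I ∧
      classInner (resFun inf_le_left t.2.1 * resFun inf_le_right ϑ)
        (resFun (inf_le_right : t.1 ⊓ N ≤ N) ϑ) = I := by
    by_contra hcon
    push Not at hcon
    obtain ⟨z, hz, hLz⟩ := list_sum N ϑ p l (by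
      intro t ht
      obtain ⟨I, hI⟩ := inner_nat
        (Helper3.IsCharacter.mul (char_resFun (inf_le_left : t.1 ⊓ N ≤ t.1) (hl t ht).2)
          (char_resFun (inf_le_right : t.1 ⊓ N ≤ N) (irr_char hϑ)))
        (char_resFun (inf_le_right : t.1 ⊓ N ≤ N) (irr_char hϑ))
      refine ⟨((t.1 ⊔ N).index * I : ℕ), ?_, ?_⟩
      · by_cases htop : t.1 ⊔ N = ⊤
        · have := hcon t ht htop I
          by_cases hpI : p ∣ I
          · exact_mod_cast Dvd.dvd.mul_left hpI _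
          · exact absurd hI (this hpI)
        · obtain ⟨k, hk⟩ := hind
          have h1 : (t.1 ⊔ N).index ∣ p ^ k := hk ▸ Subgroup.index_dvd_of_le le_sup_right
          obtain ⟨i, -, hi⟩ := (Nat.dvd_prime_pow hp).1 h1
          have hi0 : i ≠ 0 := by
            rintro rfl
            rw [pow_zero, Subgroup.index_eq_one] at hi
            exact htop hi
          have : p ∣ (t.1 ⊔ N).index := by
            rw [hi]
            exact dvd_pow_self p hi0
          exact_mod_cast Dvd.dvd.mul_right this _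
      · unfold L
        rw [dade_functional N ϑ hinv' t.1 t.2.1, hI]
        push_cast
        ring)
    rw [← hsum] at hLz
    have h1 : L N ϑ (fun _ : G => (m : ℂ)) = m := by
      unfold L
      have : (fun n : N => (m : ℂ) * ϑ n) = (m : ℂ) • ϑ := rfl
      rw [this, classInner_smul_left, irr_inner_self hϑ, mul_one]
    rw [h1] at hLz
    have : m = z := by exact_mod_cast hLz
    exact hm (this ▸ hz)
  obtain ⟨⟨E, ψ, c⟩, ht, htop, I, hpI, hI⟩ := hgood
  have hEl := (hl _ ht).1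
  have hψ : IsCharacter E ψ := (hl _ ht).2
  simp only at htop hI hEl hψ
  -- pass to the group `E`
  have hle : E ⊓ N ≤ E := inf_le_left
  have hnorm : ((E ⊓ N).subgroupOf E).Normal := by
    constructor
    intro x hx t
    rw [Subgroup.mem_subgroupOf] at hx ⊢
    refine ⟨(t * x * t⁻¹).2, ?_⟩
    have : ((t * x * t⁻¹ : E) : G) = (t : G) * x * (t : G)⁻¹ := rfl
    rw [this]
    exact hN.conj_mem _ hx.2 _
  have hidx : ∃ k : ℕ, ((E ⊓ N).subgroupOf E).index = p ^ k := by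
    obtain ⟨k, hk⟩ := hind
    refine ⟨k, ?_⟩
    change (E ⊓ N).relIndex E = p ^ k
    rw [Subgroup.inf_relIndex_left, ← Subgroup.relIndex_sup_right, htop, Subgroup.relIndex_top_right,
      hk]
  have hα : IsCharacter (E ⊓ N : Subgroup G) (resFun inf_le_right ϑ) :=
    char_resFun _ (irr_char hϑ)
  have hβ : IsCharacter (E ⊓ N : Subgroup G) (resFun inf_le_left ψ) := char_resFun _ hψ
  obtain ⟨φ', hφ'inv, b, hpb, hb⟩ := exists_inv_constituent ((E ⊓ N).subgroupOf E) p hidx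
    (α := downFun (E ⊓ N) E (resFun inf_le_right ϑ))
    (γ := downFun (E ⊓ N) E (resFun inf_le_left ψ * resFun inf_le_right ϑ))
    (char_downFun hle hα) (char_downFun hle (Helper3.IsCharacter.mul hβ hα))
    (by
      intro g
      funext x
      rw [cj_apply, downFun_apply, downFun_apply, resFun_apply, resFun_apply]
      exact hinv g ⟨x, x.2.2⟩)
    (by
      intro g
      funext x
      rw [cj_apply, downFun_apply, downFun_apply, Pi.mul_apply, Pi.mul_apply, resFun_apply,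
        resFun_apply, resFun_apply, resFun_apply]
      have h1 := hinv g ⟨x, x.2.2⟩
      have h2 := char_cf hψ x g
      exact congrArg₂ (· * ·) h2 h1)
    I (by rw [classInner_downFun hle, hI]) hpI
  let e := Subgroup.subgroupOfEquivOfLe hle
  have hφe : downFun (E ⊓ N) E ((φ' : _ → ℂ) ∘ e.symm) = φ' := by
    rw [downFun_eq_comp hle]
    funext x
    simp [e]
  refine ⟨E, (φ' : _ → ℂ) ∘ e.symm, hEl, htop, irr_comp_equiv e.symm φ'.2, ?_, b, hpb, ?_⟩
  · intro g hg x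
    have h1 := congrFun (hφ'inv ⟨g, hg⟩) (e.symm x)
    rw [cj_apply] at h1
    rw [Function.comp_apply, Function.comp_apply, ← h1]
    refine congrArg _ ?_
    rw [MulEquiv.symm_apply_eq]
    exact Subtype.ext rfl
  · rw [finsum_eq_sum_of_fintype]
    have h1 : classInner (resFun (inf_le_right : E ⊓ N ≤ N) ϑ) ((φ' : _ → ℂ) ∘ e.symm) = b := by
      rw [← classInner_downFun hle, hφe, hb]
    exact h1

end Cfsg.Agent.S0896
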