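import Cfsg.Statements.S0897
import Cfsg.Agent.Lib.Helper81.DadeExt
import Cfsg.Agent.S0896

set_option autoImplicit false
open Cfsg

namespace Cfsg.Agent.S0897

open Cfsg.Agent.Lib Cfsg.Agent.Lib.Helper15 Cfsg.Agent.Lib.Helper81
open scoped ComplexConjugate

variable {G : Type*} [Group G]

/-- the hypothesis on the Sylow subgroup -/
def Good (N P : Subgroup G) : Prop :=
  (∀ x ∈ P ⊓ N, ∀ y ∈ P, x * y = y * x) ∧
  ∀ lam : ↥(P ⊓ N) →* ℂˣ, ∃ μ : ↥P →* ℂˣ, ∀ z : ↥(P ⊓ N), μ ⟨z, z.2.1⟩ = lam z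

theorem Good.conj {N P P' : Subgroup G} [hN : N.Normal] (h : Good N P) (g : G)
    (hP' : ∀ y, y ∈ P' ↔ g⁻¹ * y * g ∈ P) : Good N P' := by
  have hNg : ∀ y, y ∈ N → g⁻¹ * y * g ∈ N := by
    intro y hy
    have := hN.conj_mem y hy g⁻¹
    rwa [inv_inv] at this
  constructor
  · intro x hx y hy
    have h1 := h.1 (g⁻¹ * x * g) ⟨(hP' x).1 hx.1, hNg x hx.2⟩ (g⁻¹ * y * g) ((hP' y).1 hy)
    have h2 : g⁻¹ * (x * y) * g = g⁻¹ * (y * x) * g := by
      calc g⁻¹ * (x * y) * g = (g⁻¹ * x * g) * (g⁻¹ * y * g) := by group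
        _ = (g⁻¹ * y * g) * (g⁻¹ * x * g) := h1
        _ = _ := by group
    exact mul_left_cancel (mul_right_cancel h2)
  · intro lam'
    let cN : ↥(P ⊓ N) →* ↥(P' ⊓ N) :=
      { toFun := fun z => ⟨g * z * g⁻¹, ⟨(hP' _).2 (by
          have : g⁻¹ * (g * (z : G) * g⁻¹) * g = z := by group
          rw [this]; exact z.2.1), hN.conj_mem z z.2.2 g⟩⟩
        map_one' := Subtype.ext (by simp)
        map_mul' := fun a b => Subtype.ext (by simp) }
    let c : ↥P' →* ↥P :=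
      { toFun := fun y => ⟨g⁻¹ * y * g, (hP' y).1 y.2⟩
        map_one' := Subtype.ext (by simp)
        map_mul' := fun a b => Subtype.ext (by
          change g⁻¹ * ((a : G) * (b : G)) * g = g⁻¹ * (a : G) * g * (g⁻¹ * (b : G) * g)
          group) }
    obtain ⟨μ, hμ⟩ := h.2 (lam'.comp cN)
    refine ⟨μ.comp c, fun z => ?_⟩
    have h1 := hμ ⟨g⁻¹ * z * g, ⟨(hP' z).1 z.2.1, hNg z z.2.2⟩⟩
    have h2 : cN ⟨g⁻¹ * z * g, ⟨(hP' z).1 z.2.1, hNg z z.2.2⟩⟩ = z :=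
      Subtype.ext (by
        change g * (g⁻¹ * (z : G) * g) * g⁻¹ = z
        group)
    rw [MonoidHom.comp_apply, h2] at h1
    exact h1

theorem result {G : Type*} [Group G] [Fintype G] (p : ℕ) [Fact p.Prime] (N : Subgroup G) [hN : N.Normal] (hind : ∃ k : ℕ, N.index = p ^ k) (P : Sylow p G) (hcent : ∀ x ∈ (P : Subgroup G) ⊓ N, ∀ y ∈ (P : Subgroup G), x * y = y * x) (hlin : ∀ lam : ↥((P : Subgroup G) ⊓ N) → ℂ, Cfsg.IsCharacter ↥((P : Subgroup G) ⊓ N) lam → lam 1 = 1 → ∃ μ : ↥(P : Subgroup G) → ℂ, Cfsg.IsCharacter ↥(P : Subgroup G) μ ∧ μ 1 = 1 ∧ ∀ x : ↥((P : Subgroup G) ⊓ N), μ ⟨(x : G), x.2.1⟩ = lam x) (ϑ : N → ℂ) (hϑ : Cfsg.IsIrrCharacter N ϑ) (hinv : ∀ (g : G) (n : N), ϑ ⟨g * n * g⁻¹, hN.conj_mem (n : G) n.2 g⟩ = ϑ n) : ∃ χ : G → ℂ, Cfsg.IsIrrCharacter G χ ∧ ∀ n : N, χ n = ϑ n := by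
  classical
  have hp : p.Prime := Fact.out
  have hgoodP : Good N (P : Subgroup G) := by
    refine ⟨hcent, fun lam => ?_⟩
    obtain ⟨μ, hμ, hμ1, hμx⟩ := hlin (toFn lam) (char_toFn lam) (toFn_one' lam)
    obtain ⟨μ₀, rfl⟩ := exists_toFn hμ hμ1
    refine ⟨μ₀, fun z => Units.ext ?_⟩
    exact hμx z
  have hgood : ∀ P' : Sylow p G, Good N (P' : Subgroup G) := by
    intro P'
    obtain ⟨g, rfl⟩ := MulAction.exists_smul_eq G P P'
    apply hgoodP.conj g
    intro y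
    rw [Sylow.coe_subgroup_smul, Subgroup.mem_pointwise_smul_iff_inv_smul_mem, MulAut.smul_def,
      ← map_inv, MulAut.conj_apply, inv_inv]
  obtain ⟨E, φ, hEl, htop, hφ, hφinv, b, hpb, hb⟩ := S0896.result p hp N hind ϑ hϑ hinv
  obtain ⟨x, hxc, hx, hidx⟩ := hEl
  have hle : E ⊓ N ≤ E := inf_le_left
  have hnorm : ((E ⊓ N).subgroupOf E).Normal := by
    constructor
    intro x hx t
    rw [Subgroup.mem_subgroupOf] at hx ⊢
    refine ⟨(t * x * t⁻¹).2, ?_⟩
    have : ((t * x * t⁻¹ : E) : G) = (t : G) * x * (t : G)⁻¹ := rfl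
    rw [this]
    exact hN.conj_mem _ hx.2 _
  have hDidx : ∃ k : ℕ, ((E ⊓ N).subgroupOf E).index = p ^ k := by
    obtain ⟨k, hk⟩ := hind
    refine ⟨k, ?_⟩
    change (E ⊓ N).relIndex E = p ^ k
    rw [Subgroup.inf_relIndex_left, ← Subgroup.relIndex_sup_right, htop, Subgroup.relIndex_top_right,
      hk]
  let S : Sylow p E := default
  have hSp : IsPGroup p ((S : Subgroup E).map E.subtype) := S.2.map E.subtype
  obtain ⟨P', hP'⟩ := hSp.exists_le_sylow
  have hSP' : ∀ s ∈ S, (s : G) ∈ P' := fun s hs => hP' ⟨s, hs, rfl⟩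
  obtain ⟨hc', hl'⟩ := hgood P'
  obtain ⟨f, hf⟩ := elementary_extend p x hxc hx hidx ((E ⊓ N).subgroupOf E) hDidx S
    (by
      intro a ha y hy
      apply Subtype.ext
      exact hc' a ⟨hSP' a ha.1, ha.2.2⟩ y (hSP' y hy))
    (by
      intro lam
      -- extend to `P' ⊓ N`
      let _ : CommGroup ↥((P' : Subgroup G) ⊓ N) :=
        { (inferInstance : Group ↥((P' : Subgroup G) ⊓ N)) with
          mul_comm := fun a b => Subtype.ext (hc' a a.2 b b.2.1) }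
      let j : ↥((S : Subgroup E) ⊓ (E ⊓ N).subgroupOf E) →* ↥((P' : Subgroup G) ⊓ N) :=
        { toFun := fun z => ⟨((z : E) : G), ⟨hSP' z z.2.1, z.2.2.2⟩⟩
          map_one' := rfl
          map_mul' := fun _ _ => rfl }
      have hj : Function.Injective j := by
        intro a b hab
        have h0 : ((a : E) : G) = ((b : E) : G) :=
          congrArg (fun t : ↥((P' : Subgroup G) ⊓ N) => (t : G)) hab
        exact Subtype.ext (Subtype.ext h0)
      obtain ⟨lam', hlam'⟩ := MonoidHom.domRestrict_surjective (M := ℂ) j.range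
        (lam.comp (MonoidHom.ofInjective hj).symm.toMonoidHom)
      obtain ⟨μ, hμ⟩ := hl' lam'
      let i : ↥(S : Subgroup E) →* ↥(P' : Subgroup G) :=
        { toFun := fun s => ⟨((s : E) : G), hSP' s s.2⟩
          map_one' := rfl
          map_mul' := fun _ _ => rfl }
      refine ⟨μ.comp i, fun z => ?_⟩
      have h1 := hμ (j z)
      have h2 := congrArg (fun F => F ⟨j z, ⟨z, rfl⟩⟩) hlam'
      simp only [MonoidHom.comp_apply] at h2
      have h3 : (MonoidHom.ofInjective hj).symm ⟨j z, ⟨z, rfl⟩⟩ = z := by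
        rw [MulEquiv.symm_apply_eq]
        rfl
      have h4 : lam' (j z) = lam z := by
        have : lam' (j z) = lam ((MonoidHom.ofInjective hj).symm ⟨j z, ⟨z, rfl⟩⟩) := h2
        rw [this, h3]
      rw [← h4, ← h1]
      rfl)
    (downFun (E ⊓ N) E φ) (irr_downFun hle hφ)
  have hres : resFun hle (toFn f) = φ := by
    funext d
    have := hf ⟨⟨d, d.2.1⟩, d.2⟩
    rw [downFun_apply] at this
    exact this.symm
  apply extends_of_inner_coprime N p hp hind hϑ (fun g => (cj_eq_iff N g ϑ).2 (hinv g)) E htop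
    (char_toFn f) b hpb
  rw [hres, ← classInner_conj_symm]
  rw [finsum_eq_sum_of_fintype] at hb
  have : classInner (resFun (inf_le_right : E ⊓ N ≤ N) ϑ) φ = b := hb
  rw [this, Complex.conj_natCast]

end Cfsg.Agent.S0897
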