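import Cfsg.Statements.S0941
import Mathlib
import Cfsg.Agent.Lib.Helper82.QuotBlock

set_option autoImplicit false
open Cfsg

namespace Cfsg.Agent.S0941

/-- Let P be a normal p-subgroup of the finite group G such that the index of C_G(P) is a power of p, and fix a maximal ideal M of the algebraic integers containing p. Then (i) two irreducible characters of G ⧸ P lie in the same block if and only if their inflations to G do, and (ii) every block of G contains the inflation of some irreducible character of G ⧸ P; so inflation induces a bijection between the blocks of G ⧸ P and the blocks of G. -/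
theorem result {G : Type*} [Group G] [Finite G] (p : ℕ) [Fact p.Prime] (M : Ideal Cfsg.AlgInt) (hM : Cfsg.IsPModular p M) (P : Subgroup G) [P.Normal] (hP : IsPGroup p P) (hC : ∃ k : ℕ, (Subgroup.centralizer (P : Set G)).index = p ^ k) : (∀ χ ψ : Cfsg.IrrCharacter (G ⧸ P), Cfsg.SameBlock M (χ : G ⧸ P → ℂ) (ψ : G ⧸ P → ℂ) ↔ Cfsg.SameBlock M ((χ : G ⧸ P → ℂ) ∘ QuotientGroup.mk) ((ψ : G ⧸ P → ℂ) ∘ QuotientGroup.mk)) ∧ ∀ B : Set (Cfsg.IrrCharacter G), Cfsg.IsPBlock M B → ∃ χ : Cfsg.IrrCharacter (G ⧸ P), ∃ θ ∈ B, (θ : G → ℂ) = (χ : G ⧸ P → ℂ) ∘ QuotientGroup.mk := by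
  have hMp := Cfsg.Agent.Lib.Helper78.pmod_isPrime hM
  refine ⟨fun χ ψ => ⟨fun h => Cfsg.Agent.Lib.Helper82.sameBlock_inflate P hMp h,
    fun h => Cfsg.Agent.Lib.Helper82.sameBlock_deflate p P hM hP ?_ χ ψ h⟩,
    fun B hB => Cfsg.Agent.Lib.Helper82.exists_mem_block_inflate p P hM hP B hB⟩
  intro g hg hgP
  exfalso
  apply hgP
  obtain ⟨k, hk⟩ := hC
  have h1 : g ^ (p ^ k) ∈ Subgroup.centralizer (P : Set G) := hk ▸ Subgroup.pow_index_mem _ g
  have hcop : Nat.Coprime (p ^ k) (orderOf g) :=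
    Nat.Coprime.pow_left k ((Nat.Prime.coprime_iff_not_dvd (Fact.out : p.Prime)).2 hg)
  obtain ⟨u, hu⟩ := exists_pow_eq_self_of_coprime hcop
  rw [← hu]
  exact Subgroup.pow_mem _ h1 u

end Cfsg.Agent.S0941
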