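import Cfsg.Statements.S0975
import Cfsg.Agent.Lib.Helper61.BrauerPrime

set_option autoImplicit false
open Cfsg

namespace Cfsg.Agent.S0975

open Cfsg.Agent.Lib.Helper61.BrauerPrime

theorem arith1 : ∀ n ∈ Nat.divisors 3744, n % 13 = 1 → n = 1 ∨ n = 144 := by decide +kernel

theorem arith2 : ∀ n ∈ Nat.divisors 3744, n % 13 = 12 → n = 12 := by decide +kernel

/-- No finite simple group has order 3744 = 2^5 * 3^2 * 13. -/
theorem result {G : Type*} [Group G] [Finite G] [IsSimpleGroup G] : Nat.card G ≠ 3744 := by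
  classical
  intro hG
  have : Fact (Nat.Prime 13) := ⟨by norm_num⟩
  obtain ⟨P⟩ : Nonempty (Sylow 13 G) := inferInstance
  obtain ⟨hP, he1, hed, hn, hmod⟩ := relIndex_facts (G := G) 2 3 13 5 2 (by norm_num) (by norm_num)
    (by norm_num) (by norm_num) (by norm_num) (by rw [hG]; norm_num) (by rw [hG]; norm_num) P
  set e := (Subgroup.centralizer ((P : Subgroup G) : Set G)).relIndex
    (Subgroup.normalizer ((P : Subgroup G) : Set G)) with he
  rw [hG] at hn
  have he2 : e = 2 := by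
    have hle : e ≤ 12 := Nat.le_of_dvd (by norm_num) hed
    interval_cases e <;> omega
  have hnc : ¬ IsMulCommutative G :=
    Cfsg.Agent.Lib.Helper17.not_comm_of_not_prime (by rw [hG]; norm_num)
  obtain ⟨X, a, d, δ, η, χ₁, hχ₁X, hχ₁, ha1, hδ, hX, hnorm, hrel⟩ :=
    digest 13 2 (by norm_num) (by norm_num) P hP he2
  have hsum : ∑ χ ∈ X, a χ ^ 2 = 1 + ∑ χ ∈ X.erase χ₁, a χ ^ 2 := by
    rw [← Finset.add_sum_erase X _ hχ₁X, ha1]; norm_num
  have hcardle : ((X.erase χ₁).card : ℤ) ≤ ∑ χ ∈ X.erase χ₁, a χ ^ 2 := by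
    have : ∑ χ ∈ X.erase χ₁, (1 : ℤ) ≤ ∑ χ ∈ X.erase χ₁, a χ ^ 2 :=
      Finset.sum_le_sum (fun χ hχ => one_le_sq (hX χ (Finset.mem_of_mem_erase hχ)).1)
    simpa using this
  have hδ2 : δ ^ 2 = 1 := by rcases hδ with h | h <;> rw [h] <;> norm_num
  norm_num at hnorm
  have hd : d = 0 := by
    by_contra hd
    have h1 := one_le_sq hd
    have h2 := sq_nonneg (d - δ)
    have h3 : (0 : ℤ) ≤ ((X.erase χ₁).card : ℤ) := by positivity
    nlinarith
  subst hd
  have hS1 : ∑ χ ∈ X.erase χ₁, a χ ^ 2 = 1 := by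
    rw [hsum] at hnorm
    have : (0 - δ) ^ 2 = 1 := by rw [zero_sub, neg_sq, hδ2]
    nlinarith
  have hc1 : (X.erase χ₁).card = 1 := by
    have h1 : (X.erase χ₁).card ≤ 1 := by
      rw [hS1] at hcardle; exact_mod_cast hcardle
    have h2 : (X.erase χ₁).card ≠ 0 := by
      intro h
      rw [Finset.card_eq_zero] at h
      rw [h] at hS1
      simp at hS1
    omega
  obtain ⟨χ, hχ⟩ := Finset.card_eq_one.1 hc1
  rw [hχ] at hS1
  simp only [Finset.sum_singleton] at hS1
  have hχmem : χ ∈ X.erase χ₁ := by rw [hχ]; simp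
  have hχne : χ ≠ χ₁ := Finset.ne_of_mem_erase hχmem
  have hχX : χ ∈ X := Finset.mem_of_mem_erase hχmem
  rw [← Finset.add_sum_erase X _ hχ₁X, hχ, ha1, hχ₁, charDegree_one] at hrel
  simp only [Finset.sum_singleton] at hrel
  have hn1 : charDegree (χ : G → ℂ) ≠ 1 := by
    intro h
    apply hχne
    apply Subtype.ext
    rw [eq_one_of_deg_one hnc χ h, hχ₁]
  have hdvd := (deg_facts χ).2
  have hdvdη := (deg_facts η).2
  rw [hG] at hdvd hdvdη
  have hcong := (hX χ hχX).2
  set n := charDegree (χ : G → ℂ) with hn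
  set N := charDegree (η : G → ℂ) with hN
  have hmemn : n ∈ Nat.divisors 3744 := Nat.mem_divisors.2 ⟨hdvd, by norm_num⟩
  have ha : a χ = 1 ∨ a χ = -1 := by
    have : (a χ - 1) * (a χ + 1) = 0 := by nlinarith
    rcases mul_eq_zero.1 this with h | h
    · left; omega
    · right; omega
  rcases ha with ha | ha
  · rw [ha] at hcong hrel
    have h1 : n % 13 = 1 := by omega
    rcases arith1 n hmemn h1 with h | h
    · exact hn1 h
    · rw [h] at hrel
      have hN145 : N = 145 := by rcases hδ with h | h <;> rw [h] at hrel <;> omega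
      rw [hN145] at hdvdη
      norm_num at hdvdη
  · rw [ha] at hcong hrel
    have h1 : n % 13 = 12 := by omega
    have h := arith2 n hmemn h1
    rw [h] at hrel
    have hN11 : N = 11 := by rcases hδ with h | h <;> rw [h] at hrel <;> omega
    rw [hN11] at hdvdη
    norm_num at hdvdη

end Cfsg.Agent.S0975
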