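import Mathlib
import Cfsg.Statements.S1021
import Cfsg.Agent.Lib.Helper17.Basic
import Cfsg.Agent.Lib.Helper17.PSLLabel

set_option autoImplicit false
open Cfsg

namespace Cfsg.Agent.S1021

open Cfsg.Agent.Lib.Helper17

/-- A simple group of order 3420 is isomorphic to the projective special linear group of dimension 2 over the field with 19 elements. -/
theorem result {G : Type*} [Group G] [Finite G] [IsSimpleGroup G] (h : Nat.card G = 3420) {F : Type*} [Field F] [Fintype F] (hF : Fintype.card F = 19) : Nonempty (G ≃* Matrix.ProjectiveSpecialLinearGroup (Fin 2) F) := by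
  have : Fact (Nat.Prime 19) := ⟨by norm_num⟩
  have hfac : Nat.card G = 19 ^ 1 * (9 * (19 + 1)) := by rw [h]; norm_num
  have hfac' : Nat.card G = 19 ^ 1 * 180 := by rw [h]; norm_num
  have h1 := mem_divisors_filter (by norm_num) (card_sylow_mem (p := 19) hfac' (by norm_num))
  rw [show (Nat.divisors 180).filter (fun d => d % 19 = 1) = {1, 20} by decide +kernel] at h1
  have h2 := card_sylow_ne_one (p := 19) hfac' (by norm_num) (by norm_num) (by norm_num)
  have h3 : Nat.card (Sylow 19 G) = 19 + 1 := by
    simp only [Finset.mem_insert, Finset.mem_singleton] at h1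
    rcases h1 with h1 | h1
    · exact absurd h1 h2
    · exact h1
  refine psl2_recognition 19 9 (by norm_num) (by norm_num) hF hfac h3 ?_
  intro _
  exact ⟨3, 2, by norm_num, by norm_num, by norm_num, by norm_num, by decide⟩

end Cfsg.Agent.S1021
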