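import Cfsg.Statements.S1139
import Cfsg.Agent.Lib.Helper63.SuzQuot
import Cfsg.Agent.Lib.Helper63.SuzMat

set_option autoImplicit false
open Cfsg

namespace Cfsg.Agent.S1139

open Cfsg.Agent.Lib.Helper63.Suz in
/-- A Suzuki 2-group `P` with `|P| = |Z(P)|²` is of type A: for some finite field `F` with `|F| = |Z(P)|` and some field automorphism `φ ≠ 1` of odd order, `P` is isomorphic to the group of lower unitriangular matrices with rows `(1,0,0)`, `(x,1,0)`, `(y, φ x, 1)`. -/
theorem result {P : Type*} [Group P] (hP : Cfsg.IsSuzukiTwoGroup P)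
    (hcard : Nat.card P = Nat.card (Subgroup.center P) ^ 2) :
    ∃ (F : Type) (_ : Field F) (_ : Fintype F) (φ : F ≃+* F), Fintype.card F = Nat.card (Subgroup.center P) ∧
      φ ≠ RingEquiv.refl F ∧ Odd (orderOf φ) ∧ Nonempty (P ≃* Cfsg.suzukiTypeA F (φ : F →+* F)) := by
  obtain ⟨hfin, h2, hna, -, K, hKc, hreg⟩ := hP
  haveI := hfin
  have hset : Setup K := by
    refine ⟨h2, ?_, hreg⟩
    intro a ha b hb
    haveI := hKc
    haveI : IsMulCommutative K := IsCyclic.isMulCommutative
    have := mul_comm' (⟨a, ha⟩ : K) ⟨b, hb⟩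
    exact congrArg Subtype.val this
  have hVc : hset.V = Subgroup.center P := by
    ext x
    constructor
    · intro hx
      exact Subgroup.mem_center_iff.2 (hset.central hx)
    · intro hx
      exact hset.center_sq hna hx
  rw [← hVc] at hcard ⊢
  haveI : Fact (Nat.Prime 2) := ⟨Nat.prime_two⟩
  obtain ⟨n, hn⟩ := IsPGroup.iff_card.1 (h2.to_subgroup hset.V)
  have hn0 : n ≠ 0 := by
    rintro rfl
    rw [hn, pow_zero, one_pow] at hcard
    obtain ⟨x, y, hxy⟩ := hna
    haveI : Subsingleton P := (Nat.card_eq_one_iff_unique.1 hcard).1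
    exact hxy (Subsingleton.elim _ _)
  letI : Fintype (GaloisField 2 n) := Fintype.ofFinite _
  have hF : Fintype.card (GaloisField 2 n) = Nat.card hset.V := by
    rw [hn, ← Nat.card_eq_fintype_card, GaloisField.card 2 n hn0]
  obtain ⟨α, β, p₀, c⟩ := hset.exists_coord' hna hcard (GaloisField 2 n) hF
  obtain ⟨θ, α', hθ, hodd, hE⟩ := c.extData hset hna
  have hadd2 : ∀ a : GaloisField 2 n, a + a = 0 := CharTwo.add_self_eq_zero
  exact ⟨GaloisField 2 n, inferInstance, inferInstance, θ, hF, hθ, hodd,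
    ExtData.equiv hadd2 hE (extData_mA (θ : GaloisField 2 n →+* GaloisField 2 n) hadd2)⟩

end Cfsg.Agent.S1139
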