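import Cfsg.Statements.S1225
import Cfsg.Agent.Lib.Helper21.StronglyEmbeddedCount

set_option autoImplicit false
open Cfsg

namespace Cfsg.Agent.S1225

open Cfsg.Agent.Lib.Helper21 Cfsg.Agent.Lib.Helper21.IsStronglyEmbedded in
theorem part1 {G : Type*} [Group G] [Finite G] (H : Subgroup G) (hH : Cfsg.IsStronglyEmbedded H)
    (u : G) (hu : orderOf u = 2) (huH : u ∉ H) (s t : G) (hs : orderOf s = 2) (hsH : s ∈ H)
    (ht : orderOf t = 2) (htH : t ∈ H) :
    ∃ d ∈ (H ⊓ H.map (MulAut.conj u).toMonoidHom), d * s * d⁻¹ = t := by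
  classical
  have : Fintype G := Fintype.ofFinite G
  set x : G ⧸ H := ((1 : G) : G ⧸ H) with hx
  set y : G ⧸ H := (u : G ⧸ H) with hy
  have hxy : x ≠ y := by
    rw [hx, hy, Ne, QuotientGroup.eq]
    simpa using huH
  have hmem : ∀ a : G, orderOf a = 2 → a ∈ H → a ∈ swapSet H x x := by
    intro a ha haH
    rw [mem_swapSet, hx, smul_mk_eq_iff]
    exact ⟨ha, by simpa using haH⟩
  have huxy : u ∈ swapSet H x y := by
    rw [mem_swapSet, hx, hy, smul_mk_eq_mk_iff]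
    exact ⟨hu, by simp⟩
  obtain ⟨i, hi, hi'⟩ := exists_swap_map_eq hH hxy huxy (hmem s hs hsH) (hmem t ht htH)
  refine ⟨u * i, ?_, hi'⟩
  rw [mem_swapSet] at hi huxy
  have h1 : (u * i) • x = x := by
    rw [mul_smul, hi.2, smul_eq_of_invol_smul_eq huxy.1 huxy.2]
  have h2 : (u * i) • y = y := by
    rw [mul_smul, smul_eq_of_invol_smul_eq hi.1 hi.2, huxy.2]
  constructor
  · rw [hx, smul_mk_eq_iff] at h1
    simpa using h1
  · rw [hy, smul_mk_eq_iff] at h2
    exact (mem_map_conj_iff H u _).mpr h2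

/-- Let H be a strongly embedded subgroup of the finite group G, u an involution outside H and D = H ∩ uHu⁻¹. Then any two involutions of H are conjugate by an element of D, and any two involutions of G are conjugate in G. -/
theorem result {G : Type*} [Group G] [Finite G] (H : Subgroup G) (hH : Cfsg.IsStronglyEmbedded H) (u : G) (hu : orderOf u = 2) (huH : u ∉ H) (s t : G) (hs : orderOf s = 2) (hsH : s ∈ H) (ht : orderOf t = 2) (htH : t ∈ H) : (∃ d ∈ (H ⊓ H.map (MulAut.conj u).toMonoidHom), d * s * d⁻¹ = t) ∧ ∀ a b : G, orderOf a = 2 → orderOf b = 2 → IsConj a b := by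
  refine ⟨part1 H hH u hu huH s t hs hsH ht htH, ?_⟩
  intro a b ha hb
  obtain ⟨c1, hc1⟩ := Cfsg.Agent.Lib.Helper21.IsStronglyEmbedded.exists_conj_mem hH ha
  obtain ⟨c2, hc2⟩ := Cfsg.Agent.Lib.Helper21.IsStronglyEmbedded.exists_conj_mem hH hb
  obtain ⟨d, _, hd⟩ := part1 H hH u hu huH (c1 * a * c1⁻¹) (c2 * b * c2⁻¹)
    (by rw [Cfsg.Agent.Lib.Helper21.orderOf_conj_eq', ha]) hc1
    (by rw [Cfsg.Agent.Lib.Helper21.orderOf_conj_eq', hb]) hc2
  rw [isConj_iff]
  refine ⟨c2⁻¹ * d * c1, ?_⟩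
  calc c2⁻¹ * d * c1 * a * (c2⁻¹ * d * c1)⁻¹ = c2⁻¹ * (d * (c1 * a * c1⁻¹) * d⁻¹) * c2 := by group
    _ = c2⁻¹ * (c2 * b * c2⁻¹) * c2 := by rw [hd]
    _ = b := by group

end Cfsg.Agent.S1225
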