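import Cfsg.Statements.S1254
import Cfsg.Agent.S0071
import Cfsg.Agent.Lib.Lead.Residual
import Cfsg.Agent.Lib.Helper72.DihedralAut

set_option autoImplicit false
open Cfsg
open scoped Pointwise

namespace Cfsg.Agent.S1254

open Cfsg.Agent.Lib.Helper72

/-- Let X be a finite group whose Sylow 2-subgroup S is dihedral (of order at least 4). Then X has a normal 2-complement if and only if, for every Klein four-subgroup U ≤ S, the normalizer N_X(U) is generated by C_X(U) and N_S(U). -/
theorem result {X : Type*} [Group X] [Finite X] (S : Sylow 2 X) (m : ℕ) (hm : 2 ≤ m) (eS : (S : Subgroup X) ≃* DihedralGroup m) : Cfsg.HasNormalPComplement 2 X ↔ ∀ U : Subgroup X, U ≤ S → IsKleinFour U → Subgroup.normalizer (U : Set X) = Subgroup.centralizer (U : Set X) ⊔ ((S : Subgroup X) ⊓ Subgroup.normalizer (U : Set X)) := by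
  constructor
  · intro h U hUS _
    have hc := Cfsg.Agent.Lib.Lead.HasNormalPComplement.isComplement'_pPrimeCore h S
    obtain ⟨K, hK⟩ : ∃ K, K = pPrimeCore 2 X := ⟨_, rfl⟩
    rw [← hK] at hc
    have hKn : K.Normal := hK ▸ inferInstance
    apply le_antisymm
    · intro n hn
      have hnmem : n ∈ (↑(K ⊔ (S : Subgroup X)) : Set X) := by rw [hc.sup_eq_top]; trivial
      rw [Subgroup.normal_mul] at hnmem
      obtain ⟨k, hk, s, hs, hks⟩ := hnmem
      have hks' : n = k * s := hks.symm
      have key : ∀ u ∈ U, k * (s * u * s⁻¹) * k⁻¹ = s * u * s⁻¹ ∧ s * u * s⁻¹ ∈ U := by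
        intro u hu
        have h1 : n * u * n⁻¹ ∈ U := (Subgroup.mem_normalizer_iff.1 hn u).1 hu
        have e1 : n * u * n⁻¹ = k * (s * u * s⁻¹) * k⁻¹ := by rw [hks']; group
        rw [e1] at h1
        have hv : s * u * s⁻¹ ∈ (S : Subgroup X) :=
          Subgroup.mul_mem _ (Subgroup.mul_mem _ hs (hUS hu)) (Subgroup.inv_mem _ hs)
        have h2 : k * (s * u * s⁻¹) * k⁻¹ * (s * u * s⁻¹)⁻¹ ∈ K := by
          have h3 := hKn.conj_mem k⁻¹ (K.inv_mem hk) (s * u * s⁻¹)
          have := K.mul_mem hk h3
          simpa [mul_assoc] using this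
        have h4 : k * (s * u * s⁻¹) * k⁻¹ * (s * u * s⁻¹)⁻¹ ∈ (S : Subgroup X) :=
          Subgroup.mul_mem _ (hUS h1) (Subgroup.inv_mem _ hv)
        have h5 : k * (s * u * s⁻¹) * k⁻¹ * (s * u * s⁻¹)⁻¹ = 1 :=
          Subgroup.disjoint_def.1 hc.disjoint h2 h4
        have h6 : k * (s * u * s⁻¹) * k⁻¹ = s * u * s⁻¹ := mul_inv_eq_one.1 h5
        exact ⟨h6, h6 ▸ h1⟩
      have hsN : s ∈ Subgroup.normalizer (U : Set X) :=
        mem_normalizer_of_conj_mem U s (fun u hu => (key u hu).2)
      have hkC : k ∈ Subgroup.centralizer (U : Set X) := by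
        apply mem_centralizer_of_forall_conj
        intro w hw
        have h1 : s⁻¹ * w * s ∈ U := by
          have := (Subgroup.mem_normalizer_iff.1 (Subgroup.inv_mem _ hsN) w).1 hw
          simpa using this
        have h2 := (key _ h1).1
        have e : s * (s⁻¹ * w * s) * s⁻¹ = w := by group
        rwa [e] at h2
      rw [hks']
      exact Subgroup.mul_mem_sup hkC (Subgroup.mem_inf.2 ⟨hs, hsN⟩)
    · exact sup_le (Subgroup.centralizer_le_normalizer _) inf_le_right
  · intro h
    obtain ⟨N, hN, hNc⟩ := (Cfsg.Agent.S0071.result S).2 (by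
      intro Q hQS g hg hgo
      rcases centralizes_or_kleinFour_of_dihedral (S : Subgroup X) m eS Q hQS
        (S.isPGroup'.to_le hQS) g hg hgo with h1 | h1
      · exact h1
      · have h2 := h Q hQS h1
        have hCn : ((Subgroup.centralizer (Q : Set X)).subgroupOf
            (Subgroup.normalizer (Q : Set X))).Normal := by
          rw [← Subgroup.normalizerMonoidHom_ker]; infer_instance
        have htop : (Subgroup.centralizer (Q : Set X)).subgroupOf (Subgroup.normalizer (Q : Set X)) ⊔
            ((S : Subgroup X) ⊓ Subgroup.normalizer (Q : Set X)).subgroupOf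
              (Subgroup.normalizer (Q : Set X)) = ⊤ := by
          rw [← Subgroup.subgroupOf_sup (Subgroup.centralizer_le_normalizer _) inf_le_right, ← h2,
            Subgroup.subgroupOf_self]
        have hgmem : (⟨g, hg⟩ : Subgroup.normalizer (Q : Set X)) ∈
            (↑((Subgroup.centralizer (Q : Set X)).subgroupOf (Subgroup.normalizer (Q : Set X)) ⊔
            ((S : Subgroup X) ⊓ Subgroup.normalizer (Q : Set X)).subgroupOf
              (Subgroup.normalizer (Q : Set X))) : Set (Subgroup.normalizer (Q : Set X))) := by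
          rw [htop]; trivial
        rw [Subgroup.normal_mul] at hgmem
        obtain ⟨c, hc, t, ht, hct⟩ := hgmem
        have hc' : (c : X) ∈ Subgroup.centralizer (Q : Set X) := hc
        have ht' : (t : X) ∈ (S : Subgroup X) := (Subgroup.mem_inf.1 ht).1
        obtain ⟨k, hk⟩ := S.isPGroup' ⟨t, ht'⟩
        have hk' : t ^ 2 ^ k = 1 := by
          apply Subtype.ext
          simpa using congrArg Subtype.val hk
        -- modulo the centralizer, `g` equals `t`
        have hq : (QuotientGroup.mk' ((Subgroup.centralizer (Q : Set X)).subgroupOf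
            (Subgroup.normalizer (Q : Set X)))) ⟨g, hg⟩ =
            (QuotientGroup.mk' ((Subgroup.centralizer (Q : Set X)).subgroupOf
            (Subgroup.normalizer (Q : Set X)))) t := by
          have hc1 : (QuotientGroup.mk' ((Subgroup.centralizer (Q : Set X)).subgroupOf
            (Subgroup.normalizer (Q : Set X)))) c = 1 := (QuotientGroup.eq_one_iff c).2 hc
          have : (⟨g, hg⟩ : Subgroup.normalizer (Q : Set X)) = c * t := hct.symm
          rw [this, map_mul, hc1, one_mul]
        have hgp : (⟨g, hg⟩ : Subgroup.normalizer (Q : Set X)) ^ 2 ^ k ∈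
            (Subgroup.centralizer (Q : Set X)).subgroupOf (Subgroup.normalizer (Q : Set X)) := by
          rw [← QuotientGroup.eq_one_iff, ← QuotientGroup.mk'_apply, map_pow, hq, ← map_pow, hk',
            map_one]
        have hgp' : g ^ 2 ^ k ∈ Subgroup.centralizer (Q : Set X) := by
          simpa [Subgroup.mem_subgroupOf] using hgp
        obtain ⟨j, hj⟩ := exists_pow_eq_self_of_coprime
          (show (2 ^ k).Coprime (orderOf g) from Nat.Coprime.pow_left k hgo.symm)
        rw [← hj]
        exact Subgroup.pow_mem _ hgp' j)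
    exact ⟨S, N, hN, hNc⟩

end Cfsg.Agent.S1254
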