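import Cfsg.Statements.S1302
import Cfsg.Agent.Lib.Helper9.Transitivity2
import Cfsg.Agent.Lib.Helper24.PGroup

set_option autoImplicit false
open Cfsg

namespace Cfsg.Agent.S1302

open Subgroup
open Cfsg.Agent.Lib.Helper47 Cfsg.Agent.Lib.Helper9
open scoped commutatorElement

/-- Odd case with fixed points of order `p` only. -/
theorem le_centralizer_of_fixed_order_p {G : Type*} [Group G] [Finite G] {p : ℕ} [Fact p.Prime]
    (hp2 : p ≠ 2)
    (K E : Subgroup G) (hE : IsPGroup p E) (hK : (Nat.card K).Coprime p)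
    (hEK : E ≤ normalizer (K : Set G)) (R : Subgroup G) (hR : IsPGroup p R)
    (hKR : K ≤ normalizer (R : Set G)) (hER : E ≤ normalizer (R : Set G))
    (hfix : ∀ x ∈ R ⊓ centralizer (E : Set G), x ^ p = 1 → x ∈ centralizer (K : Set G)) :
    R ≤ centralizer (K : Set G) := by
  induction hn : Nat.card R using Nat.strong_induction_on generalizing R with
  | _ n ih =>
  subst hn
  have hcopR := Cfsg.Agent.Lib.Helper24.coprime_card_of_isPGroup hK hR
  have hle : ⁅R, K⁆ ≤ R := Subgroup.le_normalizer_iff_commutator_le_left.1 hKR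
  have ihQ : ∀ Q : Subgroup G, Q < R → K ≤ normalizer (Q : Set G) → E ≤ normalizer (Q : Set G) →
      Q ≤ centralizer (K : Set G) := fun Q hQ hKQ hEQ =>
    ih _ (Cfsg.Agent.Lib.Helper24.card_lt_of_lt hQ) Q (hR.to_le hQ.le) hKQ hEQ
      (fun x hx => hfix x (mem_inf.mpr ⟨hQ.le (mem_inf.mp hx).1, (mem_inf.mp hx).2⟩)) rfl
  by_cases hRK : ⁅R, K⁆ = R
  swap
  · have h1 : ⁅R, K⁆ ≤ centralizer (K : Set G) := by
      apply ihQ _ (lt_of_le_of_ne hle hRK)
      · exact (le_inf hKR le_normalizer).trans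
          (Cfsg.Agent.Lib.Helper24.normalizer_inf_le_normalizer_commutator R K)
      · exact (le_inf hER hEK).trans
          (Cfsg.Agent.Lib.Helper24.normalizer_inf_le_normalizer_commutator R K)
    have h2 : ⁅⁅R, K⁆, K⁆ = ⊥ := Subgroup.commutator_eq_bot_iff_le_centralizer.2 h1
    exact Subgroup.commutator_eq_bot_iff_le_centralizer.1
      (Cfsg.Agent.Lib.Helper24.commutator_eq_bot_of_coprime hKR hcopR h2)
  by_cases hbot : R = ⊥
  · rw [hbot]; exact bot_le
  obtain ⟨M, -, hMR, -, -, -, hcomm⟩ :=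
    Cfsg.Agent.Lib.Helper24.exists_maximal_normal p hR (bot_lt_iff_ne_bot.2 hbot)
  have hN1 : ⁅R, R⁆ < R := lt_of_le_of_lt hcomm hMR
  have hN1n : normalizer (R : Set G) ≤ normalizer ((⁅R, R⁆ : Subgroup G) : Set G) :=
    le_trans (le_inf le_rfl le_rfl)
      (Cfsg.Agent.Lib.Helper24.normalizer_inf_le_normalizer_commutator R R)
  have hN1K := ihQ _ hN1 (hKR.trans hN1n) (hER.trans hN1n)
  have hN1R := Cfsg.Agent.Lib.Helper24.le_centralizer_of_commutator_eq hRK
    (le_normalizer.trans hN1n) hN1K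
  have hcc : ∀ u ∈ R, ∀ v ∈ R, ∀ w ∈ R, Commute ⁅u, v⁆ w := by
    intro u hu v hv w hw
    have := hN1R (Subgroup.commutator_mem_commutator hu hv)
    rw [Subgroup.mem_centralizer_iff] at this
    exact (this w hw).symm
  let D : Subgroup G :=
    { carrier := {x | x ∈ R ∧ x ^ p = 1}
      one_mem' := ⟨R.one_mem, one_pow _⟩
      mul_mem' := by
        rintro x y ⟨hx, hxp⟩ ⟨hy, hyp⟩
        refine ⟨R.mul_mem hx hy, ?_⟩
        rw [Cfsg.Agent.Lib.Helper24.mul_pow_prime_of_commute p hp2 x y (hcc _ hy _ hx _ hx)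
          (hcc _ hy _ hx _ hy) (by rw [hyp]; exact Commute.one_left x), hxp, hyp, one_mul]
      inv_mem' := by
        rintro x ⟨hx, hxp⟩
        exact ⟨R.inv_mem hx, by rw [inv_pow, hxp, inv_one]⟩ }
  have hDmem : ∀ x, x ∈ D ↔ x ∈ R ∧ x ^ p = 1 := fun x => Iff.rfl
  have hDR : D ≤ R := fun x hx => hx.1
  have hDn : normalizer (R : Set G) ≤ normalizer (D : Set G) := by
    intro g hg
    rw [mem_normalizer_iff]
    intro x
    rw [hDmem, hDmem, ← (mem_normalizer_iff.mp hg x), conj_pow]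
    constructor
    · rintro ⟨h1, h2⟩
      exact ⟨h1, by rw [h2]; group⟩
    · rintro ⟨h1, h2⟩
      refine ⟨h1, ?_⟩
      have : x ^ p = g⁻¹ * (g * x ^ p * g⁻¹) * g := by group
      rw [this, h2]; group
  have hD : D ≤ centralizer (K : Set G) :=
    Cfsg.Agent.Lib.Helper9.le_centralizer_of_fixed_odd hp2 K E hE hK hEK _ D rfl (hR.to_le hDR)
      (hKR.trans hDn) (hER.trans hDn)
      (fun x hx => hfix x (mem_inf.mpr ⟨hDR (mem_inf.mp hx).1, (mem_inf.mp hx).2⟩)
        (mem_inf.mp hx).1.2)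
  exact Cfsg.Agent.Lib.Helper24.le_centralizer_of_centralizes_omega p hp2 K hK R hR hKR
    (fun x hx hxp => hD ⟨hx, hxp⟩)

/-- Let X be a finite p-constrained group, p an odd prime, and A an abelian p-subgroup of X containing every element of order p of C_X(A). Then every subgroup of X of order prime to p that is normalized by A lies in O_{p'}(X). -/
theorem result {X : Type*} [Group X] [Finite X] (p : ℕ) [Fact p.Prime] (hp : p ≠ 2) (hX : Cfsg.IsPConstrained p X) (A : Subgroup X) (hA : IsMulCommutative ↥A) (hAp : IsPGroup p ↥A) (hΩ : ∀ x ∈ Subgroup.centralizer (A : Set X), orderOf x = p → x ∈ A) (Q : Subgroup X) (hQ : ¬ p ∣ Nat.card ↥Q) (hAQ : A ≤ Subgroup.normalizer (Q : Set X)) : Q ≤ Cfsg.pPrimeCore p X := by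
  have hpp : p.Prime := Fact.out
  have hK : (Nat.card Q).Coprime p := ((Nat.Prime.coprime_iff_not_dvd hpp).mpr hQ).symm
  set W := pPrimeCore p X with hW
  have hWc : (Nat.card W).Coprime p := Cfsg.Agent.Lib.Lead.card_pPrimeCore_coprime p
  set π := QuotientGroup.mk' W with hπ
  have hker : ∀ c, π c = 1 → c ∈ W := by
    intro c hc
    rw [← QuotientGroup.ker_mk' W]; exact hc
  set R := pCore p (X ⧸ W) with hR
  have hSC : centralizer (R : Set (X ⧸ W)) ≤ R :=
    Cfsg.Agent.Lib.Helper54.isPConstrained_iff_quotient.mp hX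
  have hRp : IsPGroup p R := Cfsg.Agent.Lib.Lead.pCore_isPGroup p _
  have hRn : R.Normal := inferInstance
  have hRtop : normalizer (R : Set (X ⧸ W)) = ⊤ := normalizer_eq_top_iff.mpr hRn
  have hE' : IsPGroup p (A.map π) := hAp.map π
  have hK' : (Nat.card (Q.map π)).Coprime p :=
    Nat.Coprime.of_dvd_left (Subgroup.card_map_dvd _ _) hK
  have hEK' : A.map π ≤ normalizer ((Q.map π : Subgroup (X ⧸ W)) : Set (X ⧸ W)) :=
    (map_mono hAQ).trans (le_normalizer_map π)
  have hRK0 : R ⊓ Q.map π = ⊥ := inf_eq_bot_of_isPGroup_of_coprime hRp hK'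
  have hEW : A ⊓ W = ⊥ := inf_eq_bot_of_isPGroup_of_coprime hAp hWc
  have hfix : ∀ r ∈ R ⊓ centralizer ((A.map π : Subgroup (X ⧸ W)) : Set (X ⧸ W)), r ^ p = 1 →
      r ∈ centralizer ((Q.map π : Subgroup (X ⧸ W)) : Set (X ⧸ W)) := by
    intro r hr hrp
    obtain ⟨hrR, hrC⟩ := mem_inf.mp hr
    obtain ⟨x, hxN, hxr⟩ := normalizer_map_mk'_le W hWc A hAp (centralizer_le_normalizer _ hrC)
    have hxr' : π x = r := hxr
    subst hxr'
    have hxC : x ∈ centralizer (A : Set X) := by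
      rw [mem_centralizer_iff]
      intro e he
      have h1 : x * e * x⁻¹ * e⁻¹ ∈ A ⊓ W := by
        refine mem_inf.mpr ⟨mul_mem ((mem_normalizer_iff.mp hxN _).mp he) (inv_mem he), ?_⟩
        apply hker
        have h2 := (mem_centralizer_iff.mp hrC) (π e) ⟨e, he, rfl⟩
        simp only [map_mul, map_inv]
        rw [← h2]
        group
      rw [hEW, mem_bot] at h1
      have h3 : x * e * x⁻¹ * e⁻¹ * (e * x) = e * x := by rw [h1, one_mul]
      rw [← h3]; group
    have hj' : (π x) ^ p ^ 1 = 1 := by rw [pow_one]; exact hrp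
    obtain ⟨n, hn1, hn2⟩ := Cfsg.Agent.Lib.Helper9.exists_pow_isPGroup_map_eq π x hj'
    set y := x ^ n with hy
    have hyp : y ^ p = 1 := by
      have h1 : y ^ p ∈ W := by
        apply hker
        rw [map_pow, hn2]; exact hrp
      have h2 : y ^ p ∈ zpowers y ⊓ W :=
        mem_inf.mpr ⟨Subgroup.pow_mem _ (mem_zpowers y) p, h1⟩
      rw [inf_eq_bot_of_isPGroup_of_coprime hn1 hWc, mem_bot] at h2
      exact h2
    have hyE : y ∈ A := by
      rcases (Nat.dvd_prime hpp).mp (orderOf_dvd_of_pow_eq_one hyp) with h1 | h1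
      · rw [orderOf_eq_one_iff] at h1
        rw [h1]; exact A.one_mem
      · exact hΩ _ (pow_mem hxC n) h1
    rw [← hn2] at hrR ⊢
    rw [mem_centralizer_iff]
    rintro _ ⟨k, hk, rfl⟩
    have h1 : π (y * k * y⁻¹ * k⁻¹) ∈ R ⊓ Q.map π := by
      refine mem_inf.mpr ⟨?_, ⟨_, mul_mem ((mem_normalizer_iff.mp (hAQ hyE) _).mp hk) (inv_mem hk), rfl⟩⟩
      have h2 : π (y * k * y⁻¹ * k⁻¹) = π y * (π k * (π y)⁻¹ * (π k)⁻¹) := by
        simp only [map_mul, map_inv]; group
      rw [h2]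
      exact mul_mem hrR (hRn.conj_mem _ (inv_mem hrR) _)
    rw [hRK0, mem_bot] at h1
    have h3 : π (y * k * y⁻¹ * k⁻¹) * (π k * π y) = π k * π y := by rw [h1, one_mul]
    rw [← h3]
    simp only [map_mul, map_inv]; group
  have hRK : R ≤ centralizer ((Q.map π : Subgroup (X ⧸ W)) : Set (X ⧸ W)) :=
    le_centralizer_of_fixed_order_p hp (Q.map π) (A.map π) hE' hK' hEK' R hRp
      (hRtop ▸ le_top) (hRtop ▸ le_top) hfix
  have hbot : Q.map π = ⊥ := by
    rw [← le_bot_iff, ← hRK0]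
    exact le_inf ((le_centralizer_iff.mp hRK).trans hSC) le_rfl
  rw [Subgroup.map_eq_bot_iff, QuotientGroup.ker_mk'] at hbot
  exact hbot

end Cfsg.Agent.S1302
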