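import Cfsg.Statements.S1312
import Cfsg.Agent.S3752

set_option autoImplicit false
open Cfsg

namespace Cfsg.Agent.S1312

open Cfsg.Agent.Lib.Helper62 Cfsg.Agent.Lib.Lead Cfsg.Agent.Lib.Helper31

/-- Let G be a non-abelian finite simple group and M ≠ N maximal subgroups of G with F*(M) ≤ N and F*(N) ≤ M. Then there is a prime p such that F*(M) and F*(N) are both p-groups. -/
theorem result {G : Type*} [Group G] [Finite G] [IsSimpleGroup G] (hna : ¬ IsMulCommutative G) (M N : Subgroup G) (hM : IsCoatom M) (hN : IsCoatom N) (hMN : M ≠ N) (h1 : (Cfsg.generalizedFittingSubgroup ↥M).map M.subtype ≤ N) (h2 : (Cfsg.generalizedFittingSubgroup ↥N).map N.subtype ≤ M) : ∃ p : ℕ, p.Prime ∧ IsPGroup p ↥(Cfsg.generalizedFittingSubgroup ↥M) ∧ IsPGroup p ↥(Cfsg.generalizedFittingSubgroup ↥N) := by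
  have key : ∀ L : Subgroup G, IsCoatom L → ∀ A : Subgroup G, A ≠ ⊥ → A ≤ L →
      L ≤ Subgroup.normalizer (A : Set G) → Subgroup.normalizer (A : Set G) = L := by
    intro L hL A hA hAL hLA
    rcases hL.le_iff.mp hLA with h | h
    · exfalso
      have hn : A.Normal := Subgroup.normalizer_eq_top_iff.mp h
      rcases hn.eq_bot_or_eq_top with h' | h'
      · exact hA h'
      · apply hL.1
        rw [eq_top_iff, ← h']
        exact hAL
    · exact h
  obtain ⟨p, hp, c1, c2, -⟩ := Cfsg.Agent.S3752.result M N hMN (by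
    intro A hA hAD
    constructor
    · intro h
      rw [key M hM A hA (hAD.trans inf_le_left) h, inf_comm]
    · intro h
      rw [key N hN A hA (hAD.trans inf_le_right) h]) h1 h2
  have : Fact p.Prime := ⟨hp⟩
  refine ⟨p, hp, ?_, ?_⟩
  · rw [(genFitting_eq_pCore_iff_centralizer p).mpr c1]
    exact pCore_isPGroup p _
  · rw [(genFitting_eq_pCore_iff_centralizer p).mpr c2]
    exact pCore_isPGroup p _

end Cfsg.Agent.S1312
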