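import Mathlib
import Cfsg.Statements.S1313
import Cfsg.Agent.Lib.Helper31.GenFitting
import Cfsg.Agent.Lib.Helper22.SupLemmas

set_option autoImplicit false
open Cfsg
open Cfsg.Agent.Lib.Helper31 Cfsg.Agent.Lib.Helper22

namespace Cfsg.Agent.S1313

theorem card_mul_card_mulAut_le (F : Type*) [Group F] [Finite F] :
    Nat.card F * Nat.card (MulAut F) ≤ (Nat.card F).factorial := by
  classical
  haveI := Fintype.ofFinite F
  have h1 : Nat.card (Equiv.Perm F) = (Nat.card F).factorial := by
    rw [Nat.card_eq_fintype_card, Nat.card_eq_fintype_card, Fintype.card_perm]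
  rw [← h1, ← Nat.card_prod]
  let f : F × MulAut F → Equiv.Perm F := fun xe => (xe.2.toEquiv).trans (Equiv.mulLeft xe.1)
  refine Nat.card_le_card_of_injective f ?_
  rintro ⟨x, e⟩ ⟨y, e'⟩ h
  have h2 : ∀ z, x * e z = y * e' z := fun z => by
    have := congrArg (fun g : Equiv.Perm F => g z) h
    simpa [f] using this
  have hxy : x = y := by simpa using h2 1
  subst hxy
  have he : e = e' := by
    ext z
    exact mul_left_cancel (h2 z)
  rw [he]

/-- For a finite group H, |H| ≤ |F*(H)|!. -/
theorem result {H : Type*} [Group H] [Finite H] : Nat.card H ≤ Nat.factorial (Nat.card ↥(Cfsg.generalizedFittingSubgroup H)) := by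
  haveI hn : (Cfsg.generalizedFittingSubgroup H).Normal := genFitting_normal
  set Fs := Cfsg.generalizedFittingSubgroup H with hFs
  let φ : H →* MulAut Fs := MulAut.conjNormal
  have hker : φ.ker ≤ Fs := by
    refine le_trans ?_ (centralizer_genFitting_le (G := H))
    intro h hh
    rw [Subgroup.mem_centralizer_iff]
    intro x hx
    have h1 : φ h ⟨x, hx⟩ = ⟨x, hx⟩ := by
      rw [MonoidHom.mem_ker.mp hh]; rfl
    have h2 : h * x * h⁻¹ = x := by
      have := congrArg Subtype.val h1
      simpa [φ] using this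
    calc x * h = h * x * h⁻¹ * h := by rw [h2]
      _ = h * x := by group
  have h1 : Nat.card H = Nat.card (H ⧸ φ.ker) * Nat.card φ.ker :=
    Subgroup.card_eq_card_quotient_mul_card_subgroup _
  have h2 : Nat.card (H ⧸ φ.ker) ≤ Nat.card (MulAut Fs) :=
    Nat.card_le_card_of_injective _ (QuotientGroup.kerLift_injective φ)
  have h3 : Nat.card φ.ker ≤ Nat.card Fs :=
    Nat.le_of_dvd Nat.card_pos (Subgroup.card_dvd_of_le hker)
  calc Nat.card H = Nat.card (H ⧸ φ.ker) * Nat.card φ.ker := h1
    _ ≤ Nat.card (MulAut Fs) * Nat.card Fs := Nat.mul_le_mul h2 h3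
    _ = Nat.card Fs * Nat.card (MulAut Fs) := mul_comm _ _
    _ ≤ _ := card_mul_card_mulAut_le Fs

end Cfsg.Agent.S1313
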