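import Cfsg.Statements.S1349
import Cfsg.Agent.Lib.Helper62.DihedralLemma
import Cfsg.Agent.Lib.Helper62.Bender2
import Cfsg.Agent.Lib.Helper1.Fitting
import Cfsg.Agent.Lib.Helper1.Cores
import Cfsg.Agent.Lib.Helper47.Frat
import Cfsg.Agent.Lib.Helper54.Dihedral
import Cfsg.Agent.S0044

set_option autoImplicit false
open Cfsg

namespace Cfsg.Agent.S1349

open Cfsg.Agent.Lib.Helper62 Cfsg.Agent.Lib.Helper24 Cfsg.Agent.Lib.Helper1

/-- Let G be finite, L ≤ G solvable of odd order, and A an elementary abelian 2-subgroup of order 2^d (d ≥ 1) normalizing L with C_A(L) = 1. Then there are subgroups A_1, …, A_d of A of order 2 generating A and subgroups L_1, …, L_d of L such that each A_i ⊔ L_i is dihedral of order 2 n_i with n_i odd and at least 3, and A_i ⊔ L_i commutes elementwise with A_j ⊔ L_j for i ≠ j. -/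
theorem result {G : Type*} [Group G] [Finite G] (L A : Subgroup G) (hLs : Group.IsSolvable ↥L) (hLodd : Odd (Nat.card ↥L)) (hA : Cfsg.IsElementaryAbelian 2 A) (d : ℕ) (hd : 1 ≤ d) (hAd : Nat.card ↥A = 2 ^ d) (hAL : A ≤ Subgroup.normalizer (L : Set G)) (hfaith : A ⊓ Subgroup.centralizer (L : Set G) = ⊥) : ∃ (Ai : Fin d → Subgroup G) (Li : Fin d → Subgroup G) (n : Fin d → ℕ), (∀ i, Ai i ≤ A ∧ Nat.card ↥(Ai i) = 2 ∧ Li i ≤ L ∧ Odd (n i) ∧ 3 ≤ n i ∧ Nonempty (↥(Ai i ⊔ Li i) ≃* DihedralGroup (n i))) ∧ (⨆ i, Ai i) = A ∧ ∀ i j, i ≠ j → ∀ x ∈ Ai i ⊔ Li i, ∀ y ∈ Ai j ⊔ Li j, x * y = y * x := by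
  classical
  have hAcomm : ∀ a ∈ A, ∀ b ∈ A, a * b = b * a := fun a ha b hb =>
    congrArg Subtype.val (@mul_comm' _ _ hA.1 (⟨a, ha⟩ : ↥A) ⟨b, hb⟩)
  obtain ⟨F, hF⟩ : ∃ F, F = (fittingSubgroup ↥L).map L.subtype := ⟨_, rfl⟩
  have hFL : F ≤ L := by rw [hF]; exact Subgroup.map_subtype_le _
  have hFn : Group.IsNilpotent ↥F := by
    rw [hF]
    exact Cfsg.Agent.Lib.Helper91.isNilpotent_map _ fittingSubgroup_isNilpotent
  have hFodd : Odd (Nat.card F) := Odd.of_dvd_nat hLodd (Subgroup.card_dvd_of_le hFL)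
  have hNF : Subgroup.normalizer (L : Set G) ≤ Subgroup.normalizer (F : Set G) := by
    rw [hF]
    exact Cfsg.Agent.Lib.Helper47.normalizer_le_normalizer_map_of_characteristic L _
  have hAF : A ≤ Subgroup.normalizer (F : Set G) := hAL.trans hNF
  have hCF : L ⊓ Subgroup.centralizer (F : Set G) ≤ F := by
    intro y hy
    obtain ⟨hyL, hyC⟩ := Subgroup.mem_inf.1 hy
    rw [hF] at hyC ⊢
    have h1 := (coe_mem_centralizer_map (y := (⟨y, hyL⟩ : ↥L))).1 hyC
    exact Subgroup.mem_map.2 ⟨⟨y, hyL⟩, Cfsg.Agent.S0044.result h1, rfl⟩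
  have hfaithF : A ⊓ Subgroup.centralizer (F : Set G) = ⊥ := by
    obtain ⟨A₀, hA₀⟩ : ∃ A₀, A₀ = A ⊓ Subgroup.centralizer (F : Set G) := ⟨_, rfl⟩
    rw [← hA₀]
    have hA₀A : A₀ ≤ A := hA₀ ▸ inf_le_left
    have hA₀F : A₀ ≤ Subgroup.centralizer (F : Set G) := hA₀ ▸ inf_le_right
    have hFA₀ : ⁅F, A₀⁆ = ⊥ :=
      Subgroup.commutator_eq_bot_iff_le_centralizer.2 (Subgroup.le_centralizer_iff.1 hA₀F)
    have hcop : (Nat.card A₀).Coprime (Nat.card L) := by
      have h1 : Nat.card A₀ ∣ 2 ^ d := hAd ▸ Subgroup.card_dvd_of_le hA₀A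
      exact Nat.Coprime.coprime_dvd_left h1 (Nat.Coprime.pow_left _ (Nat.coprime_two_left.2 hLodd))
    have h3 : ⁅⁅L, A₀⁆, F⁆ = ⊥ := by
      apply Subgroup.commutator_commutator_eq_bot_of_rotate
      · rw [Subgroup.commutator_comm A₀ F, hFA₀, Subgroup.commutator_bot_left]
      · have : ⁅F, L⁆ ≤ F :=
          Subgroup.le_normalizer_iff_commutator_le_left.1 (Subgroup.le_normalizer.trans hNF)
        rw [eq_bot_iff, ← hFA₀]
        exact Subgroup.commutator_mono this le_rfl
    have h4 : ⁅L, A₀⁆ ≤ F := by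
      refine le_trans (le_inf ?_ (Subgroup.commutator_eq_bot_iff_le_centralizer.1 h3)) hCF
      exact Subgroup.le_normalizer_iff_commutator_le_left.1 (hA₀A.trans hAL)
    have h5 : ⁅L, A₀⁆ = ⊥ := by
      apply commutator_eq_bot_of_coprime (hA₀A.trans hAL) hcop
      rw [eq_bot_iff, ← hFA₀]
      exact Subgroup.commutator_mono h4 le_rfl
    rw [eq_bot_iff, ← hfaith]
    exact le_inf hA₀A (Subgroup.le_centralizer_iff.1
      (Subgroup.commutator_eq_bot_iff_le_centralizer.1 h5))
  obtain ⟨f, h1, h2, h3, h4, -, h6, -⟩ := dihedral_core A hA.1 hA.2 d A F le_rfl hAd hFn hFodd hAF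
    hfaithF
  -- centralizing versus inverting
  have hcen : ∀ i s, s ∈ Subgroup.centralizer (f i : Set G) ↔ ∀ x ∈ f i, s * x * s⁻¹ = x := by
    intro i s
    rw [Subgroup.mem_centralizer_iff]
    refine forall₂_congr fun x _ => ?_
    rw [mul_inv_eq_iff_eq_mul, eq_comm]
  have hinv : ∀ i, ∀ s ∈ A, s ∉ Subgroup.centralizer (f i : Set G) →
      ∀ x ∈ f i, s * x * s⁻¹ = x⁻¹ := by
    intro i s hs hsC
    exact (h3 i s hs).resolve_left (fun h => hsC ((hcen i s).2 h))
  have hmul : ∀ i, ∀ s ∈ A, ∀ s' ∈ A, s ∉ Subgroup.centralizer (f i : Set G) →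
      s' ∉ Subgroup.centralizer (f i : Set G) → s * s' ∈ Subgroup.centralizer (f i : Set G) := by
    intro i s hs s' hs' h h'
    rw [hcen]
    intro x hx
    calc s * s' * x * (s * s')⁻¹ = s * (s' * x * s'⁻¹) * s⁻¹ := by group
      _ = x := by rw [hinv i s' hs' h' x hx, hinv i s hs h _ (inv_mem hx), inv_inv]
  have hall : ∀ s ∈ A, (∀ i, s ∈ Subgroup.centralizer (f i : Set G)) → s = 1 := by
    intro s hs h
    have h' : s ∈ Subgroup.centralizer ((⨆ i, f i : Subgroup G) : Set G) := by
      have : (⨆ i, f i) ≤ Subgroup.centralizer (Subgroup.zpowers s : Set G) :=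
        iSup_le fun i => Subgroup.le_centralizer_iff.1 (by rw [Subgroup.zpowers_le]; exact h i)
      exact Subgroup.le_centralizer_iff.1 this (Subgroup.mem_zpowers s)
    exact Subgroup.mem_bot.1 (h6 ▸ Subgroup.mem_inf.2 ⟨hs, h'⟩)
  have hss : ∀ s ∈ A, s * s = 1 := fun s hs => by rw [← sq]; exact hA.2 s hs
  -- the sign map is bijective
  let χ : ↥A → (Fin d → Prop) := fun a i => (a : G) ∈ Subgroup.centralizer (f i : Set G)
  have hχinj : Function.Injective χ := by
    intro a b hab
    have h : (a : G) * b = 1 := by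
      apply hall _ (A.mul_mem a.2 b.2)
      intro i
      have hi : ((a : G) ∈ Subgroup.centralizer (f i : Set G)) =
          ((b : G) ∈ Subgroup.centralizer (f i : Set G)) := congrFun hab i
      by_cases ha : (a : G) ∈ Subgroup.centralizer (f i : Set G)
      · exact mul_mem ha (hi ▸ ha)
      · exact hmul i a a.2 b b.2 ha (hi ▸ ha)
    apply Subtype.ext
    calc (a : G) = a * (b * b) := by rw [hss b b.2, mul_one]
      _ = b := by rw [← mul_assoc, h, one_mul]
  have hχbij : Function.Bijective χ := by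
    apply hχinj.bijective_of_nat_card_le
    rw [hAd, Nat.card_fun, Nat.card_eq_fintype_card, Nat.card_eq_fintype_card, Fintype.card_prop,
      Fintype.card_fin]
  choose a ha using fun i : Fin d => hχbij.2 (fun j => j ≠ i)
  have haC : ∀ i j, (a i : G) ∈ Subgroup.centralizer (f j : Set G) ↔ j ≠ i := by
    intro i j
    exact iff_of_eq (congrFun (ha i) j)
  have ha1 : ∀ i, (a i : G) ≠ 1 := by
    intro i h
    have := (haC i i).1 (by rw [h]; exact one_mem _)
    exact this rfl
  -- generators of `f i`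
  have hgen : ∀ i, ∃ x, x ∈ f i ∧ orderOf x = Nat.card (f i) := by
    intro i
    have hne : f i ≠ ⊥ := by
      intro h
      have := h1 i
      rw [h, Subgroup.card_bot] at this
      exact Nat.not_prime_one this
    obtain ⟨x, hx, hx1⟩ : ∃ x ∈ f i, x ≠ 1 := by
      by_contra hcon
      push Not at hcon
      exact hne ((Subgroup.eq_bot_iff_forall _).2 hcon)
    refine ⟨x, hx, ?_⟩
    have hdvd := Subgroup.orderOf_dvd_natCard (f i) hx
    rcases (Nat.dvd_prime (h1 i)).1 hdvd with h | h
    · exact absurd (orderOf_eq_one_iff.1 h) hx1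
    · exact h
  choose x hxf hxo using hgen
  have hodd : ∀ i, Odd (Nat.card (f i)) := fun i =>
    Odd.of_dvd_nat hFodd (Subgroup.card_dvd_of_le (h2 i))
  have hAN : ∀ i, A ≤ Subgroup.normalizer (f i : Set G) := by
    intro i
    rw [Subgroup.le_normalizer_iff]
    intro s hs b hb
    rcases h3 i s hs with h | h
    · rw [h b hb]; exact hb
    · rw [h b hb]; exact inv_mem hb
  have haA : ∀ i, Subgroup.zpowers (a i : G) ≤ A := fun i => by
    rw [Subgroup.zpowers_le]; exact (a i).2
  refine ⟨fun i => Subgroup.zpowers (a i : G), f, fun i => Nat.card (f i), ?_, ?_, ?_⟩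
  · intro i
    have hcard2 : Nat.card (Subgroup.zpowers (a i : G)) = 2 := by
      rw [Nat.card_zpowers]
      exact orderOf_eq_prime (hA.2 _ (a i).2) (ha1 i)
    refine ⟨haA i, hcard2, (h2 i).trans hFL, hodd i, ?_, ?_⟩
    · have hp := (h1 i).two_le
      have : Nat.card (f i) ≠ 2 := by
        intro h
        have := hodd i
        rw [h] at this
        exact absurd this (by decide)
      change 3 ≤ Nat.card (f i)
      omega
    · have hN : Subgroup.zpowers (a i : G) ≤ Subgroup.normalizer (f i : Set G) :=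
        (haA i).trans (hAN i)
      have hdisj : Disjoint (Subgroup.zpowers (a i : G)) (f i) :=
        Subgroup.disjoint_of_coprime_natCard
          (by rw [hcard2]; exact Nat.coprime_two_left.2 (hodd i))
      have hcard := card_sup_of_disjoint hN hdisj
      have hxD : x i ∈ Subgroup.zpowers (a i : G) ⊔ f i :=
        (le_sup_right : f i ≤ Subgroup.zpowers (a i : G) ⊔ f i) (hxf i)
      have haD : (a i : G) ∈ Subgroup.zpowers (a i : G) ⊔ f i :=
        (le_sup_left : Subgroup.zpowers (a i : G) ≤ Subgroup.zpowers (a i : G) ⊔ f i)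
          (Subgroup.mem_zpowers _)
      apply Cfsg.Agent.Lib.Helper54.nonempty_mulEquiv_dihedralGroup (Nat.card (f i))
        ⟨x i, hxD⟩ ⟨a i, haD⟩
      · rw [Subgroup.orderOf_mk]; exact hxo i
      · apply Subtype.ext; exact hss _ (a i).2
      · apply Subtype.ext
        exact hinv i _ (a i).2 (fun h => (haC i i).1 h rfl) _ (hxf i)
      · intro h
        obtain ⟨k, hk⟩ := Subgroup.mem_zpowers_iff.1 h
        have hk' : (x i) ^ k = (a i : G) := by simpa using congrArg Subtype.val hk
        have : (a i : G) ∈ Subgroup.zpowers (a i : G) ⊓ f i :=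
          Subgroup.mem_inf.2 ⟨Subgroup.mem_zpowers _, hk' ▸ zpow_mem (hxf i) k⟩
        rw [disjoint_iff.1 hdisj] at this
        exact ha1 i (Subgroup.mem_bot.1 this)
      · rw [hcard, hcard2]
  · apply le_antisymm (iSup_le haA)
    have key : ∀ (k : ℕ) (s : G), s ∈ A →
        (Finset.univ.filter (fun i => s ∉ Subgroup.centralizer (f i : Set G))).card = k →
        s ∈ ⨆ i, Subgroup.zpowers (a i : G) := by
      intro k
      induction k with
      | zero =>
        intro s hs hk
        rw [Finset.card_eq_zero, Finset.filter_eq_empty_iff] at hk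
        rw [hall s hs (fun i => not_not.1 (hk (Finset.mem_univ i)))]
        exact one_mem _
      | succ k ih =>
        intro s hs hk
        have hne : (Finset.univ.filter
            (fun i => s ∉ Subgroup.centralizer (f i : Set G))).Nonempty := by
          rw [← Finset.card_pos, hk]; exact Nat.succ_pos k
        obtain ⟨i, hi⟩ := hne
        have hi' := (Finset.mem_filter.1 hi).2
        have heq : Finset.univ.filter
            (fun j => s * (a i : G) ∉ Subgroup.centralizer (f j : Set G)) =
            (Finset.univ.filter (fun j => s ∉ Subgroup.centralizer (f j : Set G))).erase i := by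
          ext j
          rw [Finset.mem_filter, Finset.mem_erase, Finset.mem_filter]
          by_cases hj : j = i
          · subst hj
            have := hmul j s hs (a j) (a j).2 hi' (fun h => (haC j j).1 h rfl)
            simp [this]
          · have := (haC i j).2 hj
            rw [Subgroup.mul_mem_cancel_right _ this]
            simp [hj]
        have h := ih (s * (a i : G)) (A.mul_mem hs (a i).2)
          (by rw [heq, Finset.card_erase_of_mem hi, hk]; rfl)
        have h' : (a i : G) ∈ ⨆ i, Subgroup.zpowers (a i : G) :=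
          (le_iSup (fun i => Subgroup.zpowers (a i : G)) i) (Subgroup.mem_zpowers _)
        exact (Subgroup.mul_mem_cancel_right _ h').1 h
    intro s hs
    exact key _ s hs rfl
  · intro i j hij
    have h : Subgroup.zpowers (a i : G) ⊔ f i ≤
        Subgroup.centralizer ((Subgroup.zpowers (a j : G) ⊔ f j : Subgroup G) : Set G) := by
      refine sup_le ?_ ?_
      · apply Subgroup.le_centralizer_iff.1
        refine sup_le ?_ ?_
        · rw [Subgroup.zpowers_le, Cfsg.Agent.Lib.Helper22.centralizer_zpowers,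
            Subgroup.mem_centralizer_singleton_iff]
          exact hAcomm _ (a j).2 _ (a i).2
        · apply Subgroup.le_centralizer_iff.1
          rw [Subgroup.zpowers_le]
          exact (haC i j).2 (Ne.symm hij)
      · apply Subgroup.le_centralizer_iff.1
        refine sup_le ?_ ?_
        · rw [Subgroup.zpowers_le]
          exact (haC j i).2 hij
        · intro b hb
          rw [Subgroup.mem_centralizer_iff]
          intro c hc
          exact h4 i j hij c hc b hb
    intro u hu v hv
    exact (Subgroup.mem_centralizer_iff.1 (h hu) v hv).symm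

end Cfsg.Agent.S1349
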