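import Cfsg.Statements.S1482
import Cfsg.Agent.S1312
import Cfsg.Agent.S0044
import Cfsg.Agent.S1326
import Cfsg.Agent.Lib.Helper47.AxB
import Cfsg.Agent.Lib.Helper47.PCore
import Cfsg.Agent.Lib.Helper1.Fitting
import Cfsg.Agent.Lib.Helper22.CoprimeP

set_option autoImplicit false
set_option linter.unusedSectionVars false
open Cfsg

namespace Cfsg.Agent.S1482

open Subgroup Cfsg.Agent.Lib.Helper47

variable {G : Type*} [Group G] [Finite G]

theorem fittingOf_eq_iSup (L : Subgroup G) :
    fittingOf L = ⨆ p : Nat.Primes, pCoreOf (p : ℕ) L := by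
  unfold fittingOf pCoreOf
  rw [Cfsg.Agent.Lib.Helper1.fittingSubgroup_eq_iSup_pCore, Subgroup.map_iSup]

theorem inf_eq_bot_of_pGroups {q r : ℕ} (hq : q.Prime) (hr : r.Prime) (hqr : q ≠ r)
    {A B : Subgroup G} (hA : IsPGroup q A) (hB : IsPGroup r B) : A ⊓ B = ⊥ := by
  have : Fact q.Prime := ⟨hq⟩
  have : Fact r.Prime := ⟨hr⟩
  obtain ⟨n, hn⟩ := IsPGroup.iff_card.mp hA
  obtain ⟨m, hm⟩ := IsPGroup.iff_card.mp hB
  have hc : (Nat.card A).Coprime (Nat.card B) := by
    rw [hn, hm]
    exact Nat.Coprime.pow _ _ ((Nat.coprime_primes hq hr).mpr hqr)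
  exact (Subgroup.disjoint_of_coprime_natCard hc).eq_bot

/-- mutually normalizing subgroups with trivial intersection commute. -/
theorem le_centralizer_of_inf_eq_bot {A B : Subgroup G} (hAB : A ≤ normalizer (B : Set G))
    (hBA : B ≤ normalizer (A : Set G)) (h : A ⊓ B = ⊥) : A ≤ centralizer (B : Set G) := by
  intro a ha
  rw [mem_centralizer_iff]
  intro b hb
  have h1 : a * b * a⁻¹ ∈ B := conj_mem_of_mem_normalizer (hAB ha) hb
  have h2 : b * a⁻¹ * b⁻¹ ∈ A := conj_mem_of_mem_normalizer (hBA hb) (A.inv_mem ha)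
  have h3 : a * b * a⁻¹ * b⁻¹ ∈ A ⊓ B := by
    refine mem_inf.mpr ⟨?_, B.mul_mem h1 (B.inv_mem hb)⟩
    have := A.mul_mem ha h2
    simpa [mul_assoc] using this
  rw [h, mem_bot] at h3
  have : a * b = b * a := by
    calc a * b = (a * b * a⁻¹ * b⁻¹) * (b * a) := by group
      _ = b * a := by rw [h3, one_mul]
  exact this.symm

/-- The A×B step. -/
theorem cross {q r : ℕ} (hq : q.Prime) (hr : r.Prime) (hqr : q ≠ r) {R B A X : Subgroup G}
    (hR : IsPGroup q R) (hB : IsPGroup q B) (hA : IsPGroup r A)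
    (hAR : A ≤ normalizer (R : Set G)) (hBR : B ≤ normalizer (R : Set G))
    (hAB : A ≤ centralizer (B : Set G))
    (hX : centralizer (B : Set G) ≤ X) (hXA : X ≤ normalizer (A : Set G)) :
    A ≤ centralizer (R : Set G) := by
  have : Fact q.Prime := ⟨hq⟩
  intro a ha
  have hord : (orderOf a).Coprime q := by
    obtain ⟨k, hk⟩ := hA ⟨a, ha⟩
    have h1 : a ^ r ^ k = 1 := by simpa using congrArg Subtype.val hk
    have h2 : orderOf a ∣ r ^ k := orderOf_dvd_of_pow_eq_one h1
    exact Nat.Coprime.coprime_dvd_left h2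
      (Nat.Coprime.pow_left _ ((Nat.coprime_primes hr hq).mpr hqr.symm))
  have key := thompson_AxB hR hB hord (hAR ha) hBR (hAB ha) (by
    intro x hx
    have hxX : x ∈ X := hX hx.2
    have h1 : x * a * x⁻¹ ∈ A := conj_mem_of_mem_normalizer (hXA hxX) ha
    have h2 : a * x⁻¹ * a⁻¹ ∈ R := conj_mem_of_mem_normalizer (hAR ha) (R.inv_mem hx.1)
    have h3 : x * a * x⁻¹ * a⁻¹ ∈ R ⊓ A := by
      refine mem_inf.mpr ⟨?_, A.mul_mem h1 (A.inv_mem ha)⟩
      have := R.mul_mem hx.1 h2
      simpa [mul_assoc] using this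
    rw [inf_eq_bot_of_pGroups hq hr hqr hR hA, mem_bot] at h3
    show x * a = a * x
    calc x * a = (x * a * x⁻¹ * a⁻¹) * (a * x) := by group
      _ = a * x := by rw [h3, one_mul])
  rw [mem_centralizer_iff]
  intro x hx
  exact key x hx

theorem pCoreOf_le_centralizer {q r : ℕ} (hq : q.Prime) (hr : r.Prime) (hqr : q ≠ r)
    (L : Subgroup G) : pCoreOf q L ≤ centralizer (pCoreOf r L : Set G) :=
  le_centralizer_of_inf_eq_bot ((pCoreOf_le L).trans (le_normalizer_pCoreOf L))
    ((pCoreOf_le L).trans (le_normalizer_pCoreOf L))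
    (inf_eq_bot_of_pGroups hq hr hqr (pCoreOf_isPGroup L) (pCoreOf_isPGroup L))

theorem not_dvd_card_fittingOf {q : ℕ} (hq : q.Prime) (L : Subgroup G)
    (h : pCoreOf q L = ⊥) : (Nat.card (fittingOf L)).Coprime q := by
  have h0 : pCore q ↥L = ⊥ := by
    unfold pCoreOf at h
    exact (Subgroup.map_eq_bot_iff_of_injective _ (subtype_injective L)).mp h
  have h1 : fittingSubgroup ↥L ≤ pPrimeCore q ↥L := by
    have := Cfsg.Agent.Lib.Helper1.iSup_pCore_le_sup (G := ↥L) q hq
    rw [← Cfsg.Agent.Lib.Helper1.fittingSubgroup_eq_iSup_pCore, h0, bot_sup_eq] at this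
    exact this
  have h2 : Nat.card (fittingOf L) = Nat.card (fittingSubgroup ↥L) := by
    unfold fittingOf
    exact Subgroup.card_map_of_injective (subtype_injective L)
  rw [h2]
  exact Nat.Coprime.coprime_dvd_left (Subgroup.card_dvd_of_le h1)
    (Cfsg.Agent.Lib.Helper1.pPrimeCore_coprime hq)

theorem centralizer_fittingOf_le (L : Subgroup G) (hs : Group.IsSolvable ↥L) :
    L ⊓ centralizer (fittingOf L : Set G) ≤ fittingOf L := by
  intro z hz
  have h1 : (⟨z, hz.1⟩ : ↥L) ∈ centralizer (fittingSubgroup ↥L : Set ↥L) := by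
    rw [mem_centralizer_iff]
    intro y hy
    apply Subtype.ext
    have := (mem_centralizer_iff.mp hz.2) (y : G) ⟨y, hy, rfl⟩
    exact this
  exact ⟨_, Cfsg.Agent.S0044.result h1, rfl⟩

theorem genFitting_map_eq (L : Subgroup G) (hs : Group.IsSolvable ↥L) :
    (generalizedFittingSubgroup ↥L).map L.subtype = fittingOf L := by
  have h1 : layer ↥L = ⊥ := Cfsg.Agent.S1326.result.mp Cfsg.Agent.S0044.result
  unfold generalizedFittingSubgroup fittingOf
  rw [h1, bot_sup_eq]

theorem normalizer_eq_of_coatom [IsSimpleGroup G] {L : Subgroup G} (hL : IsCoatom L)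
    {A : Subgroup G} (hA : A ≠ ⊥) (hAL : A ≤ L) (hLA : L ≤ normalizer (A : Set G)) :
    normalizer (A : Set G) = L := by
  rcases hL.le_iff.mp hLA with h | h
  · exfalso
    have hn : A.Normal := Subgroup.normalizer_eq_top_iff.mp h
    rcases hn.eq_bot_or_eq_top with h' | h'
    · exact hA h'
    · apply hL.1
      rw [eq_top_iff, ← h']
      exact hAL
  · exact h

/-- Let G be a minimal simple group of odd order, H a maximal subgroup whose Fitting subgroup F has at least two prime divisors, and M a subgroup of F containing the centre of F such that the only M-invariant subgroup of G of order coprime to #F is the trivial one. Then H is the only maximal subgroup of G containing M. -/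
theorem result {G : Type*} [Group G] [Finite G] (hG : Cfsg.IsMinSimpleOddOrder G) (H : Subgroup G) (hH : IsCoatom H) (hF2 : 2 ≤ (Nat.card (Cfsg.fittingOf H)).primeFactors.card)
    (M : Subgroup G) (hM : M ≤ Cfsg.fittingOf H) (hZM : Cfsg.fittingOf H ⊓ Subgroup.centralizer (Cfsg.fittingOf H : Set G) ≤ M)
    (hinv : ∀ Y ∈ Cfsg.invSubgroups ⊤ M (Cfsg.primesNotDvd (Nat.card (Cfsg.fittingOf H))), Y = ⊥) :
    ∀ L : Subgroup G, IsCoatom L → M ≤ L → L = H := by
  intro L hL hML
  obtain ⟨-, hsimple, hna, hsolv⟩ := hG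
  have hHs : Group.IsSolvable ↥H := hsolv H hH.1
  have hLs : Group.IsSolvable ↥L := hsolv L hL.1
  set F := fittingOf H with hF
  -- the centres
  set Z : ℕ → Subgroup G := fun q => pCoreOf q H ⊓ centralizer (pCoreOf q H : Set G) with hZ
  have hOne : ∀ q : ℕ, q.Prime → q ∣ Nat.card F → pCoreOf q H ≠ ⊥ := by
    intro q hq hd h
    have := not_dvd_card_fittingOf hq H h
    exact hq.one_lt.ne' (Nat.eq_one_of_dvd_coprimes this hd dvd_rfl)
  have hZne : ∀ q : ℕ, q.Prime → q ∣ Nat.card F → Z q ≠ ⊥ := by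
    intro q hq hd
    have : Fact q.Prime := ⟨hq⟩
    exact center_ne_bot (pCoreOf_isPGroup H) (hOne q hq hd)
  have hZp : ∀ q : ℕ, IsPGroup q (Z q) := fun q => (pCoreOf_isPGroup H).to_le inf_le_left
  have hZH : ∀ q : ℕ, Z q ≤ H := fun q => inf_le_left.trans (pCoreOf_le H)
  have hHZ : ∀ q : ℕ, H ≤ normalizer (Z q : Set G) := fun q =>
    Cfsg.Agent.Lib.Helper22.le_normalizer_inf_centralizer (le_normalizer_pCoreOf H)
      (le_normalizer_pCoreOf H)
  have hNZ : ∀ q : ℕ, q.Prime → q ∣ Nat.card F → normalizer (Z q : Set G) = H := fun q hq hd =>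
    normalizer_eq_of_coatom hH (hZne q hq hd) (hZH q) (hHZ q)
  have hZM' : ∀ q : ℕ, q.Prime → Z q ≤ M := by
    intro q hq
    refine le_trans (le_inf ?_ ?_) hZM
    · rw [hF, fittingOf_eq_iSup]
      exact inf_le_left.trans (le_iSup (fun p : Nat.Primes => pCoreOf (p : ℕ) H) ⟨q, hq⟩)
    · rw [hF, fittingOf_eq_iSup, ← Subgroup.le_centralizer_iff (H := ⨆ p : Nat.Primes, pCoreOf (p : ℕ) H)]
      refine iSup_le fun p => ?_
      rw [Subgroup.le_centralizer_iff]
      by_cases hpq : (p : ℕ) = q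
      · rw [hpq]; exact inf_le_right
      · exact inf_le_left.trans (pCoreOf_le_centralizer hq p.2 (Ne.symm hpq) H)
  have hZL : ∀ q : ℕ, q.Prime → Z q ≤ L := fun q hq => (hZM' q hq).trans hML
  have hZZ : ∀ q r : ℕ, q.Prime → r.Prime → q ≠ r → Z r ≤ centralizer (Z q : Set G) := by
    intro q r hq hr hqr
    refine inf_le_left.trans ((pCoreOf_le_centralizer hr hq hqr.symm H).trans ?_)
    exact Subgroup.centralizer_le inf_le_left
  -- (1)
  have h1 : ∀ t : ℕ, t.Prime → ¬ t ∣ Nat.card F → pCoreOf t L = ⊥ := by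
    intro t ht hd
    apply hinv
    refine ⟨le_top, ?_, hML.trans (le_normalizer_pCoreOf L)⟩
    intro p hp hpd
    have : Fact t.Prime := ⟨ht⟩
    obtain ⟨n, hn⟩ := IsPGroup.iff_card.mp (pCoreOf_isPGroup (p := t) L)
    rw [hn] at hpd
    have : p = t := (Nat.prime_dvd_prime_iff_eq hp ht).mp (hp.dvd_of_dvd_pow hpd)
    rw [this]
    exact ⟨ht, hd⟩
  -- (2)
  have h2 : ∀ q r : ℕ, q.Prime → r.Prime → q ≠ r → q ∣ Nat.card F → 
      Z r ≤ centralizer (pCoreOf q L : Set G) := by
    intro q r hq hr hqr hqd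
    refine cross hq hr hqr (pCoreOf_isPGroup L) (hZp q) (hZp r)
      ((hZL r hr).trans (le_normalizer_pCoreOf L)) ((hZL q hq).trans (le_normalizer_pCoreOf L))
      (hZZ q r hq hr hqr) (X := H) ?_ (hHZ r)
    rw [← hNZ q hq hqd]
    exact Subgroup.centralizer_le_normalizer _
  have hother : ∀ q : ℕ, ∃ r : ℕ, r.Prime ∧ r ∣ Nat.card F ∧ q ≠ r := by
    intro q
    obtain ⟨r, hr, hne⟩ := Finset.exists_mem_ne (s := (Nat.card F).primeFactors) (by omega) q
    exact ⟨r, Nat.prime_of_mem_primeFactors hr, Nat.dvd_of_mem_primeFactors hr, hne.symm⟩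
  have h2' : ∀ q : ℕ, q.Prime → pCoreOf q L ≤ H := by
    intro q hq
    by_cases hqd : q ∣ Nat.card F
    · obtain ⟨r, hr, hrd, hqr⟩ := hother q
      have := h2 q r hq hr hqr hqd
      rw [Subgroup.le_centralizer_iff] at this
      rw [← hNZ r hr hrd]
      exact this.trans (Subgroup.centralizer_le_normalizer _)
    · rw [h1 q hq hqd]; exact bot_le
  -- (3)
  have h3 : ∀ r : ℕ, r.Prime → r ∣ Nat.card F → pCoreOf r L ≠ ⊥ := by
    intro r hr hrd hbot
    have hc : Z r ≤ centralizer (fittingOf L : Set G) := by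
      rw [fittingOf_eq_iSup, ← Subgroup.le_centralizer_iff (H := ⨆ p : Nat.Primes, pCoreOf (p : ℕ) L)]
      refine iSup_le fun p => ?_
      rw [Subgroup.le_centralizer_iff]
      by_cases hpr : (p : ℕ) = r
      · rw [hpr, hbot, Subgroup.le_centralizer_iff]; exact bot_le
      · by_cases hpd : (p : ℕ) ∣ Nat.card F
        · exact h2 p r p.2 hr hpr hpd
        · rw [h1 p p.2 hpd, Subgroup.le_centralizer_iff]; exact bot_le
    have hle : Z r ≤ fittingOf L := (le_inf (hZL r hr) hc).trans (centralizer_fittingOf_le L hLs)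
    have hcop := not_dvd_card_fittingOf hr L hbot
    apply hZne r hr hrd
    have : Fact r.Prime := ⟨hr⟩
    obtain ⟨n, hn⟩ := IsPGroup.iff_card.mp (hZp r)
    have h4 : (Nat.card (Z r)).Coprime r :=
      Nat.Coprime.coprime_dvd_left (Subgroup.card_dvd_of_le hle) hcop
    rw [← Subgroup.card_eq_one]
    rw [hn] at h4 ⊢
    rcases Nat.eq_zero_or_pos n with h0 | h0
    · rw [h0, pow_zero]
    · exfalso
      have := (Nat.coprime_pow_left_iff h0 r r).mp h4
      rw [Nat.coprime_self] at this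
      exact hr.one_lt.ne' this
  have hNL : ∀ q : ℕ, q.Prime → q ∣ Nat.card F → normalizer (pCoreOf q L : Set G) = L :=
    fun q hq hd => normalizer_eq_of_coatom hL (h3 q hq hd) (pCoreOf_le L) (le_normalizer_pCoreOf L)
  -- (4)
  have h4 : ∀ q : ℕ, q.Prime → pCoreOf q H ≤ L := by
    intro q hq
    by_cases hqd : q ∣ Nat.card F
    · obtain ⟨r, hr, hrd, hqr⟩ := hother q
      have := cross hq hr hqr (pCoreOf_isPGroup H) (pCoreOf_isPGroup (p := q) L)
        (pCoreOf_isPGroup (p := r) L)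
        ((h2' r hr).trans (le_normalizer_pCoreOf H)) ((h2' q hq).trans (le_normalizer_pCoreOf H))
        (pCoreOf_le_centralizer hr hq hqr.symm L) (X := L)
        (by
          conv_rhs => rw [← hNL q hq hqd]
          exact Subgroup.centralizer_le_normalizer _) (le_normalizer_pCoreOf L)
      rw [Subgroup.le_centralizer_iff] at this
      conv_rhs => rw [← hNL r hr hrd]
      exact this.trans (Subgroup.centralizer_le_normalizer _)
    · have : pCoreOf q H = ⊥ := by
        by_contra hne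
        apply hqd
        have : Fact q.Prime := ⟨hq⟩
        have hle : pCoreOf q H ≤ F := by
          rw [hF, fittingOf_eq_iSup]
          exact le_iSup (fun p : Nat.Primes => pCoreOf (p : ℕ) H) ⟨q, hq⟩
        rcases (pCoreOf_isPGroup (p := q) H).card_eq_or_dvd with h | h
        · exact absurd (Subgroup.card_eq_one.mp h) hne
        · exact h.trans (Subgroup.card_dvd_of_le hle)
      rw [this]; exact bot_le
  -- (5)
  by_contra hne
  have hFL : fittingOf H ≤ L := by
    rw [fittingOf_eq_iSup]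
    exact iSup_le fun p => h4 p p.2
  have hFH : fittingOf L ≤ H := by
    rw [fittingOf_eq_iSup]
    exact iSup_le fun p => h2' p p.2
  obtain ⟨p, hp, hp1, -⟩ := Cfsg.Agent.S1312.result hna H L hH hL (Ne.symm hne)
    (by rw [genFitting_map_eq H hHs]; exact hFL) (by rw [genFitting_map_eq L hLs]; exact hFH)
  have hp2 : IsPGroup p F := by
    rw [hF, ← genFitting_map_eq H hHs]
    exact hp1.map _
  have : Fact p.Prime := ⟨hp⟩
  obtain ⟨n, hn⟩ := IsPGroup.iff_card.mp hp2
  rw [hn] at hF2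
  have h5 : (p ^ n).primeFactors ⊆ {p} := by
    intro x hx
    have hx1 := Nat.prime_of_mem_primeFactors hx
    have hx2 := Nat.dvd_of_mem_primeFactors hx
    rw [Finset.mem_singleton]
    exact (Nat.prime_dvd_prime_iff_eq hx1 hp).mp (hx1.dvd_of_dvd_pow hx2)
  have := Finset.card_le_card h5
  simp at this
  omega

end Cfsg.Agent.S1482
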