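import Cfsg.Statements.S1481
import Cfsg.Agent.S1482
import Cfsg.Agent.Lib.Helper1.CoprimeSylow
import Cfsg.Agent.Lib.Helper1.Coprime2
import Cfsg.Agent.Lib.Helper22.CoreOf
import Cfsg.Agent.Lib.Helper22.PiCoreOf
import Cfsg.Agent.Lib.Helper22.SupLemmas
import Cfsg.Agent.Lib.Helper24.Basic

set_option autoImplicit false
set_option linter.unusedSectionVars false
open Cfsg

namespace Cfsg.Agent.S1481

open Subgroup Cfsg.Agent.Lib.Helper47 Cfsg.Agent.S1482
open scoped commutatorElement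

variable {G : Type*} [Group G] [Finite G]

/-- A version of the A×B lemma for a nilpotent group `F`. -/
theorem nilpotent_AxB {F M Y : Subgroup G} (hF : Group.IsNilpotent F)
    (hYF : Y ≤ normalizer (F : Set G)) (hcop : (Nat.card Y).Coprime (Nat.card F)) (hMF : M ≤ F)
    (hCM : F ⊓ centralizer (M : Set G) ≤ M) (hYM : Y ≤ centralizer (M : Set G)) :
    Y ≤ centralizer (F : Set G) := by
  set K := F ⊓ centralizer (Y : Set G) with hK
  have hMK : M ≤ K := le_inf hMF (Subgroup.le_centralizer_iff.mp hYM)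
  by_cases hKF : K = F
  · rw [Subgroup.le_centralizer_iff, ← hKF]
    exact inf_le_right
  exfalso
  have hlt : K < F := lt_of_le_of_ne inf_le_left hKF
  obtain ⟨x, hxF, hxN, hxK⟩ := Cfsg.Agent.Lib.Helper24.exists_mem_normalizer_not_mem hF hlt
  set N := F ⊓ normalizer (K : Set G) with hN
  have hYK : Y ≤ normalizer (K : Set G) :=
    Cfsg.Agent.Lib.Helper22.le_normalizer_inf_centralizer hYF le_normalizer
  have hYN : Y ≤ normalizer (N : Set G) :=
    Cfsg.Agent.Lib.Helper22.le_normalizer_inf_normalizer hYF hYK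
  have hKY : ⁅K, Y⁆ = ⊥ := Subgroup.commutator_eq_bot_iff_le_centralizer.mpr inf_le_right
  have h1 : ⁅⁅Y, K⁆, N⁆ = ⊥ := by
    rw [Subgroup.commutator_comm Y K, hKY, Subgroup.commutator_bot_left]
  have h2 : ⁅⁅K, N⁆, Y⁆ = ⊥ := by
    rw [eq_bot_iff, ← hKY]
    exact Subgroup.commutator_mono
      (Subgroup.le_normalizer_iff_commutator_le_left.mp (inf_le_right : N ≤ _)) le_rfl
  have h3 : ⁅⁅N, Y⁆, K⁆ = ⊥ := Subgroup.commutator_commutator_eq_bot_of_rotate h1 h2
  have h4 : ⁅N, Y⁆ ≤ centralizer (K : Set G) := Subgroup.commutator_eq_bot_iff_le_centralizer.mp h3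
  have h5 : ⁅N, Y⁆ ≤ N := Subgroup.le_normalizer_iff_commutator_le_left.mp hYN
  have h6 : ⁅N, Y⁆ ≤ K :=
    (le_inf (h5.trans inf_le_left) (h4.trans (Subgroup.centralizer_le hMK))).trans (hCM.trans hMK)
  have h7 : ⁅⁅N, Y⁆, Y⁆ = ⊥ := by
    rw [eq_bot_iff, ← hKY]
    exact Subgroup.commutator_mono h6 le_rfl
  have hNs : Group.IsSolvable N := by
    have : Group.IsSolvable F := inferInstance
    exact Group.isSolvable_of_isSolvable_injective
      (Subgroup.inclusion_injective (inf_le_left : N ≤ F))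
  have h8 := Cfsg.Agent.Lib.Helper1.commutator_commutator_eq Y N hYN
    (Nat.Coprime.coprime_dvd_right (Subgroup.card_dvd_of_le inf_le_left) hcop) (Or.inr hNs)
  rw [h7] at h8
  have h9 : N ≤ centralizer (Y : Set G) := Subgroup.commutator_eq_bot_iff_le_centralizer.mp h8.symm
  exact hxK (mem_inf.mpr ⟨hxF, h9 (mem_inf.mpr ⟨hxF, hxN⟩)⟩)

theorem le_centralizer_of_inf_eq_bot' {A B B' : Subgroup G} (hAB : A ≤ normalizer (B' : Set G))
    (hBB : B ≤ B') (hBA : B ≤ normalizer (A : Set G)) (h : A ⊓ B' = ⊥) :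
    A ≤ centralizer (B : Set G) := by
  intro a ha
  rw [mem_centralizer_iff]
  intro b hb
  have h1 : a * b * a⁻¹ ∈ B' := conj_mem_of_mem_normalizer (hAB ha) (hBB hb)
  have h2 : b * a⁻¹ * b⁻¹ ∈ A := conj_mem_of_mem_normalizer (hBA hb) (A.inv_mem ha)
  have h3 : a * b * a⁻¹ * b⁻¹ ∈ A ⊓ B' := by
    refine mem_inf.mpr ⟨?_, B'.mul_mem h1 (B'.inv_mem (hBB hb))⟩
    have := A.mul_mem ha h2
    simpa [mul_assoc] using this
  rw [h, mem_bot] at h3
  have : a * b = b * a := by
    calc a * b = (a * b * a⁻¹ * b⁻¹) * (b * a) := by group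
      _ = b * a := by rw [h3, one_mul]
  exact this.symm

theorem le_normalizer_fittingOf (H : Subgroup G) : H ≤ normalizer (fittingOf H : Set G) := by
  rw [le_normalizer_iff]
  rintro h hh _ ⟨y, hy, rfl⟩
  have hn : (fittingSubgroup ↥H).Normal := Subgroup.sSup_normal _ (fun _ h => h.1)
  exact ⟨⟨h, hh⟩ * y * ⟨h, hh⟩⁻¹, hn.conj_mem y hy _, rfl⟩

theorem fittingOf_le (H : Subgroup G) : fittingOf H ≤ H := map_subtype_le _

theorem fittingOf_isNilpotent (H : Subgroup G) : Group.IsNilpotent (fittingOf H) := by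
  have h := Cfsg.Agent.Lib.Helper1.fittingSubgroup_isNilpotent (G := ↥H)
  unfold fittingOf
  exact Group.nilpotent_of_surjective ((H.subtype).subgroupMap (fittingSubgroup ↥H))
    (MonoidHom.subgroupMap_surjective _ _)

theorem fittingOf_le_of_normal {W X : Subgroup G} (hWX : W ≤ X)
    (hn : X ≤ normalizer (W : Set G)) : fittingOf W ≤ fittingOf X := by
  rw [fittingOf_eq_iSup, fittingOf_eq_iSup]
  exact iSup_mono fun p => pCoreOf_le_pCoreOf_of_normal hWX hn

/-- Let G be a finite group and H a local subgroup (the normalizer of a nontrivial subgroup of prime-power order) not properly contained in any local subgroup; let F = F(H), suppose at least two primes divide #F, put X = H ∩ C_G(F), let M ≤ F with F ∩ C_G(M) ≤ M, and let R be a solvable subgroup normalized by M and by X. Then for every prime q not dividing #F there is exactly one maximal M-invariant q-subgroup of R, and it is a Sylow q-subgroup of the largest normal subgroup of R of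 order coprime to #F. -/
theorem result {G : Type*} [Group G] [Finite G] (H : Subgroup G) (hH : Cfsg.IsLocalSubgroup H) (hHmax : ∀ L : Subgroup G, Cfsg.IsLocalSubgroup L → H ≤ L → L = H)
    (hF2 : 2 ≤ (Nat.card (Cfsg.fittingOf H)).primeFactors.card)
    (M : Subgroup G) (hM : M ≤ Cfsg.fittingOf H) (hCM : Cfsg.fittingOf H ⊓ Subgroup.centralizer (M : Set G) ≤ M)
    (R : Subgroup G) (hR : Group.IsSolvable R) (hMR : M ≤ Subgroup.normalizer (R : Set G))
    (hXR : H ⊓ Subgroup.centralizer (Cfsg.fittingOf H : Set G) ≤ Subgroup.normalizer (R : Set G))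
    (q : ℕ) [Fact q.Prime] (hq : ¬ q ∣ Nat.card (Cfsg.fittingOf H)) :
    ∃! Q : Subgroup G, Q ∈ Cfsg.maxInvSubgroups R M {q} ∧
      (∀ Q' : Subgroup G, Q' ∈ Cfsg.maxInvSubgroups R M {q} →
        Q' ≤ Cfsg.piCoreOf (Cfsg.primesNotDvd (Nat.card (Cfsg.fittingOf H))) R ∧
        ¬ q ∣ Q'.relIndex (Cfsg.piCoreOf (Cfsg.primesNotDvd (Nat.card (Cfsg.fittingOf H))) R)) := by
  have hqp : q.Prime := Fact.out
  set F := fittingOf H with hF
  have hFnil : Group.IsNilpotent F := fittingOf_isNilpotent H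
  have hFH : F ≤ H := fittingOf_le H
  have hHF : H ≤ normalizer (F : Set G) := le_normalizer_fittingOf H
  set Z : ℕ → Subgroup G := fun q => pCoreOf q H ⊓ centralizer (pCoreOf q H : Set G) with hZ
  have hOne : ∀ q : ℕ, q.Prime → q ∣ Nat.card F → pCoreOf q H ≠ ⊥ := by
    intro q hq hd h
    have := not_dvd_card_fittingOf hq H h
    exact hq.one_lt.ne' (Nat.eq_one_of_dvd_coprimes this hd dvd_rfl)
  have hZne : ∀ q : ℕ, q.Prime → q ∣ Nat.card F → Z q ≠ ⊥ := by
    intro q hq hd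
    have : Fact q.Prime := ⟨hq⟩
    exact center_ne_bot (pCoreOf_isPGroup H) (hOne q hq hd)
  have hZp : ∀ q : ℕ, IsPGroup q (Z q) := fun q => (pCoreOf_isPGroup H).to_le inf_le_left
  have hZH : ∀ q : ℕ, Z q ≤ H := fun q => inf_le_left.trans (pCoreOf_le H)
  have hHZ : ∀ q : ℕ, H ≤ normalizer (Z q : Set G) := fun q =>
    Cfsg.Agent.Lib.Helper22.le_normalizer_inf_centralizer (le_normalizer_pCoreOf H)
      (le_normalizer_pCoreOf H)
  have hNZ : ∀ q : ℕ, q.Prime → q ∣ Nat.card F → normalizer (Z q : Set G) = H := fun q hq hd =>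
    hHmax _ ⟨q, Z q, hq, hZp q, hZne q hq hd, rfl⟩ (hHZ q)
  have hCZ : ∀ q : ℕ, q.Prime → q ∣ Nat.card F → centralizer (Z q : Set G) ≤ H := by
    intro q hq hd
    conv_rhs => rw [← hNZ q hq hd]
    exact Subgroup.centralizer_le_normalizer _
  have hZM : ∀ q : ℕ, q.Prime → Z q ≤ M := by
    intro q hq
    refine le_trans (le_inf ?_ ?_) hCM
    · rw [hF, fittingOf_eq_iSup]
      exact inf_le_left.trans (le_iSup (fun p : Nat.Primes => pCoreOf (p : ℕ) H) ⟨q, hq⟩)
    · refine le_trans ?_ (Subgroup.centralizer_le hM)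
      rw [hF, fittingOf_eq_iSup, ← Subgroup.le_centralizer_iff (H := ⨆ p : Nat.Primes, pCoreOf (p : ℕ) H)]
      refine iSup_le fun p => ?_
      rw [Subgroup.le_centralizer_iff]
      by_cases hpq : (p : ℕ) = q
      · rw [hpq]; exact inf_le_right
      · exact inf_le_left.trans (pCoreOf_le_centralizer hq p.2 (Ne.symm hpq) H)
  have hZZ : ∀ q r : ℕ, q.Prime → r.Prime → q ≠ r → Z r ≤ centralizer (Z q : Set G) := by
    intro q r hq hr hqr
    refine inf_le_left.trans ((pCoreOf_le_centralizer hr hq hqr.symm H).trans ?_)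
    exact Subgroup.centralizer_le inf_le_left
  have hother : ∀ q : ℕ, ∃ r : ℕ, r.Prime ∧ r ∣ Nat.card F ∧ q ≠ r := by
    intro q
    obtain ⟨r, hr, hne⟩ := Finset.exists_mem_ne (s := (Nat.card F).primeFactors) (by omega) q
    exact ⟨r, Nat.prime_of_mem_primeFactors hr, Nat.dvd_of_mem_primeFactors hr, hne.symm⟩
  -- `X ∩ R ≤ F`
  set X := H ⊓ centralizer (F : Set G) with hX
  have hWF : X ⊓ R ≤ F := by
    set W := X ⊓ R with hW
    have hWs : Group.IsSolvable W :=
      Group.isSolvable_of_isSolvable_injective (Subgroup.inclusion_injective (inf_le_right : W ≤ R))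
    have hHX : H ≤ normalizer (X : Set G) :=
      Cfsg.Agent.Lib.Helper22.le_normalizer_inf_centralizer le_normalizer hHF
    have hXW : X ≤ normalizer (W : Set G) :=
      Cfsg.Agent.Lib.Helper22.le_normalizer_inf le_normalizer hXR
    have h1 : fittingOf W ≤ F :=
      (fittingOf_le_of_normal inf_le_left hXW).trans (fittingOf_le_of_normal inf_le_left hHX)
    have h2 : W ≤ centralizer (fittingOf W : Set G) :=
      (inf_le_left.trans inf_le_right).trans (Subgroup.centralizer_le h1)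
    exact ((le_inf le_rfl h2).trans (centralizer_fittingOf_le W hWs)).trans h1
  -- (F1)
  have hF1 : ∀ Y : Subgroup G, Y ≤ R → M ≤ normalizer (Y : Set G) →
      (Nat.card Y).Coprime (Nat.card F) → ∀ p : ℕ, p.Prime → p ∣ Nat.card F →
      Y ⊓ centralizer (Z p : Set G) = ⊥ := by
    intro Y hYR hMY hcop p hp hpd
    set Y₀ := Y ⊓ centralizer (Z p : Set G) with hY₀
    have hY₀H : Y₀ ≤ H := inf_le_right.trans (hCZ p hp hpd)
    have hMY₀ : M ≤ normalizer (Y₀ : Set G) :=
      Cfsg.Agent.Lib.Helper22.le_normalizer_inf_centralizer hMY ((hM.trans hFH).trans (hHZ p))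
    have hcop₀ : (Nat.card Y₀).Coprime (Nat.card F) :=
      Nat.Coprime.coprime_dvd_left (Subgroup.card_dvd_of_le inf_le_left) hcop
    have hdisj : Y₀ ⊓ F = ⊥ := (Subgroup.disjoint_of_coprime_natCard hcop₀).eq_bot
    have h1 : Y₀ ≤ centralizer (M : Set G) :=
      le_centralizer_of_inf_eq_bot' (hY₀H.trans hHF) hM hMY₀ hdisj
    have h2 : Y₀ ≤ centralizer (F : Set G) :=
      nilpotent_AxB hFnil (hY₀H.trans hHF) hcop₀ hM hCM h1
    have h3 : Y₀ ≤ F := (le_inf (le_inf hY₀H h2) (inf_le_left.trans hYR)).trans hWF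
    rw [eq_bot_iff, ← hdisj]
    exact le_inf le_rfl h3
  -- step 4
  set S := R ⊔ M with hS
  have hMs : Group.IsSolvable M := by
    have : Group.IsSolvable F := inferInstance
    exact Group.isSolvable_of_isSolvable_injective (Subgroup.inclusion_injective hM)
  have hSs : Group.IsSolvable S := Cfsg.Agent.Lib.Helper22.isSolvable_sup hMR hR hMs
  have hZcore : ∀ p r : ℕ, p.Prime → r.Prime → p ≠ r → p ∣ Nat.card F → 
      Z r ≤ Cfsg.Agent.Lib.Helper23.coreOf p S := by
    intro p r hp hr hpr hpd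
    have : Fact p.Prime := ⟨hp⟩
    have : Fact r.Prime := ⟨hr⟩
    have h1 : Z r ≤ Cfsg.Agent.Lib.Helper23.coreOf p (S ⊓ centralizer (Z p : Set G)) := by
      apply Cfsg.Agent.Lib.Helper23.le_coreOf p
      · exact le_inf ((hZM r hr).trans le_sup_right) (hZZ p r hp hr hpr)
      · exact (inf_le_right.trans (hCZ p hp hpd)).trans (hHZ r)
      · obtain ⟨n, hn⟩ := IsPGroup.iff_card.mp (hZp r)
        rw [hn]
        exact Nat.Coprime.pow_left _ ((Nat.coprime_primes hr hp).mpr hpr.symm)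
    exact h1.trans (Cfsg.Agent.Lib.Helper22.coreOf_inf_centralizer_le p
      (Cfsg.Agent.Lib.Helper22.pLayer_eq_bot_of_isSolvable p) ((hZM p hp).trans le_sup_right) (hZp p))
  set D := piCoreOf (primesNotDvd (Nat.card F)) R with hD
  have hqF : ∀ Q' : Subgroup G, IsPGroup q Q' → (Nat.card Q').Coprime (Nat.card F) := by
    intro Q' hQ'
    obtain ⟨n, hn⟩ := IsPGroup.iff_card.mp hQ'
    rw [hn]
    exact Nat.Coprime.pow_left _ ((Nat.Prime.coprime_iff_not_dvd hqp).mpr hq)
  have h4 : ∀ Q' : Subgroup G, Q' ≤ R → IsPGroup q Q' → M ≤ normalizer (Q' : Set G) → Q' ≤ D := by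
    intro Q' hQR hQ' hMQ
    have hcore : ∀ p : ℕ, p.Prime → p ∣ Nat.card F → Q' ≤ Cfsg.Agent.Lib.Helper23.coreOf p S := by
      intro p hp hpd
      obtain ⟨r, hr, hrd, hpr⟩ := hother p
      have h1 := Cfsg.Agent.Lib.Helper1.commutator_sup_centralizer (Z r) Q'
        ((hZM r hr).trans hMQ)
        (Nat.Coprime.coprime_dvd_left (Subgroup.card_dvd_of_le ((hZM r hr).trans hM))
          (hqF Q' hQ').symm) (Or.inl (Group.isSolvable_of_isSolvable_injective
            (Subgroup.inclusion_injective (hZM r hr))))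
      rw [hF1 Q' hQR hMQ (hqF Q' hQ') r hr hrd, sup_bot_eq] at h1
      rw [← h1, Subgroup.commutator_le]
      intro g₁ hg₁ g₂ hg₂
      have hg₂' := hZcore p r hp hr hpr hpd hg₂
      have hn : g₁ ∈ normalizer (Cfsg.Agent.Lib.Helper23.coreOf p S : Set G) :=
        Cfsg.Agent.Lib.Helper23.normalizer_le_normalizer_coreOf p S
          (le_normalizer ((hQR.trans le_sup_left) hg₁))
      rw [commutatorElement_def]
      exact mul_mem (conj_mem_of_mem_normalizer hn hg₂') (inv_mem hg₂')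
    set E := R ⊓ ⨅ p : Nat.Primes, ⨅ _ : (p : ℕ) ∣ Nat.card F,
      Cfsg.Agent.Lib.Helper23.coreOf (p : ℕ) S with hE
    have hQE : Q' ≤ E := by
      refine le_inf hQR (le_iInf fun p => le_iInf fun hpd => hcore p p.2 hpd)
    refine hQE.trans (Cfsg.Agent.Lib.Helper22.le_piCoreOf _ inf_le_left ?_ ?_)
    · rw [le_normalizer_iff]
      intro a ha x hx
      refine mem_inf.mpr ⟨mul_mem (mul_mem ha hx.1) (inv_mem ha), ?_⟩
      rw [Subgroup.mem_iInf]
      intro p
      rw [Subgroup.mem_iInf]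
      intro hpd
      have hx2 : x ∈ ⨅ p : Nat.Primes, ⨅ _ : (p : ℕ) ∣ Nat.card F,
        Cfsg.Agent.Lib.Helper23.coreOf (p : ℕ) S := hx.2
      rw [Subgroup.mem_iInf] at hx2
      have hx3 := hx2 p
      rw [Subgroup.mem_iInf] at hx3
      have hn : a ∈ normalizer (Cfsg.Agent.Lib.Helper23.coreOf (p : ℕ) S : Set G) :=
        Cfsg.Agent.Lib.Helper23.normalizer_le_normalizer_coreOf p S
          (le_normalizer ((le_sup_left : R ≤ S) ha))
      exact conj_mem_of_mem_normalizer hn (hx3 hpd)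
    · intro t ht htd
      refine ⟨ht, fun htF => ?_⟩
      have hle : E ≤ Cfsg.Agent.Lib.Helper23.coreOf t S :=
        inf_le_right.trans ((iInf_le _ (⟨t, ht⟩ : Nat.Primes)).trans (iInf_le _ htF))
      have h1 := Cfsg.Agent.Lib.Helper23.card_coreOf_coprime t S
      exact ht.one_lt.ne' (Nat.eq_one_of_dvd_coprimes h1
        (htd.trans (Subgroup.card_dvd_of_le hle)) dvd_rfl)
  -- step 5
  have hDR : D ≤ R := Cfsg.Agent.Lib.Helper22.piCoreOf_le _ R
  have hMD : M ≤ normalizer (D : Set G) :=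
    hMR.trans (Cfsg.Agent.Lib.Helper22.normalizer_le_normalizer_piCoreOf _ R)
  have hDF : (Nat.card D).Coprime (Nat.card F) := by
    apply Nat.Coprime.symm
    exact Cfsg.Agent.Lib.Helper22.coprime_of_primes (n := Nat.card F) (fun r _ h => h)
      (Cfsg.Agent.Lib.Helper22.piCoreOf_primes _ R)
  have hMDc : (Nat.card M).Coprime (Nat.card D) :=
    Nat.Coprime.coprime_dvd_left (Subgroup.card_dvd_of_le hM) hDF.symm
  have hCD : D ⊓ centralizer (M : Set G) = ⊥ := by
    obtain ⟨p, hp, hpd, -⟩ := hother 0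
    rw [eq_bot_iff, ← hF1 D hDR hMD hDF p hp hpd]
    exact inf_le_inf le_rfl (Subgroup.centralizer_le (hZM p hp))
  obtain ⟨Q₀, hQ₀D, hQ₀, hQ₀i, hMQ₀⟩ :=
    Cfsg.Agent.Lib.Helper1.exists_invariant_sylow M D hMD hMDc (Or.inl hMs) q
  have hle : ∀ Q' : Subgroup G, Q' ∈ invSubgroups R M {q} → Q' ≤ Q₀ := by
    rintro Q' ⟨hQR, hQπ, hMQ⟩
    have hQ' : IsPGroup q Q' := Cfsg.Agent.Lib.Helper22.isPGroup_of_primes hQπ
    obtain ⟨P, hQP, hPD, hP, hPi, hMP⟩ :=
      Cfsg.Agent.Lib.Helper1.invariant_pSubgroup_le_invariant_sylow M D hMD hMDc (Or.inl hMs) q Q'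
        (h4 Q' hQR hQ' hMQ) hQ' hMQ
    obtain ⟨c, hc, hcP⟩ := Cfsg.Agent.Lib.Helper1.invariant_sylow_conj M D hMD hMDc (Or.inl hMs) q
      P Q₀ hPD hP hPi hQ₀D hQ₀ hQ₀i hMP hMQ₀
    rw [hCD, mem_bot] at hc
    rw [hc, map_one, one_smul] at hcP
    rw [← hcP]
    exact hQP
  have hQ₀inv : Q₀ ∈ invSubgroups R M {q} :=
    ⟨hQ₀D.trans hDR, Cfsg.Agent.Lib.Helper22.primes_of_isPGroup hqp hQ₀, hMQ₀⟩
  have hQ₀max : Q₀ ∈ maxInvSubgroups R M {q} :=
    ⟨hQ₀inv, fun R' hR' h => le_antisymm (hle R' hR') h⟩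
  have huniq : ∀ Q' : Subgroup G, Q' ∈ maxInvSubgroups R M {q} → Q' = Q₀ := by
    intro Q' hQ'
    exact (hQ'.2 Q₀ hQ₀inv (hle Q' hQ'.1)).symm
  refine ⟨Q₀, ⟨hQ₀max, ?_⟩, fun Q' hQ' => huniq Q' hQ'.1⟩
  intro Q' hQ'
  rw [huniq Q' hQ']
  exact ⟨hQ₀D, hQ₀i⟩

end Cfsg.Agent.S1481
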