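import Cfsg.Statements.S1511
import Cfsg.Agent.Lib.Helper15.TypeP2

set_option autoImplicit false
open Cfsg

namespace Cfsg.Agent.S1511

open Cfsg.Agent.Lib Cfsg.Agent.Lib.Helper15
open scoped ComplexConjugate

theorem hom_mul_conj {W : Type*} [Group W] [Finite W] (ω : W →* ℂˣ) (w : W) :
    (ω w : ℂ) * conj (ω w : ℂ) = 1 := by
  have h1 : (ω w : ℂ) ^ Nat.card W = 1 := by
    rw [← Units.val_pow_eq_pow_val, ← map_pow, pow_card_eq_one', map_one, Units.val_one]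
  have h2 : ‖(ω w : ℂ)‖ = 1 := Complex.norm_eq_one_of_pow_eq_one h1 Nat.card_pos.ne'
  rw [Complex.mul_conj, Complex.normSq_eq_norm_sq, h2]
  simp

/-- Let L be a finite group with K normal with complement W₁ ≠ 1 a cyclic Hall subgroup, and W₂ ≠ 1 a cyclic subgroup of K equal to C_K(x) for every non-identity x ∈ W₁, with W₁W₂ of odd order. Then there are a map μ from the linear characters of W = W₁ ⊔ W₂ to irreducible characters of L, injective, and a sign δ(ω) ∈ {1, −1} depending only on the values of ω on W₂, such that: for ω, ω' agreeing on W₂, the function induced to L from ω − ω' equals δ(ω) • (μ ω − μ ω'); μ ω x = δ(ω) ω x for x ∈ W outside W₂; every irreducible character of L not of the form μ ω vanishes on W outside W₂; and μ ω 1 − δ(ω) is an integer multiple of Nat.card W₁. -/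
theorem result {L : Type*} [Group L] [Fintype L] (K W₁ W₂ : Subgroup L) [hK : K.Normal] (hKW₁ : K ⊓ W₁ = ⊥) (hKW₁' : K ⊔ W₁ = ⊤) (hW₁ : W₁ ≠ ⊥) (hW₁c : IsCyclic W₁) (hHall : Nat.Coprime (Nat.card W₁) W₁.index) (hW₂ : W₂ ≠ ⊥) (hW₂c : IsCyclic W₂) (hW₂K : W₂ ≤ K) (hC : ∀ x ∈ W₁, x ≠ 1 → K ⊓ Subgroup.centralizer ({x} : Set L) = W₂) (hodd : Odd (Nat.card ↥(W₁ ⊔ W₂))) : ∃ (μ : (↥(W₁ ⊔ W₂) →* ℂˣ) → (L → ℂ)) (δ : (↥(W₁ ⊔ W₂) →* ℂˣ) → ℂ), Function.Injective μ ∧ (∀ ω, Cfsg.IsIrrCharacter L (μ ω)) ∧ (∀ ω, δ ω = 1 ∨ δ ω = -1) ∧ (∀ ω ω' : ↥(W₁ ⊔ W₂) →* ℂˣ, (∀ w : ↥(W₁ ⊔ W₂), (w : L) ∈ W₂ → ω w = ω' w) → δ ω = δ ω' ∧ Cfsg.indFun (W₁ ⊔ W₂) (fun w => (ω w : ℂ) - (ω' w : ℂ)) = δ ω • (μ ω - μ ω')) ∧ (∀ ω, ∀ w : ↥(W₁ ⊔ W₂), (w : L) ∉ W₂ → μ ω w = δ ω * (ω w : ℂ)) ∧ (∀ θ : L → ℂ, Cfsg.IsIrrCharacter L θ → (∀ ω, θ ≠ μ ω) → ∀ w : ↥(W₁ ⊔ W₂), (w : L) ∉ W₂ → θ w = 0) ∧ (∀ ω, ∃ n : ℤ, μ ω 1 - δ ω = n * (Nat.card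 W₁ : ℂ)) := by
  classical
  have h : CycSetup K W₁ W₂ := typeP_setup hKW₁ hKW₁' hW₁ hW₁c hHall hC
  have hodd₁ : Odd (Nat.card W₁) :=
    Odd.of_dvd_nat hodd (Subgroup.card_dvd_of_le le_sup_left)
  obtain ⟨P, hP1, hP2⟩ := h.exists_proj
  have hS : ∀ a ∈ W₁, ∀ b ∈ W₁, a * b = b * a := fun a ha b hb =>
    congrArg Subtype.val (IsCyclic.commGroup.mul_comm (⟨a, ha⟩ : W₁) ⟨b, hb⟩)
  have hCc : ∀ a ∈ W₂, ∀ b ∈ W₂, a * b = b * a := fun a ha b hb =>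
    congrArg Subtype.val (IsCyclic.commGroup.mul_comm (⟨a, ha⟩ : W₂) ⟨b, hb⟩)
  obtain ⟨x₀, hx₀, hx₀1⟩ : ∃ x₀ ∈ W₁, x₀ ≠ 1 := by
    by_contra hcon
    push Not at hcon
    exact hW₁ ((Subgroup.eq_bot_iff_forall _).2 hcon)
  let ι₁ : W₁ →* ↥(W₁ ⊔ W₂) := Subgroup.inclusion le_sup_left
  let ι₂ : W₂ →* ↥(W₁ ⊔ W₂) := Subgroup.inclusion le_sup_right
  choose X E hX1 hX2 hX3 hX4 using fun f₂ => h.typeP_data hW₁c hC hodd₁ f₂
  let μ : (↥(W₁ ⊔ W₂) →* ℂˣ) → (L → ℂ) := fun ω => toFn ((ω.comp ι₁).comp P) * X (ω.comp ι₂)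
  let δ : (↥(W₁ ⊔ W₂) →* ℂˣ) → ℂ := fun ω => (E (ω.comp ι₂) : ℂ)
  have hδ : ∀ ω, δ ω = 1 ∨ δ ω = -1 := by
    intro ω
    rcases hX2 (ω.comp ι₂) with h1 | h1
    · left; change ((E (ω.comp ι₂) : ℤ) : ℂ) = 1; rw [h1]; simp
    · right; change ((E (ω.comp ι₂) : ℤ) : ℂ) = -1; rw [h1]; simp
  have hδne : ∀ ω, δ ω ≠ 0 := by
    intro ω
    rcases hδ ω with h1 | h1 <;> rw [h1] <;> norm_num
  have hδconj : ∀ ω, conj (δ ω) = δ ω := by
    intro ω
    rcases hδ ω with h1 | h1 <;> rw [h1] <;> simp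
  have hμirr : ∀ ω, IsIrrCharacter L (μ ω) := fun ω =>
    irr_linear_mul (char_toFn _) (toFn_one' _) (hX1 _).irr
  -- values
  have hV : ∀ ω, ∀ c ∈ W₂, ∀ x ∈ W₁, x ≠ 1 → ∀ hw : c * x ∈ W₁ ⊔ W₂,
      μ ω (c * x) = δ ω * (ω ⟨c * x, hw⟩ : ℂ) := by
    intro ω c hc x hx hx1 hw
    change toFn ((ω.comp ι₁).comp P) (c * x) * X (ω.comp ι₂) (c * x) = _
    rw [hX3 (ω.comp ι₂) c hc x hx hx1 hc, toFn_apply]
    have h1 : P (c * x) = ⟨x, hx⟩ := by
      rw [map_mul, hP1 c (hW₂K hc), one_mul]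
      exact hP2 ⟨x, hx⟩
    have h2 : (⟨c * x, hw⟩ : ↥(W₁ ⊔ W₂)) = ι₂ ⟨c, hc⟩ * ι₁ ⟨x, hx⟩ := rfl
    have h3 : (ω ⟨c * x, hw⟩ : ℂ) = (ω (ι₂ ⟨c, hc⟩) : ℂ) * (ω (ι₁ ⟨x, hx⟩) : ℂ) := by
      rw [h2, map_mul, Units.val_mul]
    rw [h3]
    change ((ω (ι₁ (P (c * x))) : ℂˣ) : ℂ) * ((E (ω.comp ι₂) : ℂ) * (ω (ι₂ ⟨c, hc⟩) : ℂ))
      = (E (ω.comp ι₂) : ℂ) * _
    rw [h1]
    ring
  have hdec : ∀ w : ↥(W₁ ⊔ W₂), (w : L) ∉ W₂ → ∃ c ∈ W₂, ∃ x ∈ W₁, x ≠ 1 ∧ (w : L) = c * x := by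
    intro w hw
    obtain ⟨c, hc, x, hx, hwcx⟩ := (h.mem_sup_iff (w : L)).1 w.2
    refine ⟨c, hc, x, hx, ?_, hwcx⟩
    rintro rfl
    rw [mul_one] at hwcx
    exact hw (hwcx ▸ hc)
  have h5 : ∀ ω, ∀ w : ↥(W₁ ⊔ W₂), (w : L) ∉ W₂ → μ ω w = δ ω * (ω w : ℂ) := by
    intro ω w hw
    obtain ⟨c, hc, x, hx, hx1, hwcx⟩ := hdec w hw
    have h1 := hV ω c hc x hx hx1 (hwcx ▸ w.2)
    rw [hwcx, h1]
    congr 3
    exact Subtype.ext hwcx.symm
  -- injectivity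
  have hinj : Function.Injective μ := by
    intro ω ω' hμ
    have hXeq : X (ω.comp ι₂) = X (ω'.comp ι₂) := by
      apply h.canon_unique (hX1 _) (hX1 _)
      intro k
      have h1 := congrFun hμ (k : L)
      change toFn ((ω.comp ι₁).comp P) (k : L) * X (ω.comp ι₂) k
        = toFn ((ω'.comp ι₁).comp P) (k : L) * X (ω'.comp ι₂) k at h1
      rw [toFn_apply, toFn_apply] at h1
      simp only [MonoidHom.comp_apply, hP1 (k : L) k.2, map_one, Units.val_one, one_mul] at h1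
      exact h1
    have hEeq : δ ω = δ ω' := by
      have h1 := hX3 (ω.comp ι₂) 1 W₂.one_mem x₀ hx₀ hx₀1 W₂.one_mem
      have h2 := hX3 (ω'.comp ι₂) 1 W₂.one_mem x₀ hx₀ hx₀1 W₂.one_mem
      rw [hXeq, h2] at h1
      have h3 : (⟨1, W₂.one_mem⟩ : W₂) = 1 := rfl
      rw [h3, map_one, map_one, Units.val_one, mul_one, mul_one] at h1
      exact h1.symm
    have hout : ∀ w : ↥(W₁ ⊔ W₂), (w : L) ∉ W₂ → ω w = ω' w := by
      intro w hw
      have h1 := h5 ω w hw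
      rw [hμ, h5 ω' w hw, hEeq] at h1
      exact Units.ext (mul_left_cancel₀ (hδne ω') h1).symm
    ext w
    by_cases hw : (w : L) ∈ W₂
    · have hx₀W : x₀ ∈ W₁ ⊔ W₂ := Subgroup.mem_sup_left hx₀
      have h1 : ((w * ⟨x₀, hx₀W⟩ : ↥(W₁ ⊔ W₂)) : L) ∉ W₂ := by
        intro h0
        exact hx₀1 (h.eq_one_of_mul_mem hw hx₀ h0)
      have h2 : ((⟨x₀, hx₀W⟩ : ↥(W₁ ⊔ W₂)) : L) ∉ W₂ := by
        intro h0
        have := h.eq_one_of_mul_mem W₂.one_mem hx₀ (by rw [one_mul]; exact h0)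
        exact hx₀1 this
      have h3 := hout _ h1
      rw [map_mul, map_mul, hout _ h2] at h3
      rw [mul_right_cancel h3]
    · rw [hout w hw]
  -- commutativity of `W` and the count of its linear characters
  have hWcomm : ∀ a b : ↥(W₁ ⊔ W₂), a * b = b * a := by
    intro a b
    obtain ⟨c, hc, x, hx, ha⟩ := (h.mem_sup_iff (a : L)).1 a.2
    obtain ⟨c', hc', x', hx', hb⟩ := (h.mem_sup_iff (b : L)).1 b.2
    apply Subtype.ext
    change (a : L) * b = b * a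
    rw [ha, hb]
    have h1 : Commute c c' := hCc c hc c' hc'
    have h2 : Commute c x' := h.comm hc hx'
    have h3 : Commute x c' := (h.comm hc' hx).symm
    have h4 : Commute x x' := hS x hx x' hx'
    exact (h1.mul_right h2).mul_left (h3.mul_right h4)
  let e : (↥(W₁ ⊔ W₂) →* ℂˣ) ≃ IrrCharacter ↥(W₁ ⊔ W₂) :=
    Equiv.ofBijective (fun ω => ⟨toFn ω, Helper74.isIrrCharacter_of_hom ω⟩) ⟨
      fun a b hab => toFn_injective (congrArg Subtype.val hab),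
      fun lam => by
        obtain ⟨f, hf⟩ := exists_toFn (irr_char lam.2) (Helper80.char_one_eq_one_of_comm hWcomm lam)
        exact ⟨f, Subtype.ext hf.symm⟩⟩
  have hcardIrr : Fintype.card (IrrCharacter ↥(W₁ ⊔ W₂)) = Nat.card ↥(W₁ ⊔ W₂) := by
    rw [← Nat.card_eq_fintype_card]
    exact Helper80.card_irr_of_comm hWcomm
  let M : Finset (IrrCharacter L) :=
    Finset.univ.image (fun lam : IrrCharacter ↥(W₁ ⊔ W₂) => ⟨μ (e.symm lam), hμirr _⟩)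
  have hMinj : Function.Injective
      (fun lam : IrrCharacter ↥(W₁ ⊔ W₂) => (⟨μ (e.symm lam), hμirr _⟩ : IrrCharacter L)) := by
    intro a b hab
    exact e.symm.injective (hinj (congrArg Subtype.val hab))
  have hMmem : ∀ θ : IrrCharacter L, θ ∈ M ↔ ∃ ω, (θ : L → ℂ) = μ ω := by
    intro θ
    constructor
    · intro hθ
      obtain ⟨lam, -, rfl⟩ := Finset.mem_image.1 hθ
      exact ⟨_, rfl⟩
    · rintro ⟨ω, hω⟩
      refine Finset.mem_image.2 ⟨e ω, Finset.mem_univ _, ?_⟩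
      apply Subtype.ext
      rw [hω, Equiv.symm_apply_apply]
  -- vanishing
  have h6 : ∀ θ : L → ℂ, IsIrrCharacter L θ → (∀ ω, θ ≠ μ ω) →
      ∀ w : ↥(W₁ ⊔ W₂), (w : L) ∉ W₂ → θ w = 0 := by
    intro θ hθ hne w hw
    obtain ⟨c, hc, x, hx, hx1, hwcx⟩ := hdec w hw
    have hcol := Helper80.col_orth (w : L) (w : L)
    rw [if_pos (IsConj.refl _), hwcx, h.centralizer_mul hC hS hCc hc hx hx1, ← hwcx] at hcol
    have hreal : ∑ χ : IrrCharacter L, Complex.normSq ((χ : L → ℂ) w)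
        = (Nat.card ↥(W₁ ⊔ W₂) : ℝ) := by
      apply Complex.ofReal_injective
      push_cast
      rw [← hcol]
      apply Finset.sum_congr rfl
      intro χ _
      rw [Complex.mul_conj]
    have hM : ∑ χ ∈ M, Complex.normSq ((χ : L → ℂ) w) = (Nat.card ↥(W₁ ⊔ W₂) : ℝ) := by
      rw [Finset.sum_image (fun a _ b _ hab => hMinj hab), ← hcardIrr, ← Finset.card_univ,
        Finset.card_eq_sum_ones]
      push_cast
      apply Finset.sum_congr rfl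
      intro lam _
      apply Complex.ofReal_injective
      rw [← Complex.mul_conj]
      change μ (e.symm lam) w * conj (μ (e.symm lam) w) = _
      rw [h5 _ w hw, map_mul, hδconj]
      have h1 := hom_mul_conj (e.symm lam) w
      have h2 : δ (e.symm lam) * δ (e.symm lam) = 1 := by
        rcases hδ (e.symm lam) with h3 | h3 <;> rw [h3] <;> norm_num
      calc δ (e.symm lam) * ((e.symm lam) w : ℂ) * (δ (e.symm lam) * conj ((e.symm lam) w : ℂ))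
          = (δ (e.symm lam) * δ (e.symm lam)) * (((e.symm lam) w : ℂ) * conj ((e.symm lam) w : ℂ)) := by
            ring
        _ = _ := by rw [h1, h2]; simp
    have hcompl : ∑ χ ∈ Mᶜ, Complex.normSq ((χ : L → ℂ) w) = 0 := by
      have := Finset.sum_add_sum_compl M (fun χ : IrrCharacter L => Complex.normSq ((χ : L → ℂ) w))
      rw [hM, hreal] at this
      linarith
    have hθM : (⟨θ, hθ⟩ : IrrCharacter L) ∈ Mᶜ := by
      rw [Finset.mem_compl, hMmem]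
      rintro ⟨ω, hω⟩
      exact hne ω hω
    have := (Finset.sum_eq_zero_iff_of_nonneg (fun χ _ => Complex.normSq_nonneg _)).1 hcompl _ hθM
    exact Complex.normSq_eq_zero.1 this
  have hinW : ∀ ω ν : ↥(W₁ ⊔ W₂) →* ℂˣ,
      classInner (toFn ω) (toFn ν) = if ω = ν then 1 else 0 := by
    intro ω ν
    split_ifs with hων
    · rw [hων]; exact irr_inner_self (Helper74.isIrrCharacter_of_hom ν)
    · exact irr_inner_ne (Helper74.isIrrCharacter_of_hom ω) (Helper74.isIrrCharacter_of_hom ν)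
        (fun h0 => hων (toFn_injective h0))
  have hinL : ∀ ω ν : ↥(W₁ ⊔ W₂) →* ℂˣ,
      classInner (μ ω) (μ ν) = if ω = ν then 1 else 0 := by
    intro ω ν
    split_ifs with hων
    · rw [hων]; exact irr_inner_self (hμirr ν)
    · exact irr_inner_ne (hμirr ω) (hμirr ν) (fun h0 => hων (hinj h0))
  refine ⟨μ, δ, hinj, hμirr, hδ, ?_, h5, h6, ?_⟩
  · intro ω ω' hag
    have h2eq : ω.comp ι₂ = ω'.comp ι₂ := by
      ext c
      exact congrArg Units.val (hag (ι₂ c) c.2)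
    have hδeq : δ ω = δ ω' := by
      change ((E (ω.comp ι₂) : ℤ) : ℂ) = ((E (ω'.comp ι₂) : ℤ) : ℂ)
      rw [h2eq]
    refine ⟨hδeq, ?_⟩
    apply cf_ext (indFun_isClassFunction _ _)
      (Helper3.IsClassFunction.smul _ (Helper3.IsClassFunction.sub (irr_cf (hμirr ω))
        (irr_cf (hμirr ω'))))
    intro φ hφ
    rw [classInner_indFun_left _ _ _ (irr_cf hφ), classInner_smul_left, classInner_sub_left]
    by_cases hφM : ∃ ν, φ = μ ν
    · obtain ⟨ν, rfl⟩ := hφM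
      have hL : classInner (fun w : ↥(W₁ ⊔ W₂) => (ω w : ℂ) - (ω' w : ℂ))
          (fun w : ↥(W₁ ⊔ W₂) => μ ν w)
          = classInner (toFn ω - toFn ω') (δ ν • toFn ν) := by
        unfold classInner
        congr 1
        apply Finset.sum_congr rfl
        intro w _
        change ((ω w : ℂ) - (ω' w : ℂ)) * conj (μ ν w)
          = ((ω w : ℂ) - (ω' w : ℂ)) * conj (δ ν * (ν w : ℂ))
        by_cases hw : (w : L) ∈ W₂
        · rw [hag w hw, sub_self, zero_mul, zero_mul]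
        · rw [h5 ν w hw]
      rw [hL, classInner_smul_right, classInner_sub_left, hinW, hinW, hinL, hinL, hδconj]
      by_cases h1 : ω = ν
      · rw [h1]
      · by_cases h2 : ω' = ν
        · rw [← h2, hδeq]
        · rw [if_neg h1, if_neg h2]
          simp
    · push Not at hφM
      have hL : classInner (fun w : ↥(W₁ ⊔ W₂) => (ω w : ℂ) - (ω' w : ℂ))
          (fun w : ↥(W₁ ⊔ W₂) => φ w) = 0 := by
        unfold classInner
        rw [Finset.sum_eq_zero, mul_zero]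
        intro w _
        change ((ω w : ℂ) - (ω' w : ℂ)) * conj (φ w) = 0
        by_cases hw : (w : L) ∈ W₂
        · rw [hag w hw, sub_self, zero_mul]
        · rw [h6 φ hφ hφM w hw, map_zero, mul_zero]
      rw [hL, irr_inner_ne (hμirr ω) hφ (hφM ω).symm, irr_inner_ne (hμirr ω') hφ (hφM ω').symm]
      simp
  · intro ω
    obtain ⟨n, hn⟩ := hX4 (ω.comp ι₂)
    refine ⟨n, ?_⟩
    change toFn ((ω.comp ι₁).comp P) 1 * X (ω.comp ι₂) 1 - (E (ω.comp ι₂) : ℂ) = _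
    rw [toFn_one', one_mul, hn]
    push_cast
    ring

end Cfsg.Agent.S1511
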