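import Cfsg.Statements.S1513
import Cfsg.Agent.Lib.Helper15.TypeP

set_option autoImplicit false
open Cfsg

namespace Cfsg.Agent.S1513

open Cfsg.Agent.Lib Cfsg.Agent.Lib.Helper15

/-- Let L be a finite group with K normal with complement W₁ ≠ 1 a cyclic Hall subgroup, and W₂ ≠ 1 a cyclic subgroup of K equal to C_K(x) for every non-identity x ∈ W₁, with W₁W₂ of odd order. For an irreducible character θ of K: if θ is not fixed under conjugation by some element of W₁, then the function induced from θ to L is an irreducible character of L; and the irreducible characters of K fixed by all of W₁ are exactly Nat.card W₂ in number, each inducing to the sum of Nat.card W₁ pairwise distinct irreducible characters of L. -/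
theorem result {L : Type*} [Group L] [Fintype L] (K W₁ W₂ : Subgroup L) [hK : K.Normal] (hKW₁ : K ⊓ W₁ = ⊥) (hKW₁' : K ⊔ W₁ = ⊤) (hW₁ : W₁ ≠ ⊥) (hW₁c : IsCyclic W₁) (hHall : Nat.Coprime (Nat.card W₁) W₁.index) (hW₂ : W₂ ≠ ⊥) (hW₂c : IsCyclic W₂) (hW₂K : W₂ ≤ K) (hC : ∀ x ∈ W₁, x ≠ 1 → K ⊓ Subgroup.centralizer ({x} : Set L) = W₂) (hodd : Odd (Nat.card ↥(W₁ ⊔ W₂))) : (∀ θ : K → ℂ, Cfsg.IsIrrCharacter K θ → (∃ x ∈ W₁, (fun k : K => θ ⟨x * k * x⁻¹, hK.conj_mem (k : L) k.2 x⟩) ≠ θ) → Cfsg.IsIrrCharacter L (Cfsg.indFun K θ)) ∧ Nat.card {θ : Cfsg.IrrCharacter K // ∀ x ∈ W₁, (fun k : K => (θ : K → ℂ) ⟨x * k * x⁻¹, hK.conj_mem (k : L) k.2 x⟩) = θ} = Nat.card W₂ ∧ (∀ θ : K → ℂ, Cfsg.IsIrrCharacter K θ → (∀ x ∈ W₁, (fun k : K => θ ⟨x * k * x⁻¹, hK.conj_mem (k : L) k.2 x⟩) = θ) → ∃ C : Finset (L → ℂ), C.card = Nat.card W₁ ∧ (∀ μ ∈ C, Cfsg.IsIrrCharacter L μ) ∧ Cfsg.indFun K θ = ∑ μ ∈ C, μ) := by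
  classical
  have h : CycSetup K W₁ W₂ := typeP_setup hKW₁ hKW₁' hW₁ hW₁c hHall hC
  refine ⟨?_, ?_, ?_⟩
  · rintro θ hθ ⟨x, hx, hne⟩
    apply typeP_ind_irr h hW₁c hC hθ
    intro hinv
    exact hne (((invUnder_iff_funext W₁ θ).2 hinv) x hx)
  · rw [← typeP_card_inv h hW₁c hW₂c]
    apply Nat.card_congr
    apply Equiv.subtypeEquivRight
    intro θ
    exact invUnder_iff_funext W₁ (θ : K → ℂ)
  · intro θ hθ hinv
    obtain ⟨C, hcard, hind, -⟩ := typeP_ind_inv h hW₁c hθ ((invUnder_iff_funext W₁ θ).1 hinv)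
    refine ⟨C.map ⟨Subtype.val, Subtype.val_injective⟩, ?_, ?_, ?_⟩
    · rw [Finset.card_map, hcard]
    · intro μ hμ
      obtain ⟨ψ, -, rfl⟩ := Finset.mem_map.1 hμ
      exact ψ.2
    · rw [hind, Finset.sum_map]
      rfl

end Cfsg.Agent.S1513
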