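import Cfsg.Statements.S1577
import Cfsg.Agent.Lib.Helper54.U6Main

set_option autoImplicit false
open Cfsg

namespace Cfsg.Agent.S1577

/-- The joint stabiliser of two minimal vectors of customary inner product −2 is isomorphic to PSU(6, 2). -/
theorem result (v w : ↥Cfsg.leechLattice) (hv : Cfsg.sqNorm (v : Cfsg.GolayPt → ℤ) = 32) (hw : Cfsg.sqNorm (w : Cfsg.GolayPt → ℤ) = 32) (hd : Cfsg.dotInt (v : Cfsg.GolayPt → ℤ) (w : Cfsg.GolayPt → ℤ) = -16) (F : Type) [Field F] [Fintype F] (hF : Fintype.card F = 4) : Nonempty (↥(MulAction.stabilizer ↥Cfsg.Co0 v ⊓ MulAction.stabilizer ↥Cfsg.Co0 w) ≃* Cfsg.PSU 6 F 2) := by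
  open Cfsg.Agent.Lib.Helper54 Cfsg.Agent.Lib.Helper54.U6 Cfsg.Agent.Lib.Helper40.U6 in
  have hv0 : Cfsg.sqNorm ((v0 : ↥Cfsg.leechLattice) : Cfsg.GolayPt → ℤ) = 32 := by
    show Cfsg.sqNorm (V Xv0) = 32
    rw [sqNorm_V, Xv0_norm]
  have hwA : Cfsg.sqNorm ((wA : ↥Cfsg.leechLattice) : Cfsg.GolayPt → ℤ) = 32 := by
    show Cfsg.sqNorm (V XwA) = 32
    rw [sqNorm_V, XwA_norm]
  have hdA : Cfsg.dotInt ((v0 : ↥Cfsg.leechLattice) : Cfsg.GolayPt → ℤ)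
      ((wA : ↥Cfsg.leechLattice) : Cfsg.GolayPt → ℤ) = -16 := by
    show Cfsg.dotInt (V Xv0) (V XwA) = -16
    rw [dotInt_V, XwA_dot]
  obtain ⟨a, ha1, ha2⟩ := co0_trans_pairs v0 wA v w hv0 hwA hv hw (by rw [hdA, hd])
  obtain ⟨e1⟩ := main0
  obtain ⟨e2⟩ := psu_congr_of_card (F := K4) (K := F) (by rw [hF]; rfl) 6 2
  have e3 := fixLConj a [wA, v0]
  have h4 : FixL ([wA, v0].map (fun b => a • b))
      = MulAction.stabilizer ↥Cfsg.Co0 v ⊓ MulAction.stabilizer ↥Cfsg.Co0 w := by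
    rw [List.map_cons, List.map_cons, List.map_nil, ha1, ha2, fixL_two, inf_comm]
  exact ⟨(((MulEquiv.subgroupCongr h4).symm.trans e3.symm).trans e1).trans e2⟩

end Cfsg.Agent.S1577
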