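import Cfsg.Statements.S1582
import Cfsg.Agent.Lib.Helper54.U4Main

set_option autoImplicit false
open Cfsg

namespace Cfsg.Agent.S1582

/-- The point stabiliser in the rank-3 action of the McLaughlin group on 275 points is isomorphic to PSU(4, 3). -/
theorem result (u v x : ↥Cfsg.leechLattice) (hu : Cfsg.sqNorm (u : Cfsg.GolayPt → ℤ) = 48) (hv : Cfsg.sqNorm (v : Cfsg.GolayPt → ℤ) = 32 ∧ Cfsg.sqNorm ((u - v) : Cfsg.GolayPt → ℤ) = 32) (hx : x ∈ {x : ↥Cfsg.leechLattice | Cfsg.sqNorm (x : Cfsg.GolayPt → ℤ) = 32 ∧ Cfsg.sqNorm ((u - x) : Cfsg.GolayPt → ℤ) = 32 ∧ Cfsg.dotInt (v : Cfsg.GolayPt → ℤ) (x : Cfsg.GolayPt → ℤ) = 16}) (F : Type) [Field F] [Fintype F] (hF : Fintype.card F = 9) : Nonempty (↥(MulAction.stabilizer ↥Cfsg.Co0 u ⊓ MulAction.stabilizer ↥Cfsg.Co0 v ⊓ MulAction.stabilizer ↥Cfsg.Co0 x) ≃* Cfsg.PSU 4 F 3) := by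
  open Cfsg.Agent.Lib.Helper54 in
  have hc := conj_of_decomp u v hu hv.1 hv.2
  have hx' := (mem_275_iff u v x hu).1 hx
  have hc3 : ConjL [xx0, wB, v0] [x, u - v, v] := hc.cons trans275 xx0_cls hx'
  obtain ⟨a, ha⟩ := hc3
  obtain ⟨e1⟩ := Cfsg.Agent.Lib.Helper54.U4.main0
  obtain ⟨e2⟩ := psu_congr_of_card (F := K9) (K := F) (by rw [hF]; exact K9.card_eq) 4 3
  have e3 := fixLConj a [xx0, wB, v0]
  have h4 : FixL ([xx0, wB, v0].map (fun b => a • b))
      = MulAction.stabilizer ↥Cfsg.Co0 u ⊓ MulAction.stabilizer ↥Cfsg.Co0 v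
        ⊓ MulAction.stabilizer ↥Cfsg.Co0 x := by
    rw [← ha]
    ext g
    rw [mem_fixL, Subgroup.mem_inf, Subgroup.mem_inf, MulAction.mem_stabilizer_iff,
      MulAction.mem_stabilizer_iff, MulAction.mem_stabilizer_iff]
    constructor
    · intro hg
      have h0 := hg x (by simp)
      have h1 := hg (u - v) (by simp)
      have h2 := hg v (by simp)
      exact ⟨⟨fix_u_of_fix g u v h1 h2, h2⟩, h0⟩
    · rintro ⟨⟨h1, h2⟩, h3⟩ b hb
      simp only [List.mem_cons, List.not_mem_nil, or_false] at hb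
      rcases hb with rfl | rfl | rfl
      · exact h3
      · rw [co0_sub, h1, h2]
      · exact h2
  exact ⟨(((MulEquiv.subgroupCongr h4).symm.trans e3.symm).trans e1).trans e2⟩

end Cfsg.Agent.S1582
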