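import Cfsg.Statements.S1633
import Cfsg.Agent.Lib.Helper54.U3Main

set_option autoImplicit false
open Cfsg

namespace Cfsg.Agent.S1633

/-- The Higman–Sims group acts transitively on 352 vectors, a set closed under x ↦ −w − x, with vector stabiliser isomorphic to PSU(3, 5). -/
theorem result (v w : ↥Cfsg.leechLattice) (hv : Cfsg.sqNorm (v : Cfsg.GolayPt → ℤ) = 48) (hw : Cfsg.sqNorm (w : Cfsg.GolayPt → ℤ) = 48) (hvw : Cfsg.dotInt (v : Cfsg.GolayPt → ℤ) (w : Cfsg.GolayPt → ℤ) = -32) (F : Type) [Field F] [Fintype F] (hF : Fintype.card F = 25) : {x : ↥Cfsg.leechLattice | Cfsg.sqNorm (x : Cfsg.GolayPt → ℤ) = 32 ∧ Cfsg.dotInt (v : Cfsg.GolayPt → ℤ) (x : Cfsg.GolayPt → ℤ) = 16 ∧ Cfsg.dotInt (w : Cfsg.GolayPt → ℤ) (x : Cfsg.GolayPt → ℤ) = -24}.ncard = 352 ∧ (∀ x ∈ {x : ↥Cfsg.leechLattice | Cfsg.sqNorm (x : Cfsg.GolayPt → ℤ) = 32 ∧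 Cfsg.dotInt (v : Cfsg.GolayPt → ℤ) (x : Cfsg.GolayPt → ℤ) = 16 ∧ Cfsg.dotInt (w : Cfsg.GolayPt → ℤ) (x : Cfsg.GolayPt → ℤ) = -24}, -w - x ∈ {x : ↥Cfsg.leechLattice | Cfsg.sqNorm (x : Cfsg.GolayPt → ℤ) = 32 ∧ Cfsg.dotInt (v : Cfsg.GolayPt → ℤ) (x : Cfsg.GolayPt → ℤ) = 16 ∧ Cfsg.dotInt (w : Cfsg.GolayPt → ℤ) (x : Cfsg.GolayPt → ℤ) = -24}) ∧ (∀ x ∈ {x : ↥Cfsg.leechLattice | Cfsg.sqNorm (x : Cfsg.GolayPt → ℤ) = 32 ∧ Cfsg.dotInt (v : Cfsg.GolayPt → ℤ) (x : Cfsg.GolayPt → ℤ) = 16 ∧ Cfsg.dotInt (w : Cfsg.GolayPt → ℤ) (x : Cfsg.GolayPt → ℤ) = -24}, ∀ x' ∈ {x : ↥Cfsg.leechLattice | Cfsg.sqNorm (x : Cfsg.GolayPt → ℤ) = 32 ∧ Cfsg.dotInt (v : Cfsg.GolayPt → ℤ) (x : Cfsg.GolayPt → ℤ) = 16 ∧ Cfsg.dotInt (w : Cfsg.GolayPt → ℤ) (x : Cfsg.GolayPt → ℤ) = -24}, ∃ g : ↥Cfsg.Co0, g • v = v ∧ g • w = w ∧ g • x = x') ∧ ∀ x ∈ {x : ↥Cfsg.leechLattice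 | Cfsg.sqNorm (x : Cfsg.GolayPt → ℤ) = 32 ∧ Cfsg.dotInt (v : Cfsg.GolayPt → ℤ) (x : Cfsg.GolayPt → ℤ) = 16 ∧ Cfsg.dotInt (w : Cfsg.GolayPt → ℤ) (x : Cfsg.GolayPt → ℤ) = -24}, Nonempty (↥(MulAction.stabilizer ↥Cfsg.Co0 v ⊓ MulAction.stabilizer ↥Cfsg.Co0 w ⊓ MulAction.stabilizer ↥Cfsg.Co0 x) ≃* Cfsg.PSU 3 F 5) := by
  open Cfsg.Agent.Lib.Helper54 Cfsg.Agent.Lib.Helper54.U3 in
  have hc := conj_hs v w hv hw hvw
  have hmem : ∀ x : ↥Cfsg.leechLattice, x ∈ {x : ↥Cfsg.leechLattice | Cfsg.sqNorm (x : Cfsg.GolayPt → ℤ) = 32 ∧ Cfsg.dotInt (v : Cfsg.GolayPt → ℤ) (x : Cfsg.GolayPt → ℤ) = 16 ∧ Cfsg.dotInt (w : Cfsg.GolayPt → ℤ) (x : Cfsg.GolayPt → ℤ) = -24}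
      ↔ ClsL [-v - w, v] 32 [-8, -16] (-x) := by
    intro x
    have h1 := mem_hs_iff v w x 16 (-24)
    rw [Set.mem_ofPred_eq, h1, clsL_cons, clsL_cons, clsL_nil, clsL_cons, clsL_cons, clsL_nil]
    have e1 : ∀ b : ↥Cfsg.leechLattice, Cfsg.dotInt (b : Cfsg.GolayPt → ℤ) ((-x : ↥Cfsg.leechLattice) : Cfsg.GolayPt → ℤ)
        = - Cfsg.dotInt (b : Cfsg.GolayPt → ℤ) (x : Cfsg.GolayPt → ℤ) := fun b => dotInt_neg_right' _ _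
    have e2 : Cfsg.sqNorm ((-x : ↥Cfsg.leechLattice) : Cfsg.GolayPt → ℤ) = Cfsg.sqNorm (x : Cfsg.GolayPt → ℤ) :=
      sqNorm_neg' _
    rw [e1, e1, e2]
    constructor
    · rintro ⟨a1, a2, a3⟩
      exact ⟨by omega, by omega, a3⟩
    · rintro ⟨a1, a2, a3⟩
      exact ⟨by omega, by omega, a3⟩
  have htr : ∀ x ∈ {x : ↥Cfsg.leechLattice | Cfsg.sqNorm (x : Cfsg.GolayPt → ℤ) = 32 ∧ Cfsg.dotInt (v : Cfsg.GolayPt → ℤ) (x : Cfsg.GolayPt → ℤ) = 16 ∧ Cfsg.dotInt (w : Cfsg.GolayPt → ℤ) (x : Cfsg.GolayPt → ℤ) = -24}, ∀ x' ∈ {x : ↥Cfsg.leechLattice | Cfsg.sqNorm (x : Cfsg.GolayPt → ℤ) = 32 ∧ Cfsg.dotInt (v : Cfsg.GolayPt → ℤ) (x : Cfsg.GolayPt → ℤ) = 16 ∧ Cfsg.dotInt (w : Cfsg.GolayPt → ℤ) (x : Cfsg.GolayPt → ℤ) = -24}, ∃ g : ↥Cfsg.Co0, g • v = v ∧ g • w = w ∧ g • x = x' := by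
    intro x hx x' hx'
    obtain ⟨g, hg, hgx⟩ := transYm8.conj hc (-x) (-x') ((hmem x).1 hx) ((hmem x').1 hx')
    have h1 := hg (-v - w) (by simp)
    have h2 := hg v (by simp)
    refine ⟨g, h2, fix_w_of_fix g v w h1 h2, ?_⟩
    rw [co0_neg] at hgx
    exact neg_injective hgx
  refine ⟨?_, ?_, htr, ?_⟩
  · have h1 : CountL [-v - w, v] 32 [-8, -16] 352 := countYm8.conj hc
    unfold CountL at h1
    rw [← h1]
    apply ncard_smul negCo0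
    intro x
    rw [negCo0_smul]
    exact hmem x
  · rintro x ⟨a1, a2, a3⟩
    refine ⟨?_, ?_, ?_⟩
    · show Cfsg.sqNorm (-(w : Cfsg.GolayPt → ℤ) - (x : Cfsg.GolayPt → ℤ)) = 32
      rw [sqNorm_sub, sqNorm_neg', dotInt_neg_left', hw, a1, a3]
      norm_num
    · show Cfsg.dotInt (v : Cfsg.GolayPt → ℤ) (-(w : Cfsg.GolayPt → ℤ) - (x : Cfsg.GolayPt → ℤ)) = 16
      rw [dotInt_sub_right', dotInt_neg_right', hvw, a2]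
      norm_num
    · show Cfsg.dotInt (w : Cfsg.GolayPt → ℤ) (-(w : Cfsg.GolayPt → ℤ) - (x : Cfsg.GolayPt → ℤ)) = -24
      rw [dotInt_sub_right', dotInt_neg_right', ← sqNorm_eq_dotInt, hw, a3]
      norm_num
  · intro x hx
    have hc3 : ConjL [yy0, tt0, u3] [-x, -v - w, v] := hc.cons transYm8 yy0_cls ((hmem x).1 hx)
    obtain ⟨a, ha⟩ := hc3
    obtain ⟨e1⟩ := Cfsg.Agent.Lib.Helper54.U3.main0
    obtain ⟨e2⟩ := psu_congr_of_card (F := K25) (K := F) (by rw [hF]; exact K25.card_eq) 3 5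
    have e3 := fixLConj a [yy0, tt0, u3]
    have h4 : FixL ([yy0, tt0, u3].map (fun b => a • b))
        = MulAction.stabilizer ↥Cfsg.Co0 v ⊓ MulAction.stabilizer ↥Cfsg.Co0 w
          ⊓ MulAction.stabilizer ↥Cfsg.Co0 x := by
      rw [← ha]
      ext g
      rw [mem_fixL, Subgroup.mem_inf, Subgroup.mem_inf, MulAction.mem_stabilizer_iff,
        MulAction.mem_stabilizer_iff, MulAction.mem_stabilizer_iff]
      constructor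
      · intro hg
        have h0 := hg (-x) (by simp)
        have h1 := hg (-v - w) (by simp)
        have h2 := hg v (by simp)
        rw [co0_neg] at h0
        exact ⟨⟨h2, fix_w_of_fix g v w h1 h2⟩, neg_injective h0⟩
      · rintro ⟨⟨h1, h2⟩, h3⟩ b hb
        simp only [List.mem_cons, List.not_mem_nil, or_false] at hb
        rcases hb with rfl | rfl | rfl
        · rw [co0_neg, h3]
        · rw [co0_sub, co0_neg, h1, h2]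
        · exact h1
    exact ⟨(((MulEquiv.subgroupCongr h4).symm.trans e3.symm).trans e1).trans e2⟩

end Cfsg.Agent.S1633
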