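import Cfsg.Statements.S1892
import Cfsg.Agent.Lib.Helper76.PSolvable
import Cfsg.Agent.Lib.Helper31.CharP
import Cfsg.Agent.Lib.Helper31.LocalLayer
import Cfsg.Agent.S0022

set_option autoImplicit false
open Cfsg

namespace Cfsg.Agent.S1892

/-- Let S be a finite p-solvable group with no nontrivial normal subgroup of order prime to p, A a p-subgroup of S, and Q a nontrivial A-invariant subgroup of order prime to p with [A, Q] = Q. Then the commutator [O_p(S), A, Q] is nontrivial. -/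
theorem result {S : Type*} [Group S] [Finite S] {p : ℕ} [Fact p.Prime]
    (hS : Cfsg.IsPSolvable p S) (hred : Cfsg.pPrimeCore p S = ⊥)
    (A Q : Subgroup S) (hA : IsPGroup p A) (hQ : ¬ p ∣ Nat.card Q) (hQ1 : Q ≠ ⊥)
    (hinv : ∀ a ∈ A, ∀ x ∈ Q, a * x * a⁻¹ ∈ Q) (hAQ : ⁅A, Q⁆ = Q) :
    ⁅⁅Cfsg.pCore p S, A⁆, Q⁆ ≠ ⊥ := by
  classical
  intro hbot
  have hp : p.Prime := Fact.out
  set P := Cfsg.pCore p S with hP
  set R := ⁅P, A⁆ with hR
  have hPn : P.Normal := Cfsg.Agent.Lib.Lead.pCore_normal' p S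
  have hPp : IsPGroup p P := Cfsg.Agent.Lib.Lead.pCore_isPGroup p S
  have hRP : R ≤ P := Subgroup.commutator_le_left _ _
  have hRQ : R ≤ Subgroup.centralizer (Q : Set S) :=
    Subgroup.commutator_eq_bot_iff_le_centralizer.mp hbot
  have hPR : P ≤ Subgroup.normalizer (R : Set S) := Subgroup.normalizer_commutator_ge_left _ _
  have hAR : A ≤ Subgroup.normalizer (R : Set S) := Subgroup.normalizer_commutator_ge_right _ _
  have hQfix : ∀ y ∈ Q, ∀ r ∈ R, y * r * y⁻¹ = r := by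
    intro y hy r hr
    have := (Subgroup.mem_centralizer_iff.mp (hRQ hr)) y hy
    rw [this]; group
  have hQR : Q ≤ Subgroup.normalizer (R : Set S) := by
    intro y hy
    rw [Subgroup.mem_normalizer_iff]
    intro r
    constructor
    · intro hr; rw [hQfix y hy r hr]; exact hr
    · intro hr
      have h1 := hQfix y⁻¹ (Q.inv_mem hy) _ hr
      have h2 : y⁻¹ * (y * r * y⁻¹) * y⁻¹⁻¹ = r := by group
      rw [h2] at h1
      rw [h1]; exact hr
  have hconjR : ∀ g ∈ Subgroup.normalizer (R : Set S), ∀ r ∈ R, g * r * g⁻¹ ∈ R := by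
    intro g hg r hr
    exact (Subgroup.mem_normalizer_iff.mp hg r).mp hr
  let K : Subgroup S :=
    { carrier := {g | g ∈ Subgroup.normalizer (R : Set S) ∧ ∀ x ∈ P, g * x * g⁻¹ * x⁻¹ ∈ R}
      one_mem' := ⟨one_mem _, fun x _ => by simp⟩
      mul_mem' := by
        rintro g h ⟨hg1, hg2⟩ ⟨hh1, hh2⟩
        refine ⟨mul_mem hg1 hh1, fun x hx => ?_⟩
        have e : g * h * x * (g * h)⁻¹ * x⁻¹ = (g * (h * x * h⁻¹ * x⁻¹) * g⁻¹) * (g * x * g⁻¹ * x⁻¹) := by
          group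
        rw [e]
        exact R.mul_mem (hconjR g hg1 _ (hh2 x hx)) (hg2 x hx)
      inv_mem' := by
        rintro g ⟨hg1, hg2⟩
        refine ⟨inv_mem hg1, fun x hx => ?_⟩
        have hx' : g⁻¹ * x * g⁻¹⁻¹ ∈ P := hPn.conj_mem x hx g⁻¹
        have h1 := hg2 _ hx'
        have e : g⁻¹ * x * g⁻¹⁻¹ * x⁻¹ = (g * (g⁻¹ * x * g⁻¹⁻¹) * g⁻¹ * (g⁻¹ * x * g⁻¹⁻¹)⁻¹)⁻¹ := by
          group
        rw [e]
        exact R.inv_mem h1 }
  have hAK : A ≤ K := by
    intro a ha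
    refine ⟨hAR ha, fun x hx => ?_⟩
    have := Subgroup.commutator_mem_commutator ha hx
    rw [commutatorElement_def, Subgroup.commutator_comm] at this
    exact this
  have hQK' : ∀ y ∈ Q, ∀ g ∈ K, y * g * y⁻¹ ∈ K := by
    rintro y hy g ⟨hg1, hg2⟩
    refine ⟨mul_mem (mul_mem (hQR hy) hg1) (inv_mem (hQR hy)), fun x hx => ?_⟩
    have hx' : y⁻¹ * x * y⁻¹⁻¹ ∈ P := hPn.conj_mem x hx y⁻¹
    have h1 := hconjR y (hQR hy) _ (hg2 _ hx')
    have e : y * g * y⁻¹ * x * (y * g * y⁻¹)⁻¹ * x⁻¹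
        = y * (g * (y⁻¹ * x * y⁻¹⁻¹) * g⁻¹ * (y⁻¹ * x * y⁻¹⁻¹)⁻¹) * y⁻¹ := by group
    rw [e]
    exact h1
  have hQK : Q ≤ K := by
    rw [← hAQ, Subgroup.commutator_le]
    intro a ha y hy
    rw [commutatorElement_def]
    have e : a * y * a⁻¹ * y⁻¹ = a * (y * a⁻¹ * y⁻¹) := by group
    rw [e]
    exact K.mul_mem (hAK ha) (hQK' y hy _ (K.inv_mem (hAK ha)))
  have hQcop : (Nat.card Q).Coprime p := by
    rw [Nat.coprime_comm, Nat.Prime.coprime_iff_not_dvd hp]; exact hQ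
  have hcop : (Nat.card Q).Coprime (Nat.card P) := by
    obtain ⟨k, hk⟩ := IsPGroup.iff_card.mp hPp
    rw [hk]
    exact Nat.Coprime.pow_right _ hQcop
  have hPQ : P ≤ Subgroup.centralizer (Q : Set S) := by
    intro k hk
    obtain ⟨c, hc, hn⟩ := Cfsg.Agent.S0022.result Q P
      (by rw [Subgroup.normalizer_eq_top_iff.mpr hPn]; exact le_top) hcop
      (Or.inr (Cfsg.Agent.Lib.Helper31.isSolvable_of_isPGroup hPp)) R hRP hPR hQR k hk
      (fun y hy => (hQK hy).2 k hk)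
    have e : k = c * (k⁻¹ * c)⁻¹ := by group
    rw [e]
    exact mul_mem hc.2 (inv_mem (hRQ hn))
  have hQP : Q ≤ P :=
    (Subgroup.le_centralizer_iff.mp hPQ).trans (Cfsg.Agent.Lib.Helper76.centralizer_pCore_le hS hred)
  exact hQ1 (Cfsg.Agent.Lib.Helper31.eq_bot_of_coprime_of_le_isPGroup hQcop hPp hQP)

end Cfsg.Agent.S1892
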