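import Cfsg.Statements.S1893
import Cfsg.Agent.Lib.Helper2.ScnFitting
import Cfsg.Agent.Lib.Helper23.Cores
import Cfsg.Agent.Lib.Lead.Cores

set_option autoImplicit false
open Cfsg

namespace Cfsg.Agent.S1893

/-- Let S be a finite solvable group, π a set of primes containing neither 2 nor 3, H a Hall π-subgroup of S, and A a self-centralizing normal subgroup of the Fitting subgroup F(H). Then C_S(A) = A × D for a normal subgroup D of C_S(A) whose order has no prime divisor in π. -/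
theorem result {S : Type*} [Group S] [Finite S] [Group.IsSolvable S]
    (π : Set ℕ) (h2 : 2 ∉ π) (h3 : 3 ∉ π) (H : Subgroup S) (hH : Cfsg.IsPiHall π H)
    (A : Subgroup S) (hA : Cfsg.IsSCN ((Cfsg.fittingSubgroup H).map H.subtype) A) :
    ∃ D : Subgroup S, D ≤ Subgroup.centralizer (A : Set S) ∧
      (∀ c ∈ Subgroup.centralizer (A : Set S), ∀ d ∈ D, c * d * c⁻¹ ∈ D) ∧
      A ⊓ D = ⊥ ∧ A ⊔ D = Subgroup.centralizer (A : Set S) ∧
      ∀ q : ℕ, q.Prime → q ∣ Nat.card D → q ∉ π := by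
  classical
  obtain ⟨hAF, hFn, hFc⟩ := hA
  set F := (Cfsg.fittingSubgroup H).map H.subtype with hF
  set K := piCore πᶜ S with hK
  set φ := QuotientGroup.mk' K with hφ
  have hφs : Function.Surjective φ := QuotientGroup.mk'_surjective K
  have hFH : F ≤ H := Subgroup.map_subtype_le _
  have hKprimes : ∀ q : ℕ, q.Prime → q ∣ Nat.card K → q ∉ π :=
    Cfsg.Agent.Lib.Helper23.piCore_primes πᶜ S
  have hHK : H ⊓ K = ⊥ := by
    rw [← disjoint_iff]
    apply Subgroup.disjoint_of_coprime_natCard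
    apply Nat.coprime_of_dvd
    intro q hq h1 h2
    exact hKprimes q hq h2 (hH.1 q hq h1)
  have hker : ∀ x ∈ H, φ x = 1 → x = 1 := by
    intro x hx h1
    have : x ∈ H ⊓ K := ⟨hx, (QuotientGroup.eq_one_iff x).mp h1⟩
    rw [hHK] at this
    exact this
  have hcoreBot : ∀ r : ℕ, r.Prime → r ∉ π → pCore r (S ⧸ K) = ⊥ := by
    intro r hr hrπ
    haveI : Fact r.Prime := ⟨hr⟩
    have hN : (pCore r (S ⧸ K)).comap φ ≤ K := by
      apply le_sSup
      refine ⟨inferInstance, ?_⟩
      intro q hq hqd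
      rw [Cfsg.Agent.Lib.Lead.card_comap_mk'] at hqd
      rcases (Nat.Prime.dvd_mul hq).1 hqd with h | h
      · exact hKprimes q hq h
      · obtain ⟨k, hk⟩ := IsPGroup.iff_card.1 (Cfsg.Agent.Lib.Helper1.pCore_isPGroup (G := S ⧸ K) r)
        rw [hk] at h
        have := (Nat.prime_dvd_prime_iff_eq hq hr).1 (hq.dvd_of_dvd_pow h)
        rw [this]; exact hrπ
    rw [← Subgroup.map_comap_eq_self_of_surjective hφs (pCore r (S ⧸ K)), eq_bot_iff]
    refine (Subgroup.map_mono hN).trans ?_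
    rw [hφ, QuotientGroup.map_mk'_self]
  have hcoreLe : ∀ r : ℕ, r.Prime → pCore r (S ⧸ K) ≤ F.map φ := by
    intro r hr
    haveI : Fact r.Prime := ⟨hr⟩
    by_cases hrπ : r ∈ π
    · have hRH : pCore r (S ⧸ K) ≤ H.map φ := by
        rw [← Subgroup.relIndex_eq_one]
        have h1 : (H.map φ).relIndex (pCore r (S ⧸ K)) ∣ H.index :=
          (Cfsg.Agent.Lib.Helper71.relIndex_dvd_index_of_normal_right _ _).trans
            (Subgroup.index_map_dvd H hφs)
        have h2 : (H.map φ).relIndex (pCore r (S ⧸ K)) ∣ Nat.card (pCore r (S ⧸ K)) :=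
          Subgroup.relIndex_dvd_card _ _
        obtain ⟨k, hk⟩ := IsPGroup.iff_card.1 (Cfsg.Agent.Lib.Helper1.pCore_isPGroup (G := S ⧸ K) r)
        rw [hk] at h2
        obtain ⟨j, -, hj⟩ := (Nat.dvd_prime_pow hr).1 h2
        rcases Nat.eq_zero_or_pos j with h0 | h0
        · rw [hj, h0, pow_zero]
        · exfalso
          apply hH.2 r hr hrπ
          refine dvd_trans ?_ h1
          rw [hj]
          exact dvd_pow_self r h0.ne'
      intro x hx
      obtain ⟨h, hh, rfl⟩ := hRH hx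
      refine ⟨h, ?_, rfl⟩
      refine ⟨⟨h, hh⟩, ?_, rfl⟩
      have hinj : Function.Injective (φ.comp H.subtype) := by
        rw [injective_iff_map_eq_one]
        intro y hy
        exact Subtype.ext (hker y y.2 hy)
      have hNp : IsPGroup r ((pCore r (S ⧸ K)).comap (φ.comp H.subtype)) :=
        (Cfsg.Agent.Lib.Helper1.pCore_isPGroup (G := S ⧸ K) r).comap_of_injective _ hinj
      have hNle : (pCore r (S ⧸ K)).comap (φ.comp H.subtype) ≤ fittingSubgroup H :=
        (Cfsg.Agent.Lib.Helper1.le_pCore inferInstance hNp).trans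
          (Cfsg.Agent.Lib.Helper1.pCore_le_fittingSubgroup r)
      exact hNle hx
    · rw [hcoreBot r hr hrπ]; exact bot_le
  have hst : ∀ r : ℕ, r.Prime → pCore r (S ⧸ K) ≠ ⊥ → 5 ≤ r := by
    intro r hr hne
    have hrπ : r ∈ π := by
      by_contra h
      exact hne (hcoreBot r hr h)
    by_contra hlt
    push Not at hlt
    interval_cases r
    · exact absurd hr (by norm_num)
    · exact absurd hr (by norm_num)
    · exact h2 hrπ
    · exact h3 hrπ
    · exact absurd hr (by norm_num)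
  have hn : F.map φ ≤ Subgroup.normalizer ((A.map φ : Subgroup (S ⧸ K)) : Set (S ⧸ K)) :=
    (Subgroup.map_mono hFn).trans (Subgroup.le_normalizer_map φ)
  have hc : F.map φ ⊓ Subgroup.centralizer ((A.map φ : Subgroup (S ⧸ K)) : Set (S ⧸ K)) ≤ A.map φ := by
    rintro _ ⟨⟨x, hx, rfl⟩, hxc⟩
    refine ⟨x, ?_, rfl⟩
    rw [← hFc]
    refine ⟨hx, ?_⟩
    change x ∈ Subgroup.centralizer (A : Set S)
    replace hxc : φ x ∈ Subgroup.centralizer ((A.map φ : Subgroup (S ⧸ K)) : Set (S ⧸ K)) := hxc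
    rw [Subgroup.mem_centralizer_iff]
    intro a ha
    have h1 : x * a * x⁻¹ ∈ A := (Subgroup.mem_normalizer_iff.mp (hFn hx) a).mp ha
    have h4 : x * a * x⁻¹ * a⁻¹ ∈ H := hFH (hAF (A.mul_mem h1 (A.inv_mem ha)))
    have h5 : φ (x * a * x⁻¹ * a⁻¹) = 1 := by
      have := (Subgroup.mem_centralizer_iff.mp hxc) (φ a) ⟨a, ha, rfl⟩
      simp only [map_mul, map_inv]
      rw [← this]; group
    have h6 := hker _ h4 h5
    calc a * x = (x * a * x⁻¹ * a⁻¹)⁻¹ * (x * a) := by group
      _ = x * a := by rw [h6]; simp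
  have main := Cfsg.Agent.Lib.Helper2.centralizer_le_of_scn (F.map φ) (A.map φ) hcoreLe hst hn hc
  have hAC : A ≤ Subgroup.centralizer (A : Set S) := by
    intro a ha
    rw [← hFc] at ha
    exact ha.2
  refine ⟨K ⊓ Subgroup.centralizer (A : Set S), inf_le_right, ?_, ?_, ?_, ?_⟩
  · intro c hc d hd
    refine ⟨?_, Subgroup.mul_mem _ (Subgroup.mul_mem _ hc hd.2) (Subgroup.inv_mem _ hc)⟩
    exact (inferInstance : K.Normal).conj_mem d hd.1 c
  · rw [eq_bot_iff, ← hHK]
    exact le_inf (inf_le_left.trans (hAF.trans hFH)) (inf_le_right.trans inf_le_left)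
  · apply le_antisymm (sup_le hAC inf_le_right)
    intro c hcA
    have h1 : φ c ∈ A.map φ := by
      apply main
      rw [Subgroup.mem_centralizer_iff]
      rintro _ ⟨a, ha, rfl⟩
      rw [← map_mul, ← map_mul, (Subgroup.mem_centralizer_iff.mp hcA) a ha]
    obtain ⟨a, ha, hac⟩ := h1
    have h4 : a⁻¹ * c ∈ K := by
      rw [← QuotientGroup.eq_one_iff]
      change φ (a⁻¹ * c) = 1
      rw [map_mul, map_inv, hac]; group
    have h5 : c = a * (a⁻¹ * c) := by group
    rw [h5]
    exact Subgroup.mul_mem_sup ha ⟨h4, Subgroup.mul_mem _ (Subgroup.inv_mem _ (hAC ha)) hcA⟩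
  · intro q hq hqd
    exact hKprimes q hq (hqd.trans (Subgroup.card_dvd_of_le inf_le_left))

end Cfsg.Agent.S1893
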