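import Cfsg.Statements.S1894
import Cfsg.Agent.Lib.Helper32.PGroupNormal

set_option autoImplicit false
open Cfsg

namespace Cfsg.Agent.S1894

open Cfsg.Agent.Lib.Helper32

/-- Let P be a finite p-group, A a normal subgroup of P and B an abelian subgroup of A that is normal in P. Then some subgroup C of A containing B is normal in P and is self-centralizing and normal in A (C ∈ SCN(A)). -/
theorem result {P : Type*} [Group P] [Finite P] {p : ℕ} [Fact p.Prime] (hP : IsPGroup p P)
    (A : Subgroup P) [A.Normal] (B : Subgroup P) [B.Normal] (hBA : B ≤ A) (hB : IsMulCommutative B) :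
    ∃ C : Subgroup P, C.Normal ∧ B ≤ C ∧ Cfsg.IsSCN A C := by
  have hnil : Group.IsNilpotent P := hP.isNilpotent
  let 𝒮 : Set (Subgroup P) := {C | C.Normal ∧ B ≤ C ∧ C ≤ A ∧ IsMulCommutative C}
  have hne : 𝒮.Nonempty := ⟨B, inferInstance, le_rfl, hBA, hB⟩
  obtain ⟨C, hC⟩ := (Set.toFinite 𝒮).exists_maximal hne
  obtain ⟨hCn, hBC, hCA, hCc⟩ := hC.prop
  refine ⟨C, hCn, hBC, hCA, ?_, ?_⟩
  · intro a _
    exact (Subgroup.normalizer_eq_top_iff.mpr hCn) ▸ Subgroup.mem_top a
  · have hle : C ≤ A ⊓ Subgroup.centralizer (C : Set P) :=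
      le_inf hCA (Subgroup.le_centralizer_iff_isMulCommutative.mpr hCc)
    by_contra hne'
    have hlt : C < A ⊓ Subgroup.centralizer (C : Set P) := lt_of_le_of_ne hle (Ne.symm hne')
    have hZn : (A ⊓ Subgroup.centralizer (C : Set P)).Normal := inferInstance
    obtain ⟨x, hxZ, hxC, hx⟩ := exists_central_mod_of_lt hlt
    have hD : (C ⊔ Subgroup.zpowers x) ∈ 𝒮 := by
      refine ⟨normal_sup_zpowers hx, hBC.trans le_sup_left, sup_le hCA ?_,
        isMulCommutative_sup_zpowers hCc hxZ.2⟩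
      rw [Subgroup.zpowers_le]; exact hxZ.1
    have := hC.le_of_ge hD le_sup_left
    exact hxC (this (Subgroup.mem_sup_right (Subgroup.mem_zpowers x)))

end Cfsg.Agent.S1894
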