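import Cfsg.Statements.S1899
-- import your own Cfsg.Agent.* helpers here

set_option autoImplicit false
open Cfsg

namespace Cfsg.Agent.S1899

/-- Let a dihedral group of order 2n, n odd and n > 1, act on a finite abelian 2-group A through automorphisms d and t with d^n = 1, t² = 1 and t d t⁻¹ = d⁻¹, and suppose that d fixes only the identity. Then A is the internal direct product of C_A(t) and its image under d. -/
theorem result {A : Type*} [CommGroup A] [Finite A] (hA : IsPGroup 2 A)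
    {n : ℕ} (hn : Odd n) (hn1 : 1 < n) (d t : MulAut A) (hd : d ^ n = 1) (ht : t ^ 2 = 1) (hdt : t * d * t⁻¹ = d⁻¹)
    (hfix : ∀ a : A, d a = a → a = 1) :
    (MulEquiv.toMonoidHom t).eqLocus (MonoidHom.id A) ⊓ ((MulEquiv.toMonoidHom t).eqLocus (MonoidHom.id A)).map d.toMonoidHom = ⊥ ∧
      (MulEquiv.toMonoidHom t).eqLocus (MonoidHom.id A) ⊔ ((MulEquiv.toMonoidHom t).eqLocus (MonoidHom.id A)).map d.toMonoidHom = ⊤ := by
  have htt : ∀ a : A, t (t a) = a := by
    intro a
    have := congrArg (fun f : MulAut A => f a) ht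
    simpa [pow_two, MulAut.mul_apply] using this
  have h0 : t * d = d⁻¹ * t := by
    rw [← hdt]; group
  have h1 : ∀ a : A, t (d a) = d⁻¹ (t a) := by
    intro a
    have := congrArg (fun f : MulAut A => f a) h0
    simpa [MulAut.mul_apply] using this
  have h2 : ∀ a : A, t (d⁻¹ a) = d (t a) := by
    intro a
    have := h1 (d⁻¹ a)
    rw [MulAut.apply_inv_self] at this
    rw [this, MulAut.apply_inv_self]
  -- d² x = x → x = 1
  have hsq : ∀ x : A, d (d x) = x → x = 1 := by
    intro x hx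
    apply hfix
    obtain ⟨k, rfl⟩ := hn
    have hk : ∀ j : ℕ, (d ^ (2 * j)) x = x := by
      intro j
      induction j with
      | zero => simp
      | succ j ih =>
        have : d ^ (2 * (j + 1)) = d ^ (2 * j) * (d * d) := by
          rw [← pow_two, ← pow_add]; ring_nf
        rw [this, MulAut.mul_apply, MulAut.mul_apply, hx, ih]
    have := congrArg (fun f : MulAut A => f x) hd
    simp only [pow_succ, MulAut.mul_apply, MulAut.one_apply] at this
    have h3 : (d ^ (2 * k)) (d x) = d ((d ^ (2 * k)) x) := by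
      rw [← MulAut.mul_apply, ← MulAut.mul_apply, ← pow_succ, ← pow_succ']
    rw [h3, hk] at this
    exact this
  constructor
  · rw [eq_bot_iff]
    intro x hx
    rw [Subgroup.mem_inf] at hx
    obtain ⟨hx1, hx2⟩ := hx
    rw [Subgroup.mem_map] at hx2
    obtain ⟨c, hc, hcx⟩ := hx2
    have hx1' : t x = x := hx1
    have hc' : t c = c := hc
    have hcx' : d c = x := hcx
    rw [Subgroup.mem_bot]
    apply hsq
    have e1 : x = d⁻¹ c := by
      rw [← hx1', ← hcx', h1, hc']
    have e2 : d x = c := by rw [e1, MulAut.apply_inv_self]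
    rw [e2, hcx']
  · rw [eq_top_iff]
    intro a _
    -- the hom y ↦ y * (d⁻² y)⁻¹
    let f : A →* A :=
      { toFun := fun y => y * (d⁻¹ (d⁻¹ y))⁻¹
        map_one' := by simp
        map_mul' := by
          intro u v
          simp only [map_mul, mul_inv]
          exact mul_mul_mul_comm _ _ _ _ }
    have hinj : Function.Injective f := by
      rw [injective_iff_map_eq_one]
      intro y hy
      have hy' : y * (d⁻¹ (d⁻¹ y))⁻¹ = 1 := hy
      apply hsq
      have : y = d⁻¹ (d⁻¹ y) := by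
        rwa [mul_inv_eq_one] at hy'
      conv_lhs => rw [this]
      rw [MulAut.apply_inv_self, MulAut.apply_inv_self]
    have hsurj : Function.Surjective f := Finite.surjective_of_injective hinj
    obtain ⟨y, hy⟩ := hsurj a
    have hy' : y * (d⁻¹ (d⁻¹ y))⁻¹ = a := hy
    have hb : (d⁻¹ (d⁻¹ y))⁻¹ * (t (d⁻¹ (d⁻¹ y)))⁻¹ ∈ (MulEquiv.toMonoidHom t).eqLocus (MonoidHom.id A) := by
      show t ((d⁻¹ (d⁻¹ y))⁻¹ * (t (d⁻¹ (d⁻¹ y)))⁻¹) = (d⁻¹ (d⁻¹ y))⁻¹ * (t (d⁻¹ (d⁻¹ y)))⁻¹
      rw [map_mul, map_inv, map_inv, htt, mul_comm]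
    have hc : d⁻¹ y * d (t y) ∈ (MulEquiv.toMonoidHom t).eqLocus (MonoidHom.id A) := by
      show t (d⁻¹ y * d (t y)) = d⁻¹ y * d (t y)
      rw [map_mul, h2, h1, htt, mul_comm]
    have hdc : d (d⁻¹ y * d (t y)) ∈ ((MulEquiv.toMonoidHom t).eqLocus (MonoidHom.id A)).map d.toMonoidHom :=
      Subgroup.mem_map_of_mem _ hc
    have key : a = ((d⁻¹ (d⁻¹ y))⁻¹ * (t (d⁻¹ (d⁻¹ y)))⁻¹) * d (d⁻¹ y * d (t y)) := by
      rw [map_mul, MulAut.apply_inv_self, h2, h2, ← hy']
      have : ∀ u v w : A, u * v⁻¹ = v⁻¹ * w⁻¹ * (u * w) := by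
        intro u v w
        rw [mul_comm u w, mul_assoc, inv_mul_cancel_left, mul_comm]
      exact this _ _ _
    rw [key]
    exact Subgroup.mul_mem_sup hb hdc

end Cfsg.Agent.S1899
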