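import Cfsg.Statements.S1900
import Cfsg.Agent.Lib.Helper32.Subnormal
import Cfsg.Agent.Lib.Helper32.OddPerm
import Cfsg.Agent.Lib.Helper52.Commutators
import Cfsg.Agent.Lib.Helper91.Fitting
import Cfsg.Agent.S0026
import Cfsg.Agent.S1324

set_option autoImplicit false
open Cfsg

namespace Cfsg.Agent.S1900

/-- Three subgroups lemma modulo a normal subgroup. -/
theorem commutator_commutator_le_of_rotate {G : Type*} [Group G] {H₁ H₂ H₃ M : Subgroup G} [M.Normal]
    (h1 : ⁅⁅H₂, H₃⁆, H₁⁆ ≤ M) (h2 : ⁅⁅H₃, H₁⁆, H₂⁆ ≤ M) : ⁅⁅H₁, H₂⁆, H₃⁆ ≤ M := by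
  have e : ∀ A B C : Subgroup G, ⁅⁅A, B⁆, C⁆ ≤ M ↔
      ⁅⁅A.map (QuotientGroup.mk' M), B.map (QuotientGroup.mk' M)⁆, C.map (QuotientGroup.mk' M)⁆ = ⊥ := by
    intro A B C
    rw [← Subgroup.map_commutator, ← Subgroup.map_commutator, Subgroup.map_eq_bot_iff,
      QuotientGroup.ker_mk']
  rw [e] at h1 h2 ⊢
  exact Subgroup.commutator_commutator_eq_bot_of_rotate h1 h2

theorem commutator_le_of_step {G : Type*} [Group G] {Ca Cb Xa M : Subgroup G} [M.Normal]
    (h1 : ⁅⁅Ca, Cb⁆, Xa⁆ ≤ M) (h2 : ⁅Xa, Ca⁆ = ⊥) (h3 : ⁅Cb, Xa⁆ = Cb) : ⁅Ca, Cb⁆ ≤ M := by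
  have h := commutator_commutator_le_of_rotate (H₁ := Cb) (H₂ := Xa) (H₃ := Ca) (M := M)
    (by rw [h2, Subgroup.commutator_bot_left]; exact bot_le) h1
  rw [h3, Subgroup.commutator_comm] at h
  exact h

/-- Let S = PQ be a finite group with P a normal Sylow p-subgroup and Q elementary abelian of order q², q a prime different from p. If exactly two subgroups X₁, X₂ of order q in Q have a nontrivial centralizer in P, then P is the internal direct product of C_P(X₁) and C_P(X₂): they commute elementwise, meet trivially and generate P. -/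
theorem result {S : Type*} [Group S] [Finite S] {p q : ℕ} [Fact p.Prime] [Fact q.Prime] (hpq : p ≠ q)
    (P : Sylow p S) [(P : Subgroup S).Normal] (Q : Subgroup S) (hQ : Cfsg.IsElementaryAbelian q Q) (hQc : Nat.card Q = q ^ 2)
    (hS : (P : Subgroup S) ⊔ Q = ⊤)
    (X₁ X₂ : Subgroup S) (h₁ : X₁ ≤ Q) (h₂ : X₂ ≤ Q) (h₁₂ : X₁ ≠ X₂) (hc₁ : Nat.card X₁ = q) (hc₂ : Nat.card X₂ = q)
    (hf₁ : (P : Subgroup S) ⊓ Subgroup.centralizer (X₁ : Set S) ≠ ⊥)
    (hf₂ : (P : Subgroup S) ⊓ Subgroup.centralizer (X₂ : Set S) ≠ ⊥)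
    (honly : ∀ X : Subgroup S, X ≤ Q → Nat.card X = q →
      (P : Subgroup S) ⊓ Subgroup.centralizer (X : Set S) ≠ ⊥ → X = X₁ ∨ X = X₂) :
    ⁅(P : Subgroup S) ⊓ Subgroup.centralizer (X₁ : Set S), (P : Subgroup S) ⊓ Subgroup.centralizer (X₂ : Set S)⁆ = ⊥ ∧
      ((P : Subgroup S) ⊓ Subgroup.centralizer (X₁ : Set S)) ⊓ ((P : Subgroup S) ⊓ Subgroup.centralizer (X₂ : Set S)) = ⊥ ∧
      ((P : Subgroup S) ⊓ Subgroup.centralizer (X₁ : Set S)) ⊔ ((P : Subgroup S) ⊓ Subgroup.centralizer (X₂ : Set S)) = P := by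
  classical
  have hp : p.Prime := Fact.out
  have hq : q.Prime := Fact.out
  set P' : Subgroup S := (P : Subgroup S) with hP'
  have hPn : P'.Normal := inferInstance
  have hPp : IsPGroup p P' := P.2
  have hQcomm : ∀ x ∈ Q, ∀ y ∈ Q, x * y = y * x := by
    intro x hx y hy
    have := hQ.1
    exact congrArg Subtype.val (mul_comm' (⟨x, hx⟩ : Q) ⟨y, hy⟩)
  -- orders of subgroups of `P` are prime to `q`
  have hcardM : ∀ M : Subgroup S, M ≤ P' → (Nat.card M).Coprime q := by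
    intro M hM
    obtain ⟨k, hk⟩ := IsPGroup.iff_card.mp (hPp.to_le hM)
    rw [hk]
    exact Nat.Coprime.pow_left _ ((Nat.coprime_primes hp hq).mpr hpq)
  -- `Q` normalizes `M ∩ C(X)` for `M` normal and `X ≤ Q`
  have hQnorm : ∀ (M X : Subgroup S), M.Normal → X ≤ Q →
      Q ≤ Subgroup.normalizer ((M ⊓ Subgroup.centralizer (X : Set S) : Subgroup S) : Set S) := by
    intro M X hM hX
    apply Cfsg.Agent.Lib.Helper32.le_normalizer_of_conj_mem
    intro y hy m hm
    refine ⟨hM.conj_mem m hm.1 y, ?_⟩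
    show y * m * y⁻¹ ∈ Subgroup.centralizer (X : Set S)
    rw [Subgroup.mem_centralizer_iff]
    intro x hx
    have h1 : x * m = m * x := (Subgroup.mem_centralizer_iff.mp hm.2) x hx
    have h2 : x * y = y * x := hQcomm x (hX hx) y hy
    have h3 : x * y⁻¹ = y⁻¹ * x := hQcomm x (hX hx) y⁻¹ (Q.inv_mem hy)
    calc x * (y * m * y⁻¹) = (x * y) * m * y⁻¹ := by group
      _ = y * (x * m) * y⁻¹ := by rw [h2]; group
      _ = y * m * (x * y⁻¹) := by rw [h1]; group
      _ = y * m * y⁻¹ * x := by rw [h3]; group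
  -- generation
  have hgen : ∀ M : Subgroup S, M.Normal → M ≤ P' →
      M ≤ (M ⊓ Subgroup.centralizer (X₁ : Set S)) ⊔ (M ⊓ Subgroup.centralizer (X₂ : Set S)) := by
    intro M hMn hM
    have hMq : ¬ q ∣ Nat.card M := by
      rw [← Nat.Prime.coprime_iff_not_dvd hq, Nat.coprime_comm]; exact hcardM M hM
    have h := Cfsg.Agent.S1324.result q Q M hQ (by rw [hQc]) hMq
      (by rw [Subgroup.normalizer_eq_top_iff.mpr hMn]; exact le_top)
    conv_lhs => rw [h]
    refine iSup_le ?_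
    rintro ⟨B, hBQ, hBi⟩
    show M ⊓ Subgroup.centralizer (B : Set S) ≤ _
    have hmul : B.relIndex Q * Nat.card B = Nat.card Q := by
      rw [mul_comm]; exact Cfsg.Agent.Lib.Helper32.card_mul_relIndex hBQ
    have hdvd : B.relIndex Q ∣ q ^ 2 := by rw [← hQc, ← hmul]; exact dvd_mul_right _ _
    obtain ⟨k, hk2, hk⟩ := (Nat.dvd_prime_pow hq).mp hdvd
    have hk1 : k ≤ 1 := by
      by_contra hcon
      have hk2' : k = 2 := by omega
      rw [hk, hk2'] at hBi
      have : q < q ^ 2 := by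
        have := hq.two_le
        nlinarith
      omega
    interval_cases k
    · -- `B = Q`
      rw [pow_zero] at hk
      have hQB : Q ≤ B := Subgroup.relIndex_eq_one.mp hk
      refine le_trans ?_ le_sup_left
      exact inf_le_inf_left _ (Subgroup.centralizer_le (h₁.trans hQB))
    · rw [pow_one] at hk
      have hBc : Nat.card B = q := by
        rw [hk, hQc, pow_two] at hmul
        exact Nat.eq_of_mul_eq_mul_left hq.pos hmul
      by_cases hB : P' ⊓ Subgroup.centralizer (B : Set S) = ⊥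
      · have : M ⊓ Subgroup.centralizer (B : Set S) ≤ ⊥ := by
          rw [← hB]; exact inf_le_inf_right _ hM
        exact this.trans bot_le
      · rcases honly B hBQ hBc hB with rfl | rfl
        · exact le_sup_left
        · exact le_sup_right
  -- a third subgroup of order `q`
  have hinf : (P' ⊓ Subgroup.centralizer (X₁ : Set S)) ⊓ (P' ⊓ Subgroup.centralizer (X₂ : Set S)) = ⊥ := by
    have hex : ∀ X : Subgroup S, Nat.card X = q → ∃ a ∈ X, X = Subgroup.zpowers a := by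
      intro X hX
      have : Fact (Nat.card X).Prime := ⟨hX ▸ hq⟩
      have hcyc : IsCyclic X := isCyclic_of_prime_card rfl
      obtain ⟨g, hg⟩ := hcyc.exists_generator
      refine ⟨g, g.2, ?_⟩
      ext x
      constructor
      · intro hx
        obtain ⟨k, hk⟩ := Subgroup.mem_zpowers_iff.mp (hg ⟨x, hx⟩)
        rw [Subgroup.mem_zpowers_iff]
        exact ⟨k, by simpa using congrArg Subtype.val hk⟩
      · intro hx
        exact (Subgroup.zpowers_le.mpr g.2) hx
    obtain ⟨a, ha, hXa⟩ := hex X₁ hc₁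
    obtain ⟨b, hb, hXb⟩ := hex X₂ hc₂
    have hle_eq : ∀ X Y : Subgroup S, Nat.card X = q → Nat.card Y = q → X ≤ Y → X = Y := by
      intro X Y hX hY hXY
      exact Subgroup.eq_of_le_of_card_ge hXY (by rw [hX, hY])
    have hbX₁ : b ∉ X₁ := by
      intro h
      apply h₁₂
      exact (hle_eq X₂ X₁ hc₂ hc₁ (by rw [hXb, Subgroup.zpowers_le]; exact h)).symm
    have haX₂ : a ∉ X₂ := by
      intro h
      apply h₁₂
      exact hle_eq X₁ X₂ hc₁ hc₂ (by rw [hXa, Subgroup.zpowers_le]; exact h)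
    have habQ : a * b ∈ Q := Q.mul_mem (h₁ ha) (h₂ hb)
    have hab1 : a * b ≠ 1 := by
      intro h
      apply hbX₁
      have : b = a⁻¹ := by rw [eq_inv_iff_mul_eq_one, hQcomm b (h₂ hb) a (h₁ ha)]; exact h
      rw [this]; exact X₁.inv_mem ha
    have hord : orderOf (a * b) = q := orderOf_eq_prime (hQ.2 _ habQ) hab1
    have hc₃ : Nat.card (Subgroup.zpowers (a * b)) = q := by rw [Nat.card_zpowers, hord]
    have h₃ : Subgroup.zpowers (a * b) ≤ Q := by rw [Subgroup.zpowers_le]; exact habQ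
    have hbot : P' ⊓ Subgroup.centralizer ((Subgroup.zpowers (a * b) : Subgroup S) : Set S) = ⊥ := by
      by_contra hne
      rcases honly _ h₃ hc₃ hne with h | h
      · apply hbX₁
        have h1 : a * b ∈ X₁ := h ▸ Subgroup.mem_zpowers (a * b)
        have : b = a⁻¹ * (a * b) := by group
        rw [this]; exact X₁.mul_mem (X₁.inv_mem ha) h1
      · apply haX₂
        have h1 : a * b ∈ X₂ := h ▸ Subgroup.mem_zpowers (a * b)
        have : a = (a * b) * b⁻¹ := by group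
        rw [this]; exact X₂.mul_mem h1 (X₂.inv_mem hb)
    rw [eq_bot_iff, ← hbot]
    rintro x ⟨⟨hxP, hx1⟩, ⟨_, hx2⟩⟩
    refine ⟨hxP, ?_⟩
    have e1 : a * x = x * a := (Subgroup.mem_centralizer_iff.mp hx1) a ha
    have e2 : b * x = x * b := (Subgroup.mem_centralizer_iff.mp hx2) b hb
    have hle : Subgroup.zpowers (a * b) ≤ Subgroup.centralizer ({x} : Set S) := by
      rw [Subgroup.zpowers_le, Subgroup.mem_centralizer_singleton_iff]
      calc a * b * x = a * (b * x) := by group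
        _ = (a * x) * b := by rw [e2]; group
        _ = x * (a * b) := by rw [e1]; group
    show x ∈ Subgroup.centralizer ((Subgroup.zpowers (a * b) : Subgroup S) : Set S)
    rw [Subgroup.mem_centralizer_iff]
    intro y hy
    exact Subgroup.mem_centralizer_singleton_iff.mp (hle hy)
  set C₁ := P' ⊓ Subgroup.centralizer (X₁ : Set S) with hC₁
  set C₂ := P' ⊓ Subgroup.centralizer (X₂ : Set S) with hC₂
  have hsup : C₁ ⊔ C₂ = P' := le_antisymm (sup_le inf_le_left inf_le_left) (hgen P' hPn le_rfl)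
  refine ⟨?_, hinf, hsup⟩
  -- `[C₂, X₁] = C₂` and `[C₁, X₂] = C₁`
  have hfull : ∀ (X Y : Subgroup S), X ≤ Q → Y ≤ Q → Nat.card X = q →
      (P' ⊓ Subgroup.centralizer (Y : Set S)) ⊓ (P' ⊓ Subgroup.centralizer (X : Set S)) = ⊥ →
      ⁅P' ⊓ Subgroup.centralizer (Y : Set S), X⁆ = P' ⊓ Subgroup.centralizer (Y : Set S) := by
    intro X Y hX hY hXc hdis
    have h := Cfsg.Agent.S0026.result X (P' ⊓ Subgroup.centralizer (Y : Set S))
      (hX.trans (hQnorm P' Y hPn hY))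
      (by rw [hXc]; exact (hcardM _ inf_le_left).symm)
      (Or.inl (by
        have : Fact (Nat.card X).Prime := ⟨hXc ▸ hq⟩
        have hcyc : IsCyclic X := isCyclic_of_prime_card rfl
        infer_instance))
    have h2 : (P' ⊓ Subgroup.centralizer (Y : Set S)) ⊓ Subgroup.centralizer (X : Set S) = ⊥ := by
      rw [eq_bot_iff, ← hdis]
      intro x hx
      exact ⟨hx.1, hx.1.1, hx.2⟩
    rw [h2, sup_bot_eq] at h
    exact h
  have hf21 : ⁅C₂, X₁⁆ = C₂ := hfull X₁ X₂ h₁ h₂ hc₁ (by rw [inf_comm]; exact hinf)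
  have hf12 : ⁅C₁, X₂⁆ = C₁ := hfull X₂ X₁ h₂ h₁ hc₂ hinf
  have hX1C1 : ⁅X₁, C₁⁆ = ⊥ := by
    rw [Subgroup.commutator_comm, Subgroup.commutator_eq_bot_iff_le_centralizer]; exact inf_le_right
  have hX2C2 : ⁅X₂, C₂⁆ = ⊥ := by
    rw [Subgroup.commutator_comm, Subgroup.commutator_eq_bot_iff_le_centralizer]; exact inf_le_right
  -- minimal normal subgroup containing the commutator
  have hDP : ⁅C₁, C₂⁆ ≤ P' :=
    (Subgroup.commutator_mono (inf_le_left : C₁ ≤ P') (inf_le_left : C₂ ≤ P')).trans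
      (Subgroup.commutator_le_left _ _)
  obtain ⟨M, hMmin⟩ := Set.Finite.exists_minimal
    (s := {M : Subgroup S | M.Normal ∧ M ≤ P' ∧ ⁅C₁, C₂⁆ ≤ M}) (Set.toFinite _) ⟨P', hPn, le_rfl, hDP⟩
  obtain ⟨hMn, hMP, hDM⟩ := hMmin.1
  by_cases hM : M = ⊥
  · rw [eq_bot_iff, ← hM]; exact hDM
  exfalso
  set M₀ := ⁅M, P'⁆ with hM₀
  have hM₀n : M₀.Normal := inferInstance
  have hM₀M : M₀ ≤ M := Subgroup.commutator_le_left _ _
  have hM₀ne : M₀ ≠ M := Cfsg.Agent.Lib.Helper52.commutator_ne_of_isPGroup p (hPp.to_le hMP) hPp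
    (by rw [Subgroup.normalizer_eq_top_iff.mpr hMn]; exact le_top) hM
  set M₂ := (M ⊓ Subgroup.centralizer (X₂ : Set S)) ⊔ M₀ with hM₂
  have hM₂M : M₂ ≤ M := sup_le inf_le_left hM₀M
  have hM₂n : M₂.Normal := by
    rw [← Subgroup.normalizer_eq_top_iff, eq_top_iff, ← hS]
    apply sup_le
    · apply Cfsg.Agent.Lib.Helper32.le_normalizer_of_conj_mem
      intro g hg m hm
      have e : g * m * g⁻¹ = (m * g * m⁻¹ * g⁻¹)⁻¹ * m := by group
      rw [e]
      refine M₂.mul_mem (M₂.inv_mem (Subgroup.mem_sup_right ?_)) hm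
      have := Subgroup.commutator_mem_commutator (hM₂M hm) hg
      rwa [commutatorElement_def] at this
    · apply Cfsg.Agent.Lib.Helper32.le_normalizer_sup (hQnorm M X₂ hMn h₂)
      rw [Subgroup.normalizer_eq_top_iff.mpr hM₀n]; exact le_top
  by_cases hcase : M₂ = M
  · -- `[M, X₂] ≤ M₀`
    have h1 : ⁅M, X₂⁆ ≤ M₀ := by
      conv_lhs => rw [← hcase, hM₂]
      apply Cfsg.Agent.Lib.Helper91.sup_commutator_le
      · have : ⁅M ⊓ Subgroup.centralizer (X₂ : Set S), X₂⁆ = ⊥ := by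
          rw [Subgroup.commutator_eq_bot_iff_le_centralizer]; exact inf_le_right
        rw [this]; exact bot_le
      · exact Subgroup.commutator_le_left _ _
    have h2 : ⁅⁅C₂, C₁⁆, X₂⁆ ≤ M₀ := by
      rw [Subgroup.commutator_comm C₂ C₁]
      exact (Subgroup.commutator_mono hDM le_rfl).trans h1
    have h3 : ⁅C₂, C₁⁆ ≤ M₀ := commutator_le_of_step h2 hX2C2 hf12
    rw [Subgroup.commutator_comm] at h3
    exact hM₀ne (le_antisymm hM₀M (hMmin.2 ⟨hM₀n, hM₀M.trans hMP, h3⟩ hM₀M))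
  · have h1 : ⁅M, X₁⁆ ≤ M₂ := by
      have hle : M ≤ (M ⊓ Subgroup.centralizer (X₁ : Set S)) ⊔ M₂ :=
        (hgen M hMn hMP).trans (sup_le_sup_left le_sup_left _)
      refine (Subgroup.commutator_mono hle le_rfl).trans ?_
      apply Cfsg.Agent.Lib.Helper91.sup_commutator_le
      · have : ⁅M ⊓ Subgroup.centralizer (X₁ : Set S), X₁⁆ = ⊥ := by
          rw [Subgroup.commutator_eq_bot_iff_le_centralizer]; exact inf_le_right
        rw [this]; exact bot_le
      · exact Subgroup.commutator_le_left _ _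
    have h2 : ⁅⁅C₁, C₂⁆, X₁⁆ ≤ M₂ := (Subgroup.commutator_mono hDM le_rfl).trans h1
    have h3 : ⁅C₁, C₂⁆ ≤ M₂ := commutator_le_of_step h2 hX1C1 hf21
    exact hcase (le_antisymm hM₂M (hMmin.2 ⟨hM₂n, hM₂M.trans hMP, h3⟩ hM₂M))

end Cfsg.Agent.S1900
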