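import Cfsg.Statements.S1901
import Cfsg.Agent.Lib.Helper32.Basic

set_option autoImplicit false
open Cfsg

namespace Cfsg.Agent.S1901

open Cfsg.Agent.Lib.Helper32

/-- Key step: a `p`-element normalizing `Q` centralizes `Q`. -/
theorem key {G : Type*} [Group G] [Finite G] {p : ℕ} [Fact p.Prime]
    (hG : Cfsg.IsPSolvable p G) (Q : Subgroup G) (hQ : ¬ p ∣ Nat.card Q)
    (P : Sylow p G) (hQP : Q ≤ Subgroup.normalizer ((P : Subgroup G) : Set G))
    (x : G) (hxQ : x ∈ Subgroup.normalizer (Q : Set G)) (a : ℕ) (hxp : x ^ (p ^ a) = 1) :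
    ∀ q ∈ Q, x * q * x⁻¹ = q := by
  obtain ⟨n, H, h0, hlast, hmono, hnorm, hstep⟩ := hG
  have hpQ : ∀ b : ℕ, Nat.Coprime (p ^ b) (Nat.card Q) := fun b =>
    Nat.Coprime.pow_left b ((Nat.Prime.coprime_iff_not_dvd Fact.out).mpr hQ)
  have hQpow : ∀ c ∈ Q, c ^ (Nat.card Q) = 1 := by
    intro c hc
    have h1 : (⟨c, hc⟩ : Q) ^ (Nat.card Q) = 1 := pow_card_eq_one'
    have h2 := congrArg Subtype.val h1
    rwa [Subgroup.coe_pow, Subgroup.coe_one] at h2
  have hconj : ∀ q ∈ Q, x * q * x⁻¹ ∈ Q := fun q hq => (Subgroup.mem_normalizer_iff.mp hxQ q).mp hq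
  have hconj' : ∀ q ∈ Q, x⁻¹ * q * x ∈ Q := fun q hq => by
    have := (Subgroup.mem_normalizer_iff.mp (Subgroup.inv_mem _ hxQ) q).mp hq
    simpa using this
  have hcQ : ∀ q ∈ Q, q⁻¹ * (x * q * x⁻¹) ∈ Q := fun q hq => Q.mul_mem (Q.inv_mem hq) (hconj q hq)
  have main : ∀ i : Fin (n + 1), ∀ q ∈ Q, q⁻¹ * (x * q * x⁻¹) ∈ H i := by
    intro i
    induction i using Fin.reverseInduction with
    | last => intro q _; rw [hlast]; trivial
    | cast i ih =>
      have : (H i.castSucc).Normal := hnorm _
      have : (H i.succ).Normal := hnorm _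
      rcases hstep i with ⟨m, hm⟩ | hcop
      · intro q hq
        have h1 := pow_relIndex_mem (H i.castSucc) (H i.succ) (ih q hq)
        rw [hm] at h1
        refine mem_of_pow_mem_coprime (hpQ m) h1 ?_
        rw [hQpow _ (hcQ q hq)]; exact Subgroup.one_mem _
      · set K := H i.castSucc with hK
        set K' := H i.succ with hK'
        -- P ⊓ K' ≤ K
        have hPK : ∀ z ∈ (P : Subgroup G), z ∈ K' → z ∈ K := by
          intro z hzP hzK'
          obtain ⟨b, hb⟩ := (P.2 ⟨z, hzP⟩)
          have hb' : z ^ (p ^ b) = 1 := by simpa using congrArg Subtype.val hb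
          refine mem_of_pow_mem_coprime (Nat.Coprime.pow_right b hcop)
            (pow_relIndex_mem K K' hzK') ?_
          rw [hb']; exact Subgroup.one_mem _
        let Q₁ : Set G := {c | ∃ q ∈ Q, c = q⁻¹ * (x * q * x⁻¹)}
        let π := QuotientGroup.mk' K
        let C : Subgroup G := (Subgroup.centralizer (π '' Q₁)).comap π
        have hmemC : ∀ g : G, g ∈ C ↔ ∀ c ∈ Q₁, c * g * c⁻¹ * g⁻¹ ∈ K := by
          intro g
          constructor
          · intro hg c hc
            have h1 : π c * π g = π g * π c := (Subgroup.mem_centralizer_iff.mp hg) (π c) ⟨c, hc, rfl⟩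
            have h2 : π (c * g * c⁻¹ * g⁻¹) = 1 := by
              rw [map_mul, map_mul, map_mul, h1, map_inv, map_inv]; group
            exact (QuotientGroup.eq_one_iff _).mp h2
          · intro hg
            show π g ∈ Subgroup.centralizer (π '' Q₁)
            rw [Subgroup.mem_centralizer_iff]
            rintro _ ⟨c, hc, rfl⟩
            have h2 : π (c * g * c⁻¹ * g⁻¹) = 1 := (QuotientGroup.eq_one_iff _).mpr (hg c hc)
            rw [map_mul, map_mul, map_mul, map_inv, map_inv] at h2
            calc π c * π g = (π c * π g * (π c)⁻¹ * (π g)⁻¹) * (π g * π c) := by group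
              _ = π g * π c := by rw [h2, one_mul]
        have hPC : (P : Subgroup G) ≤ C := by
          intro y hy
          rw [hmemC]
          rintro c ⟨q, hq, rfl⟩
          set c := q⁻¹ * (x * q * x⁻¹) with hc
          have hcQ' : c ∈ Q := hcQ q hq
          have hcK' : c ∈ K' := ih q hq
          apply hPK
          · have h1 : c * y * c⁻¹ ∈ (P : Subgroup G) :=
              (Subgroup.mem_normalizer_iff.mp (hQP hcQ') y).mp hy
            exact (P : Subgroup G).mul_mem h1 ((P : Subgroup G).inv_mem hy)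
          · have h1 : y * c⁻¹ * y⁻¹ ∈ K' := (hnorm i.succ).conj_mem _ (K'.inv_mem hcK') y
            have : c * y * c⁻¹ * y⁻¹ = c * (y * c⁻¹ * y⁻¹) := by group
            rw [this]; exact K'.mul_mem hcK' h1
        have hxC : x ∈ Subgroup.normalizer (C : Set G) := by
          have hQ₁a : ∀ c ∈ Q₁, x * c * x⁻¹ ∈ Q₁ := by
            rintro c ⟨q, hq, rfl⟩
            exact ⟨x * q * x⁻¹, hconj q hq, by group⟩
          have hQ₁b : ∀ c ∈ Q₁, x⁻¹ * c * x ∈ Q₁ := by
            rintro c ⟨q, hq, rfl⟩
            exact ⟨x⁻¹ * q * x, hconj' q hq, by group⟩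
          rw [Subgroup.mem_normalizer_iff]
          intro g
          rw [hmemC, hmemC]
          constructor
          · intro hg c hc
            have h1 := hg _ (hQ₁b c hc)
            have h2 := (hnorm i.castSucc).conj_mem _ h1 x
            have e : x * (x⁻¹ * c * x * g * (x⁻¹ * c * x)⁻¹ * g⁻¹) * x⁻¹
                = c * (x * g * x⁻¹) * c⁻¹ * (x * g * x⁻¹)⁻¹ := by group
            rw [← e]; exact h2
          · intro hg c hc
            have h1 := hg _ (hQ₁a c hc)
            have h2 := (hnorm i.castSucc).conj_mem _ h1 x⁻¹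
            have e : x⁻¹ * (x * c * x⁻¹ * (x * g * x⁻¹) * (x * c * x⁻¹)⁻¹ * (x * g * x⁻¹)⁻¹) * x⁻¹⁻¹
                = c * g * c⁻¹ * g⁻¹ := by group
            rw [← e]; exact h2
        have hxmem : x ∈ C := mem_of_sylow_le_of_mem_normalizer P C hPC hxC hxp
        intro q hq
        set c := q⁻¹ * (x * q * x⁻¹) with hc
        have hcx : π c * π x = π x * π c :=
          (Subgroup.mem_centralizer_iff.mp hxmem) (π c) ⟨c, ⟨q, hq, rfl⟩, rfl⟩
        have hqx : π x * π q = π q * π c * π x := by
          rw [← map_mul, ← map_mul, ← map_mul, hc]; congr 1; group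
        have hpow : ∀ j : ℕ, (π x) ^ j * π q = π q * (π c) ^ j * (π x) ^ j := by
          intro j
          induction j with
          | zero => simp
          | succ j ihj =>
            have hcomm : Commute (π x) (π c) := hcx.symm
            calc (π x) ^ (j + 1) * π q = π x * ((π x) ^ j * π q) := by rw [pow_succ']; group
              _ = π x * (π q * (π c) ^ j * (π x) ^ j) := by rw [ihj]
              _ = (π x * π q) * (π c) ^ j * (π x) ^ j := by group
              _ = π q * π c * (π x * (π c) ^ j) * (π x) ^ j := by rw [hqx]; group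
              _ = π q * π c * ((π c) ^ j * π x) * (π x) ^ j := by rw [(hcomm.pow_right j).eq]
              _ = π q * (π c) ^ (j + 1) * (π x) ^ (j + 1) := by rw [pow_succ', pow_succ']; group
        have h1 := hpow (p ^ a)
        rw [← map_pow π x, hxp, map_one, one_mul, mul_one] at h1
        have h2 : (π c) ^ (p ^ a) = 1 := by
          exact (mul_eq_left.mp h1.symm)
        have h3 : c ^ (p ^ a) ∈ K := by
          rw [← map_pow] at h2
          exact (QuotientGroup.eq_one_iff _).mp h2
        refine mem_of_pow_mem_coprime (hpQ a) h3 ?_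
        rw [hQpow _ (hcQ q hq)]; exact Subgroup.one_mem _
  intro q hq
  have := main 0 q hq
  rw [h0, Subgroup.mem_bot] at this
  calc x * q * x⁻¹ = q * (q⁻¹ * (x * q * x⁻¹)) := by group
    _ = q := by rw [this, mul_one]

/-- Let G be a finite p-solvable group and Q a subgroup of order prime to p such that p divides the index of C_G(Q) in N_G(Q). Then Q normalizes no Sylow p-subgroup of G. -/
theorem result {G : Type*} [Group G] [Finite G] {p : ℕ} [Fact p.Prime]
    (hG : Cfsg.IsPSolvable p G) (Q : Subgroup G) (hQ : ¬ p ∣ Nat.card Q)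
    (hA : p ∣ (Subgroup.centralizer (Q : Set G)).relIndex (Subgroup.normalizer (Q : Set G)))
    (P : Sylow p G) : ¬ Q ≤ Subgroup.normalizer ((P : Subgroup G) : Set G) := by
  intro hQP
  set N := Subgroup.normalizer (Q : Set G) with hN
  set C := Subgroup.centralizer (Q : Set G) with hC
  have : (C.subgroupOf N).Normal := by
    rw [hC, hN]
    infer_instance
  have hcard : p ∣ Nat.card (N ⧸ C.subgroupOf N) := hA
  obtain ⟨ybar, hy⟩ := exists_prime_orderOf_dvd_card' p hcard
  obtain ⟨y, rfl⟩ := QuotientGroup.mk_surjective ybar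
  obtain ⟨m, a, hm, hma⟩ := exists_pow_isPElement p (y : G)
  have h1 : ∀ q ∈ Q, ((y : G) ^ m) * q * ((y : G) ^ m)⁻¹ = q :=
    key hG Q hQ P hQP ((y : G) ^ m) (N.pow_mem y.2 m) a hma
  have h2 : (y ^ m : N) ∈ C.subgroupOf N := by
    rw [Subgroup.mem_subgroupOf, hC, Subgroup.mem_centralizer_iff]
    intro q hq
    have := h1 q hq
    simp only [Subgroup.coe_pow]
    calc q * (y : G) ^ m = (((y : G) ^ m) * q * ((y : G) ^ m)⁻¹) * (y : G) ^ m := by rw [this]
      _ = (y : G) ^ m * q := by group
  have h3 : (QuotientGroup.mk y : N ⧸ C.subgroupOf N) ^ m = 1 := by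
    rw [← QuotientGroup.mk_pow, QuotientGroup.eq_one_iff]; exact h2
  have h4 := orderOf_dvd_of_pow_eq_one h3
  rw [hy] at h4
  exact hm h4

end Cfsg.Agent.S1901
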