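import Cfsg.Statements.S1905
import Cfsg.Agent.Lib.Helper19.Dihedral
import Cfsg.Agent.Lib.Helper21.Fusion
import Cfsg.Agent.S1225

set_option autoImplicit false
open Cfsg

namespace Cfsg.Agent.S1905

theorem exists_conj_mem_sylow_of_le {S : Type*} [Group S] [Finite S] {p : ℕ} [Fact p.Prime]
    (M : Subgroup S) (X : Sylow p M) (Y : Subgroup S) (hYM : Y ≤ M) (hY : IsPGroup p Y) :
    ∃ m ∈ M, ∀ y ∈ Y, m⁻¹ * y * m ∈ (X : Subgroup M).map M.subtype := by
  have hY' : IsPGroup p (Y.subgroupOf M) := hY.comap_subtype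
  obtain ⟨Q, hQ⟩ := hY'.exists_le_sylow
  obtain ⟨m, rfl⟩ := MulAction.exists_smul_eq M X Q
  refine ⟨m, m.2, fun y hy => ?_⟩
  have h1 : (⟨y, hYM hy⟩ : M) ∈ ((m • X : Sylow p M) : Subgroup M) :=
    hQ (by simpa [Subgroup.mem_subgroupOf] using hy)
  rw [Cfsg.Agent.Lib.Helper21.mem_sylow_smul_iff] at h1
  exact ⟨_, h1, rfl⟩

theorem invol_iff {S : Type*} [Group S] (x : S) : orderOf x = 2 ↔ x ≠ 1 ∧ x * x = 1 := by
  constructor
  · intro h
    refine ⟨fun h1 => ?_, ?_⟩
    · rw [h1, orderOf_one] at h; omega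
    · rw [← pow_two, ← h, pow_orderOf_eq_one]
  · rintro ⟨h1, h2⟩
    exact orderOf_eq_prime (by rw [pow_two]; exact h2) h1

theorem orderOf_conj' {S : Type*} [Group S] (g x : S) : orderOf (g * x * g⁻¹) = orderOf x := by
  have := (MulAut.conj g).orderOf_eq x
  simpa [MulAut.conj_apply] using this

/-- Let M be a subgroup of even order of a finite group S such that M contains the centralizer in S of each of its involutions and the normal core of M in S has odd order. Then all involutions of S are conjugate. If moreover N_S(X) ≤ M for a Sylow 2-subgroup X of M and I is an involution in the centre of X, then all involutions of M are conjugate in M and M = M₀ C_M(I) for some subgroup M₀ of M of odd order. -/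
theorem result {S : Type*} [Group S] [Finite S] (M : Subgroup S) (hM : Even (Nat.card M))
    (hC : ∀ i ∈ M, orderOf i = 2 → Subgroup.centralizer ({i} : Set S) ≤ M) (hcore : Odd (Nat.card M.normalCore)) :
    (∀ x y : S, orderOf x = 2 → orderOf y = 2 → IsConj x y) ∧
      ∀ (X : Sylow 2 M) (I : M), I ∈ (Subgroup.center ↥(X : Subgroup ↥M)).map (X : Subgroup ↥M).subtype → orderOf I = 2 →
        Subgroup.normalizer (((X : Subgroup M).map M.subtype : Subgroup S) : Set S) ≤ M →
        (∀ x y : M, orderOf x = 2 → orderOf y = 2 → IsConj x y) ∧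
          ∃ M₀ : Subgroup M, Odd (Nat.card M₀) ∧
            ∀ m : M, ∃ a ∈ M₀, ∃ c ∈ Subgroup.centralizer ({I} : Set M), m = a * c := by
  classical
  -- an involution of `M`
  obtain ⟨i₀, hi₀⟩ := exists_prime_orderOf_dvd_card' (G := M) 2 (even_iff_two_dvd.mp hM)
  have hi : orderOf (i₀ : S) = 2 := by rw [Subgroup.orderOf_coe]; exact hi₀
  -- no involution lies in the core
  have hnocore : ∀ y : S, orderOf y = 2 → y ∉ M.normalCore := by
    intro y hy hmem
    have h1 : orderOf (⟨y, hmem⟩ : M.normalCore) ∣ Nat.card M.normalCore := orderOf_dvd_natCard _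
    rw [Subgroup.orderOf_mk, hy] at h1
    exact (Nat.not_even_iff_odd.mpr hcore) (even_iff_two_dvd.mpr h1)
  -- an involution not conjugate to an involution `i` of `M` lies in `M`
  have hkey : ∀ i ∈ M, orderOf i = 2 → ∀ y : S, orderOf y = 2 → ¬ IsConj i y → y ∈ M := by
    intro i hiM hi2 y hy hnc
    obtain ⟨hi1, hii⟩ := (invol_iff i).mp hi2
    obtain ⟨hy1, hyy⟩ := (invol_iff y).mp hy
    rcases Nat.even_or_odd (orderOf (i * y)) with he | ho
    · obtain ⟨z, hz1, hzz, hzi, hzy⟩ := Cfsg.Agent.Lib.Helper19.exists_central_invol_of_even hii hyy he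
      have hz2 : orderOf z = 2 := (invol_iff z).mpr ⟨hz1, hzz⟩
      have hzM : z ∈ M := hC i hiM hi2 (Subgroup.mem_centralizer_singleton_iff.mpr hzi)
      exact hC z hzM hz2 (Subgroup.mem_centralizer_singleton_iff.mpr hzy.symm)
    · exfalso
      obtain ⟨w, hww, hw1, _, _⟩ := Cfsg.Agent.Lib.Helper19.exists_invol_swap_of_odd hii hyy ho
      apply hnc
      rw [isConj_iff]
      exact ⟨w, by rw [Cfsg.Agent.Lib.Helper19.invol_inv hww]; exact hw1⟩
  have hconj0 : ∀ y : S, orderOf y = 2 → IsConj (i₀ : S) y := by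
    intro y hy
    by_contra hnc
    apply hnocore y hy
    show ∀ g : S, g * y * g⁻¹ ∈ M
    intro g
    apply hkey i₀ i₀.2 hi _ (by rw [orderOf_conj']; exact hy)
    intro hc
    apply hnc
    exact hc.trans (isConj_iff.mpr ⟨g⁻¹, by group⟩)
  refine ⟨fun x y hx hy => (hconj0 x hx).symm.trans (hconj0 y hy), ?_⟩
  intro X I hI hI2 hN
  set X' : Subgroup S := (X : Subgroup M).map M.subtype with hX'
  have hX'M : X' ≤ M := Subgroup.map_subtype_le _
  have hX'p : IsPGroup 2 X' := X.2.map _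
  have hz2 : orderOf (I : S) = 2 := by rw [Subgroup.orderOf_coe]; exact hI2
  have hzX : ∀ x ∈ X', (I : S) * x = x * (I : S) := by
    rintro _ ⟨x, hx, rfl⟩
    obtain ⟨c, hc, rfl⟩ := hI
    have := Subgroup.mem_center_iff.mp hc ⟨x, hx⟩
    have h2 := congrArg (fun w : (X : Subgroup M) => ((w : M) : S)) this
    simpa using h2.symm
  -- Lemma A
  have hA : ∀ t ∈ M, orderOf t = 2 → ∃ m ∈ M, (m * (I : S) * m⁻¹) * t = t * (m * (I : S) * m⁻¹) := by
    intro t htM ht2
    have hp : IsPGroup 2 (Subgroup.zpowers t) := by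
      apply IsPGroup.of_card (n := 1)
      rw [Nat.card_zpowers, ht2, pow_one]
    obtain ⟨m, hm, h⟩ := exists_conj_mem_sylow_of_le M X (Subgroup.zpowers t)
      (by rw [Subgroup.zpowers_le]; exact htM) hp
    refine ⟨m, hm, ?_⟩
    have h1 := hzX _ (h t (Subgroup.mem_zpowers t))
    calc m * (I : S) * m⁻¹ * t = m * ((I : S) * (m⁻¹ * t * m)) * m⁻¹ := by group
      _ = m * ((m⁻¹ * t * m) * (I : S)) * m⁻¹ := by rw [h1]
      _ = t * (m * (I : S) * m⁻¹) := by group
  -- `M` is strongly embedded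
  have hSE : Cfsg.IsStronglyEmbedded M := by
    refine ⟨?_, hM, ?_⟩
    · intro htop
      apply hnocore _ hi
      show ∀ g : S, g * (i₀ : S) * g⁻¹ ∈ M
      intro g
      have : ∀ w : S, w ∈ M := fun w => htop ▸ Subgroup.mem_top w
      exact this _
    · intro g hg
      by_contra hodd
      rw [Nat.not_odd_iff_even] at hodd
      apply hg
      obtain ⟨t, ht⟩ := exists_prime_orderOf_dvd_card'
        (G := ↥(M ⊓ M.map (MulAut.conj g).toMonoidHom)) 2 (even_iff_two_dvd.mp hodd)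
      have ht2 : orderOf (t : S) = 2 := by rw [Subgroup.orderOf_coe]; exact ht
      have htM : (t : S) ∈ M := t.2.1
      have ht' : g⁻¹ * (t : S) * g ∈ M := (Cfsg.Agent.Lib.Helper21.mem_map_conj_iff M g t).mp t.2.2
      have ht'2 : orderOf (g⁻¹ * (t : S) * g) = 2 := by
        have := orderOf_conj' g⁻¹ (t : S)
        rw [inv_inv] at this
        rw [this]; exact ht2
      obtain ⟨m₂, hm₂, hcomm⟩ := hA _ ht' ht'2
      set w := g * m₂ with hw
      have hz' : orderOf (w * (I : S) * w⁻¹) = 2 := by rw [orderOf_conj']; exact hz2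
      have hz'M : w * (I : S) * w⁻¹ ∈ M := by
        apply hC t htM ht2
        rw [Subgroup.mem_centralizer_singleton_iff]
        calc w * (I : S) * w⁻¹ * (t : S)
            = g * ((m₂ * (I : S) * m₂⁻¹) * (g⁻¹ * (t : S) * g)) * g⁻¹ := by rw [hw]; group
          _ = g * ((g⁻¹ * (t : S) * g) * (m₂ * (I : S) * m₂⁻¹)) * g⁻¹ := by rw [hcomm]
          _ = (t : S) * (w * (I : S) * w⁻¹) := by rw [hw]; group
      have hYM : X'.map (MulAut.conj w).toMonoidHom ≤ M := by
        rintro _ ⟨x, hx, rfl⟩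
        apply hC _ hz'M hz'
        rw [Subgroup.mem_centralizer_singleton_iff]
        have h1 := hzX x hx
        show w * x * w⁻¹ * (w * (I : S) * w⁻¹) = w * (I : S) * w⁻¹ * (w * x * w⁻¹)
        calc w * x * w⁻¹ * (w * (I : S) * w⁻¹) = w * (x * (I : S)) * w⁻¹ := by group
          _ = w * ((I : S) * x) * w⁻¹ := by rw [h1]
          _ = w * (I : S) * w⁻¹ * (w * x * w⁻¹) := by group
      obtain ⟨m₃, hm₃, h3⟩ := exists_conj_mem_sylow_of_le M X _ hYM (hX'p.map _)
      have hnorm : m₃⁻¹ * w ∈ Subgroup.normalizer (X' : Set S) := by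
        have h4 : ∀ x ∈ X', (m₃⁻¹ * w) * x * (m₃⁻¹ * w)⁻¹ ∈ X' := by
          intro x hx
          have := h3 (w * x * w⁻¹) ⟨x, hx, rfl⟩
          have e : (m₃⁻¹ * w) * x * (m₃⁻¹ * w)⁻¹ = m₃⁻¹ * (w * x * w⁻¹) * m₃ := by group
          rw [e]; exact this
        have h5 := Cfsg.Agent.Lib.Helper21.conj_inv_mem_of_forall_conj_mem X' _ h4
        rw [Subgroup.mem_normalizer_iff]
        intro x
        refine ⟨h4 x, fun hx => ?_⟩
        have := h5 _ hx
        have e : (m₃⁻¹ * w)⁻¹ * ((m₃⁻¹ * w) * x * (m₃⁻¹ * w)⁻¹) * (m₃⁻¹ * w) = x := by group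
        rwa [e] at this
      have h6 := hN hnorm
      have e : g = m₃ * (m₃⁻¹ * w) * m₂⁻¹ := by rw [hw]; group
      rw [e]
      exact M.mul_mem (M.mul_mem hm₃ h6) (M.inv_mem hm₂)
  -- an involution outside `M`
  obtain ⟨u, hu, huM⟩ : ∃ u : S, orderOf u = 2 ∧ u ∉ M := by
    by_contra hcon
    push Not at hcon
    apply hnocore _ hi
    show ∀ g : S, g * (i₀ : S) * g⁻¹ ∈ M
    intro g
    exact hcon _ (by rw [orderOf_conj']; exact hi)
  set D := M ⊓ M.map (MulAut.conj u).toMonoidHom with hD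
  have hDodd : Odd (Nat.card D) := hSE.2.2 u huM
  have hfus : ∀ s t : M, orderOf s = 2 → orderOf t = 2 → ∃ d : M, (d : S) ∈ D ∧ d * s * d⁻¹ = t := by
    intro s t hs ht
    obtain ⟨d, hd, hdst⟩ := (Cfsg.Agent.S1225.result M hSE u hu huM s t
      (by rw [Subgroup.orderOf_coe]; exact hs) s.2 (by rw [Subgroup.orderOf_coe]; exact ht) t.2).1
    exact ⟨⟨d, hd.1⟩, hd, Subtype.ext hdst⟩
  refine ⟨fun x y hx hy => ?_, D.subgroupOf M, ?_, fun m => ?_⟩
  · obtain ⟨d, _, hd⟩ := hfus x y hx hy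
    exact isConj_iff.mpr ⟨d, hd⟩
  · rw [Nat.card_congr (Subgroup.subgroupOfEquivOfLe (inf_le_left : D ≤ M)).toEquiv]
    exact hDodd
  · obtain ⟨d, hdD, hd⟩ := hfus I (m * I * m⁻¹) hI2 (by rw [orderOf_conj']; exact hI2)
    refine ⟨d, by rw [Subgroup.mem_subgroupOf]; exact hdD, d⁻¹ * m, ?_, by group⟩
    rw [Subgroup.mem_centralizer_singleton_iff]
    calc d⁻¹ * m * I = d⁻¹ * (m * I * m⁻¹) * m := by group
      _ = d⁻¹ * (d * I * d⁻¹) * m := by rw [hd]
      _ = I * (d⁻¹ * m) := by group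

end Cfsg.Agent.S1905
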