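import Cfsg.Statements.S1907
import Cfsg.Agent.Lib.Helper32.Coprime
import Cfsg.Agent.Lib.Lead.Cores

set_option autoImplicit false
open Cfsg

namespace Cfsg.Agent.S1907

open Cfsg.Agent.Lib.Helper32 Cfsg.Agent.Lib.Lead

set_option linter.unusedSectionVars false
section
variable {G : Type*} [Group G] [Finite G] {p : ℕ} [Fact p.Prime] (P : Sylow p G)

theorem pPrimePCore_normal : (Cfsg.pPrimePCore p G).Normal := by
  unfold Cfsg.pPrimePCore; infer_instance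

theorem D_le_W : Cfsg.pPrimeCore p G ≤ Cfsg.pPrimePCore p G := by
  intro d hd
  show QuotientGroup.mk' (Cfsg.pPrimeCore p G) d ∈ Cfsg.pCore p (G ⧸ Cfsg.pPrimeCore p G)
  have : QuotientGroup.mk' (Cfsg.pPrimeCore p G) d = 1 := (QuotientGroup.eq_one_iff d).mpr hd
  rw [this]; exact Subgroup.one_mem _

/-- `W = H D`. -/
theorem W_decomp {w : G} (hw : w ∈ Cfsg.pPrimePCore p G) :
    ∃ h ∈ (P : Subgroup G) ⊓ Cfsg.pPrimePCore p G, ∃ d ∈ Cfsg.pPrimeCore p G, w = h * d := by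
  have h1 : QuotientGroup.mk' (Cfsg.pPrimeCore p G) w ∈ Cfsg.pCore p (G ⧸ Cfsg.pPrimeCore p G) := hw
  have h2 := pCore_le_sylow (P.mapSurjective (QuotientGroup.mk'_surjective (Cfsg.pPrimeCore p G))) h1
  rw [Sylow.coe_mapSurjective] at h2
  obtain ⟨s, hs, hsw⟩ := Subgroup.mem_map.mp h2
  have h3 : s⁻¹ * w ∈ Cfsg.pPrimeCore p G := by
    rw [← QuotientGroup.eq_one_iff]
    have : ((s⁻¹ * w : G) : G ⧸ Cfsg.pPrimeCore p G)
        = (QuotientGroup.mk' (Cfsg.pPrimeCore p G) s)⁻¹ * QuotientGroup.mk' (Cfsg.pPrimeCore p G) w := rfl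
    rw [this, hsw]; group
  refine ⟨s, ⟨hs, ?_⟩, s⁻¹ * w, h3, by group⟩
  have : s = w * (s⁻¹ * w)⁻¹ := by group
  rw [this]
  exact Subgroup.mul_mem _ hw (Subgroup.inv_mem _ (D_le_W h3))

theorem H_isPGroup : IsPGroup p ((P : Subgroup G) ⊓ Cfsg.pPrimePCore p G : Subgroup G) :=
  P.2.to_le inf_le_left

/-- `D ∩ N ≤ C(H)`. -/
theorem DN_le_cent {d : G} (hd : d ∈ Cfsg.pPrimeCore p G)
    (hdN : d ∈ Subgroup.normalizer (((P : Subgroup G) ⊓ Cfsg.pPrimePCore p G : Subgroup G) : Set G)) :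
    d ∈ Subgroup.centralizer (((P : Subgroup G) ⊓ Cfsg.pPrimePCore p G : Subgroup G) : Set G) := by
  rw [Subgroup.mem_centralizer_iff]
  intro h hh
  have h1 : d * h * d⁻¹ ∈ ((P : Subgroup G) ⊓ Cfsg.pPrimePCore p G : Subgroup G) :=
    (Subgroup.mem_normalizer_iff.mp hdN h).mp hh
  have h2 : d * h * d⁻¹ * h⁻¹ ∈ ((P : Subgroup G) ⊓ Cfsg.pPrimePCore p G : Subgroup G) :=
    Subgroup.mul_mem _ h1 (Subgroup.inv_mem _ hh)
  have h3 : d * h * d⁻¹ * h⁻¹ ∈ Cfsg.pPrimeCore p G := by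
    have : d * h * d⁻¹ * h⁻¹ = d * (h * d⁻¹ * h⁻¹) := by group
    rw [this]
    exact Subgroup.mul_mem _ hd ((Cfsg.pPrimeCore_normal p G).conj_mem _ (Subgroup.inv_mem _ hd) h)
  have h4 := eq_one_of_mem_pGroup_of_mem_coprime (H_isPGroup P) (card_pPrimeCore_coprime p) h2 h3
  calc h * d = (d * h * d⁻¹ * h⁻¹)⁻¹ * (d * h) := by group
    _ = d * h := by rw [h4]; group

theorem partA (y : G)
    (hy : y ∈ Subgroup.normalizer (((P : Subgroup G) ⊓ Cfsg.pPrimePCore p G : Subgroup G) : Set G))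
    (k : ℕ) (hk : y ^ (p ^ k) = 1) (d : G) (hd : d ∈ Cfsg.pPrimeCore p G)
    (hdy : d⁻¹ * y * d ∈ Subgroup.normalizer (((P : Subgroup G) ⊓ Cfsg.pPrimePCore p G : Subgroup G) : Set G)) :
    ∃ d₁ ∈ Cfsg.pPrimeCore p G ⊓ Subgroup.centralizer ({y} : Set G),
      ∃ d₂ ∈ Cfsg.pPrimeCore p G ⊓ Subgroup.centralizer (((P : Subgroup G) ⊓ Cfsg.pPrimePCore p G : Subgroup G) : Set G),
        d = d₁ * d₂ := by
  set D := Cfsg.pPrimeCore p G with hD
  set N := Subgroup.normalizer (((P : Subgroup G) ⊓ Cfsg.pPrimePCore p G : Subgroup G) : Set G) with hN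
  have hDn : D.Normal := Cfsg.pPrimeCore_normal p G
  let A : Subgroup G := D ⊓ N
  have hA : (Nat.card A).Coprime p :=
    Nat.Coprime.of_dvd_left (Subgroup.card_dvd_of_le inf_le_left) (card_pPrimeCore_coprime p)
  have hyA : y ∈ Subgroup.normalizer (A : Set G) := by
    rw [Subgroup.mem_normalizer_iff]
    intro g
    constructor
    · rintro ⟨h1, h2⟩
      exact ⟨hDn.conj_mem _ h1 y, N.mul_mem (N.mul_mem hy h2) (N.inv_mem hy)⟩
    · rintro ⟨h1, h2⟩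
      have e : g = y⁻¹ * (y * g * y⁻¹) * y⁻¹⁻¹ := by group
      rw [e]
      exact ⟨hDn.conj_mem _ h1 y⁻¹, N.mul_mem (N.mul_mem (N.inv_mem hy) h2) (N.inv_mem (N.inv_mem hy))⟩
  have hu : d⁻¹ * y * d * y⁻¹ ∈ A := by
    constructor
    · have : d⁻¹ * y * d * y⁻¹ = d⁻¹ * (y * d * y⁻¹) := by group
      rw [this]
      exact D.mul_mem (D.inv_mem hd) (hDn.conj_mem _ hd y)
    · exact N.mul_mem hdy (N.inv_mem hy)
  have hyp' : ((d⁻¹ * y * d * y⁻¹) * y) ^ (p ^ k) = 1 := by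
    have : (d⁻¹ * y * d * y⁻¹) * y = d⁻¹ * y * d⁻¹⁻¹ := by group
    rw [this, conj_pow, hk]; group
  obtain ⟨c, hc, hcy⟩ := exists_conj_eq_of_coprime A hA hyA hu hk hyp'
  refine ⟨d * c⁻¹, ⟨D.mul_mem hd (D.inv_mem hc.1), ?_⟩, c, ⟨hc.1, DN_le_cent P hc.1 hc.2⟩, by group⟩
  show d * c⁻¹ ∈ Subgroup.centralizer ({y} : Set G)
  rw [Subgroup.mem_centralizer_singleton_iff]
  -- c d⁻¹ y d c⁻¹ = y
  have h1 : c * d⁻¹ * y * (d * c⁻¹) = y := by
    have e : c * d⁻¹ * y * (d * c⁻¹) = c * (d⁻¹ * y * d * y⁻¹ * y) * c⁻¹ := by group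
    rw [e, hcy]
  calc d * c⁻¹ * y = d * c⁻¹ * (c * d⁻¹ * y * (d * c⁻¹)) := by rw [h1]
    _ = y * (d * c⁻¹) := by group

/-- Frattini: `G = N D`. -/
theorem frattini (g : G) :
    ∃ n ∈ Subgroup.normalizer (((P : Subgroup G) ⊓ Cfsg.pPrimePCore p G : Subgroup G) : Set G),
      ∃ d ∈ Cfsg.pPrimeCore p G, g = n * d := by
  set W := Cfsg.pPrimePCore p G with hW
  have hWn : W.Normal := pPrimePCore_normal
  have hH' : IsPGroup p ((P : Subgroup G).subgroupOf W) := P.2.comap_subtype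
  obtain ⟨S, hS⟩ := hH'.exists_le_sylow
  have hSH : (S : Subgroup W).map W.subtype = (P : Subgroup G) ⊓ W := by
    apply le_antisymm
    · rintro _ ⟨s, hs, rfl⟩
      obtain ⟨h, hh, d, hd, hsd⟩ := W_decomp P s.2
      have hhS : (⟨h, hh.2⟩ : W) ∈ (S : Subgroup W) := hS (by
        rw [Subgroup.mem_subgroupOf]; exact hh.1)
      have h1 : (⟨h, hh.2⟩ : W)⁻¹ * s ∈ (S : Subgroup W) :=
        (S : Subgroup W).mul_mem ((S : Subgroup W).inv_mem hhS) hs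
      have h2 : d ∈ (S : Subgroup W).map W.subtype := by
        refine ⟨(⟨h, hh.2⟩ : W)⁻¹ * s, h1, ?_⟩
        show h⁻¹ * (s : G) = d
        rw [hsd]; group
      have h3 := eq_one_of_mem_pGroup_of_mem_coprime (S.2.map W.subtype) (card_pPrimeCore_coprime p) h2 hd
      show (s : G) ∈ _
      rw [hsd, h3, mul_one]; exact hh
    · rintro x ⟨hx1, hx2⟩
      exact ⟨⟨x, hx2⟩, hS (by rw [Subgroup.mem_subgroupOf]; exact hx1), rfl⟩
  have hfr := Sylow.normalizer_sup_eq_top S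
  rw [hSH] at hfr
  have hg : g ∈ Subgroup.normalizer (((P : Subgroup G) ⊓ W : Subgroup G) : Set G) ⊔ W := by
    rw [hfr]; trivial
  obtain ⟨n, hn, w, hw, rfl⟩ := Subgroup.mem_sup_of_normal_right.mp hg
  obtain ⟨h, hh, d, hd, rfl⟩ := W_decomp P hw
  exact ⟨n * h, Subgroup.mul_mem _ hn (Subgroup.le_normalizer hh), d, hd, by group⟩

end

/-- Let P be a Sylow p-subgroup of a finite group G, H = P ∩ O_{p',p}(G), N = N_G(H) and D = O_{p'}(G). (a) If y is an element of p-power order of N and d ∈ D with d⁻¹ y d ∈ N, then d = d₁ d₂ with d₁ ∈ C_D(y) and d₂ ∈ C_D(H). (b) Two elements of P that are conjugate in G are conjugate in N. -/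
theorem result {G : Type*} [Group G] [Finite G] {p : ℕ} [Fact p.Prime] (P : Sylow p G) :
    (∀ y ∈ Subgroup.normalizer (((P : Subgroup G) ⊓ Cfsg.pPrimePCore p G : Subgroup G) : Set G), (∃ k : ℕ, orderOf y = p ^ k) →
      ∀ d ∈ Cfsg.pPrimeCore p G, d⁻¹ * y * d ∈ Subgroup.normalizer (((P : Subgroup G) ⊓ Cfsg.pPrimePCore p G : Subgroup G) : Set G) →
        ∃ d₁ ∈ Cfsg.pPrimeCore p G ⊓ Subgroup.centralizer ({y} : Set G),
          ∃ d₂ ∈ Cfsg.pPrimeCore p G ⊓ Subgroup.centralizer (((P : Subgroup G) ⊓ Cfsg.pPrimePCore p G : Subgroup G) : Set G), d = d₁ * d₂) ∧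
    ∀ x y : G, x ∈ (P : Subgroup G) → y ∈ (P : Subgroup G) → IsConj x y →
      ∃ n ∈ Subgroup.normalizer (((P : Subgroup G) ⊓ Cfsg.pPrimePCore p G : Subgroup G) : Set G), n * x * n⁻¹ = y := by
  constructor
  · rintro y hy ⟨k, hk⟩ d hd hdy
    exact partA P y hy k (by rw [← hk, pow_orderOf_eq_one]) d hd hdy
  · intro x y hx hy hxy
    obtain ⟨g, hg⟩ := isConj_iff.mp hxy
    obtain ⟨n, hn, d, hd, rfl⟩ := frattini P g
    set N := Subgroup.normalizer (((P : Subgroup G) ⊓ Cfsg.pPrimePCore p G : Subgroup G) : Set G) with hN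
    have hPN : (P : Subgroup G) ≤ N := by
      intro z hz
      rw [hN, Subgroup.mem_normalizer_iff]
      intro h
      have hWn : (Cfsg.pPrimePCore p G).Normal := pPrimePCore_normal
      constructor
      · rintro ⟨h1, h2⟩
        exact ⟨Subgroup.mul_mem _ (Subgroup.mul_mem _ hz h1) (Subgroup.inv_mem _ hz), hWn.conj_mem _ h2 z⟩
      · rintro ⟨h1, h2⟩
        have e : h = z⁻¹ * (z * h * z⁻¹) * z⁻¹⁻¹ := by group
        rw [e]
        exact ⟨Subgroup.mul_mem _ (Subgroup.mul_mem _ (Subgroup.inv_mem _ hz) h1)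
          (Subgroup.inv_mem _ (Subgroup.inv_mem _ hz)), hWn.conj_mem _ h2 z⁻¹⟩
    obtain ⟨k, hk⟩ := P.2 ⟨x, hx⟩
    have hk' : x ^ (p ^ k) = 1 := by
      have h2 := congrArg Subtype.val hk
      rwa [Subgroup.coe_pow, Subgroup.coe_one] at h2
    have h1 : d⁻¹⁻¹ * x * d⁻¹ ∈ N := by
      have : d⁻¹⁻¹ * x * d⁻¹ = n⁻¹ * y * n := by rw [← hg]; group
      rw [this]
      exact N.mul_mem (N.mul_mem (N.inv_mem hn) (hPN hy)) hn
    obtain ⟨d₁, hd₁, d₂, hd₂, hdd⟩ := partA P x (hPN hx) k hk' d⁻¹ (Subgroup.inv_mem _ hd) h1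
    have hd₁x : d₁ * x = x * d₁ := Subgroup.mem_centralizer_singleton_iff.mp hd₁.2
    refine ⟨n * d₂⁻¹, N.mul_mem hn (N.inv_mem (Subgroup.centralizer_le_normalizer _ hd₂.2)), ?_⟩
    have hd' : d = d₂⁻¹ * d₁⁻¹ := by
      have : d = (d⁻¹)⁻¹ := by group
      rw [this, hdd]; group
    rw [← hg, hd']
    calc n * d₂⁻¹ * x * (n * d₂⁻¹)⁻¹ = n * d₂⁻¹ * (d₁⁻¹ * (x * d₁)) * (n * d₂⁻¹)⁻¹ := by
          rw [← hd₁x]; group
      _ = n * (d₂⁻¹ * d₁⁻¹) * x * (n * (d₂⁻¹ * d₁⁻¹))⁻¹ := by group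

end Cfsg.Agent.S1907
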