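import Cfsg.Statements.S1924
import Cfsg.Agent.Lib.Helper32.OddPerm
import Cfsg.Agent.Lib.Helper32.Coprime
import Cfsg.Agent.Lib.Lead.Residual

set_option autoImplicit false
open Cfsg

namespace Cfsg.Agent.S1924

open Cfsg.Agent.Lib.Helper32 Cfsg.Agent.Lib.Lead

/-- In a dihedral group, elements outside a cyclic subgroup of index 2 are involutions. -/
theorem dih_aux (n : ℕ) (hn : 2 ≤ n) (C' : Subgroup (DihedralGroup n)) (hC : IsCyclic C')
    (hidx : C'.index = 2) (x : DihedralGroup n) (hx : x ∉ C') : orderOf x = 2 := by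
  have hn0 : NeZero n := ⟨by omega⟩
  have hcard : Nat.card C' = n := by
    have := C'.card_mul_index
    rw [hidx, DihedralGroup.nat_card] at this
    omega
  obtain ⟨g, hg⟩ := hC.exists_generator
  have hog : orderOf (g : DihedralGroup n) = n := by
    rw [Subgroup.orderOf_coe, orderOf_eq_card_of_forall_mem_zpowers hg, hcard]
  have hzp : Subgroup.zpowers (g : DihedralGroup n) ≤ C' := by
    rw [Subgroup.zpowers_le]; exact g.2
  rcases hgv : (g : DihedralGroup n) with i | i
  · rcases x with j | j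
    · exfalso
      apply hx
      have h1 : Subgroup.zpowers (g : DihedralGroup n) ≤ Subgroup.zpowers (DihedralGroup.r 1 : DihedralGroup n) := by
        rw [Subgroup.zpowers_le, hgv, Subgroup.mem_zpowers_iff]
        refine ⟨(i.val : ℤ), ?_⟩
        rw [DihedralGroup.r_one_zpow]; simp
      have h2 : Subgroup.zpowers (g : DihedralGroup n) = Subgroup.zpowers (DihedralGroup.r 1 : DihedralGroup n) := by
        apply Subgroup.eq_of_le_of_card_ge h1
        rw [Nat.card_zpowers, Nat.card_zpowers, hog, DihedralGroup.orderOf_r_one]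
      apply hzp
      rw [h2, Subgroup.mem_zpowers_iff]
      refine ⟨(j.val : ℤ), ?_⟩
      rw [DihedralGroup.r_one_zpow]; simp
    · exact DihedralGroup.orderOf_sr j
  · rw [hgv, DihedralGroup.orderOf_sr] at hog
    subst hog
    have hx1 : x ≠ 1 := by
      rintro rfl; exact hx C'.one_mem
    have hx2 : x ^ 2 = 1 := by
      rw [pow_two]
      rcases x with j | j
      · rw [DihedralGroup.r_mul_r, DihedralGroup.one_def]
        congr 1
        have h22 : ∀ j : ZMod 2, j + j = 0 := by decide
        exact h22 j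
      · exact DihedralGroup.sr_mul_self j
    exact orderOf_eq_prime hx2 hx1

theorem hom_trivial_on_pResidual {G : Type*} [Group G] (f : ↥(Cfsg.pResidual 2 G) →* ℤˣ)
    (k : ↥(Cfsg.pResidual 2 G)) : f k = 1 := by
  obtain ⟨g, hg⟩ := k
  induction hg using Subgroup.closure_induction with
  | mem x hx =>
    apply hom_units_int_eq_one_of_odd
    have h : x ∈ Cfsg.pResidual 2 G := Subgroup.subset_closure hx
    have e : orderOf (⟨x, h⟩ : ↥(Cfsg.pResidual 2 G)) = orderOf x := Subgroup.orderOf_mk x h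
    show (orderOf (⟨x, h⟩ : ↥(Cfsg.pResidual 2 G))).Coprime 2
    rw [e]; exact hx
  | one => exact map_one f
  | mul a b ha hb iha ihb =>
    have : (⟨a * b, Subgroup.mul_mem _ ha hb⟩ : ↥(Cfsg.pResidual 2 G)) = ⟨a, ha⟩ * ⟨b, hb⟩ := rfl
    rw [this, map_mul, iha, ihb, one_mul]
  | inv a ha iha =>
    have : (⟨a⁻¹, Subgroup.inv_mem _ ha⟩ : ↥(Cfsg.pResidual 2 G)) = (⟨a, ha⟩ : ↥(Cfsg.pResidual 2 G))⁻¹ := rfl
    rw [this, map_inv, iha, inv_one]

/-- A consequence of Thompson's transfer lemma. Let G be a finite group, L a subgroup with O²(L) = L, T a Sylow 2-subgroup of L and S a Sylow 2-subgroup of G containing T. Suppose D ≤ S is a dihedral subgroup of order at least 4 (the four-group counts) with D ∩ T = 1 and S = TD as a set of products (so |S| = |T|·|D|), and C ≤ D is cyclic of index 2 in D. If no involution of D outside C is G-conjugate to an involution of the subgroup generated by T and C, and the involution of C is not G-conjugate to any involution of T, then G has a normal subgroup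 K, containing every Sylow 2-subgroup of L as a Sylow 2-subgroup, with G = KD. -/
theorem result {G : Type*} [Group G] [Finite G] (L T S D C : Subgroup G) (hL : Cfsg.pResidual 2 ↥L = ⊤)
    (hTL : T ≤ L) (hT2 : IsPGroup 2 T) (hTsyl : ¬ 2 ∣ T.relIndex L)
    (hS2 : IsPGroup 2 S) (hSsyl : ¬ 2 ∣ S.index) (hTS : T ≤ S)
    (hDS : D ≤ S) (hDih : ∃ n : ℕ, 2 ≤ n ∧ Nonempty (↥D ≃* DihedralGroup n)) (hDT : D ⊓ T = ⊥) (hTD : T ⊔ D = S) (hTDc : Nat.card T * Nat.card D = Nat.card S)
    (hCD : C ≤ D) (hC : IsCyclic ↥C) (hCi : C.relIndex D = 2)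
    (h1 : ∀ x ∈ D, x ∉ C → orderOf x = 2 → ∀ g : G, g * x * g⁻¹ ∈ T ⊔ C → False)
    (h2 : ∀ c ∈ C, orderOf c = 2 → ∀ g : G, g * c * g⁻¹ ∈ T → False) :
    ∃ K : Subgroup G, K.Normal ∧ K ⊔ D = ⊤ ∧
      ∀ T' : Subgroup G, T' ≤ L → IsPGroup 2 T' → ¬ 2 ∣ T'.relIndex L → T' ≤ K ∧ ¬ 2 ∣ T'.relIndex K := by
  classical
  set K : Subgroup G := Cfsg.pResidual 2 G with hK
  have hKn : K.Normal := pResidual_normal 2 G
  -- Step 1
  have hfK : ∀ f : G →* ℤˣ, ∀ g ∈ K, f g = 1 := by
    intro f
    have : K ≤ f.ker := by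
      rw [hK, Cfsg.pResidual, Subgroup.closure_le]
      intro g hg
      exact hom_units_int_eq_one_of_odd f hg
    intro g hg
    exact this hg
  -- Step 2
  have hLK : L ≤ K := by
    have h1 : (Cfsg.pResidual 2 ↥L).map L.subtype ≤ K := by
      rw [Subgroup.map_le_iff_le_comap, Cfsg.pResidual, Subgroup.closure_le]
      intro g hg
      show (g : G) ∈ K
      apply Subgroup.subset_closure
      show Nat.Coprime (orderOf (g : G)) 2
      rw [Subgroup.orderOf_coe]; exact hg
    rw [hL, ← MonoidHom.range_eq_map, Subgroup.range_subtype] at h1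
    exact h1
  have hTK : T ≤ K := hTL.trans hLK
  -- Step 3
  obtain ⟨j, hj⟩ := index_pResidual (p := 2) (G := G)
  have hrodd : Nat.Coprime S.index 2 := (Nat.Prime.coprime_iff_not_dvd Nat.prime_two).mpr hSsyl |>.symm
  have hSK : S ⊔ K = ⊤ := by
    rw [← Subgroup.index_eq_one]
    have d1 : (S ⊔ K).index ∣ S.index := Subgroup.index_dvd_of_le le_sup_left
    have d2 : (S ⊔ K).index ∣ 2 ^ j := hj ▸ Subgroup.index_dvd_of_le le_sup_right
    exact Nat.eq_one_of_dvd_coprimes (Nat.Coprime.pow_right j hrodd) d1 d2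
  have hDK : D ⊔ K = ⊤ := by
    rw [eq_top_iff, ← hSK, ← hTD]
    exact sup_le (sup_le (hTK.trans le_sup_right) le_sup_left) le_sup_right
  -- Step 5
  have hidxK : K.index = K.relIndex D := by
    rw [← Subgroup.relIndex_sup_right D K, hDK, Subgroup.relIndex_top_right]
  have hcD : Nat.card (K ⊓ D : Subgroup G) * K.relIndex D = Nat.card D := by
    rw [← Subgroup.inf_relIndex_right K D]
    exact card_mul_relIndex inf_le_right
  have hrelne : K.relIndex D ≠ 0 := by
    rw [← hidxK]; exact Subgroup.index_ne_zero_of_finite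
  have hcK : Nat.card K = Nat.card T * Nat.card (K ⊓ D : Subgroup G) * S.index := by
    have h3 : Nat.card K * K.relIndex D = (Nat.card T * Nat.card (K ⊓ D : Subgroup G) * S.index) * K.relIndex D := by
      calc Nat.card K * K.relIndex D = Nat.card G := by rw [← hidxK]; exact K.card_mul_index
        _ = Nat.card S * S.index := S.card_mul_index.symm
        _ = Nat.card T * (Nat.card (K ⊓ D : Subgroup G) * K.relIndex D) * S.index := by rw [hcD, hTDc]
        _ = _ := by ring
    exact Nat.eq_of_mul_eq_mul_right (Nat.pos_of_ne_zero hrelne) h3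
  have hTrel : T.relIndex K = Nat.card (K ⊓ D : Subgroup G) * S.index := by
    have h3 := card_mul_relIndex hTK
    rw [hcK, mul_assoc] at h3
    exact Nat.eq_of_mul_eq_mul_left Nat.card_pos h3
  -- dihedral fact
  have hdih : ∀ x ∈ D, x ∉ C → orderOf x = 2 := by
    intro x hxD hxC
    obtain ⟨n, hn, ⟨e⟩⟩ := hDih
    let C' : Subgroup (DihedralGroup n) := (C.subgroupOf D).map e.toMonoidHom
    have hC' : IsCyclic C' := by
      have e1 : C.subgroupOf D ≃* C := Subgroup.subgroupOfEquivOfLe hCD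
      have e2 : C.subgroupOf D ≃* C' := e.subgroupMap (C.subgroupOf D)
      exact (e2.isCyclic).mp ((e1.isCyclic).mpr hC)
    have hidx : C'.index = 2 := by
      have : C'.index = (C.subgroupOf D).index := Subgroup.index_map_equiv (C.subgroupOf D) e
      rw [this]; exact hCi
    have hx' : e ⟨x, hxD⟩ ∉ C' := by
      rintro ⟨z, hz, hze⟩
      have : z = ⟨x, hxD⟩ := e.injective hze
      rw [this, SetLike.mem_coe, Subgroup.mem_subgroupOf] at hz
      exact hxC hz
    have := dih_aux n hn C' hC' hidx _ hx'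
    rw [MulEquiv.orderOf_eq, Subgroup.orderOf_mk] at this
    exact this
  -- 6a
  have h6a : ∀ x ∈ D, x ∉ C → x ∉ K := by
    intro x hxD hxC hxK
    have hox := hdih x hxD hxC
    set M : Subgroup G := T ⊔ C with hM
    have hMS : M ≤ S := sup_le hTS (hCD.trans hDS)
    have hxM : x ∉ M := by
      intro h
      exact h1 x hxD hxC hox 1 (by simpa using h)
    have hcardD : Nat.card C * 2 = Nat.card D := by
      rw [← hCi]; exact card_mul_relIndex hCD
    have hle : Nat.card T * Nat.card C ≤ Nat.card M := by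
      rw [← Nat.card_prod]
      let φ : T × C → M := fun tc => ⟨tc.1 * tc.2, Subgroup.mul_mem_sup tc.1.2 tc.2.2⟩
      apply Nat.card_le_card_of_injective φ
      rintro ⟨⟨t, ht⟩, ⟨c, hc⟩⟩ ⟨⟨t', ht'⟩, ⟨c', hc'⟩⟩ h
      have h' : t * c = t' * c' := congrArg Subtype.val h
      have h3 : t'⁻¹ * t = c' * c⁻¹ := by
        calc t'⁻¹ * t = t'⁻¹ * (t * c) * c⁻¹ := by group
          _ = c' * c⁻¹ := by rw [h']; group
      have h4 : t'⁻¹ * t ∈ D ⊓ T :=
        ⟨by rw [h3]; exact D.mul_mem (hCD hc') (D.inv_mem (hCD hc)), T.mul_mem (T.inv_mem ht') ht⟩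
      rw [hDT, Subgroup.mem_bot] at h4
      have h5 : t = t' := by
        calc t = t' * (t'⁻¹ * t) := by group
          _ = t' := by rw [h4, mul_one]
      subst h5
      have h6 : c = c' := mul_left_cancel h'
      subst h6
      rfl
    have hMrel := card_mul_relIndex hMS
    have hk1 : M.relIndex S ≠ 1 := by
      intro h
      rw [Subgroup.relIndex_eq_one] at h
      exact hxM (h (hDS hxD))
    have hk0 : M.relIndex S ≠ 0 := by
      intro h
      rw [h, mul_zero] at hMrel
      exact (Nat.card_pos (α := S)).ne hMrel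
    have hk2 : M.relIndex S = 2 := by
      have hpos : 0 < Nat.card T * Nat.card C := Nat.mul_pos Nat.card_pos Nat.card_pos
      have h3 : Nat.card M * M.relIndex S = (Nat.card T * Nat.card C) * 2 := by
        rw [hMrel, ← hTDc, ← hcardD]; ring
      by_contra hne
      have h4 : 3 ≤ M.relIndex S := by omega
      have h5 : (Nat.card T * Nat.card C) * 3 ≤ Nat.card M * M.relIndex S := Nat.mul_le_mul hle h4
      omega
    have hMidx : M.index = 2 ^ (0 + 1) * S.index := by
      rw [← Subgroup.relIndex_mul_index hMS, hk2]; norm_num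
    have hSodd : Odd S.index := Nat.odd_iff.mpr (Nat.two_dvd_ne_zero.mp hSsyl)
    obtain ⟨f, hf⟩ := exists_hom_neg_one M x 0 S.index (by rw [← hox]; simp [pow_orderOf_eq_one x])
      hMidx hSodd (by
        intro g hg
        exact h1 x hxD hxC hox g (by simpa using hg))
    rw [hfK f x hxK] at hf
    exact absurd hf (by decide)
  -- Step 6
  have h6 : K ⊓ D = ⊥ := by
    by_contra hne
    set C₀ : Subgroup G := K ⊓ D with hC₀
    have hC₀C : C₀ ≤ C := by
      intro x hx
      by_contra hxC
      exact h6a x hx.2 hxC hx.1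
    have hcyc : IsCyclic C₀ := isCyclic_of_injective (Subgroup.inclusion hC₀C) (Subgroup.inclusion_injective hC₀C)
    obtain ⟨y₀, hy₀⟩ := hcyc.exists_generator
    have hoy : orderOf (y₀ : G) = Nat.card C₀ := by
      rw [Subgroup.orderOf_coe, orderOf_eq_card_of_forall_mem_zpowers hy₀]
    have hC₀2 : IsPGroup 2 C₀ := hS2.to_le (inf_le_right.trans hDS)
    obtain ⟨m', hm'⟩ := IsPGroup.iff_card.mp hC₀2
    have hm'0 : m' ≠ 0 := by
      rintro rfl
      rw [pow_zero, Subgroup.card_eq_one] at hm'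
      exact hne hm'
    obtain ⟨m, rfl⟩ := Nat.exists_eq_succ_of_ne_zero hm'0
    have hSodd : Odd S.index := Nat.odd_iff.mpr (Nat.two_dvd_ne_zero.mp hSsyl)
    have hyK : (y₀ : G) ∈ K := y₀.2.1
    have hoc : orderOf ((y₀ : G) ^ (2 ^ m)) = 2 := by
      rw [orderOf_pow_of_dvd (by positivity) (by rw [hoy, hm']; exact pow_dvd_pow 2 (Nat.le_succ m)), hoy, hm',
        Nat.succ_eq_add_one, pow_succ]
      exact Nat.mul_div_cancel_left 2 (by positivity)
    obtain ⟨f, hf⟩ := exists_hom_neg_one (T.subgroupOf K) (⟨y₀, hyK⟩ : K) m S.index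
      (by
        ext
        simp only [Subgroup.coe_pow, Subgroup.coe_one]
        rw [← Nat.succ_eq_add_one, ← hm', ← hoy]; exact pow_orderOf_eq_one _)
      (by
        show T.relIndex K = _
        rw [hTrel, hm'])
      hSodd
      (by
        intro g hg
        rw [Subgroup.mem_subgroupOf] at hg
        exact h2 _ (C.pow_mem (hC₀C y₀.2) _) hoc (g : G) (by simpa using hg))
    rw [hom_trivial_on_pResidual f] at hf
    exact absurd hf (by decide)
  refine ⟨K, hKn, by rw [sup_comm]; exact hDK, ?_⟩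
  intro T' hT'L hT'2 hT'syl
  refine ⟨hT'L.trans hLK, ?_⟩
  have hTrel' : T.relIndex K = S.index := by
    rw [hTrel, h6]; simp
  -- |T'| = |T|
  obtain ⟨a, ha⟩ := IsPGroup.iff_card.mp hT2
  obtain ⟨b, hb⟩ := IsPGroup.iff_card.mp hT'2
  have e1 := card_mul_relIndex hTL
  have e2 := card_mul_relIndex hT'L
  have hab : a = b := by
    have hu : Nat.Coprime 2 (T.relIndex L) := (Nat.Prime.coprime_iff_not_dvd Nat.prime_two).mpr hTsyl
    have hv : Nat.Coprime 2 (T'.relIndex L) := (Nat.Prime.coprime_iff_not_dvd Nat.prime_two).mpr hT'syl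
    rw [ha] at e1
    rw [hb] at e2
    have h3 : 2 ^ a * T.relIndex L = 2 ^ b * T'.relIndex L := by rw [e1, e2]
    have d1 : 2 ^ a ∣ 2 ^ b := (Nat.Coprime.pow_left a hv).dvd_of_dvd_mul_right (Dvd.intro _ h3)
    have d2 : 2 ^ b ∣ 2 ^ a := (Nat.Coprime.pow_left b hu).dvd_of_dvd_mul_right (Dvd.intro _ h3.symm)
    have := Nat.dvd_antisymm d1 d2
    exact Nat.pow_right_injective (le_refl 2) this
  have e3 := card_mul_relIndex hTK
  have e4 := card_mul_relIndex (hT'L.trans hLK)
  have : T'.relIndex K = T.relIndex K := by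
    rw [ha] at e3
    rw [hb, ← hab, ← e3] at e4
    exact Nat.eq_of_mul_eq_mul_left (by positivity) e4
  rw [this, hTrel']
  exact hSsyl

end Cfsg.Agent.S1924
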