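import Cfsg.Statements.S1939
-- import your own Cfsg.Agent.* helpers here

set_option autoImplicit false
open Cfsg

namespace Cfsg.Agent.S1939

/-- Let S be a Sylow p-subgroup of the finite group G and a an element of S that is the only G-conjugate of a lying in S. Then every power of a has the same property: for every n, the only G-conjugate of a^n lying in S is a^n. -/
theorem result {G : Type*} [Group G] [Finite G] {p : ℕ} [Fact p.Prime] (S : Sylow p G) (a : G)
    (haS : a ∈ (S : Subgroup G)) (hwc : ∀ g : G, g * a * g⁻¹ ∈ (S : Subgroup G) → g * a * g⁻¹ = a) (n : ℕ) :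
    ∀ g : G, g * a ^ n * g⁻¹ ∈ (S : Subgroup G) → g * a ^ n * g⁻¹ = a ^ n := by
  intro g hg
  have hcS : ∀ s ∈ (S : Subgroup G), s * a = a * s := by
    intro s hs
    have h1 : s * a * s⁻¹ ∈ (S : Subgroup G) := S.1.mul_mem (S.1.mul_mem hs haS) (S.1.inv_mem hs)
    have h2 := hwc s h1
    calc s * a = (s * a * s⁻¹) * s := by group
      _ = a * s := by rw [h2]
  have hcSn : ∀ s ∈ (S : Subgroup G), s * a ^ n = a ^ n * s := by
    intro s hs
    exact ((Commute.pow_right (hcS s hs : Commute s a) n) : s * a ^ n = a ^ n * s)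
  set b' : G := g * a ^ n * g⁻¹ with hb'
  let C : Subgroup G := Subgroup.centralizer {b'}
  have haC : a ∈ C := by
    rw [Subgroup.mem_centralizer_singleton_iff]
    exact (hcS b' hg).symm
  have hPC : ((g • S : Sylow p G) : Subgroup G) ≤ C := by
    intro x hx
    rw [Sylow.coe_subgroup_smul, Subgroup.mem_pointwise_smul_iff_inv_smul_mem] at hx
    have hx' : g⁻¹ * x * g ∈ (S : Subgroup G) := by
      simpa [MulAut.smul_def, MulAut.conj_apply] using hx
    rw [Subgroup.mem_centralizer_singleton_iff]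
    have := hcSn _ hx'
    rw [hb']
    calc x * (g * a ^ n * g⁻¹) = g * ((g⁻¹ * x * g) * a ^ n) * g⁻¹ := by group
      _ = g * (a ^ n * (g⁻¹ * x * g)) * g⁻¹ := by rw [this]
      _ = g * a ^ n * g⁻¹ * x := by group
  let R : Sylow p C := (g • S : Sylow p G).subtype hPC
  have hQ0 : IsPGroup p ((S : Subgroup G).subgroupOf C) := S.2.comap_subtype
  obtain ⟨Q, hQ⟩ := hQ0.exists_le_sylow
  obtain ⟨h, hh⟩ := MulAction.exists_smul_eq C Q R
  have haQ : (⟨a, haC⟩ : C) ∈ (Q : Subgroup C) := hQ (by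
    rw [Subgroup.mem_subgroupOf]; exact haS)
  have h1 : h * ⟨a, haC⟩ * h⁻¹ ∈ ((h • Q : Sylow p C) : Subgroup C) := by
    rw [Sylow.coe_subgroup_smul, Subgroup.mem_pointwise_smul_iff_inv_smul_mem]
    simpa [MulAut.smul_def, MulAut.conj_apply, mul_assoc] using haQ
  rw [hh] at h1
  have h2 : (h : G) * a * (h : G)⁻¹ ∈ ((g • S : Sylow p G) : Subgroup G) := by
    have : (h * ⟨a, haC⟩ * h⁻¹ : C) ∈ ((g • S : Sylow p G) : Subgroup G).subgroupOf C := h1
    rw [Subgroup.mem_subgroupOf] at this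
    simpa using this
  rw [Sylow.coe_subgroup_smul, Subgroup.mem_pointwise_smul_iff_inv_smul_mem] at h2
  have h3 : (g⁻¹ * h) * a * (g⁻¹ * h)⁻¹ ∈ (S : Subgroup G) := by
    have : g⁻¹ * ((h : G) * a * (h : G)⁻¹) * g ∈ (S : Subgroup G) := by
      have h2' : (MulAut.conj g)⁻¹ ((h : G) * a * (h : G)⁻¹) ∈ (S : Subgroup G) := h2
      rw [← map_inv, MulAut.conj_apply, inv_inv] at h2'
      exact h2'
    have e : (g⁻¹ * h) * a * (g⁻¹ * h)⁻¹ = g⁻¹ * ((h : G) * a * (h : G)⁻¹) * g := by group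
    rw [e]; exact this
  have h4 := hwc _ h3
  have h5 : Commute (g⁻¹ * (h : G)) a := by
    show (g⁻¹ * (h : G)) * a = a * (g⁻¹ * (h : G))
    calc (g⁻¹ * (h : G)) * a = ((g⁻¹ * h) * a * (g⁻¹ * h)⁻¹) * (g⁻¹ * h) := by group
      _ = a * (g⁻¹ * (h : G)) := by rw [h4]
  have h6 : (g⁻¹ * (h : G)) * a ^ n = a ^ n * (g⁻¹ * (h : G)) := h5.pow_right n
  have h7 : (h : G) * a ^ n * (h : G)⁻¹ = b' := by
    rw [hb']
    calc (h : G) * a ^ n * (h : G)⁻¹ = g * ((g⁻¹ * (h : G)) * a ^ n) * (h : G)⁻¹ := by group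
      _ = g * (a ^ n * (g⁻¹ * (h : G))) * (h : G)⁻¹ := by rw [h6]
      _ = g * a ^ n * g⁻¹ := by group
  have h8 : (h : G) * b' = b' * (h : G) := by
    have := h.2
    rw [Subgroup.mem_centralizer_singleton_iff] at this
    exact this
  calc b' = (h : G)⁻¹ * ((h : G) * b') := by group
    _ = (h : G)⁻¹ * (b' * (h : G)) := by rw [h8]
    _ = (h : G)⁻¹ * (((h : G) * a ^ n * (h : G)⁻¹) * (h : G)) := by rw [h7]
    _ = a ^ n := by group

end Cfsg.Agent.S1939
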