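import Cfsg.Statements.S1940
import Mathlib
-- import your own Cfsg.Agent.* helpers here

set_option autoImplicit false
open Cfsg

namespace Cfsg.Agent.S1940

/-- Let the finite group L act by automorphisms on the finite abelian group M, and let N be an L-invariant subgroup of M such that M/N is a p-group on which L acts trivially (every l • m lies in the coset mN). If every element of M is a product of an element of N and an element fixed by a Sylow p-subgroup T of L, then every element of M is a product of an element of N and an element fixed by all of L. -/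
theorem result {L : Type*} [Group L] [Finite L] {M : Type*} [CommGroup M] [Finite M] [MulDistribMulAction L M]
    {p : ℕ} [Fact p.Prime] (N : Subgroup M) (hN : ∀ (l : L) (m : M), m ∈ N → l • m ∈ N)
    (hquot : IsPGroup p (M ⧸ N)) (htriv : ∀ (l : L) (m : M), (l • m) * m⁻¹ ∈ N) (T : Sylow p L)
    (hT : ∀ m : M, ∃ n ∈ N, ∃ c : M, (∀ t ∈ (T : Subgroup L), t • c = c) ∧ m = n * c) :
    ∀ m : M, ∃ n ∈ N, ∃ c : M, (∀ l : L, l • c = c) ∧ m = n * c := by
  classical
  intro m
  obtain ⟨n, hn, c, hc, rfl⟩ := hT m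
  haveI : Fintype (L ⧸ (T : Subgroup L)) := Fintype.ofFinite _
  -- the function on cosets
  let F : L ⧸ (T : Subgroup L) → M := Quotient.lift (fun l : L => l • c) (by
    intro a b hab
    have hab' : a⁻¹ * b ∈ (T : Subgroup L) := QuotientGroup.leftRel_apply.mp hab
    have := hc _ hab'
    show a • c = b • c
    calc a • c = a • ((a⁻¹ * b) • c) := by rw [this]
      _ = b • c := by rw [smul_smul]; simp)
  have hF : ∀ x : L, F (QuotientGroup.mk x) = x • c := fun x => rfl
  let c' : M := ∏ q : L ⧸ (T : Subgroup L), F q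
  have hc'fix : ∀ l : L, l • c' = c' := by
    intro l
    show l • (∏ q : L ⧸ (T : Subgroup L), F q) = ∏ q : L ⧸ (T : Subgroup L), F q
    rw [Finset.smul_prod']
    have h1 : ∀ q : L ⧸ (T : Subgroup L), l • F q = F (l • q) := by
      intro q
      induction q using QuotientGroup.induction_on with
      | H x =>
        rw [hF, smul_smul]
        rfl
    simp_rw [h1]
    exact Equiv.prod_comp (MulAction.toPerm l) F
  set k : ℕ := Fintype.card (L ⧸ (T : Subgroup L)) with hk
  have hc'N : c' * (c ^ k)⁻¹ ∈ N := by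
    have h1 : ∏ q : L ⧸ (T : Subgroup L), (F q * c⁻¹) ∈ N := by
      apply Subgroup.prod_mem
      intro q _
      induction q using QuotientGroup.induction_on with
      | H x => rw [hF]; exact htriv x c
    rw [Finset.prod_mul_distrib, Finset.prod_const, Finset.card_univ, inv_pow] at h1
    exact h1
  have hkp : ¬ p ∣ k := by
    have := T.not_dvd_index
    rwa [Subgroup.index, Nat.card_eq_fintype_card] at this
  obtain ⟨e, he⟩ := IsPGroup.iff_card.mp hquot
  have hpe : ∀ x : M, x ^ (p ^ e) ∈ N := by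
    intro x
    rw [← QuotientGroup.eq_one_iff, QuotientGroup.mk_pow, ← he]
    exact pow_card_eq_one'
  have hcop : Nat.Coprime k (p ^ e) :=
    Nat.Coprime.pow_right e ((Nat.Prime.coprime_iff_not_dvd Fact.out).mpr hkp).symm
  have hbez : (1 : ℤ) = k * Nat.gcdA k (p ^ e) + (p ^ e : ℕ) * Nat.gcdB k (p ^ e) := by
    have := Nat.gcd_eq_gcd_ab k (p ^ e)
    rw [hcop] at this
    exact_mod_cast this
  set u := Nat.gcdA k (p ^ e)
  set v := Nat.gcdB k (p ^ e)
  have hcc : c = (c ^ k) ^ u * (c ^ (p ^ e)) ^ v := by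
    rw [← zpow_natCast c k, ← zpow_natCast c (p ^ e), ← zpow_mul, ← zpow_mul, ← zpow_add, ← hbez, zpow_one]
  refine ⟨n * ((c' * (c ^ k)⁻¹)⁻¹ ^ u * (c ^ (p ^ e)) ^ v), ?_, c' ^ u, ?_, ?_⟩
  · exact N.mul_mem hn (N.mul_mem (N.zpow_mem (N.inv_mem hc'N) _) (N.zpow_mem (hpe c) _))
  · intro l
    rw [smul_zpow', hc'fix]
  · conv_lhs => rw [hcc]
    rw [mul_inv, inv_inv, mul_zpow, inv_zpow]
    have : ∀ a b d f : M, a * (b * d) = a * (f⁻¹ * b * d) * f := by
      intro a b d f
      rw [mul_assoc a, mul_assoc f⁻¹, mul_comm (f⁻¹ * (b * d)) f, mul_inv_cancel_left]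
    exact this _ _ _ _

end Cfsg.Agent.S1940
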