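import Cfsg.Statements.S1941
import Cfsg.Agent.Lib.Helper31.GenFitting
import Cfsg.Agent.Lib.Helper1.Fitting
import Cfsg.Agent.Lib.Helper32.Cocycle

set_option autoImplicit false
open Cfsg

namespace Cfsg.Agent.S1941

/-- Let G be a finite group with no nontrivial normal subgroup of order prime to p, T a Sylow p-subgroup of G and E(G) the layer of G (the subgroup generated by its components). An automorphism of G of p-power order that fixes T and E(G) elementwise is inner. -/
theorem result {G : Type*} [Group G] [Finite G] {p : ℕ} [Fact p.Prime] (hcore : Cfsg.pPrimeCore p G = ⊥)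
    (T : Sylow p G) (α : MulAut G) (hα : ∃ j : ℕ, orderOf α = p ^ j) (hfixT : ∀ x ∈ (T : Subgroup G), α x = x)
    (hfixE : ∀ x ∈ Cfsg.layer G, α x = x) : ∃ g : G, ∀ x : G, α x = g * x * g⁻¹ := by
  classical
  have hp : p.Prime := Fact.out
  set F := Cfsg.generalizedFittingSubgroup G with hFdef
  have hFn : F.Normal := Cfsg.Agent.Lib.Helper31.genFitting_normal
  -- `F(G) ≤ T`
  have hFitT : Cfsg.fittingSubgroup G ≤ (T : Subgroup G) := by
    rw [Cfsg.Agent.Lib.Helper1.fittingSubgroup_eq_iSup_pCore]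
    refine (Cfsg.Agent.Lib.Helper1.iSup_pCore_le_sup p hp).trans ?_
    rw [hcore, sup_bot_eq]
    exact Cfsg.Agent.Lib.Helper1.pCore_le_sylow T
  -- `α` fixes `F*(G)`
  have hfixF : ∀ x ∈ F, α x = x := by
    have : F ≤ MonoidHom.eqLocus α.toMonoidHom (MonoidHom.id G) := by
      apply sup_le
      · intro x hx; exact hfixE x hx
      · intro x hx; exact hfixT x (hFitT hx)
    intro x hx
    exact this hx
  set Z : Subgroup G := F ⊓ Subgroup.centralizer (F : Set G) with hZdef
  have hCn : (Subgroup.centralizer (F : Set G)).Normal := inferInstance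
  have hZn : Z.Normal := inferInstance
  have hZc : ∀ a ∈ Z, ∀ b ∈ Z, a * b = b * a := by
    intro a ha b hb
    exact (Subgroup.mem_centralizer_iff.mp hb.2) a ha.1
  have hZnil : Group.IsNilpotent Z := by
    let _ : CommGroup Z :=
      { (inferInstance : Group Z) with
        mul_comm := fun a b => Subtype.ext (hZc a a.2 b b.2) }
    exact CommGroup.isNilpotent
  have hZT : Z ≤ (T : Subgroup G) :=
    (Cfsg.Agent.Lib.Helper1.le_fittingSubgroup hZn hZnil).trans hFitT
  have hZp : IsPGroup p Z := T.2.to_le hZT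
  have hcop : Nat.Coprime (Nat.card Z) (T : Subgroup G).index := by
    obtain ⟨k, hk⟩ := IsPGroup.iff_card.mp hZp
    rw [hk]
    apply Nat.Coprime.pow_left
    rw [Nat.Prime.coprime_iff_not_dvd hp]
    exact T.not_dvd_index
  have hZmem : ∀ g, α.toMonoidHom g * g⁻¹ ∈ Z := by
    intro g
    have h1 : g⁻¹ * α g ∈ Subgroup.centralizer (F : Set G) := by
      rw [Subgroup.mem_centralizer_iff]
      intro f hf
      have h2 : α (g * f * g⁻¹) = g * f * g⁻¹ := hfixF _ (hFn.conj_mem f hf g)
      rw [map_mul, map_mul, hfixF f hf, map_inv] at h2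
      have h3 : f = g⁻¹ * (g * f * g⁻¹) * g := by group
      calc f * (g⁻¹ * α g) = g⁻¹ * (g * f * g⁻¹) * α g := by group
        _ = g⁻¹ * (α g * f * (α g)⁻¹) * α g := by rw [h2]
        _ = g⁻¹ * α g * f := by group
    have h2 : g⁻¹ * α g ∈ Z := ⟨Cfsg.Agent.Lib.Helper31.centralizer_genFitting_le h1, h1⟩
    have h3 : α.toMonoidHom g * g⁻¹ = g * (g⁻¹ * α g) * g⁻¹ := by
      show α g * g⁻¹ = _
      group
    rw [h3]
    exact hZn.conj_mem _ h2 g
  obtain ⟨w, _, hw⟩ := Cfsg.Agent.Lib.Helper32.exists_conj_of_trivial_mod_abelian Z (T : Subgroup G)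
    hZc hcop α.toMonoidHom hZmem (fun t ht => hfixT t ht)
  exact ⟨w, fun x => hw x⟩

end Cfsg.Agent.S1941
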