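import Cfsg.Statements.S1944
import Cfsg.Agent.Lib.Helper47.Trace
import Cfsg.Agent.Lib.Helper11.PStable
import Cfsg.Agent.Lib.Helper54.PConstrained

set_option autoImplicit false
set_option linter.style.haveILetI false
open Cfsg

namespace Cfsg.Agent.S1944

open Subgroup

/-- Let S be a Sylow p-subgroup of the finite group G and suppose that the centre Z(S) lies in O_{p',p}(G). The elements of S each of which is its only G-conjugate in S form a subgroup W of Z(S); W is then a direct factor of Z(S): there is a subgroup K of Z(S) with W ∩ K = 1 and WK = Z(S). -/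
theorem result {G : Type*} [Group G] [Finite G] {p : ℕ} [Fact p.Prime] (S : Sylow p G)
    (hZ : ((S : Subgroup G) ⊓ Subgroup.centralizer ((S : Subgroup G) : Set G)) ≤ Cfsg.pPrimePCore p G) :
    ∃ W K : Subgroup G, (∀ x : G, x ∈ W ↔ (x ∈ (S : Subgroup G) ∧ ∀ g : G, g * x * g⁻¹ ∈ (S : Subgroup G) → g * x * g⁻¹ = x)) ∧
      K ≤ ((S : Subgroup G) ⊓ Subgroup.centralizer ((S : Subgroup G) : Set G)) ∧ W ⊓ K = ⊥ ∧ W ⊔ K = ((S : Subgroup G) ⊓ Subgroup.centralizer ((S : Subgroup G) : Set G)) := by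
  classical
  have hp : p.Prime := Fact.out
  set O := pPrimeCore p G with hO
  set T := pPrimePCore p G with hT
  set Z := (S : Subgroup G) ⊓ centralizer ((S : Subgroup G) : Set G) with hZdef
  set R := (S : Subgroup G) ⊓ T with hR
  haveI hOn : O.Normal := by
    haveI := Cfsg.Agent.Lib.Lead.pPrimeCore_characteristic (G := G) p
    infer_instance
  haveI hTn : T.Normal := Cfsg.Agent.Lib.Helper54.pPrimePCore_normal p G
  have hOT : O ≤ T := Cfsg.Agent.Lib.Helper54.pPrimeCore_le_pPrimePCore p G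
  have hRp : IsPGroup p R := S.isPGroup'.to_le inf_le_left
  have hsup : O ⊔ R = T := by
    apply le_antisymm (sup_le hOT inf_le_right)
    intro x hx
    have h1 : QuotientGroup.mk' O x ∈ pCore p (G ⧸ O) := hx
    have h2 := Cfsg.Agent.Lib.Lead.pCore_le_sylow
      (S.mapSurjective (QuotientGroup.mk'_surjective O)) h1
    rw [Sylow.coe_mapSurjective] at h2
    obtain ⟨s, hs, hsx⟩ := h2
    have h3 : s⁻¹ * x ∈ O := QuotientGroup.eq.mp hsx
    have h4 : s ∈ T := by
      have : s = x * (s⁻¹ * x)⁻¹ := by group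
      rw [this]
      exact mul_mem hx (inv_mem (hOT h3))
    have h5 : x = s * (s⁻¹ * x) := by group
    rw [h5]
    exact mul_mem (le_sup_right (a := O) (Subgroup.mem_inf.mpr ⟨hs, h4⟩)) (le_sup_left (b := R) h3)
  have hfr : ∀ g : G, ∃ k ∈ O, ∃ n ∈ normalizer (R : Set G), g = k * n :=
    Cfsg.Agent.Lib.Helper11.exists_mul_of_frattini hRp (by rw [← hO, hsup]; exact hTn)
  set N := normalizer (R : Set G) with hN
  have hSN : (S : Subgroup G) ≤ N := by
    intro s hs
    rw [hN, mem_normalizer_iff]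
    intro h
    constructor
    · intro hh
      exact Subgroup.mem_inf.mpr ⟨mul_mem (mul_mem hs hh.1) (inv_mem hs), hTn.conj_mem h hh.2 s⟩
    · intro hh
      have h1 : h = s⁻¹ * (s * h * s⁻¹) * s⁻¹⁻¹ := by group
      rw [h1]
      exact Subgroup.mem_inf.mpr ⟨mul_mem (mul_mem (inv_mem hs) hh.1) (inv_mem (inv_mem hs)),
        hTn.conj_mem _ hh.2 s⁻¹⟩
  set Y := R ⊓ centralizer (R : Set G) with hY
  have hZY : Z ≤ Y := by
    intro z hz
    refine Subgroup.mem_inf.mpr ⟨Subgroup.mem_inf.mpr ⟨hz.1, hZ hz⟩, ?_⟩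
    exact centralizer_le (show (R : Set G) ⊆ (S : Subgroup G) from fun _ h => h.1) hz.2
  have hYc : Y ≤ centralizer (Y : Set G) := by
    intro y hy
    exact centralizer_le (show (Y : Set G) ⊆ R from fun _ h => h.1) hy.2
  have hNY : N ≤ normalizer (Y : Set G) := by
    intro n hn
    have key : ∀ m ∈ N, ∀ y ∈ Y, m * y * m⁻¹ ∈ Y := by
      intro m hm y hy
      refine Subgroup.mem_inf.mpr ⟨(mem_normalizer_iff.mp hm y).mp hy.1, ?_⟩
      rw [mem_centralizer_iff]
      intro r hr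
      have h1 : m⁻¹ * r * m⁻¹⁻¹ ∈ R := (mem_normalizer_iff.mp (inv_mem hm) r).mp hr
      have h2 := mem_centralizer_iff.mp hy.2 _ h1
      calc r * (m * y * m⁻¹) = m * ((m⁻¹ * r * m⁻¹⁻¹) * y) * m⁻¹ := by group
        _ = m * (y * (m⁻¹ * r * m⁻¹⁻¹)) * m⁻¹ := by rw [h2]
        _ = m * y * m⁻¹ * r := by group
    rw [mem_normalizer_iff]
    intro h
    constructor
    · exact key n hn h
    · intro hh
      have h1 : h = n⁻¹ * (n * h * n⁻¹) * n⁻¹⁻¹ := by group
      rw [h1]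
      exact key _ (inv_mem hn) _ hh
  obtain ⟨τ, hτ⟩ := Cfsg.Agent.Lib.Helper47.exists_isTrace (S : Subgroup G) hYc hNY
  have hτ1 : τ 1 = 1 := by
    have := hτ.mul 1 (one_mem _) 1 (one_mem _)
    rw [mul_one] at this
    exact (mul_eq_left.mp this.symm)
  set W := Y ⊓ centralizer (N : Set G) with hW
  have hWZ : W ≤ Z := by
    intro w hw
    exact Subgroup.mem_inf.mpr ⟨hw.1.1.1,
      centralizer_le (show ((S : Subgroup G) : Set G) ⊆ N from hSN) hw.2⟩
  have hcop : Nat.Coprime ((S : Subgroup G).relIndex N) p := by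
    have h1 : ¬ p ∣ (S : Subgroup G).relIndex N := fun h =>
      S.not_dvd_index (h.trans (Subgroup.relIndex_dvd_index_of_le hSN))
    exact ((Nat.Prime.coprime_iff_not_dvd hp).mpr h1).symm
  have hcopo : ∀ w ∈ (S : Subgroup G), Nat.Coprime ((S : Subgroup G).relIndex N) (orderOf w) := by
    intro w hw
    obtain ⟨k, hk⟩ := S.isPGroup' ⟨w, hw⟩
    have h5 : orderOf w ∣ p ^ k := orderOf_dvd_of_pow_eq_one (congrArg Subtype.val hk)
    exact Nat.Coprime.coprime_dvd_right h5 (Nat.Coprime.pow_right k hcop)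
  let K : Subgroup G :=
    { carrier := {z | z ∈ Z ∧ τ z = 1}
      mul_mem' := by
        rintro a b ⟨ha, ha1⟩ ⟨hb, hb1⟩
        exact ⟨mul_mem ha hb, by rw [hτ.mul a (hZY ha) b (hZY hb), ha1, hb1, one_mul]⟩
      one_mem' := ⟨one_mem _, hτ1⟩
      inv_mem' := by
        rintro a ⟨ha, ha1⟩
        refine ⟨inv_mem ha, ?_⟩
        have := hτ.mul a⁻¹ (hZY (inv_mem ha)) a (hZY ha)
        rw [inv_mul_cancel, hτ1, ha1, mul_one] at this
        exact this.symm }
  have hKmem : ∀ z, z ∈ K ↔ z ∈ Z ∧ τ z = 1 := fun z => Iff.rfl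
  refine ⟨W, K, ?_, fun z hz => ((hKmem z).mp hz).1, ?_, ?_⟩
  · intro x
    constructor
    · intro hx
      refine ⟨hx.1.1.1, ?_⟩
      intro g hg
      obtain ⟨k, hk, n, hn, rfl⟩ := hfr g
      have h1 : n * x * n⁻¹ = x := by
        have := mem_centralizer_iff.mp hx.2 n hn
        rw [this, mul_inv_cancel_right]
      have h2 : k * n * x * (k * n)⁻¹ = k * x * k⁻¹ := by
        calc k * n * x * (k * n)⁻¹ = k * (n * x * n⁻¹) * k⁻¹ := by group
          _ = k * x * k⁻¹ := by rw [h1]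
      rw [h2] at hg ⊢
      have h3 : k * x * k⁻¹ * x⁻¹ ∈ O ⊓ (S : Subgroup G) := by
        refine Subgroup.mem_inf.mpr ⟨?_, mul_mem hg (inv_mem hx.1.1.1)⟩
        have : k * x * k⁻¹ * x⁻¹ = k * (x * k⁻¹ * x⁻¹) := by group
        rw [this]
        exact mul_mem hk (hOn.conj_mem _ (inv_mem hk) x)
      rw [hO, Cfsg.Agent.Lib.Helper11.pPrimeCore_inf_eq_bot S.isPGroup', mem_bot] at h3
      exact mul_inv_eq_one.mp h3
    · rintro ⟨hxS, hx⟩
      have hxZ : x ∈ Z := by
        refine Subgroup.mem_inf.mpr ⟨hxS, ?_⟩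
        rw [mem_centralizer_iff]
        intro s hs
        have := hx s (mul_mem (mul_mem hs hxS) (inv_mem hs))
        calc s * x = (s * x * s⁻¹) * s := by group
          _ = x * s := by rw [this]
      refine Subgroup.mem_inf.mpr ⟨hZY hxZ, ?_⟩
      rw [mem_centralizer_iff]
      intro n hn
      have h1 : n * x * n⁻¹ ∈ R := (mem_normalizer_iff.mp hn x).mp (hZY hxZ).1
      have := hx n h1.1
      calc n * x = (n * x * n⁻¹) * n := by group
        _ = x * n := by rw [this]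
  · rw [eq_bot_iff]
    intro x hx
    obtain ⟨hxW, hxK⟩ := Subgroup.mem_inf.mp hx
    have h1 := hτ.of_fixed x hxW.1 hxW.2
    rw [((hKmem x).mp hxK).2] at h1
    obtain ⟨m, hm⟩ := exists_pow_eq_self_of_coprime (hcopo x hxW.1.1.1)
    rw [mem_bot, ← hm, ← h1, one_pow]
  · apply le_antisymm (sup_le hWZ (fun z hz => ((hKmem z).mp hz).1))
    intro z hz
    have hw : τ z ∈ W := Subgroup.mem_inf.mpr ⟨hτ.mem z (hZY hz), hτ.fixed z (hZY hz) hz.2⟩
    obtain ⟨m, hm⟩ := exists_pow_eq_self_of_coprime (hcopo (τ z) hw.1.1.1)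
    have hw' : (τ z) ^ m ∈ W := pow_mem hw m
    have h1 : τ ((τ z) ^ m) = τ z := by
      rw [hτ.of_fixed _ hw'.1 hw'.2, ← pow_mul, mul_comm, pow_mul, hm]
    have h2 : ((τ z) ^ m)⁻¹ * z ∈ K := by
      rw [hKmem]
      refine ⟨mul_mem (inv_mem (hWZ hw')) hz, ?_⟩
      have h3 := hτ.mul ((τ z) ^ m)⁻¹ (inv_mem hw'.1) ((τ z) ^ m) hw'.1
      rw [inv_mul_cancel, hτ1, h1] at h3
      rw [hτ.mul _ (inv_mem hw'.1) z (hZY hz)]
      exact h3.symm
    have h3 : z = (τ z) ^ m * (((τ z) ^ m)⁻¹ * z) := by group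
    rw [h3]
    exact mul_mem (le_sup_left (b := K) hw') (le_sup_right (a := W) h2)

end Cfsg.Agent.S1944
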