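import Cfsg.Statements.S1947
import Mathlib
import Cfsg.Agent.Lib.Helper1.OmegaLemma
import Cfsg.Agent.Lib.Helper1.Tools

set_option autoImplicit false
open Cfsg

namespace Cfsg.Agent.S1947

open scoped commutatorElement


/-- Let G be a finite group and p a prime. If every element of G of order dividing p (dividing 4 when p = 2) lies in some fixed term Z_n(G) of the upper central series, then G has a normal p-complement. -/
theorem result {G : Type*} [Group G] [Finite G] {p : ℕ} [Fact p.Prime] (n : ℕ)
    (h : ∀ a : G, (a ^ p = 1 ∨ (p = 2 ∧ a ^ 4 = 1)) → a ∈ Subgroup.upperCentralSeries G n) : Cfsg.HasNormalPComplement p G := by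
  obtain ⟨P⟩ : Nonempty (Sylow p G) := inferInstance
  apply Cfsg.Agent.Lib.Helper1.OmegaLemma.hasNormalPComplement_of_small P
  intro Q hQP g hg hgo a ha hsmall
  have hQp : IsPGroup p Q := P.isPGroup'.to_le hQP
  have hAQ : Subgroup.zpowers g ≤ Subgroup.normalizer (Q : Set G) := by
    rw [Subgroup.zpowers_le]; exact hg
  have hcard : (Nat.card (Subgroup.zpowers g)).Coprime p := by
    rw [Nat.card_zpowers]; exact hgo
  have hnorm : ∀ i : ℕ, Subgroup.zpowers g ≤
      Subgroup.normalizer ((Q ⊓ Subgroup.upperCentralSeries G i : Subgroup G) : Set G) := by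
    intro i x hx
    have h1 := Cfsg.Agent.Lib.Helper1.mem_normalizer_iff_conj_smul.1 (hAQ hx)
    rw [Cfsg.Agent.Lib.Helper1.mem_normalizer_iff_conj_smul, Subgroup.smul_inf, h1,
      Subgroup.Normal.conj_smul_eq_self]
  have key : ∀ i : ℕ, ⁅Q ⊓ Subgroup.upperCentralSeries G i, Subgroup.zpowers g⁆ = ⊥ := by
    intro i
    induction i with
    | zero => simp
    | succ i ih =>
      apply Cfsg.Agent.Lib.Helper24.commutator_eq_bot_of_coprime (hnorm (i + 1))
        (Cfsg.Agent.Lib.Helper24.coprime_card_of_isPGroup hcard (hQp.to_le inf_le_left))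
      rw [eq_bot_iff, ← ih]
      apply Subgroup.commutator_mono _ le_rfl
      rw [Subgroup.commutator_le]
      intro d hd x hx
      refine Subgroup.mem_inf.2 ⟨?_, ?_⟩
      · exact (Subgroup.le_normalizer_iff_commutator_le_left.1 hAQ)
          (Subgroup.commutator_mem_commutator (Subgroup.mem_inf.1 hd).1 hx)
      · exact (Subgroup.mem_upperCentralSeries_succ_iff.1 (Subgroup.mem_inf.1 hd).2) x
  have h1 : ⁅a, g⁆ ∈ ⁅Q ⊓ Subgroup.upperCentralSeries G n, Subgroup.zpowers g⁆ :=
    Subgroup.commutator_mem_commutator (Subgroup.mem_inf.2 ⟨ha, h a hsmall⟩)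
      (Subgroup.mem_zpowers g)
  rw [key n, Subgroup.mem_bot, commutatorElement_eq_one_iff_mul_comm] at h1
  exact h1.symm

end Cfsg.Agent.S1947
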