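import Cfsg.Statements.S1948
import Cfsg.Agent.Lib.Lead.Cores
import Cfsg.Agent.Lib.Lead.Residual
import Cfsg.Agent.Lib.Helper76.PSolvable
import Cfsg.Agent.Lib.Helper54.PConstrained

set_option autoImplicit false
open Cfsg

namespace Cfsg.Agent.S1948

open Cfsg.Agent.Lib

theorem cent_normal_sylow_le {G : Type*} [Group G] [Finite G] {p : ℕ} [Fact p.Prime]
    (hK : pPrimeCore p G = ⊥) (S : Sylow p G) [hS : (S : Subgroup G).Normal] :
    Subgroup.centralizer ((S : Subgroup G) : Set G) ≤ (S : Subgroup G) := by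
  have hle : ∀ R : Subgroup G, IsPGroup p R → R ≤ (S : Subgroup G) := fun R hR =>
    Helper76.le_of_isPGroup_of_not_dvd_index (S : Subgroup G) S.not_dvd_index R hR
  apply hle
  have hCn : (Subgroup.centralizer ((S : Subgroup G) : Set G)).Normal := inferInstance
  obtain ⟨P⟩ : Nonempty (Sylow p ↥(Subgroup.centralizer ((S : Subgroup G) : Set G))) := inferInstance
  have hPc : Subgroup.normalizer ((P : Subgroup ↥(Subgroup.centralizer ((S : Subgroup G) : Set G))) :
        Set ↥(Subgroup.centralizer ((S : Subgroup G) : Set G))) ≤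
      Subgroup.centralizer ((P : Subgroup ↥(Subgroup.centralizer ((S : Subgroup G) : Set G))) :
        Set ↥(Subgroup.centralizer ((S : Subgroup G) : Set G))) := by
    intro x _
    rw [Subgroup.mem_centralizer_iff]
    intro y hy
    have hyS : (y : G) ∈ (S : Subgroup G) :=
      hle ((P : Subgroup _).map (Subgroup.subtype _)) (P.2.map _) ⟨y, hy, rfl⟩
    apply Subtype.ext
    exact (Subgroup.mem_centralizer_iff.1 x.2) y hyS
  have hnpc : HasNormalPComplement p ↥(Subgroup.centralizer ((S : Subgroup G) : Set G)) :=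
    ⟨P, _, inferInstance, MonoidHom.ker_transferSylow_isComplement' P hPc⟩
  obtain ⟨k, hk⟩ := Lead.hasNormalPComplement_iff_index_pPrimeCore.1 hnpc
  have h1 := Lead.pPrimeCore_normal_subgroup_le (p := p) (Subgroup.centralizer ((S : Subgroup G) : Set G))
  rw [hK, le_bot_iff, Subgroup.map_eq_bot_iff_of_injective _ (Subgroup.subtype_injective _)] at h1
  rw [h1, Subgroup.index_bot] at hk
  exact IsPGroup.of_card hk

/-- Let S be a Sylow p-subgroup of the finite group G. Then G = N_G(S)·O_{p'}(G) if and only if G is p-constrained and N_G(S) controls fusion in S, in the sense that whenever a subgroup Q of S has a conjugate g Q g⁻¹ inside S, the element g is a product n c with n normalizing S and c centralizing Q. -/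
theorem result {G : Type*} [Group G] [Finite G] {p : ℕ} [Fact p.Prime] (S : Sylow p G) :
    Subgroup.normalizer ((S : Subgroup G) : Set G) ⊔ Cfsg.pPrimeCore p G = ⊤ ↔
      (Cfsg.IsPConstrained p G ∧
        ∀ Q : Subgroup G, Q ≤ (S : Subgroup G) → ∀ g : G, Q.map (MulAut.conj g).toMonoidHom ≤ (S : Subgroup G) →
          ∃ n ∈ Subgroup.normalizer ((S : Subgroup G) : Set G), ∃ c ∈ Subgroup.centralizer (Q : Set G), g = n * c) := by
  have hKn : (pPrimeCore p G).Normal := inferInstance
  have hKc : (Nat.card (pPrimeCore p G)).Coprime p := Lead.card_pPrimeCore_coprime p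
  have hSK : ∀ z, z ∈ (S : Subgroup G) → z ∈ pPrimeCore p G → z = 1 := by
    intro z h1 h2
    obtain ⟨k, hk⟩ := S.2 ⟨z, h1⟩
    have hk' : z ^ p ^ k = 1 := congrArg Subtype.val hk
    have h3 : z ^ Nat.card (pPrimeCore p G) = 1 :=
      congrArg Subtype.val (pow_card_eq_one' (x := (⟨z, h2⟩ : pPrimeCore p G)))
    exact Helper54.eq_one_of_pow_of_coprime hk' h3 hKc
  have hπ1 : ∀ k ∈ pPrimeCore p G, QuotientGroup.mk' (pPrimeCore p G) k = 1 :=
    fun k hk => (QuotientGroup.eq_one_iff k).2 hk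
  constructor
  · intro htop
    have hdec : ∀ g : G, ∃ n ∈ Subgroup.normalizer ((S : Subgroup G) : Set G), ∃ k ∈ pPrimeCore p G,
        n * k = g := by
      intro g
      exact Subgroup.mem_sup_of_normal_right.1 (htop ▸ Subgroup.mem_top g)
    constructor
    · rw [Helper54.isPConstrained_iff_quotient]
      have hSbn : ((S.mapSurjective (QuotientGroup.mk'_surjective (pPrimeCore p G)) :
          Sylow p (G ⧸ pPrimeCore p G)) : Subgroup (G ⧸ pPrimeCore p G)).Normal := by
        rw [Sylow.coe_mapSurjective]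
        constructor
        rintro _ ⟨s, hs, rfl⟩ gb
        obtain ⟨g, rfl⟩ := QuotientGroup.mk'_surjective (pPrimeCore p G) gb
        obtain ⟨n, hn, k, hk, rfl⟩ := hdec g
        refine ⟨n * s * n⁻¹, (Subgroup.mem_normalizer_iff.1 hn s).1 hs, ?_⟩
        simp only [map_mul, map_inv, hπ1 k hk, mul_one]
      have h1 := Lead.pCore_eq_of_normal_sylow
        (S.mapSurjective (QuotientGroup.mk'_surjective (pPrimeCore p G)))
      unfold Helper54.SelfCentPCore
      rw [h1]
      exact cent_normal_sylow_le (Lead.pPrimeCore_quotient_pPrimeCore p G) _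
    · intro Q hQ g hg
      obtain ⟨n, hn, k, hk, rfl⟩ := hdec g
      refine ⟨n, hn, k, ?_, rfl⟩
      rw [Subgroup.mem_centralizer_iff]
      intro u hu
      have h1 : n * (k * u * k⁻¹) * n⁻¹ ∈ (S : Subgroup G) := by
        have := hg ⟨u, hu, rfl⟩
        simp only [MulEquiv.coe_toMonoidHom, MulAut.conj_apply] at this
        convert this using 1
        group
      have h2 : k * u * k⁻¹ ∈ (S : Subgroup G) := (Subgroup.mem_normalizer_iff.1 hn _).2 h1
      have h3 : k * u * k⁻¹ * u⁻¹ ∈ (S : Subgroup G) := mul_mem h2 (inv_mem (hQ hu))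
      have h4 : k * u * k⁻¹ * u⁻¹ ∈ pPrimeCore p G := by
        have := mul_mem hk (hKn.conj_mem _ (inv_mem hk) u)
        convert this using 1
        group
      have h5 := hSK _ h3 h4
      have h6 : k * u = (k * u * k⁻¹ * u⁻¹) * (u * k) := by group
      rw [h6, h5, one_mul]
  · rintro ⟨hcon, hfus⟩
    rw [Helper54.isPConstrained_iff_quotient] at hcon
    rw [eq_top_iff]
    intro g _
    obtain ⟨T, hT⟩ : ∃ T : Subgroup G, T = (S : Subgroup G) ⊓
      (pCore p (G ⧸ pPrimeCore p G)).comap (QuotientGroup.mk' (pPrimeCore p G)) := ⟨_, rfl⟩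
    have hTS : T ≤ (S : Subgroup G) := hT ▸ inf_le_left
    have hTp : IsPGroup p T := S.2.to_le hTS
    have hlift : ∀ o ∈ pCore p (G ⧸ pPrimeCore p G), ∃ t ∈ T, QuotientGroup.mk' (pPrimeCore p G) t = o := by
      intro o ho
      have h1 := Lead.pCore_le_sylow (S.mapSurjective (QuotientGroup.mk'_surjective (pPrimeCore p G))) ho
      rw [Sylow.coe_mapSurjective] at h1
      obtain ⟨s, hs, rfl⟩ := h1
      exact ⟨s, hT ▸ ⟨hs, ho⟩, rfl⟩
    have hTO : ∀ t ∈ T, QuotientGroup.mk' (pPrimeCore p G) t ∈ pCore p (G ⧸ pPrimeCore p G) := by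
      intro t ht
      rw [hT] at ht
      exact ht.2
    have hOn : (pCore p (G ⧸ pPrimeCore p G)).Normal := inferInstance
    have hmemTK : ∀ c : G, QuotientGroup.mk' (pPrimeCore p G) c ∈ pCore p (G ⧸ pPrimeCore p G) →
        ∃ t ∈ T, ∃ k ∈ pPrimeCore p G, c = t * k := by
      intro c hc
      obtain ⟨t, ht, hteq⟩ := hlift _ hc
      refine ⟨t, ht, t⁻¹ * c, ?_, by group⟩
      rw [← QuotientGroup.eq_one_iff]
      change QuotientGroup.mk' (pPrimeCore p G) (t⁻¹ * c) = 1
      rw [map_mul, map_inv, hteq, inv_mul_cancel]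
    obtain ⟨w, hw, hwg⟩ := Helper54.exists_mul_mem_normalizer (pPrimeCore p G) hKc T hTp g (by
      intro t ht
      have h1 : QuotientGroup.mk' (pPrimeCore p G) (g * t * g⁻¹) ∈ pCore p (G ⧸ pPrimeCore p G) := by
        rw [map_mul, map_mul, map_inv]
        exact hOn.conj_mem _ (hTO t ht) _
      obtain ⟨t', ht', k, hk, h2⟩ := hmemTK _ h1
      rw [h2]
      exact mul_mem ((le_sup_left : T ≤ T ⊔ pPrimeCore p G) ht') ((le_sup_right : _ ≤ T ⊔ pPrimeCore p G) hk))
    obtain ⟨n, hn, c, hc, hnc⟩ := hfus T hTS (w * g) (by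
      rintro _ ⟨t, ht, rfl⟩
      apply hTS
      exact (Subgroup.mem_normalizer_iff.1 hwg t).1 ht)
    have hcO : QuotientGroup.mk' (pPrimeCore p G) c ∈ pCore p (G ⧸ pPrimeCore p G) := by
      apply hcon
      rw [Subgroup.mem_centralizer_iff]
      intro o ho
      obtain ⟨t, ht, rfl⟩ := hlift o ho
      rw [← map_mul, ← map_mul, (Subgroup.mem_centralizer_iff.1 hc) t ht]
    obtain ⟨t, ht, k, hk, rfl⟩ := hmemTK c hcO
    have hg : g = w⁻¹ * (n * t * k) := by
      rw [mul_assoc n t k, ← hnc]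
      group
    rw [hg]
    have hSN : (S : Subgroup G) ≤ Subgroup.normalizer ((S : Subgroup G) : Set G) := Subgroup.le_normalizer
    refine mul_mem ((le_sup_right : pPrimeCore p G ≤ _) (inv_mem hw)) (mul_mem ((le_sup_left : Subgroup.normalizer ((S : Subgroup G) : Set G) ≤ _) (mul_mem hn (hSN (hTS ht)))) ((le_sup_right : pPrimeCore p G ≤ _) hk))

end Cfsg.Agent.S1948
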