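import Mathlib
import Cfsg.Statements.S1949

set_option autoImplicit false
open Cfsg

namespace Cfsg.Agent.S1949

theorem pResidual_conj_mem (p : ℕ) {X : Type*} [Group X] (g n : X)
    (hn : n ∈ Cfsg.pResidual p X) : g * n * g⁻¹ ∈ Cfsg.pResidual p X := by
  unfold Cfsg.pResidual at *
  induction hn using Subgroup.closure_induction with
  | mem x hx =>
    apply Subgroup.subset_closure
    have h1 : orderOf (g * x * g⁻¹) = orderOf x := by
      have := (MulAut.conj g).orderOf_eq x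
      simpa [MulAut.conj_apply] using this
    show Nat.Coprime (orderOf (g * x * g⁻¹)) p
    rw [h1]; exact hx
  | one => simp
  | mul x y _ _ hx hy =>
    have : g * (x * y) * g⁻¹ = (g * x * g⁻¹) * (g * y * g⁻¹) := by group
    rw [this]; exact mul_mem hx hy
  | inv x _ hx =>
    have : g * x⁻¹ * g⁻¹ = (g * x * g⁻¹)⁻¹ := by group
    rw [this]; exact inv_mem hx

/-- coprime automorphism: `[x,α,α]=1 → [x,α]=1`. -/
theorem fix_of_comm_fixed {P : Type*} [Group P] {p : ℕ} [Fact p.Prime]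
    (hP : IsPGroup p P) (α : MulAut P) (hα : (orderOf α).Coprime p) (x : P)
    (h : α (x⁻¹ * α x) = x⁻¹ * α x) : α x = x := by
  obtain ⟨c, hc⟩ : ∃ c, c = x⁻¹ * α x := ⟨_, rfl⟩
  rw [← hc] at h
  have hx : α x = x * c := by rw [hc]; group
  have hpow : ∀ n : ℕ, (α ^ n) x = x * c ^ n := by
    intro n
    induction n with
    | zero => simp
    | succ n ih =>
      rw [pow_succ', MulAut.mul_apply, ih, map_mul, map_pow, h, hx, pow_succ', mul_assoc]
  have h1 := hpow (orderOf α)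
  rw [pow_orderOf_eq_one, MulAut.one_apply] at h1
  have h2 : c ^ orderOf α = 1 := by
    have : x * c ^ orderOf α = x * 1 := by rw [mul_one]; exact h1.symm
    exact mul_left_cancel this
  obtain ⟨k, hk⟩ := hP c
  have h3 : orderOf c ∣ orderOf α := orderOf_dvd_of_pow_eq_one h2
  have h4 : orderOf c ∣ p ^ k := orderOf_dvd_of_pow_eq_one hk
  have h5 : orderOf c = 1 := by
    have : Nat.Coprime (orderOf α) (p ^ k) := Nat.Coprime.pow_right k hα
    exact Nat.eq_one_of_dvd_coprimes this h3 h4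
  have h6 : c = 1 := orderOf_eq_one_iff.mp h5
  rw [hx, h6, mul_one]

/-- A nontrivial normal subgroup of a finite `p`-group contains a central element of order `p`. -/
theorem exists_central {X : Type*} [Group X] [Finite X] {p : ℕ} [Fact p.Prime]
    (hX : IsPGroup p X) (N : Subgroup X) [N.Normal] (hN : N ≠ ⊥) :
    ∃ z ∈ N, z ∈ Subgroup.center X ∧ z ≠ 1 ∧ z ^ p = 1 := by
  have hcard : p ∣ Nat.card N := by
    rcases (hX.to_subgroup N).card_eq_or_dvd with h | h
    · exact absurd (Subgroup.card_eq_one.mp h) hN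
    · exact h
  have hfix : (1 : N) ∈ MulAction.fixedPoints (ConjAct X) N := by
    intro g
    exact smul_one g
  obtain ⟨b, hb, hne⟩ :=
    (hX.of_equiv ConjAct.toConjAct).exists_fixed_point_of_prime_dvd_card_of_fixed_point N hcard hfix
  have hbc : (b : X) ∈ Subgroup.center X := by
    rw [Subgroup.mem_center_iff]
    intro g
    have h1 := hb (ConjAct.toConjAct g)
    have h2 : g * (b : X) * g⁻¹ = b := by
      have := congrArg Subtype.val h1
      simpa [ConjAct.Subgroup.val_conj_smul, ConjAct.toConjAct_smul] using this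
    calc g * (b : X) = g * b * g⁻¹ * g := by group
      _ = b * g := by rw [h2]
  have hb1 : (b : X) ≠ 1 := by
    intro h
    apply hne
    exact Subtype.ext h.symm
  -- take a power of order p
  obtain ⟨k, hk⟩ := IsPGroup.iff_orderOf.mp hX (b : X)
  cases k with
  | zero =>
    rw [pow_zero, orderOf_eq_one_iff] at hk
    exact absurd hk hb1
  | succ k =>
    refine ⟨(b : X) ^ (p ^ k), pow_mem b.2 _, pow_mem hbc _, ?_, ?_⟩
    · intro h
      have h1 := orderOf_dvd_of_pow_eq_one h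
      rw [hk] at h1
      have h2 := Nat.le_of_dvd (pow_pos (Fact.out (p := p.Prime)).pos k) h1
      have h3 : p ^ k < p ^ (k + 1) := Nat.pow_lt_pow_right (Fact.out (p := p.Prime)).one_lt (Nat.lt_succ_self k)
      omega
    · rw [← pow_mul, ← pow_succ, ← hk, pow_orderOf_eq_one]

theorem pow_mul_comm_class2 {P : Type*} [Group P] (x y c : P) (hyx : y * x = x * y * c)
    (hcy : Commute c y) (n : ℕ) : y ^ n * x = x * y ^ n * c ^ n := by
  induction n with
  | zero => simp
  | succ n ih =>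
    have h1 : Commute (c ^ n) y := hcy.pow_left n
    calc y ^ (n + 1) * x = y ^ n * (y * x) := by rw [pow_succ]; group
      _ = (y ^ n * x) * y * c := by rw [hyx]; group
      _ = x * y ^ n * (c ^ n * y) * c := by rw [ih]; group
      _ = x * y ^ n * (y * c ^ n) * c := by rw [h1.eq]
      _ = x * y ^ (n + 1) * c ^ (n + 1) := by rw [pow_succ, pow_succ]; group

theorem mul_pow_class2 {P : Type*} [Group P] (x y c : P) (hyx : y * x = x * y * c)
    (hcx : Commute c x) (hcy : Commute c y) (n : ℕ) :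
    (x * y) ^ n = x ^ n * y ^ n * c ^ (n * (n - 1) / 2) := by
  induction n with
  | zero => simp
  | succ n ih =>
    have h1 : Commute (c ^ (n * (n - 1) / 2)) x := hcx.pow_left _
    have h2 : Commute (c ^ (n * (n - 1) / 2)) y := hcy.pow_left _
    have h3 : Commute (c ^ n) y := hcy.pow_left n
    have h4 := pow_mul_comm_class2 x y c hyx hcy n
    rw [Nat.triangle_succ]
    calc (x * y) ^ (n + 1) = x ^ n * y ^ n * (c ^ (n * (n - 1) / 2) * x) * y := by
          rw [pow_succ, ih]; group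
      _ = x ^ n * (y ^ n * x) * (c ^ (n * (n - 1) / 2) * y) := by rw [h1.eq]; group
      _ = x ^ n * (x * y ^ n * c ^ n) * (y * c ^ (n * (n - 1) / 2)) := by rw [h4, h2.eq]
      _ = x ^ n * x * y ^ n * (c ^ n * y) * c ^ (n * (n - 1) / 2) := by group
      _ = x ^ n * x * y ^ n * (y * c ^ n) * c ^ (n * (n - 1) / 2) := by rw [h3.eq]
      _ = x ^ (n + 1) * y ^ (n + 1) * c ^ (n * (n - 1) / 2 + n) := by
          rw [pow_succ, pow_succ, pow_add, (Commute.pow_pow_self c _ n).eq]; group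

/-- central elements of order dividing `p`. -/
def omegaCenter (p : ℕ) (X : Type*) [Group X] : Subgroup X where
  carrier := {z | z ∈ Subgroup.center X ∧ z ^ p = 1}
  one_mem' := ⟨one_mem _, one_pow _⟩
  mul_mem' := by
    rintro a b ⟨ha, ha'⟩ ⟨hb, hb'⟩
    refine ⟨mul_mem ha hb, ?_⟩
    have hc : Commute a b := (Subgroup.mem_center_iff.mp ha b).symm
    rw [hc.mul_pow, ha', hb', one_mul]
  inv_mem' := by
    rintro a ⟨ha, ha'⟩
    exact ⟨inv_mem ha, by rw [inv_pow, ha', inv_one]⟩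

/-- the critical subgroup attached to `H ≤ Q`. -/
def critC {P : Type*} [Group P] (p : ℕ) (Q H : Subgroup P) [H.Normal] : Subgroup P :=
  (Q ⊓ Subgroup.centralizer (H : Set P)) ⊓ (omegaCenter p (P ⧸ H)).comap (QuotientGroup.mk' H)

theorem mem_critC_iff {P : Type*} [Group P] (p : ℕ) (Q H : Subgroup P) [H.Normal] (x : P) :
    x ∈ critC p Q H ↔ x ∈ Q ∧ (∀ h ∈ H, h * x = x * h) ∧ x ^ p ∈ H ∧
      ∀ g : P, x * g * x⁻¹ * g⁻¹ ∈ H := by
  unfold critC
  rw [Subgroup.mem_inf, Subgroup.mem_inf, Subgroup.mem_centralizer_iff, Subgroup.mem_comap]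
  have key : (QuotientGroup.mk' H x ∈ omegaCenter p (P ⧸ H)) ↔
      (x ^ p ∈ H ∧ ∀ g : P, x * g * x⁻¹ * g⁻¹ ∈ H) := by
    show (QuotientGroup.mk' H x ∈ Subgroup.center (P ⧸ H) ∧ (QuotientGroup.mk' H x) ^ p = 1) ↔ _
    rw [← map_pow, QuotientGroup.mk'_apply, QuotientGroup.mk'_apply, QuotientGroup.eq_one_iff,
      Subgroup.mem_center_iff]
    constructor
    · rintro ⟨h1, h2⟩
      refine ⟨h2, fun g => ?_⟩
      rw [← QuotientGroup.eq_one_iff]
      have := h1 (g : P ⧸ H)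
      rw [QuotientGroup.mk_mul, QuotientGroup.mk_mul, QuotientGroup.mk_mul, QuotientGroup.mk_inv,
        QuotientGroup.mk_inv, ← this]; group
    · rintro ⟨h1, h2⟩
      refine ⟨fun g => ?_, h1⟩
      induction g using QuotientGroup.induction_on with
      | H g =>
        have := (QuotientGroup.eq_one_iff _).mpr (h2 g)
        rw [QuotientGroup.mk_mul, QuotientGroup.mk_mul, QuotientGroup.mk_mul, QuotientGroup.mk_inv,
          QuotientGroup.mk_inv] at this
        have h3 : (x : P ⧸ H) * g = g * x := by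
          calc (x : P ⧸ H) * g = ((x : P ⧸ H) * g * (x : P ⧸ H)⁻¹ * (g : P ⧸ H)⁻¹) * (g * x) := by group
            _ = g * x := by rw [this, one_mul]
        exact h3.symm
  rw [key]
  tauto

theorem result {P : Type*} [Group P] [Finite P] {p : ℕ} [Fact p.Prime] (hP : IsPGroup p P)
    (G : Subgroup (MulAut P)) (hG : Cfsg.Inn P ≤ G) :
    ∃ D : Subgroup P,
      (∀ α ∈ G, D.map α.toMonoidHom = D) ∧
      D ≤ Subgroup.closure {y : P | ∃ α ∈ Cfsg.pResidual p ↥G, ∃ x : P, y = x⁻¹ * (α : MulAut P) x} ∧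
      (∀ d ∈ D, d ^ p = 1 ∨ (p = 2 ∧ d ^ 4 = 1)) ∧
      ⁅D, (⊤ : Subgroup P)⁆ ≤ D ⊓ Subgroup.centralizer (D : Set P) ∧
      (∀ α ∈ G, (orderOf α).Coprime p → (∀ d ∈ D, α d = d) → α = 1) ∧
      ∀ A : Subgroup P, A ≤ D → IsMulCommutative ↥A →
        (∀ B : Subgroup P, A ≤ B → B ≤ D → IsMulCommutative ↥B → B = A) →
        A.Normal ∧ ∀ α ∈ G, (∀ a ∈ A, α a = a) → ∃ k : ℕ, orderOf α = p ^ k := by
  have hp : p.Prime := Fact.out
  obtain ⟨Q, hQdef⟩ : ∃ Q : Subgroup P, Q = Subgroup.closure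
      {y : P | ∃ α ∈ Cfsg.pResidual p ↥G, ∃ x : P, y = x⁻¹ * (α : MulAut P) x} := ⟨_, rfl⟩
  rw [← hQdef]
  have hnormal : ∀ H : Subgroup P, (∀ α ∈ G, ∀ x ∈ H, α x ∈ H) → H.Normal := by
    intro H hH
    constructor
    intro n hn g
    have := hH (MulAut.conj g) (hG ⟨g, rfl⟩) n hn
    simpa [MulAut.conj_apply] using this
  have hQinv : ∀ α ∈ G, ∀ x ∈ Q, α x ∈ Q := by
    intro β hβ x hx
    rw [hQdef] at hx ⊢
    induction hx using Subgroup.closure_induction with
    | mem y hy =>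
      obtain ⟨α, hα, x, rfl⟩ := hy
      apply Subgroup.subset_closure
      have h1 := pResidual_conj_mem p (⟨β, hβ⟩ : ↥G) α hα
      refine ⟨_, h1, β x, ?_⟩
      have h2 : (((⟨β, hβ⟩ : ↥G) * α * (⟨β, hβ⟩ : ↥G)⁻¹ : ↥G) : MulAut P) = β * (α : MulAut P) * β⁻¹ := rfl
      rw [h2, map_mul, map_inv, MulAut.mul_apply, MulAut.mul_apply, MulAut.inv_apply_self]
    | one => simp
    | mul a b _ _ ha hb => rw [map_mul]; exact mul_mem ha hb
    | inv a _ ha => rw [map_inv]; exact inv_mem ha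
  have hQcomm : ∀ α ∈ G, (orderOf α).Coprime p → ∀ x : P, x⁻¹ * α x ∈ Q := by
    intro α hα hco x
    rw [hQdef]
    apply Subgroup.subset_closure
    refine ⟨⟨α, hα⟩, Subgroup.subset_closure ?_, x, rfl⟩
    show Nat.Coprime (orderOf (⟨α, hα⟩ : ↥G)) p
    rw [← Subgroup.orderOf_coe]; exact hco
  -- a maximal invariant abelian subgroup of `Q`
  obtain ⟨H, hHmax⟩ := (Set.toFinite {H : Subgroup P | (∀ α ∈ G, ∀ x ∈ H, α x ∈ H) ∧ H ≤ Q ∧
      ∀ x ∈ H, ∀ y ∈ H, x * y = y * x}).exists_maximal ⟨⊥, by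
        refine ⟨?_, bot_le, ?_⟩
        · intro α _ x hx
          rw [Subgroup.mem_bot] at hx ⊢
          rw [hx, map_one]
        · intro x hx y hy
          rw [Subgroup.mem_bot] at hx hy
          rw [hx, hy]⟩
  obtain ⟨⟨hHinv, hHQ, hHab⟩, hHmax'⟩ := hHmax
  have hHn : H.Normal := hnormal H hHinv
  obtain ⟨C, hCdef⟩ : ∃ C : Subgroup P, C = critC p Q H := ⟨_, rfl⟩
  have hCmem : ∀ x, x ∈ C ↔ x ∈ Q ∧ (∀ h ∈ H, h * x = x * h) ∧ x ^ p ∈ H ∧
      ∀ g : P, x * g * x⁻¹ * g⁻¹ ∈ H := by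
    intro x; rw [hCdef]; exact mem_critC_iff p Q H x
  have hHC : H ≤ C := by
    intro x hx
    rw [hCmem]
    refine ⟨hHQ hx, fun h hh => hHab h hh x hx, pow_mem hx p, fun g => ?_⟩
    have h1 : g * x⁻¹ * g⁻¹ ∈ H := hHn.conj_mem _ (inv_mem hx) g
    have h2 : x * g * x⁻¹ * g⁻¹ = x * (g * x⁻¹ * g⁻¹) := by group
    rw [h2]; exact mul_mem hx h1
  have hCQ : C ≤ Q := fun x hx => ((hCmem x).mp hx).1
  have hCinv : ∀ α ∈ G, ∀ x ∈ C, α x ∈ C := by
    intro α hα x hx
    obtain ⟨h1, h2, h3, h4⟩ := (hCmem x).mp hx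
    rw [hCmem]
    refine ⟨hQinv α hα x h1, ?_, ?_, ?_⟩
    · intro h hh
      have h5 := h2 (α⁻¹ h) (hHinv α⁻¹ (inv_mem hα) h hh)
      have h6 := congrArg α h5
      rw [map_mul, map_mul, MulAut.apply_inv_self] at h6
      exact h6
    · rw [← map_pow]; exact hHinv α hα _ h3
    · intro g
      have h5 := hHinv α hα _ (h4 (α⁻¹ g))
      rw [map_mul, map_mul, map_mul, map_inv, map_inv, MulAut.apply_inv_self] at h5
      exact h5
  have hCn : C.Normal := hnormal C hCinv
  -- centre of C is H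
  have hZC : ∀ x ∈ C, (∀ c ∈ C, c * x = x * c) → x ∈ H := by
    intro x hx hxc
    have hmem : (C ⊓ Subgroup.centralizer (C : Set P)) ∈ {H : Subgroup P |
        (∀ α ∈ G, ∀ x ∈ H, α x ∈ H) ∧ H ≤ Q ∧ ∀ x ∈ H, ∀ y ∈ H, x * y = y * x} := by
      refine ⟨?_, inf_le_left.trans hCQ, ?_⟩
      · intro α hα y hy
        obtain ⟨hy1, hy2⟩ := Subgroup.mem_inf.mp hy
        refine Subgroup.mem_inf.mpr ⟨hCinv α hα y hy1, ?_⟩
        rw [Subgroup.mem_centralizer_iff] at hy2 ⊢
        intro c hc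
        have h5 := hy2 (α⁻¹ c) (hCinv α⁻¹ (inv_mem hα) c hc)
        have h6 := congrArg α h5
        rw [map_mul, map_mul, MulAut.apply_inv_self] at h6
        exact h6
      · intro a ha b hb
        obtain ⟨ha1, _⟩ := Subgroup.mem_inf.mp ha
        obtain ⟨_, hb2⟩ := Subgroup.mem_inf.mp hb
        rw [Subgroup.mem_centralizer_iff] at hb2
        exact hb2 a ha1
    have hle : H ≤ C ⊓ Subgroup.centralizer (C : Set P) := by
      intro h hh
      refine Subgroup.mem_inf.mpr ⟨hHC hh, ?_⟩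
      rw [Subgroup.mem_centralizer_iff]
      intro c hc
      exact (((hCmem c).mp hc).2.1 h hh).symm
    have := hHmax' hmem hle
    apply this
    refine Subgroup.mem_inf.mpr ⟨hx, ?_⟩
    rw [Subgroup.mem_centralizer_iff]
    exact hxc
  -- C_Q(C) = H
  have hCQC : ∀ x ∈ Q, (∀ c ∈ C, c * x = x * c) → x ∈ H := by
    intro x hx hxc
    by_contra hxH
    obtain ⟨L, hL⟩ : ∃ L : Subgroup P, L = Q ⊓ Subgroup.centralizer (C : Set P) := ⟨_, rfl⟩
    have hLinv : ∀ α ∈ G, ∀ y ∈ L, α y ∈ L := by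
      intro α hα y hy
      rw [hL] at hy ⊢
      obtain ⟨hy1, hy2⟩ := Subgroup.mem_inf.mp hy
      refine Subgroup.mem_inf.mpr ⟨hQinv α hα y hy1, ?_⟩
      rw [Subgroup.mem_centralizer_iff] at hy2 ⊢
      intro c hc
      have h5 := hy2 (α⁻¹ c) (hCinv α⁻¹ (inv_mem hα) c hc)
      have h6 := congrArg α h5
      rw [map_mul, map_mul, MulAut.apply_inv_self] at h6
      exact h6
    have hLn : L.Normal := hnormal L hLinv
    have hLmapn : (L.map (QuotientGroup.mk' H)).Normal :=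
      hLn.map _ (QuotientGroup.mk'_surjective H)
    have hxL : x ∈ L := by
      rw [hL]
      refine Subgroup.mem_inf.mpr ⟨hx, ?_⟩
      rw [Subgroup.mem_centralizer_iff]; exact hxc
    have hne : L.map (QuotientGroup.mk' H) ≠ ⊥ := by
      intro h
      have h1 : QuotientGroup.mk' H x ∈ L.map (QuotientGroup.mk' H) := Subgroup.mem_map_of_mem _ hxL
      rw [h, Subgroup.mem_bot, QuotientGroup.mk'_apply, QuotientGroup.eq_one_iff] at h1
      exact hxH h1
    obtain ⟨z, hzL, hzc, hz1, hzp⟩ := exists_central (hP.to_quotient H) _ hne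
    obtain ⟨y, hyL, rfl⟩ := hzL
    have hyL' := hyL
    rw [hL] at hyL'
    obtain ⟨hy1, hy2⟩ := Subgroup.mem_inf.mp hyL'
    rw [Subgroup.mem_centralizer_iff] at hy2
    have hyC : y ∈ C := by
      rw [hCdef]
      unfold critC
      refine Subgroup.mem_inf.mpr ⟨Subgroup.mem_inf.mpr ⟨hy1, ?_⟩, ?_⟩
      · rw [Subgroup.mem_centralizer_iff]
        intro h hh
        exact hy2 h (hHC hh)
      · exact ⟨hzc, hzp⟩
    apply hz1
    rw [QuotientGroup.mk'_apply, QuotientGroup.eq_one_iff]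
    exact hZC y hyC hy2
  -- the exponent
  obtain ⟨e, he1, he2, he3⟩ : ∃ e : ℕ, p ∣ e ∧ p ∣ e * (e - 1) / 2 ∧ (e = p ∨ (p = 2 ∧ e = 4)) := by
    rcases hp.eq_two_or_odd' with h2 | hodd
    · refine ⟨4, ?_, ?_, Or.inr ⟨h2, rfl⟩⟩
      · rw [h2]; norm_num
      · rw [h2]; norm_num
    · refine ⟨p, dvd_rfl, ?_, Or.inl rfl⟩
      obtain ⟨k, hk⟩ := hodd
      have h1 : p - 1 = 2 * k := by omega
      have h2 : p * (2 * k) / 2 = p * k := by
        rw [show p * (2 * k) = 2 * (p * k) by ring]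
        exact Nat.mul_div_cancel_left _ (by norm_num)
      rw [h1, h2]
      exact dvd_mul_right p k
  have hCe : ∀ x ∈ C, x ^ e ∈ H := by
    intro x hx
    obtain ⟨m, rfl⟩ := he1
    rw [pow_mul]
    exact pow_mem ((hCmem x).mp hx).2.2.1 m
  have hmulpow : ∀ x ∈ C, ∀ y ∈ C, (x * y) ^ e = x ^ e * y ^ e := by
    intro x hx y hy
    obtain ⟨c, hc⟩ : ∃ c, c = y⁻¹ * x⁻¹ * y * x := ⟨_, rfl⟩
    have hcH : c ∈ H := by
      have := ((hCmem y⁻¹).mp (inv_mem hy)).2.2.2 x⁻¹
      rw [inv_inv, inv_inv] at this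
      rw [hc]; exact this
    have hyx : y * x = x * y * c := by rw [hc]; group
    have hcx : Commute c x := ((hCmem x).mp hx).2.1 c hcH
    have hcy : Commute c y := ((hCmem y).mp hy).2.1 c hcH
    have hcp : c ^ p = 1 := by
      have h1 := pow_mul_comm_class2 x y c hyx hcy p
      have h2 : y ^ p * x = x * y ^ p := ((hCmem x).mp hx).2.1 _ ((hCmem y).mp hy).2.2.1
      rw [h2] at h1
      have h3 : x * y ^ p * 1 = x * y ^ p * c ^ p := by rw [mul_one]; exact h1
      exact (mul_left_cancel h3).symm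
    have h4 := mul_pow_class2 x y c hyx hcx hcy e
    obtain ⟨m, hm⟩ := he2
    rw [hm, pow_mul, hcp, one_pow, mul_one] at h4
    exact h4
  obtain ⟨D, hD⟩ : ∃ D : Subgroup P, ∀ x, x ∈ D ↔ x ∈ C ∧ x ^ e = 1 :=
    ⟨{ carrier := {x | x ∈ C ∧ x ^ e = 1}
       one_mem' := ⟨one_mem _, one_pow _⟩
       mul_mem' := by
         rintro a b ⟨ha, ha'⟩ ⟨hb, hb'⟩
         exact ⟨mul_mem ha hb, by rw [hmulpow a ha b hb, ha', hb', one_mul]⟩
       inv_mem' := by
         rintro a ⟨ha, ha'⟩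
         exact ⟨inv_mem ha, by rw [inv_pow, ha', inv_one]⟩ }, fun x => Iff.rfl⟩
  have hDC : D ≤ C := fun x hx => ((hD x).mp hx).1
  have hDinv : ∀ α ∈ G, ∀ x ∈ D, α x ∈ D := by
    intro α hα x hx
    obtain ⟨h1, h2⟩ := (hD x).mp hx
    rw [hD]
    exact ⟨hCinv α hα x h1, by rw [← map_pow, h2, map_one]⟩
  have hDn : D.Normal := hnormal D hDinv
  -- commutators
  have hcomm : ∀ d ∈ D, ∀ g : P, d * g * d⁻¹ * g⁻¹ ∈ D ⊓ Subgroup.centralizer (D : Set P) := by
    intro d hd g
    refine Subgroup.mem_inf.mpr ⟨?_, ?_⟩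
    · have h1 : g * d⁻¹ * g⁻¹ ∈ D := hDn.conj_mem _ (inv_mem hd) g
      have h2 : d * g * d⁻¹ * g⁻¹ = d * (g * d⁻¹ * g⁻¹) := by group
      rw [h2]; exact mul_mem hd h1
    · rw [Subgroup.mem_centralizer_iff]
      intro d' hd'
      exact (((hCmem d').mp (hDC hd')).2.1 _ (((hCmem d).mp (hDC hd)).2.2.2 g)).symm
  -- faithfulness
  have hfaith : ∀ α ∈ G, (orderOf α).Coprime p → (∀ d ∈ D, α d = d) → α = 1 := by
    intro α hα hco hfix
    have hstep : ∀ n : ℕ, ∀ x ∈ C, x ^ (e ^ n) = 1 → α x = x := by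
      intro n
      induction n with
      | zero =>
        intro x _ hx1
        rw [pow_zero, pow_one] at hx1
        rw [hx1, map_one]
      | succ n ih =>
        intro x hx hx1
        have h1 : α (x ^ e) = x ^ e := by
          apply ih _ (hHC (hCe x hx))
          rw [← pow_mul, ← pow_succ']; exact hx1
        apply fix_of_comm_fixed hP α hco
        apply hfix
        rw [hD]
        refine ⟨mul_mem (inv_mem hx) (hCinv α hα x hx), ?_⟩
        rw [hmulpow _ (inv_mem hx) _ (hCinv α hα x hx), ← map_pow, h1, inv_pow, inv_mul_cancel]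
    have hfixC : ∀ x ∈ C, α x = x := by
      intro x hx
      obtain ⟨k, hk⟩ := hP x
      apply hstep k x hx
      obtain ⟨m, hm⟩ := pow_dvd_pow_of_dvd he1 k
      rw [hm, pow_mul, hk, one_pow]
    have hfixQ : ∀ x ∈ Q, α x = x := by
      intro q hq
      apply fix_of_comm_fixed hP α hco
      apply hfixC
      apply hHC
      apply hCQC _ (mul_mem (inv_mem hq) (hQinv α hα q hq))
      intro c hc
      have h1 : q * c * q⁻¹ ∈ C := hCn.conj_mem c hc q
      have h2 := hfixC _ h1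
      rw [map_mul, map_mul, map_inv, hfixC c hc] at h2
      -- α q * c * (α q)⁻¹ = q * c * q⁻¹
      have h3 : c * (q⁻¹ * α q) = q⁻¹ * (q * c * q⁻¹) * α q := by group
      rw [h3, ← h2]; group
    ext x
    rw [MulAut.one_apply]
    apply fix_of_comm_fixed hP α hco
    exact hfixQ _ (hQcomm α hα hco x)
  refine ⟨D, ?_, hDC.trans hCQ, ?_, ?_, hfaith, ?_⟩
  · intro α hα
    apply le_antisymm
    · rintro _ ⟨x, hx, rfl⟩
      exact hDinv α hα x hx
    · intro x hx
      exact ⟨α⁻¹ x, hDinv α⁻¹ (inv_mem hα) x hx, MulAut.apply_inv_self _ α x⟩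
  · intro d hd
    have h1 := ((hD d).mp hd).2
    rcases he3 with h | ⟨h2, h4⟩
    · left; rw [← h]; exact h1
    · right; exact ⟨h2, by rw [← h4]; exact h1⟩
  · rw [Subgroup.commutator_le]
    intro d hd g _
    rw [commutatorElement_def]
    exact hcomm d hd g
  · intro A hAD hAc hAmax
    -- C_D(A) ≤ A
    have hCDA : ∀ d ∈ D, (∀ a ∈ A, a * d = d * a) → d ∈ A := by
      intro d hd hda
      have hB : IsMulCommutative ↥(Subgroup.closure ((A : Set P) ∪ {d})) := by
        apply Subgroup.isMulCommutative_closure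
        intro x hx y hy
        rcases hx with hx | hx <;> rcases hy with hy | hy
        · exact setLike_mul_comm hx hy
        · rw [Set.mem_singleton_iff] at hy
          rw [hy]; exact hda x hx
        · rw [Set.mem_singleton_iff] at hx
          rw [hx]; exact (hda y hy).symm
        · rw [Set.mem_singleton_iff] at hx hy
          rw [hx, hy]
      have h1 : A ≤ Subgroup.closure ((A : Set P) ∪ {d}) :=
        fun a ha => Subgroup.subset_closure (Or.inl ha)
      have h2 : Subgroup.closure ((A : Set P) ∪ {d}) ≤ D := by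
        rw [Subgroup.closure_le]
        rintro x (hx | hx)
        · exact hAD hx
        · rw [Set.mem_singleton_iff] at hx
          rw [hx]; exact hd
      have h3 := hAmax _ h1 h2 hB
      rw [← h3]
      exact Subgroup.subset_closure (Or.inr rfl)
    have hAn : A.Normal := by
      constructor
      intro a ha g
      have h1 := hcomm a⁻¹ (inv_mem (hAD ha)) g⁻¹
      obtain ⟨h2, h3⟩ := Subgroup.mem_inf.mp h1
      rw [Subgroup.mem_centralizer_iff] at h3
      have h4 : a⁻¹ * g⁻¹ * a⁻¹⁻¹ * g⁻¹⁻¹ ∈ A := hCDA _ h2 (fun b hb => h3 b (hAD hb))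
      have h5 := hcomm a (hAD ha) g
      obtain ⟨h6, h7⟩ := Subgroup.mem_inf.mp h5
      rw [Subgroup.mem_centralizer_iff] at h7
      have h8 : a * g * a⁻¹ * g⁻¹ ∈ A := hCDA _ h6 (fun b hb => h7 b (hAD hb))
      have h9 : g * a * g⁻¹ = (a * g * a⁻¹ * g⁻¹)⁻¹ * a := by group
      rw [h9]; exact mul_mem (inv_mem h8) ha
    refine ⟨hAn, ?_⟩
    intro α hα hfix
    have hpos : orderOf α ≠ 0 := (orderOf_pos α).ne'
    obtain ⟨k, m, hm, hkm⟩ := Nat.exists_eq_pow_mul_and_not_dvd hpos p hp.ne_one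
    have hβord : orderOf (α ^ (p ^ k)) = m := by
      rw [orderOf_pow' _ (pow_pos hp.pos k).ne', hkm, Nat.gcd_eq_right (dvd_mul_right _ _)]
      exact Nat.mul_div_cancel_left _ (pow_pos hp.pos k)
    have hβco : (orderOf (α ^ (p ^ k))).Coprime p := by
      rw [hβord]
      exact ((Nat.Prime.coprime_iff_not_dvd hp).mpr hm).symm
    have hβG : α ^ (p ^ k) ∈ G := pow_mem hα _
    have hβfixA : ∀ a ∈ A, (α ^ (p ^ k)) a = a := by
      intro a ha
      have : ∀ n : ℕ, (α ^ n) a = a := by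
        intro n
        induction n with
        | zero => simp
        | succ n ih => rw [pow_succ, MulAut.mul_apply, hfix a ha, ih]
      exact this _
    have hβ1 : α ^ (p ^ k) = 1 := by
      apply hfaith _ hβG hβco
      intro d hd
      apply fix_of_comm_fixed hP _ hβco
      apply hβfixA
      apply hCDA _ (mul_mem (inv_mem hd) (hDinv _ hβG d hd))
      intro a ha
      have h1 : d * a * d⁻¹ ∈ A := hAn.conj_mem a ha d
      have h2 := hβfixA _ h1
      rw [map_mul, map_mul, map_inv, hβfixA a ha] at h2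
      have h3 : a * (d⁻¹ * (α ^ (p ^ k)) d) = d⁻¹ * (d * a * d⁻¹) * (α ^ (p ^ k)) d := by group
      rw [h3, ← h2]; group
    rw [hβ1, orderOf_one] at hβord
    exact ⟨k, by rw [hkm, ← hβord, mul_one]⟩

end Cfsg.Agent.S1949
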