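import Mathlib
import Cfsg.Statements.S1952
-- import your own Cfsg.Agent.* helpers here

set_option autoImplicit false
open Cfsg

namespace Cfsg.Agent.S1952


open Polynomial in
theorem ring_id {R : Type*} [Ring R] (p : ℕ) [Fact p.Prime] [CharP R p] (Y : R) :
    (Y - 1) ^ (p - 1) = ∑ i ∈ Finset.range p, Y ^ i := by
  let : Algebra (ZMod p) R := ZMod.algebra R p
  have h : ((X : (ZMod p)[X]) - 1) ^ (p - 1) = ∑ i ∈ Finset.range p, X ^ i := by
    rw [← cyclotomic_prime, ← cyclotomic_one, ← cyclotomic_mul_prime_eq_pow_of_not_dvd, one_mul]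
    exact (Fact.out : p.Prime).one_lt.ne' ∘ Nat.dvd_one.mp
  have := congrArg (aeval Y) h
  simpa using this

theorem iter_id {A : Type*} [CommGroup A] {p : ℕ} [Fact p.Prime] (hexp : ∀ a : A, a ^ p = 1)
    (c : A →* A) (x : A) :
    (c / MonoidHom.id A)^[p - 1] x = ∏ i ∈ Finset.range p, (c^[i]) x := by
  classical
  by_cases hA : Nontrivial A
  swap
  · rw [not_nontrivial_iff_subsingleton] at hA
    exact Subsingleton.elim _ _
  let R := AddMonoid.End (Additive A)
  let Ya : R := MonoidHom.toAdditive c
  have hp0 : ((p : ℕ) : R) = 0 := by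
    ext a
    rw [AddMonoid.End.natCast_apply]
    change Additive.ofMul ((Additive.toMul a) ^ p) = 0
    rw [hexp]; rfl
  have : Nontrivial R := by
    obtain ⟨a, b, hab⟩ := hA
    refine ⟨⟨1, 0, fun h => ?_⟩⟩
    have h1 : ∀ z : Additive A, z = 0 := fun z => by
      exact DFunLike.congr_fun h z
    exact hab ((h1 (Additive.ofMul a)).trans (h1 (Additive.ofMul b)).symm)
  have : CharP R p := (CharP.charP_iff_prime_eq_zero Fact.out).2 hp0
  have c1 : ∀ (k : ℕ) (a : A), ((Ya - 1) ^ k : R) (Additive.ofMul a)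
      = Additive.ofMul ((c / MonoidHom.id A)^[k] a) := by
    intro k
    induction k with
    | zero => intro a; rfl
    | succ k ih =>
      intro a
      rw [pow_succ', Function.iterate_succ_apply']
      change (Ya - 1) (((Ya - 1) ^ k : R) (Additive.ofMul a)) = _
      rw [ih]
      rfl
  have c2 : ∀ (k : ℕ) (a : A), ((Ya) ^ k : R) (Additive.ofMul a)
      = Additive.ofMul ((c)^[k] a) := by
    intro k
    induction k with
    | zero => intro a; rfl
    | succ k ih =>
      intro a
      rw [pow_succ', Function.iterate_succ_apply']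
      change (Ya) (((Ya) ^ k : R) (Additive.ofMul a)) = _
      rw [ih]
      rfl
  have h := DFunLike.congr_fun (ring_id p Ya) (Additive.ofMul x)
  rw [c1] at h
  apply Additive.ofMul.injective
  rw [h, ofMul_prod]
  have : ((∑ i ∈ Finset.range p, Ya ^ i : R)) (Additive.ofMul x) = ∑ i ∈ Finset.range p, (Ya ^ i : R) (Additive.ofMul x) := by
    exact AddMonoidHom.finsetSum_apply _ _ _
  rw [this]
  exact Finset.sum_congr rfl (fun i _ => c2 i x)



theorem card_step {A : Type*} [Group A] [Finite A] {p : ℕ} [Fact p.Prime] (hA : IsPGroup p A)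
    {H K : Subgroup A} (h : H < K) : p * Nat.card H ≤ Nat.card K := by
  obtain ⟨a, ha⟩ := (hA.to_subgroup H).exists_card_eq
  obtain ⟨b, hb⟩ := (hA.to_subgroup K).exists_card_eq
  have hlt : Nat.card H < Nat.card K := by
    rcases (Subgroup.card_le_of_le h.le).lt_or_eq with h1 | h1
    · exact h1
    · exact absurd (Subgroup.eq_of_le_of_card_ge h.le h1.ge) h.ne
  rw [ha, hb] at hlt ⊢
  have hab : a < b := (Nat.pow_lt_pow_iff_right (Fact.out : p.Prime).one_lt).1 hlt
  calc p * p ^ a = p ^ (a + 1) := by ring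
    _ ≤ p ^ b := Nat.pow_le_pow_right (Fact.out : p.Prime).pos hab

theorem key {A : Type*} [CommGroup A] [Finite A] {p : ℕ} [Fact p.Prime] (hexp : ∀ a : A, a ^ p = 1)
    (c : A →* A) (x : A) (hc : c^[p] x = x)
    (C : Subgroup A) (hC : ∀ a ∈ C, c a ∈ C) (hx : ∏ i ∈ Finset.range p, (c^[i]) x ∉ C) :
    p ^ p * Nat.card C ≤ Nat.card A := by
  have hp : p.Prime := Fact.out
  have hPG : IsPGroup p A := fun a => ⟨1, by rw [pow_one]; exact hexp a⟩
  set T : A →* A := c / MonoidHom.id A with hT
  set N : A := ∏ i ∈ Finset.range p, (c^[i]) x with hN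
  have hTC : ∀ a ∈ C, T a ∈ C := fun a ha => by
    rw [hT, MonoidHom.div_apply]
    exact C.div_mem (hC a ha) ha
  have hcN : c N = N := by
    rw [hN, map_prod]
    have h1 := Finset.prod_range_succ (fun i => (c^[i]) x) p
    have h2 := Finset.prod_range_succ' (fun i => (c^[i]) x) p
    rw [h1] at h2
    simp only [hc, Function.iterate_zero, id] at h2
    have h3 := mul_right_cancel h2
    rw [h3]
    exact Finset.prod_congr rfl (fun i _ => (Function.iterate_succ_apply' c i x).symm)
  have hTN : T N = 1 := by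
    rw [hT, MonoidHom.div_apply, hcN]; simp
  have hTp1 : T^[p - 1] x = N := iter_id hexp c x
  let D : ℕ → Subgroup A := fun i =>
    { carrier := {a | T^[i] a ∈ C}
      mul_mem' := fun {a b} ha hb => by
        simp only [Set.mem_ofPred_eq, iterate_map_mul] at ha hb ⊢
        exact C.mul_mem ha hb
      one_mem' := by
        simp only [Set.mem_ofPred_eq, iterate_map_one]
        exact C.one_mem
      inv_mem' := fun {a} ha => by
        simp only [Set.mem_ofPred_eq, iterate_map_inv] at ha ⊢
        exact C.inv_mem ha }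
  have hD : ∀ i a, a ∈ D i ↔ T^[i] a ∈ C := fun i a => Iff.rfl
  have main : ∀ i, i ≤ p → p ^ i * Nat.card C ≤ Nat.card (D i) := by
    intro i
    induction i with
    | zero =>
      intro _
      have : D 0 = C := by
        ext a; rw [hD]; rfl
      rw [this]; simp
    | succ i ih =>
      intro hi
      have h1 := ih (by omega)
      have hlt : D i < D (i + 1) := by
        refine lt_of_le_of_ne (fun a ha => ?_) (fun heq => ?_)
        · rw [hD] at ha ⊢
          rw [Function.iterate_succ_apply']
          exact hTC _ ha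
        · have hu1 : T^[p - 1 - i] x ∈ D (i + 1) := by
            rw [hD, ← Function.iterate_add_apply]
            have : i + 1 + (p - 1 - i) = (p - 1) + 1 := by omega
            rw [this, Function.iterate_succ_apply', hTp1, hTN]
            exact C.one_mem
          rw [← heq, hD, ← Function.iterate_add_apply] at hu1
          have : i + (p - 1 - i) = p - 1 := by omega
          rw [this, hTp1] at hu1
          exact hx hu1
      have h2 := card_step hPG hlt
      calc p ^ (i + 1) * Nat.card C = p * (p ^ i * Nat.card C) := by ring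
        _ ≤ p * Nat.card (D i) := Nat.mul_le_mul_left _ h1
        _ ≤ _ := h2
  exact (main p le_rfl).trans (Subgroup.card_le_card_group _)

theorem exists_functional {M : Type*} [AddCommGroup M] {p : ℕ} [Fact p.Prime] [Module (ZMod p) M]
    (v : M) (hv : v ≠ 0) : ∃ φ : M →+ ZMod p, φ v ≠ 0 := by
  obtain ⟨φ, hφ⟩ := Module.Projective.exists_dual_ne_zero (ZMod p) hv
  exact ⟨φ.toAddMonoidHom, hφ⟩

theorem exists_hyper {A : Type*} [CommGroup A] [Finite A] {p : ℕ} [Fact p.Prime] (hexp : ∀ a : A, a ^ p = 1)
    (n : A) (hn : n ≠ 1) : ∃ K : Subgroup A, K.index = p ∧ n ∉ K := by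
  have h0 : Additive.ofMul n ≠ 0 := fun h => hn h
  obtain ⟨φ, hφ⟩ := @exists_functional (Additive A) _ p _ (AddCommGroup.zmodModule (n := p) (fun a => by
    change Additive.ofMul ((Additive.toMul a) ^ p) = 0
    rw [hexp]; rfl)) _ h0
  let lam : A →* Multiplicative (ZMod p) := AddMonoidHom.toMultiplicativeRight φ
  have hlam : lam n ≠ 1 := fun h => hφ h
  refine ⟨lam.ker, ?_, fun h => hlam h⟩
  rw [Subgroup.index_ker]
  have hcard : Nat.card (Multiplicative (ZMod p)) = p := by
    simp
  have hdvd := Subgroup.card_subgroup_dvd_card lam.range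
  rw [hcard] at hdvd
  rcases (Nat.dvd_prime Fact.out).1 hdvd with h | h
  · exfalso
    have := Subgroup.card_eq_one.1 h
    apply hlam
    have hm : lam n ∈ lam.range := ⟨n, rfl⟩
    rw [this] at hm
    exact hm
  · exact h



theorem val_fact (p : ℕ) [Fact p.Prime] : (Nat.card (Equiv.Perm (Fin (p ^ 2)))).factorization p = p + 1 := by
  rw [Nat.card_eq_fintype_card, Fintype.card_perm, Fintype.card_fin, Nat.factorization_def _ Fact.out, pow_two,
    padicValNat_factorial_mul]
  have := padicValNat_factorial_mul (p := p) 1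
  rw [mul_one] at this
  rw [this]
  simp
  omega



/-- Let P be a finite p-group with a normal elementary abelian subgroup A of index p, and let x ∈ A and y ∈ P with y outside A. If the product of the p conjugates y^(-i) x y^i (i = 0, …, p−1) is not the identity, then the wreath product Z_p ≀ Z_p, realised as a Sylow p-subgroup of the symmetric group of degree p², is a homomorphic image of P. -/
theorem result {P : Type*} [Group P] [Finite P] {p : ℕ} [Fact p.Prime] (hP : IsPGroup p P) (A : Subgroup P) [A.Normal]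
    (hA : Cfsg.IsElementaryAbelian p A) (hidx : A.index = p) (x y : P) (hx : x ∈ A) (hy : y ∉ A)
    (hprod : ((List.range p).map (fun i => (y ^ i)⁻¹ * x * y ^ i)).prod ≠ 1) :
    ∃ (Q : Sylow p (Equiv.Perm (Fin (p ^ 2)))) (f : P →* ↥(Q : Subgroup (Equiv.Perm (Fin (p ^ 2))))), Function.Surjective f := by
  have hp : p.Prime := Fact.out
  have hcomm : ∀ a b : A, a * b = b * a := fun a b => hA.1.is_comm.comm a b
  let _ : CommGroup A := { (inferInstance : Group A) with mul_comm := hcomm }
  have hexp : ∀ a : A, a ^ p = 1 := fun a => Subtype.ext (by simpa using hA.2 a a.2)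
  let c : A →* A := (MulAut.conjNormal y⁻¹ : MulAut A).toMonoidHom
  have hc_apply : ∀ a : A, ((c a : A) : P) = y⁻¹ * a * y := fun a => by
    change ((MulAut.conjNormal y⁻¹ a : A) : P) = _
    rw [MulAut.conjNormal_apply, inv_inv]
  let xt : A := ⟨x, hx⟩
  have hiter : ∀ i : ℕ, ((c^[i] xt : A) : P) = (y ^ i)⁻¹ * x * y ^ i := by
    intro i
    induction i with
    | zero => simp [xt]
    | succ i ih =>
      rw [Function.iterate_succ_apply', hc_apply, ih, pow_succ]
      group
  have hN : ((∏ i ∈ Finset.range p, (c^[i]) xt : A) : P) = ((List.range p).map (fun i => (y ^ i)⁻¹ * x * y ^ i)).prod := by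
    have h1 : (∏ i ∈ Finset.range p, (c^[i]) xt : A) = ((List.range p).map (fun i => (c^[i]) xt)).prod := by
      rfl
    rw [h1]
    change A.subtype _ = _
    rw [map_list_prod, List.map_map]
    congr 1
    apply List.map_congr_left
    intro i _
    exact hiter i
  have hN1 : (∏ i ∈ Finset.range p, (c^[i]) xt : A) ≠ 1 := fun h => hprod (by rw [← hN, h]; rfl)
  obtain ⟨K, hKidx, hNK⟩ := exists_hyper hexp _ hN1
  set K' : Subgroup P := K.map A.subtype with hK'
  have hK'idx : K'.index = p ^ 2 := by
    rw [hK', Subgroup.index_map_subtype, hKidx, hidx, pow_two]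
  set C' : Subgroup P := K'.normalCore with hC'
  have hC'K' : C' ≤ K' := Subgroup.normalCore_le K'
  have hK'A : K' ≤ A := by
    rw [hK']; exact Subgroup.map_subtype_le K
  have hC'n : C'.Normal := Subgroup.normalCore_normal K'
  let C : Subgroup A := C'.subgroupOf A
  have hCK : C ≤ K := by
    intro a ha
    have h1 : (a : P) ∈ K' := hC'K' (Subgroup.mem_subgroupOf.1 ha)
    obtain ⟨k, hk, hka⟩ := h1
    have : k = a := Subtype.ext hka
    rwa [← this]
  have hCc : ∀ a ∈ C, c a ∈ C := by
    intro a ha
    rw [Subgroup.mem_subgroupOf] at ha ⊢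
    rw [hc_apply]
    have := hC'n.conj_mem _ ha y⁻¹
    rwa [inv_inv] at this
  have hyp : y ^ p ∈ A := by
    rw [← hidx]; exact Subgroup.pow_index_mem A y
  have hcp : c^[p] xt = xt := by
    apply Subtype.ext
    rw [hiter]
    have := congrArg Subtype.val (hcomm ⟨x, hx⟩ ⟨y ^ p, hyp⟩)
    simp only [Subgroup.coe_mul] at this
    rw [mul_assoc, this]
    simp [xt]
  have hkey := key hexp c xt hcp C hCc (fun h => hNK (hCK h))
  have hcardC : Nat.card C = Nat.card C' :=
    Nat.card_congr (Subgroup.subgroupOfEquivOfLe (hC'K'.trans hK'A)).toEquiv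
  have hidxC' : p ^ (p + 1) ≤ C'.index := by
    have h1 : C'.index * Nat.card C' = Nat.card P := C'.index_mul_card
    have h2 : A.index * Nat.card A = Nat.card P := A.index_mul_card
    rw [hidx] at h2
    have h3 : p ^ (p + 1) * Nat.card C' ≤ C'.index * Nat.card C' := by
      rw [h1, ← h2, ← hcardC]
      calc p ^ (p + 1) * Nat.card C = p * (p ^ p * Nat.card C) := by ring
        _ ≤ _ := Nat.mul_le_mul_left _ hkey
    exact Nat.le_of_mul_le_mul_right h3 Nat.card_pos
  have hcardq : Nat.card (P ⧸ K') = p ^ 2 := hK'idx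
  let e : (P ⧸ K') ≃ Fin (p ^ 2) := Finite.equivFinOfCardEq hcardq
  let ψ : P →* Equiv.Perm (Fin (p ^ 2)) := e.permCongrHom.toMonoidHom.comp (MulAction.toPermHom P (P ⧸ K'))
  have hker : ψ.ker = C' := by
    rw [hC', Subgroup.normalCore_eq_ker]
    ext g
    simp only [MonoidHom.mem_ker, ψ, MonoidHom.comp_apply]
    exact e.permCongrHom.map_eq_one_iff
  have hrange : p ^ (p + 1) ≤ Nat.card ψ.range := by
    rw [← Subgroup.index_ker, hker]; exact hidxC'
  have hpg : IsPGroup p ψ.range := IsPGroup.of_surjective hP ψ.rangeRestrict ψ.rangeRestrict_surjective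
  obtain ⟨Q, hQ⟩ := hpg.exists_le_sylow
  have hQcard : Nat.card Q = p ^ (p + 1) := by
    rw [Sylow.card_eq_multiplicity, val_fact]
  have heq : ψ.range = Q := Subgroup.eq_of_le_of_card_ge hQ (by rw [hQcard]; exact hrange)
  refine ⟨Q, ψ.codRestrict (Q : Subgroup _) (fun g => hQ ⟨g, rfl⟩), ?_⟩
  rintro ⟨q, hq⟩
  rw [← heq] at hq
  obtain ⟨g, rfl⟩ := hq
  exact ⟨g, rfl⟩

end Cfsg.Agent.S1952
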