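import Cfsg.Statements.S1987
import Cfsg.Agent.Lib.Helper9.SectionFusion6
import Cfsg.Agent.Lib.Helper9.KInfChar
import Cfsg.Agent.S1983

set_option autoImplicit false
universe u
open Cfsg

namespace Cfsg.Agent.S1987


open Cfsg.Agent.Lib.Helper9 Cfsg.Agent.Lib.Helper33
open scoped Pointwise

/-- Let p be an odd prime and G a finite group every section of which is p-stable in the normalizer form (in each section, an element of the normalizer of a p-subgroup Q acting quadratically on Q maps into O_p of N(Q)/C(Q)). Then for every Sylow p-subgroup S of G the lower K-infinity subgroup of S controls strong fusion in G. -/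
theorem result {G : Type u} [Group G] [Finite G] {p : ℕ} [Fact p.Prime] (hp : p ≠ 2) (hst : ∀ (K R : Subgroup G) [hR : (R.subgroupOf K).Normal], Cfsg.IsNormalizerPStable p (↥K ⧸ R.subgroupOf K)) (S : Sylow p G) : Cfsg.ControlsStrongFusion p (Cfsg.inducedFunctor Cfsg.kInfLower (S : Subgroup G)) := by
  refine controlsStrongFusion_of_local Cfsg.kInfLower (isCharPFunctor_kInfLower.{u} p) ?_ G
    (involves_self G) S
  intro K R hR hC T
  by_contra hT
  obtain ⟨g, -, -, -, -, h5⟩ := Cfsg.Agent.S1983.result T (Or.inl hT)
  obtain ⟨N, hN, hnot⟩ := h5 hC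
  exact hnot (isNormalizerPStable_of_involves hst
    (involves_trans (involves_quotient N (involves_self _)) (involves_section K R)))

end Cfsg.Agent.S1987
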