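import Cfsg.Statements.S2007
import Cfsg.Agent.Lib.Helper34.PComplement

set_option autoImplicit false
open Cfsg

namespace Cfsg.Agent.S2007

open Cfsg.Agent.Lib.Helper34

/-- Let p be a prime, G a finite group with Sylow p-subgroup S, and T a normal subgroup of S containing C_S(T). If N_G(T)/C_G(T) is a p-group (every element of N_G(T) of order prime to p centralizes T), then N_G(T) has a normal p-complement. -/
theorem result {G : Type*} [Group G] [Finite G] {p : ℕ} [Fact p.Prime] (S : Sylow p G) (T : Subgroup G) (hTS : T ≤ (S : Subgroup G)) (hTn : (S : Subgroup G) ≤ Subgroup.normalizer ((T : Subgroup G) : Set G)) (hC : (S : Subgroup G) ⊓ Subgroup.centralizer ((T : Subgroup G) : Set G) ≤ T) (hN : ∀ g ∈ Subgroup.normalizer ((T : Subgroup G) : Set G), (orderOf g).Coprime p → g ∈ Subgroup.centralizer ((T : Subgroup G) : Set G)) : Cfsg.HasNormalPComplement p ↥(Subgroup.normalizer ((T : Subgroup G) : Set G)) := by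
  classical
  set N := Subgroup.normalizer ((T : Subgroup G) : Set G) with hNdef
  set CG := Subgroup.centralizer ((T : Subgroup G) : Set G) with hCGdef
  let C : Subgroup N := CG.subgroupOf N
  let S' : Sylow p N := S.subtype hTn
  -- conjugation by elements of N preserves CG
  have hconjC : ∀ g ∈ N, ∀ c ∈ CG, g * c * g⁻¹ ∈ CG := by
    intro g hg c hc
    rw [hCGdef, Subgroup.mem_centralizer_iff] at hc ⊢
    intro t ht
    have ht' : g⁻¹ * t * g ∈ T := by
      have := (Subgroup.mem_normalizer_iff.mp (N.inv_mem hg) t).mp ht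
      simpa using this
    have h1 := hc _ ht'
    calc t * (g * c * g⁻¹) = g * ((g⁻¹ * t * g) * c) * g⁻¹ := by group
      _ = g * (c * (g⁻¹ * t * g)) * g⁻¹ := by rw [h1]
      _ = g * c * g⁻¹ * t := by group
  -- p-elements of C are central in C
  have hcent : ∀ x : C, (∃ k, orderOf x = p ^ k) → x ∈ Subgroup.center C := by
    rintro x ⟨k, hk⟩
    have hxp : IsPGroup p (Subgroup.zpowers (x : N)) := by
      apply IsPGroup.of_card (n := k)
      rw [Nat.card_zpowers, Subgroup.orderOf_coe, hk]
    obtain ⟨R, hR⟩ := hxp.exists_le_sylow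
    obtain ⟨g, hg⟩ := MulAction.exists_smul_eq N R S'
    have hx1 : g * (x : N) * g⁻¹ ∈ (S' : Subgroup N) := by
      rw [← hg]
      have : (x : N) ∈ (R : Subgroup N) := hR (Subgroup.mem_zpowers _)
      rw [Sylow.coe_subgroup_smul, Subgroup.mem_pointwise_smul_iff_inv_smul_mem]
      simpa [MulAut.smul_def, MulAut.conj_apply, mul_assoc] using this
    have hx2 : ((g : G) * ((x : N) : G) * (g : G)⁻¹) ∈ (S : Subgroup G) := by
      have := hx1
      rw [Sylow.coe_subtype, Subgroup.mem_subgroupOf] at this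
      simpa using this
    have hxC : ((x : N) : G) ∈ CG := Subgroup.mem_subgroupOf.mp x.2
    have hx3 : ((g : G) * ((x : N) : G) * (g : G)⁻¹) ∈ T :=
      hC (Subgroup.mem_inf.mpr ⟨hx2, hconjC g g.2 _ hxC⟩)
    rw [Subgroup.mem_center_iff]
    intro c
    have hcC : ((c : N) : G) ∈ CG := Subgroup.mem_subgroupOf.mp c.2
    have h4 := hconjC g g.2 _ hcC
    rw [hCGdef, Subgroup.mem_centralizer_iff] at h4
    have h5 := h4 _ hx3
    apply Subtype.ext
    apply Subtype.ext
    simp only [Subgroup.coe_mul]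
    have h6 : (g : G)⁻¹ * ((g : G) * ((x : N) : G) * (g : G)⁻¹ * ((g : G) * ((c : N) : G) * (g : G)⁻¹)) * g
        = (g : G)⁻¹ * ((g : G) * ((c : N) : G) * (g : G)⁻¹ * ((g : G) * ((x : N) : G) * (g : G)⁻¹)) * g := by
      rw [h5]
    calc ((c : N) : G) * ((x : N) : G)
        = (g : G)⁻¹ * ((g : G) * ((c : N) : G) * (g : G)⁻¹ * ((g : G) * ((x : N) : G) * (g : G)⁻¹)) * g := by group
      _ = (g : G)⁻¹ * ((g : G) * ((x : N) : G) * (g : G)⁻¹ * ((g : G) * ((c : N) : G) * (g : G)⁻¹)) * g := h6.symm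
      _ = ((x : N) : G) * ((c : N) : G) := by group
  obtain ⟨M, _, hMcop, hMel, _⟩ := exists_pPrime_subgroup_of_central (p := p) hcent
  refine hasNormalPComplement_of_pPrime_elements (M.map C.subtype) ?_ ?_
  · rw [Nat.card_congr (M.equivMapOfInjective C.subtype C.subtype_injective).symm.toEquiv]
    exact hMcop
  · intro g hg
    have hgC : g ∈ C := by
      rw [Subgroup.mem_subgroupOf]
      apply hN _ g.2
      rwa [Subgroup.orderOf_coe]
    refine ⟨⟨g, hgC⟩, hMel _ ?_, rfl⟩
    rwa [← Subgroup.orderOf_coe]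

end Cfsg.Agent.S2007
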