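import Cfsg.Statements.S1988
import Cfsg.Agent.S1982
import Cfsg.Agent.S2006
import Cfsg.Agent.S2007
import Cfsg.Agent.S1978
import Cfsg.Agent.Lib.Lead.Critical
import Cfsg.Agent.Lib.Lead.Functor
import Cfsg.Agent.Lib.Helper9.KInfChar
import Cfsg.Agent.Lib.Helper9.ChiefHom

set_option autoImplicit false
universe u
open Cfsg

namespace Cfsg.Agent.S1988

/-- the local hypothesis of S2006 for `K_∞`, from S1982 and the critical subgroup. -/
theorem local_hyp {X : Type u} [Group X] [Finite X] {p : ℕ} [Fact p.Prime] (hp : p ≠ 2)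
    (hC : Subgroup.centralizer ((Cfsg.pCore p X : Subgroup X) : Set X) ≤ Cfsg.pCore p X)
    (T : Sylow p X) (hT : ¬ (Cfsg.inducedFunctor (G := X) Cfsg.kInfLower (T : Subgroup X)).Normal) :
    ∃ g : X, g ∈ (T : Subgroup X) ∧ g ∉ Cfsg.pCore p X ∧ ∃ U V : Subgroup X,
      Cfsg.IsChiefFactor U V ∧ U ≤ Cfsg.pCore p X ∧
      Cfsg.iterCommutator U (Subgroup.zpowers g) (p - 1) ≤ V ∧ ¬ ⁅U, Subgroup.zpowers g⁆ ≤ V := by
  obtain ⟨A, hAT, hAchar, hA1, hA2, hA3, hA4, hA5⟩ := Cfsg.Agent.Lib.Lead.exists_critical_pCore X p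
  obtain ⟨g, hgT, hg, -, -, h⟩ :=
    Cfsg.Agent.S1982.result T A hAT hAchar hA1 hA2 hA3 hA4 hA5 (Or.inl hT)
  obtain ⟨U, V, hUV, hUA, h2, h1⟩ := h hC
  refine ⟨g, hgT, hg, U, V, hUV, hUA.trans hAT, ?_, h1⟩
  have hV : V.Normal := hUV.2.2.1
  have hp2 : 2 ≤ p - 1 := by
    have := (Fact.out : p.Prime).two_le
    omega
  exact Cfsg.Agent.Lib.Helper9.iter_le_of_le (Subgroup.zpowers g) (n := 2) h2 hp2

theorem result {G : Type u} [Group G] [Finite G] {p : ℕ} [Fact p.Prime] (hp : p ≠ 2) (S : Sylow p G) (h : Cfsg.HasNormalPComplement p ↥(Subgroup.normalizer ((Cfsg.inducedFunctor Cfsg.kInfLower (S : Subgroup G) : Subgroup G) : Set G)) ∨ ∀ g ∈ Subgroup.normalizer ((Cfsg.inducedFunctor Cfsg.kInfLower (S : Subgroup G) : Subgroup G) : Set G), (orderOf g).Coprime p → g ∈ Subgroup.centralizer ((Cfsg.inducedFunctor Cfsg.kInfLower (S : Subgroup G) : Subgroup G) : Set G)) : Cfsg.HasNormalPComplement p G := by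
  have hW := Cfsg.Agent.Lib.Helper9.isCharPFunctor_kInfLower.{u} p
  have hN : Cfsg.HasNormalPComplement p ↥(Subgroup.normalizer ((Cfsg.inducedFunctor Cfsg.kInfLower (S : Subgroup G) : Subgroup G) : Set G)) := by
    rcases h with h | h
    · exact h
    · refine Cfsg.Agent.S2007.result S _ (Cfsg.Agent.Lib.Lead.inducedFunctor_le _) ?_ ?_ h
      · exact Subgroup.le_normalizer.trans
          (Cfsg.Agent.Lib.Lead.normalizer_le_normalizer_inducedFunctor hW _ S.2)
      · rintro x ⟨hxS, hxC⟩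
        have h1 := (Cfsg.Agent.S1978.result (P := ↥(S : Subgroup G)) S.2).1
        have h2 : (⟨x, hxS⟩ : ↥(S : Subgroup G)) ∈
            Subgroup.centralizer (Cfsg.kInfLower ↥(S : Subgroup G) : Set ↥(S : Subgroup G)) := by
          rw [Subgroup.mem_centralizer_iff]
          intro y hy
          apply Subtype.ext
          exact (Subgroup.mem_centralizer_iff.1 hxC) y ⟨y, hy, rfl⟩
        exact ⟨_, h1 h2, rfl⟩
  refine Cfsg.Agent.S2006.result Cfsg.kInfLower hW S hN ?_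
  intro K R hR hC T hT
  exact local_hyp hp hC T hT

end Cfsg.Agent.S1988
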