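import Cfsg.Statements.S2001
import Cfsg.Agent.Lib.Helper33.PairTransfer

set_option autoImplicit false
open Cfsg

namespace Cfsg.Agent.S2001

open Cfsg.Agent.Lib.Helper33
open scoped Pointwise

/-- Let p be a prime dividing the order of the finite group G, P a Sylow p-subgroup, W a conjugacy functor for p on G with Z(H) ≤ W(H) for every nontrivial p-subgroup H, and V a central functor: a conjugacy functor with V(H) ≤ Z(H), and V(H) ≤ V(K) whenever Z(H) ≤ Z(K), for nontrivial p-subgroups H, K. Say that W with V controls transfer in a subgroup L when some Sylow p-subgroup Q of L satisfies Q ∩ L' = (Q ∩ (N_L(W(Q)))')·(Q ∩ (C_L(V(Q)))') as a product of two subgroups. If W with V controls transfer in N_G(H) for every subgroup H with Z(P) ≤ H ≤ P, then W with V controls transfer in G. -/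
theorem result {G : Type*} [Group G] [Finite G] {p : ℕ} [Fact p.Prime] (hdiv : p ∣ Nat.card G) (P : Sylow p G) (W V : Subgroup G → Subgroup G) (hW : Cfsg.IsConjugacyFunctor p W) (hV : Cfsg.IsConjugacyFunctor p V) (hWZ : ∀ H : Subgroup G, IsPGroup p ↥H → H ⊓ Subgroup.centralizer ((H : Subgroup G) : Set G) ≤ W H) (hVZ : ∀ H : Subgroup G, IsPGroup p ↥H → V H ≤ H ⊓ Subgroup.centralizer ((H : Subgroup G) : Set G)) (hVmono : ∀ H K : Subgroup G, IsPGroup p ↥H → IsPGroup p ↥K → H ≠ ⊥ → K ≠ ⊥ → H ⊓ Subgroup.centralizer ((H : Subgroup G) : Set G) ≤ K ⊓ Subgroup.centralizer ((K : Subgroup G) : Set G) → V H ≤ V K) (hloc : ∀ H : Subgroup G, (P : Subgroup G) ⊓ Subgroup.centralizer (((P : Subgroup G) : Subgroup G) : Set G) ≤ H → H ≤ (P : Subgroup G) → ∃ Q : Subgroup G, Q ≤ Subgroup.normalizer ((H : Subgroup G) : Set G) ∧ IsPGroup p ↥Q ∧ ¬ p ∣ (Q).relIndex (Subgroup.normalizer ((H : Subgroup G) : Set G)) ∧ ∀ x : G, x ∈ Q ⊓ ⁅Subgroup.normalizer ((H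 : Subgroup G) : Set G), Subgroup.normalizer ((H : Subgroup G) : Set G)⁆ ↔ ∃ a ∈ Q ⊓ ⁅Subgroup.normalizer ((H : Subgroup G) : Set G) ⊓ Subgroup.normalizer ((W Q : Subgroup G) : Set G), Subgroup.normalizer ((H : Subgroup G) : Set G) ⊓ Subgroup.normalizer ((W Q : Subgroup G) : Set G)⁆, ∃ b ∈ Q ⊓ ⁅Subgroup.normalizer ((H : Subgroup G) : Set G) ⊓ Subgroup.centralizer ((V Q : Subgroup G) : Set G), Subgroup.normalizer ((H : Subgroup G) : Set G) ⊓ Subgroup.centralizer ((V Q : Subgroup G) : Set G)⁆, x = a * b) : ∃ Q : Subgroup G, IsPGroup p ↥Q ∧ ¬ p ∣ Q.index ∧ ∀ x : G, x ∈ Q ⊓ commutator G ↔ ∃ a ∈ Q ⊓ ⁅Subgroup.normalizer ((W Q : Subgroup G) : Set G), Subgroup.normalizer ((W Q : Subgroup G) : Set G)⁆, ∃ b ∈ Q ⊓ ⁅Subgroup.centralizer ((V Q : Subgroup G) : Set G), Subgroup.centralizer ((V Q : Subgroup G) : Set G)⁆, x = a * b := by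
  have hloc' : ∀ H : Subgroup G,
      (P : Subgroup G) ⊓ Subgroup.centralizer ((P : Subgroup G) : Set G) ≤ H →
      H ≤ (P : Subgroup G) → ∃ Q, RelSyl p Q (Subgroup.normalizer (H : Set G)) ∧
        TCtl W V (Subgroup.normalizer (H : Set G)) Q := by
    intro H h1 h2
    obtain ⟨Q, hQ1, hQ2, hQ3, hQ4⟩ := hloc H h1 h2
    refine ⟨Q, ⟨hQ1, hQ2, hQ3⟩, ?_⟩
    intro x hx
    obtain ⟨a, ha, b, hb, rfl⟩ := (hQ4 x).1 hx
    exact Subgroup.mul_mem_sup ha hb
  have hmain := TCtl_of_local P hW hV hWZ hVmono hloc'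
  refine ⟨P, P.2, P.not_dvd_index, ?_⟩
  intro x
  constructor
  · intro hx
    have h1 : x ∈ DN W ⊤ (P : Subgroup G) ⊔ DC V ⊤ (P : Subgroup G) := hmain hx
    have hPC : (P : Subgroup G) ≤ Subgroup.centralizer ((V (P : Subgroup G) : Subgroup G) : Set G) := by
      intro s hs
      rw [Subgroup.mem_centralizer_iff]
      intro v hv
      exact ((Subgroup.mem_centralizer_iff.1 (hVZ _ P.2 hv).2) s hs).symm
    have hLE : DN W ⊤ (P : Subgroup G) ≤ Subgroup.normalizer ((DC V ⊤ (P : Subgroup G) : Subgroup G) : Set G) := by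
      intro s hs
      have hsP : s ∈ (P : Subgroup G) := hs.1
      rw [mem_normalizer_iff_smul]
      unfold DC
      rw [Subgroup.smul_inf, conj_smul_commutator, Subgroup.conj_smul_eq_self_of_mem hsP,
        Subgroup.conj_smul_eq_self_of_mem (show s ∈ ⊤ ⊓ Subgroup.centralizer
          ((V (P : Subgroup G) : Subgroup G) : Set G) from ⟨Subgroup.mem_top s, hPC hsP⟩)]
    have h2 : x ∈ ((DN W ⊤ (P : Subgroup G) ⊔ DC V ⊤ (P : Subgroup G) : Subgroup G) : Set G) := h1
    rw [Subgroup.coe_mul_of_left_le_normalizer_right _ _ hLE] at h2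
    obtain ⟨a, ha, b, hb, rfl⟩ := h2
    refine ⟨a, ?_, b, ?_, rfl⟩
    · have := ha
      unfold DN at this
      rwa [top_inf_eq] at this
    · have := hb
      unfold DC at this
      rwa [top_inf_eq] at this
  · rintro ⟨a, ha, b, hb, rfl⟩
    refine ⟨(P : Subgroup G).mul_mem ha.1 hb.1, ?_⟩
    exact Subgroup.mul_mem _ (Subgroup.commutator_mono le_top le_top ha.2)
      (Subgroup.commutator_mono le_top le_top hb.2)

end Cfsg.Agent.S2001
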