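import Cfsg.Statements.S2015
import Cfsg.Agent.S1984
import Cfsg.Agent.S1978

set_option autoImplicit false
universe u
open Cfsg

namespace Cfsg.Agent.S2015


open Cfsg.Agent.Lib.Helper33

/-- For p ≥ 5, every finite p-group P has a characteristic subgroup K containing Z(P), depending only on P, whose normalizer controls transfer wherever P is a Sylow subgroup: for every finite group G and every embedding ι of P onto a Sylow p-subgroup of G, the intersection of ι(P) with the derived subgroup of G equals its intersection with the derived subgroup of N_G(ι(K)). -/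
theorem result (p : ℕ) [Fact p.Prime] (hp : 5 ≤ p) (P : Type u) [Group P] [Finite P] (hP : IsPGroup p P) : ∃ K : Subgroup P, K.Characteristic ∧ Subgroup.center P ≤ K ∧ ∀ (G : Type u) [Group G] [Finite G] (ι : P →* G), Function.Injective ι → (∃ T : Sylow p G, (T : Subgroup G) = ι.range) → ι.range ⊓ commutator G = ι.range ⊓ (commutator ↥(Subgroup.normalizer ((K.map ι : Subgroup G) : Set G))).map (Subgroup.normalizer ((K.map ι : Subgroup G) : Set G)).subtype := by
  have hW := Cfsg.Agent.Lib.Helper9.isCharPFunctor_kInfLower.{u} p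
  refine ⟨Cfsg.kInfLower P, ?_, ?_, ?_⟩
  · rw [Subgroup.characteristic_iff_map_eq]
    intro ϕ
    exact Cfsg.Agent.Lib.Helper9.mp_kInfLower ϕ
  · obtain ⟨h1, h2, -, -⟩ := Cfsg.Agent.S1978.result hP
    exact h2.trans h1
  · intro G _ _ ι hι hT
    obtain ⟨T, hT⟩ := hT
    have h1 : Cfsg.ControlsTransferIn p (Cfsg.inducedFunctor (G := G) Cfsg.kInfLower) ⊤ :=
      Cfsg.Agent.S1984.result hp
    rw [controlsTransferIn_iff_family] at h1
    have h2 := FamilyControlsTransferIn.eq (p := p)
      (𝓦 := {Cfsg.inducedFunctor (G := G) Cfsg.kInfLower})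
      (by rintro _ rfl; exact isConjugacyFunctor_induced hW) h1 (relSyl_top T)
    unfold FD at h2
    simp only [Set.mem_singleton_iff, iSup_iSup_eq_left, top_inf_eq] at h2
    have h3 : Cfsg.inducedFunctor (G := G) Cfsg.kInfLower (T : Subgroup G) =
        (Cfsg.kInfLower P).map ι := by
      rw [hT, MonoidHom.range_eq_map]
      have hPtop : IsPGroup p (⊤ : Subgroup P) := hP.to_subgroup ⊤
      rw [inducedFunctor_map hW ι ⊤ hPtop hι.injOn]
      congr 1
      exact hW.2 (⊤ : Subgroup P) P hPtop Subgroup.topEquiv
    rw [h3, hT] at h2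
    rw [Subgroup.map_subtype_commutator]
    exact h2

end Cfsg.Agent.S2015
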