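import Cfsg.Statements.S3662
import Cfsg.Agent.Lib.Helper93.G24.Rep6
import Cfsg.Agent.Lib.Helper36.ChevField
import Cfsg.Agent.Lib.Helper18.ChevFinal

set_option autoImplicit false
open Cfsg

namespace Cfsg.Agent.S3662

open Cfsg.Agent.Lib.Helper93 Cfsg.Agent.Lib.Helper61 Cfsg.Agent.Lib.Helper36
  Cfsg.Agent.Lib.Helper18

/-- change of field -/
theorem iso_field {F : Type*} [Field F] [Fintype F] (hF : Fintype.card F = 4) :
    Nonempty (↥(Cfsg.Lie.chevG2.group F) ≃* G24.G2) := by
  have e : F ≃+* G24.F4 := FiniteField.ringEquivOfCardEq (by rw [hF, G24.F4.card_eq])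
  have hB : Base Cfsg.Lie.chevG2 F := base_of_mem F (by simp)
  have hB' : Base Cfsg.Lie.chevG2 G24.F4 := base_of_mem G24.F4 (by simp)
  let ψ : ↥(Cfsg.Lie.chevG2.group F) →* G24.G2 :=
    ((GLm e.toRingHom Cfsg.Lie.chevG2).comp (Subgroup.subtype _)).codRestrict _
      (fun g => GLm_mem_group e.toRingHom hB hB' g.2)
  have hi : Function.Injective ψ := by
    intro a b hab
    apply Subtype.ext
    apply GLm_injective e.toRingHom Cfsg.Lie.chevG2
    exact congrArg Subtype.val hab
  have hc : Nat.card ↥(Cfsg.Lie.chevG2.group F) = Nat.card G24.G2 := by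
    rw [G24.card_G2, Cfsg.Agent.S1059.result (F := F) (q := 4) hF]
    norm_num
  have hfin : Finite G24.G2 := Nat.finite_of_card_ne_zero (by rw [G24.card_G2]; norm_num)
  exact ⟨MulEquiv.ofBijective ψ ((Nat.bijective_iff_injective_and_card ψ).mpr ⟨hi, hc⟩)⟩

/-- The prime graph of a finite group has the prime divisors of its order as vertices, two distinct primes p, q being joined when the group has an element of order pq; two groups have the same prime graph when they have the same prime divisors and the same joined pairs. Let F be the field with 4 elements and L the Chevalley group of type G₂ over F. There are finite groups of arbitrarily large order with the same prime graph as L. -/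
theorem result {F : Type*} [Field F] [Fintype F] (hF : Fintype.card F = 4) (N : ℕ) :
    ∃ (H : Type) (_ : Group H) (_ : Finite H), N < Nat.card H ∧
      ((∀ p : ℕ, p.Prime → (p ∣ Nat.card ↥(Cfsg.Lie.chevG2.group F) ↔ p ∣ Nat.card H)) ∧
      (∀ p q : ℕ, p.Prime → q.Prime → p ≠ q → ((∃ g : ↥(Cfsg.Lie.chevG2.group F), orderOf g = p * q) ↔ (∃ g : H, orderOf g = p * q)))) := by
  obtain ⟨e1⟩ := iso_field hF
  obtain ⟨e2⟩ := G24.iso_G2
  obtain ⟨H, iG, iF, hN, hS⟩ := G24.large_samePG N
  refine ⟨H, iG, Finite.of_fintype H, by rw [Nat.card_eq_fintype_card]; exact hN, ?_⟩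
  exact (SamePG.of_mulEquiv (e1.trans e2.symm)).trans hS

end Cfsg.Agent.S3662
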