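import Cfsg.Statements.S2102
import Cfsg.Agent.S3662
import Cfsg.Agent.Lib.Helper66.SchurUniv
import Cfsg.Agent.Lib.Helper28.Mult.G24Exist

set_option autoImplicit false
open Cfsg

namespace Cfsg.Agent.S2102

/-- Exceptional Schur multiplier: over the field with 4 elements the Chevalley group of type G₂ has Schur multiplier cyclic of order 2 (here the Schur multiplier is described through stem extensions, as in the definitions). -/
theorem result {F : Type*} [Field F] [Fintype F] (hF : Fintype.card F = 4) : Cfsg.HasCyclicSchurMultiplier ↥(Cfsg.Lie.chevG2.group F) 2 := by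
  obtain ⟨e1⟩ := Cfsg.Agent.S3662.iso_field hF
  obtain ⟨e2⟩ := Cfsg.Agent.Lib.Helper93.G24.iso_G2
  exact Cfsg.Agent.Lib.Helper66.hasSchurMultiplier_congr_univ (e2.trans e1.symm)
    Cfsg.Agent.Lib.Helper28.Mult.G24E.main

end Cfsg.Agent.S2102
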