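import Cfsg.Statements.S2133
import Cfsg.Agent.Lib.Helper90.Holo7

set_option autoImplicit false
open Cfsg

namespace Cfsg.Agent.S2133

open Cfsg.Agent.Lib.Helper90 Cfsg.Agent.Lib.Helper27 Cfsg.Agent.Lib.Helper30

/-- The Mathieu group M₂₄ (the automorphism group of the length-24 binary code) has an involution whose centraliser is isomorphic to the centraliser of a transvection in SL(5, 2) (a group of shape 2^{1+6}:GL(3, 2)). -/
theorem result (s : Matrix.SpecialLinearGroup (Fin 5) (ZMod 2)) (hs : (s : Matrix (Fin 5) (Fin 5) (ZMod 2)) = Matrix.transvection 0 1 1) : ∃ z : ↥Cfsg.M24, orderOf z = 2 ∧ Nonempty (↥(Subgroup.centralizer ({z} : Set ↥Cfsg.M24)) ≃* ↥(Subgroup.centralizer ({s} : Set (Matrix.SpecialLinearGroup (Fin 5) (ZMod 2))))) := by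
  have ho : unmask 8536111 ∈ octads := unmask_mem_octads (by decide +kernel) (by decide +kernel)
  obtain ⟨o, hoo⟩ : ∃ o : Finset GolayPt, o = unmask 8536111 := ⟨_, rfl⟩
  rw [← hoo] at ho
  have h381 := Cfsg.Agent.S0381.result o ho
  -- a nontrivial element of the pointwise stabiliser
  obtain ⟨a, ha, ha1⟩ : ∃ a ∈ octFix o, a ≠ 1 := by
    by_contra hcon
    push Not at hcon
    have hbot : octFix o = ⊥ := (Subgroup.eq_bot_iff_forall _).mpr hcon
    have h1 : Nat.card ↥(octFix o) = 16 := h381.1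
    rw [hbot, Subgroup.card_bot] at h1
    norm_num at h1
  have ha' := mem_octFix_iff.mp ha
  have hsq : a * a = 1 := h381.2 a ha
  obtain ⟨z, hz⟩ : ∃ z : ↥M24, (z : Equiv.Perm GolayPt) = a := ⟨⟨a, ha'.1⟩, rfl⟩
  have hz1 : z ≠ 1 := by
    intro h
    apply ha1
    rw [← hz, h]; rfl
  have hzsq : z * z = 1 := by
    apply Subtype.ext
    show (z : Equiv.Perm GolayPt) * (z : Equiv.Perm GolayPt) = 1
    rw [hz, hsq]
  have hfix : ∀ p : GolayPt, (z : Equiv.Perm GolayPt) p = p ↔ p ∈ o := by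
    intro p
    rw [hz]
    constructor
    · intro hp
      by_contra hpo
      exact ha1 (Cfsg.Agent.S1554.eq_one_of_fix ho hpo ha'.1 ha'.2 hp)
    · exact ha'.2 p
  obtain ⟨D, hD⟩ := exists_affData_M24 z hz1 o ho hfix
  refine ⟨z, ?_, ?_⟩
  · exact orderOf_eq_prime (by rw [pow_two]; exact hzsq) hz1
  · have h2 := affSL_z 3 s hs
    have h3 := D.cent_equiv (affSL 3)
    rw [hD, h2] at h3
    exact h3

end Cfsg.Agent.S2133
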