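import Cfsg.Statements.S2134
import Cfsg.Agent.Lib.Helper93.HeC.HeUB
import Cfsg.Agent.Lib.Helper93.HeC.MatSide
import Cfsg.Agent.Lib.Helper93.Sp4.Iso

set_option autoImplicit false
open Cfsg

namespace Cfsg.Agent.S2134

open Cfsg.Agent.Lib.Helper28 Cfsg.Agent.Lib.Helper93.HeC

/-- the diagonal letters -/
noncomputable def vD (x : ℕ) : HeG × SL5 := (vHe x, vM x)

theorem evalW_vD (w : List ℕ) : evalW vD w = (evalW vHe w, evalW vM w) := by
  induction w with
  | nil => rfl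
  | cons x w ih => rw [evalW_cons, evalW_cons, evalW_cons, ih]; rfl

/-- the diagonal subgroup -/
noncomputable def Dg : Subgroup (HeG × SL5) := Sg vD [0, 1, 2, 3, 4, 5, 6]

theorem Dg_bound : Finite Dg ∧ Nat.card Dg ≤ 21504 := by
  refine bound_0 vD ?_ ?_
  · intro w hw
    rw [evalW_vD, vHe_W w hw, vM_W w hw]; rfl
  · intro y hy
    show (vHe (oinv y), vM (oinv y)) = (vHe y, vM y)⁻¹
    rw [vHe_oinv y hy, vM_oinv y hy]; rfl

theorem Dg_fst : Dg.map (MonoidHom.fst HeG SL5) = A1 := by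
  unfold Dg A1 Sg
  rw [MonoidHom.map_closure, Set.image_image]
  rfl

theorem Dg_snd : Dg.map (MonoidHom.snd HeG SL5) = A2 := by
  unfold Dg A2 Sg
  rw [MonoidHom.map_closure, Set.image_image]
  rfl

theorem A1_iso : Nonempty (A1 ≃* A2) := by
  obtain ⟨hf, hc⟩ := Dg_bound
  obtain ⟨e1⟩ := Cfsg.Agent.Lib.Helper93.Sp4.equiv_map_of_card_le (MonoidHom.fst HeG SL5) Dg hf
    (by rw [Dg_fst, card_A1]; exact hc)
  obtain ⟨e2⟩ := Cfsg.Agent.Lib.Helper93.Sp4.equiv_map_of_card_le (MonoidHom.snd HeG SL5) Dg hf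
    (by rw [Dg_snd, card_A2]; exact hc)
  exact ⟨(MulEquiv.subgroupCongr Dg_fst).symm.trans (e1.symm.trans (e2.trans (MulEquiv.subgroupCongr Dg_snd)))⟩

/-- The Held group (presented on seven involutions, as in the definitions) has an involution whose centraliser is isomorphic to the centraliser of a transvection in SL(5, 2) (a group of shape 2^{1+6}:GL(3, 2)). -/
theorem result (s : Matrix.SpecialLinearGroup (Fin 5) (ZMod 2)) (hs : (s : Matrix (Fin 5) (Fin 5) (ZMod 2)) = Matrix.transvection 0 1 1) : ∃ z : Cfsg.Spor.He, orderOf z = 2 ∧ Nonempty (↥(Subgroup.centralizer ({z} : Set Cfsg.Spor.He)) ≃* ↥(Subgroup.centralizer ({s} : Set (Matrix.SpecialLinearGroup (Fin 5) (ZMod 2))))) := by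
  obtain ⟨e⟩ := A1_iso
  refine ⟨(eG : HeG), orderOf_eG, ?_⟩
  exact ⟨(MulEquiv.subgroupCongr A1_eq).symm.trans (e.trans (MulEquiv.subgroupCongr (A2_eq s hs)))⟩

end Cfsg.Agent.S2134
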