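import Cfsg.Statements.S2135
import Cfsg.Agent.Lib.Helper56.J3InvMain

set_option autoImplicit false
open Cfsg

namespace Cfsg.Agent.S2135

open Cfsg.Agent.Lib.Helper56.J3 in
theorem aux {F : Type*} [Field F] [Finite F] {ω : F} (h : Hyp4 ω) (X : Subgroup (GL Cfsg.Spor.F9 F))
    (hX : X = KK h.toHyp) :
    (∀ x y : X ⧸ Subgroup.center X, orderOf x = 2 → orderOf y = 2 → IsConj x y) ∧
    ∃ t : X ⧸ Subgroup.center X, orderOf t = 2 ∧
      ∃ (Q : Subgroup (Subgroup.centralizer ({t} : Set (X ⧸ Subgroup.center X)))) (_ : Q.Normal),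
      Cfsg.IsExtraspecial 2 Q ∧ Nat.card Q = 32 ∧
      (∀ E : Subgroup Q, Cfsg.IsElementaryAbelian 2 E → Nat.card E ≤ 2 ^ 2) ∧
      (∃ H : Subgroup (Subgroup.centralizer ({t} : Set (X ⧸ Subgroup.center X))),
        Q.IsComplement' H) ∧
      Nonempty (Subgroup.centralizer ({t} : Set (X ⧸ Subgroup.center X)) ⧸ Q ≃*
        alternatingGroup (Fin 5)) := by
  subst hX
  exact (tsdj h (QuotientGroup.mk' (Subgroup.center (KK h.toHyp)))
    (QuotientGroup.mk'_surjective _) (QuotientGroup.ker_mk' _)).main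

/-- For any field with 4 elements and any element ω of it with ω² + ω + 1 = 0: in the Janko group J₃ (the group generated by explicit 9 × 9 matrices over that field built from ω, taken modulo its centre) all involutions are conjugate, and the centraliser C of an involution has a normal extraspecial subgroup Q of order 32 containing no elementary abelian subgroup of order 8, complemented in C, with C / Q isomorphic to the alternating group of degree 5 (shape 2^{1+4}_-:A₅). -/
theorem result {F : Type*} [Field F] [Fintype F] (hF : Fintype.card F = 4) (ω : F) (hω : ω ^ 2 + ω + 1 = 0) : (∀ x y : Cfsg.Spor.J3 F ω, orderOf x = 2 → orderOf y = 2 → IsConj x y) ∧ ∃ t : Cfsg.Spor.J3 F ω, orderOf t = 2 ∧ ∃ (Q : Subgroup ↥(Subgroup.centralizer ({t} : Set (Cfsg.Spor.J3 F ω)))) (_ : Q.Normal), Cfsg.IsExtraspecial 2 Q ∧ Nat.card Q = 32 ∧ (∀ E : Subgroup Q, Cfsg.IsElementaryAbelian 2 E → Nat.card E ≤ 2 ^ 2) ∧ (∃ H : Subgroup ↥(Subgroup.centralizer ({t} : Set (Cfsg.Spor.J3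 F ω))), Q.IsComplement' H) ∧ Nonempty (↥(Subgroup.centralizer ({t} : Set (Cfsg.Spor.J3 F ω))) ⧸ Q ≃* ↥(alternatingGroup (Fin 5))) := by
  have h4 := Cfsg.Agent.Lib.Helper56.J3.hyp4_of_card hF hω
  exact aux h4 _ (Cfsg.Agent.Lib.Helper56.J3.threeJ3_eq h4.toHyp)

end Cfsg.Agent.S2135
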