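import Cfsg.Statements.S2162
import Cfsg.Agent.Lib.Helper43.SqZero
import Cfsg.Agent.Lib.Helper43.GLEquiv

set_option autoImplicit false
open Cfsg

namespace Cfsg.Agent.S2162

open Matrix Module Cfsg.Agent.Lib.Helper43

theorem sq_zero {F : Type*} [Field F] (h2 : (2 : F) = 0) {n : ℕ}
    (a : Matrix.SpecialLinearGroup (Fin n) F) (ha : orderOf a = 2) :
    ((a : Matrix (Fin n) (Fin n) F) - 1) * ((a : Matrix (Fin n) (Fin n) F) - 1) = 0 := by
  have haa : (a : Matrix (Fin n) (Fin n) F) * (a : Matrix (Fin n) (Fin n) F) = 1 := by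
    have h := pow_orderOf_eq_one a
    rw [ha, pow_two] at h
    have := congrArg (fun x : Matrix.SpecialLinearGroup (Fin n) F => (x : Matrix (Fin n) (Fin n) F)) h
    simpa using this
  have : ((a : Matrix (Fin n) (Fin n) F) - 1) * ((a : Matrix (Fin n) (Fin n) F) - 1)
      = (a : Matrix (Fin n) (Fin n) F) * (a : Matrix (Fin n) (Fin n) F)
        - (2 : F) • (a : Matrix (Fin n) (Fin n) F) + 1 := by
    rw [two_smul]; noncomm_ring
  rw [this, haa, h2, zero_smul, sub_zero]
  have : (1 : Matrix (Fin n) (Fin n) F) + 1 = (2 : F) • 1 := by rw [two_smul]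
  rw [this, h2, zero_smul]

/-- Conjugacy of involutions in the special linear group over a finite field of characteristic two, in dimension at least 3: two elements of order 2 of SL_n(F) are conjugate in SL_n(F) exactly when the matrices a − 1 and b − 1 have the same rank (the rank of a − 1 is the dimension of the commutator space [V, a]). -/
theorem result {F : Type*} [Field F] [Fintype F] [CharP F 2] {n : ℕ} (hn : 3 ≤ n) (a b : Matrix.SpecialLinearGroup (Fin n) F) (ha : orderOf a = 2) (hb : orderOf b = 2) :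
    IsConj a b ↔ ((a : Matrix (Fin n) (Fin n) F) - 1).rank = ((b : Matrix (Fin n) (Fin n) F) - 1).rank := by
  have h2 : (2 : F) = 0 := by
    have := CharP.cast_eq_zero F 2
    exact_mod_cast this
  constructor
  · intro h
    obtain ⟨c, hc⟩ := isConj_iff.mp h
    have hcc : (c : Matrix (Fin n) (Fin n) F) * ((c⁻¹ : Matrix.SpecialLinearGroup (Fin n) F) :
        Matrix (Fin n) (Fin n) F) = 1 := by
      rw [← Matrix.SpecialLinearGroup.coe_mul, mul_inv_cancel]; rfl
    have hb' : (b : Matrix (Fin n) (Fin n) F) - 1 = (c : Matrix (Fin n) (Fin n) F) *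
        ((a : Matrix (Fin n) (Fin n) F) - 1) * ((c⁻¹ : Matrix.SpecialLinearGroup (Fin n) F) :
        Matrix (Fin n) (Fin n) F) := by
      rw [← hc, Matrix.SpecialLinearGroup.coe_mul, Matrix.SpecialLinearGroup.coe_mul,
        Matrix.mul_sub, Matrix.sub_mul, Matrix.mul_one, hcc]
    rw [hb', Matrix.rank_mul_eq_left_of_isUnit_det _ _ (by rw [(c⁻¹).det_coe]; exact isUnit_one),
      Matrix.rank_mul_eq_right_of_isUnit_det _ _ (by rw [c.det_coe]; exact isUnit_one)]
  · intro hr
    let N : (Fin n → F) →ₗ[F] (Fin n → F) := Matrix.mulVecLin ((a : Matrix (Fin n) (Fin n) F) - 1)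
    let N' : (Fin n → F) →ₗ[F] (Fin n → F) := Matrix.mulVecLin ((b : Matrix (Fin n) (Fin n) F) - 1)
    have hNx : ∀ x, N x = (a : Matrix (Fin n) (Fin n) F) *ᵥ x - x := by
      intro x
      show ((a : Matrix (Fin n) (Fin n) F) - 1) *ᵥ x = _
      rw [Matrix.sub_mulVec, Matrix.one_mulVec]
    have hNx' : ∀ x, N' x = (b : Matrix (Fin n) (Fin n) F) *ᵥ x - x := by
      intro x
      show ((b : Matrix (Fin n) (Fin n) F) - 1) *ᵥ x = _
      rw [Matrix.sub_mulVec, Matrix.one_mulVec]
    have hN : ∀ x, N (N x) = 0 := by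
      intro x
      show ((a : Matrix (Fin n) (Fin n) F) - 1) *ᵥ (((a : Matrix (Fin n) (Fin n) F) - 1) *ᵥ x) = 0
      rw [Matrix.mulVec_mulVec, sq_zero h2 a ha, Matrix.zero_mulVec]
    have hN' : ∀ x, N' (N' x) = 0 := by
      intro x
      show ((b : Matrix (Fin n) (Fin n) F) - 1) *ᵥ (((b : Matrix (Fin n) (Fin n) F) - 1) *ᵥ x) = 0
      rw [Matrix.mulVec_mulVec, sq_zero h2 b hb, Matrix.zero_mulVec]
    have hN0 : N ≠ 0 := by
      intro h0
      have h1 : a = 1 := by
        apply Subtype.ext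
        apply mulVec_ext
        intro x
        have := hNx x
        rw [h0, LinearMap.zero_apply] at this
        rw [sub_eq_zero.mp this.symm]
        exact (Matrix.one_mulVec x).symm
      rw [h1, orderOf_one] at ha
      omega
    have hrr : finrank F (LinearMap.range N) = finrank F (LinearMap.range N') := hr
    obtain ⟨g, hg⟩ := exists_equiv_of_sq_zero N N' hN hN' hrr
    set d : F := LinearMap.det (g : (Fin n → F) →ₗ[F] (Fin n → F)) with hd
    have hd0 : d ≠ 0 := (LinearEquiv.isUnit_det' g).ne_zero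
    obtain ⟨l, hl⟩ := FiniteField.isSquare_of_char_two (ringChar.eq F 2) d⁻¹
    have hl0 : l ≠ 0 := by
      rintro rfl
      exact inv_ne_zero hd0 (by simpa using hl)
    obtain ⟨h, hh, hdet⟩ := exists_commuting_det_sq N hN hN0 l hl0
    let g' : (Fin n → F) ≃ₗ[F] (Fin n → F) := h.trans g
    have hg' : ∀ x, g' (N x) = N' (g' x) := by
      intro x
      show g (h (N x)) = N' (g (h x))
      rw [hh, hg]
    have hdet' : LinearMap.det (g' : (Fin n → F) →ₗ[F] (Fin n → F)) = 1 := by
      have : (g' : (Fin n → F) →ₗ[F] (Fin n → F)) = (g : (Fin n → F) →ₗ[F] (Fin n → F)) ∘ₗ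
        (h : (Fin n → F) →ₗ[F] (Fin n → F)) := rfl
      rw [this, LinearMap.det_comp, hdet, ← hl, ← hd, mul_inv_cancel₀ hd0]
    let M : Matrix (Fin n) (Fin n) F := LinearMap.toMatrix' (g' : (Fin n → F) →ₗ[F] (Fin n → F))
    have hM : M.det = 1 := by rw [LinearMap.det_toMatrix', hdet']
    have hMx : ∀ x, M *ᵥ x = g' x := by
      intro x
      have : Matrix.toLin' M = (g' : (Fin n → F) →ₗ[F] (Fin n → F)) := Matrix.toLin'_toMatrix' _
      rw [← Matrix.toLin'_apply, this]; rfl
    let c : Matrix.SpecialLinearGroup (Fin n) F := ⟨M, hM⟩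
    rw [isConj_iff]
    refine ⟨c, ?_⟩
    rw [mul_inv_eq_iff_eq_mul]
    apply Subtype.ext
    show M * (a : Matrix (Fin n) (Fin n) F) = (b : Matrix (Fin n) (Fin n) F) * M
    apply mulVec_ext
    intro x
    rw [← Matrix.mulVec_mulVec, ← Matrix.mulVec_mulVec, hMx, hMx]
    have h1 : (a : Matrix (Fin n) (Fin n) F) *ᵥ x = N x + x := by rw [hNx]; abel
    have h3 : (b : Matrix (Fin n) (Fin n) F) *ᵥ (g' x) = N' (g' x) + g' x := by rw [hNx']; abel
    rw [h1, h3, map_add, hg']

end Cfsg.Agent.S2162
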