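import Cfsg.Statements.S2163

set_option autoImplicit false
open Cfsg

namespace Cfsg.Agent.S2163

/-- rank sandwich: if `N = A * B` through `Fin ℓ` and `C * N * D = 1`, then `rank N = ℓ`. -/
theorem rank_eq_of_factor {F : Type*} [Field F] {n ℓ : ℕ}
    (N : Matrix (Fin n) (Fin n) F) (A : Matrix (Fin n) (Fin ℓ) F) (B : Matrix (Fin ℓ) (Fin n) F)
    (C : Matrix (Fin ℓ) (Fin n) F) (D : Matrix (Fin n) (Fin ℓ) F)
    (hN : N = A * B) (h1 : C * N * D = 1) : N.rank = ℓ := by
  apply le_antisymm
  · rw [hN]
    calc (A * B).rank ≤ A.rank := Matrix.rank_mul_le_left A B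
      _ ≤ ℓ := Matrix.rank_le_width A
  · calc ℓ = Fintype.card (Fin ℓ) := (Fintype.card_fin ℓ).symm
      _ = (1 : Matrix (Fin ℓ) (Fin ℓ) F).rank := (Matrix.rank_one).symm
      _ = (C * N * D).rank := by rw [h1]
      _ ≤ (C * N).rank := Matrix.rank_mul_le_left _ _
      _ ≤ N.rank := Matrix.rank_mul_le_right _ _

theorem result {F : Type*} [Field F] [Fintype F] [CharP F 2] {n : ℕ} (hn : 3 ≤ n) (ℓ : ℕ) (h1 : 1 ≤ ℓ) (h2 : 2 * ℓ ≤ n) :
    ∃ a : Matrix.SpecialLinearGroup (Fin n) F, (a : Matrix (Fin n) (Fin n) F) = 1 + Matrix.of (fun i j : Fin n => if j.val < ℓ ∧ i.val = j.val + (n - ℓ) then (1 : F) else 0) ∧ orderOf a = 2 ∧ ((a : Matrix (Fin n) (Fin n) F) - 1).rank = ℓ := by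
  set N : Matrix (Fin n) (Fin n) F := Matrix.of (fun i j : Fin n => if j.val < ℓ ∧ i.val = j.val + (n - ℓ) then (1 : F) else 0) with hNdef
  have hNN : N * N = 0 := by
    ext i k
    rw [Matrix.mul_apply]
    apply Finset.sum_eq_zero
    intro j _
    simp only [hNdef, Matrix.of_apply]
    by_cases hA : j.val < ℓ ∧ i.val = j.val + (n - ℓ)
    · by_cases hB : k.val < ℓ ∧ j.val = k.val + (n - ℓ)
      · exfalso; omega
      · rw [if_neg hB, mul_zero]
    · rw [if_neg hA, zero_mul]
  have h2F : (2 : F) = 0 := CharP.cast_eq_zero F 2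
  have hsq : (1 + N) * (1 + N) = 1 := by
    have : (1 + N) * (1 + N) = 1 + (2 : F) • N + N * N := by
      rw [two_smul]; noncomm_ring
    rw [this, hNN, h2F, zero_smul, add_zero, add_zero]
  have hdet : (1 + N).det = 1 := by
    have hd : (1 + N).det * (1 + N).det = 1 := by
      rw [← Matrix.det_mul, hsq, Matrix.det_one]
    have : ((1 + N).det - 1) * ((1 + N).det - 1) = 0 := by
      have : ((1 + N).det - 1) * ((1 + N).det - 1) = (1 + N).det * (1 + N).det - 2 * (1 + N).det + 1 := by ring
      rw [this, hd, h2F]; ring_nf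
      rw [h2F]
    have := mul_self_eq_zero.mp this
    exact sub_eq_zero.mp this
  have hNne : N ≠ 0 := by
    intro h
    have := congrFun (congrFun h ⟨n - ℓ, by omega⟩) ⟨0, by omega⟩
    simp only [hNdef, Matrix.of_apply, Matrix.zero_apply] at this
    rw [if_pos ⟨by omega, by omega⟩] at this
    exact one_ne_zero this
  obtain ⟨a, ha⟩ : ∃ a : Matrix.SpecialLinearGroup (Fin n) F, (a : Matrix (Fin n) (Fin n) F) = 1 + N :=
    ⟨⟨1 + N, hdet⟩, rfl⟩
  refine ⟨a, ha, ?_, ?_⟩
  · apply orderOf_eq_prime
    · rw [pow_two]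
      apply Matrix.SpecialLinearGroup.ext_iff _ _ |>.mpr
      intro i j
      rw [Matrix.SpecialLinearGroup.coe_mul, ha, hsq, Matrix.SpecialLinearGroup.coe_one]
    · intro h
      apply hNne
      have h3 : 1 + N = 1 := by rw [← ha, h, Matrix.SpecialLinearGroup.coe_one]
      simpa using h3
  · rw [ha]
    rw [add_sub_cancel_left]
    apply rank_eq_of_factor N
      (Matrix.of fun (i : Fin n) (k : Fin ℓ) => if i.val = k.val + (n - ℓ) then (1 : F) else 0)
      (Matrix.of fun (k : Fin ℓ) (j : Fin n) => if j.val = k.val then (1 : F) else 0)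
      (Matrix.of fun (k : Fin ℓ) (i : Fin n) => if i.val = k.val + (n - ℓ) then (1 : F) else 0)
      (Matrix.of fun (j : Fin n) (k : Fin ℓ) => if j.val = k.val then (1 : F) else 0)
    · ext i j
      rw [Matrix.mul_apply]
      simp only [hNdef, Matrix.of_apply]
      by_cases hj : j.val < ℓ
      · rw [Finset.sum_eq_single (⟨j.val, hj⟩ : Fin ℓ)]
        · simp [hj]
        · intro b _ hb
          have : ¬ (j.val = b.val) := fun h => hb (Fin.ext h.symm)
          rw [if_neg this, mul_zero]
        · intro h; exact absurd (Finset.mem_univ _) h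
      · rw [if_neg (fun h => hj h.1)]
        symm
        apply Finset.sum_eq_zero
        intro b _
        have : ¬ (j.val = b.val) := fun h => hj (h ▸ b.isLt)
        rw [if_neg this, mul_zero]
    · ext k k'
      rw [Matrix.mul_apply]
      rw [Finset.sum_eq_single (⟨k'.val, by omega⟩ : Fin n)]
      · rw [Matrix.mul_apply]
        rw [Finset.sum_eq_single (⟨k.val + (n - ℓ), by omega⟩ : Fin n)]
        · simp only [hNdef, Matrix.of_apply, Matrix.one_apply]
          by_cases hkk : k = k'
          · subst hkk; simp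
          · have : ¬ (k.val = k'.val) := fun h => hkk (Fin.ext h)
            simp [hkk]
            omega
        · intro b _ hb
          have : ¬ (b.val = k.val + (n - ℓ)) := fun h => hb (Fin.ext h)
          simp only [Matrix.of_apply]
          rw [if_neg this, zero_mul]
        · intro h; exact absurd (Finset.mem_univ _) h
      · intro b _ hb
        have : ¬ (b.val = k'.val) := fun h => hb (Fin.ext h)
        simp only [Matrix.of_apply]
        rw [if_neg this, mul_zero]
      · intro h; exact absurd (Finset.mem_univ _) h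

end Cfsg.Agent.S2163
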