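import Cfsg.Statements.S2165

set_option autoImplicit false
open Cfsg

namespace Cfsg.Agent.S2165

/-- rank sandwich: if `N = A * B` through `Fin ℓ` and `C * N * D = 1`, then `rank N = ℓ`. -/
theorem rank_eq_of_factor {F : Type*} [Field F] {n ℓ : ℕ}
    (N : Matrix (Fin n) (Fin n) F) (A : Matrix (Fin n) (Fin ℓ) F) (B : Matrix (Fin ℓ) (Fin n) F)
    (C : Matrix (Fin ℓ) (Fin n) F) (D : Matrix (Fin n) (Fin ℓ) F)
    (hN : N = A * B) (h1 : C * N * D = 1) : N.rank = ℓ := by
  apply le_antisymm
  · rw [hN]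
    calc (A * B).rank ≤ A.rank := Matrix.rank_mul_le_left A B
      _ ≤ ℓ := Matrix.rank_le_width A
  · calc ℓ = Fintype.card (Fin ℓ) := (Fintype.card_fin ℓ).symm
      _ = (1 : Matrix (Fin ℓ) (Fin ℓ) F).rank := (Matrix.rank_one).symm
      _ = (C * N * D).rank := by rw [h1]
      _ ≤ (C * N).rank := Matrix.rank_mul_le_left _ _
      _ ≤ N.rank := Matrix.rank_mul_le_right _ _

/-- the swap `i ↔ i + (n - ℓ)` for `i < ℓ`. -/
def sw (n ℓ : ℕ) (h2 : 2 * ℓ ≤ n) (i : Fin n) : Fin n :=
  if h : i.val < ℓ then ⟨i.val + (n - ℓ), by omega⟩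
  else if h' : n - ℓ ≤ i.val then ⟨i.val - (n - ℓ), by omega⟩ else i

theorem sw_val (n ℓ : ℕ) (h2 : 2 * ℓ ≤ n) (i : Fin n) :
    (sw n ℓ h2 i).val = if i.val < ℓ then i.val + (n - ℓ) else if n - ℓ ≤ i.val then i.val - (n - ℓ) else i.val := by
  unfold sw
  split_ifs <;> rfl

theorem sw_sw (n ℓ : ℕ) (h2 : 2 * ℓ ≤ n) (i : Fin n) : sw n ℓ h2 (sw n ℓ h2 i) = i := by
  apply Fin.ext
  rw [sw_val, sw_val]
  have := i.isLt
  split_ifs <;> omega

theorem result {F : Type*} [Field F] [Fintype F] [CharP F 2] {n q : ℕ} (hF : Fintype.card F = q ^ 2) (hn : 3 ≤ n) (ℓ : ℕ) (h1 : 1 ≤ ℓ) (h2 : 2 * ℓ ≤ n) :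
    ∃ a : ↥(Cfsg.SU n F q), (((a : Matrix.SpecialLinearGroup (Fin n) F) : Matrix (Fin n) (Fin n) F) = Matrix.of (fun i j : Fin n => if (j.val < ℓ ∧ i.val = j.val + (n - ℓ)) ∨ (i.val < ℓ ∧ j.val = i.val + (n - ℓ)) ∨ (i = j ∧ ℓ ≤ i.val ∧ i.val < n - ℓ) then (1 : F) else 0)) ∧ orderOf a = 2 ∧ ((((a : Matrix.SpecialLinearGroup (Fin n) F) : Matrix (Fin n) (Fin n) F)) - 1).rank = ℓ := by
  set P : Matrix (Fin n) (Fin n) F := Matrix.of (fun i j : Fin n => if (j.val < ℓ ∧ i.val = j.val + (n - ℓ)) ∨ (i.val < ℓ ∧ j.val = i.val + (n - ℓ)) ∨ (i = j ∧ ℓ ≤ i.val ∧ i.val < n - ℓ) then (1 : F) else 0) with hPdef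
  have hP : ∀ i j, P i j = if j = sw n ℓ h2 i then 1 else 0 := by
    intro i j
    simp only [hPdef, Matrix.of_apply]
    congr 1
    rw [Fin.ext_iff, Fin.ext_iff, sw_val]
    have := i.isLt
    have := j.isLt
    apply propext
    split_ifs <;> omega
  have hPv : ∀ (u : Fin n → F) i, (P.mulVec u) i = u (sw n ℓ h2 i) := by
    intro u i
    simp only [Matrix.mulVec, dotProduct, hP]
    simp
  have hPP : P * P = 1 := by
    ext i k
    rw [Matrix.mul_apply]
    simp only [hP]
    rw [Finset.sum_eq_single (sw n ℓ h2 i)]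
    · rw [sw_sw, Matrix.one_apply]
      simp [eq_comm]
    · intro b _ hb
      rw [if_neg hb, zero_mul]
    · intro h; exact absurd (Finset.mem_univ _) h
  have h2F : (2 : F) = 0 := CharP.cast_eq_zero F 2
  have hdet : P.det = 1 := by
    have hd : P.det * P.det = 1 := by
      rw [← Matrix.det_mul, hPP, Matrix.det_one]
    have : (P.det - 1) * (P.det - 1) = 0 := by
      have : (P.det - 1) * (P.det - 1) = P.det * P.det - 2 * P.det + 1 := by ring
      rw [this, hd, h2F]; ring_nf
      rw [h2F]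
    have := mul_self_eq_zero.mp this
    exact sub_eq_zero.mp this
  have hPne : P ≠ 1 := by
    intro h
    have := congrFun (congrFun h ⟨n - ℓ, by omega⟩) ⟨0, by omega⟩
    rw [hP, Matrix.one_apply] at this
    rw [if_pos, if_neg] at this
    · exact one_ne_zero this
    · rw [Fin.ext_iff]; simp; omega
    · rw [Fin.ext_iff, sw_val]; simp; omega
  obtain ⟨a0, ha0⟩ : ∃ a : Matrix.SpecialLinearGroup (Fin n) F, (a : Matrix (Fin n) (Fin n) F) = P :=
    ⟨⟨P, hdet⟩, rfl⟩
  have hmem : a0 ∈ Cfsg.SU n F q := by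
    intro u v
    have : (slToMat n F) a0 = P := by rw [← ha0]; rfl
    rw [this]
    unfold hermForm
    simp only [hPv]
    exact Equiv.sum_comp (Function.Involutive.toPerm (sw n ℓ h2) (sw_sw n ℓ h2)) (fun i => u i * v i ^ q)
  refine ⟨⟨a0, hmem⟩, ha0, ?_, ?_⟩
  · apply orderOf_eq_prime
    · rw [pow_two]
      apply Subtype.ext
      apply Matrix.SpecialLinearGroup.ext_iff _ _ |>.mpr
      intro i j
      show ((a0 * a0 : Matrix.SpecialLinearGroup (Fin n) F) : Matrix (Fin n) (Fin n) F) i j = _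
      rw [Matrix.SpecialLinearGroup.coe_mul, ha0, hPP]
      rfl
    · intro h
      apply hPne
      have h3 : a0 = 1 := congrArg Subtype.val h
      rw [← ha0, h3, Matrix.SpecialLinearGroup.coe_one]
  · show ((a0 : Matrix (Fin n) (Fin n) F) - 1).rank = ℓ
    rw [ha0]
    apply rank_eq_of_factor (P - 1)
      (Matrix.of fun (i : Fin n) (k : Fin ℓ) => (if i.val = k.val then (1 : F) else 0) - (if i.val = k.val + (n - ℓ) then (1 : F) else 0))
      (Matrix.of fun (k : Fin ℓ) (j : Fin n) => (if j.val = k.val + (n - ℓ) then (1 : F) else 0) - (if j.val = k.val then (1 : F) else 0))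
      (Matrix.of fun (k : Fin ℓ) (i : Fin n) => if i.val = k.val + (n - ℓ) then (1 : F) else 0)
      (Matrix.of fun (j : Fin n) (k : Fin ℓ) => if j.val = k.val then (1 : F) else 0)
    · ext i j
      rw [Matrix.mul_apply, Matrix.sub_apply, hP, Matrix.one_apply]
      simp only [Matrix.of_apply]
      have hi := i.isLt
      have hj := j.isLt
      by_cases hi1 : i.val < ℓ
      · rw [Finset.sum_eq_single (⟨i.val, hi1⟩ : Fin ℓ)]
        · have e1 : ¬ (i.val = i.val + (n - ℓ)) := by omega
          have e2 : (j = sw n ℓ h2 i) ↔ j.val = i.val + (n - ℓ) := by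
            rw [Fin.ext_iff, sw_val, if_pos hi1]
          have e3 : (i = j) ↔ j.val = i.val := by rw [Fin.ext_iff, eq_comm]
          simp only [e1, e2, e3, if_true, if_false, sub_zero, one_mul]
        · intro b _ hb
          have e1 : ¬ (i.val = b.val) := fun h => hb (Fin.ext h.symm)
          have e2 : ¬ (i.val = b.val + (n - ℓ)) := by omega
          rw [if_neg e1, if_neg e2, sub_zero, zero_mul]
        · intro h; exact absurd (Finset.mem_univ _) h
      · by_cases hi2 : n - ℓ ≤ i.val
        · rw [Finset.sum_eq_single (⟨i.val - (n - ℓ), by omega⟩ : Fin ℓ)]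
          · have e1 : ¬ (i.val = i.val - (n - ℓ)) := by omega
            have e1' : (i.val = i.val - (n - ℓ) + (n - ℓ)) := by omega
            have e2 : (j = sw n ℓ h2 i) ↔ j.val = i.val - (n - ℓ) := by
              rw [Fin.ext_iff, sw_val, if_neg hi1, if_pos hi2]
            have e3 : (i = j) ↔ j.val = i.val - (n - ℓ) + (n - ℓ) := by rw [Fin.ext_iff, eq_comm, ← e1']
            simp only [e2, e3]
            rw [if_neg e1, if_pos e1']
            ring
          · intro b _ hb
            have e1 : ¬ (i.val = b.val) := by have := b.isLt; omega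
            have e2 : ¬ (i.val = b.val + (n - ℓ)) := by
              intro h; apply hb; apply Fin.ext; simp; omega
            rw [if_neg e1, if_neg e2, sub_zero, zero_mul]
          · intro h; exact absurd (Finset.mem_univ _) h
        · have e2 : (j = sw n ℓ h2 i) ↔ i = j := by
            rw [Fin.ext_iff, Fin.ext_iff, sw_val, if_neg hi1, if_neg hi2, eq_comm]
          simp only [e2, sub_self]
          symm
          apply Finset.sum_eq_zero
          intro b _
          have e1 : ¬ (i.val = b.val) := by have := b.isLt; omega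
          have e2 : ¬ (i.val = b.val + (n - ℓ)) := by omega
          rw [if_neg e1, if_neg e2, sub_zero, zero_mul]
    · ext k k'
      rw [Matrix.mul_apply]
      rw [Finset.sum_eq_single (⟨k'.val, by omega⟩ : Fin n)]
      · rw [Matrix.mul_apply]
        rw [Finset.sum_eq_single (⟨k.val + (n - ℓ), by omega⟩ : Fin n)]
        · rw [Matrix.sub_apply, hP]
          simp only [Matrix.of_apply, Matrix.one_apply, if_true, one_mul, mul_one]
          have hk := k.isLt
          have hk' := k'.isLt
          have e1 : ¬ ((⟨k.val + (n - ℓ), by omega⟩ : Fin n) = ⟨k'.val, by omega⟩) := by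
            rw [Fin.ext_iff]; simp; omega
          have e2 : ((⟨k'.val, by omega⟩ : Fin n) = sw n ℓ h2 ⟨k.val + (n - ℓ), by omega⟩) ↔ k = k' := by
            rw [Fin.ext_iff, Fin.ext_iff, sw_val]
            simp only
            split_ifs <;> omega
          rw [if_neg e1, sub_zero]
          simp only [e2]
        · intro b _ hb
          have : ¬ (b.val = k.val + (n - ℓ)) := fun h => hb (Fin.ext h)
          simp only [Matrix.of_apply]
          rw [if_neg this, zero_mul]
        · intro h; exact absurd (Finset.mem_univ _) h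
      · intro b _ hb
        have : ¬ (b.val = k'.val) := fun h => hb (Fin.ext h)
        simp only [Matrix.of_apply]
        rw [if_neg this, mul_zero]
      · intro h; exact absurd (Finset.mem_univ _) h

end Cfsg.Agent.S2165
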