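import Cfsg.Statements.S2167
import Cfsg.Agent.Lib.Helper36.AltForm

set_option autoImplicit false
open Cfsg

namespace Cfsg.Agent.S2167

open Matrix in
theorem J_alt {m : ℕ} {F : Type*} [CommRing F] (v : Fin m ⊕ Fin m → F) :
    v ⬝ᵥ (Matrix.J (Fin m) F *ᵥ v) = 0 := by
  simp only [Matrix.J, dotProduct, Matrix.mulVec, Fintype.sum_sum_type, Matrix.fromBlocks_apply₁₁,
    Matrix.fromBlocks_apply₁₂, Matrix.fromBlocks_apply₂₁, Matrix.fromBlocks_apply₂₂, Matrix.zero_apply,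
    Matrix.neg_apply, Matrix.one_apply, zero_mul, Finset.sum_const_zero, zero_add, add_zero]
  simp only [neg_mul, ite_mul, one_mul, zero_mul, Finset.sum_neg_distrib, Finset.sum_ite_eq, Finset.mem_univ, if_true,
    mul_neg]
  rw [neg_add_eq_zero]
  exact Finset.sum_congr rfl fun i _ => mul_comm _ _

open Matrix in
theorem result {F : Type*} [Field F] [Fintype F] [CharP F 2] {m : ℕ} (hm : 2 ≤ m) (a : ↥(Matrix.symplecticGroup (Fin m) F)) (ha : orderOf a = 2) :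
    (Nat.card {v : Fin m ⊕ Fin m → F // Cfsg.sympForm m F v (Matrix.mulVec ((a : ↥(Matrix.symplecticGroup (Fin m) F)) : Matrix (Fin m ⊕ Fin m) (Fin m ⊕ Fin m) F) v) = 0} = Fintype.card F ^ (2 * m) ∨ Nat.card {v : Fin m ⊕ Fin m → F // Cfsg.sympForm m F v (Matrix.mulVec ((a : ↥(Matrix.symplecticGroup (Fin m) F)) : Matrix (Fin m ⊕ Fin m) (Fin m ⊕ Fin m) F) v) = 0} * Fintype.card F = Fintype.card F ^ (2 * m)) ∧
    ((∀ v : Fin m ⊕ Fin m → F, Cfsg.sympForm m F v (Matrix.mulVec ((a : ↥(Matrix.symplecticGroup (Fin m) F)) : Matrix (Fin m ⊕ Fin m) (Fin m ⊕ Fin m) F) v) = 0) → Even (((a : ↥(Matrix.symplecticGroup (Fin m) F)) : Matrix (Fin m ⊕ Fin m) (Fin m ⊕ Fin m) F) - 1).rank) := by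
  set A : Matrix (Fin m ⊕ Fin m) (Fin m ⊕ Fin m) F := (a : Matrix (Fin m ⊕ Fin m) (Fin m ⊕ Fin m) F) with hA
  have hAA : A * A = 1 := by
    have h : a ^ 2 = 1 := by rw [← ha]; exact pow_orderOf_eq_one a
    rw [pow_two] at h
    have := congrArg Subtype.val h
    exact this
  have hsp : Aᵀ * Matrix.J (Fin m) F * A = Matrix.J (Fin m) F :=
    SymplecticGroup.mem_iff'.mp a.2
  set S : Matrix (Fin m ⊕ Fin m) (Fin m ⊕ Fin m) F := Matrix.J (Fin m) F * A with hS
  have hST : Sᵀ = -S := by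
    rw [hS, Matrix.transpose_mul, Matrix.J_transpose, Matrix.mul_neg]
    congr 1
    calc Aᵀ * Matrix.J (Fin m) F = Aᵀ * Matrix.J (Fin m) F * (A * A) := by rw [hAA, mul_one]
      _ = (Aᵀ * Matrix.J (Fin m) F * A) * A := by rw [mul_assoc, mul_assoc, mul_assoc]
      _ = Matrix.J (Fin m) F * A := by rw [hsp]
  have hform : ∀ v, Cfsg.sympForm m F v (A *ᵥ v) = v ⬝ᵥ (S *ᵥ v) := by
    intro v
    unfold Cfsg.sympForm
    rw [hS, Matrix.mulVec_mulVec]
  have hcross : ∀ u v, v ⬝ᵥ (S *ᵥ u) = - (u ⬝ᵥ (S *ᵥ v)) := by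
    intro u v
    rw [Matrix.dotProduct_mulVec, ← Matrix.mulVec_transpose, hST, Matrix.neg_mulVec, neg_dotProduct, dotProduct_comm]
  have hadd : ∀ u v, (u + v) ⬝ᵥ (S *ᵥ (u + v)) = u ⬝ᵥ (S *ᵥ u) + v ⬝ᵥ (S *ᵥ v) := by
    intro u v
    rw [Matrix.mulVec_add, add_dotProduct, dotProduct_add, dotProduct_add, hcross u v]
    ring
  have hsmul : ∀ (c : F) v, (c • v) ⬝ᵥ (S *ᵥ (c • v)) = c * c * (v ⬝ᵥ (S *ᵥ v)) := by
    intro c v
    rw [Matrix.mulVec_smul, smul_dotProduct, dotProduct_smul, smul_eq_mul, smul_eq_mul, mul_assoc]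
  simp only [hform]
  constructor
  · set φ : (Fin m ⊕ Fin m → F) →+ F := AddMonoidHom.mk' (fun v => v ⬝ᵥ (S *ᵥ v)) hadd with hφ
    have hφapp : ∀ v, φ v = v ⬝ᵥ (S *ᵥ v) := fun v => rfl
    have hcardV : Nat.card (Fin m ⊕ Fin m → F) = Fintype.card F ^ (2 * m) := by
      rw [Nat.card_eq_fintype_card, Fintype.card_fun, Fintype.card_sum, Fintype.card_fin, two_mul]
    have hcardK : Nat.card {v : Fin m ⊕ Fin m → F // v ⬝ᵥ (S *ᵥ v) = 0} = Nat.card φ.ker := rfl
    rw [hcardK]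
    by_cases h0 : ∀ v, φ v = 0
    · left
      have : φ.ker = ⊤ := by
        rw [eq_top_iff]; intro v _; exact h0 v
      rw [this, ← hcardV]
      exact Nat.card_congr (AddSubgroup.topEquiv).toEquiv
    · right
      obtain ⟨v0, hv0⟩ : ∃ v0, φ v0 ≠ 0 := by
        by_contra hcon
        apply h0
        intro v
        by_contra hne
        exact hcon ⟨v, hne⟩
      have hsurj : Function.Surjective φ := by
        intro y
        obtain ⟨c, hc⟩ := FiniteField.isSquare_of_char_two (ringChar.eq F 2) (y / φ v0)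
        refine ⟨c • v0, ?_⟩
        rw [hφapp, hsmul, ← hc, ← hφapp, div_mul_cancel₀ _ hv0]
      have h1 := AddSubgroup.card_mul_index φ.ker
      rw [AddSubgroup.index_ker, AddMonoidHom.range_eq_top.mpr hsurj] at h1
      rw [← hcardV, ← h1, ← Nat.card_eq_fintype_card]
      congr 1
      exact (Nat.card_congr (AddSubgroup.topEquiv).toEquiv).symm
  · intro h
    have hrk : (Matrix.J (Fin m) F * (A - 1)).rank = (A - 1).rank :=
      Matrix.rank_mul_eq_right_of_isUnit_det _ _ (Matrix.isUnit_det_J (Fin m) F)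
    rw [← hrk]
    apply Cfsg.Agent.Lib.Helper36.even_rank_of_alt_matrix
    intro w
    rw [Matrix.mul_sub, mul_one, Matrix.sub_mulVec, dotProduct_sub, ← hS, h w, J_alt, sub_zero]

end Cfsg.Agent.S2167
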