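import Cfsg.Statements.S2172
import Cfsg.Agent.Lib.Helper44.InvolChar2

set_option autoImplicit false
open Cfsg

namespace Cfsg.Agent.S2172

open Cfsg.Agent.Lib.Helper44

/-- Splitting of involution classes from O to Ω for the hyperbolic quadratic form Q = Σ x_i y_i in dimension 2m over a finite field F of characteristic two, m ≥ 4. Let t, s be involutions of the commutator subgroup Ω that are conjugate in the full isometry group O. If it is not the case that t − 1 has rank m and Q(v + t v) = 0 for every vector v, then t and s are conjugate by an element of Ω. If t − 1 has rank m and Q(v + t v) = 0 for all v, then t and s are conjugate by an element of Ω exactly when the intersection of the images of t − 1 and s − 1 has even dimension (so the class of t in O meets at most two classes of Ω). -/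
theorem result {F : Type*} [Field F] [Fintype F] [CharP F 2] {m : ℕ} (hm : 4 ≤ m) (t s : ↥(Cfsg.isometryGroup F (Cfsg.quadFormPlus m F))) (ht : orderOf t = 2) (hs : orderOf s = 2) (htO : t ∈ Cfsg.Omega F (Cfsg.quadFormPlus m F)) (hsO : s ∈ Cfsg.Omega F (Cfsg.quadFormPlus m F)) (hconj : IsConj t s) :
    (¬ (((((t : ↥(Cfsg.isometryGroup F (Cfsg.quadFormPlus m F))) : GL (Fin m ⊕ Fin m) F) : Matrix (Fin m ⊕ Fin m) (Fin m ⊕ Fin m) F) - 1).rank = m ∧ ∀ v : Fin m ⊕ Fin m → F, Cfsg.quadFormPlus m F (v + Matrix.mulVec (((t : ↥(Cfsg.isometryGroup F (Cfsg.quadFormPlus m F))) : GL (Fin m ⊕ Fin m) F) : Matrix (Fin m ⊕ Fin m) (Fin m ⊕ Fin m) F) v) = 0) →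
      ∃ g ∈ Cfsg.Omega F (Cfsg.quadFormPlus m F), g * t * g⁻¹ = s) ∧
    ((((((t : ↥(Cfsg.isometryGroup F (Cfsg.quadFormPlus m F))) : GL (Fin m ⊕ Fin m) F) : Matrix (Fin m ⊕ Fin m) (Fin m ⊕ Fin m) F) - 1).rank = m ∧ ∀ v : Fin m ⊕ Fin m → F, Cfsg.quadFormPlus m F (v + Matrix.mulVec (((t : ↥(Cfsg.isometryGroup F (Cfsg.quadFormPlus m F))) : GL (Fin m ⊕ Fin m) F) : Matrix (Fin m ⊕ Fin m) (Fin m ⊕ Fin m) F) v) = 0) →
      ((∃ g ∈ Cfsg.Omega F (Cfsg.quadFormPlus m F), g * t * g⁻¹ = s) ↔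
        Even (Module.finrank F ↥(LinearMap.range (Matrix.toLin' ((((t : ↥(Cfsg.isometryGroup F (Cfsg.quadFormPlus m F))) : GL (Fin m ⊕ Fin m) F) : Matrix (Fin m ⊕ Fin m) (Fin m ⊕ Fin m) F) - 1)) ⊓ LinearMap.range (Matrix.toLin' ((((s : ↥(Cfsg.isometryGroup F (Cfsg.quadFormPlus m F))) : GL (Fin m ⊕ Fin m) F) : Matrix (Fin m ⊕ Fin m) (Fin m ⊕ Fin m) F) - 1)))))) := by
  have key : ∀ (t s : ↥(Cfsg.isometryGroup F ⇑(plusQF m F))), orderOf t = 2 →
      t ∈ Cfsg.Omega F ⇑(plusQF m F) → IsConj t s →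
    (¬ (((((t : ↥(Cfsg.isometryGroup F ⇑(plusQF m F))) : GL (Fin m ⊕ Fin m) F) : Matrix (Fin m ⊕ Fin m) (Fin m ⊕ Fin m) F) - 1).rank = m ∧ ∀ v : Fin m ⊕ Fin m → F, (plusQF m F) (v + Matrix.mulVec (((t : ↥(Cfsg.isometryGroup F ⇑(plusQF m F))) : GL (Fin m ⊕ Fin m) F) : Matrix (Fin m ⊕ Fin m) (Fin m ⊕ Fin m) F) v) = 0) →
      ∃ g ∈ Cfsg.Omega F ⇑(plusQF m F), g * t * g⁻¹ = s) ∧
    ((((((t : ↥(Cfsg.isometryGroup F ⇑(plusQF m F))) : GL (Fin m ⊕ Fin m) F) : Matrix (Fin m ⊕ Fin m) (Fin m ⊕ Fin m) F) - 1).rank = m ∧ ∀ v : Fin m ⊕ Fin m → F, (plusQF m F) (v + Matrix.mulVec (((t : ↥(Cfsg.isometryGroup F ⇑(plusQF m F))) : GL (Fin m ⊕ Fin m) F) : Matrix (Fin m ⊕ Fin m) (Fin m ⊕ Fin m) F) v) = 0) →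
      ((∃ g ∈ Cfsg.Omega F ⇑(plusQF m F), g * t * g⁻¹ = s) ↔
        Even (Module.finrank F ↥(LinearMap.range (Matrix.toLin' ((((t : ↥(Cfsg.isometryGroup F ⇑(plusQF m F))) : GL (Fin m ⊕ Fin m) F) : Matrix (Fin m ⊕ Fin m) (Fin m ⊕ Fin m) F) - 1)) ⊓ LinearMap.range (Matrix.toLin' ((((s : ↥(Cfsg.isometryGroup F ⇑(plusQF m F))) : GL (Fin m ⊕ Fin m) F) : Matrix (Fin m ⊕ Fin m) (Fin m ⊕ Fin m) F) - 1)))))) := by
    intro t s ht htO hconj
    obtain ⟨g, hg⟩ := isConj_iff.1 hconj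
    have hQ := plusQF_nondeg m F
    have hgen : Fintype.card F ≠ 2 ∨ Fintype.card (Fin m ⊕ Fin m) ≠ 4 := Or.inr (by simp; omega)
    have hvt : ∀ v : Fin m ⊕ Fin m → F, v + Matrix.mulVec ((t : GL (Fin m ⊕ Fin m) F) : Matrix (Fin m ⊕ Fin m) (Fin m ⊕ Fin m) F) v
        = Matrix.mulVecLin (((t : GL (Fin m ⊕ Fin m) F) : Matrix (Fin m ⊕ Fin m) (Fin m ⊕ Fin m) F) - 1) v := by
      intro v
      rw [Matrix.mulVecLin_apply, Matrix.sub_mulVec, Matrix.one_mulVec]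
      ext i
      simp only [Pi.add_apply, Pi.sub_apply]
      rw [CharTwo.sub_eq_add, add_comm]
    constructor
    · intro hnot
      rcases involution_dichotomy (plusQF m F) hQ _ (mul_self_of_orderOf_two t ht) with
        ⟨x, hx, htx⟩ | ⟨h1, h2⟩
      · exact exists_conj_Omega_of_fixed _ hQ hgen t s g hg x hx htx
      · exfalso
        apply hnot
        constructor
        · simp only [Fintype.card_sum, Fintype.card_fin] at h1
          omega
        · intro v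
          rw [hvt]
          exact h2 _ ⟨v, rfl⟩
    · rintro ⟨hrank, hsing⟩
      have hmeven : Even m := by
        rw [← hrank]
        exact (mem_Omega_iff_even_rank _ hQ hgen t).1 htO
      have hU : ∀ u ∈ LinearMap.range (Matrix.mulVecLin (((t : GL (Fin m ⊕ Fin m) F) : Matrix (Fin m ⊕ Fin m) (Fin m ⊕ Fin m) F) - 1)), plusQF m F u = 0 := by
        rintro _ ⟨v, rfl⟩
        rw [← hvt]
        exact hsing v
      have hdimU : Module.finrank F (LinearMap.range (Matrix.mulVecLin (((t : GL (Fin m ⊕ Fin m) F) : Matrix (Fin m ⊕ Fin m) (Fin m ⊕ Fin m) F) - 1))) = m := hrank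
      have main : ∀ g' : ↥(Cfsg.isometryGroup F ⇑(plusQF m F)), g' * t * g'⁻¹ = s →
          (g' ∈ Cfsg.Omega F ⇑(plusQF m F) ↔ Even (Module.finrank F ↥(LinearMap.range (Matrix.toLin' ((((t : ↥(Cfsg.isometryGroup F ⇑(plusQF m F))) : GL (Fin m ⊕ Fin m) F) : Matrix (Fin m ⊕ Fin m) (Fin m ⊕ Fin m) F) - 1)) ⊓ LinearMap.range (Matrix.toLin' ((((s : ↥(Cfsg.isometryGroup F ⇑(plusQF m F))) : GL (Fin m ⊕ Fin m) F) : Matrix (Fin m ⊕ Fin m) (Fin m ⊕ Fin m) F) - 1))))) := by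
        intro g' hg'
        obtain ⟨l, hl, hgl⟩ := exists_list_reflectionMatrix _ hQ hgen g'
        rw [mem_Omega_iff_of_prod_char_two _ hQ hgen g' l hl hgl]
        have h3 := even_finrank_inf_map_of_prod _ hQ hU
          (by rw [hdimU]; simp; omega) g' l hl hgl
        have h4 := range_conj (g' : GL (Fin m ⊕ Fin m) F) (t : GL (Fin m ⊕ Fin m) F) (s : GL (Fin m ⊕ Fin m) F)
          (by rw [← hg']; rfl)
        rw [← h4, hdimU] at h3
        rw [Matrix.toLin'_apply', Matrix.toLin'_apply']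
        rw [Nat.even_add, Nat.even_add] at h3
        tauto
      constructor
      · rintro ⟨g', hg'O, hg'⟩
        exact (main g' hg').1 hg'O
      · intro he
        exact ⟨g, (main g hg).2 he, hg⟩
  rw [plusQF_coe] at key
  exact key t s ht htO hconj

end Cfsg.Agent.S2172
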