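import Cfsg.Statements.S2173
import Cfsg.Agent.Lib.Helper44.InvolChar2

set_option autoImplicit false
open Cfsg

namespace Cfsg.Agent.S2173

open Cfsg.Agent.Lib.Helper44

/-- For the quadratic form Σ x_i y_i + (z₁² + c z₁ z₂ + d z₂²) in dimension 2m with anisotropic binary part over a finite field F of characteristic two, m ≥ 4 (minus type): two involutions of the commutator subgroup Ω that are conjugate in the full isometry group O are conjugate by an element of Ω (no class of involutions of O inside Ω splits). -/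
theorem result {F : Type*} [Field F] [Fintype F] [CharP F 2] {m : ℕ} (hm : 4 ≤ m) (c d : F) (hcd : ∀ z₁ z₂ : F, z₁ ^ 2 + c * z₁ * z₂ + d * z₂ ^ 2 = 0 → z₁ = 0 ∧ z₂ = 0) (t s : ↥(Cfsg.isometryGroup F (Cfsg.quadFormMinus (m - 1) F c d))) (ht : orderOf t = 2) (hs : orderOf s = 2) (htO : t ∈ Cfsg.Omega F (Cfsg.quadFormMinus (m - 1) F c d)) (hsO : s ∈ Cfsg.Omega F (Cfsg.quadFormMinus (m - 1) F c d)) (hconj : IsConj t s) :
    ∃ g ∈ Cfsg.Omega F (Cfsg.quadFormMinus (m - 1) F c d), g * t * g⁻¹ = s := by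
  have key : ∀ (t s : ↥(Cfsg.isometryGroup F ⇑(minusQF (m - 1) F c d))), orderOf t = 2 → IsConj t s →
      ∃ g ∈ Cfsg.Omega F ⇑(minusQF (m - 1) F c d), g * t * g⁻¹ = s := by
    intro t s ht hconj
    obtain ⟨g, hg⟩ := isConj_iff.1 hconj
    have hQ := minusQF_nondeg (m - 1) F hcd
    rcases involution_dichotomy (minusQF (m - 1) F c d) hQ _ (mul_self_of_orderOf_two t ht) with
      ⟨x, hx, htx⟩ | ⟨h1, h2⟩
    · exact exists_conj_Omega_of_fixed _ hQ (Or.inr (by simp; omega)) t s g hg x hx htx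
    · exfalso
      have h3 := minus_finrank_sing_le hcd _ h2
      rw [Matrix.rank] at h1
      simp only [Fintype.card_sum, Fintype.card_fin] at h1
      omega
  rw [minusQF_coe] at key
  exact key t s ht hconj

end Cfsg.Agent.S2173
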