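import Cfsg.Statements.S2175
import Cfsg.Agent.Lib.Helper17.E6I.Final

set_option autoImplicit false
open Cfsg

namespace Cfsg.Agent.S2175

/-- Conjugacy classes of involutions in the Chevalley group of type E₆ over a finite field F of characteristic two (the matrix group generated by the root elements x_r(t)). In this problem's root numbering for type E₆ (the Chevalley data module; fundamental roots numbered so that p₁–p₃–p₄–p₅–p₆ is the long chain of the diagram and p₂ is joined to p₄; roots indexed by their coefficient vectors in increasing order) let r = 71 be the highest root (1,2,2,3,2,1), α = 68 = (1,1,2,2,1,1), β = 66 = (1,1,1,2,2,1), γ = 55 = (0,1,1,2,2,1), δ = 65 = (1,1,1,2,1,1), ε = 67 = (1,1,2,2,1,0) (α ⊥ β and γ, δ, ε pairwise orthogonal); consider x_r(1), x_α(1)x_β(1) and x_γ(1)x_δ(1)x_ε(1). Then: each invertible matrix equal to one of these three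 products lies in the group and has order 2; every element of order 2 of the group is conjugate in the group to one of them; and no two of them are conjugate in the group (so, the three matrices being distinct, the group has exactly three conjugacy classes of involutions). -/
theorem result {F : Type*} [Field F] [Fintype F] [CharP F 2] :
    (∀ y : GL Cfsg.Lie.chevE6.Idx F, ((y : GL Cfsg.Lie.chevE6.Idx F) : Matrix Cfsg.Lie.chevE6.Idx Cfsg.Lie.chevE6.Idx F) ∈ [Cfsg.Lie.chevE6.x F 71 1, Cfsg.Lie.chevE6.x F 68 1 * Cfsg.Lie.chevE6.x F 66 1, Cfsg.Lie.chevE6.x F 55 1 * Cfsg.Lie.chevE6.x F 65 1 * Cfsg.Lie.chevE6.x F 67 1] → y ∈ Cfsg.Lie.chevE6.group F ∧ orderOf y = 2) ∧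
    (∀ g ∈ Cfsg.Lie.chevE6.group F, orderOf g = 2 → ∃ y ∈ Cfsg.Lie.chevE6.group F, ((y : GL Cfsg.Lie.chevE6.Idx F) : Matrix Cfsg.Lie.chevE6.Idx Cfsg.Lie.chevE6.Idx F) ∈ [Cfsg.Lie.chevE6.x F 71 1, Cfsg.Lie.chevE6.x F 68 1 * Cfsg.Lie.chevE6.x F 66 1, Cfsg.Lie.chevE6.x F 55 1 * Cfsg.Lie.chevE6.x F 65 1 * Cfsg.Lie.chevE6.x F 67 1] ∧ ∃ h ∈ Cfsg.Lie.chevE6.group F, h * g * h⁻¹ = y) ∧
    (∀ y₁ ∈ Cfsg.Lie.chevE6.group F, ∀ y₂ ∈ Cfsg.Lie.chevE6.group F, ((y₁ : GL Cfsg.Lie.chevE6.Idx F) : Matrix Cfsg.Lie.chevE6.Idx Cfsg.Lie.chevE6.Idx F) ∈ [Cfsg.Lie.chevE6.x F 71 1, Cfsg.Lie.chevE6.x F 68 1 * Cfsg.Lie.chevE6.x F 66 1, Cfsg.Lie.chevE6.x F 55 1 * Cfsg.Lie.chevE6.x F 65 1 * Cfsg.Lie.chevE6.x F 67 1] → ((y₂ : GL Cfsg.Lie.chevE6.Idx F) : Matrix Cfsg.Lie.chevE6.Idx Cfsg.Lie.chevE6.Idx F) ∈ [Cfsg.Lie.chevE6.x F 71 1, Cfsg.Lie.chevE6.x F 68 1 * Cfsg.Lie.chevE6.x F 66 1, Cfsg.Lie.chevE6.x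 F 55 1 * Cfsg.Lie.chevE6.x F 65 1 * Cfsg.Lie.chevE6.x F 67 1] →
      (∃ h ∈ Cfsg.Lie.chevE6.group F, h * y₁ * h⁻¹ = y₂) → ((y₁ : GL Cfsg.Lie.chevE6.Idx F) : Matrix Cfsg.Lie.chevE6.Idx Cfsg.Lie.chevE6.Idx F) = ((y₂ : GL Cfsg.Lie.chevE6.Idx F) : Matrix Cfsg.Lie.chevE6.Idx Cfsg.Lie.chevE6.Idx F)) := by
  have hD : Cfsg.Lie.chevE6 ∈ [Cfsg.Lie.chevG2, Cfsg.Lie.chevB2, Cfsg.Lie.chevD4, Cfsg.Lie.chevF4,
      Cfsg.Lie.chevE6, Cfsg.Lie.chevE7, Cfsg.Lie.chevE8] := by simp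
  have hB := Cfsg.Agent.Lib.Helper18.base_of_mem F hD
  have key : ∀ y : GL Cfsg.Lie.chevE6.Idx F,
      ((y : GL Cfsg.Lie.chevE6.Idx F) : Matrix Cfsg.Lie.chevE6.Idx Cfsg.Lie.chevE6.Idx F) ∈
        [Cfsg.Lie.chevE6.x F 71 1, Cfsg.Lie.chevE6.x F 68 1 * Cfsg.Lie.chevE6.x F 66 1,
          Cfsg.Lie.chevE6.x F 55 1 * Cfsg.Lie.chevE6.x F 65 1 * Cfsg.Lie.chevE6.x F 67 1] →
      y = Cfsg.Agent.Lib.Helper17.E6I.y1 hB ∨ y = Cfsg.Agent.Lib.Helper17.E6I.y2 hB ∨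
        y = Cfsg.Agent.Lib.Helper17.E6I.y3 hB := by
    intro y hy
    simp only [List.mem_cons, List.mem_nil_iff, or_false] at hy
    rcases hy with hy | hy | hy
    · exact Or.inl (Units.ext hy)
    · exact Or.inr (Or.inl (Units.ext hy))
    · exact Or.inr (Or.inr (Units.ext hy))
  have mem1 : ((Cfsg.Agent.Lib.Helper17.E6I.y1 hB : GL Cfsg.Lie.chevE6.Idx F) :
      Matrix Cfsg.Lie.chevE6.Idx Cfsg.Lie.chevE6.Idx F) ∈
        [Cfsg.Lie.chevE6.x F 71 1, Cfsg.Lie.chevE6.x F 68 1 * Cfsg.Lie.chevE6.x F 66 1,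
          Cfsg.Lie.chevE6.x F 55 1 * Cfsg.Lie.chevE6.x F 65 1 * Cfsg.Lie.chevE6.x F 67 1] :=
    List.mem_cons_self
  have mem2 : ((Cfsg.Agent.Lib.Helper17.E6I.y2 hB : GL Cfsg.Lie.chevE6.Idx F) :
      Matrix Cfsg.Lie.chevE6.Idx Cfsg.Lie.chevE6.Idx F) ∈
        [Cfsg.Lie.chevE6.x F 71 1, Cfsg.Lie.chevE6.x F 68 1 * Cfsg.Lie.chevE6.x F 66 1,
          Cfsg.Lie.chevE6.x F 55 1 * Cfsg.Lie.chevE6.x F 65 1 * Cfsg.Lie.chevE6.x F 67 1] :=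
    List.mem_cons_of_mem _ List.mem_cons_self
  have mem3 : ((Cfsg.Agent.Lib.Helper17.E6I.y3 hB : GL Cfsg.Lie.chevE6.Idx F) :
      Matrix Cfsg.Lie.chevE6.Idx Cfsg.Lie.chevE6.Idx F) ∈
        [Cfsg.Lie.chevE6.x F 71 1, Cfsg.Lie.chevE6.x F 68 1 * Cfsg.Lie.chevE6.x F 66 1,
          Cfsg.Lie.chevE6.x F 55 1 * Cfsg.Lie.chevE6.x F 65 1 * Cfsg.Lie.chevE6.x F 67 1] :=
    List.mem_cons_of_mem _ (List.mem_cons_of_mem _ List.mem_cons_self)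
  obtain ⟨p1, p2, p3⟩ := Cfsg.Agent.Lib.Helper17.E6I.y_props' hB
  refine ⟨?_, ?_, ?_⟩
  · intro y hy
    rcases key y hy with rfl | rfl | rfl
    · exact p1
    · exact p2
    · exact p3
  · intro g hg ho
    obtain ⟨h, hh, hU⟩ := Cfsg.Agent.Lib.Helper17.E6I.conj_into_U' hg ho
    have hgg : g * g = 1 := by
      rw [← sq, ← ho]
      exact pow_orderOf_eq_one g
    have hg1 : g ≠ 1 := by
      rintro rfl
      rw [orderOf_one] at ho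
      norm_num at ho
    have h1 : (h * g * h⁻¹) * (h * g * h⁻¹) = 1 := by
      calc (h * g * h⁻¹) * (h * g * h⁻¹) = h * (g * g) * h⁻¹ := by group
        _ = 1 := by rw [hgg]; group
    have h2 : h * g * h⁻¹ ≠ 1 := fun e => hg1 (Cfsg.Agent.Lib.Helper17.CG.conj_eq_one' e)
    obtain ⟨k, hk, e⟩ := Cfsg.Agent.Lib.Helper17.E6I.good_of_U hB hU h1 h2
    rw [← Cfsg.Agent.Lib.Helper17.CG.conj_mul'] at e
    rcases e with e | e | e
    · exact ⟨_, p1.1, mem1, k * h, mul_mem hk hh, e⟩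
    · exact ⟨_, p2.1, mem2, k * h, mul_mem hk hh, e⟩
    · exact ⟨_, p3.1, mem3, k * h, mul_mem hk hh, e⟩
  · intro y₁ _ y₂ _ m₁ m₂ hc
    obtain ⟨h, hh, e⟩ := hc
    have flip : ∀ a b : GL Cfsg.Lie.chevE6.Idx F, h * a * h⁻¹ = b → h⁻¹ * b * h⁻¹⁻¹ = a := by
      intro a b e
      rw [← e]
      group
    rcases key y₁ m₁ with rfl | rfl | rfl <;> rcases key y₂ m₂ with rfl | rfl | rfl
    · rfl
    · exact (Cfsg.Agent.Lib.Helper17.E6I.not_conj12' hB hh e).elim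
    · exact (Cfsg.Agent.Lib.Helper17.E6I.not_conj13' hB hh e).elim
    · exact (Cfsg.Agent.Lib.Helper17.E6I.not_conj12' hB (inv_mem hh) (flip _ _ e)).elim
    · rfl
    · exact (Cfsg.Agent.Lib.Helper17.E6I.not_conj23' hB hh e).elim
    · exact (Cfsg.Agent.Lib.Helper17.E6I.not_conj13' hB (inv_mem hh) (flip _ _ e)).elim
    · exact (Cfsg.Agent.Lib.Helper17.E6I.not_conj23' hB (inv_mem hh) (flip _ _ e)).elim
    · rfl

end Cfsg.Agent.S2175
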