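import Cfsg.Statements.S2177
import Cfsg.Agent.Lib.Helper17.G2Inv3

set_option autoImplicit false
open Cfsg

namespace Cfsg.Agent.S2177

/-- Conjugacy classes of involutions in the Chevalley group of type G₂ over a finite field F of characteristic two with at least four elements (the matrix group generated by the root elements x_r(t)). In this problem's root numbering for type G₂ (the Chevalley data module; p₁ = a short, p₂ = b long; roots indexed by coefficient vectors in increasing order) let 11 be the highest root 3a + 2b (long) and 9 the short root 2a + b; consider x_{3a+2b}(1) and x_{2a+b}(1). Then: each invertible matrix equal to one of these two products lies in the group and has order 2; every element of order 2 of the group is conjugate in the group to one of them; and no two of them are conjugate in the group (so, the two matrices being distinct, the group has exactly two conjugacy classes of involutions).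 -/
theorem result {F : Type*} [Field F] [Fintype F] [CharP F 2] (hF : 4 ≤ Fintype.card F) :
    (∀ y : GL Cfsg.Lie.chevG2.Idx F, ((y : GL Cfsg.Lie.chevG2.Idx F) : Matrix Cfsg.Lie.chevG2.Idx Cfsg.Lie.chevG2.Idx F) ∈ [Cfsg.Lie.chevG2.x F 11 1, Cfsg.Lie.chevG2.x F 9 1] → y ∈ Cfsg.Lie.chevG2.group F ∧ orderOf y = 2) ∧
    (∀ g ∈ Cfsg.Lie.chevG2.group F, orderOf g = 2 → ∃ y ∈ Cfsg.Lie.chevG2.group F, ((y : GL Cfsg.Lie.chevG2.Idx F) : Matrix Cfsg.Lie.chevG2.Idx Cfsg.Lie.chevG2.Idx F) ∈ [Cfsg.Lie.chevG2.x F 11 1, Cfsg.Lie.chevG2.x F 9 1] ∧ ∃ h ∈ Cfsg.Lie.chevG2.group F, h * g * h⁻¹ = y) ∧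
    (∀ y₁ ∈ Cfsg.Lie.chevG2.group F, ∀ y₂ ∈ Cfsg.Lie.chevG2.group F, ((y₁ : GL Cfsg.Lie.chevG2.Idx F) : Matrix Cfsg.Lie.chevG2.Idx Cfsg.Lie.chevG2.Idx F) ∈ [Cfsg.Lie.chevG2.x F 11 1, Cfsg.Lie.chevG2.x F 9 1] → ((y₂ : GL Cfsg.Lie.chevG2.Idx F) : Matrix Cfsg.Lie.chevG2.Idx Cfsg.Lie.chevG2.Idx F) ∈ [Cfsg.Lie.chevG2.x F 11 1, Cfsg.Lie.chevG2.x F 9 1] →
      (∃ h ∈ Cfsg.Lie.chevG2.group F, h * y₁ * h⁻¹ = y₂) → ((y₁ : GL Cfsg.Lie.chevG2.Idx F) : Matrix Cfsg.Lie.chevG2.Idx Cfsg.Lie.chevG2.Idx F) = ((y₂ : GL Cfsg.Lie.chevG2.Idx F) : Matrix Cfsg.Lie.chevG2.Idx Cfsg.Lie.chevG2.Idx F)) := by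
  have hD : Cfsg.Lie.chevG2 ∈ [Cfsg.Lie.chevG2, Cfsg.Lie.chevB2, Cfsg.Lie.chevD4, Cfsg.Lie.chevF4,
      Cfsg.Lie.chevE6, Cfsg.Lie.chevE7, Cfsg.Lie.chevE8] := by simp
  have hB := Cfsg.Agent.Lib.Helper18.base_of_mem F hD
  have key : ∀ y : GL Cfsg.Lie.chevG2.Idx F,
      ((y : GL Cfsg.Lie.chevG2.Idx F) : Matrix Cfsg.Lie.chevG2.Idx Cfsg.Lie.chevG2.Idx F) ∈
        [Cfsg.Lie.chevG2.x F 11 1, Cfsg.Lie.chevG2.x F 9 1] → y = hB.xg 11 1 ∨ y = hB.xg 9 1 := by
    intro y hy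
    simp only [List.mem_cons, List.mem_nil_iff, or_false] at hy
    rcases hy with hy | hy
    · exact Or.inl (hB.eq_xg hy)
    · exact Or.inr (hB.eq_xg hy)
  have ord : ∀ r, r < 12 → orderOf (hB.xg r 1) = 2 := by
    intro r hr
    apply orderOf_eq_prime
    · rw [sq]
      exact Cfsg.Agent.Lib.Helper17.G2I.xx hB r 1
    · intro h
      rw [hB.xg_eq_one_iff hr] at h
      exact one_ne_zero h
  refine ⟨?_, ?_, ?_⟩
  · intro y hy
    rcases key y hy with rfl | rfl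
    · exact ⟨hB.xg_mem_group (by decide +kernel) 1, ord 11 (by norm_num)⟩
    · exact ⟨hB.xg_mem_group (by decide +kernel) 1, ord 9 (by norm_num)⟩
  · intro g hg ho
    obtain ⟨h, hh, hU⟩ := Cfsg.Agent.Lib.Helper17.G2I.conj_into_U hg ho
    have hgg : g * g = 1 := by
      rw [← sq, ← ho]
      exact pow_orderOf_eq_one g
    have hg1 : g ≠ 1 := by
      rintro rfl
      rw [orderOf_one] at ho
      norm_num at ho
    have h1 : (h * g * h⁻¹) * (h * g * h⁻¹) = 1 := Cfsg.Agent.Lib.Helper17.G2I.sq_conj hgg rfl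
    have h2 : h * g * h⁻¹ ≠ 1 := fun e => hg1 (Cfsg.Agent.Lib.Helper17.G2C.conj_eq_one e)
    obtain ⟨k, hk, e⟩ := Cfsg.Agent.Lib.Helper17.G2I.good_of_U hB hU h1 h2
    rw [← Cfsg.Agent.Lib.Helper17.G2C.conj_mul] at e
    rcases e with e | e
    · exact ⟨hB.xg 11 1, hB.xg_mem_group (by decide +kernel) 1, by simp, k * h, mul_mem hk hh, e⟩
    · exact ⟨hB.xg 9 1, hB.xg_mem_group (by decide +kernel) 1, by simp, k * h, mul_mem hk hh, e⟩
  · intro y₁ _ y₂ _ m₁ m₂ hc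
    obtain ⟨h, hh, e⟩ := hc
    rcases key y₁ m₁ with rfl | rfl <;> rcases key y₂ m₂ with rfl | rfl
    · rfl
    · exact (Cfsg.Agent.Lib.Helper17.G2I.not_conj hB hh e).elim
    · refine (Cfsg.Agent.Lib.Helper17.G2I.not_conj hB (inv_mem hh) (h := h⁻¹) ?_).elim
      rw [← e]
      group
    · rfl

end Cfsg.Agent.S2177
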