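import Cfsg.Statements.S2178
import Cfsg.Agent.Lib.Helper36.ChevCent

set_option autoImplicit false
open Cfsg

namespace Cfsg.Agent.S2178

open Cfsg.Agent.Lib.Helper36

theorem dom47 : domB Cfsg.Lie.chevF4 47 3 0 = true := by decide +kernel
theorem dom44 : domB Cfsg.Lie.chevF4 44 0 2 = true := by decide +kernel

theorem closure_three {F : Type*} [Field F] (D : Cfsg.Lie.ChevalleyDatum) (U : Subgroup (GL D.Idx F)) (a b c : ℕ) :
    U ⊔ Subgroup.closure {g : GL D.Idx F | ∃ s ∈ [a, b, c], ∃ t : F, (g : Matrix D.Idx D.Idx F) = D.x F s t} =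
      U ⊔ D.rootSubgroup F a ⊔ D.rootSubgroup F b ⊔ D.rootSubgroup F c := by
  have : {g : GL D.Idx F | ∃ s ∈ [a, b, c], ∃ t : F, (g : Matrix D.Idx D.Idx F) = D.x F s t} =
      {g : GL D.Idx F | ∃ t : F, (g : Matrix D.Idx D.Idx F) = D.x F a t} ∪
      {g : GL D.Idx F | ∃ t : F, (g : Matrix D.Idx D.Idx F) = D.x F b t} ∪
      {g : GL D.Idx F | ∃ t : F, (g : Matrix D.Idx D.Idx F) = D.x F c t} := by
    ext g
    simp [or_assoc]
  rw [this, Subgroup.closure_union, Subgroup.closure_union]
  unfold Cfsg.Lie.ChevalleyDatum.rootSubgroup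
  simp only [sup_assoc]

/-- Centralizers of the long and the short root involutions in the Chevalley group G of type F₄ over a finite field F of characteristic two (this problem's root numbering for type F₄, from the Chevalley data module: fundamental roots p₁, p₂ short, p₃, p₄ long, with indices 33, 27, 25, 24, their negatives 14, 20, 22, 23; highest root 47, highest short root 44; U the subgroup generated by the positive root subgroups). For an element t of G with matrix x_47(1): the centralizer of t in G is the subgroup generated by U and the root subgroups X_{−p₁}, X_{−p₂}, X_{−p₃} (the unipotent radical of the maximal parabolic subgroup whose Levi factor has fundamental roots p₁, p₂, p₃, together with that Levi factor's root subgroups; the Levi factor is of type C₃). For an element u of G with matrix x_44(1): the centralizer of u in G is generated by U and X_{−p₂}, X_{−p₃}, X_{−p₄} (the same construction for the Levi factor with fundamental roots p₂, p₃, p₄, of type B₃). -/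
theorem result {F : Type*} [Field F] [Fintype F] [CharP F 2] (t u : GL Cfsg.Lie.chevF4.Idx F) (ht : (t : Matrix Cfsg.Lie.chevF4.Idx Cfsg.Lie.chevF4.Idx F) = Cfsg.Lie.chevF4.x F 47 1) (hu : (u : Matrix Cfsg.Lie.chevF4.Idx Cfsg.Lie.chevF4.Idx F) = Cfsg.Lie.chevF4.x F 44 1) :
    Cfsg.Lie.chevF4.group F ⊓ Subgroup.centralizer {t} = Cfsg.Lie.chevF4.posUnipotent F ⊔ Cfsg.Lie.chevF4.rootSubgroup F 14 ⊔ Cfsg.Lie.chevF4.rootSubgroup F 20 ⊔ Cfsg.Lie.chevF4.rootSubgroup F 22 ∧
    Cfsg.Lie.chevF4.group F ⊓ Subgroup.centralizer {u} = Cfsg.Lie.chevF4.posUnipotent F ⊔ Cfsg.Lie.chevF4.rootSubgroup F 20 ⊔ Cfsg.Lie.chevF4.rootSubgroup F 22 ⊔ Cfsg.Lie.chevF4.rootSubgroup F 23 := by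
  constructor
  · rw [centralizer_domRoot (by simp) (domRoot_of_check dom47) (by simp) t ht,
      QJ_eq_of_list _ F 3 [14, 20, 22] (by decide +kernel)]
    exact closure_three _ _ _ _ _
  · rw [centralizer_domRoot (by simp) (domRoot_of_check dom44) (CharP.cast_eq_zero F 2) u hu,
      QJ_eq_of_list _ F 0 [20, 22, 23] (by decide +kernel)]
    exact closure_three _ _ _ _ _

end Cfsg.Agent.S2178
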