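import Cfsg.Statements.S2181
import Cfsg.Agent.Lib.Helper52.E7I.Final

set_option autoImplicit false
open Cfsg

namespace Cfsg.Agent.S2181

/-- The Chevalley group of type E₇ over a finite field of characteristic two (the matrix group generated by the root elements) has exactly five conjugacy classes of elements of order 2. -/
theorem result {F : Type*} [Field F] [Fintype F] [CharP F 2] :
    (ConjClasses.mk '' {g : ↥(Cfsg.Lie.chevE7.group F) | orderOf g = 2}).ncard = 5 := by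
  classical
  have hD : Cfsg.Lie.chevE7 ∈ [Cfsg.Lie.chevG2, Cfsg.Lie.chevB2, Cfsg.Lie.chevD4, Cfsg.Lie.chevF4,
      Cfsg.Lie.chevE6, Cfsg.Lie.chevE7, Cfsg.Lie.chevE8] := by simp
  have hB := Cfsg.Agent.Lib.Helper18.base_of_mem F hD
  obtain ⟨p1, p2, p3, p3b, p4⟩ := Cfsg.Agent.Lib.Helper52.E7I.z_props hB
  apply Cfsg.Agent.Lib.Helper52.E7I.ncard_five
    ![⟨Cfsg.Agent.Lib.Helper52.E7I.z1 hB, p1.1⟩, ⟨Cfsg.Agent.Lib.Helper52.E7I.z2 hB, p2.1⟩,
      ⟨Cfsg.Agent.Lib.Helper52.E7I.z3 hB, p3.1⟩, ⟨Cfsg.Agent.Lib.Helper52.E7I.z3b hB, p3b.1⟩,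
      ⟨Cfsg.Agent.Lib.Helper52.E7I.z4 hB, p4.1⟩]
  · intro i
    fin_cases i
    · exact (Subgroup.orderOf_mk _ _).trans p1.2
    · exact (Subgroup.orderOf_mk _ _).trans p2.2
    · exact (Subgroup.orderOf_mk _ _).trans p3.2
    · exact (Subgroup.orderOf_mk _ _).trans p3b.2
    · exact (Subgroup.orderOf_mk _ _).trans p4.2
  · intro g ho
    have ho' : orderOf (g : GL Cfsg.Lie.chevE7.Idx F) = 2 := by rw [Subgroup.orderOf_coe, ho]
    obtain ⟨h, hh, hU⟩ := Cfsg.Agent.Lib.Helper52.E7I.conj_into_U g.2 ho'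
    have hgg : (g : GL Cfsg.Lie.chevE7.Idx F) * g = 1 := by
      rw [← sq, ← ho']
      exact pow_orderOf_eq_one _
    have hg1 : (g : GL Cfsg.Lie.chevE7.Idx F) ≠ 1 := by
      intro e
      rw [e, orderOf_one] at ho'
      norm_num at ho'
    have h1 : (h * g * h⁻¹) * (h * g * h⁻¹) = 1 := by
      calc (h * g * h⁻¹) * (h * g * h⁻¹) = h * ((g : GL Cfsg.Lie.chevE7.Idx F) * g) * h⁻¹ := by group
        _ = 1 := by rw [hgg]; group
    have h2 : h * g * h⁻¹ ≠ 1 := fun e => hg1 (Cfsg.Agent.Lib.Helper17.CG.conj_eq_one' e)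
    obtain ⟨k, hk, e⟩ := Cfsg.Agent.Lib.Helper52.E7I.good_of_U hB hU h1 h2
    rw [← Cfsg.Agent.Lib.Helper17.CG.conj_mul'] at e
    have hkh : k * h ∈ Cfsg.Lie.chevE7.group F := mul_mem hk hh
    rcases e with e | e | e | e | e
    · exact ⟨0, isConj_iff.2 ⟨⟨k * h, hkh⟩, Subtype.ext e⟩⟩
    · exact ⟨1, isConj_iff.2 ⟨⟨k * h, hkh⟩, Subtype.ext e⟩⟩
    · exact ⟨2, isConj_iff.2 ⟨⟨k * h, hkh⟩, Subtype.ext e⟩⟩
    · exact ⟨3, isConj_iff.2 ⟨⟨k * h, hkh⟩, Subtype.ext e⟩⟩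
    · exact ⟨4, isConj_iff.2 ⟨⟨k * h, hkh⟩, Subtype.ext e⟩⟩
  · intro i j hij
    obtain ⟨c, hc⟩ := isConj_iff.1 hij
    have hc' := congrArg Subtype.val hc
    obtain ⟨n12, n13, n1b, n14, n23, n2b, n24, n3b, n34, nb4⟩ :=
      Cfsg.Agent.Lib.Helper52.E7I.not_conj7 hB c.2
    obtain ⟨m12, m13, m1b, m14, m23, m2b, m24, m3b, m34, mb4⟩ :=
      Cfsg.Agent.Lib.Helper52.E7I.not_conj7 hB (inv_mem c.2)
    have flip : ∀ a b : GL Cfsg.Lie.chevE7.Idx F, (c : GL Cfsg.Lie.chevE7.Idx F) * a * (c : GL Cfsg.Lie.chevE7.Idx F)⁻¹ = b →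
        (c : GL Cfsg.Lie.chevE7.Idx F)⁻¹ * b * (c : GL Cfsg.Lie.chevE7.Idx F)⁻¹⁻¹ = a := by
      intro a b e
      rw [← e]
      group
    fin_cases i <;> fin_cases j
    · rfl
    · exact (n12 hc').elim
    · exact (n13 hc').elim
    · exact (n1b hc').elim
    · exact (n14 hc').elim
    · exact (m12 (flip _ _ hc')).elim
    · rfl
    · exact (n23 hc').elim
    · exact (n2b hc').elim
    · exact (n24 hc').elim
    · exact (m13 (flip _ _ hc')).elim
    · exact (m23 (flip _ _ hc')).elim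
    · rfl
    · exact (n3b hc').elim
    · exact (n34 hc').elim
    · exact (m1b (flip _ _ hc')).elim
    · exact (m2b (flip _ _ hc')).elim
    · exact (m3b (flip _ _ hc')).elim
    · rfl
    · exact (nb4 hc').elim
    · exact (m14 (flip _ _ hc')).elim
    · exact (m24 (flip _ _ hc')).elim
    · exact (m34 (flip _ _ hc')).elim
    · exact (mb4 (flip _ _ hc')).elim
    · rfl

end Cfsg.Agent.S2181
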