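import Cfsg.Statements.S2186
import Cfsg.Agent.Lib.Helper36.ChevPairs

set_option autoImplicit false
open Cfsg

namespace Cfsg.Agent.S2186

open Cfsg.Agent.Lib.Helper36

theorem domG2 : domB Cfsg.Lie.chevG2 11 1 0 = true := by decide +kernel
theorem domD4 : domB Cfsg.Lie.chevD4 23 1 0 = true := by decide +kernel
theorem domE6 : domB Cfsg.Lie.chevE6 71 1 0 = true := by decide +kernel
theorem domE7 : domB Cfsg.Lie.chevE7 125 0 0 = true := by decide +kernel
theorem domE8 : domB Cfsg.Lie.chevE8 239 7 0 = true := by decide +kernel

/-- Let G be the Chevalley group of type G₂ (over a field with at least four elements), D₄, E₆, E₇ or E₈ over a finite field F of characteristic two, and let X be the root subgroup of the highest root (the last root index) — a long root subgroup, of order |F|. For every g in G, the subgroup generated by X and its conjugate g X g⁻¹ is either a 2-group or is conjugate by an element of G to the subgroup generated by X and the root subgroup of the lowest root (index 0, the negative of the highest root), which is a copy of SL₂(F). -/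
theorem result {F : Type*} [Field F] [Fintype F] [CharP F 2] (D : Cfsg.Lie.ChevalleyDatum) (hD : D ∈ [Cfsg.Lie.chevG2, Cfsg.Lie.chevD4, Cfsg.Lie.chevE6, Cfsg.Lie.chevE7, Cfsg.Lie.chevE8]) (hF : D = Cfsg.Lie.chevG2 → 4 ≤ Fintype.card F) (g : GL D.Idx F) (hg : g ∈ D.group F) :
    IsPGroup 2 ↥(D.rootSubgroup F (D.nroots - 1) ⊔ (D.rootSubgroup F (D.nroots - 1)).map (MulAut.conj g).toMonoidHom) ∨
    ∃ h ∈ D.group F, (D.rootSubgroup F (D.nroots - 1) ⊔ (D.rootSubgroup F (D.nroots - 1)).map (MulAut.conj g).toMonoidHom).map (MulAut.conj h).toMonoidHom = D.rootSubgroup F (D.nroots - 1) ⊔ D.rootSubgroup F 0 := by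
  have : Fact (Nat.Prime 2) := ⟨Nat.prime_two⟩
  simp only [List.mem_cons, List.not_mem_nil, or_false] at hD
  rcases hD with rfl | rfl | rfl | rfl | rfl
  · exact highest_root_pair 2 (by simp) (domRoot_of_check domG2) pairOKG2 hg
  · exact highest_root_pair 2 (by simp) (domRoot_of_check domD4) pairOKD4 hg
  · exact highest_root_pair 2 (by simp) (domRoot_of_check domE6) pairOKE6 hg
  · exact highest_root_pair 2 (by simp) (domRoot_of_check domE7) pairOKE7 hg
  · exact highest_root_pair 2 (by simp) (domRoot_of_check domE8) pairOKE8 hg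

end Cfsg.Agent.S2186
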