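import Cfsg.Statements.S2209
import Cfsg.Agent.Lib.Helper36.ChevCent

set_option autoImplicit false
open Cfsg

namespace Cfsg.Agent.S2209

open Cfsg.Agent.Lib.Helper36

theorem dom6 : domB Cfsg.Lie.chevE6 71 1 0 = true := by decide +kernel
theorem dom7 : domB Cfsg.Lie.chevE7 125 0 0 = true := by decide +kernel
theorem dom8 : domB Cfsg.Lie.chevE8 239 7 0 = true := by decide +kernel

/-- Centralizer of a long root involution in the Chevalley groups of type E₆, E₇, E₈ over a finite field F of characteristic two. Let G be the group generated by the root elements, U the subgroup generated by the positive root subgroups, r the highest root (the last root index: 71, 125, 239 respectively), and t the element of G with matrix x_r(1). Then the centralizer of t in G is the subgroup generated by U together with the root subgroups X_{−p} for the fundamental roots p orthogonal to r — all fundamental roots except p₂ for E₆, except p₁ for E₇, except p₈ for E₈ (numbering with p₁–p₃–p₄–…–p_l the long chain and p₂ joined to p₄); the indices of these negative fundamental roots are 15, 29, 32, 34, 35 (E₆), 47, 52, 56, 59, 61,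 62 (E₇), 77, 98, 104, 109, 113, 116, 118 (E₈). (This is the unipotent radical of the corresponding maximal parabolic subgroup extended by the root subgroups of its Levi factor, of type A₅, D₆, E₇ respectively.) -/
theorem result {F : Type*} [Field F] [Fintype F] [CharP F 2] (d : Cfsg.Lie.ChevalleyDatum × List ℕ)
    (hd : d ∈ [(Cfsg.Lie.chevE6, [15, 29, 32, 34, 35]), (Cfsg.Lie.chevE7, [47, 52, 56, 59, 61, 62]), (Cfsg.Lie.chevE8, [77, 98, 104, 109, 113, 116, 118])])
    (t : GL d.1.Idx F) (ht : (t : Matrix d.1.Idx d.1.Idx F) = d.1.x F (d.1.nroots - 1) 1) :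
    d.1.group F ⊓ Subgroup.centralizer {t} = d.1.posUnipotent F ⊔ Subgroup.closure {g : GL d.1.Idx F | ∃ s ∈ d.2, ∃ c : F, (g : Matrix d.1.Idx d.1.Idx F) = d.1.x F s c} := by
  simp only [List.mem_cons, List.not_mem_nil, or_false] at hd
  rcases hd with rfl | rfl | rfl
  · rw [centralizer_domRoot (by simp) (domRoot_of_check dom6) (by simp) t ht]
    exact QJ_eq_of_list _ F 1 _ (by decide +kernel)
  · rw [centralizer_domRoot (by simp) (domRoot_of_check dom7) (by simp) t ht]
    exact QJ_eq_of_list _ F 0 _ (by decide +kernel)
  · rw [centralizer_domRoot (by simp) (domRoot_of_check dom8) (by simp) t ht]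
    exact QJ_eq_of_list _ F 7 _ (by decide +kernel)

end Cfsg.Agent.S2209
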