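import Cfsg.Statements.S2214
import Cfsg.Agent.Lib.Helper36.ChevField2

set_option autoImplicit false
open Cfsg

namespace Cfsg.Agent.S2214

open Cfsg.Agent.Lib.Helper18 Cfsg.Agent.Lib.Helper36

/-- Let k be an algebraically closed field of prime characteristic p, G the adjoint Chevalley group of type G₂, B₂, D₄, F₄, E₆, E₇ or E₈ over k (the matrix group generated by the root elements x_s(t), t ∈ k, acting on the Lie algebra), q = p^a with a ≥ 1, and K a subgroup of G containing every root element x_s(t) with t^q = t and consisting of matrices all of whose entries c satisfy c^q = c. Then the centralizer of K in G is trivial, and the normalizer of K in G is exactly the set of elements of G all of whose entries c satisfy c^q = c. -/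
theorem result {k : Type*} [Field k] [IsAlgClosed k] (p : ℕ) [Fact p.Prime] [CharP k p] (D : Cfsg.Lie.ChevalleyDatum) (hD : D ∈ [Cfsg.Lie.chevG2, Cfsg.Lie.chevB2, Cfsg.Lie.chevD4, Cfsg.Lie.chevF4, Cfsg.Lie.chevE6, Cfsg.Lie.chevE7, Cfsg.Lie.chevE8]) (a : ℕ) (ha : 1 ≤ a) (K : Subgroup (GL D.Idx k)) (hKG : K ≤ D.group k)
    (hLK : Subgroup.closure {g : GL D.Idx k | ∃ (s : ℕ) (t : k), t ^ (p ^ a) = t ∧ (g : Matrix D.Idx D.Idx k) = D.x k s t} ≤ K)
    (hKfix : ∀ g ∈ K, ∀ i j : D.Idx, ((g : Matrix D.Idx D.Idx k) i j) ^ (p ^ a) = (g : Matrix D.Idx D.Idx k) i j) :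
    D.group k ⊓ Subgroup.centralizer (K : Set (GL D.Idx k)) = ⊥ ∧
    ∀ g : GL D.Idx k, g ∈ D.group k → (g ∈ Subgroup.normalizer (K : Set (GL D.Idx k)) ↔ ∀ i j : D.Idx, ((g : Matrix D.Idx D.Idx k) i j) ^ (p ^ a) = (g : Matrix D.Idx D.Idx k) i j) := by
  have hB := base_of_mem k hD
  let σ : k →+* k := iterateFrobenius k p a
  have hσ : ∀ t : k, σ t = t ^ (p ^ a) := fun t => iterateFrobenius_def p a t
  have hfix_iff : ∀ g : GL D.Idx k, GLm σ D g = g ↔
      ∀ i j : D.Idx, ((g : Matrix D.Idx D.Idx k) i j) ^ (p ^ a) = (g : Matrix D.Idx D.Idx k) i j := by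
    intro g
    constructor
    · intro h i j
      have h1 := congrFun (congrFun (congrArg (fun g : GL D.Idx k => (g : Matrix D.Idx D.Idx k)) h) i) j
      simp only [coe_GLm, Matrix.map_apply, hσ] at h1
      exact h1
    · intro h
      apply Units.ext
      ext i j
      rw [coe_GLm, Matrix.map_apply, hσ]
      exact h i j
  have hLK' : ratGroup D σ ≤ K := by
    refine le_trans (le_of_eq ?_) hLK
    unfold ratGroup
    simp only [hσ]
  have hK : ∀ x ∈ K, GLm σ D x = x := fun x hx => (hfix_iff x).mpr (hKfix x hx)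
  have hcent : D.group k ⊓ Subgroup.centralizer (K : Set (GL D.Idx k)) = ⊥ := by
    rw [eq_bot_iff]
    rintro g ⟨hg, hc⟩
    rw [Subgroup.mem_bot]
    apply eq_one_of_commute hD hg
    intro r _
    have h1 : hB.xg r 1 ∈ K := hLK' (xg_mem_ratGroup hB σ r (map_one σ))
    exact (Subgroup.mem_centralizer_iff.mp hc _ h1).symm
  refine ⟨hcent, fun g hg => ?_⟩
  rw [← hfix_iff]
  constructor
  · intro hn
    have h1 : g⁻¹ * GLm σ D g ∈ D.group k ⊓ Subgroup.centralizer (K : Set (GL D.Idx k)) := by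
      refine Subgroup.mem_inf.mpr ⟨(D.group k).mul_mem ((D.group k).inv_mem hg) (GLm_mem_group σ hB hB hg), ?_⟩
      rw [Subgroup.mem_centralizer_iff]
      intro x hx
      have h2 : g * x * g⁻¹ ∈ K := (Subgroup.mem_normalizer_iff.mp hn x).mp hx
      have h3 := hK _ h2
      rw [map_mul, map_mul, map_inv, hK x hx] at h3
      calc x * (g⁻¹ * GLm σ D g) = g⁻¹ * (g * x * g⁻¹) * GLm σ D g := by group
        _ = g⁻¹ * (GLm σ D g * x * (GLm σ D g)⁻¹) * GLm σ D g := by rw [h3]
        _ = _ := by group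
    rw [hcent, Subgroup.mem_bot] at h1
    exact (inv_mul_eq_one.mp h1).symm
  · intro hfix
    rw [Subgroup.mem_normalizer_iff]
    intro x
    constructor
    · intro hx
      exact conj_mem_of_fixed hD σ K hKG hLK' hK hg hfix hx
    · intro hx
      have h1 : GLm σ D g⁻¹ = g⁻¹ := by rw [map_inv, hfix]
      have := conj_mem_of_fixed hD σ K hKG hLK' hK (inv_mem hg) h1 hx
      have e : g⁻¹ * (g * x * g⁻¹) * g⁻¹⁻¹ = x := by group
      rwa [e] at this

end Cfsg.Agent.S2214
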