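import Cfsg.Statements.S2222
import Cfsg.Agent.Lib.Helper76.SN.Alt
import Cfsg.Agent.Lib.Helper76.SN.Five

set_option autoImplicit false
open Cfsg

namespace Cfsg.Agent.S2222

open Cfsg.Agent.Lib.Helper76.SN Cfsg.Agent.Lib.Helper71

/-- In the alternating group of degree n ≥ 5 every subgroup H of odd index is pronormal: for every element g, the subgroups H and gHg⁻¹ are conjugate by an element of the subgroup they generate. -/
theorem result (n : ℕ) (hn : 5 ≤ n)
    (H : Subgroup (alternatingGroup (Fin n))) (hH : Odd H.index) : Cfsg.IsPronormal H := by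
  rcases Nat.eq_or_lt_of_le hn with h5 | h6
  · subst h5
    exact alt_five H hH
  · have hsn : ∀ P : Sylow 2 (alternatingGroup (Fin n)),
        Subgroup.normalizer ((P : Subgroup (alternatingGroup (Fin n))) :
          Set (alternatingGroup (Fin n))) = P :=
      fun P => alt_self_normalizing (by rw [Fintype.card_fin]; omega) P
    exact osp_of_self_normalizing hsn H (exists_sylow_le_of_not_dvd_index hH.not_two_dvd_nat)

end Cfsg.Agent.S2222
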