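import Cfsg.Statements.S2231
-- import your own Cfsg.Agent.* helpers here

set_option autoImplicit false
open Cfsg

namespace Cfsg.Agent.S2231


/-- all `p`-subgroups are commutative -/
def AbP (p : ℕ) (G : Type*) [Group G] : Prop :=
  ∀ Q : Subgroup G, IsPGroup p Q → ∀ a ∈ Q, ∀ b ∈ Q, a * b = b * a

theorem AbP.subgroup {p : ℕ} {G : Type*} [Group G] (h : AbP p G) (K : Subgroup G) : AbP p K := by
  intro Q hQ a ha b hb
  have h1 : IsPGroup p (Q.map K.subtype) := hQ.map _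
  have := h _ h1 a ⟨a, ha, rfl⟩ b ⟨b, hb, rfl⟩
  exact Subtype.ext this

theorem AbP.of_surjective {p : ℕ} [Fact p.Prime] {G H : Type*} [Group G] [Finite G] [Group H]
    (h : AbP p G) (f : G →* H) (hf : Function.Surjective f) : AbP p H := by
  intro Q hQ a ha b hb
  obtain ⟨S, hS⟩ := hQ.exists_le_sylow
  obtain ⟨P, rfl⟩ := Sylow.mapSurjective_surjective hf p S
  have ha' := hS ha
  have hb' := hS hb
  rw [Sylow.coe_mapSurjective] at ha' hb'
  obtain ⟨x, hx, rfl⟩ := ha'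
  obtain ⟨y, hy, rfl⟩ := hb'
  rw [← map_mul, ← map_mul, h P P.2 x hx y hy]

theorem AbP.of_equiv {p : ℕ} {G H : Type*} [Group G] [Group H]
    (h : AbP p G) (f : G ≃* H) : AbP p H := by
  intro Q hQ a ha b hb
  have h1 : IsPGroup p (Q.map f.symm.toMonoidHom) := hQ.map _
  have := h _ h1 (f.symm a) ⟨a, ha, rfl⟩ (f.symm b) ⟨b, hb, rfl⟩
  apply f.symm.injective
  simpa using this

theorem AbP.of_involves {p : ℕ} [Fact p.Prime] {G H : Type*} [Group G] [Finite G] [Group H]
    (h : AbP p G) (hi : Cfsg.Involves H G) : AbP p H := by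
  obtain ⟨K, R, hn, ⟨e⟩⟩ := hi
  exact ((h.subgroup K).of_surjective (QuotientGroup.mk' _) (QuotientGroup.mk'_surjective _)).of_equiv e



theorem field_aux {K : Type*} [Field K] (a b c d a' b' c' d' x y : K)
    (d1 : a * d - b * c = 1) (d2 : a' * d' - b' * c' = 1)
    (g0 : a * x + b * y = x) (g1 : c * x + d * y = y)
    (h0 : a' * x + b' * y = x) (h1 : c' * x + d' * y = y) (hxy : x ≠ 0 ∨ y ≠ 0) :
    a * a' + b * c' = a' * a + b' * c ∧ a * b' + b * d' = a' * b + b' * d ∧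
    c * a' + d * c' = c' * a + d' * c ∧ c * b' + d * d' = c' * b + d' * d := by
  rcases hxy with hx | hy
  · refine ⟨?_, ?_, ?_, ?_⟩ <;> grind
  · refine ⟨?_, ?_, ?_, ?_⟩ <;> grind

theorem comm_of_fix {K : Type*} [Field K] (g h : Matrix.SpecialLinearGroup (Fin 2) K) (v : Fin 2 → K) (hv : v ≠ 0)
    (hg : g • v = v) (hh : h • v = v) : g * h = h * g := by
  have d1 := g.2
  have d2 := h.2
  rw [Matrix.det_fin_two] at d1 d2
  rw [Matrix.SpecialLinearGroup.smul_def] at hg hh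
  have g0 := congrFun hg 0
  have g1 := congrFun hg 1
  have h0 := congrFun hh 0
  have h1 := congrFun hh 1
  simp [Matrix.smul_eq_mulVec, Matrix.mulVec, dotProduct, Fin.sum_univ_two] at g0 g1 h0 h1
  have hv' : v 0 ≠ 0 ∨ v 1 ≠ 0 := by
    by_contra hc
    push Not at hc
    apply hv
    ext i
    fin_cases i
    · exact hc.1
    · exact hc.2
  obtain ⟨e1, e2, e3, e4⟩ := field_aux _ _ _ _ _ _ _ _ _ _ d1 d2 g0 g1 h0 h1 hv'
  ext i j
  simp only [Matrix.SpecialLinearGroup.coe_mul, Matrix.mul_apply, Fin.sum_univ_two]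
  fin_cases i <;> fin_cases j
  · exact e1
  · exact e2
  · exact e3
  · exact e4

theorem abP_SL2 {p : ℕ} [Fact p.Prime] {K : Type*} [Field K] [Fintype K] [CharP K p] :
    AbP p (Matrix.SpecialLinearGroup (Fin 2) K) := by
  intro Q hQ a ha b hb
  have hcard : p ∣ Nat.card (Fin 2 → K) := by
    rw [Nat.card_eq_fintype_card, Fintype.card_fun, Fintype.card_fin]
    obtain ⟨n, hp, hn⟩ := FiniteField.card K p
    rw [hn]
    exact dvd_pow (dvd_pow_self p n.ne_zero) (by norm_num)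
  have h0 : (0 : Fin 2 → K) ∈ MulAction.fixedPoints Q (Fin 2 → K) := by
    intro g
    exact smul_zero g
  obtain ⟨v, hv, hv0⟩ := hQ.exists_fixed_point_of_prime_dvd_card_of_fixed_point (Fin 2 → K) hcard h0
  exact comm_of_fix a b v (Ne.symm hv0) (hv ⟨a, ha⟩) (hv ⟨b, hb⟩)



/-- upper unitriangular matrices in `SL₃` -/
def U3 (p : ℕ) : Subgroup (Matrix.SpecialLinearGroup (Fin 3) (ZMod p)) where
  carrier := {M | M.1 0 0 = 1 ∧ M.1 1 1 = 1 ∧ M.1 2 2 = 1 ∧ M.1 1 0 = 0 ∧ M.1 2 0 = 0 ∧ M.1 2 1 = 0}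
  mul_mem' := by
    rintro a b ⟨a1, a2, a3, a4, a5, a6⟩ ⟨b1, b2, b3, b4, b5, b6⟩
    simp only [Set.mem_ofPred_eq, Matrix.SpecialLinearGroup.coe_mul, Matrix.mul_apply, Fin.sum_univ_three]
    simp [a1, a2, a3, a4, a5, a6, b1, b2, b3, b4, b5, b6]
  one_mem' := by simp
  inv_mem' := by
    rintro a ⟨a1, a2, a3, a4, a5, a6⟩
    simp only [Set.mem_ofPred_eq, Matrix.SpecialLinearGroup.coe_inv, Matrix.adjugate_fin_three]
    simp [a1, a2, a3, a4, a5, a6]

theorem mem_U3 {p : ℕ} (M : Matrix.SpecialLinearGroup (Fin 3) (ZMod p)) :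
    M ∈ U3 p ↔ M.1 0 0 = 1 ∧ M.1 1 1 = 1 ∧ M.1 2 2 = 1 ∧ M.1 1 0 = 0 ∧ M.1 2 0 = 0 ∧ M.1 2 1 = 0 :=
  Iff.rfl

theorem U3_pow {p : ℕ} [Fact p.Prime] (hp : p ≠ 2) (M : Matrix.SpecialLinearGroup (Fin 3) (ZMod p))
    (hM : M ∈ U3 p) : M ^ p = 1 := by
  obtain ⟨a1, a2, a3, a4, a5, a6⟩ := hM
  have hp3 : 3 ≤ p := by
    have := (Fact.out : p.Prime).two_le
    omega
  set N : Matrix (Fin 3) (Fin 3) (ZMod p) := M.1 - 1 with hN
  have n1 : N 0 0 = 0 := by simp [hN, a1]
  have n2 : N 1 1 = 0 := by simp [hN, a2]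
  have n3 : N 2 2 = 0 := by simp [hN, a3]
  have n4 : N 1 0 = 0 := by simp [hN, a4]
  have n5 : N 2 0 = 0 := by simp [hN, a5]
  have n6 : N 2 1 = 0 := by simp [hN, a6]
  have hN3 : N ^ 3 = 0 := by
    ext i j
    simp only [pow_succ, pow_zero, one_mul, Matrix.mul_apply, Fin.sum_univ_three]
    fin_cases i <;> fin_cases j <;> simp [n1, n2, n3, n4, n5, n6]
  have hNp : N ^ p = 0 := by
    obtain ⟨k, rfl⟩ := Nat.exists_eq_add_of_le hp3
    rw [pow_add, hN3, zero_mul]
  apply Subtype.ext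
  rw [Matrix.SpecialLinearGroup.coe_pow]
  have : M.1 = N + 1 := by simp [hN]
  rw [this, add_pow_char_of_commute _ (Commute.one_right N), hNp]
  simp

theorem U3_isPGroup {p : ℕ} [Fact p.Prime] (hp : p ≠ 2) : IsPGroup p (U3 p) := by
  intro g
  refine ⟨1, ?_⟩
  apply Subtype.ext
  simpa using U3_pow hp g.1 g.2

theorem not_abP_qd {p : ℕ} [Fact p.Prime] (hp : p ≠ 2) : ¬ AbP p (Cfsg.qd p) := by
  intro h
  have hQ : IsPGroup p ((U3 p).subgroupOf (Cfsg.qd p)) := (U3_isPGroup hp).comap_subtype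
  let x : Matrix.SpecialLinearGroup (Fin 3) (ZMod p) :=
    Matrix.SpecialLinearGroup.transvection (i := 0) (j := 1) (by decide) 1
  let y : Matrix.SpecialLinearGroup (Fin 3) (ZMod p) :=
    Matrix.SpecialLinearGroup.transvection (i := 1) (j := 2) (by decide) 1
  have hx : x ∈ Cfsg.qd p := by
    apply Subgroup.subset_closure
    refine ⟨?_, ?_, ?_⟩ <;>
    simp [x, Matrix.SpecialLinearGroup.transvection, Matrix.transvection, Matrix.single]
  have hy : y ∈ Cfsg.qd p := by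
    apply Subgroup.subset_closure
    refine ⟨?_, ?_, ?_⟩ <;>
    simp [y, Matrix.SpecialLinearGroup.transvection, Matrix.transvection, Matrix.single]
  have hxU : x ∈ U3 p := by
    rw [mem_U3]
    simp [x, Matrix.SpecialLinearGroup.transvection, Matrix.transvection, Matrix.single]
  have hyU : y ∈ U3 p := by
    rw [mem_U3]
    simp [y, Matrix.SpecialLinearGroup.transvection, Matrix.transvection, Matrix.single]
  have := h _ hQ ⟨x, hx⟩ (by simpa [Subgroup.mem_subgroupOf] using hxU) ⟨y, hy⟩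
    (by simpa [Subgroup.mem_subgroupOf] using hyU)
  have h2 : x * y = y * x := congrArg Subtype.val this
  have h3 := congrArg (fun M : Matrix.SpecialLinearGroup (Fin 3) (ZMod p) => M.1 0 2) h2
  simp only [Matrix.SpecialLinearGroup.coe_mul, Matrix.mul_apply, Fin.sum_univ_three] at h3
  simp [x, y, Matrix.SpecialLinearGroup.transvection, Matrix.transvection, Matrix.single] at h3

/-- Let p be an odd prime and K a finite field of characteristic p. Then Qd(p) (the natural semidirect product of an elementary abelian group of order p² by SL₂(p)) is not involved in the projective special linear group PSL₂(K). -/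
theorem result {p : ℕ} [Fact p.Prime] (hp : p ≠ 2) {K : Type*} [Field K] [Fintype K] [CharP K p] : ¬ Cfsg.Involves ↥(Cfsg.qd p) (Matrix.ProjectiveSpecialLinearGroup (Fin 2) K) := by
  intro hi
  have h1 : AbP p (Matrix.ProjectiveSpecialLinearGroup (Fin 2) K) :=
    (abP_SL2 (p := p) (K := K)).of_surjective (QuotientGroup.mk' _) (QuotientGroup.mk'_surjective _)
  exact not_abP_qd hp (h1.of_involves hi)

end Cfsg.Agent.S2231
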