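import Cfsg.Statements.S2239
import Cfsg.Agent.Lib.Helper37.Suzuki.Rigid3

set_option autoImplicit false
open Cfsg

namespace Cfsg.Agent.S2239

/-- Subfield subgroups of the Suzuki group: let q = 2^(2m+1) and s = 2^(2k+1) with m, k ≥ 1 and 2k+1 dividing 2m+1 (so q is a power of s), both groups realised as stabilisers in SL₄ of the Suzuki–Tits ovoid. Then Sz(q) has a subgroup isomorphic to Sz(s), and any two subgroups of Sz(q) isomorphic to Sz(s) are conjugate. -/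
theorem result {F : Type*} [Field F] [Fintype F] {m : ℕ} (hm : 1 ≤ m) (hF : Fintype.card F = 2 ^ (2 * m + 1)) {K : Type*} [Field K] [Fintype K] {k : ℕ} (hk : 1 ≤ k) (hK : Fintype.card K = 2 ^ (2 * k + 1)) (hdiv : 2 * k + 1 ∣ 2 * m + 1) :
    (∃ S : Subgroup ↥(Cfsg.Sz F m), Nonempty (↥S ≃* ↥(Cfsg.Sz K k))) ∧
    ∀ S₁ S₂ : Subgroup ↥(Cfsg.Sz F m), Nonempty (↥S₁ ≃* ↥(Cfsg.Sz K k)) → Nonempty (↥S₂ ≃* ↥(Cfsg.Sz K k)) →
      ∃ g : ↥(Cfsg.Sz F m), S₂ = S₁.map (MulAut.conj g).toMonoidHom := by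
  have _i1 : Cfsg.Agent.Lib.Helper37.Suz.SzField F m := ⟨hm, hF⟩
  have _i2 : Cfsg.Agent.Lib.Helper37.Suz.SzField K k := ⟨hk, hK⟩
  have hcompat := Cfsg.Agent.Lib.Helper37.Suz.compat_of_dvd (K := K) (F := F) hdiv
  obtain ⟨ι₀⟩ := Cfsg.Agent.Lib.Helper37.Suz.exists_ringHom (K := K) (F := F) (k := k) (m := m) hdiv
  have key : ∀ S : Subgroup ↥(Cfsg.Sz F m), Nonempty (↥S ≃* ↥(Cfsg.Sz K k)) →
      ∃ g : ↥(Cfsg.Sz F m), S = (Cfsg.Agent.Lib.Helper37.Suz.szMap ι₀ (hcompat ι₀)).range.map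
        (MulAut.conj g).toMonoidHom := by
    rintro S ⟨e⟩
    let α : ↥(Cfsg.Sz K k) →* ↥(Cfsg.Sz F m) := S.subtype.comp e.symm.toMonoidHom
    have hα : Function.Injective α := S.subtype_injective.comp e.symm.injective
    have hrange : α.range = S := by
      ext x
      constructor
      · rintro ⟨y, rfl⟩
        exact (e.symm y).2
      · intro hx
        exact ⟨e ⟨x, hx⟩, by simp [α]⟩
    obtain ⟨ι, hι, g, hg⟩ := Cfsg.Agent.Lib.Helper37.Suz.rigid hcompat α hα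
    refine ⟨g, ?_⟩
    rw [← hrange, Cfsg.Agent.Lib.Helper37.Suz.range_szMap_eq ι ι₀ hι (hcompat ι₀)]
    ext x
    constructor
    · rintro ⟨y, rfl⟩
      exact ⟨_, ⟨y, rfl⟩, (hg y).symm⟩
    · rintro ⟨_, ⟨y, rfl⟩, rfl⟩
      exact ⟨y, hg y⟩
  refine ⟨⟨(Cfsg.Agent.Lib.Helper37.Suz.szMap ι₀ (hcompat ι₀)).range,
    ⟨(MonoidHom.ofInjective (Cfsg.Agent.Lib.Helper37.Suz.szMap_injective ι₀ (hcompat ι₀))).symm⟩⟩, ?_⟩
  intro S₁ S₂ h₁ h₂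
  obtain ⟨g₁, hg₁⟩ := key S₁ h₁
  obtain ⟨g₂, hg₂⟩ := key S₂ h₂
  refine ⟨g₂ * g₁⁻¹, ?_⟩
  rw [hg₁, hg₂, Subgroup.map_map]
  congr 1
  ext x
  simp [mul_assoc]

end Cfsg.Agent.S2239
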