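import Cfsg.Statements.S2255
import Cfsg.Agent.Lib.Helper38.NilpBoundE

set_option autoImplicit false
open Cfsg

namespace Cfsg.Agent.S2255

/-- Let n be a natural number not congruent to 3 modulo 4, with n ∉ {5, 6, 9}. Then every nilpotent subgroup of the alternating group on n letters has order at most the order of a Sylow 2-subgroup of the alternating group (so the nilpotent subgroups of largest order are exactly the Sylow 2-subgroups). -/
theorem result  (n : ℕ) (hn : n % 4 ≠ 3)
    (h5 : n ≠ 5) (h6 : n ≠ 6) (h9 : n ≠ 9)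
    (N : Subgroup (alternatingGroup (Fin n))) (hN : Group.IsNilpotent N)
    (P : Sylow 2 (alternatingGroup (Fin n))) :
    Nat.card N ≤ Nat.card P := by
  have h := Cfsg.Agent.Lib.Helper38.card_nilpotent_le_fE n N hN
  have hX : Cfsg.Agent.Lib.Helper38.eX n = 1 := by
    have h3 : n ≠ 3 := by omega
    simp [Cfsg.Agent.Lib.Helper38.eX, h3, h5, h6, h9]
  unfold Cfsg.Agent.Lib.Helper38.fE Cfsg.Agent.Lib.Helper38.fB at h
  rw [hX, if_neg hn] at h
  have hpos : 0 < Nat.card P := Nat.card_pos
  rcases Nat.lt_or_ge n 2 with h2 | h2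
  · have : Cfsg.Agent.Lib.Helper38.s2 n = 0 := by
      rw [Cfsg.Agent.Lib.Helper38.s2_small n (by omega)]; omega
    rw [this] at h
    simp at h
    omega
  · have := Cfsg.Agent.Lib.Helper38.two_mul_card_sylow_two_alt n h2 P
    rw [← this] at h
    omega

end Cfsg.Agent.S2255
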