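import Cfsg.Statements.S2256
import Cfsg.Agent.Lib.Helper38.NilpMaxE

set_option autoImplicit false
open Cfsg

namespace Cfsg.Agent.S2256

/-- Let n ≡ 3 (mod 4) with n ≥ 7. Then every nilpotent subgroup of the alternating group on n letters has order at most 3 times the order of a Sylow 2-subgroup of the alternating group on n − 3 letters; the bound is attained by a nilpotent subgroup isomorphic to the direct product of such a Sylow 2-subgroup with a cyclic group of order 3; and any two nilpotent subgroups of the alternating group attaining the bound are conjugate in it. -/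
theorem result  (n : ℕ) (hn : n % 4 = 3) (h7 : 7 ≤ n)
    (P : Sylow 2 (alternatingGroup (Fin (n - 3)))) :
    (∀ N : Subgroup (alternatingGroup (Fin n)), Group.IsNilpotent N → Nat.card N ≤ 3 * Nat.card P) ∧
    (∃ M : Subgroup (alternatingGroup (Fin n)), Group.IsNilpotent M ∧ Nat.card M = 3 * Nat.card P ∧
      Nonempty (M ≃* (↥(P : Subgroup (alternatingGroup (Fin (n - 3)))) × Multiplicative (ZMod 3)))) ∧
    (∀ N₁ N₂ : Subgroup (alternatingGroup (Fin n)), Group.IsNilpotent N₁ → Group.IsNilpotent N₂ →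
      Nat.card N₁ = 3 * Nat.card P → Nat.card N₂ = 3 * Nat.card P →
      ∃ g : alternatingGroup (Fin n), N₂ = N₁.map (MulAut.conj g).toMonoidHom) := by
  have hP := Cfsg.Agent.Lib.Helper38.two_mul_card_sylow_two_alt (n - 3) (by omega) P
  obtain ⟨k, hk⟩ : ∃ k, Cfsg.Agent.Lib.Helper38.s2 (n - 3) = k + 1 := by
    have h1 : Cfsg.Agent.Lib.Helper38.s2 2 ≤ Cfsg.Agent.Lib.Helper38.s2 (n - 3) :=
      Cfsg.Agent.Lib.Helper38.s2_mono (by omega)
    rw [Cfsg.Agent.Lib.Helper38.s2_small 2 (by norm_num)] at h1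
    exact ⟨Cfsg.Agent.Lib.Helper38.s2 (n - 3) - 1, by omega⟩
  have hPk : Nat.card P = 2 ^ k := by
    rw [hk, pow_succ'] at hP
    omega
  refine ⟨?_, Cfsg.Agent.Lib.Helper38.exists_max_nilpotent_alt n (by omega) P, ?_⟩
  · intro N hN
    have h := Cfsg.Agent.Lib.Helper38.card_nilpotent_le_fE n N hN
    have hX : Cfsg.Agent.Lib.Helper38.eX n = 1 := by
      have h3 : n ≠ 3 := by omega
      have h5 : n ≠ 5 := by omega
      have h6 : n ≠ 6 := by omega
      have h9 : n ≠ 9 := by omega
      simp [Cfsg.Agent.Lib.Helper38.eX, h3, h5, h6, h9]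
    unfold Cfsg.Agent.Lib.Helper38.fE Cfsg.Agent.Lib.Helper38.fB at h
    rw [hX, if_pos hn, ← hP] at h
    have hpos : 0 < Nat.card P := Nat.card_pos
    omega
  · intro N₁ N₂ hN₁ hN₂ h₁ h₂
    rw [hPk] at h₁ h₂
    exact Cfsg.Agent.Lib.Helper38.max_nilpotent_alt_conj n hn h7 k hk N₁ N₂ hN₁ hN₂ h₁ h₂

end Cfsg.Agent.S2256
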