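import Cfsg.Statements.S2268

set_option autoImplicit false
open Cfsg

namespace Cfsg.Agent.S2268

open Subgroup MulAction

theorem frattini {G : Type*} [Group G] [Finite G] {p : ℕ} [Fact p.Prime]
    (P : Sylow p G) (hP : IsMulCommutative (P : Subgroup G)) (Q : Subgroup G)
    (hQ : Q ≤ (P : Subgroup G)) :
    normalizer (Q : Set G) =
      (normalizer (Q : Set G) ⊓ normalizer ((P : Subgroup G) : Set G)) ⊔ centralizer (Q : Set G) := by
  apply le_antisymm
  · intro g hg
    have h1 : (P : Subgroup G) ≤ centralizer (Q : Set G) := by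
      intro y hy
      rw [mem_centralizer_iff]
      intro z hz
      have := P.le_centralizer hy
      rw [mem_centralizer_iff] at this
      exact this z (hQ hz)
    have h2 : ((g • P : Sylow p G) : Subgroup G) ≤ centralizer (Q : Set G) := by
      rintro - ⟨z, hz, rfl⟩
      have hz' := h1 hz
      have hnorm := (normal_subgroupOf_iff (centralizer_le_normalizer (Q : Set G))).mp
        (normal_subgroupOf_centralizer_normalizer (Q : Set G)) z g hz' hg
      simpa using hnorm
    obtain ⟨h, hh⟩ :=
      exists_smul_eq (centralizer (Q : Set G)) ((g • P).subtype h2) (P.subtype h1)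
    simp_rw [Sylow.smul_subtype, Subgroup.smul_def, smul_smul] at hh
    have hmem : (h : G) * g ∈ normalizer ((P : Subgroup G) : Set G) :=
      Sylow.smul_eq_iff_mem_normalizer.mp (Sylow.subtype_injective hh)
    have hmemQ : (h : G) * g ∈ normalizer (Q : Set G) :=
      mul_mem (centralizer_le_normalizer _ h.2) hg
    have : g = ((h : G) * g) * (((h : G) * g)⁻¹ * (h : G)⁻¹ * ((h : G) * g)) := by group
    rw [this]
    apply mul_mem_sup (Subgroup.mem_inf.mpr ⟨hmemQ, hmem⟩)
    have hnorm := (normal_subgroupOf_iff (centralizer_le_normalizer (Q : Set G))).mp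
        (normal_subgroupOf_centralizer_normalizer (Q : Set G)) (h : G)⁻¹ ((h : G) * g)⁻¹
        (inv_mem h.2) (inv_mem hmemQ)
    simpa using hnorm
  · exact sup_le inf_le_left (centralizer_le_normalizer _)

/-- Let G be a finite group with an abelian Sylow p-subgroup P and let Q ≤ P. Then N_G(Q) = (N_G(Q) ∩ N_G(P))·C_G(Q), so that N_G(Q)/C_G(Q) is a homomorphic image of the subgroup (N_G(Q) ∩ N_G(P))/C_G(P) of N_G(P)/C_G(P); in particular the order of N_G(Q)/C_G(Q) divides the order of N_G(P)/C_G(P). -/
theorem result {G : Type*} [Group G] [Finite G] {p : ℕ} [Fact p.Prime]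
    (P : Sylow p G) (hP : IsMulCommutative (P : Subgroup G)) (Q : Subgroup G) (hQ : Q ≤ (P : Subgroup G)) :
    Subgroup.normalizer (Q : Set G) =
      (Subgroup.normalizer (Q : Set G) ⊓ Subgroup.normalizer ((P : Subgroup G) : Set G)) ⊔ Subgroup.centralizer (Q : Set G) ∧
    ((Subgroup.centralizer (Q : Set G)).subgroupOf (Subgroup.normalizer (Q : Set G))).index ∣ ((Subgroup.centralizer ((P : Subgroup G) : Set G)).subgroupOf (Subgroup.normalizer ((P : Subgroup G) : Set G))).index := by
  have hfr := frattini P hP Q hQ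
  refine ⟨hfr, ?_⟩
  set NQ := normalizer (Q : Set G) with hNQ
  set NP := normalizer ((P : Subgroup G) : Set G) with hNP
  set CQ := centralizer (Q : Set G) with hCQ
  set CP := centralizer ((P : Subgroup G) : Set G) with hCP
  set A := NQ ⊓ NP with hA
  have hCQN : CQ ≤ NQ := centralizer_le_normalizer _
  have hCPN : CP ≤ NP := centralizer_le_normalizer _
  have hCPCQ : CP ≤ CQ := centralizer_le (by exact_mod_cast hQ)
  have hCPA : CP ≤ A := le_inf (hCPCQ.trans hCQN) hCPN
  have hnormal : (CQ.subgroupOf NQ).Normal := normal_subgroupOf_centralizer_normalizer (Q : Set G)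
  have htop : A.subgroupOf NQ ⊔ CQ.subgroupOf NQ = ⊤ := by
    rw [← subgroupOf_sup inf_le_left hCQN, ← hfr, subgroupOf_self]
  have e1 : (CQ.subgroupOf NQ).index = CQ.relIndex A := by
    rw [← relIndex_top_right, ← htop, relIndex_sup_right, relIndex_subgroupOf inf_le_left]
  rw [e1]
  change CQ.relIndex A ∣ CP.relIndex NP
  refine dvd_trans (relIndex_dvd_of_le_left A hCPCQ) ?_
  exact Dvd.intro _ (relIndex_mul_relIndex CP A NP hCPA inf_le_right)

end Cfsg.Agent.S2268
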