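import Cfsg.Statements.S2269
import Cfsg.Agent.Lib.Helper38.Automizer
import Cfsg.Agent.Lib.Helper38.InvolutionGroups

set_option autoImplicit false
open Cfsg

namespace Cfsg.Agent.S2269

open Equiv Equiv.Perm Subgroup Cfsg.Agent.Lib.Helper38

theorem odd_case (n : ℕ) {p : ℕ} [Fact p.Prime] (hp : p ≠ 2)
    (P : Sylow p (alternatingGroup (Fin n)))
    (hP : IsMulCommutative (P : Subgroup (alternatingGroup (Fin n)))) :
    2 ∣ ((centralizer ((P : Subgroup (alternatingGroup (Fin n))) : Set (alternatingGroup (Fin n)))).subgroupOf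
      (normalizer ((P : Subgroup (alternatingGroup (Fin n))) : Set (alternatingGroup (Fin n))))).index ∨
    IsCyclic (P : Subgroup (alternatingGroup (Fin n))) := by
  have hpp : p.Prime := Fact.out
  by_cases hbot : Nat.card (P : Subgroup (alternatingGroup (Fin n))) = 1
  · right
    have : Subsingleton (P : Subgroup (alternatingGroup (Fin n))) :=
      (Nat.card_eq_one_iff_unique.mp hbot).1
    exact isCyclic_of_subsingleton
  have hdvd : p ∣ Nat.card (P : Subgroup (alternatingGroup (Fin n))) := by
    obtain ⟨k, hk⟩ := IsPGroup.iff_card.mp P.isPGroup'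
    rw [hk] at hbot ⊢
    rcases Nat.eq_zero_or_pos k with h0 | h0
    · subst h0; simp at hbot
    · exact dvd_pow_self p h0.ne'
  obtain ⟨x, hx⟩ := exists_prime_orderOf_dvd_card' p hdvd
  set x' : alternatingGroup (Fin n) := (x : alternatingGroup (Fin n)) with hx'
  set σ : Perm (Fin n) := (x' : Perm (Fin n)) with hσ
  have hoσ : orderOf σ = p := by
    rw [hσ, Subgroup.orderOf_coe, hx', Subgroup.orderOf_coe, hx]
  have hσ1 : σ ≠ 1 := by
    intro h
    rw [h, orderOf_one] at hoσ
    exact hpp.one_lt.ne hoσ
  by_cases hc : centralizer {σ} ≤ alternatingGroup (Fin n)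
  · right
    obtain ⟨-, hfix, hcount⟩ := centralizer_le_alternating_iff.mp hc
    have hall : ∀ c ∈ σ.cycleType, c = p := by
      rw [← pow_prime_eq_one_iff, ← hoσ]; exact pow_orderOf_eq_one σ
    have hrep : σ.cycleType = Multiset.replicate (Multiset.card σ.cycleType) p :=
      Multiset.eq_replicate_card.mpr hall
    have hcard1 : Multiset.card σ.cycleType = 1 := by
      have h1 := hcount p
      rw [hrep, Multiset.count_replicate_self] at h1
      have h2 : Multiset.card σ.cycleType ≠ 0 := by
        rw [Ne, Multiset.card_eq_zero, cycleType_eq_zero]; exact hσ1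
      omega
    have hct : σ.cycleType = {p} := by
      rw [hrep, hcard1]; rfl
    have hcent : Nat.card (centralizer {σ}) = p := by
      rw [nat_card_centralizer, hct]
      simp only [Multiset.sum_singleton, Multiset.prod_singleton, Multiset.toFinset_singleton,
        Finset.prod_singleton, Multiset.count_singleton_self, Nat.factorial_one, mul_one]
      rw [hct, Multiset.sum_singleton] at hfix
      have : Fintype.card (Fin n) - p ≤ 1 := by omega
      have h2 : (Fintype.card (Fin n) - p).factorial = 1 := by
        interval_cases (Fintype.card (Fin n) - p) <;> rfl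
      rw [h2, one_mul]
    let f : (P : Subgroup (alternatingGroup (Fin n))) →* centralizer {σ} :=
      { toFun := fun y => ⟨((y : alternatingGroup (Fin n)) : Perm (Fin n)), by
          rw [mem_centralizer_singleton_iff]
          have := mul_comm' y x
          have h2 := congrArg (fun z : (P : Subgroup (alternatingGroup (Fin n))) =>
            ((z : alternatingGroup (Fin n)) : Perm (Fin n))) this
          exact h2⟩
        map_one' := rfl
        map_mul' := fun a b => rfl }
    have hf : Function.Injective f := by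
      intro a b hab
      have := congrArg (fun z : centralizer {σ} => (z : Perm (Fin n))) hab
      exact Subtype.ext (Subtype.ext this)
    have hd := Subgroup.card_dvd_of_injective f hf
    rw [hcent] at hd
    rcases (Nat.dvd_prime hpp).mp hd with h | h
    · exact absurd h hbot
    · exact isCyclic_of_prime_card h
  · left
    obtain ⟨h, hh, hodd⟩ := SetLike.not_le_iff_exists.mp hc
    have hconj : IsConj σ σ⁻¹ := isConj_iff_cycleType_eq.mpr (cycleType_inv σ).symm
    obtain ⟨g, hg⟩ := isConj_iff.mp hconj
    have hx1 : x' ≠ 1 := by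
      intro e; apply hσ1; rw [hσ, e]; rfl
    apply two_dvd_automizer_index hp P hP x' x.2 hx1
    rw [isConj_iff]
    by_cases hgeven : g ∈ alternatingGroup (Fin n)
    · refine ⟨⟨g, hgeven⟩, ?_⟩
      apply Subtype.ext
      simpa using hg
    · have hgh : g * h ∈ alternatingGroup (Fin n) := by
        rw [mem_alternatingGroup] at hgeven hodd ⊢
        rw [Perm.sign_mul]
        rcases Int.units_eq_one_or (sign g) with h1 | h1
        · exact absurd h1 hgeven
        · rcases Int.units_eq_one_or (sign h) with h2 | h2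
          · exact absurd h2 hodd
          · rw [h1, h2]; rfl
      refine ⟨⟨g * h, hgh⟩, ?_⟩
      apply Subtype.ext
      rw [mem_centralizer_singleton_iff] at hh
      have : g * h * σ * (g * h)⁻¹ = σ⁻¹ := by
        rw [← hg, mul_inv_rev, mul_assoc g h σ, hh]; group
      simpa using this

theorem two_case (n : ℕ) (hn : 6 ≤ n) (P : Sylow 2 (alternatingGroup (Fin n)))
    (hP : IsMulCommutative (P : Subgroup (alternatingGroup (Fin n)))) : False := by
  let a0 : Fin n := ⟨0, by omega⟩
  let a1 : Fin n := ⟨1, by omega⟩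
  let a2 : Fin n := ⟨2, by omega⟩
  let a3 : Fin n := ⟨3, by omega⟩
  let a4 : Fin n := ⟨4, by omega⟩
  let a5 : Fin n := ⟨5, by omega⟩
  have h01 : a0 ≠ a1 := by simp [a0, a1]
  have h02 : a0 ≠ a2 := by simp [a0, a2]
  have h03 : a0 ≠ a3 := by simp [a0, a3]
  have h04 : a0 ≠ a4 := by simp [a0, a4]
  have h05 : a0 ≠ a5 := by simp [a0, a5]
  have h12 : a1 ≠ a2 := by simp [a1, a2]
  have h13 : a1 ≠ a3 := by simp [a1, a3]
  have h14 : a1 ≠ a4 := by simp [a1, a4]
  have h15 : a1 ≠ a5 := by simp [a1, a5]
  have h23 : a2 ≠ a3 := by simp [a2, a3]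
  have h24 : a2 ≠ a4 := by simp [a2, a4]
  have h25 : a2 ≠ a5 := by simp [a2, a5]
  have h34 : a3 ≠ a4 := by simp [a3, a4]
  have h35 : a3 ≠ a5 := by simp [a3, a5]
  have h45 : a4 ≠ a5 := by simp [a4, a5]
  clear_value a0 a1 a2 a3 a4 a5
  set τ : Perm (Fin n) := swap a0 a1 * swap a2 a3 * swap a4 a5 with hτ
  set v : Perm (Fin n) := swap a0 a2 * swap a1 a3 with hv
  set w : Perm (Fin n) := swap a0 a1 * swap a4 a5 with hw
  have hτ2 : ∀ y, τ (τ y) = y := by
    intro y
    simp only [hτ, Perm.mul_apply, swap_apply_def]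
    grind
  have hv2 : v ^ 2 = 1 := by
    ext y
    simp only [hv, pow_two, Perm.mul_apply, swap_apply_def, Perm.one_apply]
    grind
  have hvτ : ∀ y, v (τ y) = τ (v y) := by
    intro y
    simp only [hv, hτ, Perm.mul_apply, swap_apply_def]
    grind
  have hQ := isPGroup_sup_orbPres τ hτ2 v hv2 hvτ
  have hQA := hQ.comap_of_injective (alternatingGroup (Fin n)).subtype Subtype.coe_injective
  obtain ⟨P', hP'⟩ := hQA.exists_le_sylow
  obtain ⟨c, hc⟩ := MulAction.exists_smul_eq (alternatingGroup (Fin n)) P' P
  have hveven : v ∈ alternatingGroup (Fin n) := by simp [hv, h02, h13]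
  have hweven : w ∈ alternatingGroup (Fin n) := by simp [hw, h01, h45]
  have hvP' : (⟨v, hveven⟩ : alternatingGroup (Fin n)) ∈ (P' : Subgroup _) := by
    apply hP'
    rw [Subgroup.mem_comap]
    exact Subgroup.mem_sup_left (Subgroup.mem_zpowers v)
  have hwP' : (⟨w, hweven⟩ : alternatingGroup (Fin n)) ∈ (P' : Subgroup _) := by
    apply hP'
    rw [Subgroup.mem_comap]
    apply Subgroup.mem_sup_right
    change w ∈ _
    rw [mem_orbPres]
    intro y
    simp only [hw, hτ, Perm.mul_apply, swap_apply_def]
    grind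
  have hconjmem : ∀ z ∈ (P' : Subgroup (alternatingGroup (Fin n))), c * z * c⁻¹ ∈
      (P : Subgroup (alternatingGroup (Fin n))) := by
    intro z hz
    rw [← hc, Sylow.coe_subgroup_smul]
    exact Subgroup.smul_mem_pointwise_smul z (MulAut.conj c) _ hz
  have hcomm := mul_comm' (⟨_, hconjmem _ hvP'⟩ : (P : Subgroup (alternatingGroup (Fin n))))
    ⟨_, hconjmem _ hwP'⟩
  have h1 := congrArg (fun z : (P : Subgroup (alternatingGroup (Fin n))) =>
    (z : alternatingGroup (Fin n))) hcomm
  simp only [MulMemClass.mk_mul_mk] at h1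
  have h2 : (⟨v, hveven⟩ : alternatingGroup (Fin n)) * ⟨w, hweven⟩ = ⟨w, hweven⟩ * ⟨v, hveven⟩ := by
    have e1 : c * ⟨v, hveven⟩ * c⁻¹ * (c * ⟨w, hweven⟩ * c⁻¹) =
      c * (⟨v, hveven⟩ * ⟨w, hweven⟩) * c⁻¹ := by group
    have e2 : c * ⟨w, hweven⟩ * c⁻¹ * (c * ⟨v, hveven⟩ * c⁻¹) =
      c * (⟨w, hweven⟩ * ⟨v, hveven⟩) * c⁻¹ := by group
    rw [e1, e2] at h1
    exact mul_left_cancel (mul_right_cancel h1)
  have h3 : v * w = w * v := congrArg Subtype.val h2
  have h4 := congrArg (fun f : Perm (Fin n) => f a0) h3
  simp only [hv, hw, Perm.mul_apply, swap_apply_def] at h4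
  grind

set_option maxRecDepth 100000 in
theorem sq_of_pow_four : ∀ σ : Perm (Fin 5), sign σ = 1 → σ ^ 4 = 1 → σ ^ 2 = 1 := by
  decide

theorem five_case (P : Sylow 2 (alternatingGroup (Fin 5)))
    (hP : IsMulCommutative (P : Subgroup (alternatingGroup (Fin 5)))) :
    ((centralizer ((P : Subgroup (alternatingGroup (Fin 5))) : Set (alternatingGroup (Fin 5)))).subgroupOf
      (normalizer ((P : Subgroup (alternatingGroup (Fin 5))) : Set (alternatingGroup (Fin 5))))).index = 3 ∧
    IsKleinFour (P : Subgroup (alternatingGroup (Fin 5))) := by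
  have hcardA : Nat.card (alternatingGroup (Fin 5)) = 60 := by
    have := nat_card_alternatingGroup (α := Fin 5)
    rw [this]; simp [Nat.factorial]
  have hmul := (P : Subgroup (alternatingGroup (Fin 5))).card_mul_index
  rw [hcardA] at hmul
  have hodd := P.not_dvd_index
  obtain ⟨k, hk⟩ := IsPGroup.iff_card.mp P.isPGroup'
  have hcardP : Nat.card (P : Subgroup (alternatingGroup (Fin 5))) = 4 := by
    rw [hk] at hmul ⊢
    have hk6 : k < 6 := by
      by_contra h
      have : 2 ^ 6 ≤ 2 ^ k := Nat.pow_le_pow_right (by norm_num) (by omega)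
      have h2 : 2 ^ k ∣ 60 := Dvd.intro _ hmul
      have := Nat.le_of_dvd (by norm_num) h2
      omega
    interval_cases k <;> omega
  have hidx : (P : Subgroup (alternatingGroup (Fin 5))).index = 15 := by
    rw [hcardP] at hmul; omega
  have hK4 : IsKleinFour (P : Subgroup (alternatingGroup (Fin 5))) := by
    refine ⟨hcardP, ?_⟩
    have h2 : ∀ x : (P : Subgroup (alternatingGroup (Fin 5))), x ^ 2 = 1 := by
      intro x
      have h4 : x ^ 4 = 1 := by rw [← hcardP]; exact pow_card_eq_one'
      have h4' : ((x : alternatingGroup (Fin 5)) : Perm (Fin 5)) ^ 4 = 1 := by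
        have := congrArg (fun z : (P : Subgroup (alternatingGroup (Fin 5))) =>
          ((z : alternatingGroup (Fin 5)) : Perm (Fin 5))) h4
        simpa using this
      have := sq_of_pow_four _ (mem_alternatingGroup.mp (x : alternatingGroup (Fin 5)).2) h4'
      apply Subtype.ext
      apply Subtype.ext
      simpa using this
    have hd : Monoid.exponent (P : Subgroup (alternatingGroup (Fin 5))) ∣ 2 :=
      Monoid.exponent_dvd_of_forall_pow_eq_one h2
    rcases (Nat.dvd_prime Nat.prime_two).mp hd with h | h
    · rw [Monoid.exp_eq_one_iff] at h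
      have := Nat.card_eq_one_iff_unique.mpr ⟨h, ⟨1⟩⟩
      omega
    · exact h
  refine ⟨?_, hK4⟩
  set N := normalizer ((P : Subgroup (alternatingGroup (Fin 5))) : Set (alternatingGroup (Fin 5)))
    with hN
  set C := centralizer ((P : Subgroup (alternatingGroup (Fin 5))) : Set (alternatingGroup (Fin 5)))
    with hC
  have h15 : (C.subgroupOf N).index ∣ 15 := by
    change C.relIndex N ∣ 15
    rw [← hidx]
    exact (relIndex_dvd_of_le_left N P.le_centralizer).trans
      (relIndex_dvd_index_of_le le_normalizer)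
  have h24 : (C.subgroupOf N).index ∣ 24 := by
    rw [hC, hN, ← normalizerMonoidHom_ker, Subgroup.index_ker]
    refine (Subgroup.card_subgroup_dvd_card _).trans ?_
    have h1 := Subgroup.card_dvd_of_injective
      (MulAut.toPerm (P : Subgroup (alternatingGroup (Fin 5)))) (by
        intro a b hab
        apply MulEquiv.ext
        intro z
        exact congrArg (fun f : Perm _ => f z) hab)
    rw [Nat.card_perm, hcardP] at h1
    exact h1
  have h3 : (C.subgroupOf N).index ∣ 3 := by
    have := Nat.dvd_gcd h15 h24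
    simpa using this
  rcases (Nat.dvd_prime Nat.prime_three).mp h3 with h | h
  · exfalso
    have hNC : N ≤ C := by
      rw [Subgroup.index_eq_one, Subgroup.subgroupOf_eq_top] at h
      exact h
    have hcompl := MonoidHom.ker_transferSylow_isComplement' P hNC
    have hcm := hcompl.card_mul_card
    rw [hcardA, hcardP] at hcm
    have := alternatingGroup.isSimpleGroup (α := Fin 5) (by simp)
    rcases (MonoidHom.normal_ker (MonoidHom.transferSylow P hNC)).eq_bot_or_eq_top with hb | ht
    · rw [hb, Subgroup.card_bot] at hcm; omega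
    · rw [ht, Subgroup.card_top, hcardA] at hcm; omega
  · exact h

/-- Let n ≥ 5 and let P be an abelian Sylow p-subgroup of the alternating group A_n. Then N(P)/C(P) (taken in A_n) has even order, or P is cyclic, except when n = 5 and p = 2, where P is a four-group and N(P)/C(P) has order 3. -/
theorem result (n : ℕ) (hn : 5 ≤ n) {p : ℕ} [Fact p.Prime]
    (P : Sylow p (alternatingGroup (Fin n))) (hP : IsMulCommutative (P : Subgroup (alternatingGroup (Fin n)))) :
    (¬ (n = 5 ∧ p = 2) → 2 ∣ ((Subgroup.centralizer ((P : Subgroup (alternatingGroup (Fin n))) : Set (alternatingGroup (Fin n)))).subgroupOf (Subgroup.normalizer ((P : Subgroup (alternatingGroup (Fin n))) : Set (alternatingGroup (Fin n))))).index ∨ IsCyclic (P : Subgroup (alternatingGroup (Fin n)))) ∧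
    ((n = 5 ∧ p = 2) → ((Subgroup.centralizer ((P : Subgroup (alternatingGroup (Fin n))) : Set (alternatingGroup (Fin n)))).subgroupOf (Subgroup.normalizer ((P : Subgroup (alternatingGroup (Fin n))) : Set (alternatingGroup (Fin n))))).index = 3 ∧ IsKleinFour (P : Subgroup (alternatingGroup (Fin n)))) := by
  constructor
  · intro h
    by_cases hp : p = 2
    · subst hp
      exfalso
      exact two_case n (by
        rcases Nat.lt_or_ge n 6 with h6 | h6
        · exact absurd ⟨by omega, rfl⟩ h
        · exact h6) P hP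
    · exact odd_case n hp P hP
  · rintro ⟨rfl, rfl⟩
    exact five_case P hP

end Cfsg.Agent.S2269
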