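import Cfsg.Statements.S2280
import Mathlib
import Cfsg.Agent.Lib.Helper42.RegUnip

set_option autoImplicit false
open Cfsg

namespace Cfsg.Agent.S2280

open Matrix Cfsg.Agent.Lib.Helper42.RegUnip

section aux

variable {F : Type*} [Field F]

/-- antidiagonal monomial matrix. -/
def hmat (n : ℕ) (d : Fin n → F) : Matrix (Fin n) (Fin n) F :=
  (Fin.revPerm : Equiv.Perm (Fin n)).toPEquiv.toMatrix * diagonal d

lemma hmat_apply (n : ℕ) (d : Fin n → F) (i j : Fin n) :
    hmat n d i j = if j = Fin.rev i then d j else 0 := by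
  simp [hmat, PEquiv.toMatrix_apply, Equiv.toPEquiv_apply, eq_comm]

lemma hmat_det (n : ℕ) (d : Fin n → F) :
    (hmat n d).det = ((Equiv.Perm.sign (Fin.revPerm : Equiv.Perm (Fin n)) : ℤˣ) : ℤ) * ∏ i, d i := by
  rw [hmat, det_mul, det_permutation, det_diagonal]

lemma hmat_row (n : ℕ) (d : Fin n → F) (i : Fin n) :
    Pi.single i (1 : F) ᵥ* hmat n d = d (Fin.rev i) • Pi.single (Fin.rev i) 1 := by
  rw [single_one_vecMul]
  ext k
  simp only [Matrix.row, hmat_apply, Pi.smul_apply, Pi.single_apply, smul_eq_mul]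
  by_cases hk : k = Fin.rev i
  · simp [hk]
  · simp [hk]

lemma hmat_col (n : ℕ) (d : Fin n → F) (j : Fin n) :
    hmat n d *ᵥ Pi.single j (1 : F) = d j • Pi.single (Fin.rev j) 1 := by
  rw [mulVec_single_one]
  ext k
  simp only [Matrix.col, Matrix.transpose_apply, hmat_apply, Pi.smul_apply, Pi.single_apply,
    smul_eq_mul]
  have e : (j = Fin.rev k) = (k = Fin.rev j) := by
    simp only [eq_iff_iff]
    constructor
    · intro h; rw [h, Fin.rev_rev]
    · intro h; rw [h, Fin.rev_rev]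
  simp only [e]
  by_cases hk : k = Fin.rev j
  · simp [hk]
  · simp [hk]

lemma inv_mulVec {n : ℕ} (h : Matrix.SpecialLinearGroup (Fin n) F) {a b : Fin n → F} {c : F}
    (hc : c ≠ 0) (hab : (h : Matrix (Fin n) (Fin n) F) *ᵥ a = c • b) :
    ((h⁻¹ : Matrix.SpecialLinearGroup (Fin n) F) : Matrix (Fin n) (Fin n) F) *ᵥ b = c⁻¹ • a := by
  have : b = c⁻¹ • ((h : Matrix (Fin n) (Fin n) F) *ᵥ a) := by
    rw [hab, smul_smul, inv_mul_cancel₀ hc, one_smul]
  rw [this, mulVec_smul, mulVec_mulVec, coe_inv_mul, one_mulVec]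

lemma vecMul_inv {n : ℕ} (h : Matrix.SpecialLinearGroup (Fin n) F) {a b : Fin n → F} {c : F}
    (hc : c ≠ 0) (hab : a ᵥ* (h : Matrix (Fin n) (Fin n) F) = c • b) :
    b ᵥ* ((h⁻¹ : Matrix.SpecialLinearGroup (Fin n) F) : Matrix (Fin n) (Fin n) F) = c⁻¹ • a := by
  have : b = c⁻¹ • (a ᵥ* (h : Matrix (Fin n) (Fin n) F)) := by
    rw [hab, smul_smul, inv_mul_cancel₀ hc, one_smul]
  rw [this, smul_vecMul, vecMul_vecMul, coe_mul_inv, vecMul_one]

end aux

/-- Let F be a finite field and n ≥ 3. Then SL_n(F) is generated by three conjugate regular unipotent elements: there are u with u − 1 nilpotent and (u − 1)^(n−1) ≠ 0, and g, h, such that u, g u g⁻¹ and h u h⁻¹ generate SL_n(F). -/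
theorem result {F : Type*} [Field F] [Fintype F] (n : ℕ) (hn : 3 ≤ n) :
    ∃ u g h : Matrix.SpecialLinearGroup (Fin n) F, (IsNilpotent ((u : Matrix (Fin n) (Fin n) F) - 1) ∧ ((u : Matrix (Fin n) (Fin n) F) - 1) ^ (n - 1) ≠ 0) ∧
      Subgroup.closure ({u, g * u * g⁻¹, h * u * h⁻¹} : Set (Matrix.SpecialLinearGroup (Fin n) F)) = ⊤ := by
  classical
  obtain ⟨ζ, hζ⟩ := IsCyclic.exists_generator (α := Fˣ)
  set z : Fin n := ⟨0, by omega⟩ with hz
  set o : Fin n := ⟨1, by omega⟩ with ho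
  set l : Fin n := ⟨n - 1, by omega⟩ with hl
  set pl : Fin n := ⟨n - 2, by omega⟩ with hpl
  have hzo : z ≠ o := by simp [hz, ho]
  have hzl : z ≠ l := by simp only [hz, hl, ne_eq, Fin.mk.injEq]; omega
  have hol : o ≠ l := by simp only [ho, hl, ne_eq, Fin.mk.injEq]; omega
  have hzpl : z ≠ pl := by simp only [hz, hpl, ne_eq, Fin.mk.injEq]; omega
  have hrl : Fin.rev l = z := by apply Fin.ext; simp only [Fin.val_rev, hl, hz]; omega
  have hrpl : Fin.rev pl = o := by apply Fin.ext; simp only [Fin.val_rev, hpl, ho]; omega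
  set ε : F := (((Equiv.Perm.sign (Fin.revPerm : Equiv.Perm (Fin n)) : ℤˣ) : ℤ) : F) with hε
  have hε0 : ε ≠ 0 := by
    rcases Int.units_eq_one_or (Equiv.Perm.sign (Fin.revPerm : Equiv.Perm (Fin n))) with h | h
    · rw [hε, h]; simp
    · rw [hε, h]; simp
  have hζ0 : (ζ : F) ≠ 0 := ζ.ne_zero
  set x : F := (ε * ζ)⁻¹ with hx
  have hx0 : x ≠ 0 := inv_ne_zero (mul_ne_zero hε0 hζ0)
  set d : Fin n → F := fun j => (if j = o then (ζ : F) else 1) * (if j = l then x else 1) with hd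
  have hdz : d z = 1 := by simp [hd, hzo, hzl]
  have hdo : d o = ζ := by simp [hd, hol]
  have hdl : d l = x := by simp [hd, hol.symm]
  have hdet : (hmat n d).det = 1 := by
    rw [hmat_det, hd, Finset.prod_mul_distrib, Finset.prod_ite_eq' Finset.univ o,
      Finset.prod_ite_eq' Finset.univ l]
    simp only [Finset.mem_univ, if_true]
    rw [hx, ← mul_assoc, mul_inv_cancel₀ (mul_ne_zero hε0 hζ0)]
  set h : Matrix.SpecialLinearGroup (Fin n) F := ⟨hmat n d, hdet⟩ with hh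
  have hcoe : (h : Matrix (Fin n) (Fin n) F) = hmat n d := rfl
  set u : Matrix.SpecialLinearGroup (Fin n) F := Lsl F n with hu
  set u1 : Matrix.SpecialLinearGroup (Fin n) F := h * u * h⁻¹ with hu1
  have hu1c : (u1 : Matrix (Fin n) (Fin n) F) = hmat n d * Lmat F n *
      ((h⁻¹ : Matrix.SpecialLinearGroup (Fin n) F) : Matrix (Fin n) (Fin n) F) := by
    rw [hu1, Matrix.SpecialLinearGroup.coe_mul, Matrix.SpecialLinearGroup.coe_mul, hcoe, hu, Lsl_coe]
  -- properties of `u1`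
  have hcl : (h : Matrix (Fin n) (Fin n) F) *ᵥ Pi.single l 1 = x • Pi.single z 1 := by
    rw [hcoe, hmat_col, hdl, hrl]
  have ha : (u1 : Matrix (Fin n) (Fin n) F) *ᵥ Pi.single z 1 = Pi.single z 1 := by
    rw [hu1c, ← mulVec_mulVec, inv_mulVec h hx0 hcl, ← mulVec_mulVec, mulVec_smul,
      Lmat_col_last l (by simp only [hl]; omega), mulVec_smul, ← hcoe, hcl, smul_smul,
      inv_mul_cancel₀ hx0, one_smul]
  have hrowl : Pi.single l (1 : F) ᵥ* (h : Matrix (Fin n) (Fin n) F) = (1 : F) • Pi.single z 1 := by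
    rw [hcoe, hmat_row, hrl, hdz]
  have hrowp : Pi.single pl (1 : F) ᵥ* (h : Matrix (Fin n) (Fin n) F)
      = (ζ : F) • Pi.single o 1 := by
    rw [hcoe, hmat_row, hrpl, hdo]
  have hb1 : Pi.single l (1 : F) ᵥ* (u1 : Matrix (Fin n) (Fin n) F) = Pi.single l 1 := by
    rw [hu1c, ← vecMul_vecMul, ← vecMul_vecMul, ← hcoe, hrowl, one_smul,
      Lmat_row_zero z rfl, vecMul_inv h one_ne_zero hrowl, inv_one, one_smul]
  have hb2 : Pi.single pl (1 : F) ᵥ* (u1 : Matrix (Fin n) (Fin n) F)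
      = Pi.single pl 1 - (ζ : F) • Pi.single l 1 := by
    rw [hu1c, ← vecMul_vecMul, ← vecMul_vecMul, ← hcoe, hrowp, smul_vecMul,
      Lmat_row z o rfl, smul_vecMul, sub_vecMul, vecMul_inv h one_ne_zero hrowl,
      vecMul_inv h hζ0 hrowp, inv_one, one_smul, smul_sub, smul_smul, mul_inv_cancel₀ hζ0,
      one_smul]
  -- the transvection
  set g : Matrix.SpecialLinearGroup (Fin n) F :=
    Matrix.SpecialLinearGroup.transvection hzpl (-(ζ : F)⁻¹) with hg
  have hgc : (g : Matrix (Fin n) (Fin n) F)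
      = 1 + vecMulVec (Pi.single z 1) ((-(ζ : F)⁻¹) • Pi.single pl 1) := by
    rw [hg, Matrix.SpecialLinearGroup.transvection_coe]
    congr 1
    ext a b
    simp only [vecMulVec_apply, Pi.single_apply, Pi.smul_apply, smul_eq_mul, Matrix.single_apply]
    have e1 : (z = a) = (a = z) := propext eq_comm
    have e2 : (pl = b) = (b = pl) := propext eq_comm
    simp only [e1, e2]
    by_cases hx : a = z <;> by_cases hy : b = pl <;> simp [hx, hy]
  refine ⟨u, g * h, h, ⟨Lmat_nilpotent n, Lmat_regular n (by omega)⟩, ?_⟩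
  set H := Subgroup.closure ({u, g * h * u * (g * h)⁻¹, h * u * h⁻¹} :
    Set (Matrix.SpecialLinearGroup (Fin n) F)) with hH
  have hLH : Lsl F n ∈ H := Subgroup.subset_closure (by simp [hu])
  have hu1H : u1 ∈ H := Subgroup.subset_closure (by simp [hu1])
  have hu2H : g * u1 * g⁻¹ ∈ H := by
    have : g * u1 * g⁻¹ = g * h * u * (g * h)⁻¹ := by rw [hu1]; group
    rw [this]
    exact Subgroup.subset_closure (by simp)
  have h1 : Pi.single l (1 : F) ∈ Psi H z := by
    refine ⟨by simp [hzl], u1⁻¹ * (g * u1 * g⁻¹), H.mul_mem (H.inv_mem hu1H) hu2H, ?_⟩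
    rw [coe_comm_eq hgc (by simp [hzpl]) ha, smul_vecMul, hb2, ← smul_sub]
    congr 2
    rw [sub_sub_cancel_left, smul_neg, neg_smul, neg_neg, smul_smul, inv_mul_cancel₀ hζ0, one_smul]
  exact eq_top_of_root hn hLH rfl (by simp only [hl]; omega)
    (Psi_field hLH rfl (by simp only [hl, hpl]; omega) (by simp only [hpl]; omega) h1 hu1H ha hb1
      ζ hζ hb2)

end Cfsg.Agent.S2280
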