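import Cfsg.Statements.S2334
import Cfsg.Agent.Lib.Helper39.SU.OddMain

set_option autoImplicit false
open Cfsg

namespace Cfsg.Agent.S2334

/-- For odd n ≥ 3 and a finite field F with q² elements, (n, q) ≠ (3, 2), every irreducible complex representation of the special unitary group SU_n(q) (the determinant-one isometries of the standard Hermitian form over F) of degree at least 2 has degree at least (q^n − q)/(q + 1). -/
theorem result {F : Type*} [Field F] [Fintype F] [DecidableEq F] (n q : ℕ) (hn : 3 ≤ n) (hodd : Odd n) (hF : Fintype.card F = q ^ 2) (hex : (n, q) ≠ (3, 2)) :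
    (∀ (k : ℕ) (ρ : Representation ℂ (Cfsg.SU n F q) (Fin k → ℂ)), ρ.IsIrreducible → 2 ≤ k → (q ^ n - q) / (q + 1) ≤ k) := by
  classical
  intro k ρ hρ hk
  obtain ⟨m, rfl⟩ := hodd
  have h1 : Cfsg.IsIrrCharacter (Cfsg.SU (2 * m + 1) F q) ρ.character := ⟨k, ρ, hρ, rfl⟩
  have h3 : ρ.character 1 = (k : ℂ) := by
    rw [Representation.char_one]
    simp
  have h4 := Cfsg.Agent.Lib.Helper39.SUDeg.su_odd_bound hF m (by omega) (by
    rintro ⟨h5, h6⟩
    apply hex
    rw [h5, h6]) h1 (by
    rw [h3]
    intro h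
    have : k = 1 := by exact_mod_cast h
    omega) h3
  apply Nat.div_le_of_le_mul
  refine le_trans (le_of_eq ?_) h4
  rw [Nat.mul_sub, mul_one, pow_succ, mul_comm]

end Cfsg.Agent.S2334
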