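import Cfsg.Statements.S2336
import Cfsg.Agent.Lib.Helper3.Perm
import Cfsg.Agent.Lib.Helper3.Table
import Cfsg.Agent.Lib.Helper81.Schur
import Cfsg.Agent.Lib.Helper43.Dilation

set_option autoImplicit false
open Cfsg

namespace Cfsg.Agent.S2336

open Cfsg.Agent.Lib Cfsg.Agent.Lib.Helper3
open scoped ComplexConjugate


section abstract

theorem irr_mul_central' {G : Type*} [Group G] [Finite G] {χ : G → ℂ} (hχ : IsIrrCharacter G χ) (x : G) {z : G}
    (hz : z ∈ Subgroup.center G) : χ (x * z) * χ 1 = χ x * χ z := by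
  have := Fintype.ofFinite G
  have h := Helper81.IsIrrCharacter.sum_mul_conj hχ x z
  have h1 : ∀ y : G, χ (x * (y * z * y⁻¹)) = χ (x * z) := by
    intro y
    have : y * z * y⁻¹ = z := by
      rw [(Subgroup.mem_center_iff.1 hz y), mul_assoc, mul_inv_cancel, mul_one]
    rw [this]
  simp_rw [h1] at h
  rw [Finset.sum_const, Finset.card_univ, nsmul_eq_mul] at h
  have hc : (Fintype.card G : ℂ) ≠ 0 := by exact_mod_cast Fintype.card_ne_zero
  have h1' : χ 1 ≠ 0 := IsIrrCharacter.apply_one_ne_zero hχ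
  field_simp at h
  exact h

/-- numeric lemma -/
theorem le_one_of_sums {ι : Type*} [Fintype ι] (a : ι → ℕ) (q : ℕ) (h2 : ∑ i, (a i) ^ 2 = q)
    (h1 : q ≤ ∑ i, a i + 1) : ∀ i, a i ≤ 1 := by
  classical
  intro j
  by_contra hj
  push Not at hj
  have h3 : ∑ i, a i + 2 ≤ ∑ i, (a i) ^ 2 := by
    rw [← Finset.add_sum_erase _ _ (Finset.mem_univ j), ← Finset.add_sum_erase _ (fun i => (a i)^2) (Finset.mem_univ j)]
    have h4 : ∑ i ∈ Finset.univ.erase j, a i ≤ ∑ i ∈ Finset.univ.erase j, (a i) ^ 2 :=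
      Finset.sum_le_sum fun i _ => by nlinarith [Nat.zero_le (a i)]
    have h5 : a j + 2 ≤ (a j) ^ 2 := by nlinarith
    omega
  omega

variable {G A : Type*} [Group G] [Fintype G] [CommGroup A] [Fintype A]

omit [Fintype G] [Fintype A] in
theorem mem_center_snd (ν : A) : ((1, ν) : G × A) ∈ Subgroup.center (G × A) := by
  rw [Subgroup.mem_center_iff]
  rintro ⟨g, μ⟩
  exact Prod.ext (by simp) (by simp [mul_comm])

/-- central character on the second factor -/
noncomputable def cchar {Ψ : G × A → ℂ} (hΨ : IsIrrCharacter (G × A) Ψ) : A →* ℂ where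
  toFun μ := Ψ (1, μ) / Ψ 1
  map_one' := div_self (IsIrrCharacter.apply_one_ne_zero hΨ)
  map_mul' μ ν := by
    have h := irr_mul_central' hΨ ((1, μ) : G × A) (mem_center_snd (G := G) ν)
    have h1 : Ψ 1 ≠ 0 := IsIrrCharacter.apply_one_ne_zero hΨ
    have h2 : ((1, μ) : G × A) * (1, ν) = (1, μ * ν) := by simp
    rw [h2] at h
    field_simp
    linear_combination h

theorem exists_over (P : G × A → ℂ) [Fintype (IrrCharacter (G × A))] (m : IrrCharacter (G × A) → ℕ)
    (hm : P = ∑ Ψ, m Ψ • (Ψ : G × A → ℂ)) (h0 : ∀ μ : A, μ ≠ 1 → P (1, μ) = 0) (h1 : P 1 ≠ 0)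
    (ω : A →* ℂˣ) : ∃ Ψ : IrrCharacter (G × A), m Ψ ≠ 0 ∧ ∀ μ, (Ψ : G × A → ℂ) (1, μ) = ω μ * (Ψ : G × A → ℂ) 1 := by
  classical
  by_contra hcon
  push Not at hcon
  have hT1 : ∑ μ : A, ((ω μ)⁻¹ : ℂˣ) * P (1, μ) = P 1 := by
    rw [Finset.sum_eq_single 1]
    · simp; rfl
    · intro μ _ hμ
      rw [h0 μ hμ, mul_zero]
    · intro h; exact absurd (Finset.mem_univ _) h
  have hT2 : ∑ μ : A, ((ω μ)⁻¹ : ℂˣ) * P (1, μ) = 0 := by
    have : ∀ μ : A, (((ω μ)⁻¹ : ℂˣ) : ℂ) * P (1, μ) =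
        ∑ Ψ : IrrCharacter (G × A), (m Ψ : ℂ) * ((((ω μ)⁻¹ : ℂˣ) : ℂ) * (Ψ : G × A → ℂ) (1, μ)) := by
      intro μ
      rw [hm]
      simp only [Finset.sum_apply, Pi.smul_apply, Finset.mul_sum]
      refine Finset.sum_congr rfl fun Ψ _ => by rw [nsmul_eq_mul]; ring
    simp_rw [this]
    rw [Finset.sum_comm]
    refine Finset.sum_eq_zero fun Ψ _ => ?_
    rw [← Finset.mul_sum]
    by_cases hmΨ : m Ψ = 0
    · simp [hmΨ]
    obtain ⟨μ₀, hμ₀⟩ := hcon Ψ hmΨ
    have hΨ1 : (Ψ : G × A → ℂ) 1 ≠ 0 := IsIrrCharacter.apply_one_ne_zero Ψ.2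
    let f : A →* ℂ := ((Units.coeHom ℂ).comp ω⁻¹) * cchar Ψ.2
    have hf : f ≠ 1 := by
      intro hf
      apply hμ₀
      have h2 : f μ₀ = 1 := by rw [hf]; rfl
      have h3 : f μ₀ = (((ω μ₀)⁻¹ : ℂˣ) : ℂ) * ((Ψ : G × A → ℂ) (1, μ₀) / (Ψ : G × A → ℂ) 1) := rfl
      rw [h3] at h2
      have h4 : ((ω μ₀ : ℂˣ) : ℂ) ≠ 0 := Units.ne_zero _
      rw [Units.val_inv_eq_inv_val] at h2
      field_simp at h2
      rw [h2]
    have hs := sum_hom_units_eq_zero f hf
    have h5 : ∑ μ : A, (((ω μ)⁻¹ : ℂˣ) : ℂ) * (Ψ : G × A → ℂ) (1, μ) = (Ψ : G × A → ℂ) 1 * ∑ μ : A, f μ := by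
      rw [Finset.mul_sum]
      refine Finset.sum_congr rfl fun μ _ => ?_
      have h3 : f μ = (((ω μ)⁻¹ : ℂˣ) : ℂ) * ((Ψ : G × A → ℂ) (1, μ) / (Ψ : G × A → ℂ) 1) := rfl
      rw [h3]
      field_simp
    rw [h5, hs, mul_zero, mul_zero]
  exact h1 (hT1.symm.trans hT2)

theorem len_ge (P : G × A → ℂ) (hP : IsCharacter (G × A) P) (h0 : ∀ μ : A, μ ≠ 1 → P (1, μ) = 0)
    (h1 : P 1 ≠ 0) [Fintype (IrrCharacter G)] (a : IrrCharacter G → ℕ)
    (ha : (fun g => P (g, 1)) = ∑ ψ, a ψ • (ψ : G → ℂ)) : Nat.card A ≤ ∑ ψ, a ψ := by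
  classical
  have : Fintype (IrrCharacter (G × A)) := Fintype.ofFinite _
  obtain ⟨m, hm⟩ := IsCharacter.exists_decomp hP
  have hres : ∀ Ψ : IrrCharacter (G × A), ∃ b : IrrCharacter G → ℕ,
      (fun g => (Ψ : G × A → ℂ) (g, 1)) = ∑ ψ, b ψ • (ψ : G → ℂ) := by
    intro Ψ
    have := IsCharacter.comp_hom (IsIrrCharacter.isCharacter Ψ.2) (MonoidHom.inl G A)
    exact IsCharacter.exists_decomp this
  choose b hb using hres
  have hbpos : ∀ Ψ, 1 ≤ ∑ ψ, b Ψ ψ := by
    intro Ψ
    by_contra h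
    have h0 : ∑ ψ, b Ψ ψ = 0 := by omega
    have h0' : ∀ ψ, b Ψ ψ = 0 := by simpa using h0
    have := congrFun (hb Ψ) 1
    simp only [h0', zero_smul, Finset.sum_const_zero, Pi.zero_apply] at this
    exact IsIrrCharacter.apply_one_ne_zero Ψ.2 this
  have hab : ∀ χ, a χ = ∑ Ψ, m Ψ * b Ψ χ := by
    intro χ
    have e1 : (fun g => P (g, 1)) =
        ∑ ψ : IrrCharacter G, ((∑ Ψ, m Ψ * b Ψ ψ : ℕ) : ℂ) • (ψ : G → ℂ) := by
      funext g
      have hbg : ∀ Ψ : IrrCharacter (G × A), (Ψ : G × A → ℂ) (g, 1) = ∑ ψ, (b Ψ ψ : ℂ) * (ψ : G → ℂ) g := by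
        intro Ψ
        have := congrFun (hb Ψ) g
        simp only [Finset.sum_apply, Pi.smul_apply] at this
        simp only [nsmul_eq_mul] at this
        exact this
      rw [hm]
      simp only [Finset.sum_apply, Pi.smul_apply]
      simp only [nsmul_eq_mul, smul_eq_mul, hbg, Finset.mul_sum,
        Nat.cast_sum, Nat.cast_mul, Finset.sum_mul]
      rw [Finset.sum_comm]
      refine Finset.sum_congr rfl fun ψ _ => Finset.sum_congr rfl fun Ψ _ => by ring
    have e2 := classInner_sum_irr (fun ψ => ((∑ Ψ, m Ψ * b Ψ ψ : ℕ) : ℂ)) χ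
    have e3 := classInner_sum_irr (fun ψ => (a ψ : ℂ)) χ
    rw [← e1, ha] at e2
    simp only [Nat.cast_smul_eq_nsmul] at e3
    rw [e3] at e2
    exact_mod_cast e2
  have hsum : ∑ Ψ, m Ψ ≤ ∑ χ, a χ := by
    simp_rw [hab]
    rw [Finset.sum_comm]
    refine Finset.sum_le_sum fun Ψ _ => ?_
    rw [← Finset.mul_sum]
    exact Nat.le_mul_of_pos_right _ (hbpos Ψ)
  have hcard : Nat.card {Ψ : IrrCharacter (G × A) // m Ψ ≠ 0} ≤ ∑ Ψ, m Ψ := by
    rw [Nat.card_eq_fintype_card, Fintype.card_subtype, Finset.card_filter]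
    refine Finset.sum_le_sum fun Ψ _ => ?_
    split_ifs with h
    · omega
    · omega
  have : NeZero (Monoid.exponent A) := ⟨Monoid.exponent_ne_zero_of_finite⟩
  have hdual : Nat.card (A →* ℂˣ) = Nat.card A := CommGroup.card_monoidHom_of_hasEnoughRootsOfUnity A ℂ
  choose Φ hΦ1 hΦ2 using exists_over P m hm h0 h1
  have hinj : Function.Injective (fun ω : A →* ℂˣ => (⟨Φ ω, hΦ1 ω⟩ : {Ψ : IrrCharacter (G × A) // m Ψ ≠ 0})) := by
    intro ω ω' h
    have h2 : Φ ω = Φ ω' := congrArg Subtype.val h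
    ext μ
    have h3 := hΦ2 ω μ
    rw [h2, hΦ2 ω' μ] at h3
    exact (mul_right_cancel₀ (IsIrrCharacter.apply_one_ne_zero (Φ ω').2) h3).symm
  have := Nat.card_le_card_of_injective _ hinj
  omega

theorem decomp_of (P : G × A → ℂ) (hP : IsCharacter (G × A) P) (h0 : ∀ μ : A, μ ≠ 1 → P (1, μ) = 0)
    (h1 : P 1 ≠ 0) (hnorm : classInner (fun g => P (g, 1)) (fun g => P (g, 1)) = (Nat.card A + 1 : ℕ))
    (hone : classInner (fun g => P (g, 1)) (fun _ => (1 : ℂ)) ≠ 0) :
    ∃ χ : Fin (Nat.card A) → (G → ℂ), (∀ i, IsIrrCharacter G (χ i)) ∧ Function.Injective χ ∧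
      ∀ g, P (g, 1) = 1 + ∑ i, χ i g := by
  classical
  have : Fintype (IrrCharacter G) := Fintype.ofFinite _
  have hπ : IsCharacter G (fun g => P (g, 1)) := IsCharacter.comp_hom hP (MonoidHom.inl G A)
  obtain ⟨a, ha⟩ := IsCharacter.exists_decomp hπ
  have hlen := len_ge P hP h0 h1 a ha
  have hsq : ∑ ψ : IrrCharacter G, (a ψ) ^ 2 = Nat.card A + 1 := by
    have h4 : classInner (∑ ψ : IrrCharacter G, a ψ • (ψ : G → ℂ))
        (∑ ψ : IrrCharacter G, a ψ • (ψ : G → ℂ)) = ∑ ψ : IrrCharacter G, ((a ψ) ^ 2 : ℂ) := by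
      rw [classInner_sum_right]
      refine Finset.sum_congr rfl fun ψ _ => ?_
      rw [← Nat.cast_smul_eq_nsmul ℂ (a ψ) (ψ : G → ℂ), classInner_smul_right]
      have := classInner_sum_irr (fun ψ => (a ψ : ℂ)) ψ
      simp only [Nat.cast_smul_eq_nsmul] at this
      rw [this]
      simp [sq]
    rw [ha, h4] at hnorm
    exact_mod_cast hnorm
  have hle := le_one_of_sums a _ hsq (by omega)
  have hone' : a (oneIrr G) ≠ 0 := by
    intro h
    apply hone
    have := classInner_sum_irr (fun ψ => (a ψ : ℂ)) (oneIrr G)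
    simp only [Nat.cast_smul_eq_nsmul] at this
    rw [ha]
    have h2 : ((oneIrr G : IrrCharacter G) : G → ℂ) = fun _ => (1 : ℂ) := rfl
    rw [h2] at this
    rw [this, h]
    simp
  let S : Finset (IrrCharacter G) := Finset.univ.filter (fun ψ => a ψ ≠ 0)
  have hS : S.card = Nat.card A + 1 := by
    rw [← hsq, Finset.card_filter]
    refine Finset.sum_congr rfl fun ψ _ => ?_
    have := hle ψ
    interval_cases (a ψ) <;> simp
  have h1S : oneIrr G ∈ S := by simp [S, hone']
  have hT : (S.erase (oneIrr G)).card = Nat.card A := by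
    rw [Finset.card_erase_of_mem h1S, hS]; rfl
  let e := (Finset.equivFinOfCardEq hT).symm
  refine ⟨fun i => ((e i : IrrCharacter G) : G → ℂ), fun i => (e i : IrrCharacter G).2, ?_, ?_⟩
  · intro i j hij
    exact e.injective (Subtype.ext (Subtype.ext hij))
  · intro g
    have h5 : P (g, 1) = ∑ ψ ∈ S, (ψ : G → ℂ) g := by
      have := congrFun ha g
      simp only [Finset.sum_apply, Pi.smul_apply] at this
      rw [this, Finset.sum_filter]
      refine Finset.sum_congr rfl fun ψ _ => ?_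
      have := hle ψ
      interval_cases (a ψ) <;> simp
    rw [h5, ← Finset.add_sum_erase _ _ h1S]
    congr 1
    rw [← Finset.sum_coe_sort (S.erase (oneIrr G)) (fun ψ => (ψ : G → ℂ) g)]
    exact (Equiv.sum_comp e (fun ψ => ((ψ : IrrCharacter G) : G → ℂ) g)).symm

end abstract



section linalg

open Module

variable {F : Type*} [Field F]

theorem exists_det_one_map {ι : Type*} [Fintype ι] {V : Type*} [AddCommGroup V] [Module F V]
    [FiniteDimensional F V] (a b : ι → V) (ha : LinearIndependent F a) (hb : LinearIndependent F b)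
    (hlt : Fintype.card ι < finrank F V) :
    ∃ g : V ≃ₗ[F] V, (∀ i, g (a i) = b i) ∧ LinearMap.det (g : V →ₗ[F] V) = 1 := by
  let f := ha.linearCombinationEquiv.symm ≪≫ₗ hb.linearCombinationEquiv
  obtain ⟨g, hg⟩ := Submodule.exists_linearEquiv_restrict_eq f
  have qa : ∀ i, (ha.linearCombinationEquiv (Finsupp.single i 1) : V) = a i := by intro i; simp
  have qb : ∀ i, (hb.linearCombinationEquiv (Finsupp.single i 1) : V) = b i := by intro i; simp
  have hga : ∀ i, g (a i) = b i := by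
    intro i
    rw [← qa i, ← hg, ← qb i]
    simp [f]
  obtain ⟨c, hc⟩ : ∃ c, c ∉ Submodule.span F (Set.range b) := by
    by_contra h
    push Not at h
    have htop : Submodule.span F (Set.range b) = ⊤ := eq_top_iff.2 fun x _ => h x
    have h1 := finrank_span_eq_card hb
    rw [htop, finrank_top] at h1
    omega
  obtain ⟨χ0, hχ0c, hχ0b⟩ := Submodule.exists_le_ker_of_notMem hc
  let χ : Dual F V := (χ0 c)⁻¹ • χ0
  have hχc : χ c = 1 := by simp [χ, hχ0c]
  have hχb : ∀ i, χ (b i) = 0 := by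
    intro i
    have : χ0 (b i) = 0 := hχ0b (Submodule.subset_span ⟨i, rfl⟩)
    simp [χ, this]
  have hdet : LinearMap.det (g : V →ₗ[F] V) ≠ 0 := (LinearEquiv.isUnit_det' g).ne_zero
  obtain ⟨h, hh, hhdet⟩ := Helper43.exists_dilation_of_dual c χ hχc (LinearMap.det (g : V →ₗ[F] V))⁻¹
    (inv_ne_zero hdet)
  refine ⟨g.trans h, ?_, ?_⟩
  · intro i
    rw [LinearEquiv.trans_apply, hga, hh, hχb, zero_smul, add_zero]
  · have : ((g.trans h : V ≃ₗ[F] V) : V →ₗ[F] V) = (h : V →ₗ[F] V) ∘ₗ (g : V →ₗ[F] V) := rfl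
    rw [this, LinearMap.det_comp, hhdet, inv_mul_cancel₀ hdet]

theorem exists_SL {ι : Type*} [Fintype ι] {n : ℕ} (a b : ι → (Fin n → F)) (ha : LinearIndependent F a)
    (hb : LinearIndependent F b) (hlt : Fintype.card ι < n) :
    ∃ g : Matrix.SpecialLinearGroup (Fin n) F, ∀ i, (g : Matrix (Fin n) (Fin n) F).mulVec (a i) = b i := by
  obtain ⟨g, hg, hdet⟩ := exists_det_one_map a b ha hb (by simpa using hlt)
  refine ⟨⟨LinearMap.toMatrix' (g : (Fin n → F) →ₗ[F] (Fin n → F)), by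
    rw [LinearMap.det_toMatrix']; exact hdet⟩, fun i => ?_⟩
  show (LinearMap.toMatrix' (g : (Fin n → F) →ₗ[F] (Fin n → F))).mulVec (a i) = b i
  rw [LinearMap.toMatrix'_mulVec]
  exact hg i

end linalg



section general

open MulAction

theorem card_fixedBy_prod' {G Ω : Type*} [Group G] [MulAction G Ω] (g : G) :
    Nat.card (fixedBy (Ω × Ω) g) = Nat.card (fixedBy Ω g) * Nat.card (fixedBy Ω g) := by
  rw [← Nat.card_prod]
  apply Nat.card_congr
  exact
    { toFun := fun x => (⟨x.1.1, congrArg Prod.fst x.2⟩, ⟨x.1.2, congrArg Prod.snd x.2⟩)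
      invFun := fun y => ⟨(y.1.1, y.2.1), Prod.ext y.1.2 y.2.2⟩
      left_inv := fun _ => rfl
      right_inv := fun _ => rfl }

theorem classInner_self_prod {G : Type*} [Group G] [Fintype G] (X : Type*) [MulAction G X] [Finite X] :
    classInner (fun g : G => (Nat.card (fixedBy X g) : ℂ)) (fun g : G => (Nat.card (fixedBy X g) : ℂ)) =
      (Nat.card (orbitRel.Quotient G (X × X)) : ℂ) := by
  have hc : (Nat.card G : ℂ) ≠ 0 := by exact_mod_cast Nat.card_pos.ne'
  simp only [classInner, Complex.conj_natCast]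
  have : ∀ g : G, (Nat.card (fixedBy X g) : ℂ) * (Nat.card (fixedBy X g) : ℂ) =
      (Nat.card (fixedBy (X × X) g) : ℂ) := by
    intro g
    exact_mod_cast (card_fixedBy_prod' g).symm
  simp only [this]
  rw [sum_card_fixedBy]
  field_simp

end general

section concrete

open Matrix MulAction

variable {F : Type*} [Field F] {n : ℕ}

/-- the non-zero vectors -/
abbrev NZ (n : ℕ) (F : Type*) [Field F] := {v : Fin n → F // v ≠ 0}

theorem mulVec_ne_zero (g : SpecialLinearGroup (Fin n) F) {v : Fin n → F} (hv : v ≠ 0) :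
    (g : Matrix (Fin n) (Fin n) F).mulVec v ≠ 0 := by
  intro h
  apply hv
  have : ((g⁻¹ : SpecialLinearGroup (Fin n) F) : Matrix (Fin n) (Fin n) F).mulVec
      ((g : Matrix (Fin n) (Fin n) F).mulVec v) = v := by
    have h1 : ((g⁻¹ : SpecialLinearGroup (Fin n) F) : Matrix (Fin n) (Fin n) F) * (g : Matrix (Fin n) (Fin n) F) = 1 := by
      simp [Matrix.adjugate_mul]
    rw [Matrix.mulVec_mulVec, h1, Matrix.one_mulVec]
  rw [← this, h, Matrix.mulVec_zero]

noncomputable instance actK : MulAction (SpecialLinearGroup (Fin n) F × Fˣ) (NZ n F) where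
  smul k v := ⟨(k.2 : F) • (k.1 : Matrix (Fin n) (Fin n) F).mulVec v.1,
    smul_ne_zero (Units.ne_zero _) (mulVec_ne_zero _ v.2)⟩
  one_smul v := Subtype.ext (by
    show (((1 : SpecialLinearGroup (Fin n) F × Fˣ).2 : Fˣ) : F) •
      (((1 : SpecialLinearGroup (Fin n) F × Fˣ).1 : SpecialLinearGroup (Fin n) F) : Matrix (Fin n) (Fin n) F).mulVec v.1 = v.1
    simp)
  mul_smul k k' v := Subtype.ext (by
    show (((k * k').2 : Fˣ) : F) • (((k * k').1 : SpecialLinearGroup (Fin n) F) : Matrix (Fin n) (Fin n) F).mulVec v.1 =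
      (k.2 : F) • (k.1 : Matrix (Fin n) (Fin n) F).mulVec ((k'.2 : F) • (k'.1 : Matrix (Fin n) (Fin n) F).mulVec v.1)
    simp [Matrix.mulVec_smul, smul_smul, Matrix.mulVec_mulVec])

theorem smulK_val (k : SpecialLinearGroup (Fin n) F × Fˣ) (v : NZ n F) :
    (k • v).1 = (k.2 : F) • (k.1 : Matrix (Fin n) (Fin n) F).mulVec v.1 := rfl

noncomputable instance actG : MulAction (SpecialLinearGroup (Fin n) F) (NZ n F) :=
  MulAction.compHom (NZ n F) (MonoidHom.inl (SpecialLinearGroup (Fin n) F) Fˣ)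

theorem smulG_val (g : SpecialLinearGroup (Fin n) F) (v : NZ n F) :
    (g • v).1 = (g : Matrix (Fin n) (Fin n) F).mulVec v.1 := by
  show (((g, 1) : SpecialLinearGroup (Fin n) F × Fˣ) • v).1 = _
  rw [smulK_val]; simp

/-- the invariant of a pair of non-zero vectors -/
noncomputable def rel (p : NZ n F × NZ n F) : Option Fˣ := by
  classical exact if h : ∃ μ : Fˣ, p.2.1 = (μ : F) • p.1.1 then some h.choose else none

theorem rel_eq_some (p : NZ n F × NZ n F) (μ : Fˣ) : rel p = some μ ↔ p.2.1 = (μ : F) • p.1.1 := by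
  classical
  unfold rel
  constructor
  · intro h
    split_ifs at h with h1
    · have := h1.choose_spec
      rw [Option.some.inj h] at this
      exact this
  · intro h
    have h1 : ∃ μ : Fˣ, p.2.1 = (μ : F) • p.1.1 := ⟨μ, h⟩
    rw [dif_pos h1]
    congr 1
    have h2 := h1.choose_spec
    have h3 := smul_left_injective F p.1.2 (h.symm.trans h2)
    exact (Units.ext h3).symm

theorem rel_eq_none (p : NZ n F × NZ n F) : rel p = none ↔ ∀ μ : Fˣ, p.2.1 ≠ (μ : F) • p.1.1 := by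
  constructor
  · intro h μ hμ
    rw [(rel_eq_some p μ).2 hμ] at h
    exact absurd h (by simp)
  · intro h
    cases hr : rel p with
    | none => rfl
    | some μ => exact absurd ((rel_eq_some p μ).1 hr) (h μ)

theorem rel_smul_aux (g : SpecialLinearGroup (Fin n) F) (p : NZ n F × NZ n F) (μ : Fˣ)
    (h : rel p = some μ) : rel (g • p) = some μ := by
  rw [rel_eq_some] at h ⊢
  show (g • p.2).1 = (μ : F) • (g • p.1).1
  rw [smulG_val, smulG_val, h, Matrix.mulVec_smul]

theorem rel_smul (g : SpecialLinearGroup (Fin n) F) (p : NZ n F × NZ n F) : rel (g • p) = rel p := by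
  apply Option.ext
  intro μ
  constructor
  · intro h
    have := rel_smul_aux g⁻¹ (g • p) μ h
    rwa [inv_smul_smul] at this
  · intro h
    exact rel_smul_aux g p μ h

theorem exists_smul_of_rel_eq (hn : 3 ≤ n) (p p' : NZ n F × NZ n F) (h : rel p = rel p') :
    ∃ g : SpecialLinearGroup (Fin n) F, g • p = p' := by
  cases hr : rel p with
  | some μ =>
    rw [hr] at h
    have h1 := (rel_eq_some p μ).1 hr
    have h2 := (rel_eq_some p' μ).1 h.symm
    obtain ⟨g, hg⟩ := exists_SL (fun _ : Unit => p.1.1) (fun _ : Unit => p'.1.1)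
      (LinearIndependent.of_subsingleton () p.1.2) (LinearIndependent.of_subsingleton () p'.1.2)
      (by simp; omega)
    refine ⟨g, Prod.ext (Subtype.ext ?_) (Subtype.ext ?_)⟩
    · show (g • p.1).1 = _
      rw [smulG_val]; exact hg ()
    · show (g • p.2).1 = _
      rw [smulG_val, h1, Matrix.mulVec_smul, hg (), h2]
  | none =>
    rw [hr] at h
    have key : ∀ p : NZ n F × NZ n F, rel p = none → LinearIndependent F ![p.1.1, p.2.1] := by
      intro p hp
      rw [rel_eq_none] at hp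
      rw [LinearIndependent.pair_iff]
      intro s t hst
      have ht : t = 0 := by
        by_contra ht
        have h3 : p.2.1 = (-(t⁻¹ * s)) • p.1.1 := by
          have : t • p.2.1 = -(s • p.1.1) := by
            rw [eq_neg_iff_add_eq_zero, add_comm]; exact hst
          calc p.2.1 = t⁻¹ • (t • p.2.1) := by rw [smul_smul, inv_mul_cancel₀ ht, one_smul]
            _ = _ := by rw [this, smul_neg, smul_smul, neg_smul]
        have h4 : -(t⁻¹ * s) ≠ 0 := by
          intro h0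
          rw [h0, zero_smul] at h3
          exact p.2.2 h3
        exact hp (Units.mk0 _ h4) h3
      subst ht
      rw [zero_smul, add_zero] at hst
      exact ⟨(smul_eq_zero.1 hst).resolve_right p.1.2, rfl⟩
    obtain ⟨g, hg⟩ := exists_SL ![p.1.1, p.2.1] ![p'.1.1, p'.2.1] (key p hr) (key p' h.symm)
      (by simp; omega)
    refine ⟨g, Prod.ext (Subtype.ext ?_) (Subtype.ext ?_)⟩
    · show (g • p.1).1 = _
      rw [smulG_val]; exact hg 0
    · show (g • p.2).1 = _
      rw [smulG_val]; exact hg 1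

theorem rel_surjective (hn : 3 ≤ n) : Function.Surjective (rel : NZ n F × NZ n F → Option Fˣ) := by
  classical
  have h0 : (Pi.single (⟨0, by omega⟩ : Fin n) (1 : F) : Fin n → F) ≠ 0 := by
    intro h
    have := congrFun h ⟨0, by omega⟩
    simp at this
  have h1 : (Pi.single (⟨1, by omega⟩ : Fin n) (1 : F) : Fin n → F) ≠ 0 := by
    intro h
    have := congrFun h ⟨1, by omega⟩
    simp at this
  intro o
  cases o with
  | some μ =>
    refine ⟨(⟨_, h0⟩, ⟨(μ : F) • Pi.single (⟨0, by omega⟩ : Fin n) (1 : F), smul_ne_zero (Units.ne_zero _) h0⟩), ?_⟩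
    rw [rel_eq_some]
  | none =>
    refine ⟨(⟨_, h0⟩, ⟨_, h1⟩), ?_⟩
    rw [rel_eq_none]
    intro μ h
    have := congrFun h ⟨1, by omega⟩
    simp at this

theorem card_orbits [Finite F] (hn : 3 ≤ n) :
    Nat.card (orbitRel.Quotient (SpecialLinearGroup (Fin n) F) (NZ n F × NZ n F)) = Nat.card Fˣ + 1 := by
  have e : orbitRel.Quotient (SpecialLinearGroup (Fin n) F) (NZ n F × NZ n F) ≃ Option Fˣ := by
    refine Equiv.ofBijective (Quotient.lift rel ?_) ⟨?_, ?_⟩
    · rintro a b ⟨g, rfl⟩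
      exact rel_smul g b
    · intro a b
      induction a using Quotient.inductionOn'
      induction b using Quotient.inductionOn'
      rename_i a b
      intro h
      obtain ⟨g, hg⟩ := exists_smul_of_rel_eq hn b a (Eq.symm h)
      exact Quotient.sound' ⟨g, hg⟩
    · intro o
      obtain ⟨p, hp⟩ := rel_surjective hn o
      exact ⟨Quotient.mk'' p, hp⟩
  rw [Nat.card_congr e, Finite.card_option]

end concrete


section final

open Matrix MulAction

/-- Let F be a finite field with q elements and n ≥ 3. The permutation character of SL_n(F) on the non-zero vectors of F^n (the function sending a matrix to the number of non-zero vectors it fixes) is the sum of the principal character and q − 1 pairwise distinct irreducible complex characters. -/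
theorem result {F : Type*} [Field F] [Fintype F] [DecidableEq F] (n : ℕ) (hn : 3 ≤ n) :
    ∃ χ : Fin (Fintype.card F - 1) → (Matrix.SpecialLinearGroup (Fin n) F → ℂ),
      (∀ i, Cfsg.IsIrrCharacter (Matrix.SpecialLinearGroup (Fin n) F) (χ i)) ∧ Function.Injective χ ∧
      ∀ g : Matrix.SpecialLinearGroup (Fin n) F,
        (Nat.card {v : Fin n → F // v ≠ 0 ∧ (g : Matrix (Fin n) (Fin n) F).mulVec v = v} : ℂ) = 1 + ∑ i, χ i g := by
  classical
  have hcard : Nat.card Fˣ = Fintype.card F - 1 := by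
    rw [Nat.card_eq_fintype_card, Fintype.card_units]
  rw [← hcard]
  have : Fintype (SpecialLinearGroup (Fin n) F) := Fintype.ofFinite _
  let P : SpecialLinearGroup (Fin n) F × Fˣ → ℂ := fun k => (Nat.card (fixedBy (NZ n F) k) : ℂ)
  have hP : IsCharacter (SpecialLinearGroup (Fin n) F × Fˣ) P := isCharacter_card_fixedBy (NZ n F)
  have hne : Nonempty (NZ n F) := by
    refine ⟨⟨Pi.single (⟨0, by omega⟩ : Fin n) (1 : F), ?_⟩⟩
    intro h
    have := congrFun h ⟨0, by omega⟩
    simp at this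
  have h0 : ∀ μ : Fˣ, μ ≠ 1 → P (1, μ) = 0 := by
    intro μ hμ
    have : IsEmpty (fixedBy (NZ n F) ((1, μ) : SpecialLinearGroup (Fin n) F × Fˣ)) := by
      constructor
      rintro ⟨v, hv⟩
      apply hμ
      have h1 := congrArg Subtype.val hv
      rw [smulK_val] at h1
      have h1' : (μ : F) • v.1 = v.1 := by simpa using h1
      have h2 : (μ : F) • v.1 = (1 : F) • v.1 := by rw [h1', one_smul]
      exact Units.ext (smul_left_injective F v.2 h2)
    show ((Nat.card (fixedBy (NZ n F) ((1, μ) : SpecialLinearGroup (Fin n) F × Fˣ)) : ℕ) : ℂ) = 0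
    rw [Nat.card_of_isEmpty, Nat.cast_zero]
  have h1 : P 1 ≠ 0 := by
    show ((Nat.card (fixedBy (NZ n F) (1 : SpecialLinearGroup (Fin n) F × Fˣ)) : ℕ) : ℂ) ≠ 0
    have : Nonempty (fixedBy (NZ n F) (1 : SpecialLinearGroup (Fin n) F × Fˣ)) :=
      ⟨⟨hne.some, one_smul _ _⟩⟩
    exact_mod_cast Nat.card_pos.ne'
  have hPG : (fun g : SpecialLinearGroup (Fin n) F => P (g, 1)) =
      fun g : SpecialLinearGroup (Fin n) F => (Nat.card (fixedBy (NZ n F) g) : ℂ) := rfl
  have hnorm : classInner (fun g => P (g, 1)) (fun g => P (g, 1)) = (Nat.card Fˣ + 1 : ℕ) := by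
    rw [hPG, classInner_self_prod, card_orbits hn]
  have hone : classInner (fun g => P (g, 1)) (fun _ => (1 : ℂ)) ≠ 0 := by
    rw [hPG, classInner_card_fixedBy_one]
    have : Nonempty (orbitRel.Quotient (SpecialLinearGroup (Fin n) F) (NZ n F)) :=
      ⟨Quotient.mk'' hne.some⟩
    exact_mod_cast Nat.card_pos.ne'
  obtain ⟨χ, hχ1, hχ2, hχ3⟩ := decomp_of P hP h0 h1 hnorm hone
  refine ⟨χ, hχ1, hχ2, fun g => ?_⟩
  rw [← hχ3 g]
  show _ = ((Nat.card (fixedBy (NZ n F) ((g, 1) : SpecialLinearGroup (Fin n) F × Fˣ)) : ℕ) : ℂ)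
  congr 1
  apply Nat.card_congr
  exact
    { toFun := fun v => ⟨⟨v.1, v.2.1⟩, Subtype.ext (by
        rw [smulK_val]; simpa using v.2.2)⟩
      invFun := fun x => ⟨x.1.1, x.1.2, by
        have := congrArg Subtype.val x.2
        rw [smulK_val] at this
        simpa using this⟩
      left_inv := fun _ => rfl
      right_inv := fun _ => rfl }

end final

end Cfsg.Agent.S2336
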