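import Cfsg.Statements.S2337
import Cfsg.Agent.Lib.Helper39.Sz.MinDeg
import Cfsg.Agent.Lib.Helper37.Suzuki.LieModel

set_option autoImplicit false
open Cfsg

namespace Cfsg.Agent.S2337

/-- For the Suzuki group Sz(q), q = 2^(2m+1) with m ≥ 1 (realised inside Sp₄ over the field with q elements), every irreducible complex representation of degree at least 2 has degree at least 2^m·(q − 1). -/
theorem result {F : Type*} [Field F] [Fintype F] (m : ℕ) (hm : 1 ≤ m) (hF : Fintype.card F = 2 ^ (2 * m + 1)) :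
    (∀ (k : ℕ) (ρ : Representation ℂ (Cfsg.Lie.Sz F (2 ^ (m + 1))) (Fin k → ℂ)), ρ.IsIrreducible → 2 ≤ k → 2 ^ m * (2 ^ (2 * m + 1) - 1) ≤ k) := by
  classical
  intro k ρ hρ hk
  have : Cfsg.Agent.Lib.Helper37.Suz.SzField F m := ⟨hm, hF⟩
  have hfin := Cfsg.Agent.Lib.Helper39.SzDeg.finite_Sz (F := F) m
  have e := Cfsg.Agent.Lib.Helper37.Suz.lieEquiv (F := F) m
  have hfin2 : Finite (Cfsg.Lie.Sz F (2 ^ (m + 1))) := Finite.of_equiv _ e.toEquiv
  have h1 : Cfsg.IsIrrCharacter (Cfsg.Lie.Sz F (2 ^ (m + 1))) ρ.character := ⟨k, ρ, hρ, rfl⟩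
  have h2 := Cfsg.Agent.Lib.Helper15.irr_comp_equiv e h1
  have h3 : ρ.character (e 1) = (k : ℂ) := by
    rw [map_one, Representation.char_one]
    simp
  refine Cfsg.Agent.Lib.Helper39.SzDeg.min_degree m h2 ?_ h3
  rw [Function.comp_apply, h3]
  intro h
  have : k = 1 := by exact_mod_cast h
  omega

end Cfsg.Agent.S2337
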