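import Cfsg.Statements.S2343
import Cfsg.Agent.Lib.Lead.ReeDeg.Model

set_option autoImplicit false
open Cfsg

namespace Cfsg.Agent.S2343

/-- For the Ree group ²G₂(q), q = 3^(2m+1) with m ≥ 1 (realised over the field with q elements), every irreducible complex representation of degree at least 2 has degree at least q² − q + 1. -/
theorem result {K : Type*} [Field K] [Fintype K] (m : ℕ) (hm : 1 ≤ m) (hK : Fintype.card K = 3 ^ (2 * m + 1)) :
    (∀ (k : ℕ) (ρ : Representation ℂ (Cfsg.Lie.twistedG2 K (3 ^ m)) (Fin k → ℂ)), ρ.IsIrreducible → 2 ≤ k → (3 ^ (2 * m + 1)) ^ 2 - 3 ^ (2 * m + 1) + 1 ≤ k) := by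
  classical
  intro k ρ hρ hk
  have h1 : Cfsg.IsIrrCharacter (Cfsg.Lie.twistedG2 K (3 ^ m)) ρ.character := ⟨k, ρ, hρ, rfl⟩
  have h3 : ρ.character 1 = (k : ℂ) := by
    rw [Representation.char_one]
    simp
  refine Cfsg.Agent.Lib.Lead.ReeDeg.min_degree hm hK h1 ?_ h3
  rw [h3]
  intro h
  have : k = 1 := by exact_mod_cast h
  omega

end Cfsg.Agent.S2343
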