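import Cfsg.Statements.S2354
import Cfsg.Agent.Lib.Helper39.PolyMat

set_option autoImplicit false
open Cfsg

namespace Cfsg.Agent.S2354

open Polynomial Cfsg.Agent.Lib.Helper39


def Umat {R : Type*} [CommRing R] (a A : R) : Matrix (Fin 4) (Fin 4) R :=
  !![1,0,0,0; a,1,0,0; 0,A,1,0; a^2*A, a*A, a, 1]
def Uimat {R : Type*} [CommRing R] (a A : R) : Matrix (Fin 4) (Fin 4) R :=
  !![1,0,0,0; a,1,0,0; a*A,A,1,0; a^2*A, 0, a, 1]
def Jmat {R : Type*} [CommRing R] : Matrix (Fin 4) (Fin 4) R :=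
  !![0,0,0,1; 0,0,1,0; 0,1,0,0; 1,0,0,0]

theorem U_mul_Ui {R : Type*} [CommRing R] [CharP R 2] (a A : R) : Umat a A * Uimat a A = 1 := by
  ext i j
  fin_cases i <;> fin_cases j <;> simp [Umat, Uimat, Matrix.mul_apply, Fin.sum_univ_four]
  all_goals (ring_nf; reduce_mod_char!)

theorem Ui_mul_U {R : Type*} [CommRing R] [CharP R 2] (a A : R) : Uimat a A * Umat a A = 1 := by
  ext i j
  fin_cases i <;> fin_cases j <;> simp [Umat, Uimat, Matrix.mul_apply, Fin.sum_univ_four]
  all_goals (ring_nf; reduce_mod_char!)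

theorem J_mul_J {R : Type*} [CommRing R] : (Jmat : Matrix (Fin 4) (Fin 4) R) * Jmat = 1 := by
  ext i j
  fin_cases i <;> fin_cases j <;> simp [Jmat, Matrix.mul_apply, Fin.sum_univ_four]

def szU {R : Type*} [CommRing R] [CharP R 2] (a A : R) : Matrix.GeneralLinearGroup (Fin 4) R :=
  ⟨Umat a A, Uimat a A, U_mul_Ui a A, Ui_mul_U a A⟩

def szJ {R : Type*} [CommRing R] : Matrix.GeneralLinearGroup (Fin 4) R :=
  ⟨Jmat, Jmat, J_mul_J, J_mul_J⟩

theorem szJ_mem {F : Type*} [Field F] [CharP F 2] (e : ℕ) (he : e ≠ 0) : (szJ : Matrix.GeneralLinearGroup (Fin 4) F) ∈ Cfsg.Lie.Sz F e := by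
  apply Subgroup.subset_closure
  refine ⟨?_, ?_⟩
  · intro u v
    simp [szJ, Jmat, Cfsg.Lie.altForm4, Matrix.mulVec, dotProduct, Fin.sum_univ_four]
    ring
  · ext i j
    fin_cases i <;> fin_cases j <;> simp [szJ, Jmat, Cfsg.Lie.star4, Cfsg.Lie.pairOf, he]
    all_goals exact CharTwo.neg_eq 1

theorem szU_mem {F : Type*} [Field F] [CharP F 2] (e : ℕ) (he : e ≠ 0) (a : F) (ha : (a ^ e) ^ e = a ^ 2) :
    szU a (a ^ e) ∈ Cfsg.Lie.Sz F e := by
  apply Subgroup.subset_closure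
  refine ⟨?_, ?_⟩
  · intro u v
    simp [szU, Umat, Cfsg.Lie.altForm4, Matrix.mulVec, dotProduct, Fin.sum_univ_four]
    rw [← sub_eq_zero]
    ring_nf
    reduce_mod_char!
  · ext i j
    have h3 : (a ^ 2) ^ e = (a ^ e) ^ 2 := by rw [← pow_mul, ← pow_mul, mul_comm]
    fin_cases i <;> fin_cases j <;> simp [szU, Umat, Cfsg.Lie.star4, Cfsg.Lie.pairOf, he, mul_pow, ha, h3]
    all_goals (rw [← sub_eq_zero]; ring_nf; try reduce_mod_char!)



theorem deg_le_of_nat {F : Type*} [Field F] {x N : F[X]} (hN : N ≠ 0) (h : x.natDegree ≤ N.natDegree) :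
    x.degree ≤ N.degree := by
  rw [degree_eq_natDegree hN]; exact degree_le_of_natDegree_le h

theorem dominant_lower {F : Type*} [Field F] (p r s N u v : F[X])
    (hN : 0 < N.natDegree) (hp : p.natDegree < N.natDegree) (hr : r.natDegree < N.natDegree)
    (hs : s.natDegree ≤ N.natDegree) (hu : u.natDegree ≤ N.natDegree) (hv : v.natDegree ≤ N.natDegree) :
    Dominant (!![1,0,0,0; p,1,0,0; r,s,1,0; N,u,v,1] : Matrix (Fin 4) (Fin 4) F[X]) 3 0 := by
  have hN0 : N ≠ 0 := by rintro rfl; simp at hN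
  refine ⟨by simpa using hN0, ?_, ?_⟩
  · intro i hi
    fin_cases i
    · exact degree_lt_degree (by simpa using hN)
    · exact degree_lt_degree (by simpa using hp)
    · exact degree_lt_degree (by simpa using hr)
    · exact absurd rfl hi
  · intro i j
    apply deg_le_of_nat (by simpa using hN0)
    fin_cases i <;> fin_cases j <;> simp [hp.le, hr.le, hs, hu, hv]

theorem Ui_mul_U' {R : Type*} [CommRing R] [CharP R 2] (a A b B : R) :
    Uimat a A * Umat b B =
      !![1,0,0,0; a+b,1,0,0; A*(a+b),A+B,1,0; a^2*A+b^2*B,(a+b)*B,a+b,1] := by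
  ext i j
  fin_cases i <;> fin_cases j <;> simp [Umat, Uimat, Matrix.mul_apply, Fin.sum_univ_four]
  all_goals (rw [← sub_eq_zero]; ring_nf; try reduce_mod_char!)

theorem dominant_UiU {F : Type*} [Field F] [CharP F 2] (e k l : ℕ) (hk : 0 < k) (hl : 0 < l) (hkl : k ≠ l) :
    Dominant (Uimat ((X : F[X]) ^ k) (X ^ (k * e)) * Umat (X ^ l) (X ^ (l * e))) 3 0 := by
  rw [Ui_mul_U']
  have e1 : ((X : F[X]) ^ k) ^ 2 * X ^ (k * e) = X ^ (2 * k + k * e) := by
    rw [← pow_mul, ← pow_add, mul_comm k 2]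
  have e2 : ((X : F[X]) ^ l) ^ 2 * X ^ (l * e) = X ^ (2 * l + l * e) := by
    rw [← pow_mul, ← pow_add, mul_comm l 2]
  rw [e1, e2]
  have hab : ((X : F[X]) ^ k + X ^ l).natDegree ≤ max k l := by
    refine le_trans (natDegree_add_le _ _) ?_
    simp
  have hAB : ((X : F[X]) ^ (k * e) + X ^ (l * e)).natDegree ≤ max (k * e) (l * e) := by
    refine le_trans (natDegree_add_le _ _) ?_
    simp
  have hr : ((X : F[X]) ^ (k * e) * (X ^ k + X ^ l)).natDegree ≤ k * e + max k l := by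
    refine le_trans natDegree_mul_le ?_
    rw [natDegree_X_pow]
    exact Nat.add_le_add_left hab _
  have hu : (((X : F[X]) ^ k + X ^ l) * X ^ (l * e)).natDegree ≤ max k l + l * e := by
    refine le_trans natDegree_mul_le ?_
    rw [natDegree_X_pow]
    exact Nat.add_le_add_right hab _
  rcases lt_or_gt_of_ne hkl with h | h
  · have hke : k * e ≤ l * e := Nat.mul_le_mul_right e h.le
    have hN : ((X : F[X]) ^ (2 * k + k * e) + X ^ (2 * l + l * e)).natDegree = 2 * l + l * e := by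
      rw [natDegree_add_eq_right_of_natDegree_lt, natDegree_X_pow]
      rw [natDegree_X_pow, natDegree_X_pow]; omega
    rw [max_eq_right h.le] at hab hr hu
    rw [max_eq_right hke] at hAB
    apply dominant_lower <;> rw [hN] <;> omega
  · have hke : l * e ≤ k * e := Nat.mul_le_mul_right e h.le
    have hN : ((X : F[X]) ^ (2 * k + k * e) + X ^ (2 * l + l * e)).natDegree = 2 * k + k * e := by
      rw [natDegree_add_eq_left_of_natDegree_lt, natDegree_X_pow]
      rw [natDegree_X_pow, natDegree_X_pow]; omega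
    rw [max_eq_left h.le] at hab hr hu
    rw [max_eq_left hke] at hAB
    apply dominant_lower <;> rw [hN] <;> omega

theorem dominant_U {F : Type*} [Field F] (e k : ℕ) (hk : 0 < k) :
    Dominant (Umat ((X : F[X]) ^ k) (X ^ (k * e))) 3 0 := by
  have e1 : ((X : F[X]) ^ k) ^ 2 * X ^ (k * e) = X ^ (2 * k + k * e) := by
    rw [← pow_mul, ← pow_add, mul_comm k 2]
  have e2 : ((X : F[X]) ^ k) * X ^ (k * e) = X ^ (k + k * e) := by
    rw [← pow_add]
  rw [Umat, e1, e2]
  apply dominant_lower <;> simp only [natDegree_X_pow, natDegree_zero] <;> omega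

theorem dominant_Ui {F : Type*} [Field F] (e k : ℕ) (hk : 0 < k) :
    Dominant (Uimat ((X : F[X]) ^ k) (X ^ (k * e))) 3 0 := by
  have e1 : ((X : F[X]) ^ k) ^ 2 * X ^ (k * e) = X ^ (2 * k + k * e) := by
    rw [← pow_mul, ← pow_add, mul_comm k 2]
  have e2 : ((X : F[X]) ^ k) * X ^ (k * e) = X ^ (k + k * e) := by
    rw [← pow_add]
  rw [Uimat, e1, e2]
  apply dominant_lower <;> simp only [natDegree_X_pow, natDegree_zero] <;> omega


theorem J_mulVec {R : Type*} [CommRing R] (z : Fin 4 → R) :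
    (Jmat : Matrix (Fin 4) (Fin 4) R).mulVec z = ![z 3, z 2, z 1, z 0] := by
  ext i
  fin_cases i <;> simp [Jmat, Matrix.mulVec, dotProduct, Fin.sum_univ_four]

theorem J_lead0 {F : Type*} [Field F] (z : Fin 4 → F[X]) (hz : z ∈ Lead (0 : Fin 4)) :
    (Jmat : Matrix (Fin 4) (Fin 4) F[X]).mulVec z ∈ Lead (3 : Fin 4) := by
  rw [J_mulVec]
  refine ⟨by simpa using hz.1, ?_⟩
  intro j hj
  fin_cases j
  · simpa using hz.2 3 (by decide)
  · simpa using hz.2 2 (by decide)
  · simpa using hz.2 1 (by decide)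
  · exact absurd rfl hj

theorem J_lead3 {F : Type*} [Field F] (z : Fin 4 → F[X]) (hz : z ∈ Lead (3 : Fin 4)) :
    (Jmat : Matrix (Fin 4) (Fin 4) F[X]).mulVec z ∈ Lead (0 : Fin 4) := by
  rw [J_mulVec]
  refine ⟨by simpa using hz.1, ?_⟩
  intro j hj
  fin_cases j
  · exact absurd rfl hj
  · simpa using hz.2 2 (by decide)
  · simpa using hz.2 1 (by decide)
  · simpa using hz.2 0 (by decide)

theorem base_Ui {F : Type*} [Field F] (e k : ℕ) (hk : 0 < k) :
    (Uimat ((X : F[X]) ^ k) (X ^ (k * e))).mulVec ![1, 0, 0, 1] ∈ Lead (3 : Fin 4) := by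
  have e1 : ((X : F[X]) ^ k) ^ 2 * X ^ (k * e) = X ^ (2 * k + k * e) := by
    rw [← pow_mul, ← pow_add, mul_comm k 2]
  have e2 : ((X : F[X]) ^ k) * X ^ (k * e) = X ^ (k + k * e) := by
    rw [← pow_add]
  have hv : (Uimat ((X : F[X]) ^ k) (X ^ (k * e))).mulVec ![1, 0, 0, 1] =
      ![1, X ^ k, X ^ (k + k * e), X ^ (2 * k + k * e) + 1] := by
    rw [Uimat, e1, e2]
    ext i
    fin_cases i <;> simp [Matrix.mulVec, dotProduct, Fin.sum_univ_four]
  have hd : ((X : F[X]) ^ (2 * k + k * e) + 1).natDegree = 2 * k + k * e := by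
    rw [natDegree_add_eq_left_of_natDegree_lt, natDegree_X_pow]
    rw [natDegree_X_pow, natDegree_one]; omega
  rw [hv]
  refine ⟨?_, ?_⟩
  · intro h0
    simp only [Matrix.cons_val] at h0
    rw [h0] at hd
    simp at hd
    omega
  · intro j hj
    fin_cases j
    · apply degree_lt_degree
      simp only [Matrix.cons_val, Fin.zero_eta, Matrix.cons_val_zero]
      rw [hd, natDegree_one]; omega
    · apply degree_lt_degree
      simp only [Matrix.cons_val, Fin.mk_one, Matrix.cons_val_one, Matrix.cons_val_zero]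
      rw [hd, natDegree_X_pow]; omega
    · apply degree_lt_degree
      simp only [Matrix.cons_val, Fin.reduceFinMk]
      rw [hd, natDegree_X_pow]; omega
    · exact absurd rfl hj

theorem entry_U {F : Type*} [Field F] (e k : ℕ) :
    EntryDegLE (Umat ((X : F[X]) ^ k) (X ^ (k * e))) (2 * k + k * e) := by
  have e1 : ((X : F[X]) ^ k) ^ 2 * X ^ (k * e) = X ^ (2 * k + k * e) := by
    rw [← pow_mul, ← pow_add, mul_comm k 2]
  have e2 : ((X : F[X]) ^ k) * X ^ (k * e) = X ^ (k + k * e) := by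
    rw [← pow_add]
  rw [Umat, e1, e2]
  intro i j
  fin_cases i <;> fin_cases j <;> simp <;> omega

theorem entry_Ui {F : Type*} [Field F] (e k : ℕ) :
    EntryDegLE (Uimat ((X : F[X]) ^ k) (X ^ (k * e))) (2 * k + k * e) := by
  have e1 : ((X : F[X]) ^ k) ^ 2 * X ^ (k * e) = X ^ (2 * k + k * e) := by
    rw [← pow_mul, ← pow_add, mul_comm k 2]
  have e2 : ((X : F[X]) ^ k) * X ^ (k * e) = X ^ (k + k * e) := by
    rw [← pow_add]
  rw [Uimat, e1, e2]
  intro i j
  fin_cases i <;> fin_cases j <;> simp <;> omega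

theorem entry_J {F : Type*} [Field F] : EntryDegLE (Jmat : Matrix (Fin 4) (Fin 4) F[X]) 0 := by
  intro i j
  fin_cases i <;> fin_cases j <;> simp [Jmat]

theorem szJ_inv {R : Type*} [CommRing R] : (szJ : Matrix.GeneralLinearGroup (Fin 4) R)⁻¹ = szJ := by
  apply Units.ext; rfl

/-- the generators, over an arbitrary ring of characteristic 2. -/
def gen {R : Type*} [CommRing R] [CharP R 2] (e : ℕ) (t : R) (i : ℕ) :
    Matrix.GeneralLinearGroup (Fin 4) R :=
  szU (t ^ (i + 1)) (t ^ ((i + 1) * e)) * (szJ * (szU (t ^ (i + 1)) (t ^ ((i + 1) * e)))⁻¹ * szJ)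

theorem key {F : Type*} [Field F] [CharP F 2] (e : ℕ) (w : FreeGroup ℕ) (hw : w ≠ 1) :
    ∃ d : F[X], d ≠ 0 ∧
      d.natDegree ≤ (w.toWord.map (fun x => (e + 2) * (2 * (x.1 + 1)))).sum ∧
      ∀ t : F, d.eval t =
        ((FreeGroup.lift (gen e t) w : Matrix.GeneralLinearGroup (Fin 4) F) : Matrix (Fin 4) (Fin 4) F) 3 0 +
        ((FreeGroup.lift (gen e t) w : Matrix.GeneralLinearGroup (Fin 4) F) : Matrix (Fin 4) (Fin 4) F) 3 3 -
        ((FreeGroup.lift (gen e t) w : Matrix.GeneralLinearGroup (Fin 4) F) : Matrix (Fin 4) (Fin 4) F) 0 0 -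
        ((FreeGroup.lift (gen e t) w : Matrix.GeneralLinearGroup (Fin 4) F) : Matrix (Fin 4) (Fin 4) F) 0 3 := by
  classical
  let _ := glAction (Fin 4) F[X]
  set U : ℕ → Matrix.GeneralLinearGroup (Fin 4) F[X] :=
    fun i => szU (X ^ (i + 1)) (X ^ ((i + 1) * e)) with hU
  set T : ℕ → Matrix.GeneralLinearGroup (Fin 4) F[X] := fun i => szJ * (U i)⁻¹ * szJ with hT
  set z₀ : Fin 4 → F[X] := ![1, 0, 0, 1] with hz₀
  have sm : ∀ (g : Matrix.GeneralLinearGroup (Fin 4) F[X]) (z : Fin 4 → F[X]),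
      g • z = (g : Matrix (Fin 4) (Fin 4) F[X]).mulVec z := fun _ _ => rfl
  have hJ0 : ∀ z ∈ Lead (0 : Fin 4), (szJ : Matrix.GeneralLinearGroup (Fin 4) F[X]) • z ∈
      Lead (3 : Fin 4) := fun z hz => by rw [sm]; exact J_lead0 z hz
  have hJ3 : ∀ z ∈ Lead (3 : Fin 4), (szJ : Matrix.GeneralLinearGroup (Fin 4) F[X]) • z ∈
      Lead (0 : Fin 4) := fun z hz => by rw [sm]; exact J_lead3 z hz
  have hU1 : ∀ i, ∀ z ∈ Lead (0 : Fin 4), U i • z ∈ Lead (3 : Fin 4) :=
    fun i z hz => by rw [sm]; exact (dominant_U e (i + 1) (Nat.succ_pos i)).mulVec_mem hz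
  have hU2 : ∀ i, ∀ z ∈ Lead (0 : Fin 4), (U i)⁻¹ • z ∈ Lead (3 : Fin 4) :=
    fun i z hz => by rw [sm]; exact (dominant_Ui e (i + 1) (Nat.succ_pos i)).mulVec_mem hz
  have hU3 : ∀ i j, i ≠ j → ∀ z ∈ Lead (0 : Fin 4), ((U i)⁻¹ * U j) • z ∈ Lead (3 : Fin 4) :=
    fun i j hij z hz => by
      rw [sm]
      exact (dominant_UiU e (i + 1) (j + 1) (Nat.succ_pos i) (Nat.succ_pos j)
        (fun h => hij (Nat.succ_injective h))).mulVec_mem hz
  have hJz : (szJ : Matrix.GeneralLinearGroup (Fin 4) F[X]) • z₀ = z₀ := by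
    rw [sm]
    change (Jmat : Matrix (Fin 4) (Fin 4) F[X]).mulVec z₀ = z₀
    rw [J_mulVec, hz₀]
    ext i; fin_cases i <;> simp
  have hbase : ∀ i, (U i)⁻¹ • z₀ ∈ Lead (3 : Fin 4) := fun i => by
    rw [sm]; exact base_Ui e (i + 1) (Nat.succ_pos i)
  have hpp := pingpong_UT U T (Lead (3 : Fin 4)) (Lead (0 : Fin 4)) z₀ hU1 hU2 hU3
    (fun i z hz => by
      simp only [hT, mul_smul]
      exact hJ3 _ (hU2 i _ (hJ3 z hz)))
    (fun i z hz => by
      simp only [hT, mul_inv_rev, inv_inv, szJ_inv, mul_smul]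
      exact hJ3 _ (hU1 i _ (hJ3 z hz)))
    (fun i j hij z hz => by
      have : T i * (T j)⁻¹ = szJ * ((U i)⁻¹ * U j) * szJ := by
        simp only [hT, mul_inv_rev, inv_inv, szJ_inv]
        have hJJ : (szJ : Matrix.GeneralLinearGroup (Fin 4) F[X]) * szJ = 1 := by
          apply Units.ext; exact J_mul_J
        calc szJ * (U i)⁻¹ * szJ * (szJ * (U j * szJ))
            = szJ * (U i)⁻¹ * (szJ * szJ) * (U j * szJ) := by group
          _ = szJ * ((U i)⁻¹ * U j) * szJ := by rw [hJJ]; group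
      rw [this]
      simp only [mul_smul]
      have := hU3 i j hij _ (hJ3 z hz)
      rw [mul_smul] at this
      exact hJ3 _ this)
    (fun i => by
      simp only [hT, mul_smul, hJz]
      exact hJ3 _ (hbase i))
    hbase w hw
  set W : Matrix.GeneralLinearGroup (Fin 4) F[X] := FreeGroup.lift (fun i => U i * T i) w with hW
  have hv0 : (W : Matrix (Fin 4) (Fin 4) F[X]).mulVec z₀ 0 =
      (W : Matrix (Fin 4) (Fin 4) F[X]) 0 0 + (W : Matrix (Fin 4) (Fin 4) F[X]) 0 3 := by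
    simp [hz₀, Matrix.mulVec, dotProduct, Fin.sum_univ_four]
  have hv3 : (W : Matrix (Fin 4) (Fin 4) F[X]).mulVec z₀ 3 =
      (W : Matrix (Fin 4) (Fin 4) F[X]) 3 0 + (W : Matrix (Fin 4) (Fin 4) F[X]) 3 3 := by
    simp [hz₀, Matrix.mulVec, dotProduct, Fin.sum_univ_four]
  have hdeg : EntryDegLE (W : Matrix (Fin 4) (Fin 4) F[X])
      ((w.toWord.map (fun x => (e + 2) * (2 * (x.1 + 1)))).sum) := by
    refine entryDegLE_lift (fun i => U i * T i) (fun i => (e + 2) * (2 * (i + 1))) ?_ ?_ w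
    · intro i
      have h : (e + 2) * (2 * (i + 1)) =
          (2 * (i + 1) + (i + 1) * e) + ((0 + (2 * (i + 1) + (i + 1) * e)) + 0) := by ring
      rw [h]
      simp only [hT, Units.val_mul]
      exact (entry_U e (i + 1)).mul ((entry_J.mul (entry_Ui e (i + 1))).mul entry_J)
    · intro i
      have h : (e + 2) * (2 * (i + 1)) =
          (0 + ((2 * (i + 1) + (i + 1) * e) + 0)) + (2 * (i + 1) + (i + 1) * e) := by ring
      rw [h]
      simp only [hT, mul_inv_rev, inv_inv, szJ_inv, Units.val_mul]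
      exact (entry_J.mul ((entry_U e (i + 1)).mul entry_J)).mul (entry_Ui e (i + 1))
  refine ⟨(W : Matrix (Fin 4) (Fin 4) F[X]) 3 0 + (W : Matrix (Fin 4) (Fin 4) F[X]) 3 3 -
      (W : Matrix (Fin 4) (Fin 4) F[X]) 0 0 - (W : Matrix (Fin 4) (Fin 4) F[X]) 0 3, ?_, ?_, ?_⟩
  · intro h0
    have heq : (W : Matrix (Fin 4) (Fin 4) F[X]).mulVec z₀ 0 =
        (W : Matrix (Fin 4) (Fin 4) F[X]).mulVec z₀ 3 := by
      rw [hv0, hv3]; linear_combination -h0
    rw [sm] at hpp
    rcases hpp with h | h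
    · have := h.2 0 (by decide)
      rw [heq] at this
      exact lt_irrefl _ this
    · have := h.2 3 (by decide)
      rw [heq] at this
      exact lt_irrefl _ this
  · refine le_trans (natDegree_sub_le _ _) (max_le ?_ (hdeg 0 3))
    refine le_trans (natDegree_sub_le _ _) (max_le ?_ (hdeg 0 0))
    exact le_trans (natDegree_add_le _ _) (max_le (hdeg 3 0) (hdeg 3 3))
  · intro t
    have hmU : ∀ i, Matrix.GeneralLinearGroup.map (evalRingHom t) (U i) =
        szU (t ^ (i + 1)) (t ^ ((i + 1) * e)) := by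
      intro i
      apply Units.ext
      ext a b
      fin_cases a <;> fin_cases b <;> simp [hU, szU, Umat, Matrix.GeneralLinearGroup.map]
    have hmJ : Matrix.GeneralLinearGroup.map (evalRingHom t)
        (szJ : Matrix.GeneralLinearGroup (Fin 4) F[X]) = szJ := by
      apply Units.ext
      ext a b
      fin_cases a <;> fin_cases b <;> simp [szJ, Jmat, Matrix.GeneralLinearGroup.map]
    have h1 : Matrix.GeneralLinearGroup.map (evalRingHom t) W = FreeGroup.lift (gen e t) w := by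
      rw [hW, map_lift]
      congr 2
      funext i
      simp only [hT, map_mul, map_inv, hmU, hmJ, gen]
    have h2 : ∀ a b, ((FreeGroup.lift (gen e t) w : Matrix.GeneralLinearGroup (Fin 4) F) :
        Matrix (Fin 4) (Fin 4) F) a b = ((W : Matrix (Fin 4) (Fin 4) F[X]) a b).eval t := by
      intro a b
      rw [← h1]
      simp [Matrix.GeneralLinearGroup.map]
    simp only [h2, eval_sub, eval_add]

theorem charP_two_of_card {F : Type*} [Field F] [Fintype F] (n : ℕ)
    (hF : Fintype.card F = 2 ^ n) : CharP F 2 := by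
  obtain ⟨p, hp⟩ := CharP.exists F
  obtain ⟨k, hpp, hk⟩ := FiniteField.card F p
  have h2 : p ∣ 2 ^ n := by
    rw [← hF, hk]
    exact dvd_pow_self p k.ne_zero
  have : p = 2 := (Nat.prime_dvd_prime_iff_eq hpp Nat.prime_two).mp (hpp.dvd_of_dvd_pow h2)
  subst this
  exact hp

/-- A non-trivial law holds in only finitely many Suzuki groups: for every non-trivial element w of the free group on countably many generators there is N such that for q = 2^(2m+1) with m ≥ N some substitution of elements of the Suzuki group over the field with q elements into w is not the identity. -/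
theorem result (w : FreeGroup ℕ) (hw : w ≠ 1) :
    ∃ N : ℕ, ∀ (F : Type*) [Field F] [Fintype F] (m : ℕ), 1 ≤ m → N ≤ m →
      Fintype.card F = 2 ^ (2 * m + 1) →
      ∃ f : ℕ → ↥(Cfsg.Lie.Sz F (2 ^ (m + 1))), FreeGroup.lift f w ≠ 1 := by
  set C : ℕ := (w.toWord.map (fun x => 2 * (x.1 + 1))).sum with hC
  refine ⟨2 * C + 1, ?_⟩
  intro F _ _ m _ hN hF
  have hchar : CharP F 2 := charP_two_of_card _ hF
  set e : ℕ := 2 ^ (m + 1) with he
  have he0 : e ≠ 0 := by positivity
  obtain ⟨d, hd0, hdeg, hev⟩ := key (F := F) e w hw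
  rw [List.sum_map_mul_left, ← hC] at hdeg
  have hlt : (e + 2) * C < Fintype.card F := by
    rw [hF]
    have h1 : m < 2 ^ m := Nat.lt_two_pow_self
    have h2 : 2 ≤ e := by
      rw [he, pow_succ]
      have : 1 ≤ 2 ^ m := Nat.one_le_two_pow
      omega
    have h3 : 2 ^ (2 * m + 1) = e * 2 ^ m := by
      rw [he, ← pow_add]; congr 1; omega
    rw [h3]
    calc (e + 2) * C ≤ (e + e) * C := Nat.mul_le_mul_right _ (by omega)
      _ = e * (2 * C) := by ring
      _ < e * 2 ^ m := Nat.mul_lt_mul_of_pos_left (by omega) (by omega)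
  obtain ⟨t, ht⟩ := exists_eval_ne_zero_of_natDegree_lt_card d hd0 (by
    rw [Cardinal.mk_fintype]
    exact_mod_cast lt_of_le_of_lt hdeg hlt)
  have hpow : ∀ x : F, (x ^ e) ^ e = x ^ 2 := by
    intro x
    have h3 : e * e = Fintype.card F * 2 := by
      rw [hF, he, ← pow_add, ← pow_succ]; congr 1; omega
    rw [← pow_mul, h3, pow_mul, FiniteField.pow_card]
  have hmem : ∀ i, gen e t i ∈ Cfsg.Lie.Sz F e := by
    intro i
    have hu : szU (t ^ (i + 1)) (t ^ ((i + 1) * e)) ∈ Cfsg.Lie.Sz F e := by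
      rw [pow_mul]
      exact szU_mem e he0 _ (hpow _)
    have hj : (szJ : Matrix.GeneralLinearGroup (Fin 4) F) ∈ Cfsg.Lie.Sz F e := szJ_mem e he0
    exact mul_mem hu (mul_mem (mul_mem hj (inv_mem hu)) hj)
  refine ⟨fun i => ⟨gen e t i, hmem i⟩, ?_⟩
  intro h1
  have h2 := congrArg (Cfsg.Lie.Sz F e).subtype h1
  rw [map_lift, map_one] at h2
  have h3 : FreeGroup.lift (gen e t) w = 1 := h2
  apply ht
  rw [hev t, h3]
  simp

end Cfsg.Agent.S2354
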