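import Cfsg.Statements.S2355
import Cfsg.Agent.Lib.Helper39.Laws.Unitary3

set_option autoImplicit false
open Cfsg

namespace Cfsg.Agent.S2355

open Cfsg.Agent.Lib.Helper39
open scoped commutatorElement Matrix

/-- permutation matrices as a homomorphism to `GL`. -/
def permGL (m : ℕ) (F : Type*) [Field F] :
    Equiv.Perm (Fin m) →* Matrix.GeneralLinearGroup (Fin m) F :=
  (Matrix.permMatrixHom (n := Fin m) (R := F)).toHomUnits

theorem permGL_mulVec (m : ℕ) (F : Type*) [Field F] (σ : Equiv.Perm (Fin m)) (v : Fin m → F) :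
    (permGL m F σ : Matrix (Fin m) (Fin m) F) *ᵥ v = v ∘ (σ⁻¹ : Equiv.Perm (Fin m)) :=
  Matrix.permMatrix_mulVec _

theorem permGL_injective (m : ℕ) (F : Type*) [Field F] : Function.Injective (permGL m F) := by
  intro σ τ h
  have key : ∀ j, (σ⁻¹ : Equiv.Perm (Fin m)) j = (τ⁻¹ : Equiv.Perm (Fin m)) j := by
    intro j
    have h1 := permGL_mulVec m F σ (Pi.single ((σ⁻¹ : Equiv.Perm (Fin m)) j) 1)
    rw [h, permGL_mulVec] at h1
    have h2 := congrFun h1 j
    simp only [Function.comp_apply, Pi.single_eq_same] at h2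
    by_contra hne
    rw [Pi.single_eq_of_ne (fun h => hne h.symm)] at h2
    exact zero_ne_one h2
  have : σ⁻¹ = τ⁻¹ := Equiv.ext key
  exact inv_injective this

theorem NC_GL (v : FreeGroup ℕ) (hv : v ≠ 1) :
    ∃ M B : ℕ, ∀ (F : Type) [Field F] [Fintype F] (m : ℕ),
      (M ≤ m ∨ (2 ≤ m ∧ B ≤ Fintype.card F)) → NC v (Matrix.GeneralLinearGroup (Fin m) F) := by
  obtain ⟨B, hB⟩ := NC_GL2.{0} v hv
  obtain ⟨M, hM⟩ := NC_perm v hv
  refine ⟨M, B, ?_⟩
  intro F _ _ m h
  rcases h with h | ⟨h2, hb⟩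
  · exact (hM m h).map (permGL m F) (permGL_injective m F)
  · obtain ⟨φ, hφ⟩ := exists_GL_embedding (R := F) (Fin.castLEEmb h2)
    exact (hB F hb).map φ hφ

theorem herm_perm {F : Type*} [Field F] (n q : ℕ) (σ : Equiv.Perm (Fin n)) (u x : Fin n → F) :
    Cfsg.hermForm n F q ((permGL n F σ : Matrix (Fin n) (Fin n) F) *ᵥ u)
      ((permGL n F σ : Matrix (Fin n) (Fin n) F) *ᵥ x) = Cfsg.hermForm n F q u x := by
  rw [permGL_mulVec, permGL_mulVec]
  exact Equiv.sum_comp (σ⁻¹ : Equiv.Perm (Fin n)) (fun i => u i * x i ^ q)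

theorem not_law_PSU_perm {w : FreeGroup ℕ} (k : ℕ) {F : Type*} [Field F] (n q : ℕ)
    (h : NC ⁅w, FreeGroup.of k⁆ (Equiv.Perm (Fin n))) :
    ∃ f : ℕ → Cfsg.PSU n F q, FreeGroup.lift f w ≠ 1 := by
  obtain ⟨a, b, hab⟩ := h
  refine not_law_PSU k q (fun i => permGL n F (a i)) (fun i => permGL n F (b i))
    (fun i => herm_perm n q (a i)) (fun i => herm_perm n q (b i)) ?_
  have : (fun i => ⁅permGL n F (a i), permGL n F (b i)⁆) = fun i => permGL n F ⁅a i, b i⁆ := by
    funext i; rw [map_commutatorElement]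
  rw [this, ← map_lift]
  intro h1
  exact hab (permGL_injective n F (by rw [h1, map_one]))

theorem pow_bound {a b Q D : ℕ} (ha : a ≤ Q) (hb : b ≤ D) (hQ : 0 < Q) :
    a ^ (b * b) ≤ Q ^ (D * D) :=
  le_trans (Nat.pow_le_pow_left ha _) (Nat.pow_le_pow_right hQ (Nat.mul_le_mul hb hb))

/-- A non-trivial law is satisfied by only finitely many finite simple groups that are alternating or classical, up to isomorphism: for every non-trivial element w of the free group on countably many generators there is a bound N such that every alternating group of degree ≥ 5 and every simple classical group (linear, symplectic, unitary or orthogonal, in this problem's sense) in which w is a law has order at most N. -/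
theorem result (w : FreeGroup ℕ) (hw : w ≠ 1) :
    ∃ N : ℕ, ∀ (G : Type*) [Group G] [Finite G],
      (Cfsg.IsAlternating G ∨ Cfsg.IsPSL G ∨ Cfsg.IsPSp G ∨ Cfsg.IsPSU G ∨ Cfsg.IsPOmegaOdd G ∨
          Cfsg.IsPOmegaPlus G ∨ Cfsg.IsPOmegaMinus G) →
      (∀ f : ℕ → G, FreeGroup.lift f w = 1) → Nat.card G ≤ N := by
  obtain ⟨k, hv⟩ := exists_commutator_ne_one w hw
  obtain ⟨Nalt, hNalt⟩ := Cfsg.Agent.S2352.result w hw
  obtain ⟨M, B, hMB⟩ := NC_GL _ hv
  obtain ⟨Mp, hMp⟩ := NC_perm _ hv
  obtain ⟨Bu, hBu⟩ := not_law_PSU_large.{0} w k hv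
  set Q : ℕ := B + Bu ^ 2 + 1 with hQ
  set D : ℕ := 2 * M + Mp + 3 with hD
  refine ⟨max (Nalt.factorial) (Q ^ (D * D)), ?_⟩
  intro G _ _ hfam hlaw
  have hcontra : ∀ {H : Type} [Group H], (G ≃* H) → ¬ ∃ f : ℕ → H, FreeGroup.lift f w ≠ 1 := by
    intro H _ e h
    obtain ⟨f, hf⟩ := not_law_of_mulEquiv e h
    exact hf (hlaw f)
  rcases hfam with h | h | h | h | h | h | h
  · obtain ⟨n, -, ⟨e⟩⟩ := h
    have hn : n < Nalt := by
      by_contra hcon
      exact hcontra e (hNalt n (not_lt.mp hcon))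
    refine le_trans ?_ (le_max_left _ _)
    rw [Nat.card_congr e.toEquiv]
    calc Nat.card (alternatingGroup (Fin n)) ≤ Nat.card (Equiv.Perm (Fin n)) :=
          Nat.card_le_card_of_injective _ Subtype.val_injective
      _ = n.factorial := by
          rw [Nat.card_eq_fintype_card, Fintype.card_perm, Fintype.card_fin]
      _ ≤ Nalt.factorial := Nat.factorial_le hn.le
  · obtain ⟨F, _, _, n, hn2, -, ⟨e⟩⟩ := h
    have hnot : ¬ (M ≤ n ∨ (2 ≤ n ∧ B ≤ Fintype.card F)) := fun hc =>
      hcontra e (not_law_PSL k (hMB F n hc))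
    push Not at hnot
    refine le_trans ?_ (le_max_right _ _)
    rw [Nat.card_congr e.toEquiv]
    refine le_trans (card_quotient_center_le (ι := Fin n) (F := F) Subtype.val
      Subtype.val_injective) (pow_bound ?_ ?_ (by omega))
    · have := hnot.2 hn2; omega
    · rw [Fintype.card_fin]; omega
  · obtain ⟨F, _, _, m, hm2, -, ⟨e⟩⟩ := h
    have hnot : ¬ (M ≤ m ∨ (2 ≤ m ∧ B ≤ Fintype.card F)) := fun hc =>
      hcontra e (not_law_PSp k (hMB F m hc))
    push Not at hnot
    refine le_trans ?_ (le_max_right _ _)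
    rw [Nat.card_congr e.toEquiv]
    refine le_trans (card_quotient_center_le (ι := Fin m ⊕ Fin m) (F := F) Subtype.val
      Subtype.val_injective) (pow_bound ?_ ?_ (by omega))
    · have := hnot.2 hm2; omega
    · rw [Fintype.card_sum, Fintype.card_fin]; omega
  · obtain ⟨F, _, _, n, q, hF, hn3, -, ⟨e⟩⟩ := h
    have h1 : n < Mp := by
      by_contra hcon
      exact hcontra e (not_law_PSU_perm k n q (hMp n (not_lt.mp hcon)))
    have h2 : q < Bu := by
      by_contra hcon
      exact hcontra e (hBu F n q hF hn3 (not_lt.mp hcon))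
    refine le_trans ?_ (le_max_right _ _)
    rw [Nat.card_congr e.toEquiv]
    refine le_trans (card_quotient_center_le (ι := Fin n) (F := F)
      (fun s : Cfsg.SU n F q => ((s : Matrix.SpecialLinearGroup (Fin n) F) :
        Matrix (Fin n) (Fin n) F))
      (Subtype.val_injective.comp Subtype.val_injective)) (pow_bound ?_ ?_ (by omega))
    · rw [hF]
      have : q ^ 2 ≤ Bu ^ 2 := Nat.pow_le_pow_left h2.le 2
      omega
    · rw [Fintype.card_fin]; omega
  · obtain ⟨F, _, _, m, hm3, -, ⟨e⟩⟩ := h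
    have hnot : ¬ (M ≤ m ∨ (2 ≤ m ∧ B ≤ Fintype.card F)) := fun hc =>
      hcontra e (not_law_POmegaOdd k (hMB F m hc))
    push Not at hnot
    refine le_trans ?_ (le_max_right _ _)
    rw [Nat.card_congr e.toEquiv]
    refine le_trans (card_quotient_center_le (ι := Unit ⊕ (Fin m ⊕ Fin m)) (F := F)
      (fun s : Cfsg.Omega F (Cfsg.quadFormOdd m F) =>
        (((s : Cfsg.isometryGroup F (Cfsg.quadFormOdd m F)) :
          Matrix.GeneralLinearGroup (Unit ⊕ (Fin m ⊕ Fin m)) F) : Matrix _ _ F))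
      (Units.val_injective.comp (Subtype.val_injective.comp Subtype.val_injective)))
      (pow_bound ?_ ?_ (by omega))
    · have := hnot.2 (by omega); omega
    · simp only [Fintype.card_sum, Fintype.card_fin, Fintype.card_unit]; omega
  · obtain ⟨F, _, _, m, hm4, ⟨e⟩⟩ := h
    have hnot : ¬ (M ≤ m ∨ (2 ≤ m ∧ B ≤ Fintype.card F)) := fun hc =>
      hcontra e (not_law_POmegaPlus k (hMB F m hc))
    push Not at hnot
    refine le_trans ?_ (le_max_right _ _)
    rw [Nat.card_congr e.toEquiv]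
    refine le_trans (card_quotient_center_le (ι := Fin m ⊕ Fin m) (F := F)
      (fun s : Cfsg.Omega F (Cfsg.quadFormPlus m F) =>
        (((s : Cfsg.isometryGroup F (Cfsg.quadFormPlus m F)) :
          Matrix.GeneralLinearGroup (Fin m ⊕ Fin m) F) : Matrix _ _ F))
      (Units.val_injective.comp (Subtype.val_injective.comp Subtype.val_injective)))
      (pow_bound ?_ ?_ (by omega))
    · have := hnot.2 (by omega); omega
    · simp only [Fintype.card_sum, Fintype.card_fin]; omega
  · obtain ⟨F, _, _, m, a, b, hm4, -, ⟨e⟩⟩ := h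
    have hnot : ¬ (M ≤ m - 1 ∨ (2 ≤ m - 1 ∧ B ≤ Fintype.card F)) := fun hc =>
      hcontra e (not_law_POmegaMinus k a b (hMB F (m - 1) hc))
    push Not at hnot
    refine le_trans ?_ (le_max_right _ _)
    rw [Nat.card_congr e.toEquiv]
    refine le_trans (card_quotient_center_le (ι := (Fin (m - 1) ⊕ Fin (m - 1)) ⊕ Fin 2) (F := F)
      (fun s : Cfsg.Omega F (Cfsg.quadFormMinus (m - 1) F a b) =>
        (((s : Cfsg.isometryGroup F (Cfsg.quadFormMinus (m - 1) F a b)) :
          Matrix.GeneralLinearGroup ((Fin (m - 1) ⊕ Fin (m - 1)) ⊕ Fin 2) F) : Matrix _ _ F))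
      (Units.val_injective.comp (Subtype.val_injective.comp Subtype.val_injective)))
      (pow_bound ?_ ?_ (by omega))
    · have := hnot.2 (by omega); omega
    · simp only [Fintype.card_sum, Fintype.card_fin]; omega

end Cfsg.Agent.S2355
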