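import Cfsg.Statements.S2360
import Cfsg.Agent.Lib.Helper62.SU3Invol

set_option autoImplicit false
open Cfsg

namespace Cfsg.Agent.S2360

open Cfsg.Agent.Lib.Helper62 Cfsg.Agent.Lib.Helper5 Cfsg.Agent.Lib.Helper13

/-- Let q be odd, F the field with q² elements and S = SU_3(F) (determinant-one isometries of the standard Hermitian form). Then all involutions of S are conjugate; there are exactly q²(q²−q+1) of them; the centralizer of an involution has order q(q+1)(q²−1), the order of the full unitary group of degree 2; and for two distinct commuting involutions t and x there is exactly one further involution commuting with both. -/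
theorem result {F : Type*} [Field F] [Fintype F] {q : ℕ} (hq : Odd q)
    (hF : Fintype.card F = q ^ 2) (t : ↥(Cfsg.SU 3 F q)) (ht : t ≠ 1) (ht2 : t * t = 1) :
    (∀ x : ↥(Cfsg.SU 3 F q), x ≠ 1 → x * x = 1 → ∃ g : ↥(Cfsg.SU 3 F q), g * t * g⁻¹ = x) ∧
    Nat.card {x : ↥(Cfsg.SU 3 F q) // x ≠ 1 ∧ x * x = 1} = q ^ 2 * (q ^ 2 - q + 1) ∧
    Nat.card ↥(Subgroup.centralizer ({t} : Set ↥(Cfsg.SU 3 F q))) = q * (q + 1) * (q ^ 2 - 1) ∧
    ∀ x : ↥(Cfsg.SU 3 F q), x ≠ 1 → x * x = 1 → x ≠ t → Commute t x →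
      Nat.card {y : ↥(Cfsg.SU 3 F q) // y ≠ 1 ∧ y * y = 1 ∧ y ≠ t ∧ y ≠ x ∧ Commute t y ∧ Commute x y} = 1 := by
  classical
  have hq2 := two_le_of_card_sq hF
  have h2 : (2 : F) ≠ 0 := two_ne_zero_of_odd_card (by rw [hF]; exact hq.pow)
  have hconj : ∀ x : ↥(Cfsg.SU 3 F q), x ≠ 1 → x * x = 1 →
      ∃ g : ↥(Cfsg.SU 3 F q), g * t * g⁻¹ = x := by
    intro x hx hx2
    obtain ⟨g₁, hg₁⟩ := su3_invol_conj_dSU hF h2 t ht ht2
    obtain ⟨g₂, hg₂⟩ := su3_invol_conj_dSU hF h2 x hx hx2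
    refine ⟨g₂ * g₁⁻¹, ?_⟩
    rw [← hg₁, ← hg₂]; group
  have hcent : Nat.card ↥(Subgroup.centralizer ({t} : Set ↥(Cfsg.SU 3 F q)))
      = q * (q + 1) * (q ^ 2 - 1) := by
    obtain ⟨g₁, hg₁⟩ := su3_invol_conj_dSU hF h2 t ht ht2
    rw [← hg₁, card_centralizer_conj, card_centralizer_dSU hF h2, card_GU2 hF]
    ring
  refine ⟨hconj, ?_, hcent, ?_⟩
  · have hfin : Finite (Cfsg.SU 3 F q) := inferInstance
    have h1 := Cfsg.Agent.Lib.Helper4.card_conj_mul_card_centralizer t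
    have e : {x : ↥(Cfsg.SU 3 F q) // x ≠ 1 ∧ x * x = 1} ≃ {v : ↥(Cfsg.SU 3 F q) // IsConj t v} :=
      Equiv.subtypeEquivRight (fun v => by
        rw [isConj_iff]
        constructor
        · rintro ⟨h, h'⟩; exact hconj v h h'
        · rintro ⟨g, rfl⟩
          refine ⟨?_, ?_⟩
          · intro h
            apply ht
            calc t = g⁻¹ * (g * t * g⁻¹) * g := by group
              _ = 1 := by rw [h]; group
          · calc g * t * g⁻¹ * (g * t * g⁻¹) = g * (t * t) * g⁻¹ := by group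
              _ = 1 := by rw [ht2]; group)
    rw [Nat.card_congr e]
    have h3 := card_SU3 hF
    rw [← h1, hcent] at h3
    set N := Nat.card {v : ↥(Cfsg.SU 3 F q) // IsConj t v} with hN
    obtain ⟨k, rfl⟩ : ∃ k, q = k + 2 := ⟨q - 2, by omega⟩
    have e1 : (k + 2) ^ 2 - 1 = (k + 1) * (k + 3) := by
      have : (k + 2) ^ 2 = (k + 1) * (k + 3) + 1 := by ring
      omega
    have e2 : (k + 2) ^ 2 - (k + 2) + 1 = k ^ 2 + 3 * k + 3 := by
      have : (k + 2) ^ 2 = k ^ 2 + 3 * k + 2 + (k + 2) := by ring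
      omega
    rw [e1] at h3
    rw [e2]
    have hpos : 0 < (k + 2 + 1) * ((k + 2) * (k + 2 + 1) * ((k + 1) * (k + 3))) := by positivity
    apply Nat.eq_of_mul_eq_mul_left hpos
    rw [show (k + 2 + 1) * ((k + 2) * (k + 2 + 1) * ((k + 1) * (k + 3))) * N
      = (k + 2 + 1) * (N * ((k + 2) * (k + 2 + 1) * ((k + 1) * (k + 3)))) by ring, h3]
    ring
  · intro x hx hx2 hxt hc
    have hmem : (t * x ≠ 1 ∧ (t * x) * (t * x) = 1 ∧ t * x ≠ t ∧ t * x ≠ x ∧ Commute t (t * x) ∧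
        Commute x (t * x)) := by
      refine ⟨?_, ?_, ?_, ?_, ?_, ?_⟩
      · intro h
        apply hxt
        calc x = (t * t) * x := by rw [ht2, one_mul]
          _ = t * (t * x) := by rw [mul_assoc]
          _ = t := by rw [h, mul_one]
      · calc t * x * (t * x) = t * (x * t) * x := by group
          _ = t * (t * x) * x := by rw [hc.eq]
          _ = (t * t) * (x * x) := by group
          _ = 1 := by rw [ht2, hx2, one_mul]
      · intro h; exact hx (mul_left_cancel (h.trans (mul_one t).symm))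
      · intro h; exact ht (mul_right_cancel (h.trans (one_mul x).symm))
      · exact (Commute.refl t).mul_right hc
      · exact hc.symm.mul_right (Commute.refl x)
    rw [Nat.card_eq_one_iff_unique]
    refine ⟨⟨?_⟩, ⟨⟨t * x, hmem⟩⟩⟩
    have huniq : ∀ y : {y : ↥(Cfsg.SU 3 F q) // y ≠ 1 ∧ y * y = 1 ∧ y ≠ t ∧ y ≠ x ∧ Commute t y ∧
        Commute x y}, y.1 = t * x := by
      rintro ⟨y, hy1, hy2, hyt, hyx, hty, hxy⟩
      apply SU_ext
      have cv : ∀ {a b : ↥(Cfsg.SU 3 F q)}, a = b → a.1.1 = b.1.1 := fun h => by rw [h]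
      exact sl3_third_invol h2 t.1.1 x.1.1 y.1.1 (cv ht2) (cv hx2) (cv hy2) t.1.2 x.1.2 y.1.2
        (fun h => ht (SU_ext h)) (fun h => hx (SU_ext h)) (fun h => hy1 (SU_ext h))
        (fun h => hxt (SU_ext h)) (fun h => hyt (SU_ext h)) (fun h => hyx (SU_ext h))
        (cv hc.eq) (cv hty.eq) (cv hxy.eq)
    intro a b
    exact Subtype.ext ((huniq a).trans (huniq b).symm)

end Cfsg.Agent.S2360
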