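import Cfsg.Statements.S2356
import Cfsg.Agent.Lib.Helper62.SU3Graph
import Cfsg.Agent.S2360

set_option autoImplicit false
open Cfsg

namespace Cfsg.Agent.S2356

open Cfsg.Agent.Lib.Helper62 Cfsg.Agent.Lib.Helper5 Cfsg.Agent.Lib.Helper13

/-- Let q be odd, F the field with q² elements, S = SU_3(F) (determinant-one isometries of the standard Hermitian form) and t an involution of S. Then: exactly q(q−1) involutions other than t commute with t; exactly q(q−2)(q²−1) involutions do not commute with t but commute with some involution commuting with t; exactly (q+1)(q²−1) involutions x do not commute with t and admit no involution commuting with both t and x; and every involution can be reached from t in at most three steps, each step going to an involution that commutes with the previous one (the commuting involution graph is connected of diameter 3). -/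
theorem result {F : Type*} [Field F] [Fintype F] {q : ℕ} (hq : Odd q)
    (hF : Fintype.card F = q ^ 2) (t : ↥(Cfsg.SU 3 F q)) (ht : t ≠ 1) (ht2 : t * t = 1) :
    Nat.card {x : ↥(Cfsg.SU 3 F q) // x ≠ 1 ∧ x * x = 1 ∧ x ≠ t ∧ Commute t x} = q * (q - 1) ∧
    Nat.card {x : ↥(Cfsg.SU 3 F q) // x ≠ 1 ∧ x * x = 1 ∧ ¬ Commute t x ∧
        ∃ y : ↥(Cfsg.SU 3 F q), y ≠ 1 ∧ y * y = 1 ∧ Commute t y ∧ Commute y x} = q * (q - 2) * (q ^ 2 - 1) ∧
    Nat.card {x : ↥(Cfsg.SU 3 F q) // x ≠ 1 ∧ x * x = 1 ∧ ¬ Commute t x ∧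
        ∀ y : ↥(Cfsg.SU 3 F q), y ≠ 1 → y * y = 1 → ¬ (Commute t y ∧ Commute y x)} = (q + 1) * (q ^ 2 - 1) ∧
    ∀ x : ↥(Cfsg.SU 3 F q), x ≠ 1 → x * x = 1 →
      ∃ y z : ↥(Cfsg.SU 3 F q), y ≠ 1 ∧ y * y = 1 ∧ z ≠ 1 ∧ z * z = 1 ∧
        Commute t y ∧ Commute y z ∧ Commute z x := by
  classical
  have hq2 := two_le_of_card_sq hF
  have h2 : (2 : F) ≠ 0 := two_ne_zero_of_odd_card (by rw [hF]; exact hq.pow)
  obtain ⟨g, hg⟩ := su3_invol_conj_dSU hF h2 t ht ht2
  have hφ : MulAut.conj g (dSU hF) = t := by rw [MulAut.conj_apply]; exact hg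
  have c1 : Nat.card {x : ↥(Cfsg.SU 3 F q) // x ≠ 1 ∧ x * x = 1 ∧ x ≠ t ∧ Commute t x}
      = q * (q - 1) := by
    rw [← hφ, card_S1_map, card_dist_one hF h2]
  have c3 : Nat.card {x : ↥(Cfsg.SU 3 F q) // x ≠ 1 ∧ x * x = 1 ∧ ¬ Commute t x ∧
        ∀ y : ↥(Cfsg.SU 3 F q), y ≠ 1 → y * y = 1 → ¬ (Commute t y ∧ Commute y x)}
      = (q + 1) * (q ^ 2 - 1) := by
    rw [← hφ, card_S3_map, card_dist_three hF h2]
  refine ⟨c1, ?_, c3, ?_⟩
  · have hfin : Finite (Cfsg.SU 3 F q) := inferInstance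
    have h1 := card_invol_split t ht ht2
    rw [(Cfsg.Agent.S2360.result hq hF t ht ht2).2.1, c1, c3] at h1
    set N := Nat.card {x : ↥(Cfsg.SU 3 F q) // x ≠ 1 ∧ x * x = 1 ∧ ¬ Commute t x ∧
        ∃ y : ↥(Cfsg.SU 3 F q), y ≠ 1 ∧ y * y = 1 ∧ Commute t y ∧ Commute y x} with hN
    obtain ⟨k, rfl⟩ : ∃ k, q = k + 2 := ⟨q - 2, by omega⟩
    have e1 : (k + 2) ^ 2 - 1 = (k + 1) * (k + 3) := by
      have : (k + 2) ^ 2 = (k + 1) * (k + 3) + 1 := by ring
      omega
    have e2 : (k + 2) ^ 2 - (k + 2) + 1 = k ^ 2 + 3 * k + 3 := by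
      have : (k + 2) ^ 2 = k ^ 2 + 3 * k + 2 + (k + 2) := by ring
      omega
    rw [e1, e2] at h1
    rw [e1]
    simp only [Nat.add_sub_cancel, show k + 2 - 1 = k + 1 by omega] at h1 ⊢
    have h3 : (k + 2) ^ 2 * (k ^ 2 + 3 * k + 3) = 1 + (k + 2) * (k + 1)
        + (k + 2) * k * ((k + 1) * (k + 3)) + (k + 2 + 1) * ((k + 1) * (k + 3)) := by ring
    omega
  · intro x hx hx2
    have hx' : (MulAut.conj g).symm x ≠ 1 := by
      rw [Ne, MulEquiv.map_eq_one_iff]; exact hx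
    have hx2' : (MulAut.conj g).symm x * (MulAut.conj g).symm x = 1 := by
      rw [← map_mul, hx2, map_one]
    obtain ⟨y, z, hy1, hy2, hz1, hz2, h1, h3, h4⟩ := dist_le_three hF h2 _ hx' hx2'
    refine ⟨MulAut.conj g y, MulAut.conj g z, ?_, ?_, ?_, ?_, ?_, ?_, ?_⟩
    · rw [Ne, MulEquiv.map_eq_one_iff]; exact hy1
    · rw [sq_map_iff]; exact hy2
    · rw [Ne, MulEquiv.map_eq_one_iff]; exact hz1
    · rw [sq_map_iff]; exact hz2
    · rw [← hφ, commute_mulEquiv_iff]; exact h1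
    · rw [commute_mulEquiv_iff]; exact h3
    · have := (commute_mulEquiv_iff (MulAut.conj g) _ _).mpr h4
      rwa [MulEquiv.apply_symm_apply] at this

end Cfsg.Agent.S2356
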