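import Cfsg.Statements.S2365
import Mathlib
import Cfsg.Agent.Lib.Helper42.PGraphU3
import Cfsg.Agent.S0278

set_option autoImplicit false
open Cfsg

namespace Cfsg.Agent.S2365

open Cfsg.Agent.Lib.Helper13 Cfsg.Agent.Lib.Helper39.SUDeg
open Cfsg.Agent.Lib.Helper42.PGraphL Cfsg.Agent.Lib.Helper42.PGraphS Cfsg.Agent.Lib.Helper42.PGraphU

section aux
variable {F : Type*} [Field F] [Fintype F] {q : ℕ}

/-- the factors of the order formula -/
def gg (q i : ℕ) : ℕ := if Even i then q ^ (i + 1) + 1 else q ^ (i + 1) - 1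

lemma card_SU (hF : Fintype.card F = q ^ 2) (n : ℕ) :
    Nat.card (Cfsg.SU (n + 1) F q) = q ^ ((n + 1) * n / 2) * ∏ i ∈ Finset.range n, gg q (i + 1) := by
  have h := Cfsg.Agent.S0278.result hF (n + 1) (by omega)
  rw [Finset.prod_range_succ'] at h
  simp only [Nat.add_sub_cancel] at h
  have h0 : (if Even 0 then q ^ (0 + 1) + 1 else q ^ (0 + 1) - 1) = q + 1 := by simp
  rw [h0] at h
  have h1 : (q + 1) * Nat.card (Cfsg.SU (n + 1) F q)
      = (q + 1) * (q ^ ((n + 1) * n / 2) * ∏ i ∈ Finset.range n, gg q (i + 1)) := by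
    rw [h]
    unfold gg
    ring
  exact Nat.eq_of_mul_eq_mul_left (by omega) h1

lemma dvd_card_SU (hF : Fintype.card F = q ^ 2) (n t e : ℕ) (he : 2 ≤ e) (hen : e ≤ n)
    (h : t ∣ gg q (e - 1)) : t ∣ Nat.card (Cfsg.SU n F q) := by
  obtain ⟨n', rfl⟩ : ∃ n', n = n' + 1 := ⟨n - 1, by omega⟩
  rw [card_SU hF]
  apply Dvd.dvd.mul_left
  have : e - 1 = (e - 2) + 1 := by omega
  rw [this] at h
  exact h.trans (Finset.dvd_prod_of_mem (fun i => gg q (i + 1)) (Finset.mem_range.mpr (by omega)))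

end aux

/-- Let q be a power of the prime p, F the field with q² elements, m ≥ 4, and let a, b be commuting elements of PSU(m, q) with a of order p. Then every prime divisor of the order of b divides the order of SU(m − 2, q). -/
theorem result {F : Type*} [Field F] [Fintype F] (p : ℕ) [Fact p.Prime] [CharP F p] (m q : ℕ) (hm : 4 ≤ m) (hF : Fintype.card F = q ^ 2)
    (a b : Cfsg.PSU m F q) (ha : orderOf a = p) (hab : Commute a b) :
    (orderOf b).primeFactors ⊆ (Nat.card ↥(Cfsg.SU (m - 2) F q)).primeFactors := by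
  classical
  intro t ht
  rw [Nat.mem_primeFactors] at ht ⊢
  obtain ⟨htp, htb, hb0⟩ := ht
  have hfin : Finite (Cfsg.SU (m - 2) F q) := inferInstance
  refine ⟨htp, ?_, Nat.card_pos.ne'⟩
  have hp : p.Prime := Fact.out
  have : Fact t.Prime := ⟨htp⟩
  have hq2 : 2 ≤ q := two_le_of_card_sq hF
  obtain ⟨f, hf⟩ : ∃ f, q = p ^ f := by
    obtain ⟨p', a', hp', hchar', hq⟩ := exists_char_pow hF
    have : p' = p := CharP.eq F hchar' ‹CharP F p›
    exact ⟨a', this ▸ hq⟩
  have hpq : p ∣ q := by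
    rw [hf]
    apply dvd_pow_self
    rintro rfl
    rw [pow_zero] at hf
    omega
  by_cases htp' : t = p
  · obtain ⟨n', hn'⟩ : ∃ n', m - 2 = n' + 1 := ⟨m - 3, by omega⟩
    rw [hn', card_SU hF, htp']
    apply Dvd.dvd.mul_right
    apply hpq.trans
    apply dvd_pow_self
    have h1 : 1 ≤ n' := by omega
    have : 2 ≤ (n' + 1) * n' := by nlinarith
    omega
  have htq : ¬ t ∣ q := by
    intro h
    rw [hf] at h
    exact htp' ((Nat.prime_dvd_prime_iff_eq htp hp).mp (htp.dvd_of_dvd_pow h))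
  by_cases ht1 : t ∣ q ^ 2 - 1
  · apply dvd_card_SU hF (m - 2) t 2 le_rfl (by omega)
    simpa [gg] using ht1
  -- the generic case
  have hrq : ¬ t ∣ Fintype.card F - 1 := by rw [hF]; exact ht1
  have ht2 : t ≠ 2 := by
    rintro rfl
    rcases Nat.even_or_odd q with he | ho
    · exact htq he.two_dvd
    · apply ht1
      have : Odd (q ^ 2) := ho.pow
      obtain ⟨c, hc⟩ := this
      exact ⟨c, by omega⟩
  obtain ⟨c, hc⟩ := htb
  have hc0 : c ≠ 0 := by
    rintro rfl
    rw [mul_zero] at hc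
    exact hb0 hc
  have hob : orderOf (b ^ c) = t := by
    rw [orderOf_pow_of_dvd hc0 (by rw [hc]; exact dvd_mul_left _ _), hc]
    exact Nat.mul_div_cancel _ (Nat.pos_of_ne_zero hc0)
  obtain ⟨B, N, hBU, hBt, hB1, hNnil, hN0, hBN⟩ :=
    psu_lift hF p a (b ^ c) ha t hob (hab.pow_right c) hrq
  set k := orderOf ((Fintype.card F : ℕ) : ZMod t) with hk
  have hx : ((Fintype.card F : ℕ) : ZMod t) = ((q : ℕ) : ZMod t) ^ 2 := by rw [hF]; push_cast; rfl
  have hq0 : ((q : ℕ) : ZMod t) ≠ 0 := by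
    rw [Ne, ZMod.natCast_eq_zero_iff]
    exact htq
  have hk0 : 0 < k := by
    rw [hk, hx]
    have : (((q : ℕ) : ZMod t) ^ 2) ^ (t - 1) = 1 := by
      rw [← pow_mul, mul_comm, pow_mul, ZMod.pow_card_sub_one_eq_one hq0, one_pow]
    exact orderOf_pos_iff.mpr (isOfFinOrder_iff_pow_eq_one.mpr ⟨t - 1, by have := htp.two_le; omega, this⟩)
  have hk2 : 2 ≤ k := by
    by_contra hlt
    have hk1 : k = 1 := by omega
    rw [hk, orderOf_eq_one_iff] at hk1
    apply hrq
    rw [← ZMod.natCast_eq_zero_iff, Nat.cast_sub Fintype.card_pos, hk1]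
    simp
  have htF : (t : F) ≠ 0 := by
    rw [Ne, CharP.cast_eq_zero_iff F p]
    intro h
    exact htp' ((Nat.prime_dvd_prime_iff_eq hp htp).mp h).symm
  have hcore := core t htF B N hBt hB1 hNnil hN0 hBN hk2
  rw [← hk] at hcore
  by_cases htype : ∃ d, Odd d ∧ t ∣ q ^ d + 1
  · obtain ⟨d, hd, htd⟩ := htype
    have h1 : ((q : ℕ) : ZMod t) ^ d = -1 := by
      rw [← ZMod.natCast_eq_zero_iff] at htd
      push_cast at htd
      exact eq_neg_of_add_eq_zero_left htd
    have hkd : k ∣ d := by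
      rw [hk, orderOf_dvd_iff_pow_eq_one, hx, ← pow_mul, mul_comm, pow_mul, h1]; simp
    obtain ⟨c', hc'⟩ := hkd
    have hkodd : Odd k := by
      rw [hc'] at hd
      exact (Nat.odd_mul.mp hd).1
    have h2 : (((q : ℕ) : ZMod t) ^ k) * (((q : ℕ) : ZMod t) ^ k) = 1 := by
      rw [← pow_add, ← two_mul, pow_mul, ← hx, hk, pow_orderOf_eq_one]
    have h3 : ((q : ℕ) : ZMod t) ^ k = -1 := by
      rcases mul_self_eq_one_iff.mp h2 with h3 | h3
      · exfalso
        rw [hc', pow_mul, h3, one_pow] at h1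
        have h4 : ((2 : ℕ) : ZMod t) = 0 := by
          push_cast
          linear_combination h1
        rw [ZMod.natCast_eq_zero_iff] at h4
        exact ht2 ((Nat.prime_dvd_prime_iff_eq htp Nat.prime_two).mp h4)
      · exact h3
    apply dvd_card_SU hF (m - 2) t k hk2 (by omega)
    have he : Even (k - 1) := by
      obtain ⟨j, hj⟩ := hkodd
      exact ⟨j, by omega⟩
    rw [gg, if_pos he, Nat.sub_add_cancel (by omega), ← ZMod.natCast_eq_zero_iff]
    push_cast
    rw [h3]; ring
  · push Not at htype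
    obtain ⟨f', a', b', hf', hdet, hdet', hab', hfix, hfix', hcT⟩ :=
      u_setup hF t htF B hBU hBt hB1 htype
    have h1 := lin_core2 t B N (Polynomial.aeval B f') (cT hF (Polynomial.aeval B f')) hBt hNnil hN0 hBN
      (commute_aeval B B (Commute.refl B) f') (commute_aeval B N hBN f')
      (by rw [hcT]; exact commute_aeval B B (Commute.refl B) _)
      (by rw [hcT]; exact commute_aeval B N hBN _) hdet hdet' hfix hfix'
      (by
        intro w hw hw'
        have h3 := congrArg (fun M => Matrix.mulVec M w) hab'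
        simp only [Matrix.add_mulVec, Matrix.one_mulVec, ← Matrix.mulVec_mulVec, hw, hw',
          Matrix.mulVec_zero, add_zero] at h3
        exact h3.symm) hk2
    rw [← hk, Fintype.card_fin] at h1
    apply dvd_card_SU hF (m - 2) t (2 * k) (by omega) (by omega)
    have hne : ¬ Even (2 * k - 1) := by
      rw [Nat.not_even_iff_odd]
      exact ⟨k - 1, by omega⟩
    rw [gg, if_neg hne, Nat.sub_add_cancel (by omega), ← ZMod.natCast_eq_zero_iff,
      Nat.cast_sub (Nat.one_le_pow _ _ (by omega))]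
    push_cast
    rw [pow_mul, ← hx, hk, pow_orderOf_eq_one]
    simp

end Cfsg.Agent.S2365
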