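import Cfsg.Statements.S2394
import Cfsg.Agent.Lib.Helper5.SpOrder
import Cfsg.Agent.S2904

set_option autoImplicit false
open scoped MatrixGroups
open Cfsg

namespace Cfsg.Agent.S2394

/-- The smallest degree of a faithful representation of the symplectic group `Sp_{2n}(q)` over its own field `F_q` is `2n`: every injective homomorphism from `Sp_{2n}(F)` to `GL_d(F)`, `F` the field with `q` elements, has `d ≥ 2n`. -/
theorem result {F : Type*} [Field F] [Fintype F] (n : ℕ) {d : ℕ}
    (ρ : ↥(Matrix.symplecticGroup (Fin n) F) →* GL (Fin d) F) (hρ : Function.Injective ρ) : 2 * n ≤ d := by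
  by_contra hlt
  push Not at hlt
  have hq1 : 1 < Fintype.card F := Fintype.one_lt_card
  have hdvd : Nat.card (Matrix.symplecticGroup (Fin n) F) ∣ Nat.card (GL (Fin d) F) :=
    Subgroup.card_dvd_of_injective ρ hρ
  rw [Cfsg.Agent.Lib.Helper5.card_symplecticGroup, Matrix.card_GL_field] at hdvd
  generalize Fintype.card F = q at hq1 hdvd
  have hn : 1 ≤ n := by omega
  have h1 : q ^ (2 * n) - 1 ∣ ∏ i : Fin d, (q ^ d - q ^ (i : ℕ)) := by
    refine dvd_trans (dvd_trans ?_ (dvd_mul_left _ _)) hdvd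
    have := Finset.dvd_prod_of_mem (fun i => q ^ (2 * (i + 1)) - 1)
      (Finset.mem_range.2 (show n - 1 < n by omega))
    have e : 2 * (n - 1 + 1) = 2 * n := by omega
    simp only [e] at this
    exact this
  have hpos : 0 < ∏ i : Fin d, (q ^ d - q ^ (i : ℕ)) := by
    refine Finset.prod_pos (fun i _ => ?_)
    have := Nat.pow_lt_pow_right hq1 i.2
    omega
  by_cases hn1 : n = 1
  · subst hn1
    have hle := Nat.le_of_dvd hpos h1
    have hq2 : q * 2 ≤ q ^ 2 := by
      rw [pow_two]
      exact Nat.mul_le_mul_left q hq1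
    rw [mul_one] at hle
    have hd : d = 0 ∨ d = 1 := by omega
    rcases hd with rfl | rfl
    · simp at hle
      omega
    · simp at hle
      omega
  by_cases h6 : q = 2 ∧ n = 3
  · obtain ⟨rfl, rfl⟩ := h6
    have hd : d < 6 := by omega
    interval_cases d <;> revert hdvd <;> decide
  · obtain ⟨r, hr, hrd, hrk⟩ := Cfsg.Agent.S2904.result q (2 * n) hq1 (by omega)
      (by rintro ⟨h, h'⟩; exact h6 ⟨h, by omega⟩) (by rintro ⟨h, -⟩; omega)
    have h2 := dvd_trans hrd h1
    rw [hr.prime.dvd_finsetProd_iff] at h2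
    obtain ⟨i, -, hi⟩ := h2
    have e : q ^ d - q ^ (i : ℕ) = q ^ (i : ℕ) * (q ^ (d - (i : ℕ)) - 1) := by
      rw [Nat.mul_sub, ← pow_add, Nat.add_sub_cancel' i.2.le, mul_one]
    rw [e, hr.dvd_mul] at hi
    rcases hi with hi | hi
    · have h3 : r ∣ q := hr.dvd_of_dvd_pow hi
      have h4 : r ∣ q ^ (2 * n) := dvd_pow h3 (by omega)
      have h5 : 0 < q ^ (2 * n) := by positivity
      have h6 : r ∣ 1 := by
        have := (Nat.dvd_sub h4 hrd)
        rwa [Nat.sub_sub_self h5] at this
      exact hr.one_lt.ne' (Nat.dvd_one.1 h6)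
    · exact hrk (d - (i : ℕ)) (by have := i.2; omega) (by omega) hi

end Cfsg.Agent.S2394
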