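import Cfsg.Statements.S2434
import Cfsg.Agent.Lib.Helper41.SL2Profile

set_option autoImplicit false
open Cfsg

namespace Cfsg.Agent.S2434

open Cfsg.Agent.Lib.Helper41 Cfsg.Agent.Lib.Helper15
open scoped IsMulCommutative

theorem ne_inv_of_sq {H : Type*} [Group H] (θ : H →* ℂˣ) (c : H) (hc : θ c ^ 2 ≠ 1) : θ ≠ θ⁻¹ := by
  intro h
  apply hc
  rw [sq]
  nth_rewrite 2 [h]
  rw [MonoidHom.inv_apply, mul_inv_cancel]

theorem exists_sq_of_ne_inv {H : Type*} [Group H] (θ : H →* ℂˣ) (h : θ ≠ θ⁻¹) :
    ∃ c : H, θ c ^ 2 ≠ 1 := by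
  by_contra hcon
  push Not at hcon
  apply h
  ext c
  rw [MonoidHom.inv_apply]
  congr 1
  rw [eq_inv_iff_mul_eq_one, ← sq]
  exact hcon c

/-- Let F be a finite field with q elements, q odd, and C a cyclic subgroup of order q + 1 of SL₂ over F (a non-split torus; it contains the centre). For every homomorphism θ from C to the non-zero complex numbers with θ² ≠ 1 there is an irreducible complex character χ of degree q − 1 such that χ(c) = −θ(c) − θ(c)⁻¹ for every non-central c in C, χ(zg) = θ(z)χ(g) for central z in C, χ vanishes at diagonal elements with entry a, a² ≠ 1, and χ takes the value −1 at every upper unitriangular element other than 1. Conversely every irreducible character of degree q − 1 has, for some such θ, the values −θ(c) − θ(c)⁻¹ at the non-central elements c of C (for q ≥ 5 these are exactly the cuspidal characters of degree q − 1). -/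
theorem result {F : Type*} [Field F] [Fintype F] (hodd : Odd (Fintype.card F))
    (C : Subgroup (Matrix.SpecialLinearGroup (Fin 2) F)) (hC : IsCyclic C) (hcard : Nat.card C = Fintype.card F + 1) :
    (∀ θ : C →* ℂˣ, (∃ c : C, θ c ^ 2 ≠ 1) →
      ∃ χ : Matrix.SpecialLinearGroup (Fin 2) F → ℂ, Cfsg.IsIrrCharacter (Matrix.SpecialLinearGroup (Fin 2) F) χ ∧ χ 1 = (Fintype.card F : ℂ) - 1 ∧
        (∀ c : C, (c : Matrix.SpecialLinearGroup (Fin 2) F) ∉ Subgroup.center (Matrix.SpecialLinearGroup (Fin 2) F) → χ c = -((θ c).val + (θ c)⁻¹.val)) ∧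
        (∀ c : C, (c : Matrix.SpecialLinearGroup (Fin 2) F) ∈ Subgroup.center (Matrix.SpecialLinearGroup (Fin 2) F) → ∀ g : Matrix.SpecialLinearGroup (Fin 2) F, χ ((c : Matrix.SpecialLinearGroup (Fin 2) F) * g) = (θ c).val * χ g) ∧
        (∀ g : Matrix.SpecialLinearGroup (Fin 2) F, (g : Matrix (Fin 2) (Fin 2) F) 0 1 = 0 → (g : Matrix (Fin 2) (Fin 2) F) 1 0 = 0 → (g : Matrix (Fin 2) (Fin 2) F) 0 0 ^ 2 ≠ 1 → χ g = 0) ∧
        (∀ g : Matrix.SpecialLinearGroup (Fin 2) F, (g : Matrix (Fin 2) (Fin 2) F) 1 0 = 0 → (g : Matrix (Fin 2) (Fin 2) F) 0 0 = 1 → (g : Matrix (Fin 2) (Fin 2) F) 1 1 = 1 → (g : Matrix (Fin 2) (Fin 2) F) 0 1 ≠ 0 → χ g = -1)) ∧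
    (∀ χ : Matrix.SpecialLinearGroup (Fin 2) F → ℂ, Cfsg.IsIrrCharacter (Matrix.SpecialLinearGroup (Fin 2) F) χ → χ 1 = (Fintype.card F : ℂ) - 1 →
      ∃ θ : C →* ℂˣ, (∃ c : C, θ c ^ 2 ≠ 1) ∧
        ∀ c : C, (c : Matrix.SpecialLinearGroup (Fin 2) F) ∉ Subgroup.center (Matrix.SpecialLinearGroup (Fin 2) F) → χ c = -((θ c).val + (θ c)⁻¹.val)) := by
  classical
  have hodd' : Fintype.card F % 2 = 1 := Nat.odd_iff.1 hodd
  have h2 : (2 : F) ≠ 0 := two_ne_zero_of_odd_card hodd'
  have hq2 : 2 ≤ Fintype.card F := Fintype.one_lt_card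
  obtain ⟨T, rfl⟩ := exists_NSGen_of_cyclic C hC hcard
  constructor
  · rintro θ ⟨c, hc⟩
    have hθ : θ ≠ θ⁻¹ := ne_inv_of_sq θ c hc
    refine ⟨T.X hodd' θ, T.X_irr hodd' θ hθ, T.X_one hodd' θ, ?_, ?_, ?_, ?_⟩
    · intro c hc
      exact T.dsX_noncentral hodd' _ θ c hc
    · intro c hc g
      rcases (T.mem_center_iff hodd' c).1 hc with rfl | rfl
      · simp
      · rw [NSGen.negC_coe]
        exact T.X_neg hodd' θ g
    · intro g h01 h10 hsq
      obtain ⟨r, hr, hg⟩ := eq_bor_of_10 g h10
      have hr2 : r ^ 2 ≠ 1 := by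
        intro h
        apply hsq
        rw [← hr, ← Units.val_pow_eq_pow_val, h, Units.val_one]
      rw [hg, NSGen.X_def, T.dsX_bor hodd' _ θ r _ (Or.inl hr2), if_neg hr2]
    · intro g h10 h00 _ h01
      obtain ⟨r, hr, hg⟩ := eq_bor_of_10 g h10
      have hr1 : r = 1 := Units.ext (by rw [hr, h00, Units.val_one])
      rw [hg, NSGen.X_def, T.dsX_bor hodd' _ θ r _ (Or.inr h01), hr1, if_pos (one_pow 2)]
      simp
  · intro χ hχ hdeg
    rcases T.classification hodd' hχ with h | h | ⟨β, _, h⟩ | ⟨β, hβ, hβ1, h⟩ | ⟨θ, hθ, h⟩ | ⟨θ, hθ, hθ1, h⟩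
    · exfalso
      rw [h, one'] at hdeg
      have h3 : ((2 : ℕ) : ℂ) = ((Fintype.card F : ℕ) : ℂ) := by
        push_cast; linear_combination hdeg
      have := Nat.cast_injective h3
      omega
    · exfalso
      rw [h, St_one] at hdeg
      have : (1 : ℂ) = 0 := by linear_combination hdeg
      exact one_ne_zero this
    · exfalso
      rw [h, psR_one_apply_one] at hdeg
      have : (2 : ℂ) = 0 := by linear_combination hdeg
      exact two_ne_zero this
    · -- q = 3
      have hd := NSGen.degree_halfP hodd' hχ β hβ hβ1 h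
      rw [hdeg] at hd
      have hq3 : Fintype.card F = 3 := by
        have h3 : ((Fintype.card F : ℕ) : ℂ) = ((3 : ℕ) : ℂ) := by
          push_cast; linear_combination 2 * hd
        exact Nat.cast_injective h3
      have : Fintype (T.C →* ℂˣ) := Fintype.ofFinite _
      obtain ⟨θ, hθ⟩ := CommGroup.exists_apply_ne_one_of_hasEnoughRootsOfUnity T.C ℂ
        (T.negC_ne_one hodd')
      have hθ' : ((θ (T.negC hodd') : ℂˣ) : ℂ) = -1 := by
        refine (T.theta_neg hodd' θ).resolve_left ?_
        intro h1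
        exact hθ (Units.ext h1)
      have hsqc : ∀ c : T.C, (c : Matrix.SpecialLinearGroup (Fin 2) F) ∉ Subgroup.center _ →
          c * c = T.negC hodd' := by
        intro c hc
        have h4 : (c * c) * (c * c) = 1 := by
          have := pow_card_eq_one' (x := c)
          rw [T.card_C, hq3] at this
          rw [← this]
          simp only [pow_succ, pow_zero, one_mul, mul_assoc]
        have h5 : ((c : Matrix.SpecialLinearGroup (Fin 2) F) * c) * (c * c) = 1 := by
          have := congrArg Subtype.val h4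
          simpa using this
        rcases (sl2_mul_self_eq_one_iff h2 _).1 h5 with h6 | h6
        · exfalso
          apply hc
          rcases (sl2_mul_self_eq_one_iff h2 _).1 h6 with h7 | h7
          · rw [h7]; exact Subgroup.one_mem _
          · rw [h7]; exact neg_one_mem_center
        · exact Subtype.ext h6
      have hgen : (T.gen : Matrix.SpecialLinearGroup (Fin 2) F) ∉ Subgroup.center _ := by
        intro hc
        have h6 : T.gen * T.gen = 1 := by
          rcases (T.mem_center_iff hodd' _).1 hc with h7 | h7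
          · rw [h7, one_mul]
          · rw [h7, NSGen.negC_mul_self]
        have := orderOf_dvd_of_pow_eq_one (by rw [sq]; exact h6 : T.gen ^ 2 = 1)
        rw [T.orderOf_gen, hq3] at this
        omega
      have hval : ∀ c : T.C, (c : Matrix.SpecialLinearGroup (Fin 2) F) ∉ Subgroup.center _ →
          ((θ c : ℂˣ) : ℂ) * ((θ c : ℂˣ) : ℂ) = -1 := by
        intro c hc
        rw [← Units.val_mul, ← map_mul, hsqc c hc, hθ']
      refine ⟨θ, ⟨T.gen, ?_⟩, ?_⟩
      · intro h7
        have := hval T.gen hgen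
        rw [← sq, ← Units.val_pow_eq_pow_val, h7, Units.val_one] at this
        norm_num at this
      · intro c hc
        have h8 := T.sum_conj_mul_classInner_X hodd' χ (irr_cf hχ) c hc
        simp_rw [(T.profile_halfP hodd' hχ β hβ hβ1 h).2] at h8
        simp only [mul_zero, Finset.sum_const_zero] at h8
        have h9 : χ c = 0 := by
          have : (starRingEnd ℂ) (χ c) = 0 := by linear_combination h8
          simpa using this
        rw [h9, Units.val_inv_eq_inv_val]
        have hne : ((θ c : ℂˣ) : ℂ) ≠ 0 := Units.ne_zero _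
        have := hval c hc
        field_simp
        linear_combination this
    · refine ⟨θ, exists_sq_of_ne_inv θ hθ, ?_⟩
      intro c hc
      rw [h]
      exact T.dsX_noncentral hodd' _ θ c hc
    · exfalso
      have hd := T.degree_halfD hodd' hχ θ hθ hθ1 h
      rw [hdeg] at hd
      have h3 : ((Fintype.card F : ℕ) : ℂ) = ((1 : ℕ) : ℂ) := by
        push_cast; linear_combination 2 * hd
      have := Nat.cast_injective h3
      omega

end Cfsg.Agent.S2434
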