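import Cfsg.Statements.S2435
import Cfsg.Agent.Lib.Helper41.SL2Degree

set_option autoImplicit false
open Cfsg

namespace Cfsg.Agent.S2435

open Cfsg.Agent.Lib.Helper41 Cfsg.Agent.Lib.Helper15

/-- Let F be a finite field with q elements, q odd and q ≥ 5, and χ an irreducible complex character of SL₂ over F. If χ has degree (q + 1)/2, then at a diagonal element with entry a, a² ≠ 1, χ takes the value 1 when a is a square in F and −1 otherwise. If χ has degree (q − 1)/2, then at an element g with no eigenvector in F² (so g has order dividing q + 1), χ takes the value −1 when g raised to the power (q + 1)/2 is the identity and the value 1 otherwise. -/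
theorem result {F : Type*} [Field F] [Fintype F] (hodd : Odd (Fintype.card F)) (hq : 5 ≤ Fintype.card F)
    (χ : Matrix.SpecialLinearGroup (Fin 2) F → ℂ) (hχ : Cfsg.IsIrrCharacter (Matrix.SpecialLinearGroup (Fin 2) F) χ) (g : Matrix.SpecialLinearGroup (Fin 2) F) :
    (χ 1 = (((Fintype.card F + 1) / 2 : ℕ) : ℂ) → (g : Matrix (Fin 2) (Fin 2) F) 0 1 = 0 → (g : Matrix (Fin 2) (Fin 2) F) 1 0 = 0 → (g : Matrix (Fin 2) (Fin 2) F) 0 0 ^ 2 ≠ 1 →
      (IsSquare ((g : Matrix (Fin 2) (Fin 2) F) 0 0) → χ g = 1) ∧ (¬ IsSquare ((g : Matrix (Fin 2) (Fin 2) F) 0 0) → χ g = -1)) ∧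
    (χ 1 = (((Fintype.card F - 1) / 2 : ℕ) : ℂ) → (∀ (c : F) (v : Fin 2 → F), v ≠ 0 → (g : Matrix (Fin 2) (Fin 2) F).mulVec v ≠ c • v) →
      (((g ^ ((Fintype.card F + 1) / 2)) : Matrix (Fin 2) (Fin 2) F) = 1 → χ g = -1) ∧ (((g ^ ((Fintype.card F + 1) / 2)) : Matrix (Fin 2) (Fin 2) F) ≠ 1 → χ g = 1)) := by
  classical
  have hodd' : Fintype.card F % 2 = 1 := Nat.odd_iff.1 hodd
  constructor
  · intro hdeg h01 h10 hsq
    obtain ⟨β, hβ, hβ1, h⟩ := NSGen.type_of_degree_halfP hodd' hq hχ hdeg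
    obtain ⟨r, hr, hg⟩ := eq_bor_of_10 g h10
    have hr2 : r ^ 2 ≠ 1 := by
      intro h
      apply hsq
      rw [← hr, ← Units.val_pow_eq_pow_val, h, Units.val_one]
    rw [h01] at hg
    have hval : χ g = β (r : F) := by
      rw [hg]
      exact NSGen.halfP_split hodd' hχ β hβ hβ1 h r hr2
    rw [hval, hr]
    have hne : (g : Matrix (Fin 2) (Fin 2) F) 0 0 ≠ 0 := by rw [← hr]; exact r.ne_zero
    exact ⟨fun hs => mulChar_quad_isSquare β hβ _ hne hs,
      fun hs => mulChar_quad_not_isSquare β hβ hβ1 _ hs⟩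
  · intro hdeg hg
    obtain ⟨T⟩ := exists_NSGen (F := F)
    obtain ⟨θ, hθ, hθ1, h⟩ := T.type_of_degree_halfD hodd' hq hχ hdeg
    obtain ⟨c, hc, hconj⟩ := T.exists_conj_of_no_eigenvector hodd' g hg
    obtain ⟨y, hy⟩ := isConj_iff.1 hconj
    have hcz : c ∉ Subgroup.center (Matrix.SpecialLinearGroup (Fin 2) F) := by
      intro hz
      have hgc : g = c := by
        have : g = y⁻¹ * c * y := by rw [← hy]; group
        rw [this, Subgroup.mem_center_iff.1 hz y⁻¹, mul_assoc, inv_mul_cancel, mul_one]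
      rw [sl2_mem_center_iff] at hz
      rcases hz with h1 | h1
      · apply hg 1 ![1, 0] (by intro h; have := congrFun h 0; simp at this)
        rw [hgc, h1]; simp
      · apply hg (-1) ![1, 0] (by intro h; have := congrFun h 0; simp at this)
        rw [hgc, h1]; simp
    have hval : χ g = - ((θ ⟨c, hc⟩ : ℂˣ) : ℂ) := by
      have h1 := T.halfD_nonsplit hodd' hχ θ hθ hθ1 h ⟨c, hc⟩ hcz
      rw [← h1]
      simp only
      rw [← hy, irr_cf hχ]
    have hpow : ((g ^ ((Fintype.card F + 1) / 2)) : Matrix (Fin 2) (Fin 2) F) = 1 ↔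
        (⟨c, hc⟩ : T.C) ^ ((Fintype.card F + 1) / 2) = 1 := by
      rw [← Matrix.SpecialLinearGroup.coe_pow, ← sl2_eq_one_iff]
      have h1 : (⟨c, hc⟩ : T.C) ^ ((Fintype.card F + 1) / 2) = 1 ↔ c ^ ((Fintype.card F + 1) / 2) = 1 := by
        rw [Subtype.ext_iff, Subgroup.coe_pow, Subgroup.coe_one]
      rw [h1, ← hy, conj_pow]
      constructor
      · intro h2; rw [h2]; group
      · intro h2
        have : g ^ ((Fintype.card F + 1) / 2) = y⁻¹ * (y * g ^ ((Fintype.card F + 1) / 2) * y⁻¹) * y := by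
          group
        rw [this, h2]; group
    rw [hval, T.theta_quad_apply hodd' θ hθ hθ1]
    constructor
    · intro h1; rw [if_pos (hpow.1 h1)]
    · intro h1; rw [if_neg (fun h2 => h1 (hpow.2 h2))]; ring

end Cfsg.Agent.S2435
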