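import Cfsg.Statements.S2436
import Cfsg.Agent.Lib.Helper16.McK.T4
import Cfsg.Agent.Lib.Helper16.McK.GGp
import Cfsg.Agent.Lib.Helper16.McK.GG2a
import Cfsg.Agent.Lib.Helper16.McK.GG2b
import Cfsg.Agent.Lib.Helper16.McK.GGm
import Cfsg.Agent.Lib.Helper16.McK.GGpl
import Cfsg.Agent.Lib.Helper16.McK.Lm
import Cfsg.Agent.Lib.Helper16.McK.Lpl
import Cfsg.Agent.Lib.Helper16.McK.L2a
import Cfsg.Agent.Lib.Helper16.McK.L2b
import Cfsg.Agent.Lib.Helper16.McK.Lp

set_option autoImplicit false
open Cfsg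

namespace Cfsg.Agent.S2436

open Cfsg.Agent.Lib.Helper16.McK

theorem result {F : Type*} [Field F] [Fintype F] (hodd : Odd (Fintype.card F)) (ℓ : ℕ) [Fact ℓ.Prime] (S : Sylow ℓ (Matrix.SpecialLinearGroup (Fin 2) F)) :
    Nat.card {χ : Cfsg.IrrCharacter (Matrix.SpecialLinearGroup (Fin 2) F) // ¬ ℓ ∣ Cfsg.charDegree (χ : Matrix.SpecialLinearGroup (Fin 2) F → ℂ)} =
      Nat.card {ψ : Cfsg.IrrCharacter (Subgroup.normalizer ((S : Subgroup (Matrix.SpecialLinearGroup (Fin 2) F)) : Set (Matrix.SpecialLinearGroup (Fin 2) F))) //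
        ¬ ℓ ∣ Cfsg.charDegree (ψ : Subgroup.normalizer ((S : Subgroup (Matrix.SpecialLinearGroup (Fin 2) F)) : Set (Matrix.SpecialLinearGroup (Fin 2) F)) → ℂ)} := by
  change mck (Matrix.SpecialLinearGroup (Fin 2) F) ℓ =
    mck (Subgroup.normalizer ((S : Subgroup (Matrix.SpecialLinearGroup (Fin 2) F)) : Set (Matrix.SpecialLinearGroup (Fin 2) F))) ℓ
  have hℓp : ℓ.Prime := Fact.out
  have hq1 : 1 < Fintype.card F := Fintype.one_lt_card
  have hodd' : Fintype.card F % 2 = 1 := Nat.odd_iff.1 hodd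
  by_cases hdvd : ℓ ∣ Nat.card (Matrix.SpecialLinearGroup (Fin 2) F)
  · by_cases hℓ2 : ℓ = 2
    · subst hℓ2
      have hg : mck (Matrix.SpecialLinearGroup (Fin 2) F) 2 = 4 := by
        by_cases hq5 : 5 ≤ Fintype.card F
        · exact global_two_of_five_le hodd hq5
        · exact global_two_of_three (by omega)
      rw [hg]
      have h8 : (Fintype.card F % 8 = 1 ∨ Fintype.card F % 8 = 7) ∨
          (Fintype.card F % 8 = 3 ∨ Fintype.card F % 8 = 5) := by omega
      rcases h8 with h8 | h8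
      · exact (local_two_a hodd h8 S).symm
      · obtain ⟨e⟩ := local_two_b_iso hodd h8 S
        rw [mck_congr e 2]
        exact (global_two_of_three (F := ZMod 3) (by simp [ZMod.card])).symm
    · rw [Cfsg.Agent.Lib.Helper5.card_SL2] at hdvd
      have e1 : Fintype.card F ^ 2 - 1 = (Fintype.card F + 1) * (Fintype.card F - 1) := by
        have := Nat.sq_sub_sq (Fintype.card F) 1
        simpa using this
      rw [e1] at hdvd
      rcases (Nat.Prime.dvd_mul hℓp).1 hdvd with h | h
      · -- defining characteristic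
        obtain ⟨p, hp⟩ := CharP.exists F
        have hpp : p.Prime := by
          rcases CharP.char_is_prime_or_zero F p with h' | h'
          · exact h'
          · exfalso
            subst h'
            exact absurd (CharP.charP_to_charZero F) (fun hz => not_finite_iff_infinite.2 (@CharZero.infinite F _ hz) inferInstance)
        haveI : Fact p.Prime := ⟨hpp⟩
        obtain ⟨n, -, hn⟩ := FiniteField.card F p
        rw [hn] at h
        have hlp : ℓ = p := (Nat.prime_dvd_prime_iff_eq hℓp hpp).1 (hℓp.dvd_of_dvd_pow h)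
        subst hlp
        rw [global_p hodd ℓ, local_p hodd ℓ S]
      · rcases (Nat.Prime.dvd_mul hℓp).1 h with h | h
        · rw [global_plus hodd ℓ hℓ2 h, local_plus hodd ℓ hℓ2 h S]
        · rw [global_minus hodd ℓ hℓ2 h, local_minus hodd ℓ hℓ2 h S]
  · exact mck_of_not_dvd ℓ hdvd S

end Cfsg.Agent.S2436
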