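import Cfsg.Statements.S2438
import Cfsg.Agent.Lib.Helper41.SL2Degree

set_option autoImplicit false
open Cfsg

namespace Cfsg.Agent.S2438

open Cfsg.Agent.Lib.Helper41 Cfsg.Agent.Lib.Helper15

variable {F : Type*} [Field F] [Fintype F] [DecidableEq F]

theorem sum_unipotent (f : Matrix.SpecialLinearGroup (Fin 2) F → ℂ) :
    (∑ g : Matrix.SpecialLinearGroup (Fin 2) F, if (g : Matrix (Fin 2) (Fin 2) F) 1 0 = 0 ∧ (g : Matrix (Fin 2) (Fin 2) F) 0 0 = 1 ∧ (g : Matrix (Fin 2) (Fin 2) F) 1 1 = 1 then f g else 0)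
      = ∑ s : F, f (bor 1 s) := by
  rw [← Finset.sum_filter]
  symm
  apply Finset.sum_bij (fun (s : F) _ => bor (1 : Fˣ) s)
  · intro s _
    rw [Finset.mem_filter]
    refine ⟨Finset.mem_univ _, bor_10 _ _, ?_, ?_⟩
    · rw [bor_00]; simp
    · rw [bor_11]; simp
  · intro s _ s' _ h
    have := congrArg (fun g : Matrix.SpecialLinearGroup (Fin 2) F => g.1 0 1) h
    simpa [bor_01] using this
  · intro g hg
    rw [Finset.mem_filter] at hg
    obtain ⟨r, hr, hg'⟩ := eq_bor_of_10 g hg.2.1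
    have hr1 : r = 1 := Units.ext (by rw [hr, hg.2.2.1, Units.val_one])
    exact ⟨_, Finset.mem_univ _, by rw [← hr1]; exact hg'.symm⟩
  · intro s _
    rfl

theorem sum_ite_zero (A B : ℂ) :
    (∑ s : F, if s = 0 then A else B) = A + ((Fintype.card F : ℂ) - 1) * B := by
  rw [← Finset.add_sum_erase _ _ (Finset.mem_univ (0 : F)), if_pos rfl]
  congr 1
  rw [Finset.sum_congr rfl (fun s hs => if_neg (Finset.mem_erase.1 hs).1), Finset.sum_const,
    Finset.card_erase_of_mem (Finset.mem_univ _), Finset.card_univ, nsmul_eq_mul,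
    Nat.cast_sub Fintype.card_pos]
  simp

theorem sum_of_mult {χ : Matrix.SpecialLinearGroup (Fin 2) F → ℂ}
    (hχ : IsIrrCharacter (Matrix.SpecialLinearGroup (Fin 2) F) χ) [Fintype (MulChar F ℂ)] (m : ℕ)
    (h : ∑ β : MulChar F ℂ, classInner (psR β) χ = m) :
    ∑ s : F, χ (bor 1 s) = (m : ℂ) * Fintype.card F := by
  have h1 := sum_classInner_psR χ (irr_cf hχ)
  rw [h] at h1
  have hq : (Fintype.card F : ℂ) ≠ 0 := cardF_ne_zero
  have h2 : ∑ s : F, (starRingEnd ℂ) (χ (bor 1 s)) = (m : ℂ) * Fintype.card F := by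
    rw [h1]; field_simp
  have := congrArg (starRingEnd ℂ) h2
  simpa using this

/-- Let F be a finite field with q elements, q odd, q ≥ 5, U the upper unitriangular subgroup of SL₂ over F, and χ an irreducible complex character. The sum of the values of χ over U equals 2q, q, 0, q, 0 according as the degree of χ is q + 1, q, q − 1, (q + 1)/2, (q − 1)/2; so among these five degrees the sum vanishes exactly for the degrees q − 1 and (q − 1)/2, i.e. the irreducible characters of those two degrees are the ones whose restriction to U does not contain the trivial character (the cuspidal characters), while those of degree q + 1, q and (q + 1)/2 are not cuspidal. -/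
theorem result {F : Type*} [Field F] [Fintype F] [DecidableEq F] (hodd : Odd (Fintype.card F)) (hq : 5 ≤ Fintype.card F)
    (χ : Matrix.SpecialLinearGroup (Fin 2) F → ℂ) (hχ : Cfsg.IsIrrCharacter (Matrix.SpecialLinearGroup (Fin 2) F) χ) :
    (χ 1 = (Fintype.card F : ℂ) + 1 →
      (∑ g : Matrix.SpecialLinearGroup (Fin 2) F, if (g : Matrix (Fin 2) (Fin 2) F) 1 0 = 0 ∧ (g : Matrix (Fin 2) (Fin 2) F) 0 0 = 1 ∧ (g : Matrix (Fin 2) (Fin 2) F) 1 1 = 1 then χ g else 0) = 2 * (Fintype.card F : ℂ)) ∧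
    (χ 1 = (Fintype.card F : ℂ) →
      (∑ g : Matrix.SpecialLinearGroup (Fin 2) F, if (g : Matrix (Fin 2) (Fin 2) F) 1 0 = 0 ∧ (g : Matrix (Fin 2) (Fin 2) F) 0 0 = 1 ∧ (g : Matrix (Fin 2) (Fin 2) F) 1 1 = 1 then χ g else 0) = (Fintype.card F : ℂ)) ∧
    (χ 1 = (Fintype.card F : ℂ) - 1 →
      (∑ g : Matrix.SpecialLinearGroup (Fin 2) F, if (g : Matrix (Fin 2) (Fin 2) F) 1 0 = 0 ∧ (g : Matrix (Fin 2) (Fin 2) F) 0 0 = 1 ∧ (g : Matrix (Fin 2) (Fin 2) F) 1 1 = 1 then χ g else 0) = 0) ∧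
    (χ 1 = (((Fintype.card F + 1) / 2 : ℕ) : ℂ) →
      (∑ g : Matrix.SpecialLinearGroup (Fin 2) F, if (g : Matrix (Fin 2) (Fin 2) F) 1 0 = 0 ∧ (g : Matrix (Fin 2) (Fin 2) F) 0 0 = 1 ∧ (g : Matrix (Fin 2) (Fin 2) F) 1 1 = 1 then χ g else 0) = (Fintype.card F : ℂ)) ∧
    (χ 1 = (((Fintype.card F - 1) / 2 : ℕ) : ℂ) →
      (∑ g : Matrix.SpecialLinearGroup (Fin 2) F, if (g : Matrix (Fin 2) (Fin 2) F) 1 0 = 0 ∧ (g : Matrix (Fin 2) (Fin 2) F) 0 0 = 1 ∧ (g : Matrix (Fin 2) (Fin 2) F) 1 1 = 1 then χ g else 0) = 0) := by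
  have hodd' : Fintype.card F % 2 = 1 := Nat.odd_iff.1 hodd
  have : Fintype (MulChar F ℂ) := Fintype.ofFinite _
  obtain ⟨T⟩ := exists_NSGen (F := F)
  rw [sum_unipotent]
  refine ⟨?_, ?_, ?_, ?_, ?_⟩
  · intro hdeg
    obtain ⟨β, _, rfl⟩ := NSGen.type_of_degree_q_add_one hodd' hχ hdeg
    simp_rw [psR_bor]
    simp only [one_pow, if_true, Units.val_one, map_one, mul_one]
    rw [sum_ite_zero]
    ring
  · intro hdeg
    rw [NSGen.type_of_degree_q hodd' hχ hdeg]
    simp_rw [St_def, Pi.sub_apply, psR_bor, one']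
    simp only [one_pow, if_true, Units.val_one, map_one, mul_one]
    rw [Finset.sum_sub_distrib, sum_ite_zero]
    simp [Finset.card_univ]
  · intro hdeg
    obtain ⟨θ, _, rfl⟩ := T.type_of_degree_q_sub_one hodd' hq hχ hdeg
    have h1 : ∀ s : F, T.X hodd' θ (bor 1 s) = if s = 0 then ((Fintype.card F : ℂ) - 1) else -1 := by
      intro s
      split_ifs with hs
      · rw [hs, bor_one_zero, T.X_one]
      · rw [NSGen.X_def, T.dsX_bor hodd' _ θ 1 s (Or.inr hs), if_pos (one_pow 2)]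
        simp
    simp_rw [h1]
    rw [sum_ite_zero]
    ring
  · intro hdeg
    classical
    obtain ⟨β, hβ, hβ1, h⟩ := NSGen.type_of_degree_halfP hodd' hq hχ hdeg
    have := sum_of_mult hχ 1 (by
      simp_rw [(T.profile_halfP hodd' hχ β hβ hβ1 h).1]
      rw [Finset.sum_ite_eq' Finset.univ β, if_pos (Finset.mem_univ _)]
      simp)
    rw [this]; simp
  · intro hdeg
    obtain ⟨θ, hθ, hθ1, h⟩ := T.type_of_degree_halfD hodd' hq hχ hdeg
    have := sum_of_mult hχ 0 (by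
      simp_rw [(T.profile_halfD hodd' hχ θ hθ hθ1 h).1]
      simp)
    rw [this]; simp

end Cfsg.Agent.S2438
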