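import Cfsg.Statements.S2450
import Cfsg.Agent.Lib.Helper41.PSL2Trace

set_option autoImplicit false
open Cfsg

namespace Cfsg.Agent.S2450

open Cfsg.Agent.Lib.Helper41 Polynomial

variable {F : Type*} [Field F]

/-- upper unitriangular element -/
def uu (x : F) : Matrix.SpecialLinearGroup (Fin 2) F := ⟨!![1, x; 0, 1], by simp [Matrix.det_fin_two]⟩

theorem uu_coe (x : F) : (uu x : Matrix (Fin 2) (Fin 2) F) = !![1, x; 0, 1] := rfl

/-- lower unitriangular element -/
def ll : Matrix.SpecialLinearGroup (Fin 2) F := ⟨!![1, 0; 1, 1], by simp [Matrix.det_fin_two]⟩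

theorem ll_coe : (ll : Matrix.SpecialLinearGroup (Fin 2) F).1 = !![1, 0; 1, 1] := rfl

/-- Weyl element -/
def ww : Matrix.SpecialLinearGroup (Fin 2) F := ⟨!![0, -1; 1, 0], by simp [Matrix.det_fin_two]⟩

theorem ww_coe : (ww : Matrix.SpecialLinearGroup (Fin 2) F).1 = !![0, -1; 1, 0] := rfl

/-- a non central element has a conjugate with non-zero lower left entry -/
theorem exists_conj_lower_ne_zero (M : Matrix.SpecialLinearGroup (Fin 2) F)
    (h : ¬ ((M : Matrix (Fin 2) (Fin 2) F) = 1 ∨ (M : Matrix (Fin 2) (Fin 2) F) = -1)) :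
    ∃ P : Matrix.SpecialLinearGroup (Fin 2) F,
      ((P * M * P⁻¹ : Matrix.SpecialLinearGroup (Fin 2) F) : Matrix (Fin 2) (Fin 2) F) 1 0 ≠ 0 := by
  by_cases hc : (M : Matrix (Fin 2) (Fin 2) F) 1 0 = 0
  · by_cases hb : (M : Matrix (Fin 2) (Fin 2) F) 0 1 = 0
    · have had : (M : Matrix (Fin 2) (Fin 2) F) 0 0 ≠ (M : Matrix (Fin 2) (Fin 2) F) 1 1 := by
        rcases sl2_noncentral_entries M h with h1 | h1 | h1
        · exact absurd hc h1
        · exact absurd hb h1
        · exact h1
      refine ⟨ll, ?_⟩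
      rw [Matrix.SpecialLinearGroup.coe_mul, Matrix.SpecialLinearGroup.coe_mul,
        Matrix.SpecialLinearGroup.coe_inv, ll_coe]
      simp [Matrix.adjugate_fin_two, Matrix.mul_apply, Matrix.vecMul, dotProduct, Fin.sum_univ_two, hb, hc]
      intro h2
      apply had
      linear_combination h2
    · refine ⟨ww, ?_⟩
      rw [Matrix.SpecialLinearGroup.coe_mul, Matrix.SpecialLinearGroup.coe_mul,
        Matrix.SpecialLinearGroup.coe_inv, ww_coe]
      simp [Matrix.adjugate_fin_two, Matrix.mul_apply, Matrix.vecMul, dotProduct, Fin.sum_univ_two, hb]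
  · exact ⟨1, by simpa using hc⟩

theorem trace_formula (A B : Matrix.SpecialLinearGroup (Fin 2) F) (x : F) :
    Matrix.trace ((uu x * A * (uu x)⁻¹ * B : Matrix.SpecialLinearGroup (Fin 2) F) : Matrix (Fin 2) (Fin 2) F) =
      Matrix.trace ((A * B : Matrix.SpecialLinearGroup (Fin 2) F) : Matrix (Fin 2) (Fin 2) F) +
      ((A : Matrix (Fin 2) (Fin 2) F) 1 0 * (B : Matrix (Fin 2) (Fin 2) F) 0 0
        + ((A : Matrix (Fin 2) (Fin 2) F) 1 1 - (A : Matrix (Fin 2) (Fin 2) F) 0 0) * (B : Matrix (Fin 2) (Fin 2) F) 1 0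
        - (A : Matrix (Fin 2) (Fin 2) F) 1 0 * (B : Matrix (Fin 2) (Fin 2) F) 1 1) * x
      - ((A : Matrix (Fin 2) (Fin 2) F) 1 0 * (B : Matrix (Fin 2) (Fin 2) F) 1 0) * x ^ 2 := by
  rw [Matrix.SpecialLinearGroup.coe_mul, Matrix.SpecialLinearGroup.coe_mul, Matrix.SpecialLinearGroup.coe_mul,
    Matrix.SpecialLinearGroup.coe_mul, Matrix.SpecialLinearGroup.coe_inv, uu_coe]
  simp [Matrix.adjugate_fin_two, Matrix.mul_apply, Matrix.vecMul, dotProduct, Fin.sum_univ_two, Matrix.trace_fin_two]
  ring

/-- The Arad–Herzog conjecture for PSL(2,q): let F be a finite field with q ≥ 4 elements. For any two non-identity elements a, b of PSL(2,F), the set of products of a conjugate of a with a conjugate of b is not a single conjugacy class. -/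
theorem result {F : Type*} [Field F] [Fintype F] (h4 : 4 ≤ Fintype.card F)
    (a b : Matrix.ProjectiveSpecialLinearGroup (Fin 2) F) (ha : a ≠ 1) (hb : b ≠ 1) (c : Matrix.ProjectiveSpecialLinearGroup (Fin 2) F) :
    {g : Matrix.ProjectiveSpecialLinearGroup (Fin 2) F | ∃ u v : Matrix.ProjectiveSpecialLinearGroup (Fin 2) F, g = (u * a * u⁻¹) * (v * b * v⁻¹)} ≠ {g | IsConj c g} := by
  classical
  intro heq
  obtain ⟨A, rfl⟩ := QuotientGroup.mk_surjective a
  obtain ⟨B, rfl⟩ := QuotientGroup.mk_surjective b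
  rw [psl2_mk_ne_one_iff] at ha hb
  obtain ⟨P, hP⟩ := exists_conj_lower_ne_zero A ha
  obtain ⟨R, hR⟩ := exists_conj_lower_ne_zero B hb
  set A' := P * A * P⁻¹ with hA'
  set B' := R * B * R⁻¹ with hB'
  have hmem : ∀ x : F, IsConj c (QuotientGroup.mk (uu x * A' * (uu x)⁻¹ * B') : Matrix.ProjectiveSpecialLinearGroup (Fin 2) F) := by
    intro x
    have : (QuotientGroup.mk (uu x * A' * (uu x)⁻¹ * B') : Matrix.ProjectiveSpecialLinearGroup (Fin 2) F) ∈
        {g : Matrix.ProjectiveSpecialLinearGroup (Fin 2) F | ∃ u v : Matrix.ProjectiveSpecialLinearGroup (Fin 2) F, g = (u * QuotientGroup.mk A * u⁻¹) * (v * QuotientGroup.mk B * v⁻¹)} := by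
      refine ⟨QuotientGroup.mk (uu x * P), QuotientGroup.mk R, ?_⟩
      simp only [← QuotientGroup.mk_inv, ← QuotientGroup.mk_mul]
      congr 1
      rw [hA', hB']
      group
    rw [heq] at this
    exact this
  have hconj : ∀ x : F, IsConj (QuotientGroup.mk (uu 0 * A' * (uu 0)⁻¹ * B') : Matrix.ProjectiveSpecialLinearGroup (Fin 2) F)
      (QuotientGroup.mk (uu x * A' * (uu x)⁻¹ * B')) := fun x => (hmem 0).symm.trans (hmem x)
  have htr := fun x => psl2_isConj_trace (hconj x)
  simp only [trace_formula] at htr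
  generalize Matrix.trace ((A' * B' : Matrix.SpecialLinearGroup (Fin 2) F) : Matrix (Fin 2) (Fin 2) F) = s at htr
  generalize ((A' : Matrix (Fin 2) (Fin 2) F) 1 0 * (B' : Matrix (Fin 2) (Fin 2) F) 0 0
        + ((A' : Matrix (Fin 2) (Fin 2) F) 1 1 - (A' : Matrix (Fin 2) (Fin 2) F) 0 0) * (B' : Matrix (Fin 2) (Fin 2) F) 1 0
        - (A' : Matrix (Fin 2) (Fin 2) F) 1 0 * (B' : Matrix (Fin 2) (Fin 2) F) 1 1) = k at htr
  have hm : (A' : Matrix (Fin 2) (Fin 2) F) 1 0 * (B' : Matrix (Fin 2) (Fin 2) F) 1 0 ≠ 0 := mul_ne_zero hP hR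
  generalize (A' : Matrix (Fin 2) (Fin 2) F) 1 0 * (B' : Matrix (Fin 2) (Fin 2) F) 1 0 = m at htr hm
  by_cases h2 : (2 : F) = 0
  · -- characteristic two
    have hneg : ∀ y : F, -y = y := by
      intro y
      linear_combination (-y) * h2
    have hall : ∀ x : F, k * x - m * x ^ 2 = 0 := by
      intro x
      rcases htr x with h | h
      · linear_combination h
      · rw [hneg] at h
        linear_combination h
    have hp : (C k * X - C m * X ^ 2 : F[X]) = 0 := by
      apply Polynomial.eq_zero_of_natDegree_lt_card_of_eval_eq_zero' _ (Finset.univ : Finset F)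
      · intro x _
        simpa using hall x
      · rw [Finset.card_univ]
        have : (C k * X - C m * X ^ 2 : F[X]).natDegree ≤ 2 := by compute_degree
        omega
    have := congrArg (fun p => Polynomial.coeff p 2) hp
    simp at this
    exact hm this
  · have h5 : 5 ≤ Fintype.card F := by
      rcases Nat.lt_or_ge 4 (Fintype.card F) with h | h
      · exact h
      · exfalso
        have h44 : Fintype.card F = 4 := le_antisymm h h4
        have := Nat.cast_card_eq_zero F
        rw [h44] at this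
        apply h2
        have h22 : (2 : F) * 2 = 0 := by
          norm_num
          exact_mod_cast this
        exact mul_self_eq_zero.1 h22
    have hall : ∀ x : F, (k * x - m * x ^ 2) * (2 * s + k * x - m * x ^ 2) = 0 := by
      intro x
      rcases htr x with h | h
      · have : k * x - m * x ^ 2 = 0 := by linear_combination h
        rw [this, zero_mul]
      · have : 2 * s + k * x - m * x ^ 2 = 0 := by linear_combination h
        rw [this, mul_zero]
    have hp : ((C k * X - C m * X ^ 2) * (C (2 * s) + C k * X - C m * X ^ 2) : F[X]) = 0 := by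
      apply Polynomial.eq_zero_of_natDegree_lt_card_of_eval_eq_zero' _ (Finset.univ : Finset F)
      · intro x _
        simpa using hall x
      · rw [Finset.card_univ]
        have : ((C k * X - C m * X ^ 2) * (C (2 * s) + C k * X - C m * X ^ 2) : F[X]).natDegree ≤ 4 := by
          compute_degree
        omega
    rcases mul_eq_zero.1 hp with hp | hp
    · have := congrArg (fun p => Polynomial.coeff p 2) hp
      simp at this
      exact hm this
    · have := congrArg (fun p => Polynomial.coeff p 2) hp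
      simp at this
      exact hm this

end Cfsg.Agent.S2450
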