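import Cfsg.Statements.S2455
import Cfsg.Agent.Lib.Helper41.QuadForm

set_option autoImplicit false
open Cfsg

namespace Cfsg.Agent.S2455

open Cfsg.Agent.Lib.Helper41

theorem main_sl2 {F : Type*} [Field F] [Fintype F] (hodd : Fintype.card F % 2 = 1)
    (X : Matrix.SpecialLinearGroup (Fin 2) F)
    (ht0 : Matrix.trace (X : Matrix (Fin 2) (Fin 2) F) ≠ 0)
    (ht2 : Matrix.trace (X : Matrix (Fin 2) (Fin 2) F) ^ 2 ≠ 4)
    (G : Matrix.SpecialLinearGroup (Fin 2) F)
    (hG : ¬ ((G : Matrix (Fin 2) (Fin 2) F) = 1 ∨ (G : Matrix (Fin 2) (Fin 2) F) = -1))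
    (hs : Matrix.trace (G : Matrix (Fin 2) (Fin 2) F) ≠ 2) :
    ∃ U V : Matrix.SpecialLinearGroup (Fin 2) F, G = (U * X * U⁻¹) * (V * X * V⁻¹) := by
  obtain ⟨δ, hδ, P, hP⟩ := sl2_noncentral_conj_comp' G hG
  obtain ⟨b, d, hbd⟩ := conic_point_odd hodd _ _ ht0 hs
  obtain ⟨Y, Z, hY, hZ, hYZ⟩ := comp'_eq_mul_of_conic _ _ δ hδ b d hbd
  obtain ⟨U, hU⟩ := sl2_conj_of_trace_eq hodd X Y ht2 hY
  obtain ⟨V, hV⟩ := sl2_conj_of_trace_eq hodd X Z ht2 hZ
  refine ⟨P * U, P * V, ?_⟩
  rw [hP, ← hYZ, hU, hV]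
  group

/-- A strong covering result in the direction of Thompson's conjecture (non-identity elements) for PSL(2,q), q odd: let F be a finite field of odd characteristic p with at least 5 elements and let x ∈ PSL(2,F) have order greater than 2 and not divisible by p (so x is not unipotent). Then every non-identity element of PSL(2,F) is a product of two conjugates of x. -/
theorem result {F : Type*} [Field F] [Fintype F] (p : ℕ) [Fact p.Prime] [CharP F p] (hp : p ≠ 2) (h5 : 5 ≤ Fintype.card F)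
    (x : Matrix.ProjectiveSpecialLinearGroup (Fin 2) F) (hx2 : 2 < orderOf x) (hxp : ¬ p ∣ orderOf x) : ∀ g : Matrix.ProjectiveSpecialLinearGroup (Fin 2) F, g ≠ 1 → ∃ u v : Matrix.ProjectiveSpecialLinearGroup (Fin 2) F, g = (u * x * u⁻¹) * (v * x * v⁻¹) := by
  have hodd : Fintype.card F % 2 = 1 := by
    apply FiniteField.odd_card_of_char_ne_two
    rw [ringChar.eq F p]
    exact hp
  have h2 : (2 : F) ≠ 0 := two_ne_zero_of_odd_card hodd
  have hp' : p.Prime := Fact.out
  obtain ⟨X, rfl⟩ := QuotientGroup.mk_surjective x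
  have ht0 : Matrix.trace (X : Matrix (Fin 2) (Fin 2) F) ≠ 0 := by
    intro h
    have h1 := (psl2_pow_eq_one_iff X 2).2 (Or.inr (sl2_sq_of_trace_zero X h))
    have := Nat.le_of_dvd (by norm_num) (orderOf_dvd_of_pow_eq_one h1)
    omega
  have hnop : ¬ ((X : Matrix (Fin 2) (Fin 2) F) ^ p = 1 ∨ (X : Matrix (Fin 2) (Fin 2) F) ^ p = -1) := by
    rw [← psl2_pow_eq_one_iff]
    intro h
    rcases (Nat.dvd_prime hp').1 (orderOf_dvd_of_pow_eq_one h) with h1 | h1
    · omega
    · exact hxp (h1 ▸ dvd_refl _)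
  have ht2 : Matrix.trace (X : Matrix (Fin 2) (Fin 2) F) ^ 2 ≠ 4 := by
    intro h
    have : (Matrix.trace (X : Matrix (Fin 2) (Fin 2) F) - 2) * (Matrix.trace (X : Matrix (Fin 2) (Fin 2) F) + 2) = 0 := by
      linear_combination h
    rcases mul_eq_zero.1 this with h | h
    · exact hnop (Or.inl (sl2_pow_char_of_trace_two p X (by linear_combination h)))
    · exact hnop (Or.inr (sl2_pow_char_of_trace_neg_two p X (by linear_combination h)))
  intro g hg
  obtain ⟨G, rfl⟩ := QuotientGroup.mk_surjective g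
  rw [psl2_mk_ne_one_iff] at hg
  by_cases hs : Matrix.trace (G : Matrix (Fin 2) (Fin 2) F) = 2
  · have hG' : ¬ (((-G : Matrix.SpecialLinearGroup (Fin 2) F) : Matrix (Fin 2) (Fin 2) F) = 1 ∨
        ((-G : Matrix.SpecialLinearGroup (Fin 2) F) : Matrix (Fin 2) (Fin 2) F) = -1) := by
      rw [Matrix.SpecialLinearGroup.coe_neg]
      rintro (h | h)
      · exact hg (Or.inr (by rw [← h, neg_neg]))
      · exact hg (Or.inl (neg_injective h))
    obtain ⟨U, V, hUV⟩ := main_sl2 hodd X ht0 ht2 (-G) hG' (by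
      rw [Matrix.SpecialLinearGroup.coe_neg, Matrix.trace_neg, hs]
      intro h
      have h4 : (2 : F) * 2 = 0 := by linear_combination -h
      exact h2 (mul_self_eq_zero.1 h4))
    refine ⟨QuotientGroup.mk U, QuotientGroup.mk V, ?_⟩
    simp only [← QuotientGroup.mk_inv, ← QuotientGroup.mk_mul]
    rw [← hUV, psl2_mk_eq_iff]
    right
    rw [Matrix.SpecialLinearGroup.coe_neg]
  · obtain ⟨U, V, hUV⟩ := main_sl2 hodd X ht0 ht2 G hg hs
    refine ⟨QuotientGroup.mk U, QuotientGroup.mk V, ?_⟩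
    simp only [← QuotientGroup.mk_inv, ← QuotientGroup.mk_mul]
    rw [← hUV]

end Cfsg.Agent.S2455
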