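import Cfsg.Statements.S2456
import Cfsg.Agent.Lib.Helper41.SL2Eigen

set_option autoImplicit false
open Cfsg

namespace Cfsg.Agent.S2456

open Cfsg.Agent.Lib.Helper41

variable {F : Type*} [Field F] [Fintype F] [CharP F 2]

theorem exists_sqrt (z : F) : ∃ r : F, r ^ 2 = z := by
  obtain ⟨r, hr⟩ := FiniteField.isSquare_of_char_two (ringChar.eq F 2) z
  exact ⟨r, by rw [hr, pow_two]⟩

omit [Fintype F] in
theorem two_eq_zero' : (2 : F) = 0 := CharTwo.two_eq_zero

theorem conj_comp_of_trace (M : Matrix.SpecialLinearGroup (Fin 2) F)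
    (ht : Matrix.trace (M : Matrix (Fin 2) (Fin 2) F) ≠ 0) :
    ∃ P : Matrix.SpecialLinearGroup (Fin 2) F,
      M = P * comp' 1 (Matrix.trace (M : Matrix (Fin 2) (Fin 2) F)) one_ne_zero * P⁻¹ := by
  have h2 : (2 : F) = 0 := two_eq_zero'
  by_cases hc : (M : Matrix (Fin 2) (Fin 2) F) 1 0 = 0
  · by_cases hb : (M : Matrix (Fin 2) (Fin 2) F) 0 1 = 0
    · have had : (M : Matrix (Fin 2) (Fin 2) F) 1 1 - (M : Matrix (Fin 2) (Fin 2) F) 0 0 ≠ 0 := by
        intro h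
        apply ht
        rw [Matrix.trace_fin_two]
        linear_combination h + (M : Matrix (Fin 2) (Fin 2) F) 0 0 * h2
      apply sl2_conj_comp' M 1 ((M : Matrix (Fin 2) (Fin 2) F) 1 1 - (M : Matrix (Fin 2) (Fin 2) F) 0 0)⁻¹ 1 one_ne_zero
      rw [hc, hb]
      field_simp
      ring
    · obtain ⟨r, hr⟩ := exists_sqrt (-((M : Matrix (Fin 2) (Fin 2) F) 0 1)⁻¹)
      apply sl2_conj_comp' M 0 r 1 one_ne_zero
      rw [hr]
      field_simp
      ring
  · obtain ⟨r, hr⟩ := exists_sqrt (((M : Matrix (Fin 2) (Fin 2) F) 1 0)⁻¹)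
    apply sl2_conj_comp' M r 0 1 one_ne_zero
    rw [hr]
    field_simp
    ring

theorem conj_of_trace_eq (M N : Matrix.SpecialLinearGroup (Fin 2) F)
    (ht : Matrix.trace (M : Matrix (Fin 2) (Fin 2) F) ≠ 0)
    (hMN : Matrix.trace (N : Matrix (Fin 2) (Fin 2) F) = Matrix.trace (M : Matrix (Fin 2) (Fin 2) F)) :
    ∃ P : Matrix.SpecialLinearGroup (Fin 2) F, N = P * M * P⁻¹ := by
  obtain ⟨P, hP⟩ := conj_comp_of_trace M ht
  obtain ⟨R, hR⟩ := conj_comp_of_trace N (hMN ▸ ht)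
  refine ⟨R * P⁻¹, ?_⟩
  have : comp' 1 (Matrix.trace (M : Matrix (Fin 2) (Fin 2) F)) one_ne_zero = P⁻¹ * M * P := by
    conv_rhs => rw [hP]
    group
  simp only [hMN] at hR
  rw [hR, this]
  group

theorem conic_point (a : F) (ha : a ≠ 0) (s : F) :
    ∃ b d : F, b ^ 2 + s * b * d + d ^ 2 + (a + a⁻¹) * (1 - s) * b - (a + a⁻¹) * d + 1 = 0 := by
  have h2 : (2 : F) = 0 := two_eq_zero'
  by_cases hs : s = 0
  · refine ⟨a, 0, ?_⟩
    rw [hs]
    field_simp
    linear_combination (a + a ^ 3) * h2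
  · obtain ⟨r, hr⟩ := exists_sqrt
      (-((-(a + a⁻¹) * (1 - s) / s) ^ 2 - (a + a⁻¹) * (-(a + a⁻¹) * (1 - s) / s) + 1))
    refine ⟨r, -(a + a⁻¹) * (1 - s) / s, ?_⟩
    rw [hr]
    field_simp
    ring

theorem main_sl2 (X : Matrix.SpecialLinearGroup (Fin 2) F) (a : F) (ha : a ≠ 0)
    (hta : Matrix.trace (X : Matrix (Fin 2) (Fin 2) F) = a + a⁻¹)
    (ht0 : Matrix.trace (X : Matrix (Fin 2) (Fin 2) F) ≠ 0)
    (G : Matrix.SpecialLinearGroup (Fin 2) F)
    (hG : ¬ ((G : Matrix (Fin 2) (Fin 2) F) = 1 ∨ (G : Matrix (Fin 2) (Fin 2) F) = -1)) :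
    ∃ U V : Matrix.SpecialLinearGroup (Fin 2) F, G = (U * X * U⁻¹) * (V * X * V⁻¹) := by
  obtain ⟨δ, hδ, P, hP⟩ := sl2_noncentral_conj_comp' G hG
  obtain ⟨b, d, hbd⟩ := conic_point a ha (Matrix.trace (G : Matrix (Fin 2) (Fin 2) F))
  obtain ⟨Y, Z, hY, hZ, hYZ⟩ := comp'_eq_mul_of_conic _ _ δ hδ b d hbd
  obtain ⟨U, hU⟩ := conj_of_trace_eq X Y ht0 (hY.trans hta.symm)
  obtain ⟨V, hV⟩ := conj_of_trace_eq X Z ht0 (hZ.trans hta.symm)
  refine ⟨P * U, P * V, ?_⟩
  rw [hP, ← hYZ, hU, hV]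
  group

/-- A strong covering result in the direction of Thompson's conjecture (non-identity elements) for PSL(2,q), q even: let F be a finite field of characteristic 2 with q ≥ 4 elements and let x ∈ PSL(2,F) have order greater than 2 and not dividing q + 1. Then every non-identity element of PSL(2,F) is a product of two conjugates of x. -/
theorem result {F : Type*} [Field F] [Fintype F] [CharP F 2] (h4 : 4 ≤ Fintype.card F)
    (x : Matrix.ProjectiveSpecialLinearGroup (Fin 2) F) (hx2 : 2 < orderOf x) (hxq : ¬ orderOf x ∣ Fintype.card F + 1) : ∀ g : Matrix.ProjectiveSpecialLinearGroup (Fin 2) F, g ≠ 1 → ∃ u v : Matrix.ProjectiveSpecialLinearGroup (Fin 2) F, g = (u * x * u⁻¹) * (v * x * v⁻¹) := by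
  have h2 : (2 : F) = 0 := two_eq_zero'
  obtain ⟨X, rfl⟩ := QuotientGroup.mk_surjective x
  have ht0 : Matrix.trace (X : Matrix (Fin 2) (Fin 2) F) ≠ 0 := by
    intro h
    have h1 := (psl2_pow_eq_one_iff X 2).2 (Or.inr (sl2_sq_of_trace_zero X h))
    have := Nat.le_of_dvd (by norm_num) (orderOf_dvd_of_pow_eq_one h1)
    omega
  obtain ⟨l, hl0, hl⟩ := exists_eigen (L := AlgebraicClosure F) (Matrix.trace (X : Matrix (Fin 2) (Fin 2) F))
  have h2L : (2 : AlgebraicClosure F) = 0 := by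
    rw [← map_ofNat (algebraMap F (AlgebraicClosure F)) 2, h2, map_zero]
  have hne : l ≠ l⁻¹ := by
    intro h
    apply ht0
    apply (algebraMap F (AlgebraicClosure F)).injective
    rw [← hl, ← h, map_zero]
    linear_combination l * h2L
  have hsplit : l ^ Fintype.card F = l := by
    rcases eigen_frobenius _ l hl0 hl with h | h
    · exact h
    · exfalso
      apply hxq
      apply orderOf_dvd_of_pow_eq_one
      have hq1 : l ^ (Fintype.card F + 1) = 1 := by rw [pow_succ, h, inv_mul_cancel₀ hl0]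
      rw [psl2_pow_eq_one_iff_eigen X l hl0 hne hl, ← pow_mul, mul_comm, pow_mul, hq1, one_pow]
  obtain ⟨a, rfl⟩ := mem_range_of_pow_card_eq l hsplit
  have ha : a ≠ 0 := by
    rintro rfl
    simp at hl0
  have hta : Matrix.trace (X : Matrix (Fin 2) (Fin 2) F) = a + a⁻¹ := by
    apply (algebraMap F (AlgebraicClosure F)).injective
    rw [← hl, map_add, map_inv₀]
  intro g hg
  obtain ⟨G, rfl⟩ := QuotientGroup.mk_surjective g
  rw [psl2_mk_ne_one_iff] at hg
  obtain ⟨U, V, hUV⟩ := main_sl2 X a ha hta ht0 G hg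
  refine ⟨QuotientGroup.mk U, QuotientGroup.mk V, ?_⟩
  simp only [← QuotientGroup.mk_inv, ← QuotientGroup.mk_mul]
  rw [← hUV]

end Cfsg.Agent.S2456
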