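import Cfsg.Statements.S2460
import Cfsg.Agent.Lib.Helper37.PSp4.S4H

set_option autoImplicit false
open Cfsg

namespace Cfsg.Agent.S2460

/-- A form of Thompson's conjecture for the simple groups PSp(4,q), q ≥ 3 (covering the non-identity elements), with a semisimple class: for F a finite field of characteristic p with at least 3 elements there is an element x of PSp(4,F) of order prime to p such that every non-identity element of PSp(4,F) is a product of two conjugates of x. -/
theorem result {F : Type*} [Field F] [Fintype F] (p : ℕ) [Fact p.Prime] [CharP F p] (h3 : 3 ≤ Fintype.card F) :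
    ∃ x : Cfsg.PSp 2 F, ¬ p ∣ orderOf x ∧ ∀ g : Cfsg.PSp 2 F, g ≠ 1 → ∃ u v : Cfsg.PSp 2 F, g = (u * x * u⁻¹) * (v * x * v⁻¹) := by
  obtain ⟨d, hd⟩ := Cfsg.Agent.Lib.Helper37.S4.exists_par h3
  refine ⟨QuotientGroup.mk (Cfsg.Agent.Lib.Helper37.S4.xel d hd.h0), ?_, ?_⟩
  · intro h
    apply Cfsg.Agent.Lib.Helper37.S4.order_x p hd
    exact h.trans (orderOf_map_dvd (QuotientGroup.mk' _) _)
  · intro g hg
    obtain ⟨A, rfl⟩ := QuotientGroup.mk_surjective g
    have hA : A ∉ Subgroup.center (Matrix.symplecticGroup (Fin 2) F) := by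
      intro hA
      exact hg ((QuotientGroup.eq_one_iff A).2 hA)
    obtain ⟨z, hz, u, v, huv⟩ := Cfsg.Agent.Lib.Helper37.S4.cover hd A hA
    refine ⟨QuotientGroup.mk u, QuotientGroup.mk v, ?_⟩
    have h1 : (QuotientGroup.mk (z * A) : Cfsg.PSp 2 F) = QuotientGroup.mk A := by
      rw [QuotientGroup.mk_mul, (QuotientGroup.eq_one_iff z).2 hz, one_mul]
    rw [← h1, huv]
    rfl

end Cfsg.Agent.S2460
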