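import Cfsg.Statements.S2466
import Mathlib

set_option autoImplicit false
open Cfsg

namespace Cfsg.Agent.S2466

theorem prime_dvd_multiset_lcm {r : ℕ} (hr : r.Prime) (m : Multiset ℕ) (h : r ∣ m.lcm) :
    ∃ a ∈ m, r ∣ a := by
  induction m using Multiset.induction_on with
  | empty =>
    simp at h
    exact absurd h hr.one_lt.ne'
  | cons a s ih =>
    rw [Multiset.lcm_cons] at h
    rcases (Nat.Prime.dvd_lcm hr).1 h with h | h
    · exact ⟨a, Multiset.mem_cons_self a s, h⟩
    · obtain ⟨b, hb, hrb⟩ := ih h
      exact ⟨b, Multiset.mem_cons_of_mem hb, hrb⟩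

/-- Adjacency of odd primes in the prime graph of the alternating groups: let r ≠ s be odd primes at most n. The alternating group of degree n has an element of order r·s if and only if r + s ≤ n. -/
theorem result (n r s : ℕ) (hr : r.Prime) (hs : s.Prime) (hr2 : r ≠ 2) (hs2 : s ≠ 2) (hrs : r ≠ s) (hrn : r ≤ n) (hsn : s ≤ n) :
    (r * s ∈ Set.range (orderOf : alternatingGroup (Fin n) → ℕ)) ↔ r + s ≤ n := by
  constructor
  · rintro ⟨⟨σ, hσ⟩, h⟩
    rw [Subgroup.orderOf_mk] at h
    have hsum := σ.sum_cycleType_le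
    rw [Fintype.card_fin] at hsum
    have hlcm := σ.lcm_cycleType
    rw [h] at hlcm
    obtain ⟨a, ha, hra⟩ := prime_dvd_multiset_lcm hr σ.cycleType (hlcm ▸ Dvd.intro _ rfl)
    obtain ⟨b, hb, hsb⟩ := prime_dvd_multiset_lcm hs σ.cycleType (hlcm ▸ Dvd.intro_left _ rfl)
    have ha0 : 0 < a := by have := Equiv.Perm.two_le_of_mem_cycleType ha; omega
    have hb0 : 0 < b := by have := Equiv.Perm.two_le_of_mem_cycleType hb; omega
    by_cases hab : a = b
    · subst hab
      have hcop : Nat.Coprime r s := (Nat.coprime_primes hr hs).2 hrs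
      have hdvd : r * s ∣ a := hcop.mul_dvd_of_dvd_of_dvd hra hsb
      have h1 : r * s ≤ a := Nat.le_of_dvd ha0 hdvd
      have h2 : a ≤ σ.cycleType.sum := Multiset.le_sum_of_mem ha
      have h3 : r + s ≤ r * s := by
        have := hr.two_le
        have := hs.two_le
        nlinarith
      omega
    · obtain ⟨t, ht⟩ := Multiset.exists_cons_of_mem ha
      have hb' : b ∈ t := by
        rw [ht] at hb
        rcases Multiset.mem_cons.1 hb with h | h
        · exact absurd h.symm hab
        · exact h
      have h2 : b ≤ t.sum := Multiset.le_sum_of_mem hb'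
      rw [ht, Multiset.sum_cons] at hsum
      have := Nat.le_of_dvd ha0 hra
      have := Nat.le_of_dvd hb0 hsb
      omega
  · intro h
    obtain ⟨g, hg⟩ := (Equiv.Perm.exists_with_cycleType_iff (α := Fin n) (m := {r, s})).2
      ⟨by simpa using h, by
        intro a ha
        simp at ha
        rcases ha with rfl | rfl
        · exact hr.two_le
        · exact hs.two_le⟩
    have hodd_r : Odd r := hr.odd_of_ne_two hr2
    have hodd_s : Odd s := hs.odd_of_ne_two hs2
    have hsign : Equiv.Perm.sign g = 1 := by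
      rw [Equiv.Perm.sign_of_cycleType, hg]
      have : Even (Multiset.sum {r, s} + Multiset.card ({r, s} : Multiset ℕ)) := by
        have h1 : Multiset.sum ({r, s} : Multiset ℕ) = r + s := by simp
        have h2 : Multiset.card ({r, s} : Multiset ℕ) = 2 := by simp
        rw [h1, h2]
        exact (hodd_r.add_odd hodd_s).add (by decide)
      exact this.neg_one_pow
    refine ⟨⟨g, Equiv.Perm.mem_alternatingGroup.2 hsign⟩, ?_⟩
    rw [Subgroup.orderOf_mk, ← Equiv.Perm.lcm_cycleType, hg]
    have hcop : Nat.Coprime r s := (Nat.coprime_primes hr hs).2 hrs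
    have : Multiset.lcm ({r, s} : Multiset ℕ) = Nat.lcm r s := by
      simp [Multiset.insert_eq_cons, lcm_eq_nat_lcm]
    rw [this, hcop.lcm_eq_mul]

end Cfsg.Agent.S2466
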