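import Cfsg.Statements.S2467
import Mathlib

set_option autoImplicit false
open Cfsg

namespace Cfsg.Agent.S2467

theorem prime_dvd_multiset_lcm {r : ℕ} (hr : r.Prime) (m : Multiset ℕ) (h : r ∣ m.lcm) :
    ∃ a ∈ m, r ∣ a := by
  induction m using Multiset.induction_on with
  | empty =>
    simp at h
    exact absurd h hr.one_lt.ne'
  | cons a s ih =>
    rw [Multiset.lcm_cons] at h
    rcases (Nat.Prime.dvd_lcm hr).1 h with h | h
    · exact ⟨a, Multiset.mem_cons_self a s, h⟩
    · obtain ⟨b, hb, hrb⟩ := ih h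
      exact ⟨b, Multiset.mem_cons_of_mem hb, hrb⟩

theorem exists_even_of_odd (t : Multiset ℕ) (h : Odd (t.sum + Multiset.card t)) :
    ∃ b ∈ t, Even b := by
  induction t using Multiset.induction_on with
  | empty => simp at h
  | cons a s ih =>
    by_cases ha : Even a
    · exact ⟨a, Multiset.mem_cons_self a s, ha⟩
    · rw [Multiset.sum_cons, Multiset.card_cons] at h
      have ha' : Odd a := Nat.not_even_iff_odd.1 ha
      have : Odd (s.sum + Multiset.card s) := by
        rcases ha' with ⟨k, hk⟩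
        rcases h with ⟨j, hj⟩
        exact ⟨j - k - 1, by omega⟩
      obtain ⟨b, hb, hb2⟩ := ih this
      exact ⟨b, Multiset.mem_cons_of_mem hb, hb2⟩

/-- Adjacency of 2 and an odd prime in the prime graph of the alternating groups: let r be an odd prime at most n, with n ≥ 4. The alternating group of degree n has an element of order 2r if and only if r + 4 ≤ n. -/
theorem result (n r : ℕ) (hn : 4 ≤ n) (hr : r.Prime) (hr2 : r ≠ 2) (hrn : r ≤ n) :
    (2 * r ∈ Set.range (orderOf : alternatingGroup (Fin n) → ℕ)) ↔ r + 4 ≤ n := by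
  have hodd_r : Odd r := hr.odd_of_ne_two hr2
  have hr3 : 2 ≤ r := hr.two_le
  constructor
  · rintro ⟨⟨σ, hσ⟩, h⟩
    rw [Subgroup.orderOf_mk] at h
    have hsum := σ.sum_cycleType_le
    rw [Fintype.card_fin] at hsum
    have hlcm := σ.lcm_cycleType
    rw [h] at hlcm
    have hsign : Equiv.Perm.sign σ = 1 := Equiv.Perm.mem_alternatingGroup.1 hσ
    rw [Equiv.Perm.sign_of_cycleType] at hsign
    have heven : Even (σ.cycleType.sum + Multiset.card σ.cycleType) := by
      by_contra hne
      rw [Nat.not_even_iff_odd] at hne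
      rw [hne.neg_one_pow] at hsign
      exact absurd hsign (by decide)
    have h2le : ∀ x ∈ σ.cycleType, 2 ≤ x := fun x hx => Equiv.Perm.two_le_of_mem_cycleType hx
    obtain ⟨a, ha, hra⟩ := prime_dvd_multiset_lcm hr σ.cycleType (hlcm ▸ Dvd.intro_left _ rfl)
    obtain ⟨b, hb, hsb⟩ := prime_dvd_multiset_lcm Nat.prime_two σ.cycleType (hlcm ▸ Dvd.intro _ rfl)
    generalize σ.cycleType = m at *
    obtain ⟨t, rfl⟩ := Multiset.exists_cons_of_mem hb
    rw [Multiset.sum_cons, Multiset.card_cons] at heven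
    have hodd : Odd (t.sum + Multiset.card t) := by
      rcases hsb with ⟨k, hk⟩
      rcases heven with ⟨j, hj⟩
      exact ⟨j - k - 1, by omega⟩
    obtain ⟨b', hb', hb'2⟩ := exists_even_of_odd t hodd
    obtain ⟨t', rfl⟩ := Multiset.exists_cons_of_mem hb'
    rw [Multiset.sum_cons, Multiset.sum_cons] at hsum
    have hb2 : 2 ≤ b := h2le b (by simp)
    have hb'2' : 2 ≤ b' := h2le b' (by simp)
    have ha2 : 2 ≤ a := h2le a ha
    have hra' : r ≤ a := Nat.le_of_dvd (by omega) hra
    have key : ∀ c, r ∣ c → 2 ∣ c → 2 ≤ c → 2 * r ≤ c := by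
      intro c h1 h2 h3
      have hcop : Nat.Coprime 2 r := (Nat.coprime_primes Nat.prime_two hr).2 (Ne.symm hr2)
      exact Nat.le_of_dvd (by omega) (hcop.mul_dvd_of_dvd_of_dvd h2 h1)
    simp only [Multiset.mem_cons] at ha
    rcases ha with rfl | rfl | ha
    · have := key a hra hsb ha2
      omega
    · have := key a hra hb'2.two_dvd ha2
      omega
    · have := Multiset.le_sum_of_mem ha
      omega
  · intro h
    obtain ⟨g, hg⟩ := (Equiv.Perm.exists_with_cycleType_iff (α := Fin n) (m := {r, 2, 2})).2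
      ⟨by simp; omega, by
        intro a ha
        simp at ha
        rcases ha with rfl | rfl
        · exact hr.two_le
        · exact le_refl _⟩
    have hsign : Equiv.Perm.sign g = 1 := by
      rw [Equiv.Perm.sign_of_cycleType, hg]
      have : Even (Multiset.sum {r, 2, 2} + Multiset.card ({r, 2, 2} : Multiset ℕ)) := by
        have h1 : Multiset.sum ({r, 2, 2} : Multiset ℕ) = r + 4 := by simp
        have h2 : Multiset.card ({r, 2, 2} : Multiset ℕ) = 3 := by simp
        rw [h1, h2]
        rcases hodd_r with ⟨k, hk⟩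
        exact ⟨k + 4, by omega⟩
      exact this.neg_one_pow
    refine ⟨⟨g, Equiv.Perm.mem_alternatingGroup.2 hsign⟩, ?_⟩
    rw [Subgroup.orderOf_mk, ← Equiv.Perm.lcm_cycleType, hg]
    have hcop : Nat.Coprime r 2 := (Nat.coprime_primes hr Nat.prime_two).2 hr2
    have : Multiset.lcm ({r, 2, 2} : Multiset ℕ) = Nat.lcm r 2 := by
      simp [Multiset.insert_eq_cons, lcm_eq_nat_lcm]
    rw [this, hcop.lcm_eq_mul, mul_comm]

end Cfsg.Agent.S2467
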