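import Cfsg.Statements.S2471
import Cfsg.Agent.Lib.Helper41.SL2Basic

set_option autoImplicit false
open Cfsg

namespace Cfsg.Agent.S2471

open Cfsg.Agent.Lib.Helper41

/-- In PSL(2,q) with q odd, the characteristic p is isolated from 2 in the prime graph: for F a finite field of odd characteristic p with at least 5 elements, PSL(2,F) has no element of order 2p. -/
theorem result {F : Type*} [Field F] [Fintype F] (p : ℕ) [Fact p.Prime] [CharP F p] (hp : p ≠ 2) (h5 : 5 ≤ Fintype.card F) (g : Matrix.ProjectiveSpecialLinearGroup (Fin 2) F) :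
    orderOf g ≠ 2 * p := by
  intro hord
  obtain ⟨A, rfl⟩ := QuotientGroup.mk_surjective g
  have hp' : p.Prime := Fact.out
  have hp2 : 2 ≤ p := hp'.two_le
  have hpodd : Odd p := hp'.odd_of_ne_two hp
  have hdet := sl2_det A
  have hsq := sl2_sq A
  have h1 : (QuotientGroup.mk A : Matrix.ProjectiveSpecialLinearGroup (Fin 2) F) ^ (2 * p) = 1 := by
    rw [← hord]; exact pow_orderOf_eq_one _
  rw [psl2_pow_eq_one_iff] at h1
  -- not of order dividing 2 or p
  have hno2 : ¬ ((A : Matrix (Fin 2) (Fin 2) F) ^ 2 = 1 ∨ (A : Matrix (Fin 2) (Fin 2) F) ^ 2 = -1) := by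
    rw [← psl2_pow_eq_one_iff]
    intro h
    have := orderOf_dvd_of_pow_eq_one h
    rw [hord] at this
    have := Nat.le_of_dvd (by norm_num) this
    omega
  have hnop : ¬ ((A : Matrix (Fin 2) (Fin 2) F) ^ p = 1 ∨ (A : Matrix (Fin 2) (Fin 2) F) ^ p = -1) := by
    rw [← psl2_pow_eq_one_iff]
    intro h
    have := orderOf_dvd_of_pow_eq_one h
    rw [hord] at this
    have := Nat.le_of_dvd (by omega) this
    omega
  generalize (A : Matrix (Fin 2) (Fin 2) F) = M at *
  have h4p : M ^ (4 * p) = 1 := by
    have : M ^ (4 * p) = (M ^ (2 * p)) ^ 2 := by rw [← pow_mul]; ring_nf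
    rw [this]
    rcases h1 with h | h <;> rw [h] <;> simp
  have hnil : (M ^ 4 - 1) ^ p = 0 := by
    rw [sub_pow_char_of_commute p (Commute.one_right _), ← pow_mul, h4p]; simp
  have hdet0 : (M ^ 4 - 1).det = 0 := by
    have := congrArg Matrix.det hnil
    rw [Matrix.det_pow, Matrix.det_zero] at this
    exact pow_eq_zero_iff (by omega) |>.1 this
  set t := M 0 0 + M 1 1 with ht
  have hfac : M ^ 4 - 1 = (M - 1) * (M + 1) * (t • M) := by
    have h2 : M ^ 4 = (M * M) * (M * M) := by noncomm_ring
    have h3 : t • M = M * M + 1 := by rw [hsq]; abel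
    rw [h2, h3]; noncomm_ring
  have hd1 : (M - 1).det = 2 - t := by
    rw [Matrix.det_fin_two]; simp; linear_combination hdet
  have hd2 : (M + 1).det = 2 + t := by
    rw [Matrix.det_fin_two]; simp; linear_combination hdet
  have hd3 : (t • M).det = t ^ 2 := by
    rw [Matrix.det_fin_two]; simp; linear_combination t ^ 2 * hdet
  rw [hfac, Matrix.det_mul, Matrix.det_mul, hd1, hd2, hd3] at hdet0
  rcases mul_eq_zero.1 hdet0 with h | h
  · rcases mul_eq_zero.1 h with h | h
    · -- t = 2
      have ht2 : t = 2 := by linear_combination -h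
      have hs : (M - 1) ^ 2 = 0 := by
        have : (M - 1) ^ 2 = M * M - (2 : F) • M + 1 := by
          rw [two_smul]; noncomm_ring
        rw [this, hsq, ht2]; abel
      have : (M - 1) ^ p = 0 := by
        obtain ⟨k, rfl⟩ := Nat.exists_eq_add_of_le hp2
        rw [pow_add, hs, zero_mul]
      rw [sub_pow_char_of_commute p (Commute.one_right _), one_pow, sub_eq_zero] at this
      exact hnop (Or.inl this)
    · have ht2 : t = -2 := by linear_combination h
      have hs : (M + 1) ^ 2 = 0 := by
        have : (M + 1) ^ 2 = M * M + (2 : F) • M + 1 := by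
          rw [two_smul]; noncomm_ring
        rw [this, hsq, ht2, neg_smul]; abel
      have : (M + 1) ^ p = 0 := by
        obtain ⟨k, rfl⟩ := Nat.exists_eq_add_of_le hp2
        rw [pow_add, hs, zero_mul]
      rw [add_pow_char_of_commute p (Commute.one_right _), one_pow] at this
      exact hnop (Or.inr (eq_neg_of_add_eq_zero_left this))
  · have ht0 : t = 0 := pow_eq_zero_iff (by norm_num) |>.1 h
    apply hno2
    right
    rw [pow_two, hsq, ht0]; simp

end Cfsg.Agent.S2471
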