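import Cfsg.Statements.S2485
import Mathlib

set_option autoImplicit false
open Cfsg
open scoped Pointwise MatrixGroups

namespace Cfsg.Agent.S2485

section general

variable {F : Type*} [Field F]

/-- the matrix `J` with `J² = -1` -/
def Jm : Matrix (Fin 2) (Fin 2) F := !![0, -1; 1, 0]

/-- the normaliser of the non-split torus `F[J]ˣ` -/
def NN (F : Type*) [Field F] : Subgroup (GL (Fin 2) F) where
  carrier := {g | g.val * Jm = Jm * g.val ∨ g.val * Jm = -(Jm * g.val)}
  mul_mem' := by
    intro g h hg hh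
    simp only [Set.mem_ofPred_eq, Units.val_mul] at *
    rcases hg with hg | hg <;> rcases hh with hh | hh
    · left; rw [mul_assoc, hh, ← mul_assoc, hg, mul_assoc]
    · right; rw [mul_assoc, hh, mul_neg, ← mul_assoc, hg, mul_assoc]
    · right; rw [mul_assoc, hh, ← mul_assoc, hg, neg_mul, mul_assoc]
    · left; rw [mul_assoc, hh, mul_neg, ← mul_assoc, hg, neg_mul, neg_neg, mul_assoc]
  one_mem' := by left; simp
  inv_mem' := by
    intro g hg
    simp only [Set.mem_ofPred_eq] at *
    have h1 : (g⁻¹).val * g.val = 1 := by rw [← Units.val_mul, inv_mul_cancel, Units.val_one]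
    have h2 : g.val * (g⁻¹).val = 1 := by rw [← Units.val_mul, mul_inv_cancel, Units.val_one]
    rcases hg with hg | hg
    · left
      calc (g⁻¹).val * Jm = (g⁻¹).val * (Jm * g.val) * (g⁻¹).val := by
            rw [mul_assoc, mul_assoc, h2, mul_one]
        _ = Jm * (g⁻¹).val := by rw [← hg, ← mul_assoc, h1, one_mul]
    · right
      calc (g⁻¹).val * Jm = (g⁻¹).val * (Jm * g.val) * (g⁻¹).val := by
            rw [mul_assoc, mul_assoc, h2, mul_one]
        _ = -(Jm * (g⁻¹).val) := by
            have hg' : Jm * g.val = -(g.val * Jm) := by rw [hg, neg_neg]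
            rw [hg', mul_neg, neg_mul, ← mul_assoc, h1, one_mul]

theorem mem_NN_iff (g : GL (Fin 2) F) : g ∈ NN F ↔
    (g.val 0 0 = g.val 1 1 ∧ g.val 0 1 = - g.val 1 0) ∨ (g.val 0 0 = - g.val 1 1 ∧ g.val 0 1 = g.val 1 0) := by
  change (g.val * Jm = Jm * g.val ∨ g.val * Jm = -(Jm * g.val)) ↔ _
  have e := Matrix.eta_fin_two g.val
  generalize g.val 0 0 = a at *
  generalize g.val 0 1 = b at *
  generalize g.val 1 0 = c at *
  generalize g.val 1 1 = d at *
  rw [e, Jm]
  simp only [Matrix.mul_fin_two]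
  constructor
  · rintro (h | h)
    · left
      have h1 := congrFun (congrFun h 0) 0
      have h2 := congrFun (congrFun h 1) 0
      simp at h1 h2
      exact ⟨h2.symm, h1⟩
    · right
      have h1 := congrFun (congrFun h 0) 0
      have h2 := congrFun (congrFun h 1) 0
      simp at h1 h2
      exact ⟨by rw [h2, neg_neg], h1⟩
  · rintro (⟨h1, h2⟩ | ⟨h1, h2⟩)
    · left
      subst h1 h2
      ext i j
      fin_cases i <;> fin_cases j <;> simp
    · right
      subst h1 h2
      ext i j
      fin_cases i <;> fin_cases j <;> simp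

variable (hsq : ¬ IsSquare (-1 : F))

include hsq in
theorem sq_add_sq_ne_zero (v : F × F) (hv : v ≠ 0) : v.1 ^ 2 + v.2 ^ 2 ≠ 0 := by
  intro h
  by_cases hb : v.2 = 0
  · rw [hb] at h
    simp at h
    exact hv (Prod.ext h hb)
  · apply hsq
    refine ⟨v.1 / v.2, ?_⟩
    field_simp
    linear_combination -h

/-- torus elements -/
noncomputable def psi0 (v : {v : F × F // v ≠ 0}) : GL (Fin 2) F :=
  Matrix.GeneralLinearGroup.mkOfDetNeZero !![v.1.1, -v.1.2; v.1.2, v.1.1] (by
    have := sq_add_sq_ne_zero hsq v.1 v.2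
    rw [Matrix.det_fin_two_of]
    intro h
    apply this
    linear_combination h)

/-- elements inverting the torus -/
noncomputable def psi1 (v : {v : F × F // v ≠ 0}) : GL (Fin 2) F :=
  Matrix.GeneralLinearGroup.mkOfDetNeZero !![v.1.1, v.1.2; v.1.2, -v.1.1] (by
    have := sq_add_sq_ne_zero hsq v.1 v.2
    rw [Matrix.det_fin_two_of]
    intro h
    apply this
    linear_combination -h)

theorem psi0_val (v : {v : F × F // v ≠ 0}) : (psi0 hsq v).val = !![v.1.1, -v.1.2; v.1.2, v.1.1] := rfl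
theorem psi1_val (v : {v : F × F // v ≠ 0}) : (psi1 hsq v).val = !![v.1.1, v.1.2; v.1.2, -v.1.1] := rfl

theorem psi_injective (h2 : (2 : F) ≠ 0) : Function.Injective (Sum.elim (psi0 hsq) (psi1 hsq)) := by
  apply Function.Injective.sumElim
  · intro v w h
    have h' := congrArg Units.val h
    rw [psi0_val, psi0_val] at h'
    have h1 := congrFun (congrFun h' 0) 0
    have h2 := congrFun (congrFun h' 1) 0
    simp at h1 h2
    exact Subtype.ext (Prod.ext h1 h2)
  · intro v w h
    have h' := congrArg Units.val h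
    rw [psi1_val, psi1_val] at h'
    have h1 := congrFun (congrFun h' 0) 0
    have h2 := congrFun (congrFun h' 1) 0
    simp at h1 h2
    exact Subtype.ext (Prod.ext h1 h2)
  · intro v w h
    have h' := congrArg Units.val h
    rw [psi0_val, psi1_val] at h'
    have h1 := congrFun (congrFun h' 0) 0
    have h3 := congrFun (congrFun h' 1) 0
    have h4 := congrFun (congrFun h' 0) 1
    have h5 := congrFun (congrFun h' 1) 1
    simp at h1 h3 h4 h5
    apply v.2
    have ha : v.1.1 = 0 := by
      have : 2 * v.1.1 = 0 := by linear_combination h5 + h1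
      exact (mul_eq_zero.1 this).resolve_left h2
    have hb : v.1.2 = 0 := by
      have : 2 * v.1.2 = 0 := by linear_combination h3 - h4
      exact (mul_eq_zero.1 this).resolve_left h2
    exact Prod.ext ha hb

theorem NN_eq_range : (NN F : Set (GL (Fin 2) F)) = Set.range (Sum.elim (psi0 hsq) (psi1 hsq)) := by
  ext g
  rw [Set.Sum.elim_range, SetLike.mem_coe, mem_NN_iff]
  have hg0 : g.val ≠ 0 := by
    intro h
    have := g.isUnit
    rw [h] at this
    exact not_isUnit_zero this
  constructor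
  · rintro (⟨h1, h2⟩ | ⟨h1, h2⟩)
    · left
      refine ⟨⟨(g.val 0 0, g.val 1 0), ?_⟩, ?_⟩
      · intro h
        apply hg0
        have ha : g.val 0 0 = 0 := congrArg Prod.fst h
        have hb : g.val 1 0 = 0 := congrArg Prod.snd h
        ext i j
        fin_cases i <;> fin_cases j <;> simp [ha, hb, h2, ← h1]
      · apply Units.ext
        rw [psi0_val]
        ext i j
        fin_cases i <;> fin_cases j <;> simp [h2, ← h1]
    · right
      refine ⟨⟨(g.val 0 0, g.val 1 0), ?_⟩, ?_⟩
      · intro h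
        apply hg0
        have ha : g.val 0 0 = 0 := congrArg Prod.fst h
        have hb : g.val 1 0 = 0 := congrArg Prod.snd h
        have hd : g.val 1 1 = 0 := by rw [ha] at h1; exact neg_eq_zero.1 h1.symm
        ext i j
        fin_cases i <;> fin_cases j <;> simp [ha, hb, h2, hd]
      · apply Units.ext
        rw [psi1_val]
        ext i j
        fin_cases i <;> fin_cases j <;> simp [h2, h1]
  · rintro (⟨v, rfl⟩ | ⟨v, rfl⟩)
    · left; rw [psi0_val]; simp
    · right; rw [psi1_val]; simp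

theorem anticomm (x y e f g : F) (h : 2 * x * e + y * (f + g) = 0) :
    !![x, y; y, -x] * !![e, f; g, -e] = -(!![e, f; g, -e] * !![x, y; y, -x]) := by
  simp only [Matrix.mul_fin_two]
  ext i j
  fin_cases i <;> fin_cases j <;> simp
  · linear_combination h
  · ring
  · ring
  · linear_combination h

include hsq in
theorem claimB (h2 : (2 : F) ≠ 0) (W : GL (Fin 2) F) :
    ∃ M : GL (Fin 2) F, M ∈ NN F ∧ W⁻¹ * M * W ∈ NN F ∧ M ∉ Subgroup.center (GL (Fin 2) F) := by
  have h1 : (W⁻¹).val * W.val = 1 := by rw [← Units.val_mul, inv_mul_cancel, Units.val_one]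
  have h1' : W.val * (W⁻¹).val = 1 := by rw [← Units.val_mul, mul_inv_cancel, Units.val_one]
  obtain ⟨e, f, g, d, hJ'⟩ : ∃ e f g d : F, W.val * Jm * (W⁻¹).val = !![e, f; g, d] :=
    ⟨_, _, _, _, Matrix.eta_fin_two _⟩
  have htr : e + d = 0 := by
    have : Matrix.trace (W.val * Jm * (W⁻¹).val) = 0 := by
      rw [Matrix.trace_mul_comm, ← mul_assoc, h1, one_mul, Jm, Matrix.trace_fin_two_of]; simp
    rw [hJ', Matrix.trace_fin_two_of] at this
    exact this
  have hd : d = -e := by linear_combination htr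
  subst hd
  obtain ⟨v, hv⟩ : ∃ v : {v : F × F // v ≠ 0}, 2 * v.1.1 * e + v.1.2 * (f + g) = 0 := by
    by_cases h : ((f + g, -2 * e) : F × F) = 0
    · refine ⟨⟨(1, 0), by simp⟩, ?_⟩
      have ha : -2 * e = 0 := congrArg Prod.snd h
      simp only
      linear_combination -ha
    · exact ⟨⟨(f + g, -2 * e), h⟩, by simp only; ring⟩
  refine ⟨psi1 hsq v, ?_, ?_, ?_⟩
  · rw [mem_NN_iff, psi1_val]; right; simp
  · right
    have hac := anticomm v.1.1 v.1.2 e f g hv
    rw [← psi1_val hsq, ← hJ'] at hac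
    simp only [Units.val_mul]
    calc (W⁻¹).val * (psi1 hsq v).val * W.val * Jm
        = (W⁻¹).val * ((psi1 hsq v).val * (W.val * Jm * (W⁻¹).val)) * W.val := by
          simp only [mul_assoc]; rw [h1, mul_one]
      _ = -(Jm * ((W⁻¹).val * (psi1 hsq v).val * W.val)) := by
          rw [hac]
          simp only [mul_neg, neg_mul, mul_assoc]
          rw [← mul_assoc (W⁻¹).val W.val, h1, one_mul]
  · rw [Matrix.GeneralLinearGroup.mem_center_iff_val_mem_range_scalar, psi1_val]
    rintro ⟨r, hr⟩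
    have e00 := congrFun (congrFun hr 0) 0
    have e01 := congrFun (congrFun hr 0) 1
    have e11 := congrFun (congrFun hr 1) 1
    simp at e00 e01 e11
    apply v.2
    have ha : v.1.1 = 0 := by
      have : 2 * v.1.1 = 0 := by linear_combination e11 - e00
      exact (mul_eq_zero.1 this).resolve_left h2
    exact Prod.ext ha e01.symm

section finite

variable [Fintype F]

include hsq in
theorem card_NN (h2 : (2 : F) ≠ 0) : Nat.card (NN F) = 2 * (Fintype.card F ^ 2 - 1) := by
  classical
  have h1 : Nat.card (NN F) = Nat.card (Set.range (Sum.elim (psi0 hsq) (psi1 hsq))) :=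
    Nat.card_congr (Equiv.setCongr (NN_eq_range hsq))
  rw [h1, Nat.card_range_of_injective (psi_injective hsq h2), Nat.card_sum]
  have h3 : Nat.card {v : F × F // v ≠ 0} = Fintype.card F ^ 2 - 1 := by
    rw [Nat.card_eq_fintype_card, Fintype.card_subtype_compl, Fintype.card_subtype_eq,
      Fintype.card_prod, pow_two]
  rw [h3]; ring

theorem card_center : Nat.card (Subgroup.center (GL (Fin 2) F)) = Fintype.card F - 1 := by
  rw [Matrix.GeneralLinearGroup.center_eq_range_scalar]
  have hinj : Function.Injective (Matrix.GeneralLinearGroup.scalar (Fin 2) : Fˣ →* GL (Fin 2) F) := by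
    intro a b h
    have h' := congrArg Units.val h
    have := congrFun (congrFun h' 0) 0
    simp at this
    exact Units.ext this
  rw [← Nat.card_congr (MonoidHom.ofInjective hinj).toEquiv, Nat.card_units, Nat.card_eq_fintype_card]

end finite

end general

/-- Let q = 2^k − 1 ≥ 7 be a prime and let G = PGL(2,q), the general linear group of degree 2 over the field with q elements modulo its centre. Then any two Sylow 2-subgroups of G have a non-trivial intersection: for a Sylow 2-subgroup H and every x ∈ G, H ∩ H^x ≠ 1. -/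
theorem result {q k : ℕ} [Fact q.Prime] (hk : q + 1 = 2 ^ k) (hq : 7 ≤ q)
    (H : Sylow 2 (GL (Fin 2) (ZMod q) ⧸ Subgroup.center (GL (Fin 2) (ZMod q))))
    (x : GL (Fin 2) (ZMod q) ⧸ Subgroup.center (GL (Fin 2) (ZMod q))) :
    (H : Subgroup (GL (Fin 2) (ZMod q) ⧸ Subgroup.center (GL (Fin 2) (ZMod q)))) ⊓ MulAut.conj x • (H : Subgroup _) ≠ ⊥ := by
  have hk3 : 3 ≤ k := by
    by_contra h
    have h' : k ≤ 2 := by omega
    have : 2 ^ k ≤ 2 ^ 2 := Nat.pow_le_pow_right (by norm_num) h'
    omega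
  obtain ⟨j, rfl⟩ : ∃ j, k = j + 2 := ⟨k - 2, by omega⟩
  have hj1 : 1 ≤ j := by omega
  have hq4 : q % 4 = 3 := by
    have : 2 ^ (j + 2) = 4 * 2 ^ j := by ring
    omega
  have hsq : ¬ IsSquare (-1 : ZMod q) := by
    rw [ZMod.exists_sq_eq_neg_one_iff]; simp [hq4]
  have h2 : (2 : ZMod q) ≠ 0 := by
    intro h
    have h' : ((2 : ℕ) : ZMod q) = 0 := by exact_mod_cast h
    rw [ZMod.natCast_eq_zero_iff] at h'
    have := Nat.le_of_dvd (by norm_num) h'
    omega
  have hfin : Finite (GL (Fin 2) (ZMod q)) := inferInstance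
  revert H x
  set Z := Subgroup.center (GL (Fin 2) (ZMod q)) with hZdef
  intro H x
  set π := QuotientGroup.mk' Z with hπ
  have hπs : Function.Surjective π := QuotientGroup.mk'_surjective Z
  set K := (NN (ZMod q)).map π with hK
  -- cardinalities
  have cardG : Nat.card (GL (Fin 2) (ZMod q)) = (q ^ 2 - 1) * (q ^ 2 - q) := by
    rw [Matrix.card_GL_field, Fin.prod_univ_two, ZMod.card]; simp
  have cardN : Nat.card (NN (ZMod q)) = 2 * (q ^ 2 - 1) := by
    rw [card_NN hsq h2, ZMod.card]
  have cardZ : Nat.card Z = q - 1 := by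
    rw [hZdef, card_center, ZMod.card]
  have hGZ := Subgroup.card_eq_card_quotient_mul_card_subgroup Z
  have hZN : Z ≤ NN (ZMod q) := by
    intro g hg
    rw [hZdef, Matrix.GeneralLinearGroup.mem_center_iff_val_mem_range_scalar] at hg
    obtain ⟨r, hr⟩ := hg
    rw [mem_NN_iff, ← hr]
    left; simp
  have hcomap : K.comap π = NN (ZMod q) := by
    apply Subgroup.comap_map_eq_self
    rw [hπ, QuotientGroup.ker_mk']
    exact hZN
  have hidx : K.index = (NN (ZMod q)).index := by
    rw [← hcomap, Subgroup.index_comap_of_surjective K hπs]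
  have hKi := Subgroup.card_mul_index K
  have hNi := Subgroup.card_mul_index (NN (ZMod q))
  have hi0 : (NN (ZMod q)).index ≠ 0 := Subgroup.index_ne_zero_of_finite
  have e1 : q ^ 2 - 1 = (q + 1) * (q - 1) := by
    have := Nat.sq_sub_sq q 1
    simpa using this
  have e2 : q ^ 2 - q = q * (q - 1) := by
    rw [pow_two, Nat.mul_sub_one]
  have hz0 : 0 < q - 1 := by omega
  have cardK : Nat.card K = 2 ^ (j + 3) := by
    rw [hidx] at hKi
    rw [cardN, e1] at hNi
    rw [← hNi, ← hKi, cardZ] at hGZ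
    have h3 : (2 * (q + 1)) * ((NN (ZMod q)).index * (q - 1)) = Nat.card K * ((NN (ZMod q)).index * (q - 1)) := by
      linarith
    have h4 := Nat.eq_of_mul_eq_mul_right (Nat.mul_pos (Nat.pos_of_ne_zero hi0) hz0) h3
    rw [← h4, hk]; ring
  have cardQ : Nat.card (GL (Fin 2) (ZMod q) ⧸ Z) = 2 ^ (j + 3) * (q * (2 ^ (j + 1) - 1)) := by
    rw [cardG, e1, e2, cardZ] at hGZ
    have h3 : ((q + 1) * (q * (q - 1))) * (q - 1) = Nat.card (GL (Fin 2) (ZMod q) ⧸ Z) * (q - 1) := by
      linarith
    have h4 := Nat.eq_of_mul_eq_mul_right hz0 h3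
    rw [← h4, hk]
    have h5 : q - 1 = 2 * (2 ^ (j + 1) - 1) := by
      have : 2 ^ (j + 2) = 2 * 2 ^ (j + 1) := by ring
      have : 1 ≤ 2 ^ (j + 1) := Nat.one_le_two_pow
      omega
    rw [h5]; ring
  have hodd : Odd (q * (2 ^ (j + 1) - 1)) := by
    apply Odd.mul
    · rw [Nat.odd_iff]; omega
    · have : 2 ^ (j + 1) = 2 * 2 ^ j := by ring
      have : 1 ≤ 2 ^ j := Nat.one_le_two_pow
      rw [Nat.odd_iff]; omega
  -- K is a Sylow subgroup
  obtain ⟨P, hKP⟩ := IsPGroup.exists_le_sylow (IsPGroup.of_card cardK)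
  obtain ⟨n, hn⟩ := (IsPGroup.iff_card (p := 2)).1 P.2
  have hPK : K = (P : Subgroup _) := by
    apply Subgroup.eq_of_le_of_card_ge hKP
    have hdvd : Nat.card (P : Subgroup (GL (Fin 2) (ZMod q) ⧸ Z)) ∣ Nat.card (GL (Fin 2) (ZMod q) ⧸ Z) :=
      Subgroup.card_subgroup_dvd_card _
    rw [cardQ, hn] at hdvd
    have hcop : Nat.Coprime (2 ^ n) (q * (2 ^ (j + 1) - 1)) :=
      Nat.Coprime.pow_left n (Nat.coprime_two_left.2 hodd)
    have := Nat.le_of_dvd (by positivity) (hcop.dvd_of_dvd_mul_right hdvd)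
    rw [hn, cardK]
    exact this
  obtain ⟨y, hy⟩ := MulAction.exists_smul_eq (GL (Fin 2) (ZMod q) ⧸ Z) P H
  have hH : (H : Subgroup (GL (Fin 2) (ZMod q) ⧸ Z)) = MulAut.conj y • K := by
    rw [← hy, Sylow.coe_subgroup_smul, hPK]
  obtain ⟨W, hW⟩ := hπs (y⁻¹ * x * y)
  obtain ⟨M, hM1, hM2, hM3⟩ := claimB hsq h2 W
  intro hbot
  have hmem : y * π M * y⁻¹ ∈ (H : Subgroup (GL (Fin 2) (ZMod q) ⧸ Z)) ⊓ MulAut.conj x • (H : Subgroup _) := by
    rw [hH]
    refine Subgroup.mem_inf.2 ⟨?_, ?_⟩
    · rw [Subgroup.mem_pointwise_smul_iff_inv_smul_mem, MulAut.smul_def, MulAut.conj_inv_apply]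
      have : y⁻¹ * (y * π M * y⁻¹) * y = π M := by group
      rw [this]
      exact Subgroup.mem_map_of_mem π hM1
    · rw [Subgroup.mem_pointwise_smul_iff_inv_smul_mem, Subgroup.mem_pointwise_smul_iff_inv_smul_mem,
        MulAut.smul_def, MulAut.smul_def, MulAut.conj_inv_apply, MulAut.conj_inv_apply]
      have : y⁻¹ * (x⁻¹ * (y * π M * y⁻¹) * x) * y = π (W⁻¹ * M * W) := by
        rw [map_mul, map_mul, map_inv, hW]; group
      rw [this]
      exact Subgroup.mem_map_of_mem π hM2
  rw [hbot, Subgroup.mem_bot] at hmem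
  apply hM3
  have h1 : π M = 1 := by
    have : π M = y⁻¹ * (y * π M * y⁻¹) * y := by group
    rw [this, hmem]; group
  rw [hπ, QuotientGroup.mk'_apply, QuotientGroup.eq_one_iff] at h1
  exact h1

end Cfsg.Agent.S2485
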