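-- Statement S2486 (row 2486): two Sylow 2-subgroups of an extension SL(n,2).2 meet non-trivially.
-- Proof: the elements a of N with U ∩ aUa⁻¹ = 1 form one (U,U)-double coset (Bruhat decomposition).
import Cfsg.Statements.S2486
import Cfsg.Agent.Lib.Helper25.Opp.T
import Cfsg.Agent.Lib.Helper25.Opp.C
import Cfsg.Agent.Lib.Helper25.Opp.W

set_option autoImplicit false
open scoped Pointwise
open Cfsg

namespace Cfsg.Agent.S2486

open Cfsg.Agent.Lib.Helper25.Opp Cfsg.Agent.Lib.Helper39.Stbg in
/-- Let n ≥ 4 and let G be a finite group with a normal subgroup N of index 2 isomorphic to SL(n,2) and with trivial centralizer in G (so G is the extension of the simple group L_n(2) by its inverse-transpose automorphism, its full automorphism group). Then any two Sylow 2-subgroups of G have a non-trivial intersection: for a Sylow 2-subgroup H and every x ∈ G, H ∩ H^x ≠ 1. -/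
theorem result {G : Type*} [Group G] [Finite G] {n : ℕ} (hn : 4 ≤ n) (N : Subgroup G) [N.Normal]
    (e : N ≃* Matrix.SpecialLinearGroup (Fin n) (ZMod 2)) (hidx : N.index = 2)
    (hC : Subgroup.centralizer (N : Set G) = ⊥)
    (H : Sylow 2 G) (x : G) :
    (H : Subgroup G) ⊓ MulAut.conj x • (H : Subgroup G) ≠ ⊥ := by
  apply pieceA N hidx H
  obtain ⟨f⟩ := pieceE n
  obtain ⟨h1, h2⟩ := pieceS N H
  obtain ⟨h3, h4⟩ := pieceC n
  set g : Matrix.GeneralLinearGroup (Fin n) (ZMod 2) ≃* N := (e.trans f).symm with hg
  have h5 : OneOpp ((borel (ZMod 2) n).map g.toMonoidHom) := pieceT g _ pieceB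
  refine pieceD 2 _ _ ?_ ?_ h1 h2 h5
  · exact h3.map _
  · have : ((borel (ZMod 2) n).map g.toMonoidHom).index = (borel (ZMod 2) n).index := by
      apply Subgroup.index_map_of_bijective g.bijective
    rw [this]
    exact h4

end Cfsg.Agent.S2486
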