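import Cfsg.Statements.S2487
import Mathlib
import Cfsg.Agent.Lib.Helper44.Transport
import Cfsg.Agent.Lib.Helper44.Eichler
import Cfsg.Agent.Lib.Helper44.StdForms

set_option autoImplicit false
open Cfsg

namespace Cfsg.Agent.S2487

open QuadraticMap Cfsg.Agent.Lib.Helper44
open scoped Pointwise

/-- group-theoretic reduction -/
theorem sylow_inf_ne_bot {G : Type*} [Group G] [Finite G] (p : ℕ) [Fact p.Prime] (K : Subgroup G)
    (hK : IsPGroup p K) (h : ∀ x : G, ∃ r ∈ K, r ≠ 1 ∧ x⁻¹ * r * x ∈ K) (H : Sylow p G) (x : G) :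
    (H : Subgroup G) ⊓ MulAut.conj x • (H : Subgroup G) ≠ ⊥ := by
  obtain ⟨P0, hP0⟩ := hK.exists_le_sylow
  obtain ⟨y, hy⟩ := MulAction.exists_smul_eq G P0 H
  obtain ⟨r, hrK, hr1, hr2⟩ := h (y⁻¹ * x * y)
  have hH : (H : Subgroup G) = MulAut.conj y • (P0 : Subgroup G) := by
    rw [← hy]; rfl
  intro hbot
  have hmem : y * r * y⁻¹ ∈ (H : Subgroup G) ⊓ MulAut.conj x • (H : Subgroup G) := by
    constructor
    · rw [hH]
      exact ⟨r, hP0 hrK, rfl⟩
    · change y * r * y⁻¹ ∈ MulAut.conj x • (H : Subgroup G)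
      rw [hH, Subgroup.mem_pointwise_smul_iff_inv_smul_mem, Subgroup.mem_pointwise_smul_iff_inv_smul_mem]
      simp only [MulAut.smul_def, MulAut.inv_apply, MulAut.conj_symm_apply]
      have := hP0 hr2
      convert this using 1
      group
  rw [hbot, Subgroup.mem_bot] at hmem
  apply hr1
  have : r = y⁻¹ * (y * r * y⁻¹) * y := by group
  rw [this, hmem]; group

section geom
variable {F : Type*} [Field F] {k : ℕ}

/-- the first `k` basis vectors -/
def E (F : Type*) [Field F] {k : ℕ} (i : Fin k) : Fin (k + 1) ⊕ Fin (k + 1) → F :=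
  Pi.single (Sum.inl i.castSucc) 1
def em (F : Type*) [Field F] (k : ℕ) : Fin (k + 1) ⊕ Fin (k + 1) → F :=
  Pi.single (Sum.inl (Fin.last k)) 1
def fm (F : Type*) [Field F] (k : ℕ) : Fin (k + 1) ⊕ Fin (k + 1) → F :=
  Pi.single (Sum.inr (Fin.last k)) 1

/-- membership in the perp of the span of the `E i` -/
def InB (v : Fin (k + 1) ⊕ Fin (k + 1) → F) : Prop := ∀ i : Fin k, v (Sum.inr i.castSucc) = 0

theorem Q_of_InB (v : Fin (k + 1) ⊕ Fin (k + 1) → F) (hv : InB v) :
    plusQF (k + 1) F v = v (Sum.inl (Fin.last k)) * v (Sum.inr (Fin.last k)) := by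
  rw [plusQF_apply, Fin.sum_univ_castSucc]
  simp [hv _]

theorem polar_of_InB (v w : Fin (k + 1) ⊕ Fin (k + 1) → F) (hv : InB v) (hw : InB w) :
    polar (plusQF (k + 1) F) v w = v (Sum.inl (Fin.last k)) * w (Sum.inr (Fin.last k)) +
      w (Sum.inl (Fin.last k)) * v (Sum.inr (Fin.last k)) := by
  rw [plusQF_polar, Fin.sum_univ_castSucc]
  simp [hv _, hw _]

theorem decomp (v : Fin (k + 1) ⊕ Fin (k + 1) → F) (hv : InB v) :
    v = (∑ i : Fin k, v (Sum.inl i.castSucc) • E F i) + v (Sum.inl (Fin.last k)) • em F k +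
      v (Sum.inr (Fin.last k)) • fm F k := by
  ext j
  rcases j with j | j
  · refine Fin.lastCases ?_ (fun j => ?_) j
    · simp [E, em, fm, Finset.sum_apply, Pi.single_apply]
    · simp [E, em, fm, Finset.sum_apply, Pi.single_apply, Fin.castSucc_inj]
  · refine Fin.lastCases ?_ (fun j => ?_) j
    · simp [E, em, fm, Finset.sum_apply, Pi.single_apply]
    · simp [E, em, fm, Finset.sum_apply, Pi.single_apply, hv j]

theorem exists_common
    (y : (Fin (k + 1) ⊕ Fin (k + 1) → F) ≃ₗ[F] (Fin (k + 1) ⊕ Fin (k + 1) → F)) :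
    ∃ r ∈ OQ (plusQF (k + 1) F), r ≠ 1 ∧ (∀ i : Fin k, r (E F i) = E F i) ∧
      (∀ i : Fin k, r (y (E F i)) = y (E F i)) := by
  set Q := plusQF (k + 1) F with hQ
  let L : (Fin (k + 1) ⊕ Fin (k + 1) → F) →ₗ[F] (Fin k → F) × (Fin k → F) :=
    LinearMap.prod (LinearMap.pi fun i => polarBilin Q (E F i))
      (LinearMap.pi fun i => polarBilin Q (y (E F i)))
  have hL : ∀ v, v ∈ LinearMap.ker L ↔
      (∀ i, polar Q (E F i) v = 0) ∧ (∀ i, polar Q (y (E F i)) v = 0) := by
    intro v
    simp [L, LinearMap.mem_ker, Prod.ext_iff, funext_iff]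
  have hdim : 1 < Module.finrank F (LinearMap.ker L) := by
    have h1 := LinearMap.finrank_range_add_finrank_ker L
    have h2 := Submodule.finrank_le (LinearMap.range L)
    simp only [Module.finrank_prod, Module.finrank_fintype_fun_eq_card, Fintype.card_fin,
      Fintype.card_sum] at h1 h2
    omega
  have hsep : ∀ u : Fin (k + 1) ⊕ Fin (k + 1) → F, u ≠ 0 → ∃ x, polar Q u x ≠ 0 := by
    intro u hu
    by_contra hcon
    push Not at hcon
    exact hu ((plusQF_nondeg (k + 1) F).1 u hcon)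
  by_cases hns : ∃ v ∈ LinearMap.ker L, Q v ≠ 0
  · obtain ⟨v, hv, hQv⟩ := hns
    rw [hL] at hv
    refine ⟨refl Q v, refl_mem Q v, ?_, ?_, ?_⟩
    · intro h1
      have hv0 : v ≠ 0 := by
        rintro rfl
        simp at hQv
      obtain ⟨x, hx⟩ := hsep v hv0
      have h2 : refl Q v x = x := by rw [h1]; rfl
      rw [refl_apply, sub_eq_self, smul_eq_zero] at h2
      rcases h2 with h2 | h2
      · rw [mul_eq_zero] at h2
        rcases h2 with h2 | h2
        · exact hQv (inv_eq_zero.1 h2)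
        · exact hx h2
      · exact hv0 h2
    · intro i
      exact refl_apply_of_polar_eq_zero Q (by rw [polar_comm]; exact hv.1 i)
    · intro i
      exact refl_apply_of_polar_eq_zero Q (by rw [polar_comm]; exact hv.2 i)
  · push Not at hns
    have : Nontrivial (LinearMap.ker L) := Module.nontrivial_of_finrank_pos (R := F) (by omega)
    obtain ⟨u, hu⟩ := exists_ne (0 : LinearMap.ker L)
    obtain ⟨w, hw⟩ := exists_linearIndependent_pair_of_one_lt_finrank hdim hu
    rw [LinearIndependent.pair_iff] at hw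
    have hind : ∀ s t : F, s • (u : Fin (k + 1) ⊕ Fin (k + 1) → F) +
        t • (w : Fin (k + 1) ⊕ Fin (k + 1) → F) = 0 → s = 0 ∧ t = 0 :=
      fun s t h => hw s t (Subtype.ext (by simpa using h))
    have hQu := hns u u.2
    have hQw := hns w w.2
    have huw : polar Q (u : Fin (k + 1) ⊕ Fin (k + 1) → F) w = 0 := by
      have h1 := hns (u + w) (u + w).2
      simp only [polar]
      rw [hQu, hQw]
      simpa using h1
    have hu' := (hL u).1 u.2
    have hw' := (hL w).1 w.2
    refine ⟨eichler Q u w hQu huw, eichler_mem Q u w hQu huw, ?_, ?_, ?_⟩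
    · intro h1
      have hu0 : (u : Fin (k + 1) ⊕ Fin (k + 1) → F) ≠ 0 := by
        intro h; exact hu (Subtype.ext h)
      obtain ⟨x, hx⟩ := hsep u hu0
      have h2 : eichler Q u w hQu huw x = x := by rw [h1]; rfl
      rw [eichler_apply, hQw, zero_mul, zero_smul, sub_zero] at h2
      have h3 : polar Q (w : Fin (k + 1) ⊕ Fin (k + 1) → F) x • (u : Fin (k + 1) ⊕ Fin (k + 1) → F) +
          (- polar Q (u : Fin (k + 1) ⊕ Fin (k + 1) → F) x) • (w : Fin (k + 1) ⊕ Fin (k + 1) → F) = 0 := by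
        have : x + polar Q (w : Fin (k + 1) ⊕ Fin (k + 1) → F) x • (u : Fin (k + 1) ⊕ Fin (k + 1) → F) -
          polar Q (u : Fin (k + 1) ⊕ Fin (k + 1) → F) x • (w : Fin (k + 1) ⊕ Fin (k + 1) → F) - x = 0 := by
          rw [h2, sub_self]
        rw [← this]; module
      exact hx (neg_eq_zero.1 (hind _ _ h3).2)
    · intro i
      rw [eichler_apply, polar_comm Q _ (E F i), polar_comm Q _ (E F i), hu'.1 i, hw'.1 i]
      simp
    · intro i
      rw [eichler_apply, polar_comm Q _ (y (E F i)), polar_comm Q _ (y (E F i)), hu'.2 i, hw'.2 i]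
      simp

section two
variable [Fintype F] (hF : Fintype.card F = 2)
include hF

lemma eq_zero_or_one (x : F) : x = 0 ∨ x = 1 := by
  classical
  by_contra h
  push Not at h
  have h3 : ({0, 1, x} : Finset F).card = 3 := by
    rw [Finset.card_insert_of_notMem, Finset.card_insert_of_notMem, Finset.card_singleton]
    · simpa using h.2.symm
    · simp only [Finset.mem_insert, Finset.mem_singleton, not_or]
      exact ⟨zero_ne_one, h.1.symm⟩
  have := Finset.card_le_univ ({0, 1, x} : Finset F)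
  rw [h3, hF] at this
  omega

lemma charTwo : CharP F 2 := by
  apply CharTwo.of_one_ne_zero_of_two_eq_zero one_ne_zero
  rcases eq_zero_or_one hF (2 : F) with h | h
  · exact h
  · exfalso
    have : (1 : F) + 1 = 1 := by rw [one_add_one_eq_two]; exact h
    simp at this

theorem nil_four (g : (Fin (k + 1) ⊕ Fin (k + 1) → F) ≃ₗ[F] (Fin (k + 1) ⊕ Fin (k + 1) → F))
    (hg : g ∈ OQ (plusQF (k + 1) F)) (hfix : ∀ i : Fin k, g (E F i) = E F i)
    (v : Fin (k + 1) ⊕ Fin (k + 1) → F) :
    ∃ w1 w2 w3, w1 = g v - v ∧ w2 = g w1 - w1 ∧ w3 = g w2 - w2 ∧ g w3 - w3 = 0 := by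
  have h2 : (2 : F) = 0 := by
    have := charTwo hF
    exact CharTwo.two_eq_zero
  have hc : ∀ v i, (g v) (Sum.inr (Fin.castSucc i)) = v (Sum.inr (Fin.castSucc i)) := by
    intro v i
    have h := OQ_polar hg (E F i) v
    rw [hfix i] at h
    simpa [E, plusQF_polar_single_inl] using h
  have hB : ∀ v, InB v → InB (g v) := by
    intro v hv i
    rw [hc, hv i]
  have hA : ∀ v, InB v → v (Sum.inl (Fin.last k)) = 0 → v (Sum.inr (Fin.last k)) = 0 → g v = v := by
    intro v hv h1 h2
    have hd := decomp v hv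
    rw [h1, h2, zero_smul, zero_smul, add_zero, add_zero] at hd
    rw [hd, map_sum]
    apply Finset.sum_congr rfl
    intro i _
    rw [map_smul, hfix]
  have hem : InB (em F k) := by intro i; simp [em]
  have hfm : InB (fm F k) := by
    intro i
    simp [fm, Pi.single_apply, (Fin.castSucc_lt_last i).ne]
  have e1 : em F k (Sum.inl (Fin.last k)) = 1 := by simp [em]
  have e2 : em F k (Sum.inr (Fin.last k)) = 0 := by simp [em]
  have e3 : fm F k (Sum.inl (Fin.last k)) = 0 := by simp [fm]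
  have e4 : fm F k (Sum.inr (Fin.last k)) = 1 := by simp [fm]
  set α := g (em F k) (Sum.inl (Fin.last k)) with hα
  set γ := g (em F k) (Sum.inr (Fin.last k)) with hγ
  set β := g (fm F k) (Sum.inl (Fin.last k)) with hβ
  set δ := g (fm F k) (Sum.inr (Fin.last k)) with hδ
  have c1 : α * γ = 0 := by
    have h := mem_OQ.1 hg (em F k)
    rw [Q_of_InB _ (hB _ hem), Q_of_InB _ hem, e1, e2] at h
    simpa using h
  have c2 : β * δ = 0 := by
    have h := mem_OQ.1 hg (fm F k)
    rw [Q_of_InB _ (hB _ hfm), Q_of_InB _ hfm, e3, e4] at h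
    simpa using h
  have c3 : α * δ + β * γ = 1 := by
    have h := OQ_polar hg (em F k) (fm F k)
    rw [polar_of_InB _ _ (hB _ hem) (hB _ hfm), polar_of_InB _ _ hem hfm, e1, e2, e3, e4] at h
    simpa using h
  have hform : ∀ v, InB v → g v - v = v (Sum.inl (Fin.last k)) • (g (em F k) - em F k) +
      v (Sum.inr (Fin.last k)) • (g (fm F k) - fm F k) := by
    intro v hv
    have h0 := hA (v - v (Sum.inl (Fin.last k)) • em F k - v (Sum.inr (Fin.last k)) • fm F k)
      (by
        intro i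
        simp [hv i, hem i, hfm i])
      (by simp [e1, e3]) (by simp [e2, e4])
    simp only [map_sub, map_smul] at h0
    have : g v = v - v (Sum.inl (Fin.last k)) • em F k - v (Sum.inr (Fin.last k)) • fm F k +
        v (Sum.inl (Fin.last k)) • g (em F k) + v (Sum.inr (Fin.last k)) • g (fm F k) := by
      rw [← h0]; abel
    rw [this]
    module
  have hNB : ∀ v, InB (g v - v) := by
    intro v i
    simp [hc]
  have ha : ∀ v, InB v → (g v - v) (Sum.inl (Fin.last k)) =
      v (Sum.inl (Fin.last k)) * (α - 1) + v (Sum.inr (Fin.last k)) * β := by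
    intro v hv
    rw [hform v hv]
    simp [e1, e3, hα, hβ]
  have hb : ∀ v, InB v → (g v - v) (Sum.inr (Fin.last k)) =
      v (Sum.inl (Fin.last k)) * γ + v (Sum.inr (Fin.last k)) * (δ - 1) := by
    intro v hv
    rw [hform v hv]
    simp [e2, e4, hγ, hδ]
  refine ⟨_, _, _, rfl, rfl, rfl, ?_⟩
  rw [sub_eq_zero]
  apply hA _ (hNB _)
  · rw [ha _ (hNB _), ha _ (hNB _), hb _ (hNB _)]
    rcases eq_zero_or_one hF α with h | h <;> rcases eq_zero_or_one hF β with h' | h' <;>
    rcases eq_zero_or_one hF γ with h'' | h'' <;> rcases eq_zero_or_one hF δ with h''' | h''' <;>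
    simp only [h, h', h'', h'''] at c1 c2 c3 ⊢ <;> first | (exfalso; simp at c1 c2 c3; done) | (simp; done) | skip
    linear_combination ((g v - v) (Sum.inl (Fin.last k)) - (g v - v) (Sum.inr (Fin.last k))) * h2
  · rw [hb _ (hNB _), ha _ (hNB _), hb _ (hNB _)]
    rcases eq_zero_or_one hF α with h | h <;> rcases eq_zero_or_one hF β with h' | h' <;>
    rcases eq_zero_or_one hF γ with h'' | h'' <;> rcases eq_zero_or_one hF δ with h''' | h''' <;>
    simp only [h, h', h'', h'''] at c1 c2 c3 ⊢ <;> first | (exfalso; simp at c1 c2 c3; done) | (simp; done) | skip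
    linear_combination ((g v - v) (Sum.inr (Fin.last k)) - (g v - v) (Sum.inl (Fin.last k))) * h2

theorem pow_four (g : (Fin (k + 1) ⊕ Fin (k + 1) → F) ≃ₗ[F] (Fin (k + 1) ⊕ Fin (k + 1) → F))
    (hg : g ∈ OQ (plusQF (k + 1) F)) (hfix : ∀ i : Fin k, g (E F i) = E F i) : g ^ 4 = 1 := by
  have h2 : (2 : F) = 0 := by
    have := charTwo hF
    exact CharTwo.two_eq_zero
  ext1 v
  obtain ⟨w1, w2, w3, h1, h2', h3, h4⟩ := nil_four hF g hg hfix v
  have e1 : g v = v + w1 := by rw [h1]; abel
  have e2 : g w1 = w1 + w2 := by rw [h2']; abel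
  have e3 : g w2 = w2 + w3 := by rw [h3]; abel
  have e4 : g w3 = w3 := sub_eq_zero.1 h4
  have : (g ^ 4) v = g (g (g (g v))) := by
    simp [pow_succ, LinearEquiv.mul_apply]
  rw [this]
  simp only [e1, e2, e3, e4, map_add]
  have : v + w1 + (w1 + w2) + (w1 + w2 + (w2 + w3)) + (w1 + w2 + (w2 + w3) + (w2 + w3 + w3)) =
      v + (2 : F) • (2 • w1 + 3 • w2 + 2 • w3) := by module
  rw [this, h2, zero_smul, add_zero]
  rfl

end two

end geom

/-- the pointwise stabiliser of the `E i` -/
def fixE (F : Type*) [Field F] (k : ℕ) : Subgroup (OQ (plusQF (k + 1) F)) where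
  carrier := {g | ∀ i : Fin k, g.1 (E F i) = E F i}
  one_mem' := by intro i; rfl
  mul_mem' {a b} ha hb := by
    intro i
    change a.1 (b.1 (E F i)) = E F i
    rw [hb i, ha i]
  inv_mem' {a} ha := by
    intro i
    change a.1⁻¹ (E F i) = E F i
    conv_lhs => rw [← ha i]
    rw [← LinearEquiv.mul_apply, inv_mul_cancel]
    rfl

/-- Let m ≥ 4 and let G be the full isometry group of the hyperbolic quadratic form x₁y₁ + ⋯ + x_m y_m on the 2m-dimensional space over the field with 2 elements (the orthogonal group O⁺(2m,2), which contains Ω⁺(2m,2) with index 2). Then any two Sylow 2-subgroups of G have a non-trivial intersection: for a Sylow 2-subgroup H and every x ∈ G, H ∩ H^x ≠ 1. -/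
theorem result {F : Type*} [Field F] [Fintype F] (hF : Fintype.card F = 2) {m : ℕ} (hm : 4 ≤ m)
    (H : Sylow 2 (Cfsg.isometryGroup F (Cfsg.quadFormPlus m F)))
    (x : Cfsg.isometryGroup F (Cfsg.quadFormPlus m F)) :
    (H : Subgroup (Cfsg.isometryGroup F (Cfsg.quadFormPlus m F))) ⊓ MulAut.conj x • (H : Subgroup _) ≠ ⊥ := by
  obtain ⟨k, rfl⟩ : ∃ k, m = k + 1 := ⟨m - 1, by omega⟩
  revert H x
  rw [← plusQF_coe]
  intro H x
  set e := isoEquiv (plusQF (k + 1) F) with he
  have hK : IsPGroup 2 ((fixE F k).comap e.toMonoidHom) := by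
    intro g
    refine ⟨2, ?_⟩
    apply Subtype.ext
    apply e.injective
    apply Subtype.ext
    have h1 := pow_four hF (e g.1).1 (e g.1).2 g.2
    rw [Subgroup.coe_pow, map_pow, Subgroup.coe_pow, Subgroup.coe_one, map_one, Subgroup.coe_one]
    exact h1
  refine sylow_inf_ne_bot 2 _ hK ?_ H x
  intro x
  obtain ⟨r, hr, hr1, hfix1, hfix2⟩ := exists_common (e x).1
  refine ⟨e.symm ⟨r, hr⟩, ?_, ?_, ?_⟩
  · change e (e.symm ⟨r, hr⟩) ∈ fixE F k
    rw [MulEquiv.apply_symm_apply]
    exact hfix1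
  · intro h1
    apply hr1
    have h2 : (⟨r, hr⟩ : OQ (plusQF (k + 1) F)) = 1 := by
      have := congrArg e h1
      rwa [MulEquiv.apply_symm_apply, map_one] at this
    exact congrArg Subtype.val h2
  · change e (x⁻¹ * e.symm ⟨r, hr⟩ * x) ∈ fixE F k
    rw [map_mul, map_mul, MulEquiv.apply_symm_apply, map_inv]
    intro i
    change (e x).1⁻¹ (r ((e x).1 (E F i))) = E F i
    rw [hfix2 i, ← LinearEquiv.mul_apply, inv_mul_cancel]
    rfl

end Cfsg.Agent.S2487
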