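import Cfsg.Statements.S2488
import Mathlib
import Cfsg.Agent.Lib.Helper42.S6Facts

set_option autoImplicit false
open scoped Pointwise
open Cfsg
open Cfsg.Agent.Lib.Helper42

namespace Cfsg.Agent.S2488

/-! ### General lemmas -/

section general
variable {G : Type*} [Group G] [Finite G]

/-- an involution normalizing a subgroup of even order centralizes a nontrivial element of it -/
lemma exists_fixed (X : Subgroup G) (z : G) (hz : z * z = 1) (hnorm : ∀ c ∈ X, z * c * z⁻¹ ∈ X)
    (heven : Even (Nat.card X)) : ∃ t ∈ X, t ≠ 1 ∧ z * t = t * z := by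
  classical
  have := Fintype.ofFinite X
  let f : Function.End X := fun c => ⟨z * c * z⁻¹, hnorm c c.2⟩
  have hzinv : z⁻¹ = z := inv_eq_of_mul_eq_one_left hz
  have hf : f ^ 2 ^ 1 = 1 := by
    funext c
    apply Subtype.ext
    show z * (z * c * z⁻¹) * z⁻¹ = c
    rw [hzinv]
    calc z * (z * c * z) * z = (z * z) * c * (z * z) := by group
      _ = c := by rw [hz]; simp
  have : Fact (Nat.Prime 2) := ⟨Nat.prime_two⟩
  have hmod := Equiv.Perm.card_fixedPoints_modEq (p := 2) (n := 1) hf
  rw [Nat.card_eq_fintype_card] at heven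
  have h2 : Even (Fintype.card (Function.fixedPoints f)) := by
    have : Fintype.card X % 2 = 0 := Nat.even_iff.mp heven
    rw [Nat.even_iff, ← hmod, this]
  have h1mem : (1 : X) ∈ Function.fixedPoints f := by
    apply Subtype.ext
    show z * 1 * z⁻¹ = 1
    simp
  have h3 : 1 < Fintype.card (Function.fixedPoints f) := by
    have hpos : 0 < Fintype.card (Function.fixedPoints f) := Fintype.card_pos_iff.mpr ⟨⟨1, h1mem⟩⟩
    rcases h2 with ⟨r, hr⟩
    omega
  obtain ⟨⟨t, ht⟩, hne⟩ := Fintype.exists_ne_of_one_lt_card h3 ⟨1, h1mem⟩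
  refine ⟨t, t.2, ?_, ?_⟩
  · intro h
    apply hne
    apply Subtype.ext
    apply Subtype.ext
    exact h
  · have : z * t * z⁻¹ = t := congrArg Subtype.val ht
    calc z * t = (z * t * z⁻¹) * z := by group
      _ = t * z := by rw [this]

end general

/-! ### The main argument -/

section main
variable {G : Type*} [Group G] [Finite G] (N : Subgroup G) [N.Normal]
    (e : N ≃* alternatingGroup (Fin 6))

/-- the embedding of `N` in `S₆` -/
noncomputable def iota : N →* Equiv.Perm (Fin 6) := (alternatingGroup (Fin 6)).subtype.comp e.toMonoidHom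

lemma iota_inj : Function.Injective (iota N e) :=
  (Subgroup.subtype_injective _).comp e.injective

lemma iota_sign (n : N) : Equiv.Perm.sign (iota N e n) = 1 := (e n).2

include e

lemma card_N : Nat.card N = 360 := by
  rw [Nat.card_congr e.toEquiv, nat_card_alternatingGroup]
  simp; decide

lemma card_G (hidx : N.index = 4) : Nat.card G = 1440 := by
  rw [← N.card_mul_index, card_N N e, hidx]

/-- lower bound for the order of a centralizer -/
lemma centralizer_bound (hidx : N.index = 4) (g : N) (cnt : ℕ)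
    (hcnt : ({σ : Equiv.Perm (Fin 6) | orderOf σ = orderOf g} : Set _).ncard ≤ cnt) :
    1440 ≤ Nat.card (Subgroup.centralizer {(g : G)}) * cnt := by
  classical
  have h1 := MulAction.index_stabilizer (ConjAct G) (g : G)
  have h2 := (MulAction.stabilizer (ConjAct G) (g : G)).card_mul_index
  rw [← Subgroup.nat_card_centralizer_nat_card_stabilizer, h1] at h2
  have h3 : Nat.card (ConjAct G) = 1440 := (card_G N e hidx :)
  rw [h3] at h2
  rw [← h2]
  apply Nat.mul_le_mul_left
  refine le_trans ?_ hcnt
  let f : G → Equiv.Perm (Fin 6) := fun y => if h : y ∈ N then iota N e ⟨y, h⟩ else 1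
  have horb : ∀ y ∈ MulAction.orbit (ConjAct G) (g : G), ∃ a : G, y = a * g * a⁻¹ := by
    rintro y ⟨a, rfl⟩
    exact ⟨ConjAct.ofConjAct a, rfl⟩
  have hmemN : ∀ a : G, a * g * a⁻¹ ∈ N := fun a => ‹N.Normal›.conj_mem _ g.2 a
  apply Set.ncard_le_ncard_of_injOn f
  · intro y hy
    obtain ⟨a, rfl⟩ := horb y hy
    simp only [f, dif_pos (hmemN a), Set.mem_ofPred_eq]
    rw [orderOf_injective _ (iota_inj N e)]
    rw [← Subgroup.orderOf_coe, ← Subgroup.orderOf_coe]
    show orderOf (a * g * a⁻¹) = orderOf (g : G)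
    have := (MulAut.conj a).orderOf_eq (g : G)
    simpa using this
  · intro y hy y' hy' hyy'
    obtain ⟨a, rfl⟩ := horb y hy
    obtain ⟨b, rfl⟩ := horb y' hy'
    simp only [f, dif_pos (hmemN a), dif_pos (hmemN b)] at hyy'
    exact congrArg Subtype.val (iota_inj N e hyy')

/-- decomposition of the order of a centralizer -/
lemma centralizer_decomp (hidx : N.index = 4) (g : N) :
    ∃ d r : ℕ, Nat.card (Subgroup.centralizer {(g : G)}) = d * r ∧ r ∣ 4 ∧
      d ∣ Nat.card (Subgroup.centralizer {iota N e g}) := by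
  set C := Subgroup.centralizer {(g : G)} with hC
  refine ⟨Nat.card (N.subgroupOf C), (N.subgroupOf C).index, ((N.subgroupOf C).card_mul_index).symm, ?_, ?_⟩
  · have := Subgroup.relIndex_dvd_index_of_normal N C
    rwa [hidx] at this
  · let φ : (N.subgroupOf C) →* N := MonoidHom.codRestrict (C.subtype.comp (N.subgroupOf C).subtype) N (fun d => d.2)
    have hφ : Function.Injective φ := by
      intro a b hab
      apply Subtype.ext
      apply Subtype.ext
      exact congrArg (fun n : N => (n : G)) hab
    let ψ : (N.subgroupOf C) →* Subgroup.centralizer {iota N e g} :=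
      MonoidHom.codRestrict ((iota N e).comp φ) _ (fun d => by
        rw [Subgroup.mem_centralizer_singleton_iff]
        show iota N e (φ d) * iota N e g = iota N e g * iota N e (φ d)
        rw [← map_mul, ← map_mul]
        congr 1
        apply Subtype.ext
        show (d : G) * g = g * (d : G)
        exact Subgroup.mem_centralizer_singleton_iff.mp d.1.2)
    apply Subgroup.card_dvd_of_injective ψ
    intro a b hab
    apply hφ
    apply iota_inj N e
    exact congrArg (fun n : Subgroup.centralizer {iota N e g} => (n : Equiv.Perm (Fin 6))) hab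

lemma even_centralizer_three (hidx : N.index = 4) (g : N) (hg : orderOf g = 3) :
    Even (Nat.card (Subgroup.centralizer {(g : G)})) := by
  have h1 := centralizer_bound N e hidx g 80 (by rw [hg]; exact ncard_order 3 80 (by norm_num) P3a)
  obtain ⟨d, r, h2, hr, hd⟩ := centralizer_decomp N e hidx g
  rw [C3 _ (by rw [orderOf_injective _ (iota_inj N e), hg])] at hd
  rw [h2] at h1 ⊢
  have hr4 : r ≤ 4 := Nat.le_of_dvd (by norm_num) hr
  have hd18 : d ≤ 18 := Nat.le_of_dvd (by norm_num) hd
  interval_cases r <;> interval_cases d <;> first | decide | omega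

lemma even_centralizer_five (hidx : N.index = 4) (g : N) (hg : orderOf g = 5) :
    Even (Nat.card (Subgroup.centralizer {(g : G)})) := by
  have h1 := centralizer_bound N e hidx g 144 (by rw [hg]; exact ncard_order 5 144 (by norm_num) P5a)
  obtain ⟨d, r, h2, hr, hd⟩ := centralizer_decomp N e hidx g
  rw [C5 _ (by rw [orderOf_injective _ (iota_inj N e), hg])] at hd
  rw [h2] at h1 ⊢
  have hr4 : r ≤ 4 := Nat.le_of_dvd (by norm_num) hr
  have hd18 : d ≤ 5 := Nat.le_of_dvd (by norm_num) hd
  interval_cases r <;> interval_cases d <;> first | decide | omega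

/-- the centralizer in `G` of an involution of `N` is a 2-group -/
lemma isPGroup_centralizer (hidx : N.index = 4) (z : N) (hz : orderOf z = 2) :
    IsPGroup 2 (Subgroup.centralizer {(z : G)}) := by
  intro c
  refine ⟨6, ?_⟩
  have h4 : (c : G) ^ 4 ∈ N := by
    have := N.pow_index_mem (c : G)
    rwa [hidx] at this
  have hcomm : (c : G) * z = z * c := Subgroup.mem_centralizer_singleton_iff.mp c.2
  have hcomm4 : (c : G) ^ 4 * z = z * (c : G) ^ 4 := (Commute.pow_left (show Commute (c : G) z from hcomm) 4)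
  have hmem : iota N e ⟨(c : G) ^ 4, h4⟩ ∈ Subgroup.centralizer {iota N e z} := by
    rw [Subgroup.mem_centralizer_singleton_iff, ← map_mul, ← map_mul]
    congr 1
    apply Subtype.ext
    exact hcomm4
  have hcard := C2 (iota N e z) (by rw [orderOf_injective _ (iota_inj N e), hz]) (iota_sign N e z)
  have h16 : (⟨_, hmem⟩ : Subgroup.centralizer {iota N e z}) ^ 16 = 1 := by
    rw [← hcard]; exact pow_card_eq_one'
  have h16' : (iota N e ⟨(c : G) ^ 4, h4⟩) ^ 16 = 1 := congrArg Subtype.val h16
  rw [← map_pow] at h16'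
  have h16'' : (⟨(c : G) ^ 4, h4⟩ : N) ^ 16 = 1 := by
    apply iota_inj N e
    rw [h16', map_one]
  have h64 : ((c : G) ^ 4) ^ 16 = 1 := congrArg Subtype.val h16''
  apply Subtype.ext
  show (c : G) ^ 2 ^ 6 = 1
  rw [← h64, ← pow_mul]
  norm_num

/-- there is an involution of `N` centralizing a given Sylow 2-subgroup -/
lemma exists_central_involution (H : Sylow 2 G) :
    ∃ z : N, orderOf z = 2 ∧ ∀ h ∈ H, h * (z : G) = z * h := by
  classical
  have : Fact (Nat.Prime 2) := ⟨Nat.prime_two⟩
  let _ : MulAction H N := MulAction.compHom N ((MulAut.conjNormal (H := N)).comp (H : Subgroup G).subtype)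
  have hsmul : ∀ (h : H) (n : N), ((h • n : N) : G) = h * n * (h : G)⁻¹ := fun h n => rfl
  have hmod := H.2.card_modEq_card_fixedPoints N
  let A : Subgroup N := (Subgroup.centralizer ((H : Subgroup G) : Set G)).subgroupOf N
  have hA : ∀ n : N, n ∈ A ↔ n ∈ MulAction.fixedPoints H N := by
    intro n
    rw [Subgroup.mem_subgroupOf, Subgroup.mem_centralizer_iff, MulAction.mem_fixedPoints]
    constructor
    · intro h a
      apply Subtype.ext
      rw [hsmul, h a a.2]
      group
    · intro h a ha
      have := congrArg Subtype.val (h ⟨a, ha⟩)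
      rw [hsmul] at this
      calc a * (n : G) = (a * n * a⁻¹) * a := by group
        _ = n * a := by rw [this]
  have hcard : Nat.card A = Nat.card (MulAction.fixedPoints H N) := by
    apply Nat.card_congr
    exact Equiv.subtypeEquivRight hA
  rw [← hcard, card_N N e] at hmod
  have h2 : 2 ∣ Nat.card A := by
    have : Nat.card A % 2 = 0 := by rw [← hmod]
    exact Nat.dvd_of_mod_eq_zero this
  obtain ⟨z, hz⟩ := exists_prime_orderOf_dvd_card' 2 h2
  refine ⟨z, by rw [Subgroup.orderOf_coe]; exact hz, ?_⟩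
  intro h hh
  have := z.2
  rw [Subgroup.mem_subgroupOf, Subgroup.mem_centralizer_iff] at this
  exact this h hh

end main

theorem result {G : Type*} [Group G] [Finite G] (N : Subgroup G) [N.Normal]
    (e : N ≃* alternatingGroup (Fin 6)) (hidx : N.index = 4)
    (hC : Subgroup.centralizer (N : Set G) = ⊥)
    (H : Sylow 2 G) (x : G) :
    (H : Subgroup G) ⊓ MulAut.conj x • (H : Subgroup G) ≠ ⊥ := by
  classical
  obtain ⟨z, hz2, hzH⟩ := exists_central_involution N e H
  have hHeq : Subgroup.centralizer {(z : G)} = (H : Subgroup G) := by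
    apply H.is_maximal' (isPGroup_centralizer N e hidx z hz2)
    intro h hh
    rw [Subgroup.mem_centralizer_singleton_iff]
    exact hzH h hh
  have hzz : (z : G) * z = 1 := by
    have : z ^ 2 = 1 := by rw [← hz2]; exact pow_orderOf_eq_one z
    have := congrArg Subtype.val this
    simpa [pow_two] using this
  have hz1 : (z : G) ≠ 1 := by
    intro h
    have : z = 1 := Subtype.ext h
    rw [this, orderOf_one] at hz2
    omega
  have hzinv : (z : G)⁻¹ = z := inv_eq_of_mul_eq_one_left hzz
  set z' : G := x * z * x⁻¹ with hz'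
  have hz'z' : z' * z' = 1 := by
    calc z' * z' = x * (z * z) * x⁻¹ := by rw [hz']; group
      _ = 1 := by rw [hzz]; group
  have hz'inv : z'⁻¹ = z' := inv_eq_of_mul_eq_one_left hz'z'
  -- it suffices to find a nontrivial element commuting with `z` and `z'`
  suffices hsuff : ∃ t : G, t ≠ 1 ∧ t * z = z * t ∧ t * z' = z' * t by
    obtain ⟨t, ht1, htz, htz'⟩ := hsuff
    intro hbot
    have hmem : t ∈ (H : Subgroup G) ⊓ MulAut.conj x • (H : Subgroup G) := by
      constructor
      · show t ∈ (H : Subgroup G)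
        rw [← hHeq, Subgroup.mem_centralizer_singleton_iff]; exact htz
      · show t ∈ MulAut.conj x • (H : Subgroup G)
        rw [Subgroup.mem_pointwise_smul_iff_inv_smul_mem, ← hHeq, Subgroup.mem_centralizer_singleton_iff]
        show (MulAut.conj x)⁻¹ t * z = z * (MulAut.conj x)⁻¹ t
        rw [← map_inv, MulAut.conj_apply, inv_inv]
        calc x⁻¹ * t * x * z = x⁻¹ * (t * z') * x := by rw [hz']; group
          _ = x⁻¹ * (z' * t) * x := by rw [htz']
          _ = z * (x⁻¹ * t * x) := by rw [hz']; group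
    rw [hbot, Subgroup.mem_bot] at hmem
    exact ht1 hmem
  have hz'N : z' ∈ N := ‹N.Normal›.conj_mem _ z.2 x
  set g : N := z * ⟨z', hz'N⟩ with hg
  have hgG : (g : G) = z * z' := rfl
  -- `z` inverts `g`
  have hinv : (z : G) * g * (z : G)⁻¹ = (g : G)⁻¹ := by
    rw [hgG, mul_inv_rev, hzinv, hz'inv]
    calc (z : G) * (z * z') * z = (z * z) * z' * z := by group
      _ = z' * z := by rw [hzz]; simp
  -- reduction : enough to commute with `z` and `g`
  have hred : ∀ t : G, t * z = z * t → t * g = g * t → t * z' = z' * t := by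
    intro t h1 h2
    have hz'eq : z' = z * g := by
      rw [hgG, ← mul_assoc, hzz, one_mul]
    rw [hz'eq]
    calc t * (z * g) = (t * z) * g := by group
      _ = z * (t * g) := by rw [h1]; group
      _ = z * g * t := by rw [h2]; group
  -- powers of g that are involutions commute with z
  have hpow : ∀ j : ℕ, (g : G) ^ j * (g : G) ^ j = 1 → (g : G) ^ j * z = z * (g : G) ^ j := by
    intro j hj
    have h1 : (z : G) * (g : G) ^ j * (z : G)⁻¹ = ((g : G) ^ j)⁻¹ := by
      have := conj_pow (a := (z : G)) (b := (g : G)) (i := j)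
      rw [← this, hinv, inv_pow]
    have h2 : ((g : G) ^ j)⁻¹ = (g : G) ^ j := inv_eq_of_mul_eq_one_left hj
    rw [h2] at h1
    calc (g : G) ^ j * z = ((z : G) * (g : G) ^ j * (z : G)⁻¹) * z := by rw [h1]
      _ = z * (g : G) ^ j := by group
  -- the odd case
  have hodd : Even (Nat.card (Subgroup.centralizer {(g : G)})) → ∃ t : G, t ≠ 1 ∧ t * z = z * t ∧ t * z' = z' * t := by
    intro heven
    obtain ⟨t, htC, ht1, htz⟩ := exists_fixed (Subgroup.centralizer {(g : G)}) z hzz (by
      intro c hc
      rw [Subgroup.mem_centralizer_singleton_iff] at hc ⊢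
      have hc' : c * (g : G)⁻¹ = (g : G)⁻¹ * c := by
        calc c * (g : G)⁻¹ = (g : G)⁻¹ * (g * c) * (g : G)⁻¹ := by group
          _ = (g : G)⁻¹ * (c * g) * (g : G)⁻¹ := by rw [hc]
          _ = (g : G)⁻¹ * c := by group
      have hinv' : (z : G)⁻¹ * g * z = (g : G)⁻¹ := by
        rw [hzinv]; rw [hzinv] at hinv; exact hinv
      have hinv'' : (z : G) * (g : G)⁻¹ * (z : G)⁻¹ = g := by
        rw [← hinv']; group
      calc (z : G) * c * (z : G)⁻¹ * g = z * c * ((z : G)⁻¹ * g * z) * (z : G)⁻¹ := by group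
        _ = z * (c * (g : G)⁻¹) * (z : G)⁻¹ := by rw [hinv']; group
        _ = z * ((g : G)⁻¹ * c) * (z : G)⁻¹ := by rw [hc']
        _ = ((z : G) * (g : G)⁻¹ * (z : G)⁻¹) * (z * c * (z : G)⁻¹) := by group
        _ = g * (z * c * (z : G)⁻¹) := by rw [hinv'']) heven
    exact ⟨t, ht1, htz.symm, hred t htz.symm (Subgroup.mem_centralizer_singleton_iff.mp htC)⟩
  have hcommg : ∀ j : ℕ, (g : G) ^ j * g = g * (g : G) ^ j := fun j => (Commute.pow_self (g : G) j).symm.eq.symm ▸ rfl
  have htriv : g = 1 → ∃ t : G, t ≠ 1 ∧ t * z = z * t ∧ t * z' = z' * t := by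
    intro h1
    refine ⟨z, hz1, rfl, hred z rfl ?_⟩
    rw [h1]; simp
  have hP1 := P1 (iota N e g) (iota_sign N e g)
  have hback : ∀ k : ℕ, (iota N e g) ^ k = 1 → g ^ k = 1 := by
    intro k hk
    apply iota_inj N e
    rw [map_pow, hk, map_one]
  rcases hP1 with h4 | h3 | h5
  · have h4' : (g : G) ^ 4 = 1 := congrArg Subtype.val (hback 4 h4)
    by_cases h2 : (g : G) ^ 2 = 1
    · by_cases h1 : g = 1
      · exact htriv h1
      · refine ⟨(g : G) ^ 1, ?_, hpow 1 ?_, hred _ (hpow 1 ?_) (hcommg 1)⟩
        · rw [pow_one]; intro h; exact h1 (Subtype.ext h)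
        · rw [← pow_add]; exact h2
        · rw [← pow_add]; exact h2
    · refine ⟨(g : G) ^ 2, h2, hpow 2 ?_, hred _ (hpow 2 ?_) (hcommg 2)⟩
      · rw [← pow_add]; exact h4'
      · rw [← pow_add]; exact h4'
  · by_cases h1 : g = 1
    · exact htriv h1
    · have : Fact (Nat.Prime 3) := ⟨Nat.prime_three⟩
      exact hodd (even_centralizer_three N e hidx g (orderOf_eq_prime (hback 3 h3) h1))
  · by_cases h1 : g = 1
    · exact htriv h1
    · have : Fact (Nat.Prime 5) := ⟨Nat.prime_five⟩
      exact hodd (even_centralizer_five N e hidx g (orderOf_eq_prime (hback 5 h5) h1))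

end Cfsg.Agent.S2488
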