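import Cfsg.Statements.S2504
import Cfsg.Agent.Lib.Helper42.AbelianAlt

set_option autoImplicit false
open Cfsg
open Cfsg.Agent.Lib.Helper42

namespace Cfsg.Agent.S2504

theorem result (k : ℕ) (hk : 2 ≤ k) :
    IsGreatest {c : ℕ | ∃ A : Subgroup (alternatingGroup (Fin (3 * k))), IsMulCommutative A ∧ Nat.card A = c} (3 ^ k) ∧
    IsGreatest {c : ℕ | ∃ A : Subgroup (alternatingGroup (Fin (3 * k + 1))), IsMulCommutative A ∧ Nat.card A = c}
      (4 * 3 ^ (k - 1)) ∧
    IsGreatest {c : ℕ | ∃ A : Subgroup (alternatingGroup (Fin (3 * k + 2))), IsMulCommutative A ∧ Nat.card A = c}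
      (16 * 3 ^ (k - 2)) := by
  obtain ⟨j, rfl⟩ : ∃ j, k = j + 2 := ⟨k - 2, by omega⟩
  refine ⟨⟨?_, ?_⟩, ⟨?_, ?_⟩, ⟨?_, ?_⟩⟩
  · exact (exists_alt_iff _ _).mpr (ExAb.three_pow _)
  · intro c hc
    obtain ⟨A, hA, rfl, _⟩ := (exists_alt_iff _ _).mp hc
    rw [← maxProd_three_mul]
    exact card_abelian_le _ A hA
  · apply (exists_alt_iff _ _).mpr
    have := ExAb.four.add (ExAb.three_pow (j + 1))
    rw [show 3 * (j + 2) + 1 = 4 + 3 * (j + 1) by ring, show j + 2 - 1 = j + 1 by omega]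
    exact this
  · intro c hc
    obtain ⟨A, hA, rfl, _⟩ := (exists_alt_iff _ _).mp hc
    rw [← maxProd_three_mul_add_one _ (by omega)]
    exact card_abelian_le _ A hA
  · apply (exists_alt_iff _ _).mpr
    have := ExAb.four.add (ExAb.four.add (ExAb.three_pow j))
    rw [show 3 * (j + 2) + 2 = 4 + (4 + 3 * j) by ring, show j + 2 - 2 = j by omega,
      show 16 * 3 ^ j = 4 * (4 * 3 ^ j) by ring]
    exact this
  · intro c hc
    obtain ⟨A, hA, rfl, hAe⟩ := (exists_alt_iff _ _).mp hc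
    exact card_abelian_alt_le A hA (j + 2) hk rfl (hAe trivial)

end Cfsg.Agent.S2504
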