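import Cfsg.Statements.S2506
import Cfsg.Agent.Lib.Helper10.AbAlt.Main

set_option autoImplicit false
open scoped Pointwise
open Cfsg

namespace Cfsg.Agent.S2506

open Cfsg.Agent.Lib.Helper10.AbAlt in
theorem ext_map (n : ℕ) (A : Subgroup (alternatingGroup (Fin n))) (hA : IsMulCommutative A)
    (hAmax : ∀ C : Subgroup (alternatingGroup (Fin n)), IsMulCommutative C → Nat.card C ≤ Nat.card A) :
    Ext (Finset.univ : Finset (Fin n)) (A.map (alternatingGroup (Fin n)).subtype) := by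
  have hcard : Nat.card (A.map (alternatingGroup (Fin n)).subtype) = Nat.card A :=
    Subgroup.card_map_of_injective (Subgroup.subtype_injective _)
  have hle : A.map (alternatingGroup (Fin n)).subtype ≤ Al (Finset.univ : Finset (Fin n)) := by
    rintro _ ⟨a, -, rfl⟩
    exact mem_Al.2 ⟨fun x hx => absurd (Finset.mem_univ x) hx, Equiv.Perm.mem_alternatingGroup.1 a.2⟩
  have hab : Ab (A.map (alternatingGroup (Fin n)).subtype) := by
    rintro _ ⟨a, ha, rfl⟩ _ ⟨b, hb, rfl⟩
    have h1 : (⟨a, ha⟩ : A) * ⟨b, hb⟩ = ⟨b, hb⟩ * ⟨a, ha⟩ := hA.is_comm.comm _ _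
    have h2 : a * b = b * a := congrArg Subtype.val h1
    rw [← map_mul, ← map_mul, h2]
  refine ⟨hle, hab, le_antisymm (card_le_gg hle hab) ?_⟩
  obtain ⟨A0, hA0⟩ := exists_ext (Finset.univ : Finset (Fin n))
  have hA0le : A0 ≤ alternatingGroup (Fin n) := fun a ha =>
    Equiv.Perm.mem_alternatingGroup.2 (mem_Al.1 (hA0.le ha)).2
  have hc0 : Nat.card (A0.subgroupOf (alternatingGroup (Fin n))) = Nat.card A0 :=
    Nat.card_congr (Subgroup.subgroupOfEquivOfLe hA0le).toEquiv
  have hcomm : IsMulCommutative (A0.subgroupOf (alternatingGroup (Fin n))) := by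
    refine ⟨⟨fun a b => ?_⟩⟩
    apply Subtype.ext
    apply Subtype.ext
    exact hA0.ab _ (Subgroup.mem_subgroupOf.1 a.2) _ (Subgroup.mem_subgroupOf.1 b.2)
  rw [hcard, ← hA0.card, ← hc0]
  exact hAmax _ hcomm

/-- In the alternating group of any degree, any two abelian subgroups of the largest possible order (among abelian subgroups) are conjugate. -/
theorem result (n : ℕ)
    (A B : Subgroup (alternatingGroup (Fin n))) (hA : IsMulCommutative A) (hB : IsMulCommutative B)
    (hAmax : ∀ C : Subgroup (alternatingGroup (Fin n)), IsMulCommutative C → Nat.card C ≤ Nat.card A)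
    (hBmax : ∀ C : Subgroup (alternatingGroup (Fin n)), IsMulCommutative C → Nat.card C ≤ Nat.card B) :
    ∃ g : alternatingGroup (Fin n), B = MulAut.conj g • A := by
  obtain ⟨σ, hσ, hσA⟩ := Cfsg.Agent.Lib.Helper10.AbAlt.conj_ext_even (ext_map n A hA hAmax) (ext_map n B hB hBmax)
  have hσ' : σ ∈ alternatingGroup (Fin n) :=
    Equiv.Perm.mem_alternatingGroup.2 (Cfsg.Agent.Lib.Helper10.AbAlt.mem_Al.1 hσ).2
  refine ⟨⟨σ, hσ'⟩, ?_⟩
  apply Subgroup.map_injective (Subgroup.subtype_injective (alternatingGroup (Fin n)))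
  rw [← hσA]
  ext a
  constructor
  · intro ha
    obtain ⟨b, hb, rfl⟩ := Subgroup.mem_smul_pointwise_iff_exists _ _ _ |>.1 ha
    obtain ⟨c, hc, rfl⟩ := hb
    refine ⟨MulAut.conj (⟨σ, hσ'⟩ : alternatingGroup (Fin n)) • c, Subgroup.smul_mem_pointwise_smul _ _ _ hc, ?_⟩
    rfl
  · rintro ⟨b, hb, rfl⟩
    obtain ⟨c, hc, rfl⟩ := Subgroup.mem_smul_pointwise_iff_exists _ _ _ |>.1 hb
    have : (alternatingGroup (Fin n)).subtype (MulAut.conj (⟨σ, hσ'⟩ : alternatingGroup (Fin n)) • c)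
        = MulAut.conj σ • ((alternatingGroup (Fin n)).subtype c) := rfl
    rw [this]
    exact Subgroup.smul_mem_pointwise_smul _ _ _ ⟨c, hc, rfl⟩

end Cfsg.Agent.S2506
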