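import Cfsg.Statements.S2511
import Mathlib
import Cfsg.Agent.Lib.Helper42.SpecPSU11
import Cfsg.Agent.S2510

set_option autoImplicit false
open Cfsg

namespace Cfsg.Agent.S2511

open Cfsg.Agent.Lib.Helper42.SpecPSL Cfsg.Agent.Lib.Helper42.SpecPSU Cfsg.Agent.Lib.Helper13

lemma exists_torus {F : Type*} [Field F] [Fintype F] {q : ℕ} (hF : Fintype.card F = q ^ 2)
    (p : ℕ) [Fact p.Prime] [CharP F p] (n : ℕ) (hn : 0 < n) :
    ∃ g : Cfsg.PSU n F q, orderOf g = NU q n := by
  rcases Nat.even_or_odd' n with ⟨k, rfl | rfl⟩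
  · exact exists_torus_even hF p k (by omega)
  · exact exists_torus_odd hF p k

/-- If r is a prime dividing q + 1 and coprime to n, then ω(PSU_n(q)³) = ω(PSU_n(q)³ × Z_r^m) for all m, and ω(PSU_n(q)²) = ω(PSU_n(q)² × Z_r^m) when n − 1 is not a power of the characteristic. -/
theorem result {F : Type*} [Field F] [Fintype F] (p a n q r m : ℕ) (hp : p.Prime) (ha : 1 ≤ a) (hq : q = p ^ a) (hF : Fintype.card F = q ^ 2)
    (hn : 3 ≤ n) (hn3 : ¬ (n = 3 ∧ q = 2)) (hr : r.Prime) (hrq : r ∣ q + 1) (hrn : ¬ r ∣ n) :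
    Set.range (orderOf : Cfsg.PSU n F q × Cfsg.PSU n F q × Cfsg.PSU n F q × Multiplicative (Fin m → ZMod r) → ℕ) = Set.range (orderOf : Cfsg.PSU n F q × Cfsg.PSU n F q × Cfsg.PSU n F q → ℕ) ∧
    ((¬ ∃ j : ℕ, n - 1 = p ^ j) →
      Set.range (orderOf : Cfsg.PSU n F q × Cfsg.PSU n F q × Multiplicative (Fin m → ZMod r) → ℕ) = Set.range (orderOf : Cfsg.PSU n F q × Cfsg.PSU n F q → ℕ)) := by
  classical
  have : Fact p.Prime := ⟨hp⟩
  have hq2 := two_le_of_card_sq hF
  have hchar : CharP F p := by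
    obtain ⟨p', hp'⟩ := CharP.exists F
    obtain ⟨a', hp'prime, ha'⟩ := FiniteField.card F p'
    have : p' = p := by
      have h1 : p' ∣ p ^ (a * 2) := by rw [pow_mul, ← hq, ← hF, ha']; exact dvd_pow_self _ a'.ne_zero
      exact (Nat.prime_dvd_prime_iff_eq hp'prime hp).mp (hp'prime.dvd_of_dvd_pow h1)
    exact this ▸ hp'
  have : Finite (Cfsg.SU n F q) := by
    have : Finite (Matrix.SpecialLinearGroup (Fin n) F) := Subtype.finite
    exact Subtype.finite
  have : Finite (Cfsg.PSU n F q) := inferInstance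
  have htri := trichotomy_u (F := F) hF p (n := n) (by omega) r hr hrq hrn
  have hPN : Nat.Coprime (p ^ Nat.clog p n) (NU q n) :=
    Nat.Coprime.pow_left _ (Nat.Coprime.coprime_dvd_right (hF ▸ NU_dvd q n (by omega))
      (coprime_card_pow_sub_one (F := F) p n (by omega)))
  refine ⟨?_, ?_⟩
  · exact Cfsg.Agent.S2510.range_three r m hr (Cfsg.Agent.S2510.three r _ _ hr hPN htri
      (exists_torus hF p n (by omega)) (exists_p_psu hF p n (by omega)) (exists_r_psu hF n (by omega) r hr hrq hrn))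
  · intro h
    exact Cfsg.Agent.S2510.range_two r m hr (Cfsg.Agent.S2510.two r _ _ hr hPN htri
      (exists_torus hF p n (by omega)) (exists_rp_psu hF p n (by omega) h r hr hrq hrn))

end Cfsg.Agent.S2511
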