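import Cfsg.Statements.S2512
import Mathlib
import Cfsg.Agent.Lib.Helper42.SpecPSp10

set_option autoImplicit false
open Cfsg

namespace Cfsg.Agent.S2512

open Cfsg.Agent.Lib.Helper42.SpecPSL Cfsg.Agent.Lib.Helper42.SpecPSp

/-- Let F be a finite field of odd order q = p^a, n ≥ 2 (with q ≥ 3 automatic), and L = PSp(2n, F). Then for every m the direct product L × L × L × (ℤ/2)^m has the same set of element orders as L × L × L; and if 2n − 1 is not a power of p, then already L × L × (ℤ/2)^m has the same set of element orders as L × L. -/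
theorem result {F : Type*} [Field F] [Fintype F] (p a n m : ℕ) (hp : p.Prime) (ha : 1 ≤ a) (hF : Fintype.card F = p ^ a) (hodd : Odd (Fintype.card F))
    (hn : 2 ≤ n) :
    Set.range (orderOf : Cfsg.PSp n F × Cfsg.PSp n F × Cfsg.PSp n F × Multiplicative (Fin m → ZMod 2) → ℕ) = Set.range (orderOf : Cfsg.PSp n F × Cfsg.PSp n F × Cfsg.PSp n F → ℕ) ∧
    ((¬ ∃ j : ℕ, 2 * n - 1 = p ^ j) →
      Set.range (orderOf : Cfsg.PSp n F × Cfsg.PSp n F × Multiplicative (Fin m → ZMod 2) → ℕ) = Set.range (orderOf : Cfsg.PSp n F × Cfsg.PSp n F → ℕ)) := by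
  classical
  have : Fact p.Prime := ⟨hp⟩
  have hchar : CharP F p := by
    obtain ⟨p', hp'⟩ := CharP.exists F
    obtain ⟨a', hp'prime, ha'⟩ := FiniteField.card F p'
    have : p' = p := by
      have h1 : p' ∣ p ^ a := by rw [← hF, ha']; exact dvd_pow_self _ a'.ne_zero
      exact (Nat.prime_dvd_prime_iff_eq hp'prime hp).mp (hp'prime.dvd_of_dvd_pow h1)
    exact this ▸ hp'
  have hp2 : p ≠ 2 := by
    rintro rfl
    rw [hF] at hodd
    exact (Nat.not_even_iff_odd.mpr hodd) ((Nat.even_pow.mpr ⟨even_two, by omega⟩))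
  have hpodd : Odd p := hp.odd_of_ne_two hp2
  have hn0 : 0 < n := by omega
  have hquad := quad (F := F) p hp2 hodd n hn0
  set q := Fintype.card F with hq
  have hq2 : 2 ≤ q := Fintype.one_lt_card
  have hQ : 2 ≤ q ^ n := le_trans hq2 (Nat.le_self_pow hn0.ne' q)
  have hqe1 : 2 ∣ q ^ n + 1 := (hodd.pow.add_one).two_dvd
  have hqe2 : 2 ∣ q ^ n - 1 := (Nat.Odd.sub_odd hodd.pow odd_one).two_dvd
  have hNp : ∃ g : Cfsg.PSp n F, orderOf g = (q ^ n + 1) / 2 :=
    exists_half_psp n hn0 _ hqe1 (exists_torus_plus p hp2 n hn0)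
  have hNm : ∃ g : Cfsg.PSp n F, orderOf g = (q ^ n - 1) / 2 :=
    exists_half_psp n hn0 _ hqe2 (exists_torus_minus p n hn0)
  have hP := exists_p_psp (F := F) p hp2 n hn0
  set P := p ^ Nat.clog p (2 * n) with hPdef
  have hcp : Nat.Coprime P ((q ^ n + 1) / 2) :=
    Nat.Coprime.pow_left _ (Nat.Coprime.coprime_dvd_right (Nat.div_dvd_of_dvd hqe1)
      (coprime_card_pow_add_one (F := F) p n hn0))
  have hcm : Nat.Coprime P ((q ^ n - 1) / 2) :=
    Nat.Coprime.pow_left _ (Nat.Coprime.coprime_dvd_right (Nat.div_dvd_of_dvd hqe2)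
      (coprime_card_pow_sub_one (F := F) p n hn0))
  obtain ⟨No, Ne, hNo, hNe, hev, hcase, hPN⟩ : ∃ No Ne : ℕ, (∃ g : Cfsg.PSp n F, orderOf g = No) ∧
      (∃ g : Cfsg.PSp n F, orderOf g = Ne) ∧ 2 ∣ Ne ∧
      (∀ o, (o ∣ (q ^ n + 1) / 2 ∨ o ∣ (q ^ n - 1) / 2) → (o ∣ No ∨ o ∣ Ne)) ∧ Nat.Coprime P No := by
    rcases Nat.even_or_odd ((q ^ n - 1) / 2) with h | h
    · exact ⟨_, _, hNp, hNm, h.two_dvd, fun o ho => ho, hcp⟩
    · refine ⟨_, _, hNm, hNp, ?_, fun o ho => ho.symm, hcm⟩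
      have : (q ^ n + 1) / 2 = (q ^ n - 1) / 2 + 1 := by omega
      rw [this]
      exact h.add_one.two_dvd
  have htri : ∀ g : Cfsg.PSp n F, 2 ∣ orderOf g ∨ (∃ g' : Cfsg.PSp n F, orderOf g' = 2 * orderOf g) ∨
      orderOf g ∣ P * No := by
    intro g
    by_cases h2 : 2 ∣ orderOf g
    · exact Or.inl h2
    have ho : Odd (orderOf g) := by
      rcases Nat.even_or_odd (orderOf g) with h | h
      · exact absurd h.two_dvd h2
      · exact h
    rcases hquad g with h | h | h | h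
    · exact Or.inl h
    · exact Or.inr (Or.inl h)
    · exact Or.inr (Or.inr (h.mul_right _))
    · rcases hcase _ h with h | h
      · exact Or.inr (Or.inr (h.mul_left _))
      · exact Or.inr (Or.inl (double_of_dvd _ _ ho h hev hNe))
  refine ⟨?_, ?_⟩
  · exact Cfsg.Agent.S2510.range_three 2 m Nat.prime_two (Cfsg.Agent.S2510.three 2 _ _ Nat.prime_two hPN htri
      hNo hP (Cfsg.Agent.S2510.exists_of_dvd hNe hev))
  · intro h
    have hc1 : Nat.clog p (2 * n - 1) = Nat.clog p (2 * n) := clog_pred p (2 * n) hp.one_lt (by omega) h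
    have hc2 : Nat.clog p (2 * n - 1 - 1) = Nat.clog p (2 * n - 1) := by
      apply clog_pred p (2 * n - 1) hp.one_lt (by omega)
      rintro ⟨j, hj⟩
      have h1 : Odd (p ^ j) := hpodd.pow
      rw [← hj] at h1
      obtain ⟨c, hc⟩ := h1
      omega
    have h2P : ∃ g : Cfsg.PSp n F, orderOf g = 2 * P := by
      have h3 := cast_psp (F := F) (n := n) (n' := 1 + (n - 1)) (by omega) _
        (exists_C_minus (F := F) p hp2 1 (n - 1) (by omega) (by omega))
      have e : 2 * (n - 1) = 2 * n - 1 - 1 := by omega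
      rw [e, hc2, hc1, pow_one] at h3
      apply Cfsg.Agent.S2510.exists_of_dvd h3
      apply Nat.mul_dvd_mul_right
      exact (Nat.Odd.sub_odd hodd odd_one).two_dvd
    exact Cfsg.Agent.S2510.range_two 2 m Nat.prime_two (Cfsg.Agent.S2510.two 2 _ _ Nat.prime_two hPN htri
      hNo h2P)

end Cfsg.Agent.S2512
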