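import Cfsg.Statements.S2514
import Mathlib

set_option autoImplicit false
open Cfsg

namespace Cfsg.Agent.S2514

/-- the spectrum is closed under divisors -/
lemma spec_dvd {X : Type*} [Group X] [Finite X] {n d : ℕ} (hn : n ∈ Set.range (orderOf : X → ℕ)) (hd : d ∣ n) :
    d ∈ Set.range (orderOf : X → ℕ) := by
  obtain ⟨x, rfl⟩ := hn
  exact ⟨x ^ (orderOf x / d), orderOf_pow_orderOf_div (orderOf_pos x).ne' hd⟩

/-- every element order divides a maximal one -/
lemma exists_max {X : Type*} [Group X] [Finite X] {n : ℕ} (hn : n ∈ Set.range (orderOf : X → ℕ)) :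
    ∃ m, (m ∈ Set.range (orderOf : X → ℕ) ∧ ∀ m' ∈ Set.range (orderOf : X → ℕ), m ∣ m' → m' = m) ∧ n ∣ m := by
  classical
  have hfin : (Set.range (orderOf : X → ℕ)).Finite := Set.finite_range _
  have hfin2 : ({m | m ∈ Set.range (orderOf : X → ℕ) ∧ n ∣ m} : Set ℕ).Finite := hfin.subset (fun m hm => hm.1)
  have hne : ({m | m ∈ Set.range (orderOf : X → ℕ) ∧ n ∣ m} : Set ℕ).Nonempty := ⟨n, hn, dvd_rfl⟩
  obtain ⟨m, hm, hmax⟩ := Set.exists_max_image _ id hfin2 hne
  refine ⟨m, ⟨hm.1, ?_⟩, hm.2⟩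
  intro m' hm' hdvd
  have h1 : m' ≤ m := hmax m' ⟨hm', hm.2.trans hdvd⟩
  have hpos : 0 < m' := by
    obtain ⟨x, rfl⟩ := hm'
    exact orderOf_pos x
  exact le_antisymm h1 (Nat.le_of_dvd hpos hdvd)

lemma orderOf_eq_of_forall {X Y : Type*} [Monoid X] [Monoid Y] (x : X) (y : Y)
    (h : ∀ n : ℕ, x ^ n = 1 ↔ y ^ n = 1) : orderOf x = orderOf y := by
  apply Nat.dvd_antisymm
  · rw [orderOf_dvd_iff_pow_eq_one, h]; exact pow_orderOf_eq_one y
  · rw [orderOf_dvd_iff_pow_eq_one, ← h]; exact pow_orderOf_eq_one x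

theorem result {G H : Type*} [Group G] [Finite G] [Group H] [Finite H] (k : ℕ) (hk : 1 ≤ k)
    (hsub : {n : ℕ | n ∈ Set.range (orderOf : H → ℕ) ∧ ∀ m ∈ Set.range (orderOf : H → ℕ), n ∣ m → m = n} ⊆ {n : ℕ | n ∈ Set.range (orderOf : G → ℕ) ∧ ∀ m ∈ Set.range (orderOf : G → ℕ), n ∣ m → m = n})
    (hfew : ({n : ℕ | n ∈ Set.range (orderOf : G → ℕ) ∧ ∀ m ∈ Set.range (orderOf : G → ℕ), n ∣ m → m = n} \ {n : ℕ | n ∈ Set.range (orderOf : H → ℕ) ∧ ∀ m ∈ Set.range (orderOf : H → ℕ), n ∣ m → m = n}).ncard < k) :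
    Set.range (orderOf : (Fin k → G) → ℕ) = Set.range (orderOf : (Fin (k - 1) → G) × H → ℕ) := by
  classical
  obtain ⟨k, rfl⟩ : ∃ k', k = k' + 1 := ⟨k - 1, by omega⟩
  show Set.range (orderOf : (Fin (k + 1) → G) → ℕ) = Set.range (orderOf : (Fin k → G) × H → ℕ)
  apply Set.eq_of_subset_of_subset
  · rintro _ ⟨x, rfl⟩
    -- choose maximal orders
    have hm : ∀ i, ∃ m, (m ∈ Set.range (orderOf : G → ℕ) ∧ ∀ m' ∈ Set.range (orderOf : G → ℕ), m ∣ m' → m' = m) ∧ orderOf (x i) ∣ m :=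
      fun i => exists_max ⟨x i, rfl⟩
    choose m hm1 hm2 using hm
    by_cases hcase : ∃ j, m j ∈ {n : ℕ | n ∈ Set.range (orderOf : H → ℕ) ∧ ∀ m ∈ Set.range (orderOf : H → ℕ), n ∣ m → m = n}
    · obtain ⟨j, hj⟩ := hcase
      obtain ⟨h, hh⟩ := spec_dvd hj.1 (hm2 j)
      refine ⟨(fun i => x (j.succAbove i), h), ?_⟩
      apply orderOf_eq_of_forall
      intro n
      rw [Prod.ext_iff, funext_iff, funext_iff, Fin.forall_iff_succAbove j]
      simp only [Prod.pow_fst, Prod.pow_snd, Pi.pow_apply, Prod.fst_one, Prod.snd_one, Pi.one_apply]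
      rw [← orderOf_dvd_iff_pow_eq_one (x := h), hh, orderOf_dvd_iff_pow_eq_one]
      tauto
    · push Not at hcase
      -- pigeonhole
      set S := ({n : ℕ | n ∈ Set.range (orderOf : G → ℕ) ∧ ∀ m ∈ Set.range (orderOf : G → ℕ), n ∣ m → m = n} \ {n : ℕ | n ∈ Set.range (orderOf : H → ℕ) ∧ ∀ m ∈ Set.range (orderOf : H → ℕ), n ∣ m → m = n}) with hS
      have hSfin : S.Finite := ((Set.finite_range (orderOf : G → ℕ)).subset (fun n hn => hn.1)).subset Set.sdiff_subset
      have hmS : ∀ i, m i ∈ S := fun i => ⟨hm1 i, hcase i⟩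
      have : ∃ i j, i ≠ j ∧ m i = m j := by
        by_contra hcon
        push Not at hcon
        have hinj : Function.Injective m := fun i j hij => by
          by_contra hne
          exact hcon i j hne hij
        have h1 : (Set.range m).ncard = k + 1 := by
          rw [Set.ncard_range_of_injective hinj]; simp
        have h2 : (Set.range m).ncard ≤ S.ncard := Set.ncard_le_ncard (by rintro _ ⟨i, rfl⟩; exact hmS i) hSfin
        omega
      obtain ⟨i, j, hij, hmij⟩ := this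
      have hl : Nat.lcm (orderOf (x i)) (orderOf (x j)) ∣ m i := Nat.lcm_dvd (hm2 i) (hmij ▸ hm2 j)
      obtain ⟨g, hg⟩ := spec_dvd (hm1 i).1 hl
      refine ⟨(fun l => (Function.update x i g) (j.succAbove l), 1), ?_⟩
      apply orderOf_eq_of_forall
      intro n
      rw [Prod.ext_iff, funext_iff, funext_iff, Fin.forall_iff_succAbove j]
      simp only [Prod.pow_fst, Prod.pow_snd, Pi.pow_apply, Prod.fst_one, Prod.snd_one, Pi.one_apply, one_pow, and_true]
      obtain ⟨i', rfl⟩ := Fin.exists_succAbove_eq hij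
      constructor
      · intro h
        have hgi := h i'
        rw [Function.update_self, ← orderOf_dvd_iff_pow_eq_one, hg, Nat.lcm_dvd_iff] at hgi
        refine ⟨orderOf_dvd_iff_pow_eq_one.mp hgi.2, fun l => ?_⟩
        by_cases hl' : l = i'
        · subst hl'; exact orderOf_dvd_iff_pow_eq_one.mp hgi.1
        · have := h l
          rwa [Function.update_of_ne (fun hh => hl' (Fin.succAbove_right_injective hh))] at this
      · rintro ⟨h1, h2⟩ l
        by_cases hl' : l = i'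
        · subst hl'
          rw [Function.update_self, ← orderOf_dvd_iff_pow_eq_one, hg, Nat.lcm_dvd_iff]
          exact ⟨orderOf_dvd_iff_pow_eq_one.mpr (h2 l), orderOf_dvd_iff_pow_eq_one.mpr h1⟩
        · rw [Function.update_of_ne (fun hh => hl' (Fin.succAbove_right_injective hh))]
          exact h2 l
  · rintro _ ⟨⟨a, h⟩, rfl⟩
    obtain ⟨m, hm, hdvd⟩ := exists_max (X := H) ⟨h, rfl⟩
    obtain ⟨g, hg⟩ := spec_dvd (hsub hm).1 hdvd
    refine ⟨Fin.cons g a, ?_⟩
    apply orderOf_eq_of_forall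
    intro n
    rw [Prod.ext_iff, funext_iff, funext_iff, Fin.forall_fin_succ]
    simp only [Prod.pow_fst, Prod.pow_snd, Pi.pow_apply, Prod.fst_one, Prod.snd_one, Pi.one_apply, Fin.cons_zero, Fin.cons_succ]
    rw [← orderOf_dvd_iff_pow_eq_one (x := g), hg, orderOf_dvd_iff_pow_eq_one]
    tauto

end Cfsg.Agent.S2514
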