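import Cfsg.Statements.S2515
import Cfsg.Agent.Lib.Lead.ReeCube.Spec

set_option autoImplicit false
open Cfsg

namespace Cfsg.Agent.S2515

open Cfsg.Agent.Lib.Lead.ReeCube

theorem max_set (S : Set ℕ) (a b c d : ℕ) (hS : ∀ n, n ∈ S ↔ n ∣ a ∨ n ∣ b ∨ n ∣ c ∨ n ∣ d)
    (hab : ¬ a ∣ b) (hac : ¬ a ∣ c) (had : ¬ a ∣ d) (hba : ¬ b ∣ a) (hbc : ¬ b ∣ c) (hbd : ¬ b ∣ d)
    (hca : ¬ c ∣ a) (hcb : ¬ c ∣ b) (hcd : ¬ c ∣ d) (hda : ¬ d ∣ a) (hdb : ¬ d ∣ b)
    (hdc : ¬ d ∣ c) :
    {n : ℕ | n ∈ S ∧ ∀ m ∈ S, n ∣ m → m = n} = ({a, b, c, d} : Set ℕ) := by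
  have ha : a ∈ S := (hS a).2 (Or.inl dvd_rfl)
  have hb : b ∈ S := (hS b).2 (Or.inr (Or.inl dvd_rfl))
  have hc : c ∈ S := (hS c).2 (Or.inr (Or.inr (Or.inl dvd_rfl)))
  have hd : d ∈ S := (hS d).2 (Or.inr (Or.inr (Or.inr dvd_rfl)))
  ext n
  simp only [Set.mem_ofPred_eq, Set.mem_insert_iff, Set.mem_singleton_iff]
  constructor
  · rintro ⟨hn, hmax⟩
    rcases (hS n).1 hn with h | h | h | h
    · exact Or.inl (hmax a ha h).symm
    · exact Or.inr (Or.inl (hmax b hb h).symm)
    · exact Or.inr (Or.inr (Or.inl (hmax c hc h).symm))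
    · exact Or.inr (Or.inr (Or.inr (hmax d hd h).symm))
  · rintro (rfl | rfl | rfl | rfl)
    · refine ⟨ha, fun m hm hnm => ?_⟩
      rcases (hS m).1 hm with h | h | h | h
      · exact Nat.dvd_antisymm h hnm
      · exact absurd (hnm.trans h) hab
      · exact absurd (hnm.trans h) hac
      · exact absurd (hnm.trans h) had
    · refine ⟨hb, fun m hm hnm => ?_⟩
      rcases (hS m).1 hm with h | h | h | h
      · exact absurd (hnm.trans h) hba
      · exact Nat.dvd_antisymm h hnm
      · exact absurd (hnm.trans h) hbc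
      · exact absurd (hnm.trans h) hbd
    · refine ⟨hc, fun m hm hnm => ?_⟩
      rcases (hS m).1 hm with h | h | h | h
      · exact absurd (hnm.trans h) hca
      · exact absurd (hnm.trans h) hcb
      · exact Nat.dvd_antisymm h hnm
      · exact absurd (hnm.trans h) hcd
    · refine ⟨hd, fun m hm hnm => ?_⟩
      rcases (hS m).1 hm with h | h | h | h
      · exact absurd (hnm.trans h) hda
      · exact absurd (hnm.trans h) hdb
      · exact absurd (hnm.trans h) hdc
      · exact Nat.dvd_antisymm h hnm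

/-- Let q = 3^α with α ≥ 3 odd. There is a finite group H having a non-trivial normal 3-subgroup and whose element orders maximal under divisibility are exactly 6, 9, q − 1 and (q + 1)/2. -/
theorem result (α : ℕ) (hα : 3 ≤ α) (hodd : Odd α) :
    ∃ (H : Type) (_ : Group H) (_ : Fintype H), (∃ P : Subgroup H, P.Normal ∧ P ≠ ⊥ ∧ IsPGroup 3 ↥P) ∧
      {n : ℕ | n ∈ Set.range (orderOf : H → ℕ) ∧ ∀ m ∈ Set.range (orderOf : H → ℕ), n ∣ m → m = n} = ({6, 9, 3 ^ α - 1, (3 ^ α + 1) / 2} : Set ℕ) := by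
  classical
  obtain ⟨m, rfl⟩ := hodd
  have := fact3
  let K : Type := GaloisField 3 (2 * m + 1)
  have hfinK : Finite K := inferInstance
  let _ : Fintype K := Fintype.ofFinite K
  have hK : Fintype.card K = 3 ^ (2 * m + 1) := by
    rw [Fintype.card_eq_nat_card]
    exact GaloisField.card 3 (2 * m + 1) (by omega)
  have hfin : Finite (HH K 1) := Finite.of_equiv _ SemidirectProduct.equivProd.symm
  refine ⟨HH K 1, inferInstance, Fintype.ofFinite _, ?_, ?_⟩
  · refine ⟨(SemidirectProduct.rightHom : HH K 1 →* XX K).ker, inferInstance, ?_, ?_⟩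
    · intro hbot
      have hmem : (SemidirectProduct.inl (Multiplicative.ofAdd (fun _ => (1 : VV K))) : HH K 1) ∈
          (SemidirectProduct.rightHom : HH K 1 →* XX K).ker := by
        rw [MonoidHom.mem_ker]
        rfl
      rw [hbot, Subgroup.mem_bot] at hmem
      have h1 := congrArg SemidirectProduct.left hmem
      have h2 := congrFun (congrFun (congrFun (congrArg Multiplicative.toAdd h1) 0) 0) 0
      exact one_ne_zero h2
    · rintro ⟨g, hg⟩
      refine ⟨1, Subtype.ext ?_⟩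
      show g ^ 3 ^ 1 = 1
      rw [pow_one]
      have hg' : g.right = 1 := hg
      have hgl : g = SemidirectProduct.inl g.left := by
        apply SemidirectProduct.ext
        · rfl
        · exact hg'
      rw [hgl, ← map_pow, Spec.cube_WW, map_one]
  · have hq4 := Spec.q_mod m
    have hq3 : 3 ^ (2 * m + 1) % 3 = 0 := by
      rw [pow_succ]; omega
    have hq27 : 27 ≤ 3 ^ (2 * m + 1) := by
      calc 27 = 3 ^ 3 := by norm_num
        _ ≤ 3 ^ (2 * m + 1) := Nat.pow_le_pow_right (by norm_num) hα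
    have hS : ∀ n, n ∈ Set.range (orderOf : HH K 1 → ℕ) ↔
        n ∣ 6 ∨ n ∣ 9 ∨ n ∣ 3 ^ (2 * m + 1) - 1 ∨ n ∣ (3 ^ (2 * m + 1) + 1) / 2 := by
      intro n
      exact spec_HH hK 1 le_rfl n
    generalize 3 ^ (2 * m + 1) = q at hq4 hq3 hq27 hS ⊢
    apply max_set _ _ _ _ _ hS
    · decide
    · omega
    · omega
    · decide
    · omega
    · omega
    · intro h; have := Nat.le_of_dvd (by norm_num) h; omega
    · intro h; have := Nat.le_of_dvd (by norm_num) h; omega
    · intro h; have := Nat.le_of_dvd (by omega) h; omega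
    · intro h; have := Nat.le_of_dvd (by norm_num) h; omega
    · intro h; have := Nat.le_of_dvd (by norm_num) h; omega
    · intro h
      have h2 : (q + 1) / 2 ∣ 2 * ((q + 1) / 2) - (q - 1) :=
        Nat.dvd_sub (Dvd.intro_left 2 rfl) h
      have h3 : 2 * ((q + 1) / 2) - (q - 1) = 2 := by omega
      rw [h3] at h2
      have := Nat.le_of_dvd (by norm_num) h2
      omega

end Cfsg.Agent.S2515
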