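import Cfsg.Statements.S2516
import Mathlib

set_option autoImplicit false
open Cfsg

namespace Cfsg.Agent.S2516

variable {F : Type*} [Field F] {V : Type*} [AddCommGroup V] [Module F V] {G : Type*} [Group G]

/-- the action used in the statement -/
noncomputable abbrev act (ρ : Representation F G V) : G →* MulAut (Multiplicative V) :=
  (MulAutMultiplicative V).symm.toMonoidHom.comp
        ((DistribMulAction.toAddAut ((V →ₗ[F] V)ˣ) V).comp ρ.asGroupHom)

lemma act_apply (ρ : Representation F G V) (g : G) (v : V) :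
    act ρ g (Multiplicative.ofAdd v) = Multiplicative.ofAdd (ρ g v) := rfl

lemma pow_formula (ρ : Representation F G V) (g : G) (v : V) (n : ℕ) :
    ((⟨Multiplicative.ofAdd v, g⟩ : Multiplicative V ⋊[act ρ] G)) ^ n =
      ⟨Multiplicative.ofAdd (∑ i ∈ Finset.range n, (ρ g ^ i) v), g ^ n⟩ := by
  induction n with
  | zero => simp
  | succ n ih =>
    rw [pow_succ, ih]
    ext
    · simp only [SemidirectProduct.mul_left]
      rw [act_apply, ← ofAdd_add, Finset.sum_range_succ, map_pow]
    · simp only [SemidirectProduct.mul_right, pow_succ]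

theorem result {F : Type*} [Field F] (p : ℕ) [Fact p.Prime] [CharP F p] {V : Type*} [AddCommGroup V] [Module F V] [FiniteDimensional F V] [Nontrivial V]
    {G : Type*} [Group G] [Finite G] (ρ : Representation F G V) (g : G) :
    (∃ x : Multiplicative V ⋊[(MulAutMultiplicative V).symm.toMonoidHom.comp
        ((DistribMulAction.toAddAut ((V →ₗ[F] V)ˣ) V).comp ρ.asGroupHom)] G,
        x.right = g ∧ orderOf x = p * orderOf g) ↔
      ¬ (minpoly F (ρ g) ∣ ∑ i ∈ Finset.range (orderOf g), (Polynomial.X : Polynomial F) ^ i) := by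
  classical
  have hp : p.Prime := Fact.out
  have hk : 0 < orderOf g := orderOf_pos g
  rw [minpoly.dvd_iff]
  have haeval : Polynomial.aeval (ρ g) (∑ i ∈ Finset.range (orderOf g), (Polynomial.X : Polynomial F) ^ i)
      = ∑ i ∈ Finset.range (orderOf g), (ρ g) ^ i := by simp
  rw [haeval]
  constructor
  · rintro ⟨⟨v, g'⟩, hx1, hx2⟩ hN
    obtain rfl : g' = g := hx1
    obtain ⟨v, rfl⟩ := Multiplicative.ofAdd.surjective v
    have h1 := pow_formula ρ g' v (orderOf g')
    have h2 : (∑ i ∈ Finset.range (orderOf g'), (ρ g' ^ i) v) = 0 := by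
      have := congrArg (fun f : V →ₗ[F] V => f v) hN
      simpa using this
    rw [h2, pow_orderOf_eq_one] at h1
    have h3 : orderOf (⟨Multiplicative.ofAdd v, g'⟩ : Multiplicative V ⋊[act ρ] G) ∣ orderOf g' :=
      orderOf_dvd_of_pow_eq_one h1
    rw [hx2] at h3
    have := Nat.le_of_dvd hk h3
    have hp2 := hp.two_le
    nlinarith
  · intro hN
    obtain ⟨v, hv⟩ : ∃ v, (∑ i ∈ Finset.range (orderOf g), (ρ g) ^ i) v ≠ 0 := by
      by_contra hcon
      push Not at hcon
      exact hN (LinearMap.ext hcon)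
    refine ⟨⟨Multiplicative.ofAdd v, g⟩, rfl, ?_⟩
    set x : Multiplicative V ⋊[act ρ] G := ⟨Multiplicative.ofAdd v, g⟩ with hx
    have h1 := pow_formula ρ g v (orderOf g)
    rw [pow_orderOf_eq_one] at h1
    -- k ∣ orderOf x
    have hdvd1 : orderOf g ∣ orderOf x := by
      have := orderOf_map_dvd (SemidirectProduct.rightHom : Multiplicative V ⋊[act ρ] G →* G) x
      simpa using this
    -- orderOf x ∣ p * k
    have hdvd2 : orderOf x ∣ p * orderOf g := by
      apply orderOf_dvd_of_pow_eq_one
      rw [mul_comm, pow_mul, h1]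
      have : (⟨Multiplicative.ofAdd (∑ i ∈ Finset.range (orderOf g), (ρ g ^ i) v), 1⟩ : Multiplicative V ⋊[act ρ] G)
          = SemidirectProduct.inl (Multiplicative.ofAdd (∑ i ∈ Finset.range (orderOf g), (ρ g ^ i) v)) := rfl
      rw [this, ← map_pow, ← ofAdd_nsmul]
      have hchar : ∀ w : V, p • w = 0 := by
        intro w
        rw [← Nat.cast_smul_eq_nsmul F, CharP.cast_eq_zero, zero_smul]
      rw [hchar]; simp
    have hne : orderOf x ≠ orderOf g := by
      intro heq
      have h2 : x ^ orderOf g = 1 := by rw [← heq]; exact pow_orderOf_eq_one x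
      rw [h1] at h2
      have h3 := congrArg SemidirectProduct.left h2
      simp only [SemidirectProduct.one_left] at h3
      apply hv
      have : (∑ i ∈ Finset.range (orderOf g), (ρ g ^ i) v) = 0 := Multiplicative.ofAdd.injective h3
      simpa using this
    obtain ⟨c, hc⟩ := hdvd1
    rw [hc, mul_comm p, Nat.mul_dvd_mul_iff_left hk] at hdvd2
    rcases (Nat.dvd_prime hp).mp hdvd2 with rfl | rfl
    · exact absurd (by simpa using hc) hne
    · rw [hc, mul_comm]

end Cfsg.Agent.S2516
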