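import Cfsg.Statements.S2521

set_option autoImplicit false
open Cfsg

namespace Cfsg.Agent.S2521

theorem result {B : Type*} [Group B] [Finite B] (U T : Subgroup B) [U.Normal] (hU : Group.IsNilpotent ↥U) (hT : IsMulCommutative ↥T)
    (hcompl : Subgroup.IsComplement' U T) (t : B) (ht : t ∈ T) (hreg : Subgroup.centralizer ({t} : Set B) = T) (u : B) (hu : u ∈ U) :
    ∃ b : B, b * t * b⁻¹ = t * u := by
  classical
  -- the map `v ↦ t⁻¹ * (v * t * v⁻¹)` from `U` to `U` is injective, hence surjective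
  have hmem : ∀ v : U, t⁻¹ * ((v : B) * t * (v : B)⁻¹) ∈ U := by
    intro v
    have h1 : t⁻¹ * (v : B) * t⁻¹⁻¹ ∈ U := ‹U.Normal›.conj_mem _ v.2 _
    have h2 : (t⁻¹ * (v : B) * t⁻¹⁻¹) * (v : B)⁻¹ ∈ U := U.mul_mem h1 (U.inv_mem v.2)
    have : t⁻¹ * ((v : B) * t * (v : B)⁻¹) = (t⁻¹ * (v : B) * t⁻¹⁻¹) * (v : B)⁻¹ := by group
    rw [this]; exact h2
  let f : U → U := fun v => ⟨t⁻¹ * ((v : B) * t * (v : B)⁻¹), hmem v⟩
  have hdisj : Disjoint U T := hcompl.disjoint
  have hinj : Function.Injective f := by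
    intro v w hvw
    have h1 : t⁻¹ * ((v : B) * t * (v : B)⁻¹) = t⁻¹ * ((w : B) * t * (w : B)⁻¹) := congrArg Subtype.val hvw
    have h2 : (v : B) * t * (v : B)⁻¹ = (w : B) * t * (w : B)⁻¹ := mul_left_cancel h1
    have h3 : ((w : B)⁻¹ * (v : B)) ∈ Subgroup.centralizer ({t} : Set B) := by
      rw [Subgroup.mem_centralizer_singleton_iff]
      have : (w : B)⁻¹ * ((v : B) * t * (v : B)⁻¹) * (v : B) = (w : B)⁻¹ * ((w : B) * t * (w : B)⁻¹) * (v : B) := by rw [h2]
      have e1 : (w : B)⁻¹ * ((v : B) * t * (v : B)⁻¹) * (v : B) = (w : B)⁻¹ * (v : B) * t := by group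
      have e2 : (w : B)⁻¹ * ((w : B) * t * (w : B)⁻¹) * (v : B) = t * ((w : B)⁻¹ * (v : B)) := by group
      rw [e1, e2] at this
      first | exact this | exact this.symm
    rw [hreg] at h3
    have h4 : ((w : B)⁻¹ * (v : B)) ∈ U := U.mul_mem (U.inv_mem w.2) v.2
    have h5 : ((w : B)⁻¹ * (v : B)) = 1 := by
      have := Subgroup.disjoint_def.mp hdisj h4 h3
      exact this
    apply Subtype.ext
    have : (v : B) = (w : B) := by
      have := congrArg (fun x => (w : B) * x) h5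
      simpa using this
    exact this
  have hsurj : Function.Surjective f := Finite.surjective_of_injective hinj
  obtain ⟨v, hv⟩ := hsurj ⟨u, hu⟩
  refine ⟨v, ?_⟩
  have h1 : t⁻¹ * ((v : B) * t * (v : B)⁻¹) = u := congrArg Subtype.val hv
  rw [← h1]; group

end Cfsg.Agent.S2521
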