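import Cfsg.Statements.S2807
import Cfsg.Agent.Lib.Helper84.FusionYoshida
import Cfsg.Agent.S5076
import Cfsg.Agent.S5096

set_option autoImplicit false
open Cfsg

namespace Cfsg.Agent.S2807

/-- Let S be a Sylow p-subgroup of the finite group G. If S ∩ G' ≠ S ∩ (N_G(S))' (derived subgroups), then the wreath product Z_p ≀ Z_p — realised as a Sylow p-subgroup of the symmetric group of degree p² — is a homomorphic image of S. -/
theorem result {G : Type*} [Group G] [Finite G] {p : ℕ} [Fact p.Prime] (S : Sylow p G) (h : (S : Subgroup G) ⊓ commutator G ≠ (S : Subgroup G) ⊓ ⁅Subgroup.normalizer ((S : Subgroup G) : Set G), Subgroup.normalizer ((S : Subgroup G) : Set G)⁆) : ∃ (P : Sylow p (Equiv.Perm (Fin (p ^ 2)))) (f : ↥(S : Subgroup G) →* ↥(P : Subgroup (Equiv.Perm (Fin (p ^ 2))))), Function.Surjective f := by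
  by_contra hW
  apply h
  have hS : IsPGroup p (S : Subgroup G) := S.isPGroup'
  have hF := Cfsg.Agent.S5076.result p S
  obtain ⟨N, hN⟩ := Cfsg.Agent.S5096.result (groupFusionSystem (S : Subgroup G)) (S : Subgroup G) le_rfl
  have hy := Cfsg.Agent.Lib.Helper84.yoshida hS _ hF hW N hN
  have h1 : (S : Subgroup G) ⊓ commutator G ≤ (groupFusionSystem (S : Subgroup G)).focalSubgroup := by
    rw [inf_comm, Subgroup.commutator_inf_eq_focalSubgroup S, Subgroup.focalSubgroup_def,
      Subgroup.closure_le]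
    rintro g ⟨hg, y, hy, u, hgu⟩
    apply Subgroup.subset_closure
    have hconj : u * y⁻¹ * u⁻¹ ∈ (S : Subgroup G) := by
      have := (S : Subgroup G).mul_mem ((S : Subgroup G).inv_mem hy) hg
      rw [hgu, commutatorElement_def] at this
      simpa [mul_assoc] using this
    refine ⟨Subgroup.zpowers (y⁻¹), Cfsg.conjHom _ u, ⟨y⁻¹, Subgroup.mem_zpowers _⟩,
      ⟨?_, ?_, u, fun x => rfl⟩, ?_⟩
    · rw [Subgroup.zpowers_le]; exact (S : Subgroup G).inv_mem hy
    · rintro ⟨z, hz⟩
      obtain ⟨n, rfl⟩ := Subgroup.mem_zpowers_iff.1 hz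
      rw [Cfsg.Agent.Lib.Helper84.conjHom_apply]
      have := (S : Subgroup G).zpow_mem hconj n
      rwa [conj_zpow] at this
    · rw [Cfsg.Agent.Lib.Helper84.conjHom_apply, hgu, commutatorElement_def]
      simp [mul_assoc]
  have h2 : N.focalSubgroup ≤ (S : Subgroup G) ⊓ ⁅Subgroup.normalizer ((S : Subgroup G) : Set G),
      Subgroup.normalizer ((S : Subgroup G) : Set G)⁆ := by
    unfold Cfsg.FusionSystem.focalSubgroup
    rw [Subgroup.closure_le]
    rintro _ ⟨P, ψ, x, hψ, rfl⟩
    rw [hN] at hψ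
    obtain ⟨hψF, hPN, hψN, ψ', hψ', hext, hmap⟩ := hψ
    obtain ⟨-, -, g, hg⟩ := hψ'
    have hgN : g ∈ Subgroup.normalizer ((S : Subgroup G) : Set G) := by
      rw [Subgroup.mem_normalizer_iff]
      intro s
      constructor
      · intro hs
        rw [← hmap]
        exact ⟨⟨s, (le_sup_right : _ ≤ P ⊔ (S : Subgroup G)) hs⟩, hs, hg _⟩
      · intro hs
        rw [← hmap] at hs
        obtain ⟨s', hs', hs''⟩ := hs
        rw [hg] at hs''
        have : (s' : G) = s := mul_left_cancel (mul_right_cancel hs'')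
        rw [← this]
        exact hs'
    have hxS : (x : G) ∈ (S : Subgroup G) := hψF.1 x.2
    refine ⟨(S : Subgroup G).mul_mem ((S : Subgroup G).inv_mem hxS) (hψF.2.1 x), ?_⟩
    have e : (x : G)⁻¹ * ψ x = (x : G)⁻¹ * g * ((x : G)⁻¹)⁻¹ * g⁻¹ := by
      rw [← hext, hg]
      simp [mul_assoc]
    rw [e, ← commutatorElement_def]
    exact Subgroup.commutator_mem_commutator
      (Subgroup.inv_mem _ (Subgroup.le_normalizer hxS)) hgN
  apply le_antisymm
  · exact h1.trans (hy ▸ h2)
  · exact inf_le_inf_left _ (Subgroup.commutator_mono le_top le_top)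

end Cfsg.Agent.S2807
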