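import Cfsg.Statements.S2896
import Cfsg.Agent.Lib.Helper31.CharP2
import Cfsg.Agent.Lib.Helper48.PG
import Cfsg.Agent.Lib.Helper48.SPE
import Cfsg.Agent.Lib.Helper48.Parabolic

set_option autoImplicit false
open Cfsg

namespace Cfsg.Agent.S2896

open Cfsg.Agent.Lib.Helper31 in
theorem charPType_centralizer_conj {G : Type*} [Group G] [Finite G] {p : ℕ} (g z : G)
    (h : CharPType p ↥(Subgroup.centralizer ({z} : Set G))) :
    CharPType p ↥(Subgroup.centralizer ({g * z * g⁻¹} : Set G)) := by
  have hmap : (Subgroup.centralizer ({z} : Set G)).map (MulAut.conj g).toMonoidHom =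
      Subgroup.centralizer ({g * z * g⁻¹} : Set G) := by
    ext x
    rw [Subgroup.mem_map_equiv, Subgroup.mem_centralizer_singleton_iff,
      Subgroup.mem_centralizer_singleton_iff, MulAut.conj_symm_apply]
    constructor
    · intro h
      have : x * (g * z * g⁻¹) = g * (g⁻¹ * x * g * z) * g⁻¹ := by group
      rw [this, h]; group
    · intro h
      have : g⁻¹ * x * g * z = g⁻¹ * (x * (g * z * g⁻¹)) * g := by group
      rw [this, h]; group
  exact h.congr (((MulAut.conj g).subgroupMap _).trans (MulEquiv.subgroupCongr hmap))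

open Cfsg.Agent.Lib.Helper31 in
/-- the characteristic `p` property of `N_G(U)` from that of `C_G(z)`, `z ∈ U`. -/
theorem charPType_normalizer_of_mem {G : Type*} [Group G] [Finite G] {p : ℕ} [Fact p.Prime]
    {U : Subgroup G} (hU : IsPGroup p U) {z : G} (hz : z ∈ U)
    (h : CharPType p ↥(Subgroup.centralizer ({z} : Set G))) :
    CharPType p ↥(Subgroup.normalizer (U : Set G)) := by
  apply CharPType.normalizer_of_le hU (Subgroup.zpowers z) (by simpa using hz)
  rw [Lib.Helper48.centralizer_zpowers_eq]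
  exact h

/-- Let p be a prime dividing the order of the finite group G, S a Sylow p-subgroup of G and X a subgroup of S. (i) If some nontrivial element z of the centre of X has F*(C_G(z)) = O_p(C_G(z)), then F*(N_G(X)) = O_p(N_G(X)). (ii) G has parabolic characteristic p if and only if F*(C_G(z)) = O_p(C_G(z)) for every nontrivial z ∈ Ω₁(Z(S)). (iii) If F*(C_G(z)) = O_p(C_G(z)) for every element z of S of order p, then G has local characteristic p. -/
theorem result {G : Type*} [Group G] [Finite G] {p : ℕ} [Fact p.Prime] (hdiv : p ∣ Nat.card G) (S : Sylow p G) (X : Subgroup G) (hX : X ≤ (S : Subgroup G)) : (∀ z : G, z ≠ 1 → z ∈ X → (∀ x ∈ X, x * z = z * x) → Cfsg.generalizedFittingSubgroup ↥(Subgroup.centralizer ({z} : Set G)) = Cfsg.pCore p ↥(Subgroup.centralizer ({z} : Set G)) → Cfsg.generalizedFittingSubgroup ↥(Subgroup.normalizer (X : Set G)) = Cfsg.pCore p ↥(Subgroup.normalizer (X : Set G))) ∧ (Cfsg.IsOfParabolicCharacteristic p G ↔ ∀ z : G, z ≠ 1 → z ∈ Cfsg.omegaOne p ((S : Subgroup G) ⊓ Subgroup.centralizer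 ((S : Subgroup G) : Set G)) → Cfsg.generalizedFittingSubgroup ↥(Subgroup.centralizer ({z} : Set G)) = Cfsg.pCore p ↥(Subgroup.centralizer ({z} : Set G))) ∧ ((∀ z : G, z ∈ (S : Subgroup G) → orderOf z = p → Cfsg.generalizedFittingSubgroup ↥(Subgroup.centralizer ({z} : Set G)) = Cfsg.pCore p ↥(Subgroup.centralizer ({z} : Set G))) → Cfsg.IsOfLocalCharacteristic p G) := by
  have hp : p.Prime := Fact.out
  have hiff : ∀ (X : Type _) [Group X] [Finite X], Lib.Helper31.CharPType p X ↔
      Subgroup.centralizer (Cfsg.pCore p X : Set X) ≤ Cfsg.pCore p X := fun X _ _ =>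
    (Lib.Helper31.charPType_iff_genFitting p).trans (Lib.Helper31.genFitting_eq_pCore_iff_centralizer p)
  simp only [← Lib.Helper31.charPType_iff_genFitting]
  refine ⟨?_, ⟨?_, ?_⟩, ?_⟩
  · intro z _ hzX _ h
    exact charPType_normalizer_of_mem (S.2.to_le hX) hzX h
  · intro hpar z hz1 hz
    have hzZ : z ∈ (S : Subgroup G) ⊓ Subgroup.centralizer ((S : Subgroup G) : Set G) := by
      have : Cfsg.omegaOne p ((S : Subgroup G) ⊓ Subgroup.centralizer ((S : Subgroup G) : Set G)) ≤
          (S : Subgroup G) ⊓ Subgroup.centralizer ((S : Subgroup G) : Set G) := by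
        unfold Cfsg.omegaOne
        rw [Subgroup.closure_le]
        intro x hx
        exact hx.1
      exact this hz
    have hR : IsPGroup p (Subgroup.zpowers z) := S.2.to_le (Subgroup.zpowers_le.mpr hzZ.1)
    have hR1 : Subgroup.zpowers z ≠ ⊥ := by
      rw [Ne, Subgroup.zpowers_eq_bot]; exact hz1
    have hSN : (S : Subgroup G) ≤ Subgroup.normalizer ((Subgroup.zpowers z : Subgroup G) : Set G) := by
      refine le_trans ?_ (Lib.Helper31.centralizer_le_normalizer' _)
      rw [Lib.Helper48.centralizer_zpowers_eq]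
      intro s hs
      rw [Subgroup.mem_centralizer_singleton_iff]
      exact (Subgroup.mem_centralizer_iff.mp hzZ.2 s hs)
    have h1 := hpar _ hR hR1 ⟨S, hSN⟩
    have h2 := Lib.Helper31.CharPType.centralizer_of_normalizer ((hiff _).mpr h1)
    rw [Lib.Helper48.centralizer_zpowers_eq] at h2
    exact h2
  · intro h R hR hR1 ⟨T, hT⟩
    rw [← hiff]
    -- `R ≤ T`
    have hRT : R ≤ (T : Subgroup G) := by
      have h1 : IsPGroup p (R ⊔ (T : Subgroup G) : Subgroup G) := hR.to_sup_of_normal_left' T.2 hT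
      have h2 := T.3 h1 le_sup_right
      rw [← h2]
      exact le_sup_left
    obtain ⟨t, htR, hto, htc⟩ := Lib.Helper48.exists_central_orderOf_eq_of_normal T.2 hRT hT hR1
    obtain ⟨g, hg⟩ := MulAction.exists_smul_eq G S T
    have hmem : ∀ x, x ∈ (T : Subgroup G) ↔ g⁻¹ * x * g⁻¹⁻¹ ∈ (S : Subgroup G) := by
      intro x
      rw [← hg, Sylow.coe_subgroup_smul, Subgroup.mem_pointwise_smul_iff_inv_smul_mem]
      simp [MulAut.smul_def]
    have ht1 : t ≠ 1 := by
      rintro rfl
      rw [orderOf_one] at hto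
      exact hp.one_lt.ne hto
    have hz := h (g⁻¹ * t * g⁻¹⁻¹) (by
        intro h0
        apply ht1
        have : t = g * (g⁻¹ * t * g⁻¹⁻¹) * g⁻¹ := by group
        rw [this, h0]; group) (by
        apply Subgroup.subset_closure
        refine ⟨⟨(hmem t).mp (hRT htR), ?_⟩, ?_⟩
        · change _ ∈ Subgroup.centralizer ((S : Subgroup G) : Set G)
          rw [Subgroup.mem_centralizer_iff]
          intro s hs
          have hs' : g * s * g⁻¹ ∈ (T : Subgroup G) := by
            rw [hmem]
            have : g⁻¹ * (g * s * g⁻¹) * g⁻¹⁻¹ = s := by group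
            rw [this]; exact hs
          have h3 := htc _ hs'
          have h4 : s * (g⁻¹ * t * g⁻¹⁻¹) = g⁻¹ * (g * s * g⁻¹ * t) * g := by group
          rw [h4, h3]; group
        · rw [conj_pow, ← hto, pow_orderOf_eq_one]; group)
    have hz' := charPType_centralizer_conj g _ hz
    have e : g * (g⁻¹ * t * g⁻¹⁻¹) * g⁻¹ = t := by group
    rw [e] at hz'
    exact charPType_normalizer_of_mem hR htR hz'
  · intro h
    refine ⟨hdiv, ?_⟩
    intro T hT hT1
    rw [← hiff]
    obtain ⟨t, htT, hto⟩ := Lib.Helper48.exists_orderOf_eq_of_pgroup hT hT1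
    obtain ⟨g, -, hg⟩ := Lib.Helper48.exists_conj_mem_sylow_of_le (H := ⊤) S le_top hT le_top
    have hz := h (g * t * g⁻¹) (hg t htT) (by
      have := (MulAut.conj g).orderOf_eq t
      rw [MulAut.conj_apply] at this
      rw [this, hto])
    have hz' := charPType_centralizer_conj g⁻¹ _ hz
    have e : g⁻¹ * (g * t * g⁻¹) * g⁻¹⁻¹ = t := by group
    rw [e] at hz'
    exact charPType_normalizer_of_mem hT htT hz'

end Cfsg.Agent.S2896
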