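import Cfsg.Statements.S2898
import Cfsg.Agent.Lib.Helper48.PG
import Cfsg.Agent.Lib.Helper48.Core
import Cfsg.Agent.Lib.Helper49.CharP

set_option autoImplicit false
open Cfsg

namespace Cfsg.Agent.S2898

open Lib.Helper48 in
/-- A central involution of a Sylow 2-subgroup has no nontrivial fixed point on `O(G)`. -/
theorem fpf {G : Type*} [Group G] [Finite G] (hG : Cfsg.IsOfParabolicCharacteristic 2 G)
    (S : Sylow 2 G) (t : G) (hto : orderOf t = 2) (htc : ∀ s ∈ (S : Subgroup G), s * t = t * s) :
    Cfsg.oddCore G ⊓ Subgroup.centralizer ({t} : Set G) = ⊥ := by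
  classical
  have : Fact (Nat.Prime 2) := ⟨Nat.prime_two⟩
  set K := Cfsg.oddCore G with hK
  have hKn : K.Normal := inferInstance
  have hKodd : (Nat.card K).Coprime 2 := card_pPrimeCore_coprime
  set R := Subgroup.zpowers t with hR
  set N := Subgroup.normalizer (R : Set G) with hN
  have hRp : IsPGroup 2 R := isPGroup_zpowers_of_orderOf hto
  have hR1 : R ≠ ⊥ := zpowers_ne_bot_of_orderOf hto
  -- elements commuting with t normalize R
  have hCN : Subgroup.centralizer ({t} : Set G) ≤ N := by
    intro g hg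
    rw [Subgroup.mem_centralizer_singleton_iff] at hg
    rw [hN, Subgroup.mem_normalizer_iff_map_conj_eq, hR, MonoidHom.map_zpowers]
    congr 1
    simp only [MonoidHom.coe_coe, MulAut.conj_apply]
    rw [hg]; group
  have hNC : N ≤ Subgroup.centralizer ({t} : Set G) := by
    intro n hn
    have h1 : n * t * n⁻¹ ∈ R := (Subgroup.mem_normalizer_iff.mp hn t).mp (Subgroup.mem_zpowers t)
    rw [Subgroup.mem_centralizer_singleton_iff]
    -- elements of R are 1 or t
    obtain ⟨k, hk⟩ := Subgroup.mem_zpowers_iff.mp h1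
    have ht2 : t ^ 2 = 1 := by rw [← hto]; exact pow_orderOf_eq_one t
    have hcase : t ^ k = 1 ∨ t ^ k = t := by
      rcases Int.even_or_odd' k with ⟨m, rfl | rfl⟩
      · left
        rw [zpow_mul, zpow_ofNat, ht2, one_zpow]
      · right
        rw [zpow_add, zpow_mul, zpow_ofNat, ht2, one_zpow, one_mul, zpow_one]
    rcases hcase with h | h
    · rw [h] at hk
      have : t = 1 := by
        have h2 : t = n⁻¹ * (n * t * n⁻¹) * n := by group
        rw [h2, ← hk]; group
      rw [this, orderOf_one] at hto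
      omega
    · rw [h] at hk
      calc n * t = (n * t * n⁻¹) * n := by group
        _ = t * n := by rw [← hk]
  have hSN : (S : Subgroup G) ≤ N := by
    intro s hs
    apply hCN
    rw [Subgroup.mem_centralizer_singleton_iff]
    exact htc s hs
  have hchar := hG R hRp hR1 ⟨S, hSN⟩
  rw [Lib.Helper49.charP_iff] at hchar
  set O := Cfsg.pCoreOf 2 N with hO
  set D := K ⊓ Subgroup.centralizer ({t} : Set G) with hD
  have hDN : D ≤ N := inf_le_right.trans hCN
  have hND : N ≤ Subgroup.normalizer (D : Set G) := by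
    rw [Subgroup.le_normalizer_iff]
    intro n hn d hd
    refine Subgroup.mem_inf.mpr ⟨hKn.conj_mem d hd.1 n, ?_⟩
    have h1 := Subgroup.mem_centralizer_singleton_iff.mp (hNC hn)
    have h2 := Subgroup.mem_centralizer_singleton_iff.mp hd.2
    rw [Subgroup.mem_centralizer_singleton_iff]
    have h3 : n⁻¹ * t = t * n⁻¹ := by
      calc n⁻¹ * t = n⁻¹ * (t * n) * n⁻¹ := by group
        _ = n⁻¹ * (n * t) * n⁻¹ := by rw [h1]
        _ = t * n⁻¹ := by group
    calc n * d * n⁻¹ * t = n * d * (n⁻¹ * t) := by group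
      _ = n * d * (t * n⁻¹) := by rw [h3]
      _ = n * (d * t) * n⁻¹ := by group
      _ = n * (t * d) * n⁻¹ := by rw [h2]
      _ = (n * t) * d * n⁻¹ := by group
      _ = (t * n) * d * n⁻¹ := by rw [h1]
      _ = t * (n * d * n⁻¹) := by group
  have hOp : IsPGroup 2 O := Lib.Helper49.pCoreOf_isPGroup 2 N
  have hON : O ≤ N := Lib.Helper49.pCoreOf_le 2 N
  have hNO : N ≤ Subgroup.normalizer (O : Set G) := Lib.Helper49.le_normalizer_pCoreOf 2 N
  have hDodd : (Nat.card D).Coprime 2 :=
    Nat.Coprime.coprime_dvd_left (Subgroup.card_dvd_of_le inf_le_left) hKodd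
  have hdisj : D ⊓ O = ⊥ := by
    apply disjoint_iff.mp
    apply Subgroup.disjoint_of_coprime_natCard
    obtain ⟨k, hk⟩ := IsPGroup.iff_card.mp hOp
    rw [hk]
    exact Nat.Coprime.pow_right k hDodd
  have hcomm := commute_of_normalize_of_disjoint (hDN.trans hNO) (hON.trans hND) hdisj
  have hDO : D ≤ O := by
    refine le_trans ?_ hchar
    refine le_inf hDN ?_
    intro d hd
    rw [Subgroup.mem_centralizer_iff]
    intro q hq
    exact (hcomm d hd q hq).symm
  rw [← hdisj]
  exact (inf_eq_left.mpr hDO).symm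

/-- Let G be a finite group of even order with parabolic characteristic 2. If the centre of G ⧸ O(G) is trivial, then O(G) = 1. -/
theorem result {G : Type*} [Group G] [Finite G] (h2 : 2 ∣ Nat.card G) (hG : Cfsg.IsOfParabolicCharacteristic 2 G) [hN : (Cfsg.oddCore G).Normal] (hZ : Subgroup.center (G ⧸ Cfsg.oddCore G) = ⊥) : Cfsg.oddCore G = ⊥ := by
  classical
  have : Fact (Nat.Prime 2) := ⟨Nat.prime_two⟩
  by_contra hKne
  set K := Cfsg.oddCore G with hK
  have hKodd : (Nat.card K).Coprime 2 := Lib.Helper48.card_pPrimeCore_coprime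
  obtain ⟨S⟩ : Nonempty (Sylow 2 G) := inferInstance
  -- S is nontrivial
  obtain ⟨c0, hc0⟩ := exists_prime_orderOf_dvd_card' 2 h2
  have hS1 : (S : Subgroup G) ≠ ⊥ := by
    intro hbot
    obtain ⟨g, -, hg⟩ := Lib.Helper48.exists_conj_mem_sylow_of_le (H := ⊤) S le_top
      (Lib.Helper48.isPGroup_zpowers_of_orderOf hc0) le_top
    have h1 := hg c0 (Subgroup.mem_zpowers c0)
    rw [hbot, Subgroup.mem_bot] at h1
    have : c0 = 1 := by
      have h3 : c0 = g⁻¹ * (g * c0 * g⁻¹) * g := by group
      rw [h3, h1]; group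
    rw [this, orderOf_one] at hc0
    omega
  set C := Subgroup.centralizer (K : Set G) with hC
  have hCn : C.Normal := inferInstance
  by_cases hCeven : 2 ∣ Nat.card C
  · -- case (a)
    obtain ⟨c, hc⟩ := exists_prime_orderOf_dvd_card' 2 hCeven
    have hco : orderOf (c : G) = 2 := by rw [Subgroup.orderOf_coe]; exact hc
    obtain ⟨g, -, hg⟩ := Lib.Helper48.exists_conj_mem_sylow_of_le (H := ⊤) S le_top
      (Lib.Helper48.isPGroup_zpowers_of_orderOf hco) le_top
    have h1 := hg c (Subgroup.mem_zpowers (c : G))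
    have h3 : g * (c : G) * g⁻¹ ∈ C := hCn.conj_mem _ c.2 g
    have hW : ((S : Subgroup G) ⊓ C) ≠ ⊥ := by
      intro hbot
      have h4 : g * (c : G) * g⁻¹ ∈ (S : Subgroup G) ⊓ C := ⟨h1, h3⟩
      rw [hbot, Subgroup.mem_bot] at h4
      have : (c : G) = 1 := by
        have h5 : (c : G) = g⁻¹ * (g * c * g⁻¹) * g := by group
        rw [h5, h4]; group
      rw [this, orderOf_one] at hco
      omega
    obtain ⟨t, htW, hto, htc⟩ := Lib.Helper48.exists_central_orderOf_eq_of_normal S.2
      (W := (S : Subgroup G) ⊓ C) inf_le_left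
      (by
        rw [Subgroup.le_normalizer_iff]
        intro s hs w hw
        exact ⟨Subgroup.mul_mem _ (Subgroup.mul_mem _ hs hw.1) (Subgroup.inv_mem _ hs),
          hCn.conj_mem _ hw.2 s⟩) hW
    have hf := fpf hG S t hto htc
    apply hKne
    rw [← hf]
    refine (inf_eq_left.mpr ?_).symm
    intro k hk
    rw [Subgroup.mem_centralizer_singleton_iff]
    exact (Subgroup.mem_centralizer_iff.mp htW.2 k hk)
  · -- case (b)
    have hCK : C ≤ K := by
      apply Lib.Helper48.le_pPrimeCore hCn
      exact (Nat.Prime.coprime_iff_not_dvd Nat.prime_two).mpr hCeven |>.symm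
    obtain ⟨z, hzS, hzo, hzc⟩ := Lib.Helper48.exists_central_orderOf_eq S.2 hS1
    have hf := fpf hG S z hzo hzc
    have hz2 : z * z = 1 := by
      have := pow_orderOf_eq_one z
      rwa [hzo, sq] at this
    have hzinv : z⁻¹ = z := inv_eq_of_mul_eq_one_left hz2
    -- conjugation by z on K
    let φ : K →* K := (MulAut.conjNormal z : MulAut K).toMonoidHom
    have hφ : ∀ k : K, ((φ k : K) : G) = z * k * z⁻¹ := fun k => by
      simp [φ]
    have hfpf : MonoidHom.FixedPointFree φ := by
      intro k hk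
      have h1 : (k : G) ∈ K ⊓ Subgroup.centralizer ({z} : Set G) := by
        refine Subgroup.mem_inf.mpr ⟨k.2, ?_⟩
        rw [Subgroup.mem_centralizer_singleton_iff]
        have h3 := congrArg Subtype.val hk
        rw [hφ] at h3
        calc (k : G) * z = (z * k * z⁻¹) * z := by rw [h3]
          _ = z * k := by group
      rw [hf, Subgroup.mem_bot] at h1
      exact Subtype.ext h1
    have hinvol : Function.Involutive φ := by
      intro k
      apply Subtype.ext
      rw [hφ, hφ, hzinv]
      calc z * (z * (k : G) * z) * z = (z * z) * k * (z * z) := by group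
        _ = k := by rw [hz2]; group
    have hinv := hfpf.coe_eq_inv_of_involutive hinvol
    have hzk : ∀ k ∈ K, z * k * z⁻¹ = k⁻¹ := by
      intro k hk
      have h1 := congrFun hinv ⟨k, hk⟩
      have h3 := congrArg Subtype.val h1
      rw [hφ] at h3
      simpa using h3
    -- image of z is central
    have hzcen : (QuotientGroup.mk z : G ⧸ K) ∈ Subgroup.center (G ⧸ K) := by
      rw [Subgroup.mem_center_iff]
      intro x
      obtain ⟨g, rfl⟩ := QuotientGroup.mk_surjective x
      rw [← QuotientGroup.mk_mul, ← QuotientGroup.mk_mul, QuotientGroup.eq]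
      apply hCK
      rw [hC, Subgroup.mem_centralizer_iff]
      intro k hk
      have e1 : z * (g * k * g⁻¹) * z⁻¹ = (g * k * g⁻¹)⁻¹ := hzk _ (hN.conj_mem k hk g)
      have e2 : z⁻¹ * k⁻¹ * z = k := by rw [← hzk k hk]; group
      symm
      calc (g * z)⁻¹ * (z * g) * k = z⁻¹ * g⁻¹ * (z * (g * k * g⁻¹) * z⁻¹) * z * g := by group
        _ = z⁻¹ * g⁻¹ * (g * k * g⁻¹)⁻¹ * z * g := by rw [e1]
        _ = (z⁻¹ * k⁻¹ * z) * ((g * z)⁻¹ * (z * g)) := by group
        _ = k * ((g * z)⁻¹ * (z * g)) := by rw [e2]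
    rw [hZ, Subgroup.mem_bot, QuotientGroup.eq_one_iff] at hzcen
    have h1 : orderOf z ∣ Nat.card K := by
      have := orderOf_dvd_natCard (⟨z, hzcen⟩ : K)
      rwa [Subgroup.orderOf_mk] at this
    rw [hzo] at h1
    have := Nat.Coprime.eq_one_of_dvd hKodd.symm h1
    omega

end Cfsg.Agent.S2898
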