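import Cfsg.Statements.S2907
-- import your own Cfsg.Agent.* helpers here

set_option autoImplicit false
open Cfsg

namespace Cfsg.Agent.S2907

/-- in a group of class two, `y ↦ [x, y]` is a homomorphism -/
def commHom {X : Type*} [Group X] (hc : commutator X ≤ Subgroup.center X) (x : X) : X →* X :=
  MonoidHom.mk' (fun y => x * y * x⁻¹ * y⁻¹) (by
    intro y y'
    have h1 : x * y' * x⁻¹ * y'⁻¹ ∈ Subgroup.center X := by
      apply hc
      rw [commutator_def]
      exact Subgroup.commutator_mem_commutator (Subgroup.mem_top x) (Subgroup.mem_top y')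
    have h2 := Subgroup.mem_center_iff.mp h1 y
    have h3 : x * (y * y') * x⁻¹ * (y * y')⁻¹ = x * y * x⁻¹ * y⁻¹ * (y * (x * y' * x⁻¹ * y'⁻¹)) * y⁻¹ := by
      group
    rw [h3, h2]
    group)

/-- Let X be a finite semi-extraspecial p-group and x an element of X outside the centre. Then the index of C_X(x) in X equals the order of Z(X), and the commutators [x, y], y ∈ X, form exactly the centre Z(X). -/
theorem result {X : Type*} [Group X] [Finite X] {p : ℕ} [Fact p.Prime] (hX : Cfsg.IsSemiExtraspecial p X) (x : X) (hx : x ∉ Subgroup.center X) : (Subgroup.centralizer ({x} : Set X)).index = Nat.card ↥(Subgroup.center X) ∧ {z : X | ∃ y : X, z = x * y * x⁻¹ * y⁻¹} = (Subgroup.center X : Set X) := by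
  classical
  obtain ⟨⟨hXp, hfr, hcomm⟩, hext⟩ := hX
  have hc : commutator X ≤ Subgroup.center X := hcomm.le
  set φ := commHom hc x with hφ
  have hφa : ∀ y, φ y = x * y * x⁻¹ * y⁻¹ := fun y => rfl
  have hrange_le : φ.range ≤ Subgroup.center X := by
    rintro _ ⟨y, rfl⟩
    apply hc
    rw [commutator_def]
    exact Subgroup.commutator_mem_commutator (Subgroup.mem_top x) (Subgroup.mem_top y)
  have hrange : φ.range = Subgroup.center X := by
    by_contra hne
    have hK : φ.range.subgroupOf (Subgroup.center X) ≠ ⊤ := by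
      intro h
      rw [Subgroup.subgroupOf_eq_top] at h
      exact hne (le_antisymm hrange_le h)
    obtain ⟨M, hM, hKM⟩ := (eq_top_or_exists_le_coatom _).resolve_left hK
    set Y := M.map (Subgroup.center X).subtype with hY
    have hYle : Y ≤ Subgroup.center X := Subgroup.map_subtype_le _
    have hYM : Y.subgroupOf (Subgroup.center X) = M :=
      Subgroup.comap_map_eq_self_of_injective (Subgroup.subtype_injective _) M
    obtain ⟨hYn, ⟨-, -, hcY⟩, -⟩ := hext Y hYle (by rw [hYM]; exact hM)
    have hIY : φ.range ≤ Y := by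
      intro z hz
      have h1 : (⟨z, hrange_le hz⟩ : Subgroup.center X) ∈ M := hKM (by
        rw [Subgroup.mem_subgroupOf]; exact hz)
      exact ⟨_, h1, rfl⟩
    have hxc : (QuotientGroup.mk' Y x) ∈ Subgroup.center (X ⧸ Y) := by
      rw [Subgroup.mem_center_iff]
      intro g
      obtain ⟨y, rfl⟩ := QuotientGroup.mk'_surjective Y g
      have h1 : φ y ∈ Y := hIY ⟨y, rfl⟩
      rw [hφa, ← QuotientGroup.eq_one_iff] at h1
      simp only [QuotientGroup.mk_mul, QuotientGroup.mk_inv] at h1
      simp only [QuotientGroup.mk'_apply]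
      have h2 : (x : X ⧸ Y) * (y : X ⧸ Y) = ((x : X ⧸ Y) * y * (x : X ⧸ Y)⁻¹ * (y : X ⧸ Y)⁻¹) * (y * x) := by
        group
      rw [h2, h1, one_mul]
    rw [← hcY, commutator_def, ← Subgroup.map_top_of_surjective _ (QuotientGroup.mk'_surjective Y),
      ← Subgroup.map_commutator, ← commutator_def, hcomm] at hxc
    obtain ⟨z, hz, hzx⟩ := hxc
    apply hx
    have h1 : z⁻¹ * x ∈ Y := by
      rw [← QuotientGroup.eq]
      exact hzx
    have h2 := (Subgroup.center X).mul_mem hz (hYle h1)
    simpa using h2
  have hker : φ.ker = Subgroup.centralizer ({x} : Set X) := by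
    ext y
    rw [MonoidHom.mem_ker, hφa, Subgroup.mem_centralizer_singleton_iff]
    constructor
    · intro h
      have : x * y = (x * y * x⁻¹ * y⁻¹) * (y * x) := by group
      rw [this, h, one_mul]
    · intro h
      rw [← h]
      group
  refine ⟨?_, ?_⟩
  · rw [← hker, Subgroup.index_ker, hrange]
  · rw [← hrange]
    ext z
    simp only [Set.mem_setOf_eq, MonoidHom.coe_range, Set.mem_range, hφa]
    constructor
    · rintro ⟨y, rfl⟩; exact ⟨y, rfl⟩
    · rintro ⟨y, rfl⟩; exact ⟨y, rfl⟩

end Cfsg.Agent.S2907
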