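import Cfsg.Statements.S2922
import Cfsg.Agent.Lib.Helper49.CharP
import Cfsg.Agent.Lib.Helper31.CharP

set_option autoImplicit false
open Cfsg

namespace Cfsg.Agent.S2922

open Cfsg.Agent.Lib.Helper49 Cfsg.Agent.Lib.Helper31

theorem pCore_map_le {G H : Type*} [Group G] [Group H] (e : G ≃* H) (p : ℕ) :
    (Cfsg.pCore p G).map e.toMonoidHom ≤ Cfsg.pCore p H :=
  le_pCore ((Cfsg.pCore_normal p G).map e.toMonoidHom e.surjective) ((pCore_isPGroup p G).map _)

theorem charP_of_mulEquiv {G H : Type*} [Group G] [Group H] (e : G ≃* H) {p : ℕ}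
    (h : Subgroup.centralizer (Cfsg.pCore p G : Set G) ≤ Cfsg.pCore p G) :
    Subgroup.centralizer (Cfsg.pCore p H : Set H) ≤ Cfsg.pCore p H := by
  intro y hy
  have h1 : e.symm y ∈ Subgroup.centralizer (Cfsg.pCore p G : Set G) := by
    rw [Subgroup.mem_centralizer_iff]
    intro x hx
    have hx' : e x ∈ Cfsg.pCore p H := pCore_map_le e p ⟨x, hx, rfl⟩
    have := Subgroup.mem_centralizer_iff.mp hy _ hx'
    apply e.injective
    simpa using this
  have h2 := pCore_map_le e p ⟨_, h h1, rfl⟩
  simpa using h2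

/-- Let p be a prime, X a finite group, B a p-subgroup of X and C a normal subgroup of B. If N_X(C) has characteristic p (its generalized Fitting subgroup is O_p(N_X(C))), then N_X(B) and C_X(B) have characteristic p. -/
theorem result {X : Type*} [Group X] [Finite X] {p : ℕ} [Fact p.Prime] (B C : Subgroup X) (hB : IsPGroup p ↥B) (hCB : C ≤ B) (hCn : (C.subgroupOf B).Normal) (hC : Cfsg.generalizedFittingSubgroup ↥(Subgroup.normalizer (C : Set X)) = Cfsg.pCore p ↥(Subgroup.normalizer (C : Set X))) : Cfsg.generalizedFittingSubgroup ↥(Subgroup.normalizer (B : Set X)) = Cfsg.pCore p ↥(Subgroup.normalizer (B : Set X)) ∧ Cfsg.generalizedFittingSubgroup ↥(Subgroup.centralizer (B : Set X)) = Cfsg.pCore p ↥(Subgroup.centralizer (B : Set X)) := by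
  set N := Subgroup.normalizer (C : Set X) with hN
  have hBN : B ≤ N := (Subgroup.normal_subgroupOf_iff_le_normalizer hCB).mp hCn
  have h31 := genFitting_normalizer_eq_pCore p hC (B.subgroupOf N) hB.comap_subtype
  rw [genFitting_eq_pCore_iff_centralizer] at h31
  -- the group `M = N_X(B) ∩ N_X(C)` has characteristic `p`
  have hM : (Subgroup.normalizer (B : Set X) ⊓ N) ⊓
      Subgroup.centralizer (Cfsg.pCoreOf p (Subgroup.normalizer (B : Set X) ⊓ N) : Set X) ≤
      Cfsg.pCoreOf p (Subgroup.normalizer (B : Set X) ⊓ N) := by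
    rw [← Cfsg.Agent.Lib.Helper49.charP_iff]
    have e1 : Subgroup.normalizer ((B.subgroupOf N : Subgroup ↥N) : Set ↥N) =
        (Subgroup.normalizer (B : Set X) ⊓ N).subgroupOf N := by
      rw [← Subgroup.subgroupOf_normalizer_eq hBN, Subgroup.inf_subgroupOf_right]
    rw [e1] at h31
    exact charP_of_mulEquiv (Subgroup.subgroupOfEquivOfLe (inf_le_right : Subgroup.normalizer (B : Set X) ⊓ N ≤ N)) h31
  -- `D = C_X(B)` has characteristic `p`
  have hDM : Subgroup.centralizer (B : Set X) ≤ Subgroup.normalizer (B : Set X) ⊓ N :=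
    le_inf (Subgroup.centralizer_le_normalizer _)
      ((Subgroup.centralizer_le hCB).trans (Subgroup.centralizer_le_normalizer _))
  have hNC : Subgroup.normalizer (B : Set X) ≤
      Subgroup.normalizer (Subgroup.centralizer (B : Set X) : Set X) :=
    (Subgroup.normal_subgroupOf_iff_le_normalizer (Subgroup.centralizer_le_normalizer (B : Set X))).mp
      inferInstance
  have hD : Subgroup.centralizer (B : Set X) ⊓
      Subgroup.centralizer (Cfsg.pCoreOf p (Subgroup.centralizer (B : Set X)) : Set X) ≤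
      Cfsg.pCoreOf p (Subgroup.centralizer (B : Set X)) :=
    charP_of_normal hDM (inf_le_left.trans hNC) hM
  constructor
  · rw [genFitting_eq_pCore_iff_centralizer, Cfsg.Agent.Lib.Helper49.charP_iff]
    set H := Subgroup.normalizer (B : Set X) with hH
    set Y := H ⊓ Subgroup.centralizer (Cfsg.pCoreOf p H : Set X) with hY
    have hBH : B ≤ Cfsg.pCoreOf p H := le_pCoreOf Subgroup.le_normalizer le_rfl hB
    have hYD : Y ≤ Subgroup.centralizer (B : Set X) := inf_le_right.trans (Subgroup.centralizer_le hBH)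
    have hHY : H ≤ Subgroup.normalizer (Y : Set X) :=
      le_normalizer_inf_centralizer (le_normalizer_pCoreOf p H)
    have hYc := charP_of_normal hYD ((Subgroup.centralizer_le_normalizer _).trans hHY) hD
    have hYH : Cfsg.pCoreOf p Y ≤ Cfsg.pCoreOf p H := pCoreOf_le_pCoreOf_of_normal inf_le_left hHY
    have h1 : Y ≤ Y ⊓ Subgroup.centralizer (Cfsg.pCoreOf p Y : Set X) :=
      le_inf le_rfl (inf_le_right.trans (Subgroup.centralizer_le hYH))
    exact (h1.trans hYc).trans hYH
  · rw [genFitting_eq_pCore_iff_centralizer, Cfsg.Agent.Lib.Helper49.charP_iff]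
    exact hD

end Cfsg.Agent.S2922
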