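import Cfsg.Statements.S2924
-- import your own Cfsg.Agent.* helpers here
import Cfsg.Agent.Lib.Helper24.PGroup
import Cfsg.Agent.Lib.Helper31.GenFitting
import Cfsg.Agent.Lib.Helper90.Extraspecial
import Cfsg.Agent.Lib.Helper1.Fitting
import Cfsg.Agent.Lib.Lead.Cores

set_option autoImplicit false
set_option linter.style.haveILetI false
open Cfsg

namespace Cfsg.Agent.S2924

open Subgroup

section TypeLevel

variable {H : Type*} [Group H] [Finite H]

omit [Finite H] in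
theorem pow_card_of_mem {D : Subgroup H} {d : H} (hd : d ∈ D) : d ^ Nat.card D = 1 := by
  have h := congrArg Subtype.val (pow_card_eq_one' (G := D) (x := ⟨d, hd⟩))
  rwa [Subgroup.coe_pow, Subgroup.coe_one] at h

omit [Finite H] in
/-- an element of odd order commuting-type lemma: `d ^ 2` commutes with `w` and `d` has odd order. -/
theorem commute_of_sq_commute {d w : H} {n : ℕ} (hn : n.Coprime 2) (hd : d ^ n = 1)
    (h : Commute (d ^ 2) w) : Commute d w := by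
  have hodd : Odd n := Nat.odd_iff.2 (by
    rcases Nat.even_or_odd n with he | ho
    · exfalso
      have : 2 ∣ n := he.two_dvd
      have h2 : 2 ∣ Nat.gcd n 2 := Nat.dvd_gcd this dvd_rfl
      rw [hn] at h2
      omega
    · exact Nat.odd_iff.1 ho)
  obtain ⟨k, hk⟩ := hodd
  have : d = (d ^ 2) ^ (k + 1) := by
    rw [← pow_mul, show 2 * (k + 1) = n + 1 by omega, pow_succ, hd, one_mul]
  rw [this]
  exact h.pow_left _

/-- `A × B` consequence: an odd order subgroup `D` of `C_H(y)` normalized by `C_H(y)`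
centralizes `O_2(H)`. -/
theorem pCore_le_centralizer (y : H) (hy : y ^ 2 = 1) (D : Subgroup H)
    (hD : (Nat.card D).Coprime 2) (hDy : D ≤ centralizer {y})
    (hDn : centralizer {y} ≤ normalizer (D : Set H)) :
    pCore 2 H ≤ centralizer (D : Set H) := by
  haveI : Fact (Nat.Prime 2) := ⟨Nat.prime_two⟩
  have hPn : (pCore 2 H).Normal := Cfsg.Agent.Lib.Lead.pCore_normal' 2 H
  have hP : IsPGroup 2 (pCore 2 H) := Cfsg.Agent.Lib.Lead.pCore_isPGroup 2 H
  have htop : ∀ K : Subgroup H, K ≤ normalizer ((pCore 2 H : Subgroup H) : Set H) := by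
    intro K
    rw [normalizer_eq_top]
    exact le_top
  refine Cfsg.Agent.Lib.Helper24.thompson_AxB 2 D (zpowers y) (pCore 2 H) hP ?_ hD ?_ (htop _)
    (htop _) ?_
  · -- zpowers y is a 2-group
    rintro ⟨g, hg⟩
    obtain ⟨n, rfl⟩ := mem_zpowers_iff.1 hg
    refine ⟨1, Subtype.ext ?_⟩
    have : (y ^ n) ^ 2 = 1 := by
      rw [← zpow_natCast, ← zpow_mul, mul_comm, zpow_mul, zpow_natCast, hy, one_zpow]
    simpa using this
  · rw [zpowers_eq_closure, centralizer_closure]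
    exact hDy
  · rw [zpowers_eq_closure, centralizer_closure]
    intro x hx
    have hxP := hx.1
    have hxy := hx.2
    have hbot : D ⊓ pCore 2 H = ⊥ := by
      apply Disjoint.eq_bot
      apply disjoint_of_coprime_natCard
      obtain ⟨k, hk⟩ := IsPGroup.iff_card.1 hP
      rw [hk]
      exact Nat.Coprime.pow_right _ hD
    rw [mem_centralizer_iff]
    intro d hd
    have h1 : x * d * x⁻¹ * d⁻¹ ∈ D ⊓ pCore 2 H := by
      refine mem_inf.mpr ⟨?_, ?_⟩
      · exact mul_mem (le_normalizer_iff.1 hDn x hxy d hd) (inv_mem hd)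
      · have : x * d * x⁻¹ * d⁻¹ = x * (d * x⁻¹ * d⁻¹) := by group
        rw [this]
        exact mul_mem hxP (hPn.conj_mem _ (inv_mem hxP) d)
    rw [hbot, mem_bot] at h1
    have h2 : x * d = (x * d * x⁻¹ * d⁻¹) * (d * x) := by group
    rw [h2, h1, one_mul]


/-- odd order subgroup inside `O_2(H) O(H)` lies in `O(H)`. -/
theorem le_oddCore_of_le_sup (D : Subgroup H) (hD : (Nat.card D).Coprime 2)
    (h : D ≤ pCore 2 H ⊔ oddCore H) : D ≤ oddCore H := by
  haveI : (oddCore H).Normal := by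
    haveI := Cfsg.Agent.Lib.Lead.pPrimeCore_characteristic (G := H) 2
    infer_instance
  have hP : IsPGroup 2 (pCore 2 H) := Cfsg.Agent.Lib.Lead.pCore_isPGroup 2 H
  intro d hd
  have h1 : (QuotientGroup.mk' (oddCore H)) d ∈ (pCore 2 H).map (QuotientGroup.mk' (oddCore H)) := by
    have h2 : (QuotientGroup.mk' (oddCore H)) d ∈
        (pCore 2 H ⊔ oddCore H).map (QuotientGroup.mk' (oddCore H)) := mem_map_of_mem _ (h hd)
    rw [Subgroup.map_sup] at h2
    have h3 : (oddCore H).map (QuotientGroup.mk' (oddCore H)) = ⊥ := by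
      rw [Subgroup.map_eq_bot_iff, QuotientGroup.ker_mk']
    rwa [h3, sup_bot_eq] at h2
  obtain ⟨k, hk⟩ := (hP.map (QuotientGroup.mk' (oddCore H))) ⟨_, h1⟩
  have hk' : ((QuotientGroup.mk' (oddCore H)) d) ^ (2 ^ k) = 1 := by
    simpa using congrArg Subtype.val hk
  have hn : ((QuotientGroup.mk' (oddCore H)) d) ^ (Nat.card D) = 1 := by
    rw [← map_pow]
    rw [pow_card_of_mem hd, map_one]
  have h4 : orderOf ((QuotientGroup.mk' (oddCore H)) d) ∣ Nat.gcd (Nat.card D) (2 ^ k) :=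
    Nat.dvd_gcd (orderOf_dvd_of_pow_eq_one hn) (orderOf_dvd_of_pow_eq_one hk')
  rw [Nat.Coprime.pow_right k hD, Nat.dvd_one, orderOf_eq_one_iff] at h4
  exact (QuotientGroup.eq_one_iff d).1 h4

/-- Lemma B : if `F*(H) = O_2(H)` then `D = 1`. -/
theorem eq_bot_of_genFitting (hF : generalizedFittingSubgroup H = pCore 2 H) (y : H)
    (hy : y ^ 2 = 1) (D : Subgroup H)
    (hD : (Nat.card D).Coprime 2) (hDy : D ≤ centralizer {y})
    (hDn : centralizer {y} ≤ normalizer (D : Set H)) : D = ⊥ := by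
  have h1 := pCore_le_centralizer y hy D hD hDy hDn
  have h2 : D ≤ centralizer ((pCore 2 H : Subgroup H) : Set H) := le_centralizer_iff.1 h1
  have h3 : D ≤ pCore 2 H := by
    rw [← hF] at h2 ⊢
    exact h2.trans Cfsg.Agent.Lib.Helper31.centralizer_genFitting_le
  have h4 := le_oddCore_of_le_sup D hD (h3.trans le_sup_left)
  haveI : Fact (Nat.Prime 2) := ⟨Nat.prime_two⟩
  have h5 := Cfsg.Agent.Lib.Lead.pCore_inf_pPrimeCore (G := H) (p := 2)
  exact le_bot_iff.1 (h5 ▸ le_inf h3 h4)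

/-- Lemma C (balance) -/
theorem le_oddCore_of_layer (hE : layer H = ⊥) (y z : H) (hy : y ^ 2 = 1)
    (hzO : ∀ w ∈ oddCore H, z * w * z⁻¹ = w⁻¹)
    (D : Subgroup H) (hD : (Nat.card D).Coprime 2) (hDy : D ≤ centralizer {y})
    (hDn : centralizer {y} ≤ normalizer (D : Set H))
    (hzD : ∀ d ∈ D, z * d * z⁻¹ = d⁻¹) : D ≤ oddCore H := by
  haveI hOn : (oddCore H).Normal := by
    haveI := Cfsg.Agent.Lib.Lead.pPrimeCore_characteristic (G := H) 2
    infer_instance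
  have h1 := pCore_le_centralizer y hy D hD hDy hDn
  have h2 : oddCore H ≤ centralizer (D : Set H) := by
    intro w hw
    rw [mem_centralizer_iff]
    intro d hd
    have hdn : d ^ Nat.card D = 1 := pow_card_of_mem hd
    have e1 : z * (d * w * d⁻¹) * z⁻¹ = (d * w * d⁻¹)⁻¹ := hzO _ (hOn.conj_mem w hw d)
    have e2 : z * (d * w * d⁻¹) * z⁻¹ = (z * d * z⁻¹) * (z * w * z⁻¹) * (z * d * z⁻¹)⁻¹ := by group
    rw [e2, hzD d hd, hzO w hw] at e1
    -- d⁻¹ * w⁻¹ * d⁻¹⁻¹ = (d * w * d⁻¹)⁻¹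
    have e3 : Commute (d ^ 2) w := by
      have e4 : d ^ 2 * w⁻¹ = w⁻¹ * d ^ 2 := by
        have : d ^ 2 * w⁻¹ = d * (d * w * d⁻¹)⁻¹ * d := by rw [pow_two]; group
        rw [this, ← e1, pow_two]
        group
      have e5 : Commute (d ^ 2) w⁻¹ := e4
      simpa using e5.inv_right
    exact (commute_of_sq_commute hD hdn e3)
  have h3 : generalizedFittingSubgroup H ≤ pCore 2 H ⊔ oddCore H := by
    unfold generalizedFittingSubgroup
    rw [hE, bot_sup_eq, Cfsg.Agent.Lib.Helper1.fittingSubgroup_eq_iSup_pCore]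
    exact Cfsg.Agent.Lib.Helper1.iSup_pCore_le_sup 2 Nat.prime_two
  have h4 : D ≤ centralizer ((generalizedFittingSubgroup H : Subgroup H) : Set H) := by
    apply le_centralizer_iff.1
    exact h3.trans (sup_le h1 h2)
  exact le_oddCore_of_le_sup D hD
    ((h4.trans Cfsg.Agent.Lib.Helper31.centralizer_genFitting_le).trans h3)

end TypeLevel

section Main

variable {X : Type*} [Group X] [Finite X]

/-- `θ(y) = O(C_X(y))` as a subgroup of `X`. -/
def th (y : X) : Subgroup X :=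
  (oddCore ↥(centralizer ({y} : Set X))).map (centralizer ({y} : Set X)).subtype

omit [Finite X] in
theorem th_le (y : X) : th y ≤ centralizer {y} := map_subtype_le _

theorem th_card (y : X) : (Nat.card (th y)).Coprime 2 := by
  unfold th
  rw [card_map_of_injective (subtype_injective _)]
  exact Cfsg.Agent.Lib.Lead.card_pPrimeCore_coprime 2

theorem th_norm (y : X) : centralizer {y} ≤ normalizer (th y : Set X) := by
  haveI hOn : (oddCore ↥(centralizer ({y} : Set X))).Normal := by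
    haveI := Cfsg.Agent.Lib.Lead.pPrimeCore_characteristic (G := ↥(centralizer ({y} : Set X))) 2
    infer_instance
  rw [le_normalizer_iff]
  intro c hc k hk
  obtain ⟨k', hk', rfl⟩ := mem_map.1 hk
  exact mem_map.2 ⟨⟨c, hc⟩ * k' * ⟨c, hc⟩⁻¹, hOn.conj_mem _ hk' _, rfl⟩

omit [Finite X] in
theorem le_th (y : X) (D : Subgroup X) (hDy : D ≤ centralizer {y}) (hD : (Nat.card D).Coprime 2)
    (hn : centralizer {y} ≤ normalizer (D : Set X)) : D ≤ th y := by
  have h1 : D.subgroupOf (centralizer {y}) ≤ oddCore ↥(centralizer ({y} : Set X)) := by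
    apply Cfsg.Agent.Lib.Lead.le_pPrimeCore ((normal_subgroupOf_iff_le_normalizer hDy).2 hn)
    rw [Nat.card_congr (subgroupOfEquivOfLe hDy).toEquiv]
    exact hD
  intro d hd
  exact mem_map.2 ⟨⟨d, hDy hd⟩, h1 hd, rfl⟩

/-- transport of `D = θ(y) ∩ C(y')` to the group `C(y')`. -/
theorem transport (y y' : X) (hyK : y ∈ centralizer ({y'} : Set X)) :
    (Nat.card ((th y ⊓ centralizer {y'}).subgroupOf (centralizer {y'}))).Coprime 2 ∧
    (th y ⊓ centralizer {y'}).subgroupOf (centralizer {y'}) ≤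
      centralizer {(⟨y, hyK⟩ : centralizer ({y'} : Set X))} ∧
    centralizer {(⟨y, hyK⟩ : centralizer ({y'} : Set X))} ≤
      normalizer (((th y ⊓ centralizer {y'}).subgroupOf (centralizer {y'}) :
        Subgroup (centralizer ({y'} : Set X))) : Set (centralizer ({y'} : Set X))) := by
  refine ⟨?_, ?_, ?_⟩
  · rw [Nat.card_congr (subgroupOfEquivOfLe inf_le_right).toEquiv]
    exact Nat.Coprime.coprime_dvd_left (card_dvd_of_le inf_le_left) (th_card y)
  · intro d hd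
    rw [mem_subgroupOf] at hd
    have h1 := th_le y hd.1
    rw [mem_centralizer_singleton_iff] at h1 ⊢
    exact Subtype.ext h1
  · rw [le_normalizer_iff]
    intro c hc k hk
    rw [mem_subgroupOf] at hk ⊢
    rw [mem_centralizer_singleton_iff] at hc
    have hc' : (c : X) ∈ centralizer ({y} : Set X) := by
      rw [mem_centralizer_singleton_iff]
      exact congrArg Subtype.val hc
    refine mem_inf.mpr ⟨?_, ?_⟩
    · exact le_normalizer_iff.1 (th_norm y) c hc' k hk.1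
    · exact (c * k * c⁻¹).2


theorem th_inf_eq_bot (y z : X) (hy2 : y ^ 2 = 1) (hyz : y ∈ centralizer ({z} : Set X))
    (hz : generalizedFittingSubgroup ↥(centralizer ({z} : Set X)) =
      pCore 2 ↥(centralizer ({z} : Set X))) : th y ⊓ centralizer {z} = ⊥ := by
  obtain ⟨h1, h2, h3⟩ := transport y z hyz
  have h4 := eq_bot_of_genFitting hz ⟨y, hyz⟩ (Subtype.ext (by simpa using hy2)) _ h1 h2 h3
  rw [subgroupOf_eq_bot, disjoint_iff, inf_assoc, inf_idem] at h4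
  exact h4

theorem inverts (y z : X) (hz2 : z * z = 1) (hzy : z ∈ centralizer ({y} : Set X))
    (hbot : th y ⊓ centralizer {z} = ⊥) : ∀ k ∈ th y, z * k * z⁻¹ = k⁻¹ :=
  Cfsg.Agent.Lib.Helper90.inverts_of_fixedPointFree (th y) z hz2
    (fun k hk => le_normalizer_iff.1 (th_norm y) z hzy k hk) (fun k hk hc => by
      have : k ∈ th y ⊓ centralizer {z} :=
        mem_inf.mpr ⟨hk, mem_centralizer_singleton_iff.2 hc.symm⟩
      rwa [hbot, mem_bot] at this)

omit [Finite X] in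
theorem comm_of_inverts {T : Subgroup X} {z : X} (h : ∀ k ∈ T, z * k * z⁻¹ = k⁻¹) {a b : X}
    (ha : a ∈ T) (hb : b ∈ T) : a * b = b * a := by
  have h1 := h (a * b) (mul_mem ha hb)
  have h2 : z * (a * b) * z⁻¹ = (z * a * z⁻¹) * (z * b * z⁻¹) := by group
  rw [h2, h a ha, h b hb] at h1
  have h3 := congrArg (fun x => x⁻¹) h1
  simp only [mul_inv_rev, inv_inv] at h3
  exact h3.symm

theorem balance (y y' z : X) (hy2 : y ^ 2 = 1) (hyy' : y ∈ centralizer ({y'} : Set X))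
    (hzy' : z ∈ centralizer ({y'} : Set X)) (hE : layer ↥(centralizer ({y'} : Set X)) = ⊥)
    (hinv : ∀ k ∈ th y, z * k * z⁻¹ = k⁻¹) (hinv' : ∀ k ∈ th y', z * k * z⁻¹ = k⁻¹) :
    th y ⊓ centralizer {y'} ≤ th y' := by
  obtain ⟨h1, h2, h3⟩ := transport y y' hyy'
  have h4 := le_oddCore_of_layer hE ⟨y, hyy'⟩ ⟨z, hzy'⟩ (Subtype.ext (by simpa using hy2))
    (fun w hw => Subtype.ext (by
      have := hinv' w (mem_map.2 ⟨w, hw, rfl⟩)
      simpa using this)) _ h1 h2 h3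
    (fun d hd => Subtype.ext (by
      rw [mem_subgroupOf] at hd
      have := hinv d hd.1
      simpa using this))
  intro d hd
  exact mem_map.2 ⟨⟨d, hd.2⟩, h4 (mem_subgroupOf.2 hd), rfl⟩

omit [Finite X] in
theorem decomp (A : Subgroup X) (z t : X) (hA : (Nat.card A).Coprime 2)
    (hinv : ∀ k ∈ A, z * k * z⁻¹ = k⁻¹) (ht : ∀ k ∈ A, t * k * t⁻¹ ∈ A) (ht2 : t * t = 1) :
    A ≤ (A ⊓ centralizer {t}) ⊔ (A ⊓ centralizer {t * z}) := by
  intro a ha
  have htinv : t⁻¹ = t := inv_eq_of_mul_eq_one_right ht2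
  set a' := t * a * t⁻¹ with ha'
  have ha'A : a' ∈ A := ht a ha
  have hcomm : a * a' = a' * a := comm_of_inverts hinv ha ha'A
  have hta' : t * a' * t⁻¹ = a := by
    rw [ha', htinv]
    calc t * (t * a * t) * t = (t * t) * a * (t * t) := by group
      _ = a := by rw [ht2, one_mul, mul_one]
  have hb : a * a' ∈ A ⊓ centralizer {t} := by
    refine mem_inf.mpr ⟨mul_mem ha ha'A, ?_⟩
    rw [mem_centralizer_singleton_iff]
    have : t * (a * a') * t⁻¹ = a * a' := by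
      calc t * (a * a') * t⁻¹ = (t * a * t⁻¹) * (t * a' * t⁻¹) := by group
        _ = a' * a := by rw [hta']
        _ = a * a' := hcomm.symm
    calc a * a' * t = (t * (a * a') * t⁻¹) * t := by rw [this]
      _ = t * (a * a') := by group
  have hc : a * a'⁻¹ ∈ A ⊓ centralizer {t * z} := by
    have hcA : a * a'⁻¹ ∈ A := mul_mem ha (inv_mem ha'A)
    refine mem_inf.mpr ⟨hcA, ?_⟩
    rw [mem_centralizer_singleton_iff]
    have h1 : z * (a * a'⁻¹) * z⁻¹ = (a * a'⁻¹)⁻¹ := hinv _ hcA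
    have h2 : t * (a * a'⁻¹)⁻¹ * t⁻¹ = a * a'⁻¹ := by
      calc t * (a * a'⁻¹)⁻¹ * t⁻¹ = (t * a' * t⁻¹) * (t * a * t⁻¹)⁻¹ := by group
        _ = a * a'⁻¹ := by rw [hta']
    have h3 : (t * z) * (a * a'⁻¹) * (t * z)⁻¹ = a * a'⁻¹ := by
      calc (t * z) * (a * a'⁻¹) * (t * z)⁻¹ = t * (z * (a * a'⁻¹) * z⁻¹) * t⁻¹ := by group
        _ = a * a'⁻¹ := by rw [h1, h2]
    calc a * a'⁻¹ * (t * z) = ((t * z) * (a * a'⁻¹) * (t * z)⁻¹) * (t * z) := by rw [h3]
      _ = t * z * (a * a'⁻¹) := by group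
  have hsq : a ^ 2 ∈ (A ⊓ centralizer {t}) ⊔ (A ⊓ centralizer {t * z}) := by
    have : a ^ 2 = (a * a') * (a * a'⁻¹) := by
      calc a ^ 2 = a * a := pow_two a
        _ = a * (a' * a) * a'⁻¹ := by rw [← hcomm]; group
        _ = (a * a') * (a * a'⁻¹) := by group
    rw [this]
    exact mul_mem (mem_sup_left hb) (mem_sup_right hc)
  have hodd : Odd (Nat.card A) := by
    rcases Nat.even_or_odd (Nat.card A) with he | ho
    · exfalso
      have h2 : 2 ∣ Nat.gcd (Nat.card A) 2 := Nat.dvd_gcd he.two_dvd dvd_rfl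
      rw [hA] at h2
      omega
    · exact ho
  obtain ⟨k, hk⟩ := hodd
  have : a = (a ^ 2) ^ (k + 1) := by
    rw [← pow_mul, show 2 * (k + 1) = Nat.card A + 1 by omega, pow_succ, pow_card_of_mem ha, one_mul]
  rw [this]
  exact pow_mem hsq _


section Bundle

variable (Y : Subgroup X) (z : X)
  (hcomm : ∀ a ∈ Y, ∀ b ∈ Y, a * b = b * a) (hsq : ∀ a ∈ Y, a * a = 1) (hz : z ∈ Y)
  (hinv : ∀ y ∈ Y, y ≠ 1 → ∀ k ∈ th y, z * k * z⁻¹ = k⁻¹)
  (hbal : ∀ y ∈ Y, y ≠ 1 → ∀ y' ∈ Y, y' ≠ 1 → th y ⊓ centralizer {y'} ≤ th y')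

include hinv hbal in
omit [Finite X] in
theorem commL {y₁ y₂ u a b : X} (hy₁ : y₁ ∈ Y) (hy₁' : y₁ ≠ 1) (hy₂ : y₂ ∈ Y) (hy₂' : y₂ ≠ 1)
    (hu : u ∈ Y) (hu' : u ≠ 1) (ha : a ∈ th y₁) (hb : b ∈ th y₂)
    (hau : a ∈ centralizer ({u} : Set X)) (hbu : b ∈ centralizer ({u} : Set X)) :
    a * b = b * a :=
  comm_of_inverts (hinv u hu hu') (hbal y₁ hy₁ hy₁' u hu hu' (mem_inf.mpr ⟨ha, hau⟩))
    (hbal y₂ hy₂ hy₂' u hu hu' (mem_inf.mpr ⟨hb, hbu⟩))

include hcomm hsq hz hinv hbal in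
theorem commE {y₁ y₂ s₁ s₂ b : X} (hy₁ : y₁ ∈ Y) (hy₁' : y₁ ≠ 1) (hy₂ : y₂ ∈ Y) (hy₂' : y₂ ≠ 1)
    (hs₁ : s₁ ∈ Y) (hs₂ : s₂ ∈ Y) (h1 : s₁ ≠ 1) (h2 : s₂ ≠ 1) (h12 : s₁ * s₂ ≠ 1)
    (hb : b ∈ th y₂) (hb1 : b ∈ centralizer ({s₁} : Set X))
    (hb2 : b ∈ centralizer ({s₂} : Set X)) : th y₁ ≤ centralizer {b} := by
  have hmemC : ∀ a ∈ Y, ∀ c ∈ Y, a ∈ centralizer ({c} : Set X) := fun a ha c hc =>
    mem_centralizer_singleton_iff.2 (hcomm a ha c hc)
  have hnorm : ∀ s ∈ Y, ∀ k ∈ th y₁, s * k * s⁻¹ ∈ th y₁ := fun s hs k hk =>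
    le_normalizer_iff.1 (th_norm y₁) s (hmemC s hs y₁ hy₁) k hk
  have d1 := decomp (th y₁) z s₁ (th_card y₁) (hinv y₁ hy₁ hy₁') (hnorm s₁ hs₁) (hsq s₁ hs₁)
  refine d1.trans (sup_le ?_ ?_)
  · intro a ha
    rw [mem_centralizer_singleton_iff]
    exact commL Y z hinv hbal hy₁ hy₁' hy₂ hy₂' hs₁ h1 ha.1 hb ha.2 hb1
  · have d2 := decomp (th y₁ ⊓ centralizer {s₁ * z}) z s₂
      (Nat.Coprime.coprime_dvd_left (card_dvd_of_le inf_le_left) (th_card y₁))
      (fun k hk => hinv y₁ hy₁ hy₁' k hk.1)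
      (fun k hk => mem_inf.mpr ⟨hnorm s₂ hs₂ k hk.1,
        mul_mem (mul_mem (hmemC s₂ hs₂ _ (mul_mem hs₁ hz)) hk.2)
          (inv_mem (hmemC s₂ hs₂ _ (mul_mem hs₁ hz)))⟩) (hsq s₂ hs₂)
    refine d2.trans (sup_le ?_ ?_)
    · intro a ha
      rw [mem_centralizer_singleton_iff]
      exact commL Y z hinv hbal hy₁ hy₁' hy₂ hy₂' hs₂ h2 ha.1.1 hb ha.2 hb2
    · intro a ha
      rw [mem_centralizer_singleton_iff]
      have e : s₁ * s₂ = (s₁ * z) * (s₂ * z) := by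
        calc s₁ * s₂ = s₁ * (z * z) * s₂ := by rw [hsq z hz, mul_one]
          _ = s₁ * z * (z * s₂) := by group
          _ = (s₁ * z) * (s₂ * z) := by rw [hcomm z hz s₂ hs₂]
      have ha1 : Commute a (s₁ * z) := mem_centralizer_singleton_iff.1 ha.1.2
      have ha2 : Commute a (s₂ * z) := mem_centralizer_singleton_iff.1 ha.2
      have hb1' : Commute b s₁ := mem_centralizer_singleton_iff.1 hb1
      have hb2' : Commute b s₂ := mem_centralizer_singleton_iff.1 hb2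
      refine commL Y z hinv hbal hy₁ hy₁' hy₂ hy₂' (mul_mem hs₁ hs₂) h12 ha.1.1 hb ?_ ?_
      · rw [mem_centralizer_singleton_iff, e]
        exact ha1.mul_right ha2
      · rw [mem_centralizer_singleton_iff]
        exact hb1'.mul_right hb2'

include hcomm hsq hz hinv hbal in
theorem th_comm (h8 : 8 ≤ Nat.card Y) {y₁ y₂ : X} (hy₁ : y₁ ∈ Y) (hy₁' : y₁ ≠ 1) (hy₂ : y₂ ∈ Y)
    (hy₂' : y₂ ≠ 1) : th y₂ ≤ centralizer (th y₁ : Set X) := by
  classical
  obtain ⟨t, htY, ht1, htz, hty, htyz⟩ :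
      ∃ t ∈ Y, t ≠ 1 ∧ t ≠ z ∧ t ≠ y₂ ∧ t ≠ y₂ * z := by
    by_contra hcon
    push Not at hcon
    have hsub : (Y : Set X) ⊆ (({1, z, y₂, y₂ * z} : Finset X) : Set X) := by
      intro t ht
      simp only [Finset.coe_insert, Finset.coe_singleton, Set.mem_insert_iff,
        Set.mem_singleton_iff]
      by_cases h1 : t = 1
      · exact Or.inl h1
      by_cases h2 : t = z
      · exact Or.inr (Or.inl h2)
      by_cases h3 : t = y₂
      · exact Or.inr (Or.inr (Or.inl h3))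
      exact Or.inr (Or.inr (Or.inr (hcon t ht h1 h2 h3)))
    have hle : Nat.card Y ≤ 4 := by
      calc Nat.card Y = (Y : Set X).ncard := (Nat.card_coe_set_eq _)
        _ ≤ ((({1, z, y₂, y₂ * z} : Finset X) : Set X)).ncard :=
            Set.ncard_le_ncard hsub (Finset.finite_toSet _)
        _ = ({1, z, y₂, y₂ * z} : Finset X).card := Set.ncard_coe_finset _
        _ ≤ 4 := Finset.card_le_four
    omega
  have hmemC : ∀ a ∈ Y, ∀ c ∈ Y, a ∈ centralizer ({c} : Set X) := fun a ha c hc =>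
    mem_centralizer_singleton_iff.2 (hcomm a ha c hc)
  have hnorm : ∀ s ∈ Y, ∀ k ∈ th y₂, s * k * s⁻¹ ∈ th y₂ := fun s hs k hk =>
    le_normalizer_iff.1 (th_norm y₂) s (hmemC s hs y₂ hy₂) k hk
  have d := decomp (th y₂) z t (th_card y₂) (hinv y₂ hy₂ hy₂') (hnorm t htY) (hsq t htY)
  have hyinv : ∀ a ∈ Y, ∀ c ∈ Y, a * c = 1 → c = a := by
    intro a ha c _ hac
    calc c = (a * a) * c := by rw [hsq a ha, one_mul]
      _ = a * (a * c) := by group
      _ = a := by rw [hac, mul_one]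
  refine d.trans (sup_le ?_ ?_)
  · intro b hb
    rw [mem_centralizer_iff]
    intro a ha
    have := commE Y z hcomm hsq hz hinv hbal hy₁ hy₁' hy₂ hy₂' hy₂ htY hy₂' ht1
      (fun h => hty (hyinv _ hy₂ _ htY h)) hb.1 (th_le y₂ hb.1) hb.2 ha
    exact mem_centralizer_singleton_iff.1 this
  · intro b hb
    rw [mem_centralizer_iff]
    intro a ha
    have := commE Y z hcomm hsq hz hinv hbal hy₁ hy₁' hy₂ hy₂' hy₂ (mul_mem htY hz) hy₂'
      (fun h => htz (hyinv _ htY _ hz h).symm)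
      (fun h => htyz (by
        have h' : (y₂ * z) * t = 1 := by
          rw [mul_assoc, hcomm z hz t htY]; exact h
        exact hyinv _ (mul_mem hy₂ hz) _ htY h')) hb.1 (th_le y₂ hb.1) hb.2 ha
    exact mem_centralizer_singleton_iff.1 this

end Bundle

theorem th_conj_le (g y : X) : (th y).map (MulAut.conj g).toMonoidHom ≤ th (g * y * g⁻¹) := by
  apply le_th
  · rintro _ ⟨k, hk, rfl⟩
    have h1 := th_le y hk
    rw [mem_centralizer_singleton_iff] at h1 ⊢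
    change g * k * g⁻¹ * (g * y * g⁻¹) = g * y * g⁻¹ * (g * k * g⁻¹)
    calc g * k * g⁻¹ * (g * y * g⁻¹) = g * (k * y) * g⁻¹ := by group
      _ = g * (y * k) * g⁻¹ := by rw [h1]
      _ = g * y * g⁻¹ * (g * k * g⁻¹) := by group
  · rw [card_map_of_injective (MulAut.conj g).injective]
    exact th_card y
  · rw [le_normalizer_iff]
    rintro c hc _ ⟨k, hk, rfl⟩
    rw [mem_centralizer_singleton_iff] at hc
    have hc' : g⁻¹ * c * g ∈ centralizer ({y} : Set X) := by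
      rw [mem_centralizer_singleton_iff]
      calc g⁻¹ * c * g * y = g⁻¹ * (c * (g * y * g⁻¹)) * g := by group
        _ = g⁻¹ * ((g * y * g⁻¹) * c) * g := by rw [hc]
        _ = y * (g⁻¹ * c * g) := by group
    refine ⟨(g⁻¹ * c * g) * k * (g⁻¹ * c * g)⁻¹, le_normalizer_iff.1 (th_norm y) _ hc' k hk, ?_⟩
    change g * ((g⁻¹ * c * g) * k * (g⁻¹ * c * g)⁻¹) * g⁻¹ = c * (g * k * g⁻¹) * c⁻¹
    group

theorem main (Y : Subgroup X) (hY : IsElementaryAbelian 2 Y) (h8 : 8 ≤ Nat.card ↥Y)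
    (hE : ∀ x ∈ Y, x ≠ 1 → layer ↥(centralizer ({x} : Set X)) = ⊥)
    (hz : ∃ z ∈ Y, z ≠ 1 ∧ generalizedFittingSubgroup ↥(centralizer ({z} : Set X)) =
      pCore 2 ↥(centralizer ({z} : Set X))) :
    Odd (Nat.card ↥(⨆ y : {y : X // y ∈ Y ∧ y ≠ 1}, th (y : X))) ∧
      normalizer (Y : Set X) ≤
        normalizer ((⨆ y : {y : X // y ∈ Y ∧ y ≠ 1}, th (y : X) : Subgroup X) : Set X) := by
  obtain ⟨z, hzY, hz1, hzF⟩ := hz
  have hcomm : ∀ a ∈ Y, ∀ b ∈ Y, a * b = b * a := fun a ha b hb =>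
    congrArg Subtype.val (hY.1.is_comm.comm ⟨a, ha⟩ ⟨b, hb⟩)
  have hsq2 : ∀ a ∈ Y, a ^ 2 = 1 := hY.2
  have hsq : ∀ a ∈ Y, a * a = 1 := fun a ha => by rw [← pow_two]; exact hY.2 a ha
  have hmemC : ∀ a ∈ Y, ∀ c ∈ Y, a ∈ centralizer ({c} : Set X) := fun a ha c hc =>
    mem_centralizer_singleton_iff.2 (hcomm a ha c hc)
  have hbot : ∀ y ∈ Y, th y ⊓ centralizer {z} = ⊥ := fun y hy =>
    th_inf_eq_bot y z (hsq2 y hy) (hmemC y hy z hzY) hzF
  have hinv : ∀ y ∈ Y, y ≠ 1 → ∀ k ∈ th y, z * k * z⁻¹ = k⁻¹ := fun y hy _ =>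
    inverts y z (hsq z hzY) (hmemC z hzY y hy) (hbot y hy)
  have hbal : ∀ y ∈ Y, y ≠ 1 → ∀ y' ∈ Y, y' ≠ 1 → th y ⊓ centralizer {y'} ≤ th y' :=
    fun y hy hy1 y' hy' hy1' => balance y y' z (hsq2 y hy) (hmemC y hy y' hy') (hmemC z hzY y' hy')
      (hE y' hy' hy1') (hinv y hy hy1) (hinv y' hy' hy1')
  set W : Subgroup X := ⨆ y : {y : X // y ∈ Y ∧ y ≠ 1}, th (y : X) with hW
  have h1 : ∀ i : {y : X // y ∈ Y ∧ y ≠ 1}, W ≤ centralizer (th (i : X) : Set X) := fun i =>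
    iSup_le (fun j => th_comm Y z hcomm hsq hzY hinv hbal h8 i.2.1 i.2.2 j.2.1 j.2.2)
  have h2 : ∀ i : {y : X // y ∈ Y ∧ y ≠ 1}, th (i : X) ≤ centralizer (W : Set X) := fun i =>
    le_centralizer_iff.1 (h1 i)
  have h3 : W ≤ centralizer (W : Set X) := iSup_le h2
  have hoddC : ∀ n : ℕ, n.Coprime 2 → Odd n := by
    intro n hn
    rcases Nat.even_or_odd n with he | ho
    · exfalso
      have h2 : 2 ∣ Nat.gcd n 2 := Nat.dvd_gcd he.two_dvd dvd_rfl
      rw [hn] at h2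
      omega
    · exact ho
  have h4 : ∀ x ∈ W, ∃ n : ℕ, Odd n ∧ x ^ n = 1 := by
    intro x hx
    refine iSup_induction' (fun y : {y : X // y ∈ Y ∧ y ≠ 1} => th (y : X))
      (C := fun x _ => ∃ n : ℕ, Odd n ∧ x ^ n = 1) ?_ ?_ ?_ hx
    · intro i x hx
      exact ⟨Nat.card (th (i : X)), hoddC _ (th_card _), pow_card_of_mem hx⟩
    · exact ⟨1, odd_one, one_pow 1⟩
    · rintro x y hx hy ⟨n, hn, hxn⟩ ⟨m, hm, hym⟩
      refine ⟨n * m, hn.mul hm, ?_⟩
      have hc : Commute x y := ((mem_centralizer_iff.1 (h3 hx)) y hy).symm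
      rw [hc.mul_pow, pow_mul, hxn, one_pow, mul_comm n m, pow_mul, hym, one_pow, one_mul]
  refine ⟨?_, ?_⟩
  · by_contra hcon
    rw [Nat.not_odd_iff_even] at hcon
    haveI : Fact (Nat.Prime 2) := ⟨Nat.prime_two⟩
    obtain ⟨x, hx⟩ := exists_prime_orderOf_dvd_card' (G := W) 2 hcon.two_dvd
    obtain ⟨n, hn, hxn⟩ := h4 x x.2
    have h5 : x ^ n = 1 := Subtype.ext (by simpa using hxn)
    have h6 := orderOf_dvd_of_pow_eq_one h5
    rw [hx] at h6
    exact (Nat.not_even_iff_odd.2 hn) (even_iff_two_dvd.2 h6)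
  · rw [le_normalizer_iff]
    intro g hg k hk
    have h5 : W ≤ W.comap (MulAut.conj g).toMonoidHom := iSup_le (fun i => by
      rw [← map_le_iff_le_comap]
      exact (th_conj_le g i).trans
        (le_iSup (fun y : {y : X // y ∈ Y ∧ y ≠ 1} => th (y : X))
          ⟨g * i * g⁻¹, (mem_normalizer_iff.1 hg i).1 i.2.1, fun h => i.2.2 (by
            have : (i : X) = g⁻¹ * (g * i * g⁻¹) * g := by group
            rw [this, h]; group)⟩))
    exact h5 hk

end Main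

/-- Let X be a finite group and Y an elementary abelian 2-subgroup of X of order at least 8 such that C_X(x) has no components (E(C_X(x)) = 1) for every nontrivial x ∈ Y, and F*(C_X(z)) = O₂(C_X(z)) for some nontrivial z ∈ Y. Then the subgroup generated by the cores O(C_X(y)), y ∈ Y nontrivial, has odd order and is normalized by N_X(Y). -/
theorem result {X : Type*} [Group X] [Finite X] (Y : Subgroup X) (hY : Cfsg.IsElementaryAbelian 2 Y) (h8 : 8 ≤ Nat.card ↥Y) (hE : ∀ x ∈ Y, x ≠ 1 → Cfsg.layer ↥(Subgroup.centralizer ({x} : Set X)) = ⊥) (hz : ∃ z ∈ Y, z ≠ 1 ∧ Cfsg.generalizedFittingSubgroup ↥(Subgroup.centralizer ({z} : Set X)) = Cfsg.pCore 2 ↥(Subgroup.centralizer ({z} : Set X))) : Odd (Nat.card ↥(⨆ y : {y : X // y ∈ Y ∧ y ≠ 1}, (Cfsg.oddCore ↥(Subgroup.centralizer ({(y : X)} : Set X))).map (Subgroup.centralizer ({(y : X)} : Set X)).subtype)) ∧ Subgroup.normalizer (Y : Set X) ≤ Subgroup.normalizer ((⨆ y : {y : X //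 y ∈ Y ∧ y ≠ 1}, (Cfsg.oddCore ↥(Subgroup.centralizer ({(y : X)} : Set X))).map (Subgroup.centralizer ({(y : X)} : Set X)).subtype : Subgroup X) : Set X) := by
  exact main Y hY h8 hE hz

end Cfsg.Agent.S2924
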