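import Cfsg.Statements.S2925
import Cfsg.Agent.Lib.Helper31.Components
import Cfsg.Agent.S0542

set_option autoImplicit false
open Cfsg

namespace Cfsg.Agent.S2925

open Cfsg.Agent.Lib.Helper31

/-- Let K be a component of the finite group X and T a Sylow 2-subgroup of X. If some abelian normal subgroup Y of T does not normalize K, then K ⧸ Z(K) has abelian Sylow 2-subgroups. -/
theorem result {X : Type*} [Group X] [Finite X] (K : Subgroup X) (hK : Cfsg.IsComponent K) (T : Sylow 2 X) (Y : Subgroup X) (hYT : Y ≤ (T : Subgroup X)) (hYn : (Y.subgroupOf (T : Subgroup X)).Normal) (hYab : IsMulCommutative ↥Y) (hnot : ¬ Y ≤ Subgroup.normalizer (K : Set X)) (P : Sylow 2 (↥K ⧸ Subgroup.center ↥K)) : IsMulCommutative ↥(P : Subgroup (↥K ⧸ Subgroup.center ↥K)) := by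
  have hp2 : Fact (Nat.Prime 2) := ⟨Nat.prime_two⟩
  obtain ⟨y, hyY, hyN⟩ := SetLike.not_le_iff_exists.mp hnot
  set K' : Subgroup X := K.map (MulAut.conj y).toMonoidHom with hK'
  have hK'c : Cfsg.IsComponent K' := IsComponent.map_equiv hK (MulAut.conj y)
  have hne : K ≠ K' := by
    intro h
    apply hyN
    rw [Subgroup.mem_normalizer_iff_map_conj_eq]
    exact h.symm
  have hcomm : ⁅K, K'⁆ = ⊥ := IsComponent.commutator_eq_bot_of_ne hK hK'c hne
  rw [Subgroup.commutator_eq_bot_iff_le_centralizer] at hcomm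
  have hc : ∀ k ∈ K, ∀ k' ∈ K', k' * k = k * k' := fun k hk k' hk' =>
    Subgroup.mem_centralizer_iff.mp (hcomm hk) k' hk'
  have hYT : ∀ a ∈ (T : Subgroup X), a⁻¹ * (y * a * y⁻¹) ∈ Y := by
    intro a ha
    have h1 : (T : Subgroup X) ≤ Subgroup.normalizer (Y : Set X) :=
      (Subgroup.normal_subgroupOf_iff_le_normalizer hYT).mp hYn
    have h2 := (Subgroup.mem_normalizer_iff.mp (h1 (inv_mem ha)) y).mp hyY
    rw [inv_inv] at h2
    have h3 := mul_mem h2 (inv_mem hyY)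
    simpa [mul_assoc] using h3
  have hYcomm : ∀ u ∈ Y, ∀ v ∈ Y, u * v = v * u := fun u hu v hv =>
    congrArg Subtype.val (mul_comm' (⟨u, hu⟩ : Y) ⟨v, hv⟩)
  -- commutators of elements of `T ∩ K` centralize `K`
  have key : ∀ a ∈ (T : Subgroup X), a ∈ K → ∀ b ∈ (T : Subgroup X), b ∈ K →
      ∀ k ∈ K, (a * b * a⁻¹ * b⁻¹) * k = k * (a * b * a⁻¹ * b⁻¹) := by
    intro a haT haK b hbT hbK k hk
    have ha' : y * a * y⁻¹ ∈ K' := ⟨a, haK, rfl⟩
    have hb' : y * b * y⁻¹ ∈ K' := ⟨b, hbK, rfl⟩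
    set a' := y * a * y⁻¹ with ha'def
    set b' := y * b * y⁻¹ with hb'def
    have h1 := hYcomm _ (hYT a haT) _ (hYT b hbT)
    have e1 : a' * b⁻¹ = b⁻¹ * a' := hc _ (inv_mem hbK) _ ha'
    have e2 : b' * a⁻¹ = a⁻¹ * b' := hc _ (inv_mem haK) _ hb'
    have h2 : a⁻¹ * b⁻¹ * (a' * b') = b⁻¹ * a⁻¹ * (b' * a') := by
      calc a⁻¹ * b⁻¹ * (a' * b') = a⁻¹ * (b⁻¹ * a') * b' := by group
        _ = a⁻¹ * (a' * b⁻¹) * b' := by rw [e1]
        _ = (a⁻¹ * a') * (b⁻¹ * b') := by group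
        _ = (b⁻¹ * b') * (a⁻¹ * a') := h1
        _ = b⁻¹ * (b' * a⁻¹) * a' := by group
        _ = b⁻¹ * (a⁻¹ * b') * a' := by rw [e2]
        _ = b⁻¹ * a⁻¹ * (b' * a') := by group
    have h3 : a * b * a⁻¹ * b⁻¹ = b' * a' * b'⁻¹ * a'⁻¹ := by
      calc a * b * a⁻¹ * b⁻¹ = (a * b) * (a⁻¹ * b⁻¹ * (a' * b')) * (a' * b')⁻¹ := by group
        _ = (a * b) * (b⁻¹ * a⁻¹ * (b' * a')) * (a' * b')⁻¹ := by rw [h2]
        _ = b' * a' * b'⁻¹ * a'⁻¹ := by group
    rw [h3]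
    exact hc k hk _ (mul_mem (mul_mem (mul_mem hb' ha') (inv_mem hb')) (inv_mem ha'))
  obtain ⟨Q, hQ⟩ := Cfsg.Agent.S0542.result 2 K hK.1 T
  have hsurj : Function.Surjective (QuotientGroup.mk' (Subgroup.center ↥K)) := QuotientGroup.mk'_surjective _
  have hQbar : IsMulCommutative ↥((Q.mapSurjective hsurj : Sylow 2 (↥K ⧸ Subgroup.center ↥K)) :
      Subgroup (↥K ⧸ Subgroup.center ↥K)) := by
    refine ⟨⟨?_⟩⟩
    rintro ⟨_, α, hα, rfl⟩ ⟨_, β, hβ, rfl⟩
    apply Subtype.ext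
    change QuotientGroup.mk' (Subgroup.center ↥K) α * QuotientGroup.mk' (Subgroup.center ↥K) β =
      QuotientGroup.mk' (Subgroup.center ↥K) β * QuotientGroup.mk' (Subgroup.center ↥K) α
    rw [← map_mul, ← map_mul, eq_comm]
    apply QuotientGroup.eq.mpr
    have hα' : (α : X) ∈ (T : Subgroup X) := by
      have : α ∈ (Q : Subgroup ↥K) := hα
      rw [hQ] at this
      exact this
    have hβ' : (β : X) ∈ (T : Subgroup X) := by
      have : β ∈ (Q : Subgroup ↥K) := hβ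
      rw [hQ] at this
      exact this
    rw [Subgroup.mem_center_iff]
    intro k
    apply Subtype.ext
    have := key (α : X)⁻¹ (inv_mem hα') (inv_mem α.2) (β : X)⁻¹ (inv_mem hβ') (inv_mem β.2) k k.2
    simp only [inv_inv] at this
    simp only [Subgroup.coe_mul, Subgroup.coe_inv, mul_inv_rev]
    simp only [mul_assoc] at this ⊢
    exact this.symm
  have e := Sylow.equiv (Q.mapSurjective hsurj : Sylow 2 (↥K ⧸ Subgroup.center ↥K)) P
  refine ⟨⟨fun u v => ?_⟩⟩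
  apply e.symm.injective
  rw [map_mul, map_mul]
  exact mul_comm' _ _

end Cfsg.Agent.S2925
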