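import Cfsg.Statements.S2929
import Cfsg.Agent.Lib.Helper95.ThreeCyc
import Cfsg.Agent.Lib.Helper21.Components
import Cfsg.Agent.Lib.Helper31.GenFitting
import Cfsg.Agent.Lib.Helper72.PermSolvable

set_option autoImplicit false
open Cfsg

namespace Cfsg.Agent.S2929

open Equiv Equiv.Perm Subgroup Cfsg.Agent.Lib.Helper95.ThreeCyc

theorem pow_three_of_mem_closure {G : Type*} [Group G] (S : Set G)
    (hc : ∀ a ∈ S, ∀ b ∈ S, Commute a b) (h3 : ∀ a ∈ S, a ^ 3 = 1) :
    ∀ g ∈ closure S, g ^ 3 = 1 := by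
  have h1 : closure S ≤ centralizer S := by
    rw [closure_le]
    intro a ha
    rw [SetLike.mem_coe, mem_centralizer_iff]
    intro b hb
    exact (hc b hb a ha).eq
  have h2 : closure S ≤ centralizer (closure S : Set G) := by
    rw [closure_le]
    intro a ha
    rw [SetLike.mem_coe, mem_centralizer_iff]
    intro b hb
    exact ((mem_centralizer_iff.mp (h1 hb)) a ha).symm
  intro g hg
  induction hg using closure_induction with
  | mem x hx => exact h3 x hx
  | one => simp
  | mul x y hx hy ihx ihy =>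
    have : Commute x y := ((mem_centralizer_iff.mp (h2 hy)) x hx)
    rw [this.mul_pow, ihx, ihy, one_mul]
  | inv x hx ih => rw [inv_pow, ih, inv_one]

/-- A Sylow 3-subgroup of `S_n` contains `⌊n/3⌋` disjoint 3-cycles. -/
theorem exists_cycles (n : ℕ) (P : Sylow 3 (Perm (Fin n))) :
    ∃ g : Perm (Fin n), ∀ (i : ℕ) (hi : 3 * i + 2 < n),
      cyc (g ⟨3 * i, by omega⟩) (g ⟨3 * i + 1, by omega⟩) (g ⟨3 * i + 2, hi⟩) ∈
        (P : Subgroup (Perm (Fin n))) := by
  have : Fact (Nat.Prime 3) := ⟨Nat.prime_three⟩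
  set S : Set (Perm (Fin n)) := {σ | ∃ (i : ℕ) (hi : 3 * i + 2 < n),
    σ = cyc ⟨3 * i, by omega⟩ ⟨3 * i + 1, by omega⟩ ⟨3 * i + 2, hi⟩} with hS
  have h3 : ∀ a ∈ S, a ^ 3 = 1 := by
    rintro _ ⟨i, hi, rfl⟩
    have h := isThreeCycle_cyc (a := (⟨3 * i, by omega⟩ : Fin n)) (b := ⟨3 * i + 1, by omega⟩)
      (c := ⟨3 * i + 2, hi⟩) (by simp [Fin.ext_iff]) (by simp [Fin.ext_iff]) (by simp [Fin.ext_iff])
    have h2 := pow_orderOf_eq_one (cyc (⟨3 * i, by omega⟩ : Fin n) ⟨3 * i + 1, by omega⟩ ⟨3 * i + 2, hi⟩)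
    rwa [h.orderOf] at h2
  have hc : ∀ a ∈ S, ∀ b ∈ S, Commute a b := by
    rintro _ ⟨i, hi, rfl⟩ _ ⟨j, hj, rfl⟩
    by_cases hij : i = j
    · subst hij; exact Commute.refl _
    apply Perm.Disjoint.commute
    intro x
    by_cases hx : x.1 / 3 = i
    · right
      apply cyc_apply_of_ne <;> · intro e; rw [e] at hx; simp only at hx; omega
    · left
      apply cyc_apply_of_ne <;> · intro e; rw [e] at hx; simp only at hx; omega
  have hp : IsPGroup 3 (closure S) := by
    intro g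
    exact ⟨1, Subtype.ext (by simpa using pow_three_of_mem_closure S hc h3 g.1 g.2)⟩
  obtain ⟨Q, hQ⟩ := hp.exists_le_sylow
  obtain ⟨g, hg⟩ := MulAction.exists_smul_eq (Perm (Fin n)) Q P
  refine ⟨g, fun i hi => ?_⟩
  have h1 : cyc (⟨3 * i, by omega⟩ : Fin n) ⟨3 * i + 1, by omega⟩ ⟨3 * i + 2, hi⟩ ∈
      (Q : Subgroup (Perm (Fin n))) := hQ (subset_closure ⟨i, hi, rfl⟩)
  rw [← conj_cyc, ← hg, Sylow.coe_subgroup_smul]
  exact Subgroup.smul_mem_pointwise_smul _ (MulAut.conj g) _ h1

/-- Let n ≥ 5 and let H be a subgroup of the symmetric group of degree n whose generalized Fitting subgroup F*(H) is quasisimple. If H contains a Sylow 3-subgroup of the symmetric group, then F*(H) is isomorphic to an alternating group of degree m for some m ∈ {n − 2, n − 1, n}. -/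
theorem result (n : ℕ) (hn : 5 ≤ n) (H : Subgroup (Equiv.Perm (Fin n))) (hF : Cfsg.IsQuasisimple ↥(Cfsg.generalizedFittingSubgroup ↥H)) (hS : ∃ P : Sylow 3 (Equiv.Perm (Fin n)), (P : Subgroup (Equiv.Perm (Fin n))) ≤ H) : ∃ m : ℕ, (m = n - 2 ∨ m = n - 1 ∨ m = n) ∧ Nonempty (↥(Cfsg.generalizedFittingSubgroup ↥H) ≃* ↥(alternatingGroup (Fin m))) := by
  obtain ⟨P, hP⟩ := hS
  obtain ⟨g, hg⟩ := exists_cycles n P
  have hcyc : ∀ (i : ℕ) (hi : 3 * i + 2 < n),
      cyc (g ⟨3 * i, by omega⟩) (g ⟨3 * i + 1, by omega⟩) (g ⟨3 * i + 2, hi⟩) ∈ H :=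
    fun i hi => hP (hg i hi)
  obtain ⟨O, hO⟩ := exists_isMax (H := H)
    (g.injective.ne (by simp [Fin.ext_iff])) (g.injective.ne (by simp [Fin.ext_iff]))
    (g.injective.ne (by simp [Fin.ext_iff])) (hcyc 0 (by omega))
  set K := Cfsg.generalizedFittingSubgroup ↥H with hK
  have hKn : K.Normal := Cfsg.Agent.Lib.Helper31.genFitting_normal
  have hKc : Cfsg.IsComponent K := ⟨hKn.isSubnormal, hF⟩
  set A' := (A O).subgroupOf H with hA'
  have hAle : A O ≤ H := A_le hO.q
  have hsub : A'.IsSubnormal := hO.isSubnormal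
  have hcent : centralizer (K : Set H) ≤ K := Cfsg.Agent.Lib.Helper31.centralizer_genFitting_le
  have hKK : ⁅K, K⁆ = K := Cfsg.Agent.Lib.Helper21.IsQuasisimple.commutator_self hF
  -- no 3-cycle of `K` is centralised by `K`
  have hno : ∀ (a b c : Fin n), a ≠ b → b ≠ c → a ≠ c → ∀ hm : cyc a b c ∈ H,
      (⟨cyc a b c, hm⟩ : H) ∈ K → (∀ k ∈ K, Commute k (⟨cyc a b c, hm⟩ : H)) → False := by
    intro a b c hab hbc hac hm hmK hcomm
    have hle : ⁅K, K⁆ ≤ (MulAction.stabilizer (Perm (Fin n)) a).subgroupOf H := by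
      rw [Subgroup.commutator_le]
      intro x hx y hy
      have hx' : Commute ((x⁻¹ : H) : Perm (Fin n)) (cyc a b c) :=
        congrArg Subtype.val (hcomm _ (K.inv_mem hx)).eq
      have hy' : Commute ((y⁻¹ : H) : Perm (Fin n)) (cyc a b c) :=
        congrArg Subtype.val (hcomm _ (K.inv_mem hy)).eq
      have h1 := apply_comm_of_commute hab hbc hac hx' hy'
      rw [mem_subgroupOf, MulAction.mem_stabilizer_iff]
      show ((x * y * x⁻¹ * y⁻¹ : H) : Perm (Fin n)) a = a
      simp only [Subgroup.coe_mul, Perm.mul_apply]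
      rw [h1]
      simp
    rw [hKK] at hle
    have h2 := hle hmK
    rw [mem_subgroupOf, MulAction.mem_stabilizer_iff] at h2
    have h3 : cyc a b c a = a := h2
    rw [cyc_apply_fst hab hac] at h3
    exact hab h3.symm
  obtain ⟨a, b, c, ha, hb, hc, hab, hac, hbc⟩ := Finset.two_lt_card_iff.mp hO.three
  rcases Cfsg.Agent.Lib.Helper21.IsComponent.le_or_commutator_eq_bot hKc A' hsub with h | h
  swap
  · exfalso
    rw [commutator_eq_bot_iff_le_centralizer] at h
    have h2 : A' ≤ centralizer (K : Set H) := le_centralizer_iff.mp h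
    have hm : cyc a b c ∈ A O := cyc_mem_A ha hb hc hab hbc hac
    have hmA : (⟨cyc a b c, hAle hm⟩ : H) ∈ A' := hm
    refine hno a b c hab hbc hac (hAle hm) (hcent (h2 hmA)) ?_
    intro k hk
    exact (mem_centralizer_iff.mp (h2 hmA)) k hk
  -- now `K ≤ A'`
  let e : ↥A' ≃* ↥(alternatingGroup (Fin O.card)) := (subgroupOfEquivOfLe hAle).trans (AEquiv O)
  by_cases h5 : 5 ≤ O.card
  swap
  · exfalso
    have hs : Group.IsSolvable ↥A' := by
      have := Cfsg.Agent.Lib.Helper72.isSolvable_perm_of_card_le_four (Fin O.card)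
        (by simp; omega)
      exact Group.isSolvable_of_isSolvable_injective
        (f := (alternatingGroup (Fin O.card)).subtype.comp e.toMonoidHom)
        ((alternatingGroup (Fin O.card)).subtype_injective.comp e.injective)
    exact Cfsg.Agent.Lib.Helper21.IsComponent.not_le_of_isSolvable hKc hs h
  have hsimp : IsSimpleGroup ↥A' := by
    have := alternatingGroup.isSimpleGroup (α := Fin O.card) (by simpa using h5)
    exact e.isSimpleGroup
  have hKA : K = A' := by
    have hn' : (K.subgroupOf A').Normal := hKn.subgroupOf A'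
    rcases hn'.eq_bot_or_eq_top with h1 | h1
    · exfalso
      rw [subgroupOf_eq_bot] at h1
      have hbot : K = ⊥ := by
        have := h1.eq_bot
        rwa [inf_of_le_left h] at this
      have := Cfsg.Agent.Lib.Helper21.IsQuasisimple.nontrivial hF
      rw [Subgroup.nontrivial_iff_ne_bot] at this
      exact this hbot
    · exact le_antisymm h (subgroupOf_eq_top.mp h1)
  -- all the disjoint 3-cycles live on `O`
  have hin : ∀ (i : ℕ) (hi : 3 * i + 2 < n), g ⟨3 * i, by omega⟩ ∈ O ∧ g ⟨3 * i + 1, by omega⟩ ∈ O ∧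
      g ⟨3 * i + 2, hi⟩ ∈ O := by
    intro i hi
    have d1 : g ⟨3 * i, by omega⟩ ≠ g ⟨3 * i + 1, by omega⟩ := g.injective.ne (by simp [Fin.ext_iff])
    have d2 : g ⟨3 * i + 1, by omega⟩ ≠ g ⟨3 * i + 2, hi⟩ := g.injective.ne (by simp [Fin.ext_iff])
    have d3 : g ⟨3 * i, by omega⟩ ≠ g ⟨3 * i + 2, hi⟩ := g.injective.ne (by simp [Fin.ext_iff])
    have hiff := hO.mem_iff d1 d2 d3 (hcyc i hi)
    suffices h0 : g ⟨3 * i, by omega⟩ ∈ O from ⟨h0, hiff.1.mp h0, hiff.2.mp h0⟩
    by_contra h0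
    have h1 : g ⟨3 * i + 1, by omega⟩ ∉ O := fun h => h0 (hiff.1.mpr h)
    have h2 : g ⟨3 * i + 2, hi⟩ ∉ O := fun h => h0 (hiff.2.mpr h)
    set t := cyc (g ⟨3 * i, by omega⟩) (g ⟨3 * i + 1, by omega⟩) (g ⟨3 * i + 2, hi⟩) with ht
    have htc : (⟨t, hcyc i hi⟩ : H) ∈ centralizer (K : Set H) := by
      rw [mem_centralizer_iff]
      intro k hk
      rw [hKA] at hk
      have hk' : (k : Perm (Fin n)) ∈ A O := hk
      apply Subtype.ext
      show (k : Perm (Fin n)) * t = t * k
      refine (commute_of_fix (O := O)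
        (O' := {g ⟨3 * i, by omega⟩, g ⟨3 * i + 1, by omega⟩, g ⟨3 * i + 2, hi⟩})
        (fun x hx => A_fix hk' hx) ?_ ?_).eq
      · intro x hx
        simp only [Finset.mem_insert, Finset.mem_singleton, not_or] at hx
        exact cyc_apply_of_ne hx.1 hx.2.1 hx.2.2
      · intro x hx hx'
        simp only [Finset.mem_insert, Finset.mem_singleton] at hx'
        rcases hx' with rfl | rfl | rfl
        · exact h0 hx
        · exact h1 hx
        · exact h2 hx
    have htK := hcent htc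
    rw [hKA] at htK
    have htA : t ∈ A O := htK
    have := A_fix htA h0
    rw [ht, cyc_apply_fst d1 d3] at this
    exact d1 this.symm
  have hcard : 3 * (n / 3) ≤ O.card := by
    have hmem : ∀ j : Fin (3 * (n / 3)), g ⟨j.1, by have := j.2; omega⟩ ∈ O := by
      intro j
      have hj := j.2
      have hi : 3 * (j.1 / 3) + 2 < n := by omega
      obtain ⟨h0, h1, h2⟩ := hin (j.1 / 3) hi
      have : j.1 = 3 * (j.1 / 3) ∨ j.1 = 3 * (j.1 / 3) + 1 ∨ j.1 = 3 * (j.1 / 3) + 2 := by omega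
      rcases this with e | e | e
      · convert h0 using 3
      · convert h1 using 3
      · convert h2 using 3
    have hinj : Function.Injective (fun j : Fin (3 * (n / 3)) =>
        (⟨g ⟨j.1, by have := j.2; omega⟩, hmem j⟩ : O)) := by
      intro j j' hjj
      have := g.injective (congrArg Subtype.val hjj)
      exact Fin.ext (by simpa [Fin.ext_iff] using this)
    have := Fintype.card_le_of_injective _ hinj
    simpa using this
  have hle : O.card ≤ n := by
    have := Finset.card_le_univ O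
    simpa using this
  refine ⟨O.card, by omega, ⟨(MulEquiv.subgroupCongr hKA).trans e⟩⟩

end Cfsg.Agent.S2929
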