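import Cfsg.Statements.S2931
import Cfsg.Agent.Lib.Helper14.Syl8.Parts
import Cfsg.Agent.Lib.Helper15.Syl8.SYL
import Cfsg.Agent.Lib.Helper4.Syl8.CA
import Cfsg.Agent.Lib.Helper4.Syl8.CP
import Cfsg.Agent.Lib.Helper63.Syl8.CO
import Cfsg.Agent.Lib.Helper63.Syl8.OTR

set_option autoImplicit false
open Cfsg

namespace Cfsg.Agent.S2931

/-- The Sylow 2-subgroups of the alternating group of degree 8 and of PSp₄(3) are isomorphic, and so are the Sylow 2-subgroups of the symmetric group of degree 8 and of the full isometry group of a non-degenerate quadratic form of minus type in dimension 6 over the field with 2 elements. -/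
theorem result (F : Type) [Field F] [Fintype F] (hF : Fintype.card F = 3) (K : Type) [Field K] [Fintype K] (hK : Fintype.card K = 2) (a b : K) (hab : ∀ z₁ z₂ : K, z₁ ^ 2 + a * z₁ * z₂ + b * z₂ ^ 2 = 0 → z₁ = 0 ∧ z₂ = 0) (P : Sylow 2 ↥(alternatingGroup (Fin 8))) (Q : Sylow 2 (Cfsg.PSp 2 F)) (P' : Sylow 2 (Equiv.Perm (Fin 8))) (Q' : Sylow 2 ↥(Cfsg.isometryGroup K (Cfsg.quadFormMinus 2 K a b))) : Nonempty (↥(P : Subgroup ↥(alternatingGroup (Fin 8))) ≃* ↥(Q : Subgroup (Cfsg.PSp 2 F))) ∧ Nonempty (↥(P' : Subgroup (Equiv.Perm (Fin 8))) ≃* ↥(Q' : Subgroup ↥(Cfsg.isometryGroup K (Cfsg.quadFormMinus 2 K a b)))) := by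
  constructor
  · obtain ⟨H, hA, hc, j, hj⟩ := Cfsg.Agent.Lib.Helper14.Syl8.P1.part1
    obtain ⟨hcP, ⟨ψ⟩⟩ := Cfsg.Agent.Lib.Helper4.Syl8.exists_psp_equiv F hF
    obtain ⟨e1⟩ := Cfsg.Agent.Lib.Helper15.Syl8.sylow_equiv_of_card 2 6 315
      Cfsg.Agent.Lib.Helper4.Syl8.card_A8.1 (by norm_num) (Subgroup.inclusion hA)
      (Subgroup.inclusion_injective hA) hc P
    obtain ⟨e2⟩ := Cfsg.Agent.Lib.Helper15.Syl8.sylow_equiv_of_card 2 6 405
      hcP (by norm_num) (ψ.toMonoidHom.comp j) (ψ.injective.comp hj) hc Q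
    exact ⟨e1.trans e2.symm⟩
  · obtain ⟨H, hc, j, hj⟩ := Cfsg.Agent.Lib.Helper14.Syl8.P2.part2
    obtain ⟨φ, hφ⟩ := Cfsg.Agent.Lib.Helper63.Syl8.exists_isometry_hom K hK a b hab
    obtain ⟨e1⟩ := Cfsg.Agent.Lib.Helper15.Syl8.sylow_equiv_of_card 2 7 315
      Cfsg.Agent.Lib.Helper4.Syl8.card_A8.2 (by norm_num) H.subtype
      (Subgroup.subtype_injective H) hc P'
    obtain ⟨e2⟩ := Cfsg.Agent.Lib.Helper15.Syl8.sylow_equiv_of_card 2 7 405
      (Cfsg.Agent.Lib.Helper63.Syl8.card_O K hK a b hab) (by norm_num) (φ.comp j) (hφ.comp hj) hc Q'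
    exact ⟨e1.trans e2.symm⟩

end Cfsg.Agent.S2931
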