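import Cfsg.Statements.S2939
import Cfsg.Agent.Lib.Helper49.SylowControl

set_option autoImplicit false
open Cfsg

namespace Cfsg.Agent.S2939

open Cfsg.Agent.Lib.Helper49

/-- Let p be a prime dividing the order of the finite group G and 𝓕 a family of subgroups of G closed under conjugation, with conjugates taken as X^g = g⁻¹Xg. Then 𝓕 controls Sylow p-intersections in G (any two distinct Sylow p-subgroups S and T with S ∩ T ≠ 1 are joined by a chain S = S₀, S₁, …, Sₙ = T of Sylow p-subgroups where, for each i, some member Xᵢ of 𝓕 meets both S_{i-1} and Sᵢ in Sylow p-subgroups of Xᵢ, satisfies S ∩ T ≤ Sᵢ ∩ Xᵢ, and contains an element xᵢ with Sᵢ^{xᵢ} = S_{i-1}) if and only if 𝓕 strongly controls p-fusion in G (whenever A is a subset of a Sylow p-subgroup S, A contains an element other than 1, and A^g ⊆ S, the element g factorises as g = y₁⋯yₙy with y ∈ N_G(S) and each yᵢ in a member Yᵢ of 𝓕 that meets S in a Sylow p-subgroup of Yᵢ, with A^{y₁⋯yᵢ} ⊆ S ∩ Yᵢ for each i). -/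
theorem result {G : Type*} [Group G] [Finite G] {p : ℕ} [Fact p.Prime] (hdiv : p ∣ Nat.card G) (𝓕 : Set (Subgroup G)) (h𝓕 : Cfsg.IsNormalSet 𝓕) : Cfsg.ControlsSylowIntersections p 𝓕 ↔ Cfsg.FamilyStronglyControlsFusion p 𝓕 := by
  rw [controls_iff, stronglyControls_iff]
  constructor
  · intro hc S A g hA hA1 hAg
    have hAT : ∀ a ∈ A, a ∈ ((g • S : Sylow p G) : Subgroup G) := by
      intro a ha
      rw [coe_smul_sylow, mem_cj]
      exact hAg ⟨a, ha, rfl⟩
    by_cases hST : S = g • S
    · refine ⟨1, g, FusChain.nil, ?_, by simp⟩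
      exact Sylow.smul_eq_iff_mem_normalizer.mp hST.symm
    · have hbot : (S : Subgroup G) ⊓ ((g • S : Sylow p G) : Subgroup G) ≠ ⊥ := by
        obtain ⟨a, ha, ha1⟩ := hA1
        intro h
        apply ha1
        have : a ∈ (S : Subgroup G) ⊓ ((g • S : Sylow p G) : Subgroup G) :=
          Subgroup.mem_inf.mpr ⟨hA ha, hAT a ha⟩
        rw [h] at this
        exact Subgroup.mem_bot.mp this
      have hchain := hc S (g • S) hST hbot
      have key : ∀ P : Sylow p G,
          Relation.ReflTransGen (Step p 𝓕 ((S : Subgroup G) ⊓ ((g • S : Sylow p G) : Subgroup G))) S P →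
          ∃ u : G, FusChain p 𝓕 (S : Subgroup G) A u ∧ cj u⁻¹ (P : Subgroup G) = (S : Subgroup G) := by
        intro P hP
        induction hP with
        | refl => exact ⟨1, FusChain.nil, by rw [inv_one, cj_one]⟩
        | @tail P P' _ hstep ih =>
          obtain ⟨u, hu, huP⟩ := ih
          obtain ⟨X, x, hX1, hX2, hxX, hxP, hD⟩ := hstep
          rw [subgroupConjRight_eq] at hxP
          have e1 : u * (u⁻¹ * x * u) = x * u := by group
          have hY : cj u⁻¹ X ∈ Cfsg.sylowMembers p 𝓕 (S : Subgroup G) := by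
            have := sylowMembers_cj h𝓕 hX1 u⁻¹
            rwa [huP] at this
          have hy : u⁻¹ * x * u ∈ cj u⁻¹ X := by
            have := conj_mem_cj u⁻¹ hxX
            rwa [inv_inv] at this
          have hP' : cj (x * u)⁻¹ (P' : Subgroup G) = (S : Subgroup G) := by
            rw [mul_inv_rev, ← cj_cj, hxP, huP]
          have hX' : cj (x * u)⁻¹ X = cj u⁻¹ X := by
            rw [mul_inv_rev, ← cj_cj, cj_eq_of_mem (inv_mem hxX)]
          refine ⟨x * u, ?_, hP'⟩
          rw [← e1]
          refine FusChain.snoc u _ _ hu hY hy ?_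
          rw [e1]
          rintro _ ⟨a, ha, rfl⟩
          have haD : a ∈ (P' : Subgroup G) ⊓ X := hD (Subgroup.mem_inf.mpr ⟨hA ha, hAT a ha⟩)
          obtain ⟨ha1, ha2⟩ := Subgroup.mem_inf.mp haD
          constructor
          · have := conj_mem_cj (x * u)⁻¹ ha1
            rw [hP', inv_inv] at this
            exact this
          · have := conj_mem_cj (x * u)⁻¹ ha2
            rw [hX', inv_inv] at this
            exact this
      obtain ⟨u, hu, huT⟩ := key _ hchain
      refine ⟨u, u⁻¹ * g, hu, ?_, by group⟩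
      rw [coe_smul_sylow, cj_cj] at huT
      exact cj_eq_iff_mem_normalizer.mp huT
  · intro hf S T hST hbot
    obtain ⟨g, hg⟩ := MulAction.exists_smul_eq G S T
    have hT : (T : Subgroup G) = cj g (S : Subgroup G) := by rw [← hg]; rfl
    set D : Subgroup G := (S : Subgroup G) ⊓ (T : Subgroup G) with hD
    have hA : (D : Set G) ⊆ (S : Set G) := fun a ha => (Subgroup.mem_inf.mp ha).1
    have hA1 : ∃ a ∈ (D : Set G), a ≠ 1 := by
      obtain ⟨a, ha⟩ := Subgroup.ne_bot_iff_exists_ne_one.mp hbot
      exact ⟨a, a.2, fun h => ha (Subtype.ext h)⟩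
    have hAg : Cfsg.conjRight g (D : Set G) ⊆ (S : Set G) := by
      rintro _ ⟨a, ha, rfl⟩
      have : a ∈ (T : Subgroup G) := (Subgroup.mem_inf.mp ha).2
      rw [hT, mem_cj] at this
      exact this
    obtain ⟨u, y₀, hu, hy₀, hguy⟩ := hf S D g hA hA1 hAg
    have key : ∀ u : G, FusChain p 𝓕 (S : Subgroup G) (D : Set G) u →
        Relation.ReflTransGen (Step p 𝓕 D) S (u • S) := by
      intro u hu
      induction hu with
      | nil => rw [one_smul]
      | snoc u y Y _ hY hy hA ih =>
        refine ih.tail ?_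
        have hXe : cj (u * y) Y = cj u Y := by rw [← cj_cj, cj_eq_of_mem hy]
        refine ⟨cj u Y, u * y * u⁻¹, ?_, ?_, conj_mem_cj u hy, ?_, ?_⟩
        · exact sylowMembers_cj h𝓕 hY u
        · rw [← hXe]
          exact sylowMembers_cj h𝓕 hY (u * y)
        · rw [subgroupConjRight_eq, coe_smul_sylow, coe_smul_sylow, cj_cj]
          congr 1
          group
        · intro a ha
          have h1 := hA ⟨a, ha, rfl⟩
          refine Subgroup.mem_inf.mpr ⟨?_, ?_⟩
          · rw [coe_smul_sylow, mem_cj]
            exact h1.1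
          · rw [← hXe, mem_cj]
            exact h1.2
    have h1 := key u hu
    have h2 : u • S = T := by
      rw [← hg, hguy, mul_smul, Sylow.smul_eq_iff_mem_normalizer.mpr hy₀]
    rwa [h2] at h1

end Cfsg.Agent.S2939
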