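import Cfsg.Statements.S2940


set_option autoImplicit false
open Cfsg

namespace Cfsg.Agent.S2940

/-- Let S be a Sylow p-subgroup of the finite group G and G₁, G₂ subgroups containing S with G = G₁G₂. Then for every g ∈ G there is a Sylow p-subgroup U of G with S ∩ S^g ≤ U ≤ G₁ ∩ G₂^g (conjugates taken as X^g = g⁻¹Xg). -/
theorem result {G : Type*} [Group G] [Finite G] {p : ℕ} [Fact p.Prime] (S : Sylow p G) (G₁ G₂ : Subgroup G) (h1 : (S : Subgroup G) ≤ G₁) (h2 : (S : Subgroup G) ≤ G₂) (hfact : ∀ g : G, ∃ g₁ ∈ G₁, ∃ g₂ ∈ G₂, g = g₁ * g₂) (g : G) : ∃ U : Sylow p G, (S : Subgroup G) ⊓ Cfsg.subgroupConjRight g (S : Subgroup G) ≤ (U : Subgroup G) ∧ (U : Subgroup G) ≤ G₁ ⊓ Cfsg.subgroupConjRight g G₂ := by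
  obtain ⟨a, ha, b, hb, hab⟩ := hfact g⁻¹
  set H : Subgroup G := G₁ ⊓ Cfsg.subgroupConjRight g G₂ with hH
  have hS'H : ((a • S : Sylow p G) : Subgroup G) ≤ H := by
    rw [Sylow.coe_subgroup_smul]
    rintro _ ⟨s, hs, rfl⟩
    refine Subgroup.mem_inf.mpr ⟨?_, ?_⟩
    · exact mul_mem (mul_mem ha (h1 hs)) (inv_mem ha)
    · refine ⟨b⁻¹ * s * b, mul_mem (mul_mem (inv_mem hb) (h2 hs)) hb, ?_⟩
      simp only [MulEquiv.coe_toMonoidHom, MulAut.conj_apply, hab, MulDistribMulAction.toMonoidEnd_apply,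
        MulDistribMulAction.toMonoidHom_apply, MulAut.smul_def]
      group
  have hDH : (S : Subgroup G) ⊓ Cfsg.subgroupConjRight g (S : Subgroup G) ≤ H :=
    inf_le_inf h1 (Subgroup.map_mono h2)
  have hDp : IsPGroup p ↥((S : Subgroup G) ⊓ Cfsg.subgroupConjRight g (S : Subgroup G) : Subgroup G) :=
    S.isPGroup'.to_le inf_le_left
  obtain ⟨U, hU⟩ := (hDp.comap_subtype (K := H)).exists_le_sylow
  obtain ⟨h, hh⟩ := MulAction.exists_smul_eq H ((a • S : Sylow p G).subtype hS'H) U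
  refine ⟨(h : G) • (a • S), ?_, Sylow.smul_le hS'H h⟩
  intro x hx
  have hx1 : (⟨x, hDH hx⟩ : H) ∈ (U : Subgroup H) := hU (Subgroup.mem_subgroupOf.mpr hx)
  rw [← hh, Sylow.smul_subtype hS'H h, Sylow.coe_subtype, Subgroup.mem_subgroupOf] at hx1
  exact hx1

end Cfsg.Agent.S2940
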