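import Cfsg.Statements.S2955
import Cfsg.Agent.Lib.Helper49.SylowControl

set_option autoImplicit false
open Cfsg

namespace Cfsg.Agent.S2955

open Cfsg.Agent.Lib.Helper49

/-- Let p be a prime dividing the order of the finite group G and 𝓕 a conjugation-closed family of subgroups that controls Sylow p-intersections in G. Suppose the Sylow p-subgroups of G are chain-connected: any two of them are joined by a chain of Sylow p-subgroups, consecutive ones distinct with nontrivial intersection, all containing the intersection of the two ends (equivalently, the graph on the Sylow p-subgroups whose edges are the distinct pairs meeting nontrivially is connected). Then for every Sylow p-subgroup S, G is generated by N_G(S) together with the members of 𝓕 that meet S in a Sylow p-subgroup of themselves. -/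
theorem result {G : Type*} [Group G] [Finite G] (p : ℕ) [Fact p.Prime] (hdiv : p ∣ Nat.card G)
    (𝓕 : Set (Subgroup G)) (h𝓕 : Cfsg.IsNormalSet 𝓕) (hc : Cfsg.ControlsSylowIntersections p 𝓕)
    (hconn : Cfsg.IsSylowChainConnected p G) (S : Sylow p G) :
    (⨆ X ∈ Cfsg.sylowMembers p 𝓕 (S : Subgroup G), X) ⊔ Subgroup.normalizer ((S : Subgroup G) : Set G) = ⊤ := by
  rw [controls_iff] at hc
  set H₀ : Subgroup G := ⨆ X ∈ Cfsg.sylowMembers p 𝓕 (S : Subgroup G), X with hH₀
  have hle : ∀ X ∈ Cfsg.sylowMembers p 𝓕 (S : Subgroup G), X ≤ H₀ := by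
    intro X hX
    exact le_iSup₂ (f := fun (X : Subgroup G) (_ : X ∈ Cfsg.sylowMembers p 𝓕 (S : Subgroup G)) => X) X hX
  -- one step preserves the property
  have hstep : ∀ (D : Subgroup G) (P P' : Sylow p G), Step p 𝓕 D P P' →
      (∃ h ∈ H₀, h • S = P) → ∃ h ∈ H₀, h • S = P' := by
    rintro D P P' ⟨X, x, hX1, -, hxX, hxP, -⟩ ⟨h, hh, rfl⟩
    rw [subgroupConjRight_eq] at hxP
    have hY : cj h⁻¹ X ∈ Cfsg.sylowMembers p 𝓕 (S : Subgroup G) := by
      have := sylowMembers_cj h𝓕 hX1 h⁻¹
      rwa [coe_smul_sylow, cj_inv_cj] at this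
    have hy : h⁻¹ * x * h ∈ H₀ := by
      have := conj_mem_cj h⁻¹ hxX
      rw [inv_inv] at this
      exact hle _ hY this
    refine ⟨h * (h⁻¹ * x * h), mul_mem hh hy, ?_⟩
    have e1 : h * (h⁻¹ * x * h) = x * h := by group
    rw [e1]
    apply Sylow.ext
    rw [coe_smul_sylow, ← cj_cj, ← coe_smul_sylow, ← hxP, cj_cj_inv]
  have hchain : ∀ (D : Subgroup G) (P P' : Sylow p G), Relation.ReflTransGen (Step p 𝓕 D) P P' →
      (∃ h ∈ H₀, h • S = P) → ∃ h ∈ H₀, h • S = P' := by
    intro D P P' hPP' hP
    induction hPP' with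
    | refl => exact hP
    | tail _ hs ih => exact hstep D _ _ hs ih
  have hall : ∀ T : Sylow p G, ∃ h ∈ H₀, h • S = T := by
    intro T
    have := chainConnected_reflTransGen hconn S T
    induction this with
    | refl => exact ⟨1, one_mem _, one_smul _ _⟩
    | tail _ hs ih => exact hchain _ _ _ (hc _ _ hs.1 hs.2) ih
  rw [eq_top_iff]
  intro g _
  obtain ⟨h, hh, hhg⟩ := hall (g • S)
  have hn : h⁻¹ * g ∈ Subgroup.normalizer ((S : Subgroup G) : Set G) := by
    apply Sylow.smul_eq_iff_mem_normalizer.mp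
    rw [mul_smul, ← hhg, inv_smul_smul]
  have : g = h * (h⁻¹ * g) := by group
  rw [this]
  exact mul_mem (Subgroup.mem_sup_left hh) (Subgroup.mem_sup_right hn)

end Cfsg.Agent.S2955
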