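import Cfsg.Statements.S2956
import Cfsg.Agent.Lib.Helper49.Regular

set_option autoImplicit false
open Cfsg

namespace Cfsg.Agent.S2956

open Cfsg.Agent.Lib.Helper49 Relation

variable {G : Type*} [Group G]

theorem exists_maximalPLocal_ge [Finite G] {p : ℕ} {L : Subgroup G} (hL : Cfsg.IsPLocal p L) :
    ∃ M, Cfsg.IsMaximalPLocal p M ∧ L ≤ M := by
  obtain ⟨M, hLM, hM⟩ := (Set.toFinite {N : Subgroup G | Cfsg.IsPLocal p N}).exists_le_maximal hL
  exact ⟨M, ⟨hM.prop, fun N hN hMN => le_antisymm (hM.le_of_ge hN hMN) hMN⟩, hLM⟩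

theorem card_lt_of_lt' [Finite G] {H K : Subgroup G} (h : H < K) : Nat.card H < Nat.card K := by
  by_contra hc
  exact h.ne (Subgroup.eq_of_le_of_card_ge h.le (not_lt.mp hc))

/-- A single link through a member `X` of the family. -/
theorem step_of_mem [Finite G] {p : ℕ} [Fact p.Prime] {𝓚 : Set (Subgroup G)} {X : Subgroup G} (hX : X ∈ 𝓚)
    {x : G} (hx : x ∈ X) {Q : Subgroup G} (hQ : SylIn p Q X) (Qs : Sylow p G) (hQs : Q ≤ (Qs : Subgroup G))
    {D : Subgroup G} (hD : D ≤ cj x Q) : Step p 𝓚 D Qs (x • Qs) := by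
  have e1 : (Qs : Subgroup G) ⊓ X = Q := hQ.inf_eq Qs.isPGroup' hQs
  have e2 : ((x • Qs : Sylow p G) : Subgroup G) ⊓ X = cj x Q := by
    rw [coe_smul_sylow]
    conv_lhs => rw [← cj_eq_of_mem hx]
    rw [← cj_inf, e1]
  refine ⟨X, x, ?_, ?_, hx, ?_, ?_⟩
  · rw [mem_sylowMembers_iff, e1]
    exact ⟨hX, hQ⟩
  · rw [mem_sylowMembers_iff, e2]
    exact ⟨hX, hQ.cj_of_mem hx⟩
  · rw [subgroupConjRight_eq, coe_smul_sylow, cj_inv_cj]
  · rw [e2]
    exact hD

/-- The hypotheses on the family used in the argument. -/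
structure Hyp (p : ℕ) (f : Subgroup G → Set (Subgroup G)) (𝓚 : Set (Subgroup G)) : Prop where
  hf : Cfsg.IsNormalizerFunctor p f
  hf1 : ∀ P : Subgroup G, IsPGroup p ↥P → P ≠ ⊥ → ∀ F ∈ f P, F ≠ ⊥
  h1 : ∀ (P : Sylow p G) (F : Subgroup G), F ∈ f (P : Subgroup G) → Subgroup.normalizer (F : Set G) ∈ 𝓚
  h2 : ∀ M : Subgroup G, Cfsg.IsMaximalPLocal p M → ¬ Reg p f M → M ∈ 𝓚

/-- Sylow subgroups sharing a `p`-subgroup larger than `D` are connected over `D`. -/
def Big (p : ℕ) (𝓚 : Set (Subgroup G)) (D : Subgroup G) : Prop :=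
  ∀ E : Subgroup G, IsPGroup p E → D ≤ E → Nat.card D < Nat.card E → ∀ S T : Sylow p G,
    E ≤ (S : Subgroup G) → E ≤ (T : Subgroup G) → ReflTransGen (Step p 𝓚 D) S T

/-- The link statement for `p`-subgroups of order at least `c`. -/
def Link (p : ℕ) (f : Subgroup G → Set (Subgroup G)) (𝓚 : Set (Subgroup G)) (D : Subgroup G) (c : ℕ) : Prop :=
  ∀ (P' F : Subgroup G) (y : G) (Ps' : Sylow p G), IsPGroup p P' → c ≤ Nat.card P' → F ∈ f P' →
    y ∈ Subgroup.normalizer (F : Set G) → D ≤ P' → D ≤ cj y⁻¹ P' → P' ≤ (Ps' : Subgroup G) →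
    ReflTransGen (Step p 𝓚 D) (y⁻¹ • Ps') Ps'

theorem lam [Finite G] {p : ℕ} [Fact p.Prime] {f : Subgroup G → Set (Subgroup G)} {𝓚 : Set (Subgroup G)}
    (H : Hyp p f 𝓚) {D : Subgroup G} (hD1 : D ≠ ⊥) (hΦ : Big p 𝓚 D) {c : ℕ} (hΨ : Link p f 𝓚 D c)
    (L Q : Subgroup G) (x : G) (Qs : Sylow p G) (hL : Cfsg.IsPLocal p L) (hQ : SylIn p Q L) (hx : x ∈ L)
    (hQs : Q ≤ (Qs : Subgroup G)) (hDQ : D ≤ Q) (hDx : D ≤ cj x Q) (hlt : Nat.card D < Nat.card Q)
    (hc : c ≤ Nat.card Q) : ReflTransGen (Step p 𝓚 D) Qs (x • Qs) := by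
  obtain ⟨M, hM, hLM⟩ := exists_maximalPLocal_ge hL
  obtain ⟨Q₁, hQ₁, hQQ₁⟩ := exists_sylIn_ge hQ.isPGroup (hQ.le.trans hLM)
  obtain ⟨Q₁s, hQ₁s⟩ := hQ₁.isPGroup.exists_le_sylow
  have hxM : x ∈ M := hLM hx
  have hcard : Nat.card Q ≤ Nat.card Q₁ := Subgroup.card_le_of_le hQQ₁
  have c1 : ReflTransGen (Step p 𝓚 D) Qs Q₁s := hΦ Q hQ.isPGroup hDQ hlt Qs Q₁s hQs (hQQ₁.trans hQ₁s)
  have c3 : ReflTransGen (Step p 𝓚 D) (x • Q₁s) (x • Qs) := by
    refine hΦ (cj x Q) (isPGroup_cj x hQ.isPGroup) hDx (by rw [card_cj]; exact hlt) _ _ ?_ ?_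
    · rw [coe_smul_sylow]; exact cj_mono x (hQQ₁.trans hQ₁s)
    · rw [coe_smul_sylow]; exact cj_mono x hQs
  have c2 : ReflTransGen (Step p 𝓚 D) Q₁s (x • Q₁s) := by
    by_cases hreg : Reg p f M
    · by_cases heq : Q₁ = cj x Q₁
      · refine hΦ Q₁ hQ₁.isPGroup (hDQ.trans hQQ₁) (hlt.trans_le hcard) _ _ hQ₁s ?_
        rw [coe_smul_sylow]
        conv_lhs => rw [heq]
        exact cj_mono x hQ₁s
      · have hle : D ≤ Q₁ ⊓ cj x Q₁ := le_inf (hDQ.trans hQQ₁) (hDx.trans (cj_mono x hQQ₁))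
        have hb : Q₁ ⊓ cj x Q₁ ≠ ⊥ := fun h => hD1 (le_bot_iff.mp (h ▸ hle))
        have chain := hreg Q₁ (cj x Q₁) hQ₁ (hQ₁.cj_of_mem hxM) heq hb
        have key : ∀ P : Subgroup G, ReflTransGen (RStep p f M (Q₁ ⊓ cj x Q₁)) Q₁ P →
            D ≤ P ∧ ∀ Ps : Sylow p G, P ≤ (Ps : Subgroup G) → ReflTransGen (Step p 𝓚 D) Q₁s Ps := by
          intro P hP
          induction hP with
          | refl =>
            exact ⟨hDQ.trans hQQ₁, fun Ps hPs =>
              hΦ Q₁ hQ₁.isPGroup (hDQ.trans hQQ₁) (hlt.trans_le hcard) _ _ hQ₁s hPs⟩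
          | @tail P P' _ hstep ih =>
            obtain ⟨hDP, ih⟩ := ih
            obtain ⟨-, hP', F, hF, y, -, hyN, hyP, hDP'⟩ := hstep
            refine ⟨hle.trans hDP', fun Ps' hPs' => ?_⟩
            have h1 : ReflTransGen (Step p 𝓚 D) Q₁s (y⁻¹ • Ps') := by
              apply ih
              rw [coe_smul_sylow, ← hyP]
              exact cj_mono _ hPs'
            refine h1.trans (hΨ P' F y Ps' hP'.isPGroup ?_ hF hyN (hle.trans hDP') (hyP ▸ hDP) hPs')
            rw [hP'.card_eq hQ₁]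
            exact hc.trans hcard
        refine (key _ chain).2 _ ?_
        rw [coe_smul_sylow]
        exact cj_mono x hQ₁s
    · exact ReflTransGen.single (step_of_mem (H.h2 M hM hreg) hxM hQ₁ Q₁s hQ₁s (hDx.trans (cj_mono x hQQ₁)))
  exact (c1.trans c2).trans c3

theorem psi [Finite G] {p : ℕ} [Fact p.Prime] {f : Subgroup G → Set (Subgroup G)} {𝓚 : Set (Subgroup G)}
    (H : Hyp p f 𝓚) {D : Subgroup G} (hD1 : D ≠ ⊥) (hΦ : Big p 𝓚 D) :
    Link p f 𝓚 D (Nat.card D + 1) := by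
  have main : ∀ (n : ℕ) (P' F : Subgroup G) (y : G) (Ps' : Sylow p G), Nat.card G - Nat.card P' = n →
      IsPGroup p P' → Nat.card D + 1 ≤ Nat.card P' → F ∈ f P' →
      y ∈ Subgroup.normalizer (F : Set G) → D ≤ P' → D ≤ cj y⁻¹ P' → P' ≤ (Ps' : Subgroup G) →
      ReflTransGen (Step p 𝓚 D) (y⁻¹ • Ps') Ps' := by
    intro n
    induction n using Nat.strong_induction_on with
    | _ n ih =>
      intro P' F y Ps' hn hP' hc hF hy hDP' hDy hPs'
      by_cases heq : P' = (Ps' : Subgroup G)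
      · have hX : Subgroup.normalizer (F : Set G) ∈ 𝓚 := H.h1 Ps' F (heq ▸ hF)
        have hP'X : SylIn p P' (Subgroup.normalizer (F : Set G)) := by
          rw [heq]
          refine (sylIn_top_sylow Ps').of_le ?_ le_top
          rw [← heq]
          exact nf_le_normalizer H.hf hP' hF
        have := step_of_mem hX hy (hP'X.cj_of_mem (inv_mem hy)) (y⁻¹ • Ps')
          (by rw [coe_smul_sylow]; exact cj_mono _ hPs') (D := D) (by rw [cj_cj_inv]; exact hDP')
        rw [smul_inv_smul] at this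
        exact ReflTransGen.single this
      · have hE := exists_mem_normalizer_not_mem Ps'.isPGroup' hPs' heq
        set E : Subgroup G := (Ps' : Subgroup G) ⊓ Subgroup.normalizer (P' : Set G) with hEdef
        have hEp : IsPGroup p E := Ps'.isPGroup'.to_le inf_le_left
        have hcE : Nat.card P' < Nat.card E := card_lt_of_lt' hE
        have hP'1 : P' ≠ ⊥ := fun h => hD1 (le_bot_iff.mp (h ▸ hDP'))
        have hL' : Cfsg.IsPLocal p (Subgroup.normalizer (F : Set G)) :=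
          ⟨F, hP'.to_le (nf_le H.hf hP' hF), H.hf1 P' hP' hP'1 F hF, rfl⟩
        have hEL' : E ≤ Subgroup.normalizer (F : Set G) :=
          inf_le_right.trans (nf_normalizer_le H.hf hP' hF)
        obtain ⟨Q', hQ', hEQ'⟩ := exists_sylIn_ge hEp hEL'
        obtain ⟨Q's, hQ's⟩ := hQ'.isPGroup.exists_le_sylow
        have hcQ' : Nat.card E ≤ Nat.card Q' := Subgroup.card_le_of_le hEQ'
        have hΨ : Link p f 𝓚 D (Nat.card P' + 1) := by
          intro P'' F'' y'' Ps'' h1 h2 h3 h4 h5 h6 h7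
          have hle : Nat.card P'' ≤ Nat.card G := Subgroup.card_le_card_group P''
          exact ih (Nat.card G - Nat.card P'') (by omega) P'' F'' y'' Ps'' rfl h1 (by omega) h3 h4 h5 h6 h7
        have c2 := lam H hD1 hΦ hΨ (Subgroup.normalizer (F : Set G)) (cj y⁻¹ Q') y (y⁻¹ • Q's) hL'
          (hQ'.cj_of_mem (inv_mem hy)) hy (by rw [coe_smul_sylow]; exact cj_mono _ hQ's)
          (hDy.trans (cj_mono _ (hE.le.trans hEQ'))) (by rw [cj_cj_inv]; exact hDP'.trans (hE.le.trans hEQ'))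
          (by rw [card_cj]; omega) (by rw [card_cj]; omega)
        rw [smul_inv_smul] at c2
        have c1 : ReflTransGen (Step p 𝓚 D) (y⁻¹ • Ps') (y⁻¹ • Q's) := by
          refine hΦ (cj y⁻¹ E) (isPGroup_cj _ hEp) (hDy.trans (cj_mono _ hE.le)) (by rw [card_cj]; omega)
            _ _ ?_ ?_
          · rw [coe_smul_sylow]; exact cj_mono _ inf_le_left
          · rw [coe_smul_sylow]; exact cj_mono _ (hEQ'.trans hQ's)
        have c3 : ReflTransGen (Step p 𝓚 D) Q's Ps' :=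
          hΦ E hEp (hDP'.trans hE.le) (by omega) _ _ (hEQ'.trans hQ's) inf_le_left
        exact (c1.trans c2).trans c3
  intro P' F y Ps' h1 h2 h3 h4 h5 h6 h7
  exact main _ P' F y Ps' rfl h1 h2 h3 h4 h5 h6 h7

theorem phi [Finite G] {p : ℕ} [Fact p.Prime] {f : Subgroup G → Set (Subgroup G)} {𝓚 : Set (Subgroup G)}
    (H : Hyp p f 𝓚) : ∀ (n : ℕ) (D : Subgroup G), Nat.card G - Nat.card D = n → IsPGroup p D → D ≠ ⊥ →
      ∀ S T : Sylow p G, D ≤ (S : Subgroup G) → D ≤ (T : Subgroup G) → ReflTransGen (Step p 𝓚 D) S T := by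
  intro n
  induction n using Nat.strong_induction_on with
  | _ n ih =>
    intro D hn hDp hD1 S T hDS hDT
    have hΦ : Big p 𝓚 D := by
      intro E hE hDE hlt S' T' hS' hT'
      have hle : Nat.card E ≤ Nat.card G := Subgroup.card_le_card_group E
      have hE1 : E ≠ ⊥ := fun h => hD1 (le_bot_iff.mp (h ▸ hDE))
      have := ih (Nat.card G - Nat.card E) (by omega) E rfl hE hE1 S' T' hS' hT'
      exact ReflTransGen.mono (fun P P' h => h.mono hDE) _ _ this
    by_cases h1 : D = (S : Subgroup G)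
    · have : S = T := Sylow.ext ((sylIn_top_sylow S).eq_of_le T.isPGroup' le_top (h1 ▸ hDT)).symm
      rw [this]
    by_cases h2 : D = (T : Subgroup G)
    · have : T = S := Sylow.ext ((sylIn_top_sylow T).eq_of_le S.isPGroup' le_top (h2 ▸ hDS)).symm
      rw [this]
    have hS := exists_mem_normalizer_not_mem S.isPGroup' hDS h1
    have hT := exists_mem_normalizer_not_mem T.isPGroup' hDT h2
    have hL : Cfsg.IsPLocal p (Subgroup.normalizer (D : Set G)) := ⟨D, hDp, hD1, rfl⟩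
    obtain ⟨Q, hQ, hSQ⟩ := exists_sylIn_ge (S.isPGroup'.to_le inf_le_left)
      (inf_le_right : (S : Subgroup G) ⊓ Subgroup.normalizer (D : Set G) ≤ _)
    obtain ⟨R, hR, hTR⟩ := exists_sylIn_ge (T.isPGroup'.to_le inf_le_left)
      (inf_le_right : (T : Subgroup G) ⊓ Subgroup.normalizer (D : Set G) ≤ _)
    obtain ⟨Qs, hQs⟩ := hQ.isPGroup.exists_le_sylow
    obtain ⟨x, hx, rfl⟩ := hQ.exists_conj hR
    have hcS := card_lt_of_lt' hS
    have hcT := card_lt_of_lt' hT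
    have hcQ := Subgroup.card_le_of_le hSQ
    have c1 : ReflTransGen (Step p 𝓚 D) S Qs :=
      hΦ _ (S.isPGroup'.to_le inf_le_left) hS.le hcS _ _ inf_le_left (hSQ.trans hQs)
    have c2 : ReflTransGen (Step p 𝓚 D) Qs (x • Qs) :=
      lam H hD1 hΦ (psi H hD1 hΦ) _ Q x Qs hL hQ hx hQs (hS.le.trans hSQ) (hT.le.trans hTR)
        (by omega) (by omega)
    have c3 : ReflTransGen (Step p 𝓚 D) (x • Qs) T := by
      refine hΦ _ (T.isPGroup'.to_le inf_le_left) hT.le hcT _ _ ?_ inf_le_left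
      rw [coe_smul_sylow]
      exact hTR.trans (cj_mono x hQs)
    exact (c1.trans c2).trans c3

/-- Let p be a prime dividing the order of the finite group G, and f an assignment to every p-subgroup P of a set f(P) of subgroups of P, each normalized by N_G(P), compatible with conjugation, such that for P ≠ 1 the members of f(P) are nontrivial. Let 𝓕 be the family of the normalizers N_G(F) of the members F of f(S) over the Sylow p-subgroups S of G, and 𝓕' the family of the maximal p-local subgroups M of G that are singular for f (the corresponding family of normalizers inside M does not control Sylow p-intersections in M). Then 𝓕 ∪ 𝓕' controls Sylow p-intersections in G. -/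
theorem result {G : Type*} [Group G] [Finite G] (p : ℕ) [Fact p.Prime] (hdiv : p ∣ Nat.card G)
    (f : Subgroup G → Set (Subgroup G)) (hf : Cfsg.IsNormalizerFunctor p f)
    (hf1 : ∀ P : Subgroup G, IsPGroup p ↥P → P ≠ ⊥ → ∀ F ∈ f P, F ≠ ⊥)
    (𝓕 𝓕' : Set (Subgroup G)) (h𝓕 : 𝓕 = Cfsg.functorFamily p f ⊤)
    (h𝓕' : 𝓕' = {M | Cfsg.IsMaximalPLocal p M ∧ ¬ Cfsg.IsFunctorRegular p f M}) :
    Cfsg.ControlsSylowIntersections p (𝓕 ∪ 𝓕') := by
  rw [controls_iff]
  have H : Hyp p f (𝓕 ∪ 𝓕') := by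
    refine ⟨hf, hf1, ?_, ?_⟩
    · intro P F hF
      left
      rw [h𝓕, mem_functorFamily_iff]
      exact ⟨P, sylIn_top_sylow P, F, hF, (top_inf_eq _).symm⟩
    · intro M hM hreg
      right
      rw [h𝓕']
      exact ⟨hM, fun h => hreg ((regular_iff hf).mp h)⟩
  intro S T _ hbot
  exact phi H _ _ rfl (S.isPGroup'.to_le inf_le_left) hbot S T inf_le_left inf_le_right

end Cfsg.Agent.S2956
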