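import Cfsg.Statements.S2957
import Cfsg.Agent.Lib.Helper49.Regular
import Cfsg.Agent.S2940

set_option autoImplicit false
open Cfsg

namespace Cfsg.Agent.S2957

open Cfsg.Agent.Lib.Helper49

/-- Let p be a prime dividing the order of the finite group G, f an equivariant assignment of a set of subgroups f(P) of P to every p-subgroup P, each normalized by N_G(P), and S a Sylow p-subgroup. If G = G₁G₂ for subgroups G₁, G₂ both containing S and both regular for f (in each Gᵢ, the family of normalizers in Gᵢ of the members of f(P), P a Sylow p-subgroup of Gᵢ, controls Sylow p-intersections), then G itself is regular for f. -/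
theorem result {G : Type*} [Group G] [Finite G] (p : ℕ) [Fact p.Prime] (hdiv : p ∣ Nat.card G)
    (f : Subgroup G → Set (Subgroup G)) (hf : Cfsg.IsNormalizerFunctor p f) (S : Sylow p G)
    (G₁ G₂ : Subgroup G) (h₁ : (S : Subgroup G) ≤ G₁) (h₂ : (S : Subgroup G) ≤ G₂)
    (hprod : ∀ g : G, ∃ g₁ ∈ G₁, ∃ g₂ ∈ G₂, g = g₁ * g₂)
    (hr₁ : Cfsg.IsFunctorRegular p f G₁) (hr₂ : Cfsg.IsFunctorRegular p f G₂) :
    Cfsg.IsFunctorRegular p f ⊤ := by
  rw [regular_iff hf] at hr₁ hr₂ ⊢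
  have hS : SylIn p (S : Subgroup G) ⊤ := sylIn_top_sylow S
  -- the case where the first Sylow subgroup is `S`
  have main : ∀ g : G, (S : Subgroup G) ≠ cj g⁻¹ (S : Subgroup G) →
      (S : Subgroup G) ⊓ cj g⁻¹ (S : Subgroup G) ≠ ⊥ →
      Relation.ReflTransGen (RStep p f ⊤ ((S : Subgroup G) ⊓ cj g⁻¹ (S : Subgroup G)))
        (S : Subgroup G) (cj g⁻¹ (S : Subgroup G)) := by
    intro g _ hbot
    obtain ⟨U, hU1, hU2⟩ := Cfsg.Agent.S2940.result S G₁ G₂ h₁ h₂ hprod g
    rw [subgroupConjRight_eq] at hU1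
    rw [subgroupConjRight_eq] at hU2
    set D : Subgroup G := (S : Subgroup G) ⊓ cj g⁻¹ (S : Subgroup G) with hD
    have hU : SylIn p (U : Subgroup G) ⊤ := sylIn_top_sylow U
    have hUG₁ : (U : Subgroup G) ≤ G₁ := hU2.trans inf_le_left
    have hUG₂ : (U : Subgroup G) ≤ cj g⁻¹ G₂ := hU2.trans inf_le_right
    have c1 : Relation.ReflTransGen (RStep p f ⊤ D) (S : Subgroup G) (U : Subgroup G) := by
      by_cases hSU : (S : Subgroup G) = (U : Subgroup G)
      · rw [← hSU]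
      · have hle : D ≤ (S : Subgroup G) ⊓ (U : Subgroup G) := le_inf inf_le_left hU1
        have hb : (S : Subgroup G) ⊓ (U : Subgroup G) ≠ ⊥ := fun h => hbot (le_bot_iff.mp (h ▸ hle))
        have := hr₁ _ _ (hS.of_le h₁ le_top) (hU.of_le hUG₁ le_top) hSU hb
        exact Relation.ReflTransGen.mono (fun P P' h => (h.anti hle).mono le_top hS h₁) _ _ this
    have hT : SylIn p (cj g⁻¹ (S : Subgroup G)) ⊤ := by
      have := hS.cj g⁻¹
      rwa [cj_top] at this
    have hTG₂ : cj g⁻¹ (S : Subgroup G) ≤ cj g⁻¹ G₂ := cj_mono _ h₂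
    have c2 : Relation.ReflTransGen (RStep p f ⊤ D) (U : Subgroup G) (cj g⁻¹ (S : Subgroup G)) := by
      by_cases hSU : (U : Subgroup G) = cj g⁻¹ (S : Subgroup G)
      · rw [← hSU]
      · have hle : D ≤ (U : Subgroup G) ⊓ cj g⁻¹ (S : Subgroup G) := le_inf hU1 inf_le_right
        have hb : (U : Subgroup G) ⊓ cj g⁻¹ (S : Subgroup G) ≠ ⊥ :=
          fun h => hbot (le_bot_iff.mp (h ▸ hle))
        have := (hr₂.cj hf g⁻¹) _ _ (hU.of_le hUG₂ le_top) (hT.of_le hTG₂ le_top) hSU hb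
        exact Relation.ReflTransGen.mono (fun P P' h => (h.anti hle).mono le_top hU hUG₂) _ _ this
    exact c1.trans c2
  intro P T hP hT hne hbot
  obtain ⟨a, -, rfl⟩ := hS.exists_conj hP
  obtain ⟨b, -, rfl⟩ := hS.exists_conj hT
  have e : cj b (S : Subgroup G) = cj a (cj (b⁻¹ * a)⁻¹ (S : Subgroup G)) := by
    rw [cj_cj]
    congr 1
    group
  rw [e] at hne hbot ⊢
  have h1 : (S : Subgroup G) ≠ cj (b⁻¹ * a)⁻¹ (S : Subgroup G) := fun h => hne (by rw [← h])
  have h2 : (S : Subgroup G) ⊓ cj (b⁻¹ * a)⁻¹ (S : Subgroup G) ≠ ⊥ := by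
    intro h
    apply hbot
    rw [← cj_inf, h, cj_bot]
  have := Relation.ReflTransGen.lift (cj a) (fun P P' hPP' => RStep.cj hf hPP' a) _ _ (main _ h1 h2)
  unfold Function.onFun at this
  rwa [cj_top, cj_inf] at this

end Cfsg.Agent.S2957
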