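import Cfsg.Statements.S2958

set_option autoImplicit false
open Cfsg

namespace Cfsg.Agent.S2958

/-- Let X, A, B be subgroups of a group G such that G is generated by the conjugates of X and every conjugate of X is contained in A or in B. Then A = G or B = G. -/
theorem result {G : Type*} [Group G] (X A B : Subgroup G) (hgen : (⨆ g : G, X.map (MulAut.conj g).toMonoidHom) = ⊤) (hcover : ∀ g : G, X.map (MulAut.conj g).toMonoidHom ≤ A ∨ X.map (MulAut.conj g).toMonoidHom ≤ B) : A = ⊤ ∨ B = ⊤ := by
  classical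
  by_cases hA : A = ⊤
  · exact Or.inl hA
  right
  set c : G → Subgroup G := fun g => X.map (MulAut.conj g).toMonoidHom with hc
  set P : Subgroup G := ⨆ g : {g : G // ¬ c g ≤ A}, c g.1 with hP
  have hPB : P ≤ B := iSup_le fun g => (hcover g.1).resolve_left g.2
  have hconj : ∀ g h : G, (c g).map (MulAut.conj h).toMonoidHom = c (h * g) := by
    intro g h
    simp only [hc, Subgroup.map_map]
    congr 1
    ext x
    simp [mul_assoc]
  have hcP : ∀ g : G, ¬ c g ≤ A → c g ≤ P := fun g hg => le_iSup (fun g : {g : G // ¬ c g ≤ A} => c g.1) ⟨g, hg⟩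
  -- conjugation by elements of `A` preserves `P`
  have hAP : ∀ a ∈ A, P.map (MulAut.conj a).toMonoidHom ≤ P := by
    intro a ha
    rw [hP, Subgroup.map_iSup]
    refine iSup_le fun g => ?_
    rw [hconj]
    apply hcP
    intro hle
    apply g.2
    have h1 : c g.1 = (c (a * g.1)).map (MulAut.conj a⁻¹).toMonoidHom := by
      rw [hconj]; simp
    rw [h1]
    rintro _ ⟨y, hy, rfl⟩
    have hyA : y ∈ A := hle hy
    simpa using A.mul_mem (A.mul_mem (A.inv_mem ha) hyA) ha
  have hAN : A ≤ Subgroup.normalizer (P : Set G) := by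
    intro a ha
    rw [Subgroup.mem_normalizer_iff]
    intro n
    constructor
    · intro hn
      exact hAP a ha ⟨n, hn, by simp⟩
    · intro hn
      have := hAP a⁻¹ (A.inv_mem ha) ⟨_, hn, rfl⟩
      simpa [mul_assoc] using this
  have hN : Subgroup.normalizer (P : Set G) = ⊤ := by
    rw [eq_top_iff, ← hgen]
    refine iSup_le fun g => ?_
    by_cases hg : c g ≤ A
    · exact hg.trans hAN
    · exact (hcP g hg).trans Subgroup.le_normalizer
  have hPn : P.Normal := Subgroup.normalizer_eq_top_iff.mp hN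
  -- some conjugate is not in `A`
  obtain ⟨g₀, hg₀⟩ : ∃ g, ¬ c g ≤ A := by
    by_contra hcon
    push Not at hcon
    apply hA
    rw [eq_top_iff, ← hgen]
    exact iSup_le hcon
  have hall : ∀ g, c g ≤ P := by
    intro g
    have h1 : c g = (c g₀).map (MulAut.conj (g * g₀⁻¹)).toMonoidHom := by
      rw [hconj]; simp
    rw [h1]
    rintro _ ⟨y, hy, rfl⟩
    exact hPn.conj_mem y (hcP g₀ hg₀ hy) _
  rw [eq_top_iff, ← hgen]
  exact (iSup_le hall).trans hPB

end Cfsg.Agent.S2958
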