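import Cfsg.Statements.S2960
import Cfsg.Agent.Lib.Helper49.CharP

set_option autoImplicit false
open Cfsg

namespace Cfsg.Agent.S2960

/-- Let G be a finite group of characteristic p (C_G(O_p(G)) ≤ O_p(G)), p prime, T a Sylow p-subgroup of G and Q a normal subgroup of T with C_T(Q) ≤ Q. Then C_G(Q) ≤ Q. -/
theorem result {G : Type*} [Group G] [Finite G] {p : ℕ} [Fact p.Prime] (hG : Subgroup.centralizer (Cfsg.pCore p G : Set G) ≤ Cfsg.pCore p G) (T : Sylow p G) (Q : Subgroup G) (hQT : Q ≤ (T : Subgroup G)) (hQn : (T : Subgroup G) ≤ Subgroup.normalizer (Q : Set G)) (hC : (T : Subgroup G) ⊓ Subgroup.centralizer (Q : Set G) ≤ Q) : Subgroup.centralizer (Q : Set G) ≤ Q := by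
  have hRT : Cfsg.pCore p G ≤ (T : Subgroup G) :=
    (Cfsg.Agent.Lib.Helper49.pCore_isPGroup p G).le_sylow_of_normal T
  have hNC : Subgroup.normalizer (Q : Set G) ≤ Subgroup.normalizer (Subgroup.centralizer (Q : Set G) : Set G) :=
    (Subgroup.normal_subgroupOf_iff_le_normalizer (Subgroup.centralizer_le_normalizer (Q : Set G))).mp
      inferInstance
  have hCp : IsPGroup p (Subgroup.centralizer (Q : Set G)) := by
    rintro ⟨x, hx⟩
    have h1 : ∀ a ∈ Cfsg.pCore p G, a⁻¹ * (x⁻¹ * a * x) ∈ Q := by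
      intro a ha
      apply hC
      refine Subgroup.mem_inf.mpr ⟨hRT ?_, ?_⟩
      · apply mul_mem (inv_mem ha)
        have := (Cfsg.pCore_normal p G).conj_mem a ha x⁻¹
        simpa using this
      · have haN : a⁻¹ ∈ Subgroup.normalizer (Subgroup.centralizer (Q : Set G) : Set G) :=
          inv_mem (hNC (hQn (hRT ha)))
        have h2 := (Subgroup.mem_normalizer_iff.mp haN x⁻¹).mp (inv_mem hx)
        rw [inv_inv] at h2
        have h3 := mul_mem h2 hx
        simpa [mul_assoc] using h3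
    have h2 : ∀ z ∈ Q, z * x = x * z := fun z hz => Subgroup.mem_centralizer_iff.mp hx z hz
    have h3 := Cfsg.Agent.Lib.Helper49.pow_card_commute h1 h2
    have h4 : x ^ Nat.card Q ∈ Cfsg.pCore p G :=
      hG (Subgroup.mem_centralizer_iff.mpr fun a ha => (h3 a ha).symm)
    obtain ⟨i, hi⟩ := IsPGroup.iff_card.mp (T.isPGroup'.to_le hQT)
    obtain ⟨j, hj⟩ := Cfsg.Agent.Lib.Helper49.pCore_isPGroup p G ⟨_, h4⟩
    refine ⟨i + j, Subtype.ext ?_⟩
    have hj' : (x ^ Nat.card Q) ^ p ^ j = 1 := congrArg Subtype.val hj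
    rw [hi, ← pow_mul, ← pow_add] at hj'
    simpa using hj'
  have hmax := T.is_maximal' (T.isPGroup'.to_sup_of_normal_right' hCp (hQn.trans hNC)) le_sup_left
  have hCT : Subgroup.centralizer (Q : Set G) ≤ (T : Subgroup G) := by
    rw [← hmax]; exact le_sup_right
  exact (le_inf hCT le_rfl).trans hC

end Cfsg.Agent.S2960
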