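import Cfsg.Statements.S2961
import Cfsg.Agent.Lib.Helper49.CharP
import Cfsg.Agent.S2960

set_option autoImplicit false
open Cfsg

namespace Cfsg.Agent.S2961

open Cfsg.Agent.Lib.Helper49

/-- Let G be a finite group of characteristic p (C_G(O_p(G)) ≤ O_p(G)), p prime, T a Sylow p-subgroup of G and Q a normal subgroup of T with C_T(Q) ≤ Q. Then every subgroup L of G containing Q has characteristic p: C_L(O_p(L)) ≤ O_p(L). -/
theorem result {G : Type*} [Group G] [Finite G] {p : ℕ} [Fact p.Prime] (hG : Subgroup.centralizer (Cfsg.pCore p G : Set G) ≤ Cfsg.pCore p G) (T : Sylow p G) (Q : Subgroup G) (hQT : Q ≤ (T : Subgroup G)) (hQn : (T : Subgroup G) ≤ Subgroup.normalizer (Q : Set G)) (hC : (T : Subgroup G) ⊓ Subgroup.centralizer (Q : Set G) ≤ Q) (L : Subgroup G) (hQL : Q ≤ L) : Subgroup.centralizer (Cfsg.pCore p ↥L : Set ↥L) ≤ Cfsg.pCore p ↥L := by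
  have hCQ : Subgroup.centralizer (Q : Set G) ≤ Q := Cfsg.Agent.S2960.result hG T Q hQT hQn hC
  rw [Cfsg.Agent.Lib.Helper49.charP_iff]
  have hLC : L ≤ Subgroup.normalizer ((L ⊓ Subgroup.centralizer (Cfsg.pCoreOf p L : Set G) : Subgroup G) : Set G) :=
    le_normalizer_inf_centralizer (le_normalizer_pCoreOf p L)
  apply le_pCoreOf inf_le_left hLC
  set PL := Cfsg.pCoreOf p L with hPL
  set C := L ⊓ Subgroup.centralizer (PL : Set G) with hCdef
  set R := Cfsg.pCore p G with hR
  set B := R ⊓ Q with hB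
  have hRp : IsPGroup p R := pCore_isPGroup p G
  have hRn : R.Normal := Cfsg.pCore_normal p G
  have hRT : R ≤ (T : Subgroup G) := hRp.le_sylow_of_normal T
  have hRL : R ⊓ L ≤ PL := by
    apply le_pCoreOf inf_le_right
    · refine le_trans ?_ Subgroup.inf_normalizer_le_normalizer_inf
      exact le_inf Subgroup.le_normalizer_of_normal Subgroup.le_normalizer
    · exact hRp.to_le inf_le_left
  have hBPL : B ≤ PL := (inf_le_inf_left R hQL).trans hRL
  have hCB : C ≤ Subgroup.centralizer (B : Set G) :=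
    inf_le_right.trans (Subgroup.centralizer_le hBPL)
  have hCNB : C ≤ Subgroup.normalizer (B : Set G) := hCB.trans (Subgroup.centralizer_le_normalizer _)
  have hQK : Q ≤ stabKernel R B := by
    intro q hq
    refine mem_stabKernel.mpr ⟨?_, fun a ha => ?_⟩
    · have : Q ≤ Subgroup.normalizer (B : Set G) := by
        refine le_trans ?_ Subgroup.inf_normalizer_le_normalizer_inf
        exact le_inf Subgroup.le_normalizer_of_normal Subgroup.le_normalizer
      exact this hq
    · refine Subgroup.mem_inf.mpr ⟨?_, ?_⟩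
      · apply mul_mem (inv_mem ha)
        have := hRn.conj_mem a ha q⁻¹
        simpa using this
      · have haN : a⁻¹ ∈ Subgroup.normalizer (Q : Set G) := inv_mem (hQn (hRT ha))
        have h2 := (Subgroup.mem_normalizer_iff.mp haN q⁻¹).mp (inv_mem hq)
        rw [inv_inv] at h2
        have h3 := mul_mem h2 hq
        simpa [mul_assoc] using h3
  set E := stabKernel R B ⊓ C with hE
  have hEp : IsPGroup p E := by
    rintro ⟨y, hy⟩
    obtain ⟨hy1, hy2⟩ := Subgroup.mem_inf.mp hy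
    have h1 : ∀ a ∈ R, a⁻¹ * (y⁻¹ * a * y) ∈ B := (mem_stabKernel.mp hy1).2
    have h2 : ∀ z ∈ B, z * y = y * z := fun z hz => Subgroup.mem_centralizer_iff.mp (hCB hy2) z hz
    have h3 := pow_card_commute h1 h2
    have h4 : y ^ Nat.card B ∈ R :=
      hG (Subgroup.mem_centralizer_iff.mpr fun a ha => (h3 a ha).symm)
    obtain ⟨i, hi⟩ := IsPGroup.iff_card.mp (hRp.to_le (inf_le_left : B ≤ R))
    obtain ⟨j, hj⟩ := hRp ⟨_, h4⟩
    refine ⟨i + j, Subtype.ext ?_⟩
    have hj' : (y ^ Nat.card B) ^ p ^ j = 1 := congrArg Subtype.val hj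
    rw [hi, ← pow_mul, ← pow_add] at hj'
    simpa using hj'
  have hCE : C ≤ Subgroup.normalizer (E : Set G) := by
    rw [Subgroup.le_normalizer_iff]
    intro c hc e he
    obtain ⟨he1, he2⟩ := Subgroup.mem_inf.mp he
    exact Subgroup.mem_inf.mpr ⟨conj_mem_stabKernel he1 (hCNB hc), mul_mem (mul_mem hc he2) (inv_mem hc)⟩
  have hEPL : E ≤ PL :=
    (le_pCoreOf inf_le_right hCE hEp).trans (pCoreOf_le_pCoreOf_of_normal inf_le_left hLC)
  apply isPGroup_of_coprime_trivial
  intro x hx hxo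
  have h1 : ∀ a ∈ Q, a⁻¹ * (x⁻¹ * a * x) ∈ E := by
    intro a ha
    refine Subgroup.mem_inf.mpr ⟨?_, ?_⟩
    · apply mul_mem (inv_mem (hQK ha))
      have := conj_mem_stabKernel (hQK ha) (inv_mem (hCNB hx))
      simpa using this
    · have haN : a⁻¹ ∈ Subgroup.normalizer (C : Set G) := inv_mem (hLC (hQL ha))
      have h2 := (Subgroup.mem_normalizer_iff.mp haN x⁻¹).mp (inv_mem hx)
      rw [inv_inv] at h2
      have h3 := mul_mem h2 hx
      simpa [mul_assoc] using h3
  have h2 : ∀ z ∈ E, z * x = x * z := fun z hz =>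
    Subgroup.mem_centralizer_iff.mp (Subgroup.mem_inf.mp hx).2 z (hEPL hz)
  have h3 := commute_of_coprime hEp hxo h1 h2
  have h4 : x ∈ Q := hCQ (Subgroup.mem_centralizer_iff.mpr fun a ha => (h3 a ha).symm)
  obtain ⟨k, hk⟩ := (T.isPGroup'.to_le hQT) ⟨x, h4⟩
  have hk' : x ^ p ^ k = 1 := congrArg Subtype.val hk
  have h5 : orderOf x ∣ Nat.gcd (orderOf x) (p ^ k) :=
    Nat.dvd_gcd dvd_rfl (orderOf_dvd_of_pow_eq_one hk')
  rw [Nat.Coprime.pow_right k hxo, Nat.dvd_one, orderOf_eq_one_iff] at h5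
  exact h5

end Cfsg.Agent.S2961
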