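import Cfsg.Statements.S2963
import Mathlib.GroupTheory.Perm.MaximalSubgroups

set_option autoImplicit false
open Cfsg

namespace Cfsg.Agent.S2963

open scoped Pointwise

/-- Let n be odd. If the symmetric group of degree n is a minimal parabolic group for the prime 2, that is, a Sylow 2-subgroup is not normal and lies in exactly one maximal subgroup, then n = 2^m + 1 for some natural number m. -/
theorem result (n : ℕ) (hn : Odd n) (h : Cfsg.IsPMinimal 2 (Equiv.Perm (Fin n))) : ∃ m : ℕ, n = 2 ^ m + 1 := by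
  classical
  obtain ⟨S⟩ : Nonempty (Sylow 2 (Equiv.Perm (Fin n))) := inferInstance
  obtain ⟨hSn, M, ⟨hM1, hM2⟩, hMuniq⟩ := h S
  have hS2 : IsPGroup 2 (S : Subgroup (Equiv.Perm (Fin n))) := S.isPGroup'
  have hcard : ¬ 2 ∣ Nat.card (Fin n) := by
    rw [Nat.card_fin]
    exact hn.not_two_dvd_nat
  obtain ⟨x, hx⟩ := hS2.nonempty_fixed_point_of_prime_not_dvd_card (Fin n) hcard
  by_cases hy : ∃ y, y ≠ x
  swap
  · exfalso
    apply hSn
    push Not at hy
    have hsub : Subsingleton (Fin n) := ⟨fun a b => (hy a).trans (hy b).symm⟩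
    constructor
    intro a ha g
    have : g * a * g⁻¹ = a := Subsingleton.elim _ _
    rwa [this]
  obtain ⟨y, hyx⟩ := hy
  set Δ : Set (Fin n) := MulAction.orbit (S : Subgroup (Equiv.Perm (Fin n))) y with hΔ
  obtain ⟨m, hm⟩ := hS2.card_orbit y
  have hxΔ : x ∉ Δ := by
    rintro ⟨s, hs⟩
    apply hyx
    have h1 : s • x = x := hx s
    have h2 : s • y = s • x := by rw [h1]; exact hs
    exact MulAction.injective s h2
  have hpar : ∀ k : ℕ, Nat.card (Fin n) ≠ 2 * k := by
    intro k hk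
    exact hcard ⟨k, hk⟩
  by_cases hz : ∃ z, z ∉ Δ ∧ z ≠ x
  · exfalso
    obtain ⟨z, hzΔ, hzx⟩ := hz
    have c1 : IsCoatom (MulAction.stabilizer (Equiv.Perm (Fin n)) ({x} : Set (Fin n))) :=
      Equiv.Perm.isCoatom_stabilizer ⟨x, rfl⟩ ⟨y, by simpa using hyx⟩ (hpar _)
    have c2 : IsCoatom (MulAction.stabilizer (Equiv.Perm (Fin n)) Δ) :=
      Equiv.Perm.isCoatom_stabilizer ⟨y, MulAction.mem_orbit_self y⟩ ⟨x, hxΔ⟩ (hpar _)
    have s1 : (S : Subgroup (Equiv.Perm (Fin n))) ≤ MulAction.stabilizer (Equiv.Perm (Fin n)) ({x} : Set (Fin n)) := by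
      intro s hs
      rw [MulAction.mem_stabilizer_iff, Set.smul_set_singleton]
      congr 1
      exact hx ⟨s, hs⟩
    have s2 : (S : Subgroup (Equiv.Perm (Fin n))) ≤ MulAction.stabilizer (Equiv.Perm (Fin n)) Δ := by
      intro s hs
      rw [MulAction.mem_stabilizer_iff]
      exact MulAction.smul_orbit (⟨s, hs⟩ : (S : Subgroup (Equiv.Perm (Fin n)))) y
    have e1 := hMuniq _ ⟨c1, s1⟩
    have e2 := hMuniq _ ⟨c2, s2⟩
    have h3 : Equiv.swap x z ∈ MulAction.stabilizer (Equiv.Perm (Fin n)) Δ := by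
      rw [MulAction.mem_stabilizer_set]
      intro a
      by_cases hax : a = x
      · subst hax
        simp [hxΔ, hzΔ]
      · by_cases haz : a = z
        · subst haz
          simp [hxΔ, hzΔ]
        · rw [Equiv.Perm.smul_def, Equiv.swap_apply_of_ne_of_ne hax haz]
    rw [e2, ← e1, MulAction.mem_stabilizer_iff, Set.smul_set_singleton, Set.singleton_eq_singleton_iff,
      Equiv.Perm.smul_def, Equiv.swap_apply_left] at h3
    exact hzx h3
  · push Not at hz
    refine ⟨m, ?_⟩
    have huniv : (Set.univ : Set (Fin n)) = insert x Δ := by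
      ext a
      simp only [Set.mem_univ, Set.mem_insert_iff, true_iff]
      by_cases ha : a ∈ Δ
      · exact Or.inr ha
      · exact Or.inl (hz a ha)
    have h1 : (Set.univ : Set (Fin n)).ncard = n := by
      rw [Set.ncard_univ, Nat.card_fin]
    rw [huniv, Set.ncard_insert_of_notMem hxΔ, ← Nat.card_coe_set_eq, hm] at h1
    exact h1.symm

end Cfsg.Agent.S2963
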