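import Cfsg.Statements.S2998
import Cfsg.Agent.Lib.Helper50.SylowConj

set_option autoImplicit false
open Cfsg

namespace Cfsg.Agent.S2998

open Cfsg.Agent.Lib.Helper50
open scoped Pointwise

/-- Let G be a finite group, p a prime, P a Sylow p-subgroup of G and x ∈ P an element such that N_G(R) ≤ C_G(x) for every nontrivial subgroup R of P. Then P ≤ C_G(x); every G-conjugate of x lying in P equals x (so g ∈ C_G(x) whenever g x g⁻¹ ∈ P); and for every normal subgroup N of G, the image of x in G ⧸ N has the same property with respect to the image of P: the normalizer of every nontrivial subgroup of the image of P centralizes the image of x. -/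
theorem result {G : Type*} [Group G] [Finite G] {p : ℕ} [Fact p.Prime] (P : Sylow p G) (x : G) (hxP : x ∈ (P : Subgroup G)) (hlc : ∀ R : Subgroup G, R ≤ (P : Subgroup G) → R ≠ ⊥ → Subgroup.normalizer (R : Set G) ≤ Subgroup.centralizer ({x} : Set G)) : (P : Subgroup G) ≤ Subgroup.centralizer ({x} : Set G) ∧ (∀ g : G, g * x * g⁻¹ ∈ (P : Subgroup G) → g * x * g⁻¹ = x) ∧ ∀ (N : Subgroup G) [N.Normal], ∀ R : Subgroup (G ⧸ N), R ≤ (P : Subgroup G).map (QuotientGroup.mk' N) → R ≠ ⊥ → Subgroup.normalizer (R : Set (G ⧸ N)) ≤ Subgroup.centralizer ({(QuotientGroup.mk x : G ⧸ N)} : Set (G ⧸ N)) := by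
  have hmemC : ∀ z : G, z ∈ Subgroup.centralizer ({x} : Set G) ↔ z * x = x * z := by
    intro z
    rw [Subgroup.mem_centralizer_singleton_iff]
  have ha : (P : Subgroup G) ≤ Subgroup.centralizer ({x} : Set G) := by
    by_cases hP : (P : Subgroup G) = ⊥
    · rw [hP]; exact bot_le
    · exact Subgroup.le_normalizer.trans (hlc P le_rfl hP)
  refine ⟨ha, ?_, ?_⟩
  · intro g hg
    by_cases hx1 : x = 1
    · simp [hx1]
    set y := g * x * g⁻¹ with hy
    have hy1 : y ≠ 1 := by
      intro h
      apply hx1
      have : x = g⁻¹ * y * g := by rw [hy]; group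
      rw [this, h]; group
    have hP : (P : Subgroup G) ≠ ⊥ := by
      intro h
      rw [h, Subgroup.mem_bot] at hxP
      exact hx1 hxP
    -- C(y) ≤ C(x)
    have h1 : Subgroup.centralizer ({y} : Set G) ≤ Subgroup.centralizer ({x} : Set G) := by
      have hz : Subgroup.zpowers y ≤ (P : Subgroup G) := by
        rw [Subgroup.zpowers_le]; exact hg
      have hz1 : Subgroup.zpowers y ≠ ⊥ := by
        rw [Ne, Subgroup.zpowers_eq_bot]; exact hy1
      refine le_trans ?_ (hlc _ hz hz1)
      rw [← Subgroup.centralizer_closure, ← Subgroup.zpowers_eq_closure]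
      exact Subgroup.centralizer_le_normalizer _
    have h2 : (Subgroup.centralizer ({x} : Set G)).map (MulAut.conj g).toMonoidHom ≤
        Subgroup.centralizer ({y} : Set G) := by
      rintro _ ⟨c, hc, rfl⟩
      replace hc := (hmemC c).mp hc
      rw [Subgroup.mem_centralizer_singleton_iff]
      simp only [MulEquiv.coe_toMonoidHom, MulAut.conj_apply, hy]
      calc g * c * g⁻¹ * (g * x * g⁻¹) = g * (c * x) * g⁻¹ := by group
        _ = g * (x * c) * g⁻¹ := by rw [hc]
        _ = g * x * g⁻¹ * (g * c * g⁻¹) := by group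
    have h3 : Subgroup.centralizer ({y} : Set G) = Subgroup.centralizer ({x} : Set G) := by
      apply Subgroup.eq_of_le_of_card_ge h1
      rw [← card_map_conj _ g]
      exact Subgroup.card_le_of_le h2
    have hxC : x ∈ Subgroup.centralizer ((P : Subgroup G) : Set G) := by
      rw [Subgroup.mem_centralizer_iff]
      intro z hz
      exact (hmemC z).mp (ha hz)
    have hyC : (g⁻¹)⁻¹ * x * g⁻¹ ∈ Subgroup.centralizer ((P : Subgroup G) : Set G) := by
      rw [inv_inv, ← hy, Subgroup.mem_centralizer_iff]
      intro z hz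
      have : z ∈ Subgroup.centralizer ({y} : Set G) := by rw [h3]; exact ha hz
      rw [Subgroup.mem_centralizer_singleton_iff] at this
      exact this
    obtain ⟨n, hn, hn2⟩ := P.conj_eq_normalizer_conj_of_mem_centralizer x g⁻¹ hxC hyC
    rw [inv_inv] at hn2
    rw [hy, hn2]
    have hnC := (hmemC n).mp (hlc P le_rfl hP hn)
    rw [mul_assoc, ← hnC, ← mul_assoc, inv_mul_cancel, one_mul]
  · intro N _ R hR hR1 gb hgb
    obtain ⟨g, rfl⟩ := QuotientGroup.mk'_surjective N gb
    set π := QuotientGroup.mk' N with hπ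
    set L := R.comap π with hL
    set R0 := (P : Subgroup G) ⊓ L with hR0
    have hNL : N ≤ L := by
      intro n hn
      rw [hL, Subgroup.mem_comap]
      have : π n = 1 := (QuotientGroup.eq_one_iff n).mpr hn
      rw [this]; exact Subgroup.one_mem _
    have hR0ne : R0 ≠ ⊥ := by
      intro h
      apply hR1
      rw [eq_bot_iff]
      intro r hr
      obtain ⟨u, hu, rfl⟩ := hR hr
      have : u ∈ R0 := ⟨hu, hr⟩
      rw [h, Subgroup.mem_bot] at this
      rw [this, map_one]; exact Subgroup.one_mem _
    have hgL : L.map (MulAut.conj g).toMonoidHom ≤ L := by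
      rintro _ ⟨l, hl, rfl⟩
      rw [hL, Subgroup.mem_comap]
      simp only [MulEquiv.coe_toMonoidHom, MulAut.conj_apply, map_mul, map_inv]
      exact (Subgroup.mem_normalizer_iff.mp hgb (π l)).mp hl
    have hLM : L ≤ (P : Subgroup G) ⊔ N := by
      intro l hl
      obtain ⟨u, hu, hul⟩ := hR hl
      have : u⁻¹ * l ∈ N := by
        rw [← QuotientGroup.eq_one_iff]
        show π (u⁻¹ * l) = 1
        rw [map_mul, map_inv, hul, inv_mul_cancel]
      have h2 : l = u * (u⁻¹ * l) := by group
      rw [h2]
      exact Subgroup.mul_mem _ (Subgroup.mem_sup_left hu) (Subgroup.mem_sup_right this)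
    have hQp : IsPGroup p (R0.map (MulAut.conj g).toMonoidHom) :=
      (P.2.to_le inf_le_left).map _
    have hQL : R0.map (MulAut.conj g).toMonoidHom ≤ L :=
      (Subgroup.map_mono inf_le_right).trans hgL
    obtain ⟨h, hhM, hh⟩ := exists_map_conj_le_sylow_of_le P (M := (P : Subgroup G) ⊔ N)
      le_sup_left (hQL.trans hLM) hQp
    -- h = u * n
    have hhM' : h ∈ ((P : Subgroup G) : Set G) * (N : Set G) := by
      rw [← Subgroup.mul_normal]; exact hhM
    obtain ⟨u, hu, n, hn, rfl⟩ := hhM'
    have hng : n * g ∈ Subgroup.normalizer (R0 : Set G) := by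
      apply mem_normalizer_of_map_conj_le
      rintro _ ⟨r, hr, rfl⟩
      simp only [MulEquiv.coe_toMonoidHom, MulAut.conj_apply]
      have hgr : g * r * g⁻¹ ∈ R0.map (MulAut.conj g).toMonoidHom := conj_mem_map_conj hr
      constructor
      · have h1 : (u * n) * (g * r * g⁻¹) * (u * n)⁻¹ ∈ (P : Subgroup G) :=
          hh (conj_mem_map_conj hgr)
        have h2 : n * g * r * (n * g)⁻¹ = u⁻¹ * ((u * n) * (g * r * g⁻¹) * (u * n)⁻¹) * u := by
          group
        rw [h2]
        exact Subgroup.mul_mem _ (Subgroup.mul_mem _ (Subgroup.inv_mem _ hu) h1) hu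
      · have h2 : n * g * r * (n * g)⁻¹ = n * (g * r * g⁻¹) * n⁻¹ := by group
        rw [h2]
        exact Subgroup.mul_mem _ (Subgroup.mul_mem _ (hNL hn) (hQL hgr))
          (Subgroup.inv_mem _ (hNL hn))
    have hc := (hmemC _).mp (hlc R0 inf_le_left hR0ne hng)
    rw [Subgroup.mem_centralizer_singleton_iff]
    have hπn : π n = 1 := (QuotientGroup.eq_one_iff n).mpr hn
    have := congrArg π hc
    rw [map_mul, map_mul, map_mul, map_mul, hπn, one_mul] at this
    exact this

end Cfsg.Agent.S2998
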