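import Cfsg.Statements.S3003
import Cfsg.Agent.S1324

set_option autoImplicit false
open Cfsg

namespace Cfsg.Agent.S3003


theorem isCoatom_of_index_prime {G : Type*} [Group G] {H : Subgroup G} (h : H.index.Prime) :
    IsCoatom H := by
  constructor
  · rintro rfl
    rw [Subgroup.index_top] at h
    exact Nat.not_prime_one h
  · intro K hK
    have h1 : H.relIndex K * K.index = H.index := Subgroup.relIndex_mul_index hK.le
    rcases (Nat.dvd_prime h).mp (Dvd.intro_left _ h1) with h2 | h2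
    · exact Subgroup.index_eq_one.mp h2
    · exfalso
      rw [h2] at h1
      have h3 : H.relIndex K = 1 := by
        have hpos : 0 < H.index := h.pos
        exact Nat.eq_of_mul_eq_mul_right hpos (by rw [h1, one_mul])
      exact absurd (Subgroup.relIndex_eq_one.mp h3) (not_le_of_gt hK)

theorem part1 {G : Type*} [Group G] [Finite G] {p : ℕ} [Fact p.Prime] (Q : Subgroup G)
    (hQp : IsPGroup p ↥Q) (hlarge : Cfsg.IsLarge Q) (G₁ : Subgroup G) (hQG : Q ≤ G₁)
    (R : Subgroup G) (hR : (Nat.card ↥R).Coprime p)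
    (hGR : G₁ ≤ Subgroup.normalizer (R : Set G)) (x : G) (hx1 : x ≠ 1) (g : G) (hg : g ∈ G₁)
    (hz : g * x * g⁻¹ ∈ Q ⊓ Subgroup.centralizer (Q : Set G)) (r : G) (hr : r ∈ R)
    (hrx : r * x = x * r) : r = 1 := by
  have hRQ : R ⊓ Q = ⊥ := by
    obtain ⟨n, hn⟩ := hQp.exists_card_eq
    apply Subgroup.inf_eq_bot_of_coprime
    rw [hn]
    exact Nat.Coprime.pow_right n hR
  set z := g * x * g⁻¹ with hzdef
  set e := g * r * g⁻¹ with hedef
  have he : e ∈ R := (Subgroup.mem_normalizer_iff.mp (hGR hg) r).mp hr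
  have hez : e * z = z * e := by
    rw [hedef, hzdef]
    calc g * r * g⁻¹ * (g * x * g⁻¹) = g * (r * x) * g⁻¹ := by group
      _ = g * (x * r) * g⁻¹ := by rw [hrx]
      _ = g * x * g⁻¹ * (g * r * g⁻¹) := by group
  have hz1 : z ≠ 1 := by
    intro h
    apply hx1
    have : x = g⁻¹ * z * g := by rw [hzdef]; group
    rw [this, h]; group
  have heN : e ∈ Subgroup.normalizer (Q : Set G) := by
    have h1 : Subgroup.zpowers z ≤ Subgroup.centralizer (Q : Set G) := by
      rw [Subgroup.zpowers_le]; exact hz.2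
    have h2 : Subgroup.zpowers z ≠ ⊥ := by
      rw [Ne, Subgroup.zpowers_eq_bot]; exact hz1
    apply hlarge.2 _ h1 h2
    apply Subgroup.centralizer_le_normalizer
    rw [Subgroup.zpowers_eq_closure, Subgroup.centralizer_closure,
      Subgroup.mem_centralizer_singleton_iff]
    exact hez
  have heC : e ∈ Subgroup.centralizer (Q : Set G) := by
    rw [Subgroup.mem_centralizer_iff]
    intro q hq
    have h1 : e * q * e⁻¹ * q⁻¹ ∈ Q :=
      Q.mul_mem ((Subgroup.mem_normalizer_iff.mp heN q).mp hq) (Q.inv_mem hq)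
    have h2 : e * q * e⁻¹ * q⁻¹ ∈ R := by
      have : e * q * e⁻¹ * q⁻¹ = e * (q * e⁻¹ * q⁻¹) := by group
      rw [this]
      exact R.mul_mem he ((Subgroup.mem_normalizer_iff.mp (hGR (hQG hq)) e⁻¹).mp (R.inv_mem he))
    have h3 : e * q * e⁻¹ * q⁻¹ ∈ R ⊓ Q := ⟨h2, h1⟩
    rw [hRQ, Subgroup.mem_bot] at h3
    have h4 : e * q = q * e := by
      calc e * q = (e * q * e⁻¹ * q⁻¹) * (q * e) := by group
        _ = q * e := by rw [h3, one_mul]
    exact h4.symm
  have he1 : e ∈ R ⊓ Q := ⟨he, hlarge.1 heC⟩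
  rw [hRQ, Subgroup.mem_bot] at he1
  have : r = g⁻¹ * e * g := by rw [hedef]; group
  rw [this, he1]; group

/-- Let G be a finite group, p a prime and Q a large p-subgroup of G: C_G(Q) ≤ Q and N_G(U) ≤ N_G(Q) for every nontrivial subgroup U of C_G(Q). Let Q ≤ G₁ ≤ G, let R be a subgroup of order prime to p normalized by G₁, and let U ≤ G₁ be a p-subgroup. If U contains a nontrivial element which is G₁-conjugate to an element of Z(Q), then C_R(U) = 1. In particular, if U is elementary abelian of order at least p² and every maximal subgroup of U contains a nontrivial element G₁-conjugate into Z(Q), then R = 1. -/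
theorem result {G : Type*} [Group G] [Finite G] {p : ℕ} [Fact p.Prime] (Q : Subgroup G) (hQp : IsPGroup p ↥Q) (hlarge : Cfsg.IsLarge Q) (G₁ : Subgroup G) (hQG : Q ≤ G₁) (R : Subgroup G) (hR : (Nat.card ↥R).Coprime p) (hGR : G₁ ≤ Subgroup.normalizer (R : Set G)) (U : Subgroup G) (hUG : U ≤ G₁) (hUp : IsPGroup p ↥U) : ((∃ x ∈ U, x ≠ 1 ∧ ∃ g ∈ G₁, g * x * g⁻¹ ∈ Q ⊓ Subgroup.centralizer (Q : Set G)) → R ⊓ Subgroup.centralizer (U : Set G) = ⊥) ∧ (Cfsg.IsElementaryAbelian p U → p ^ 2 ≤ Nat.card ↥U → (∀ U₀ : Subgroup G, U₀ ≤ U → IsCoatom (U₀.subgroupOf U) → ∃ x ∈ U₀, x ≠ 1 ∧ ∃ g ∈ G₁, g * x * g⁻¹ ∈ Q ⊓ Subgroup.centralizer (Q : Set G)) → R = ⊥) := by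
  have hp : p.Prime := Fact.out
  have key : ∀ B : Subgroup G, (∃ x ∈ B, x ≠ 1 ∧ ∃ g ∈ G₁, g * x * g⁻¹ ∈
      Q ⊓ Subgroup.centralizer (Q : Set G)) → R ⊓ Subgroup.centralizer (B : Set G) = ⊥ := by
    rintro B ⟨x, hxB, hx1, g, hg, hz⟩
    rw [eq_bot_iff]
    rintro r ⟨hr, hrC⟩
    rw [Subgroup.mem_bot]
    apply part1 Q hQp hlarge G₁ hQG R hR hGR x hx1 g hg hz r hr
    exact ((Subgroup.mem_centralizer_iff.mp hrC) x hxB).symm
  refine ⟨key U, ?_⟩
  intro hUe hU2 hall
  have hRp : ¬ p ∣ Nat.card ↥R := by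
    intro hd
    have := Nat.Coprime.eq_one_of_dvd hR.symm hd
    exact hp.one_lt.ne' this
  rw [Cfsg.Agent.S1324.result p U R hUe hU2 hRp (hUG.trans hGR)]
  rw [iSup_eq_bot]
  rintro ⟨B, hBU, hBi⟩
  apply key
  show ∃ x ∈ B, _
  obtain ⟨n, hn⟩ := hUp.exists_card_eq
  have hdvd : (B.subgroupOf U).index ∣ p ^ n := hn ▸ Subgroup.index_dvd_card _
  obtain ⟨k, _, hk⟩ := (Nat.dvd_prime_pow hp).mp hdvd
  have hBi' : (B.subgroupOf U).index ≤ p := hBi
  have hk1 : k ≤ 1 := by
    rw [hk] at hBi'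
    by_contra hcon
    push Not at hcon
    have : p ^ 2 ≤ p ^ k := Nat.pow_le_pow_right hp.pos hcon
    have h2 : p < p ^ 2 := by
      rw [pow_two]; nlinarith [hp.one_lt]
    omega
  interval_cases k
  · -- B = U
    rw [pow_zero, Subgroup.index_eq_one, Subgroup.subgroupOf_eq_top] at hk
    have hnt : (⊥ : Subgroup U) ≠ ⊤ := by
      intro h
      have h1 : Nat.card U = 1 := by
        rw [← Subgroup.card_top (G := U), ← h, Subgroup.card_bot]
      rw [h1] at hU2
      have : 1 < p ^ 2 := Nat.one_lt_pow (by norm_num) hp.one_lt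
      omega
    obtain ⟨M, hM, _⟩ := (eq_top_or_exists_le_coatom (⊥ : Subgroup U)).resolve_left hnt
    have hMU : M.map U.subtype ≤ U := Subgroup.map_subtype_le M
    have hMM : (M.map U.subtype).subgroupOf U = M :=
      Subgroup.comap_map_eq_self_of_injective U.subtype_injective M
    obtain ⟨x, hx, hx1, hrest⟩ := hall (M.map U.subtype) hMU (by rw [hMM]; exact hM)
    exact ⟨x, hk (hMU hx), hx1, hrest⟩
  · rw [pow_one] at hk
    exact hall B hBU (isCoatom_of_index_prime (by rw [hk]; exact hp))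

end Cfsg.Agent.S3003
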