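import Cfsg.Statements.S3006
import Cfsg.Agent.Lib.Helper50.CentrallyLarge2

set_option autoImplicit false
open scoped Pointwise
open Cfsg

namespace Cfsg.Agent.S3006

open Cfsg.Agent.Lib.Helper50

/-- Let P be a finite p-group, Q a centrally large subgroup of P (|Q|·|Z(Q)| maximal among subgroups of P) and A an abelian subgroup of P of largest order. Then QA = AQ is a centrally large subgroup of P, C_{QA}(Q ∩ A) = Z(Q)·A, and the subgroup generated by all centrally large subgroups of P contains C_P(Z(J(P))), where J(P) is generated by the abelian subgroups of largest order. -/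
theorem result {p : ℕ} [Fact p.Prime] (P : Type*) [Group P] [Finite P] (hP : IsPGroup p P) (Q A : Subgroup P) (hQ : Cfsg.IsCentrallyLarge Q) (hA : A ∈ Cfsg.maxAbelianSubgroups P) : ((Q ⊔ A : Subgroup P) : Set P) = (Q : Set P) * (A : Set P) ∧ Cfsg.IsCentrallyLarge (Q ⊔ A) ∧ (Q ⊔ A) ⊓ Subgroup.centralizer ((Q ⊓ A : Subgroup P) : Set P) = (Q ⊓ Subgroup.centralizer (Q : Set P)) ⊔ A ∧ (((Q ⊓ Subgroup.centralizer (Q : Set P)) ⊔ A : Subgroup P) : Set P) = ((Q ⊓ Subgroup.centralizer (Q : Set P)) : Set P) * (A : Set P) ∧ Subgroup.centralizer ((Cfsg.thompsonSubgroupA P ⊓ Subgroup.centralizer (Cfsg.thompsonSubgroupA P : Set P) : Subgroup P) : Set P) ≤ Cfsg.centrallyLargeJoin P := by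
  obtain ⟨h1, h2, -⟩ := cl_maxAbelian_main hQ hA
  have hZQ := cl_centralizer_le hQ
  have hCA := maxAbelian_centralizer_eq hA
  have h3 : (Q ⊔ A) ⊓ Subgroup.centralizer ((Q ⊓ A : Subgroup P) : Set P) =
      Subgroup.centralizer (Q : Set P) ⊔ A := by
    apply le_antisymm
    · intro x hx
      exact mul_set_subset_sup _ _ (cl_maxAbelian_centralizer hQ hA x hx)
    · apply sup_le
      · exact le_inf (hZQ.trans le_sup_left) (Subgroup.centralizer_le inf_le_left)
      · exact le_inf le_sup_right (hCA.ge.trans (Subgroup.centralizer_le inf_le_right))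
  have hset : ((Q : Set P) ⊓ (Subgroup.centralizer (Q : Set P) : Set P)) =
      (Subgroup.centralizer (Q : Set P) : Set P) := inf_eq_right.2 hZQ
  rw [inf_eq_right.2 hZQ, hset]
  refine ⟨h1, h2, h3, ?_, ?_⟩
  · apply Set.Subset.antisymm
    · intro x hx
      have hx' : x ∈ Subgroup.centralizer (Q : Set P) ⊔ A := hx
      rw [← h3] at hx'
      exact cl_maxAbelian_centralizer hQ hA x hx'
    · exact mul_set_subset_sup _ _
  · apply thompsonA_le_of_cl_max isCentrallyLarge_centrallyLargeJoin
    apply sSup_le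
    intro A' hA'
    have h4 := (cl_maxAbelian_main (isCentrallyLarge_centrallyLargeJoin (G := P)) hA').2.1
    exact le_sup_right.trans (le_sSup h4)

end Cfsg.Agent.S3006
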