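import Cfsg.Statements.S3011
import Cfsg.Agent.S0199
import Cfsg.Agent.Lib.Lead.Cores
import Cfsg.Agent.Lib.Helper50.Basic

set_option autoImplicit false
open Cfsg

namespace Cfsg.Agent.S3011

open Cfsg.Agent.Lib.Lead

theorem eq_one_of_odd_of_sq {G : Type*} [Group G] {h : G} (ho : Odd (orderOf h))
    (h2 : h ^ 2 = 1) : h = 1 := by
  have h1 : orderOf h ∣ 2 := orderOf_dvd_of_pow_eq_one h2
  have : orderOf h = 1 := by
    rcases (Nat.dvd_prime Nat.prime_two).mp h1 with h | h
    · exact h
    · rw [h] at ho; exact absurd ho (by decide)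
  exact orderOf_eq_one_iff.mp this

theorem eq_one_of_eq_inv {G : Type*} [Group G] {h : G} (ho : Odd (orderOf h))
    (h2 : h⁻¹ = h) : h = 1 := by
  apply eq_one_of_odd_of_sq ho
  rw [pow_two]
  nth_rewrite 1 [← h2]
  exact inv_mul_cancel h

theorem semiconj_unique {G : Type*} [Group G] {w x y z : G} (h1 : SemiconjBy w x y)
    (h2 : SemiconjBy w x z) : y = z := by
  have : y * w = z * w := by rw [← h1.eq, ← h2.eq]
  exact mul_right_cancel this

theorem semiconj_iff {G : Type*} [Group G] {a x y : G} :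
    SemiconjBy a x y ↔ a * x * a⁻¹ = y := by
  rw [SemiconjBy, mul_inv_eq_iff_eq_mul]

theorem eq_one_of_inv_of_comm {G : Type*} [Group G] {v h : G} (ho : Odd (orderOf h))
    (hi : SemiconjBy v h h⁻¹) (hc : SemiconjBy v h h) : h = 1 :=
  eq_one_of_eq_inv ho (semiconj_unique hi hc)

theorem commute_of_sq {G : Type*} [Group G] {u h : G} (ho : Odd (orderOf u))
    (hc : Commute (u ^ 2) h) : Commute u h := by
  have hcop : Nat.Coprime 2 (orderOf u) := Nat.coprime_two_left.mpr ho
  obtain ⟨m, hm⟩ := exists_pow_eq_self_of_coprime hcop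
  rw [← hm]
  exact hc.pow_left m

/-- an element of odd order cannot invert a nontrivial element of odd order. -/
theorem eq_one_of_odd_inverts {G : Type*} [Group G] {u h : G} (hu : Odd (orderOf u))
    (ho : Odd (orderOf h)) (hi : SemiconjBy u h h⁻¹) : h = 1 := by
  have h2 : SemiconjBy (u * u) h h := by
    have := hi.inv_right
    rw [inv_inv] at this
    exact this.mul_left hi
  have h3 : Commute u h := commute_of_sq hu (by rw [pow_two]; exact h2)
  exact eq_one_of_inv_of_comm ho hi h3

theorem core {G : Type*} [Group G] [Finite G] (V : Subgroup G) (hS : Cfsg.IsSidkiPair V)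
    (a b h k : G) (haV : a ∈ V) (hbV : b ∈ V)
    (hlist : ∀ w ∈ V, w = 1 ∨ w = a ∨ w = b ∨ w = a * b)
    (hh : Odd (orderOf h)) (hk : Odd (orderOf k)) (hh1 : h ≠ 1) (hk1 : k ≠ 1)
    (sah : SemiconjBy a h h⁻¹) (sbh : SemiconjBy b h h) (sak : SemiconjBy a k k)
    (sbk : SemiconjBy b k k⁻¹) : False := by
  -- step 1 : h and k commute
  have hcomm : Commute k h := by
    set y := k⁻¹ * h * k with hy
    have hyo : orderOf y = orderOf h := by
      have := (MulAut.conj k⁻¹).orderOf_eq h
      simpa [hy] using this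
    have hy1 : y ≠ 1 := by
      intro e
      apply hh1
      rw [← orderOf_eq_one_iff, ← hyo, e, orderOf_one]
    have say : SemiconjBy a y (k⁻¹ * h⁻¹ * k) := (sak.inv_right.mul_right sah).mul_right sak
    have sby : SemiconjBy b y (k⁻¹⁻¹ * h * k⁻¹) := (sbk.inv_right.mul_right sbh).mul_right sbk
    have saby : SemiconjBy (a * b) y (k⁻¹⁻¹ * h⁻¹ * k⁻¹) :=
      ((sak.inv_right.inv_right.mul_right sah).mul_right sak.inv_right).mul_left sby
    have hyinv : k⁻¹ * h⁻¹ * k = y⁻¹ := by rw [hy]; group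
    obtain ⟨w, hwV, hw1, hwy⟩ := hS y a haV (by rw [hyo]; exact hh)
      (by rw [← hyinv]; exact semiconj_iff.mp say)
    have swy : SemiconjBy w y y := hwy
    rcases hlist w hwV with rfl | rfl | rfl | rfl
    · exact absurd rfl hw1
    · exact absurd (eq_one_of_inv_of_comm (by rw [hyo]; exact hh) (hyinv ▸ say) swy) hy1
    · have e : k⁻¹⁻¹ * h * k⁻¹ = k⁻¹ * h * k := semiconj_unique sby swy
      rw [inv_inv] at e
      apply commute_of_sq hk
      show k ^ 2 * h = h * k ^ 2
      rw [pow_two]
      calc k * k * h = k * (k * h * k⁻¹) * k := by group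
        _ = k * (k⁻¹ * h * k) * k := by rw [e]
        _ = h * (k * k) := by group
    · have e : k⁻¹⁻¹ * h⁻¹ * k⁻¹ = k⁻¹ * h * k := semiconj_unique saby swy
      rw [inv_inv] at e
      exfalso
      apply hh1
      have hk2 : Odd (orderOf (k ^ 2)) := Odd.of_dvd_nat hk (orderOf_pow_dvd 2)
      apply eq_one_of_odd_inverts hk2 hh
      show k ^ 2 * h = h⁻¹ * k ^ 2
      have e2 : k * h * k⁻¹ = k⁻¹ * h⁻¹ * k := by
        have := congrArg (fun t => t⁻¹) e
        simp only [mul_inv_rev, inv_inv] at this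
        rw [← mul_assoc, ← mul_assoc] at this
        exact this
      rw [pow_two]
      calc k * k * h = k * (k * h * k⁻¹) * k := by group
        _ = k * (k⁻¹ * h⁻¹ * k) * k := by rw [e2]
        _ = h⁻¹ * (k * k) := by group
  -- step 2
  have hzo : Odd (orderOf (h * k)) :=
    Odd.of_dvd_nat (hh.mul hk) hcomm.symm.orderOf_mul_dvd_mul_orderOf
  have saz : SemiconjBy a (h * k) (h⁻¹ * k) := sah.mul_right sak
  have sbz : SemiconjBy b (h * k) (h * k⁻¹) := sbh.mul_right sbk
  have sabz : SemiconjBy (a * b) (h * k) (h⁻¹ * k⁻¹) :=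
    (sah.mul_right sak.inv_right).mul_left sbz
  have hzinv : h⁻¹ * k⁻¹ = (h * k)⁻¹ := by
    rw [mul_inv_rev]; exact (hcomm.inv_inv).symm.eq
  obtain ⟨w, hwV, hw1, hwz⟩ := hS (h * k) (a * b) (V.mul_mem haV hbV) hzo
    (by rw [← hzinv]; exact semiconj_iff.mp sabz)
  have swz : SemiconjBy w (h * k) (h * k) := hwz
  rcases hlist w hwV with rfl | rfl | rfl | rfl
  · exact hw1 rfl
  · have e : h⁻¹ * k = h * k := semiconj_unique saz swz
    exact hh1 (eq_one_of_eq_inv hh (mul_right_cancel e))
  · have e : h * k⁻¹ = h * k := semiconj_unique sbz swz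
    exact hk1 (eq_one_of_eq_inv hk (mul_left_cancel e))
  · have e : h * k = 1 := eq_one_of_inv_of_comm hzo (hzinv ▸ sabz) swz
    have hk' : k = h⁻¹ := (eq_inv_of_mul_eq_one_right e)
    apply hh1
    apply eq_one_of_inv_of_comm hh sah
    have := sak.inv_right
    rw [hk', inv_inv] at this
    exact this

/-- Baer–Suzuki for an involution: if `v` is an involution outside `O₂(G)`, it inverts a nontrivial element
of odd order. -/
theorem exists_inverted {G : Type*} [Group G] [Finite G] (v : G) (hv2 : v ^ 2 = 1)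
    (hv : v ∉ Cfsg.pCore 2 G) : ∃ h : G, h ≠ 1 ∧ Odd (orderOf h) ∧ v * h * v⁻¹ = h⁻¹ := by
  by_contra hcon
  push Not at hcon
  apply hv
  have : Fact (Nat.Prime 2) := ⟨Nat.prime_two⟩
  have hvinv : v⁻¹ = v := by
    rw [inv_eq_iff_mul_eq_one, ← pow_two]; exact hv2
  have hvv : v * v = 1 := by rw [← pow_two]; exact hv2
  have hX : IsPGroup 2 (Subgroup.zpowers v) := by
    intro ⟨x, hx⟩
    obtain ⟨n, rfl⟩ := Subgroup.mem_zpowers_iff.mp hx
    refine ⟨1, ?_⟩
    apply Subtype.ext
    simp only [pow_one, Subgroup.coe_pow, Subgroup.coe_one]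
    rw [← zpow_natCast, ← zpow_mul, mul_comm, zpow_mul, zpow_natCast, hv2, one_zpow]
  have hall : ∀ g : G, IsPGroup 2
      ↥(Subgroup.zpowers v ⊔ (Subgroup.zpowers v).map (MulAut.conj g).toMonoidHom) := by
    intro g
    set t := g * v * g⁻¹ with ht
    have htt : t * t = 1 := by
      rw [ht]
      calc g * v * g⁻¹ * (g * v * g⁻¹) = g * (v * v) * g⁻¹ := by group
        _ = 1 := by rw [hvv]; group
    have htinv : t⁻¹ = t := inv_eq_of_mul_eq_one_right htt
    set y := v * t with hy
    have hyinv : v * y * v⁻¹ = y⁻¹ := by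
      rw [hy, mul_inv_rev, htinv, hvinv]
      calc v * (v * t) * v = (v * v) * t * v := by group
        _ = t * v := by rw [hvv, one_mul]
    obtain ⟨m, r, hr, hn⟩ := Nat.exists_eq_two_pow_mul_odd (orderOf_pos y).ne'
    have hy1ord : orderOf (y ^ (2 ^ m)) = r := by
      rw [orderOf_pow_of_dvd (by positivity) (by rw [hn]; exact Dvd.intro _ rfl), hn]
      exact Nat.mul_div_cancel_left _ (by positivity)
    have hy1inv : v * (y ^ (2 ^ m)) * v⁻¹ = (y ^ (2 ^ m))⁻¹ := by
      rw [← conj_pow, hyinv, inv_pow]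
    have hy1 : y ^ (2 ^ m) = 1 := by
      by_contra hne
      exact hcon _ hne (by rw [hy1ord]; exact hr) hy1inv
    have hK : IsPGroup 2 (Subgroup.zpowers y) := by
      apply IsPGroup.of_card (n := m)
      rw [Nat.card_zpowers]
      have : r = 1 := by rw [← hy1ord, hy1, orderOf_one]
      rw [hn, this, mul_one]
    have hnorm : Subgroup.zpowers v ≤ Subgroup.normalizer (Subgroup.zpowers y : Set G) := by
      rw [Subgroup.zpowers_le]
      apply Cfsg.Agent.Lib.Helper50.mem_normalizer_of_map_conj_le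
      rintro _ ⟨x, hx, rfl⟩
      obtain ⟨n, rfl⟩ := Subgroup.mem_zpowers_iff.mp hx
      show v * y ^ n * v⁻¹ ∈ Subgroup.zpowers y
      rw [← conj_zpow, hyinv]
      exact Subgroup.zpow_mem _ (Subgroup.inv_mem _ (Subgroup.mem_zpowers y)) n
    have hsup : IsPGroup 2 ↥(Subgroup.zpowers v ⊔ Subgroup.zpowers y) :=
      IsPGroup.to_sup_of_normal_right' hX hK hnorm
    apply hsup.to_le
    rw [sup_le_iff]
    refine ⟨le_sup_left, ?_⟩
    rw [MonoidHom.map_zpowers, Subgroup.zpowers_le]
    show g * v * g⁻¹ ∈ _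
    have : g * v * g⁻¹ = v⁻¹ * y := by rw [hy, ← ht]; group
    rw [this]
    exact Subgroup.mul_mem _ (Subgroup.inv_mem _ (Subgroup.mem_sup_left (Subgroup.mem_zpowers v)))
      (Subgroup.mem_sup_right (Subgroup.mem_zpowers y))
  obtain ⟨N, hN, hNp, hXN⟩ := Cfsg.Agent.S0199.result (Subgroup.zpowers v) hX hall
  exact le_pCore hN hNp (hXN (Subgroup.mem_zpowers v))

/-- Let G be a finite group and V a nontrivial elementary abelian 2-subgroup of G of order at most 4 such that, whenever an element of V inverts an element h of G of odd order, some nontrivial element of V commutes with h. Then V meets O₂(G) nontrivially. (The case of order at most 4 has a short argument from the Baer–Suzuki theorem.) -/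
theorem result {G : Type*} [Group G] [Finite G] (V : Subgroup G) (hV : Cfsg.IsElementaryAbelian 2 V) (hV1 : V ≠ ⊥) (hS : Cfsg.IsSidkiPair V) (h4 : Nat.card V ≤ 4) : V ⊓ Cfsg.pCore 2 G ≠ ⊥ := by
  intro hbot
  have key : ∀ v ∈ V, v ≠ 1 → ∃ h : G, h ≠ 1 ∧ Odd (orderOf h) ∧ v * h * v⁻¹ = h⁻¹ := by
    intro v hv hv1
    apply exists_inverted v (hV.2 v hv)
    intro hvc
    have : v ∈ V ⊓ Cfsg.pCore 2 G := ⟨hv, hvc⟩
    rw [hbot, Subgroup.mem_bot] at this
    exact hv1 this
  obtain ⟨a, haV, ha1⟩ : ∃ a ∈ V, a ≠ 1 := by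
    by_contra hcon
    push Not at hcon
    exact hV1 ((Subgroup.eq_bot_iff_forall V).mpr hcon)
  obtain ⟨h, hh1, hho, hah⟩ := key a haV ha1
  obtain ⟨b, hbV, hb1, hbh⟩ := hS h a haV hho hah
  have sah : SemiconjBy a h h⁻¹ := semiconj_iff.mpr hah
  have sbh : SemiconjBy b h h := hbh
  have hab : a ≠ b := by
    rintro rfl
    exact hh1 (eq_one_of_inv_of_comm hho sah sbh)
  have hbb : b * b = 1 := by rw [← pow_two]; exact hV.2 b hbV
  have hlist : ∀ w ∈ V, w = 1 ∨ w = a ∨ w = b ∨ w = a * b := by
    classical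
    have hcard : ({1, a, b, a * b} : Finset G).card = 4 := by
      rw [Finset.card_insert_of_notMem, Finset.card_insert_of_notMem,
        Finset.card_insert_of_notMem, Finset.card_singleton]
      · simp only [Finset.mem_singleton]
        intro e
        exact ha1 (by simpa using e.symm)
      · simp only [Finset.mem_insert, Finset.mem_singleton, not_or]
        refine ⟨hab, ?_⟩
        intro e
        exact hb1 (by simpa using e.symm)
      · simp only [Finset.mem_insert, Finset.mem_singleton, not_or]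
        refine ⟨ha1.symm, hb1.symm, ?_⟩
        intro e
        apply hab
        calc a = a * (b * b) := by rw [hbb, mul_one]
          _ = (a * b) * b := by group
          _ = b := by rw [← e, one_mul]
    have hsub : (({1, a, b, a * b} : Finset G) : Set G) ⊆ (V : Set G) := by
      intro x hx
      simp only [Finset.coe_insert, Finset.coe_singleton, Set.mem_insert_iff,
        Set.mem_singleton_iff] at hx
      rcases hx with rfl | rfl | rfl | rfl
      · exact V.one_mem
      · exact haV
      · exact hbV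
      · exact V.mul_mem haV hbV
    have heq : (({1, a, b, a * b} : Finset G) : Set G) = (V : Set G) := by
      apply Set.eq_of_subset_of_ncard_le hsub _ (Set.toFinite _)
      rw [Set.ncard_coe_finset, hcard]
      exact h4
    intro w hw
    have : w ∈ (({1, a, b, a * b} : Finset G) : Set G) := by rw [heq]; exact hw
    simpa using this
  obtain ⟨k, hk1, hko, hbk⟩ := key b hbV hb1
  obtain ⟨w, hwV, hw1, hwk⟩ := hS k b hbV hko hbk
  have sbk : SemiconjBy b k k⁻¹ := semiconj_iff.mpr hbk
  have swk : SemiconjBy w k k := hwk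
  rcases hlist w hwV with rfl | rfl | rfl | rfl
  · exact hw1 rfl
  · exact core V hS w b h k haV hbV hlist hho hko hh1 hk1 sah sbh swk sbk
  · exact hk1 (eq_one_of_inv_of_comm hko sbk swk)
  · refine core V hS (a * b) b h k hwV hbV ?_ hho hko hh1 hk1 (sah.mul_left sbh) sbh swk sbk
    intro w hw
    have e : a * b * b = a := by rw [mul_assoc, hbb, mul_one]
    rw [e]
    rcases hlist w hw with h | h | h | h
    · exact Or.inl h
    · exact Or.inr (Or.inr (Or.inr h))
    · exact Or.inr (Or.inr (Or.inl h))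
    · exact Or.inr (Or.inl h)

end Cfsg.Agent.S3011
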