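import Cfsg.Statements.S3014
import Cfsg.Agent.Lib.Helper98.Transfer
import Cfsg.Agent.Lib.Helper98.Basic

set_option autoImplicit false
open Cfsg

namespace Cfsg.Agent.S3014

open Subgroup Cfsg.Agent.Lib.Helper98

/-- Let G be a finite group and H ≤ M ≤ G subgroups such that for every g ∈ G the subgroup generated by H and g H g⁻¹ meets M exactly in H. If H is a maximal subgroup of M and M is a maximal subgroup of G, then the normal closure of H in G meets M exactly in H. -/
theorem result {G : Type*} [Group G] [Finite G] (H M : Subgroup G) (hHM : H ≤ M) (hcl : ∀ g : G, (H ⊔ H.map (MulAut.conj g).toMonoidHom) ⊓ M = H) (hmaxH : IsCoatom (H.subgroupOf M)) (hmaxM : IsCoatom M) : Subgroup.normalClosure (H : Set G) ⊓ M = H := by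
  classical
  obtain ⟨hne, hmax⟩ := (isCoatom_subgroupOf_iff hHM).mp hmaxH
  refine le_antisymm ?_ (le_inf le_normalClosure hHM)
  -- `H` is normal in `M`
  have hHn : (H.subgroupOf M).Normal := by
    rw [Subgroup.normal_subgroupOf_iff_le_normalizer hHM]
    intro g hg
    apply mem_normalizer_iff_map_conj_eq.mpr
    have h1 : H.map (MulAut.conj g).toMonoidHom ≤ M := by
      rintro _ ⟨h, hh, rfl⟩
      exact M.mul_mem (M.mul_mem hg (hHM hh)) (M.inv_mem hg)
    have h2 := hcl g
    rw [inf_eq_left.mpr (sup_le hHM h1)] at h2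
    have h3 : H.map (MulAut.conj g).toMonoidHom ≤ H := by
      conv_rhs => rw [← h2]
      exact le_sup_right
    apply Subgroup.eq_of_le_of_card_ge h3
    rw [Subgroup.card_map_of_injective (MulAut.conj g).injective]
  have hgen : ∀ x ∈ M, x ∉ H → M ≤ H ⊔ zpowers x := by
    intro x hxM hxH
    rcases hmax (H ⊔ zpowers x) le_sup_left (sup_le hHM (zpowers_le.mpr hxM)) with h | h
    · exfalso
      apply hxH
      rw [← h]
      exact le_sup_right (a := H) (mem_zpowers x)
    · exact h.ge
  have hnM : ¬ M ≤ H := fun h => hne (le_antisymm hHM h)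
  obtain ⟨x₁, hx₁M, hx₁H⟩ := SetLike.not_le_iff_exists.mp hnM
  by_cases hA : ∃ g : G, g ∉ M ∧ ∃ x ∈ M, x ∈ M.map (MulAut.conj g).toMonoidHom ∧
      x ∉ H.map (MulAut.conj g).toMonoidHom
  · obtain ⟨g, hgM, x, hxM, hxMg, hxHg⟩ := hA
    set K := H ⊔ H.map (MulAut.conj g).toMonoidHom with hK
    obtain ⟨z, hzM, hzx⟩ := hxMg
    have hzH : z ∉ H := fun h => hxHg ⟨z, h, hzx⟩
    have h2 : M.map (MulAut.conj g).toMonoidHom ≤ K ⊔ zpowers x := by
      have h3 := Subgroup.map_mono (f := (MulAut.conj g).toMonoidHom) (hgen z hzM hzH)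
      rw [Subgroup.map_sup, MonoidHom.map_zpowers, hzx] at h3
      exact h3.trans (sup_le_sup_right le_sup_right _)
    have hmaxMg : IsCoatom (M.map (MulAut.conj g).toMonoidHom) := by
      have := (MulEquiv.mapSubgroup (MulAut.conj g)).isCoatom_iff (a := M)
      exact this.mpr hmaxM
    rcases hmaxMg.le_iff.mp h2 with h | h
    · have hKn : K.Normal := normal_sup_conj_of_sup_zpowers hHM hHn hxM ⟨z, hzM, hzx⟩ h
      have h3 : normalClosure (H : Set G) ≤ K := normalClosure_le_normal (show H ≤ K from le_sup_left)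
      calc normalClosure (H : Set G) ⊓ M ≤ K ⊓ M := inf_le_inf_right _ h3
        _ = H := hcl g
    · -- `K ≤ M^g`
      have h3 : K ≤ M.map (MulAut.conj g).toMonoidHom := by
        rw [← h]
        exact le_sup_left
      have h4 := congrArg (Subgroup.map (MulAut.conj g).toMonoidHom) (hcl g⁻¹)
      rw [Subgroup.map_inf_eq _ _ _ (MulAut.conj g).injective, Subgroup.map_sup,
        map_conj_map_conj, mul_inv_cancel] at h4
      have h5 : H.map (MulAut.conj (1 : G)).toMonoidHom = H := by
        ext y
        simp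
      rw [h5, sup_comm, ← hK, inf_eq_left.mpr h3] at h4
      have h6 : H ≤ H.map (MulAut.conj g).toMonoidHom := by
        rw [← h4]
        exact le_sup_left
      have h7 : H.map (MulAut.conj g).toMonoidHom = H := by
        symm
        apply Subgroup.eq_of_le_of_card_ge h6
        rw [Subgroup.card_map_of_injective (MulAut.conj g).injective]
      have h8 : g ∈ normalizer (H : Set G) := mem_normalizer_iff_map_conj_eq.mpr h7
      have h9 : M ≤ normalizer (H : Set G) :=
        (Subgroup.normal_subgroupOf_iff_le_normalizer hHM).mp hHn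
      have h10 : normalizer (H : Set G) = ⊤ := by
        rcases hmaxM.le_iff.mp h9 with h | h
        · exact h
        · rw [h] at h8
          exact absurd h8 hgM
      have h11 : H.Normal := normalizer_eq_top_iff.mp h10
      rw [normalClosure_eq_self]
      exact inf_le_left
  · push Not at hA
    obtain ⟨A, _, τ, hτ⟩ := exists_transfer_hom H M hHM hHn x₁ hx₁M (hgen x₁ hx₁M hx₁H)
    have hall : ∀ x ∈ M, (τ x = 1 ↔ x ∈ H) := by
      intro x hxM
      apply hτ x hxM
      intro t ht n hm
      have ht' : t⁻¹ ∉ M := fun h => ht (by simpa using M.inv_mem h)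
      have h1 : t⁻¹ * x ^ n * t ∈ H.map (MulAut.conj t⁻¹).toMonoidHom := by
        apply hA t⁻¹ ht' _ hm
        exact ⟨x ^ n, M.pow_mem hxM n, by simp⟩
      rw [← hcl t⁻¹]
      exact ⟨le_sup_right (a := H) h1, hm⟩
    have h1 : normalClosure (H : Set G) ≤ τ.ker := by
      apply normalClosure_le_normal
      intro h hh
      exact (hall h (hHM hh)).mpr hh
    intro y hy
    exact (hall y hy.2).mp (h1 hy.1)

end Cfsg.Agent.S3014
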