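import Cfsg.Statements.S3015
import Cfsg.Agent.Lib.Helper98.Transfer

set_option autoImplicit false
open Cfsg

namespace Cfsg.Agent.S3015

open Subgroup Cfsg.Agent.Lib.Helper98

/-- Let G be a finite non-abelian simple group, M a maximal subgroup of G and H a normal subgroup of M of prime index in M. Then G is generated by H together with one of its conjugates. -/
theorem result {G : Type*} [Group G] [Finite G] [IsSimpleGroup G] (hG : ¬ IsMulCommutative G) (M H : Subgroup G) (hmaxM : IsCoatom M) (hHM : H ≤ M) (hHn : (H.subgroupOf M).Normal) (hidx : (H.relIndex M).Prime) : ∃ g : G, H ⊔ H.map (MulAut.conj g).toMonoidHom = ⊤ := by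
  classical
  by_contra hcon
  push Not at hcon
  have hne : ¬ M ≤ H := by
    intro h
    have h1 := Subgroup.relIndex_eq_one.mpr h
    rw [h1] at hidx
    exact Nat.not_prime_one hidx
  obtain ⟨x₁, hx₁M, hx₁H⟩ := SetLike.not_le_iff_exists.mp hne
  have hgen : ∀ x ∈ M, x ∉ H → M ≤ H ⊔ zpowers x := by
    intro x hxM hxH
    have h1 : H ⊔ zpowers x ≤ M := sup_le hHM (zpowers_le.mpr hxM)
    have h2 := Subgroup.relIndex_mul_relIndex H (H ⊔ zpowers x) M le_sup_left h1
    rw [← h2] at hidx
    rcases (Nat.prime_mul_iff.mp hidx) with ⟨_, h3⟩ | ⟨_, h3⟩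
    · exact Subgroup.relIndex_eq_one.mp h3
    · exfalso
      apply hxH
      exact Subgroup.relIndex_eq_one.mp h3 (le_sup_right (a := H) (mem_zpowers x))
  obtain ⟨x, ⟨hxM, hxH⟩, hmin⟩ := Set.exists_min_image {x : G | x ∈ M ∧ x ∉ H} orderOf
    (Set.toFinite _) ⟨x₁, hx₁M, hx₁H⟩
  obtain ⟨A, _, τ, hτ⟩ := exists_transfer_hom H M hHM hHn x hxM (hgen x hxM hxH)
  have hτ1 : ∀ y, τ y = 1 := by
    rcases (τ.normal_ker).eq_bot_or_eq_top with h | h
    · exfalso
      apply hG
      have hinj : Function.Injective τ := (MonoidHom.ker_eq_bot_iff τ).mp h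
      exact ⟨⟨fun a b => hinj (by rw [map_mul, map_mul, mul_comm])⟩⟩
    · intro y
      have : y ∈ τ.ker := by rw [h]; trivial
      exact this
  refine hxH ((hτ x hxM ?_).mp (hτ1 x))
  intro t ht n hm
  by_contra hy
  -- the order of `y` is at least that of `x`
  have hord : orderOf x ≤ orderOf (x ^ n) := by
    have h1 := hmin _ ⟨hm, hy⟩
    have h2 : t⁻¹ * x ^ n * t = MulAut.conj t⁻¹ (x ^ n) := by simp
    rw [h2, MulEquiv.orderOf_eq] at h1
    exact h1
  have hzp : zpowers (x ^ n) = zpowers x := by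
    apply Subgroup.eq_of_le_of_card_ge
    · exact zpowers_le.mpr (Subgroup.pow_mem _ (mem_zpowers x) n)
    · rw [Nat.card_zpowers, Nat.card_zpowers]
      exact hord
  have hxz : x ∈ zpowers (x ^ n) := by rw [hzp]; exact mem_zpowers x
  obtain ⟨k, hk⟩ := mem_zpowers_iff.mp hxz
  set z := t⁻¹ * x * t with hz
  have hzy : z = (t⁻¹ * x ^ n * t) ^ k := by
    have h2 : ∀ w : G, t⁻¹ * w * t = MulAut.conj t⁻¹ w := by intro w; simp
    rw [hz, h2, h2, ← map_zpow, hk]
  have hzM : z ∈ M := by rw [hzy]; exact Subgroup.zpow_mem _ hm k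
  have hzH : z ∉ H := by
    intro h
    apply hy
    have h2 : ∀ w : G, t⁻¹ * w * t = MulAut.conj t⁻¹ w := by intro w; simp
    have h3 : t⁻¹ * x ^ n * t = z ^ n := by rw [hz, h2, h2, ← map_pow]
    rw [h3]
    exact Subgroup.pow_mem _ h n
  have hxz' : (MulAut.conj t).toMonoidHom z = x := by simp [hz, mul_assoc]
  have hxMt : x ∈ M.map (MulAut.conj t).toMonoidHom := ⟨z, hzM, hxz'⟩
  set K := H ⊔ H.map (MulAut.conj t).toMonoidHom with hK
  have h1 : M ≤ K ⊔ zpowers x := (hgen x hxM hxH).trans (sup_le_sup_right le_sup_left _)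
  have h2 : M.map (MulAut.conj t).toMonoidHom ≤ K ⊔ zpowers x := by
    have h3 := Subgroup.map_mono (f := (MulAut.conj t).toMonoidHom) (hgen z hzM hzH)
    rw [Subgroup.map_sup, MonoidHom.map_zpowers, hxz'] at h3
    exact h3.trans (sup_le_sup_right le_sup_right _)
  have htop : K ⊔ zpowers x = ⊤ := by
    rcases hmaxM.le_iff.mp h1 with h | h
    · exact h
    · exfalso
      rw [h] at h2
      have h3 : M.map (MulAut.conj t).toMonoidHom = M := by
        apply Subgroup.eq_of_le_of_card_ge h2
        rw [Subgroup.card_map_of_injective (MulAut.conj t).injective]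
      have h4 : t ∈ normalizer (M : Set G) := mem_normalizer_iff_map_conj_eq.mpr h3
      have h5 : normalizer (M : Set G) = ⊤ := by
        rcases hmaxM.le_iff.mp (le_normalizer (H := M)) with h | h
        · exact h
        · rw [h] at h4
          exact absurd h4 ht
      have h6 : M.Normal := normalizer_eq_top_iff.mp h5
      rcases h6.eq_bot_or_eq_top with h | h
      · apply hne
        rw [h]
        exact bot_le
      · exact hmaxM.1 h
  have hKn : K.Normal := normal_sup_conj_of_sup_zpowers hHM hHn hxM hxMt htop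
  rcases hKn.eq_bot_or_eq_top with h | h
  · rw [h, bot_sup_eq] at htop
    apply hG
    have : IsCyclic G := isCyclic_iff_exists_zpowers_eq_top.mpr ⟨x, htop⟩
    exact ⟨⟨fun a b => (IsCyclic.commGroup (α := G)).mul_comm a b⟩⟩
  · exact hcon t h

end Cfsg.Agent.S3015
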