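import Cfsg.Statements.S3020
import Cfsg.Agent.Lib.Helper50.Basic
import Cfsg.Agent.Lib.Lead.Residual

set_option autoImplicit false
open Cfsg

namespace Cfsg.Agent.S3020

open Cfsg.Agent.Lib.Helper50 Cfsg.Agent.Lib.Lead

/-- Let G be a finite group, p a prime and H an abelian p-subgroup of G that is extremely closed (for every g, the subgroup generated by H and g H g⁻¹ meets N_G(H) exactly in H). Then for every g ∈ G, the subgroup T generated by H and g H g⁻¹ is the product of H with O_{p'}(T), and H meets O_{p'}(T) trivially; that is, O_{p'}(T) is a normal p-complement of H in T. -/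
theorem result {G : Type*} [Group G] [Finite G] {p : ℕ} [Fact p.Prime] (H : Subgroup G) (hHp : IsPGroup p H) (hHab : IsMulCommutative H) (hcl : Cfsg.IsExtremelyClosed H) (g : G) (T : Subgroup G) (hT : T = H ⊔ H.map (MulAut.conj g).toMonoidHom) : H ⊔ (Cfsg.pPrimeCore p ↥T).map T.subtype = T ∧ H ⊓ (Cfsg.pPrimeCore p ↥T).map T.subtype = ⊥ := by
  have hHT : H ≤ T := by rw [hT]; exact le_sup_left
  have hcl' : T ⊓ Subgroup.normalizer (H : Set G) = H := by rw [hT]; exact hcl g
  -- normalizer of H' in T is H'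
  have hnorm : ∀ x : T, x ∈ Subgroup.normalizer ((H.subgroupOf T : Subgroup T) : Set T) →
      x ∈ H.subgroupOf T := by
    intro x hx
    rw [← Subgroup.subgroupOf_normalizer_eq hHT, Subgroup.mem_subgroupOf] at hx
    rw [Subgroup.mem_subgroupOf, ← hcl']
    exact ⟨x.2, hx⟩
  have hH'p : IsPGroup p (H.subgroupOf T) :=
    hHp.comap_of_injective T.subtype T.subtype_injective
  obtain ⟨P, hP⟩ := hH'p.exists_le_sylow
  have hPeq : (P : Subgroup T) = H.subgroupOf T := by
    by_contra hne
    have hlt : H.subgroupOf T < (P : Subgroup T) := lt_of_le_of_ne hP (Ne.symm hne)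
    obtain ⟨x, _, hx2, hx3⟩ := exists_mem_normalizer_of_lt P.2 hlt
    exact hx2 (hnorm x hx3)
  have hNC : Subgroup.normalizer ((P : Subgroup T) : Set T) ≤
      Subgroup.centralizer ((P : Subgroup T) : Set T) := by
    intro x hx
    rw [hPeq] at hx ⊢
    have hxH := hnorm x hx
    rw [Subgroup.mem_centralizer_iff]
    intro y hy
    have hy' : (y : G) ∈ H := hy
    have hx' : (x : G) ∈ H := hxH
    have := hHab.is_comm.comm ⟨(y : G), hy'⟩ ⟨(x : G), hx'⟩
    apply Subtype.ext
    exact congrArg (fun z : H => (z : G)) this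
  have hcompl : HasNormalPComplement p T :=
    ⟨P, _, inferInstance, MonoidHom.ker_transferSylow_isComplement' P hNC⟩
  have hc := HasNormalPComplement.isComplement'_pPrimeCore hcompl P
  rw [hPeq] at hc
  constructor
  · have h1 : (H.subgroupOf T) ⊔ pPrimeCore p T = ⊤ := by
      rw [sup_comm]; exact hc.sup_eq_top
    have h2 := congrArg (Subgroup.map T.subtype) h1
    rw [Subgroup.map_sup, Subgroup.subgroupOf_map_subtype, inf_eq_left.mpr hHT,
      ← MonoidHom.range_eq_map, Subgroup.range_subtype] at h2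
    exact h2
  · have h1 : (H.subgroupOf T) ⊓ pPrimeCore p T = ⊥ := by
      rw [inf_comm]; exact hc.disjoint.eq_bot
    rw [eq_bot_iff]
    rintro x ⟨hxH, y, hy, rfl⟩
    have : y ∈ (H.subgroupOf T) ⊓ pPrimeCore p T := ⟨hxH, hy⟩
    rw [h1, Subgroup.mem_bot] at this
    rw [this]
    exact Subgroup.one_mem _

end Cfsg.Agent.S3020
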