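import Cfsg.Statements.S3021
import Cfsg.Agent.Lib.Helper50.Basic

set_option autoImplicit false
open Cfsg

namespace Cfsg.Agent.S3021

open Cfsg.Agent.Lib.Helper50

/-- Let G be a finite group, p a prime and H a p-subgroup of G that is extremely closed (for every g, the subgroup generated by H and g H g⁻¹ meets N_G(H) exactly in H). Then every p-subgroup Q of G containing H has N_G(Q) ≤ N_G(H); in particular every Sylow p-subgroup P of G containing H normalizes H, and H is strongly closed in P with respect to G. -/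
theorem result {G : Type*} [Group G] [Finite G] {p : ℕ} [Fact p.Prime] (H : Subgroup G) (hHp : IsPGroup p H) (hcl : Cfsg.IsExtremelyClosed H) : (∀ Q : Subgroup G, IsPGroup p Q → H ≤ Q → Subgroup.normalizer (Q : Set G) ≤ Subgroup.normalizer (H : Set G)) ∧ ∀ P : Sylow p G, H ≤ (P : Subgroup G) → (P : Subgroup G) ≤ Subgroup.normalizer (H : Set G) ∧ Cfsg.IsStronglyClosed H (P : Subgroup G) := by
  have key : ∀ g : G, H.map (MulAut.conj g).toMonoidHom ≤ Subgroup.normalizer (H : Set G) →
      g ∈ Subgroup.normalizer (H : Set G) := by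
    intro g hg
    apply mem_normalizer_of_map_conj_le
    have h1 : H ⊔ H.map (MulAut.conj g).toMonoidHom ≤ Subgroup.normalizer (H : Set G) :=
      sup_le Subgroup.le_normalizer hg
    have h2 := hcl g
    rw [inf_eq_left.2 h1] at h2
    exact le_sup_right.trans h2.le
  have hnorm : ∀ Q : Subgroup G, IsPGroup p Q → H ≤ Q → Q ≤ Subgroup.normalizer (H : Set G) := by
    intro Q hQ hHQ
    by_contra hcon
    have hlt : Q ⊓ Subgroup.normalizer (H : Set G) < Q :=
      lt_of_le_of_ne inf_le_left (fun h => hcon (inf_eq_left.1 h))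
    obtain ⟨g, hgQ, hgn, hgN⟩ := exists_mem_normalizer_of_lt hQ hlt
    apply hgn
    refine ⟨hgQ, key g ?_⟩
    have h3 : H ≤ Q ⊓ Subgroup.normalizer (H : Set G) := le_inf hHQ Subgroup.le_normalizer
    calc H.map (MulAut.conj g).toMonoidHom
        ≤ (Q ⊓ Subgroup.normalizer (H : Set G)).map (MulAut.conj g).toMonoidHom := Subgroup.map_mono h3
      _ = Q ⊓ Subgroup.normalizer (H : Set G) := mem_normalizer_iff_map_conj.1 hgN
      _ ≤ Subgroup.normalizer (H : Set G) := inf_le_right
  have h1 : ∀ Q : Subgroup G, IsPGroup p Q → H ≤ Q →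
      Subgroup.normalizer (Q : Set G) ≤ Subgroup.normalizer (H : Set G) := by
    intro Q hQ hHQ g hg
    apply key
    calc H.map (MulAut.conj g).toMonoidHom
        ≤ Q.map (MulAut.conj g).toMonoidHom := Subgroup.map_mono hHQ
      _ = Q := mem_normalizer_iff_map_conj.1 hg
      _ ≤ Subgroup.normalizer (H : Set G) := hnorm Q hQ hHQ
  refine ⟨h1, fun P hHP => ⟨hnorm _ P.2 hHP, hHP, ?_⟩⟩
  intro x hx g hg
  have h2 := hcl g
  rw [← h2]
  exact ⟨(le_sup_right : _ ≤ H ⊔ H.map (MulAut.conj g).toMonoidHom) (conj_mem_map_conj hx),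
    hnorm _ P.2 hHP hg⟩

end Cfsg.Agent.S3021
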