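import Cfsg.Statements.S3027
import Cfsg.Agent.Lib.Helper62.Subnormal2

set_option autoImplicit false
open Cfsg

namespace Cfsg.Agent.S3027

open Subgroup Cfsg.Agent.Lib.Helper62
open scoped commutatorElement

/-- Two subnormal subgroups of `H` mapping onto a perfect group: so does their intersection. -/
theorem map_inf_eq_top {G Q : Type*} [Group G] [Finite G] [Group Q] (π : G →* Q)
    (hQ : ⁅(⊤ : Subgroup Q), (⊤ : Subgroup Q)⁆ = ⊤) :
    ∀ (n : ℕ) (H : Subgroup G), Nat.card H = n → ∀ B₁ B₂ : Subgroup G, SubnIn B₁ H → SubnIn B₂ H →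
      B₁.map π = ⊤ → B₂.map π = ⊤ → (B₁ ⊓ B₂).map π = ⊤ := by
  intro n
  induction n using Nat.strong_induction_on with
  | _ n ih =>
    intro H hH B₁ B₂ h₁ h₂ e₁ e₂
    by_cases hB₁ : B₁ = H
    · rw [hB₁, inf_eq_right.mpr h₂.le]
      exact e₂
    by_cases hB₂ : B₂ = H
    · rw [hB₂, inf_eq_left.mpr h₁.le]
      exact e₁
    obtain ⟨N₁, hBN₁, hN₁H, hN₁n, hs₁⟩ := h₁.exists_normal hB₁
    obtain ⟨N₂, hBN₂, hN₂H, hN₂n, hs₂⟩ := h₂.exists_normal hB₂
    have hcard : ∀ N : Subgroup G, N < H → Nat.card N < n := by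
      intro N hN
      rw [← hH]
      by_contra hnot
      exact absurd (Subgroup.eq_of_le_of_card_ge hN.le (not_lt.mp hnot)) hN.ne
    have eN₁ : N₁.map π = ⊤ := top_le_iff.mp (e₁ ▸ Subgroup.map_mono hBN₁)
    have eN₂ : N₂.map π = ⊤ := top_le_iff.mp (e₂ ▸ Subgroup.map_mono hBN₂)
    -- the normal case
    have hcomm : ⁅N₁, N₂⁆ ≤ N₁ ⊓ N₂ := by
      refine le_inf ?_ ?_
      · rw [Subgroup.commutator_le]
        intro a ha b hb
        have h3 : b * a⁻¹ * b⁻¹ ∈ N₁ :=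
          ((Subgroup.mem_normalizer_iff.mp (hN₁n (hN₂H.le hb))) a⁻¹).mp (N₁.inv_mem ha)
        have h4 : ⁅a, b⁆ = a * (b * a⁻¹ * b⁻¹) := by
          rw [commutatorElement_def]; group
        rw [h4]
        exact N₁.mul_mem ha h3
      · rw [Subgroup.commutator_le]
        intro a ha b hb
        have h3 : a * b * a⁻¹ ∈ N₂ :=
          ((Subgroup.mem_normalizer_iff.mp (hN₂n (hN₁H.le ha))) b).mp hb
        have h4 : ⁅a, b⁆ = (a * b * a⁻¹) * b⁻¹ := by
          rw [commutatorElement_def]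
        rw [h4]
        exact N₂.mul_mem h3 (N₂.inv_mem hb)
    have eN : (N₁ ⊓ N₂).map π = ⊤ := by
      rw [eq_top_iff]
      calc (⊤ : Subgroup Q) = ⁅N₁.map π, N₂.map π⁆ := by rw [eN₁, eN₂, hQ]
        _ = (⁅N₁, N₂⁆).map π := (Subgroup.map_commutator N₁ N₂ π).symm
        _ ≤ (N₁ ⊓ N₂).map π := Subgroup.map_mono hcomm
    -- inside `N₁`
    have hsN : SubnIn (N₁ ⊓ N₂) N₁ := by
      have h3 := (SubnIn.of_normal hN₂H.le hN₂n).inf N₁
      rwa [inf_comm, inf_eq_right.mpr hN₁H.le] at h3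
    have e3 : (B₁ ⊓ (N₁ ⊓ N₂)).map π = ⊤ :=
      ih _ (hcard N₁ hN₁H) N₁ rfl B₁ (N₁ ⊓ N₂) hs₁ hsN e₁ eN
    have e4 : B₁ ⊓ (N₁ ⊓ N₂) = B₁ ⊓ N₂ := by
      rw [← inf_assoc, inf_eq_left.mpr hBN₁]
    rw [e4] at e3
    -- inside `N₂`
    have hsB : SubnIn (B₁ ⊓ N₂) N₂ := by
      have h3 := h₁.inf N₂
      rwa [inf_eq_right.mpr hN₂H.le] at h3
    have e5 : ((B₁ ⊓ N₂) ⊓ B₂).map π = ⊤ :=
      ih _ (hcard N₂ hN₂H) N₂ rfl (B₁ ⊓ N₂) B₂ hsB hs₂ e3 e₂
    have e6 : (B₁ ⊓ N₂) ⊓ B₂ = B₁ ⊓ B₂ := by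
      rw [inf_assoc, inf_eq_right.mpr hBN₂]
    rwa [e6] at e5

/-- Let G be a finite group and D a normal subgroup of G such that G/D is perfect (that is, G = G′D). Then among the subnormal subgroups B of G with BD = G there is a least one, and it is normal in G. -/
theorem result {G : Type*} [Group G] [Finite G] (D : Subgroup G) [D.Normal] (hperf : ⁅(⊤ : Subgroup G), (⊤ : Subgroup G)⁆ ⊔ D = ⊤) :
    ∃ B : Subgroup G, B.Normal ∧ B ⊔ D = ⊤ ∧ ∀ B' : Subgroup G, B'.IsSubnormal → B' ⊔ D = ⊤ → B ≤ B' := by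
  classical
  set π := QuotientGroup.mk' D with hπ
  have hsurj : Function.Surjective π := QuotientGroup.mk'_surjective D
  have key : ∀ B : Subgroup G, B ⊔ D = ⊤ ↔ B.map π = ⊤ := by
    intro B
    constructor
    · intro h
      have h1 := congrArg (Subgroup.map π) h
      rwa [Subgroup.map_sup, QuotientGroup.map_mk'_self, sup_bot_eq,
        Subgroup.map_top_of_surjective _ hsurj] at h1
    · intro h
      have h1 := congrArg (Subgroup.comap π) h
      rwa [Subgroup.comap_map_eq, QuotientGroup.ker_mk', Subgroup.comap_top] at h1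
  have hQ : ⁅(⊤ : Subgroup (G ⧸ D)), (⊤ : Subgroup (G ⧸ D))⁆ = ⊤ := by
    have h1 := (key _).mp hperf
    rwa [Subgroup.map_commutator, Subgroup.map_top_of_surjective _ hsurj] at h1
  have hne : {B : Subgroup G | B.IsSubnormal ∧ B.map π = ⊤}.Nonempty :=
    ⟨⊤, Subgroup.IsSubnormal.top, Subgroup.map_top_of_surjective _ hsurj⟩
  obtain ⟨B, ⟨hBs, hBe⟩, hmin⟩ := (wellFounded_lt (α := Subgroup G)).has_min _ hne
  have hleast : ∀ B' : Subgroup G, B'.IsSubnormal → B'.map π = ⊤ → B ≤ B' := by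
    intro B' hs he
    have h1 : (B ⊓ B').map π = ⊤ :=
      map_inf_eq_top π hQ _ ⊤ rfl B B' (subnIn_top_iff.mpr hBs) (subnIn_top_iff.mpr hs) hBe he
    by_contra hnot
    have h2 : B ⊓ B' < B := lt_of_le_of_ne inf_le_left (fun h => hnot (inf_eq_left.mp h))
    exact hmin (B ⊓ B') ⟨hBs.inf hs, h1⟩ h2
  refine ⟨B, ?_, (key B).mpr hBe, fun B' hs he => hleast B' hs ((key B').mp he)⟩
  rw [Subgroup.normal_iff_map_conj_eq]
  intro g
  have h1 : (B.map (MulAut.conj g).toMonoidHom).IsSubnormal :=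
    hBs.map (MulAut.conj g).surjective
  have h2 : (B.map (MulAut.conj g).toMonoidHom).map π = ⊤ := by
    rw [eq_top_iff]
    intro q _
    have h3 : (π g)⁻¹ * q * π g ∈ B.map π := by rw [hBe]; trivial
    obtain ⟨b, hb, hbq⟩ := h3
    refine ⟨g * b * g⁻¹, ⟨b, hb, by simp⟩, ?_⟩
    rw [map_mul, map_mul, hbq, map_inv]
    group
  have h3 := hleast _ h1 h2
  symm
  apply Subgroup.eq_of_le_of_card_ge h3
  exact (Subgroup.card_map_of_injective (MulAut.conj g).injective).le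

end Cfsg.Agent.S3027
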