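import Cfsg.Statements.S3028
import Cfsg.Agent.Lib.Helper62.Subnormal2
import Cfsg.Agent.S0542

set_option autoImplicit false
set_option linter.style.haveILetI false
open Cfsg

namespace Cfsg.Agent.S3028

open Subgroup Cfsg.Agent.Lib.Helper62

universe u

/-- Lifting lemma: an element of `S` whose image lies in the image of a subnormal `Z` has the same
image as an element of `Z ⊓ S`. -/
theorem exists_lift {G Q : Type*} [Group G] [Finite G] [Group Q] {p : ℕ} [Fact p.Prime]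
    (S : Sylow p G) (Z : Subgroup G) (hZ : Z.IsSubnormal) (π : G →* Q) (s : G)
    (hs : s ∈ (S : Subgroup G)) (hπ : π s ∈ Z.map π) :
    ∃ z ∈ Z ⊓ (S : Subgroup G), π z = π s := by
  obtain ⟨P, hP⟩ := Cfsg.Agent.S0542.result p Z hZ S
  have hf : Function.Surjective (π.subgroupMap Z) := π.subgroupMap_surjective Z
  set P' : Sylow p ↥(Z.map π) := P.mapSurjective hf with hP'
  set Q' : Subgroup ↥(Z.map π) := ((S : Subgroup G).map π).subgroupOf (Z.map π) with hQ'
  have h1 : IsPGroup p Q' := (S.isPGroup'.map π).comap_subtype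
  have h2 : (P' : Subgroup ↥(Z.map π)) ≤ Q' := by
    rw [hP', Sylow.coe_mapSurjective]
    rintro _ ⟨z, hz, rfl⟩
    have hz' : z ∈ (S : Subgroup G).subgroupOf Z := by rw [← hP]; exact hz
    rw [hQ', mem_subgroupOf]
    exact ⟨z.1, mem_subgroupOf.mp hz', rfl⟩
  have h3 : Q' = P' := P'.is_maximal' h1 h2
  have h4 : (⟨π s, hπ⟩ : ↥(Z.map π)) ∈ Q' := by
    rw [hQ', mem_subgroupOf]
    exact ⟨s, hs, rfl⟩
  rw [h3, hP', Sylow.coe_mapSurjective] at h4
  obtain ⟨z, hz, hzs⟩ := h4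
  have hz' : z ∈ (S : Subgroup G).subgroupOf Z := by rw [← hP]; exact hz
  refine ⟨z.1, ⟨z.2, mem_subgroupOf.mp hz'⟩, ?_⟩
  exact congrArg Subtype.val hzs

/-- The case where one of the two subgroups is normal. -/
theorem sup_inf_le_of_normal {G : Type*} [Group G] [Finite G] {p : ℕ} [Fact p.Prime]
    (S : Sylow p G) (X Z : Subgroup G) (hX : X.Normal) (hZ : Z.IsSubnormal) :
    (X ⊔ Z) ⊓ (S : Subgroup G) ≤ (X ⊓ (S : Subgroup G)) ⊔ (Z ⊓ (S : Subgroup G)) := by
  rintro s ⟨hs1, hs2⟩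
  have h1 : QuotientGroup.mk' X s ∈ Z.map (QuotientGroup.mk' X) := by
    have h2 : QuotientGroup.mk' X s ∈ (X ⊔ Z).map (QuotientGroup.mk' X) := ⟨s, hs1, rfl⟩
    rwa [Subgroup.map_sup, QuotientGroup.map_mk'_self, bot_sup_eq] at h2
  obtain ⟨z, hz, hzs⟩ := exists_lift S Z hZ (QuotientGroup.mk' X) s hs2 h1
  have h3 : z⁻¹ * s ∈ X := by
    rw [← QuotientGroup.eq]
    exact hzs
  have h4 : s = z * (z⁻¹ * s) := by group
  rw [h4]
  exact Subgroup.mul_mem _ (le_sup_right (a := X ⊓ (S : Subgroup G)) hz)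
    (le_sup_left (b := Z ⊓ (S : Subgroup G)) ⟨h3, Subgroup.mul_mem _ (Subgroup.inv_mem _ hz.2) hs2⟩)

/-- The statement, as a predicate on a group. -/
def Holds (p : ℕ) [Fact p.Prime] (G : Type u) [Group G] [Finite G] : Prop :=
  ∀ (S : Sylow p G) (A₁ A₂ : Subgroup G), A₁.IsSubnormal → A₂.IsSubnormal →
    (A₁ ⊔ A₂) ⊓ (S : Subgroup G) ≤ (A₁ ⊓ (S : Subgroup G)) ⊔ (A₂ ⊓ (S : Subgroup G))

/-- Transport from a subnormal subgroup. -/
theorem of_subgroup {G : Type u} [Group G] [Finite G] {p : ℕ} [Fact p.Prime] (S : Sylow p G)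
    (K : Subgroup G) (hK : K.IsSubnormal) (hold : Holds p ↥K) (A₁ A₂ : Subgroup G)
    (h₁ : A₁.IsSubnormal) (h₂ : A₂.IsSubnormal) (hA₁ : A₁ ≤ K) (hA₂ : A₂ ≤ K) :
    (A₁ ⊔ A₂) ⊓ (S : Subgroup G) ≤ (A₁ ⊓ (S : Subgroup G)) ⊔ (A₂ ⊓ (S : Subgroup G)) := by
  obtain ⟨P, hP⟩ := Cfsg.Agent.S0542.result p K hK S
  have h := hold P (A₁.subgroupOf K) (A₂.subgroupOf K) h₁.subgroupOf h₂.subgroupOf
  rw [hP, ← subgroupOf_sup hA₁ hA₂] at h
  rintro s ⟨hs1, hs2⟩
  have hsK : s ∈ K := (sup_le hA₁ hA₂) hs1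
  have h1 : (⟨s, hsK⟩ : ↥K) ∈ (A₁ ⊔ A₂).subgroupOf K ⊓ (S : Subgroup G).subgroupOf K :=
    ⟨mem_subgroupOf.mpr hs1, mem_subgroupOf.mpr hs2⟩
  have h2 := h h1
  have h3 : (A₁.subgroupOf K ⊓ (S : Subgroup G).subgroupOf K ⊔
      A₂.subgroupOf K ⊓ (S : Subgroup G).subgroupOf K).map K.subtype
      ≤ (A₁ ⊓ (S : Subgroup G)) ⊔ (A₂ ⊓ (S : Subgroup G)) := by
    rw [Subgroup.map_sup]
    refine sup_le_sup ?_ ?_
    · rintro _ ⟨x, ⟨hx1, hx2⟩, rfl⟩
      exact ⟨mem_subgroupOf.mp hx1, mem_subgroupOf.mp hx2⟩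
    · rintro _ ⟨x, ⟨hx1, hx2⟩, rfl⟩
      exact ⟨mem_subgroupOf.mp hx1, mem_subgroupOf.mp hx2⟩
  exact h3 ⟨⟨s, hsK⟩, h2, rfl⟩

/-- Transport from a quotient. -/
theorem of_quotient {G : Type u} [Group G] [Finite G] {p : ℕ} [Fact p.Prime] (S : Sylow p G)
    (M : Subgroup G) [M.Normal] (hold : Holds p (G ⧸ M)) (A₁ A₂ : Subgroup G)
    (h₁ : A₁.IsSubnormal) (h₂ : A₂.IsSubnormal) :
    (A₁ ⊔ A₂) ⊓ (S : Subgroup G) ≤
      ((A₁ ⊓ (S : Subgroup G)) ⊔ (A₂ ⊓ (S : Subgroup G))) ⊔ (M ⊓ (S : Subgroup G)) := by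
  set π := QuotientGroup.mk' M with hπ
  have hsurj : Function.Surjective π := QuotientGroup.mk'_surjective M
  have h := hold (S.mapSurjective hsurj) (A₁.map π) (A₂.map π) (h₁.map hsurj) (h₂.map hsurj)
  rw [Sylow.coe_mapSurjective, ← Subgroup.map_sup] at h
  have key : ∀ A : Subgroup G, A.IsSubnormal →
      A.map π ⊓ (S : Subgroup G).map π ≤ (A ⊓ (S : Subgroup G)).map π := by
    rintro A hA _ ⟨hx1, ⟨s, hs, rfl⟩⟩
    obtain ⟨z, hz, hzs⟩ := exists_lift S A hA π s hs hx1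
    exact ⟨z, hz, hzs⟩
  rintro s ⟨hs1, hs2⟩
  have h1 : π s ∈ (A₁ ⊔ A₂).map π ⊓ (S : Subgroup G).map π := ⟨⟨s, hs1, rfl⟩, ⟨s, hs2, rfl⟩⟩
  have h2 : π s ∈ ((A₁ ⊓ (S : Subgroup G)) ⊔ (A₂ ⊓ (S : Subgroup G))).map π := by
    rw [Subgroup.map_sup]
    exact (sup_le_sup (key A₁ h₁) (key A₂ h₂)) (h h1)
  obtain ⟨t, ht, hts⟩ := h2
  have hTS : (A₁ ⊓ (S : Subgroup G)) ⊔ (A₂ ⊓ (S : Subgroup G)) ≤ (S : Subgroup G) :=
    sup_le inf_le_right inf_le_right
  have htS : t ∈ (S : Subgroup G) := hTS ht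
  have h3 : t⁻¹ * s ∈ M := by
    rw [← QuotientGroup.eq]
    exact hts
  have h4 : s = t * (t⁻¹ * s) := by group
  rw [h4]
  exact Subgroup.mul_mem _ (le_sup_left (b := M ⊓ (S : Subgroup G)) ht)
    (le_sup_right (a := (A₁ ⊓ (S : Subgroup G)) ⊔ (A₂ ⊓ (S : Subgroup G)))
      ⟨h3, Subgroup.mul_mem _ (Subgroup.inv_mem _ htS) hs2⟩)

/-- The transfer step. -/
theorem central_le {G : Type u} [Group G] [Finite G] {p : ℕ} [Fact p.Prime] (S : Sylow p G)
    (T M : Subgroup G) (hTS : T ≤ (S : Subgroup G)) (hMc : M ≤ center G) (hMd : M ≤ commutator G)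
    (hS : (S : Subgroup G) ≤ T ⊔ (M ⊓ (S : Subgroup G))) : M ⊓ (S : Subgroup G) ≤ T := by
  classical
  have hCn : (M ⊓ (S : Subgroup G)).Normal := by
    constructor
    intro c hc g
    have h1 : c ∈ center G := hMc hc.1
    have h2 : g * c * g⁻¹ = c := by
      rw [mem_center_iff.mp h1 g, mul_inv_cancel_right]
    rw [h2]
    exact hc
  have hdec : ∀ s ∈ (S : Subgroup G), ∃ t ∈ T, ∃ c ∈ M ⊓ (S : Subgroup G), t * c = s := by
    intro s hs
    exact (Subgroup.mem_sup_of_normal_right).mp (hS hs)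
  have hTn : (T.subgroupOf (S : Subgroup G)).Normal := by
    constructor
    intro x hx s
    obtain ⟨t, ht, c, hc, htc⟩ := hdec s.1 s.2
    rw [mem_subgroupOf] at hx ⊢
    have h1 : c ∈ center G := hMc hc.1
    have h2 : ((s * x * s⁻¹ : ↥(S : Subgroup G)) : G) = t * (x : G) * t⁻¹ := by
      push_cast
      rw [← htc]
      have h3 := mem_center_iff.mp h1 (x : G)
      calc t * c * (x : G) * (t * c)⁻¹ = t * (c * (x : G)) * c⁻¹ * t⁻¹ := by group
        _ = t * ((x : G) * c) * c⁻¹ * t⁻¹ := by rw [h3]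
        _ = t * (x : G) * t⁻¹ := by group
    rw [h2]
    exact T.mul_mem (T.mul_mem ht hx) (T.inv_mem ht)
  have hmk : ∀ s : ↥(S : Subgroup G), ∃ c : ↥(S : Subgroup G), (c : G) ∈ center G ∧
      (QuotientGroup.mk s : ↥(S : Subgroup G) ⧸ T.subgroupOf (S : Subgroup G)) = QuotientGroup.mk c := by
    intro s
    obtain ⟨t, ht, c, hc, htc⟩ := hdec s.1 s.2
    refine ⟨⟨c, hc.2⟩, hMc hc.1, ?_⟩
    rw [QuotientGroup.eq, mem_subgroupOf]
    have h2 : ((s⁻¹ * ⟨c, hc.2⟩ : ↥(S : Subgroup G)) : G) = c⁻¹ * t⁻¹ * c := by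
      push_cast
      rw [← htc]
      group
    rw [h2]
    have h3 := mem_center_iff.mp (hMc hc.1) t⁻¹
    rw [mul_assoc, h3, inv_mul_cancel_left]
    exact T.inv_mem ht
  letI : CommGroup (↥(S : Subgroup G) ⧸ T.subgroupOf (S : Subgroup G)) :=
    { (inferInstance : Group (↥(S : Subgroup G) ⧸ T.subgroupOf (S : Subgroup G))) with
      mul_comm := by
        intro a b
        obtain ⟨a, rfl⟩ := QuotientGroup.mk_surjective a
        obtain ⟨b, rfl⟩ := QuotientGroup.mk_surjective b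
        obtain ⟨c, hc, hac⟩ := hmk a
        rw [hac, ← QuotientGroup.mk_mul, ← QuotientGroup.mk_mul]
        congr 1
        apply Subtype.ext
        push_cast
        exact (mem_center_iff.mp hc (b : G)).symm }
  set ϕ : ↥(S : Subgroup G) →* ↥(S : Subgroup G) ⧸ T.subgroupOf (S : Subgroup G) :=
    QuotientGroup.mk' (T.subgroupOf (S : Subgroup G)) with hϕ
  intro z hz
  have hzc : z ∈ center G := hMc hz.1
  have key : ∀ (k : ℕ) (g₀ : G), g₀⁻¹ * z ^ k * g₀ ∈ (S : Subgroup G) →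
      g₀⁻¹ * z ^ k * g₀ = z ^ k := by
    intro k g₀ _
    have h1 : z ^ k ∈ center G := Subgroup.pow_mem _ hzc k
    rw [mul_assoc, ← mem_center_iff.mp h1 g₀, inv_mul_cancel_left]
  have h1 := MonoidHom.transfer_eq_pow ϕ z key
  have h2 : MonoidHom.transfer ϕ z = 1 :=
    Abelianization.commutator_subset_ker (MonoidHom.transfer ϕ) (hMd hz.1)
  rw [h2] at h1
  have h3 : z ^ (S : Subgroup G).index ∈ T := by
    have h4 := h1.symm
    rw [hϕ, QuotientGroup.mk'_apply, QuotientGroup.eq_one_iff, mem_subgroupOf] at h4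
    exact h4
  obtain ⟨k, hk⟩ := S.isPGroup' ⟨z, hz.2⟩
  have h5 : orderOf z ∣ p ^ k := by
    apply orderOf_dvd_of_pow_eq_one
    exact congrArg Subtype.val hk
  have h6 : Nat.Coprime (S : Subgroup G).index (orderOf z) := by
    apply Nat.Coprime.coprime_dvd_right h5
    apply Nat.Coprime.pow_right
    exact ((Nat.Prime.coprime_iff_not_dvd Fact.out).mpr S.not_dvd_index).symm
  obtain ⟨m, hm⟩ := exists_pow_eq_self_of_coprime h6
  rw [← hm]
  exact T.pow_mem h3 m

theorem le_normalizer_aux {G : Type*} [Group G] (M A B : Subgroup G) (hMn : M.Normal)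
    (hA : M ≤ normalizer (A : Set G)) :
    A ≤ normalizer (((M ⊓ A) ⊔ (M ⊓ B) : Subgroup G) : Set G) := by
  rw [le_normalizer_iff]
  intro a ha k hk
  have h1 : (M ⊓ A) ⊔ (M ⊓ B) ≤ ((M ⊓ A) ⊔ (M ⊓ B)).comap (MulAut.conj a).toMonoidHom := by
    refine sup_le ?_ ?_
    · intro x hx
      rw [mem_comap]
      apply le_sup_left (b := M ⊓ B)
      exact ⟨hMn.conj_mem x hx.1 a, A.mul_mem (A.mul_mem ha hx.2) (A.inv_mem ha)⟩
    · intro y hy
      rw [mem_comap]
      have h2 : (MulAut.conj a).toMonoidHom y = (a * (y * a⁻¹ * y⁻¹)) * y := by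
        simp only [MulEquiv.toMonoidHom_eq_coe, MonoidHom.coe_coe, MulAut.conj_apply]
        group
      rw [h2]
      refine Subgroup.mul_mem _ (le_sup_left (b := M ⊓ B) ⟨?_, ?_⟩) (le_sup_right (a := M ⊓ A) hy)
      · have h3 : a * (y * a⁻¹ * y⁻¹) = (a * y * a⁻¹) * y⁻¹ := by group
        rw [h3]
        exact M.mul_mem (hMn.conj_mem y hy.1 a) (M.inv_mem hy.1)
      · exact A.mul_mem ha ((le_normalizer_iff.mp hA) y hy.1 a⁻¹ (A.inv_mem ha))
  exact h1 hk

theorem main (p : ℕ) [Fact p.Prime] : ∀ (n : ℕ) (G : Type u) [Group G] [Finite G],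
    Nat.card G = n → Holds p G := by
  intro n
  induction n using Nat.strong_induction_on with
  | _ n ih =>
    intro G _ _ hG S A₁ A₂ h₁ h₂
    set T := (A₁ ⊓ (S : Subgroup G)) ⊔ (A₂ ⊓ (S : Subgroup G)) with hT
    have hTS : T ≤ (S : Subgroup G) := sup_le inf_le_right inf_le_right
    have hJ : (A₁ ⊔ A₂).IsSubnormal := isSubnormal_sup h₁ h₂
    have hcard : ∀ K : Subgroup G, K ≠ ⊤ → Nat.card K < n := by
      intro K hK
      rw [← hG]
      by_contra hnot
      apply hK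
      apply Subgroup.eq_top_of_card_eq
      exact le_antisymm (Subgroup.card_le_card_group K) (not_lt.mp hnot)
    by_cases hJtop : A₁ ⊔ A₂ = ⊤
    swap
    · exact of_subgroup S _ hJ (ih _ (hcard _ hJtop) _ rfl) A₁ A₂ h₁ h₂ le_sup_left le_sup_right
    by_cases hcomm : commutator G = ⊥
    · have hA₁ : A₁.Normal := by
        constructor
        intro a ha g
        have h3 : g * a * g⁻¹ * a⁻¹ ∈ commutator G := by
          rw [commutator_def]
          exact Subgroup.commutator_mem_commutator (mem_top g) (mem_top a)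
        rw [hcomm, mem_bot] at h3
        have h4 : g * a * g⁻¹ = a := by
          rw [← mul_inv_eq_one]
          exact h3
        rw [h4]
        exact ha
      exact sup_inf_le_of_normal S A₁ A₂ hA₁ h₂
    have hne : {M : Subgroup G | M.Normal ∧ M ≠ ⊥ ∧ M ≤ commutator G}.Nonempty :=
      ⟨commutator G, inferInstance, hcomm, le_rfl⟩
    obtain ⟨M, ⟨hMn, hM0, hMd⟩, hmin⟩ := (wellFounded_lt (α := Subgroup G)).has_min _ hne
    have hMmin : ∀ X : Subgroup G, X.Normal → X ≤ M → X = ⊥ ∨ X = M := by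
      intro X hXn hX
      by_cases hX0 : X = ⊥
      · exact Or.inl hX0
      · right
        by_contra hne'
        exact hmin X ⟨hXn, hX0, hX.trans hMd⟩ (lt_of_le_of_ne hX hne')
    have hcardq : Nat.card (G ⧸ M) < n := by
      rw [← hG, Subgroup.card_eq_card_quotient_mul_card_subgroup M]
      have h1 : 1 < Nat.card M := by
        rw [Subgroup.one_lt_card_iff_ne_bot]
        exact hM0
      have h2 : 0 < Nat.card (G ⧸ M) := Nat.card_pos
      nlinarith
    have hq := of_quotient S M (ih _ hcardq _ rfl) A₁ A₂ h₁ h₂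
    suffices hMT : M ⊓ (S : Subgroup G) ≤ T from hq.trans (sup_le le_rfl hMT)
    have hn₁ := le_normalizer_of_isSubnormal_of_minimal_normal h₁ hM0 hMn hMmin
    have hn₂ := le_normalizer_of_isSubnormal_of_minimal_normal h₂ hM0 hMn hMmin
    have hLn : ((M ⊓ A₁) ⊔ (M ⊓ A₂)).Normal := by
      rw [← normalizer_eq_top_iff, eq_top_iff, ← hJtop]
      refine sup_le (le_normalizer_aux M A₁ A₂ hMn hn₁) ?_
      have h3 := le_normalizer_aux M A₂ A₁ hMn hn₂
      rwa [sup_comm] at h3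
    rcases hMmin _ hLn (sup_le inf_le_left inf_le_left) with hL | hL
    · have hb₁ : M ⊓ A₁ = ⊥ := le_bot_iff.mp (hL ▸ le_sup_left)
      have hb₂ : M ⊓ A₂ = ⊥ := le_bot_iff.mp (hL ▸ le_sup_right)
      have hMN : ∀ A : Subgroup G, A ≤ normalizer (M : Set G) := by
        intro A
        rw [normalizer_eq_top_iff.mpr hMn]
        exact le_top
      have hc₁ : A₁ ≤ centralizer (M : Set G) :=
        le_centralizer_of_inf_eq_bot (hMN A₁) hn₁ (by rwa [inf_comm])
      have hc₂ : A₂ ≤ centralizer (M : Set G) :=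
        le_centralizer_of_inf_eq_bot (hMN A₂) hn₂ (by rwa [inf_comm])
      have hMc : M ≤ center G := by
        intro m hm
        rw [mem_center_iff]
        intro g
        have hg : g ∈ centralizer (M : Set G) := by
          have : g ∈ A₁ ⊔ A₂ := by rw [hJtop]; trivial
          exact (sup_le hc₁ hc₂) this
        exact (mem_centralizer_iff.mp hg m hm).symm
      apply central_le S T M hTS hMc hMd
      rw [hJtop, top_inf_eq] at hq
      exact hq
    · by_cases hMtop : M = ⊤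
      · have hbot : ∀ A : Subgroup G, A.IsSubnormal → A = ⊤ ∨ A = ⊥ := by
          intro A hA
          rcases hA.lt_normal with h | ⟨K, hKn, hAK, hK⟩
          · exact Or.inl h
          · right
            rcases hMmin K hKn (hMtop ▸ le_top) with h | h
            · exact le_bot_iff.mp (h ▸ hAK)
            · rw [h, hMtop] at hK
              exact absurd hK (lt_irrefl _)
        rcases hbot A₁ h₁ with h | h
        · rw [hT, h, top_inf_eq]
          exact inf_le_right.trans le_sup_left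
        rcases hbot A₂ h₂ with h' | h'
        · rw [hT, h', top_inf_eq]
          exact inf_le_right.trans le_sup_right
        · exfalso
          rw [h, h', sup_bot_eq] at hJtop
          rw [hMtop, ← hJtop] at hM0
          exact hM0 rfl
      · have h3 := of_subgroup S M hMn.isSubnormal (ih _ (hcard M hMtop) _ rfl) (M ⊓ A₁) (M ⊓ A₂)
          (hMn.isSubnormal.inf h₁) (hMn.isSubnormal.inf h₂) inf_le_left inf_le_left
        rw [hL] at h3
        exact h3.trans (sup_le_sup (inf_le_inf_right _ inf_le_right)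
          (inf_le_inf_right _ inf_le_right))

/-- Let G be a finite group, p a prime, S a Sylow p-subgroup of G and A₁, A₂ subnormal subgroups of G. Then the join of S ∩ A₁ and S ∩ A₂ is a Sylow p-subgroup of the join of A₁ and A₂; equivalently ⟨A₁, A₂⟩ ∩ S = ⟨A₁ ∩ S, A₂ ∩ S⟩. -/
theorem result {G : Type*} [Group G] [Finite G] {p : ℕ} [Fact p.Prime] (S : Sylow p G) (A₁ A₂ : Subgroup G)
    (h₁ : A₁.IsSubnormal) (h₂ : A₂.IsSubnormal) :
    (A₁ ⊔ A₂) ⊓ (S : Subgroup G) = (A₁ ⊓ (S : Subgroup G)) ⊔ (A₂ ⊓ (S : Subgroup G)) := by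
  apply le_antisymm (main p _ G rfl S A₁ A₂ h₁ h₂)
  exact sup_le (inf_le_inf_right _ le_sup_left) (inf_le_inf_right _ le_sup_right)

end Cfsg.Agent.S3028
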