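import Cfsg.Statements.S3054
import Cfsg.Agent.Lib.Helper24.ES3.Main

set_option autoImplicit false
open Cfsg

namespace Cfsg.Agent.S3054

/-- Let p be an odd prime and G a finite group with a Sylow p-subgroup P that is extraspecial of order p³ and exponent p. Suppose P contains three distinct subgroups A of order p² (each is elementary abelian of rank 2) such that every automorphism of A of order p is induced by conjugation by an element of G; equivalently the automorphism group induced on A by its normalizer contains the special linear group of A. Then p ≤ 13. -/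
theorem result {G : Type*} [Group G] [Finite G]
    {p : ℕ} [Fact p.Prime] (hp : p ≠ 2) (P : Sylow p G) (hE : Cfsg.IsExtraspecial p ↥P)
    (hcard : Nat.card P = p ^ 3) (hexp : Monoid.exponent ↥P = p)
    (A : Fin 3 → Subgroup G) (hA : Function.Injective A) (hAP : ∀ i, A i ≤ (P : Subgroup G))
    (hAcard : ∀ i, Nat.card ↥(A i) = p ^ 2)
    (hSL : ∀ i, ∀ φ : MulAut ↥(A i), orderOf φ = p → ∃ g : G, ∀ a : ↥(A i), (φ a : G) = g * (a : G) * g⁻¹) :
    p ≤ 13 := by
  obtain ⟨z, h⟩ := Cfsg.Agent.Lib.Helper24.ES3.dat_of_extraspecial P hE hcard hexp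
  choose w hwA hwz hH using fun i =>
    Cfsg.Agent.Lib.Helper24.ES3.hw_of_SL h (hAP i) (hAcard i) (hSL i)
  refine (Cfsg.Agent.Lib.Helper24.ES3.main hp P h w (fun j => hAP j (hwA j)) hwz hH ?_).1 le_rfl
  intro i j hij m l hjl
  apply hij
  apply hA
  have hzi : z ∈ A i := Cfsg.Agent.Lib.Helper24.ES3.z_mem_of_card_sq h (hAP i) (hAcard i)
  have hzj : z ∈ A j := Cfsg.Agent.Lib.Helper24.ES3.z_mem_of_card_sq h (hAP j) (hAcard j)
  have hle : A j ≤ A i := by
    intro x hx
    obtain ⟨a, b, rfl⟩ := Cfsg.Agent.Lib.Helper24.ES3.mem_of_card_sq h (hAP j) (hAcard j) hzj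
      (hwA j) (hwz j) x hx
    refine (A i).mul_mem ((A i).pow_mem ?_ _) ((A i).pow_mem hzi _)
    rw [hjl]
    exact (A i).mul_mem ((A i).pow_mem (hwA i) _) ((A i).pow_mem hzi _)
  exact (Subgroup.eq_of_le_of_card_ge hle (by rw [hAcard i, hAcard j])).symm

end Cfsg.Agent.S3054
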