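import Cfsg.Statements.S3055
import Cfsg.Agent.Lib.Helper24.ES3.Main

set_option autoImplicit false
open Cfsg

namespace Cfsg.Agent.S3055

/-- Let p be an odd prime and G a finite group with a Sylow p-subgroup P that is extraspecial of order p³ and exponent p. If all nonidentity elements of P are conjugate in G, then p ≤ 7. -/
theorem result {G : Type*} [Group G] [Finite G]
    {p : ℕ} [Fact p.Prime] (hp : p ≠ 2) (P : Sylow p G) (hE : Cfsg.IsExtraspecial p ↥P)
    (hcard : Nat.card P = p ^ 3) (hexp : Monoid.exponent ↥P = p)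
    (hconj : ∀ x y : ↥P, x ≠ 1 → y ≠ 1 → ∃ g : G, g * (x : G) * g⁻¹ = (y : G)) :
    p ≤ 7 := by
  by_contra hp7
  obtain ⟨z, h⟩ := Cfsg.Agent.Lib.Helper24.ES3.dat_of_extraspecial P hE hcard hexp
  obtain ⟨w, hwP, hwz, hne⟩ := Cfsg.Agent.Lib.Helper24.ES3.seven (by omega) h
  have hc : ∀ x ∈ (P : Subgroup G), ∀ y ∈ (P : Subgroup G), x ≠ 1 → y ≠ 1 →
      ∃ g : G, g * x * g⁻¹ = y := by
    intro x hx y hy hx1 hy1
    exact hconj ⟨x, hx⟩ ⟨y, hy⟩ (fun hh => hx1 (congrArg Subtype.val hh))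
      (fun hh => hy1 (congrArg Subtype.val hh))
  exact hp7 ((Cfsg.Agent.Lib.Helper24.ES3.main hp P h w hwP hwz
    (fun j => Cfsg.Agent.Lib.Helper24.ES3.hw_of_conj P h hc (hwP j) (hwz j)) hne).2 le_rfl)

end Cfsg.Agent.S3055
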