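import Mathlib
import Cfsg.Statements.S3059
import Cfsg.Agent.Lib.Helper51.SPE
import Cfsg.Agent.Lib.Helper2.PComplement

set_option autoImplicit false
open Cfsg

namespace Cfsg.Agent.S3059

open Cfsg.Agent.Lib.Helper51 Subgroup

/-- Let p be a prime and H a strongly p-embedded subgroup of the finite group G in the classical sense: H is proper, p divides the order of H, and H ∩ gHg⁻¹ has order prime to p for every g outside H. Then for every normal subgroup N of G of order divisible by p, G = H · O^p(N), where O^p(N) is the subgroup generated by the elements of N of order prime to p. -/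
theorem result {G : Type*} [Group G] [Finite G]
    (p : ℕ) [Fact p.Prime] (H : Subgroup G) (hH : H ≠ ⊤) (hpH : p ∣ Nat.card H)
    (hse : ∀ g : G, g ∉ H → ¬ p ∣ Nat.card ↥(H ⊓ H.map (MulAut.conj g).toMonoidHom))
    (N : Subgroup G) [N.Normal] (hN : p ∣ Nat.card N) :
    H ⊔ Subgroup.closure {g : G | g ∈ N ∧ (orderOf g).Coprime p} = ⊤ := by
  have h : SPE p H := ⟨hH, hpH, hse⟩
  obtain ⟨P, hPH, -⟩ := h.exists_sylow_le
  obtain ⟨R0, hR0⟩ := exists_sylow_map_eq_inf P N
  have hR1 : (P : Subgroup G) ⊓ N ≠ ⊥ := sylow_inf_normal_ne_bot P N hN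
  have hRH : (P : Subgroup G) ⊓ N ≤ H := inf_le_left.trans hPH
  have hNR : normalizer (((P : Subgroup G) ⊓ N : Subgroup G) : Set G) ≤ H :=
    h.normalizer_le (P.isPGroup'.to_le inf_le_left) hR1 hRH
  have hfr := Sylow.normalizer_sup_eq_top R0
  rw [hR0] at hfr
  set K := Subgroup.closure {g : G | g ∈ N ∧ (orderOf g).Coprime p} with hK
  have h1 := Cfsg.Agent.Lib.Helper2.pResidual_sup_sylow R0
  have h2 : (Cfsg.pResidual p ↥N).map N.subtype ≤ K := by
    rw [Subgroup.map_le_iff_le_comap]
    unfold Cfsg.pResidual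
    rw [closure_le]
    intro g hg
    apply Subgroup.subset_closure
    refine ⟨g.2, ?_⟩
    have : orderOf ((N.subtype g : G)) = orderOf g := Subgroup.orderOf_coe g
    rw [this]; exact hg
  have h3 : N ≤ K ⊔ ((P : Subgroup G) ⊓ N) := by
    have h4 := congrArg (Subgroup.map N.subtype) h1
    rw [Subgroup.map_sup, hR0, ← MonoidHom.range_eq_map, range_subtype] at h4
    calc N = (Cfsg.pResidual p ↥N).map N.subtype ⊔ ((P : Subgroup G) ⊓ N) := h4.symm
      _ ≤ K ⊔ ((P : Subgroup G) ⊓ N) := sup_le_sup_right h2 _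
  rw [eq_top_iff, ← hfr]
  refine sup_le (hNR.trans le_sup_left) (h3.trans (sup_le le_sup_right (hRH.trans le_sup_left)))

end Cfsg.Agent.S3059
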