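import Cfsg.Statements.S3060
import Cfsg.Agent.Lib.Helper51.DStarOf
import Cfsg.Agent.Lib.Helper51.Cores

set_option autoImplicit false
open Cfsg

namespace Cfsg.Agent.S3060

open Cfsg.Agent.Lib.Helper51 Subgroup
open scoped commutatorElement Pointwise

/-- The D*-Theorem. For a finite p-group S let D*(S) be the subgroup generated by the abelian subgroups A of S such that every x ∈ S with ⟨A, x⟩ of nilpotency class at most two centralizes A. Let p be an odd prime and H a finite p-stable group with Sylow p-subgroup S. Here H is p-stable in the following sense: the largest normal p-subgroup O_p(H) contains its centralizer in H, and for every normal p-subgroup P of H, every element acting quadratically on P has image in O_p(H/C_H(P)). Then D*(S) is a normal subgroup of H. -/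
theorem result {G : Type*} [Group G] [Finite G] {p : ℕ} [Fact p.Prime] (hp : p ≠ 2)
    (hc : Subgroup.centralizer (Cfsg.pCore p G : Set G) ≤ Cfsg.pCore p G)
    (hst : ∀ (P : Subgroup G) [P.Normal], IsPGroup p P → Cfsg.IsPStableOn p P) (S : Sylow p G) :
    (Cfsg.dStarOf (S : Subgroup G)).Normal := by
  set T : Subgroup G := (S : Subgroup G) with hT
  have hnil : Group.IsNilpotent T := S.isPGroup'.isNilpotent
  set D := Cfsg.dStarOf T with hD
  set Q := Cfsg.pCore p G with hQ
  have hDfam : D ∈ famOf T := dStarOf_mem_famOf T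
  obtain ⟨hDT, hDc, hDprop⟩ := hDfam
  have hQT : Q ≤ T := pCore_le_sylow S
  have hQp : IsPGroup p Q := isPGroup_pCore
  have hQn : Q.Normal := inferInstance
  have hTD : T ≤ normalizer (D : Set G) := le_normalizer.trans (normalizer_le_normalizer_dStarOf T)
  -- Step 1
  have hDQ : D ≤ Q := by
    intro a ha
    have hquad : ⁅⁅Q, zpowers a⁆, zpowers a⁆ = ⊥ := by
      have h1 : ⁅Q, zpowers a⁆ ≤ D := by
        rw [commutator_le]
        intro q hq b hb
        have hbD : b ∈ D := (zpowers_le.mpr ha) hb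
        exact D.mul_mem ((le_normalizer_iff.mp hTD) q (hQT hq) b hbD) (D.inv_mem hbD)
      rw [eq_bot_iff]
      calc _ ≤ ⁅D, D⁆ := commutator_mono h1 (zpowers_le.mpr ha)
        _ = ⊥ := commutator_eq_bot_iff_le_centralizer.mpr hDc
    have h2 := hst Q hQp a hquad
    have hC : IsPGroup p (centralizer (Q : Set G)) := hQp.to_le hc
    exact comap_pCore_quotient_le (centralizer (Q : Set G)) hC h2
  -- conjugates
  have hfam : ∀ h : G, D.map (MulAut.conj h).toMonoidHom ∈ famOf (T.map (MulAut.conj h).toMonoidHom) :=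
    fun h => map_mem_famOf _ (dStarOf_mem_famOf T)
  have hDhQ : ∀ h : G, D.map (MulAut.conj h).toMonoidHom ≤ Q := by
    rintro h _ ⟨d, hd, rfl⟩
    simp only [MulEquiv.coe_toMonoidHom, MulAut.conj_apply]
    exact hQn.conj_mem d (hDQ hd) h
  have hQTh : ∀ h : G, Q ≤ T.map (MulAut.conj h).toMonoidHom := by
    intro h q hq
    refine ⟨h⁻¹ * q * h, hQT ?_, ?_⟩
    · have := hQn.conj_mem q hq h⁻¹
      simpa using this
    · simp only [MulEquiv.coe_toMonoidHom, MulAut.conj_apply]; group
  have hThDh : ∀ h : G, T.map (MulAut.conj h).toMonoidHom ≤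
      normalizer ((D.map (MulAut.conj h).toMonoidHom : Subgroup G) : Set G) :=
    fun h => (Subgroup.map_mono hTD).trans (le_normalizer_map _)
  -- Step 2
  have comm : ∀ h : G, ∀ x ∈ D.map (MulAut.conj h).toMonoidHom, ∀ d ∈ D, d * x = x * d := by
    intro h x hx
    have hxT : x ∈ T := hQT (hDhQ h hx)
    apply hDprop x hxT
    apply class_two_sup_zpowers D hDc x
    · intro a ha b hb
      have hmem : ⁅a, x⁆ ∈ D := by
        have e : ⁅a, x⁆ = a * (x * a⁻¹ * x⁻¹) := by simp [commutatorElement_def, mul_assoc]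
        rw [e]
        exact D.mul_mem ha ((le_normalizer_iff.mp hTD) x hxT _ (D.inv_mem ha))
      exact (mem_centralizer_iff.mp (hDc hmem)) b hb
    · intro a ha
      have hmem : ⁅a, x⁆ ∈ D.map (MulAut.conj h).toMonoidHom :=
        mul_mem ((le_normalizer_iff.mp (hThDh h)) a (hQTh h (hDQ ha)) x hx) (inv_mem hx)
      exact (mem_centralizer_iff.mp ((hfam h).2.1 hmem)) x hx
  -- Step 3
  set N := normalClosure (D : Set G) with hN
  have hNn : N.Normal := normalClosure_normal
  have hNQ : N ≤ Q := normalClosure_le_normal hDQ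
  have hDN : D ≤ N := le_normalClosure
  have hDhN : ∀ h : G, D.map (MulAut.conj h).toMonoidHom ≤ N := by
    rintro h _ ⟨d, hd, rfl⟩
    simp only [MulEquiv.coe_toMonoidHom, MulAut.conj_apply]
    exact hNn.conj_mem d (hDN hd) h
  have hgen : ∀ K : Subgroup G, (∀ h : G, D.map (MulAut.conj h).toMonoidHom ≤ K) → N ≤ K := by
    intro K hK
    rw [hN]
    unfold normalClosure
    rw [closure_le]
    intro x hx
    rw [Group.mem_conjugatesOfSet_iff] at hx
    obtain ⟨a, ha, hcj⟩ := hx
    rw [isConj_iff] at hcj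
    obtain ⟨c, hc⟩ := hcj
    exact hK c ⟨a, ha, by simpa [MulAut.conj_apply] using hc⟩
  have hNc : N ≤ centralizer (N : Set G) := by
    apply hgen
    intro g
    rw [le_centralizer_iff]
    apply hgen
    rintro h _ ⟨d', hd', rfl⟩
    rw [mem_centralizer_iff]
    rintro _ ⟨d, hd, rfl⟩
    simp only [MulEquiv.coe_toMonoidHom, MulAut.conj_apply]
    have h1 := comm (g⁻¹ * h) (g⁻¹ * h * d' * (g⁻¹ * h)⁻¹) ⟨d', hd', by simp [MulAut.conj_apply]; group⟩ d hd
    calc g * d * g⁻¹ * (h * d' * h⁻¹) = g * (d * (g⁻¹ * h * d' * (g⁻¹ * h)⁻¹)) * g⁻¹ := by group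
      _ = g * ((g⁻¹ * h * d' * (g⁻¹ * h)⁻¹) * d) * g⁻¹ := by rw [h1]
      _ = h * d' * h⁻¹ * (g * d * g⁻¹) := by group
  -- Step 4
  have hNfam : N ∈ famOf T := by
    refine ⟨hNQ.trans hQT, hNc, ?_⟩
    intro x hxT hcl
    have hquad : ⁅⁅N, zpowers x⁆, zpowers x⁆ = ⊥ := by
      rw [eq_bot_iff, ← hcl]
      exact commutator_mono (commutator_mono le_sup_left le_sup_right) le_sup_right
    have h2 := hst N (hQp.to_le hNQ) x hquad
    have hcent : N ≤ centralizer ({x} : Set G) := by
      apply hgen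
      intro g
      obtain ⟨s, hs, c, hc, hx⟩ := exists_mul_of_mk_mem_pCore (centralizer (N : Set G)) (MulAut.conj g • S) x h2
      have hsT : s ∈ T.map (MulAut.conj g).toMonoidHom := by
        have : s ∈ MulAut.conj g • (S : Subgroup G) := hs
        rw [mem_smul_pointwise_iff_exists] at this
        obtain ⟨t, ht, hts⟩ := this
        exact ⟨t, ht, hts⟩
      have hcN : ∀ n ∈ N, n * c = c * n := fun n hn => (mem_centralizer_iff.mp hc) n hn
      -- commutators with s and x agree
      have hcomm_eq : ∀ a ∈ N, ⁅a, s⁆ = ⁅a, x⁆ := by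
        intro a ha
        have h3 : c * a⁻¹ * c⁻¹ = a⁻¹ := by
          rw [← hcN a⁻¹ (N.inv_mem ha)]; group
        calc ⁅a, s⁆ = a * s * a⁻¹ * s⁻¹ := rfl
          _ = a * s * (c * a⁻¹ * c⁻¹) * s⁻¹ := by rw [h3]
          _ = a * (s * c) * a⁻¹ * (s * c)⁻¹ := by group
          _ = ⁅a, x⁆ := by rw [← hx]; rfl
      have hcommN : ∀ a ∈ N, ⁅a, x⁆ ∈ N := by
        intro a ha
        have e : ⁅a, x⁆ = a * (x * a⁻¹ * x⁻¹) := by simp [commutatorElement_def, mul_assoc]
        rw [e]
        exact N.mul_mem ha (hNn.conj_mem _ (N.inv_mem ha) x)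
      have hxw : ∀ a ∈ N, x * ⁅a, x⁆ = ⁅a, x⁆ * x := by
        intro a ha
        have h4 : ⁅a, x⁆ ∈ ⁅N ⊔ zpowers x, N ⊔ zpowers x⁆ :=
          commutator_mem_commutator (mem_sup_left ha) (mem_sup_right (mem_zpowers x))
        have h5 := (commutator_eq_bot_iff_le_centralizer.mp hcl) h4
        exact (mem_centralizer_iff.mp h5) x (mem_sup_right (mem_zpowers x))
      have hs_eq : s = x * c⁻¹ := by rw [hx]; group
      have hscl := class_two_sup_zpowers (D.map (MulAut.conj g).toMonoidHom) (hfam g).2.1 s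
        (by
          intro a ha b hb
          rw [hcomm_eq a (hDhN g ha)]
          exact (mem_centralizer_iff.mp (hNc (hcommN a (hDhN g ha)))) b (hDhN g hb))
        (by
          intro a ha
          rw [hcomm_eq a (hDhN g ha)]
          have hw := hcommN a (hDhN g ha)
          have h6 : c⁻¹ * ⁅a, x⁆ = ⁅a, x⁆ * c⁻¹ := by
            have := hcN _ hw
            calc c⁻¹ * ⁅a, x⁆ = c⁻¹ * (⁅a, x⁆ * c) * c⁻¹ := by group
              _ = c⁻¹ * (c * ⁅a, x⁆) * c⁻¹ := by rw [this]
              _ = ⁅a, x⁆ * c⁻¹ := by group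
          calc s * ⁅a, x⁆ = x * (c⁻¹ * ⁅a, x⁆) := by rw [hs_eq]; group
            _ = (x * ⁅a, x⁆) * c⁻¹ := by rw [h6]; group
            _ = ⁅a, x⁆ * x * c⁻¹ := by rw [hxw a (hDhN g ha)]
            _ = ⁅a, x⁆ * s := by rw [hs_eq]; group)
      have hsD := (hfam g).2.2 s hsT hscl
      intro a ha
      rw [mem_centralizer_singleton_iff]
      have h7 := hsD a ha
      have h8 := hcN a (hDhN g ha)
      calc a * x = (a * s) * c := by rw [hx]; group
        _ = s * (a * c) := by rw [h7]; group
        _ = x * a := by rw [h8, hx]; group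
    intro a ha
    exact mem_centralizer_singleton_iff.mp (hcent ha)
  have hND : N ≤ D := le_dStarOf hNfam
  have : D = N := le_antisymm hDN hND
  rw [this]
  exact hNn

end Cfsg.Agent.S3060
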