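import Cfsg.Statements.S3062
import Cfsg.Agent.Lib.Helper51.Replacement
import Cfsg.Agent.Lib.Helper51.DStar

set_option autoImplicit false
open Cfsg

namespace Cfsg.Agent.S3062

open Cfsg.Agent.Lib.Helper51 Subgroup
open scoped commutatorElement

/-- `D*(S)` lies in every abelian subgroup of maximal order. -/
theorem dStar_le_of_mem_maxAbelian {S : Type*} [Group S] [Finite S] [Group.IsNilpotent S]
    (A : Subgroup S) (hA : A ∈ Cfsg.maxAbelianSubgroups S) : Cfsg.dStar S ≤ A := by
  set D := Cfsg.dStar S with hD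
  have hDc : D ≤ centralizer (D : Set S) := dStar_le_centralizer
  have hDn : D.Normal := inferInstance
  have hDmem : D ∈ Cfsg.dStarFamily S := dStar_mem_dStarFamily
  by_contra hcon
  have hfin : {B : Subgroup S | B ∈ Cfsg.maxAbelianSubgroups S ∧ ¬ D ≤ B}.Finite := Set.toFinite _
  obtain ⟨B, ⟨hB, hDB⟩, hmax⟩ := Set.exists_max_image _ (fun B : Subgroup S => Nat.card ↥(B ⊓ D)) hfin
    ⟨A, hA, hcon⟩
  have hBc : B ≤ centralizer (B : Set S) := (mem_maxAbelian_iff.mp hB).1
  by_cases hDN : D ≤ normalizer (B : Set S)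
  · -- quadratic action, so `B` centralizes `D`
    apply hDB
    apply le_of_le_centralizer_maxAbelian hB hDc
    rw [le_centralizer_iff]
    intro x hx
    have hmemD : ∀ d ∈ D, ⁅d, x⁆ ∈ D := by
      intro d hd
      have : ⁅d, x⁆ = d * (x * d⁻¹ * x⁻¹) := by simp [commutatorElement_def, mul_assoc]
      rw [this]
      exact D.mul_mem hd (hDn.conj_mem _ (D.inv_mem hd) x)
    have hmemB : ∀ d ∈ D, ⁅d, x⁆ ∈ B := by
      intro d hd
      have h1 : d * x * d⁻¹ ∈ B := (le_normalizer_iff.mp hDN) d hd x hx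
      exact B.mul_mem h1 (B.inv_mem hx)
    have hcl := class_two_sup_zpowers D hDc x
      (fun a ha b hb => (mem_centralizer_iff.mp (hDc (hmemD a ha))) b hb)
      (fun a ha => (mem_centralizer_iff.mp (hBc (hmemB a ha))) x hx)
    rw [mem_centralizer_iff]
    exact hDmem.2 x hcl
  · obtain ⟨Bs, h1, h2, h3, -⟩ := thompson_replacement hB D hDc le_normalizer_of_normal hDN
    by_cases hDBs : D ≤ Bs
    · exact hDN (hDBs.trans h3)
    · have h6 := hmax Bs ⟨h1, hDBs⟩
      have h7 : B ⊓ D = Bs ⊓ D := eq_of_le_of_card_ge h2.le h6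
      exact h2.ne h7

/-- Let S be a finite p-group, J(S) the subgroup generated by the abelian subgroups of S of largest order and Z(J(S)) its centre. Then Z(S) ≤ D*(S) ≤ Z(J(S)), and every maximal normal abelian subgroup of S contains D*(S). -/
theorem result {S : Type*} [Group S] [Finite S] {p : ℕ} [Fact p.Prime]
    (hS : IsPGroup p S) :
    Subgroup.center S ≤ Cfsg.dStar S ∧
    Cfsg.dStar S ≤ Cfsg.thompsonSubgroupA S ⊓ Subgroup.centralizer (Cfsg.thompsonSubgroupA S : Set S) ∧
    ∀ A : Subgroup S, A.Normal → IsMulCommutative A →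
      (∀ B : Subgroup S, B.Normal → IsMulCommutative B → A ≤ B → B = A) → Cfsg.dStar S ≤ A := by
  have hnil : Group.IsNilpotent S := hS.isNilpotent
  refine ⟨le_dStar center_mem_dStarFamily, le_inf ?_ ?_, ?_⟩
  · obtain ⟨A, hA⟩ := exists_mem_maxAbelian (P := S)
    exact (dStar_le_of_mem_maxAbelian A hA).trans (le_sSup hA)
  · rw [le_centralizer_iff]
    unfold Cfsg.thompsonSubgroupA
    rw [sSup_le_iff]
    intro A hA
    have h1 := dStar_le_of_mem_maxAbelian A hA
    exact (mem_maxAbelian_iff.mp hA).1.trans (centralizer_le (by exact_mod_cast h1))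
  · intro A hAn hAc hmax
    apply dStar_le_of_maximal_normal_abelian A hAn (le_centralizer_iff_isMulCommutative.mpr hAc)
    intro B hBn hBc hAB
    exact hmax B hBn (le_centralizer_iff_isMulCommutative.mp hBc) hAB

end Cfsg.Agent.S3062
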