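import Cfsg.Statements.S3063
import Cfsg.Agent.Lib.Helper51.Replacement

set_option autoImplicit false
open Cfsg

namespace Cfsg.Agent.S3063

open Cfsg.Agent.Lib.Helper51 Subgroup
open scoped commutatorElement

/-- A weak replacement Theorem for metabelian p-groups: let S be a finite p-group whose derived subgroup is abelian and A an abelian subgroup of S of largest possible order. Then the normal closure of A in S contains an abelian subgroup B of the same order as A that is normal in S. -/
theorem result {S : Type*} [Group S] [Finite S] {p : ℕ} [Fact p.Prime]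
    (hS : IsPGroup p S) (hmeta : IsMulCommutative ↥(commutator S))
    (A : Subgroup S) (hA : A ∈ Cfsg.maxAbelianSubgroups S) :
    ∃ B ∈ Cfsg.maxAbelianSubgroups S, B.Normal ∧ B ≤ Subgroup.normalClosure (A : Set S) := by
  have hnil : Group.IsNilpotent S := hS.isNilpotent
  have hD : commutator S ≤ centralizer (commutator S : Set S) := le_centralizer_iff_isMulCommutative.mpr hmeta
  have hfin : {B : Subgroup S | B ∈ Cfsg.maxAbelianSubgroups S ∧ B ≤ normalClosure (A : Set S)}.Finite :=
    Set.toFinite _
  obtain ⟨B, ⟨hB, hBA⟩, hmax⟩ := Set.exists_max_image _ (fun B : Subgroup S => Nat.card ↥(B ⊓ commutator S)) hfin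
    ⟨A, hA, le_normalClosure⟩
  refine ⟨B, hB, ?_, hBA⟩
  by_contra hn
  have hN : normalizer (B : Set S) < ⊤ := by
    rw [lt_top_iff_ne_top]
    intro h
    exact hn (normalizer_eq_top_iff.mp h)
  have hNN := Group.normalizerCondition_of_isNilpotent (G := S) _ hN
  obtain ⟨x, hx, hxN⟩ := SetLike.exists_of_lt hNN
  have h1 : B.map (MulAut.conj x).toMonoidHom ≤ normalizer (B : Set S) := by
    rintro _ ⟨b, hb, rfl⟩
    simp only [MulEquiv.coe_toMonoidHom, MulAut.conj_apply]
    exact (mem_normalizer_iff.mp hx b).mp (le_normalizer hb)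
  have hne : B.map (MulAut.conj x).toMonoidHom ≠ B := fun h => hxN (mem_normalizer_iff_map_conj_eq.mpr h)
  obtain ⟨Bs, h2, h3, h4⟩ := replacement_core hB x h1 hne (commutator S) hD (by
    intro a _
    exact commutator_mem_commutator (mem_top x) (mem_top a))
  have h5 : Bs ≤ normalClosure (A : Set S) := by
    refine h4.trans (sup_le hBA ?_)
    rintro _ ⟨b, hb, rfl⟩
    simp only [MulEquiv.coe_toMonoidHom, MulAut.conj_apply]
    exact normalClosure_normal.conj_mem b (hBA hb) x
  have h6 := hmax Bs ⟨h2, h5⟩
  have h7 : B ⊓ commutator S = Bs ⊓ commutator S := eq_of_le_of_card_ge h3.le h6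
  exact h3.ne h7

end Cfsg.Agent.S3063
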