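import Mathlib
import Cfsg.Statements.S3064
import Cfsg.Agent.S0035

set_option autoImplicit false
open Cfsg

namespace Cfsg.Agent.S3064

open Subgroup
open scoped Pointwise

universe u

theorem aux {p : ℕ} [Fact p.Prime] : ∀ (n : ℕ) (G : Type u) [Group G] [Finite G], Nat.card G = n → ∀ x : G,
    (∃ k : ℕ, orderOf x = p ^ k) →
    (∀ Q : Subgroup G, IsPGroup p Q → x ∈ Q → ∀ g : G, g * x * g⁻¹ ∈ Q → g * x * g⁻¹ = x) →
    (∀ H : Subgroup G, (Nat.card H).Coprime p → (∀ h ∈ H, x * h * x⁻¹ ∈ H) → ∀ h ∈ H, x * h = h * x) →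
    x ∈ center G := by
  intro n
  induction n using Nat.strong_induction_on with
  | _ n ih =>
  intro G _ _ hn x P0 P1 P2
  have hpp : p.Prime := Fact.out
  by_contra hxZ
  -- proper subgroups containing `x` centralize it
  have hprop : ∀ H : Subgroup G, H ≠ ⊤ → x ∈ H → ∀ h ∈ H, h * x = x * h := by
    intro H hH hxH h hh
    have hlt : Nat.card H < n := by
      by_contra hge
      push Not at hge
      exact hH (Subgroup.eq_top_of_le_card H (hn ▸ hge))
    have := ih (Nat.card H) hlt H rfl ⟨x, hxH⟩ ?_ ?_ ?_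
    · exact congrArg Subtype.val (mem_center_iff.mp this ⟨h, hh⟩)
    · obtain ⟨k, hk⟩ := P0
      exact ⟨k, by rw [Subgroup.orderOf_mk]; exact hk⟩
    · intro Q hQ hxQ g hg
      have h1 := P1 (Q.map H.subtype) (hQ.map _) ⟨_, hxQ, rfl⟩ g ⟨_, hg, rfl⟩
      exact Subtype.ext h1
    · intro K hK hKx k hk
      have h1 := P2 (K.map H.subtype) (by rwa [Subgroup.card_map_of_injective H.subtype_injective]) ?_ k
        ⟨_, hk, rfl⟩
      · exact Subtype.ext h1
      · rintro _ ⟨k', hk', rfl⟩
        exact ⟨_, hKx k' hk', rfl⟩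
  have hxp : IsPGroup p (zpowers x) := by
    obtain ⟨k, hk⟩ := P0
    exact IsPGroup.of_card (n := k) (by rw [Nat.card_zpowers, hk])
  obtain ⟨C, hC⟩ : ∃ C, C = centralizer ({x} : Set G) := ⟨_, rfl⟩
  have hmemC : ∀ g, g ∈ C ↔ g * x = x * g := by
    intro g; rw [hC, mem_centralizer_singleton_iff]
  have hxC : x ∈ C := (hmemC x).mpr rfl
  have hgen : ∀ g, g ∉ C → zpowers x ⊔ zpowers (g * x * g⁻¹) = ⊤ := by
    intro g hg
    by_contra hne
    have hx1 : x ∈ zpowers x ⊔ zpowers (g * x * g⁻¹) := mem_sup_left (mem_zpowers x)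
    have hy1 : g * x * g⁻¹ ∈ zpowers x ⊔ zpowers (g * x * g⁻¹) := mem_sup_right (mem_zpowers _)
    have hcomm := hprop _ hne hx1 _ hy1
    have hyp : IsPGroup p (zpowers (g * x * g⁻¹)) := by
      obtain ⟨k, hk⟩ := P0
      refine IsPGroup.of_card (n := k) ?_
      rw [Nat.card_zpowers]
      have : g * x * g⁻¹ = MulAut.conj g x := rfl
      rw [this, MulEquiv.orderOf_eq, hk]
    have hnorm : zpowers x ≤ normalizer (zpowers (g * x * g⁻¹) : Set G) := by
      refine le_trans ?_ (centralizer_le_normalizer _)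
      rw [zpowers_le, mem_centralizer_iff]
      intro h hh
      obtain ⟨k, rfl⟩ := mem_zpowers_iff.mp hh
      exact (Commute.zpow_left hcomm k).eq
    have hP := hxp.to_sup_of_normal_right' hyp hnorm
    have h1 := P1 _ hP hx1 g hy1
    apply hg
    rw [hmemC]
    calc g * x = (g * x * g⁻¹) * g := by group
      _ = x * g := by rw [h1]
  have hTI : ∀ g, g ∉ C → ∀ y, y ∈ C → g⁻¹ * y * g ∈ C → y ∈ center G := by
    intro g hg y hy hy'
    rw [hmemC] at hy hy'
    have hle : zpowers x ⊔ zpowers (g * x * g⁻¹) ≤ centralizer ({y} : Set G) := by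
      refine sup_le ?_ ?_
      · rw [zpowers_le, mem_centralizer_singleton_iff]; exact hy.symm
      · rw [zpowers_le, mem_centralizer_singleton_iff]
        have e1 : g * x * g⁻¹ * y = g * (x * (g⁻¹ * y * g)) * g⁻¹ := by group
        rw [e1, ← hy']; group
    rw [hgen g hg] at hle
    rw [mem_center_iff]
    intro h
    exact mem_centralizer_singleton_iff.mp (hle (mem_top h))
  have hZC : center G ≤ C := by
    intro z hz
    rw [hmemC]
    exact (mem_center_iff.mp hz x).symm
  have hCtop : C ≠ ⊤ := by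
    intro h
    apply hxZ
    rw [mem_center_iff]
    intro g
    exact (hmemC g).mp (h ▸ mem_top g)
  -- pass to the quotient by the centre
  obtain ⟨π, hπ⟩ : ∃ π : G →* G ⧸ center G, π = QuotientGroup.mk' (center G) := ⟨_, rfl⟩
  have hπs : Function.Surjective π := hπ ▸ QuotientGroup.mk'_surjective _
  have hπk : π.ker = center G := hπ ▸ QuotientGroup.ker_mk' _
  have hπ1 : ∀ g, π g = 1 ↔ g ∈ center G := by
    intro g
    constructor
    · intro h
      have h1 : g ∈ π.ker := h
      rwa [hπk] at h1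
    · intro h
      have h1 : g ∈ π.ker := by rw [hπk]; exact h
      exact h1
  have hmemCbar : ∀ g, π g ∈ C.map π → g ∈ C := by
    rintro g ⟨c, hc, hcg⟩
    have h1 : π (c⁻¹ * g) = 1 := by rw [map_mul, map_inv, hcg]; group
    have h2 := hZC ((hπ1 _).mp h1)
    have : g = c * (c⁻¹ * g) := by group
    rw [this]; exact C.mul_mem hc h2
  have hF : Cfsg.IsFrobeniusComplement (C.map π) := by
    refine ⟨?_, ?_, ?_⟩
    · intro hb
      have : π x ∈ C.map π := mem_map_of_mem π hxC
      rw [hb, mem_bot, hπ1] at this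
      exact hxZ this
    · intro ht
      apply hCtop
      rw [eq_top_iff]
      intro g _
      exact hmemCbar g (ht ▸ mem_top _)
    · intro gb hgb
      obtain ⟨g, rfl⟩ := hπs gb
      have hg : g ∉ C := fun h => hgb (mem_map_of_mem π h)
      rw [eq_bot_iff]
      rintro yb ⟨hy1, hy2⟩
      obtain ⟨y, rfl⟩ := hπs yb
      replace hy2 : π y ∈ MulAut.conj (π g) • map π C := hy2
      rw [Subgroup.mem_pointwise_smul_iff_inv_smul_mem] at hy2
      have e : (MulAut.conj (π g))⁻¹ • π y = π (g⁻¹ * y * g) := by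
        simp [MulAut.smul_def]
      rw [e] at hy2
      rw [mem_bot, hπ1]
      exact hTI g hg y (hmemCbar y hy1) (hmemCbar _ hy2)
  obtain ⟨N, -, hNn, hNc⟩ := Cfsg.Agent.S0035.result (C.map π) hF
  obtain ⟨K, hK⟩ : ∃ K, K = N.comap π := ⟨_, rfl⟩
  have hKn : K.Normal := hK ▸ hNn.comap π
  have hKC : K ⊓ C ≤ center G := by
    rintro k ⟨hk1, hk2⟩
    rw [← hπ1]
    have h1 : π k ∈ N ⊓ C.map π := ⟨by rw [hK] at hk1; exact hk1, mem_map_of_mem π hk2⟩
    rw [hNc.disjoint.eq_bot] at h1
    exact h1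
  have hZK : center G ≤ K := by
    intro z hz
    rw [hK, mem_comap, (hπ1 z).mpr hz]; exact one_mem _
  have hN1 : N ≠ ⊥ := by
    intro hb
    rw [hb, isComplement'_bot_left] at hNc
    exact hF.2.1 hNc
  have hNcard : Nat.card N = C.index := by
    rw [← hNc.index_eq_card, Subgroup.index_map_eq C hπs (by rw [hπk]; exact hZC)]
  have hpN : ¬ p ∣ Nat.card N := by
    obtain ⟨S, hS⟩ := hxp.exists_le_sylow
    have hxS : x ∈ (S : Subgroup G) := hS (mem_zpowers x)
    have hSC : (S : Subgroup G) ≤ C := by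
      intro s hs
      have h1 := P1 S S.isPGroup' hxS s (mul_mem (mul_mem hs hxS) (inv_mem hs))
      rw [hmemC]
      calc s * x = (s * x * s⁻¹) * s := by group
        _ = x * s := by rw [h1]
    rw [hNcard]
    intro hdvd
    exact S.not_dvd_index (hdvd.trans (Subgroup.index_dvd_of_le hSC))
  have hrel : (center G).relIndex K = Nat.card N := by
    have h1 : ((⊥ : Subgroup (G ⧸ center G)).comap π).relIndex K = Nat.card N := by
      rw [Subgroup.relIndex_comap, hK, map_comap_eq_self_of_surjective hπs, relIndex_bot_left]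
    rwa [MonoidHom.comap_bot, hπk] at h1
  -- an `x`-invariant Sylow `q`-subgroup of `K`
  have hN1' : Nat.card N ≠ 1 := fun h => hN1 ((Subgroup.card_eq_one).mp h)
  obtain ⟨q, hq, hqN⟩ := Nat.exists_prime_and_dvd hN1'
  have : Fact q.Prime := ⟨hq⟩
  have hqp : q ≠ p := fun h => hpN (h ▸ hqN)
  obtain ⟨B, hB⟩ : ∃ B, B = (zpowers x).map (MulAut.conjNormal : G →* MulAut K) := ⟨_, rfl⟩
  have hBp : IsPGroup p B := hB ▸ hxp.map _
  have hcardS : ¬ p ∣ Nat.card (Sylow q K) := by
    intro hdvd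
    obtain ⟨Q⟩ : Nonempty (Sylow q K) := inferInstance
    rw [Q.card_eq_index_normalizer] at hdvd
    have hle : (center G).subgroupOf K ≤ normalizer ((Q : Subgroup K) : Set K) := by
      intro z hz
      rw [mem_subgroupOf] at hz
      rw [mem_normalizer_iff]
      intro h
      have : z * h * z⁻¹ = h := by
        apply Subtype.ext
        have := mem_center_iff.mp hz (h : G)
        simp only [Subgroup.coe_mul, Subgroup.coe_inv]
        rw [← this]; group
      rw [this]
    have h2 := hdvd.trans (Subgroup.index_dvd_of_le hle)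
    have h3 : ((center G).subgroupOf K).index = Nat.card N := hrel
    rw [h3] at h2
    exact hpN h2
  obtain ⟨Q, hQ⟩ := hBp.nonempty_fixed_point_of_prime_not_dvd_card (Sylow q K) hcardS
  have hxQ : (MulAut.conjNormal x : MulAut K) • Q = Q :=
    hQ ⟨MulAut.conjNormal x, by rw [hB]; exact mem_map_of_mem _ (mem_zpowers x)⟩
  have hQ0 := P2 ((Q : Subgroup K).map K.subtype) ?_ ?_
  · have hQZ : (Q : Subgroup K) ≤ (center G).subgroupOf K := by
      intro k hk
      rw [mem_subgroupOf]
      apply hKC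
      exact ⟨k.2, (hmemC _).mpr (hQ0 k ⟨k, hk, rfl⟩).symm⟩
    have h1 : ((center G).subgroupOf K).index ∣ (Q : Subgroup K).index := Subgroup.index_dvd_of_le hQZ
    have h3 : ((center G).subgroupOf K).index = Nat.card N := hrel
    rw [h3] at h1
    exact Q.not_dvd_index (hqN.trans h1)
  · rw [Subgroup.card_map_of_injective K.subtype_injective]
    obtain ⟨m, hm⟩ := IsPGroup.iff_card.mp Q.isPGroup'
    rw [hm]
    exact Nat.Coprime.pow_left m ((Nat.coprime_primes hq hpp).mpr hqp)
  · rintro _ ⟨k, hk, rfl⟩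
    refine ⟨MulAut.conjNormal x k, ?_, ?_⟩
    · have : (MulAut.conjNormal x : MulAut K) • k ∈ ((MulAut.conjNormal x : MulAut K) • Q : Sylow q K) := by
        show _ ∈ (((MulAut.conjNormal x : MulAut K) • Q : Sylow q K) : Subgroup K)
        rw [Sylow.pointwise_smul_def]
        exact Subgroup.smul_mem_pointwise_smul _ _ _ hk
      rw [hxQ] at this
      exact this
    · simp [MulAut.conjNormal_apply]

/-- Let S be a Sylow p-subgroup of the finite group G and x an element of S such that (i) x is the only G-conjugate of x lying in S, and (ii) x centralizes every subgroup of order prime to p that it normalizes. Then x lies in the centre of G. -/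
theorem result {G : Type*} [Group G] [Finite G] {p : ℕ} [Fact p.Prime]
    (S : Sylow p G) (x : G) (hx : x ∈ S)
    (hU : ∀ g : G, g⁻¹ * x * g ∈ S → g⁻¹ * x * g = x)
    (hb : ∀ H : Subgroup G, (Nat.card H).Coprime p → (∀ h ∈ H, x * h * x⁻¹ ∈ H) → ∀ h ∈ H, x * h = h * x) :
    x ∈ Subgroup.center G := by
  refine aux (p := p) (Nat.card G) G rfl x ?_ ?_ hb
  · obtain ⟨k, hk⟩ := (IsPGroup.iff_orderOf.mp S.isPGroup') ⟨x, hx⟩
    exact ⟨k, by rw [← hk, Subgroup.orderOf_mk]⟩
  · intro Q hQ hxQ g hg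
    obtain ⟨T, hT⟩ := hQ.exists_le_sylow
    obtain ⟨h, rfl⟩ := MulAction.exists_smul_eq G S T
    have h1 : h⁻¹ * x * h ∈ (S : Subgroup G) := by
      have := hT hxQ
      rw [Sylow.coe_subgroup_smul, Subgroup.mem_pointwise_smul_iff_inv_smul_mem] at this
      simpa [MulAut.smul_def] using this
    have h2 : (g⁻¹ * h)⁻¹ * x * (g⁻¹ * h) ∈ (S : Subgroup G) := by
      have := hT hg
      rw [Sylow.coe_subgroup_smul, Subgroup.mem_pointwise_smul_iff_inv_smul_mem] at this
      have e : (g⁻¹ * h)⁻¹ * x * (g⁻¹ * h) = h⁻¹ * (g * x * g⁻¹) * h := by group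
      rw [e]
      have e' : (MulAut.conj h)⁻¹ • (g * x * g⁻¹) = h⁻¹ * (g * x * g⁻¹) * h := by
        rw [MulAut.smul_def, MulAut.conj_inv_apply]
      rw [e'] at this
      exact this
    have e1 := hU h h1
    have e2 := hU _ h2
    have e3 : g * x * g⁻¹ = h * ((g⁻¹ * h)⁻¹ * x * (g⁻¹ * h)) * h⁻¹ := by group
    have e4 : x = h * (h⁻¹ * x * h) * h⁻¹ := by group
    rw [e3, e2]
    conv_rhs => rw [e4, e1]

end Cfsg.Agent.S3064
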