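import Cfsg.Statements.S3067
import Cfsg.Agent.S0215
import Cfsg.Agent.Lib.Helper51.CoprimeInvB

set_option autoImplicit false
open Cfsg

namespace Cfsg.Agent.S3067

open Cfsg.Agent.Lib.Helper51.CoprimeInv

theorem false_of_hyp {G : Type*} [Group G] [Finite G] [IsSimpleGroup G]
    (hG : ¬ IsMulCommutative G) {β : MulAut G} {r : ℕ} {τ : G} (hτ : orderOf τ = 2)
    (h : Hyp β r τ) (hβ : β ≠ 1) : False := by
  have hcore : (fixH β).normalCore = ⊥ := by
    rcases (fixH β).normalCore_normal.eq_bot_or_eq_top with h1 | h1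
    · exact h1
    · exfalso
      apply hβ
      ext x
      have : x ∈ fixH β := (fixH β).normalCore_le (h1 ▸ Subgroup.mem_top x)
      exact this
  have hpg : IsPGroup 2 (Subgroup.zpowers τ) := by
    apply IsPGroup.of_card (n := 1)
    rw [Nat.card_zpowers, hτ, pow_one]
  obtain ⟨P, hP⟩ := hpg.exists_le_sylow
  have hτP : τ ∈ P := hP (Subgroup.mem_zpowers τ)
  have hPH : (P : Subgroup G) ≤ fixH β := h.le_fixH P P.isPGroup' hτP
  obtain ⟨N, hN, hodd, hcomm⟩ := Cfsg.Agent.S0215.result P τ hτ hτP (by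
    intro g hg
    have h1 := h.mem_normalCore g (hPH hg)
    rw [hcore, Subgroup.mem_bot, inv_mul_eq_one] at h1
    exact h1)
  rcases hN.eq_bot_or_eq_top with h1 | h1
  · have hcen : τ ∈ Subgroup.center G := by
      rw [Subgroup.mem_center_iff]
      intro g
      have := hcomm g
      rw [h1, Subgroup.mem_bot] at this
      have e : τ * g = (τ * g * τ⁻¹ * g⁻¹) * (g * τ) := by group
      rw [e, this, one_mul]
    rcases (inferInstance : (Subgroup.center G).Normal).eq_bot_or_eq_top with h2 | h2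
    · rw [h2, Subgroup.mem_bot] at hcen
      rw [hcen, orderOf_one] at hτ
      omega
    · apply hG
      refine ⟨⟨fun a b => ?_⟩⟩
      have ha : a ∈ Subgroup.center G := h2 ▸ Subgroup.mem_top a
      exact (Subgroup.mem_center_iff.mp ha b).symm
  · rw [h1, Nat.card_congr Subgroup.topEquiv.toEquiv] at hodd
    have h2 : 2 ∣ Nat.card G := hτ ▸ orderOf_dvd_natCard τ
    exact (Nat.not_even_iff_odd.mpr hodd) (even_iff_two_dvd.mpr h2)

/-- Let G be a finite non-abelian simple group, τ an involution of G, and α a nontrivial automorphism of G whose order is coprime to the order of G. Then α moves some element of the centralizer of τ: α does not fix C_G(τ) elementwise. -/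
theorem result {G : Type*} [Group G] [Finite G] [IsSimpleGroup G]
    (hG : ¬ IsMulCommutative G) (τ : G) (hτ : orderOf τ = 2) (α : MulAut G) (hα : α ≠ 1)
    (hcop : (orderOf α).Coprime (Nat.card G)) :
    ∃ c ∈ Subgroup.centralizer ({τ} : Set G), α c ≠ c := by
  by_contra hcon
  push Not at hcon
  have h2G : 2 ∣ Nat.card G := hτ ▸ orderOf_dvd_natCard τ
  have hN1 : orderOf α ≠ 1 := fun h => hα (orderOf_eq_one_iff.mp h)
  have hN0 : orderOf α ≠ 0 := by
    intro h
    rw [h, Nat.coprime_zero_left] at hcop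
    rw [hcop] at h2G
    omega
  obtain ⟨r, hr, hrN⟩ := Nat.exists_prime_and_dvd hN1
  have hβr : (α ^ (orderOf α / r)) ^ r = 1 := by
    rw [← pow_mul, Nat.div_mul_cancel hrN, pow_orderOf_eq_one]
  have hβ1 : α ^ (orderOf α / r) ≠ 1 := by
    intro h
    have h1 := orderOf_dvd_of_pow_eq_one h
    have h2 : 0 < orderOf α / r := Nat.div_pos (Nat.le_of_dvd (Nat.pos_of_ne_zero hN0) hrN) hr.pos
    have h3 := Nat.le_of_dvd h2 h1
    have h4 : orderOf α / r < orderOf α := Nat.div_lt_self (Nat.pos_of_ne_zero hN0) hr.one_lt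
    omega
  have hrG : ¬ r ∣ Nat.card G := by
    intro h
    have h1 := Nat.dvd_gcd hrN h
    rw [Nat.Coprime.gcd_eq_one hcop] at h1
    exact hr.one_lt.ne' (Nat.dvd_one.mp h1)
  have hττ : τ * τ = 1 := by
    rw [← sq, ← hτ, pow_orderOf_eq_one]
  refine false_of_hyp hG hτ (β := α ^ (orderOf α / r)) (r := r) ⟨hr, hβr, hrG, hττ, ?_⟩ hβ1
  intro c hc
  have h1 : α c = c := hcon c (by
    rw [Subgroup.mem_centralizer_singleton_iff]
    exact hc)
  generalize orderOf α / r = k
  induction k with
  | zero => simp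
  | succ k ih => rw [pow_succ', MulAut.mul_apply, ih, h1]

end Cfsg.Agent.S3067
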