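import Cfsg.Statements.S3074
import Cfsg.Agent.Lib.Helper46.Qd3
import Cfsg.Agent.Lib.Helper46.OrderCube
open Cfsg.Agent.Lib.Helper46.Qd Cfsg.Agent.Lib.Helper46.OrderCube Cfsg.Agent.Lib.Helper46.SL2Nat

set_option autoImplicit false
open Cfsg

namespace Cfsg.Agent.S3074


lemma hh_pow {F : Type*} [Field F] (a : F) (v : Fin 2 → F) (n : ℕ) :
    (hh a v) ^ n = hh (n * a) ![n * v 0 + (n.choose 2 : ℕ) * (a * v 1), n * v 1] := by
  induction n with
  | zero =>
    rw [pow_zero, ← hh_zero]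
    congr 1
    · simp
    · apply vec_ext <;> simp
  | succ k ih =>
    rw [pow_succ, ih, hh_mul]
    have hc : ((k + 1).choose 2 : ℕ) = k + k.choose 2 := by
      rw [Nat.choose_succ_succ' k 1, Nat.choose_one_right]
    congr 1
    · push_cast; ring
    · apply vec_ext
      · simp only [Matrix.cons_val_zero, Matrix.cons_val_one, hc]
        push_cast; ring
      · simp only [Matrix.cons_val_one]
        push_cast; ring

lemma hh_pow_p {F : Type*} [Field F] (p : ℕ) [Fact p.Prime] [CharP F p] (hp : p ≠ 2) (a : F)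
    (v : Fin 2 → F) : (hh a v) ^ p = 1 := by
  have hpp : p.Prime := Fact.out
  have h2 : ((p.choose 2 : ℕ) : F) = 0 := by
    rw [CharP.cast_eq_zero_iff F p]
    exact hpp.dvd_choose_self two_ne_zero (lt_of_le_of_ne hpp.two_le (Ne.symm hp))
  rw [hh_pow, h2, CharP.cast_eq_zero, ← hh_zero]
  congr 1
  · simp
  · apply vec_ext <;> simp

/-- `U3 ≃ F × F²` -/
def equivU3 (F : Type*) [Field F] : F × (Fin 2 → F) ≃ ↥(U3 F) where
  toFun x := ⟨hh x.1 x.2, hh_mem _ _⟩
  invFun M := (blk (M : ↥(Cfsg.qdOver F)) 0 1, tr (M : ↥(Cfsg.qdOver F)))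
  left_inv x := by simp only [blk_hh, tr_hh, u_01]
  right_inv M := Subtype.ext (eq_hh_of_mem M.2).symm

theorem aux {p : ℕ} [Fact p.Prime] (hp : p ≠ 2) (H : Subgroup ↥(Cfsg.qdOver (ZMod p)))
    (g : ↥(Cfsg.qdOver (ZMod p))) (hH : H = (U3 (ZMod p)).map (MulAut.conj g).toMonoidHom) :
    Cfsg.IsExtraspecial p ↥H ∧ Nat.card H = p ^ 3 ∧ Monoid.exponent ↥H = p := by
  subst hH
  obtain ⟨e⟩ : Nonempty (↥(U3 (ZMod p)) ≃* ↥((U3 (ZMod p)).map (MulAut.conj g).toMonoidHom)) :=
    ⟨(MulAut.conj g).subgroupMap (U3 (ZMod p))⟩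
  have hcard : Nat.card ↥((U3 (ZMod p)).map (MulAut.conj g).toMonoidHom) = p ^ 3 := by
    rw [← Nat.card_congr e.toEquiv, ← Nat.card_congr (equivU3 (ZMod p)), Nat.card_prod,
      Nat.card_eq_fintype_card, Nat.card_eq_fintype_card, Fintype.card_fun, Fintype.card_fin, ZMod.card]
    ring
  have hexp : ∀ x : ↥((U3 (ZMod p)).map (MulAut.conj g).toMonoidHom), x ^ p = 1 := by
    intro x
    obtain ⟨y, rfl⟩ := e.surjective x
    rw [← map_pow]
    have : y ^ p = 1 := by
      apply Subtype.ext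
      rw [Subgroup.coe_pow, Subgroup.coe_one, eq_hh_of_mem y.2]
      exact hh_pow_p p hp _ _
    rw [this, map_one]
  have hnc : ∃ x y : ↥((U3 (ZMod p)).map (MulAut.conj g).toMonoidHom), x * y ≠ y * x := by
    refine ⟨e ⟨hh 1 0, hh_mem _ _⟩, e ⟨hh 0 ![0, 1], hh_mem _ _⟩, fun h => ?_⟩
    rw [← map_mul, ← map_mul] at h
    have h1 := congrArg Subtype.val (e.injective h)
    simp only [Subgroup.coe_mul, hh_mul] at h1
    have h2 := congrFun (hh_injective h1).2 0
    simp at h2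
  have hnt : Nontrivial ↥((U3 (ZMod p)).map (MulAut.conj g).toMonoidHom) := by
    obtain ⟨x, y, hxy⟩ := hnc
    refine ⟨x, y, ?_⟩
    rintro rfl
    exact hxy rfl
  exact ⟨isExtraspecial_of_exponent hcard hnc hexp, hcard, exponent_eq hnt hexp⟩



/-- Let p be an odd prime. A Sylow p-subgroup of Qd(p), the split extension of an elementary abelian group of order p² by SL₂(p) acting naturally, is extraspecial of order p³ and exponent p. -/
theorem result (p : ℕ) [Fact p.Prime] (hp : p ≠ 2) (P : Sylow p ↥(Cfsg.qd p)) :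
    Cfsg.IsExtraspecial p ↥P ∧ Nat.card P = p ^ 3 ∧ Monoid.exponent ↥P = p := by
  obtain ⟨g, hg⟩ := sylow_eq_conj_U3 (F := ZMod p) p P
  exact aux hp _ g hg

end Cfsg.Agent.S3074
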