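import Mathlib
import Cfsg.Statements.S3075
import Cfsg.Agent.Lib.Helper51.Card

set_option autoImplicit false
open Cfsg

namespace Cfsg.Agent.S3075

open Subgroup
open scoped commutatorElement

theorem comm_centralizes {N : Type*} [Group N] (B : Subgroup N) [B.Normal] [IsCyclic B] (n m : N) (x : N)
    (hx : x ∈ B) : ⁅n, m⁆ * x * ⁅n, m⁆⁻¹ = x := by
  have hcomm : ∀ φ ψ : MulAut B, φ * ψ = ψ * φ := by
    intro φ ψ
    apply (IsCyclic.mulAutMulEquiv B).injective
    rw [map_mul, map_mul, mul_comm]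
  have h1 : MulAut.conjNormal (H := B) ⁅n, m⁆ = 1 := by
    rw [map_commutatorElement, commutatorElement_eq_one_iff_mul_comm]; exact hcomm _ _
  have h2 : ((MulAut.conjNormal (H := B) ⁅n, m⁆ ⟨x, hx⟩ : B) : N) = x := by rw [h1]; rfl
  rw [MulAut.conjNormal_apply] at h2
  exact h2

/-- the `ε`-eigenspace of conjugation by `t` on `A` -/
def eig {N : Type*} [Group N] (A : Subgroup N) (hA : ∀ a ∈ A, ∀ b ∈ A, a * b = b * a) (t : N) (ε : ℤ) :
    Subgroup N where
  carrier := {a | a ∈ A ∧ t * a * t⁻¹ = a ^ ε}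
  one_mem' := ⟨A.one_mem, by simp⟩
  mul_mem' := by
    rintro a b ⟨ha, ha'⟩ ⟨hb, hb'⟩
    refine ⟨A.mul_mem ha hb, ?_⟩
    have : Commute a b := hA a ha b hb
    rw [this.mul_zpow, ← ha', ← hb']; group
  inv_mem' := by
    rintro a ⟨ha, ha'⟩
    refine ⟨A.inv_mem ha, ?_⟩
    rw [inv_zpow, ← ha']; group

theorem sl2_not_comm (F : Type*) [Field F] :
    ∃ u v : Matrix.SpecialLinearGroup (Fin 2) F, u * v ≠ v * u := by
  refine ⟨⟨!![1, 1; 0, 1], by simp [Matrix.det_fin_two]⟩, ⟨!![1, 0; 1, 1], by simp [Matrix.det_fin_two]⟩, ?_⟩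
  intro h
  have h1 := congrArg (fun M : Matrix.SpecialLinearGroup (Fin 2) F => (M : Matrix (Fin 2) (Fin 2) F) 0 0) h
  have h2 : (((!![1, 1; 0, 1] : Matrix (Fin 2) (Fin 2) F) * (!![1, 0; 1, 1] : Matrix (Fin 2) (Fin 2) F)) :
      Matrix (Fin 2) (Fin 2) F) 0 0 = (((!![1, 0; 1, 1] : Matrix (Fin 2) (Fin 2) F) *
      (!![1, 1; 0, 1] : Matrix (Fin 2) (Fin 2) F)) : Matrix (Fin 2) (Fin 2) F) 0 0 := h1
  simp [Matrix.mul_apply, Fin.sum_univ_two] at h2

/-- Let p be an odd prime and N a finite group with a normal elementary abelian subgroup A of order p² that is its own centralizer in N, such that N/A is isomorphic to SL₂(p) (over any field F with p elements). Then N splits over A: some subgroup U of N satisfies A ∩ U = 1 and AU = N. -/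
theorem result {N : Type*} [Group N] [Finite N] {p : ℕ} [Fact p.Prime] (hp : p ≠ 2)
    (A : Subgroup N) [A.Normal] (hAcomm : IsMulCommutative A) (hAcard : Nat.card A = p ^ 2) (hAexp : Monoid.exponent ↥A = p)
    (hAself : Subgroup.centralizer (A : Set N) = A)
    {F : Type*} [Field F] [Fintype F] (hF : Fintype.card F = p) (e : N ⧸ A ≃* Matrix.SpecialLinearGroup (Fin 2) F) :
    ∃ U : Subgroup N, A ⊓ U = ⊥ ∧ A ⊔ U = ⊤ := by
  have hpp : p.Prime := Fact.out
  have hodd : Odd p := hpp.odd_of_ne_two hp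
  obtain ⟨k, hk⟩ := hodd
  have hAn : A.Normal := inferInstance
  have hA : ∀ a ∈ A, ∀ b ∈ A, a * b = b * a := by
    intro a ha b hb
    have := (le_centralizer_iff_isMulCommutative.mpr hAcomm) ha
    exact ((mem_centralizer_iff.mp this) b hb).symm
  have hApow : ∀ a ∈ A, a ^ p = 1 := by
    intro a ha
    have := Monoid.pow_exponent_eq_one (⟨a, ha⟩ : A)
    rw [hAexp] at this
    exact congrArg Subtype.val this
  -- 2 ≠ 0 in F
  have h2F : (2 : F) ≠ 0 := by
    intro h
    have h1 : ringChar F ∣ 2 := by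
      have := (ringChar.spec F 2).mp (by exact_mod_cast h)
      exact this
    have h3 : ringChar F = 2 := by
      rcases (Nat.dvd_prime Nat.prime_two).mp h1 with h4 | h4
      · exact absurd h4 (CharP.ringChar_ne_one)
      · exact h4
    have h5 := FiniteField.even_card_iff_char_two.mp h3
    rw [hF, hk] at h5
    omega
  -- the central involution of SL₂
  set z : Matrix.SpecialLinearGroup (Fin 2) F := -1 with hz
  have hzc : ∀ g : Matrix.SpecialLinearGroup (Fin 2) F, z * g = g * z := by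
    intro g; rw [hz]; simp
  have hzz : z * z = 1 := by rw [hz]; simp
  have hz1 : z ≠ 1 := by
    intro h
    have h1 := congrArg (fun M : Matrix.SpecialLinearGroup (Fin 2) F => (M : Matrix (Fin 2) (Fin 2) F) 0 0) h
    simp [hz] at h1
    apply h2F
    linear_combination -h1
  set zb : N ⧸ A := e.symm z with hzb
  have hzbc : ∀ g : N ⧸ A, zb * g = g * zb := by
    intro g
    apply e.injective
    simp [hzb, hzc]
  have hzbzb : zb * zb = 1 := by
    apply e.injective
    simp [hzb, hzz]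
  have hzb1 : zb ≠ 1 := by
    intro h
    apply hz1
    have := congrArg e h
    simpa [hzb] using this
  obtain ⟨t0, ht0⟩ := QuotientGroup.mk_surjective zb
  set t := t0 ^ p with ht
  have hmkt : (QuotientGroup.mk t : N ⧸ A) = zb := by
    rw [ht, QuotientGroup.mk_pow, ht0, hk, pow_succ, pow_mul, pow_two, hzbzb, one_pow, one_mul]
  have htt : t * t = 1 := by
    have h1 : t0 ^ 2 ∈ A := by
      rw [← QuotientGroup.eq_one_iff, QuotientGroup.mk_pow, ht0, pow_two, hzbzb]
    have h2 := hApow _ h1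
    rw [ht, ← pow_add, ← two_mul, pow_mul]; exact h2
  have htinv : t⁻¹ = t := inv_eq_of_mul_eq_one_left htt
  have htA : t ∉ A := by
    intro h
    apply hzb1
    rw [← hmkt]
    exact (QuotientGroup.eq_one_iff t).mpr h
  -- commutators with t lie in A
  have hct : ∀ n : N, n * t * n⁻¹ * t⁻¹ ∈ A := by
    intro n
    rw [← QuotientGroup.eq_one_iff]
    simp only [QuotientGroup.mk_mul, QuotientGroup.mk_inv, hmkt]
    rw [← hzbc]; group
  -- eigenspaces are normal
  have heign : ∀ ε : ℤ, (eig A hA t ε).Normal := by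
    intro ε
    constructor
    rintro a ⟨ha, ha'⟩ n
    refine ⟨hAn.conj_mem a ha n, ?_⟩
    set c := n⁻¹ * t * n⁻¹⁻¹ * t⁻¹ with hc
    have hcA : c ∈ A := hct n⁻¹
    have h1 : t * n = n * (c * t) := by rw [hc]; group
    have h2 : n⁻¹ * t⁻¹ = (c * t)⁻¹ * n⁻¹ := by
      have : (t * n)⁻¹ = (n * (c * t))⁻¹ := by rw [h1]
      simpa [mul_inv_rev] using this
    have hpw : a ^ ε ∈ A := A.zpow_mem ha ε
    calc t * (n * a * n⁻¹) * t⁻¹ = (t * n) * a * (n⁻¹ * t⁻¹) := by group
      _ = n * (c * t) * a * ((c * t)⁻¹ * n⁻¹) := by rw [h1, h2]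
      _ = n * (c * (t * a * t⁻¹) * c⁻¹) * n⁻¹ := by group
      _ = n * (c * a ^ ε * c⁻¹) * n⁻¹ := by rw [ha']
      _ = n * (a ^ ε * c * c⁻¹) * n⁻¹ := by rw [hA c hcA _ hpw]
      _ = n * a ^ ε * n⁻¹ := by group
      _ = (n * a * n⁻¹) ^ ε := by rw [conj_zpow]
  have heigle : ∀ ε : ℤ, eig A hA t ε ≤ A := fun ε a ha => ha.1
  have hconjA : ∀ a ∈ A, t * a * t⁻¹ ∈ A := fun a ha => hAn.conj_mem a ha t
  have hsq : ∀ a ∈ A, a ^ 2 = 1 → a = 1 := by
    intro a ha h2
    have h3 := hApow a ha
    rw [hk, pow_succ, pow_mul, h2, one_pow, one_mul] at h3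
    exact h3
  have hroot : ∀ a ∈ A, (a ^ 2) ^ (k + 1) = a := by
    intro a ha
    rw [← pow_mul]
    have : 2 * (k + 1) = p + 1 := by omega
    rw [this, pow_succ, hApow a ha, one_mul]
  have hu : ∀ a ∈ A, a * (t * a * t⁻¹) ∈ eig A hA t 1 := by
    intro a ha
    refine ⟨A.mul_mem ha (hconjA a ha), ?_⟩
    rw [zpow_one]
    calc t * (a * (t * a * t⁻¹)) * t⁻¹ = (t * a * t⁻¹) * ((t * t) * a * (t * t)⁻¹) := by group
      _ = (t * a * t⁻¹) * a := by rw [htt]; group
      _ = a * (t * a * t⁻¹) := hA _ (hconjA a ha) _ ha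
  have hv : ∀ a ∈ A, a * (t * a * t⁻¹)⁻¹ ∈ eig A hA t (-1) := by
    intro a ha
    refine ⟨A.mul_mem ha (A.inv_mem (hconjA a ha)), ?_⟩
    rw [zpow_neg_one]
    calc t * (a * (t * a * t⁻¹)⁻¹) * t⁻¹ = (t * a * t⁻¹) * ((t * t) * a * (t * t)⁻¹)⁻¹ := by group
      _ = (t * a * t⁻¹) * a⁻¹ := by rw [htt]; group
      _ = (a * (t * a * t⁻¹)⁻¹)⁻¹ := by group
  have hinf : eig A hA t 1 ⊓ eig A hA t (-1) = ⊥ := by
    rw [eq_bot_iff]
    rintro a ⟨⟨ha, h1⟩, ⟨-, h2⟩⟩
    rw [zpow_one] at h1
    rw [zpow_neg_one, h1] at h2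
    rw [mem_bot]
    apply hsq a ha
    rw [pow_two]
    nth_rewrite 1 [h2]
    group
  have hsup : eig A hA t 1 ⊔ eig A hA t (-1) = A := by
    apply le_antisymm (sup_le (heigle 1) (heigle (-1)))
    intro a ha
    rw [← hroot a ha]
    apply pow_mem
    have : a ^ 2 = (a * (t * a * t⁻¹)) * (a * (t * a * t⁻¹)⁻¹) := by
      calc a ^ 2 = a * a := pow_two a
        _ = a * (a * (t * a * t⁻¹)) * (t * a * t⁻¹)⁻¹ := by group
        _ = a * ((t * a * t⁻¹) * a) * (t * a * t⁻¹)⁻¹ := by rw [hA a ha _ (hconjA a ha)]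
        _ = _ := by group
    rw [this]
    exact mul_mem (mem_sup_left (hu a ha)) (mem_sup_right (hv a ha))
  -- the key claim
  have hB : eig A hA t 1 = ⊥ := by
    have hn1 := heign 1
    have hn2 := heign (-1)
    have hcard : Nat.card (eig A hA t 1) * Nat.card (eig A hA t (-1)) = p ^ 2 := by
      have h1 := Cfsg.Agent.Lib.Helper51.card_sup_mul_card_inf_of_normal (eig A hA t 1) (eig A hA t (-1))
      rw [hsup, hinf, hAcard] at h1
      simpa using h1.symm
    have hdvd : Nat.card (eig A hA t 1) ∣ p ^ 2 := Dvd.intro _ hcard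
    obtain ⟨j, hj, hcj⟩ := (Nat.dvd_prime_pow hpp).mp hdvd
    interval_cases j
    · -- trivial
      rw [pow_zero] at hcj
      exact (eig A hA t 1).eq_bot_of_card_eq hcj
    · -- order p: contradiction via commutativity of N/A
      exfalso
      rw [pow_one] at hcj
      have hcj2 : Nat.card (eig A hA t (-1)) = p := by
        rw [hcj, pow_two] at hcard
        exact Nat.eq_of_mul_eq_mul_left hpp.pos hcard
      have hc1 : IsCyclic (eig A hA t 1) := isCyclic_of_prime_card hcj
      have hc2 : IsCyclic (eig A hA t (-1)) := isCyclic_of_prime_card hcj2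
      have hcomm : ∀ n m : N, ⁅n, m⁆ ∈ A := by
        intro n m
        rw [← hAself, ← hsup]
        have : centralizer ((eig A hA t 1 ⊔ eig A hA t (-1) : Subgroup N) : Set N) =
            centralizer (eig A hA t 1 : Set N) ⊓ centralizer (eig A hA t (-1) : Set N) := by
          apply le_antisymm
          · exact le_inf (centralizer_le (by exact_mod_cast (le_sup_left : eig A hA t 1 ≤ _)))
              (centralizer_le (by exact_mod_cast (le_sup_right : eig A hA t (-1) ≤ _)))
          · rw [le_centralizer_iff]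
            refine sup_le ?_ ?_
            · rw [le_centralizer_iff]; exact inf_le_left
            · rw [le_centralizer_iff]; exact inf_le_right
        rw [this]
        constructor
        · show ⁅n, m⁆ ∈ centralizer (eig A hA t 1 : Set N)
          rw [mem_centralizer_iff]
          intro x hx
          have := comm_centralizes (eig A hA t 1) n m x hx
          calc x * ⁅n, m⁆ = (⁅n, m⁆ * x * ⁅n, m⁆⁻¹) * ⁅n, m⁆ := by rw [this]
            _ = ⁅n, m⁆ * x := by group
        · show ⁅n, m⁆ ∈ centralizer (eig A hA t (-1) : Set N)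
          rw [mem_centralizer_iff]
          intro x hx
          have := comm_centralizes (eig A hA t (-1)) n m x hx
          calc x * ⁅n, m⁆ = (⁅n, m⁆ * x * ⁅n, m⁆⁻¹) * ⁅n, m⁆ := by rw [this]
            _ = ⁅n, m⁆ * x := by group
      obtain ⟨u, v, huv⟩ := sl2_not_comm F
      apply huv
      obtain ⟨n, hn⟩ := QuotientGroup.mk_surjective (e.symm u)
      obtain ⟨m, hm⟩ := QuotientGroup.mk_surjective (e.symm v)
      have h1 : (QuotientGroup.mk ⁅n, m⁆ : N ⧸ A) = 1 := (QuotientGroup.eq_one_iff _).mpr (hcomm n m)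
      have h2 : (e.symm u) * (e.symm v) = (e.symm v) * (e.symm u) := by
        rw [← hn, ← hm]
        rw [commutatorElement_def] at h1
        simp only [QuotientGroup.mk_mul, QuotientGroup.mk_inv] at h1
        have h3 := mul_inv_eq_one.mp h1
        have h4 := mul_inv_eq_iff_eq_mul.mp h3
        exact h4
      have h3 := congrArg e h2
      simpa using h3
    · -- everything: t centralizes A
      exfalso
      apply htA
      have hEA : eig A hA t 1 = A := eq_of_le_of_card_ge (heigle 1) (by rw [hcj, hAcard])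
      rw [← hAself, mem_centralizer_iff]
      intro a ha
      have ha' : a ∈ eig A hA t 1 := by rw [hEA]; exact ha
      have h1 := ha'.2
      rw [zpow_one] at h1
      calc a * t = (t * a * t⁻¹) * t := by rw [h1]
        _ = t * a := by group
  -- t inverts A
  have hinv : ∀ a ∈ A, t * a * t⁻¹ = a⁻¹ := by
    intro a ha
    have h1 := hu a ha
    rw [hB, mem_bot] at h1
    exact (eq_inv_of_mul_eq_one_right h1)
  refine ⟨centralizer ({t} : Set N), ?_, ?_⟩
  · rw [eq_bot_iff, ← hB]
    rintro a ⟨ha, hat⟩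
    refine ⟨ha, ?_⟩
    have := mem_centralizer_singleton_iff.mp hat
    rw [zpow_one, ← this]; group
  · rw [eq_top_iff]
    intro n _
    set c := n * t * n⁻¹ * t⁻¹ with hc
    have hcA : c ∈ A := hct n
    set a := c ^ (k + 1) with ha
    have haA : a ∈ A := A.pow_mem hcA _
    have ha2 : a * a = c := by
      rw [ha, ← pow_add]
      have : k + 1 + (k + 1) = p + 1 := by omega
      rw [this, pow_succ, hApow c hcA, one_mul]
    have : n = a * (a⁻¹ * n) := by group
    rw [this]
    refine mul_mem (mem_sup_left haA) (mem_sup_right ?_)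
    rw [mem_centralizer_singleton_iff]
    have h1 : n * t = c * t * n := by rw [hc]; group
    have h2 : t * a⁻¹ = a * t := by
      have := hinv a⁻¹ (A.inv_mem haA)
      rw [inv_inv] at this
      calc t * a⁻¹ = (t * a⁻¹ * t⁻¹) * t := by group
        _ = a * t := by rw [this]
    calc a⁻¹ * n * t = a⁻¹ * (n * t) := by group
      _ = a⁻¹ * (c * t * n) := by rw [h1]
      _ = a⁻¹ * (a * a * t * n) := by rw [ha2]
      _ = (a * t) * n := by group
      _ = t * a⁻¹ * n := by rw [h2]
      _ = t * (a⁻¹ * n) := by group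

end Cfsg.Agent.S3075
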