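import Cfsg.Statements.S3076
import Cfsg.Agent.Lib.Helper10.Gold76

set_option autoImplicit false
open Cfsg

namespace Cfsg.Agent.S3076

/-- Let P be a Sylow p-subgroup of the finite group G and H ≤ P a subgroup with N_P(H) a Sylow p-subgroup of N_G(H). Let N be the preimage in N_G(H) of O_p(N_G(H)/C_G(H)). Then H is a Sylow p-subgroup of N if and only if C_P(H) ≤ H and O_{p',p}(N_G(H)) = H·C_G(H). -/
theorem result {G : Type*} [Group G] [Finite G] {p : ℕ} [Fact p.Prime]
    (P : Sylow p G) (H : Subgroup G) (hHP : H ≤ (P : Subgroup G))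
    (hSyl : ¬ p ∣ ((P : Subgroup G) ⊓ Subgroup.normalizer (H : Set G)).relIndex (Subgroup.normalizer (H : Set G)))
    [hC : ((Subgroup.centralizer (H : Set G)).subgroupOf (Subgroup.normalizer (H : Set G))).Normal] :
    (H ≤ ((Cfsg.pCore p (↥(Subgroup.normalizer (H : Set G)) ⧸
              (Subgroup.centralizer (H : Set G)).subgroupOf (Subgroup.normalizer (H : Set G)))).comap
            (QuotientGroup.mk' _)).map (Subgroup.normalizer (H : Set G)).subtype ∧
      ¬ p ∣ H.relIndex (((Cfsg.pCore p (↥(Subgroup.normalizer (H : Set G)) ⧸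
              (Subgroup.centralizer (H : Set G)).subgroupOf (Subgroup.normalizer (H : Set G)))).comap
            (QuotientGroup.mk' _)).map (Subgroup.normalizer (H : Set G)).subtype)) ↔
    ((P : Subgroup G) ⊓ Subgroup.centralizer (H : Set G) ≤ H ∧
      (Cfsg.pPrimePCore p ↥(Subgroup.normalizer (H : Set G))).map (Subgroup.normalizer (H : Set G)).subtype =
        H ⊔ Subgroup.centralizer (H : Set G)) := by
  have hHN : H ≤ Subgroup.normalizer (H : Set G) := Subgroup.le_normalizer
  have hCN : Subgroup.centralizer (H : Set G) ≤ Subgroup.normalizer (H : Set G) :=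
    Subgroup.centralizer_le_normalizer _
  have hHn : (H.subgroupOf (Subgroup.normalizer (H : Set G))).Normal :=
    Subgroup.normal_in_normalizer
  have hcent : (Subgroup.centralizer (H : Set G)).subgroupOf (Subgroup.normalizer (H : Set G)) =
      Subgroup.centralizer
        ((H.subgroupOf (Subgroup.normalizer (H : Set G)) :
          Subgroup ↥(Subgroup.normalizer (H : Set G))) : Set ↥(Subgroup.normalizer (H : Set G))) := by
    ext x
    rw [Subgroup.mem_subgroupOf, Subgroup.mem_centralizer_iff, Subgroup.mem_centralizer_iff]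
    constructor
    · intro h y hy
      exact Subtype.ext (h y.1 (Subgroup.mem_subgroupOf.1 hy))
    · intro h y hy
      exact congrArg Subtype.val (h ⟨y, hHN hy⟩ (Subgroup.mem_subgroupOf.2 hy))
  have hSp : IsPGroup p (((P : Subgroup G) ⊓ Subgroup.normalizer (H : Set G)).subgroupOf
      (Subgroup.normalizer (H : Set G))) :=
    (P.2.to_le inf_le_left).comap_of_injective _ (Subgroup.subtype_injective _)
  have hHS : H.subgroupOf (Subgroup.normalizer (H : Set G)) ≤
      ((P : Subgroup G) ⊓ Subgroup.normalizer (H : Set G)).subgroupOf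
        (Subgroup.normalizer (H : Set G)) :=
    Subgroup.comap_mono (le_inf hHP hHN)
  have key := Cfsg.Agent.Lib.Helper10.Gold76.main (p := p)
    (H.subgroupOf (Subgroup.normalizer (H : Set G)))
    ((Subgroup.centralizer (H : Set G)).subgroupOf (Subgroup.normalizer (H : Set G)))
    (((P : Subgroup G) ⊓ Subgroup.normalizer (H : Set G)).subgroupOf
      (Subgroup.normalizer (H : Set G))) hcent hSp hSyl hHS
  -- general transfer facts
  have tA : ∀ KX : Subgroup ↥(Subgroup.normalizer (H : Set G)),
      (H ≤ KX.map (Subgroup.normalizer (H : Set G)).subtype ↔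
        H.subgroupOf (Subgroup.normalizer (H : Set G)) ≤ KX) := by
    intro KX
    constructor
    · intro h x hx
      obtain ⟨y, hy, hyx⟩ := h (Subgroup.mem_subgroupOf.1 hx)
      have : y = x := Subtype.ext hyx
      exact this ▸ hy
    · intro h x hx
      exact ⟨⟨x, hHN hx⟩, h (Subgroup.mem_subgroupOf.2 hx), rfl⟩
  have tB : ∀ KX : Subgroup ↥(Subgroup.normalizer (H : Set G)),
      H.relIndex (KX.map (Subgroup.normalizer (H : Set G)).subtype) =
        (H.subgroupOf (Subgroup.normalizer (H : Set G))).relIndex KX := by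
    intro KX
    have h1 := Subgroup.relIndex_subgroupOf (H := H)
      (Subgroup.map_subtype_le KX : KX.map (Subgroup.normalizer (H : Set G)).subtype ≤ _)
    rw [← h1]
    congr 1
    exact (Subgroup.comap_map_eq_self_of_injective (Subgroup.subtype_injective _) KX)
  have tC : ((P : Subgroup G) ⊓ Subgroup.centralizer (H : Set G) ≤ H) ↔
      (((P : Subgroup G) ⊓ Subgroup.normalizer (H : Set G)).subgroupOf
        (Subgroup.normalizer (H : Set G)) ⊓
        (Subgroup.centralizer (H : Set G)).subgroupOf (Subgroup.normalizer (H : Set G)) ≤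
        H.subgroupOf (Subgroup.normalizer (H : Set G))) := by
    constructor
    · rintro h x ⟨hx1, hx2⟩
      exact Subgroup.mem_subgroupOf.2 (h ⟨(Subgroup.mem_subgroupOf.1 hx1).1,
        Subgroup.mem_subgroupOf.1 hx2⟩)
    · rintro h x ⟨hx1, hx2⟩
      have := h (x := ⟨x, hCN hx2⟩) ⟨Subgroup.mem_subgroupOf.2 ⟨hx1, hCN hx2⟩,
        Subgroup.mem_subgroupOf.2 hx2⟩
      exact Subgroup.mem_subgroupOf.1 this
  have tD : ∀ L : Subgroup ↥(Subgroup.normalizer (H : Set G)),
      (L.map (Subgroup.normalizer (H : Set G)).subtype = H ⊔ Subgroup.centralizer (H : Set G) ↔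
        L = H.subgroupOf (Subgroup.normalizer (H : Set G)) ⊔
          (Subgroup.centralizer (H : Set G)).subgroupOf (Subgroup.normalizer (H : Set G))) := by
    intro L
    rw [← Subgroup.subgroupOf_sup hHN hCN]
    constructor
    · intro h
      rw [← h]
      exact (Subgroup.comap_map_eq_self_of_injective (Subgroup.subtype_injective _) L).symm
    · intro h
      rw [h]
      exact Subgroup.map_subgroupOf_eq_of_le (sup_le hHN hCN)
  rw [tA, tB, tC, tD]
  exact key

end Cfsg.Agent.S3076
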