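import Cfsg.Statements.S3087
import Cfsg.Agent.Lib.Helper51.Card

set_option autoImplicit false
open Cfsg

namespace Cfsg.Agent.S3087

open Cfsg.Agent.Lib.Helper51

/-- fixed points of a subgroup, as an additive subgroup -/
def fixedPts {G V : Type*} [Group G] [AddCommGroup V] {p : ℕ} [Module (ZMod p) V]
    (ρ : Representation (ZMod p) G V) (H : Subgroup G) : AddSubgroup V where
  carrier := {v | ∀ h ∈ H, ρ h v = v}
  zero_mem' := by intro h _; simp
  add_mem' := by
    intro a b ha hb h hh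
    simp [ha h hh, hb h hh]
  neg_mem' := by
    intro a ha h hh
    simp [ha h hh]

/-- Let p be a prime, G a finite group acting linearly on a finite vector space V over the field with p elements, W a G-invariant subspace, and A a subgroup of G with |A|·|C_V(A)| ≥ |B|·|C_V(B)| for every subgroup B of A. Then |A|·|C_W(A)| ≥ |B|·|C_W(B)| for every subgroup B of A that contains C_A(W); that is, the image of A in the group induced on W satisfies the same maximality condition. -/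
theorem result {G V : Type*} [Group G] [Finite G] [AddCommGroup V] [Finite V] (p : ℕ) [Fact p.Prime] [Module (ZMod p) V]
    (ρ : Representation (ZMod p) G V) (W : Submodule (ZMod p) V) (hW : ∀ g : G, ∀ w ∈ W, ρ g w ∈ W)
    (A : Subgroup G)
    (hP : ∀ B : Subgroup G, B ≤ A →
      Nat.card ↥B * Nat.card {v : V // ∀ b ∈ B, ρ b v = v} ≤ Nat.card ↥A * Nat.card {v : V // ∀ a ∈ A, ρ a v = v})
    (B : Subgroup G) (hBA : B ≤ A) (hCB : ∀ a ∈ A, (∀ w ∈ W, ρ a w = w) → a ∈ B) :
    Nat.card ↥B * Nat.card {w : W // ∀ b ∈ B, ρ b w = w} ≤ Nat.card ↥A * Nat.card {w : W // ∀ a ∈ A, ρ a w = w} := by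
  -- notation
  set CA := fixedPts ρ A with hCA
  set CB := fixedPts ρ B with hCBdef
  set W' := W.toAddSubgroup with hW'
  have e1 : ∀ H : Subgroup G, Nat.card {v : V // ∀ b ∈ H, ρ b v = v} = Nat.card (fixedPts ρ H) := fun H => rfl
  have e2 : ∀ H : Subgroup G, Nat.card {w : W // ∀ b ∈ H, ρ b w = w} = Nat.card ↥(fixedPts ρ H ⊓ W') := by
    intro H
    refine Nat.card_congr ⟨fun w => ⟨w.1.1, ⟨w.2, w.1.2⟩⟩, fun v => ⟨⟨v.1, v.2.2⟩, v.2.1⟩, ?_, ?_⟩
    · intro w; rfl
    · intro v; rfl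
  rw [e2, e2]
  have h0 := hP B hBA
  rw [e1, e1] at h0
  -- C_V(A) ≤ C_V(B)
  have hle : CA ≤ CB := fun v hv b hb => hv b (hBA hb)
  -- product formula
  have hprod := card_sup_add_card_inf_of_normal CA (CB ⊓ W')
  have hinf : CA ⊓ (CB ⊓ W') = CA ⊓ W' := by
    rw [← inf_assoc, inf_of_le_left hle]
  rw [hinf] at hprod
  have hsup : Nat.card ↥(CA ⊔ (CB ⊓ W')) ≤ Nat.card CB :=
    AddSubgroup.card_le_of_le (sup_le hle inf_le_left)
  have hpos : 0 < Nat.card CA := Nat.card_pos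
  -- combine
  have : Nat.card CA * (Nat.card ↥B * Nat.card ↥(CB ⊓ W')) ≤ Nat.card CA * (Nat.card ↥A * Nat.card ↥(CA ⊓ W')) := by
    calc Nat.card CA * (Nat.card ↥B * Nat.card ↥(CB ⊓ W'))
        = Nat.card ↥B * (Nat.card CA * Nat.card ↥(CB ⊓ W')) := by ring
      _ = Nat.card ↥B * (Nat.card ↥(CA ⊔ (CB ⊓ W')) * Nat.card ↥(CA ⊓ W')) := by rw [hprod]
      _ ≤ Nat.card ↥B * (Nat.card CB * Nat.card ↥(CA ⊓ W')) := by gcongr
      _ = (Nat.card ↥B * Nat.card CB) * Nat.card ↥(CA ⊓ W') := by ring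
      _ ≤ (Nat.card ↥A * Nat.card CA) * Nat.card ↥(CA ⊓ W') := by gcongr
      _ = _ := by ring
  exact Nat.le_of_mul_le_mul_left this hpos

end Cfsg.Agent.S3087
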