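import Cfsg.Statements.S3155
import Mathlib

set_option autoImplicit false
open Cfsg

namespace Cfsg.Agent.S3155

/-- Let B be the direct product of three cyclic groups of order 4. Then the automorphism of B inverting every element is not the square of any automorphism of B. -/
theorem result {B : Type*} [CommGroup B] [Finite B] (hB : Nonempty (B ≃* Multiplicative (ZMod 4 × ZMod 4 × ZMod 4)))
    (τ : B ≃* B) : τ.trans τ ≠ MulEquiv.inv B := by
  obtain ⟨e⟩ := hB
  intro h
  let σ : Multiplicative (ZMod 4 × ZMod 4 × ZMod 4) →* Multiplicative (ZMod 4 × ZMod 4 × ZMod 4) :=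
    ((e.symm.trans τ).trans e).toMonoidHom
  let f : (ZMod 4 × ZMod 4 × ZMod 4) →+ (ZMod 4 × ZMod 4 × ZMod 4) := AddMonoidHom.toMultiplicative.symm σ
  let F : (ZMod 4 × ZMod 4 × ZMod 4) →ₗ[ZMod 4] (ZMod 4 × ZMod 4 × ZMod 4) := f.toZModLinearMap 4
  have hff : ∀ v, F (F v) = - v := by
    intro v
    have h1 : τ (τ (e.symm (Multiplicative.ofAdd v))) = (e.symm (Multiplicative.ofAdd v))⁻¹ := by
      have := congrArg (fun g : B ≃* B => g (e.symm (Multiplicative.ofAdd v))) h
      simpa using this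
    have h2 : e (τ (e.symm (e (τ (e.symm (Multiplicative.ofAdd v)))))) = (Multiplicative.ofAdd v)⁻¹ := by
      rw [MulEquiv.symm_apply_apply, h1, map_inv, MulEquiv.apply_symm_apply]
    exact congrArg Multiplicative.toAdd h2
  have hF : F * F = (-1 : ZMod 4) • (1 : (ZMod 4 × ZMod 4 × ZMod 4) →ₗ[ZMod 4] (ZMod 4 × ZMod 4 × ZMod 4)) := by
    apply LinearMap.ext
    intro v
    simp [hff]
  have hdet := congrArg LinearMap.det hF
  rw [map_mul, LinearMap.det_smul, map_one] at hdet
  have hrank : Module.finrank (ZMod 4) (ZMod 4 × ZMod 4 × ZMod 4) = 3 := by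
    haveI : Fact (1 < 4) := ⟨by norm_num⟩
    rw [Module.finrank_prod, Module.finrank_prod, Module.finrank_self]
  rw [hrank] at hdet
  have key : ∀ d : ZMod 4, d * d ≠ (-1) ^ 3 * 1 := by decide
  exact key _ hdet

end Cfsg.Agent.S3155
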