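import Cfsg.Statements.S3156
import Cfsg.Agent.Lib.Helper20.U3Syl2
import Cfsg.Agent.Lib.Helper20.U3Aut

set_option autoImplicit false
open Cfsg

namespace Cfsg.Agent.S3156

/-- If a finite group T is isomorphic to a Sylow 2-subgroup of the projective special unitary group of dimension 3 with parameter 4 (realised over the field with 16 elements), then no subgroup of the automorphism group of T is isomorphic to the symmetric group of degree 3. -/
theorem result {T : Type*} [Group T] [Finite T] (hT : (∃ (F : Type) (_ : Field F) (_ : Fintype F), Fintype.card F = 16 ∧ ∃ S : Sylow 2 (Cfsg.PSU 3 F 4), Nonempty (T ≃* ↥(S : Subgroup (Cfsg.PSU 3 F 4))))) (H : Subgroup (MulAut T)) : ¬ Nonempty (↥H ≃* Equiv.Perm (Fin 3)) := by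
  obtain ⟨F, _, _, hF, S, ⟨eT⟩⟩ := hT
  have : Fact (Fintype.card F = 4 ^ 2) := ⟨by rw [hF]; norm_num⟩
  have : Fact ((2 : F) = 0) :=
    ⟨Cfsg.Agent.Lib.Helper20.U3Syl.two_eq_zero_of_card (m := 4) (by rw [hF]; norm_num)⟩
  obtain ⟨e⟩ := Cfsg.Agent.Lib.Helper20.U3Syl.exists_equiv (by decide) S
  rintro ⟨g⟩
  let Φ : Equiv.Perm (Fin 3) →* MulAut (Cfsg.Agent.Lib.Helper20.U3Syl.UU F 4) :=
    (MulAut.congr (eT.trans e.symm)).toMonoidHom.comp (H.subtype.comp g.symm.toMonoidHom)
  have hΦ : Function.Injective Φ :=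
    (MulAut.congr (eT.trans e.symm)).injective.comp (H.subtype_injective.comp g.symm.injective)
  apply Cfsg.Agent.Lib.Helper20.U3Syl.no_S3 (Φ (c[0, 1, 2])) (Φ (Equiv.swap 0 1))
  · rw [← map_pow]
    have : (c[0, 1, 2] : Equiv.Perm (Fin 3)) ^ 3 = 1 := by decide
    rw [this, map_one]
  · intro h
    have : (c[0, 1, 2] : Equiv.Perm (Fin 3)) = 1 := hΦ (h.trans (map_one Φ).symm)
    revert this
    decide
  · rw [← map_pow]
    have : (Equiv.swap 0 1 : Equiv.Perm (Fin 3)) ^ 2 = 1 := by decide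
    rw [this, map_one]
  · rw [← map_inv, ← map_inv, ← map_mul, ← map_mul]
    congr 1
    decide

end Cfsg.Agent.S3156
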