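import Cfsg.Statements.S3178
import Cfsg.Agent.S0111
import Cfsg.Agent.Lib.Lead.Residual
import Cfsg.Agent.Lib.Helper53.Conj
import Mathlib

set_option autoImplicit false
open Cfsg

namespace Cfsg.Agent.S3178

open Cfsg.Agent.Lib.Helper53 Cfsg.Agent.Lib.Lead

/-- unique involution of a cyclic 2-group -/
lemma unique_invol {G : Type*} [Group G] (a x : G) (n : ℕ) (hn : 1 ≤ n) (hao : orderOf a = 2 ^ n)
    (hx : x ∈ Subgroup.zpowers a) (hxo : orderOf x = 2) : x = a ^ (2 ^ (n - 1)) := by
  have hfin : IsOfFinOrder a := by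
    rw [← orderOf_pos_iff, hao]; positivity
  rw [← hfin.mem_powers_iff_mem_zpowers] at hx
  obtain ⟨k, hk⟩ := hx
  change a ^ k = x at hk
  subst hk
  have h1 : (a ^ k) ^ 2 = 1 := by rw [← hxo]; exact pow_orderOf_eq_one _
  rw [← pow_mul] at h1
  have h2 : 2 ^ n ∣ k * 2 := hao ▸ orderOf_dvd_of_pow_eq_one h1
  have e : 2 ^ n = 2 ^ (n - 1) * 2 := by rw [← pow_succ]; congr 1; omega
  rw [e] at h2
  have h3 : 2 ^ (n - 1) ∣ k := Nat.dvd_of_mul_dvd_mul_right (by norm_num) h2
  obtain ⟨j, rfl⟩ := h3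
  have hz2 : (a ^ (2 ^ (n - 1))) ^ 2 = 1 := by
    rw [← pow_mul, ← e, ← hao]; exact pow_orderOf_eq_one _
  rw [pow_mul]
  rcases Nat.even_or_odd' j with ⟨c, hc | hc⟩
  · exfalso
    have : (a ^ (2 ^ (n - 1) * j)) = 1 := by
      rw [pow_mul, hc, pow_mul, hz2, one_pow]
    rw [this, orderOf_one] at hxo
    omega
  · rw [hc, pow_add, pow_mul, hz2, one_pow, one_mul, pow_one]

theorem result {G : Type*} [Group G] [Finite G]
    (S : Sylow 2 G) (n : ℕ) (hn : 3 ≤ n) (hS : Nat.card ↥(S : Subgroup G) = 2 ^ (n + 1))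
    (a b : G) (ha : a ∈ (S : Subgroup G)) (hb : b ∈ (S : Subgroup G))
    (hao : orderOf a = 2 ^ n) (hbo : orderOf b = 2) (hrel : b * a * b⁻¹ = a ^ (2 ^ (n - 1) + 1)) :
    Cfsg.HasNormalPComplement 2 G := by
  have : Fact (Nat.Prime 2) := ⟨Nat.prime_two⟩
  set A := Subgroup.zpowers a with hA
  set z := a ^ (2 ^ (n - 1)) with hz
  have hAS : A ≤ S := by rw [hA, Subgroup.zpowers_le]; exact ha
  have hcA : Nat.card ↥A = 2 ^ n := by rw [hA, Nat.card_zpowers, hao]
  have hidx : A.relIndex (S : Subgroup G) = 2 := by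
    have h1 := Subgroup.relIndex_mul_relIndex ⊥ A (S : Subgroup G) bot_le hAS
    rw [Subgroup.relIndex_bot_left, Subgroup.relIndex_bot_left, hcA, hS, pow_succ] at h1
    exact Nat.eq_of_mul_eq_mul_left (by positivity) h1
  have hb2 : b * b = 1 := by rw [← sq, ← hbo]; exact pow_orderOf_eq_one b
  have hbinv : b⁻¹ = b := inv_eq_of_mul_eq_one_left hb2
  have e2n : 2 ^ n = 2 ^ (n - 1) * 2 := by rw [← pow_succ]; congr 1; omega
  have ha2n : a ^ (2 ^ n) = 1 := by rw [← hao]; exact pow_orderOf_eq_one a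
  have hz1 : z ≠ 1 := by
    intro h
    have := orderOf_dvd_of_pow_eq_one h
    rw [hao] at this
    have h2 := Nat.le_of_dvd (by positivity) this
    have : 2 ^ (n - 1) < 2 ^ n := Nat.pow_lt_pow_right (by norm_num) (by omega)
    omega
  have hzA : z ∈ A := Subgroup.pow_mem _ (Subgroup.mem_zpowers a) _
  -- b ∉ A
  have hbA : b ∉ A := by
    intro h
    obtain ⟨k, hk⟩ := Subgroup.mem_zpowers_iff.mp h
    have hc : b * a = a * b := by
      rw [← hk]
      exact ((Commute.refl a).zpow_left k).eq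
    have : b * a * b⁻¹ = a := by rw [hc]; group
    rw [this, pow_succ] at hrel
    apply hz1
    have h3 : 1 * a = z * a := by rw [one_mul]; exact hrel
    exact (mul_right_cancel h3).symm
  -- index two facts
  have hmul : ∀ x ∈ (S : Subgroup G), ∀ y ∈ (S : Subgroup G), (x * y ∈ A ↔ (x ∈ A ↔ y ∈ A)) := by
    intro x hx y hy
    have := Subgroup.mul_mem_iff_of_index_two (H := A.subgroupOf S) hidx (a := ⟨x, hx⟩) (b := ⟨y, hy⟩)
    simpa [Subgroup.mem_subgroupOf] using this
  have hsq : ∀ w ∈ (S : Subgroup G), w ^ 2 ∈ A := by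
    intro w hw
    rw [sq, hmul w hw w hw]
  -- conjugation of powers of a by b
  have hconj : ∀ k : ℕ, b * a ^ k * b⁻¹ = a ^ ((2 ^ (n - 1) + 1) * k) := by
    intro k
    rw [pow_mul, ← hrel, conj_pow]
  -- a^2 commutes with b
  have ha2b : b * a ^ 2 = a ^ 2 * b := by
    have h1 := hconj 2
    have e : (2 ^ (n - 1) + 1) * 2 = 2 ^ n + 2 := by rw [e2n]; ring
    rw [e, pow_add, ha2n, one_mul] at h1
    calc b * a ^ 2 = b * a ^ 2 * b⁻¹ * b := by group
      _ = a ^ 2 * b := by rw [h1]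
  -- z commutes with b
  have hzb : b * z = z * b := by
    have e : z = (a ^ 2) ^ (2 ^ (n - 2)) := by
      rw [hz, ← pow_mul, ← pow_succ']; congr 2; omega
    rw [e]
    exact ((show Commute b (a ^ 2) from ha2b).pow_right _).eq
  -- S centralizes z
  have hSz : (S : Subgroup G) ≤ Subgroup.centralizer ({z} : Set G) := by
    intro w hw
    rw [Subgroup.mem_centralizer_singleton_iff]
    have hAz : ∀ x ∈ A, x * z = z * x := by
      intro x hx
      obtain ⟨k, rfl⟩ := Subgroup.mem_zpowers_iff.mp hx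
      exact (((Commute.refl a).zpow_left k).pow_right _).eq
    by_cases hwA : w ∈ A
    · exact hAz w hwA
    · have h1 : w * b ∈ A := (hmul w hw b hb).mpr (iff_of_false hwA hbA)
      have h2 := hAz _ h1
      -- w b z = z w b ; b z = z b
      have h3 : w * z * b = z * w * b := by
        calc w * z * b = w * (z * b) := mul_assoc _ _ _
          _ = w * (b * z) := by rw [hzb]
          _ = w * b * z := (mul_assoc _ _ _).symm
          _ = z * (w * b) := h2
          _ = z * w * b := (mul_assoc _ _ _).symm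
      exact mul_right_cancel h3
  -- elements of order 2^(n-1) in S power to z
  have hpow : ∀ w ∈ (S : Subgroup G), orderOf w = 2 ^ (n - 1) → w ^ (2 ^ (n - 2)) = z := by
    intro w hw hwo
    apply unique_invol a _ n (by omega) hao
    · have e : w ^ (2 ^ (n - 2)) = (w ^ 2) ^ (2 ^ (n - 3)) := by
        rw [← pow_mul, ← pow_succ']; congr 2; omega
      rw [e]
      exact Subgroup.pow_mem _ (hsq w hw) _
    · rw [orderOf_pow_of_dvd (by positivity) (by rw [hwo]; exact pow_dvd_pow 2 (by omega)), hwo]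
      have : 2 ^ (n - 1) = 2 ^ (n - 2) * 2 := by rw [← pow_succ]; congr 1; omega
      rw [this]
      exact Nat.mul_div_cancel_left 2 (by positivity)
  -- b is not conjugate into A
  have hnofus : ¬ ∃ g : G, g * b * g⁻¹ ∈ A := by
    rintro ⟨g, hg⟩
    have hgo : orderOf (g * b * g⁻¹) = 2 := by
      have : g * b * g⁻¹ = MulAut.conj g b := rfl
      rw [this, MulEquiv.orderOf_eq, hbo]
    have hgz : g * b * g⁻¹ = z := unique_invol a _ n (by omega) hao hg hgo
    set D := (S : Subgroup G) ⊓ Subgroup.centralizer ({b} : Set G) with hD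
    have hDp : IsPGroup 2 ↥D := S.2.to_le inf_le_left
    have hDC : cj g D ≤ Subgroup.centralizer ({z} : Set G) := by
      rw [cj_le_iff]
      intro d hd
      rw [Subgroup.mem_centralizer_singleton_iff, ← hgz]
      have hdb : d * b = b * d := Subgroup.mem_centralizer_singleton_iff.mp hd.2
      calc g * d * g⁻¹ * (g * b * g⁻¹) = g * (d * b) * g⁻¹ := by group
        _ = g * (b * d) * g⁻¹ := by rw [hdb]
        _ = g * b * g⁻¹ * (g * d * g⁻¹) := by group
    obtain ⟨c, hc, hcS⟩ := sylow_conj_in S _ hSz (cj g D) (isPGroup_cj g hDp) hDC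
    rw [cj_cj, cj_le_iff] at hcS
    have hcz : c * z = z * c := Subgroup.mem_centralizer_singleton_iff.mp hc
    have hbD : b ∈ D := ⟨hb, Subgroup.mem_centralizer_singleton_iff.mpr rfl⟩
    have ha2D : a ^ 2 ∈ D := ⟨Subgroup.pow_mem _ ha 2, Subgroup.mem_centralizer_singleton_iff.mpr ha2b.symm⟩
    have h1 : c * g * b * (c * g)⁻¹ = z := by
      calc c * g * b * (c * g)⁻¹ = c * (g * b * g⁻¹) * c⁻¹ := by group
        _ = c * z * c⁻¹ := by rw [hgz]
        _ = z := by rw [hcz]; group
    have hw := hcS _ ha2D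
    have hwo : orderOf (c * g * a ^ 2 * (c * g)⁻¹) = 2 ^ (n - 1) := by
      have : c * g * a ^ 2 * (c * g)⁻¹ = MulAut.conj (c * g) (a ^ 2) := rfl
      rw [this, MulEquiv.orderOf_eq, orderOf_pow_of_dvd (by norm_num) (by rw [hao]; exact dvd_pow_self 2 (by omega)), hao, e2n]
      exact Nat.mul_div_cancel _ (by norm_num)
    have h2 := hpow _ hw hwo
    rw [conj_pow, ← pow_mul, ← pow_succ'] at h2
    have e : n - 2 + 1 = n - 1 := by omega
    rw [e] at h2
    -- (c g) z (c g)⁻¹ = z = (c g) b (c g)⁻¹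
    have h3 : c * g * z * (c * g)⁻¹ = c * g * b * (c * g)⁻¹ := by rw [h1]; exact h2
    have h4 : z = b := mul_left_cancel (mul_right_cancel h3)
    exact hbA (h4 ▸ hzA)
  -- Thompson transfer
  rcases Cfsg.Agent.S0111.result S A hAS hidx b hbo hb hbA with ⟨M, hMn, hMi, hbM⟩ | h
  swap
  · exact absurd h hnofus
  -- an element c of order 2^n in S ⊓ M
  obtain ⟨c, hcS, hcM, hco⟩ : ∃ c, c ∈ (S : Subgroup G) ∧ c ∈ M ∧ orderOf c = 2 ^ n := by
    by_cases haM : a ∈ M
    · exact ⟨a, ha, haM, hao⟩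
    · refine ⟨a * b, mul_mem ha hb, (Subgroup.mul_mem_iff_of_index_two hMi).mpr (iff_of_false haM hbM), ?_⟩
      have hsq2 : (a * b) ^ 2 = a ^ (2 ^ (n - 1) + 2) := by
        calc (a * b) ^ 2 = a * (b * a * b⁻¹) * (b * b) := by rw [sq]; group
          _ = a * a ^ (2 ^ (n - 1) + 1) := by rw [hrel, hb2, mul_one]
          _ = a ^ (2 ^ (n - 1) + 2) := by rw [← pow_succ']
      have ho2 : orderOf ((a * b) ^ 2) = 2 ^ (n - 1) := by
        rw [hsq2, orderOf_pow, hao]
        have e1 : 2 ^ (n - 1) + 2 = 2 * (2 ^ (n - 2) + 1) := by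
          have : 2 ^ (n - 1) = 2 * 2 ^ (n - 2) := by rw [← pow_succ']; congr 1; omega
          rw [this]; ring
        have e3 : 2 ^ n = 2 * 2 ^ (n - 1) := by rw [← pow_succ']; congr 1; omega
        have hodd : Odd (2 ^ (n - 2) + 1) := by
          apply Even.add_one
          exact (Nat.even_pow.mpr ⟨even_two, by omega⟩)
        have hg : Nat.gcd (2 ^ n) (2 ^ (n - 1) + 2) = 2 := by
          rw [e1, e3, Nat.gcd_mul_left]
          have : Nat.Coprime (2 ^ (n - 1)) (2 ^ (n - 2) + 1) :=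
            Nat.Coprime.pow_left _ (Nat.coprime_two_left.mpr hodd)
          rw [this.gcd_eq_one]
        rw [hg, e3]
        exact Nat.mul_div_cancel_left _ (by norm_num)
      obtain ⟨k, hk⟩ := S.2 ⟨a * b, mul_mem ha hb⟩
      have hk' : (a * b) ^ (2 ^ k) = 1 := congrArg Subtype.val hk
      obtain ⟨j, _, hj⟩ := (Nat.dvd_prime_pow Nat.prime_two).mp (orderOf_dvd_of_pow_eq_one hk')
      rw [orderOf_pow, hj] at ho2
      rcases Nat.eq_zero_or_pos j with h0 | h0
      · exfalso
        rw [h0] at ho2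
        simp at ho2
        have : 1 < 2 ^ (n - 1) := Nat.one_lt_two_pow (by omega)
        omega
      · have e4 : 2 ^ j = 2 * 2 ^ (j - 1) := by rw [← pow_succ']; congr 1; omega
        have hg : Nat.gcd (2 ^ j) 2 = 2 := Nat.gcd_eq_right (dvd_pow_self 2 (by omega))
        rw [hg, e4, Nat.mul_div_cancel_left _ (by norm_num)] at ho2
        have := Nat.pow_right_injective (le_refl 2) ho2
        rw [hj]; congr 1; omega
  -- the 2-part of |M|
  have hfacG : (Nat.card G).factorization 2 = n + 1 := by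
    have h1 := S.card_eq_multiplicity
    rw [hS] at h1
    exact (Nat.pow_right_injective (le_refl 2) h1).symm
  have hcardM : Nat.card ↥M * 2 = Nat.card G := hMi ▸ M.card_mul_index
  have hfacM : (Nat.card ↥M).factorization 2 = n := by
    have h1 : (Nat.card ↥M * 2).factorization 2 = n + 1 := by rw [hcardM, hfacG]
    rw [Nat.factorization_mul Nat.card_pos.ne' (by norm_num)] at h1
    simp only [Finsupp.coe_add, Pi.add_apply, Nat.prime_two.factorization_self] at h1
    omega
  have hczM : Subgroup.zpowers c ≤ M := by rw [Subgroup.zpowers_le]; exact hcM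
  have hcardQ : Nat.card ↥((Subgroup.zpowers c).subgroupOf M) = 2 ^ (Nat.card ↥M).factorization 2 := by
    rw [hfacM, Nat.card_congr (Subgroup.subgroupOfEquivOfLe hczM).toEquiv, Nat.card_zpowers, hco]
  let Q : Sylow 2 ↥M := Sylow.ofCard _ hcardQ
  have hQc : IsCyclic ↥(Q : Subgroup ↥M) := by
    have : IsCyclic ↥((Subgroup.zpowers c).subgroupOf M) :=
      isCyclic_of_surjective (Subgroup.subgroupOfEquivOfLe hczM).symm (Subgroup.subgroupOfEquivOfLe hczM).symm.surjective
    exact this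
  have hmin : (Nat.card ↥M).minFac = 2 := by
    rw [Nat.minFac_eq_two_iff]
    have h1 : Nat.card ↥(Subgroup.zpowers c) ∣ Nat.card ↥M := Subgroup.card_dvd_of_le hczM
    rw [Nat.card_zpowers, hco] at h1
    exact (dvd_pow_self 2 (by omega)).trans h1
  have hMcomp : HasNormalPComplement 2 ↥M :=
    ⟨Q, _, inferInstance, IsCyclic.isComplement' hmin hQc⟩
  obtain ⟨k, hk⟩ := hasNormalPComplement_iff_index_pPrimeCore.mp hMcomp
  rw [hasNormalPComplement_iff]
  refine ⟨(pPrimeCore 2 ↥M).map M.subtype, normal_map_subtype_of_characteristic M _, ?_, k + 1, ?_⟩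
  · rw [Subgroup.card_map_of_injective (Subgroup.subtype_injective M)]
    exact card_pPrimeCore_coprime 2
  · rw [Subgroup.index_map_subtype, hk, hMi, pow_succ]

end Cfsg.Agent.S3178
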