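import Cfsg.Statements.S3179
import Cfsg.Agent.Lib.Helper38.GL5Nine
import Cfsg.Agent.Lib.Helper5.LinearCard
import Cfsg.Agent.S1163
import Cfsg.Agent.S0280

set_option autoImplicit false
open Cfsg

namespace Cfsg.Agent.S3179

/-- Let X be a section of the general linear group GL(5, 2), that is, a quotient of a subgroup of it. If X is isomorphic to PSL(2, 2^n) for some n ≥ 2, to a Suzuki group over the field with 2^(2m+1) elements for some m ≥ 1, or to PSU(3, 2^n) for some n ≥ 2, then X is isomorphic to PSL(2, 4). -/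
theorem result {H : Subgroup (GL (Fin 5) (ZMod 2))}
    {K : Subgroup ↥H} [K.Normal]
    (hX : (∃ (n : ℕ) (F : Type) (_ : Field F) (_ : Fintype F), 2 ≤ n ∧ Fintype.card F = 2 ^ n ∧
        Nonempty (↥H ⧸ K ≃* Matrix.ProjectiveSpecialLinearGroup (Fin 2) F)) ∨
      (∃ (m : ℕ) (F : Type) (_ : Field F) (_ : Fintype F), 1 ≤ m ∧ Fintype.card F = 2 ^ (2 * m + 1) ∧
        Nonempty (↥H ⧸ K ≃* ↥(Cfsg.Lie.Sz F (2 ^ (m + 1))))) ∨
      (∃ (n : ℕ) (F : Type) (_ : Field F) (_ : Fintype F), 2 ≤ n ∧ Fintype.card F = 4 ^ n ∧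
        Nonempty (↥H ⧸ K ≃* Cfsg.PSU 3 F (2 ^ n)))) :
    ∃ (F : Type) (_ : Field F) (_ : Fintype F), Fintype.card F = 4 ∧
      Nonempty (↥H ⧸ K ≃* Matrix.ProjectiveSpecialLinearGroup (Fin 2) F) := by
  have hGL : Nat.card (GL (Fin 5) (ZMod 2)) = 9999360 := by
    rw [Matrix.card_GL_field, ZMod.card]
    decide
  have hdvd : Nat.card (↥H ⧸ K) ∣ 9999360 := by
    rw [← hGL]
    exact dvd_trans (Subgroup.card_quotient_dvd_card K) (Subgroup.card_subgroup_dvd_card H)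
  rcases hX with ⟨n, F, _, _, hn, hF, ⟨e⟩⟩ | ⟨m, F, _, _, hm, hF, ⟨e⟩⟩ | ⟨n, F, _, _, hn, hF, ⟨e⟩⟩
  · have hc := Cfsg.Agent.Lib.Helper5.card_PSL2 (F := F)
    rw [← Nat.card_congr e.toEquiv, hF] at hc
    have hg : Nat.gcd (2 ^ n - 1) 2 = 1 := by
      have h1 : 2 ∣ 2 ^ n := dvd_pow_self 2 (by omega)
      have h2 : 0 < 2 ^ n := by positivity
      have h3 : ¬ 2 ∣ 2 ^ n - 1 := by omega
      exact (Nat.Coprime.symm ((Nat.Prime.coprime_iff_not_dvd Nat.prime_two).2 h3))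
    rw [hg, one_mul] at hc
    rw [hc] at hdvd
    have hle := Nat.le_of_dvd (by norm_num) hdvd
    have hn24 : n < 24 := by
      by_contra hcon
      push Not at hcon
      have h1 : 2 ^ 24 ≤ 2 ^ n := Nat.pow_le_pow_right (by norm_num) hcon
      have h2 : 1 ≤ (2 ^ n) ^ 2 - 1 := by
        have : 2 ^ 24 * 2 ^ 24 ≤ (2 ^ n) ^ 2 := by
          rw [pow_two]; exact Nat.mul_le_mul h1 h1
        omega
      have h3 : 2 ^ n * 1 ≤ 2 ^ n * ((2 ^ n) ^ 2 - 1) := Nat.mul_le_mul_left _ h2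
      omega
    by_cases hn2 : n = 2
    · subst hn2
      exact ⟨F, inferInstance, inferInstance, hF, ⟨e⟩⟩
    by_cases hn3 : n = 3
    · exfalso
      subst hn3
      obtain ⟨a, ha⟩ := Cfsg.Agent.Lib.Helper38.GL5.exists_order_nine (F := F) hF
      obtain ⟨h, hh⟩ := QuotientGroup.mk_surjective (e.symm a)
      have h1 : orderOf (e.symm a) = 9 := by rw [MulEquiv.orderOf_eq, ha]
      have h2 : orderOf (QuotientGroup.mk' K h) ∣ orderOf h := orderOf_map_dvd _ h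
      have h3 : (9 : ℕ) ∣ orderOf (h : GL (Fin 5) (ZMod 2)) := by
        rw [Subgroup.orderOf_coe, ← h1, ← hh]
        exact h2
      obtain ⟨d, hd⟩ := h3
      have hpos : 0 < orderOf (h : GL (Fin 5) (ZMod 2)) := orderOf_pos _
      have hd0 : d ≠ 0 := by
        rintro rfl
        omega
      have h4 : orderOf ((h : GL (Fin 5) (ZMod 2)) ^ d) = 9 := by
        rw [orderOf_pow_of_dvd hd0 ⟨9, by rw [hd, mul_comm]⟩, hd,
          Nat.mul_div_cancel _ (Nat.pos_of_ne_zero hd0)]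
      exact Cfsg.Agent.Lib.Helper38.GL5.no_order_nine _ h4
    · exfalso
      have hn4 : 4 ≤ n := by omega
      clear hle hc hg hF e
      interval_cases n <;> revert hdvd <;> decide
  · exfalso
    have hc := (Cfsg.Agent.S1163.result hm hF).1
    rw [← Nat.card_congr e.toEquiv] at hc
    rw [hc] at hdvd
    have hle := Nat.le_of_dvd (by norm_num) hdvd
    have hm6 : m < 6 := by
      by_contra hcon
      push Not at hcon
      have h1 : 2 ^ 13 ≤ 2 ^ (2 * m + 1) := Nat.pow_le_pow_right (by norm_num) (by omega)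
      have h2 : 2 ^ 13 * 2 ^ 13 ≤ (2 ^ (2 * m + 1)) ^ 2 := by
        rw [pow_two]; exact Nat.mul_le_mul h1 h1
      have h3 : 1 ≤ 2 ^ (2 * m + 1) - 1 := by omega
      have h4 : (2 ^ (2 * m + 1)) ^ 2 * 1 * 1 ≤
          (2 ^ (2 * m + 1)) ^ 2 * (2 ^ (2 * m + 1) - 1) * ((2 ^ (2 * m + 1)) ^ 2 + 1) :=
        Nat.mul_le_mul (Nat.mul_le_mul_left _ h3) (by omega)
      omega
    clear hle hc hF e
    interval_cases m <;> revert hdvd <;> decide
  · exfalso
    have hF' : Fintype.card F = (2 ^ n) ^ 2 := by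
      rw [hF, ← pow_mul, mul_comm, pow_mul]; rfl
    have hc := Cfsg.Agent.S0280.result hF' 3 (by norm_num)
    rw [← Nat.card_congr e.toEquiv] at hc
    have h' : (2 ^ n) ^ (3 * (3 - 1) / 2) * ∏ i ∈ Finset.range 3,
        (if Even i then (2 ^ n) ^ (i + 1) + 1 else (2 ^ n) ^ (i + 1) - 1) ∣
        Nat.gcd 3 (2 ^ n + 1) * ((2 ^ n + 1) * 9999360) := by
      rw [← hc]
      exact mul_dvd_mul_left _ (mul_dvd_mul_left _ hdvd)
    have hn9 : n < 9 := by
      by_contra hcon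
      push Not at hcon
      have hle := Nat.le_of_dvd (by
        have : 0 < Nat.gcd 3 (2 ^ n + 1) := Nat.gcd_pos_of_pos_left _ (by norm_num)
        positivity) h'
      have hg3 : Nat.gcd 3 (2 ^ n + 1) ≤ 3 := Nat.gcd_le_left _ (by norm_num)
      have h1 : 2 ^ 9 ≤ 2 ^ n := Nat.pow_le_pow_right (by norm_num) hcon
      generalize 2 ^ n = q at *
      simp only [Finset.prod_range_succ, Finset.prod_range_zero] at hle
      norm_num at hle
      have h2 : 1 ≤ q ^ 2 - 1 := by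
        have : 2 ^ 9 * 2 ^ 9 ≤ q ^ 2 := by rw [pow_two]; exact Nat.mul_le_mul h1 h1
        omega
      have h3 : 2 ^ 9 * 2 ^ 9 * 2 ^ 9 ≤ q ^ 3 := by
        have : q ^ 3 = q * q * q := by ring
        rw [this]
        exact Nat.mul_le_mul (Nat.mul_le_mul h1 h1) h1
      have h4 : Nat.gcd 3 (q + 1) * ((q + 1) * 9999360) ≤ 3 * ((q + 1) * 9999360) :=
        Nat.mul_le_mul_right _ hg3
      have h5 : q ^ 3 * ((q + 1) * 1 * 1) ≤ q ^ 3 * ((q + 1) * (q ^ 2 - 1) * (q ^ 3 + 1)) :=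
        Nat.mul_le_mul_left _ (Nat.mul_le_mul (Nat.mul_le_mul_left _ h2) (by omega))
      have h6 : 2 ^ 9 * 2 ^ 9 * 2 ^ 9 * ((q + 1) * 1 * 1) ≤ q ^ 3 * ((q + 1) * 1 * 1) :=
        Nat.mul_le_mul_right _ h3
      omega
    clear hc hF' hF e hdvd
    interval_cases n <;> revert h' <;> decide

end Cfsg.Agent.S3179
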