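import Cfsg.Statements.S3180
import Mathlib

set_option autoImplicit false
open Cfsg

namespace Cfsg.Agent.S3180

open scoped Pointwise

lemma map_conj_le_iff {J : Type*} [Group J] (A B : Subgroup J) (g : J) :
    A.map (MulAut.conj g).toMonoidHom ≤ B ↔ ∀ a ∈ A, g * a * g⁻¹ ∈ B := by
  constructor
  · intro h a ha
    exact h (Subgroup.mem_map_of_mem _ ha)
  · rintro h _ ⟨a, ha, rfl⟩
    exact h a ha

lemma mem_smul_sylow_iff {J : Type*} [Group J] {p : ℕ} (g b : J) (P : Sylow p J) :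
    b ∈ g • P ↔ g⁻¹ * b * g ∈ (P : Subgroup J) := by
  have : b ∈ g • P ↔ b ∈ MulAut.conj g • (P : Subgroup J) := Iff.rfl
  rw [this, Subgroup.mem_pointwise_smul_iff_inv_smul_mem]
  simp [MulAut.smul_def]

theorem result {J : Type*} [Group J] [Finite J]
    {p : ℕ} [Fact p.Prime] (P : Sylow p J) (P₁ : Subgroup J) (hW : Cfsg.IsWeaklyClosed P₁ (P : Subgroup J))
    {Ω : Type*} [MulAction J Ω] (x y : Ω) (hx : ∀ g ∈ P₁, g • x = x) (hy : ∀ g ∈ P₁, g • y = y)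
    (hc : ∃ g : J, g • x = y) :
    ∃ g ∈ Subgroup.normalizer (P₁ : Set J), g • x = y := by
  obtain ⟨g, hg⟩ := hc
  obtain ⟨hP₁P, hwc⟩ := hW
  set St := MulAction.stabilizer J y with hSt
  have hP₁p : IsPGroup p ↥P₁ := P.2.to_le hP₁P
  have h1 : P₁ ≤ St := fun a ha => MulAction.mem_stabilizer_iff.mpr (hy a ha)
  set P₂ := P₁.map (MulAut.conj g).toMonoidHom with hP₂
  have h2 : P₂ ≤ St := by
    rw [hP₂, map_conj_le_iff]
    intro a ha
    rw [MulAction.mem_stabilizer_iff, ← hg, mul_smul, mul_smul, inv_smul_smul, hx a ha]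
  have hP₂p : IsPGroup p ↥P₂ := hP₁p.map _
  have hp1 : IsPGroup p ↥(P₁.subgroupOf St) := hP₁p.comap_subtype
  have hp2 : IsPGroup p ↥(P₂.subgroupOf St) := hP₂p.comap_subtype
  obtain ⟨Q, hQ⟩ := hp1.exists_le_sylow
  obtain ⟨Q', hQ'⟩ := hp2.exists_le_sylow
  obtain ⟨h, hh⟩ := MulAction.exists_smul_eq ↥St Q' Q
  -- the image of Q in J is a p-group
  have hQp : IsPGroup p ↥((Q : Subgroup ↥St).map St.subtype) := Q.2.map _
  obtain ⟨R, hR⟩ := hQp.exists_le_sylow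
  obtain ⟨k, hk⟩ := MulAction.exists_smul_eq J P R
  -- P₁ ≤ R
  have hP₁R : ∀ a ∈ P₁, a ∈ R := by
    intro a ha
    apply hR
    refine ⟨⟨a, h1 ha⟩, hQ ?_, rfl⟩
    rw [Subgroup.mem_subgroupOf]; exact ha
  have hP₂R : ∀ a ∈ P₁, (h : J) * g * a * ((h : J) * g)⁻¹ ∈ R := by
    intro a ha
    apply hR
    have ha2 : g * a * g⁻¹ ∈ P₂ := Subgroup.mem_map_of_mem (MulAut.conj g).toMonoidHom ha
    have hmem : (⟨g * a * g⁻¹, h2 ha2⟩ : ↥St) ∈ Q' := by
      apply hQ'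
      rw [Subgroup.mem_subgroupOf]; exact ha2
    have hmem2 : h * (⟨g * a * g⁻¹, h2 ha2⟩ : ↥St) * h⁻¹ ∈ Q := by
      rw [← hh, mem_smul_sylow_iff]
      have e : h⁻¹ * (h * (⟨g * a * g⁻¹, h2 ha2⟩ : ↥St) * h⁻¹) * h = ⟨g * a * g⁻¹, h2 ha2⟩ := by group
      rw [e]
      exact hmem
    refine ⟨_, hmem2, ?_⟩
    simp only [Subgroup.subtype_apply, Subgroup.coe_mul, Subgroup.coe_inv]
    group
  -- k⁻¹ normalizes P₁
  have e1 : P₁.map (MulAut.conj k⁻¹).toMonoidHom = P₁ := by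
    apply hwc
    rw [map_conj_le_iff]
    intro a ha
    have := hP₁R a ha
    rw [← hk, mem_smul_sylow_iff] at this
    simpa using this
  have e2 : P₁.map (MulAut.conj (k⁻¹ * ((h : J) * g))).toMonoidHom = P₁ := by
    apply hwc
    rw [map_conj_le_iff]
    intro a ha
    have := hP₂R a ha
    rw [← hk, mem_smul_sylow_iff] at this
    have e : k⁻¹ * ((h : J) * g) * a * (k⁻¹ * ((h : J) * g))⁻¹ = k⁻¹ * (↑h * g * a * (↑h * g)⁻¹) * k := by group
    rw [e]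
    exact this
  have n1 : k⁻¹ ∈ Subgroup.normalizer (P₁ : Set J) := Subgroup.mem_normalizer_iff_map_conj_eq.mpr e1
  have n2 : k⁻¹ * ((h : J) * g) ∈ Subgroup.normalizer (P₁ : Set J) := Subgroup.mem_normalizer_iff_map_conj_eq.mpr e2
  refine ⟨(h : J) * g, ?_, ?_⟩
  · have := mul_mem (inv_mem n1) n2
    simpa using this
  · rw [mul_smul, hg]
    exact MulAction.mem_stabilizer_iff.mp h.2

end Cfsg.Agent.S3180
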