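import Cfsg.Statements.S3183
import Mathlib

set_option autoImplicit false
open Cfsg

namespace Cfsg.Agent.S3183

open scoped Pointwise

lemma mem_Zc {G : Type*} [Group G] (U : Subgroup G) (z : G) :
    z ∈ (Subgroup.center ↥U).map U.subtype ↔ z ∈ U ∧ ∀ u ∈ U, u * z = z * u := by
  constructor
  · rintro ⟨⟨w, hw⟩, hc, rfl⟩
    refine ⟨hw, fun u hu => ?_⟩
    have := Subgroup.mem_center_iff.mp hc ⟨u, hu⟩
    exact congrArg Subtype.val this
  · rintro ⟨hz, hc⟩
    refine ⟨⟨z, hz⟩, ?_, rfl⟩
    apply Subgroup.mem_center_iff.mpr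
    rintro ⟨u, hu⟩
    exact Subtype.ext (hc u hu)

lemma mem_smul_sylow_iff {J : Type*} [Group J] {p : ℕ} (g b : J) (P : Sylow p J) :
    b ∈ ((g • P : Sylow p J) : Subgroup J) ↔ g⁻¹ * b * g ∈ (P : Subgroup J) := by
  have : b ∈ ((g • P : Sylow p J) : Subgroup J) ↔ b ∈ MulAut.conj g • (P : Subgroup J) := Iff.rfl
  rw [this, Subgroup.mem_pointwise_smul_iff_inv_smul_mem]
  simp [MulAut.smul_def]

lemma key {G : Type*} [Group G] [Finite G]
    (hCI : ∀ S T : Sylow 2 G, S ≠ T → ∃ U : Sylow 2 G,
      (S : Subgroup G) ⊓ (T : Subgroup G) ≤ (Subgroup.center ↥(U : Subgroup G)).map (U : Subgroup G).subtype)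
    (D : Subgroup G) : ∀ S T : Sylow 2 G, S ≠ T → (S : Subgroup G) ⊓ (T : Subgroup G) = D →
      D ≤ (Subgroup.center ↥(S : Subgroup G)).map (S : Subgroup G).subtype := by
  have : Fact (Nat.Prime 2) := ⟨Nat.prime_two⟩
  induction D using WellFoundedGT.induction with
  | ind D ih =>
    intro S T hST hD
    obtain ⟨U, hU⟩ := hCI S T hST
    rw [hD] at hU
    set N := Subgroup.normalizer (D : Set G) with hN
    have hDS : D ≤ S := hD ▸ inf_le_left
    have hDT : D ≤ T := hD ▸ inf_le_right
    have hUN : (U : Subgroup G) ≤ N := by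
      intro u hu
      rw [hN, Subgroup.mem_normalizer_iff]
      intro d
      constructor
      · intro hd
        have := ((mem_Zc _ _).mp (hU hd)).2 u hu
        rw [this]; simpa using hd
      · intro hd
        have h1 := ((mem_Zc _ _).mp (hU hd)).2 u⁻¹ (inv_mem hu)
        have : d = u⁻¹ * (u * d * u⁻¹) * u := by group
        rw [this, h1]; simpa using hd
    -- S ⊓ N is contained in a conjugate of U under N
    have hp : IsPGroup 2 ↥(((S : Subgroup G) ⊓ N).subgroupOf N) :=
      (S.2.to_le inf_le_left).comap_subtype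
    obtain ⟨Q, hQ⟩ := hp.exists_le_sylow
    obtain ⟨n, hn⟩ := MulAction.exists_smul_eq ↥N (U.subtype hUN) Q
    set U' : Sylow 2 G := (n : G) • U with hU'
    have hSNU' : (S : Subgroup G) ⊓ N ≤ U' := by
      intro s hs
      have h1 : (⟨s, hs.2⟩ : ↥N) ∈ (Q : Subgroup ↥N) := by
        apply hQ
        rw [Subgroup.mem_subgroupOf]; exact hs
      rw [← hn, mem_smul_sylow_iff, Sylow.coe_subtype, Subgroup.mem_subgroupOf] at h1
      rw [hU', mem_smul_sylow_iff]
      exact h1
    have hDZU' : D ≤ (Subgroup.center ↥(U' : Subgroup G)).map (U' : Subgroup G).subtype := by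
      intro d hd
      have hd' : (n : G)⁻¹ * d * (n : G) ∈ D := by
        have := (Subgroup.mem_normalizer_iff.mp (inv_mem n.2) d).mp hd
        simpa using this
      obtain ⟨h1, h2⟩ := (mem_Zc _ _).mp (hU hd')
      rw [mem_Zc]
      refine ⟨by rw [hU', mem_smul_sylow_iff]; exact h1, ?_⟩
      intro u hu
      rw [hU', mem_smul_sylow_iff] at hu
      have h3 := h2 _ hu
      have e1 : u * d = (n : G) * (((n : G)⁻¹ * u * n) * ((n : G)⁻¹ * d * n)) * (n : G)⁻¹ := by group
      have e2 : d * u = (n : G) * (((n : G)⁻¹ * d * n) * ((n : G)⁻¹ * u * n)) * (n : G)⁻¹ := by group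
      rw [e1, e2, h3]
    by_cases hU'S : U' = S
    · rw [← hU'S]; exact hDZU'
    · -- normalizer grows
      have hDneS : D.subgroupOf S < ⊤ := by
        rw [lt_top_iff_ne_top]
        intro h
        rw [Subgroup.subgroupOf_eq_top] at h
        apply hST
        have hle : (S : Subgroup G) ≤ T := h.trans hDT
        exact Sylow.ext (S.3 T.2 hle).symm ▸ rfl
      have : Group.IsNilpotent ↥(S : Subgroup G) := S.2.isNilpotent
      have hgrow := Group.normalizerCondition_of_isNilpotent (G := ↥(S : Subgroup G)) _ hDneS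
      obtain ⟨s, hs1, hs2⟩ := SetLike.exists_of_lt hgrow
      rw [← Subgroup.subgroupOf_normalizer_eq hDS, Subgroup.mem_subgroupOf] at hs1
      rw [Subgroup.mem_subgroupOf] at hs2
      have hlt : D < (S : Subgroup G) ⊓ (U' : Subgroup G) := by
        refine lt_of_le_of_ne (le_inf hDS (fun d hd => ((mem_Zc _ _).mp (hDZU' hd)).1)) ?_
        intro h
        apply hs2
        rw [h]
        exact ⟨s.2, hSNU' ⟨s.2, hs1⟩⟩
      have := ih _ hlt S U' (Ne.symm hU'S) rfl
      exact hlt.le.trans this

theorem result {G : Type*} [Group G] [Finite G]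
    (hCI : ∀ S T : Sylow 2 G, S ≠ T → ∃ U : Sylow 2 G,
      (S : Subgroup G) ⊓ (T : Subgroup G) ≤ (Subgroup.center ↥(U : Subgroup G)).map (U : Subgroup G).subtype)
    (S : Sylow 2 G) :
    (∀ x ∈ (S : Subgroup G), ∀ P : Subgroup G, IsPGroup 2 ↥P → P ≤ Subgroup.centralizer ({x} : Set G) →
        Nat.card ↥P ≤ Nat.card ↥((S : Subgroup G) ⊓ Subgroup.centralizer ({x} : Set G))) ∧
    (∀ T : Sylow 2 G, T ≠ S →
        (S : Subgroup G) ⊓ (T : Subgroup G) ≤
          (Subgroup.center ↥(S : Subgroup G)).map (S : Subgroup G).subtype ⊓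
            (Subgroup.center ↥(T : Subgroup G)).map (T : Subgroup G).subtype) := by
  have : Fact (Nat.Prime 2) := ⟨Nat.prime_two⟩
  constructor
  · intro x hx P hP hPx
    by_cases hxZ : x ∈ (Subgroup.center ↥(S : Subgroup G)).map (S : Subgroup G).subtype
    · have hSC : (S : Subgroup G) ≤ Subgroup.centralizer ({x} : Set G) := by
        intro s hs
        rw [Subgroup.mem_centralizer_singleton_iff]
        exact ((mem_Zc _ _).mp hxZ).2 s hs
      rw [inf_eq_left.mpr hSC]
      obtain ⟨Q, hQ⟩ := hP.exists_le_sylow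
      calc Nat.card ↥P ≤ Nat.card ↥(Q : Subgroup G) := Subgroup.card_le_of_le hQ
        _ = Nat.card ↥(S : Subgroup G) := by
          rw [Sylow.card_eq_multiplicity, Sylow.card_eq_multiplicity]
    · have hxp : IsPGroup 2 ↥(Subgroup.zpowers x) := S.2.to_le (by simpa using hx)
      have hnorm : P ≤ Subgroup.normalizer ((Subgroup.zpowers x : Subgroup G) : Set G) := by
        intro g hg
        have hgx := Subgroup.mem_centralizer_singleton_iff.mp (hPx hg)
        have hcomm : ∀ w ∈ Subgroup.zpowers x, g * w * g⁻¹ = w := by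
          rintro w ⟨k, rfl⟩
          have : Commute g (x ^ k) := (show Commute g x from hgx).zpow_right k
          rw [this.eq]; group
        rw [Subgroup.mem_normalizer_iff]
        intro w
        constructor
        · intro hw; rw [hcomm w hw]; exact hw
        · intro hw
          have h1 : g⁻¹ * (g * w * g⁻¹) * g = g * w * g⁻¹ := by
            have h2 := hcomm _ hw
            calc g⁻¹ * (g * w * g⁻¹) * g = g⁻¹ * (g * (g * w * g⁻¹) * g⁻¹) * g := by rw [h2]
              _ = g * w * g⁻¹ := by group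
          have h3 : w = g⁻¹ * (g * w * g⁻¹) * g := by group
          rw [h3, h1]; exact hw
      have hsup : IsPGroup 2 ↥(P ⊔ Subgroup.zpowers x) := hP.to_sup_of_normal_right' hxp hnorm
      obtain ⟨Q, hQ⟩ := hsup.exists_le_sylow
      have hxQ : x ∈ (Q : Subgroup G) := hQ (Subgroup.mem_sup_right (Subgroup.mem_zpowers x))
      have hQS : Q = S := by
        by_contra hne
        exact hxZ (key hCI _ S Q (Ne.symm hne) rfl ⟨hx, hxQ⟩)
      apply Subgroup.card_le_of_le
      exact le_inf (hQS ▸ (le_sup_left.trans hQ)) hPx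
  · intro T hT
    apply le_inf
    · exact key hCI _ S T (Ne.symm hT) rfl
    · rw [inf_comm]
      exact key hCI _ T S hT rfl

end Cfsg.Agent.S3183
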