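import Cfsg.Statements.S3184
import Cfsg.Agent.S0215
import Cfsg.Agent.Lib.Helper53.Conj
import Cfsg.Agent.Lib.Lead.Cores

set_option autoImplicit false
set_option linter.style.haveILetI false
open Cfsg

namespace Cfsg.Agent.S3184

open Cfsg.Agent.Lib.Helper53

/-- a finite cyclic group has at most one element of order two -/
theorem eq_of_orderOf_two {C : Type*} [Group C] [Finite C] [IsCyclic C] {a b : C}
    (ha : orderOf a = 2) (hb : orderOf b = 2) : a = b := by
  classical
  haveI := Fintype.ofFinite C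
  by_contra hab
  have h := IsCyclic.card_pow_eq_one_le (α := C) (n := 2) (by norm_num)
  have ha1 : a ≠ 1 := by rintro rfl; simp at ha
  have hb1 : b ≠ 1 := by rintro rfl; simp at hb
  have hsub : ({1, a, b} : Finset C) ⊆ Finset.univ.filter (fun x : C => x ^ 2 = 1) := by
    intro x hx
    simp only [Finset.mem_insert, Finset.mem_singleton] at hx
    simp only [Finset.mem_filter, Finset.mem_univ, true_and]
    rcases hx with rfl | rfl | rfl
    · simp
    · rw [← ha]; exact pow_orderOf_eq_one _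
    · rw [← hb]; exact pow_orderOf_eq_one _
  have h3 : ({1, a, b} : Finset C).card = 3 := by
    rw [Finset.card_insert_of_notMem, Finset.card_insert_of_notMem, Finset.card_singleton]
    · simpa using hab
    · simp only [Finset.mem_insert, Finset.mem_singleton, not_or]
      exact ⟨fun h => ha1 h.symm, fun h => hb1 h.symm⟩
  have := Finset.card_le_card hsub
  omega

section

variable {G : Type*} [Group G] [Finite G] (S : Sylow 2 G) (C : Subgroup ↥(S : Subgroup G))
  (hCc : IsCyclic ↥C) (hCh : C.Characteristic) (c : ↥(S : Subgroup G)) (hc : c ∈ C)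
  (hc2 : orderOf c = 2)

include hCc hCh hc hc2 in
/-- the normalizer of `S` centralizes `c` -/
theorem conj_eq_of_normalizes (n : G) (hn : cj n (S : Subgroup G) = S) :
    n * (c : G) * n⁻¹ = c := by
  let φ : ↥(S : Subgroup G) ≃* ↥(S : Subgroup G) :=
    ((MulAut.conj n).subgroupMap (S : Subgroup G)).trans (MulEquiv.subgroupCongr hn)
  have hφ : ∀ x : ↥(S : Subgroup G), ((φ x : ↥(S : Subgroup G)) : G) = n * x * n⁻¹ := fun x => rfl
  have h1 : φ c ∈ C := by
    have := hCh.fixed φ
    have h2 : c ∈ C.comap φ.toMonoidHom := by rw [this]; exact hc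
    exact h2
  have h2 : orderOf (φ c) = 2 := by rw [MulEquiv.orderOf_eq]; exact hc2
  have h3 : (⟨φ c, h1⟩ : C) = ⟨c, hc⟩ := by
    apply eq_of_orderOf_two
    · rw [← Subgroup.orderOf_coe]; exact h2
    · rw [← Subgroup.orderOf_coe]; exact hc2
  have h4 : φ c = c := congrArg Subtype.val h3
  rw [← hφ, h4]

include hCc hCh hc hc2 in
theorem conj_eq_conj (g₁ g₂ : G) (h : cj g₁ (S : Subgroup G) = cj g₂ (S : Subgroup G)) :
    g₁ * (c : G) * g₁⁻¹ = g₂ * (c : G) * g₂⁻¹ := by
  have hn : cj (g₂⁻¹ * g₁) (S : Subgroup G) = S := by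
    rw [← cj_cj, h, cj_cj, inv_mul_cancel, cj_one]
  have := conj_eq_of_normalizes S C hCc hCh c hc hc2 _ hn
  calc g₁ * (c : G) * g₁⁻¹ = g₂ * ((g₂⁻¹ * g₁) * (c : G) * (g₂⁻¹ * g₁)⁻¹) * g₂⁻¹ := by group
    _ = g₂ * (c : G) * g₂⁻¹ := by rw [this]

include hCc hCh hc hc2 in
theorem cj_le_centralizer (g : G) :
    cj g (S : Subgroup G) ≤ Subgroup.centralizer ({g * (c : G) * g⁻¹} : Set G) := by
  rw [cj_le_iff]
  intro s hs
  rw [Subgroup.mem_centralizer_singleton_iff]
  have hn : cj s (S : Subgroup G) = S := by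
    apply cj_eq_of_le
    rw [cj_le_iff]
    intro a ha
    exact mul_mem (mul_mem hs ha) (inv_mem hs)
  have := conj_eq_of_normalizes S C hCc hCh c hc hc2 s hn
  have h2 : s * (c : G) = c * s := by
    calc s * (c : G) = (s * c * s⁻¹) * s := by group
      _ = c * s := by rw [this]
  calc g * s * g⁻¹ * (g * (c : G) * g⁻¹) = g * (s * c) * g⁻¹ := by group
    _ = g * (c * s) * g⁻¹ := by rw [h2]
    _ = g * (c : G) * g⁻¹ * (g * s * g⁻¹) := by group

include hCc hCh hc hc2 in
/-- a Sylow subgroup centralizing a conjugate `t` of `c` has `t` as its distinguished involution -/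
theorem rel_of_le_centralizer (g : G) (U : Subgroup G) (hU : IsPGroup 2 U)
    (hcard : Nat.card U = Nat.card (S : Subgroup G))
    (hUt : U ≤ Subgroup.centralizer ({g * (c : G) * g⁻¹} : Set G)) :
    ∃ k : G, U = cj k (S : Subgroup G) ∧ k * (c : G) * k⁻¹ = g * (c : G) * g⁻¹ := by
  haveI : Fact (Nat.Prime 2) := ⟨Nat.prime_two⟩
  have hT : ((g • S : Sylow 2 G) : Subgroup G) ≤
      Subgroup.centralizer ({g * (c : G) * g⁻¹} : Set G) := by
    rw [coe_smul_sylow]; exact cj_le_centralizer S C hCc hCh c hc hc2 g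
  obtain ⟨m, hm, hle⟩ := sylow_conj_in (g • S) _ hT U hU hUt
  rw [coe_smul_sylow] at hle
  have heq : cj m U = cj g (S : Subgroup G) :=
    Subgroup.eq_of_le_of_card_ge hle (by rw [card_cj, card_cj, hcard])
  refine ⟨m⁻¹ * g, ?_, ?_⟩
  · rw [← cj_cj, ← heq, cj_cj, inv_mul_cancel, cj_one]
  · rw [Subgroup.mem_centralizer_singleton_iff] at hm
    calc m⁻¹ * g * (c : G) * (m⁻¹ * g)⁻¹ = m⁻¹ * ((g * c * g⁻¹) * m) := by group
      _ = m⁻¹ * (m * (g * c * g⁻¹)) := by rw [hm]
      _ = g * (c : G) * g⁻¹ := by group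

end

/-- Let G be a finite group in which the intersection of any two distinct Sylow 2-subgroups is contained in the centre of some Sylow 2-subgroup, and let S be a Sylow 2-subgroup. If C is a nontrivial cyclic characteristic subgroup of S, then the involution of C is central modulo the largest normal subgroup of odd order of G: each of its conjugates has the same image in G/O(G). -/
theorem result {G : Type*} [Group G] [Finite G]
    (hCI : ∀ S T : Sylow 2 G, S ≠ T → ∃ U : Sylow 2 G,
      (S : Subgroup G) ⊓ (T : Subgroup G) ≤ (Subgroup.center ↥(U : Subgroup G)).map (U : Subgroup G).subtype)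
    (S : Sylow 2 G) (C : Subgroup ↥(S : Subgroup G)) (hC : C ≠ ⊥) (hCc : IsCyclic ↥C) (hCh : C.Characteristic)
    (c : ↥(S : Subgroup G)) (hc : c ∈ C) (hc2 : orderOf c = 2) :
    ∀ g : G, (QuotientGroup.mk (s := Cfsg.oddCore G) (g * (c : G) * g⁻¹)) =
      QuotientGroup.mk (s := Cfsg.oddCore G) (c : G) := by
  haveI : Fact (Nat.Prime 2) := ⟨Nat.prime_two⟩
  have hc2' : orderOf (c : G) = 2 := by rw [Subgroup.orderOf_coe]; exact hc2
  have hcardS : ∀ U : Sylow 2 G, Nat.card (U : Subgroup G) = Nat.card (S : Subgroup G) := by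
    intro U
    obtain ⟨k, rfl⟩ := MulAction.exists_smul_eq G S U
    rw [coe_smul_sylow, card_cj]
  -- `c` is isolated in `S`
  have hiso : ∀ g : G, g * (c : G) * g⁻¹ ∈ (S : Subgroup G) → g * (c : G) * g⁻¹ = c := by
    intro g hg
    set t := g * (c : G) * g⁻¹ with ht
    have hT : ((g • S : Sylow 2 G) : Subgroup G) ≤ Subgroup.centralizer ({t} : Set G) := by
      rw [coe_smul_sylow]; exact cj_le_centralizer S C hCc hCh c hc hc2 g
    have hS1 : (S : Subgroup G) ≤ Subgroup.centralizer ({(c : G)} : Set G) := by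
      have := cj_le_centralizer S C hCc hCh c hc hc2 1
      simpa [cj_one] using this
    have hR : IsPGroup 2 ↥((S : Subgroup G) ⊓ Subgroup.centralizer ({t} : Set G)) :=
      S.2.to_le inf_le_left
    obtain ⟨m, hm, hle⟩ := sylow_conj_in (g • S) _ hT _ hR inf_le_right
    -- `T' = m⁻¹ • g • S`
    have hRT : (S : Subgroup G) ⊓ Subgroup.centralizer ({t} : Set G) ≤
        ((m⁻¹ • g • S : Sylow 2 G) : Subgroup G) := by
      rw [coe_smul_sylow]
      have := cj_mono m⁻¹ hle
      rwa [cj_cj, inv_mul_cancel, cj_one] at this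
    have hT' : ((m⁻¹ • g • S : Sylow 2 G) : Subgroup G) ≤ Subgroup.centralizer ({t} : Set G) := by
      rw [coe_smul_sylow, cj_le_iff]
      intro a ha
      exact mul_mem (mul_mem (inv_mem hm) (hT ha)) (inv_mem (inv_mem hm))
    have hcS : (c : G) ∈ (S : Subgroup G) := c.2
    have hct : (c : G) ∈ Subgroup.centralizer ({t} : Set G) := by
      rw [Subgroup.mem_centralizer_singleton_iff]
      have := hS1 hg
      rw [Subgroup.mem_centralizer_singleton_iff] at this
      exact this.symm
    have htt : t ∈ Subgroup.centralizer ({t} : Set G) := by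
      rw [Subgroup.mem_centralizer_singleton_iff]
    by_cases hST : S = m⁻¹ • g • S
    · obtain ⟨k, hk1, hk2⟩ := rel_of_le_centralizer S C hCc hCh c hc hc2 g
        ((m⁻¹ • g • S : Sylow 2 G) : Subgroup G) (m⁻¹ • g • S : Sylow 2 G).2 (hcardS _) hT'
      rw [← hST] at hk1
      have := conj_eq_conj S C hCc hCh c hc hc2 1 k (by rw [cj_one]; exact hk1)
      rw [hk2] at this
      simpa using this.symm
    · obtain ⟨U, hU⟩ := hCI S _ hST
      have h1 : (c : G) ∈ (Subgroup.center ↥(U : Subgroup G)).map (U : Subgroup G).subtype :=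
        hU ⟨hcS, hRT ⟨hcS, hct⟩⟩
      have h2 : t ∈ (Subgroup.center ↥(U : Subgroup G)).map (U : Subgroup G).subtype :=
        hU ⟨hg, hRT ⟨hg, htt⟩⟩
      rw [mem_map_center_iff] at h1 h2
      have hU1 : (U : Subgroup G) ≤ Subgroup.centralizer ({1 * (c : G) * 1⁻¹} : Set G) := by
        intro u hu
        rw [Subgroup.mem_centralizer_singleton_iff]
        simpa using h1.2 u hu
      have hU2 : (U : Subgroup G) ≤ Subgroup.centralizer ({g * (c : G) * g⁻¹} : Set G) := by
        intro u hu
        rw [Subgroup.mem_centralizer_singleton_iff]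
        exact h2.2 u hu
      obtain ⟨k1, hk1, hk1'⟩ := rel_of_le_centralizer S C hCc hCh c hc hc2 1 U U.2 (hcardS U) hU1
      obtain ⟨k2, hk2, hk2'⟩ := rel_of_le_centralizer S C hCc hCh c hc hc2 g U U.2 (hcardS U) hU2
      have := conj_eq_conj S C hCc hCh c hc hc2 k1 k2 (by rw [← hk1, ← hk2])
      rw [hk1', hk2'] at this
      simpa using this.symm
  obtain ⟨N, hN, hodd, hcomm⟩ := Cfsg.Agent.S0215.result S (c : G) hc2' c.2 hiso
  have hle : N ≤ Cfsg.oddCore G :=
    Cfsg.Agent.Lib.Lead.le_pPrimeCore hN (Nat.coprime_two_right.2 hodd)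
  intro g
  rw [QuotientGroup.eq]
  apply hle
  have h1 := N.inv_mem (hcomm g)
  have hcc : (c : G)⁻¹ = c := by
    have : (c : G) * c = 1 := by
      have h := pow_orderOf_eq_one (c : G)
      rw [hc2', pow_two] at h
      exact h
    exact inv_eq_of_mul_eq_one_left this
  have : (g * (c : G) * g⁻¹)⁻¹ * c = ((c : G) * g * (c : G)⁻¹ * g⁻¹)⁻¹ := by
    rw [hcc]
    simp only [mul_inv_rev, inv_inv, hcc, mul_assoc]
  rw [this]
  exact h1

end Cfsg.Agent.S3184
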