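import Cfsg.Statements.S3190
import Cfsg.Agent.Lib.Helper53.PGroup
import Mathlib

set_option autoImplicit false
open Cfsg

namespace Cfsg.Agent.S3190

open Cfsg.Agent.Lib.Helper53

lemma mem_Zc {G : Type*} [Group G] (U : Subgroup G) (z : G) :
    z ∈ (Subgroup.center ↥U).map U.subtype ↔ z ∈ U ∧ ∀ u ∈ U, u * z = z * u := by
  constructor
  · rintro ⟨⟨w, hw⟩, hc, rfl⟩
    refine ⟨hw, fun u hu => ?_⟩
    have := Subgroup.mem_center_iff.mp hc ⟨u, hu⟩
    exact congrArg Subtype.val this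
  · rintro ⟨hz, hc⟩
    refine ⟨⟨z, hz⟩, ?_, rfl⟩
    apply Subgroup.mem_center_iff.mpr
    rintro ⟨u, hu⟩
    exact Subtype.ext (hc u hu)

/-- the elements of `Z(R)` inverted by `t` -/
def invSub {X : Type*} [Group X] (R : Subgroup X) (t : X) : Subgroup X where
  carrier := {z | z ∈ R ∧ (∀ r ∈ R, r * z = z * r) ∧ t * z * t⁻¹ = z⁻¹}
  one_mem' := ⟨R.one_mem, by simp, by simp⟩
  mul_mem' := by
    rintro a b ⟨ha, hac, hat⟩ ⟨hb, hbc, hbt⟩
    refine ⟨R.mul_mem ha hb, ?_, ?_⟩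
    · intro r hr
      rw [← mul_assoc, hac r hr, mul_assoc, hbc r hr, mul_assoc]
    · have e : t * (a * b) * t⁻¹ = (t * a * t⁻¹) * (t * b * t⁻¹) := by group
      rw [e, hat, hbt, mul_inv_rev, ← mul_inv_rev, ← mul_inv_rev, hbc a ha]
  inv_mem' := by
    rintro a ⟨ha, hac, hat⟩
    refine ⟨R.inv_mem ha, ?_, ?_⟩
    · intro r hr
      have := hac r hr
      calc r * a⁻¹ = a⁻¹ * (a * r) * a⁻¹ := by group
        _ = a⁻¹ * (r * a) * a⁻¹ := by rw [this]
        _ = a⁻¹ * r := by group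
    · have e : t * a⁻¹ * t⁻¹ = (t * a * t⁻¹)⁻¹ := by group
      rw [e, hat]

theorem result {X : Type*} [Group X] [Finite X]
    {p : ℕ} (hp : p.Prime) (hodd : Odd p) (P T R : Subgroup X) (hP : IsPGroup p ↥P) (hT : IsKleinFour ↥T)
    (hTP : T ≤ Subgroup.normalizer (P : Set X)) (hRP : R ≤ P) (hRn : (R.subgroupOf P).Normal)
    (hTR : T ≤ Subgroup.normalizer (R : Set X)) (hfac : R ⊔ (P ⊓ Subgroup.centralizer (T : Set X)) = P)
    (hZ : T ≤ Subgroup.centralizer (((Subgroup.center ↥P).map P.subtype : Subgroup X) : Set X)) :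
    T ≤ Subgroup.centralizer (((Subgroup.center ↥R).map R.subtype : Subgroup X) : Set X) := by
  have : Fact p.Prime := ⟨hp⟩
  intro t ht
  have ht2 : t * t = 1 := congrArg Subtype.val (IsKleinFour.mul_self (⟨t, ht⟩ : ↥T))
  have htinv : t⁻¹ = t := inv_eq_of_mul_eq_one_left ht2
  have hPR : P ≤ Subgroup.normalizer (R : Set X) := (Subgroup.normal_subgroupOf_iff_le_normalizer hRP).mp hRn
  set K := invSub R t with hK
  have hKP : K ≤ P := fun z hz => hRP hz.1
  -- P normalizes K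
  have hnorm : P ≤ Subgroup.normalizer (K : Set X) := by
    rw [← hfac, sup_le_iff]
    constructor
    · rw [Subgroup.le_normalizer_iff]
      intro r hr z hz
      have : r * z * r⁻¹ = z := by rw [hz.2.1 r hr]; group
      rw [this]; exact hz
    · rw [Subgroup.le_normalizer_iff]
      rintro c ⟨hcP, hcT⟩ z ⟨hzR, hzc, hzt⟩
      have hct : t * c = c * t := Subgroup.mem_centralizer_iff.mp hcT t ht
      have hcR : ∀ r ∈ R, c * r * c⁻¹ ∈ R := fun r hr => (Subgroup.le_normalizer_iff.mp hPR) c hcP r hr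
      have hcR' : ∀ r ∈ R, c⁻¹ * r * c ∈ R := fun r hr => by
        have := (Subgroup.le_normalizer_iff.mp hPR) c⁻¹ (inv_mem hcP) r hr
        simpa using this
      refine ⟨hcR z hzR, ?_, ?_⟩
      · intro r hr
        have h1 := hzc _ (hcR' r hr)
        calc r * (c * z * c⁻¹) = c * ((c⁻¹ * r * c) * z) * c⁻¹ := by group
          _ = c * (z * (c⁻¹ * r * c)) * c⁻¹ := by rw [h1]
          _ = c * z * c⁻¹ * r := by group
      · have hct' : t * c * t⁻¹ = c := by rw [hct]; group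
        calc t * (c * z * c⁻¹) * t⁻¹ = (t * c * t⁻¹) * (t * z * t⁻¹) * (t * c * t⁻¹)⁻¹ := by group
          _ = c * z⁻¹ * c⁻¹ := by rw [hct', hzt]
          _ = (c * z * c⁻¹)⁻¹ := by group
  have hKn : (K.subgroupOf P).Normal := (Subgroup.normal_subgroupOf_iff_le_normalizer hKP).mpr hnorm
  have hKbot : K = ⊥ := by
    by_contra hne
    have hne' : K.subgroupOf P ≠ ⊥ := by
      intro h
      apply hne
      rw [Subgroup.subgroupOf_eq_bot] at h
      rw [eq_bot_iff]
      have := h.le_bot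
      rwa [inf_eq_left.mpr hKP] at this
    obtain ⟨z, hzK, hzc, hz1⟩ := exists_mem_center_of_normal hP (K.subgroupOf P) hne'
    rw [Subgroup.mem_subgroupOf] at hzK
    have hzZ : (z : X) ∈ (Subgroup.center ↥P).map P.subtype := ⟨z, hzc, rfl⟩
    have h1 : (z : X) * t = t * z := Subgroup.mem_centralizer_iff.mp (hZ ht) _ hzZ
    have h2 : t * (z : X) * t⁻¹ = (z : X)⁻¹ := hzK.2.2
    have h3 : (z : X) = (z : X)⁻¹ := by rw [← h2, ← h1]; group
    have h4 : z ^ 2 = 1 := by
      apply Subtype.ext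
      show (z : X) ^ 2 = 1
      rw [sq]
      nth_rewrite 1 [h3]
      group
    obtain ⟨k, hk⟩ := hP z
    have h5 : orderOf z ∣ 2 := orderOf_dvd_of_pow_eq_one h4
    have h6 : orderOf z ∣ p ^ k := orderOf_dvd_of_pow_eq_one hk
    have hcop : Nat.Coprime 2 (p ^ k) := Nat.Coprime.pow_right k (Nat.coprime_two_left.mpr hodd)
    have h7 : orderOf z = 1 := Nat.eq_one_of_dvd_coprimes hcop h5 h6
    exact hz1 (orderOf_eq_one_iff.mp h7)
  rw [Subgroup.mem_centralizer_iff]
  intro z hz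
  obtain ⟨hzR, hzc⟩ := (mem_Zc _ _).mp hz
  have htR : ∀ r ∈ R, t * r * t⁻¹ ∈ R := fun r hr => (Subgroup.le_normalizer_iff.mp hTR) t ht r hr
  have htzc : ∀ r ∈ R, r * (t * z * t⁻¹) = (t * z * t⁻¹) * r := by
    intro r hr
    have h1 := hzc _ (htR r hr)
    rw [htinv] at h1 ⊢
    calc r * (t * z * t) = t * ((t * r * t) * z) * t := by
          have : t * ((t * r * t) * z) * t = (t * t) * r * (t * z * t) := by group
          rw [this, ht2, one_mul]
      _ = t * (z * (t * r * t)) * t := by rw [h1]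
      _ = t * z * t * r := by
          have : t * (z * (t * r * t)) * t = t * z * t * r * (t * t) := by group
          rw [this, ht2, mul_one]
  have hw : z * (t * z * t⁻¹)⁻¹ ∈ K := by
    refine ⟨R.mul_mem hzR (R.inv_mem (htR z hzR)), ?_, ?_⟩
    · intro r hr
      have h1 := hzc r hr
      have h2 := htzc r hr
      have h3 : r * (t * z * t⁻¹)⁻¹ = (t * z * t⁻¹)⁻¹ * r := by
        calc r * (t * z * t⁻¹)⁻¹ = (t * z * t⁻¹)⁻¹ * ((t * z * t⁻¹) * r) * (t * z * t⁻¹)⁻¹ := by group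
          _ = (t * z * t⁻¹)⁻¹ * (r * (t * z * t⁻¹)) * (t * z * t⁻¹)⁻¹ := by rw [h2]
          _ = (t * z * t⁻¹)⁻¹ * r := by group
      calc r * (z * (t * z * t⁻¹)⁻¹) = (r * z) * (t * z * t⁻¹)⁻¹ := (mul_assoc _ _ _).symm
        _ = z * (r * (t * z * t⁻¹)⁻¹) := by rw [h1, mul_assoc]
        _ = z * (t * z * t⁻¹)⁻¹ * r := by rw [h3]; exact (mul_assoc _ _ _).symm
    · have h1 := htzc z hzR
      rw [htinv] at h1 ⊢
      have e1 : t * (z * (t * z * t)⁻¹) * t = (t * z * t) * ((t * t) * z * (t * t))⁻¹ := by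
        have : (t * z * t)⁻¹ = t * z⁻¹ * t := by
          rw [mul_inv_rev, mul_inv_rev, htinv, mul_assoc]
        rw [this, ht2]
        have : t * (z * (t * z⁻¹ * t)) * t = t * z * t * z⁻¹ * (t * t) := by group
        rw [this, ht2]
        group
      rw [e1, ht2, one_mul, mul_one, mul_inv_rev, inv_inv]
  rw [hKbot, Subgroup.mem_bot] at hw
  have h5 : z = t * z * t⁻¹ := mul_inv_eq_one.mp hw
  calc z * t = (t * z * t⁻¹) * t := by rw [← h5]
    _ = t * z := by group

end Cfsg.Agent.S3190
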