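import Cfsg.Statements.S3195
import Cfsg.Agent.S0199
import Cfsg.Agent.Lib.Lead.Cores
import Mathlib

set_option autoImplicit false
open Cfsg

namespace Cfsg.Agent.S3195

open Cfsg.Agent.Lib.Lead

/-- an element of odd order killed by a power of two is trivial -/
lemma eq_one_of_odd {G : Type*} [Group G] {h : G} (ho : Odd (orderOf h)) (j : ℕ) (hj : h ^ (2 ^ j) = 1) :
    h = 1 := by
  have h1 : orderOf h ∣ 2 ^ j := orderOf_dvd_of_pow_eq_one hj
  have hcop : Nat.Coprime (orderOf h) (2 ^ j) :=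
    (Nat.Coprime.pow_left j (Nat.coprime_two_left.mpr ho)).symm
  have : orderOf h = 1 := Nat.eq_one_of_dvd_coprimes hcop dvd_rfl h1
  exact orderOf_eq_one_iff.mp this

/-- an element of odd order is a power of its square -/
lemma exists_pow_sq {G : Type*} [Group G] {h : G} (ho : Odd (orderOf h)) : ∃ r : ℕ, h = (h ^ 2) ^ r := by
  obtain ⟨r, hr⟩ := ho
  refine ⟨r + 1, ?_⟩
  rw [← pow_mul]
  have : 2 * (r + 1) = orderOf h + 1 := by omega
  rw [this, pow_succ, pow_orderOf_eq_one, one_mul]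

/-- dihedral lemma -/
lemma isPGroup_of_pow {G : Type*} [Group G] [Finite G] (a d : G) (ha : a * a = 1) (hd : d * d = 1) (j : ℕ)
    (hj : (a * d) ^ (2 ^ j) = 1) : IsPGroup 2 ↥(Subgroup.zpowers a ⊔ Subgroup.zpowers d) := by
  have hainv : a⁻¹ = a := inv_eq_of_mul_eq_one_left ha
  have hdinv : d⁻¹ = d := inv_eq_of_mul_eq_one_left hd
  have hpa : IsPGroup 2 ↥(Subgroup.zpowers a) := by
    rintro ⟨y, hy⟩
    obtain ⟨i, rfl⟩ := Subgroup.mem_zpowers_iff.mp hy
    refine ⟨1, Subtype.ext ?_⟩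
    show (a ^ i) ^ (2 ^ 1) = 1
    rw [pow_one, ← zpow_natCast, ← zpow_mul, mul_comm, zpow_mul]
    have : a ^ ((2 : ℕ) : ℤ) = 1 := by rw [zpow_natCast, sq, ha]
    rw [this, one_zpow]
  have hpx : IsPGroup 2 ↥(Subgroup.zpowers (a * d)) := by
    rintro ⟨y, hy⟩
    obtain ⟨i, rfl⟩ := Subgroup.mem_zpowers_iff.mp hy
    refine ⟨j, Subtype.ext ?_⟩
    show ((a * d) ^ i) ^ (2 ^ j) = 1
    rw [← zpow_natCast, ← zpow_mul, mul_comm, zpow_mul, zpow_natCast, hj, one_zpow]
  have hnorm : Subgroup.zpowers a ≤ Subgroup.normalizer ((Subgroup.zpowers (a * d) : Subgroup G) : Set G) := by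
    rw [Subgroup.zpowers_le]
    apply Subgroup.mem_normalizer_fintype
    intro y hy
    obtain ⟨i, rfl⟩ := Subgroup.mem_zpowers_iff.mp hy
    have e : a * (a * d) ^ i * a⁻¹ = ((a * d)⁻¹) ^ i := by
      rw [← conj_zpow]
      congr 1
      rw [mul_inv_rev, hainv, hdinv, ← mul_assoc, ha, one_mul]
    show a * (a * d) ^ i * a⁻¹ ∈ Subgroup.zpowers (a * d)
    rw [e]
    exact Subgroup.zpow_mem _ (inv_mem (Subgroup.mem_zpowers _)) _
  have hsup := hpa.to_sup_of_normal_right' hpx hnorm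
  apply hsup.to_le
  rw [sup_le_iff]
  refine ⟨le_sup_left, ?_⟩
  rw [Subgroup.zpowers_le]
  have h1 : a * (a * d) ∈ Subgroup.zpowers a ⊔ Subgroup.zpowers (a * d) :=
    mul_mem (Subgroup.mem_sup_left (Subgroup.mem_zpowers a)) (Subgroup.mem_sup_right (Subgroup.mem_zpowers _))
  rwa [← mul_assoc, ha, one_mul] at h1

/-- per involution lemma -/
lemma per_invol {G : Type*} [Group G] [Finite G] (A : Subgroup G)
    (hcomm : ∀ x ∈ A, ∀ y ∈ A, x * y = y * x)
    (Hyp : ∀ x ∈ A, x ≠ 1 → ∀ g : G, ∃ y ∈ A, y ≠ 1 ∧ y * (g * x * g⁻¹) = (g * x * g⁻¹) * y)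
    (a : G) (haA : a ∈ A) (ha1 : a ≠ 1) (ha : a * a = 1) (hcore : a ∉ pCore 2 G) :
    ∃ h y : G, h ≠ 1 ∧ Odd (orderOf h) ∧ a * h * a⁻¹ = h⁻¹ ∧ y ∈ A ∧ y ≠ 1 ∧ y ≠ a ∧ y * h * y⁻¹ = h := by
  have : Fact (Nat.Prime 2) := ⟨Nat.prime_two⟩
  have hainv : a⁻¹ = a := inv_eq_of_mul_eq_one_left ha
  have hpa : IsPGroup 2 ↥(Subgroup.zpowers a) := by
    have := isPGroup_of_pow a a ha ha 0 (by rw [ha]; simp)
    rwa [sup_idem] at this
  -- Baer-Suzuki
  obtain ⟨g, hg⟩ : ∃ g : G, ¬ IsPGroup 2 ↥(Subgroup.zpowers a ⊔ (Subgroup.zpowers a).map (MulAut.conj g).toMonoidHom) := by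
    by_contra hcon
    push Not at hcon
    obtain ⟨N, hN, hNp, haN⟩ := Cfsg.Agent.S0199.result (p := 2) (Subgroup.zpowers a) hpa hcon
    exact hcore (le_pCore hN hNp (haN (Subgroup.mem_zpowers a)))
  rw [MonoidHom.map_zpowers] at hg
  set d := g * a * g⁻¹ with hd
  have hd' : (MulAut.conj g).toMonoidHom a = d := rfl
  rw [hd'] at hg
  have hdd : d * d = 1 := by
    rw [hd]
    calc g * a * g⁻¹ * (g * a * g⁻¹) = g * (a * a) * g⁻¹ := by group
      _ = 1 := by rw [ha]; group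
  have hdinv : d⁻¹ = d := inv_eq_of_mul_eq_one_left hdd
  have hx : ∀ j : ℕ, (a * d) ^ (2 ^ j) ≠ 1 := fun j hj => hg (isPGroup_of_pow a d ha hdd j hj)
  obtain ⟨j, m, hm, hjm⟩ := Nat.exists_eq_two_pow_mul_odd (orderOf_pos (a * d)).ne'
  obtain ⟨y, hyA, hy1, hyd⟩ := Hyp a haA ha1 g
  rw [← hd] at hyd
  refine ⟨(a * d) ^ (2 ^ j), y, hx j, ?_, ?_, hyA, hy1, ?_, ?_⟩
  · have h1 : ((a * d) ^ (2 ^ j)) ^ m = 1 := by
      rw [← pow_mul, ← hjm]; exact pow_orderOf_eq_one _
    exact Odd.of_dvd_nat hm (orderOf_dvd_of_pow_eq_one h1)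
  · rw [← conj_pow, ← inv_pow]
    congr 1
    rw [mul_inv_rev, hainv, hdinv, ← mul_assoc, ha, one_mul]
  · intro hya
    rw [hya] at hyd
    apply hx 1
    rw [pow_one, sq]
    calc a * d * (a * d) = a * (d * a) * d := by group
      _ = a * (a * d) * d := by rw [hyd]
      _ = (a * a) * (d * d) := by group
      _ = 1 := by rw [ha, hdd, one_mul]
  · have hya : y * a = a * y := hcomm y hyA a haA
    have hc : Commute y (a * d) := (show Commute y a from hya).mul_right hyd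
    have := (hc.pow_right (2 ^ j)).eq
    rw [this]; group

/-- if conjugation by `u` inverts `w` and `u ^ t = 1` with `t` odd then `w = w⁻¹` -/
lemma inv_of_odd_conj {G : Type*} [Group G] (u w : G) (h : u * w * u⁻¹ = w⁻¹) (t : ℕ) (ht : Odd t)
    (hu : u ^ t = 1) : w = w⁻¹ := by
  have key : ∀ r : ℕ, u ^ (2 * r + 1) * w * (u ^ (2 * r + 1))⁻¹ = w⁻¹ := by
    intro r
    induction r with
    | zero => simpa using h
    | succ r ih =>
      have h2 : u * w⁻¹ * u⁻¹ = w := by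
        have : u * w⁻¹ * u⁻¹ = (u * w * u⁻¹)⁻¹ := by group
        rw [this, h, inv_inv]
      have e : u ^ (2 * (r + 1) + 1) * w * (u ^ (2 * (r + 1) + 1))⁻¹ =
          u ^ (2 * r + 1) * (u * (u * w * u⁻¹) * u⁻¹) * (u ^ (2 * r + 1))⁻¹ := by
        have : 2 * (r + 1) + 1 = (2 * r + 1) + 1 + 1 := by ring
        rw [this, pow_succ, pow_succ]
        group
      rw [e, h, h2, ih]
  obtain ⟨r, rfl⟩ := ht
  have := key r
  rw [hu] at this
  simpa using this

lemma core {G : Type*} [Group G] (A : Subgroup G) (a b h k : G) (haA : a ∈ A) (hbA : b ∈ A)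
    (hab : a * b = b * a) (ha1 : a ≠ 1) (hab1 : a * b ≠ 1)
    (hall : ∀ y ∈ A, y = 1 ∨ y = a ∨ y = b ∨ y = a * b)
    (Hyp : ∀ x ∈ A, x ≠ 1 → ∀ g : G, ∃ y ∈ A, y ≠ 1 ∧ y * (g * x * g⁻¹) = (g * x * g⁻¹) * y)
    (hh1 : h ≠ 1) (hk1 : k ≠ 1) (hho : Odd (orderOf h)) (hko : Odd (orderOf k))
    (ah : a * h * a⁻¹ = h⁻¹) (bh : b * h * b⁻¹ = h) (ak : a * k * a⁻¹ = k) (bk : b * k * b⁻¹ = k⁻¹) :
    False := by
  have φah : MulAut.conj a h = h⁻¹ := ah
  have φbh : MulAut.conj b h = h := bh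
  have φak : MulAut.conj a k = k := ak
  have φbk : MulAut.conj b k = k⁻¹ := bk
  have h4 : h ^ 4 ≠ 1 := fun e => hh1 (eq_one_of_odd hho 2 (by simpa using e))
  have k4 : k ^ 4 ≠ 1 := fun e => hk1 (eq_one_of_odd hko 2 (by simpa using e))
  have h8 : h ^ 8 ≠ 1 := fun e => hh1 (eq_one_of_odd hho 3 (by simpa using e))
  have comm_of : ∀ y v x : G, y * x = x * y → y * (v * x) = (v * x) * y → MulAut.conj y v = v := by
    intro y v x h1 h2
    rw [MulAut.conj_apply]
    have h3 : y * v * x = v * y * x := by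
      calc y * v * x = y * (v * x) := mul_assoc _ _ _
        _ = v * x * y := h2
        _ = v * (x * y) := mul_assoc _ _ _
        _ = v * (y * x) := by rw [h1]
        _ = v * y * x := (mul_assoc _ _ _).symm
    rw [mul_right_cancel h3]; group
  -- Step 1 : h and k commute
  have hhk : Commute h k := by
    set v := k * h ^ 2 * k⁻¹ with hv
    have e1 : a * h⁻¹ = h * a := by
      have : a * h⁻¹ * a⁻¹ = h := by
        have e : a * h⁻¹ * a⁻¹ = (a * h * a⁻¹)⁻¹ := by (try simp only [pow_succ, pow_zero, one_mul]); group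
        rw [e, ah, inv_inv]
      calc a * h⁻¹ = a * h⁻¹ * a⁻¹ * a := by (try simp only [pow_succ, pow_zero, one_mul]); group
        _ = h * a := by rw [this]
    have e2 : a * k⁻¹ = k⁻¹ * a := by
      have : a * k⁻¹ * a⁻¹ = k⁻¹ := by
        have e : a * k⁻¹ * a⁻¹ = (a * k * a⁻¹)⁻¹ := by (try simp only [pow_succ, pow_zero, one_mul]); group
        rw [e, ak]
      calc a * k⁻¹ = a * k⁻¹ * a⁻¹ * a := by (try simp only [pow_succ, pow_zero, one_mul]); group
        _ = k⁻¹ * a := by rw [this]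
    have eg : (k * h) * a * (k * h)⁻¹ = v * a := by
      calc (k * h) * a * (k * h)⁻¹ = k * h * (a * h⁻¹) * k⁻¹ := by (try simp only [pow_succ, pow_zero, one_mul]); group
        _ = k * h * (h * a) * k⁻¹ := by rw [e1]
        _ = k * h * h * (a * k⁻¹) := by (try simp only [pow_succ, pow_zero, one_mul]); group
        _ = k * h * h * (k⁻¹ * a) := by rw [e2]
        _ = v * a := by rw [hv]; (try simp only [pow_succ, pow_zero, one_mul]); group
    obtain ⟨y, hyA, hy1, hy⟩ := Hyp a haA ha1 (k * h)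
    rw [eg] at hy
    rcases hall y hyA with h0 | h0 | h0 | h0 <;> rw [h0] at hy
    · exact absurd h0 hy1
    · exfalso
      have h1 := comm_of _ v _ rfl hy
      rw [hv] at h1
      simp only [map_mul, map_pow, map_inv, φah, φak] at h1
      have h2 : (h⁻¹) ^ 2 = h ^ 2 := mul_left_cancel (mul_right_cancel h1)
      apply h4
      calc h ^ 4 = h ^ 2 * h ^ 2 := by (try simp only [pow_succ, pow_zero, one_mul]); group
        _ = h ^ 2 * (h⁻¹) ^ 2 := by rw [h2]
        _ = 1 := by (try simp only [pow_succ, pow_zero, one_mul]); group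
    · have h1 := comm_of _ v _ hab.symm hy
      rw [hv] at h1
      simp only [map_mul, map_pow, map_inv, φbh, φbk, inv_inv] at h1
      -- k⁻¹ * h ^ 2 * k = k * h ^ 2 * k⁻¹
      have h2 : Commute (h ^ 2) (k ^ 2) := by
        show h ^ 2 * k ^ 2 = k ^ 2 * h ^ 2
        calc h ^ 2 * k ^ 2 = k * (k⁻¹ * h ^ 2 * k) * k := by (try simp only [pow_succ, pow_zero, one_mul]); group
          _ = k * (k * h ^ 2 * k⁻¹) * k := by rw [h1]
          _ = k ^ 2 * h ^ 2 := by (try simp only [pow_succ, pow_zero, one_mul]); group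
      obtain ⟨r, hr⟩ := exists_pow_sq hho
      obtain ⟨s, hs⟩ := exists_pow_sq hko
      rw [hr, hs]
      exact h2.pow_pow r s
    · exfalso
      have hc : a * b * a = a * (a * b) := by rw [mul_assoc, ← hab]
      have h1 := comm_of _ v _ hc hy
      rw [hv] at h1
      simp only [map_mul, map_pow, map_inv, MulAut.mul_apply, φah, φak, φbh, φbk, inv_inv] at h1
      -- k⁻¹ * h⁻¹ ^ 2 * k = k * h ^ 2 * k⁻¹
      have h2 : k ^ 2 * h ^ 2 * (k ^ 2)⁻¹ = (h ^ 2)⁻¹ := by
        calc k ^ 2 * h ^ 2 * (k ^ 2)⁻¹ = k * (k * h ^ 2 * k⁻¹) * k⁻¹ := by (try simp only [pow_succ, pow_zero, one_mul]); group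
          _ = k * (k⁻¹ * h⁻¹ ^ 2 * k) * k⁻¹ := by rw [h1]
          _ = (h ^ 2)⁻¹ := by (try simp only [pow_succ, pow_zero, one_mul]); group
      have h3 := inv_of_odd_conj _ _ h2 (orderOf k) hko (by rw [← pow_mul, mul_comm, pow_mul, pow_orderOf_eq_one, one_pow])
      apply h4
      calc h ^ 4 = h ^ 2 * h ^ 2 := by (try simp only [pow_succ, pow_zero, one_mul]); group
        _ = h ^ 2 * (h ^ 2)⁻¹ := by rw [← h3]
        _ = 1 := by (try simp only [pow_succ, pow_zero, one_mul]); group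
  -- Step 2
  set w := h ^ 2 * k ^ 2 with hw
  have hkh : k * h = h * k := hhk.eq.symm
  have φch : MulAut.conj (a * b) h = h⁻¹ := by rw [map_mul, MulAut.mul_apply, φbh, φah]
  have φck : MulAut.conj (a * b) k = k⁻¹ := by rw [map_mul, MulAut.mul_apply, φbk, map_inv, φak]
  have eg : (h * k) * (a * b) * (h * k)⁻¹ = w * (a * b) := by
    have e1 : MulAut.conj (a * b) (h * k)⁻¹ = h * k := by
      rw [map_inv, map_mul, φch, φck, mul_inv_rev, inv_inv, inv_inv, hkh]
    rw [MulAut.conj_apply] at e1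
    have e2 : (a * b) * (h * k)⁻¹ = (h * k) * (a * b) := by
      calc (a * b) * (h * k)⁻¹ = (a * b) * (h * k)⁻¹ * (a * b)⁻¹ * (a * b) := by (try simp only [pow_succ, pow_zero, one_mul]); group
        _ = (h * k) * (a * b) := by rw [e1]
    calc (h * k) * (a * b) * (h * k)⁻¹ = (h * k) * ((a * b) * (h * k)⁻¹) := mul_assoc _ _ _
      _ = (h * k) * ((h * k) * (a * b)) := by rw [e2]
      _ = h * (k * h) * k * (a * b) := by (try simp only [pow_succ, pow_zero, one_mul]); group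
      _ = h * (h * k) * k * (a * b) := by rw [hkh]
      _ = w * (a * b) := by rw [hw]; (try simp only [pow_succ, pow_zero, one_mul]); group
  obtain ⟨y, hyA, hy1, hy⟩ := Hyp (a * b) (mul_mem haA hbA) hab1 (h * k)
  rw [eg] at hy
  rcases hall y hyA with h0 | h0 | h0 | h0 <;> rw [h0] at hy
  · exact absurd h0 hy1
  · have hc : a * (a * b) = a * b * a := by rw [mul_assoc a b a, ← hab]
    have h1 := comm_of _ w _ hc hy
    rw [hw] at h1
    simp only [map_mul, map_pow, map_inv, φah, φak] at h1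
    have h2 : (h⁻¹) ^ 2 = h ^ 2 := mul_right_cancel h1
    apply h4
    calc h ^ 4 = h ^ 2 * h ^ 2 := by (try simp only [pow_succ, pow_zero, one_mul]); group
      _ = h ^ 2 * (h⁻¹) ^ 2 := by rw [h2]
      _ = 1 := by (try simp only [pow_succ, pow_zero, one_mul]); group
  · have hc : b * (a * b) = a * b * b := by rw [← mul_assoc, ← hab]
    have h1 := comm_of _ w _ hc hy
    rw [hw] at h1
    simp only [map_mul, map_pow, map_inv, φbh, φbk] at h1
    have h2 : (k⁻¹) ^ 2 = k ^ 2 := mul_left_cancel h1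
    apply k4
    calc k ^ 4 = k ^ 2 * k ^ 2 := by (try simp only [pow_succ, pow_zero, one_mul]); group
      _ = k ^ 2 * (k⁻¹) ^ 2 := by rw [h2]
      _ = 1 := by (try simp only [pow_succ, pow_zero, one_mul]); group
  · have h1 := comm_of _ w _ rfl hy
    rw [hw] at h1
    simp only [map_pow, map_mul (MulAut.conj (a * b)), φch, φck] at h1
    -- h⁻¹ ^ 2 * k⁻¹ ^ 2 = h ^ 2 * k ^ 2
    have h2 : h ^ 4 = (k ^ 4)⁻¹ := by
      have hc2 : Commute (h ^ 2) (k ^ 2) := hhk.pow_pow 2 2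
      have e : h ^ 4 * k ^ 4 = 1 := by
        calc h ^ 4 * k ^ 4 = h ^ 2 * (h ^ 2 * k ^ 2) * k ^ 2 := by (try simp only [pow_succ, pow_zero, one_mul]); group
          _ = h ^ 2 * (h⁻¹ ^ 2 * k⁻¹ ^ 2) * k ^ 2 := by rw [h1]
          _ = 1 := by (try simp only [pow_succ, pow_zero, one_mul]); group
      exact eq_inv_of_mul_eq_one_left e
    have h3 := congrArg (MulAut.conj a) h2
    simp only [map_pow, map_inv, φah, φak] at h3
    -- h⁻¹ ^ 4 = (k ^ 4)⁻¹
    apply h8
    calc h ^ 8 = h ^ 4 * h ^ 4 := by (try simp only [pow_succ, pow_zero, one_mul]); group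
      _ = h ^ 4 * (k ^ 4)⁻¹ := by rw [← h2]
      _ = h ^ 4 * h⁻¹ ^ 4 := by rw [h3]
      _ = 1 := by (try simp only [pow_succ, pow_zero, one_mul]); group

theorem result {G : Type*} [Group G] [Finite G]
    (A : Subgroup G) (hA : IsKleinFour ↥A)
    (h : ∀ a ∈ A, a ≠ 1 → ∀ g : G, A ⊓ Subgroup.centralizer ({g * a * g⁻¹} : Set G) ≠ ⊥) :
    A ⊓ Cfsg.pCore 2 G ≠ ⊥ := by
  classical
  intro hbot
  have hcore : ∀ x ∈ A, x ≠ 1 → x ∉ pCore 2 G := by
    intro x hx hx1 hxc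
    have : x ∈ A ⊓ pCore 2 G := ⟨hx, hxc⟩
    rw [hbot, Subgroup.mem_bot] at this
    exact hx1 this
  have hcomm : ∀ x ∈ A, ∀ y ∈ A, x * y = y * x := by
    intro x hx y hy
    exact congrArg Subtype.val ((IsKleinFour.isMulCommutative (G := ↥A)).is_comm.comm ⟨x, hx⟩ ⟨y, hy⟩)
  have hsq : ∀ x ∈ A, x * x = 1 := fun x hx => congrArg Subtype.val (IsKleinFour.mul_self (⟨x, hx⟩ : ↥A))
  have Hyp : ∀ x ∈ A, x ≠ 1 → ∀ g : G, ∃ y ∈ A, y ≠ 1 ∧ y * (g * x * g⁻¹) = (g * x * g⁻¹) * y := by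
    intro x hx hx1 g
    obtain ⟨⟨y, hy⟩, hy1⟩ := Subgroup.ne_bot_iff_exists_ne_one.mp (h x hx hx1 g)
    refine ⟨y, hy.1, fun e => hy1 (Subtype.ext e), ?_⟩
    exact Subgroup.mem_centralizer_singleton_iff.mp hy.2
  -- pick a
  obtain ⟨⟨a, haA⟩, ha1'⟩ : ∃ a : ↥A, a ≠ 1 := by
    have : Nontrivial ↥A := by
      rw [← Finite.one_lt_card_iff_nontrivial, hA.card_four]; norm_num
    exact exists_ne 1
  have ha1 : a ≠ 1 := fun e => ha1' (Subtype.ext e)
  obtain ⟨h', b, hh1, hho, ah, hbA, hb1, hba, bh⟩ :=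
    per_invol A hcomm Hyp a haA ha1 (hsq a haA) (hcore a haA ha1)
  obtain ⟨k, y, hk1, hko, bk, hyA, hy1, hyb, yk⟩ :=
    per_invol A hcomm Hyp b hbA hb1 (hsq b hbA) (hcore b hbA hb1)
  have hall : ∀ y ∈ A, y = 1 ∨ y = a ∨ y = b ∨ y = a * b := by
    intro y hy
    haveI : Fintype ↥A := Fintype.ofFinite _
    have huniv := IsKleinFour.eq_finset_univ (G := ↥A) (x := ⟨a, haA⟩) (y := ⟨b, hbA⟩)
      (fun e => ha1 (congrArg Subtype.val e)) (fun e => hb1 (congrArg Subtype.val e))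
      (fun e => hba (congrArg Subtype.val e).symm)
    have hmem : (⟨y, hy⟩ : ↥A) ∈ (Finset.univ : Finset ↥A) := Finset.mem_univ _
    rw [← huniv] at hmem
    simp only [Finset.mem_insert, Finset.mem_singleton] at hmem
    rcases hmem with e | e | e | e
    · right; right; right; exact congrArg Subtype.val e
    · right; left; exact congrArg Subtype.val e
    · right; right; left; exact congrArg Subtype.val e
    · left; exact congrArg Subtype.val e
  have hab := hcomm a haA b hbA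
  have hab1 : a * b ≠ 1 := by
    intro e
    apply hba
    have : b = a⁻¹ := eq_inv_of_mul_eq_one_right e
    rw [this, inv_eq_of_mul_eq_one_left (hsq a haA)]
  rcases hall y hyA with h0 | h0 | h0 | h0
  · exact hy1 h0
  · rw [h0] at yk
    exact core A a b h' k haA hbA hab ha1 hab1 hall Hyp hh1 hk1 hho hko ah bh yk bk
  · exact hyb h0
  · rw [h0] at yk
    have hbb := hsq b hbA
    have e1 : a * b * b = a := by rw [mul_assoc, hbb, mul_one]
    refine core A (a * b) b h' k (mul_mem haA hbA) hbA ?_ hab1 ?_ ?_ Hyp hh1 hk1 hho hko ?_ bh yk bk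
    · rw [e1, ← mul_assoc, ← hab, e1]
    · rw [e1]; exact ha1
    · intro y hy
      rw [e1]
      rcases hall y hy with e | e | e | e
      · left; exact e
      · right; right; right; exact e
      · right; right; left; exact e
      · right; left; exact e
    · calc a * b * h' * (a * b)⁻¹ = a * (b * h' * b⁻¹) * a⁻¹ := by group
        _ = h'⁻¹ := by rw [bh, ah]

end Cfsg.Agent.S3195
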