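import Cfsg.Statements.S3196
import Cfsg.Agent.S0199
import Cfsg.Agent.Lib.Lead.Cores
import Mathlib

set_option autoImplicit false
open Cfsg

namespace Cfsg.Agent.S3196

open Cfsg.Agent.Lib.Lead

variable {G : Type*} [Group G]

/-- `X` and `Y` commute elementwise -/
abbrev cm (X Y : Subgroup G) : Prop := X ≤ Subgroup.centralizer (Y : Set G)

lemma cm_symm {X Y : Subgroup G} (h : cm X Y) : cm Y X := Subgroup.le_centralizer_iff.mp h

lemma cm_iff {X Y : Subgroup G} : cm X Y ↔ ∀ x ∈ X, ∀ y ∈ Y, x * y = y * x := by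
  constructor
  · intro h x hx y hy
    exact (Subgroup.mem_centralizer_iff.mp (h hx) y hy).symm
  · intro h x hx
    rw [Subgroup.mem_centralizer_iff]
    intro y hy
    exact (h x hx y hy).symm

lemma eq_zpowers [Finite G] {p : ℕ} (hp : p.Prime) {X : Subgroup G} (hX : Nat.card ↥X = p) {x : G} (hx : x ∈ X)
    (hx1 : x ≠ 1) : X = Subgroup.zpowers x := by
  symm
  have hle : Subgroup.zpowers x ≤ X := by rw [Subgroup.zpowers_le]; exact hx
  apply Subgroup.eq_of_le_of_card_ge hle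
  have h1 : Nat.card ↥(Subgroup.zpowers x) ∣ p := hX ▸ Subgroup.card_dvd_of_le hle
  rcases (Nat.dvd_prime hp).mp h1 with h | h
  · exfalso
    rw [Subgroup.card_eq_one, Subgroup.zpowers_eq_bot] at h
    exact hx1 h
  · rw [hX, h]

lemma exists_ne_one {p : ℕ} (hp : p.Prime) {X : Subgroup G} (hX : Nat.card ↥X = p) : ∃ x ∈ X, x ≠ 1 := by
  have hne : X ≠ ⊥ := by
    intro h
    rw [h, Subgroup.card_bot] at hX
    exact hp.one_lt.ne hX
  obtain ⟨⟨x, hx⟩, hx1⟩ := Subgroup.ne_bot_iff_exists_ne_one.mp hne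
  exact ⟨x, hx, fun e => hx1 (Subtype.ext e)⟩

lemma cm_zpowers {x y : G} (h : x * y = y * x) : cm (Subgroup.zpowers x) (Subgroup.zpowers y) := by
  rw [cm_iff]
  rintro _ ⟨i, rfl⟩ _ ⟨j, rfl⟩
  exact ((show Commute x y from h).zpow_zpow i j).eq

lemma cm_self [Finite G] {p : ℕ} (hp : p.Prime) {X : Subgroup G} (hX : Nat.card ↥X = p) : cm X X := by
  obtain ⟨x, hx, hx1⟩ := exists_ne_one hp hX
  have := eq_zpowers hp hX hx hx1
  rw [this]
  exact cm_zpowers rfl

lemma eq_of_le [Finite G] {p : ℕ} {X Y : Subgroup G} (hX : Nat.card ↥X = p) (hY : Nat.card ↥Y = p)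
    (h : X ≤ Y) : X = Y :=
  Subgroup.eq_of_le_of_card_ge h (by rw [hX, hY])

lemma inf_eq_bot [Finite G] {p : ℕ} (hp : p.Prime) {X Y : Subgroup G} (hX : Nat.card ↥X = p)
    (hY : Nat.card ↥Y = p) (h : X ≠ Y) : X ⊓ Y = ⊥ := by
  by_contra hne
  obtain ⟨⟨e, he⟩, he1⟩ := Subgroup.ne_bot_iff_exists_ne_one.mp hne
  have he1' : e ≠ 1 := fun h => he1 (Subtype.ext h)
  apply h
  rw [eq_zpowers hp hX he.1 he1', eq_zpowers hp hY he.2 he1']

lemma mem_sup_of_cm {X Y : Subgroup G} (h : cm X Y) {e : G} (he : e ∈ X ⊔ Y) :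
    ∃ x ∈ X, ∃ y ∈ Y, e = x * y := by
  rw [cm_iff] at h
  let P : Subgroup G :=
    { carrier := {e | ∃ x ∈ X, ∃ y ∈ Y, e = x * y}
      one_mem' := ⟨1, X.one_mem, 1, Y.one_mem, by simp⟩
      mul_mem' := by
        rintro _ _ ⟨x, hx, y, hy, rfl⟩ ⟨x', hx', y', hy', rfl⟩
        refine ⟨x * x', X.mul_mem hx hx', y * y', Y.mul_mem hy hy', ?_⟩
        calc x * y * (x' * y') = x * (y * x') * y' := by group
          _ = x * (x' * y) * y' := by rw [h x' hx' y hy]
          _ = x * x' * (y * y') := by group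
      inv_mem' := by
        rintro _ ⟨x, hx, y, hy, rfl⟩
        refine ⟨x⁻¹, X.inv_mem hx, y⁻¹, Y.inv_mem hy, ?_⟩
        rw [mul_inv_rev, h x⁻¹ (X.inv_mem hx) y⁻¹ (Y.inv_mem hy)] }
  have hle : X ⊔ Y ≤ P := by
    rw [sup_le_iff]
    exact ⟨fun x hx => ⟨x, hx, 1, Y.one_mem, by simp⟩, fun y hy => ⟨1, X.one_mem, y, hy, by simp⟩⟩
  exact hle he

lemma card_sup_le [Finite G] {X Y : Subgroup G} (h : cm X Y) :
    Nat.card ↥(X ⊔ Y) ≤ Nat.card ↥X * Nat.card ↥Y := by
  rw [← Nat.card_prod]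
  let f : ↥X × ↥Y → ↥(X ⊔ Y) := fun q =>
    ⟨q.1 * q.2, mul_mem (Subgroup.mem_sup_left q.1.2) (Subgroup.mem_sup_right q.2.2)⟩
  apply Nat.card_le_card_of_surjective f
  rintro ⟨e, he⟩
  obtain ⟨x, hx, y, hy, rfl⟩ := mem_sup_of_cm h he
  exact ⟨(⟨x, hx⟩, ⟨y, hy⟩), rfl⟩

lemma card_sup_ge [Finite G] {X Y : Subgroup G} (h : X ⊓ Y = ⊥) :
    Nat.card ↥X * Nat.card ↥Y ≤ Nat.card ↥(X ⊔ Y) := by
  rw [← Nat.card_prod]
  let f : ↥X × ↥Y → ↥(X ⊔ Y) := fun q =>
    ⟨q.1 * q.2, mul_mem (Subgroup.mem_sup_left q.1.2) (Subgroup.mem_sup_right q.2.2)⟩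
  apply Nat.card_le_card_of_injective f
  rintro ⟨⟨x, hx⟩, ⟨y, hy⟩⟩ ⟨⟨x', hx'⟩, ⟨y', hy'⟩⟩ hf
  have hf' : x * y = x' * y' := congrArg Subtype.val hf
  have h1 : x'⁻¹ * x = y' * y⁻¹ := by
    calc x'⁻¹ * x = x'⁻¹ * (x * y) * y⁻¹ := by group
      _ = x'⁻¹ * (x' * y') * y⁻¹ := by rw [hf']
      _ = y' * y⁻¹ := by group
  have h2 : x'⁻¹ * x ∈ X ⊓ Y := ⟨X.mul_mem (X.inv_mem hx') hx, h1 ▸ Y.mul_mem hy' (Y.inv_mem hy)⟩
  rw [h, Subgroup.mem_bot] at h2
  have hxx : x = x' := by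
    have := inv_mul_eq_one.mp h2
    exact this.symm
  subst hxx
  have hyy : y = y' := mul_left_cancel hf'
  subst hyy
  rfl

lemma line_eq [Finite G] {p : ℕ} (hp : p.Prime) {X Y Z Z' : Subgroup G} (hX : Nat.card ↥X = p)
    (hY : Nat.card ↥Y = p) (hZ : Nat.card ↥Z = p) (hZ' : Nat.card ↥Z' = p) (h : cm X Y)
    (hZl : Z ≤ X ⊔ Y) (hZl' : Z' ≤ X ⊔ Y) (hne : Z ≠ Z') : Z ⊔ Z' = X ⊔ Y := by
  apply Subgroup.eq_of_le_of_card_ge (sup_le hZl hZl')
  calc Nat.card ↥(X ⊔ Y) ≤ Nat.card ↥X * Nat.card ↥Y := card_sup_le h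
    _ = Nat.card ↥Z * Nat.card ↥Z' := by rw [hX, hY, hZ, hZ']
    _ ≤ Nat.card ↥(Z ⊔ Z') := card_sup_ge (inf_eq_bot hp hZ hZ' hne)

lemma pow_eq_one_of_mem {p : ℕ} {X : Subgroup G} (hX : Nat.card ↥X = p) {x : G} (hx : x ∈ X) : x ^ p = 1 := by
  have := pow_card_eq_one' (G := ↥X) (x := ⟨x, hx⟩)
  rw [hX] at this
  exact congrArg Subtype.val this

lemma pow_eq_one_of_mem_sup {p : ℕ} {X Y : Subgroup G} (hX : Nat.card ↥X = p) (hY : Nat.card ↥Y = p)
    (h : cm X Y) {e : G} (he : e ∈ X ⊔ Y) : e ^ p = 1 := by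
  obtain ⟨x, hx, y, hy, rfl⟩ := mem_sup_of_cm h he
  have hc : Commute x y := (cm_iff.mp h) x hx y hy
  rw [hc.mul_pow, pow_eq_one_of_mem hX hx, pow_eq_one_of_mem hY hy, one_mul]

lemma card_zpowers_of {p : ℕ} (hp : p.Prime) {e : G} (he1 : e ≠ 1) (he : e ^ p = 1) :
    Nat.card ↥(Subgroup.zpowers e) = p := by
  have : Fact p.Prime := ⟨hp⟩
  rw [Nat.card_zpowers]
  exact orderOf_eq_prime he he1

lemma isPGroup_zpowers {p : ℕ} {x : G} (hx : x ^ p = 1) : IsPGroup p ↥(Subgroup.zpowers x) := by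
  rintro ⟨y, hy⟩
  obtain ⟨i, rfl⟩ := Subgroup.mem_zpowers_iff.mp hy
  refine ⟨1, Subtype.ext ?_⟩
  show (x ^ i) ^ (p ^ 1) = 1
  rw [pow_one, ← zpow_natCast, ← zpow_mul, mul_comm, zpow_mul, zpow_natCast, hx, one_zpow]

/-- two elements of order dividing `p` whose commutator is central generate a `p`-group -/
lemma class2 [Finite G] {p : ℕ} (b c : G) (hb : b ^ p = 1) (hc : c ^ p = 1)
    (hkb : (b⁻¹ * c⁻¹ * b * c) * b = b * (b⁻¹ * c⁻¹ * b * c))
    (hkc : (b⁻¹ * c⁻¹ * b * c) * c = c * (b⁻¹ * c⁻¹ * b * c)) :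
    IsPGroup p ↥(Subgroup.zpowers b ⊔ Subgroup.zpowers c) := by
  set κ := b⁻¹ * c⁻¹ * b * c with hκ
  have h1 : b * c * b⁻¹ = c * κ := by
    have e : b * c = c * b * κ := by rw [hκ]; group
    calc b * c * b⁻¹ = c * b * κ * b⁻¹ := by rw [e]
      _ = c * (b * κ) * b⁻¹ := by group
      _ = c * (κ * b) * b⁻¹ := by rw [hkb]
      _ = c * κ := by group
  have hκp : κ ^ p = 1 := by
    have e1 : (b * c * b⁻¹) ^ p = 1 := by rw [conj_pow, hc]; group
    rw [h1, (show Commute c κ from hkc.symm).mul_pow, hc, one_mul] at e1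
    exact e1
  have hN1 : IsPGroup p ↥(Subgroup.zpowers κ ⊔ Subgroup.zpowers c) := by
    apply (isPGroup_zpowers hκp).to_sup_of_normal_right' (isPGroup_zpowers hc)
    exact (cm_zpowers hkc).trans (Subgroup.centralizer_le_normalizer _)
  have hnorm : Subgroup.zpowers b ≤
      Subgroup.normalizer ((Subgroup.zpowers κ ⊔ Subgroup.zpowers c : Subgroup G) : Set G) := by
    rw [Subgroup.zpowers_le]
    apply Subgroup.mem_normalizer_fintype
    intro n hn
    have hmap : (Subgroup.zpowers κ ⊔ Subgroup.zpowers c).map (MulAut.conj b).toMonoidHom ≤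
        Subgroup.zpowers κ ⊔ Subgroup.zpowers c := by
      rw [Subgroup.map_sup, MonoidHom.map_zpowers, MonoidHom.map_zpowers, sup_le_iff]
      constructor
      · rw [Subgroup.zpowers_le]
        have : (MulAut.conj b).toMonoidHom κ = κ := by
          show b * κ * b⁻¹ = κ
          rw [← hkb]; group
        rw [this]
        exact Subgroup.mem_sup_left (Subgroup.mem_zpowers κ)
      · rw [Subgroup.zpowers_le]
        have : (MulAut.conj b).toMonoidHom c = c * κ := h1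
        rw [this]
        exact mul_mem (Subgroup.mem_sup_right (Subgroup.mem_zpowers c))
          (Subgroup.mem_sup_left (Subgroup.mem_zpowers κ))
    exact hmap (Subgroup.mem_map_of_mem _ hn)
  have hall := (isPGroup_zpowers hb).to_sup_of_normal_right' hN1 hnorm
  exact hall.to_le (sup_le le_sup_left (le_sup_right.trans le_sup_right))

/-- one-or-all -/
lemma one_or_all [Finite G] {p : ℕ} (hp : p.Prime) {X Y Z Z' W : Subgroup G} (hX : Nat.card ↥X = p)
    (hY : Nat.card ↥Y = p) (hZ : Nat.card ↥Z = p) (hZ' : Nat.card ↥Z' = p) (h : cm X Y)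
    (hZl : Z ≤ X ⊔ Y) (hZl' : Z' ≤ X ⊔ Y) (hne : Z ≠ Z') (h1 : cm Z W) (h2 : cm Z' W) :
    X ⊔ Y ≤ Subgroup.centralizer (W : Set G) := by
  rw [← line_eq hp hX hY hZ hZ' h hZl hZl' hne]
  exact sup_le h1 h2

section geometry

variable [Finite G] {p : ℕ} (hp : p.Prime) (K : Set (Subgroup G)) (hK : ∀ X ∈ K, Nat.card ↥X = p)
  (ha : ∀ X ∈ K, ∀ Y ∈ K, X ≠ Y → cm X Y → ∀ Z : Subgroup G, Z ≤ X ⊔ Y → Nat.card ↥Z = p → Z ∈ K)
  (hb : ∀ X ∈ K, ∀ Y ∈ K, X ≠ Y → cm X Y → ∀ W ∈ K, ∃ Z ∈ K, Z ≤ X ⊔ Y ∧ cm Z W)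

include hp hK hb in
lemma G2 {A B C : Subgroup G} (hA : A ∈ K) (hB : B ∈ K) (hC : C ∈ K) (hBC : ¬ cm B C) (hAB : cm A B)
    (hAll : ∀ T ∈ K, cm T B → cm T C → cm A T) : ∀ Y ∈ K, cm Y B → cm A Y := by
  intro Y hY hYB
  by_cases hYeq : Y = B
  · rw [hYeq]; exact hAB
  obtain ⟨Y', hY', hY'l, hY'C⟩ := hb Y hY B hB hYeq hYB C hC
  have hY'B : Y' ≠ B := fun e => hBC (e ▸ hY'C)
  have h1 : cm Y' B := hY'l.trans (sup_le hYB (cm_self hp (hK B hB)))
  have h2 : cm A Y' := hAll Y' hY' h1 hY'C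
  have h3 := one_or_all hp (hK Y hY) (hK B hB) (hK Y' hY') (hK B hB) hYB hY'l le_sup_right hY'B
    (cm_symm h2) (cm_symm hAB)
  exact cm_symm (le_sup_left.trans h3)

include hp hK hb in
lemma G3 {A B C : Subgroup G} (hA : A ∈ K) (hB : B ∈ K) (hC : C ∈ K) (hBC : ¬ cm B C) (hAB : cm A B)
    (hAC : cm A C) (hAll : ∀ T ∈ K, cm T B → cm T C → cm A T) : ∀ Y ∈ K, cm A Y := by
  intro Y hY
  have hAneB : A ≠ B := fun e => hBC (e ▸ hAC)
  obtain ⟨B', hB', hB'l, hB'Y⟩ := hb A hA B hB hAneB hAB Y hY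
  by_cases hB'A : B' = A
  · rw [← hB'A]; exact hB'Y
  have hB'C : ¬ cm B' C := by
    intro h
    have := one_or_all hp (hK A hA) (hK B hB) (hK A hA) (hK B' hB') hAB le_sup_left hB'l
      (Ne.symm hB'A) hAC h
    exact hBC (le_sup_right.trans this)
  have hAB' : cm A B' := cm_symm (hB'l.trans (sup_le (cm_self hp (hK A hA)) (cm_symm hAB)))
  have hCall : ∀ T ∈ K, cm T C → cm A T :=
    G2 hp K hK hb hA hC hB (fun h => hBC (cm_symm h)) hAC (fun T hT h1 h2 => hAll T hT h2 h1)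
  exact G2 hp K hK hb hA hB' hC hB'C hAB' (fun T hT _ h2 => hCall T hT h2) Y hY (cm_symm hB'Y)

include hp hK ha hb in
lemma G5 {A B C D : Subgroup G} (hA : A ∈ K) (hB : B ∈ K) (hC : C ∈ K) (hD : D ∈ K)
    (hBC : ¬ cm B C) (hAD : ¬ cm A D) (hAB : cm A B) (hAC : cm A C) (hDB : cm D B) (hDC : cm D C) :
    IsPGroup p ↥(B ⊔ C) := by
  obtain ⟨a, haA, ha1⟩ := exists_ne_one hp (hK A hA)
  obtain ⟨c, hcC, hc1⟩ := exists_ne_one hp (hK C hC)
  have hAeq := eq_zpowers hp (hK A hA) haA ha1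
  have hCeq := eq_zpowers hp (hK C hC) hcC hc1
  have hAneC : A ≠ C := fun e => hBC (cm_symm (e ▸ hAB))
  have hBneD : B ≠ D := fun e => hBC (e ▸ hDC)
  have hac1 : a * c ≠ 1 := by
    intro e
    have hcA : c ∈ A := by rw [eq_inv_of_mul_eq_one_right e]; exact A.inv_mem haA
    have : c ∈ A ⊓ C := ⟨hcA, hcC⟩
    rw [inf_eq_bot hp (hK A hA) (hK C hC) hAneC, Subgroup.mem_bot] at this
    exact hc1 this
  have hacl : a * c ∈ A ⊔ C := mul_mem (Subgroup.mem_sup_left haA) (Subgroup.mem_sup_right hcC)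
  have hU : Subgroup.zpowers (a * c) ∈ K :=
    ha A hA C hC hAneC hAC _ (by rw [Subgroup.zpowers_le]; exact hacl)
      (card_zpowers_of hp hac1 (pow_eq_one_of_mem_sup (hK A hA) (hK C hC) hAC hacl))
  obtain ⟨Z, hZ, hZl, hZU⟩ := hb B hB D hD hBneD (cm_symm hDB) _ hU
  obtain ⟨e, heZ, he1⟩ := exists_ne_one hp (hK Z hZ)
  obtain ⟨b, hbB, d, hdD, rfl⟩ := mem_sup_of_cm (cm_symm hDB) (hZl heZ)
  have hcomm : (b * d) * (a * c) = (a * c) * (b * d) :=
    (cm_iff.mp hZU) _ heZ _ (Subgroup.mem_zpowers _)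
  have ab : a * b = b * a := (cm_iff.mp hAB) a haA b hbB
  have ac : a * c = c * a := (cm_iff.mp hAC) a haA c hcC
  have db : d * b = b * d := (cm_iff.mp hDB) d hdD b hbB
  have dc : d * c = c * d := (cm_iff.mp hDC) d hdD c hcC
  have hb1 : b ≠ 1 := by
    intro e
    rw [e, one_mul] at hcomm he1
    apply hAD
    rw [hAeq, eq_zpowers hp (hK D hD) hdD he1]
    apply cm_zpowers
    -- d * (a * c) = a * c * d
    have : d * a * c = a * d * c := by
      calc d * a * c = d * (a * c) := mul_assoc _ _ _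
        _ = a * c * d := hcomm
        _ = a * (c * d) := mul_assoc _ _ _
        _ = a * (d * c) := by rw [dc]
        _ = a * d * c := (mul_assoc _ _ _).symm
    exact (mul_right_cancel this).symm
  have hd1 : d ≠ 1 := by
    intro e
    rw [e, mul_one] at hcomm
    apply hBC
    rw [eq_zpowers hp (hK B hB) hbB hb1, hCeq]
    apply cm_zpowers
    have : a * (b * c) = a * (c * b) := by
      calc a * (b * c) = (a * b) * c := (mul_assoc _ _ _).symm
        _ = b * a * c := by rw [ab]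
        _ = b * (a * c) := mul_assoc _ _ _
        _ = a * c * b := hcomm
        _ = a * (c * b) := mul_assoc _ _ _
    exact mul_left_cancel this
  have hκ : b⁻¹ * c⁻¹ * b * c = a * d * a⁻¹ * d⁻¹ := by
    have e1 : b * c * (d * a) = c * b * (a * d) := by
      calc b * c * (d * a) = b * (c * d) * a := by group
        _ = b * (d * c) * a := by rw [dc]
        _ = b * d * (c * a) := by group
        _ = b * d * (a * c) := by rw [ac]
        _ = a * c * (b * d) := hcomm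
        _ = c * a * (b * d) := by rw [ac]
        _ = c * (a * b) * d := by group
        _ = c * (b * a) * d := by rw [ab]
        _ = c * b * (a * d) := by group
    calc b⁻¹ * c⁻¹ * b * c = (c * b)⁻¹ * (b * c * (d * a)) * (d * a)⁻¹ := by group
      _ = (c * b)⁻¹ * (c * b * (a * d)) * (d * a)⁻¹ := by rw [e1]
      _ = a * d * a⁻¹ * d⁻¹ := by group
  have hcb : ∀ x : G, a * x = x * a → d * x = x * d → (a * d * a⁻¹ * d⁻¹) * x = x * (a * d * a⁻¹ * d⁻¹) := by
    intro x hax hdx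
    have c1 : Commute a x := hax
    have c2 : Commute d x := hdx
    exact (((c1.mul_left c2).mul_left c1.inv_left).mul_left c2.inv_left).eq
  rw [eq_zpowers hp (hK B hB) hbB hb1, hCeq]
  apply class2 b c (pow_eq_one_of_mem (hK B hB) hbB) (pow_eq_one_of_mem (hK C hC) hcC)
  · rw [hκ]; exact hcb b ab db
  · rw [hκ]; exact hcb c ac dc

end geometry

lemma isPGroup_sup_of_cm {p : ℕ} {X Y : Subgroup G} (hX : Nat.card ↥X = p) (hY : Nat.card ↥Y = p)
    (h : cm X Y) : IsPGroup p ↥(X ⊔ Y) := by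
  have h1 : IsPGroup p ↥X := IsPGroup.of_card (n := 1) (by rw [hX, pow_one])
  have h2 : IsPGroup p ↥Y := IsPGroup.of_card (n := 1) (by rw [hY, pow_one])
  exact h1.to_sup_of_normal_right' h2 (h.trans (Subgroup.centralizer_le_normalizer _))

theorem result {G : Type*} [Group G] [Finite G]
    {p : ℕ} (hp : p.Prime) (K : Set (Subgroup G)) (hK : ∀ X ∈ K, Nat.card ↥X = p)
    (hKc : ∀ X ∈ K, ∀ g : G, X.map (MulAut.conj g).toMonoidHom ∈ K)
    (hex : ∃ X ∈ K, ∃ Y ∈ K, X ≠ Y ∧ ∀ x ∈ X, ∀ y ∈ Y, x * y = y * x)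
    (ha : ∀ X ∈ K, ∀ Y ∈ K, X ≠ Y → (∀ x ∈ X, ∀ y ∈ Y, x * y = y * x) →
      ∀ Z : Subgroup G, Z ≤ X ⊔ Y → Nat.card ↥Z = p → Z ∈ K)
    (hb : ∀ X ∈ K, ∀ Y ∈ K, X ≠ Y → (∀ x ∈ X, ∀ y ∈ Y, x * y = y * x) →
      ∀ W ∈ K, (X ⊔ Y) ⊓ Subgroup.centralizer (W : Set G) ≠ ⊥) :
    (∃ V ∈ K, (∀ W ∈ K, ∀ v ∈ V, ∀ w ∈ W, v * w = w * v) ∧ V ≤ Cfsg.pCore p G) ∧ ¬ IsSimpleGroup G := by
  have : Fact p.Prime := ⟨hp⟩
  have ha' : ∀ X ∈ K, ∀ Y ∈ K, X ≠ Y → cm X Y → ∀ Z : Subgroup G, Z ≤ X ⊔ Y → Nat.card ↥Z = p → Z ∈ K :=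
    fun X hX Y hY hne h => ha X hX Y hY hne (cm_iff.mp h)
  have hb' : ∀ X ∈ K, ∀ Y ∈ K, X ≠ Y → cm X Y → ∀ W ∈ K, ∃ Z ∈ K, Z ≤ X ⊔ Y ∧ cm Z W := by
    intro X hX Y hY hne h W hW
    obtain ⟨⟨e, he⟩, he1⟩ := Subgroup.ne_bot_iff_exists_ne_one.mp (hb X hX Y hY hne (cm_iff.mp h) W hW)
    have he1' : e ≠ 1 := fun h => he1 (Subtype.ext h)
    have hle : Subgroup.zpowers e ≤ X ⊔ Y := by rw [Subgroup.zpowers_le]; exact he.1
    refine ⟨Subgroup.zpowers e, ha' X hX Y hY hne h _ hle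
      (card_zpowers_of hp he1' (pow_eq_one_of_mem_sup (hK X hX) (hK Y hY) h he.1)), hle, ?_⟩
    show Subgroup.zpowers e ≤ _
    rw [Subgroup.zpowers_le]; exact he.2
  obtain ⟨X0, hX0, Y0, hY0, hne0, hc0⟩ := hex
  have hc0' : cm X0 Y0 := cm_iff.mpr hc0
  -- main claim
  have main : ∃ V ∈ K, ∀ W ∈ K, cm V W := by
    by_contra hdeg
    push Not at hdeg
    -- every point lies on a line
    have hline : ∀ B ∈ K, ∃ Z ∈ K, Z ≠ B ∧ cm Z B := by
      intro B hB
      obtain ⟨Z, hZ, hZl, hZB⟩ := hb' X0 hX0 Y0 hY0 hne0 hc0' B hB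
      by_cases hZeq : Z = B
      · subst hZeq
        by_cases hX0Z : X0 = Z
        · refine ⟨Y0, hY0, fun e => hne0 (hX0Z.trans e.symm), ?_⟩
          rw [← hX0Z]; exact cm_symm hc0'
        · refine ⟨X0, hX0, hX0Z, ?_⟩
          exact cm_symm (hZl.trans (sup_le (cm_self hp (hK X0 hX0)) (cm_symm hc0')))
      · exact ⟨Z, hZ, hZeq, hZB⟩
    have hpair : ∀ B ∈ K, ∀ C ∈ K, IsPGroup p ↥(B ⊔ C) := by
      intro B hB C hC
      by_cases hBC : cm B C
      · exact isPGroup_sup_of_cm (hK B hB) (hK C hC) hBC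
      obtain ⟨Z, hZ, hZB, hZcB⟩ := hline B hB
      obtain ⟨A, hA, hAl, hAC⟩ := hb' Z hZ B hB hZB hZcB C hC
      have hAB : cm A B := hAl.trans (sup_le hZcB (cm_self hp (hK B hB)))
      obtain ⟨D, hD, hDB, hDC, hAD⟩ : ∃ D ∈ K, cm D B ∧ cm D C ∧ ¬ cm A D := by
        by_contra hcon
        push Not at hcon
        obtain ⟨W, hW, hAW⟩ := hdeg A hA
        exact hAW (G3 hp K hK hb' hA hB hC hBC hAB hAC hcon W hW)
      exact G5 hp K hK ha' hb' hA hB hC hD hBC hAD hAB hAC hDB hDC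
    have hcore : ∀ X ∈ K, X ≤ pCore p G := by
      intro X hX
      obtain ⟨N, hN, hNp, hXN⟩ := Cfsg.Agent.S0199.result (p := p) X
        (IsPGroup.of_card (n := 1) (by rw [hK X hX, pow_one])) (fun g => hpair X hX _ (hKc X hX g))
      exact hXN.trans (le_pCore hN hNp)
    set L : Subgroup G := sSup K with hL
    have hKL : ∀ X ∈ K, X ≤ L := fun X hX => le_sSup hX
    have hLp : IsPGroup p ↥L := (pCore_isPGroup p G).to_le (sSup_le hcore)
    by_cases hab : Subgroup.center ↥L = ⊤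
    · obtain ⟨W, hW, hXW⟩ := hdeg X0 hX0
      apply hXW
      rw [cm_iff]
      intro x hx w hw
      have h1 : (⟨x, hKL X0 hX0 hx⟩ : ↥L) ∈ Subgroup.center ↥L := by rw [hab]; trivial
      have := Subgroup.mem_center_iff.mp h1 ⟨w, hKL W hW hw⟩
      exact (congrArg Subtype.val this).symm
    · have hnt : Nontrivial (↥L ⧸ Subgroup.center ↥L) := QuotientGroup.nontrivial_iff.mpr hab
      have hq : IsPGroup p (↥L ⧸ Subgroup.center ↥L) := hLp.to_quotient _
      have hcn := hq.center_nontrivial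
      obtain ⟨⟨ubar, hubar⟩, hune⟩ := exists_ne (1 : Subgroup.center (↥L ⧸ Subgroup.center ↥L))
      obtain ⟨u, rfl⟩ := QuotientGroup.mk_surjective ubar
      have hu1 : u ∉ Subgroup.center ↥L := by
        intro h
        apply hune
        apply Subtype.ext
        exact (QuotientGroup.eq_one_iff u).mpr h
      have hu2 : ∀ y : ↥L, u * y * u⁻¹ * y⁻¹ ∈ Subgroup.center ↥L := by
        intro y
        rw [← QuotientGroup.eq_one_iff]
        have := Subgroup.mem_center_iff.mp hubar (QuotientGroup.mk y)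
        rw [QuotientGroup.mk_mul, QuotientGroup.mk_mul, QuotientGroup.mk_mul, QuotientGroup.mk_inv,
          QuotientGroup.mk_inv, ← this]
        group
      -- some member of K does not commute with u
      obtain ⟨X, hX, x, hx, hxu⟩ : ∃ X ∈ K, ∃ x ∈ X, x * (u : G) ≠ (u : G) * x := by
        by_contra hcon
        push Not at hcon
        apply hu1
        have hle : L ≤ Subgroup.centralizer ({(u : G)} : Set G) := by
          apply sSup_le
          intro X hX x hx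
          rw [Subgroup.mem_centralizer_singleton_iff]
          exact hcon X hX x hx
        rw [Subgroup.mem_center_iff]
        intro y
        apply Subtype.ext
        exact Subgroup.mem_centralizer_singleton_iff.mp (hle y.2)
      have hxL : x ∈ L := hKL X hX hx
      set ζ : G := (u : G) * x * (u : G)⁻¹ * x⁻¹ with hζ
      have hζc : ∀ y ∈ L, y * ζ = ζ * y := by
        intro y hy
        have := Subgroup.mem_center_iff.mp (hu2 ⟨x, hxL⟩) ⟨y, hy⟩
        exact congrArg Subtype.val this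
      have hζ1 : ζ ≠ 1 := by
        intro e
        apply hxu
        have : (u : G) * x = ζ * x * u := by rw [hζ]; group
        rw [this, e, one_mul]
      have hx1 : x ≠ 1 := by
        intro e; apply hxu; rw [e]; simp
      set X' := X.map (MulAut.conj (u : G)).toMonoidHom with hX'
      have hX'K : X' ∈ K := hKc X hX u
      have hζx : ζ * x ∈ X' := by
        have : ζ * x = (MulAut.conj (u : G)).toMonoidHom x := by
          show ζ * x = (u : G) * x * (u : G)⁻¹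
          rw [hζ]; group
        rw [this]
        exact Subgroup.mem_map_of_mem _ hx
      have hζx1 : ζ * x ≠ 1 := by
        intro e
        apply hx1
        have : (u : G) * x * (u : G)⁻¹ = 1 := by rw [← e, hζ]; group
        have h2 : x = (u : G)⁻¹ * ((u : G) * x * (u : G)⁻¹) * u := by group
        rw [h2, this]; group
      have hXeq := eq_zpowers hp (hK X hX) hx hx1
      have hX'eq := eq_zpowers hp (hK X' hX'K) hζx hζx1
      have hζcomm : x * ζ = ζ * x := hζc x hxL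
      have hXX' : cm X X' := by
        rw [hXeq, hX'eq]
        apply cm_zpowers
        rw [← mul_assoc, hζcomm]
      have hne : X ≠ X' := by
        intro e
        have h1 : ζ ∈ X := by
          have h2 : ζ * x ∈ X := e ▸ hζx
          have := X.mul_mem h2 (X.inv_mem hx)
          simpa using this
        have h3 := eq_zpowers hp (hK X hX) h1 hζ1
        apply hxu
        have hx' : x ∈ Subgroup.zpowers ζ := h3 ▸ hx
        obtain ⟨i, hi⟩ := Subgroup.mem_zpowers_iff.mp hx'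
        have : Commute ζ (u : G) := (hζc u u.2).symm
        rw [← hi]
        exact (this.zpow_left i).eq
      have hζl : ζ ∈ X ⊔ X' := by
        have h1 : ζ * x ∈ X ⊔ X' := Subgroup.mem_sup_right hζx
        have h2 : x⁻¹ ∈ X ⊔ X' := Subgroup.mem_sup_left (X.inv_mem hx)
        have := mul_mem h1 h2
        simpa using this
      have hV : Subgroup.zpowers ζ ∈ K :=
        ha' X hX X' hX'K hne hXX' _ (by rw [Subgroup.zpowers_le]; exact hζl)
          (card_zpowers_of hp hζ1 (pow_eq_one_of_mem_sup (hK X hX) (hK X' hX'K) hXX' hζl))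
      obtain ⟨W, hW, hVW⟩ := hdeg _ hV
      apply hVW
      show Subgroup.zpowers ζ ≤ _
      rw [Subgroup.zpowers_le, Subgroup.mem_centralizer_iff]
      intro w hw
      exact hζc w (hKL W hW hw)
  obtain ⟨V, hV, hVall⟩ := main
  have hVcore : V ≤ pCore p G := by
    obtain ⟨N, hN, hNp, hXN⟩ := Cfsg.Agent.S0199.result (p := p) V
      (IsPGroup.of_card (n := 1) (by rw [hK V hV, pow_one]))
      (fun g => isPGroup_sup_of_cm (hK V hV) (hK _ (hKc V hV g)) (hVall _ (hKc V hV g)))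
    exact hXN.trans (le_pCore hN hNp)
  refine ⟨⟨V, hV, fun W hW => cm_iff.mp (hVall W hW), hVcore⟩, ?_⟩
  intro hsimple
  have hcore_ne : pCore p G ≠ ⊥ := by
    intro e
    rw [e, le_bot_iff] at hVcore
    have := hK V hV
    rw [hVcore, Subgroup.card_bot] at this
    exact hp.one_lt.ne this
  have hcore_top : pCore p G = ⊤ := (hsimple.eq_bot_or_eq_top_of_normal _ inferInstance).resolve_left hcore_ne
  have hGp : IsPGroup p G := by
    have := pCore_isPGroup p G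
    rw [hcore_top] at this
    exact this.of_equiv Subgroup.topEquiv
  have hnt : Nontrivial G := hsimple.toNontrivial
  have hcen : Subgroup.center G = ⊤ :=
    (hsimple.eq_bot_or_eq_top_of_normal _ inferInstance).resolve_left hGp.bot_lt_center.ne'
  have hnormal : ∀ X : Subgroup G, X.Normal := by
    intro X
    constructor
    intro n hn g
    have : g ∈ Subgroup.center G := by rw [hcen]; trivial
    have h1 := Subgroup.mem_center_iff.mp this n
    have : g * n * g⁻¹ = n := by rw [← h1]; group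
    rw [this]; exact hn
  have htop : ∀ X ∈ K, X = ⊤ := by
    intro X hX
    refine (hsimple.eq_bot_or_eq_top_of_normal X (hnormal X)).resolve_left ?_
    intro e
    have := hK X hX
    rw [e, Subgroup.card_bot] at this
    exact hp.one_lt.ne this
  exact hne0 ((htop X0 hX0).trans (htop Y0 hY0).symm)

end Cfsg.Agent.S3196
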