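import Cfsg.Statements.S3200
import Cfsg.Agent.S0143
import Cfsg.Agent.Lib.Helper1.Hall

set_option autoImplicit false
open Cfsg

namespace Cfsg.Agent.S3200

universe u

/-- for `N` normal, `|N : C ∩ N|` divides `|H : C|` -/
lemma relIndex_dvd_index_of_normal_right {H : Type*} [Group H] [Finite H] (C N : Subgroup H) [N.Normal] :
    C.relIndex N ∣ C.index := by
  have h1 : C.relIndex N * N.index = (C ⊓ N).index := by
    rw [← Subgroup.inf_relIndex_right]
    exact Subgroup.relIndex_mul_index inf_le_right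
  have h2 : N.relIndex C * C.index = (C ⊓ N).index := by
    rw [← Subgroup.inf_relIndex_left]
    exact Subgroup.relIndex_mul_index inf_le_left
  have h3 : N.relIndex (C ⊔ N) * (C ⊔ N).index = N.index := Subgroup.relIndex_mul_index le_sup_right
  rw [Subgroup.relIndex_sup_right] at h3
  have h0 : N.relIndex C ≠ 0 := (N.subgroupOf C).index_ne_zero_of_finite
  refine ⟨(C ⊔ N).index, ?_⟩
  apply Nat.eq_of_mul_eq_mul_left (Nat.pos_of_ne_zero h0)
  rw [h2, ← h1, ← h3]
  ring

/-- a finite group with an abelian subgroup of `2`-power index is solvable -/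
theorem solv_aux (n : ℕ) :
    ∀ (G : Type u) [Group G] [Finite G], Nat.card G = n →
      (∃ C : Subgroup G, IsMulCommutative ↥C ∧ ∃ k, C.index = 2 ^ k) → Group.IsSolvable G := by
  induction n using Nat.strong_induction_on with
  | _ n ih =>
    intro G _ _ hcard hn
    obtain ⟨C, hC, k, hk⟩ := hn
    by_cases hnormal : ∃ N : Subgroup G, N.Normal ∧ N ≠ ⊥ ∧ N ≠ ⊤
    · obtain ⟨N, hN, hbot, htop⟩ := hnormal
      have hmul := N.card_mul_index
      have hNpos : 0 < Nat.card N := Nat.card_pos
      have hidx_pos : 0 < N.index := Nat.pos_of_ne_zero N.index_ne_zero_of_finite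
      have h1 : Nat.card N ≠ 1 := fun h => hbot (Subgroup.card_eq_one.mp h)
      have h2 : N.index ≠ 1 := fun h => htop (Subgroup.index_eq_one.mp h)
      have hlt1 : Nat.card N < n := by
        rw [← hcard, ← hmul]
        have : 2 ≤ N.index := by omega
        nlinarith
      have hlt2 : Nat.card (G ⧸ N) < n := by
        have : Nat.card (G ⧸ N) = N.index := rfl
        rw [this, ← hcard, ← hmul]
        have : 2 ≤ Nat.card N := by omega
        nlinarith
      have hs1 : Group.IsSolvable N := by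
        refine ih _ hlt1 N rfl ⟨C.subgroupOf N, ?_, ?_⟩
        · refine ⟨⟨fun a b => Subtype.ext (Subtype.ext ?_)⟩⟩
          have h := congrArg Subtype.val (hC.is_comm.comm ⟨a.1.1, a.2⟩ ⟨b.1.1, b.2⟩)
          exact h
        · have : C.relIndex N ∣ 2 ^ k := hk ▸ relIndex_dvd_index_of_normal_right C N
          obtain ⟨k', -, hk'⟩ := (Nat.dvd_prime_pow Nat.prime_two).mp this
          exact ⟨k', hk'⟩
      have hs2 : Group.IsSolvable (G ⧸ N) := by
        refine ih _ hlt2 (G ⧸ N) rfl ⟨C.map (QuotientGroup.mk' N), inferInstance, ?_⟩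
        have : (C.map (QuotientGroup.mk' N)).index ∣ 2 ^ k :=
          hk ▸ Subgroup.index_map_dvd C (QuotientGroup.mk'_surjective N)
        obtain ⟨k', -, hk'⟩ := (Nat.dvd_prime_pow Nat.prime_two).mp this
        exact ⟨k', hk'⟩
      exact (Group.isSolvable_iff_subgroup_quotient N).mpr ⟨hs1, hs2⟩
    · push Not at hnormal
      by_cases hsub : Subsingleton G
      · infer_instance
      rw [not_subsingleton_iff_nontrivial] at hsub
      have hsimple : IsSimpleGroup G := ⟨fun N hN => by
        by_cases h : N = ⊥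
        · exact Or.inl h
        · exact Or.inr (hnormal N hN h)⟩
      suffices hprime : (Nat.card G).Prime by
        have : Fact (Nat.card G).Prime := ⟨hprime⟩
        have hcyc : IsCyclic G := isCyclic_of_prime_card rfl
        exact Group.isSolvable_of_comm (isMulCommutative_iff.mp hcyc.isMulCommutative)
      by_cases hCbot : C = ⊥
      · -- `G` is a `2`-group
        have hc : Nat.card G = 2 ^ k := by
          rw [← hk, hCbot, Subgroup.index_bot]
        have : Fact (Nat.Prime 2) := ⟨Nat.prime_two⟩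
        have hG : IsPGroup 2 G := IsPGroup.of_card hc
        have hcenter : Nontrivial (Subgroup.center G) := hG.center_nontrivial
        obtain ⟨z, hz⟩ := exists_ne (1 : Subgroup.center G)
        have hg : (z : G) ≠ 1 := fun h => hz (Subtype.ext h)
        have hidx : (Subgroup.centralizer ({(z : G)} : Set G)).index = 2 ^ 0 := by
          rw [pow_zero, Subgroup.index_eq_one, eq_top_iff]
          intro x _
          rw [Subgroup.mem_centralizer_singleton_iff]
          exact Subgroup.mem_center_iff.mp z.2 x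
        exact Cfsg.Agent.S0143.result 2 0 Nat.prime_two z hg hidx
      · obtain ⟨c, hcC, hc1⟩ : ∃ c ∈ C, c ≠ 1 := by
          by_contra hcon
          push Not at hcon
          exact hCbot ((Subgroup.eq_bot_iff_forall C).mpr hcon)
        have hle : C ≤ Subgroup.centralizer ({c} : Set G) := by
          intro x hx
          rw [Subgroup.mem_centralizer_singleton_iff]
          exact congrArg Subtype.val (hC.is_comm.comm ⟨x, hx⟩ ⟨c, hcC⟩)
        have hidx : (Subgroup.centralizer ({c} : Set G)).index ∣ 2 ^ k :=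
          hk ▸ Subgroup.index_dvd_of_le hle
        obtain ⟨k', -, hk'⟩ := (Nat.dvd_prime_pow Nat.prime_two).mp hidx
        exact Cfsg.Agent.S0143.result 2 k' Nat.prime_two c hc1 hk'

/-- an odd order subgroup of `2`-power index complements every Sylow `2`-subgroup -/
lemma compl_of_odd {K : Type*} [Group K] [Finite K] (P : Sylow 2 K) (D : Subgroup K)
    (hD : Odd (Nat.card ↥D)) (k : ℕ) (hk : D.index = 2 ^ k) :
    Subgroup.IsComplement' (P : Subgroup K) D := by
  have : Fact (Nat.Prime 2) := ⟨Nat.prime_two⟩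
  have hcard : Nat.card ↥D * 2 ^ k = Nat.card K := hk ▸ D.card_mul_index
  have hnd : ¬ 2 ∣ Nat.card ↥D := by
    rw [Nat.two_dvd_ne_zero]
    exact Nat.odd_iff.mp hD
  have hP : Nat.card ↥(P : Subgroup K) = 2 ^ k := by
    rw [Sylow.card_eq_multiplicity, ← hcard, Nat.factorization_mul (Nat.card_pos.ne') (by positivity)]
    simp [Nat.factorization_eq_zero_of_not_dvd hnd, Nat.Prime.factorization_self Nat.prime_two]
  apply Subgroup.isComplement'_of_coprime
  · rw [hP, ← hcard, mul_comm]
  · rw [hP]
    exact Nat.Coprime.pow_left _ ((Nat.Prime.coprime_iff_not_dvd Nat.prime_two).mpr hnd)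

/-- the working hypothesis -/
def Q (K : Type u) [Group K] : Prop :=
  ∃ D : Subgroup K, IsMulCommutative ↥D ∧ Odd (Nat.card ↥D) ∧ ∃ k, D.index = 2 ^ k

lemma concl_of_Q {K : Type u} [Group K] [Finite K] (h : Q K) :
    ∃ (P : Sylow 2 K) (D : Subgroup K), IsMulCommutative ↥D ∧
      Subgroup.IsComplement' (P : Subgroup K) D := by
  have : Fact (Nat.Prime 2) := ⟨Nat.prime_two⟩
  obtain ⟨D, h1, h2, k, hk⟩ := h
  exact ⟨default, D, h1, compl_of_odd _ D h2 k hk⟩

/-- Let H be a finite group in which a Sylow 2-subgroup has an abelian complement (an abelian subgroup meeting it trivially whose product with it is all of H). Then H is solvable, and every subgroup and every quotient group of H again has a Sylow 2-subgroup with an abelian complement. -/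
theorem result {H : Type*} [Group H] [Finite H]
    (S : Sylow 2 H) (C : Subgroup H) (hC : IsMulCommutative ↥C) (hSC : Subgroup.IsComplement' (S : Subgroup H) C) :
    Group.IsSolvable H ∧
    (∀ L : Subgroup H, ∃ (P : Sylow 2 ↥L) (D : Subgroup ↥L), IsMulCommutative ↥D ∧ Subgroup.IsComplement' (P : Subgroup ↥L) D) ∧
    (∀ (N : Subgroup H) [N.Normal], ∃ (P : Sylow 2 (H ⧸ N)) (D : Subgroup (H ⧸ N)),
      IsMulCommutative ↥D ∧ Subgroup.IsComplement' (P : Subgroup (H ⧸ N)) D) := by
  have two_prime : Fact (Nat.Prime 2) := ⟨Nat.prime_two⟩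
  obtain ⟨a, ha⟩ : ∃ a, C.index = 2 ^ a := by
    rw [hSC.index_eq_card]
    exact ⟨_, Sylow.card_eq_multiplicity S⟩
  have hnd : ¬ 2 ∣ Nat.card ↥C := by
    rw [← hSC.symm.index_eq_card]
    exact S.not_dvd_index
  have hCodd : Odd (Nat.card ↥C) := by
    rw [Nat.odd_iff]
    omega
  have hsolv : Group.IsSolvable H := solv_aux _ H rfl ⟨C, hC, a, ha⟩
  have hcardH : Nat.card H = Nat.card ↥C * 2 ^ a := by rw [← ha, C.card_mul_index]
  have hcop : (Nat.card ↥C).Coprime (2 ^ a) :=
    (Nat.Coprime.pow_left _ ((Nat.Prime.coprime_iff_not_dvd Nat.prime_two).mpr hnd)).symm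
  refine ⟨hsolv, ?_, ?_⟩
  · intro L
    apply concl_of_Q
    have hL0 : Nat.card ↥L ≠ 0 := Nat.card_pos.ne'
    have hLcard : Nat.card ↥L = (Nat.card ↥L / 2 ^ (Nat.card ↥L).factorization 2) *
        2 ^ (Nat.card ↥L).factorization 2 := by
      rw [mul_comm]
      exact (Nat.ordProj_mul_ordCompl_eq_self _ 2).symm
    have hLcop : (Nat.card ↥L / 2 ^ (Nat.card ↥L).factorization 2).Coprime
        (2 ^ (Nat.card ↥L).factorization 2) :=
      (Nat.Coprime.pow_left _ (Nat.coprime_ordCompl Nat.prime_two hL0)).symm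
    obtain ⟨D, hD⟩ := Cfsg.Agent.Lib.Helper1.hall_exists _ _ hLcard hLcop
    have hDnd : ¬ 2 ∣ Nat.card ↥D := by
      rw [hD]
      exact Nat.not_dvd_ordCompl Nat.prime_two hL0
    refine ⟨D, ?_, ?_, (Nat.card ↥L).factorization 2, ?_⟩
    · have hD' : (Nat.card ↥(D.map L.subtype)).Coprime (2 ^ a) := by
        rw [Subgroup.card_map_of_injective L.subtype_injective]
        exact (Nat.Coprime.pow_left _ ((Nat.Prime.coprime_iff_not_dvd Nat.prime_two).mpr hDnd)).symm
      obtain ⟨K, hK, hDK⟩ := Cfsg.Agent.Lib.Helper1.hall_dominance _ _ hcardH hcop _ hD'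
      obtain ⟨g, hg⟩ := Cfsg.Agent.Lib.Helper1.hall_conj _ _ hcardH hcop C K rfl hK
      have hKcomm : ∀ x ∈ K, ∀ y ∈ K, x * y = y * x := by
        intro x hx y hy
        rw [← hg] at hx hy
        obtain ⟨x', hx', rfl⟩ := Subgroup.mem_pointwise_smul_iff_inv_smul_mem.mp hx |> fun h =>
          (⟨_, h, smul_inv_smul _ _⟩ : ∃ x' ∈ C, MulAut.conj g • x' = x)
        obtain ⟨y', hy', rfl⟩ := Subgroup.mem_pointwise_smul_iff_inv_smul_mem.mp hy |> fun h =>
          (⟨_, h, smul_inv_smul _ _⟩ : ∃ y' ∈ C, MulAut.conj g • y' = y)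
        have := congrArg Subtype.val (hC.is_comm.comm ⟨x', hx'⟩ ⟨y', hy'⟩)
        have h' : x' * y' = y' * x' := this
        rw [← smul_mul', ← smul_mul', h']
      refine ⟨⟨fun x y => Subtype.ext (Subtype.ext ?_)⟩⟩
      exact hKcomm _ (hDK (Subgroup.mem_map_of_mem _ x.2)) _ (hDK (Subgroup.mem_map_of_mem _ y.2))
    · rw [Nat.odd_iff]
      omega
    · have h1 := D.card_mul_index
      rw [hD] at h1
      have h2 : 0 < Nat.card ↥L / 2 ^ (Nat.card ↥L).factorization 2 := by
        rw [← hD]; exact Nat.card_pos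
      apply Nat.eq_of_mul_eq_mul_left h2
      rw [h1, ← hLcard]
  · intro N _
    apply concl_of_Q
    refine ⟨C.map (QuotientGroup.mk' N), inferInstance, ?_, ?_⟩
    · exact Odd.of_dvd_nat hCodd (Subgroup.card_map_dvd _ _)
    · have : (C.map (QuotientGroup.mk' N)).index ∣ 2 ^ a :=
        ha ▸ Subgroup.index_map_dvd C (QuotientGroup.mk'_surjective N)
      obtain ⟨k', -, hk'⟩ := (Nat.dvd_prime_pow Nat.prime_two).mp this
      exact ⟨k', hk'⟩

end Cfsg.Agent.S3200
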