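import Cfsg.Statements.S3201
import Cfsg.Agent.Lib.Helper53.QuatQuot

set_option autoImplicit false
open Cfsg

namespace Cfsg.Agent.S3201

open Cfsg.Agent.Lib.Helper53 Cfsg.Agent.Lib.Helper5

lemma two_ne_zero_zmod (k : ℕ) : (2 : ZMod (2 * 2 ^ (k + 1))) ≠ 0 := by
  intro h
  have h2 : ((2 : ℕ) : ZMod (2 * 2 ^ (k + 1))) = 0 := by exact_mod_cast h
  rw [ZMod.natCast_eq_zero_iff] at h2
  have h3 := Nat.le_of_dvd (by norm_num) h2
  have h4 : 2 ≤ 2 ^ (k + 1) := by
    calc 2 = 2 ^ 1 := by norm_num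
      _ ≤ 2 ^ (k + 1) := Nat.pow_le_pow_right (by norm_num) (by omega)
  omega

/-- central elements of a generalized quaternion group have square one -/
lemma quat_central_sq (k : ℕ) (q : QuaternionGroup (2 ^ (k + 1))) (h : ∀ r, q * r = r * q) :
    q ^ 2 = 1 := by
  rcases q with i | i
  · have h1 := h (QuaternionGroup.xa 0)
    rw [QuaternionGroup.a_mul_xa, QuaternionGroup.xa_mul_a] at h1
    have h2 : (0 : ZMod (2 * 2 ^ (k + 1))) - i = 0 + i := by
      injection h1
    rw [pow_two, QuaternionGroup.a_mul_a, QuaternionGroup.one_def]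
    congr 1
    linear_combination -h2
  · exfalso
    have h1 := h (QuaternionGroup.a 1)
    rw [QuaternionGroup.a_mul_xa, QuaternionGroup.xa_mul_a] at h1
    have h2 : i + 1 = i - 1 := by injection h1
    apply two_ne_zero_zmod k
    linear_combination h2

lemma facts {S : Type*} [Group S] [Finite S] (hS : IsPGroup 2 S) (N : Subgroup S) [N.Normal]
    (hNZ : N ≤ Subgroup.center S) (hlt : ∃ z ∈ Subgroup.center S, z ∉ N)
    (hnc : ¬ IsMulCommutative (S ⧸ N)) (hu : ∃! x : S ⧸ N, orderOf x = 2) :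
    (∀ z ∈ Subgroup.center S, z ^ 2 ∈ N) ∧ (∀ u : S, u ^ 2 ∈ N → u ∈ Subgroup.center S) ∧
    (∀ a ∈ Subgroup.center S, ∀ b ∈ Subgroup.center S, a ∉ N → b ∉ N → a⁻¹ * b ∈ N) := by
  have two_prime : Fact (Nat.Prime 2) := ⟨Nat.prime_two⟩
  obtain ⟨k, ⟨e⟩⟩ := exists_quaternion_equiv (hS.to_quotient N) hnc hu
  have F1 : ∀ z ∈ Subgroup.center S, z ^ 2 ∈ N := by
    intro z hz
    have hq : (e (QuotientGroup.mk' N z)) ^ 2 = 1 := by
      apply quat_central_sq
      intro r
      obtain ⟨s', rfl⟩ := e.surjective r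
      obtain ⟨s, rfl⟩ := QuotientGroup.mk'_surjective N s'
      rw [← map_mul, ← map_mul, ← map_mul, ← map_mul, Subgroup.mem_center_iff.mp hz s]
    rw [← map_pow, ← map_pow, e.map_eq_one_iff] at hq
    exact (QuotientGroup.eq_one_iff _).mp hq
  obtain ⟨ι, hι, hιu⟩ := hu
  have Fo : ∀ a ∈ Subgroup.center S, a ∉ N → QuotientGroup.mk' N a = ι := by
    intro a ha haN
    apply hιu
    apply orderOf_eq_prime
    · rw [← map_pow]
      exact (QuotientGroup.eq_one_iff _).mpr (F1 a ha)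
    · intro h
      exact haN ((QuotientGroup.eq_one_iff _).mp h)
  refine ⟨F1, ?_, ?_⟩
  · intro u hu2
    obtain ⟨z, hz, hzN⟩ := hlt
    by_cases h1 : u ∈ N
    · exact hNZ h1
    · have h2 : QuotientGroup.mk' N u = ι := by
        apply hιu
        apply orderOf_eq_prime
        · rw [← map_pow]
          exact (QuotientGroup.eq_one_iff _).mpr hu2
        · intro h
          exact h1 ((QuotientGroup.eq_one_iff _).mp h)
      have h3 : QuotientGroup.mk' N z = QuotientGroup.mk' N u := by rw [h2, Fo z hz hzN]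
      have h4 : z⁻¹ * u ∈ N := QuotientGroup.eq.mp h3
      have h5 : u = z * (z⁻¹ * u) := by group
      rw [h5]
      exact mul_mem hz (hNZ h4)
  · intro a ha b hb haN hbN
    apply QuotientGroup.eq.mp
    show QuotientGroup.mk' N a = QuotientGroup.mk' N b
    rw [Fo a ha haN, Fo b hb hbN]

/-- Let S be a finite 2-group whose centre Z(S) has n ≥ 2 distinct maximal subgroups C₁, …, Cₙ with trivial intersection such that each quotient S/Cᵢ is a non-abelian group with exactly one involution (a generalized quaternion group). Then S is the internal direct product of an elementary abelian subgroup and a non-abelian subgroup with exactly one involution. -/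
theorem result {S : Type*} [Group S] [Finite S]
    (hS : IsPGroup 2 S) (n : ℕ) (hn : 2 ≤ n) (C : Fin n → Subgroup ↥(Subgroup.center S))
    (hCmax : ∀ i, IsCoatom (C i)) (hCinj : Function.Injective C) (hCint : ⨅ i, C i = ⊥)
    (hCq : ∀ i, ∃ (_ : ((C i).map (Subgroup.center S).subtype).Normal),
      ¬ IsMulCommutative (S ⧸ (C i).map (Subgroup.center S).subtype) ∧
      ∃! x : S ⧸ (C i).map (Subgroup.center S).subtype, orderOf x = 2) :
    ∃ E Q : Subgroup S, Cfsg.IsInternalDirectProduct E Q ⊤ ∧ Cfsg.IsElementaryAbelian 2 E ∧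
      ¬ IsMulCommutative ↥Q ∧ ∃! x : ↥Q, orderOf x = 2 := by
  have two_prime : Fact (Nat.Prime 2) := ⟨Nat.prime_two⟩
  have hNZ : ∀ i, (C i).map (Subgroup.center S).subtype ≤ Subgroup.center S := by
    rintro i _ ⟨w, -, rfl⟩
    exact w.2
  have hlt : ∀ i, ∃ z ∈ Subgroup.center S, z ∉ (C i).map (Subgroup.center S).subtype := by
    intro i
    obtain ⟨w, hw⟩ := SetLike.exists_not_mem_of_ne_top (C i) (hCmax i).1
    refine ⟨w.1, w.2, ?_⟩
    rintro ⟨w', hw', h⟩
    have : w' = w := Subtype.ext h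
    exact hw (this ▸ hw')
  have hF : ∀ i, (∀ z ∈ Subgroup.center S, z ^ 2 ∈ (C i).map (Subgroup.center S).subtype) ∧
      (∀ u : S, u ^ 2 ∈ (C i).map (Subgroup.center S).subtype → u ∈ Subgroup.center S) ∧
      (∀ a ∈ Subgroup.center S, ∀ b ∈ Subgroup.center S, a ∉ (C i).map (Subgroup.center S).subtype →
        b ∉ (C i).map (Subgroup.center S).subtype → a⁻¹ * b ∈ (C i).map (Subgroup.center S).subtype) := by
    intro i
    obtain ⟨hnorm, hnc, hu⟩ := hCq i
    exact facts hS _ (hNZ i) (hlt i) hnc hu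
  have hint : ∀ z : S, (∀ i, z ∈ (C i).map (Subgroup.center S).subtype) → z = 1 := by
    intro z hz
    have hzc : z ∈ Subgroup.center S := hNZ ⟨0, by omega⟩ (hz _)
    have h1 : (⟨z, hzc⟩ : ↥(Subgroup.center S)) ∈ ⨅ i, C i := by
      rw [Subgroup.mem_iInf]
      intro i
      obtain ⟨w, hw, h⟩ := hz i
      have : w = ⟨z, hzc⟩ := Subtype.ext h
      exact this ▸ hw
    rw [hCint, Subgroup.mem_bot] at h1
    exact congrArg Subtype.val h1
  have hZ2 : ∀ z ∈ Subgroup.center S, z ^ 2 = 1 := fun z hz => hint _ (fun i => (hF i).1 z hz)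
  have hsq : ∀ u u' : S, u ∉ Subgroup.center S → u' ∉ Subgroup.center S → u ^ 2 ∈ Subgroup.center S →
      u' ^ 2 ∈ Subgroup.center S → u ^ 2 = u' ^ 2 := by
    intro u u' hu hu' h h'
    have : (u ^ 2)⁻¹ * u' ^ 2 = 1 :=
      hint _ (fun i => (hF i).2.2 _ h _ h' (fun hN => hu ((hF i).2.1 u hN))
        (fun hN => hu' ((hF i).2.1 u' hN)))
    exact (inv_mul_eq_one.mp this)
  obtain ⟨hnorm, hnc, hu⟩ := hCq ⟨0, by omega⟩
  obtain ⟨F1, F2, -⟩ := hF ⟨0, by omega⟩
  have hNZ0 := hNZ ⟨0, by omega⟩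
  generalize (C ⟨0, by omega⟩).map (Subgroup.center S).subtype = N at hnorm hnc hu F1 F2 hNZ0
  obtain ⟨k, ⟨e⟩⟩ := exists_quaternion_equiv (hS.to_quotient N) hnc hu
  obtain ⟨x, hx⟩ := QuotientGroup.mk'_surjective N (e.symm (QuaternionGroup.a 1))
  obtain ⟨y, hy⟩ := QuotientGroup.mk'_surjective N (e.symm (QuaternionGroup.xa 0))
  have hne : NeZero (2 * 2 ^ (k + 1)) := ⟨by positivity⟩
  have hA1 : QuaternionGroup.a (((2 ^ (k + 1) : ℕ)) : ZMod (2 * 2 ^ (k + 1))) ≠ 1 := by
    intro h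
    rw [QuaternionGroup.one_def] at h
    have h2 : (((2 ^ (k + 1) : ℕ)) : ZMod (2 * 2 ^ (k + 1))) = 0 := by injection h
    rw [ZMod.natCast_eq_zero_iff] at h2
    have h3 := Nat.le_of_dvd (by positivity) h2
    have h4 : 0 < 2 ^ (k + 1) := by positivity
    omega
  have hA2 : (QuaternionGroup.a (((2 ^ (k + 1) : ℕ)) : ZMod (2 * 2 ^ (k + 1)))) ^ 2 = 1 := by
    rw [pow_two, QuaternionGroup.a_mul_a, QuaternionGroup.one_def]
    congr 1
    have : (((2 * 2 ^ (k + 1) : ℕ)) : ZMod (2 * 2 ^ (k + 1))) = 0 := ZMod.natCast_self _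
    rw [← this]
    push_cast
    ring
  have F3 : ∀ u : S, (QuotientGroup.mk' N u) ^ 2 =
      e.symm (QuaternionGroup.a (((2 ^ (k + 1) : ℕ)) : ZMod (2 * 2 ^ (k + 1)))) →
      u ∉ Subgroup.center S ∧ u ^ 2 ∈ Subgroup.center S := by
    intro u hu
    constructor
    · intro hc
      have h1 := (QuotientGroup.eq_one_iff (N := N) _).mpr (F1 u hc)
      have h2 : (QuotientGroup.mk' N u) ^ 2 = 1 := by rw [← map_pow]; exact h1
      rw [hu, e.symm.map_eq_one_iff] at h2
      exact hA1 h2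
    · apply F2
      apply (QuotientGroup.eq_one_iff (N := N) _).mp
      show QuotientGroup.mk' N ((u ^ 2) ^ 2) = 1
      rw [map_pow, map_pow, hu, ← map_pow, hA2, map_one]
  have hyF := F3 y (by rw [hy, ← map_pow, QuaternionGroup.xa_sq])
  have hxyF := F3 (x * y) (by
    rw [map_mul, hx, hy, ← map_mul, ← map_pow, QuaternionGroup.a_mul_xa, QuaternionGroup.xa_sq])
  have hwF := F3 (x ^ (2 ^ k)) (by
    rw [map_pow, hx, ← map_pow, ← map_pow, QuaternionGroup.a_one_pow, pow_two, QuaternionGroup.a_mul_a]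
    congr 2
    push_cast
    ring)
  have h_xy : (x * y) ^ 2 = y ^ 2 := hsq _ _ hxyF.1 hyF.1 hxyF.2 hyF.2
  have h_w : (x ^ (2 ^ k)) ^ 2 = y ^ 2 := hsq _ _ hwF.1 hyF.1 hwF.2 hyF.2
  have h2 : y ^ 2 = x ^ (2 ^ (k + 1)) := by
    rw [← h_w, ← pow_mul, pow_succ]
  have h1 : x ^ (2 * 2 ^ (k + 1)) = 1 := by
    rw [mul_comm, pow_mul, ← h2]
    exact hZ2 _ hyF.2
  have h3 : y⁻¹ * x * y = x⁻¹ := by
    have h4 : x * y * x = y := by
      have : x * y * x * y = y * y := by
        rw [← pow_two y, ← h_xy, pow_two]; group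
      exact mul_right_cancel this
    calc y⁻¹ * x * y = y⁻¹ * (x * y * x) * x⁻¹ := by group
      _ = x⁻¹ := by rw [h4]; group
  have hπf : ∀ q, QuotientGroup.mk' N (quaternionLift x y h1 h2 h3 q) = e.symm q := by
    have hai : ∀ i : ZMod (2 * 2 ^ (k + 1)),
        QuotientGroup.mk' N (x ^ i.val) = e.symm (QuaternionGroup.a i) := by
      intro i
      rw [map_pow, hx, ← map_pow, QuaternionGroup.a_one_pow, ZMod.natCast_zmod_val]
    rintro (i | i)
    · rw [quaternionLift_a, hai]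
    · rw [quaternionLift_xa, map_mul, hai, hy, ← map_mul, QuaternionGroup.xa_mul_a, zero_add]
  have hNc : ∀ a ∈ N, ∀ g : S, a * g = g * a := fun a ha g =>
    (Subgroup.mem_center_iff.mp (hNZ0 ha) g).symm
  -- the isomorphism of the range onto the quotient
  have hbij : Function.Bijective
      ((QuotientGroup.mk' N).comp (quaternionLift x y h1 h2 h3).range.subtype) := by
    constructor
    · rw [injective_iff_map_eq_one]
      rintro ⟨_, q, rfl⟩ hq
      have : QuotientGroup.mk' N (quaternionLift x y h1 h2 h3 q) = 1 := hq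
      rw [hπf, e.symm.map_eq_one_iff] at this
      apply Subtype.ext
      show quaternionLift x y h1 h2 h3 q = 1
      rw [this, map_one]
    · intro u
      refine ⟨⟨quaternionLift x y h1 h2 h3 (e u), e u, rfl⟩, ?_⟩
      show QuotientGroup.mk' N (quaternionLift x y h1 h2 h3 (e u)) = u
      rw [hπf, e.symm_apply_apply]
  let φ := MulEquiv.ofBijective _ hbij
  refine ⟨N, (quaternionLift x y h1 h2 h3).range, ⟨le_top, le_top, fun a ha b _ => hNc a ha b, ?_, ?_⟩,
    ⟨⟨⟨fun a b => Subtype.ext (hNc a.1 a.2 b.1)⟩⟩, fun a ha => hZ2 a (hNZ0 ha)⟩, ?_, ?_⟩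
  · rw [eq_bot_iff]
    rintro g ⟨hgN, q, rfl⟩
    have : QuotientGroup.mk' N (quaternionLift x y h1 h2 h3 q) = 1 :=
      (QuotientGroup.eq_one_iff _).mpr hgN
    rw [hπf, e.symm.map_eq_one_iff] at this
    rw [this, map_one]
    exact Subgroup.mem_bot.mpr rfl
  · rw [eq_top_iff]
    intro g _
    have h4 : QuotientGroup.mk' N (quaternionLift x y h1 h2 h3 (e (QuotientGroup.mk' N g))) =
        QuotientGroup.mk' N g := by rw [hπf, e.symm_apply_apply]
    have h5 := QuotientGroup.eq.mp h4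
    have h6 : g = quaternionLift x y h1 h2 h3 (e (QuotientGroup.mk' N g)) *
        ((quaternionLift x y h1 h2 h3 (e (QuotientGroup.mk' N g)))⁻¹ * g) := by group
    rw [h6]
    exact mul_mem (Subgroup.mem_sup_right ⟨_, rfl⟩) (Subgroup.mem_sup_left h5)
  · intro hcomm
    apply hnc
    refine ⟨⟨fun u v => ?_⟩⟩
    obtain ⟨u, rfl⟩ := φ.surjective u
    obtain ⟨v, rfl⟩ := φ.surjective v
    rw [← map_mul, ← map_mul, hcomm.is_comm.comm]
  · obtain ⟨ι, hι, hιu⟩ := hu
    refine ⟨φ.symm ι, ?_, ?_⟩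
    · show orderOf (φ.symm ι) = 2
      rw [MulEquiv.orderOf_eq]; exact hι
    · intro w hw
      have : φ w = ι := hιu _ (by show orderOf (φ w) = 2; rw [MulEquiv.orderOf_eq]; exact hw)
      rw [← this, φ.symm_apply_apply]

end Cfsg.Agent.S3201
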