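import Cfsg.Statements.S3202
import Cfsg.Agent.Lib.Helper53.QuatQuot

set_option autoImplicit false
open Cfsg

namespace Cfsg.Agent.S3202

open Cfsg.Agent.Lib.Helper53
open scoped commutatorElement

/-- Let S be a finite 2-group of 2-rank exactly 2 and D a maximal subgroup of the centre of S such that S/D is a non-abelian group with exactly one involution (a generalized quaternion group). Then S has a nontrivial cyclic characteristic subgroup. -/
theorem result {S : Type*} [Group S]
    [Finite S] (hS : IsPGroup 2 S) (hr2 : Cfsg.PRankLE 2 2 S) (hr1 : ¬ Cfsg.PRankLE 2 1 S)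
    (D : Subgroup ↥(Subgroup.center S)) (hD : IsCoatom D)
    (hq : ∃ (_ : (D.map (Subgroup.center S).subtype).Normal),
      ¬ IsMulCommutative (S ⧸ D.map (Subgroup.center S).subtype) ∧
      ∃! x : S ⧸ D.map (Subgroup.center S).subtype, orderOf x = 2) :
    ∃ C : Subgroup S, C ≠ ⊥ ∧ IsCyclic ↥C ∧ C.Characteristic := by
  obtain ⟨hN, hnc, hu⟩ := hq
  have hNc : ∀ n ∈ D.map (Subgroup.center S).subtype, ∀ g : S, n * g = g * n := by
    rintro _ ⟨z, -, rfl⟩ g
    exact (Subgroup.mem_center_iff.mp z.2 g).symm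
  generalize D.map (Subgroup.center S).subtype = N at hN hnc hu hNc
  obtain ⟨k, ⟨e⟩⟩ := exists_quaternion_equiv (hS.to_quotient N) hnc hu
  obtain ⟨x, hx⟩ := QuotientGroup.mk'_surjective N (e.symm (QuaternionGroup.a 1))
  obtain ⟨y, hy⟩ := QuotientGroup.mk'_surjective N (e.symm (QuaternionGroup.xa 0))
  have hd : x * y * x * y⁻¹ ∈ N := by
    rw [← QuotientGroup.eq_one_iff]
    show QuotientGroup.mk' N (x * y * x * y⁻¹) = 1
    rw [map_mul, map_mul, map_mul, map_inv, hx, hy, ← map_mul, ← map_mul, mul_inv_eq_one]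
    congr 1
    simp
  set d := x * y * x * y⁻¹ with hddef
  have hdx : d * x⁻¹ = x⁻¹ * d := hNc d hd _
  have hyx : y * x * y⁻¹ = x⁻¹ * d := by rw [hddef]; group
  have hyx' : y * x⁻¹ * y⁻¹ = d⁻¹ * x := by
    have : y * x⁻¹ * y⁻¹ = (y * x * y⁻¹)⁻¹ := by group
    rw [this, hyx]; group
  set c := y * x * y⁻¹ * x⁻¹ with hcdef
  have hc : c = x⁻¹ * d * x⁻¹ := by rw [hcdef, hyx]
  have hxc : x * c * x⁻¹ = c := by
    rw [hc]
    calc x * (x⁻¹ * d * x⁻¹) * x⁻¹ = (d * x⁻¹) * x⁻¹ := by group
      _ = x⁻¹ * d * x⁻¹ := by rw [hdx]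
  have hyc : y * c * y⁻¹ = c⁻¹ := by
    have hdy : y * d = d * y := (hNc d hd y).symm
    rw [hc]
    calc y * (x⁻¹ * d * x⁻¹) * y⁻¹ = (y * x⁻¹ * y⁻¹) * (y * d) * y⁻¹ * (y * x⁻¹ * y⁻¹) := by group
      _ = (d⁻¹ * x) * (d * y) * y⁻¹ * (d⁻¹ * x) := by rw [hyx', hdy]
      _ = d⁻¹ * x * (d * x⁻¹) * x * d⁻¹ * x := by group
      _ = d⁻¹ * x * (x⁻¹ * d) * x * d⁻¹ * x := by rw [hdx]
      _ = (x⁻¹ * d * x⁻¹)⁻¹ := by group
  -- generation
  have hne : NeZero (2 * 2 ^ (k + 1)) := ⟨by positivity⟩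
  have hT : Subgroup.closure (({x, y} : Set S) ∪ (N : Set S)) = ⊤ := by
    rw [eq_top_iff]
    intro g _
    have hxT : x ∈ Subgroup.closure (({x, y} : Set S) ∪ (N : Set S)) :=
      Subgroup.subset_closure (Or.inl (by simp))
    have hyT : y ∈ Subgroup.closure (({x, y} : Set S) ∪ (N : Set S)) :=
      Subgroup.subset_closure (Or.inl (by simp))
    have hfin : ∀ q ∈ Subgroup.closure (({x, y} : Set S) ∪ (N : Set S)),
        QuotientGroup.mk' N q = QuotientGroup.mk' N g →
        g ∈ Subgroup.closure (({x, y} : Set S) ∪ (N : Set S)) := by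
      intro q hq hqg
      have h1 : q⁻¹ * g ∈ N := QuotientGroup.eq.mp hqg
      have h2 : g = q * (q⁻¹ * g) := by group
      rw [h2]
      exact mul_mem hq (Subgroup.subset_closure (Or.inr h1))
    have hai : ∀ i : ZMod (2 * 2 ^ (k + 1)),
        QuotientGroup.mk' N (x ^ i.val) = e.symm (QuaternionGroup.a i) := by
      intro i
      rw [map_pow, hx, ← map_pow, QuaternionGroup.a_one_pow, ZMod.natCast_zmod_val]
    rcases h : e (QuotientGroup.mk' N g) with i | i
    · apply hfin (x ^ i.val) (pow_mem hxT _)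
      rw [hai, ← h, e.symm_apply_apply]
    · apply hfin (y * x ^ i.val) (mul_mem hyT (pow_mem hxT _))
      rw [map_mul, hai, hy, ← map_mul, QuaternionGroup.xa_mul_a, zero_add, ← h, e.symm_apply_apply]
  -- normality of `⟨c⟩`
  have hnorm : (Subgroup.zpowers c).Normal := by
    rw [← Subgroup.normalizer_eq_top_iff, eq_top_iff, ← hT, Subgroup.closure_le]
    have key : ∀ g : S, g * c * g⁻¹ ∈ Subgroup.zpowers c →
        g ∈ Subgroup.normalizer ((Subgroup.zpowers c : Subgroup S) : Set S) := by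
      intro g hg
      apply Subgroup.mem_normalizer_fintype
      intro n hn
      obtain ⟨i, rfl⟩ := Subgroup.mem_zpowers_iff.mp hn
      rw [SetLike.mem_coe, ← conj_zpow]
      exact Subgroup.zpow_mem _ hg i
    rintro g (hg | hg)
    · rcases hg with rfl | hg
      · apply key; rw [hxc]; exact Subgroup.mem_zpowers c
      · rw [Set.mem_singleton_iff] at hg
        subst hg
        apply key; rw [hyc]; exact Subgroup.inv_mem _ (Subgroup.mem_zpowers c)
    · apply key
      rw [hNc g hg c, mul_inv_cancel_right]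
      exact Subgroup.mem_zpowers c
  have hle : commutator S ≤ Subgroup.zpowers c := by
    apply commutator_le_of_gens _ _ hT
    have hN1 : ∀ a ∈ N, ∀ b : S, a * b * a⁻¹ * b⁻¹ = 1 ∧ b * a * b⁻¹ * a⁻¹ = 1 := by
      intro a ha b
      constructor
      · rw [hNc a ha b]; group
      · rw [← hNc a ha b]; group
    rintro a (ha | ha) b (hb | hb)
    · have ha' : a = x ∨ a = y := by simpa using ha
      have hb' : b = x ∨ b = y := by simpa using hb
      rcases ha' with h | h <;> rcases hb' with h' | h' <;> rw [h, h']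
      · have : x * x * x⁻¹ * x⁻¹ = 1 := by group
        rw [this]; exact one_mem _
      · have : x * y * x⁻¹ * y⁻¹ = c⁻¹ := by rw [hcdef]; group
        rw [this]; exact Subgroup.inv_mem _ (Subgroup.mem_zpowers c)
      · exact Subgroup.mem_zpowers c
      · have : y * y * y⁻¹ * y⁻¹ = 1 := by group
        rw [this]; exact one_mem _
    · rw [(hN1 b hb a).2]; exact one_mem _
    · rw [(hN1 a ha b).1]; exact one_mem _
    · rw [(hN1 a ha b).1]; exact one_mem _
  refine ⟨commutator S, ?_, ?_, inferInstance⟩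
  · intro hbot
    apply hnc
    refine ⟨⟨fun u v => ?_⟩⟩
    obtain ⟨u, rfl⟩ := QuotientGroup.mk'_surjective N u
    obtain ⟨v, rfl⟩ := QuotientGroup.mk'_surjective N v
    have h1 : ⁅u, v⁆ ∈ commutator S := by
      rw [commutator_def]
      exact Subgroup.commutator_mem_commutator (Subgroup.mem_top u) (Subgroup.mem_top v)
    rw [hbot, Subgroup.mem_bot, commutatorElement_eq_one_iff_mul_comm] at h1
    rw [← map_mul, ← map_mul, h1]
  · exact isCyclic_of_injective (Subgroup.inclusion hle) (Subgroup.inclusion_injective hle)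

end Cfsg.Agent.S3202
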