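import Cfsg.Statements.S3208
import Mathlib

set_option autoImplicit false
open Cfsg

namespace Cfsg.Agent.S3208

open Subgroup in
lemma relIndex_inf_normalizer_modEq {G : Type*} [Group G] [Finite G] {p : ℕ} [Fact p.Prime]
    (T H : Subgroup G) (hTH : T ≤ H) (hT : IsPGroup p ↥T) :
    T.relIndex (H ⊓ normalizer (T : Set G)) ≡ T.relIndex H [MOD p] := by
  obtain ⟨n, hn⟩ := IsPGroup.iff_card.mp hT
  have hcard : Nat.card ↥(T.subgroupOf H) = p ^ n := by
    rw [← hn]
    exact Nat.card_congr (subgroupOfEquivOfLe hTH).toEquiv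
  have key := Sylow.card_quotient_normalizer_modEq_card_quotient (G := ↥H) (H := T.subgroupOf H) hcard
  have e1 : Nat.card (↥H ⧸ T.subgroupOf H) = T.relIndex H := rfl
  have e2 : Nat.card (↥(normalizer ((T.subgroupOf H : Subgroup ↥H) : Set ↥H)) ⧸
      (T.subgroupOf H).comap (normalizer ((T.subgroupOf H : Subgroup ↥H) : Set ↥H)).subtype) =
      (T.subgroupOf H).relIndex (normalizer ((T.subgroupOf H : Subgroup ↥H) : Set ↥H)) := rfl
  rw [e1, e2, ← subgroupOf_normalizer_eq hTH, ← inf_subgroupOf_right (normalizer (T : Set G)) H,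
    relIndex_subgroupOf inf_le_right, inf_comm] at key
  exact key

theorem result {G : Type*} [Group G] [Finite G]
    (j : G) (hj : orderOf j = 2) (H T : Subgroup G) (hT : T ≤ H ⊓ Subgroup.centralizer ({j} : Set G)) (h2 : IsPGroup 2 ↥T)
    (hSyl : ¬ 2 ∣ T.relIndex (H ⊓ Subgroup.centralizer ({j} : Set G))) (hjT : j ∈ T)
    (hchar : ((Subgroup.zpowers j).subgroupOf T).Characteristic) :
    ¬ 2 ∣ T.relIndex H := by
  haveI : Fact (Nat.Prime 2) := ⟨Nat.prime_two⟩
  have hN : Subgroup.normalizer (T : Set G) ≤ Subgroup.centralizer ({j} : Set G) := by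
    intro g hg
    have h1 := (Subgroup.characteristic_iff_map_le.mp hchar) (T.normalizerMonoidHom ⟨g, hg⟩)
    have h3 : (⟨j, hjT⟩ : ↥T) ∈ (Subgroup.zpowers j).subgroupOf T := by
      rw [Subgroup.mem_subgroupOf]
      exact Subgroup.mem_zpowers j
    have h4 : (T.normalizerMonoidHom ⟨g, hg⟩) ⟨j, hjT⟩ ∈ (Subgroup.zpowers j).subgroupOf T :=
      h1 (Subgroup.mem_map_of_mem _ h3)
    rw [Subgroup.mem_subgroupOf] at h4
    have h5 : g * j * g⁻¹ ∈ Subgroup.zpowers j := h4
    -- elements of zpowers j are 1 or j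
    have h6 : g * j * g⁻¹ = j := by
      rw [Subgroup.mem_zpowers_iff] at h5
      obtain ⟨k, hk⟩ := h5
      have hj2 : j ^ 2 = 1 := by rw [← hj]; exact pow_orderOf_eq_one j
      rcases Int.even_or_odd' k with ⟨c, hc | hc⟩
      · exfalso
        have : j ^ k = 1 := by
          rw [hc, zpow_mul]
          have : j ^ (2 : ℤ) = 1 := by exact_mod_cast hj2
          rw [this, one_zpow]
        rw [this] at hk
        have hj1 : j = 1 := by
          have : g * j * g⁻¹ = 1 := hk.symm
          have h7 : j = g⁻¹ * (g * j * g⁻¹) * g := by group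
          rw [h7, this]; group
        rw [hj1, orderOf_one] at hj
        omega
      · have : j ^ k = j := by
          rw [hc, zpow_add, zpow_mul]
          have : j ^ (2 : ℤ) = 1 := by exact_mod_cast hj2
          rw [this, one_zpow, one_mul, zpow_one]
        rw [← hk, this]
    rw [Subgroup.mem_centralizer_singleton_iff]
    calc g * j = g * j * g⁻¹ * g := by group
      _ = j * g := by rw [h6]
  have hTH : T ≤ H := hT.trans inf_le_left
  have k1 := relIndex_inf_normalizer_modEq (p := 2) T H hTH h2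
  have k2 := relIndex_inf_normalizer_modEq (p := 2) T (H ⊓ Subgroup.centralizer ({j} : Set G)) hT h2
  have e : H ⊓ Subgroup.centralizer ({j} : Set G) ⊓ Subgroup.normalizer (T : Set G) = H ⊓ Subgroup.normalizer (T : Set G) := by
    rw [inf_assoc, inf_eq_right.mpr hN]
  rw [e] at k2
  have k3 := k2.symm.trans k1
  intro hdvd
  apply hSyl
  exact (Nat.ModEq.dvd_iff k3 (dvd_refl 2)).mpr hdvd

end Cfsg.Agent.S3208
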