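import Cfsg.Statements.S3209
import Cfsg.Agent.Lib.Helper53.SL2

set_option autoImplicit false
open Cfsg

namespace Cfsg.Agent.S3209

open Cfsg.Agent.Lib.Helper53

lemma mem_sup_of_comm {G : Type*} [Group G] {X Y : Subgroup G}
    (h : ∀ x ∈ X, ∀ y ∈ Y, x * y = y * x) {e : G} (he : e ∈ X ⊔ Y) :
    ∃ x ∈ X, ∃ y ∈ Y, e = x * y := by
  let P : Subgroup G :=
    { carrier := {e | ∃ x ∈ X, ∃ y ∈ Y, e = x * y}
      one_mem' := ⟨1, X.one_mem, 1, Y.one_mem, by simp⟩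
      mul_mem' := by
        rintro _ _ ⟨x, hx, y, hy, rfl⟩ ⟨x', hx', y', hy', rfl⟩
        refine ⟨x * x', X.mul_mem hx hx', y * y', Y.mul_mem hy hy', ?_⟩
        calc x * y * (x' * y') = x * (y * x') * y' := by group
          _ = x * (x' * y) * y' := by rw [h x' hx' y hy]
          _ = x * x' * (y * y') := by group
      inv_mem' := by
        rintro _ ⟨x, hx, y, hy, rfl⟩
        refine ⟨x⁻¹, X.inv_mem hx, y⁻¹, Y.inv_mem hy, ?_⟩
        rw [mul_inv_rev, h x⁻¹ (X.inv_mem hx) y⁻¹ (Y.inv_mem hy)] }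
  have hle : X ⊔ Y ≤ P := by
    rw [sup_le_iff]
    exact ⟨fun x hx => ⟨x, hx, 1, Y.one_mem, by simp⟩, fun y hy => ⟨1, X.one_mem, y, hy, by simp⟩⟩
  exact hle he

/-- what we need about one copy of `SL₂(q)`, `q` odd, inside `G` -/
lemma one_factor {G : Type*} [Group G] {F : Type*} [Field F] [Fintype F]
    (hF : Odd (Fintype.card F)) (L : Subgroup G)
    (e : ↥L ≃* Matrix.SpecialLinearGroup (Fin 2) F) (j : G) (hjL : j ∈ L) (hj1 : j ≠ 1)
    (hjj : j * j = 1) :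
    (∀ y ∈ L, y * y = 1 → y = 1 ∨ y = j) ∧
    ∃ x ∈ L, x * x = j ∧ ∀ y ∈ L, y * y = j → ∃ g ∈ L, g * x * g⁻¹ = y := by
  have h2 := two_ne_zero_of_odd_card hF
  have hej : e ⟨j, hjL⟩ = sl2NegOne F := by
    have h1 : e ⟨j, hjL⟩ * e ⟨j, hjL⟩ = 1 := by
      rw [← map_mul]
      have : (⟨j, hjL⟩ : ↥L) * ⟨j, hjL⟩ = 1 := Subtype.ext hjj
      rw [this, map_one]
    rcases sl2_sq_eq_one h2 _ h1 with h | h
    · exfalso
      apply hj1
      have : (⟨j, hjL⟩ : ↥L) = 1 := by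
        apply e.injective
        rw [h, map_one]
      exact congrArg Subtype.val this
    · exact h
  refine ⟨?_, ?_⟩
  · intro y hy hyy
    have h1 : e ⟨y, hy⟩ * e ⟨y, hy⟩ = 1 := by
      rw [← map_mul]
      have : (⟨y, hy⟩ : ↥L) * ⟨y, hy⟩ = 1 := Subtype.ext hyy
      rw [this, map_one]
    rcases sl2_sq_eq_one h2 _ h1 with h | h
    · left
      have : (⟨y, hy⟩ : ↥L) = 1 := by
        apply e.injective
        rw [h, map_one]
      exact congrArg Subtype.val this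
    · right
      have : (⟨y, hy⟩ : ↥L) = ⟨j, hjL⟩ := by
        apply e.injective
        rw [h, hej]
      exact congrArg Subtype.val this
  · refine ⟨(e.symm (sl2J F) : G), (e.symm (sl2J F)).2, ?_, ?_⟩
    · have : e.symm (sl2J F) * e.symm (sl2J F) = ⟨j, hjL⟩ := by
        apply e.injective
        rw [map_mul, e.apply_symm_apply, sl2J_mul_self, hej]
      exact congrArg Subtype.val this
    · intro y hy hyy
      have h1 : e ⟨y, hy⟩ * e ⟨y, hy⟩ = sl2NegOne F := by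
        rw [← map_mul, ← hej]
        congr 1
        exact Subtype.ext hyy
      obtain ⟨g, hg⟩ := sl2_conj_of_sq_eq_negOne hF _ h1
      refine ⟨(e.symm g : G), (e.symm g).2, ?_⟩
      have : e.symm g * e.symm (sl2J F) * (e.symm g)⁻¹ = ⟨y, hy⟩ := by
        apply e.injective
        rw [map_mul, map_mul, map_inv, e.apply_symm_apply, e.apply_symm_apply, hg]
      exact congrArg Subtype.val this

/-- Let L₁ ≅ SL₂(q₁) and L₂ ≅ SL₂(q₂), q₁ and q₂ odd, be elementwise-commuting subgroups of a finite group meeting in ⟨j⟩ for an involution j. Then L₁L₂ has exactly two conjugacy classes of involutions: the central involution j, and one further class (there is an involution x ≠ j in L₁L₂, and every involution of L₁L₂ other than j is conjugate to x by an element of L₁L₂). -/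
theorem result {G : Type*} [Group G] [Finite G]
    {F₁ : Type*} [Field F₁] [Fintype F₁] {F₂ : Type*} [Field F₂] [Fintype F₂]
    (hF₁ : Odd (Fintype.card F₁)) (hF₂ : Odd (Fintype.card F₂)) (L₁ L₂ : Subgroup G)
    (e₁ : ↥L₁ ≃* Matrix.SpecialLinearGroup (Fin 2) F₁) (e₂ : ↥L₂ ≃* Matrix.SpecialLinearGroup (Fin 2) F₂)
    (hc : ∀ x ∈ L₁, ∀ y ∈ L₂, x * y = y * x) (j : G) (hj : orderOf j = 2) (hm : L₁ ⊓ L₂ = Subgroup.zpowers j) :
    ∃ x ∈ L₁ ⊔ L₂, orderOf x = 2 ∧ x ≠ j ∧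
      ∀ y ∈ L₁ ⊔ L₂, orderOf y = 2 → y = j ∨ ∃ g ∈ L₁ ⊔ L₂, g * x * g⁻¹ = y := by
  have hjm : j ∈ L₁ ⊓ L₂ := by rw [hm]; exact Subgroup.mem_zpowers j
  have hj1L := (Subgroup.mem_inf.mp hjm).1
  have hj2L := (Subgroup.mem_inf.mp hjm).2
  have hj1 : j ≠ 1 := by
    intro h
    rw [h, orderOf_one] at hj
    omega
  have hjj : j * j = 1 := by
    have := pow_orderOf_eq_one j
    rw [hj, pow_two] at this
    exact this
  have hjinv : j⁻¹ = j := inv_eq_of_mul_eq_one_left hjj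
  have hz : ∀ z ∈ L₁, z ∈ L₂ → z = 1 ∨ z = j := by
    intro z h1 h2
    have : z ∈ Subgroup.zpowers j := by rw [← hm]; exact ⟨h1, h2⟩
    obtain ⟨i, rfl⟩ := Subgroup.mem_zpowers_iff.mp this
    rcases Int.even_or_odd' i with ⟨k, rfl | rfl⟩
    · left
      rw [zpow_mul, zpow_two, hjj, one_zpow]
    · right
      rw [zpow_add, zpow_mul, zpow_two, hjj, one_zpow, one_mul, zpow_one]
  obtain ⟨ha₁, x₁, hx₁, hxx₁, hb₁⟩ := one_factor hF₁ L₁ e₁ j hj1L hj1 hjj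
  obtain ⟨ha₂, x₂, hx₂, hxx₂, hb₂⟩ := one_factor hF₂ L₂ e₂ j hj2L hj1 hjj
  have hx₁not : x₁ ∉ L₂ := by
    intro h
    rcases hz x₁ hx₁ h with h | h
    · rw [h, one_mul] at hxx₁
      exact hj1 hxx₁.symm
    · rw [h, hjj] at hxx₁
      exact hj1 hxx₁.symm
  have two_prime : Fact (Nat.Prime 2) := ⟨Nat.prime_two⟩
  refine ⟨x₁ * x₂, mul_mem (Subgroup.mem_sup_left hx₁) (Subgroup.mem_sup_right hx₂), ?_, ?_, ?_⟩
  · apply orderOf_eq_prime
    · rw [pow_two]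
      calc x₁ * x₂ * (x₁ * x₂) = x₁ * (x₂ * x₁) * x₂ := by group
        _ = x₁ * (x₁ * x₂) * x₂ := by rw [hc x₁ hx₁ x₂ hx₂]
        _ = (x₁ * x₁) * (x₂ * x₂) := by group
        _ = 1 := by rw [hxx₁, hxx₂, hjj]
    · intro h
      apply hx₁not
      rw [eq_inv_of_mul_eq_one_left h]
      exact L₂.inv_mem hx₂
  · intro h
    apply hx₁not
    have : x₁ = j * x₂⁻¹ := by rw [← h]; group
    rw [this]
    exact L₂.mul_mem hj2L (L₂.inv_mem hx₂)
  · intro y hy hoy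
    obtain ⟨y₁, hy₁, y₂, hy₂, rfl⟩ := mem_sup_of_comm hc hy
    have hy1 : y₁ * y₂ ≠ 1 := by
      intro h
      rw [h, orderOf_one] at hoy
      omega
    have hyy : (y₁ * y₁) * (y₂ * y₂) = 1 := by
      have := pow_orderOf_eq_one (y₁ * y₂)
      rw [hoy, pow_two] at this
      calc (y₁ * y₁) * (y₂ * y₂) = y₁ * (y₁ * y₂) * y₂ := by group
        _ = y₁ * (y₂ * y₁) * y₂ := by rw [hc y₁ hy₁ y₂ hy₂]
        _ = y₁ * y₂ * (y₁ * y₂) := by group
        _ = 1 := this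
    have h1 : y₁ * y₁ = (y₂ * y₂)⁻¹ := eq_inv_of_mul_eq_one_left hyy
    have h1L : y₁ * y₁ ∈ L₂ := by
      rw [h1]
      exact L₂.inv_mem (L₂.mul_mem hy₂ hy₂)
    rcases hz _ (L₁.mul_mem hy₁ hy₁) h1L with h | h
    · left
      have h' : y₂ * y₂ = 1 := by rw [h, one_mul] at hyy; exact hyy
      rcases ha₁ y₁ hy₁ h with r | r <;> rcases ha₂ y₂ hy₂ h' with r' | r' <;> subst r <;> subst r'
      · simp at hy1
      · simp
      · simp
      · exact absurd hjj hy1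
    · right
      have h' : y₂ * y₂ = j := by
        rw [h] at hyy
        calc y₂ * y₂ = j⁻¹ * (j * (y₂ * y₂)) := by group
          _ = j := by rw [hyy, mul_one, hjinv]
      obtain ⟨g₁, hg₁, hgx₁⟩ := hb₁ y₁ hy₁ h
      obtain ⟨g₂, hg₂, hgx₂⟩ := hb₂ y₂ hy₂ h'
      refine ⟨g₁ * g₂, mul_mem (Subgroup.mem_sup_left hg₁) (Subgroup.mem_sup_right hg₂), ?_⟩
      rw [← hgx₁, ← hgx₂]
      have c1 : g₂ * x₁ = x₁ * g₂ := (hc x₁ hx₁ g₂ hg₂).symm
      have c2 : g₁⁻¹ * (g₂ * x₂ * g₂⁻¹) = (g₂ * x₂ * g₂⁻¹) * g₁⁻¹ :=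
        hc _ (L₁.inv_mem hg₁) _ (L₂.mul_mem (L₂.mul_mem hg₂ hx₂) (L₂.inv_mem hg₂))
      calc g₁ * g₂ * (x₁ * x₂) * (g₁ * g₂)⁻¹ = g₁ * (g₂ * x₁) * x₂ * g₂⁻¹ * g₁⁻¹ := by group
        _ = g₁ * (x₁ * g₂) * x₂ * g₂⁻¹ * g₁⁻¹ := by rw [c1]
        _ = g₁ * x₁ * ((g₂ * x₂ * g₂⁻¹) * g₁⁻¹) := by group
        _ = g₁ * x₁ * (g₁⁻¹ * (g₂ * x₂ * g₂⁻¹)) := by rw [c2]
        _ = g₁ * x₁ * g₁⁻¹ * (g₂ * x₂ * g₂⁻¹) := by group

end Cfsg.Agent.S3209
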