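import Cfsg.Statements.S3210
import Cfsg.Agent.S3209
import Cfsg.Agent.Lib.Helper53.SL2b
import Cfsg.Agent.Lib.Helper53.Conj
import Cfsg.Agent.Lib.Helper5.LinearCard

set_option autoImplicit false
open Cfsg

namespace Cfsg.Agent.S3210

open Cfsg.Agent.Lib.Helper53

/-- the abstract properties of the pair `L`, `L'` that the argument uses -/
structure Pair {G : Type*} [Group G] (L L' : Subgroup G) (j : G) : Prop where
  comm : ∀ x ∈ L, ∀ y ∈ L', x * y = y * x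
  inter : ∀ z ∈ L, z ∈ L' → z = 1 ∨ z = j
  jL : j ∈ L
  jL' : j ∈ L'
  j1 : j ≠ 1
  jj : j * j = 1
  sq : ∀ y ∈ L, y * y = 1 → y = 1 ∨ y = j
  sq' : ∀ y ∈ L', y * y = 1 → y = 1 ∨ y = j
  cen : ∀ g ∈ L, (∀ s ∈ L, s * s = j → g * s = s * g) → g = 1 ∨ g = j
  cen' : ∀ g ∈ L', (∀ s ∈ L', s * s = j → g * s = s * g) → g = 1 ∨ g = j
  ne : ∃ s ∈ L, s * s = j
  ne' : ∃ s ∈ L', s * s = j

lemma Pair.symm {G : Type*} [Group G] {L L' : Subgroup G} {j : G} (h : Pair L L' j) : Pair L' L j where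
  comm := fun x hx y hy => (h.comm y hy x hx).symm
  inter := fun z hz hz' => h.inter z hz' hz
  jL := h.jL'
  jL' := h.jL
  j1 := h.j1
  jj := h.jj
  sq := h.sq'
  sq' := h.sq
  cen := h.cen'
  cen' := h.cen
  ne := h.ne'
  ne' := h.ne

/-- centralizing all square roots of `j` in one copy of `SL₂(q)` -/
lemma cen_factor {G : Type*} [Group G] {F : Type*} [Field F] [Fintype F]
    (hF : Odd (Fintype.card F)) (L : Subgroup G)
    (e : ↥L ≃* Matrix.SpecialLinearGroup (Fin 2) F) (j : G) (hjL : j ∈ L) (hj1 : j ≠ 1)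
    (hjj : j * j = 1) :
    ∀ g ∈ L, (∀ s ∈ L, s * s = j → g * s = s * g) → g = 1 ∨ g = j := by
  have h2 := two_ne_zero_of_odd_card hF
  have hej : e ⟨j, hjL⟩ = sl2NegOne F := by
    have h1 : e ⟨j, hjL⟩ * e ⟨j, hjL⟩ = 1 := by
      rw [← map_mul]
      have : (⟨j, hjL⟩ : ↥L) * ⟨j, hjL⟩ = 1 := Subtype.ext hjj
      rw [this, map_one]
    rcases sl2_sq_eq_one h2 _ h1 with h | h
    · exfalso
      apply hj1
      have : (⟨j, hjL⟩ : ↥L) = 1 := by
        apply e.injective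
        rw [h, map_one]
      exact congrArg Subtype.val this
    · exact h
  intro g hg hcomm
  have hB : ∀ A : Matrix.SpecialLinearGroup (Fin 2) F, A * A = sl2NegOne F →
      e ⟨g, hg⟩ * A = A * e ⟨g, hg⟩ := by
    intro A hA
    have h1 : (e.symm A : G) * (e.symm A : G) = j := by
      have : e.symm A * e.symm A = ⟨j, hjL⟩ := by
        apply e.injective
        rw [map_mul, e.apply_symm_apply, hA, hej]
      exact congrArg Subtype.val this
    have h3 := hcomm _ (e.symm A).2 h1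
    have h4 : (⟨g, hg⟩ : ↥L) * e.symm A = e.symm A * ⟨g, hg⟩ := Subtype.ext h3
    have h5 := congrArg e h4
    rwa [map_mul, map_mul, e.apply_symm_apply] at h5
  rcases sl2_comm_all_sqrt hF _ hB with h | h
  · left
    have : (⟨g, hg⟩ : ↥L) = 1 := by
      apply e.injective
      rw [h, map_one]
    exact congrArg Subtype.val this
  · right
    have : (⟨g, hg⟩ : ↥L) = ⟨j, hjL⟩ := by
      apply e.injective
      rw [h, hej]
    exact congrArg Subtype.val this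

section
variable {G : Type*} [Group G] {L L' : Subgroup G} {j : G}

lemma Pair.mem_of_sq (h : Pair L L' j) {t : G} (ht : t ∈ L ⊔ L') (htt : t * t = j) : t ∈ L ∨ t ∈ L' := by
  obtain ⟨y₁, hy₁, y₂, hy₂, rfl⟩ := Cfsg.Agent.S3209.mem_sup_of_comm h.comm ht
  have hyy : (y₁ * y₁) * (y₂ * y₂) = j := by
    calc (y₁ * y₁) * (y₂ * y₂) = y₁ * (y₁ * y₂) * y₂ := by group
      _ = y₁ * (y₂ * y₁) * y₂ := by rw [h.comm y₁ hy₁ y₂ hy₂]
      _ = y₁ * y₂ * (y₁ * y₂) := by group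
      _ = j := htt
  have h1 : y₁ * y₁ = j * (y₂ * y₂)⁻¹ := by rw [← hyy]; group
  have h1L : y₁ * y₁ ∈ L' := by
    rw [h1]
    exact L'.mul_mem h.jL' (L'.inv_mem (L'.mul_mem hy₂ hy₂))
  rcases h.inter _ (L.mul_mem hy₁ hy₁) h1L with e | e
  · right
    rcases h.sq y₁ hy₁ e with r | r
    · rw [r, one_mul]; exact hy₂
    · rw [r]; exact L'.mul_mem h.jL' hy₂
  · left
    have e' : y₂ * y₂ = 1 := by
      rw [e] at hyy
      exact mul_eq_left.mp hyy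
    rcases h.sq' y₂ hy₂ e' with r | r
    · rw [r, mul_one]; exact hy₁
    · rw [r]; exact L.mul_mem hy₁ h.jL

lemma Pair.cent (h : Pair L L' j) {g : G} (hg : g ∈ L ⊔ L')
    (hc : ∀ s ∈ L, s * s = j → g * s = s * g) : g ∈ L' := by
  obtain ⟨g₁, hg₁, g₂, hg₂, rfl⟩ := Cfsg.Agent.S3209.mem_sup_of_comm h.comm hg
  have h1 : ∀ s ∈ L, s * s = j → g₁ * s = s * g₁ := by
    intro s hs hss
    have h2 := hc s hs hss
    have h3 : g₁ * s * g₂ = s * g₁ * g₂ := by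
      calc g₁ * s * g₂ = g₁ * (s * g₂) := by group
        _ = g₁ * (g₂ * s) := by rw [h.comm s hs g₂ hg₂]
        _ = g₁ * g₂ * s := by group
        _ = s * (g₁ * g₂) := h2
        _ = s * g₁ * g₂ := by group
    exact mul_right_cancel h3
  rcases h.cen g₁ hg₁ h1 with r | r
  · rw [r, one_mul]; exact hg₂
  · rw [r]; exact L'.mul_mem h.jL' hg₂

lemma Pair.dich (h : Pair L L' j) (n : G) (hnY : ∀ y ∈ L ⊔ L', n * y * n⁻¹ ∈ L ⊔ L')
    (hnj : n * j * n⁻¹ = j) :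
    (∀ s ∈ L, s * s = j → n * s * n⁻¹ ∈ L) ∨ (∀ s ∈ L, s * s = j → n * s * n⁻¹ ∈ L') := by
  have hsq : ∀ s : G, s * s = j → (n * s * n⁻¹) * (n * s * n⁻¹) = j := by
    intro s hs
    calc (n * s * n⁻¹) * (n * s * n⁻¹) = n * (s * s) * n⁻¹ := by group
      _ = j := by rw [hs, hnj]
  by_contra hcon
  push Not at hcon
  obtain ⟨⟨s, hs, hss, hsn⟩, ⟨s', hs', hss', hsn'⟩⟩ := hcon
  have hsL' : n * s * n⁻¹ ∈ L' :=
    (h.mem_of_sq (hnY s (Subgroup.mem_sup_left hs)) (hsq s hss)).resolve_left hsn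
  have hsL : n * s' * n⁻¹ ∈ L :=
    (h.mem_of_sq (hnY s' (Subgroup.mem_sup_left hs')) (hsq s' hss')).resolve_right hsn'
  have hcomm : s' * s = s * s' := by
    have := h.comm _ hsL _ hsL'
    have h2 : n * (s' * s) * n⁻¹ = n * (s * s') * n⁻¹ := by
      calc n * (s' * s) * n⁻¹ = (n * s' * n⁻¹) * (n * s * n⁻¹) := by group
        _ = (n * s * n⁻¹) * (n * s' * n⁻¹) := this
        _ = n * (s * s') * n⁻¹ := by group
    exact mul_left_cancel (mul_right_cancel h2)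
  have h1 : (s * s') * (s * s') = 1 := by
    calc (s * s') * (s * s') = s * (s' * s) * s' := by group
      _ = s * (s * s') * s' := by rw [hcomm]
      _ = (s * s) * (s' * s') := by group
      _ = 1 := by rw [hss, hss', h.jj]
  apply hsn'
  rcases h.sq _ (L.mul_mem hs hs') h1 with r | r
  · have : s' = s⁻¹ := eq_inv_of_mul_eq_one_right r
    rw [this]
    have h3 : n * s⁻¹ * n⁻¹ = (n * s * n⁻¹)⁻¹ := by group
    rw [h3]
    exact L'.inv_mem hsL'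
  · have : s' = s⁻¹ * j := by rw [← r]; group
    rw [this]
    have h3 : n * (s⁻¹ * j) * n⁻¹ = (n * s * n⁻¹)⁻¹ * (n * j * n⁻¹) := by group
    rw [h3, hnj]
    exact L'.mul_mem (L'.inv_mem hsL') h.jL'

/-- if conjugation by `n` maps the square roots of `j` in `L` into `B'`, and `B` centralizes `B'`,
then `B` lies in the conjugate of `L'` -/
lemma Pair.le_cj (h : Pair L L' j) (n : G) (hnY : ∀ y ∈ L ⊔ L', n⁻¹ * y * n ∈ L ⊔ L')
    (B B' : Subgroup G) (hB : B ≤ L ⊔ L') (hBB : ∀ b ∈ B, ∀ b' ∈ B', b * b' = b' * b)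
    (hs : ∀ s ∈ L, s * s = j → n * s * n⁻¹ ∈ B') : B ≤ cj n L' := by
  intro l hl
  rw [mem_cj]
  apply h.cent (hnY l (hB hl))
  intro s hsL hss
  have h1 := hBB l hl _ (hs s hsL hss)
  calc n⁻¹ * l * n * s = n⁻¹ * (l * (n * s * n⁻¹)) * n := by group
    _ = n⁻¹ * ((n * s * n⁻¹) * l) * n := by rw [h1]
    _ = s * (n⁻¹ * l * n) := by group

end

lemma card_inj {a b : ℕ} (ha : 2 ≤ a) (hb : 2 ≤ b) (h : a * (a ^ 2 - 1) = b * (b ^ 2 - 1)) : a = b := by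
  have key : ∀ a b : ℕ, 2 ≤ a → a < b → a * (a ^ 2 - 1) < b * (b ^ 2 - 1) := by
    intro a b ha hab
    have h1 : a ^ 2 < b ^ 2 := Nat.pow_lt_pow_left hab (by norm_num)
    have h2 : 1 ≤ a ^ 2 := Nat.one_le_pow _ _ (by omega)
    have h3 : a ^ 2 - 1 < b ^ 2 - 1 := by omega
    exact Nat.mul_lt_mul'' hab h3
  rcases Nat.lt_trichotomy a b with h1 | h1 | h1
  · exact absurd h (key a b ha h1).ne
  · exact h1
  · exact absurd h.symm (key b a hb h1).ne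

lemma cj_of_mem {G : Type*} [Group G] {L : Subgroup G} {g : G} (hg : g ∈ L) : cj g L = L := by
  ext x
  rw [mem_cj]
  constructor
  · intro h
    have : x = g * (g⁻¹ * x * g) * g⁻¹ := by group
    rw [this]
    exact L.mul_mem (L.mul_mem hg h) (L.inv_mem hg)
  · intro h
    exact L.mul_mem (L.mul_mem (L.inv_mem hg) h) hg

/-- Let G be a finite group with subgroups L₁ ≅ SL₂(q₁) and L₂ ≅ SL₂(q₂), q₁ and q₂ odd prime powers, which commute elementwise and meet in ⟨j⟩ for an involution j, and suppose L₁L₂ has index 2 in C_G(j). Then every element n of C_G(j) outside L₁L₂ either normalizes both L₁ and L₂, or conjugates L₁ onto L₂; in the second case q₁ = q₂ and there is an element n′ of C_G(j) outside L₁L₂ conjugating L₁ onto L₂ with n′² ∈ ⟨j⟩. -/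
theorem result {G : Type*} [Group G] [Finite G]
    {F₁ : Type*} [Field F₁] [Fintype F₁] {F₂ : Type*} [Field F₂] [Fintype F₂]
    (hF₁ : Odd (Fintype.card F₁)) (hF₂ : Odd (Fintype.card F₂)) (L₁ L₂ : Subgroup G)
    (e₁ : ↥L₁ ≃* Matrix.SpecialLinearGroup (Fin 2) F₁) (e₂ : ↥L₂ ≃* Matrix.SpecialLinearGroup (Fin 2) F₂)
    (hc : ∀ x ∈ L₁, ∀ y ∈ L₂, x * y = y * x) (j : G) (hj : orderOf j = 2) (hm : L₁ ⊓ L₂ = Subgroup.zpowers j)
    (hle : L₁ ⊔ L₂ ≤ Subgroup.centralizer ({j} : Set G)) (hi : (L₁ ⊔ L₂).relIndex (Subgroup.centralizer ({j} : Set G)) = 2) (n : G) (hn : n ∈ Subgroup.centralizer ({j} : Set G)) (hn' : n ∉ L₁ ⊔ L₂) :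
    (L₁.map (MulAut.conj n).toMonoidHom = L₁ ∧ L₂.map (MulAut.conj n).toMonoidHom = L₂) ∨
      (L₁.map (MulAut.conj n).toMonoidHom = L₂ ∧ Fintype.card F₁ = Fintype.card F₂ ∧
        ∃ n' ∈ Subgroup.centralizer ({j} : Set G), n' ∉ L₁ ⊔ L₂ ∧ L₁.map (MulAut.conj n').toMonoidHom = L₂ ∧ n' ^ 2 ∈ Subgroup.zpowers j) := by
  have hjm : j ∈ L₁ ⊓ L₂ := by rw [hm]; exact Subgroup.mem_zpowers j
  have hj1L := (Subgroup.mem_inf.mp hjm).1
  have hj2L := (Subgroup.mem_inf.mp hjm).2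
  have hj1 : j ≠ 1 := by
    intro h
    rw [h, orderOf_one] at hj
    omega
  have hjj : j * j = 1 := by
    have := pow_orderOf_eq_one j
    rw [hj, pow_two] at this
    exact this
  have hz : ∀ z ∈ L₁, z ∈ L₂ → z = 1 ∨ z = j := by
    intro z h1 h2
    have : z ∈ Subgroup.zpowers j := by rw [← hm]; exact ⟨h1, h2⟩
    obtain ⟨i, rfl⟩ := Subgroup.mem_zpowers_iff.mp this
    rcases Int.even_or_odd' i with ⟨k, rfl | rfl⟩
    · left
      rw [zpow_mul, zpow_two, hjj, one_zpow]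
    · right
      rw [zpow_add, zpow_mul, zpow_two, hjj, one_zpow, one_mul, zpow_one]
  obtain ⟨ha₁, x₁, hx₁, hxx₁, -⟩ := Cfsg.Agent.S3209.one_factor hF₁ L₁ e₁ j hj1L hj1 hjj
  obtain ⟨ha₂, x₂, hx₂, hxx₂, -⟩ := Cfsg.Agent.S3209.one_factor hF₂ L₂ e₂ j hj2L hj1 hjj
  have P : Pair L₁ L₂ j :=
    { comm := hc, inter := hz, jL := hj1L, jL' := hj2L, j1 := hj1, jj := hjj, sq := ha₁, sq' := ha₂,
      cen := cen_factor hF₁ L₁ e₁ j hj1L hj1 hjj, cen' := cen_factor hF₂ L₂ e₂ j hj2L hj1 hjj,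
      ne := ⟨x₁, hx₁, hxx₁⟩, ne' := ⟨x₂, hx₂, hxx₂⟩ }
  have hc' : ∀ x ∈ L₂, ∀ y ∈ L₁, x * y = y * x := fun x hx y hy => (hc y hy x hx).symm
  have hnorm : ((L₁ ⊔ L₂).subgroupOf (Subgroup.centralizer ({j} : Set G))).Normal :=
    Subgroup.normal_of_index_eq_two hi
  have hconj : ∀ c ∈ Subgroup.centralizer ({j} : Set G), ∀ y ∈ L₁ ⊔ L₂, c * y * c⁻¹ ∈ L₁ ⊔ L₂ := by
    intro c hcC y hy
    have := hnorm.conj_mem ⟨y, hle hy⟩ (Subgroup.mem_subgroupOf.mpr hy) ⟨c, hcC⟩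
    exact Subgroup.mem_subgroupOf.mp this
  have hnY : ∀ y ∈ L₁ ⊔ L₂, n * y * n⁻¹ ∈ L₁ ⊔ L₂ := hconj n hn
  have hnY' : ∀ y ∈ L₁ ⊔ L₂, n⁻¹ * y * n ∈ L₁ ⊔ L₂ := by
    intro y hy
    have := hconj n⁻¹ (Subgroup.inv_mem _ hn) y hy
    rwa [inv_inv] at this
  have hnYs : ∀ y ∈ L₂ ⊔ L₁, n * y * n⁻¹ ∈ L₂ ⊔ L₁ := by rwa [sup_comm]
  have hnYs' : ∀ y ∈ L₂ ⊔ L₁, n⁻¹ * y * n ∈ L₂ ⊔ L₁ := by rwa [sup_comm]
  have hnj : n * j * n⁻¹ = j := by
    rw [Subgroup.mem_centralizer_singleton_iff] at hn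
    rw [hn, mul_inv_cancel_right]
  rcases P.dich n hnY hnj with h1 | h1
  · left
    have hA : L₂ ≤ cj n L₂ := P.le_cj n hnY' L₂ L₁ le_sup_right hc' h1
    have hA' : cj n L₂ = L₂ := (Subgroup.eq_of_le_of_card_ge hA (by rw [card_cj])).symm
    have h2 : ∀ s ∈ L₂, s * s = j → n * s * n⁻¹ ∈ L₂ := fun s hs _ => by
      have := conj_mem_cj n hs
      rwa [hA'] at this
    have hB : L₁ ≤ cj n L₁ := P.symm.le_cj n hnYs' L₁ L₂ le_sup_right hc h2
    have hB' : cj n L₁ = L₁ := (Subgroup.eq_of_le_of_card_ge hB (by rw [card_cj])).symm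
    exact ⟨hB', hA'⟩
  · right
    have hA : L₁ ≤ cj n L₂ := P.le_cj n hnY' L₁ L₂ le_sup_left hc h1
    rcases P.symm.dich n hnYs hnj with h2 | h2
    · exfalso
      have hB : L₁ ≤ cj n L₁ := P.symm.le_cj n hnYs' L₁ L₂ le_sup_right hc h2
      have hB' : cj n L₁ = L₁ := (Subgroup.eq_of_le_of_card_ge hB (by rw [card_cj])).symm
      have h3 : n * x₁ * n⁻¹ ∈ L₁ := by
        have := conj_mem_cj n hx₁
        rwa [hB'] at this
      have h4 : (n * x₁ * n⁻¹) * (n * x₁ * n⁻¹) = j := by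
        calc (n * x₁ * n⁻¹) * (n * x₁ * n⁻¹) = n * (x₁ * x₁) * n⁻¹ := by group
          _ = j := by rw [hxx₁, hnj]
      rcases hz _ h3 (h1 x₁ hx₁ hxx₁) with r | r
      · rw [r, one_mul] at h4
        exact hj1 h4.symm
      · rw [r, hjj] at h4
        exact hj1 h4.symm
    · have hB : L₂ ≤ cj n L₁ := P.symm.le_cj n hnYs' L₂ L₁ le_sup_left hc' h2
      have hcard : Nat.card ↥L₁ = Nat.card ↥L₂ := by
        apply le_antisymm
        · have := Subgroup.card_le_of_le hA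
          rwa [card_cj] at this
        · have := Subgroup.card_le_of_le hB
          rwa [card_cj] at this
      have hB' : cj n L₁ = L₂ := (Subgroup.eq_of_le_of_card_ge hB (by rw [card_cj, hcard])).symm
      have hA' : cj n L₂ = L₁ := (Subgroup.eq_of_le_of_card_ge hA (by rw [card_cj, hcard])).symm
      refine ⟨hB', ?_, ?_⟩
      · have c1 : Nat.card ↥L₁ = Fintype.card F₁ * (Fintype.card F₁ ^ 2 - 1) := by
          rw [Nat.card_congr e₁.toEquiv, Cfsg.Agent.Lib.Helper5.card_SL2]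
        have c2 : Nat.card ↥L₂ = Fintype.card F₂ * (Fintype.card F₂ ^ 2 - 1) := by
          rw [Nat.card_congr e₂.toEquiv, Cfsg.Agent.Lib.Helper5.card_SL2]
        exact card_inj Fintype.one_lt_card Fintype.one_lt_card (by rw [← c1, ← c2, hcard])
      · have hnn : n * n ∈ L₁ ⊔ L₂ := by
          have := Subgroup.mul_self_mem_of_index_two hi
            (⟨n, hn⟩ : ↥(Subgroup.centralizer ({j} : Set G)))
          exact Subgroup.mem_subgroupOf.mp this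
        obtain ⟨l₁, hl₁, l₂, hl₂, hnn⟩ := Cfsg.Agent.S3209.mem_sup_of_comm hc hnn
        have haL : n * l₁ * n⁻¹ ∈ L₂ := by
          have := conj_mem_cj n hl₁
          rwa [hB'] at this
        have hbL : n * l₂ * n⁻¹ ∈ L₁ := by
          have := conj_mem_cj n hl₂
          rwa [hA'] at this
        have hab : (n * l₁ * n⁻¹) * (n * l₂ * n⁻¹) = l₁ * l₂ := by
          calc (n * l₁ * n⁻¹) * (n * l₂ * n⁻¹) = n * (l₁ * l₂) * n⁻¹ := by group
            _ = n * (n * n) * n⁻¹ := by rw [hnn]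
            _ = n * n := by group
            _ = l₁ * l₂ := hnn
        have hsq : (n * l₁⁻¹) ^ 2 = (n * l₁ * n⁻¹)⁻¹ * l₂ := by
          calc (n * l₁⁻¹) ^ 2 = (n * l₁ * n⁻¹)⁻¹ * (n * n) * l₁⁻¹ := by
                rw [pow_two]; group
            _ = (n * l₁ * n⁻¹)⁻¹ * (l₁ * l₂) * l₁⁻¹ := by rw [hnn]
            _ = (n * l₁ * n⁻¹)⁻¹ * (l₂ * l₁) * l₁⁻¹ := by rw [hc l₁ hl₁ l₂ hl₂]
            _ = (n * l₁ * n⁻¹)⁻¹ * l₂ := by group
        have hsq' : (n * l₁ * n⁻¹)⁻¹ * l₂ = l₁⁻¹ * (n * l₂ * n⁻¹) := by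
          have h5 : l₁⁻¹ * (n * l₁ * n⁻¹)⁻¹ = (n * l₁ * n⁻¹)⁻¹ * l₁⁻¹ :=
            hc _ (L₁.inv_mem hl₁) _ (L₂.inv_mem haL)
          calc (n * l₁ * n⁻¹)⁻¹ * l₂ = (n * l₁ * n⁻¹)⁻¹ * l₁⁻¹ * (l₁ * l₂) := by group
            _ = (n * l₁ * n⁻¹)⁻¹ * l₁⁻¹ * ((n * l₁ * n⁻¹) * (n * l₂ * n⁻¹)) := by rw [hab]
            _ = l₁⁻¹ * (n * l₁ * n⁻¹)⁻¹ * ((n * l₁ * n⁻¹) * (n * l₂ * n⁻¹)) := by rw [h5]
            _ = l₁⁻¹ * (n * l₂ * n⁻¹) := by group
        refine ⟨n * l₁⁻¹, Subgroup.mul_mem _ hn (Subgroup.inv_mem _ (hle (Subgroup.mem_sup_left hl₁))),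
          ?_, ?_, ?_⟩
        · intro h
          apply hn'
          have : n = (n * l₁⁻¹) * l₁ := by group
          rw [this]
          exact Subgroup.mul_mem _ h (Subgroup.mem_sup_left hl₁)
        · show cj (n * l₁⁻¹) L₁ = L₂
          rw [← cj_cj, cj_of_mem (L₁.inv_mem hl₁), hB']
        · rw [← hm, Subgroup.mem_inf]
          constructor
          · rw [hsq, hsq']
            exact L₁.mul_mem (L₁.inv_mem hl₁) hbL
          · rw [hsq]
            exact L₂.mul_mem (L₂.inv_mem haL) hl₂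

end Cfsg.Agent.S3210
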