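import Cfsg.Statements.S3211
import Cfsg.Agent.S0215
import Cfsg.Agent.S3209
import Cfsg.Agent.Lib.Helper53.SL2c
import Cfsg.Agent.Lib.Lead.Cores

set_option autoImplicit false
set_option linter.style.haveILetI false
open Cfsg

namespace Cfsg.Agent.S3211

open Cfsg.Agent.Lib.Helper53

/-- the abstract properties of a copy of `SL₂(q)` with central involution `j` that are used -/
structure SLike {G : Type*} [Group G] (L : Subgroup G) (j : G) : Prop where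
  jL : j ∈ L
  sq : ∀ y ∈ L, y * y = 1 → y = 1 ∨ y = j
  conj : ∀ a ∈ L, ∀ a' ∈ L, a * a = j → a' * a' = j → ∃ x ∈ L, x * a * x⁻¹ = a'
  ne : ∃ s ∈ L, s * s = j
  inv : ∀ a ∈ L, a * a = j → ∃ w ∈ L, w * w = j ∧ ∀ x ∈ L, x * a = a * x → w * x * w⁻¹ = x⁻¹

theorem sLike_of_equiv {G : Type*} [Group G] {F : Type*} [Field F] [Fintype F]
    (hF : Odd (Fintype.card F)) (L : Subgroup G)
    (e : ↥L ≃* Matrix.SpecialLinearGroup (Fin 2) F) (j : G) (hjL : j ∈ L) (hj1 : j ≠ 1)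
    (hjj : j * j = 1) : SLike L j := by
  have h2 := two_ne_zero_of_odd_card hF
  have hej : e ⟨j, hjL⟩ = sl2NegOne F := by
    have h1 : e ⟨j, hjL⟩ * e ⟨j, hjL⟩ = 1 := by
      rw [← map_mul]
      have : (⟨j, hjL⟩ : ↥L) * ⟨j, hjL⟩ = 1 := Subtype.ext hjj
      rw [this, map_one]
    rcases sl2_sq_eq_one h2 _ h1 with h | h
    · exfalso
      apply hj1
      have : (⟨j, hjL⟩ : ↥L) = 1 := by
        apply e.injective
        rw [h, map_one]
      exact congrArg Subtype.val this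
    · exact h
  have hsq : ∀ a (ha : a ∈ L), a * a = j → e ⟨a, ha⟩ * e ⟨a, ha⟩ = sl2NegOne F := by
    intro a ha haa
    rw [← map_mul, ← hej]
    congr 1
    exact Subtype.ext haa
  have hsq' : ∀ A : Matrix.SpecialLinearGroup (Fin 2) F, A * A = sl2NegOne F →
      (e.symm A : G) * (e.symm A : G) = j := by
    intro A hA
    have : e.symm A * e.symm A = ⟨j, hjL⟩ := by
      apply e.injective
      rw [map_mul, e.apply_symm_apply, hA, hej]
    exact congrArg Subtype.val this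
  refine ⟨hjL, ?_, ?_, ?_, ?_⟩
  · intro y hy hyy
    have h1 : e ⟨y, hy⟩ * e ⟨y, hy⟩ = 1 := by
      rw [← map_mul]
      have : (⟨y, hy⟩ : ↥L) * ⟨y, hy⟩ = 1 := Subtype.ext hyy
      rw [this, map_one]
    rcases sl2_sq_eq_one h2 _ h1 with h | h
    · left
      have : (⟨y, hy⟩ : ↥L) = 1 := by
        apply e.injective
        rw [h, map_one]
      exact congrArg Subtype.val this
    · right
      have : (⟨y, hy⟩ : ↥L) = ⟨j, hjL⟩ := by
        apply e.injective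
        rw [h, hej]
      exact congrArg Subtype.val this
  · intro a ha a' ha' haa haa'
    obtain ⟨g, hg⟩ := sl2_conj_of_sq_eq_negOne hF _ (hsq a ha haa)
    obtain ⟨g', hg'⟩ := sl2_conj_of_sq_eq_negOne hF _ (hsq a' ha' haa')
    refine ⟨e.symm (g' * g⁻¹), (e.symm (g' * g⁻¹)).2, ?_⟩
    have : e.symm (g' * g⁻¹) * ⟨a, ha⟩ * (e.symm (g' * g⁻¹))⁻¹ = ⟨a', ha'⟩ := by
      apply e.injective
      rw [map_mul, map_mul, map_inv, e.apply_symm_apply, ← hg, ← hg']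
      group
    exact congrArg Subtype.val this
  · exact ⟨e.symm (sl2J F), (e.symm (sl2J F)).2, hsq' _ sl2J_mul_self⟩
  · intro a ha haa
    obtain ⟨W, hW, hWX⟩ := sl2_exists_inverter hF _ (hsq a ha haa)
    refine ⟨e.symm W, (e.symm W).2, hsq' _ hW, ?_⟩
    intro x hx hxa
    have h1 : e ⟨x, hx⟩ * e ⟨a, ha⟩ = e ⟨a, ha⟩ * e ⟨x, hx⟩ := by
      rw [← map_mul, ← map_mul]
      congr 1
      exact Subtype.ext hxa
    have h3 := hWX _ h1
    have : e.symm W * ⟨x, hx⟩ * (e.symm W)⁻¹ = (⟨x, hx⟩ : ↥L)⁻¹ := by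
      apply e.injective
      rw [map_mul, map_mul, map_inv, map_inv, e.apply_symm_apply, h3]
    exact congrArg Subtype.val this

/-- the configuration -/
structure Cfg {G : Type*} [Group G] (L₁ L₂ : Subgroup G) (j n : G) : Prop where
  s1 : SLike L₁ j
  s2 : SLike L₂ j
  comm : ∀ x ∈ L₁, ∀ y ∈ L₂, x * y = y * x
  inter : ∀ z ∈ L₁, z ∈ L₂ → z = 1 ∨ z = j
  j1 : j ≠ 1
  jj : j * j = 1
  nn : n * n = j
  n12 : ∀ a ∈ L₁, n * a * n⁻¹ ∈ L₂
  n21 : ∀ b ∈ L₂, n * b * n⁻¹ ∈ L₁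
  cen : ∀ y, y * j = j * y →
    (∃ a ∈ L₁, ∃ b ∈ L₂, y = a * b) ∨ (∃ a ∈ L₁, ∃ b ∈ L₂, y = a * b * n)
  c1 : ∀ a ∈ L₁, a * j = j * a
  c2 : ∀ b ∈ L₂, b * j = j * b

section
variable {G : Type*} [Group G] {L₁ L₂ : Subgroup G} {j n : G}

theorem Cfg.jinv (h : Cfg L₁ L₂ j n) : j⁻¹ = j := inv_eq_of_mul_eq_one_left h.jj

theorem Cfg.nj (h : Cfg L₁ L₂ j n) : n * j = j * n := by rw [← h.nn, mul_assoc]

/-- the coset `L₁L₂n` contains no involution -/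
theorem Cfg.no_invol (h : Cfg L₁ L₂ j n) {a b : G} (ha : a ∈ L₁) (hb : b ∈ L₂) :
    (a * b * n) * (a * b * n) ≠ 1 := by
  intro h1
  have ha' := h.n12 a ha
  have hb' := h.n21 b hb
  set a' := n * a * n⁻¹ with ha'def
  set b' := n * b * n⁻¹ with hb'def
  have e1 : (a * b * n) * (a * b * n) = (a * b') * (b * a') * j := by
    calc (a * b * n) * (a * b * n) = a * b * (n * a * n⁻¹) * (n * b * n⁻¹) * (n * n) := by group
      _ = a * (b * a' * b') * j := by rw [h.nn, ← ha'def, ← hb'def]; group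
      _ = a * (b' * (b * a')) * j := by rw [h.comm b' hb' (b * a') (L₂.mul_mem hb ha')]
      _ = (a * b') * (b * a') * j := by group
  rw [e1] at h1
  have hu : a * b' ∈ L₁ := L₁.mul_mem ha hb'
  have hv : b * a' ∈ L₂ := L₂.mul_mem hb ha'
  have hu2 : a * b' ∈ L₂ := by
    have : a * b' = (b * a' * j)⁻¹ := by
      rw [eq_inv_iff_mul_eq_one, ← mul_assoc]; exact h1
    rw [this]
    exact L₂.inv_mem (L₂.mul_mem hv h.s2.jL)
  have hnb' : n * b' * n⁻¹ = b := by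
    calc n * b' * n⁻¹ = (n * n) * b * (n * n)⁻¹ := by rw [hb'def]; group
      _ = (j * b) * j⁻¹ := by rw [h.nn]
      _ = b := by rw [← h.c2 b hb]; group
  have hnu : n * (a * b') * n⁻¹ = a' * b := by
    calc n * (a * b') * n⁻¹ = (n * a * n⁻¹) * (n * b' * n⁻¹) := by group
      _ = a' * b := by rw [hnb']
  have hcases : (a * b') * (b * a') * j = j := by
    rcases h.inter _ hu hu2 with hu1 | hu1
    · rw [hu1] at hnu
      have h3 : a' * b = 1 := by rw [← hnu]; group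
      have h4 : b * a' = 1 := by
        calc b * a' = b * (a' * b) * b⁻¹ := by group
          _ = 1 := by rw [h3]; group
      rw [hu1, h4]; group
    · rw [hu1] at hnu
      have h3 : a' * b = j := by
        rw [← hnu, h.nj]; group
      have h4 : b * a' = j := by
        calc b * a' = b * (a' * b) * b⁻¹ := by group
          _ = (b * j) * b⁻¹ := by rw [h3]
          _ = j := by rw [h.c2 b hb]; group
      rw [hu1, h4, h.jj, one_mul]
  rw [hcases] at h1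
  exact h.j1 h1

/-- the involutions of `C(j)` -/
theorem Cfg.invol (h : Cfg L₁ L₂ j n) {y : G} (hyj : y * j = j * y) (hyy : y * y = 1)
    (hy1 : y ≠ 1) : y = j ∨ ∃ a ∈ L₁, ∃ b ∈ L₂, a * a = j ∧ b * b = j ∧ y = a * b := by
  rcases h.cen y hyj with ⟨a, ha, b, hb, rfl⟩ | ⟨a, ha, b, hb, rfl⟩
  · have e1 : (a * a) * (b * b) = 1 := by
      calc (a * a) * (b * b) = a * (a * b) * b := by group
        _ = a * (b * a) * b := by rw [h.comm a ha b hb]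
        _ = a * b * (a * b) := by group
        _ = 1 := hyy
    have h2 : a * a ∈ L₂ := by
      have : a * a = (b * b)⁻¹ := eq_inv_of_mul_eq_one_left e1
      rw [this]; exact L₂.inv_mem (L₂.mul_mem hb hb)
    rcases h.inter _ (L₁.mul_mem ha ha) h2 with e | e
    · have e' : b * b = 1 := by rw [e, one_mul] at e1; exact e1
      left
      rcases h.s1.sq a ha e with r | r <;> rcases h.s2.sq b hb e' with r' | r'
      · exfalso; apply hy1; rw [r, r', one_mul]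
      · rw [r, r', one_mul]
      · rw [r, r', mul_one]
      · exfalso; apply hy1; rw [r, r', h.jj]
    · right
      refine ⟨a, ha, b, hb, e, ?_, rfl⟩
      rw [e] at e1
      calc b * b = j * (j * (b * b)) := by rw [← mul_assoc, h.jj, one_mul]
        _ = j := by rw [e1, mul_one]
  · exact absurd hyy (h.no_invol ha hb)

/-- the non-central involutions of `C(j)` are conjugate in `C(j)` -/
theorem Cfg.conj_invol (h : Cfg L₁ L₂ j n) {a b a' b' : G} (ha : a ∈ L₁) (hb : b ∈ L₂)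
    (ha' : a' ∈ L₁) (hb' : b' ∈ L₂) (haa : a * a = j) (hbb : b * b = j) (haa' : a' * a' = j)
    (hbb' : b' * b' = j) : ∃ k : G, k * j * k⁻¹ = j ∧ k * (a * b) * k⁻¹ = a' * b' := by
  obtain ⟨x, hx, hxa⟩ := h.s1.conj a ha a' ha' haa haa'
  obtain ⟨y, hy, hyb⟩ := h.s2.conj b hb b' hb' hbb hbb'
  refine ⟨x * y, ?_, ?_⟩
  · calc x * y * j * (x * y)⁻¹ = x * ((y * j) * y⁻¹) * x⁻¹ := by group
      _ = x * ((j * y) * y⁻¹) * x⁻¹ := by rw [h.c2 y hy]
      _ = (x * j) * x⁻¹ := by group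
      _ = (j * x) * x⁻¹ := by rw [h.c1 x hx]
      _ = j := by group
  · calc x * y * (a * b) * (x * y)⁻¹ = x * (y * a) * b * y⁻¹ * x⁻¹ := by group
      _ = x * (a * y) * b * y⁻¹ * x⁻¹ := by rw [h.comm a ha y hy]
      _ = x * a * ((y * b * y⁻¹) * x⁻¹) := by group
      _ = x * a * (x⁻¹ * (y * b * y⁻¹)) := by
          rw [h.comm x⁻¹ (L₁.inv_mem hx) (y * b * y⁻¹) (by rw [hyb]; exact hb')]
      _ = (x * a * x⁻¹) * (y * b * y⁻¹) := by group
      _ = a' * b' := by rw [hxa, hyb]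


/-- a conjugate `t ≠ j` of `j` commuting with `j` can be interchanged with `j` -/
theorem Cfg.exists_swap (h : Cfg L₁ L₂ j n) {g : G} (hcomm : (g * j * g⁻¹) * j = j * (g * j * g⁻¹))
    (hne : g * j * g⁻¹ ≠ j) :
    ∃ σ : G, σ * j * σ⁻¹ = g * j * g⁻¹ ∧ σ * (g * j * g⁻¹) * σ⁻¹ = j := by
  set t := g * j * g⁻¹ with ht
  have htt : t * t = 1 := by
    calc t * t = g * (j * j) * g⁻¹ := by rw [ht]; group
      _ = 1 := by rw [h.jj]; group
  have ht1 : t ≠ 1 := by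
    intro h1
    apply h.j1
    calc j = g⁻¹ * t * g := by rw [ht]; group
      _ = 1 := by rw [h1]; group
  -- `s = g⁻¹ j g`
  set s := g⁻¹ * j * g with hs
  have hss : s * s = 1 := by
    calc s * s = g⁻¹ * (j * j) * g := by rw [hs]; group
      _ = 1 := by rw [h.jj]; group
  have hs1 : s ≠ 1 := by
    intro h1
    apply h.j1
    calc j = g * s * g⁻¹ := by rw [hs]; group
      _ = 1 := by rw [h1]; group
  have hsj : s * j = j * s := by
    calc s * j = g⁻¹ * (j * t) * g := by rw [hs, ht]; group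
      _ = g⁻¹ * (t * j) * g := by rw [hcomm]
      _ = j * s := by rw [hs, ht]; group
  have hsne : s ≠ j := by
    intro h1
    apply hne
    calc t = g * s * g⁻¹ := by rw [h1]
      _ = j := by rw [hs]; group
  rcases h.invol hcomm htt ht1 with h1 | ⟨a, ha, b, hb, haa, hbb, hab⟩
  · exact absurd h1 hne
  rcases h.invol hsj hss hs1 with h1 | ⟨a', ha', b', hb', haa', hbb', hab'⟩
  · exact absurd h1 hsne
  obtain ⟨k, hkj, hk⟩ := h.conj_invol ha hb ha' hb' haa hbb haa' hbb'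
  refine ⟨g * k, ?_, ?_⟩
  · calc g * k * j * (g * k)⁻¹ = g * (k * j * k⁻¹) * g⁻¹ := by group
      _ = t := by rw [hkj]
  · calc g * k * t * (g * k)⁻¹ = g * (k * t * k⁻¹) * g⁻¹ := by group
      _ = g * s * g⁻¹ := by rw [hab, hk, ← hab']
      _ = j := by rw [hs]; group

/-- involutions commuting with `j` and `t` -/
def Inv (j t y : G) : Prop := y * y = 1 ∧ y ≠ 1 ∧ y * j = j * y ∧ y * t = t * y

/-- products of two such involutions that are not of order at most two -/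
def Aset (j t x : G) : Prop := ∃ y y' : G, Inv j t y ∧ Inv j t y' ∧ x = y * y' ∧ x * x ≠ 1

theorem Inv.conj {j t y σ : G} (hy : Inv j t y) (h1 : σ * j * σ⁻¹ = t) (h2 : σ * t * σ⁻¹ = j) :
    Inv j t (σ * y * σ⁻¹) := by
  obtain ⟨a, b, c, d⟩ := hy
  refine ⟨?_, ?_, ?_, ?_⟩
  · calc σ * y * σ⁻¹ * (σ * y * σ⁻¹) = σ * (y * y) * σ⁻¹ := by group
      _ = 1 := by rw [a]; group
  · intro h
    apply b
    calc y = σ⁻¹ * (σ * y * σ⁻¹) * σ := by group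
      _ = 1 := by rw [h]; group
  · calc σ * y * σ⁻¹ * j = σ * y * σ⁻¹ * (σ * t * σ⁻¹) := by rw [h2]
      _ = σ * (y * t) * σ⁻¹ := by group
      _ = σ * (t * y) * σ⁻¹ := by rw [d]
      _ = (σ * t * σ⁻¹) * (σ * y * σ⁻¹) := by group
      _ = j * (σ * y * σ⁻¹) := by rw [h2]
  · calc σ * y * σ⁻¹ * t = σ * y * σ⁻¹ * (σ * j * σ⁻¹) := by rw [h1]
      _ = σ * (y * j) * σ⁻¹ := by group
      _ = σ * (j * y) * σ⁻¹ := by rw [c]
      _ = (σ * j * σ⁻¹) * (σ * y * σ⁻¹) := by group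
      _ = t * (σ * y * σ⁻¹) := by rw [h1]

theorem Aset.conj {j t x σ : G} (hx : Aset j t x) (h1 : σ * j * σ⁻¹ = t) (h2 : σ * t * σ⁻¹ = j) :
    Aset j t (σ * x * σ⁻¹) := by
  obtain ⟨y, y', hy, hy', rfl, hne⟩ := hx
  refine ⟨_, _, hy.conj h1 h2, hy'.conj h1 h2, by group, ?_⟩
  intro h
  apply hne
  calc y * y' * (y * y') = σ⁻¹ * (σ * (y * y') * σ⁻¹ * (σ * (y * y') * σ⁻¹)) * σ := by group
    _ = 1 := by rw [h]; group


theorem SLike.eq_or_of_comm {L : Subgroup G} (h : SLike L j) {a a₁ : G}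
    (ha : a ∈ L) (ha₁ : a₁ ∈ L) (haa : a * a = j) (h11 : a₁ * a₁ = j) (hc : a * a₁ = a₁ * a) :
    a = a₁ ∨ a = j * a₁ := by
  have hc' : Commute a a₁⁻¹ := (show Commute a a₁ from hc).inv_right
  have hu : (a * a₁⁻¹) * (a * a₁⁻¹) = 1 := by
    calc (a * a₁⁻¹) * (a * a₁⁻¹) = a * (a₁⁻¹ * a) * a₁⁻¹ := by group
      _ = a * (a * a₁⁻¹) * a₁⁻¹ := by rw [hc'.eq]
      _ = (a * a) * (a₁ * a₁)⁻¹ := by group
      _ = 1 := by rw [haa, h11]; group
  rcases h.sq _ (L.mul_mem ha (L.inv_mem ha₁)) hu with e | e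
  · left
    calc a = (a * a₁⁻¹) * a₁ := by group
      _ = a₁ := by rw [e, one_mul]
  · right
    calc a = (a * a₁⁻¹) * a₁ := by group
      _ = j * a₁ := by rw [e]

theorem inv_eq_mul_j {a j : G} (haa : a * a = j) (hjj : j * j = 1) : a⁻¹ = a * j := by
  apply inv_eq_of_mul_eq_one_right
  rw [← mul_assoc, haa, hjj]

theorem Cfg.inv_cases (h : Cfg L₁ L₂ j n) {a₁ a₂ y : G} (ha₁ : a₁ ∈ L₁) (ha₂ : a₂ ∈ L₂)
    (h11 : a₁ * a₁ = j) (h22 : a₂ * a₂ = j) (hy : Inv j (a₁ * a₂) y) :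
    (y = j ∨ y = a₁ * a₂ ∨ y = j * (a₁ * a₂)) ∨
    ∃ a ∈ L₁, ∃ b ∈ L₂, y = a * b ∧ a * a₁ * a⁻¹ = a₁⁻¹ ∧ b * a₂ * b⁻¹ = a₂⁻¹ := by
  obtain ⟨hyy, hy1, hyj, hyt⟩ := hy
  rcases h.invol hyj hyy hy1 with rfl | ⟨a, ha, b, hb, haa, hbb, rfl⟩
  · left; left; rfl
  have e1 : (a * a₁) * (b * a₂) = (a₁ * a) * (a₂ * b) := by
    calc (a * a₁) * (b * a₂) = a * (a₁ * b) * a₂ := by group
      _ = a * (b * a₁) * a₂ := by rw [h.comm a₁ ha₁ b hb]
      _ = a * b * (a₁ * a₂) := by group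
      _ = a₁ * a₂ * (a * b) := hyt
      _ = a₁ * (a₂ * a) * b := by group
      _ = a₁ * (a * a₂) * b := by rw [h.comm a ha a₂ ha₂]
      _ = (a₁ * a) * (a₂ * b) := by group
  have hε1 : (a₁ * a)⁻¹ * (a * a₁) ∈ L₁ :=
    L₁.mul_mem (L₁.inv_mem (L₁.mul_mem ha₁ ha)) (L₁.mul_mem ha ha₁)
  have hε : (a₁ * a)⁻¹ * (a * a₁) = (a₂ * b) * (b * a₂)⁻¹ := by
    calc (a₁ * a)⁻¹ * (a * a₁) = (a₁ * a)⁻¹ * ((a * a₁) * (b * a₂)) * (b * a₂)⁻¹ := by group
      _ = (a₁ * a)⁻¹ * ((a₁ * a) * (a₂ * b)) * (b * a₂)⁻¹ := by rw [e1]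
      _ = (a₂ * b) * (b * a₂)⁻¹ := by group
  have hε2 : (a₁ * a)⁻¹ * (a * a₁) ∈ L₂ := by
    rw [hε]
    exact L₂.mul_mem (L₂.mul_mem ha₂ hb) (L₂.inv_mem (L₂.mul_mem hb ha₂))
  rcases h.inter _ hε1 hε2 with e | e
  · left; right
    have c1 : a * a₁ = a₁ * a := by
      calc a * a₁ = (a₁ * a) * ((a₁ * a)⁻¹ * (a * a₁)) := by group
        _ = a₁ * a := by rw [e, mul_one]
    have c2 : b * a₂ = a₂ * b := by
      rw [hε] at e
      calc b * a₂ = ((a₂ * b) * (b * a₂)⁻¹)⁻¹ * (a₂ * b) := by group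
        _ = a₂ * b := by rw [e]; group
    rcases h.s1.eq_or_of_comm ha ha₁ haa h11 c1 with r | r <;>
      rcases h.s2.eq_or_of_comm hb ha₂ hbb h22 c2 with r' | r'
    · left; rw [r, r']
    · right; rw [r, r']
      calc a₁ * (j * a₂) = (a₁ * j) * a₂ := by group
        _ = (j * a₁) * a₂ := by rw [h.c1 a₁ ha₁]
        _ = j * (a₁ * a₂) := by group
    · right; rw [r, r']; group
    · left; rw [r, r']
      calc j * a₁ * (j * a₂) = j * (a₁ * j) * a₂ := by group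
        _ = j * (j * a₁) * a₂ := by rw [h.c1 a₁ ha₁]
        _ = (j * j) * (a₁ * a₂) := by group
        _ = a₁ * a₂ := by rw [h.jj, one_mul]
  · right
    refine ⟨a, ha, b, hb, rfl, ?_, ?_⟩
    · rw [inv_eq_mul_j h11 h.jj]
      calc a * a₁ * a⁻¹ = (a₁ * a) * ((a₁ * a)⁻¹ * (a * a₁)) * a⁻¹ := by group
        _ = a₁ * (a * j) * a⁻¹ := by rw [e]; group
        _ = a₁ * (j * a) * a⁻¹ := by rw [h.c1 a ha]
        _ = a₁ * j := by group
    · rw [hε] at e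
      rw [inv_eq_mul_j h22 h.jj]
      calc b * a₂ * b⁻¹ = ((a₂ * b) * (b * a₂)⁻¹)⁻¹ * (a₂ * b) * b⁻¹ := by group
        _ = j * a₂ := by rw [e, h.jinv]; group
        _ = a₂ * j := (h.c2 a₂ ha₂).symm

/-- Claim A -/
theorem Cfg.aset_decomp (h : Cfg L₁ L₂ j n) {a₁ a₂ x : G} (ha₁ : a₁ ∈ L₁) (ha₂ : a₂ ∈ L₂)
    (h11 : a₁ * a₁ = j) (h22 : a₂ * a₂ = j) (hx : Aset j (a₁ * a₂) x) :
    ∃ x₁ ∈ L₁, ∃ x₂ ∈ L₂, x₁ * a₁ = a₁ * x₁ ∧ x₂ * a₂ = a₂ * x₂ ∧ x = x₁ * x₂ := by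
  obtain ⟨y, y', hy, hy', rfl, hne⟩ := hx
  have key : ∀ u v : G, u * u = 1 → v * v = 1 → u * v = v * u → u * v * (u * v) = 1 := by
    intro u v hu hv huv
    calc u * v * (u * v) = u * (v * u) * v := by group
      _ = u * (u * v) * v := by rw [huv]
      _ = (u * u) * (v * v) := by group
      _ = 1 := by rw [hu, hv, one_mul]
  have hcen : ∀ u v : G, Inv j (a₁ * a₂) v → (u = j ∨ u = a₁ * a₂ ∨ u = j * (a₁ * a₂)) →
      v * u = u * v := by
    intro u v hv hu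
    rcases hu with rfl | rfl | rfl
    · exact hv.2.2.1
    · exact hv.2.2.2
    · calc v * (j * (a₁ * a₂)) = (v * j) * (a₁ * a₂) := by group
        _ = j * (v * (a₁ * a₂)) := by rw [hv.2.2.1]; group
        _ = j * (a₁ * a₂) * v := by rw [hv.2.2.2]; group
  rcases h.inv_cases ha₁ ha₂ h11 h22 hy with c | ⟨a, ha, b, hb, rfl, hai, hbi⟩
  · exact absurd (key y y' hy.1 hy'.1 (hcen y y' hy' c).symm) hne
  rcases h.inv_cases ha₁ ha₂ h11 h22 hy' with c | ⟨a', ha', b', hb', rfl, hai', hbi'⟩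
  · exact absurd (key _ y' hy.1 hy'.1 (hcen y' _ hy c)) hne
  refine ⟨a * a', L₁.mul_mem ha ha', b * b', L₂.mul_mem hb hb', ?_, ?_, ?_⟩
  · have e1 : a' * a₁ = a₁⁻¹ * a' := by
      calc a' * a₁ = (a' * a₁ * a'⁻¹) * a' := by group
        _ = a₁⁻¹ * a' := by rw [hai']
    have e2 : a * a₁⁻¹ = a₁ * a := by
      calc a * a₁⁻¹ = (a * a₁ * a⁻¹)⁻¹ * a := by group
        _ = a₁ * a := by rw [hai, inv_inv]
    calc a * a' * a₁ = a * (a' * a₁) := by group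
      _ = (a * a₁⁻¹) * a' := by rw [e1]; group
      _ = a₁ * (a * a') := by rw [e2]; group
  · have e1 : b' * a₂ = a₂⁻¹ * b' := by
      calc b' * a₂ = (b' * a₂ * b'⁻¹) * b' := by group
        _ = a₂⁻¹ * b' := by rw [hbi']
    have e2 : b * a₂⁻¹ = a₂ * b := by
      calc b * a₂⁻¹ = (b * a₂ * b⁻¹)⁻¹ * b := by group
        _ = a₂ * b := by rw [hbi, inv_inv]
    calc b * b' * a₂ = b * (b' * a₂) := by group
      _ = (b * a₂⁻¹) * b' := by rw [e1]; group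
      _ = a₂ * (b * b') := by rw [e2]; group
  · calc a * b * (a' * b') = a * (b * a') * b' := by group
      _ = a * (a' * b) * b' := by rw [h.comm a' ha' b hb]
      _ = a * a' * (b * b') := by group


theorem Cfg.inv_of_inverting (h : Cfg L₁ L₂ j n) {a₁ a₂ u v : G} (ha₁ : a₁ ∈ L₁) (ha₂ : a₂ ∈ L₂)
    (h11 : a₁ * a₁ = j) (h22 : a₂ * a₂ = j) (hu : u ∈ L₁) (hv : v ∈ L₂) (huu : u * u = j)
    (hvv : v * v = j) (hua : u * a₁ * u⁻¹ = a₁⁻¹) (hva : v * a₂ * v⁻¹ = a₂⁻¹) :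
    Inv j (a₁ * a₂) (u * v) := by
  refine ⟨?_, ?_, ?_, ?_⟩
  · calc u * v * (u * v) = u * (v * u) * v := by group
      _ = u * (u * v) * v := by rw [h.comm u hu v hv]
      _ = (u * u) * (v * v) := by group
      _ = 1 := by rw [huu, hvv, h.jj]
  · intro e
    have hu2 : u ∈ L₂ := by
      have : u = v⁻¹ := eq_inv_of_mul_eq_one_left e
      rw [this]; exact L₂.inv_mem hv
    rcases h.inter u hu hu2 with r | r
    · rw [r, one_mul] at huu; exact h.j1 huu.symm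
    · rw [r, h.jj] at huu; exact h.j1 huu.symm
  · calc u * v * j = u * (v * j) := by group
      _ = (u * j) * v := by rw [h.c2 v hv]; group
      _ = j * (u * v) := by rw [h.c1 u hu]; group
  · have e1 : u * a₁ = a₁⁻¹ * u := by
      calc u * a₁ = (u * a₁ * u⁻¹) * u := by group
        _ = a₁⁻¹ * u := by rw [hua]
    have e2 : v * a₂ = a₂⁻¹ * v := by
      calc v * a₂ = (v * a₂ * v⁻¹) * v := by group
        _ = a₂⁻¹ * v := by rw [hva]
    have e3 : a₁⁻¹ * a₂⁻¹ = a₁ * a₂ := by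
      rw [inv_eq_mul_j h11 h.jj, inv_eq_mul_j h22 h.jj]
      calc a₁ * j * (a₂ * j) = a₁ * (j * a₂) * j := by group
        _ = a₁ * (a₂ * j) * j := by rw [h.c2 a₂ ha₂]
        _ = a₁ * a₂ * (j * j) := by group
        _ = a₁ * a₂ := by rw [h.jj, mul_one]
    calc u * v * (a₁ * a₂) = u * (v * a₁) * a₂ := by group
      _ = u * (a₁ * v) * a₂ := by rw [h.comm a₁ ha₁ v hv]
      _ = (u * a₁) * (v * a₂) := by group
      _ = a₁⁻¹ * (u * a₂⁻¹) * v := by rw [e1, e2]; group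
      _ = a₁⁻¹ * (a₂⁻¹ * u) * v := by rw [h.comm u hu a₂⁻¹ (L₂.inv_mem ha₂)]
      _ = (a₁⁻¹ * a₂⁻¹) * (u * v) := by group
      _ = a₁ * a₂ * (u * v) := by rw [e3]

/-- Claim B -/
theorem Cfg.aset_of_comm (h : Cfg L₁ L₂ j n) {a₁ a₂ x₁ : G} (ha₁ : a₁ ∈ L₁) (ha₂ : a₂ ∈ L₂)
    (h11 : a₁ * a₁ = j) (h22 : a₂ * a₂ = j) (hx : x₁ ∈ L₁) (hxa : x₁ * a₁ = a₁ * x₁)
    (hne : x₁ * x₁ ≠ 1) : Aset j (a₁ * a₂) x₁ := by
  obtain ⟨w₁, hw₁, hww₁, hi₁⟩ := h.s1.inv a₁ ha₁ h11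
  obtain ⟨w₂, hw₂, hww₂, hi₂⟩ := h.s2.inv a₂ ha₂ h22
  have hinv : ∀ w a : G, w * a * w⁻¹ = a⁻¹ → w⁻¹ * a * w⁻¹⁻¹ = a⁻¹ := by
    intro w a hw
    calc w⁻¹ * a * w⁻¹⁻¹ = w⁻¹ * (a⁻¹)⁻¹ * w := by group
      _ = w⁻¹ * (w * a * w⁻¹)⁻¹ * w := by rw [hw]
      _ = a⁻¹ := by group
  have hsqi : ∀ w : G, w * w = j → w⁻¹ * w⁻¹ = j := by
    intro w hw
    calc w⁻¹ * w⁻¹ = (w * w)⁻¹ := by group
      _ = j := by rw [hw, h.jinv]
  refine ⟨x₁ * w₁ * w₂, w₁⁻¹ * w₂⁻¹,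
    h.inv_of_inverting ha₁ ha₂ h11 h22 (L₁.mul_mem hx hw₁) hw₂ ?_ hww₂ ?_ (hi₂ a₂ ha₂ rfl),
    h.inv_of_inverting ha₁ ha₂ h11 h22 (L₁.inv_mem hw₁) (L₂.inv_mem hw₂) (hsqi _ hww₁)
      (hsqi _ hww₂) (hinv _ _ (hi₁ a₁ ha₁ rfl)) (hinv _ _ (hi₂ a₂ ha₂ rfl)), ?_, hne⟩
  · calc x₁ * w₁ * (x₁ * w₁) = x₁ * (w₁ * x₁ * w₁⁻¹) * (w₁ * w₁) := by group
      _ = j := by rw [hi₁ x₁ hx hxa, hww₁]; group
  · calc x₁ * w₁ * a₁ * (x₁ * w₁)⁻¹ = x₁ * (w₁ * a₁ * w₁⁻¹) * x₁⁻¹ := by group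
      _ = (x₁ * a₁ * x₁⁻¹)⁻¹ := by rw [hi₁ a₁ ha₁ rfl]; group
      _ = a₁⁻¹ := by rw [hxa]; group
  · calc x₁ = x₁ * w₁ * (w₁⁻¹ * w₂) * w₂⁻¹ := by group
      _ = x₁ * w₁ * (w₂ * w₁⁻¹) * w₂⁻¹ := by rw [h.comm w₁⁻¹ (L₁.inv_mem hw₁) w₂ hw₂]
      _ = x₁ * w₁ * w₂ * (w₁⁻¹ * w₂⁻¹) := by group

theorem Cfg.height (h : Cfg L₁ L₂ j n) {a₁ a₂ σ : G} (ha₁ : a₁ ∈ L₁) (ha₂ : a₂ ∈ L₂)
    (h11 : a₁ * a₁ = j) (h22 : a₂ * a₂ = j) (hσ1 : σ * j * σ⁻¹ = a₁ * a₂)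
    (hσ2 : σ * (a₁ * a₂) * σ⁻¹ = j) (k : ℕ) :
    ∃ x, Aset j (a₁ * a₂) x ∧ x ^ (2 ^ (k + 1)) = j := by
  induction k with
  | zero =>
    exact ⟨a₁, h.aset_of_comm ha₁ ha₂ h11 h22 ha₁ rfl (by rw [h11]; exact h.j1),
      by simp [pow_two, h11]⟩
  | succ k ih =>
    obtain ⟨x, hx, hxk⟩ := ih
    have hx' := hx.conj hσ1 hσ2
    have hxk' : (σ * x * σ⁻¹) ^ (2 ^ (k + 1)) = a₁ * a₂ := by rw [conj_pow, hxk, hσ1]
    obtain ⟨x₁, hx₁, x₂, hx₂, c1, c2, e⟩ := h.aset_decomp ha₁ ha₂ h11 h22 hx'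
    have hcm : Commute x₁ x₂ := h.comm x₁ hx₁ x₂ hx₂
    rw [e, hcm.mul_pow] at hxk'
    set m := 2 ^ (k + 1) with hm
    have hc1 : a₁⁻¹ * x₁ ^ m ∈ L₁ := L₁.mul_mem (L₁.inv_mem ha₁) (L₁.pow_mem hx₁ m)
    have hce : a₁⁻¹ * x₁ ^ m = a₂ * (x₂ ^ m)⁻¹ := by
      calc a₁⁻¹ * x₁ ^ m = a₁⁻¹ * (x₁ ^ m * x₂ ^ m) * (x₂ ^ m)⁻¹ := by group
        _ = a₂ * (x₂ ^ m)⁻¹ := by rw [hxk']; group
    have hc2 : a₁⁻¹ * x₁ ^ m ∈ L₂ := by
      rw [hce]; exact L₂.mul_mem ha₂ (L₂.inv_mem (L₂.pow_mem hx₂ m))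
    have hsq : x₁ ^ m * x₁ ^ m = j := by
      rcases h.inter _ hc1 hc2 with r | r
      · have : x₁ ^ m = a₁ := by
          calc x₁ ^ m = a₁ * (a₁⁻¹ * x₁ ^ m) := by group
            _ = a₁ := by rw [r, mul_one]
        rw [this, h11]
      · have : x₁ ^ m = a₁ * j := by
          calc x₁ ^ m = a₁ * (a₁⁻¹ * x₁ ^ m) := by group
            _ = a₁ * j := by rw [r]
        rw [this]
        calc a₁ * j * (a₁ * j) = a₁ * (j * a₁) * j := by group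
          _ = a₁ * (a₁ * j) * j := by rw [h.c1 a₁ ha₁]
          _ = (a₁ * a₁) * (j * j) := by group
          _ = j := by rw [h11, h.jj, mul_one]
    refine ⟨x₁, h.aset_of_comm ha₁ ha₂ h11 h22 hx₁ c1 ?_, ?_⟩
    · intro h1
      have : x₁ ^ m = 1 := by
        rw [hm, pow_succ', pow_mul, pow_two, h1, one_pow]
      rw [this, one_mul] at hsq
      exact h.j1 hsq.symm
    · rw [pow_succ, pow_mul, ← hm, pow_two, hsq]

/-- `j` is the only conjugate of `j` commuting with `j` -/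
theorem Cfg.isolated [Finite G] (h : Cfg L₁ L₂ j n) (g : G)
    (hcomm : (g * j * g⁻¹) * j = j * (g * j * g⁻¹)) : g * j * g⁻¹ = j := by
  by_contra hne
  obtain ⟨σ, hσ1, hσ2⟩ := h.exists_swap hcomm hne
  have htt : (g * j * g⁻¹) * (g * j * g⁻¹) = 1 := by
    calc (g * j * g⁻¹) * (g * j * g⁻¹) = g * (j * j) * g⁻¹ := by group
      _ = 1 := by rw [h.jj]; group
  have ht1 : g * j * g⁻¹ ≠ 1 := by
    intro h1
    apply h.j1
    calc j = g⁻¹ * (g * j * g⁻¹) * g := by group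
      _ = 1 := by rw [h1]; group
  rcases h.invol hcomm htt ht1 with e | ⟨a₁, ha₁, a₂, ha₂, h11, h22, e⟩
  · exact hne e
  rw [e] at hσ1 hσ2
  obtain ⟨x, -, hx⟩ := h.height ha₁ ha₂ h11 h22 hσ1 hσ2 (Nat.card G)
  haveI : Fact (Nat.Prime 2) := ⟨Nat.prime_two⟩
  have ho : orderOf x = 2 ^ (Nat.card G + 1 + 1) :=
    orderOf_eq_prime_pow (by rw [hx]; exact h.j1) (by rw [pow_succ, pow_mul, hx, pow_two, h.jj])
  have h1 := orderOf_le_card (x := x)
  have h2 : Nat.card G < 2 ^ (Nat.card G) := Nat.lt_two_pow_self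
  have h3 : 2 ^ (Nat.card G) ≤ 2 ^ (Nat.card G + 1 + 1) := Nat.pow_le_pow_right (by norm_num) (by omega)
  omega


/-- descent in a dihedral 2-group -/
theorem sq_eq_one_of_inverted {u r : G} (huu : u * u = 1)
    (hiso : ∀ g : G, (g * u * g⁻¹) * u = u * (g * u * g⁻¹) → g * u * g⁻¹ = u)
    (hr : u * r * u⁻¹ = r⁻¹) (m : ℕ) (hm : r ^ (2 ^ (m + 1)) = 1) : r * r = 1 := by
  induction m with
  | zero => simpa [pow_two] using hm
  | succ m ih =>
    apply ih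
    obtain ⟨h, hh⟩ : ∃ h, h = r ^ (2 ^ m) := ⟨_, rfl⟩
    have hui : u⁻¹ = u := inv_eq_of_mul_eq_one_left huu
    have h4 : h * h * (h * h) = 1 := by
      calc h * h * (h * h) = h ^ (2 * 2) := by rw [pow_mul, pow_two, pow_two]
        _ = r ^ (2 ^ (m + 1 + 1)) := by rw [hh, ← pow_mul, pow_succ, pow_succ, mul_assoc]
        _ = 1 := hm
    have huh : u * h * u⁻¹ = h⁻¹ := by rw [hh, ← conj_pow, hr, inv_pow]
    have e1 : h * u * h⁻¹ = h * h * u := by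
      calc h * u * h⁻¹ = h * (u * h * u⁻¹)⁻¹ * u := by group
        _ = h * h * u := by rw [huh, inv_inv]
    have e2 : (h * u * h⁻¹) * u = u * (h * u * h⁻¹) := by
      rw [e1]
      calc h * h * u * u = h * h * (u * u) := by group
        _ = (h * h * (h * h)) * (h⁻¹ * h⁻¹) := by rw [huu, mul_one]; simp [mul_assoc]
        _ = (u * h * u⁻¹) * (u * h * u⁻¹) := by rw [h4, huh, one_mul]
        _ = u * (h * h * u⁻¹) := by group
        _ = u * (h * h * u) := by rw [hui]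
    have e3 := hiso h e2
    rw [e1] at e3
    have e4 : h * h = 1 := by
      calc h * h = (h * h * u) * u⁻¹ := by group
        _ = 1 := by rw [e3]; group
    rw [pow_succ, pow_mul, ← hh, pow_two, e4]

theorem isolated_in_two_group {u : G} (huu : u * u = 1)
    (hiso : ∀ g : G, (g * u * g⁻¹) * u = u * (g * u * g⁻¹) → g * u * g⁻¹ = u)
    (P : Subgroup G) (hP : IsPGroup 2 P) (hu : u ∈ P) (g : G) (hg : g * u * g⁻¹ ∈ P) :
    g * u * g⁻¹ = u := by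
  apply hiso
  set v := g * u * g⁻¹ with hv
  have hvv : v * v = 1 := by
    calc v * v = g * (u * u) * g⁻¹ := by rw [hv]; group
      _ = 1 := by rw [huu]; group
  have hui : u⁻¹ = u := inv_eq_of_mul_eq_one_left huu
  have hvi : v⁻¹ = v := inv_eq_of_mul_eq_one_left hvv
  obtain ⟨k, hk⟩ := hP ⟨u * v, P.mul_mem hu hg⟩
  have hk' : (u * v) ^ (2 ^ k) = 1 := by
    have := congrArg Subtype.val hk
    simpa using this
  have hk2 : (u * v) ^ (2 ^ (k + 1)) = 1 := by rw [pow_succ, pow_mul, hk', one_pow]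
  have hr : u * (u * v) * u⁻¹ = (u * v)⁻¹ := by
    rw [mul_inv_rev, hui, hvi, ← mul_assoc, huu, one_mul]
  have h1 := sq_eq_one_of_inverted huu hiso hr k hk2
  calc v * u = (u * u) * (v * u) * (v * v) := by rw [huu, hvv, one_mul, mul_one]
    _ = u * (u * v * (u * v)) * v := by group
    _ = u * v := by rw [h1, mul_one]

theorem sup_oddCore_eq_top [Finite G] (hjj : j * j = 1) (N : Subgroup G)
    (hN : N.Normal) (hodd : Odd (Nat.card N)) (hcomm : ∀ g : G, j * g * j⁻¹ * g⁻¹ ∈ N) :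
    Subgroup.centralizer ({j} : Set G) ⊔ Cfsg.oddCore G = ⊤ := by
  have hle : N ≤ Cfsg.oddCore G :=
    Cfsg.Agent.Lib.Lead.le_pPrimeCore hN (Nat.coprime_two_right.2 hodd)
  have hji : j⁻¹ = j := inv_eq_of_mul_eq_one_left hjj
  rw [eq_top_iff]
  intro g _
  set ν := j * g * j⁻¹ * g⁻¹ with hν
  have hνN : ν ∈ N := hcomm g
  have hinv : j * ν * j⁻¹ = ν⁻¹ := by
    calc j * ν * j⁻¹ = (j * j) * g * j⁻¹ * g⁻¹ * j⁻¹ := by rw [hν]; group
      _ = g * j * g⁻¹ * j⁻¹ := by rw [hjj, hji]; group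
      _ = ν⁻¹ := by rw [hν]; group
  have hoν : Odd (orderOf ν) := by
    have h1 : orderOf ν ∣ Nat.card N := by
      have := orderOf_dvd_natCard (⟨ν, hνN⟩ : N)
      rwa [← Subgroup.orderOf_coe] at this
    exact Odd.of_dvd_nat hodd h1
  obtain ⟨k, hk⟩ := hoν
  set μ := ν ^ (k + 1) with hμ
  have hμN : μ ∈ N := N.pow_mem hνN _
  have hμμ : μ * μ = ν := by
    calc μ * μ = ν ^ (2 * k + 1) * ν := by rw [hμ]; group
      _ = ν := by rw [← hk, pow_orderOf_eq_one, one_mul]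
  have hμi : j * μ * j⁻¹ = μ⁻¹ := by rw [hμ, ← conj_pow, hinv, inv_pow]
  have hcen : μ * g ∈ Subgroup.centralizer ({j} : Set G) := by
    rw [Subgroup.mem_centralizer_singleton_iff]
    have e1 : j * μ = μ⁻¹ * j := by
      calc j * μ = (j * μ * j⁻¹) * j := by group
        _ = μ⁻¹ * j := by rw [hμi]
    have e2 : ν * g = j * g * j := by
      rw [hν, hji]; group
    calc μ * g * j = μ⁻¹ * (μ * μ) * g * j := by group
      _ = μ⁻¹ * (ν * g) * j := by rw [hμμ]; group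
      _ = μ⁻¹ * j * g * (j * j) := by rw [e2]; group
      _ = j * (μ * g) := by rw [hjj, ← e1]; group
  have : g = μ⁻¹ * (μ * g) := by group
  rw [this]
  exact mul_mem (le_sup_right (a := Subgroup.centralizer ({j} : Set G)) (hle (N.inv_mem hμN)))
    (le_sup_left (b := Cfsg.oddCore G) hcen)

end

/-- Let G be a finite group with subgroups L₁ ≅ SL₂(q₁) and L₂ ≅ SL₂(q₂), q₁ and q₂ odd prime powers, which commute elementwise and meet in ⟨j⟩ for an involution j, and suppose L₁L₂ has index 2 in C_G(j). If some n ∈ C_G(j) with n² = j interchanges L₁ and L₂ under conjugation (so that C_G(j) = L₁L₂⟨n⟩), then G = C_G(j)O(G). -/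
theorem result {G : Type*} [Group G] [Finite G]
    {F₁ : Type*} [Field F₁] [Fintype F₁] {F₂ : Type*} [Field F₂] [Fintype F₂]
    (hF₁ : Odd (Fintype.card F₁)) (hF₂ : Odd (Fintype.card F₂)) (L₁ L₂ : Subgroup G)
    (e₁ : ↥L₁ ≃* Matrix.SpecialLinearGroup (Fin 2) F₁) (e₂ : ↥L₂ ≃* Matrix.SpecialLinearGroup (Fin 2) F₂)
    (hc : ∀ x ∈ L₁, ∀ y ∈ L₂, x * y = y * x) (j : G) (hj : orderOf j = 2) (hm : L₁ ⊓ L₂ = Subgroup.zpowers j)
    (hle : L₁ ⊔ L₂ ≤ Subgroup.centralizer ({j} : Set G)) (hi : (L₁ ⊔ L₂).relIndex (Subgroup.centralizer ({j} : Set G)) = 2) (n : G) (hn : n ∈ Subgroup.centralizer ({j} : Set G))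
    (hn2 : n ^ 2 = j) (hswap : L₁.map (MulAut.conj n).toMonoidHom = L₂) :
    Subgroup.centralizer ({j} : Set G) ⊔ Cfsg.oddCore G = ⊤ := by
  haveI : Fact (Nat.Prime 2) := ⟨Nat.prime_two⟩
  have hjj : j * j = 1 := by
    have h := pow_orderOf_eq_one j
    rw [hj, pow_two] at h
    exact h
  have hj1 : j ≠ 1 := by
    rintro rfl
    simp at hj
  have hjm : j ∈ L₁ ⊓ L₂ := by rw [hm]; exact Subgroup.mem_zpowers j
  have s1 := sLike_of_equiv hF₁ L₁ e₁ j hjm.1 hj1 hjj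
  have s2 := sLike_of_equiv hF₂ L₂ e₂ j hjm.2 hj1 hjj
  have hinter : ∀ z ∈ L₁, z ∈ L₂ → z = 1 ∨ z = j := by
    intro z h1 h2
    have hz : z ∈ Subgroup.zpowers j := by rw [← hm]; exact ⟨h1, h2⟩
    obtain ⟨k, rfl⟩ := Subgroup.mem_zpowers_iff.1 hz
    have h22 : j ^ (2 : ℤ) = 1 := by rw [zpow_two, hjj]
    rcases Int.even_or_odd' k with ⟨c, rfl | rfl⟩
    · left; rw [zpow_mul, h22, one_zpow]
    · right; rw [zpow_add, zpow_mul, h22, one_zpow, one_mul, zpow_one]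
  have hc1 : ∀ a ∈ L₁, a * j = j * a := by
    intro a ha
    exact Subgroup.mem_centralizer_singleton_iff.1 (hle (le_sup_left (b := L₂) ha))
  have hc2 : ∀ b ∈ L₂, b * j = j * b := by
    intro b hb
    exact Subgroup.mem_centralizer_singleton_iff.1 (hle (le_sup_right (a := L₁) hb))
  have hnn : n * n = j := by rw [← pow_two, hn2]
  have hn12 : ∀ a ∈ L₁, n * a * n⁻¹ ∈ L₂ := by
    intro a ha
    rw [← hswap]
    exact ⟨a, ha, rfl⟩
  have hn21 : ∀ b ∈ L₂, n * b * n⁻¹ ∈ L₁ := by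
    intro b hb
    rw [← hswap] at hb
    obtain ⟨a, ha, rfl⟩ := hb
    have : n * ((MulAut.conj n).toMonoidHom a) * n⁻¹ = a := by
      calc n * ((MulAut.conj n).toMonoidHom a) * n⁻¹ = n * (n * a * n⁻¹) * n⁻¹ := rfl
        _ = (n * n) * a * (n * n)⁻¹ := by group
        _ = (j * a) * j⁻¹ := by rw [hnn]
        _ = a := by rw [← hc1 a ha]; group
    rw [this]; exact ha
  have hnK : n ∉ L₁ ⊔ L₂ := by
    intro hnK
    obtain ⟨a, ha, b, hb, rfl⟩ := Cfsg.Agent.S3209.mem_sup_of_comm hc hnK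
    obtain ⟨s, hs, hss⟩ := s2.ne
    have hs1 : s ∈ L₁ := by
      rw [← hswap] at hs
      obtain ⟨x, hx, rfl⟩ := hs
      have : (MulAut.conj (a * b)).toMonoidHom x = a * x * a⁻¹ := by
        calc (MulAut.conj (a * b)).toMonoidHom x = a * b * x * (a * b)⁻¹ := rfl
          _ = a * (b * x) * b⁻¹ * a⁻¹ := by group
          _ = a * (x * b) * b⁻¹ * a⁻¹ := by rw [hc x hx b hb]
          _ = a * x * a⁻¹ := by group
      rw [this]
      exact L₁.mul_mem (L₁.mul_mem ha hx) (L₁.inv_mem ha)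
    rcases hinter s hs1 hs with r | r
    · rw [r, one_mul] at hss; exact hj1 hss.symm
    · rw [r, hjj] at hss; exact hj1 hss.symm
  have hcen : ∀ y, y * j = j * y →
      (∃ a ∈ L₁, ∃ b ∈ L₂, y = a * b) ∨ (∃ a ∈ L₁, ∃ b ∈ L₂, y = a * b * n) := by
    intro y hy
    have hyC : y ∈ Subgroup.centralizer ({j} : Set G) := Subgroup.mem_centralizer_singleton_iff.2 hy
    by_cases hyK : y ∈ L₁ ⊔ L₂
    · left; exact Cfsg.Agent.S3209.mem_sup_of_comm hc hyK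
    · right
      have hidx : ((L₁ ⊔ L₂).subgroupOf (Subgroup.centralizer ({j} : Set G))).index = 2 := hi
      have h1 := Subgroup.mul_mem_iff_of_index_two hidx
        (a := (⟨y, hyC⟩ : ↥(Subgroup.centralizer ({j} : Set G))))
        (b := (⟨n, hn⟩ : ↥(Subgroup.centralizer ({j} : Set G)))⁻¹)
      have h2 : y * n⁻¹ ∈ L₁ ⊔ L₂ := by
        have : (⟨y, hyC⟩ : ↥(Subgroup.centralizer ({j} : Set G))) *
            (⟨n, hn⟩ : ↥(Subgroup.centralizer ({j} : Set G)))⁻¹ ∈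
            (L₁ ⊔ L₂).subgroupOf (Subgroup.centralizer ({j} : Set G)) := by
          rw [h1, inv_mem_iff]
          constructor
          · intro h; exact absurd (Subgroup.mem_subgroupOf.1 h) hyK
          · intro h; exact absurd (Subgroup.mem_subgroupOf.1 h) hnK
        exact Subgroup.mem_subgroupOf.1 this
      obtain ⟨a, ha, b, hb, hab⟩ := Cfsg.Agent.S3209.mem_sup_of_comm hc h2
      refine ⟨a, ha, b, hb, ?_⟩
      rw [← hab]; group
  have cfg : Cfg L₁ L₂ j n :=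
    ⟨s1, s2, hc, hinter, hj1, hjj, hnn, hn12, hn21, hcen, hc1, hc2⟩
  have hZ : IsPGroup 2 (Subgroup.zpowers j) := by
    apply IsPGroup.of_card (n := 1)
    rw [Nat.card_zpowers, hj, pow_one]
  obtain ⟨P, hP⟩ := hZ.exists_le_sylow
  have hjP : j ∈ (P : Subgroup G) := hP (Subgroup.mem_zpowers j)
  obtain ⟨N, hN, hodd, hcomm⟩ := Cfsg.Agent.S0215.result P j hj hjP
    (fun g hg => isolated_in_two_group hjj cfg.isolated P P.2 hjP g hg)
  exact sup_oddCore_eq_top hjj N hN hodd hcomm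

end Cfsg.Agent.S3211
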