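-- Statement S3213: see Cfsg/Statements/S3213.lean (frozen statement).
import Cfsg.Statements.S3213
import Mathlib

set_option autoImplicit false
open Cfsg Matrix

namespace Cfsg.Agent.S3213


section SL
variable {K : Type*} [Field K]

/-- upper transvection -/
def T (t : K) : Matrix.SpecialLinearGroup (Fin 2) K :=
  ⟨!![1, t; 0, 1], by simp [Matrix.det_fin_two]⟩

theorem T_coe (t : K) : (T t).1 = !![1, t; 0, 1] := rfl

theorem T_mul (s t : K) : T s * T t = T (s + t) := by
  apply Subtype.ext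
  show (T s).1 * (T t).1 = (T (s + t)).1
  simp only [T_coe]
  rw [Matrix.mul_fin_two]
  congr 1
  ext i j; fin_cases i <;> fin_cases j <;> simp [add_comm]

theorem T_zero : T (0 : K) = 1 := by
  apply Subtype.ext
  show (T (0:K)).1 = 1
  rw [T_coe]
  exact Matrix.one_fin_two.symm

theorem T_inv (t : K) : (T t)⁻¹ = T (-t) := by
  rw [inv_eq_iff_mul_eq_one, T_mul, add_neg_cancel, T_zero]

theorem T_pow5 (t : K) (h5 : (5 : K) = 0) : T t ^ 5 = 1 := by
  have : T t ^ 5 = T (5 * t) := by
    simp only [pow_succ, pow_zero, one_mul, T_mul]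
    congr 1; ring
  rw [this, h5, zero_mul, T_zero]

theorem T_ne_one {t : K} (ht : t ≠ 0) : T t ≠ 1 := by
  intro h
  have := congrArg (fun g : Matrix.SpecialLinearGroup (Fin 2) K => g.1 0 1) h
  simp [T] at this
  exact ht this

theorem key (x : Matrix.SpecialLinearGroup (Fin 2) K) (h5 : (5 : K) = 0)
    (htr : x.1 0 0 + x.1 1 1 = -1) (t : K) (ht : t * x.1 1 0 = 1) :
    (x * (T t * x * (T t)⁻¹)) ^ 2 = T t := by
  have hdet : x.1 0 0 * x.1 1 1 - x.1 0 1 * x.1 1 0 = 1 := by
    have := x.2; rwa [Matrix.det_fin_two] at this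
  rw [T_inv]
  apply Subtype.ext
  rw [pow_two]
  show (x.1 * ((T t).1 * x.1 * (T (-t)).1)) * (x.1 * ((T t).1 * x.1 * (T (-t)).1)) = (T t).1
  simp only [T_coe]
  generalize hX : x.1 = X at *
  rw [Matrix.eta_fin_two X]
  generalize X 0 0 = a at *
  generalize X 0 1 = b at *
  generalize X 1 0 = c at *
  generalize X 1 1 = d at *
  simp only [Matrix.mul_fin_two]
  have hd : d = -1 - a := by linear_combination htr
  subst hd
  congr 1
  ext i j; fin_cases i <;> fin_cases j <;> simp <;> grind

end SL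


section SL
variable {K : Type*} [Field K]

theorem trace_of_order3 (x : Matrix.SpecialLinearGroup (Fin 2) K)
    (hx3 : x ^ 3 = 1) (hx1 : x ≠ 1) : x.1 0 0 + x.1 1 1 = -1 := by
  have hdet : x.1 0 0 * x.1 1 1 - x.1 0 1 * x.1 1 0 = 1 := by
    have := x.2; rwa [Matrix.det_fin_two] at this
  have h3 : x.1 * x.1 * x.1 = 1 := by
    have := congrArg Subtype.val hx3
    rw [pow_succ, pow_two] at this
    exact this
  have h1 : x.1 ≠ 1 := fun h => hx1 (Subtype.ext h)
  generalize x.1 = X at *
  rw [Matrix.eta_fin_two X] at h3 h1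
  generalize X 0 0 = a at *
  generalize X 0 1 = b at *
  generalize X 1 0 = c at *
  generalize X 1 1 = d at *
  simp only [Matrix.mul_fin_two, Matrix.one_fin_two] at h3 h1
  have e00 := congrFun (congrFun h3 0) 0
  have e01 := congrFun (congrFun h3 0) 1
  have e10 := congrFun (congrFun h3 1) 0
  have e11 := congrFun (congrFun h3 1) 1
  simp at e00 e01 e10 e11
  by_contra hne
  have hne' : a + d + 1 ≠ 0 := fun h => hne (by linear_combination h)
  apply h1
  -- (τ+1)((τ-1) x - 1) = 0
  have hb : (a + d + 1) * ((a + d - 1) * b) = 0 := by linear_combination e01 + b * hdet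
  have hc : (a + d + 1) * ((a + d - 1) * c) = 0 := by linear_combination e10 + c * hdet
  have ha : (a + d + 1) * ((a + d - 1) * a - 1) = 0 := by linear_combination e00 + (2 * a + d) * hdet
  have hd : (a + d + 1) * ((a + d - 1) * d - 1) = 0 := by linear_combination e11 + (2 * d + a) * hdet
  have hb' := (mul_eq_zero.1 hb).resolve_left hne'
  have hc' := (mul_eq_zero.1 hc).resolve_left hne'
  have ha' := (mul_eq_zero.1 ha).resolve_left hne'
  have hd' := (mul_eq_zero.1 hd).resolve_left hne'
  have hs : a + d - 1 ≠ 0 := by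
    intro h; rw [h] at ha'; simp at ha'
  have hb0 := (mul_eq_zero.1 hb').resolve_left hs
  have hc0 := (mul_eq_zero.1 hc').resolve_left hs
  have had : a = d := by
    have : (a + d - 1) * (a - d) = 0 := by linear_combination ha' - hd'
    have := (mul_eq_zero.1 this).resolve_left hs
    linear_combination this
  subst had
  subst hb0
  subst hc0
  have ha1 : a = 1 := by linear_combination (-1 : K) * ha' + 2 * hdet
  subst ha1
  rfl

theorem c_ne_zero [Fintype K] (hK : Fintype.card K = 5) (x : Matrix.SpecialLinearGroup (Fin 2) K)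
    (htr : x.1 0 0 + x.1 1 1 = -1) : x.1 1 0 ≠ 0 := by
  have hdet : x.1 0 0 * x.1 1 1 - x.1 0 1 * x.1 1 0 = 1 := by
    have := x.2; rwa [Matrix.det_fin_two] at this
  have h5 : (5 : K) = 0 := by
    have := Nat.cast_card_eq_zero K
    rw [hK] at this; exact_mod_cast this
  intro hc
  rw [hc, mul_zero, sub_zero] at hdet
  set a := x.1 0 0
  set d := x.1 1 1
  have hz : (2 * a + 1) ^ 2 = 2 := by
    have hd : d = -1 - a := by linear_combination htr
    rw [hd] at hdet
    linear_combination (-4 : K) * hdet - h5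
  have hz0 : 2 * a + 1 ≠ 0 := by
    intro h
    rw [h] at hz
    have h2 : (2 : K) = 0 := by simpa using hz.symm
    have : (1 : K) = 0 := by linear_combination h5 - 2 * h2
    exact one_ne_zero this
  have h4 := FiniteField.pow_card_sub_one_eq_one (2 * a + 1) hz0
  rw [hK] at h4
  have : (1 : K) = 0 := by
    have h44 : (2 * a + 1) ^ 4 = 4 := by
      have : (2 * a + 1) ^ 4 = ((2 * a + 1) ^ 2) ^ 2 := by ring
      rw [this, hz]; norm_num
    have h41 : (4 : K) = 1 := by rw [← h44]; exact h4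
    linear_combination 2 * h41 - h5 
  exact one_ne_zero this

end SL


section LA
variable {F : Type*} [Field F]

abbrev N4 := Fin 2 ⊕ Fin 2

/-- fixed space -/
def Fx (M : Matrix N4 N4 F) : Submodule F (N4 → F) :=
  LinearMap.ker (Matrix.toLin' M - LinearMap.id)

theorem mem_Fx (M : Matrix N4 N4 F) (v : N4 → F) : v ∈ Fx M ↔ M *ᵥ v = v := by
  simp [Fx, LinearMap.mem_ker, sub_eq_zero]

theorem finrank_V : Module.finrank F (N4 → F) = 4 := by simp

theorem Fx_eq_top {M : Matrix N4 N4 F} (h : Fx M = ⊤) : M = 1 := by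
  apply Matrix.toLin'.injective
  rw [Matrix.toLin'_one]
  have : Matrix.toLin' M - LinearMap.id = 0 := LinearMap.ker_eq_top.1 h
  exact sub_eq_zero.1 this

theorem fix5 [Fintype F] (hF : Fintype.card F = 3) (M : Matrix N4 N4 F) (h5 : M ^ 5 = 1)
    (h1 : M ≠ 1) : Fx M = ⊥ := by
  classical
  let f : Function.End (N4 → F) := fun v => M *ᵥ v
  have hpow : ∀ (k : ℕ) (v : N4 → F), (f ^ k) v = (M ^ k) *ᵥ v := by
    intro k
    induction k with
    | zero => intro v; simp; rfl
    | succ k ih =>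
      intro v
      rw [pow_succ, pow_succ]
      show (f ^ k) (f v) = _
      rw [ih]
      show M ^ k *ᵥ (M *ᵥ v) = _
      rw [Matrix.mulVec_mulVec]
  have hf : f ^ 5 ^ 1 = 1 := by
    funext v
    rw [pow_one, hpow, h5]; simp; rfl
  haveI : Fact (Nat.Prime 5) := ⟨by norm_num⟩
  have hmod := Equiv.Perm.card_fixedPoints_modEq hf
  have hcV : Fintype.card (N4 → F) = 81 := by
    rw [Fintype.card_fun, hF]; simp
  have hcF : Fintype.card (Function.fixedPoints f) = 3 ^ Module.finrank F (Fx M) := by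
    rw [← hF, Fintype.card_eq_nat_card, Fintype.card_eq_nat_card, ← Module.natCard_eq_pow_finrank]
    apply Nat.card_congr
    refine Equiv.subtypeEquivRight ?_
    intro v
    rw [mem_Fx]
    rfl
  rw [hcV, hcF] at hmod
  have hle : Module.finrank F (Fx M) ≤ 4 := by
    have := Submodule.finrank_le (Fx M)
    rwa [finrank_V] at this
  have hne4 : Module.finrank F (Fx M) ≠ 4 := by
    intro h
    apply h1
    apply Fx_eq_top
    apply Submodule.eq_top_of_finrank_eq
    rw [h, finrank_V]
  apply Submodule.finrank_eq_zero.1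
  generalize Module.finrank F (Fx M) = d at *
  interval_cases d <;> first | rfl | (exfalso; revert hmod; decide) | (exfalso; exact hne4 rfl)

theorem finrank_range_le {V : Type*} [AddCommGroup V] [Module F V] [FiniteDimensional F V]
    (f g : V →ₗ[F] V) :
    Module.finrank F (LinearMap.range g) ≤
      Module.finrank F (LinearMap.range (f ∘ₗ g)) + Module.finrank F (LinearMap.ker f) := by
  have h := LinearMap.finrank_range_add_finrank_ker (f.domRestrict (LinearMap.range g))
  rw [LinearMap.range_domRestrict, LinearMap.ker_domRestrict] at h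
  rw [LinearMap.range_comp, ← h]
  gcongr
  rw [← Submodule.finrank_map_subtype_eq]
  apply Submodule.finrank_mono
  rintro _ ⟨y, hy, rfl⟩
  exact hy

theorem two_le_of_cube {V : Type*} [AddCommGroup V] [Module F V] [FiniteDimensional F V]
    (hV : Module.finrank F V = 4) (f : V →ₗ[F] V) (h : f ∘ₗ (f ∘ₗ f) = 0) :
    2 ≤ Module.finrank F (LinearMap.ker f) := by
  have h0 := LinearMap.finrank_range_add_finrank_ker f
  have h1 := finrank_range_le f f
  have h2 := finrank_range_le f (f ∘ₗ f)
  rw [h, LinearMap.range_zero, finrank_bot] at h2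
  omega

end LA


section LA
variable {F : Type*} [Field F]


/-- the alternating form -/
def Bf (v w : N4 → F) : F := dotProduct v ((Matrix.J (Fin 2) F).mulVec w)

theorem Bf_self (w : N4 → F) : Bf w w = 0 := by
  simp only [Bf, Matrix.J, dotProduct, Matrix.mulVec, Fintype.sum_sum_type, Fin.sum_univ_two,
    Matrix.fromBlocks_apply₁₁, Matrix.fromBlocks_apply₁₂, Matrix.fromBlocks_apply₂₁,
    Matrix.fromBlocks_apply₂₂]
  simp
  ring

theorem Bf_add_left (u v w : N4 → F) : Bf (u + v) w = Bf u w + Bf v w := by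
  simp [Bf, add_dotProduct]

theorem Bf_smul_left (c : F) (v w : N4 → F) : Bf (c • v) w = c * Bf v w := by
  simp [Bf, smul_dotProduct]

theorem Bf_add_right (u v w : N4 → F) : Bf u (v + w) = Bf u v + Bf u w := by
  simp [Bf, Matrix.mulVec_add, dotProduct_add]

theorem Bf_smul_right (c : F) (v w : N4 → F) : Bf v (c • w) = c * Bf v w := by
  simp [Bf, Matrix.mulVec_smul, dotProduct_smul]

theorem Bf_zero_left (w : N4 → F) : Bf 0 w = 0 := by simp [Bf]
theorem Bf_zero_right (w : N4 → F) : Bf w 0 = 0 := by simp [Bf]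

theorem Bf_isom {A : Matrix N4 N4 F} (hA : A ∈ Matrix.symplecticGroup (Fin 2) F) (v w : N4 → F) :
    Bf (A *ᵥ v) (A *ᵥ w) = Bf v w := by
  have h := SymplecticGroup.mem_iff'.1 hA
  unfold Bf
  rw [Matrix.mulVec_mulVec, ← Matrix.vecMul_transpose A v, ← Matrix.dotProduct_mulVec,
    Matrix.mulVec_mulVec, ← Matrix.mul_assoc, h]

end LA

section Main
variable {F : Type*} [Field F]

theorem exists_mulVec_ne {M : Matrix N4 N4 F} (h : M ≠ 0) : ∃ u, M *ᵥ u ≠ 0 := by
  by_contra hc
  push Not at hc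
  apply h
  apply Matrix.toLin'.injective
  apply LinearMap.ext
  intro u
  simp [hc]

theorem isotropic {A : Matrix N4 N4 F} (hA : A ∈ Matrix.symplecticGroup (Fin 2) F)
    (h1 : A ≠ 1) (hN : (A - 1) * ((A - 1) * (A - 1)) = 0)
    (hd : Module.finrank F (Fx A) = 2) (v w : N4 → F) (hv : A *ᵥ v = v) (hw : A *ᵥ w = w) :
    Bf v w = 0 := by
  have hN0 : A - 1 ≠ 0 := sub_ne_zero.2 h1
  -- a nonzero vector in the fixed space and in the image of `A - 1`
  obtain ⟨e, u, he0, heu, heA⟩ : ∃ e u : N4 → F, e ≠ 0 ∧ e = A *ᵥ u - u ∧ A *ᵥ e = e := by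
    by_cases h2 : (A - 1) * (A - 1) = 0
    · obtain ⟨u, hu⟩ := exists_mulVec_ne hN0
      refine ⟨(A - 1) *ᵥ u, u, hu, by rw [Matrix.sub_mulVec, Matrix.one_mulVec], ?_⟩
      have : (A - 1) *ᵥ ((A - 1) *ᵥ u) = 0 := by rw [Matrix.mulVec_mulVec, h2, Matrix.zero_mulVec]
      rw [Matrix.sub_mulVec, Matrix.one_mulVec] at this
      exact sub_eq_zero.1 this
    · obtain ⟨u, hu⟩ := exists_mulVec_ne h2
      refine ⟨((A - 1) * (A - 1)) *ᵥ u, (A - 1) *ᵥ u, hu, ?_, ?_⟩
      · rw [← Matrix.mulVec_mulVec, Matrix.sub_mulVec A 1 ((A - 1) *ᵥ u), Matrix.one_mulVec]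
      · have : (A - 1) *ᵥ (((A - 1) * (A - 1)) *ᵥ u) = 0 := by
          rw [Matrix.mulVec_mulVec, hN, Matrix.zero_mulVec]
        rw [Matrix.sub_mulVec, Matrix.one_mulVec] at this
        exact sub_eq_zero.1 this
  have hsub_l : ∀ a b c : N4 → F, Bf (a - b) c = Bf a c - Bf b c := by
    intro a b c
    have := Bf_add_left (a - b) b c
    rw [sub_add_cancel] at this
    rw [this]; ring
  have hsub_r : ∀ a b c : N4 → F, Bf c (a - b) = Bf c a - Bf c b := by
    intro a b c
    have := Bf_add_right c (a - b) b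
    rw [sub_add_cancel] at this
    rw [this]; ring
  have hel : ∀ y : N4 → F, A *ᵥ y = y → Bf e y = 0 := by
    intro y hy
    rw [heu, hsub_l]
    conv_lhs => rw [← hy]
    rw [Bf_isom hA, hy, sub_self]
  have her : ∀ y : N4 → F, A *ᵥ y = y → Bf y e = 0 := by
    intro y hy
    rw [heu, hsub_r]
    conv_lhs => rw [← hy]
    rw [Bf_isom hA, hy, sub_self]
  -- linear dependence
  let e' : Fx A := ⟨e, (mem_Fx A e).2 heA⟩
  let v' : Fx A := ⟨v, (mem_Fx A v).2 hv⟩
  let w' : Fx A := ⟨w, (mem_Fx A w).2 hw⟩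
  have hdep : ¬ LinearIndependent F ![e', v', w'] := by
    intro hli
    have := hli.fintype_card_le_finrank
    rw [hd] at this
    simp at this
  rw [Fintype.not_linearIndependent_iff] at hdep
  obtain ⟨g, hg, i, hi⟩ := hdep
  rw [Fin.sum_univ_three] at hg
  have hg' : g 0 • e + g 1 • v + g 2 • w = 0 := by
    have := congrArg Subtype.val hg
    simpa using this
  have r1 : g 1 * Bf v w = 0 := by
    have := congrArg (fun z => Bf z w) hg'
    simp only [Bf_add_left, Bf_smul_left, Bf_zero_left, hel w hw, Bf_self] at this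
    simpa using this
  have r2 : g 2 * Bf v w = 0 := by
    have := congrArg (fun z => Bf v z) hg'
    simp only [Bf_add_right, Bf_smul_right, Bf_zero_right, her v hv, Bf_self] at this
    simpa using this
  by_contra hne
  have g1 : g 1 = 0 := (mul_eq_zero.1 r1).resolve_right hne
  have g2 : g 2 = 0 := (mul_eq_zero.1 r2).resolve_right hne
  rw [g1, g2, zero_smul, zero_smul, add_zero, add_zero] at hg'
  have g0 : g 0 = 0 := (smul_eq_zero.1 hg').resolve_right he0
  fin_cases i
  · exact hi g0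
  · exact hi g1
  · exact hi g2

end Main

/-- Let F be the field with 3 elements and K the field with 5 elements. For every injective homomorphism φ from SL₂(K) into the symplectic group Sp₄(F) (4 × 4 matrices g with g J gᵀ = J for the standard alternating matrix J) and every element x of order 3 of SL₂(K), the vectors of F⁴ fixed by φ(x) form a 2-dimensional subspace that is totally isotropic for the alternating form defined by J. -/
theorem result {F : Type*} [Field F] [Fintype F] (hF : Fintype.card F = 3)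
    {K : Type*} [Field K] [Fintype K] (hK : Fintype.card K = 5)
    (φ : Matrix.SpecialLinearGroup (Fin 2) K →* ↥(Matrix.symplecticGroup (Fin 2) F)) (hφ : Function.Injective φ)
    (x : Matrix.SpecialLinearGroup (Fin 2) K) (hx : orderOf x = 3) :
    Module.finrank F ↥(LinearMap.ker (Matrix.toLin' ((φ x : Matrix (Fin 2 ⊕ Fin 2) (Fin 2 ⊕ Fin 2) F)) - LinearMap.id)) = 2 ∧
      ∀ v w : Fin 2 ⊕ Fin 2 → F, (φ x : Matrix (Fin 2 ⊕ Fin 2) (Fin 2 ⊕ Fin 2) F).mulVec v = v →
        (φ x : Matrix (Fin 2 ⊕ Fin 2) (Fin 2 ⊕ Fin 2) F).mulVec w = w →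
          dotProduct v ((Matrix.J (Fin 2) F).mulVec w) = 0 := by
  classical
  have h5 : (5 : K) = 0 := by
    have := Nat.cast_card_eq_zero K
    rw [hK] at this; exact_mod_cast this
  have h3 : (3 : F) = 0 := by
    have := Nat.cast_card_eq_zero F
    rw [hF] at this; exact_mod_cast this
  have hx3 : x ^ 3 = 1 := by rw [← hx]; exact pow_orderOf_eq_one x
  have hx1 : x ≠ 1 := by
    intro h; rw [h, orderOf_one] at hx; omega
  have htr := trace_of_order3 x hx3 hx1
  have hc := c_ne_zero hK x htr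
  set t : K := (x.1 1 0)⁻¹ with ht
  have htc : t * x.1 1 0 = 1 := inv_mul_cancel₀ hc
  have ht0 : t ≠ 0 := inv_ne_zero hc
  have hkey := key x h5 htr t htc
  -- matrices
  let ψ : Matrix.SpecialLinearGroup (Fin 2) K → Matrix N4 N4 F := fun g => (φ g).1
  have ψmul : ∀ g h, ψ (g * h) = ψ g * ψ h := by
    intro g h; show (φ (g * h)).1 = _; rw [map_mul]; rfl
  have ψone : ψ 1 = 1 := by show (φ 1).1 = _; rw [map_one]; rfl
  have ψinj : ∀ g, ψ g = 1 → g = 1 := by
    intro g hg
    apply hφ
    rw [map_one]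
    exact Subtype.ext hg
  have ψpow : ∀ g (k : ℕ), ψ (g ^ k) = ψ g ^ k := by
    intro g k
    induction k with
    | zero => simp [ψone]
    | succ k ih => rw [pow_succ, pow_succ, ψmul, ih]
  set A : Matrix N4 N4 F := ψ x with hAdef
  have hAmem : A ∈ Matrix.symplecticGroup (Fin 2) F := (φ x).2
  have hA1 : A ≠ 1 := fun h => hx1 (ψinj x h)
  have hA3 : A * A * A = 1 := by
    have := ψpow x 3
    rw [hx3, ψone] at this
    rw [this, pow_succ, pow_two]
  have h3X : ∀ X : Matrix N4 N4 F, X + X + X = 0 := by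
    intro X
    have : X + X + X = (3 : F) • X := by
      ext i j; simp; ring
    rw [this, h3, zero_smul]
  have hN : (A - 1) * ((A - 1) * (A - 1)) = 0 := by
    have : (A - 1) * ((A - 1) * (A - 1)) = A * A * A - 1 - (A * A + A * A + A * A) + (A + A + A) := by
      noncomm_ring
    rw [this, hA3, h3X, h3X]; simp
  -- lower bound
  have hlow : 2 ≤ Module.finrank F (Fx A) := by
    apply two_le_of_cube finrank_V
    have e1 : Matrix.toLin' A - LinearMap.id = Matrix.toLin' (A - 1) := by
      rw [map_sub, Matrix.toLin'_one]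
    rw [e1, ← Matrix.toLin'_mul, ← Matrix.toLin'_mul, hN, map_zero]
  -- upper bound
  set g : Matrix N4 N4 F := ψ (T t) with hg
  have hg5 : g ^ 5 = 1 := by rw [hg, ← ψpow, T_pow5 t h5, ψone]
  have hg1 : g ≠ 1 := fun h => T_ne_one ht0 (ψinj _ h)
  have hgfix := fix5 hF g hg5 hg1
  have hginv : ψ (T t)⁻¹ * g = 1 := by rw [hg, ← ψmul, inv_mul_cancel, ψone]
  have hdisj : Disjoint (Fx A) ((Fx A).map (Matrix.toLin' g)) := by
    rw [Submodule.disjoint_def]
    rintro v hv ⟨w, hw, rfl⟩
    rw [SetLike.mem_coe, mem_Fx] at hw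
    rw [mem_Fx] at hv
    rw [Matrix.toLin'_apply] at hv ⊢
    have h2 : ψ (T t * x * (T t)⁻¹) *ᵥ (g *ᵥ w) = g *ᵥ w := by
      rw [ψmul, ψmul, Matrix.mulVec_mulVec, Matrix.mul_assoc, hginv, Matrix.mul_one,
        ← Matrix.mulVec_mulVec, hw]
    have h3' : ψ (x * (T t * x * (T t)⁻¹)) *ᵥ (g *ᵥ w) = g *ᵥ w := by
      rw [ψmul, ← Matrix.mulVec_mulVec, h2, hv]
    have hgg : g = ψ (x * (T t * x * (T t)⁻¹)) * ψ (x * (T t * x * (T t)⁻¹)) := by
      rw [hg, ← ψmul, ← pow_two, hkey]
    have h4 : g *ᵥ (g *ᵥ w) = g *ᵥ w := by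
      calc g *ᵥ (g *ᵥ w)
          = (ψ (x * (T t * x * (T t)⁻¹)) * ψ (x * (T t * x * (T t)⁻¹))) *ᵥ (g *ᵥ w) := by
            rw [← hgg]
        _ = g *ᵥ w := by rw [← Matrix.mulVec_mulVec, h3', h3']
    have : g *ᵥ w ∈ Fx g := (mem_Fx _ _).2 h4
    rw [hgfix] at this
    exact (Submodule.mem_bot F).1 this
  have hinj : Function.Injective (Matrix.toLin' g) := by
    intro a b hab
    rw [Matrix.toLin'_apply, Matrix.toLin'_apply] at hab
    have := congrArg (fun z => ψ (T t)⁻¹ *ᵥ z) hab
    simpa [Matrix.mulVec_mulVec, hginv] using this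
  have hmap : Module.finrank F ((Fx A).map (Matrix.toLin' g)) = Module.finrank F (Fx A) :=
    (LinearEquiv.finrank_eq (Submodule.equivMapOfInjective _ hinj (Fx A))).symm
  have hup := Submodule.finrank_add_finrank_le_of_disjoint hdisj
  rw [hmap, finrank_V] at hup
  have hd : Module.finrank F (Fx A) = 2 := by omega
  exact ⟨hd, fun v w hv hw => isotropic hAmem hA1 hN hd v w hv hw⟩

end Cfsg.Agent.S3213
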