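import Cfsg.Statements.S3215
import Cfsg.Agent.Lib.Lead.Cores
import Cfsg.Agent.Lib.Lead.Residual
import Cfsg.Agent.Lib.Helper76.PSolvable
import Cfsg.Agent.Lib.Helper11.Solv
import Cfsg.Agent.Lib.Helper24.PGroup
import Cfsg.Agent.Lib.Helper1.Nilpotent
import Cfsg.Agent.Lib.Helper1.MinimalNormal
import Cfsg.Agent.Lib.Helper22.Generation2
import Cfsg.Agent.Lib.Helper29.NormalRankTwo

set_option autoImplicit false
open Cfsg

namespace Cfsg.Agent.S3215

open Cfsg.Agent.Lib

section aux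

variable {H : Type*} [Group H] [Finite H]

theorem eq_one_of_odd_of_two_pow {G : Type*} [Group G] {c : G} {m k : ℕ} (hm : Odd m) (h1 : c ^ m = 1)
    (h2 : c ^ (2 ^ k) = 1) : c = 1 := by
  have hc : Nat.Coprime m (2 ^ k) := (Nat.Coprime.pow_right k (Nat.coprime_two_right.2 hm))
  have := orderOf_dvd_of_pow_eq_one h1
  have h3 := orderOf_dvd_of_pow_eq_one h2
  have h4 : orderOf c ∣ 1 := by
    rw [← hc]; exact Nat.dvd_gcd this h3
  exact orderOf_eq_one_iff.1 (Nat.dvd_one.1 h4)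

theorem lemA
    (hI : ∀ t : H, orderOf t = 2 → HasNormalPComplement 2 ↥(Subgroup.centralizer ({t} : Set H)))
    (t x u : H) (ht : orderOf t = 2) (hx : Odd (orderOf x)) (hxt : Commute x t)
    (hu : u ∈ pCore 2 H) (hut : Commute u t) : Commute x u := by
  have : Fact (Nat.Prime 2) := ⟨Nat.prime_two⟩
  obtain ⟨K, hK, hKc, k, hKi⟩ := Lead.hasNormalPComplement_iff.1 (hI t ht)
  have hxC : x ∈ Subgroup.centralizer ({t} : Set H) := by
    rw [Subgroup.mem_centralizer_singleton_iff]; exact hxt.eq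
  have huC : u ∈ Subgroup.centralizer ({t} : Set H) := by
    rw [Subgroup.mem_centralizer_singleton_iff]; exact hut.eq
  have hxK : (⟨x, hxC⟩ : ↥(Subgroup.centralizer ({t} : Set H))) ∈ K := by
    rw [← QuotientGroup.eq_one_iff]
    apply eq_one_of_odd_of_two_pow hx (k := k)
    · rw [← QuotientGroup.mk_pow]
      have : (⟨x, hxC⟩ : ↥(Subgroup.centralizer ({t} : Set H))) ^ orderOf x = 1 := by
        apply Subtype.ext; simp [pow_orderOf_eq_one]
      rw [this]; rfl
    · rw [← hKi, Subgroup.index_eq_card]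
      exact pow_card_eq_one'
  have hcK : (⟨x, hxC⟩ * ⟨u, huC⟩ * ⟨x, hxC⟩⁻¹ * ⟨u, huC⟩⁻¹ : ↥(Subgroup.centralizer ({t} : Set H))) ∈ K := by
    have h1 := hK.conj_mem _ (K.inv_mem hxK) ⟨u, huC⟩
    have h2 := K.mul_mem hxK h1
    convert h2 using 1
    group
  have hcY : x * u * x⁻¹ * u⁻¹ ∈ pCore 2 H := by
    have hn : (pCore 2 H).Normal := inferInstance
    exact (pCore 2 H).mul_mem (hn.conj_mem _ hu x) ((pCore 2 H).inv_mem hu)
  have hc1 : x * u * x⁻¹ * u⁻¹ = 1 := by
    obtain ⟨j, hj⟩ := (Lead.pCore_isPGroup 2 H) ⟨_, hcY⟩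
    have hj' : (x * u * x⁻¹ * u⁻¹) ^ (2 ^ j) = 1 := by
      have := congrArg Subtype.val hj
      simpa using this
    have hKodd : Odd (Nat.card K) := Nat.coprime_two_right.1 hKc
    apply eq_one_of_odd_of_two_pow hKodd _ hj'
    have h3 : (⟨_, hcK⟩ : K) ^ Nat.card K = 1 := pow_card_eq_one'
    have h4 : (((⟨_, hcK⟩ : K) ^ Nat.card K : K) : ↥(Subgroup.centralizer ({t} : Set H))).1 = 1 := by
      rw [h3]; rfl
    exact h4
  have : x * u = u * x := by
    have h5 : x * u = (x * u * x⁻¹ * u⁻¹) * (u * x) := by group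
    rw [h5, hc1, one_mul]
  exact this

theorem cent_le (hsol : Group.IsSolvable H) (hO : Cfsg.oddCore H = ⊥) :
    Subgroup.centralizer (pCore 2 H : Set H) ≤ pCore 2 H := by
  have : Fact (Nat.Prime 2) := ⟨Nat.prime_two⟩
  exact Helper76.centralizer_pCore_le (Helper11.isPSolvable_of_isSolvable 2 hsol) hO

theorem exists_invol_pow {G : Type*} [Group G] {y : G} {j : ℕ} (hy : y ^ (2 ^ j) = 1) (hy1 : y ≠ 1) :
    ∃ i : ℕ, orderOf (y ^ i) = 2 := by
  have h1 := orderOf_dvd_of_pow_eq_one hy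
  obtain ⟨i, hi, hi2⟩ := (Nat.dvd_prime_pow Nat.prime_two).1 h1
  cases i with
  | zero => simp at hi2; exact absurd hi2 hy1
  | succ i =>
    refine ⟨2 ^ i, ?_⟩
    rw [orderOf_pow_of_dvd (by positivity) (by rw [hi2]; exact pow_dvd_pow 2 (Nat.le_succ i)), hi2,
      pow_succ]
    exact Nat.mul_div_cancel_left 2 (by positivity)

theorem stage1 (hsol : Group.IsSolvable H) (hO : Cfsg.oddCore H = ⊥)
    (hI : ∀ t : H, orderOf t = 2 → HasNormalPComplement 2 ↥(Subgroup.centralizer ({t} : Set H)))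
    (x y : H) (hx : Odd (orderOf x)) (hy : y ∈ pCore 2 H) (hy1 : y ≠ 1) (hxy : Commute x y) :
    x = 1 := by
  have : Fact (Nat.Prime 2) := ⟨Nat.prime_two⟩
  obtain ⟨j, hj⟩ := (Lead.pCore_isPGroup 2 H) ⟨_, hy⟩
  have hj' : y ^ (2 ^ j) = 1 := by
    have := congrArg Subtype.val hj
    simpa using this
  obtain ⟨i, hi⟩ := exists_invol_pow hj' hy1
  have htY : y ^ i ∈ pCore 2 H := (pCore 2 H).pow_mem hy i
  have hxt : Commute x (y ^ i) := hxy.pow_right i
  have hn : (pCore 2 H).Normal := inferInstance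
  have key := Helper24.thompson_AxB_aux 2 (Subgroup.zpowers x) (Subgroup.zpowers (y ^ i)) (pCore 2 H)
    (Lead.pCore_isPGroup 2 H) (by rwa [Subgroup.zpowers_le])
    (by rw [Nat.card_zpowers]; exact Nat.coprime_two_right.2 hx)
    (by
      rw [Subgroup.zpowers_le, Subgroup.mem_centralizer_iff]
      intro h hh
      obtain ⟨n, rfl⟩ := Subgroup.mem_zpowers_iff.1 hh
      exact ((hxt.zpow_right n).eq).symm)
    (pCore 2 H) le_rfl
    (by rw [Subgroup.normalizer_eq_top]; exact le_top)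
    (by rw [Subgroup.normalizer_eq_top]; exact le_top)
    (by
      intro u hu
      have hu1 : u ∈ pCore 2 H := hu.1
      have hu2 : u ∈ Subgroup.centralizer (Subgroup.zpowers (y ^ i) : Set H) := hu.2
      have hut : Commute u (y ^ i) :=
        ((Subgroup.mem_centralizer_iff.1 hu2) _ (Subgroup.mem_zpowers _)).symm
      have := lemA hI (y ^ i) x u hi hx hxt hu1 hut
      rw [Subgroup.mem_centralizer_iff]
      intro h hh
      obtain ⟨n, rfl⟩ := Subgroup.mem_zpowers_iff.1 hh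
      exact (this.zpow_left n).eq)
  have hxC : x ∈ Subgroup.centralizer (pCore 2 H : Set H) := by
    rw [Subgroup.mem_centralizer_iff]
    intro h hh
    exact ((Subgroup.mem_centralizer_iff.1 (key hh)) x (Subgroup.mem_zpowers x)).symm
  have hxY := cent_le hsol hO hxC
  obtain ⟨l, hl⟩ := (Lead.pCore_isPGroup 2 H) ⟨_, hxY⟩
  have hl' : x ^ (2 ^ l) = 1 := by
    have := congrArg Subtype.val hl
    simpa using this
  exact eq_one_of_odd_of_two_pow hx (pow_orderOf_eq_one x) hl'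

theorem exists_fixed (hsol : Group.IsSolvable H) (hO : Cfsg.oddCore H = ⊥) (t : H) (ht : orderOf t = 2) :
    ∃ u ∈ pCore 2 H, u ≠ 1 ∧ Commute u t := by
  have : Fact (Nat.Prime 2) := ⟨Nat.prime_two⟩
  have hYne : pCore 2 H ≠ ⊥ := by
    intro hb
    have h1 := cent_le hsol hO
    rw [hb] at h1
    have : t ∈ (⊥ : Subgroup H) := h1 (by simp [Subgroup.mem_centralizer_iff])
    rw [Subgroup.mem_bot] at this
    rw [this] at ht
    simp at ht
  have hn : (pCore 2 H).Normal := inferInstance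
  have hT : IsPGroup 2 ↥(pCore 2 H ⊔ Subgroup.zpowers t) := by
    apply IsPGroup.to_sup_of_normal_left (Lead.pCore_isPGroup 2 H)
    apply IsPGroup.of_card (n := 1)
    rw [Nat.card_zpowers, ht, pow_one]
  have hnil : Group.IsNilpotent ↥(pCore 2 H ⊔ Subgroup.zpowers t) := hT.isNilpotent
  have hne : (pCore 2 H).subgroupOf (pCore 2 H ⊔ Subgroup.zpowers t) ≠ ⊥ := by
    intro hb
    rw [Subgroup.subgroupOf_eq_bot, disjoint_iff, inf_eq_left.2 le_sup_left] at hb
    exact hYne hb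
  have := Helper1.normal_inf_center_ne_bot hne
  obtain ⟨⟨u, hu⟩, hu1⟩ := Subgroup.ne_bot_iff_exists_ne_one.1 this
  refine ⟨u, hu.1, fun h => hu1 (Subtype.ext (Subtype.ext h)), ?_⟩
  have h2 := Subgroup.mem_center_iff.1 hu.2 ⟨t, (le_sup_right : _ ≤ pCore 2 H ⊔ Subgroup.zpowers t) (Subgroup.mem_zpowers t)⟩
  have h3 := congrArg Subtype.val h2
  exact h3.symm

theorem stage2 (hsol : Group.IsSolvable H) (hO : Cfsg.oddCore H = ⊥)
    (hI : ∀ t : H, orderOf t = 2 → HasNormalPComplement 2 ↥(Subgroup.centralizer ({t} : Set H)))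
    (t x : H) (ht : orderOf t = 2) (hx : Odd (orderOf x)) (hxt : Commute x t) : x = 1 := by
  obtain ⟨u, hu, hu1, hut⟩ := exists_fixed hsol hO t ht
  exact stage1 hsol hO hI x u hx hu hu1 (lemA hI t x u ht hx hxt hu hut)

theorem stage3 (hsol : Group.IsSolvable H) (hO : Cfsg.oddCore H = ⊥)
    (hI : ∀ t : H, orderOf t = 2 → HasNormalPComplement 2 ↥(Subgroup.centralizer ({t} : Set H)))
    {p : ℕ} [Fact p.Prime] (hp2 : p ≠ 2) (R : Subgroup H) (hR : IsPGroup p R) : IsCyclic R := by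
  have hp : p.Prime := Fact.out
  have hpodd : Odd p := hp.odd_of_ne_two hp2
  by_contra hnc
  have hnc' : ¬ IsCyclic ↥(⊤ : Subgroup ↥R) := by
    intro h
    exact hnc (isCyclic_of_surjective (Subgroup.topEquiv : ↥(⊤ : Subgroup ↥R) ≃* ↥R)
      (Subgroup.topEquiv : ↥(⊤ : Subgroup ↥R) ≃* ↥R).surjective)
  obtain ⟨A, -, -, hAc, hAp, hA2⟩ := Helper29.exists_normal_elemAb_sq_of_not_isCyclic hp2 hR ⊤ hnc'
  have hY : pCore 2 H ≤ ⊥ := by
    apply Helper22.le_of_forall_centralizer_le (p := p) (A.map R.subtype) (pCore 2 H) ⊥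
    · rintro _ ⟨x, hx, rfl⟩ _ ⟨y, hy, rfl⟩
      have := hAc.is_comm.comm ⟨x, hx⟩ ⟨y, hy⟩
      have h2 := congrArg (fun z : A => ((z : R) : H)) this
      exact h2
    · rintro _ ⟨x, hx, rfl⟩
      have := hAp x hx
      have h2 := congrArg (fun z : R => (z : H)) this
      exact h2
    · rw [Subgroup.card_map_of_injective R.subtype_injective, hA2]
    · intro hdvd
      obtain ⟨n, hn⟩ := (Lead.pCore_isPGroup 2 H).exists_card_eq
      rw [hn] at hdvd
      have := (Nat.prime_dvd_prime_iff_eq hp Nat.prime_two).1 (hp.dvd_of_dvd_pow hdvd)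
      exact hp2 this
    · have hn : (pCore 2 H).Normal := inferInstance
      rw [Subgroup.normalizer_eq_top]; exact le_top
    · rintro _ ⟨x, hx, rfl⟩ hx1 u hu
      have hu1 : u ∈ pCore 2 H := hu.1
      have hu2 : u ∈ Subgroup.centralizer ({R.subtype x} : Set H) := hu.2
      rw [Subgroup.mem_bot]
      by_contra hune
      apply hx1
      apply stage1 hsol hO hI _ u _ hu1 hune
      · rw [Subgroup.mem_centralizer_singleton_iff] at hu2
        exact hu2.symm
      · have h3 : (R.subtype x) ^ p = 1 := by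
          have := hAp x hx
          have h2 := congrArg (fun z : R => (z : H)) this
          exact h2
        exact Odd.of_dvd_nat hpodd (orderOf_dvd_of_pow_eq_one h3)
  have h1 := cent_le hsol hO
  rw [le_bot_iff.1 hY] at h1
  have hsub : ∀ x : H, x = 1 := by
    intro x
    have : x ∈ (⊥ : Subgroup H) := h1 (by simp [Subgroup.mem_centralizer_iff])
    exact Subgroup.mem_bot.1 this
  apply hnc
  have : Subsingleton R := ⟨fun a b => Subtype.ext ((hsub a).trans (hsub b).symm)⟩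
  infer_instance

theorem lemC {G Q : Type*} [Group G] [Finite G] [Group Q] (π : G →* Q) (g : G) (a f : Q) (r : ℕ)
    (hg : π g = a * f) (haf : Commute a f) (ha : orderOf a = 2) (hf : f ≠ 1) (hr : Odd r)
    (hfr : f ^ r = 1) :
    ∃ t x : G, orderOf t = 2 ∧ Odd (orderOf x) ∧ x ≠ 1 ∧ Commute x t := by
  have hn0 : orderOf g ≠ 0 := (orderOf_pos g).ne'
  obtain ⟨e, n', hn', hn⟩ := Nat.exists_eq_two_pow_mul_odd hn0
  have ha2 : a ^ 2 = 1 := by rw [← ha]; exact pow_orderOf_eq_one a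
  have he : e ≠ 0 := by
    rintro rfl
    rw [pow_zero, one_mul] at hn
    have h1 : (a * f) ^ n' = 1 := by
      rw [← hg, ← map_pow, ← hn, pow_orderOf_eq_one, map_one]
    rw [haf.mul_pow] at h1
    have h2 : (a ^ n' * f ^ n') ^ r = 1 := by rw [h1, one_pow]
    rw [(haf.pow_pow n' n').mul_pow, ← pow_mul f, mul_comm n' r, pow_mul f, hfr, one_pow, mul_one,
      ← pow_mul] at h2
    have h3 := orderOf_dvd_of_pow_eq_one h2
    rw [ha] at h3
    have h4 : Odd (n' * r) := hn'.mul hr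
    exact (Nat.not_even_iff_odd.2 h4) (even_iff_two_dvd.2 h3)
  obtain ⟨e', rfl⟩ := Nat.exists_eq_succ_of_ne_zero he
  refine ⟨g ^ (2 ^ e' * n'), g ^ (2 ^ (e' + 1)), ?_, ?_, ?_, ?_⟩
  · rw [orderOf_pow_of_dvd (by have := hn'.pos; positivity) (by rw [hn, pow_succ]; exact ⟨2, by ring⟩), hn]
    have hpos : 0 < 2 ^ e' * n' := by have := hn'.pos; positivity
    rw [pow_succ, show 2 ^ e' * 2 * n' = 2 * (2 ^ e' * n') by ring]
    exact Nat.mul_div_cancel _ hpos
  · apply Odd.of_dvd_nat hn'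
    apply orderOf_dvd_of_pow_eq_one
    rw [← pow_mul, ← hn, pow_orderOf_eq_one]
  · intro h1
    have h2 : (a * f) ^ (2 ^ (e' + 1)) = 1 := by rw [← hg, ← map_pow, h1, map_one]
    rw [haf.mul_pow, pow_succ' 2 e', pow_mul a, ha2, one_pow, one_mul, ← pow_succ' 2 e'] at h2
    exact hf (eq_one_of_odd_of_two_pow hr hfr h2)
  · exact (Commute.refl g).pow_pow _ _

theorem stage4b (hsol : Group.IsSolvable H) (hO : Cfsg.oddCore H = ⊥)
    (hI : ∀ t : H, orderOf t = 2 → HasNormalPComplement 2 ↥(Subgroup.centralizer ({t} : Set H)))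
    (a f : H ⧸ pCore 2 H) (r : ℕ) (haf : Commute a f) (ha : orderOf a = 2) (hf : f ≠ 1) (hr : Odd r)
    (hfr : f ^ r = 1) : False := by
  obtain ⟨g, hg⟩ := QuotientGroup.mk'_surjective (pCore 2 H) (a * f)
  obtain ⟨t, x, ht, hx, hx1, hxt⟩ := lemC (QuotientGroup.mk' _) g a f r hg haf ha hf hr hfr
  exact hx1 (stage2 hsol hO hI t x ht hx hxt)

theorem stage4a (hsol : Group.IsSolvable H) (hO : Cfsg.oddCore H = ⊥)
    (hI : ∀ t : H, orderOf t = 2 → HasNormalPComplement 2 ↥(Subgroup.centralizer ({t} : Set H)))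
    (hY : pCore 2 H ≠ ⊤) :
    ∃ Rb : Subgroup (H ⧸ pCore 2 H), Rb.Normal ∧ IsCyclic Rb ∧ (Nat.card Rb).Prime ∧
      Odd (Nat.card Rb) := by
  have hnt : Nontrivial (H ⧸ pCore 2 H) := by
    by_contra hc
    rw [not_nontrivial_iff_subsingleton] at hc
    apply hY
    rw [eq_top_iff]
    intro x _
    rw [← QuotientGroup.eq_one_iff]
    exact Subsingleton.elim _ _
  obtain ⟨Rb, hRn, hRne, hRmin⟩ := Helper1.exists_minimal_normal (G := H ⧸ pCore 2 H)
  obtain ⟨hRc, r, hr, hRr⟩ := Helper1.minimal_normal_elementary_abelian Rb inferInstance hRne hRmin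
  have hRp : IsPGroup r Rb := Helper1.isPGroup_of_forall_pow_eq_one hRr
  have hr2 : r ≠ 2 := by
    rintro rfl
    have := Lead.le_pCore hRn hRp
    rw [Lead.pCore_quotient_pCore] at this
    exact hRne (le_bot_iff.1 this)
  have : Fact r.Prime := ⟨hr⟩
  -- lift
  obtain ⟨S', hS'⟩ := hRp.exists_le_sylow
  obtain ⟨S, rfl⟩ := Sylow.mapSurjective_surjective (QuotientGroup.mk'_surjective (pCore 2 H)) r S'
  rw [Sylow.coe_mapSurjective] at hS'
  have hScyc : IsCyclic (S : Subgroup H) := stage3 hsol hO hI hr2 S S.2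
  have hmapcyc : IsCyclic ((S : Subgroup H).map (QuotientGroup.mk' (pCore 2 H))) :=
    isCyclic_of_surjective ((QuotientGroup.mk' (pCore 2 H)).subgroupMap (S : Subgroup H))
      (MonoidHom.subgroupMap_surjective _ _)
  have hRcyc : IsCyclic Rb := by
    have := isCyclic_of_injective (Subgroup.inclusion hS') (Subgroup.inclusion_injective hS')
    exact this
  have hcard : Nat.card Rb = r := by
    obtain ⟨⟨g, hg⟩, hgen⟩ := hRcyc.exists_generator
    have h1 : orderOf (⟨g, hg⟩ : Rb) = Nat.card Rb := orderOf_eq_card_of_forall_mem_zpowers hgen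
    have h2 : (⟨g, hg⟩ : Rb) ^ r = 1 := Subtype.ext (hRr g hg)
    have h3 := orderOf_dvd_of_pow_eq_one h2
    rw [h1] at h3
    rcases (Nat.dvd_prime hr).1 h3 with h4 | h4
    · exfalso
      apply hRne
      rw [Subgroup.eq_bot_iff_card]
      exact h4
    · exact h4
  refine ⟨Rb, hRn, hRcyc, hcard ▸ hr, hcard ▸ hr.odd_of_ne_two hr2⟩

theorem stage4 (hsol : Group.IsSolvable H) (hO : Cfsg.oddCore H = ⊥)
    (hI : ∀ t : H, orderOf t = 2 → HasNormalPComplement 2 ↥(Subgroup.centralizer ({t} : Set H)))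
    (X : Subgroup H) (hXodd : Odd (Nat.card X)) (hXidx : ∃ k : ℕ, X.index = 2 ^ k) :
    ∃ (C : Type) (_ : CommGroup C) (_ : IsCyclic C) (φ : H →* C), φ.ker = X ⊔ pCore 2 H := by
  by_cases hY : pCore 2 H = ⊤
  · refine ⟨PUnit, inferInstance, inferInstance, 1, ?_⟩
    rw [hY, sup_top_eq, MonoidHom.ker_one]
  obtain ⟨Rb, hRn, hRcyc, hRpr, hRodd⟩ := stage4a hsol hO hI hY
  have : Fact (Nat.card Rb).Prime := ⟨hRpr⟩
  obtain ⟨θ, hθ⟩ : ∃ θ : H →* (ZMod (Nat.card Rb))ˣ, θ =
    (IsCyclic.mulAutMulEquiv Rb).toMonoidHom.comp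
      ((MulAut.conjNormal (H := Rb)).comp (QuotientGroup.mk' (pCore 2 H))) := ⟨_, rfl⟩
  have hθ1 : ∀ h : H, θ h = 1 → ∀ f ∈ Rb, Commute (QuotientGroup.mk' (pCore 2 H) h) f := by
    intro h hh f hf
    rw [hθ] at hh
    have h1 : MulAut.conjNormal (H := Rb) (QuotientGroup.mk' (pCore 2 H) h) = 1 := by
      apply (IsCyclic.mulAutMulEquiv Rb).injective
      rw [map_one]
      exact hh
    have h2 := congrArg (fun e : MulAut Rb => ((e ⟨f, hf⟩ : Rb) : H ⧸ pCore 2 H)) h1
    simp only [MulAut.conjNormal_apply, MulAut.one_apply] at h2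
    exact mul_inv_eq_iff_eq_mul.1 h2
  have hθY : ∀ y ∈ pCore 2 H, θ y = 1 := by
    intro y hy
    rw [hθ]
    have : QuotientGroup.mk' (pCore 2 H) y = 1 := (QuotientGroup.eq_one_iff y).2 hy
    simp only [MonoidHom.comp_apply, this, map_one]
  obtain ⟨a, m, hm, hcard⟩ := Nat.exists_eq_two_pow_mul_odd
    (n := Nat.card (ZMod (Nat.card Rb))ˣ) Nat.card_pos.ne'
  refine ⟨(ZMod (Nat.card Rb))ˣ, inferInstance, inferInstance, (powMonoidHom m).comp θ, ?_⟩
  have hker : ∀ h : H, h ∈ ((powMonoidHom m).comp θ).ker ↔ θ h ^ m = 1 := by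
    intro h
    rw [MonoidHom.mem_ker]; rfl
  have hXL : X ≤ ((powMonoidHom m).comp θ).ker := by
    intro x hx
    rw [hker]
    apply eq_one_of_odd_of_two_pow hXodd (k := a)
    · rw [← pow_mul, mul_comm, pow_mul, ← map_pow]
      have : x ^ Nat.card X = 1 := by
        have := pow_card_eq_one' (x := (⟨x, hx⟩ : X))
        exact congrArg Subtype.val this
      rw [this, map_one, one_pow]
    · rw [← pow_mul, mul_comm, ← hcard]
      exact pow_card_eq_one'
  have hYL : pCore 2 H ≤ ((powMonoidHom m).comp θ).ker := by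
    intro y hy
    rw [hker, hθY y hy, one_pow]
  apply le_antisymm _ (sup_le hXL hYL)
  rw [← Subgroup.relIndex_eq_one]
  obtain ⟨k, hk⟩ := hXidx
  have h1 : (X ⊔ pCore 2 H).relIndex ((powMonoidHom m).comp θ).ker ∣ 2 ^ k := by
    rw [← hk]
    exact (Subgroup.relIndex_dvd_index_of_le (sup_le hXL hYL)).trans
      (Subgroup.index_dvd_of_le le_sup_left)
  have h2 : (X ⊔ pCore 2 H).relIndex ((powMonoidHom m).comp θ).ker ∣
      (pCore 2 H).relIndex ((powMonoidHom m).comp θ).ker :=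
    Subgroup.relIndex_dvd_of_le_left _ le_sup_right
  have h3 : Odd ((pCore 2 H).relIndex ((powMonoidHom m).comp θ).ker) := by
    rw [← Nat.not_even_iff_odd, even_iff_two_dvd]
    intro hdvd
    have hc : (pCore 2 H).relIndex ((powMonoidHom m).comp θ).ker =
        Nat.card (((powMonoidHom m).comp θ).ker.map (QuotientGroup.mk' (pCore 2 H))) := by
      rw [← Subgroup.relIndex_ker, QuotientGroup.ker_mk']
    rw [hc] at hdvd
    obtain ⟨⟨b, hb⟩, hb2⟩ := exists_prime_orderOf_dvd_card' 2 hdvd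
    obtain ⟨h, hh, rfl⟩ := hb
    have hb2' : orderOf (QuotientGroup.mk' (pCore 2 H) h) = 2 := by
      exact (Subgroup.orderOf_mk (QuotientGroup.mk' (pCore 2 H) h) _).symm.trans hb2
    have hθh : θ h = 1 := by
      apply eq_one_of_odd_of_two_pow hm ((hker h).1 hh) (k := 1)
      rw [pow_one, ← map_pow]
      apply hθY
      rw [← QuotientGroup.eq_one_iff]
      have := pow_orderOf_eq_one (QuotientGroup.mk' (pCore 2 H) h)
      rw [hb2'] at this
      exact this
    obtain ⟨⟨f, hf⟩, hf1⟩ : ∃ f : Rb, f ≠ 1 := by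
      have : Nontrivial Rb := by
        rw [← Finite.one_lt_card_iff_nontrivial]
        exact hRpr.one_lt
      exact exists_ne 1
    apply stage4b hsol hO hI _ f (Nat.card Rb) (hθ1 h hθh f hf) hb2' (fun h => hf1 (Subtype.ext h)) hRodd
    have := pow_card_eq_one' (x := (⟨f, hf⟩ : Rb))
    exact congrArg Subtype.val this
  have h4 : Nat.Coprime ((pCore 2 H).relIndex ((powMonoidHom m).comp θ).ker) (2 ^ k) :=
    Nat.Coprime.pow_right k (Nat.coprime_two_right.2 h3)
  exact Nat.eq_one_of_dvd_coprimes h4 h2 h1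

end aux

/-- Let H be a finite solvable group with no nontrivial normal subgroup of odd order in which the centralizer of every involution has a normal 2-complement. Let X be a Hall 2'-subgroup of H (odd order, index a power of 2) and Y = O₂(H). Then no non-identity element of X commutes with a non-identity element of Y (so for X ≠ 1 the group XY is a Frobenius group with kernel Y), every Sylow subgroup of X is cyclic, XY is normal in H, and H/XY is a cyclic 2-group. -/
theorem result {H : Type*} [Group H] [Finite H] (hsol : Group.IsSolvable H)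
    (hO : Cfsg.oddCore H = ⊥)
    (hI : ∀ t : H, orderOf t = 2 → Cfsg.HasNormalPComplement 2 ↥(Subgroup.centralizer ({t} : Set H)))
    (X : Subgroup H) (hXodd : Odd (Nat.card X)) (hXidx : ∃ k : ℕ, X.index = 2 ^ k) :
    (∀ x ∈ X, x ≠ 1 → ∀ y ∈ Cfsg.pCore 2 H, y ≠ 1 → x * y ≠ y * x) ∧
      (∀ (p : ℕ) [Fact p.Prime] (P : Sylow p ↥X), IsCyclic ↥(P : Subgroup ↥X)) ∧
      (X ⊔ Cfsg.pCore 2 H).Normal ∧
      ∀ hN : (X ⊔ Cfsg.pCore 2 H).Normal, IsCyclic (H ⧸ (X ⊔ Cfsg.pCore 2 H)) ∧ IsPGroup 2 (H ⧸ (X ⊔ Cfsg.pCore 2 H)) := by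
  have : Fact (Nat.Prime 2) := ⟨Nat.prime_two⟩
  have hodd : ∀ x ∈ X, Odd (orderOf x) := by
    intro x hx
    apply Odd.of_dvd_nat hXodd
    have := orderOf_dvd_natCard (⟨x, hx⟩ : X)
    rwa [Subgroup.orderOf_mk] at this
  obtain ⟨C, _, hC, φ, hφ⟩ := stage4 hsol hO hI X hXodd hXidx
  refine ⟨?_, ?_, ?_, ?_⟩
  · intro x hx hx1 y hy hy1 hxy
    exact hx1 (stage1 hsol hO hI x y (hodd x hx) hy hy1 hxy)
  · intro p _ P
    by_cases hp2 : p = 2
    · subst hp2
      have hsub : Subsingleton (P : Subgroup ↥X) := by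
        constructor
        intro a b
        have h1 : ∀ c : (P : Subgroup ↥X), c = 1 := by
          intro c
          obtain ⟨j, hj⟩ := P.2 c
          apply eq_one_of_odd_of_two_pow hXodd _ hj
          apply Subtype.ext
          exact pow_card_eq_one' (x := (c : ↥X))
        rw [h1 a, h1 b]
      infer_instance
    · have h1 : IsPGroup p ((P : Subgroup ↥X).map X.subtype) := P.2.map _
      have h2 := stage3 hsol hO hI hp2 _ h1
      exact isCyclic_of_injective ((X.subtype).subgroupMap (P : Subgroup ↥X))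
        (by
          intro a b hab
          have := congrArg Subtype.val hab
          exact Subtype.ext (X.subtype_injective this))
  · rw [← hφ]; infer_instance
  · intro hN
    constructor
    · have hle : X ⊔ Cfsg.pCore 2 H ≤ φ.ker := hφ.ge
      apply isCyclic_of_injective (QuotientGroup.lift (X ⊔ Cfsg.pCore 2 H) φ (fun x hx => hle hx))
      rw [injective_iff_map_eq_one]
      intro q
      induction q using QuotientGroup.induction_on with
      | H z =>
        intro hz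
        rw [QuotientGroup.lift_mk] at hz
        rw [QuotientGroup.eq_one_iff, ← hφ]
        exact hz
    · obtain ⟨k, hk⟩ := hXidx
      have h1 : (X ⊔ Cfsg.pCore 2 H).index ∣ 2 ^ k := by
        rw [← hk]; exact Subgroup.index_dvd_of_le le_sup_left
      obtain ⟨j, -, hj⟩ := (Nat.dvd_prime_pow Nat.prime_two).1 h1
      apply IsPGroup.of_card (n := j)
      rw [← hj, Subgroup.index_eq_card]

end Cfsg.Agent.S3215
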