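import Cfsg.Statements.S3224
import Cfsg.Agent.Lib.Helper54.Dihedral
-- import your own Cfsg.Agent.* helpers here

set_option autoImplicit false
open Cfsg

namespace Cfsg.Agent.S3224

universe u

open Subgroup

/-- The centre has order two. -/
theorem card_center {S : Type u} [Group S] [Finite S] (hS : IsPGroup 2 S)
    (x : S) (hC : Nat.card ↥(centralizer ({x} : Set S)) = 4) (h8 : 8 ≤ Nat.card S) :
    Nat.card (center S) = 2 ∧ x ∉ center S := by
  have : Fact (Nat.Prime 2) := ⟨Nat.prime_two⟩
  have hxZ : x ∉ center S := by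
    intro hx
    have : centralizer ({x} : Set S) = ⊤ := by
      rw [centralizer_eq_top_iff_subset]
      simpa using hx
    rw [this, card_top] at hC
    omega
  refine ⟨?_, hxZ⟩
  have hle : center S ≤ centralizer ({x} : Set S) := center_le_centralizer _
  have hdvd : Nat.card (center S) ∣ 4 := hC ▸ card_dvd_of_le hle
  have hne4 : Nat.card (center S) ≠ 4 := by
    intro h4
    have : center S = centralizer ({x} : Set S) := eq_of_le_of_card_ge hle (by rw [h4, hC])
    apply hxZ
    rw [this, mem_centralizer_singleton_iff]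
  have hne1 : Nat.card (center S) ≠ 1 := by
    have : Nontrivial S := by
      rw [← Finite.one_lt_card_iff_nontrivial]; omega
    have := hS.center_nontrivial
    have := Finite.one_lt_card_iff_nontrivial.2 this
    omega
  have hle4 : Nat.card (center S) ≤ 4 := Nat.le_of_dvd (by norm_num) hdvd
  interval_cases h : Nat.card (center S) <;> simp_all

/-- The commutator-with-`x` homomorphism on the preimage of the centraliser of the image of `x`. -/
noncomputable def commHom {S : Type u} [Group S] (x : S) :
    ↥((centralizer ({(x : S ⧸ center S)} : Set (S ⧸ center S))).comap (QuotientGroup.mk' (center S)))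
      →* ↥(center S) :=
  MonoidHom.mk' (fun g => ⟨(g : S) * x * (g : S)⁻¹ * x⁻¹, by
      have hg := g.2
      rw [mem_comap, mem_centralizer_singleton_iff] at hg
      rw [← QuotientGroup.eq_one_iff]
      have h2 : ((g : S) : S ⧸ center S) * (x : S ⧸ center S) =
          (x : S ⧸ center S) * ((g : S) : S ⧸ center S) := hg
      simp only [QuotientGroup.mk_mul, QuotientGroup.mk_inv]
      rw [h2]; group⟩) (by
    intro g h
    apply Subtype.ext
    have hh : (h : S) * x * (h : S)⁻¹ * x⁻¹ ∈ center S := by
      have hg := h.2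
      rw [mem_comap, mem_centralizer_singleton_iff] at hg
      rw [← QuotientGroup.eq_one_iff]
      have h2 : ((h : S) : S ⧸ center S) * (x : S ⧸ center S) =
          (x : S ⧸ center S) * ((h : S) : S ⧸ center S) := hg
      simp only [QuotientGroup.mk_mul, QuotientGroup.mk_inv]
      rw [h2]; group
    have hc := (mem_center_iff.1 hh) (g : S)
    simp only [Subgroup.coe_mul]
    calc (g : S) * (h : S) * x * ((g : S) * (h : S))⁻¹ * x⁻¹
        = ((g : S) * ((h : S) * x * (h : S)⁻¹ * x⁻¹)) * x * (g : S)⁻¹ * x⁻¹ := by group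
      _ = (((h : S) * x * (h : S)⁻¹ * x⁻¹) * (g : S)) * x * (g : S)⁻¹ * x⁻¹ := by rw [hc]
      _ = ((h : S) * x * (h : S)⁻¹ * x⁻¹) * ((g : S) * x * (g : S)⁻¹ * x⁻¹) := by group
      _ = ((g : S) * x * (g : S)⁻¹ * x⁻¹) * ((h : S) * x * (h : S)⁻¹ * x⁻¹) :=
          ((mem_center_iff.1 hh) _).symm)

theorem card_centralizer_quotient {S : Type u} [Group S] [Finite S] (hS : IsPGroup 2 S)
    (x : S) (hx : orderOf x = 2) (hC : Nat.card ↥(centralizer ({x} : Set S)) = 4)
    (h8 : 8 ≤ Nat.card S) :
    Nat.card (centralizer ({(x : S ⧸ center S)} : Set (S ⧸ center S))) = 4 := by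
  have : Fact (Nat.Prime 2) := ⟨Nat.prime_two⟩
  obtain ⟨hZ, hxZ⟩ := card_center hS x hC h8
  set Q := S ⧸ center S with hQ
  set xb : Q := (x : S ⧸ center S) with hxb
  set Cb := centralizer ({xb} : Set Q) with hCb
  set N := Cb.comap (QuotientGroup.mk' (center S)) with hN
  have hcardQ : Nat.card S = Nat.card Q * 2 := by
    rw [← hZ]; exact card_eq_card_quotient_mul_card_subgroup (center S)
  -- upper bound
  have hNcard : Nat.card N = Nat.card Cb * 2 := by
    have h1 : N.index = Cb.index :=
      index_comap_of_surjective Cb (QuotientGroup.mk'_surjective (center S))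
    have h2 := card_mul_index N
    have h3 := card_mul_index Cb
    rw [h1] at h2
    have h4 : Cb.index ≠ 0 := index_ne_zero_of_finite
    have : Nat.card N * Cb.index = (Nat.card Cb * 2) * Cb.index := by
      rw [h2, hcardQ, ← h3]; ring
    exact Nat.eq_of_mul_eq_mul_right (Nat.pos_of_ne_zero h4) this
  have hupper : Nat.card N ≤ 8 := by
    have h1 := card_mul_index (commHom x).ker
    rw [index_ker] at h1
    have h2 : Nat.card (commHom x).range ≤ 2 := by
      rw [← hZ]; exact card_le_card_group _
    have h3 : Nat.card (commHom x).ker ≤ 4 := by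
      rw [← hC]
      refine Nat.card_le_card_of_injective
        (fun g => (⟨((g : N) : S), ?_⟩ : centralizer ({x} : Set S))) ?_
      · have hg := g.2
        rw [MonoidHom.mem_ker] at hg
        have hg' : (((g : N) : S)) * x * ((g : N) : S)⁻¹ * x⁻¹ = 1 := congrArg Subtype.val hg
        rw [mem_centralizer_singleton_iff]
        have := mul_inv_eq_one.1 hg'
        exact mul_inv_eq_iff_eq_mul.1 this
      · intro g h hgh
        have : ((g : N) : S) = ((h : N) : S) := by simpa using congrArg Subtype.val hgh
        exact Subtype.ext (Subtype.ext this)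
    calc Nat.card N = Nat.card (commHom x).ker * Nat.card (commHom x).range := h1.symm
      _ ≤ 4 * 2 := Nat.mul_le_mul h3 h2
  have hle4 : Nat.card Cb ≤ 4 := by omega
  -- lower bound
  have hQp : IsPGroup 2 Q := hS.to_quotient _
  have hxb1 : xb ≠ 1 := by
    rw [hxb, Ne, QuotientGroup.eq_one_iff]; exact hxZ
  have hxbmem : xb ∈ Cb := by rw [hCb, mem_centralizer_singleton_iff]
  obtain ⟨k, hk⟩ := (hQp.to_subgroup Cb).exists_card_eq
  have hne1 : Nat.card Cb ≠ 1 := by
    intro h1
    rw [card_eq_one] at h1
    rw [h1, mem_bot] at hxbmem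
    exact hxb1 hxbmem
  have hne2 : Nat.card Cb ≠ 2 := by
    intro h2
    have : Nontrivial Q := by
      rw [← Finite.one_lt_card_iff_nontrivial]; omega
    have hnt := hQp.center_nontrivial
    obtain ⟨c, hc⟩ := exists_ne (1 : center Q)
    have hcC : (c : Q) ∈ Cb := center_le_centralizer _ c.2
    have hc1 : (c : Q) ≠ 1 := fun h => hc (Subtype.ext h)
    -- in a group of order two the two nontrivial elements agree
    have heq : (c : Q) = xb := by
      obtain ⟨y, -, hy⟩ := (Nat.card_eq_two_iff' (1 : Cb)).1 h2
      have e1 := hy ⟨(c : Q), hcC⟩ (fun h => hc1 (congrArg Subtype.val h))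
      have e2 := hy ⟨xb, hxbmem⟩ (fun h => hxb1 (congrArg Subtype.val h))
      exact congrArg Subtype.val (e1.trans e2.symm)
    have hxc : xb ∈ center Q := heq ▸ c.2
    have : Cb = ⊤ := by
      rw [hCb, centralizer_eq_top_iff_subset]
      simpa using hxc
    rw [this, card_top] at h2
    omega
  have hk2 : k ≤ 2 := by
    by_contra hlt
    push Not at hlt
    have : 2 ^ 3 ≤ 2 ^ k := Nat.pow_le_pow_right (by norm_num) hlt
    omega
  interval_cases k
  · exact absurd hk hne1
  · exact absurd hk hne2
  · exact hk

/-- Two elements of `C(x)` outside the centre have their product in the centre. -/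
theorem mul_mem_center {S : Type u} [Group S] [Finite S] (hS : IsPGroup 2 S)
    (x : S) (hC : Nat.card ↥(centralizer ({x} : Set S)) = 4) (h8 : 8 ≤ Nat.card S)
    {u v : S} (hu : u * x = x * u) (hv : v * x = x * v) (hu' : u ∉ center S) (hv' : v ∉ center S) :
    u * v ∈ center S := by
  obtain ⟨hZ, -⟩ := card_center hS x hC h8
  have hle : center S ≤ centralizer ({x} : Set S) := center_le_centralizer _
  have hidx : ((center S).subgroupOf (centralizer ({x} : Set S))).index = 2 := by
    change (center S).relIndex (centralizer ({x} : Set S)) = 2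
    have h1 := relIndex_mul_index hle
    have h2 := card_mul_index (center S)
    have h3 := card_mul_index (centralizer ({x} : Set S))
    rw [hZ] at h2
    rw [hC] at h3
    have h4 : (centralizer ({x} : Set S)).index ≠ 0 := index_ne_zero_of_finite
    have : (center S).relIndex (centralizer ({x} : Set S)) * (centralizer ({x} : Set S)).index
        = 2 * (centralizer ({x} : Set S)).index := by
      rw [h1]; omega
    exact Nat.eq_of_mul_eq_mul_right (Nat.pos_of_ne_zero h4) this
  have hum : u ∈ centralizer ({x} : Set S) := mem_centralizer_singleton_iff.2 hu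
  have hvm : v ∈ centralizer ({x} : Set S) := mem_centralizer_singleton_iff.2 hv
  have := mul_mem_iff_of_index_two hidx (a := ⟨u, hum⟩) (b := ⟨v, hvm⟩)
  simp only [mem_subgroupOf, Subgroup.coe_mul] at this
  exact this.2 ⟨fun h => absurd h hu', fun h => absurd h hv'⟩

theorem sq_eq_one_of_mem_center {S : Type u} [Group S] [Finite S]
    (hZ : Nat.card (center S) = 2) {c : S} (hc : c ∈ center S) : c ^ 2 = 1 := by
  have := pow_card_eq_one' (G := center S) (x := ⟨c, hc⟩)
  rw [hZ] at this
  exact congrArg Subtype.val this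

/-- base case: order eight. -/
theorem exists_cyclic_eight {S : Type u} [Group S] [Finite S] (hS : IsPGroup 2 S)
    (x : S) (hx : orderOf x = 2) (hC : Nat.card ↥(centralizer ({x} : Set S)) = 4)
    (h8 : Nat.card S = 8) : ∃ a : S, 2 * orderOf a = 8 ∧ x ∉ zpowers a := by
  obtain ⟨hZ, hxZ⟩ := card_center hS x hC h8.ge
  have hx2 : x ^ 2 = 1 := by rw [← hx]; exact pow_orderOf_eq_one x
  have hex : ∃ a : S, a ^ 2 ≠ 1 := by
    by_contra hcon
    push Not at hcon
    apply hxZ
    rw [mem_center_iff]
    intro g
    have h1 := hcon (g * x)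
    have h2 := hcon g
    have hg : g⁻¹ = g := by rw [inv_eq_iff_mul_eq_one, ← pow_two]; exact h2
    have hxi : x⁻¹ = x := by rw [inv_eq_iff_mul_eq_one, ← pow_two]; exact hx2
    have h3 : (g * x)⁻¹ = g * x := by rw [inv_eq_iff_mul_eq_one, ← pow_two]; exact h1
    rw [mul_inv_rev, hg, hxi] at h3
    exact h3.symm
  obtain ⟨a, ha⟩ := hex
  have haZ : a ∉ center S := fun h => ha (sq_eq_one_of_mem_center hZ h)
  have hnc : ¬ (a * x = x * a) := by
    intro hcomm
    have h1 := mul_mem_center hS x hC h8.ge rfl hcomm hxZ haZ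
    have h2 := sq_eq_one_of_mem_center hZ h1
    have hcomm' : Commute x a := hcomm.symm
    rw [hcomm'.mul_pow, hx2, one_mul] at h2
    exact ha h2
  have hxa : x ∉ zpowers a := by
    intro hmem
    obtain ⟨k, hk⟩ := mem_zpowers_iff.1 hmem
    apply hnc
    rw [← hk]
    exact ((Commute.refl a).zpow_right k).eq
  refine ⟨a, ?_, hxa⟩
  have hdvd : orderOf a ∣ 8 := h8 ▸ orderOf_dvd_natCard a
  have hle : orderOf a ≤ 8 := Nat.le_of_dvd (by norm_num) hdvd
  have hne8 : orderOf a ≠ 8 := by
    intro h
    apply hxa
    have : zpowers a = ⊤ := by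
      apply eq_top_of_card_eq
      rw [Nat.card_zpowers, h, h8]
    rw [this]; exact mem_top x
  have hne1 : orderOf a ≠ 1 := by
    intro h
    rw [orderOf_eq_one_iff] at h
    exact ha (by rw [h, one_pow])
  have hne2 : orderOf a ≠ 2 := by
    intro h
    exact ha (by rw [← h]; exact pow_orderOf_eq_one a)
  interval_cases h : orderOf a <;> simp_all

/-- Existence of a cyclic subgroup of index two avoiding `x`. -/
theorem exists_cyclic : ∀ (n : ℕ) (S : Type u) [Group S] [Finite S], Nat.card S = n → IsPGroup 2 S →
    ∀ x : S, orderOf x = 2 → Nat.card ↥(centralizer ({x} : Set S)) = 4 → 8 ≤ n →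
    ∃ a : S, 2 * orderOf a = n ∧ x ∉ zpowers a := by
  intro n
  induction n using Nat.strong_induction_on with
  | _ n ih =>
    intro S _ _ hn hS x hx hC h8
    have : Fact (Nat.Prime 2) := ⟨Nat.prime_two⟩
    have h8' : 8 ≤ Nat.card S := hn ▸ h8
    obtain ⟨hZ, hxZ⟩ := card_center hS x hC h8'
    have hCb := card_centralizer_quotient hS x hx hC h8'
    have hcardQ : Nat.card S = Nat.card (S ⧸ center S) * 2 := by
      rw [← hZ]; exact card_eq_card_quotient_mul_card_subgroup (center S)
    have hx2 : x ^ 2 = 1 := by rw [← hx]; exact pow_orderOf_eq_one x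
    have hxb1 : (x : S ⧸ center S) ≠ 1 := by
      rw [Ne, QuotientGroup.eq_one_iff]; exact hxZ
    have hxb : orderOf (x : S ⧸ center S) = 2 := by
      apply orderOf_eq_prime _ hxb1
      rw [← QuotientGroup.mk_pow, hx2]; rfl
    by_cases hQ8 : 8 ≤ Nat.card (S ⧸ center S)
    · -- inductive step
      obtain ⟨ab, hab, hxab⟩ := ih (Nat.card (S ⧸ center S)) (by omega) (S ⧸ center S) rfl
        (hS.to_quotient _) (x : S ⧸ center S) hxb hCb hQ8
      obtain ⟨a, rfl⟩ := QuotientGroup.mk_surjective ab
      set m := orderOf (a : S ⧸ center S) with hm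
      have hxa : x ∉ zpowers a := by
        intro hmem
        obtain ⟨k, hk⟩ := mem_zpowers_iff.1 hmem
        apply hxab
        rw [← hk, QuotientGroup.mk_zpow]
        exact zpow_mem (mem_zpowers _) k
      have hamZ : a ^ m ∈ center S := by
        rw [← QuotientGroup.eq_one_iff, QuotientGroup.mk_pow, hm]
        exact pow_orderOf_eq_one _
      have ha2m : a ^ (m * 2) = 1 := by
        rw [pow_mul]; exact sq_eq_one_of_mem_center hZ hamZ
      have hd1 : orderOf a ∣ m * 2 := orderOf_dvd_of_pow_eq_one ha2m
      have hd2 : m ∣ orderOf a := orderOf_map_dvd (QuotientGroup.mk' (center S)) a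
      obtain ⟨t, ht⟩ := hd2
      have hmpos : 0 < m := orderOf_pos _
      have ht2 : t ∣ 2 := by
        rw [ht] at hd1
        exact Nat.dvd_of_mul_dvd_mul_left hmpos hd1
      have ht' : t = 1 ∨ t = 2 := (Nat.dvd_prime Nat.prime_two).1 ht2
      rcases ht' with rfl | rfl
      · -- impossible case
        exfalso
        rw [mul_one] at ht
        -- m is a power of two, at least four
        obtain ⟨j, hj⟩ := (hS.to_quotient (center S)).exists_card_eq
        have hj3 : 3 ≤ j := by
          by_contra hlt
          push Not at hlt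
          have : 2 ^ j ≤ 2 ^ 2 := Nat.pow_le_pow_right (by norm_num) (by omega)
          omega
        obtain ⟨i, rfl⟩ : ∃ i, j = i + 3 := ⟨j - 3, by omega⟩
        have hm4 : m = 2 * (2 * 2 ^ i) := by
          have : 2 * m = 2 ^ (i + 3) := by rw [hab, hj]
          rw [pow_add] at this
          omega
        set h := 2 * 2 ^ i with hh
        have hhpos : 0 < h := by positivity
        set b := a ^ h with hb
        have hb2 : b ^ 2 = 1 := by
          rw [hb, ← pow_mul, mul_comm, ← hm4, ← ht]; exact pow_orderOf_eq_one a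
        have hbZ : b ∉ center S := by
          rw [← QuotientGroup.eq_one_iff, hb, QuotientGroup.mk_pow]
          intro h1
          have := orderOf_dvd_of_pow_eq_one h1
          rw [← hm] at this
          have := Nat.le_of_dvd hhpos this
          omega
        have hb1 : b ≠ 1 := fun h1 => hbZ (h1 ▸ one_mem _)
        -- normality of the cyclic subgroup of the quotient
        have hidx : (zpowers (a : S ⧸ center S)).index = 2 := by
          have h1 := card_mul_index (zpowers (a : S ⧸ center S))
          rw [Nat.card_zpowers, ← hm, ← hab] at h1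
          have : m * (zpowers (a : S ⧸ center S)).index = m * 2 := by rw [h1]; ring
          exact Nat.eq_of_mul_eq_mul_left hmpos this
        have hnorm : (zpowers (a : S ⧸ center S)).Normal := normal_of_index_eq_two hidx
        have hconj := hnorm.conj_mem _ (mem_zpowers (a : S ⧸ center S)) (x : S ⧸ center S)
        obtain ⟨k, hk⟩ := mem_zpowers_iff.1 hconj
        have hc : x * a * x⁻¹ * (a ^ k)⁻¹ ∈ center S := by
          rw [← QuotientGroup.eq_one_iff]
          simp only [QuotientGroup.mk_mul, QuotientGroup.mk_inv, QuotientGroup.mk_zpow]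
          rw [hk]; group
        set c := x * a * x⁻¹ * (a ^ k)⁻¹ with hcdef
        have hc2 : c ^ 2 = 1 := sq_eq_one_of_mem_center hZ hc
        have hxax : x * a * x⁻¹ = c * a ^ k := by rw [hcdef]; group
        have hcomm : Commute c (a ^ k) := ((mem_center_iff.1 hc) (a ^ k)).symm
        have hxbx : x * b * x⁻¹ = b ^ k := by
          rw [hb, ← conj_pow, hxax, hcomm.mul_pow, hh, pow_mul c, hc2, one_pow, one_mul,
            ← zpow_natCast, ← zpow_natCast, ← zpow_mul, ← zpow_mul, mul_comm]
        have hbk : b ^ k = b := by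
          rcases Int.even_or_odd' k with ⟨l, rfl | rfl⟩
          · exfalso
            rw [zpow_mul, zpow_ofNat, hb2, one_zpow] at hxbx
            apply hb1
            have : x * b * x⁻¹ = x * 1 * x⁻¹ := by rw [hxbx]; group
            exact mul_left_cancel (mul_right_cancel this)
          · rw [zpow_add, zpow_mul, zpow_ofNat, hb2, one_zpow, one_mul, zpow_one]
        rw [hbk] at hxbx
        have hbx : b * x = x * b := (mul_inv_eq_iff_eq_mul.1 hxbx).symm
        have hprod := mul_mem_center hS x hC h8' rfl hbx hxZ hbZ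
        apply hxab
        rw [← QuotientGroup.eq_one_iff, QuotientGroup.mk_mul] at hprod
        rw [eq_inv_of_mul_eq_one_left hprod, hb, QuotientGroup.mk_pow]
        exact inv_mem (pow_mem (mem_zpowers _) _)
      · exact ⟨a, by rw [ht, ← hn, hcardQ, ← hab]; ring, hxa⟩
    · -- base case
      have hS8 : Nat.card S = 8 := by
        obtain ⟨j, hj⟩ := hS.exists_card_eq
        have h16 : Nat.card S < 16 := by omega
        rw [hj] at h16 h8' ⊢
        have hj4 : j < 4 := by
          by_contra hlt
          push Not at hlt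
          have : 2 ^ 4 ≤ 2 ^ j := Nat.pow_le_pow_right (by norm_num) hlt
          omega
        interval_cases j <;> omega
      obtain ⟨a, ha, hxa⟩ := exists_cyclic_eight hS x hx hC hS8
      exact ⟨a, by rw [ha, ← hn, hS8], hxa⟩

/-- Every element of `C(x)` squares to one. -/
theorem sq_eq_one_of_comm {S : Type u} [Group S] [Finite S] (hS : IsPGroup 2 S)
    (x : S) (hx : orderOf x = 2) (hC : Nat.card ↥(centralizer ({x} : Set S)) = 4)
    (h8 : 8 ≤ Nat.card S) {u : S} (hu : u * x = x * u) : u ^ 2 = 1 := by
  obtain ⟨hZ, hxZ⟩ := card_center hS x hC h8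
  have hx2 : x ^ 2 = 1 := by rw [← hx]; exact pow_orderOf_eq_one x
  by_cases huZ : u ∈ center S
  · exact sq_eq_one_of_mem_center hZ huZ
  · have h1 := mul_mem_center hS x hC h8 rfl hu hxZ huZ
    have h2 := sq_eq_one_of_mem_center hZ h1
    have hcomm' : Commute x u := hu.symm
    rwa [hcomm'.mul_pow, hx2, one_mul] at h2

/-- A finite 2-group containing an involution whose centralizer has order 4 is dihedral, quasi-dihedral (semidihedral), or of order 4. -/
theorem result {S : Type*} [Group S] [Finite S] (hS : IsPGroup 2 S)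
    (x : S) (hx : orderOf x = 2) (hC : Nat.card ↥(Subgroup.centralizer ({x} : Set S)) = 4) :
    (∃ n : ℕ, Nonempty (S ≃* DihedralGroup n)) ∨ Cfsg.IsQuasiDihedral S ∨ Nat.card S = 4 := by
  classical
  by_cases h8 : 8 ≤ Nat.card S
  · obtain ⟨a, ha, hxa⟩ := exists_cyclic _ S rfl hS x hx hC h8
    have hx2 : x ^ 2 = 1 := by rw [← hx]; exact pow_orderOf_eq_one x
    have hxx : x * x = 1 := by rw [← pow_two]; exact hx2
    have hxi : x⁻¹ = x := by rw [inv_eq_iff_mul_eq_one]; exact hxx
    set m := orderOf a with hm
    have hmpos : 0 < m := orderOf_pos _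
    have hidx : (zpowers a).index = 2 := by
      have h1 := card_mul_index (zpowers a)
      rw [Nat.card_zpowers, ← hm, ← ha] at h1
      have : m * (zpowers a).index = m * 2 := by rw [h1]; ring
      exact Nat.eq_of_mul_eq_mul_left hmpos this
    have hnorm : (zpowers a).Normal := normal_of_index_eq_two hidx
    have hconj := hnorm.conj_mem _ (mem_zpowers a) x
    obtain ⟨k, hk⟩ := mem_zpowers_iff.1 hconj
    set c := a * (x * a * x⁻¹) with hc
    have hak : a ^ k * a = a * a ^ k := ((Commute.refl a).zpow_left k).eq
    have hck : c = a ^ (k + 1) := by rw [hc, ← hk, zpow_add, zpow_one, hak]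
    have hcx : c * x = x * c := by
      have h1 : x * c * x⁻¹ = c := by
        calc x * c * x⁻¹ = (x * a * x⁻¹) * ((x * x) * a * (x * x)⁻¹) := by rw [hc]; group
          _ = (x * a * x⁻¹) * a := by rw [hxx]; group
          _ = c := by rw [hc, ← hk, hak]
      exact (mul_inv_eq_iff_eq_mul.1 h1).symm
    have hc2 : c ^ 2 = 1 := sq_eq_one_of_comm hS x hx hC h8 hcx
    -- natural exponent
    obtain ⟨i, hi, hci⟩ : ∃ i < m, a ^ i = c := by
      have hmem : c ∈ Submonoid.powers a := by
        rw [mem_powers_iff_mem_zpowers, hck]; exact zpow_mem (mem_zpowers a) _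
      rw [mem_powers_iff_mem_range_orderOf] at hmem
      obtain ⟨i, hi, hci⟩ := Finset.mem_image.1 hmem
      exact ⟨i, Finset.mem_range.1 hi, hci⟩
    have hdvd : m ∣ i * 2 := by
      apply orderOf_dvd_of_pow_eq_one
      rw [pow_mul, hci, hc2]
    have hxax : x * a * x⁻¹ = a⁻¹ * a ^ i := by rw [hci, hc]; group
    obtain ⟨t, ht⟩ := hdvd
    have ht2 : t < 2 := by
      by_contra hlt
      push Not at hlt
      have : m * 2 ≤ m * t := Nat.mul_le_mul_left m hlt
      omega
    interval_cases t
    · -- dihedral
      left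
      have hi0 : i = 0 := by omega
      rw [hi0, pow_zero, mul_one] at hxax
      exact ⟨m, Cfsg.Agent.Lib.Helper54.nonempty_mulEquiv_dihedralGroup m a x hm.symm hxx hxax hxa
        ha.symm⟩
    · -- semidihedral
      right; left
      obtain ⟨j, hj⟩ := hS.exists_card_eq
      have hj3 : 3 ≤ j := by
        by_contra hlt
        push Not at hlt
        have : 2 ^ j ≤ 2 ^ 2 := Nat.pow_le_pow_right (by norm_num) (by omega)
        omega
      obtain ⟨l, rfl⟩ : ∃ l, j = l + 3 := ⟨j - 3, by omega⟩
      have hm4 : m = 2 ^ (l + 2) := by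
        have : 2 * m = 2 ^ (l + 3) := by rw [ha, hj]
        rw [pow_succ] at this
        omega
      have hi2 : i = 2 ^ (l + 1) := by
        rw [hm4, pow_succ] at ht
        omega
      have hipos : 0 < i := by rw [hi2]; positivity
      have hxax' : x * a * x⁻¹ = a ^ (i - 1) := by
        rw [hxax]
        obtain ⟨i', rfl⟩ : ∃ i', i = i' + 1 := ⟨i - 1, by omega⟩
        rw [pow_succ', inv_mul_cancel_left]; rfl
      have hl : 1 ≤ l := by
        by_contra hlt
        have hl0 : l = 0 := by omega
        subst hl0
        have hi2' : i = 2 := by simpa using hi2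
        rw [hi2'] at hxax'
        have hcomm : a * x = x * a := by
          have : x * a * x⁻¹ = a := by simpa using hxax'
          exact (mul_inv_eq_iff_eq_mul.1 this).symm
        have ha2 := sq_eq_one_of_comm hS x hx hC h8 hcomm
        have := orderOf_dvd_of_pow_eq_one ha2
        rw [← hm, hm4] at this
        norm_num at this
      refine ⟨l + 2, by omega, hj, a, x, hm4 ▸ hm.symm, hx, ?_⟩
      rw [hxax', hi2]; rfl
  · right; right
    have hdvd : 4 ∣ Nat.card S := hC ▸ card_subgroup_dvd_card _
    have hpos : 0 < Nat.card S := Nat.card_pos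
    obtain ⟨t, ht⟩ := hdvd
    omega

end Cfsg.Agent.S3224
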