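import Cfsg.Statements.S3225
import Mathlib.GroupTheory.Transfer
-- import your own Cfsg.Agent.* helpers here

set_option autoImplicit false
open Cfsg

namespace Cfsg.Agent.S3225

/-- The sign homomorphism attached to a subgroup of index two. -/
noncomputable def signHom {H : Type*} [Group H] (K : Subgroup H) (hK : K.index = 2) : H →* ℤˣ := by
  classical
  exact MonoidHom.mk' (fun h => if h ∈ K then 1 else -1) (by
    intro a b
    have := Subgroup.mul_mem_iff_of_index_two hK (a := a) (b := b)
    by_cases ha : a ∈ K <;> by_cases hb : b ∈ K <;> simp [this, ha, hb])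

theorem signHom_of_mem {H : Type*} [Group H] (K : Subgroup H) (hK : K.index = 2) {h : H}
    (hh : h ∈ K) : signHom K hK h = 1 := by
  classical
  simp [signHom, hh]

theorem signHom_of_not_mem {H : Type*} [Group H] (K : Subgroup H) (hK : K.index = 2) {h : H}
    (hh : h ∉ K) : signHom K hK h = -1 := by
  classical
  simp [signHom, hh]

/-- Let G be a finite group of even order with no subgroup of index 2, S a Sylow 2-subgroup of G and M a subgroup of index 2 in S such that, for some n ≥ 1, every element of S outside M has order greater than 2^(n−1). Then every element of S of order 2ⁿ is conjugate in G to an element of M. -/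
theorem result {G : Type*} [Group G] [Finite G] (hev : Even (Nat.card G))
    (hG : ∀ H : Subgroup G, H.index ≠ 2) (S : Sylow 2 G) (M : Subgroup G) (hMS : M ≤ (S : Subgroup G)) (hM : M.relIndex (S : Subgroup G) = 2)
    (n : ℕ) (hn : 1 ≤ n) (hord : ∀ y ∈ (S : Subgroup G), y ∉ M → 2 ^ (n - 1) < orderOf y)
    (x : G) (hx : x ∈ (S : Subgroup G)) (hxn : orderOf x = 2 ^ n) :
    ∃ g : G, g * x * g⁻¹ ∈ M := by
  classical
  by_contra hcon
  push Not at hcon
  have : Fact (Nat.Prime 2) := ⟨Nat.prime_two⟩
  have hK : (M.subgroupOf (S : Subgroup G)).index = 2 := hM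
  set ϕ : (S : Subgroup G) →* ℤˣ := signHom (M.subgroupOf (S : Subgroup G)) hK with hϕ
  have : Fintype (Quotient (MulAction.orbitRel (Subgroup.zpowers x) (G ⧸ (S : Subgroup G)))) :=
    Fintype.ofFinite _
  have key : MonoidHom.transfer ϕ x = -1 := by
    rw [MonoidHom.transfer_eq_prod_quotient_orbitRel_zpowers_quot]
    have hterm : ∀ q : Quotient (MulAction.orbitRel (Subgroup.zpowers x) (G ⧸ (S : Subgroup G))),
        ϕ ⟨q.out.out⁻¹ * x ^ Function.minimalPeriod (x • ·) q.out * q.out.out,
            QuotientGroup.out_conj_pow_minimalPeriod_mem (S : Subgroup G) x q.out⟩ =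
          (-1 : ℤˣ) ^ Function.minimalPeriod (x • ·) q.out := by
      intro q
      set k := Function.minimalPeriod (x • ·) q.out with hk
      set g := q.out.out with hg
      have hmem : g⁻¹ * x ^ k * g ∈ (S : Subgroup G) :=
        QuotientGroup.out_conj_pow_minimalPeriod_mem (S : Subgroup G) x q.out
      have hkdvd : k ∣ 2 ^ n := by
        rw [← hxn]
        apply Function.IsPeriodicPt.minimalPeriod_dvd
        change (x • ·)^[orderOf x] q.out = q.out
        rw [smul_iterate, pow_orderOf_eq_one]
        exact one_smul _ _
      obtain ⟨j, hjn, hkj⟩ := (Nat.dvd_prime_pow Nat.prime_two).1 hkdvd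
      rcases Nat.eq_zero_or_pos j with hj0 | hjpos
      · -- period one
        have hk1 : k = 1 := by rw [hkj, hj0, pow_zero]
        have hnot : g⁻¹ * x ^ k * g ∉ M := by
          have := hcon g⁻¹
          rw [inv_inv] at this
          rwa [hk1, pow_one]
        rw [hϕ, signHom_of_not_mem _ _ (by
          rw [Subgroup.mem_subgroupOf]; exact hnot), ← hk, hk1, pow_one]
      · -- even period
        have hmemM : g⁻¹ * x ^ k * g ∈ M := by
          by_contra hnot
          have h1 := hord _ hmem hnot
          have h2 : orderOf (g⁻¹ * x ^ k * g) = orderOf (x ^ k) := by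
            have := orderOf_injective (MulAut.conj g⁻¹).toMonoidHom (MulAut.conj g⁻¹).injective (x ^ k)
            simpa [MulAut.conj_apply] using this
          have h3 : orderOf (x ^ k) = 2 ^ (n - j) := by
            rw [orderOf_pow_of_dvd (by rw [hkj]; positivity) (by rw [hxn]; exact hkdvd), hxn, hkj]
            exact Nat.pow_div hjn (by norm_num)
          rw [h2, h3] at h1
          have : n - j ≤ n - 1 := by omega
          exact absurd (Nat.pow_le_pow_right (by norm_num : 0 < 2) this) (not_le.2 h1)
        rw [hϕ, signHom_of_mem _ _ (by rw [Subgroup.mem_subgroupOf]; exact hmemM)]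
        have hev : Even k := by
          rw [hkj]
          exact (Nat.even_pow.2 ⟨even_two, by omega⟩)
        exact (hev.neg_one_pow).symm
    rw [Finset.prod_congr rfl (fun q _ => hterm q), Finset.prod_pow_eq_pow_sum,
      ← Subgroup.index_eq_sum_minimalPeriod (S : Subgroup G) x]
    have hodd : Odd (S : Subgroup G).index := by
      rw [← Nat.not_even_iff_odd, even_iff_two_dvd]
      exact S.not_dvd_index
    exact hodd.neg_one_pow
  -- the kernel of the transfer has index two
  apply hG (MonoidHom.transfer ϕ).ker
  rw [Subgroup.index_ker]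
  have hsurj : (MonoidHom.transfer ϕ).range = ⊤ := by
    rw [eq_top_iff]
    intro u _
    rcases Int.units_eq_one_or u with rfl | rfl
    · exact Subgroup.one_mem _
    · exact ⟨x, key⟩
  rw [hsurj, Subgroup.card_top]
  simp

end Cfsg.Agent.S3225
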