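import Cfsg.Statements.S3246
import Cfsg.Agent.Lib.Helper54.OddInvariant2

set_option autoImplicit false
open Cfsg

namespace Cfsg.Agent.S3246

open Cfsg.Agent.Lib.Helper54 in
/-- every 2-local subgroup lies in a maximal 2-local subgroup -/
theorem exists_maximalTwoLocal {G : Type*} [Group G] [Finite G] (L : Subgroup G)
    (hL : Cfsg.IsTwoLocal L) : ∃ M : Subgroup G, Cfsg.IsMaximalTwoLocal M ∧ L ≤ M := by
  let 𝒮 : Set (Subgroup G) := {M | Cfsg.IsTwoLocal M ∧ L ≤ M}
  have hne : 𝒮.Nonempty := ⟨L, hL, le_rfl⟩
  obtain ⟨M, hM, hmax⟩ := (Set.toFinite 𝒮).exists_maximal hne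
  refine ⟨M, ⟨hM.1, ?_⟩, hM.2⟩
  intro N hN hMN
  exact le_antisymm (hmax ⟨hN, hM.2.trans hMN⟩ hMN) hMN

/-- Let G be a finite group whose Sylow 2-subgroup S has a self-centralizing normal subgroup of rank at least 3. Suppose that either every maximal 2-local subgroup of G is 2-constrained with no nontrivial normal subgroup of odd order, or the centralizer of every involution of G is 2-constrained with no nontrivial normal subgroup of odd order. Then S normalizes no nontrivial subgroup of G of odd order and every 2-local subgroup of G is 2-constrained. -/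
theorem result {G : Type*} [Group G] [Finite G]
    (S : Sylow 2 G) (A : Subgroup G) (hA : Cfsg.IsSCN (S : Subgroup G) A) (hA3 : ¬ Cfsg.PRankLE 2 2 ↥A)
    (h : (∀ M : Subgroup G, Cfsg.IsMaximalTwoLocal M → Cfsg.IsPConstrained 2 ↥M ∧ Cfsg.oddCore ↥M = ⊥) ∨
      (∀ t : G, orderOf t = 2 → Cfsg.IsPConstrained 2 ↥(Subgroup.centralizer ({t} : Set G)) ∧
        Cfsg.oddCore ↥(Subgroup.centralizer ({t} : Set G)) = ⊥)) :
    (∀ X : Subgroup G, Odd (Nat.card ↥X) → (S : Subgroup G) ≤ Subgroup.normalizer (X : Set G) → X = ⊥) ∧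
      (∀ T : Subgroup G, IsPGroup 2 ↥T → T ≠ ⊥ → Cfsg.IsPConstrained 2 ↥(Subgroup.normalizer (T : Set G))) := by
  have : Fact (Nat.Prime 2) := ⟨Nat.prime_two⟩
  constructor
  · -- no odd-order subgroup is normalised by `S`
    have H : ∀ t : G, orderOf t = 2 →
        Cfsg.Agent.Lib.Helper54.SelfCentPCore 2 ↥(Subgroup.centralizer ({t} : Set G)) := by
      intro t ht
      rcases h with h | h
      · have hT2 : IsPGroup 2 (Subgroup.zpowers t) := by
          apply IsPGroup.of_card (n := 1)
          rw [Nat.card_zpowers, ht, pow_one]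
        have hT1 : Subgroup.zpowers t ≠ ⊥ := by
          intro hb
          rw [Subgroup.zpowers_eq_bot] at hb
          rw [hb, orderOf_one] at ht
          omega
        obtain ⟨M, hM, hLM⟩ := exists_maximalTwoLocal
          (Subgroup.normalizer ((Subgroup.zpowers t : Subgroup G) : Set G)) ⟨_, hT2, hT1, rfl⟩
        have hMs := (Cfsg.Agent.Lib.Helper54.isPConstrained_iff_of_pPrimeCore_eq_bot (h M hM).2).1
          (h M hM).1
        have h1 := Cfsg.Agent.Lib.Helper54.selfCentPCore_centralizer_of_le M hMs
          (Subgroup.zpowers t) hT2 (Subgroup.le_normalizer.trans hLM)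
          ((Subgroup.centralizer_le_normalizer _).trans hLM)
        have h2 : Subgroup.centralizer ((Subgroup.zpowers t : Subgroup G) : Set G)
            = Subgroup.centralizer ({t} : Set G) := by
          rw [Subgroup.zpowers_eq_closure, Subgroup.centralizer_closure]
        rw [h2] at h1
        exact h1
      · exact (Cfsg.Agent.Lib.Helper54.isPConstrained_iff_of_pPrimeCore_eq_bot (h t ht).2).1
          (h t ht).1
    intro X hX hSX
    exact Cfsg.Agent.Lib.Helper54.eq_bot_of_odd_of_sylow_le_normalizer S A hA hA3 H X hX hSX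
  · intro T hT hT1
    rcases h with h | h
    · obtain ⟨M, hM, hLM⟩ := exists_maximalTwoLocal
        (Subgroup.normalizer (T : Set G)) ⟨_, hT, hT1, rfl⟩
      exact Cfsg.Agent.Lib.Helper54.isPConstrained_normalizer_of_le M (h M hM).1 T hT hLM
    · have hnt : Nontrivial ↥T := (Subgroup.nontrivial_iff_ne_bot T).2 hT1
      have hcn : Nontrivial (Subgroup.center ↥T) := hT.center_nontrivial
      have hcp : IsPGroup 2 (Subgroup.center ↥T) := hT.to_subgroup _
      have hdvd : 2 ∣ Nat.card (Subgroup.center ↥T) := by
        rcases hcp.card_eq_or_dvd with h1 | h1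
        · exact absurd (Finite.one_lt_card_iff_nontrivial.2 hcn) (by omega)
        · exact h1
      obtain ⟨z, hz⟩ := exists_prime_orderOf_dvd_card' 2 hdvd
      set x : G := ((z : ↥T) : G) with hx
      have hxo : orderOf x = 2 := by
        rw [hx, Subgroup.orderOf_coe, Subgroup.orderOf_coe]; exact hz
      have hxT : x ∈ T := (z : ↥T).2
      have hTM : T ≤ Subgroup.centralizer ({x} : Set G) := by
        intro t ht
        rw [Subgroup.mem_centralizer_singleton_iff]
        have := (Subgroup.mem_center_iff.1 z.2) ⟨t, ht⟩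
        exact congrArg Subtype.val this
      have hCM : Subgroup.centralizer (T : Set G) ≤ Subgroup.centralizer ({x} : Set G) :=
        Subgroup.centralizer_le (by simpa using hxT)
      exact Cfsg.Agent.Lib.Helper54.isPConstrained_normalizer_of_centralizer T hT
        (Cfsg.Agent.Lib.Helper54.isPConstrained_centralizer_of_le _ (h x hxo).1 T hT hTM hCM)

end Cfsg.Agent.S3246
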