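import Cfsg.Statements.S3247
import Cfsg.Agent.Lib.Helper54.PConstrained2

set_option autoImplicit false
open Cfsg

namespace Cfsg.Agent.S3247

/-- Let G be a finite group and p a prime; here a p-local subgroup means the normalizer of a nontrivial p-subgroup, other than G itself. If every p-local subgroup of G that is maximal among p-local subgroups is p-constrained, or if the centralizer of every element of order p of G is p-constrained, then every p-local subgroup of G is p-constrained. -/
theorem result {G : Type*} [Group G] [Finite G] (p : ℕ) [hp : Fact p.Prime]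
    (h : (∀ M : Subgroup G, (∃ T : Subgroup G, IsPGroup p ↥T ∧ T ≠ ⊥ ∧ M = Subgroup.normalizer (T : Set G)) → M ≠ ⊤ →
        (∀ M' : Subgroup G, (∃ T' : Subgroup G, IsPGroup p ↥T' ∧ T' ≠ ⊥ ∧ M' = Subgroup.normalizer (T' : Set G)) → M' ≠ ⊤ → M ≤ M' → M = M') →
        Cfsg.IsPConstrained p ↥M) ∨
      (∀ x : G, orderOf x = p → Cfsg.IsPConstrained p ↥(Subgroup.centralizer ({x} : Set G))))
    (T : Subgroup G) (hT : IsPGroup p ↥T) (hT1 : T ≠ ⊥) (hTG : Subgroup.normalizer (T : Set G) ≠ ⊤) :
    Cfsg.IsPConstrained p ↥(Subgroup.normalizer (T : Set G)) := by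
  rcases h with h | h
  · -- maximal proper p-locals
    let 𝒮 : Set (Subgroup G) := {M | (∃ T' : Subgroup G, IsPGroup p ↥T' ∧ T' ≠ ⊥ ∧
      M = Subgroup.normalizer (T' : Set G)) ∧ M ≠ ⊤ ∧ Subgroup.normalizer (T : Set G) ≤ M}
    have hne : 𝒮.Nonempty := ⟨_, ⟨T, hT, hT1, rfl⟩, hTG, le_rfl⟩
    obtain ⟨M, hM, hmax⟩ := (Set.toFinite 𝒮).exists_maximal hne
    have hMc : Cfsg.IsPConstrained p ↥M := by
      apply h M hM.1 hM.2.1
      intro M' hM' hM'top hle
      exact le_antisymm hle (hmax ⟨hM', hM'top, hM.2.2.trans hle⟩ hle)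
    exact Cfsg.Agent.Lib.Helper54.isPConstrained_normalizer_of_le M hMc T hT hM.2.2
  · -- centralisers of elements of order p
    have hnt : Nontrivial ↥T := (Subgroup.nontrivial_iff_ne_bot T).2 hT1
    have hcn : Nontrivial (Subgroup.center ↥T) := hT.center_nontrivial
    have hcp : IsPGroup p (Subgroup.center ↥T) := hT.to_subgroup _
    have hdvd : p ∣ Nat.card (Subgroup.center ↥T) := by
      rcases hcp.card_eq_or_dvd with h1 | h1
      · exact absurd (Finite.one_lt_card_iff_nontrivial.2 hcn) (by omega)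
      · exact h1
    obtain ⟨z, hz⟩ := exists_prime_orderOf_dvd_card' p hdvd
    set x : G := ((z : ↥T) : G) with hx
    have hxo : orderOf x = p := by
      rw [hx, Subgroup.orderOf_coe, Subgroup.orderOf_coe]; exact hz
    have hxT : x ∈ T := (z : ↥T).2
    have hTM : T ≤ Subgroup.centralizer ({x} : Set G) := by
      intro t ht
      rw [Subgroup.mem_centralizer_singleton_iff]
      have := (Subgroup.mem_center_iff.1 z.2) ⟨t, ht⟩
      exact congrArg Subtype.val this
    have hCM : Subgroup.centralizer (T : Set G) ≤ Subgroup.centralizer ({x} : Set G) :=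
      Subgroup.centralizer_le (by simpa using hxT)
    exact Cfsg.Agent.Lib.Helper54.isPConstrained_normalizer_of_centralizer T hT
      (Cfsg.Agent.Lib.Helper54.isPConstrained_centralizer_of_le _ (h x hxo) T hT hTM hCM)

end Cfsg.Agent.S3247
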