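import Cfsg.Statements.S3261
import Cfsg.Agent.Lib.Helper75.D8Cent2
import Cfsg.Agent.Lib.Helper75.A6Cent
import Cfsg.Agent.Lib.Helper75.Ord360b
import Cfsg.Agent.S0495
-- import your own Cfsg.Agent.* helpers here

set_option autoImplicit false
open Cfsg

namespace Cfsg.Agent.S3261

/-- Let α̃ be an involution of the alternating group A₆ that is a product of two disjoint transpositions (it lies in the centre of a Sylow 2-subgroup of A₆; its centralizer is dihedral of order 8). Let G be a finite group that has no subgroup of index 2 and contains an involution α, central in some Sylow 2-subgroup of G, with C_G(α) ≅ C_{A₆}(α̃). Then G is isomorphic to A₆ or to PSL₂(7). -/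
theorem result {G : Type*} [Group G] [Finite G]
    (hG : ∀ H : Subgroup G, H.index ≠ 2)
    (αt : ↥(alternatingGroup (Fin 6))) (hαt : orderOf αt = 2) (hsupp : (αt : Equiv.Perm (Fin 6)).support.card = 4)
    (α : G) (hα : orderOf α = 2) (S : Sylow 2 G) (hαS : α ∈ (S : Subgroup G)) (hαc : ∀ s ∈ (S : Subgroup G), s * α = α * s)
    (e : ↥(Subgroup.centralizer ({α} : Set G)) ≃* ↥(Subgroup.centralizer ({αt} : Set ↥(alternatingGroup (Fin 6))))) :
    Nonempty (G ≃* ↥(alternatingGroup (Fin 6))) ∨
      (∃ (F : Type) (_ : Field F) (_ : Fintype F), Fintype.card F = 7 ∧ Nonempty (G ≃* Matrix.ProjectiveSpecialLinearGroup (Fin 2) F)) := by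
  open Cfsg.Agent.Lib.Helper75 in
  classical
  obtain ⟨e₀⟩ := A6Cent.iso αt hαt hsupp
  obtain ⟨T, σ, τ, H, -⟩ := exists_D8C α hα (e.trans e₀)
  have hno : ∀ M : Subgroup G, M.Normal → M.index ≠ 2 := fun M _ => hG M
  have c1 := H.dih.isConj_of_no_index_two hno H.dih.τ_mem H.dih.τ_not_mem
  have c2 := H.dih.isConj_of_no_index_two hno (Subgroup.mul_mem _ H.dih.σ_mem H.dih.τ_mem)
    H.dih.στ_not_mem
  have := H.isSimpleGroup c1 c2
  rcases H.card_eq c1 c2 with h | h
  · right
    have : Fact (Nat.Prime 7) := ⟨by norm_num⟩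
    exact ⟨ZMod 7, inferInstance, inferInstance, ZMod.card 7,
      Cfsg.Agent.S0495.result h (ZMod.card 7)⟩
  · left
    exact Ord360.nonempty_mulEquiv_alt h

end Cfsg.Agent.S3261
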