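import Cfsg.Statements.S3265
import Cfsg.Agent.Lib.Helper78.LFG.Wrap

set_option autoImplicit false
open Cfsg

namespace Cfsg.Agent.S3265

open Cfsg.Agent.Lib.Helper78.LFG in
/-- Let n ≥ 5 and let X be a conjugacy class of involutions of the symmetric group of degree n. The graph on X joining two distinct involutions whose product has odd order is connected and has diameter exactly 2. -/
theorem result (n : ℕ) (hn : 5 ≤ n) (t : Equiv.Perm (Fin n)) (ht : orderOf t = 2) :
    (SimpleGraph.fromRel fun x y : {x : Equiv.Perm (Fin n) // IsConj t x} =>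
        Odd (orderOf (x.1 * y.1))).Connected ∧
      (SimpleGraph.fromRel fun x y : {x : Equiv.Perm (Fin n) // IsConj t x} =>
        Odd (orderOf (x.1 * y.1))).diam = 2 := by
  have htt : t * t = 1 := by rw [← pow_two, ← ht]; exact pow_orderOf_eq_one t
  have hsq : ∀ x : Equiv.Perm (Fin n), IsConj t x → x * x = 1 := by
    intro x hx
    obtain ⟨g, rfl⟩ := isConj_iff.1 hx
    calc g * t * g⁻¹ * (g * t * g⁻¹) = g * (t * t) * g⁻¹ := by group
      _ = 1 := by rw [htt]; group
  apply diam_two
  · rintro ⟨x, hx⟩ ⟨y, hy⟩ hne hnadj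
    have hxx := hsq x hx
    have hyy := hsq y hy
    have cfg : Cfg Finset.univ x y :=
      ⟨hxx, hyy, fun s hs => absurd (Finset.mem_univ s) hs,
        fun s hs => absurd (Finset.mem_univ s) hs, card_support_of_conj (hx.symm.trans hy)⟩
    have hE : ¬ Exc Finset.univ x y := by
      rintro ⟨a, b, c, d, -, hS⟩
      have h1 := congrArg Finset.card hS
      rw [Finset.card_univ, Fintype.card_fin] at h1
      have h2 : ({a, b, c, d} : Finset (Fin n)).card ≤ 4 := Finset.card_le_four
      omega
    obtain ⟨z, hz, -, o1, o2⟩ := main _ x y cfg hE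
    have hzc : IsConj t z := hx.trans (conj_of_odd hxx hz ((oddOrd_iff _).1 o1))
    rw [SimpleGraph.fromRel_adj] at hnadj
    refine ⟨⟨z, hzc⟩, ?_, ?_⟩
    · rw [SimpleGraph.fromRel_adj]
      refine ⟨?_, Or.inl ((oddOrd_iff _).1 o1)⟩
      intro e
      have e' : x = z := congrArg Subtype.val e
      subst e'
      exact hnadj ⟨hne, Or.inr ((oddOrd_iff _).1 o2)⟩
    · rw [SimpleGraph.fromRel_adj]
      refine ⟨?_, Or.inr ((oddOrd_iff _).1 o2)⟩
      intro e
      have e' : z = y := congrArg Subtype.val e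
      subst e'
      exact hnadj ⟨hne, Or.inl ((oddOrd_iff _).1 o1)⟩
  · obtain ⟨y, hy, hne, h1, h2⟩ := exists_nonadj n hn t ht
    refine ⟨⟨t, IsConj.refl t⟩, ⟨y, hy⟩, ?_, ?_⟩
    · intro e
      exact hne (congrArg Subtype.val e).symm
    · rw [SimpleGraph.fromRel_adj]
      rintro ⟨-, h | h⟩
      · exact h1 h
      · exact h2 h

end Cfsg.Agent.S3265
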