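import Cfsg.Statements.S3266
import Cfsg.Agent.Lib.Helper41.OddGraph.Final
import Cfsg.Agent.Lib.Helper72.GraphDiamTwo

set_option autoImplicit false
open Cfsg

namespace Cfsg.Agent.S3266

/-- Let F be a finite field with at least 4 elements and let X be a conjugacy class of involutions of PSL(2, F). The graph on X joining two distinct involutions whose product has odd order is connected and has diameter exactly 2. -/
theorem result {F : Type*} [Field F] [Fintype F] (hF : 4 ≤ Fintype.card F)
    (t : Matrix.ProjectiveSpecialLinearGroup (Fin 2) F) (ht : orderOf t = 2) :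
    (SimpleGraph.fromRel fun x y : {x : Matrix.ProjectiveSpecialLinearGroup (Fin 2) F // IsConj t x} =>
        Odd (orderOf (x.1 * y.1))).Connected ∧
      (SimpleGraph.fromRel fun x y : {x : Matrix.ProjectiveSpecialLinearGroup (Fin 2) F // IsConj t x} =>
        Odd (orderOf (x.1 * y.1))).diam = 2 := by
  have hord : ∀ x : Matrix.ProjectiveSpecialLinearGroup (Fin 2) F, IsConj t x → orderOf x = 2 := by
    intro x hx
    obtain ⟨c, hc⟩ := hx
    have hc' : SemiconjBy (c : Matrix.ProjectiveSpecialLinearGroup (Fin 2) F) t x := hc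
    rw [← hc'.orderOf_eq, ht]
  apply Cfsg.Agent.Lib.Helper72.graph_wrapper t
  · intro x y hx hy
    obtain ⟨z, hz, h1, h2⟩ := Cfsg.Agent.Lib.Helper41.OddGraph.common_nbr (by omega) x y (hord x hx) (hord y hy)
    exact ⟨z, Cfsg.Agent.Lib.Helper41.OddGraph.invol_conj_all t z ht hz, h1, h2⟩
  · obtain ⟨x, y, hx, hy, hxy, h⟩ := Cfsg.Agent.Lib.Helper41.OddGraph.exists_nonadj (F := F) (by omega)
    exact ⟨x, y, Cfsg.Agent.Lib.Helper41.OddGraph.invol_conj_all t x ht hx,
      Cfsg.Agent.Lib.Helper41.OddGraph.invol_conj_all t y ht hy, hxy, h⟩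

end Cfsg.Agent.S3266
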