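import Cfsg.Statements.S3269
import Cfsg.Agent.Lib.Helper29.QuatFactor
import Cfsg.Agent.Lib.Helper5.Quaternion
import Cfsg.Agent.S0215

set_option autoImplicit false
open Cfsg

namespace Cfsg.Agent.S3269

open QuaternionGroup in
theorem quat_z_ne_one (m : ℕ) [NeZero m] : (a (m : ZMod (2 * m)) : QuaternionGroup m) ≠ 1 := by
  rw [QuaternionGroup.one_def]
  intro h
  have h1 : (m : ZMod (2 * m)) = 0 := by
    injection h
  rw [ZMod.natCast_eq_zero_iff] at h1
  have hm : 0 < m := Nat.pos_of_ne_zero (NeZero.ne m)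
  have := Nat.le_of_dvd hm h1
  omega

open QuaternionGroup in
theorem quat_z_sq (m : ℕ) [NeZero m] :
    (a (m : ZMod (2 * m)) : QuaternionGroup m) * a (m : ZMod (2 * m)) = 1 := by
  rw [a_mul_a, QuaternionGroup.one_def]
  congr 1
  have : ((2 * m : ℕ) : ZMod (2 * m)) = 0 := ZMod.natCast_self _
  rw [← this]; push_cast; ring

open QuaternionGroup in
theorem quat_uniq (m : ℕ) [NeZero m] (g : QuaternionGroup m) (h : g * g = 1) :
    g = 1 ∨ g = a (m : ZMod (2 * m)) := by
  rcases g with i | i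
  · rw [a_mul_a, QuaternionGroup.one_def] at h
    have h1 : i + i = 0 := by injection h
    by_cases h0 : i = 0
    · left; rw [h0, QuaternionGroup.one_def]
    · right; rw [Cfsg.Agent.Lib.Helper5.zmod_two_mul_eq_of_add_self i h1 h0]
  · exfalso
    rw [xa_mul_xa] at h
    have : (m : ZMod (2 * m)) + i - i = m := by ring
    rw [this] at h
    exact quat_z_ne_one m h

open QuaternionGroup in
theorem quat_comm (n : ℕ) (hn : 1 ≤ n) :
    (a ((2 ^ (n - 1) : ℕ) : ZMod (2 * 2 ^ n)) : QuaternionGroup (2 ^ n)) * xa 0 *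
      (a ((2 ^ (n - 1) : ℕ) : ZMod (2 * 2 ^ n)))⁻¹ * (xa 0)⁻¹ = a ((2 ^ n : ℕ) : ZMod (2 * 2 ^ n)) := by
  have h1 : (a ((2 ^ (n - 1) : ℕ) : ZMod (2 * 2 ^ n)) : QuaternionGroup (2 ^ n))⁻¹ =
      a (-((2 ^ (n - 1) : ℕ) : ZMod (2 * 2 ^ n))) := by
    apply inv_eq_of_mul_eq_one_right
    rw [a_mul_a, QuaternionGroup.one_def]; simp
  rw [mul_inv_eq_iff_eq_mul, h1, a_mul_xa, xa_mul_a, a_mul_xa]
  congr 1
  obtain ⟨k, rfl⟩ : ∃ k, n = k + 1 := ⟨n - 1, by omega⟩
  simp only [Nat.add_sub_cancel]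
  have h3 : ((2 ^ (k + 1) : ℕ) : ZMod (2 * 2 ^ (k + 1))) = 2 * ((2 ^ k : ℕ) : ZMod (2 * 2 ^ (k + 1))) := by
    push_cast; ring
  rw [h3]
  ring


/-- Let G be a finite group whose Sylow 2-subgroup S is an internal direct product Q × R with Q generalized quaternion (of order at least 8) and R a subgroup all of whose involutions are central in R. Then G is not simple. In particular no finite simple group has a Sylow 2-subgroup that is a direct product of one or more generalized quaternion groups. -/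
theorem result {G : Type*} [Group G] [Finite G]
    (S : Sylow 2 G) (Q R : Subgroup G) (hQR : Cfsg.IsInternalDirectProduct Q R (S : Subgroup G))
    (n : ℕ) (hn : 1 ≤ n) (eQ : ↥Q ≃* QuaternionGroup (2 ^ n))
    (hR : ∀ r ∈ R, orderOf r = 2 → ∀ s ∈ R, r * s = s * r) :
    ¬ IsSimpleGroup G := by
  intro hsimple
  have hne : NeZero (2 ^ n) := ⟨by positivity⟩
  obtain ⟨z, hzdef⟩ : ∃ z : G, z = ((eQ.symm (QuaternionGroup.a ((2 ^ n : ℕ) : ZMod (2 * 2 ^ n))) : ↥Q) : G) :=
    ⟨_, rfl⟩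
  have hinjQ : ∀ u v : ↥Q, (u : G) = v → u = v := fun u v h => Subtype.ext h
  have d : Cfsg.Agent.Lib.Helper29.QuatFactor.Data Q R (S : Subgroup G) z := by
    refine ⟨hQR, ?_, ?_, ?_, ?_, ?_, ?_⟩
    · rw [hzdef]; exact Subtype.mem _
    · rw [hzdef]
      intro h
      have h1 : eQ.symm (QuaternionGroup.a ((2 ^ n : ℕ) : ZMod (2 * 2 ^ n))) = 1 := Subtype.ext h
      rw [MulEquiv.map_eq_one_iff] at h1
      exact quat_z_ne_one (2 ^ n) h1
    · rw [hzdef, ← Subgroup.coe_mul, ← map_mul, quat_z_sq, map_one]; rfl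
    · intro q hq hqq
      have h1 : eQ ⟨q, hq⟩ * eQ ⟨q, hq⟩ = 1 := by
        rw [← map_mul]
        have : (⟨q, hq⟩ : ↥Q) * ⟨q, hq⟩ = 1 := Subtype.ext hqq
        rw [this, map_one]
      rcases quat_uniq (2 ^ n) _ h1 with h | h
      · left
        rw [MulEquiv.map_eq_one_iff] at h
        exact congrArg Subtype.val h
      · right
        rw [hzdef, ← h, MulEquiv.symm_apply_apply]
    · refine ⟨_, (eQ.symm (QuaternionGroup.a ((2 ^ (n - 1) : ℕ) : ZMod (2 * 2 ^ n)))).2, _,
        (eQ.symm (QuaternionGroup.xa 0)).2, ?_⟩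
      rw [hzdef, ← quat_comm n hn]
      simp only [map_mul, map_inv, Subgroup.coe_mul, Subgroup.coe_inv]
    · intro r hr hrr s hs
      by_cases hr1 : r = 1
      · rw [hr1]; simp
      · exact hR r hr (orderOf_eq_prime (by rw [pow_two]; exact hrr) hr1) s hs
  obtain ⟨w, hwS, hw2, hiso⟩ := Cfsg.Agent.Lib.Helper29.QuatFactor.exists_isolated S d
  obtain ⟨N, hN, hNodd, hNc⟩ := Cfsg.Agent.S0215.result S w hw2 hwS hiso
  have hw1 : w ≠ 1 := by rintro rfl; simp at hw2
  rcases hN.eq_bot_or_eq_top with h | h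
  · -- `w` is central
    have hwc : w ∈ Subgroup.center G := by
      rw [Subgroup.mem_center_iff]
      intro g
      have := hNc g
      rw [h, Subgroup.mem_bot] at this
      calc g * w = (w * g * w⁻¹ * g⁻¹)⁻¹ * (w * g) := by group
        _ = w * g := by rw [this]; simp
    rcases (inferInstance : (Subgroup.center G).Normal).eq_bot_or_eq_top with h2 | h2
    · rw [h2] at hwc
      exact hw1 (Subgroup.mem_bot.1 hwc)
    · obtain ⟨q₁, -, q₂, -, hz⟩ := d.comm
      apply d.z1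
      rw [← hz]
      have : q₁ ∈ Subgroup.center G := by rw [h2]; trivial
      rw [← Subgroup.mem_center_iff.mp this q₂]; group
  · rw [h, Subgroup.card_top] at hNodd
    have := orderOf_dvd_natCard w
    rw [hw2] at this
    exact (Nat.not_even_iff_odd.2 hNodd) (even_iff_two_dvd.2 this)

end Cfsg.Agent.S3269
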