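import Cfsg.Statements.S3276
import Cfsg.Agent.Lib.Helper55.Involutions

set_option autoImplicit false
open Cfsg

namespace Cfsg.Agent.S3276

open Cfsg.Agent.Lib.Helper55

/-- Let x and y be commuting, non-conjugate involutions of a finite group G, and suppose that for every involution u commuting with x, each conjugate of y that commutes with u also commutes with y. Then the normal closure of y is a proper, normal, elementary abelian 2-subgroup of G; and if y is the only involution of that normal closure commuting with x, it has order at most 4. -/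
theorem result {G : Type*} [Group G] [Finite G] (x y : G) (hx : orderOf x = 2) (hy : orderOf y = 2)
    (hxy : Commute x y) (hnc : ¬ IsConj x y)
    (hstar : ∀ u : G, orderOf u = 2 → Commute u x → ∀ g : G, Commute (g * y * g⁻¹) u → Commute (g * y * g⁻¹) y) :
    Subgroup.normalClosure ({y} : Set G) ≠ ⊤ ∧ Cfsg.IsElementaryAbelian 2 (Subgroup.normalClosure ({y} : Set G)) ∧
      ((∀ u ∈ Subgroup.normalClosure ({y} : Set G), orderOf u = 2 → Commute u x → u = y) →
        Nat.card ↥(Subgroup.normalClosure ({y} : Set G)) ≤ 4) := by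
  classical
  have hxx := mul_self_of_orderOf_two hx
  have hxi := inv_eq_self_of_orderOf_two hx
  -- Step 1: every conjugate of y commutes with y
  have h1 : ∀ g : G, Commute (g * y * g⁻¹) y := by
    intro g
    have hyg : orderOf (g * y * g⁻¹) = 2 := orderOf_conj_two g hy
    have hnc' : ¬ IsConj x (g * y * g⁻¹) := fun h =>
      hnc (h.trans (isConj_iff.2 ⟨g⁻¹, by group⟩))
    obtain ⟨u, hu, hux, huy, -⟩ := exists_involution_commute_of_not_isConj x _ hx hyg hnc'
    exact hstar u hu hux g huy.symm
  -- Step 2: any two conjugates commute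
  have h2 : ∀ g h : G, (g * y * g⁻¹) * (h * y * h⁻¹) = (h * y * h⁻¹) * (g * y * g⁻¹) := by
    intro g h
    have h3 : (h⁻¹ * g * y * (h⁻¹ * g)⁻¹) * y = y * (h⁻¹ * g * y * (h⁻¹ * g)⁻¹) := h1 (h⁻¹ * g)
    have h4 : h * ((h⁻¹ * g * y * (h⁻¹ * g)⁻¹) * y) * h⁻¹ = h * (y * (h⁻¹ * g * y * (h⁻¹ * g)⁻¹)) * h⁻¹ := by
      rw [h3]
    calc (g * y * g⁻¹) * (h * y * h⁻¹) = h * ((h⁻¹ * g * y * (h⁻¹ * g)⁻¹) * y) * h⁻¹ := by group
      _ = h * (y * (h⁻¹ * g * y * (h⁻¹ * g)⁻¹)) * h⁻¹ := h4
      _ = _ := by group
  have hconj : ∀ a ∈ Group.conjugatesOfSet ({y} : Set G), ∃ g : G, a = g * y * g⁻¹ := by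
    intro a ha
    rw [Group.mem_conjugatesOfSet_iff] at ha
    obtain ⟨b, hb, hba⟩ := ha
    rw [Set.mem_singleton_iff] at hb
    subst hb
    obtain ⟨c, hc⟩ := isConj_iff.1 hba
    exact ⟨c, hc.symm⟩
  have hcomm : IsMulCommutative ↥(Subgroup.normalClosure ({y} : Set G)) := by
    apply Subgroup.isMulCommutative_closure
    intro a ha b hb
    obtain ⟨g, rfl⟩ := hconj a ha
    obtain ⟨h, rfl⟩ := hconj b hb
    exact h2 g h
  have hcomm' : ∀ a ∈ Subgroup.normalClosure ({y} : Set G), ∀ b ∈ Subgroup.normalClosure ({y} : Set G),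
      a * b = b * a := by
    intro a ha b hb
    have := (isMulCommutative_iff.1 hcomm) ⟨a, ha⟩ ⟨b, hb⟩
    exact congrArg Subtype.val this
  have hexp : ∀ a ∈ Subgroup.normalClosure ({y} : Set G), a ^ 2 = 1 := by
    intro a ha
    induction ha using Subgroup.closure_induction with
    | mem a ha =>
      obtain ⟨g, rfl⟩ := hconj a ha
      rw [← orderOf_conj_two g hy]; exact pow_orderOf_eq_one _
    | one => simp
    | mul a b ha hb iha ihb =>
      have : a * b = b * a := hcomm' a ha b hb
      rw [(show Commute a b from this).mul_pow, iha, ihb, one_mul]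
    | inv a ha iha => rw [inv_pow, iha, inv_one]
  have hyN : y ∈ Subgroup.normalClosure ({y} : Set G) :=
    Subgroup.subset_normalClosure (Set.mem_singleton y)
  refine ⟨?_, ⟨hcomm, hexp⟩, ?_⟩
  · intro htop
    -- G abelian so normal closure is just zpowers y
    have hab : ∀ a b : G, a * b = b * a := fun a b =>
      hcomm' a (htop ▸ Subgroup.mem_top a) b (htop ▸ Subgroup.mem_top b)
    have hle : Subgroup.normalClosure ({y} : Set G) ≤ Subgroup.zpowers y := by
      have : (Subgroup.zpowers y).Normal := ⟨fun n hn g => by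
        rw [hab g n, mul_assoc, mul_inv_cancel, mul_one]; exact hn⟩
      apply Subgroup.normalClosure_le_normal
      rw [Set.singleton_subset_iff]
      exact Subgroup.mem_zpowers y
    have hxz : x ∈ Subgroup.zpowers y := hle (htop ▸ Subgroup.mem_top x)
    rw [← mem_powers_iff_mem_zpowers, Submonoid.mem_powers_iff] at hxz
    obtain ⟨k, hk⟩ := hxz
    have hyy : y ^ 2 = 1 := by rw [← hy]; exact pow_orderOf_eq_one y
    rcases Nat.even_or_odd' k with ⟨m, rfl | rfl⟩
    · rw [pow_mul, hyy, one_pow] at hk
      exact ne_one_of_orderOf_two hx hk.symm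
    · rw [pow_succ, pow_mul, hyy, one_pow, one_mul] at hk
      exact hnc (hk ▸ IsConj.refl _)
  · intro honly
    set N := Subgroup.normalClosure ({y} : Set G) with hN
    have hNn : N.Normal := Subgroup.normalClosure_normal
    -- centralizer of x in N is {1,y}
    have hC : ∀ n ∈ N, x * n * x⁻¹ = n → n = 1 ∨ n = y := by
      intro n hn hxn
      by_cases h1n : n = 1
      · exact Or.inl h1n
      · right
        apply honly n hn
        · apply orderOf_two_of h1n
          rw [← sq]; exact hexp n hn
        · show n * x = x * n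
          calc n * x = (x * n * x⁻¹) * x := by rw [hxn]
            _ = x * n := by group
    have hphi : ∀ n ∈ N, n * (x * n * x⁻¹) = 1 ∨ n * (x * n * x⁻¹) = y := by
      intro n hn
      have hn' : x * n * x⁻¹ ∈ N := hNn.conj_mem n hn x
      apply hC _ (N.mul_mem hn hn')
      calc x * (n * (x * n * x⁻¹)) * x⁻¹ = (x * n * x⁻¹) * ((x * x) * n * (x * x)⁻¹) := by group
        _ = (x * n * x⁻¹) * n := by rw [hxx]; group
        _ = n * (x * n * x⁻¹) := hcomm' _ hn' _ hn
    have hinv : ∀ n ∈ N, n⁻¹ = n := by
      intro n hn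
      rw [inv_eq_iff_mul_eq_one, ← sq]; exact hexp n hn
    have hker : ∀ n ∈ N, n * (x * n * x⁻¹) = 1 → n = 1 ∨ n = y := by
      intro n hn h
      apply hC n hn
      have : x * n * x⁻¹ = n⁻¹ := by rw [eq_inv_iff_mul_eq_one, hcomm' _ (hNn.conj_mem n hn x) _ hn]; exact h
      rw [this, hinv n hn]
    by_cases hex : ∃ n₀ ∈ N, n₀ * (x * n₀ * x⁻¹) = y
    · obtain ⟨n₀, hn₀, hn₀y⟩ := hex
      have hsub : (N : Set G) ⊆ (({1, y, n₀, y * n₀} : Finset G) : Set G) := by
        intro n hn
        have hn : n ∈ N := hn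
        simp only [Finset.coe_insert, Finset.coe_singleton, Set.mem_insert_iff, Set.mem_singleton_iff]
        rcases hphi n hn with h | h
        · rcases hker n hn h with h | h
          · exact Or.inl h
          · exact Or.inr (Or.inl h)
        · have hnn : n * n₀ ∈ N := N.mul_mem hn hn₀
          have hyy : y * y = 1 := mul_self_of_orderOf_two hy
          have : (n * n₀) * (x * (n * n₀) * x⁻¹) = 1 := by
            have e1 : x * (n * n₀) * x⁻¹ = (x * n * x⁻¹) * (x * n₀ * x⁻¹) := by group
            rw [e1]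
            have c1 : n₀ * (x * n * x⁻¹) = (x * n * x⁻¹) * n₀ := hcomm' _ hn₀ _ (hNn.conj_mem n hn x)
            calc n * n₀ * (x * n * x⁻¹ * (x * n₀ * x⁻¹))
                = n * (n₀ * (x * n * x⁻¹)) * (x * n₀ * x⁻¹) := by simp only [mul_assoc]
              _ = n * ((x * n * x⁻¹) * n₀) * (x * n₀ * x⁻¹) := by rw [c1]
              _ = (n * (x * n * x⁻¹)) * (n₀ * (x * n₀ * x⁻¹)) := by simp only [mul_assoc]
              _ = 1 := by rw [h, hn₀y, hyy]
          have hn₀n₀ : n₀ * n₀ = 1 := by rw [← sq]; exact hexp n₀ hn₀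
          rcases hker _ hnn this with h' | h'
          · right; right; left
            calc n = n * (n₀ * n₀) := by rw [hn₀n₀, mul_one]
              _ = (n * n₀) * n₀ := by rw [mul_assoc]
              _ = n₀ := by rw [h', one_mul]
          · right; right; right
            calc n = n * (n₀ * n₀) := by rw [hn₀n₀, mul_one]
              _ = (n * n₀) * n₀ := by rw [mul_assoc]
              _ = y * n₀ := by rw [h']
      calc Nat.card ↥N = (N : Set G).ncard := (Nat.card_coe_set_eq _)
        _ ≤ (({1, y, n₀, y * n₀} : Finset G) : Set G).ncard :=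
            Set.ncard_le_ncard hsub (Finset.finite_toSet _)
        _ = ({1, y, n₀, y * n₀} : Finset G).card := Set.ncard_coe_finset _
        _ ≤ 4 := Finset.card_le_four
    · have hsub : (N : Set G) ⊆ (({1, y} : Finset G) : Set G) := by
        intro n hn
        have hn : n ∈ N := hn
        simp only [Finset.coe_insert, Finset.coe_singleton, Set.mem_insert_iff, Set.mem_singleton_iff]
        rcases hphi n hn with h | h
        · exact hker n hn h
        · exact absurd ⟨n, hn, h⟩ hex
      calc Nat.card ↥N = (N : Set G).ncard := (Nat.card_coe_set_eq _)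
        _ ≤ (({1, y} : Finset G) : Set G).ncard :=
            Set.ncard_le_ncard hsub (Finset.finite_toSet _)
        _ = ({1, y} : Finset G).card := Set.ncard_coe_finset _
        _ ≤ 2 := Finset.card_le_two
        _ ≤ 4 := by norm_num

end Cfsg.Agent.S3276
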