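import Cfsg.Statements.S3279
import Cfsg.Agent.Lib.Helper55.Involutions
import Cfsg.Agent.Lib.Helper55.SylowTwo
import Cfsg.Agent.S3276

set_option autoImplicit false
open Cfsg

namespace Cfsg.Agent.S3279

open Cfsg.Agent.Lib.Helper55

/-- `x` has at most three involutions in its centralizer (in a usable form) -/
def ThreeInv {G : Type*} [Group G] (x : G) : Prop :=
  ∀ a c : G, orderOf a = 2 → Commute a x → a ≠ x → orderOf c = 2 → Commute c x →
    c = x ∨ c = a ∨ c = x * a

theorem ThreeInv.conj {G : Type*} [Group G] {x : G} (h : ThreeInv x) (g : G) :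
    ThreeInv (g * x * g⁻¹) := by
  intro a c ha hax hne hc hcx
  have e : ∀ b : G, g * (g⁻¹ * b * g) * g⁻¹ = b := fun b => by group
  have o : ∀ b : G, orderOf b = 2 → orderOf (g⁻¹ * b * g) = 2 := fun b hb => by
    have := orderOf_conj_two g⁻¹ hb
    rwa [inv_inv] at this
  have cm : ∀ b : G, Commute b (g * x * g⁻¹) → Commute (g⁻¹ * b * g) x := fun b hb => by
    rw [← Commute.conj_iff g, e]; exact hb
  have hne' : g⁻¹ * a * g ≠ x := by
    intro h'
    apply hne
    rw [← h', e]
  rcases h (g⁻¹ * a * g) (g⁻¹ * c * g) (o a ha) (cm a hax) hne' (o c hc) (cm c hcx) with h1 | h1 | h1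
  · left; rw [← h1, e]
  · right; left
    calc c = g * (g⁻¹ * c * g) * g⁻¹ := (e c).symm
      _ = g * (g⁻¹ * a * g) * g⁻¹ := by rw [h1]
      _ = a := e a
  · right; right
    calc c = g * (g⁻¹ * c * g) * g⁻¹ := (e c).symm
      _ = g * (x * (g⁻¹ * a * g)) * g⁻¹ := by rw [h1]
      _ = g * x * g⁻¹ * a := by group

theorem threeInv_of_card {G : Type*} [Group G] [Finite G] (x : G) (hx : orderOf x = 2)
    (h3 : Nat.card {u : ↥(Subgroup.centralizer ({x} : Set G)) // orderOf u = 2} ≤ 3) :
    ThreeInv x := by
  classical
  intro a c ha hax hne hc hcx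
  by_contra hcon
  push Not at hcon
  obtain ⟨h1, h2, h4⟩ := hcon
  have mem : ∀ b : G, Commute b x → b ∈ Subgroup.centralizer ({x} : Set G) := fun b hb => by
    rw [Subgroup.mem_centralizer_singleton_iff]; exact hb
  have hxa : orderOf (x * a) = 2 := by
    apply orderOf_two_of
    · intro h
      apply hne
      have := mul_self_of_orderOf_two hx
      calc a = (x * x) * a := by rw [this, one_mul]
        _ = x * (x * a) := by rw [mul_assoc]
        _ = x := by rw [h, mul_one]
    · calc x * a * (x * a) = x * (a * x) * a := by simp only [mul_assoc]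
        _ = x * (x * a) * a := by rw [hax.eq]
        _ = (x * x) * (a * a) := by simp only [mul_assoc]
        _ = 1 := by rw [mul_self_of_orderOf_two hx, mul_self_of_orderOf_two ha, one_mul]
  have hxax : Commute (x * a) x := (Commute.refl x).mul_left hax
  -- the image in `G` of the subtype
  let val : {u : ↥(Subgroup.centralizer ({x} : Set G)) // orderOf u = 2} → G := fun u => ((u.1 : ↥(Subgroup.centralizer ({x} : Set G))) : G)
  have hval : Function.Injective val := fun u v h => Subtype.ext (Subtype.ext h)
  have hsub : (({x, a, x * a, c} : Finset G) : Set G) ⊆ Set.range val := by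
    intro b hb
    simp only [Finset.coe_insert, Finset.coe_singleton, Set.mem_insert_iff, Set.mem_singleton_iff] at hb
    have key : orderOf b = 2 ∧ Commute b x := by
      rcases hb with rfl | rfl | rfl | rfl
      · exact ⟨hx, Commute.refl _⟩
      · exact ⟨ha, hax⟩
      · exact ⟨hxa, hxax⟩
      · exact ⟨hc, hcx⟩
    exact ⟨⟨⟨b, mem b key.2⟩, by rw [Subgroup.orderOf_mk]; exact key.1⟩, rfl⟩
  have hcard : ({x, a, x * a, c} : Finset G).card = 4 := by
    rw [Finset.card_insert_of_notMem, Finset.card_insert_of_notMem, Finset.card_insert_of_notMem,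
      Finset.card_singleton]
    · simp only [Finset.mem_singleton]
      intro h; exact h4 h.symm
    · simp only [Finset.mem_insert, Finset.mem_singleton]
      rintro (h | h)
      · apply ne_one_of_orderOf_two hx
        calc x = x * a * a := by rw [mul_assoc, mul_self_of_orderOf_two ha, mul_one]
          _ = a * a := by rw [← h]
          _ = 1 := mul_self_of_orderOf_two ha
      · exact h2 h.symm
    · simp only [Finset.mem_insert, Finset.mem_singleton]
      rintro (h | h | h)
      · exact hne h.symm
      · apply ne_one_of_orderOf_two ha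
        calc a = (x * x) * a := by rw [mul_self_of_orderOf_two hx, one_mul]
          _ = x * (x * a) := by rw [mul_assoc]
          _ = x * x := by rw [← h]
          _ = 1 := mul_self_of_orderOf_two hx
      · exact h1 h.symm
  have h5 : 4 ≤ (Set.range val).ncard := by
    rw [← hcard, ← Set.ncard_coe_finset]
    exact Set.ncard_le_ncard hsub (Set.toFinite _)
  have h6 : (Set.range val).ncard = Nat.card {u : ↥(Subgroup.centralizer ({x} : Set G)) // orderOf u = 2} := by
    rw [← Nat.card_coe_set_eq]
    exact Nat.card_range_of_injective hval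
  omega

/-- consequence of S3276 in a simple group -/
theorem isConj_of_star {G : Type*} [Group G] [Finite G] [IsSimpleGroup G] (x y : G)
    (hx : orderOf x = 2) (hy : orderOf y = 2) (hxy : Commute x y)
    (hstar : ∀ u : G, orderOf u = 2 → Commute u x → ∀ g : G, Commute (g * y * g⁻¹) u →
      Commute (g * y * g⁻¹) y) : IsConj x y := by
  by_contra hnc
  have h1 := (Cfsg.Agent.S3276.result x y hx hy hxy hnc hstar).1
  have hn : (Subgroup.normalClosure ({y} : Set G)).Normal := Subgroup.normalClosure_normal
  rcases hn.eq_bot_or_eq_top with h | h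
  · have : y ∈ Subgroup.normalClosure ({y} : Set G) :=
      Subgroup.subset_normalClosure (Set.mem_singleton y)
    rw [h, Subgroup.mem_bot] at this
    exact ne_one_of_orderOf_two hy this
  · exact h1 h

theorem part1 {G : Type*} [Group G] [Finite G] [IsSimpleGroup G] (x : G) (hx : orderOf x = 2)
    (hT : ThreeInv x) :
    ∃ S : Sylow 2 G, (S : Subgroup G) ≤ Subgroup.centralizer ({x} : Set G) := by
  by_contra hcon
  push Not at hcon
  have hP : IsPGroup 2 ↥(Subgroup.zpowers x) := by
    apply IsPGroup.of_card (n := 1)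
    rw [Nat.card_zpowers, hx]; rfl
  obtain ⟨S, hS⟩ := hP.exists_le_sylow
  have hxS : x ∈ (S : Subgroup G) := hS (Subgroup.mem_zpowers x)
  have hSne : (S : Subgroup G) ≠ ⊥ := by
    intro h
    rw [h, Subgroup.mem_bot] at hxS
    exact ne_one_of_orderOf_two hx hxS
  obtain ⟨z, hzS, hz, hzc⟩ := exists_central_involution (S : Subgroup G) S.2 hSne
  have hzx : Commute z x := (hzc x hxS).symm
  have hnzx : ¬ IsConj x z := by
    intro h
    obtain ⟨g, hg⟩ := isConj_iff.1 h
    apply hcon (g⁻¹ • S)
    intro s hs
    rw [Sylow.coe_subgroup_smul, Subgroup.mem_pointwise_smul_iff_inv_smul_mem] at hs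
    have hs' : g * s * g⁻¹ ∈ (S : Subgroup G) := by
      simpa using hs
    rw [Subgroup.mem_centralizer_singleton_iff]
    have h1 : Commute (g * s * g⁻¹) (g * x * g⁻¹) := by
      rw [hg]; exact hzc _ hs'
    exact (Commute.conj_iff g).1 h1
  have hzne : z ≠ x := by
    rintro rfl
    exact hnzx (IsConj.refl _)
  obtain ⟨s₀, hs₀S, hs₀⟩ := SetLike.not_le_iff_exists.1 (hcon S)
  rw [Subgroup.mem_centralizer_singleton_iff] at hs₀
  obtain ⟨s, hsS, hsne, hscomm⟩ := exists_conj_commute_ne (S : Subgroup G) S.2 x hxS ⟨s₀, hs₀S, hs₀⟩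
  have hx' : s * x * s⁻¹ = x * z := by
    rcases hT z (s * x * s⁻¹) hz hzx hzne (orderOf_conj_two s hx) hscomm with h | h | h
    · exact absurd h hsne
    · exact absurd (isConj_iff.2 ⟨s, h⟩) hnzx
    · exact h
  have hxz : Commute x z := hzx.symm
  have hxzz : Commute (x * z) z := hxz.mul_left (Commute.refl z)
  apply hnzx
  apply isConj_of_star x z hx hz hxz
  intro u hu hux g hw
  have hwo : orderOf (g * z * g⁻¹) = 2 := orderOf_conj_two g hz
  rcases hT z u hz hzx hzne hu hux with rfl | rfl | rfl
  · rcases hT z _ hz hzx hzne hwo hw with h | h | h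
    · rw [h]; exact hxz
    · rw [h]
    · rw [h]; exact hxzz
  · exact hw
  · have hT' : ThreeInv (x * z) := hx' ▸ hT.conj s
    have hzne' : z ≠ x * z := by
      intro h
      apply ne_one_of_orderOf_two hx
      have : 1 * z = x * z := by rw [one_mul]; exact h
      exact (mul_right_cancel this).symm
    rcases hT' z _ hz hxzz.symm hzne' hwo hw with h | h | h
    · rw [h]; exact hxzz
    · rw [h]
    · rw [h]; exact hxzz.mul_left (Commute.refl z)

/-- the relation "equal or non-commuting" -/
def R {G : Type*} [Group G] (w w' : G) : Prop := w = w' ∨ ¬ Commute w w'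

theorem R.symm {G : Type*} [Group G] {w w' : G} (h : R w w') : R w' w := by
  rcases h with h | h
  · exact Or.inl h.symm
  · exact Or.inr (fun h' => h h'.symm)

theorem R.conj {G : Type*} [Group G] {w w' : G} (h : R w w') (k : G) :
    R (k * w * k⁻¹) (k * w' * k⁻¹) := by
  rcases h with h | h
  · exact Or.inl (by rw [h])
  · exact Or.inr (fun h' => h ((Commute.conj_iff k).1 h'))

theorem conj_inj {G : Type*} [Group G] (k : G) {u v : G} (h : k * u * k⁻¹ = k * v * k⁻¹) : u = v :=
  mul_left_cancel (mul_right_cancel h)

theorem part2 {G : Type*} [Group G] [Finite G] [IsSimpleGroup G] (x : G) (hx : orderOf x = 2)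
    (hT : ThreeInv x) (S : Sylow 2 G) (hS : (S : Subgroup G) ≤ Subgroup.centralizer ({x} : Set G))
    (a : G) (ha : orderOf a = 2) (hax : Commute a x) : IsConj x a := by
  by_cases hne : a = x
  · rw [hne]
  by_contra hna
  have hxx := mul_self_of_orderOf_two hx
  have haa := mul_self_of_orderOf_two ha
  obtain ⟨b, hbdef⟩ : ∃ b, b = x * a := ⟨_, rfl⟩
  have hInv : ∀ c, orderOf c = 2 → Commute c x → c = x ∨ c = a ∨ c = b := by
    intro c hc hcx
    rw [hbdef]
    exact hT a c ha hax hne hc hcx
  have hab : Commute a b := by rw [hbdef]; exact hax.mul_right (Commute.refl a)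
  have hbx : Commute b x := by rw [hbdef]; exact (Commute.refl x).mul_left hax
  have hbne1 : b ≠ 1 := by
    intro h
    apply hne
    calc a = (x * x) * a := by rw [hxx, one_mul]
      _ = x * (x * a) := by rw [mul_assoc]
      _ = x := by rw [← hbdef, h, mul_one]
  have hbb : b * b = 1 := by
    rw [hbdef]
    calc x * a * (x * a) = x * (a * x) * a := by simp only [mul_assoc]
      _ = x * (x * a) * a := by rw [hax.eq]
      _ = (x * x) * (a * a) := by simp only [mul_assoc]
      _ = 1 := by rw [hxx, haa, one_mul]
  have hb : orderOf b = 2 := orderOf_two_of hbne1 hbb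
  have hanb : a ≠ b := by
    intro h
    apply ne_one_of_orderOf_two hx
    have : 1 * a = x * a := by rw [one_mul, ← hbdef]; exact h
    exact (mul_right_cancel this).symm
  have hxab : x = b * a := by rw [hbdef, mul_assoc, haa, mul_one]
  -- simultaneous conjugation of commuting involutions into `{x, a, b}`
  have hC : ∀ s : Set G, (∀ c ∈ s, orderOf c = 2) → (∀ c ∈ s, ∀ d ∈ s, c * d = d * c) →
      ∃ k : G, ∀ c ∈ s, k * c * k⁻¹ = x ∨ k * c * k⁻¹ = a ∨ k * c * k⁻¹ = b := by
    intro s hs2 hsc
    obtain ⟨k, hk⟩ := exists_conj_mem_sylow_of_commuting S s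
      (fun c hc => by rw [← hs2 c hc]; exact pow_orderOf_eq_one c) hsc
    refine ⟨k, fun c hc => hInv _ (orderOf_conj_two k (hs2 c hc)) ?_⟩
    have := hS (hk c hc)
    rwa [Subgroup.mem_centralizer_singleton_iff] at this
  by_cases hxb : IsConj x b
  · -- case (i)
    apply hna
    apply isConj_of_star x a hx ha hax.symm
    intro u hu hux g hw
    have hwo : orderOf (g * a * g⁻¹) = 2 := orderOf_conj_two g ha
    rcases hInv u hu hux with rfl | rfl | rfl
    · rcases hInv _ hwo hw with h | h | h
      · rw [h]; exact hax.symm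
      · rw [h]
      · rw [h]; exact hab.symm
    · exact hw
    · obtain ⟨h, hh⟩ := isConj_iff.1 hxb
      have hT' : ThreeInv u := hh ▸ hT.conj h
      rcases hT' a _ ha hab hanb hwo hw with h | h | h
      · rw [h]; exact hab.symm
      · rw [h]
      · rw [h]; exact hab.symm.mul_left (Commute.refl a)
  -- case (ii)
  have hF : ∀ g : G, Commute (g * a * g⁻¹) a ∨ Commute (g * a * g⁻¹) b := by
    intro g
    have hwo : orderOf (g * a * g⁻¹) = 2 := orderOf_conj_two g ha
    have hnc' : ¬ IsConj x (g * a * g⁻¹) := fun h =>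
      hna (h.trans (isConj_iff.2 ⟨g⁻¹, by group⟩))
    obtain ⟨u, hu, hux, huw, -⟩ := exists_involution_commute_of_not_isConj x _ hx hwo hnc'
    rcases hInv u hu hux with rfl | rfl | rfl
    · rcases hInv _ hwo huw.symm with h | h | h
      · rw [h]; exact Or.inl hax.symm
      · rw [h]; exact Or.inl (Commute.refl a)
      · rw [h]; exact Or.inl hab.symm
    · exact Or.inl huw.symm
    · exact Or.inr huw.symm
  have hcx : ∀ k g : G, k * (g * a * g⁻¹) * k⁻¹ ≠ x := by
    intro k g h
    apply hna
    exact (isConj_iff.2 ⟨k * g, by rw [← h]; group⟩ : IsConj a x).symm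
  by_cases hcab : IsConj a b
  · -- case (ii-A)
    obtain ⟨k₀, hk₀⟩ := isConj_iff.1 hcab
    have hR2' : ∀ g g' : G, R (g * a * g⁻¹) a → R a (g' * a * g'⁻¹) →
        R (g * a * g⁻¹) (g' * a * g'⁻¹) := by
      intro g g' h1 h2
      rcases h1 with h1 | h1
      · rw [h1]; exact h2
      rcases h2 with h2 | h2
      · rw [← h2]; exact Or.inr h1
      have c1 : Commute (g * a * g⁻¹) b := (hF g).resolve_left h1
      have c2 : Commute (g' * a * g'⁻¹) b := (hF g').resolve_left (fun h => h2 h.symm)
      by_cases e : g * a * g⁻¹ = g' * a * g'⁻¹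
      · exact Or.inl e
      right
      intro hcomm
      have n1 : b ≠ g * a * g⁻¹ := by
        intro h; apply h1; rw [← h]; exact hab.symm
      have n2 : b ≠ g' * a * g'⁻¹ := by
        intro h; apply h2; rw [← h]; exact hab
      obtain ⟨k, hk⟩ := hC {b, g * a * g⁻¹, g' * a * g'⁻¹} (by
          intro c hc
          simp only [Set.mem_insert_iff, Set.mem_singleton_iff] at hc
          rcases hc with rfl | rfl | rfl
          · exact hb
          · exact orderOf_conj_two g ha
          · exact orderOf_conj_two g' ha) (by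
          intro c hc d hd
          simp only [Set.mem_insert_iff, Set.mem_singleton_iff] at hc hd
          rcases hc with rfl | rfl | rfl <;> rcases hd with rfl | rfl | rfl
          · rfl
          · exact c1.symm.eq
          · exact c2.symm.eq
          · exact c1.eq
          · rfl
          · exact hcomm.eq
          · exact c2.eq
          · exact hcomm.symm.eq
          · rfl)
      have k1 := hk b (by simp)
      have k2 := hk (g * a * g⁻¹) (by simp)
      have k3 := hk (g' * a * g'⁻¹) (by simp)
      have k1' : k * b * k⁻¹ = a ∨ k * b * k⁻¹ = b := by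
        rcases k1 with h | h
        · exact absurd (by rw [← hk₀] at h; exact h) (hcx k k₀)
        · exact h
      have k2' := k2.resolve_left (hcx k g)
      have k3' := k3.resolve_left (hcx k g')
      rcases k1' with k1 | k1 <;> rcases k2' with k2 | k2 <;> rcases k3' with k3 | k3
      · exact n1 (conj_inj k (k1.trans k2.symm))
      · exact n1 (conj_inj k (k1.trans k2.symm))
      · exact n2 (conj_inj k (k1.trans k3.symm))
      · exact e (conj_inj k (k2.trans k3.symm))
      · exact e (conj_inj k (k2.trans k3.symm))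
      · exact n2 (conj_inj k (k1.trans k3.symm))
      · exact n1 (conj_inj k (k1.trans k2.symm))
      · exact n1 (conj_inj k (k1.trans k2.symm))
    have hR2 : ∀ g₁ g₂ g₃ : G, R (g₁ * a * g₁⁻¹) (g₂ * a * g₂⁻¹) → R (g₂ * a * g₂⁻¹) (g₃ * a * g₃⁻¹) →
        R (g₁ * a * g₁⁻¹) (g₃ * a * g₃⁻¹) := by
      intro g₁ g₂ g₃ h1 h2
      have h1' := h1.conj g₂⁻¹
      have h2' := h2.conj g₂⁻¹
      have e1 : g₂⁻¹ * (g₁ * a * g₁⁻¹) * g₂⁻¹⁻¹ = (g₂⁻¹ * g₁) * a * (g₂⁻¹ * g₁)⁻¹ := by group
      have e2 : g₂⁻¹ * (g₂ * a * g₂⁻¹) * g₂⁻¹⁻¹ = a := by group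
      have e3 : g₂⁻¹ * (g₃ * a * g₃⁻¹) * g₂⁻¹⁻¹ = (g₂⁻¹ * g₃) * a * (g₂⁻¹ * g₃)⁻¹ := by group
      rw [e1, e2] at h1'
      rw [e2, e3] at h2'
      have h3 := (hR2' _ _ h1' h2').conj g₂
      have e4 : g₂ * ((g₂⁻¹ * g₁) * a * (g₂⁻¹ * g₁)⁻¹) * g₂⁻¹ = g₁ * a * g₁⁻¹ := by group
      have e5 : g₂ * ((g₂⁻¹ * g₃) * a * (g₂⁻¹ * g₃)⁻¹) * g₂⁻¹ = g₃ * a * g₃⁻¹ := by group
      rwa [e4, e5] at h3
    have hR3 : ∀ g : G, R a (g * a * g⁻¹) ∨ R b (g * a * g⁻¹) := by
      intro g
      by_contra hcon
      unfold R at hcon
      push Not at hcon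
      obtain ⟨⟨n1, c1⟩, ⟨n2, c2⟩⟩ := hcon
      have hwx : Commute (g * a * g⁻¹) x := by
        rw [hxab]; exact (c2.symm).mul_right c1.symm
      rcases hInv _ (orderOf_conj_two g ha) hwx with h | h | h
      · exact hcx 1 g (by simpa using h)
      · exact n1 h.symm
      · exact n2 h.symm
    have hR4 : ¬ R a b := by
      rintro (h | h)
      · exact hanb h
      · exact h hab
    have e1a : (1 : G) * a * (1 : G)⁻¹ = a := by group
    let H : Subgroup G :=
      { carrier := {g | R a (g * a * g⁻¹)}
        one_mem' := by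
          show R a (1 * a * 1⁻¹)
          rw [e1a]; exact Or.inl rfl
        mul_mem' := by
          intro g h hg hh
          have hg : R a (g * a * g⁻¹) := hg
          have hh : R a (h * a * h⁻¹) := hh
          show R a (g * h * a * (g * h)⁻¹)
          have h1 := hh.conj g
          have e : g * (h * a * h⁻¹) * g⁻¹ = g * h * a * (g * h)⁻¹ := by group
          rw [e] at h1
          have := hR2 1 g (g * h) (by rw [e1a]; exact hg) h1
          rwa [e1a] at this
        inv_mem' := by
          intro g hg
          have hg : R a (g * a * g⁻¹) := hg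
          show R a (g⁻¹ * a * g⁻¹⁻¹)
          have h1 := hg.conj g⁻¹
          have e : g⁻¹ * (g * a * g⁻¹) * g⁻¹⁻¹ = a := by group
          rw [e] at h1
          exact h1.symm }
    have hmemH : ∀ g, g ∈ H ↔ R a (g * a * g⁻¹) := fun g => Iff.rfl
    have hnot : ∀ g : G, ¬ R (g * a * g⁻¹) (g * k₀ * a * (g * k₀)⁻¹) := by
      intro g h
      have h1 := h.conj g⁻¹
      have e : g⁻¹ * (g * a * g⁻¹) * g⁻¹⁻¹ = a := by group
      have e' : g⁻¹ * (g * k₀ * a * (g * k₀)⁻¹) * g⁻¹⁻¹ = k₀ * a * k₀⁻¹ := by group
      rw [e, e', hk₀] at h1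
      exact hR4 h1
    have hidx : H.index = 2 := by
      rw [Subgroup.index_eq_two_iff]
      refine ⟨k₀, fun g => ?_⟩
      rw [hmemH, hmemH]
      by_cases p : R a (g * a * g⁻¹)
      · right
        refine ⟨p, fun q => ?_⟩
        apply hnot g
        have := hR2 g 1 (g * k₀) (by rw [e1a]; exact p.symm) (by rw [e1a]; exact q)
        exact this
      · left
        refine ⟨?_, p⟩
        have p' := (hR3 g).resolve_left p
        by_contra q
        have q' := (hR3 (g * k₀)).resolve_left q
        apply hnot g
        rw [← hk₀] at p' q'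
        exact hR2 g k₀ (g * k₀) p'.symm q'
    have hHn : H.Normal := Subgroup.normal_of_index_eq_two hidx
    rcases hHn.eq_bot_or_eq_top with h | h
    · have hxH : x ∈ H := by
        rw [hmemH]
        left
        calc a = a * x * x⁻¹ := by group
          _ = x * a * x⁻¹ := by rw [hax.eq]
      rw [h, Subgroup.mem_bot] at hxH
      exact ne_one_of_orderOf_two hx hxH
    · rw [h, Subgroup.index_top] at hidx
      omega
  · -- case (ii-B)
    have hall : ∀ g : G, Commute (g * a * g⁻¹) b := by
      intro g
      rcases hF g with h | h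
      · by_cases hw : g * a * g⁻¹ = a
        · rw [hw]; exact hab
        · exfalso
          obtain ⟨k, hk⟩ := hC {a, g * a * g⁻¹} (by
              intro c hc
              simp only [Set.mem_insert_iff, Set.mem_singleton_iff] at hc
              rcases hc with rfl | rfl
              · exact ha
              · exact orderOf_conj_two g ha) (by
              intro c hc d hd
              simp only [Set.mem_insert_iff, Set.mem_singleton_iff] at hc hd
              rcases hc with rfl | rfl <;> rcases hd with rfl | rfl
              · rfl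
              · exact h.symm.eq
              · exact h.eq
              · rfl)
          have k1 := hk a (by simp)
          have k2 := hk (g * a * g⁻¹) (by simp)
          have k1' : k * a * k⁻¹ = a := by
            rcases k1 with h | h | h
            · exact absurd (isConj_iff.2 ⟨k, h⟩ : IsConj a x).symm hna
            · exact h
            · exact absurd (isConj_iff.2 ⟨k, h⟩ : IsConj a b) hcab
          have k2' : k * (g * a * g⁻¹) * k⁻¹ = a := by
            rcases k2 with h | h | h
            · exact absurd h (hcx k g)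
            · exact h
            · exact absurd (isConj_iff.2 ⟨k * g, by rw [← h]; group⟩ : IsConj a b) hcab
          exact hw (conj_inj k (k2'.trans k1'.symm))
      · exact h
    have hle : Subgroup.normalClosure ({a} : Set G) ≤ Subgroup.centralizer ({b} : Set G) := by
      unfold Subgroup.normalClosure
      rw [Subgroup.closure_le]
      intro c hc
      rw [Group.mem_conjugatesOfSet_iff] at hc
      obtain ⟨d, hd, hdc⟩ := hc
      rw [Set.mem_singleton_iff] at hd
      subst hd
      obtain ⟨g, hg⟩ := isConj_iff.1 hdc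
      rw [SetLike.mem_coe, Subgroup.mem_centralizer_singleton_iff, ← hg]
      exact hall g
    have hn : (Subgroup.normalClosure ({a} : Set G)).Normal := Subgroup.normalClosure_normal
    have htop : Subgroup.normalClosure ({a} : Set G) = ⊤ := by
      rcases hn.eq_bot_or_eq_top with h | h
      · have : a ∈ Subgroup.normalClosure ({a} : Set G) :=
          Subgroup.subset_normalClosure (Set.mem_singleton a)
        rw [h, Subgroup.mem_bot] at this
        exact absurd this (ne_one_of_orderOf_two ha)
      · exact h
    have hbc : b ∈ Subgroup.center G := by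
      rw [Subgroup.mem_center_iff]
      intro g
      have : g ∈ Subgroup.centralizer ({b} : Set G) := hle (htop ▸ Subgroup.mem_top g)
      rwa [Subgroup.mem_centralizer_singleton_iff] at this
    have hcn : (Subgroup.center G).Normal := inferInstance
    have hctop : Subgroup.center G = ⊤ := by
      rcases hcn.eq_bot_or_eq_top with h | h
      · rw [h, Subgroup.mem_bot] at hbc
        exact absurd hbc hbne1
      · exact h
    apply hna
    apply isConj_of_star x a hx ha hax.symm
    intro u hu hux g hw
    have : a ∈ Subgroup.center G := hctop ▸ Subgroup.mem_top a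
    exact (Subgroup.mem_center_iff.1 this _)

/-- Let G be a finite simple group and x an involution of G whose centralizer contains at most three involutions. Then C_G(x) contains a Sylow 2-subgroup of G, and all involutions of G are conjugate. -/
theorem result {G : Type*} [Group G] [Finite G] [IsSimpleGroup G] (x : G) (hx : orderOf x = 2)
    (h3 : Nat.card {u : ↥(Subgroup.centralizer ({x} : Set G)) // orderOf u = 2} ≤ 3) :
    (∃ S : Sylow 2 G, (S : Subgroup G) ≤ Subgroup.centralizer ({x} : Set G)) ∧
      ∀ u v : G, orderOf u = 2 → orderOf v = 2 → IsConj u v := by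
  have hT := threeInv_of_card x hx h3
  obtain ⟨S, hS⟩ := part1 x hx hT
  refine ⟨⟨S, hS⟩, ?_⟩
  have key : ∀ u : G, orderOf u = 2 → IsConj x u := by
    intro u hu
    have hP : IsPGroup 2 ↥(Subgroup.zpowers u) := by
      apply IsPGroup.of_card (n := 1)
      rw [Nat.card_zpowers, hu]; rfl
    obtain ⟨g, hg⟩ := exists_conj_mem_sylow S _ hP
    have h1 := hS (hg u (Subgroup.mem_zpowers u))
    rw [Subgroup.mem_centralizer_singleton_iff] at h1
    have h2 := part2 x hx hT S hS _ (orderOf_conj_two g hu) h1
    exact h2.trans (isConj_iff.2 ⟨g⁻¹, by group⟩)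
  intro u v hu hv
  exact (key u hu).symm.trans (key v hv)

end Cfsg.Agent.S3279
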