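import Cfsg.Statements.S3299
import Cfsg.Agent.Lib.Helper70.TransferDual
import Cfsg.Agent.Lib.Helper93.LargeExtra
import Cfsg.Agent.Lib.Helper48.Extra2

set_option autoImplicit false
open Cfsg

namespace Cfsg.Agent.S3299

open Cfsg.Agent.Lib.Helper93

variable {G : Type*} [Group G]

/-- The sign homomorphism of a subgroup of index two. -/
noncomputable def signHom {H : Type*} [Group H] (K : Subgroup H) (hK : K.index = 2) : H →* ℤˣ := by
  classical
  exact MonoidHom.mk' (fun h => if h ∈ K then 1 else -1) (by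
    intro a b
    have := Subgroup.mul_mem_iff_of_index_two hK (a := a) (b := b)
    by_cases ha : a ∈ K <;> by_cases hb : b ∈ K <;> simp [ha, hb, this])

theorem signHom_eq_one_iff {H : Type*} [Group H] (K : Subgroup H) (hK : K.index = 2) (h : H) :
    signHom K hK h = 1 ↔ h ∈ K := by
  classical
  show (if h ∈ K then (1 : ℤˣ) else -1) = 1 ↔ h ∈ K
  by_cases hh : h ∈ K <;> simp [hh]

theorem signHom_cases {H : Type*} [Group H] (K : Subgroup H) (hK : K.index = 2) (h : H) :
    signHom K hK h = 1 ∨ signHom K hK h = -1 := Int.units_eq_one_or _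

theorem hom_eq_one_of_pResidual (hres : Cfsg.pResidual 2 G = ⊤) (f : G →* ℤˣ) (g : G) : f g = 1 := by
  have h1 : Cfsg.pResidual 2 G ≤ f.ker := by
    unfold Cfsg.pResidual
    rw [Subgroup.closure_le]
    intro x hx
    have hx' : Nat.Coprime (orderOf x) 2 := hx
    show f x = 1
    have e1 : (f x) ^ orderOf x = 1 := by rw [← map_pow, pow_orderOf_eq_one, map_one]
    have e2 : (f x) ^ 2 = 1 := Int.units_sq _
    have d1 := orderOf_dvd_of_pow_eq_one e1
    have d2 := orderOf_dvd_of_pow_eq_one e2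
    exact orderOf_eq_one_iff.1 (Nat.eq_one_of_dvd_coprimes hx' d1 d2)
  rw [hres] at h1
  exact h1 (Subgroup.mem_top g)

theorem ES_sq [Finite G] {Q : Subgroup G} {z : G} (hE : Cfsg.IsExtraspecial 2 ↥Q) (h : ES Q z) :
    ∀ a ∈ Q, a * a = 1 ∨ a * a = z := by
  intro a ha
  have h1 := Cfsg.Agent.Lib.Helper48.sq_mem_center hE ⟨a, ha⟩
  rw [Subgroup.mem_center_iff] at h1
  apply h.center (a * a) (Q.mul_mem ha ha)
  intro b hb
  have := congrArg Subtype.val (h1 ⟨b, hb⟩)
  simp only [pow_two, Subgroup.coe_mul] at this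
  exact this.symm

theorem mem_closure_pair {z x y : G} (hz2 : z * z = 1) (hx2 : x * x = 1 ∨ x * x = z)
    (hzx : z * x = x * z) (hy : y ∈ Subgroup.closure (insert z (({x} : Finset G) : Set G))) :
    y = 1 ∨ y = z ∨ y = x ∨ y = x * z := by
  rcases hx2 with hx2 | hx2
  · exact mem_closure_pair_invol hz2 hx2 hzx hy
  have l1 : ∀ t : G, z * (z * t) = t := fun t => by rw [← mul_assoc, hz2, one_mul]
  have l2 : ∀ t : G, x * (x * t) = z * t := fun t => by rw [← mul_assoc, hx2]
  have l3 : ∀ t : G, z * (x * t) = x * (z * t) := fun t => by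
    rw [← mul_assoc, hzx, mul_assoc]
  induction hy using Subgroup.closure_induction with
  | mem y hy =>
    rcases hy with rfl | hy
    · simp
    · have : y = x := by simpa using hy
      simp [this]
  | one => simp
  | mul a b _ _ ha hb =>
    rcases ha with rfl | rfl | rfl | rfl <;> rcases hb with rfl | rfl | rfl | rfl <;>
      simp [mul_assoc, hz2, hx2, hzx, l1, l2, l3]
  | inv a _ ha =>
    have iz : z⁻¹ = z := inv_eq_of_mul_eq_one_left hz2
    have ix : x⁻¹ = x * z := by
      apply inv_eq_of_mul_eq_one_right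
      rw [← mul_assoc, hx2, hz2]
    rcases ha with rfl | rfl | rfl | rfl <;> simp [iz, ix, hzx, mul_assoc, hz2, l1, l2, l3]

/-- In an extraspecial 2-group of order more than `8` the centralizer of each element is non-abelian. -/
theorem exists_noncomm [Finite G] {Q : Subgroup G} {z : G} (h : ES Q z) (hcard : 8 < Nat.card Q)
    {x : G} (hx : x ∈ Q) (hx2 : x * x = 1 ∨ x * x = z) :
    ∃ a ∈ Q, ∃ b ∈ Q, a * x = x * a ∧ b * x = x * b ∧ a * b ≠ b * a := by
  classical
  have hzx : z * x = x * z := (h.z_comm x hx).symm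
  -- an element of the centralizer outside `⟨z, x⟩`
  have step1 : ∃ a ∈ Q, a * x = x * a ∧ a ∉ Subgroup.closure (insert z (({x} : Finset G) : Set G)) := by
    by_contra hno
    push Not at hno
    have hT : ∀ a ∈ Q, a * x = x * a → a = 1 ∨ a = z ∨ a = x ∨ a = x * z := fun a ha hax =>
      mem_closure_pair h.z_sq hx2 hzx (hno a ha hax)
    obtain ⟨q, hq⟩ : ∃ q : G, q ∈ Q ∧ (∀ a ∈ Q, a * x ≠ x * a → (a * q) * x = x * (a * q)) := by
      by_cases hc : ∀ q ∈ Q, q * x = x * q
      · exact ⟨1, Q.one_mem, fun a ha hax => absurd (hc a ha) hax⟩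
      · push Not at hc
        obtain ⟨q, hq, hqx⟩ := hc
        exact ⟨q, hq, fun a ha hax =>
          (h.mul_comm_iff hx ha hq).2 ⟨fun h' => absurd h' hax, fun h' => absurd h' hqx⟩⟩
    have hsub : (Q : Set G) ⊆ ↑({1, z, x, x * z, q⁻¹, z * q⁻¹, x * q⁻¹, x * z * q⁻¹} : Finset G) := by
      intro a ha
      simp only [Finset.coe_insert, Finset.coe_singleton, Set.mem_insert_iff, Set.mem_singleton_iff]
      by_cases hax : a * x = x * a
      · rcases hT a ha hax with h1 | h1 | h1 | h1 <;> simp [h1]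
      · have h2 := hT (a * q) (Q.mul_mem ha hq.1) (hq.2 a ha hax)
        rcases h2 with h1 | h1 | h1 | h1
        · right; right; right; right; left
          exact eq_inv_of_mul_eq_one_left h1
        · right; right; right; right; right; left
          rw [← h1]; group
        · right; right; right; right; right; right; left
          rw [← h1]; group
        · right; right; right; right; right; right; right
          rw [← h1]; group
    have h1 : Nat.card Q = (Q : Set G).ncard := Nat.card_coe_set_eq _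
    have h2 := Set.ncard_le_ncard hsub (Finset.finite_toSet _)
    rw [Set.ncard_coe_finset] at h2
    have h3 : ({1, z, x, x * z, q⁻¹, z * q⁻¹, x * q⁻¹, x * z * q⁻¹} : Finset G).card ≤ 8 := by
      refine (Finset.card_insert_le _ _).trans ?_
      refine Nat.succ_le_succ ((Finset.card_insert_le _ _).trans ?_)
      refine Nat.succ_le_succ ((Finset.card_insert_le _ _).trans ?_)
      refine Nat.succ_le_succ ((Finset.card_insert_le _ _).trans ?_)
      refine Nat.succ_le_succ ((Finset.card_insert_le _ _).trans ?_)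
      refine Nat.succ_le_succ ((Finset.card_insert_le _ _).trans ?_)
      refine Nat.succ_le_succ ((Finset.card_insert_le _ _).trans ?_)
      simp
    omega
  obtain ⟨a, ha, hax, han⟩ := step1
  obtain ⟨g, hg, hgS, hga⟩ := h.exists_comm_not_comm {x} (by simpa using hx) a ha han
  exact ⟨g, hg, a, ha, hgS x (by simp), hax, hga⟩

/-- An extraspecial 2-group of order more than `8` has an involution outside each subgroup "of index two". -/
theorem exists_involution [Finite G] {Q : Subgroup G} {z : G} (h : ES Q z) (hcard : 8 < Nat.card Q)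
    (hsq : ∀ a ∈ Q, a * a = 1 ∨ a * a = z) (K : Subgroup G)
    (hK : ∀ a ∈ Q, ∀ b ∈ Q, a ∉ K → b ∉ K → a * b ∈ K) (hQK : ¬ Q ≤ K) :
    ∃ u ∈ Q, u ∉ K ∧ u * u = 1 := by
  obtain ⟨x, hx, hxK⟩ := SetLike.not_le_iff_exists.1 hQK
  rcases hsq x hx with hx2 | hx2
  · exact ⟨x, hx, hxK, hx2⟩
  obtain ⟨a, ha, b, hb, hax, hbx, hab⟩ := exists_noncomm h hcard hx (Or.inr hx2)
  -- move `a`, `b` into `K`
  have hmove : ∀ a ∈ Q, a * x = x * a → ∃ a' ∈ Q, a' ∈ K ∧ a' * x = x * a' ∧ (a' = a ∨ a' = a * x) := by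
    intro a ha hax
    by_cases haK : a ∈ K
    · exact ⟨a, ha, haK, hax, Or.inl rfl⟩
    · refine ⟨a * x, Q.mul_mem ha hx, hK a ha x hx haK hxK, ?_, Or.inr rfl⟩
      rw [hax, mul_assoc, hax]
  obtain ⟨a', ha', haK, hax', hae⟩ := hmove a ha hax
  obtain ⟨b', hb', hbK, hbx', hbe⟩ := hmove b hb hbx
  have hab' : a' * b' ≠ b' * a' := by
    intro hc
    apply hab
    rcases hae with rfl | rfl <;> rcases hbe with rfl | rfl
    · exact hc
    · have e1 : a' * (b * x) = (a' * b) * x := by group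
      have e2 : b * x * a' = (b * a') * x := by rw [mul_assoc, ← hax, ← mul_assoc]
      rw [e1, e2] at hc
      exact mul_right_cancel hc
    · have e1 : a * x * b' = (a * b') * x := by rw [mul_assoc, ← hbx, ← mul_assoc]
      have e2 : b' * (a * x) = (b' * a) * x := by group
      rw [e1, e2] at hc
      exact mul_right_cancel hc
    · have e1 : a * x * (b * x) = (a * b) * (x * x) := by
        rw [mul_assoc, ← mul_assoc x b, ← hbx]; group
      have e2 : b * x * (a * x) = (b * a) * (x * x) := by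
        rw [mul_assoc, ← mul_assoc x a, ← hax]; group
      rw [e1, e2] at hc
      exact mul_right_cancel hc
  -- one of `a'`, `b'`, `a' b'` has square `z`
  have hy : ∃ y ∈ Q, y ∈ K ∧ y * x = x * y ∧ y * y = z := by
    rcases hsq a' ha' with h1 | h1
    · rcases hsq b' hb' with h2 | h2
      · rcases hsq (a' * b') (Q.mul_mem ha' hb') with h3 | h3
        · exfalso
          apply hab'
          have i1 : a'⁻¹ = a' := inv_eq_of_mul_eq_one_left h1
          have i2 : b'⁻¹ = b' := inv_eq_of_mul_eq_one_left h2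
          have i3 : (a' * b')⁻¹ = a' * b' := inv_eq_of_mul_eq_one_left h3
          rw [mul_inv_rev, i1, i2] at i3
          exact i3.symm
        · refine ⟨a' * b', Q.mul_mem ha' hb', K.mul_mem haK hbK, ?_, h3⟩
          rw [mul_assoc, hbx', ← mul_assoc, hax', mul_assoc]
      · exact ⟨b', hb', hbK, hbx', h2⟩
    · exact ⟨a', ha', haK, hax', h1⟩
  obtain ⟨y, hy, hyK, hyx, hy2⟩ := hy
  refine ⟨x * y, Q.mul_mem hx hy, ?_, ?_⟩
  · intro hc
    apply hxK
    have := K.mul_mem hc (K.inv_mem hyK)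
    simpa using this
  · have : x * y * (x * y) = (x * x) * (y * y) := by
      rw [mul_assoc, ← mul_assoc y x, hyx]; group
    rw [this, hx2, hy2, h.z_sq]

/-- Let G be a finite group with no nontrivial 2-group quotient (O^2(G) = G), z an involution of G with H = C_G(z), and suppose E = O_2(H) is extraspecial with C_G(E) ≤ E and of order 2^(2n+1) with n ≥ 2. Then E is contained in every normal subgroup of H of index 2. -/
theorem result {G : Type*} [Group G] [Finite G] (hres : Cfsg.pResidual 2 G = ⊤) (z : G) (hz : orderOf z = 2)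
    (E : Subgroup G) (hE : E = (Cfsg.pCore 2 ↥(Subgroup.centralizer ({z} : Set G))).map (Subgroup.centralizer ({z} : Set G)).subtype)
    (hext : Cfsg.IsExtraspecial 2 ↥E) (hcent : Subgroup.centralizer (E : Set G) ≤ E) (n : ℕ) (hn : 2 ≤ n) (hcard : Nat.card ↥E = 2 ^ (2 * n + 1))
    (K : Subgroup G) (hKH : K ≤ Subgroup.centralizer ({z} : Set G))
    (hKn : ∀ h ∈ Subgroup.centralizer ({z} : Set G), K.map (MulAut.conj h).toMonoidHom = K)
    (hKi : K.relIndex (Subgroup.centralizer ({z} : Set G)) = 2) : E ≤ K := by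
  have hEQ : E = QQ z := hE
  subst hEQ
  have hL : LES z := LES.of_hyp hz hext hcent
  have hes := hL.es
  have hsq := ES_sq hext hes
  have hc8 : 8 < Nat.card ↥(QQ z) := by
    rw [hcard]
    calc 8 < 2 ^ 5 := by norm_num
      _ ≤ 2 ^ (2 * n + 1) := Nat.pow_le_pow_right (by norm_num) (by omega)
  obtain ⟨H, hH⟩ : ∃ H, H = Subgroup.centralizer ({z} : Set G) := ⟨_, rfl⟩
  rw [← hH] at hKH hKi
  have hQH : QQ z ≤ H := by rw [hH]; exact QQ_le_centralizer z
  have hidx : (K.subgroupOf H).index = 2 := hKi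
  have hmemK : ∀ a b : G, a ∈ H → b ∈ H → (a * b ∈ K ↔ (a ∈ K ↔ b ∈ K)) := by
    intro a b ha hb
    have := Subgroup.mul_mem_iff_of_index_two hidx (a := ⟨a, ha⟩) (b := ⟨b, hb⟩)
    simpa [Subgroup.mem_subgroupOf] using this
  by_contra hEK
  obtain ⟨u, hu, huK, hu2⟩ := exists_involution hes hc8 hsq K (fun a ha b hb haK hbK =>
    (hmemK a b (hQH ha) (hQH hb)).2 ⟨fun h' => absurd h' haK, fun h' => absurd h' hbK⟩) hEK
  have hu1 : u ≠ 1 := fun h' => huK (h' ▸ K.one_mem)
  have huo : orderOf u = 2 := orderOf_eq_prime (by rw [pow_two]; exact hu2) hu1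
  -- commutators of elements of `H` lie in `K`
  have hcommK : ∀ a b : G, a ∈ H → b ∈ H → a * b * a⁻¹ * b⁻¹ ∈ K := by
    intro a b ha hb
    have h1 : signHom _ hidx (⟨a, ha⟩ * ⟨b, hb⟩ * ⟨a, ha⟩⁻¹ * ⟨b, hb⟩⁻¹) = 1 := by
      rw [map_mul, map_mul, map_mul, map_inv, map_inv, mul_comm (signHom _ hidx ⟨a, ha⟩), mul_assoc,
        mul_assoc, ← mul_assoc (signHom _ hidx ⟨a, ha⟩), mul_inv_cancel, one_mul, mul_inv_cancel]
    rw [signHom_eq_one_iff, Subgroup.mem_subgroupOf] at h1
    exact h1
  obtain ⟨a, ha, b, hb, hau, hbu, hab⟩ := exists_noncomm hes hc8 hu (Or.inl hu2)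
  have hzab : z = a * b * a⁻¹ * b⁻¹ := by
    have := (hes.ne_iff ha hb).1 hab
    rw [this]; group
  have hzK : z ∈ K := by rw [hzab]; exact hcommK a b (hQH ha) (hQH hb)
  have huz : u ≠ z := fun h' => huK (h' ▸ hzK)
  -- the transfer
  have hV : MonoidHom.transfer (signHom _ hidx) u = 1 := hom_eq_one_of_pResidual hres _ u
  obtain ⟨R, hR⟩ : ∃ R, R = QQ z ⊓ Subgroup.centralizer ({u} : Set G) := ⟨_, rfl⟩
  have hRp : IsPGroup 2 ↥R := by
    rw [hR]; exact (QQ_isPGroup z).to_le inf_le_left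
  obtain ⟨k, hk, hkH, hφ, hkR⟩ := Cfsg.Agent.Lib.Helper70.exists_other_conj_of_transfer_eq_one H
    (signHom _ hidx) u (by
      intro k m hm hmd hk
      rw [huo] at hmd
      have hm2 : m = 2 := by
        have := Nat.le_of_dvd (by norm_num) hmd
        omega
      have : (⟨k⁻¹ * u ^ m * k, hk⟩ : H) = 1 := by
        apply Subtype.ext
        show k⁻¹ * u ^ m * k = 1
        rw [hm2, pow_two, hu2]; group
      rw [this, map_one])
    (-1) (by decide) (by decide) (fun k hk => signHom_cases _ _ _) hV R hRp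
    (by rw [hR]; exact inf_le_right) (by rw [hR]; exact inf_le_left.trans hQH) (hQH hu)
    ((signHom_cases _ hidx _).resolve_left (by
      rw [signHom_eq_one_iff, Subgroup.mem_subgroupOf]; exact huK))
  have hkK : k⁻¹ * u * k ∉ K := by
    intro hc
    have : signHom _ hidx ⟨k⁻¹ * u * k, hk⟩ = 1 := by
      rw [signHom_eq_one_iff, Subgroup.mem_subgroupOf]; exact hc
    rw [this] at hφ
    revert hφ; decide
  -- `z' = k z k⁻¹` centralizes `R`
  have hcen : ∀ r ∈ QQ z, r * u = u * r → (k * z * k⁻¹) * r = r * (k * z * k⁻¹) := by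
    intro r hr hru
    have h1 : k⁻¹ * r * k ∈ H := hkR r (by
      rw [hR]; exact ⟨hr, Subgroup.mem_centralizer_singleton_iff.2 hru⟩)
    rw [hH, Subgroup.mem_centralizer_singleton_iff] at h1
    calc k * z * k⁻¹ * r = k * (z * (k⁻¹ * r * k)) * k⁻¹ := by group
      _ = k * ((k⁻¹ * r * k) * z) * k⁻¹ := by rw [h1]
      _ = r * (k * z * k⁻¹) := by group
  have hz1 : z ≠ 1 := hes.z_ne
  rcases hL.centralizer_R hu hu1 huz hu2 hcen with h1 | h1 | h1 | h1
  · apply hz1
    have : z = k⁻¹ * (k * z * k⁻¹) * k := by group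
    rw [this, h1]; group
  · apply hkH
    rw [hH, Subgroup.mem_centralizer_singleton_iff]
    rw [mul_inv_eq_iff_eq_mul] at h1
    exact h1
  · apply hkK
    rw [← h1]
    have : k⁻¹ * (k * z * k⁻¹) * k = z := by group
    rw [this]; exact hzK
  · apply hkK
    -- `k⁻¹ u k = z * (k⁻¹ z k)`
    have e1 : u = (k * z * k⁻¹) * z := by
      rw [h1, mul_assoc, hes.z_sq, mul_one]
    have e2 : k⁻¹ * u * k = z * (k⁻¹ * z * k) := by
      conv_lhs => rw [e1]
      group
    rw [e2]
    apply K.mul_mem hzK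
    have e3 : k⁻¹ * z * k = (k⁻¹ * a * k) * (k⁻¹ * b * k) * (k⁻¹ * a * k)⁻¹ * (k⁻¹ * b * k)⁻¹ := by
      rw [hzab]; group
    rw [e3]
    apply hcommK
    · exact hkR a (by rw [hR]; exact ⟨ha, Subgroup.mem_centralizer_singleton_iff.2 hau⟩)
    · exact hkR b (by rw [hR]; exact ⟨hb, Subgroup.mem_centralizer_singleton_iff.2 hbu⟩)

end Cfsg.Agent.S3299
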