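import Cfsg.Statements.S3303
import Cfsg.Agent.S0017
import Cfsg.Agent.S3305
import Cfsg.Agent.Lib.Lead.Cores
import Cfsg.Agent.Lib.Helper55.OddAction

set_option autoImplicit false
open Cfsg

namespace Cfsg.Agent.S3303

open Cfsg.Agent.Lib.Lead Cfsg.Agent.Lib.Helper55

theorem aux {X : Type*} [Group X] [Finite X]
    (hcent : Subgroup.centralizer (Cfsg.pCore 2 X : Set X) ≤ Cfsg.pCore 2 X)
    (hC : ∀ S T : Sylow 2 X, S ≠ T → IsCyclic ↥((S : Subgroup X) ⊓ (T : Subgroup X))) :
    ∃ P : Sylow 2 X, (P : Subgroup X).Normal := by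
  obtain ⟨P⟩ : Nonempty (Sylow 2 X) := inferInstance
  by_cases hall : ∀ P' : Sylow 2 X, P' = P
  · have : Subsingleton (Sylow 2 X) := ⟨fun a b => (hall a).trans (hall b).symm⟩
    exact ⟨P, Sylow.normal_of_subsingleton P⟩
  · push Not at hall
    obtain ⟨P', hP'⟩ := hall
    have hcyc := hC P' P hP'
    have hle : Cfsg.pCore 2 X ≤ (P' : Subgroup X) ⊓ (P : Subgroup X) :=
      le_inf (pCore_le_sylow P') (pCore_le_sylow P)
    have hQc : IsCyclic ↥(Cfsg.pCore 2 X) := Subgroup.isCyclic_of_le hle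
    have hQ2 : IsPGroup 2 ↥(Cfsg.pCore 2 X) := pCore_isPGroup 2 X
    have hX : IsPGroup 2 X := by
      apply isPGroup_two_of_odd_centralize (Cfsg.pCore 2 X) hQ2 hcent
      intro g hg
      apply mem_centralizer_of_odd_of_cyclic _ hQc hQ2 g _ hg
      rw [Subgroup.normalizer_eq_top]
      exact Subgroup.mem_top g
    refine ⟨P, ?_⟩
    have : (P : Subgroup X) = ⊤ := by
      have h1 : IsPGroup 2 ↥(⊤ : Subgroup X) := hX.to_subgroup _
      exact (P.3 h1 le_top).symm
    rw [this]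
    infer_instance

/-- Let G be a finite solvable group in which the intersection of any two distinct Sylow 2-subgroups is cyclic. Then G/O(G) has a normal Sylow 2-subgroup, where O(G) is the largest normal subgroup of odd order. -/
theorem result {G : Type*} [Group G] [Finite G] (hs : Group.IsSolvable G)
    (hC : ∀ S T : Sylow 2 G, S ≠ T → IsCyclic ↥((S : Subgroup G) ⊓ (T : Subgroup G))) :
    ∃ P : Sylow 2 (G ⧸ Cfsg.oddCore G), (P : Subgroup (G ⧸ Cfsg.oddCore G)).Normal := by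
  have hC' := Cfsg.Agent.S3305.result hC (Cfsg.oddCore G)
  have hsol : Group.IsSolvable (G ⧸ Cfsg.oddCore G) := inferInstance
  have hO : Cfsg.pPrimeCore 2 (G ⧸ Cfsg.oddCore G) = ⊥ := pPrimeCore_quotient_pPrimeCore 2 G
  have hcent := Cfsg.Agent.S0017.result (G := G ⧸ Cfsg.oddCore G) 2 hO
  exact aux hcent hC'

end Cfsg.Agent.S3303
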