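import Cfsg.Statements.S3304
import Cfsg.Agent.S0017
import Cfsg.Agent.Lib.Lead.Cores
import Cfsg.Agent.Lib.Helper21.Rank
import Cfsg.Agent.Lib.Helper62.GL2Sylow
import Cfsg.Agent.Lib.Helper49.G23.A
import Cfsg.Agent.Lib.Helper49.G23.B1
import Cfsg.Agent.Lib.Helper49.G23.B2
import Cfsg.Agent.Lib.Helper49.G23.C
import Cfsg.Agent.Lib.Helper49.G23.Da
import Cfsg.Agent.Lib.Helper49.G23.Db
import Cfsg.Agent.Lib.Helper49.G23.Dc
import Cfsg.Agent.Lib.Helper49.G23.E0
import Cfsg.Agent.Lib.Helper49.G23.E1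
import Cfsg.Agent.Lib.Helper49.G23.F

set_option autoImplicit false
open Cfsg

namespace Cfsg.Agent.S3304

/-- Let G be a finite solvable group in which the intersection of any two distinct Sylow 2-subgroups has 2-rank at most 1 (contains no Klein four-group). Write Q = G/O(G), O(G) the largest normal subgroup of odd order. Then Q has a normal Sylow 2-subgroup; or Q is isomorphic to GL(2,3); or Q has order 48, centre of order 2 with central quotient isomorphic to the symmetric group of degree 4, and generalized quaternion Sylow 2-subgroups of order 16 (the binary octahedral group). The last two are the two representation groups of the symmetric group of degree 4. -/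
theorem result {G : Type*} [Group G] [Finite G] (hs : Group.IsSolvable G)
    (hI : ∀ S T : Sylow 2 G, S ≠ T → Cfsg.PRankLE 2 1 ↥((S : Subgroup G) ⊓ (T : Subgroup G))) :
    (∃ P : Sylow 2 (G ⧸ Cfsg.oddCore G), (P : Subgroup (G ⧸ Cfsg.oddCore G)).Normal) ∨
    Nonempty ((G ⧸ Cfsg.oddCore G) ≃* GL (Fin 2) (ZMod 3)) ∨
    (Nat.card (G ⧸ Cfsg.oddCore G) = 48 ∧ Nat.card ↥(Subgroup.center (G ⧸ Cfsg.oddCore G)) = 2 ∧
      Nonempty ((G ⧸ Cfsg.oddCore G) ⧸ Subgroup.center (G ⧸ Cfsg.oddCore G) ≃* Equiv.Perm (Fin 4)) ∧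
      ∀ P : Sylow 2 (G ⧸ Cfsg.oddCore G), Nonempty (↥(P : Subgroup (G ⧸ Cfsg.oddCore G)) ≃* QuaternionGroup 4)) := by
  have hI' := Cfsg.Agent.Lib.Helper49.G23.prank_quot hI
  have hsol : Group.IsSolvable (G ⧸ Cfsg.oddCore G) := inferInstance
  have hO : Cfsg.pPrimeCore 2 (G ⧸ Cfsg.oddCore G) = ⊥ :=
    Cfsg.Agent.Lib.Lead.pPrimeCore_quotient_pPrimeCore 2 G
  have hcent := Cfsg.Agent.S0017.result (G := G ⧸ Cfsg.oddCore G) 2 hO
  have hgl : Nat.card (GL (Fin 2) (ZMod 3)) = 48 := by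
    rw [Cfsg.Agent.Lib.Helper62.card_GL2, ZMod.card]; norm_num
  by_cases hn : ∃ P : Sylow 2 (G ⧸ Cfsg.oddCore G), (P : Subgroup (G ⧸ Cfsg.oddCore G)).Normal
  · exact Or.inl hn
  · right
    have hU : Cfsg.Agent.Lib.Helper32.FCSol.UI ↥(Cfsg.pCore 2 (G ⧸ Cfsg.oddCore G)) := by
      apply Cfsg.Agent.Lib.Helper49.G23.ui_of_prank (Cfsg.Agent.Lib.Lead.pCore_isPGroup 2 _)
      obtain ⟨P⟩ : Nonempty (Sylow 2 (G ⧸ Cfsg.oddCore G)) := inferInstance
      by_cases hall : ∀ P' : Sylow 2 (G ⧸ Cfsg.oddCore G), P' = P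
      · exfalso
        have : Subsingleton (Sylow 2 (G ⧸ Cfsg.oddCore G)) :=
          ⟨fun a b => (hall a).trans (hall b).symm⟩
        exact hn ⟨P, Sylow.normal_of_subsingleton P⟩
      · push Not at hall
        obtain ⟨P', hP'⟩ := hall
        exact Cfsg.Agent.Lib.Helper21.PRankLE.mono_subgroup
          (le_inf (Cfsg.Agent.Lib.Lead.pCore_le_sylow P') (Cfsg.Agent.Lib.Lead.pCore_le_sylow P))
          (hI' P' P hP')
    obtain ⟨⟨e⟩, h48⟩ := Cfsg.Agent.Lib.Helper49.G23.q8_of_not_closed hcent hU hn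
    by_cases hu : Cfsg.Agent.Lib.Helper32.FCSol.UI (G ⧸ Cfsg.oddCore G)
    · right
      obtain ⟨a, b, c⟩ := Cfsg.Agent.Lib.Helper49.G23.ui_case _ e hcent h48 hu
      exact ⟨h48, a, b, c⟩
    · left
      obtain ⟨t, g, ht, htT, hg, hgT, htg⟩ := Cfsg.Agent.Lib.Helper49.G23.exists_tg _ e hcent h48 hu
      obtain ⟨i, hi, hi1, hti⟩ := Cfsg.Agent.Lib.Helper49.G23.exists_i _ e hcent ht htT
      obtain ⟨i', h1, h3, h5⟩ :=
        Cfsg.Agent.Lib.Helper49.G23.data_of_tgi _ e hcent ht htT hg hgT htg hi hi1 hti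
      obtain ⟨j, g', t', h1', h2', h3', h4', h5'⟩ := Cfsg.Agent.Lib.Helper49.G23.gl23_data
      exact Cfsg.Agent.Lib.Helper49.G23.iso_of_data h48 hgl
        (Cfsg.Agent.Lib.Helper49.G23.card_closure h1) (Cfsg.Agent.Lib.Helper49.G23.card_closure h1')
        (Cfsg.Agent.Lib.Helper49.G23.card_closure (Cfsg.Agent.Lib.Helper49.G23.data_prod h1 h1'))
        ht h2' h3 h3' htg h4' h5 h5'

end Cfsg.Agent.S3304
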