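import Cfsg.Statements.S3315
import Cfsg.Agent.Lib.Helper20.U3Idx

set_option autoImplicit false
open Cfsg

namespace Cfsg.Agent.S3315

/-- Let S be a Sylow 2-subgroup of SU₃(2ⁿ), n ≥ 2 (realised over the field with 4ⁿ elements). If a finite 2-group R contains a subgroup S' of index 2 isomorphic to S, then the centre of S' is contained in the centre of R. -/
theorem result {R : Type*} [Group R] [Finite R]
    (hR : IsPGroup 2 R) (n : ℕ) (hn : 2 ≤ n) {F : Type*} [Field F] [Fintype F] (hF : Fintype.card F = 4 ^ n)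
    (P : Sylow 2 ↥(Cfsg.SU 3 F (2 ^ n))) (S' : Subgroup R) (hS : Nonempty (↥S' ≃* ↥(P : Subgroup ↥(Cfsg.SU 3 F (2 ^ n)))))
    (hidx : S'.index = 2) :
    (Subgroup.center ↥S').map S'.subtype ≤ Subgroup.center R := by
  have hF' : Fintype.card F = (2 ^ n) ^ 2 := by
    rw [hF, ← pow_mul, mul_comm, pow_mul]; norm_num
  haveI : Fact (Fintype.card F = (2 ^ n) ^ 2) := ⟨hF'⟩
  haveI : Fact ((2 : F) = 0) := ⟨Cfsg.Agent.Lib.Helper20.U3Syl.two_eq_zero_of_card (m := 2 * n) (by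
    rw [hF, pow_mul]; norm_num)⟩
  obtain ⟨e⟩ := hS
  obtain ⟨e'⟩ := Cfsg.Agent.Lib.Helper20.U3Syl.exists_equiv_SU (F := F) (q := 2 ^ n)
    (Nat.even_pow.2 ⟨even_two, by omega⟩) P
  exact Cfsg.Agent.Lib.Helper20.U3Syl.center_le_center_of_index_two S' (e.trans e'.symm) hidx

end Cfsg.Agent.S3315
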