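import Mathlib
import Cfsg.Statements.S3349

set_option autoImplicit false
open Cfsg
open scoped commutatorElement

namespace Cfsg.Agent.S3349

/-- Let Q be a finite extraspecial p-group and α an automorphism of Q fixing every element of some maximal abelian subgroup of Q. Then the order of α is a power of p. -/
theorem result {Q : Type*} [Group Q] [Finite Q]
    (p : ℕ) [Fact p.Prime] (hQ : Cfsg.IsExtraspecial p Q) (α : MulAut Q)
    (A : Subgroup Q) (hA : IsMulCommutative A) (hmax : ∀ B : Subgroup Q, A ≤ B → IsMulCommutative B → B = A)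
    (hfix : ∀ a ∈ A, α a = a) :
    ∃ k : ℕ, orderOf α = p ^ k := by
  obtain ⟨⟨hp, _, hcomm⟩, _⟩ := hQ
  have hAc : ∀ x ∈ A, ∀ y ∈ A, x * y = y * x := fun x hx y hy =>
    congrArg Subtype.val (hA.is_comm.comm ⟨x, hx⟩ ⟨y, hy⟩)
  -- the centralizer of `A` is `A`
  have hcent : ∀ c : Q, (∀ a ∈ A, c * a = a * c) → c ∈ A := by
    intro c hc
    have hB : IsMulCommutative (Subgroup.closure ((A : Set Q) ∪ {c})) := by
      apply Subgroup.isMulCommutative_closure
      rintro x (hx | hx) y (hy | hy)
      · exact hAc x hx y hy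
      · rw [Set.mem_singleton_iff.1 hy]; exact (hc x hx).symm
      · rw [Set.mem_singleton_iff.1 hx]; exact hc y hy
      · rw [Set.mem_singleton_iff.1 hx, Set.mem_singleton_iff.1 hy]
    have hle : A ≤ Subgroup.closure ((A : Set Q) ∪ {c}) := fun a ha =>
      Subgroup.subset_closure (Or.inl ha)
    have := hmax _ hle hB
    rw [← this]
    exact Subgroup.subset_closure (Or.inr rfl)
  have hZA : Subgroup.center Q ≤ A := fun z hz =>
    hcent z (fun a _ => (Subgroup.mem_center_iff.1 hz a).symm)
  -- `A` is normalized by everything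
  have hnorm : ∀ q : Q, ∀ a ∈ A, q * a * q⁻¹ ∈ A := by
    intro q a ha
    have h1 : ⁅q, a⁆ ∈ commutator Q :=
      Subgroup.commutator_mem_commutator (Subgroup.mem_top q) (Subgroup.mem_top a)
    rw [hcomm] at h1
    have h2 := A.mul_mem (hZA h1) ha
    simpa [commutatorElement_def] using h2
  have hc : ∀ q : Q, q⁻¹ * α q ∈ A := by
    intro q
    apply hcent
    intro a ha
    have h1 := hfix _ (hnorm q a ha)
    rw [map_mul, map_mul, map_inv, hfix a ha] at h1
    -- α q * a * (α q)⁻¹ = q * a * q⁻¹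
    have h2 : α q * a = q * a * q⁻¹ * α q := by
      rw [← h1]; group
    calc q⁻¹ * α q * a = q⁻¹ * (α q * a) := by group
      _ = q⁻¹ * (q * a * q⁻¹ * α q) := by rw [h2]
      _ = a * (q⁻¹ * α q) := by group
  have hpow : ∀ (n : ℕ) (q : Q), (α ^ n) q = q * (q⁻¹ * α q) ^ n := by
    intro n
    induction n with
    | zero => intro q; simp
    | succ n ih =>
      intro q
      rw [pow_succ', MulAut.mul_apply, ih, map_mul, map_pow, hfix _ (hc q), pow_succ']
      simp only [mul_assoc, mul_inv_cancel_left]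
  have hone : α ^ (Nat.card Q) = 1 := by
    ext q
    rw [hpow, pow_card_eq_one']
    simp
  obtain ⟨n, hn⟩ := hp.exists_card_eq
  rw [hn] at hone
  have := orderOf_dvd_of_pow_eq_one hone
  obtain ⟨k, _, hk⟩ := (Nat.dvd_prime_pow (Fact.out : p.Prime)).1 this
  exact ⟨k, hk⟩

end Cfsg.Agent.S3349
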