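import Cfsg.Statements.S3376
import Cfsg.Agent.Lib.Helper1.Nilpotent

set_option autoImplicit false
open Cfsg

namespace Cfsg.Agent.S3376

open scoped Pointwise

/-- a character of an elementary abelian 3-group not killing a given element -/
theorem exists_hom' {J : Type*} [CommGroup J] (hexp : ∀ a : J, a ^ 3 = 1) (z : J) (hz : z ≠ 1) :
    ∃ φ : J →* Multiplicative (ZMod 3), φ z ≠ 1 := by
  let _ : Module (ZMod 3) (Additive J) := AddCommGroup.zmodModule (n := 3) (by
    intro x
    exact congrArg Additive.ofMul (hexp x.toMul))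
  have h : ¬ ∀ φ : Module.Dual (ZMod 3) (Additive J), φ (Additive.ofMul z) = 0 := by
    rw [Module.forall_dual_apply_eq_zero_iff]
    intro h
    exact hz (Additive.ofMul.injective h)
  push Not at h
  obtain ⟨φ, hφ⟩ := h
  refine ⟨MonoidHom.mk' (fun j => Multiplicative.ofAdd (φ (Additive.ofMul j))) ?_, ?_⟩
  · intro a b
    rw [ofMul_mul, map_add, ofAdd_add]
  · intro h
    exact hφ (Multiplicative.ofAdd.injective h)

theorem exists_hom {J : Type*} [Group J] (hc : ∀ a b : J, a * b = b * a)
    (hexp : ∀ a : J, a ^ 3 = 1) (z : J) (hz : z ≠ 1) :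
    ∃ φ : J →* Multiplicative (ZMod 3), φ z ≠ 1 := by
  let _ : CommGroup J := { ‹Group J› with mul_comm := hc }
  exact exists_hom' hexp z hz

/-- a fixed-point-free permutation of order 3 of nine points has cycle type 3,3,3 -/
theorem cycleType_of (τ : Equiv.Perm (Fin 9)) (h3 : orderOf τ = 3) (hf : ∀ i, τ i ≠ i) :
    τ.cycleType = Multiset.replicate 3 3 := by
  obtain ⟨n, hn⟩ := Equiv.Perm.cycleType_prime_order (σ := τ) (by rw [h3]; exact Nat.prime_three)
  have hs := Equiv.Perm.sum_cycleType τ
  have hsupp : τ.support = Finset.univ := by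
    ext i
    simp [hf i]
  rw [hsupp, hn, h3, Multiset.sum_replicate, Finset.card_univ, Fintype.card_fin] at hs
  have : n + 1 = 3 := by
    simp only [smul_eq_mul] at hs
    omega
  rw [hn, h3, this]

theorem card_centralizer_of (τ : Equiv.Perm (Fin 9)) (h : τ.cycleType = Multiset.replicate 3 3) :
    Nat.card (Subgroup.centralizer ({τ} : Set (Equiv.Perm (Fin 9)))) = 162 := by
  rw [Equiv.Perm.nat_card_centralizer, h]
  simp
  decide

theorem sq_ne_one3 : ∀ w : Multiplicative (ZMod 3), w ≠ 1 → w * w ≠ 1 := by decide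

/-- the target permutation -/
abbrev sig : Equiv.Perm (Fin 9) :=
  Equiv.swap (0 : Fin 9) 1 * Equiv.swap 1 2 * Equiv.swap 3 4 * Equiv.swap 4 5 * Equiv.swap 6 7 *
    Equiv.swap 7 8

theorem sig_cycleType : sig.cycleType = Multiset.replicate 3 3 := by
  apply cycleType_of
  · exact orderOf_eq_prime (by decide) (by decide)
  · decide

theorem iso_of_action {G : Type*} [Group G] [Finite G] (hG : Nat.card G = 162) (M : Subgroup G)
    (hidx : M.index = 9) (z : G) (hzc : ∀ g, g * z = z * g) (hz3 : orderOf z = 3) (hzM : z ∉ M)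
    (hcore : M.normalCore = ⊥) :
    Nonempty (G ≃* Subgroup.centralizer ({sig} : Set (Equiv.Perm (Fin 9)))) := by
  set π := MulAction.toPermHom G (G ⧸ M) with hπ
  have hπinj : Function.Injective π := by
    rw [← MonoidHom.ker_eq_bot_iff, hπ, ← Subgroup.normalCore_eq_ker, hcore]
  have hcard : Nat.card (G ⧸ M) = 9 := hidx
  have e : G ⧸ M ≃ Fin 9 := Finite.equivFinOfCardEq hcard
  set ψ : G →* Equiv.Perm (Fin 9) := (e.permCongrHom).toMonoidHom.comp π with hψ
  have hψinj : Function.Injective ψ := (e.permCongrHom).injective.comp hπinj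
  have hτ3 : orderOf (ψ z) = 3 := by rw [orderOf_injective ψ hψinj, hz3]
  have hfix : ∀ i, ψ z i ≠ i := by
    intro i hi
    have h1 : e (z • e.symm i) = i := hi
    have h2 : z • e.symm i = e.symm i := by
      apply e.injective
      rw [h1, Equiv.apply_symm_apply]
    obtain ⟨g, hg⟩ := QuotientGroup.mk_surjective (e.symm i)
    rw [← hg] at h2
    have h3 : ((z * g : G) : G ⧸ M) = (g : G ⧸ M) := h2
    rw [QuotientGroup.eq] at h3
    apply hzM
    have : (z * g)⁻¹ * g = z⁻¹ := by
      rw [← hzc g]; group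
    rw [this] at h3
    exact (inv_mem_iff).1 h3
  have hconj : IsConj (ψ z) sig := by
    rw [Equiv.Perm.isConj_iff_cycleType_eq, cycleType_of _ hτ3 hfix, sig_cycleType]
  obtain ⟨c, hc⟩ := isConj_iff.1 hconj
  set ψ' : G →* Equiv.Perm (Fin 9) := (MulAut.conj c).toMonoidHom.comp ψ with hψ'
  have hψ'inj : Function.Injective ψ' := (MulAut.conj c).injective.comp hψinj
  have hψ'z : ψ' z = sig := by
    rw [← hc]
    simp [hψ', MulAut.conj_apply]
  have hle : ψ'.range ≤ Subgroup.centralizer ({sig} : Set (Equiv.Perm (Fin 9))) := by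
    rintro _ ⟨g, rfl⟩
    rw [Subgroup.mem_centralizer_singleton_iff, ← hψ'z, ← map_mul, ← map_mul, hzc]
  have hcr : Nat.card ψ'.range = 162 := by
    rw [← hG]
    exact (Nat.card_congr (MonoidHom.ofInjective hψ'inj).toEquiv).symm
  have heq : ψ'.range = Subgroup.centralizer ({sig} : Set (Equiv.Perm (Fin 9))) := by
    apply Subgroup.eq_of_le_of_card_ge hle
    rw [hcr, card_centralizer_of _ sig_cycleType]
  exact ⟨(MonoidHom.ofInjective hψ'inj).trans (MulEquiv.subgroupCongr heq)⟩

/-- Let G be a group of order 162 = 3⁴·2 with Sylow 3-subgroup S and Sylow 2-subgroup T, having an elementary abelian normal subgroup J of order 27, such that Z = Z(S) has order 3, Z centralizes T, and C_S(T) ≠ S. Then G is isomorphic to the centralizer in Sym(9) of a product of three disjoint 3-cycles. -/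
theorem result {G : Type*} [Group G] [Finite G] (hG : Nat.card G = 162)
    (S : Sylow 3 G) (T : Sylow 2 G) (J : Subgroup G) [hJn : J.Normal] (hJcomm : IsMulCommutative J)
    (hJexp : ∀ a ∈ J, a ^ 3 = 1) (hJcard : Nat.card J = 27)
    (Z : Subgroup G) (hZ : Z = (S : Subgroup G) ⊓ Subgroup.centralizer ((S : Subgroup G) : Set G)) (hZcard : Nat.card Z = 3)
    (hZT : Z ≤ Subgroup.centralizer ((T : Subgroup G) : Set G))
    (hST : (S : Subgroup G) ⊓ Subgroup.centralizer ((T : Subgroup G) : Set G) ≠ S) :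
    Nonempty (G ≃* Subgroup.centralizer ({Equiv.swap (0 : Fin 9) 1 * Equiv.swap 1 2 * Equiv.swap 3 4 * Equiv.swap 4 5 * Equiv.swap 6 7 * Equiv.swap 7 8} : Set (Equiv.Perm (Fin 9)))) := by
  have : Fact (Nat.Prime 3) := ⟨Nat.prime_three⟩
  have : Fact (Nat.Prime 2) := ⟨Nat.prime_two⟩
  have hS81 : Nat.card (S : Subgroup G) = 81 := by
    rw [Sylow.card_eq_multiplicity, hG, show (162 : ℕ).factorization 3 = 4 by decide +kernel]
    norm_num
  have hT2 : Nat.card (T : Subgroup G) = 2 := by
    rw [Sylow.card_eq_multiplicity, hG, show (162 : ℕ).factorization 2 = 1 by decide +kernel]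
    norm_num
  have hSidx : (S : Subgroup G).index = 2 := by
    have := (S : Subgroup G).card_mul_index
    rw [hS81, hG] at this
    omega
  have hSn : (S : Subgroup G).Normal := Subgroup.normal_of_index_eq_two hSidx
  have h281 : ∀ a ∈ (S : Subgroup G), a ^ 2 = 1 → a = 1 := by
    intro a ha h2
    have h81 : a ^ 81 = 1 := by
      have := pow_card_eq_one' (x := (⟨a, ha⟩ : (S : Subgroup G)))
      rw [hS81] at this
      exact congrArg Subtype.val this
    have : a ^ 81 = (a ^ 2) ^ 40 * a := by rw [← pow_mul, ← pow_succ]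
    rw [this, h2, one_pow, one_mul] at h81
    exact h81
  obtain ⟨t', ht1', htu⟩ := (Nat.card_eq_two_iff' (1 : (T : Subgroup G))).1 hT2
  set t : G := (t' : G) with ht
  have ht1 : t ≠ 1 := fun h => ht1' (Subtype.ext h)
  have ht2 : t ^ 2 = 1 := by
    have := pow_card_eq_one' (x := t')
    rw [hT2] at this
    exact congrArg Subtype.val this
  have htS : t ∉ (S : Subgroup G) := fun h => ht1 (h281 t h ht2)
  have htinv : t⁻¹ = t := by
    rw [inv_eq_iff_mul_eq_one, ← pow_two, ht2]
  -- the central element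
  obtain ⟨z', hz1'⟩ : ∃ z' : Z, z' ≠ 1 := by
    have : Nontrivial Z := by
      rw [← Finite.one_lt_card_iff_nontrivial, hZcard]
      norm_num
    exact exists_ne 1
  set z : G := (z' : G) with hz
  have hz1 : z ≠ 1 := fun h => hz1' (Subtype.ext h)
  have hzZ : z ∈ Z := z'.2
  have hz3 : orderOf z = 3 := by
    refine orderOf_eq_prime ?_ hz1
    have := pow_card_eq_one' (x := z')
    rw [hZcard] at this
    exact congrArg Subtype.val this
  have hzS : ∀ s ∈ (S : Subgroup G), s * z = z * s := by
    have h := hzZ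
    rw [hZ] at h
    exact fun s hs => Subgroup.mem_centralizer_iff.1 h.2 s hs
  have hzt : t * z = z * t := Subgroup.mem_centralizer_iff.1 (hZT hzZ) t t'.2
  have hzc : ∀ g, g * z = z * g := by
    intro g
    by_cases hg : g ∈ (S : Subgroup G)
    · exact hzS g hg
    · have h1 : g * t ∈ (S : Subgroup G) := by
        rw [Subgroup.mul_mem_iff_of_index_two hSidx]
        exact ⟨fun h => absurd h hg, fun h => absurd h htS⟩
      have h2 := hzS _ h1
      rw [mul_assoc, hzt, ← mul_assoc, ← mul_assoc] at h2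
      exact mul_right_cancel h2
  have hP : ∀ N : Subgroup G, N.Normal → N ⊓ (S : Subgroup G) ≠ ⊥ → z ∈ N := by
    intro N hN hNS
    have hn : (N.subgroupOf (S : Subgroup G)).Normal := hN.subgroupOf _
    have hne : N.subgroupOf (S : Subgroup G) ≠ ⊥ := by
      rw [Ne, Subgroup.subgroupOf_eq_bot, disjoint_iff]
      exact hNS
    have hnil : Group.IsNilpotent (S : Subgroup G) := S.isPGroup'.isNilpotent
    have h := Cfsg.Agent.Lib.Helper1.normal_inf_center_ne_bot hne
    obtain ⟨⟨x, hx⟩, hx1⟩ := Subgroup.ne_bot_iff_exists_ne_one.1 h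
    have hxN : (x : G) ∈ N := Subgroup.mem_subgroupOf.1 hx.1
    have hxZ : (x : G) ∈ Z := by
      rw [hZ, Subgroup.mem_inf]
      refine ⟨x.2, ?_⟩
      rw [Subgroup.mem_centralizer_iff]
      intro s hs
      exact congrArg Subtype.val (Subgroup.mem_center_iff.1 hx.2 ⟨s, hs⟩)
    have hx1' : (⟨(x : G), hxZ⟩ : Z) ≠ 1 := by
      intro h
      apply hx1
      apply Subtype.ext
      apply Subtype.ext
      exact congrArg (fun y : Z => (y : G)) h
    obtain ⟨k, hk⟩ := Subgroup.mem_zpowers_iff.1
      (mem_zpowers_of_prime_card hZcard (g' := z') hx1')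
    have : z = (x : G) ^ k := by
      rw [hz, ← hk]
      simp
    rw [this]
    exact N.zpow_mem hxN k
  have hJS : J ≤ (S : Subgroup G) := by
    intro j hj
    have : j = (j ^ 2) ^ 2 := by
      rw [← pow_mul]
      have : j ^ (2 * 2) = j ^ 3 * j := by rw [← pow_succ]
      rw [this, hJexp j hj, one_mul]
    rw [this]
    exact Subgroup.sq_mem_of_index_two hSidx _
  have hzJ : z ∈ J := by
    apply hP J hJn
    rw [inf_eq_left.2 hJS]
    intro h
    rw [h, Subgroup.card_bot] at hJcard
    omega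
  -- the invariant character
  obtain ⟨φ, hφ⟩ := exists_hom (J := J) (fun a b => mul_comm' a b)
    (fun a => Subtype.ext (hJexp a a.2)) ⟨z, hzJ⟩ (fun h => hz1 (congrArg Subtype.val h))
  set c : J →* J := (MulAut.conjNormal t : MulAut J).toMonoidHom with hc
  have hcval : ∀ j : J, ((c j : J) : G) = t * j * t⁻¹ := fun j => MulAut.conjNormal_apply t j
  have hcc : ∀ j : J, c (c j) = j := by
    intro j
    apply Subtype.ext
    rw [hcval, hcval, htinv]
    have : t * (t * (j : G) * t) * t = t ^ 2 * j * t ^ 2 := by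
      rw [pow_two]; group
    rw [this, ht2, one_mul, mul_one]
  have hcz : c ⟨z, hzJ⟩ = ⟨z, hzJ⟩ := by
    apply Subtype.ext
    rw [hcval]
    change t * z * t⁻¹ = z
    rw [hzt, mul_inv_cancel_right]
  set lam : J →* Multiplicative (ZMod 3) := φ * φ.comp c with hlam
  have hlamc : ∀ j : J, lam (c j) = lam j := by
    intro j
    simp only [hlam, MonoidHom.mul_apply, MonoidHom.comp_apply, hcc]
    exact mul_comm _ _
  have hlamz : lam ⟨z, hzJ⟩ ≠ 1 := by
    simp only [hlam, MonoidHom.mul_apply, MonoidHom.comp_apply, hcz]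
    exact sq_ne_one3 _ hφ
  set A₀ : Subgroup G := lam.ker.map J.subtype with hA₀
  have hmemA : ∀ g : G, g ∈ A₀ ↔ ∃ h : g ∈ J, lam ⟨g, h⟩ = 1 := by
    intro g
    rw [hA₀, Subgroup.mem_map]
    constructor
    · rintro ⟨x, hx, rfl⟩
      exact ⟨x.2, MonoidHom.mem_ker.1 hx⟩
    · rintro ⟨h, hx⟩
      exact ⟨⟨g, h⟩, MonoidHom.mem_ker.2 hx, rfl⟩
  have hA9 : Nat.card A₀ = 9 := by
    have h1 : Nat.card A₀ = Nat.card lam.ker :=
      (Nat.card_congr (Subgroup.equivMapOfInjective _ _ J.subtype_injective).toEquiv).symm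
    have h2 := lam.ker.card_mul_index
    rw [Subgroup.index_ker, hJcard] at h2
    have h3 : Nat.card lam.range ∣ 3 := by
      have := Subgroup.card_subgroup_dvd_card lam.range
      rwa [show Nat.card (Multiplicative (ZMod 3)) = 3 by simp] at this
    rcases (Nat.Prime.eq_one_or_self_of_dvd Nat.prime_three _ h3) with h | h
    · exfalso
      apply hlamz
      have hb := Subgroup.eq_bot_of_card_eq _ h
      have : lam ⟨z, hzJ⟩ ∈ lam.range := ⟨_, rfl⟩
      rwa [hb, Subgroup.mem_bot] at this
    · rw [h] at h2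
      omega
  have hconjA : ∀ g ∈ A₀, t * g * t⁻¹ ∈ A₀ := by
    intro g hg
    obtain ⟨h, hx⟩ := (hmemA g).1 hg
    rw [hmemA]
    refine ⟨hJn.conj_mem g h t, ?_⟩
    have : (⟨t * g * t⁻¹, hJn.conj_mem g h t⟩ : J) = c ⟨g, h⟩ := Subtype.ext (hcval ⟨g, h⟩).symm
    rw [this, hlamc, hx]
  have htN : Subgroup.zpowers t ≤ Subgroup.normalizer (A₀ : Set G) := by
    rw [Subgroup.zpowers_le, Subgroup.mem_normalizer_iff]
    intro g
    refine ⟨hconjA g, fun h => ?_⟩
    have h2 := hconjA _ h
    rw [htinv] at h2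
    have : t * (t * g * t) * t = t ^ 2 * g * t ^ 2 := by
      rw [pow_two]; group
    rwa [this, ht2, one_mul, mul_one] at h2
  set M : Subgroup G := Subgroup.zpowers t ⊔ A₀ with hM
  have hMset : (M : Set G) = (Subgroup.zpowers t : Set G) * (A₀ : Set G) :=
    Subgroup.coe_mul_of_left_le_normalizer_right _ _ htN
  have hot : orderOf t = 2 := orderOf_eq_prime ht2 ht1
  have hM18 : Nat.card M = 18 := by
    have h1 : Nat.card M ≤ 2 * 9 := by
      have : Nat.card M = Nat.card ((M : Set G)) := rfl
      rw [this, hMset]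
      refine (Set.natCard_mul_le).trans ?_
      have e1 : Nat.card ((Subgroup.zpowers t : Set G)) = 2 := by
        rw [← hot]; exact Nat.card_zpowers t
      have e2 : Nat.card ((A₀ : Set G)) = 9 := hA9
      rw [e1, e2]
    have h2 : 2 ∣ Nat.card M := by
      have := Subgroup.card_dvd_of_le (le_sup_left : Subgroup.zpowers t ≤ M)
      rwa [Nat.card_zpowers, hot] at this
    have h3 : 9 ∣ Nat.card M := by
      have := Subgroup.card_dvd_of_le (le_sup_right : A₀ ≤ M)
      rwa [hA9] at this
    have h4 : 2 * 9 ∣ Nat.card M := Nat.Coprime.mul_dvd_of_dvd_of_dvd (by norm_num) h2 h3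
    have h5 : 0 < Nat.card M := Nat.card_pos
    have := Nat.le_of_dvd h5 h4
    omega
  have hMidx : M.index = 9 := by
    have := M.card_mul_index
    rw [hM18, hG] at this
    omega
  have hzM : z ∉ M := by
    intro h
    have h' : z ∈ (M : Set G) := h
    rw [hMset] at h'
    obtain ⟨a, ha, b, hb, hab⟩ := h'
    change a * b = z at hab
    obtain ⟨hbJ, hbl⟩ := (hmemA b).1 hb
    have haJ : a ∈ J := by
      have : a = z * b⁻¹ := by rw [← hab, mul_inv_cancel_right]
      rw [this]
      exact J.mul_mem hzJ (J.inv_mem hbJ)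
    have ha2 : a ^ 2 = 1 := by
      obtain ⟨k, rfl⟩ := Subgroup.mem_zpowers_iff.1 ha
      rw [← zpow_natCast, ← zpow_mul, mul_comm, zpow_mul, zpow_natCast, ht2, one_zpow]
    have ha1 := h281 a (hJS haJ) ha2
    rw [ha1, one_mul] at hab
    apply hlamz
    have : (⟨z, hzJ⟩ : J) = ⟨b, hbJ⟩ := Subtype.ext hab.symm
    rw [this, hbl]
  have hcore : M.normalCore = ⊥ := by
    have hNn : M.normalCore.Normal := Subgroup.normalCore_normal M
    have hNS : M.normalCore ⊓ (S : Subgroup G) = ⊥ := by
      by_contra h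
      exact hzM (Subgroup.normalCore_le M (hP _ hNn h))
    by_contra hne
    obtain ⟨⟨n, hn⟩, hn1'⟩ := Subgroup.ne_bot_iff_exists_ne_one.1 hne
    have hn1 : n ≠ 1 := fun h => hn1' (Subtype.ext h)
    have hnS : n ∉ (S : Subgroup G) := by
      intro h
      have : n ∈ M.normalCore ⊓ (S : Subgroup G) := ⟨hn, h⟩
      rw [hNS, Subgroup.mem_bot] at this
      exact hn1 this
    have hn2 : n ^ 2 = 1 := by
      have : n ^ 2 ∈ M.normalCore ⊓ (S : Subgroup G) :=
        ⟨pow_mem hn 2, Subgroup.sq_mem_of_index_two hSidx n⟩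
      rwa [hNS, Subgroup.mem_bot] at this
    have hcomm : ∀ s ∈ (S : Subgroup G), n * s = s * n := fun s hs =>
      Subgroup.commute_of_normal_of_disjoint _ _ hNn hSn (disjoint_iff.2 hNS) n s hn hs
    have hs0 : t * n ∈ (S : Subgroup G) := by
      rw [Subgroup.mul_mem_iff_of_index_two hSidx]
      exact ⟨fun h => absurd h htS, fun h => absurd h hnS⟩
    have hninv : n⁻¹ = n := by
      rw [inv_eq_iff_mul_eq_one, ← pow_two, hn2]
    have htn : t = n := by
      have e1 : t = (t * n) * n := by rw [mul_assoc, ← pow_two, hn2, mul_one]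
      have e2 : (t * n) ^ 2 = 1 := by
        have : t ^ 2 = (t * n) ^ 2 * n ^ 2 := by
          conv_lhs => rw [e1]
          rw [pow_two, pow_two, pow_two]
          have := hcomm _ hs0
          calc t * n * n * (t * n * n) = t * n * (n * (t * n)) * n := by group
            _ = t * n * ((t * n) * n) * n := by rw [this]
            _ = t * n * (t * n) * (n * n) := by group
        rw [ht2, hn2, mul_one] at this
        exact this.symm
      have e3 := h281 _ hs0 e2
      rw [e3, one_mul] at e1
      exact e1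
    apply hST
    rw [inf_eq_left]
    intro s hs
    rw [Subgroup.mem_centralizer_iff]
    intro τ hτ
    by_cases h1 : (⟨τ, hτ⟩ : (T : Subgroup G)) = 1
    · have : τ = 1 := congrArg Subtype.val h1
      rw [this, one_mul, mul_one]
    · have : τ = t := congrArg Subtype.val (htu _ h1)
      rw [this, htn]
      exact hcomm s hs
  exact iso_of_action hG M hMidx z hzc hz3 hzM hcore

end Cfsg.Agent.S3376
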