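import Mathlib
import Cfsg.Statements.S3389

set_option autoImplicit false
open Cfsg

namespace Cfsg.Agent.S3389

open scoped Pointwise

/-- A free action of a finite group on a finite set: the order divides the number of points. -/
theorem card_dvd_of_free {Z X : Type*} [Group Z] [Finite Z] [MulAction Z X] [Finite X]
    (free : ∀ (z : Z) (x : X), z • x = x → z = 1) : Nat.card Z ∣ Nat.card X := by
  classical
  have := Fintype.ofFinite Z
  have := Fintype.ofFinite X
  have hB := MulAction.sum_card_fixedBy_eq_card_orbits_mul_card_group Z X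
  have hf : ∀ z : Z, Fintype.card (MulAction.fixedBy X z) = if z = 1 then Fintype.card X else 0 := by
    intro z
    by_cases hz : z = 1
    · subst hz
      simp only [if_true]
      apply Fintype.card_congr
      exact ⟨fun x => x.1, fun x => ⟨x, by simp⟩, fun x => rfl, fun x => rfl⟩
    · simp only [hz, if_false]
      rw [Fintype.card_eq_zero_iff]
      constructor
      rintro ⟨x, hx⟩
      exact hz (free z x hx)
  simp_rw [hf] at hB
  rw [Finset.sum_ite_eq' Finset.univ (1 : Z)] at hB
  simp only [Finset.mem_univ, if_true] at hB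
  rw [Nat.card_eq_fintype_card, Nat.card_eq_fintype_card, hB]
  exact Dvd.intro_left _ rfl

theorem card_modEq_fixedBy {G Ω : Type*} [Group G] [MulAction G Ω] [Finite Ω] {p : ℕ}
    [Fact p.Prime] {x : G} (hx : orderOf x = p) :
    Nat.card Ω ≡ Nat.card (MulAction.fixedBy Ω x) [MOD p] := by
  have hP : IsPGroup p (Subgroup.zpowers x) := by
    apply IsPGroup.of_card (n := 1)
    rw [Nat.card_zpowers, hx, pow_one]
  have h1 := hP.card_modEq_card_fixedPoints Ω
  have h2 : MulAction.fixedPoints (Subgroup.zpowers x) Ω = MulAction.fixedBy Ω x := by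
    ext ω
    constructor
    · intro h
      exact h ⟨x, Subgroup.mem_zpowers x⟩
    · rintro h ⟨y, hy⟩
      obtain ⟨j, rfl⟩ := Subgroup.mem_zpowers_iff.1 hy
      exact MulAction.fixedBy_subset_fixedBy_zpow Ω x j h
  rw [h2] at h1
  exact h1

/-- Let G be a finite group acting faithfully and transitively on a finite set Ω with fixity k ≥ 1: every non-identity element fixes at most k points and some non-identity element fixes exactly k points. Then |Z(G)| divides k; if k = 2 then |G| is even; and for every prime p > k dividing |G| and every point α, either p does not divide |G_α| or G_α contains a Sylow p-subgroup of G. -/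
theorem result {G : Type*} [Group G] [Finite G] {Ω : Type*} [Fintype Ω] [MulAction G Ω] [FaithfulSMul G Ω]
    (htr : MulAction.IsPretransitive G Ω) (k : ℕ) (hk : 1 ≤ k)
    (hfix : ∀ g : G, g ≠ 1 → Nat.card (MulAction.fixedBy Ω g) ≤ k) (hex : ∃ g : G, g ≠ 1 ∧ Nat.card (MulAction.fixedBy Ω g) = k) :
    Nat.card (Subgroup.center G) ∣ k ∧ (k = 2 → 2 ∣ Nat.card G) ∧
      ∀ (p : ℕ), p.Prime → k < p → p ∣ Nat.card G → ∀ α : Ω,
        ¬ p ∣ Nat.card (MulAction.stabilizer G α) ∨ ¬ p ∣ (MulAction.stabilizer G α).index := by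
  obtain ⟨g, hg1, hgk⟩ := hex
  refine ⟨?_, ?_, ?_⟩
  · -- the centre acts freely on the fixed points of `g`
    let S : SubMulAction (Subgroup.center G) Ω :=
      { carrier := MulAction.fixedBy Ω g
        smul_mem' := by
          rintro ⟨z, hz⟩ ω hω
          rw [MulAction.mem_fixedBy] at hω ⊢
          change g • (z • ω) = z • ω
          rw [← mul_smul, Subgroup.mem_center_iff.1 hz g, mul_smul, hω] }
    have hfree : ∀ (z : Subgroup.center G) (x : S), z • x = x → z = 1 := by
      rintro ⟨z, hz⟩ ⟨ω, hω⟩ h
      have h1 : z • ω = ω := congrArg Subtype.val h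
      apply Subtype.ext
      change z = 1
      apply FaithfulSMul.eq_of_smul_eq_smul (α := Ω)
      intro ω'
      obtain ⟨a, rfl⟩ := MulAction.exists_smul_eq G ω ω'
      rw [one_smul, ← mul_smul, ← Subgroup.mem_center_iff.1 hz a, mul_smul, h1]
    have := card_dvd_of_free hfree
    rw [← hgk]
    exact this
  · intro hk2
    subst hk2
    by_contra h2
    -- an element of odd prime order with exactly two fixed points
    have hog : orderOf g ≠ 1 := by rwa [Ne, orderOf_eq_one_iff]
    set p := (orderOf g).minFac with hp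
    have hpp : p.Prime := Nat.minFac_prime hog
    have : Fact p.Prime := ⟨hpp⟩
    have hpd : p ∣ orderOf g := Nat.minFac_dvd _
    set x := g ^ (orderOf g / p) with hx
    have hox : orderOf x = p := orderOf_pow_orderOf_div (orderOf_pos g).ne' hpd
    have hx1 : x ≠ 1 := by
      intro h
      rw [h, orderOf_one] at hox
      exact hpp.one_lt.ne hox
    have hp2 : p ≠ 2 := by
      intro h
      apply h2
      rw [← h, ← hox]
      exact orderOf_dvd_natCard x
    have hp3 : 3 ≤ p := by
      have := hpp.two_le
      omega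
    have hsub : MulAction.fixedBy Ω g ⊆ MulAction.fixedBy Ω x := by
      have := MulAction.fixedBy_subset_fixedBy_zpow Ω g ((orderOf g / p : ℕ) : ℤ)
      rwa [zpow_natCast] at this
    have hFx : Nat.card (MulAction.fixedBy Ω x) = 2 := by
      apply le_antisymm (hfix x hx1)
      rw [← hgk]
      exact Nat.card_mono (Set.toFinite _) hsub
    obtain ⟨P, hP⟩ := (IsPGroup.of_card (n := 1) (by rw [Nat.card_zpowers, hox, pow_one]) :
      IsPGroup p (Subgroup.zpowers x)).exists_le_sylow
    have hxP : x ∈ (P : Subgroup G) := hP (Subgroup.mem_zpowers x)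
    have hsubP : MulAction.fixedPoints (P : Subgroup G) Ω ⊆ MulAction.fixedBy Ω x := by
      intro ω hω
      exact hω ⟨x, hxP⟩
    have hFP : Nat.card (MulAction.fixedPoints (P : Subgroup G) Ω) = 2 := by
      have h1 := P.2.card_modEq_card_fixedPoints Ω
      have h3 := card_modEq_fixedBy (Ω := Ω) hox
      rw [hFx] at h3
      have h4 : Nat.card (MulAction.fixedPoints (P : Subgroup G) Ω) ≡ 2 [MOD p] := h1.symm.trans h3
      have h5 : Nat.card (MulAction.fixedPoints (P : Subgroup G) Ω) ≤ 2 := by
        rw [← hFx]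
        exact Nat.card_mono (Set.toFinite _) hsubP
      have h6 : Nat.card (MulAction.fixedPoints (P : Subgroup G) Ω) < p := by omega
      have h7 : 2 < p := by omega
      exact Nat.ModEq.eq_of_lt_of_lt h4 h6 h7
    obtain ⟨⟨α, hα⟩, ⟨β, hβ⟩, hαβ, huniv⟩ := Nat.card_eq_two_iff.1 hFP
    have hαβ' : α ≠ β := fun h => hαβ (Subtype.ext h)
    have hmemF : ∀ ω ∈ MulAction.fixedPoints (P : Subgroup G) Ω, ω = α ∨ ω = β := by
      intro ω hω
      have : (⟨ω, hω⟩ : MulAction.fixedPoints (P : Subgroup G) Ω) ∈
          ({⟨α, hα⟩, ⟨β, hβ⟩} : Set (MulAction.fixedPoints (P : Subgroup G) Ω)) := by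
        rw [huniv]; exact Set.mem_univ _
      simpa using this
    obtain ⟨t, ht⟩ := MulAction.exists_smul_eq G α β
    have hPβ : (P : Subgroup G) ≤ MulAction.stabilizer G β := by
      intro y hy
      exact hβ ⟨y, hy⟩
    have hP'β : ((t • P : Sylow p G) : Subgroup G) ≤ MulAction.stabilizer G β := by
      intro y hy
      rw [Sylow.coe_subgroup_smul, Subgroup.mem_smul_pointwise_iff_exists] at hy
      obtain ⟨s, hs, rfl⟩ := hy
      rw [MulAction.mem_stabilizer_iff, MulAut.smul_def, MulAut.conj_apply, ← ht, mul_smul, mul_smul,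
        inv_smul_smul]
      congr 1
      exact hα ⟨s, hs⟩
    obtain ⟨h, hh⟩ := MulAction.exists_smul_eq (MulAction.stabilizer G β)
      ((t • P : Sylow p G).subtype hP'β) (P.subtype hPβ)
    rw [Sylow.smul_subtype] at hh
    have hh' : h • (t • P : Sylow p G) = P := Sylow.subtype_injective hh
    set n : G := (h : G) * t with hn
    have hnP : n • P = P := by
      rw [hn, mul_smul]
      exact hh'
    have hnN : n ∈ Subgroup.normalizer ((P : Subgroup G) : Set G) := Sylow.smul_eq_iff_mem_normalizer.1 hnP
    have hnα : n • α = β := by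
      rw [hn, mul_smul, ht]
      exact h.2
    have hnβF : n • β ∈ MulAction.fixedPoints (P : Subgroup G) Ω := by
      rintro ⟨y, hy⟩
      change y • (n • β) = n • β
      have h1 : n⁻¹ * y * n ∈ (P : Subgroup G) := by
        have := (Subgroup.mem_normalizer_iff'.1 (Subgroup.inv_mem _ hnN) (n⁻¹ * y)).2
        have h3 : n⁻¹ * y * n = n⁻¹ * y * (n⁻¹)⁻¹ := by rw [inv_inv]
        have h4 := (Subgroup.mem_normalizer_iff.1 (Subgroup.inv_mem _ hnN) y).1 hy
        rw [h3]; exact h4
      have h2 : (n⁻¹ * y * n) • β = β := hβ ⟨_, h1⟩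
      calc y • (n • β) = n • ((n⁻¹ * y * n) • β) := by
            rw [← mul_smul, ← mul_smul]; congr 1; group
        _ = n • β := by rw [h2]
    have hnβ : n • β = α := by
      rcases hmemF _ hnβF with h | h
      · exact h
      · exfalso
        have h' : n • β = n • α := by rw [h, hnα]
        exact hαβ' (smul_left_cancel n h').symm
    -- `n` has odd order, contradiction
    have hodd : ¬ 2 ∣ orderOf n := fun h => h2 (h.trans (orderOf_dvd_natCard n))
    obtain ⟨j, hj⟩ : ∃ j, orderOf n = 2 * j + 1 := ⟨orderOf n / 2, by omega⟩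
    have hsq : ∀ i : ℕ, n ^ (2 * i) • α = α := by
      intro i
      induction i with
      | zero => simp
      | succ i ih =>
        have : n ^ (2 * (i + 1)) = n ^ (2 * i) * (n * n) := by
          rw [mul_add, pow_add]; simp [pow_two]
        rw [this, mul_smul, mul_smul, hnα, hnβ, ih]
    have h1 : n ^ (2 * j + 1) • α = α := by rw [← hj, pow_orderOf_eq_one, one_smul]
    rw [pow_succ', mul_smul, hsq, hnα] at h1
    exact hαβ' h1.symm
  · intro p hp hkp _ α
    by_contra hcon
    push Not at hcon
    obtain ⟨h1, h2⟩ := hcon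
    have : Fact p.Prime := ⟨hp⟩
    obtain ⟨⟨x, hxα⟩, hx⟩ := exists_prime_orderOf_dvd_card' p h1
    have hox : orderOf x = p := by
      rw [← hx]
      exact (Subgroup.orderOf_mk x hxα).symm
    have hx1 : x ≠ 1 := by
      intro h
      rw [h, orderOf_one] at hox
      exact hp.one_lt.ne hox
    have h3 := card_modEq_fixedBy (Ω := Ω) hox
    rw [MulAction.index_stabilizer_of_transitive] at h2
    have h4 : Nat.card (MulAction.fixedBy Ω x) ≡ 0 [MOD p] :=
      h3.symm.trans ((Nat.modEq_zero_iff_dvd).2 h2)
    have h5 := hfix x hx1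
    have h6 : 0 < Nat.card (MulAction.fixedBy Ω x) := by
      have : Nonempty (MulAction.fixedBy Ω x) := ⟨⟨α, hxα⟩⟩
      exact Nat.card_pos
    have h7 := Nat.le_of_dvd h6 ((Nat.modEq_zero_iff_dvd).1 h4)
    omega

end Cfsg.Agent.S3389
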