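import Cfsg.Statements.S3391
import Cfsg.Agent.Lib.Helper37.Suzuki.Fixity
import Cfsg.Agent.Lib.Helper37.Suzuki.LieModel

set_option autoImplicit false
open Cfsg

namespace Cfsg.Agent.S3391

/-- Let q = 2^{2m+1} ≥ 8 and let G be isomorphic to the Suzuki group Sz(q). If G acts faithfully and transitively on a finite set Ω with fixity 2 (every non-identity element fixes at most two points, and some fixes exactly two), then either |Ω| = q² + 1 and the action is 2-transitive, or |Ω| = q²(q² + 1) and the point stabilizers have order q − 1. -/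
theorem result {G : Type*} [Group G] [Finite G] (F : Type) [Field F] [Fintype F] (m : ℕ) (hm : 1 ≤ m) (hF : Fintype.card F = 2 ^ (2 * m + 1))
    (e : G ≃* ↥(Cfsg.Lie.Sz F (2 ^ (m + 1)))) {Ω : Type*} [Fintype Ω] [MulAction G Ω] [FaithfulSMul G Ω] (htr : MulAction.IsPretransitive G Ω)
    (hfix : ∀ g : G, g ≠ 1 → Nat.card (MulAction.fixedBy Ω g) ≤ 2) (hex : ∃ g : G, g ≠ 1 ∧ Nat.card (MulAction.fixedBy Ω g) = 2) :
    (Fintype.card Ω = Fintype.card F ^ 2 + 1 ∧ MulAction.IsMultiplyPretransitive G Ω 2) ∨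
    (Fintype.card Ω = Fintype.card F ^ 2 * (Fintype.card F ^ 2 + 1) ∧ ∀ α : Ω, Nat.card (MulAction.stabilizer G α) = Fintype.card F - 1) := by
  have : Cfsg.Agent.Lib.Helper37.Suz.SzField F m := ⟨hm, hF⟩
  let e' : G ≃* Cfsg.Sz F m := e.trans (Cfsg.Agent.Lib.Helper37.Suz.lieEquiv m).symm
  let _ : MulAction (Cfsg.Sz F m) Ω := MulAction.compHom Ω e'.symm.toMonoidHom
  have hsm : ∀ (x : Cfsg.Sz F m) (ω : Ω), x • ω = e'.symm x • ω := fun _ _ => rfl
  have hsm' : ∀ (g : G) (ω : Ω), g • ω = e' g • ω := by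
    intro g ω
    rw [hsm, e'.symm_apply_apply]
  have htr' : MulAction.IsPretransitive (Cfsg.Sz F m) Ω := by
    constructor
    intro a b
    obtain ⟨g, hg⟩ := htr.exists_smul_eq a b
    exact ⟨e' g, by rw [← hsm', hg]⟩
  have hfb : ∀ x : Cfsg.Sz F m, MulAction.fixedBy Ω x = MulAction.fixedBy Ω (e'.symm x) := by
    intro x
    ext ω
    rfl
  have hfix' : ∀ x : Cfsg.Sz F m, x ≠ 1 → (MulAction.fixedBy Ω x).ncard ≤ 2 := by
    intro x hx
    rw [hfb, ← _root_.Nat.card_coe_set_eq]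
    apply hfix
    intro h
    apply hx
    have := congrArg e' h
    rwa [e'.apply_symm_apply, map_one] at this
  have hex' : ∃ x : Cfsg.Sz F m, x ≠ 1 ∧ (MulAction.fixedBy Ω x).ncard = 2 := by
    obtain ⟨g, hg, hg2⟩ := hex
    refine ⟨e' g, ?_, ?_⟩
    · intro h
      apply hg
      have := congrArg e'.symm h
      rwa [e'.symm_apply_apply, map_one] at this
    · rw [hfb, e'.symm_apply_apply, ← _root_.Nat.card_coe_set_eq]
      exact hg2
  have hst : ∀ α : Ω, Nat.card (MulAction.stabilizer G α) =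
      Nat.card (MulAction.stabilizer (Cfsg.Sz F m) α) := by
    intro α
    apply Nat.card_congr
    apply e'.toEquiv.subtypeEquiv
    intro g
    show g • α = α ↔ e' g • α = α
    rw [← hsm']
  rw [← Nat.card_eq_fintype_card (α := Ω)]
  rcases Cfsg.Agent.Lib.Helper37.Suz.fixity_two hfix' hex' with ⟨h1, h2⟩ | ⟨h1, h2⟩
  · left
    refine ⟨h1, ?_⟩
    rw [MulAction.is_two_pretransitive_iff] at h2 ⊢
    intro a b c d hab hcd
    obtain ⟨x, hx1, hx2⟩ := h2 hab hcd
    exact ⟨e'.symm x, hx1, hx2⟩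
  · right
    refine ⟨h1, ?_⟩
    intro α
    rw [hst, h2]

end Cfsg.Agent.S3391
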