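import Cfsg.Statements.S3488

set_option autoImplicit false
open Cfsg

namespace Cfsg.Agent.S3488

open Matrix Polynomial

set_option maxRecDepth 100000 in
theorem a6_pow : ∀ g : Equiv.Perm (Fin 6), Equiv.Perm.sign g = 1 →
    g ^ 4 = 1 ∨ g ^ 3 = 1 ∨ g ^ 5 = 1 := by
  decide +kernel

theorem order_cases {G : Type*} [Monoid G] (x : G) (h : x ^ 4 = 1 ∨ x ^ 3 = 1 ∨ x ^ 5 = 1) :
    orderOf x ∈ ({1, 2, 3, 4, 5} : Set ℕ) := by
  rcases h with h | h | h
  · have h1 := orderOf_dvd_of_pow_eq_one h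
    have h2 : orderOf x ≤ 4 := Nat.le_of_dvd (by norm_num) h1
    generalize orderOf x = o at h1 h2
    interval_cases o <;> simp_all
  · have h1 := orderOf_dvd_of_pow_eq_one h
    have h2 : orderOf x ≤ 3 := Nat.le_of_dvd (by norm_num) h1
    generalize orderOf x = o at h1 h2
    interval_cases o <;> simp_all
  · have h1 := orderOf_dvd_of_pow_eq_one h
    have h2 : orderOf x ≤ 5 := Nat.le_of_dvd (by norm_num) h1
    generalize orderOf x = o at h1 h2
    interval_cases o <;> simp_all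

theorem range_a6 : Set.range (orderOf : alternatingGroup (Fin 6) → ℕ) = {1, 2, 3, 4, 5} := by
  apply Set.Subset.antisymm
  · rintro _ ⟨g, rfl⟩
    rw [← Subgroup.orderOf_coe]
    exact order_cases _ (a6_pow g (Equiv.Perm.mem_alternatingGroup.mp g.2))
  · intro n hn
    simp only [Set.mem_insert_iff, Set.mem_singleton_iff] at hn
    rcases hn with rfl | rfl | rfl | rfl | rfl
    · exact ⟨1, orderOf_one⟩
    · refine ⟨⟨Equiv.swap 0 1 * Equiv.swap 2 3, Equiv.Perm.mem_alternatingGroup.mpr (by decide)⟩, ?_⟩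
      rw [Subgroup.orderOf_mk]
      exact orderOf_eq_prime (by decide) (by decide)
    · refine ⟨⟨Equiv.swap 0 1 * Equiv.swap 1 2, Equiv.Perm.mem_alternatingGroup.mpr (by decide)⟩, ?_⟩
      rw [Subgroup.orderOf_mk]
      exact orderOf_eq_prime (by decide) (by decide)
    · refine ⟨⟨Equiv.swap 0 1 * Equiv.swap 1 2 * Equiv.swap 2 3 * Equiv.swap 4 5, Equiv.Perm.mem_alternatingGroup.mpr (by decide)⟩, ?_⟩
      rw [Subgroup.orderOf_mk]
      exact orderOf_eq_prime_pow (p := 2) (n := 1) (by decide) (by decide)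
    · refine ⟨⟨Equiv.swap 0 1 * Equiv.swap 1 2 * Equiv.swap 2 3 * Equiv.swap 3 4, Equiv.Perm.mem_alternatingGroup.mpr (by decide)⟩, ?_⟩
      rw [Subgroup.orderOf_mk]
      have : Fact (Nat.Prime 5) := ⟨Nat.prime_five⟩
      exact orderOf_eq_prime (by decide) (by decide)

variable {F : Type*} [Field F]

theorem key_identity (M : Matrix (Fin 3) (Fin 3) F) (h20 : M 2 0 = 0) (h21 : M 2 1 = 0)
    (h22 : M 2 2 = 1) (hdet : M 0 0 * M 1 1 - M 0 1 * M 1 0 = 1) :
    (M - 1) * (M ^ 2 - (M 0 0 + M 1 1) • M + 1) = 0 := by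
  ext i j
  fin_cases i <;> fin_cases j <;>
    simp [Matrix.mul_apply, Fin.sum_univ_three, pow_two, h20, h21, h22, Matrix.one_apply] <;>
    grind

theorem pow_eq_one_of {n : Type*} [Fintype n] [DecidableEq n] (M : Matrix n n F) (t : F)
    (h2 : (2 : F) = 0) (hM : (M - 1) * (M ^ 2 - t • M + 1) = 0) :
    (t = 0 → M ^ 4 = 1) ∧ (t = 1 → M ^ 3 = 1) ∧ (t ^ 2 + t + 1 = 0 → M ^ 5 = 1) := by
  have hP : aeval M ((X - 1) * (X ^ 2 - C t * X + 1) : F[X]) = 0 := by
    simpa [Algebra.smul_def] using hM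
  have h2' : (2 : F[X]) = 0 := by
    have : (C (2 : F) : F[X]) = 0 := by rw [h2, map_zero]
    rwa [map_ofNat] at this
  refine ⟨?_, ?_, ?_⟩
  · intro ht
    have e : (X ^ 4 - 1 : F[X]) = ((X - 1) * (X ^ 2 - C t * X + 1)) * (X - 1) := by
      rw [ht, map_zero]
      linear_combination (X ^ 3 - X ^ 2 + X - 1) * h2'
    have := congrArg (aeval M) e
    rw [map_mul, hP, zero_mul] at this
    simpa [sub_eq_zero] using this
  · intro ht
    have e : (X ^ 3 - 1 : F[X]) = ((X - 1) * (X ^ 2 - C t * X + 1)) * 1 := by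
      rw [ht, map_one]
      linear_combination (X ^ 2 - X) * h2'
    have := congrArg (aeval M) e
    rw [map_mul, hP, zero_mul] at this
    simpa [sub_eq_zero] using this
  · intro ht
    have ht' : (C t ^ 2 + C t + 1 : F[X]) = 0 := by
      have := congrArg (C : F → F[X]) ht
      simpa using this
    have e : (X ^ 5 - 1 : F[X]) =
        ((X - 1) * (X ^ 2 - C t * X + 1)) * (X ^ 2 - C t ^ 2 * X + 1) := by
      linear_combination (X - 1) * ((X ^ 3 + X - (C t - 1) * X ^ 2) * ht' - X ^ 2 * h2')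
    have := congrArg (aeval M) e
    rw [map_mul, hP, zero_mul] at this
    simpa [sub_eq_zero] using this

/-- the affine subgroup. -/
def aff (F : Type*) [Field F] : Subgroup (Matrix.SpecialLinearGroup (Fin 3) F) where
  carrier := {M | (M : Matrix (Fin 3) (Fin 3) F) 2 0 = 0 ∧ (M : Matrix (Fin 3) (Fin 3) F) 2 1 = 0 ∧
    (M : Matrix (Fin 3) (Fin 3) F) 2 2 = 1}
  one_mem' := by simp
  mul_mem' := by
    rintro A B ⟨a0, a1, a2⟩ ⟨b0, b1, b2⟩
    simp [Matrix.mul_apply, Fin.sum_univ_three, a0, a1, a2, b0, b1, b2]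
  inv_mem' := by
    rintro A ⟨a0, a1, a2⟩
    have hdet := A.2
    rw [Matrix.det_fin_three] at hdet
    simp only [a0, a1, a2] at hdet
    simp only [Set.mem_ofPred_eq, Matrix.SpecialLinearGroup.coe_inv, Matrix.adjugate_fin_three]
    refine ⟨?_, ?_, ?_⟩
    · simp [a0, a1]
    · simp [a0, a1]
    · simp
      linear_combination hdet

theorem det_of_mem (A : Matrix.SpecialLinearGroup (Fin 3) F) (hA : A ∈ aff F) :
    (A : Matrix (Fin 3) (Fin 3) F) 0 0 * (A : Matrix (Fin 3) (Fin 3) F) 1 1 -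
      (A : Matrix (Fin 3) (Fin 3) F) 0 1 * (A : Matrix (Fin 3) (Fin 3) F) 1 0 = 1 := by
  obtain ⟨a0, a1, a2⟩ := hA
  have hdet := A.2
  rw [Matrix.det_fin_three] at hdet
  simp only [a0, a1, a2] at hdet
  linear_combination hdet

theorem pow_cases (h2 : (2 : F) = 0) (A : Matrix.SpecialLinearGroup (Fin 3) F) (hA : A ∈ aff F) :
    ((A : Matrix (Fin 3) (Fin 3) F) 0 0 + (A : Matrix (Fin 3) (Fin 3) F) 1 1 = 0 → A ^ 4 = 1) ∧
    ((A : Matrix (Fin 3) (Fin 3) F) 0 0 + (A : Matrix (Fin 3) (Fin 3) F) 1 1 = 1 → A ^ 3 = 1) ∧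
    (((A : Matrix (Fin 3) (Fin 3) F) 0 0 + (A : Matrix (Fin 3) (Fin 3) F) 1 1) ^ 2 +
      ((A : Matrix (Fin 3) (Fin 3) F) 0 0 + (A : Matrix (Fin 3) (Fin 3) F) 1 1) + 1 = 0 →
      A ^ 5 = 1) := by
  have hk := key_identity (A : Matrix (Fin 3) (Fin 3) F) hA.1 hA.2.1 hA.2.2 (det_of_mem A hA)
  obtain ⟨c1, c2, c3⟩ := pow_eq_one_of _ _ h2 hk
  refine ⟨fun h => ?_, fun h => ?_, fun h => ?_⟩
  · apply Subtype.ext
    rw [Matrix.SpecialLinearGroup.coe_pow, c1 h, Matrix.SpecialLinearGroup.coe_one]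
  · apply Subtype.ext
    rw [Matrix.SpecialLinearGroup.coe_pow, c2 h, Matrix.SpecialLinearGroup.coe_one]
  · apply Subtype.ext
    rw [Matrix.SpecialLinearGroup.coe_pow, c3 h, Matrix.SpecialLinearGroup.coe_one]

theorem range_aff [Fintype F] (hF : Fintype.card F = 4) :
    Set.range (orderOf : aff F → ℕ) = {1, 2, 3, 4, 5} := by
  have h2 : (2 : F) = 0 := by
    have h4 : ((4 : ℕ) : F) = 0 := by rw [← hF]; exact Nat.cast_card_eq_zero F
    have h5 : (2 : F) * 2 = 0 := by
      have : ((4 : ℕ) : F) = 2 * 2 := by norm_num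
      rw [← this, h4]
    exact mul_self_eq_zero.mp h5
  have h11 : (1 : F) + 1 = 0 := by rw [one_add_one_eq_two, h2]
  have hneg : (-1 : F) = 1 := by linear_combination -h11
  have hcases : ∀ t : F, t = 0 ∨ t = 1 ∨ t ^ 2 + t + 1 = 0 := by
    intro t
    have h := FiniteField.pow_card t
    rw [hF] at h
    have h' : t * ((t - 1) * (t ^ 2 + t + 1)) = 0 := by linear_combination h
    rcases mul_eq_zero.mp h' with h0 | h0
    · exact Or.inl h0
    · rcases mul_eq_zero.mp h0 with h1 | h1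
      · exact Or.inr (Or.inl (sub_eq_zero.mp h1))
      · exact Or.inr (Or.inr h1)
  obtain ⟨w, hw⟩ : ∃ w : F, w ^ 2 + w + 1 = 0 := by
    classical
    by_contra hcon
    push Not at hcon
    have hsub : (Finset.univ : Finset F) ⊆ {0, 1} := by
      intro t _
      rcases hcases t with h | h | h
      · simp [h]
      · simp [h]
      · exact absurd h (hcon t)
    have := Finset.card_le_card hsub
    rw [Finset.card_univ, hF] at this
    have h3 : ({0, 1} : Finset F).card ≤ 2 := Finset.card_le_two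
    omega
  apply Set.Subset.antisymm
  · rintro _ ⟨⟨A, hA⟩, rfl⟩
    rw [Subgroup.orderOf_mk]
    apply order_cases
    obtain ⟨c1, c2, c3⟩ := pow_cases h2 A hA
    rcases hcases ((A : Matrix (Fin 3) (Fin 3) F) 0 0 + (A : Matrix (Fin 3) (Fin 3) F) 1 1)
      with h | h | h
    · exact Or.inl (c1 h)
    · exact Or.inr (Or.inl (c2 h))
    · exact Or.inr (Or.inr (c3 h))
  · intro n hn
    simp only [Set.mem_insert_iff, Set.mem_singleton_iff] at hn
    rcases hn with rfl | rfl | rfl | rfl | rfl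
    · exact ⟨1, orderOf_one⟩
    · -- order 2
      let M : Matrix.SpecialLinearGroup (Fin 3) F :=
        ⟨!![1, 1, 0; 0, 1, 0; 0, 0, 1], by simp [Matrix.det_fin_three]⟩
      have hM : M ∈ aff F := by
        refine ⟨?_, ?_, ?_⟩ <;> simp [M]
      refine ⟨⟨M, hM⟩, ?_⟩
      rw [Subgroup.orderOf_mk]
      apply orderOf_eq_prime
      · apply Subtype.ext
        rw [Matrix.SpecialLinearGroup.coe_pow, Matrix.SpecialLinearGroup.coe_one]
        ext i j
        fin_cases i <;> fin_cases j <;>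
          simp [M, pow_two, Matrix.mul_apply, Fin.sum_univ_three, h11]
      · intro h
        have := congrFun (congrFun (congrArg Subtype.val h) 0) 1
        simp [M] at this
    · -- order 3
      let M : Matrix.SpecialLinearGroup (Fin 3) F :=
        ⟨!![0, 1, 0; 1, 1, 0; 0, 0, 1], by simp [Matrix.det_fin_three, hneg]⟩
      have hM : M ∈ aff F := by
        refine ⟨?_, ?_, ?_⟩ <;> simp [M]
      refine ⟨⟨M, hM⟩, ?_⟩
      rw [Subgroup.orderOf_mk]
      apply orderOf_eq_prime
      · exact (pow_cases h2 M hM).2.1 (by simp [M])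
      · intro h
        have := congrFun (congrFun (congrArg Subtype.val h) 0) 1
        simp [M] at this
    · -- order 4
      let M : Matrix.SpecialLinearGroup (Fin 3) F :=
        ⟨!![1, 1, 0; 0, 1, 1; 0, 0, 1], by simp [Matrix.det_fin_three]⟩
      have hM : M ∈ aff F := by
        refine ⟨?_, ?_, ?_⟩ <;> simp [M]
      refine ⟨⟨M, hM⟩, ?_⟩
      rw [Subgroup.orderOf_mk]
      apply orderOf_eq_prime_pow (p := 2) (n := 1)
      · intro h
        have h' := congrArg Subtype.val h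
        rw [pow_one, Matrix.SpecialLinearGroup.coe_pow, Matrix.SpecialLinearGroup.coe_one] at h'
        have := congrFun (congrFun h' 0) 2
        simp [M, pow_two, Matrix.mul_apply, Fin.sum_univ_three] at this
      · exact (pow_cases h2 M hM).1 (by simp [M, h11])
    · -- order 5
      let M : Matrix.SpecialLinearGroup (Fin 3) F :=
        ⟨!![0, 1, 0; 1, w, 0; 0, 0, 1], by simp [Matrix.det_fin_three, hneg]⟩
      have hM : M ∈ aff F := by
        refine ⟨?_, ?_, ?_⟩ <;> simp [M]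
      refine ⟨⟨M, hM⟩, ?_⟩
      rw [Subgroup.orderOf_mk]
      have : Fact (Nat.Prime 5) := ⟨Nat.prime_five⟩
      apply orderOf_eq_prime
      · exact (pow_cases h2 M hM).2.2 (by simpa [M] using hw)
      · intro h
        have := congrFun (congrFun (congrArg Subtype.val h) 0) 1
        simp [M] at this

/-- Let F be the field with four elements. The affine group F² ⋊ SL(2,F), realised as the subgroup of SL(3,F) of matrices with last row (0, 0, 1), has exactly the same set of element orders as the alternating group of degree 6 (namely {1, 2, 3, 4, 5}); so the alternating group of degree 6 is not determined by its element orders. -/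
theorem result {F : Type*} [Field F] [Fintype F] (hF : Fintype.card F = 4) :
    Set.range (orderOf : Subgroup.closure {M : Matrix.SpecialLinearGroup (Fin 3) F |
        (M : Matrix (Fin 3) (Fin 3) F) 2 0 = 0 ∧ (M : Matrix (Fin 3) (Fin 3) F) 2 1 = 0 ∧ (M : Matrix (Fin 3) (Fin 3) F) 2 2 = 1} → ℕ) =
      Set.range (orderOf : alternatingGroup (Fin 6) → ℕ) := by
  have hcl : Subgroup.closure {M : Matrix.SpecialLinearGroup (Fin 3) F |
        (M : Matrix (Fin 3) (Fin 3) F) 2 0 = 0 ∧ (M : Matrix (Fin 3) (Fin 3) F) 2 1 = 0 ∧ (M : Matrix (Fin 3) (Fin 3) F) 2 2 = 1} = aff F :=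
    Subgroup.closure_eq (aff F)
  rw [hcl, range_a6, range_aff hF]

end Cfsg.Agent.S3488
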