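import Cfsg.Statements.S3495
import Cfsg.Agent.Lib.Helper58.Manning

set_option autoImplicit false
open Cfsg

namespace Cfsg.Agent.S3495

open MulAction Cfsg.Agent.Lib.Helper58

/-- Let a finite group G act faithfully and primitively on a finite set Ω with non-trivial point stabilizers, each acting primitively on every one of its orbits (an extremely primitive group), and suppose G has an elementary abelian normal p-subgroup N acting regularly on Ω (affine type). Then every non-trivial subgroup M of a point stabilizer G_α that is normal in G_α has the same orbits on Ω as G_α, and normalizes no subgroup of N other than 1 and N. -/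
theorem result {G : Type*} [Group G] [Finite G] {Ω : Type*} [Fintype Ω] [MulAction G Ω] [FaithfulSMul G Ω] (hprim : MulAction.IsPreprimitive G Ω) (hH : ∀ α : Ω, MulAction.stabilizer G α ≠ ⊥) (hep : ∀ (α : Ω) (ω : Ω), MulAction.IsPreprimitive (MulAction.stabilizer G α) (MulAction.orbit (MulAction.stabilizer G α) ω))
    (N : Subgroup G) [N.Normal] (hNc : IsMulCommutative N) (p : ℕ) (hp : p.Prime) (hNp : ∀ n ∈ N, n ^ p = 1)
    (hNtr : MulAction.IsPretransitive N Ω) (hNreg : ∀ ω : Ω, MulAction.stabilizer N ω = ⊥) (α : Ω) (M : Subgroup G) (hM : M ≠ ⊥) (hMle : M ≤ MulAction.stabilizer G α)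
    (hMn : MulAction.stabilizer G α ≤ Subgroup.normalizer (M : Set G)) :
    (∀ ω : Ω, MulAction.orbit M ω = MulAction.orbit (MulAction.stabilizer G α) ω) ∧
    (∀ L : Subgroup G, L ≤ N → M ≤ Subgroup.normalizer (L : Set G) → L = ⊥ ∨ L = N) := by
  have horb : ∀ (ω : Ω) (h : G), h • α = α → ∃ k ∈ M, k • ω = h • ω :=
    fun ω h hh => manning_same_orbits hMle hMn hep hM ω h hh
  have hreg : ∀ n ∈ N, n • α = α → n = 1 := by
    intro n hn hnα
    have h1 : (⟨n, hn⟩ : N) ∈ stabilizer N α := hnα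
    rw [hNreg α, Subgroup.mem_bot] at h1
    exact congrArg Subtype.val h1
  have hreg2 : ∀ n₁ ∈ N, ∀ n₂ ∈ N, n₁ • α = n₂ • α → n₁ = n₂ := by
    intro n₁ h₁ n₂ h₂ h
    have := hreg (n₂⁻¹ * n₁) (N.mul_mem (N.inv_mem h₂) h₁) (by rw [mul_smul, h, inv_smul_smul])
    exact (inv_mul_eq_one.mp this).symm
  constructor
  · intro ω
    ext x
    constructor
    · rintro ⟨⟨m, hm⟩, rfl⟩
      exact ⟨⟨m, hMle hm⟩, rfl⟩
    · rintro ⟨⟨h, hh⟩, rfl⟩
      obtain ⟨k, hk, hkω⟩ := horb ω h hh
      exact ⟨⟨k, hk⟩, hkω⟩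
  · intro L hLN hML
    -- L is normalised by the stabiliser
    have ha : ∀ h : G, h • α = α → ∀ l ∈ L, h * l * h⁻¹ ∈ L := by
      intro h hh l hl
      obtain ⟨m, hm, hmω⟩ := horb (l • α) h hh
      have hmα : m • α = α := hMle hm
      have h1 : m * l * m⁻¹ ∈ L := (Subgroup.mem_normalizer_iff.mp (hML hm) l).mp hl
      have h2 : h * l * h⁻¹ ∈ N := ‹N.Normal›.conj_mem l (hLN hl) h
      have h3 : (h * l * h⁻¹) • α = (m * l * m⁻¹) • α := by
        have e1 : h⁻¹ • α = α := by rw [inv_smul_eq_iff, hh]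
        have e2 : m⁻¹ • α = α := by rw [inv_smul_eq_iff, hmα]
        rw [mul_smul, mul_smul, mul_smul, mul_smul, e1, e2, hmω]
      rw [hreg2 _ h2 _ (hLN h1) h3]
      exact h1
    have hLnormal : L.Normal := by
      constructor
      intro l hl g
      obtain ⟨⟨n, hn⟩, hnα⟩ := hNtr.exists_smul_eq α (g • α)
      have hnα' : n • α = g • α := hnα
      have hh : (n⁻¹ * g) • α = α := by rw [mul_smul, ← hnα', inv_smul_smul]
      have h1 := ha _ hh l hl
      have h2 : g * l * g⁻¹ = n * ((n⁻¹ * g) * l * (n⁻¹ * g)⁻¹) * n⁻¹ := by group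
      have h3 : n * ((n⁻¹ * g) * l * (n⁻¹ * g)⁻¹) = ((n⁻¹ * g) * l * (n⁻¹ * g)⁻¹) * n := by
        have := hNc.is_comm.comm ⟨n, hn⟩ ⟨_, hLN h1⟩
        exact congrArg Subtype.val this
      rw [h2, h3, mul_inv_cancel_right]
      exact h1
    by_cases hfix : fixedPoints L Ω = Set.univ
    · left
      rw [Subgroup.eq_bot_iff_forall]
      intro l hl
      apply FaithfulSMul.eq_of_smul_eq_smul (α := Ω)
      intro x
      rw [one_smul]
      have : x ∈ fixedPoints L Ω := by rw [hfix]; trivial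
      exact this ⟨l, hl⟩
    · right
      have htr : IsPretransitive L Ω := IsQuasiPreprimitive.isPretransitive_of_normal hfix
      apply le_antisymm hLN
      intro n hn
      obtain ⟨⟨l, hl⟩, hlα⟩ := htr.exists_smul_eq α (n • α)
      have : l = n := hreg2 l (hLN hl) n hn hlα
      rw [← this]; exact hl

end Cfsg.Agent.S3495
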