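import Cfsg.Statements.S3498

set_option autoImplicit false
open Cfsg

namespace Cfsg.Agent.S3498

open scoped Pointwise

theorem comm_of_simple_pgroup {T : Type*} [Group T] [Finite T] (hT : IsSimpleGroup T) (r : ℕ)
    [Fact r.Prime] (h : IsPGroup r T) : IsMulCommutative T := by
  have h1 : Nontrivial (Subgroup.center T) := h.center_nontrivial
  have h2 : Subgroup.center T = ⊤ := by
    rcases hT.eq_bot_or_eq_top_of_normal (Subgroup.center T) inferInstance with h3 | h3
    · exfalso
      rw [Subgroup.nontrivial_iff_ne_bot] at h1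
      exact h1 h3
    · exact h3
  refine ⟨⟨fun a b => ?_⟩⟩
  have : b ∈ Subgroup.center T := by rw [h2]; trivial
  exact Subgroup.mem_center_iff.mp this a

theorem comm_of_prime_card {H : Type*} [Group H] (hp : (Nat.card H).Prime) : IsMulCommutative H := by
  have : Fact (Nat.card H).Prime := ⟨hp⟩
  have : IsCyclic H := isCyclic_of_prime_card rfl
  exact ⟨⟨fun a b => IsCyclic.commGroup.mul_comm a b⟩⟩

/-- A maximal subgroup of a finite almost simple group does not have prime order. Here G is almost simple in the sense that it has a non-abelian simple normal subgroup T with trivial centralizer. -/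
theorem result {G : Type*} [Group G] [Finite G] (T : Subgroup G) [T.Normal] (hT : IsSimpleGroup T) (hTc : ¬ IsMulCommutative T)
    (hC : Subgroup.centralizer (T : Set G) = ⊥) (H : Subgroup G) (hmax : IsCoatom H) : ¬ (Nat.card H).Prime := by
  intro hp
  set p := Nat.card H with hpdef
  have : Fact p.Prime := ⟨hp⟩
  have hHc : IsMulCommutative H := comm_of_prime_card hp
  have hHcomm : ∀ a ∈ H, ∀ b ∈ H, a * b = b * a := fun a ha b hb =>
    congrArg Subtype.val (hHc.is_comm.comm ⟨a, ha⟩ ⟨b, hb⟩)
  -- Step B
  have hTH : ¬ T ≤ H := by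
    intro h
    apply hTc
    exact ⟨⟨fun a b => Subtype.ext (hHcomm a (h a.2) b (h b.2))⟩⟩
  -- Step C
  have hGp : ∀ r : ℕ, r.Prime → ¬ IsPGroup r T := by
    intro r hr h
    have : Fact r.Prime := ⟨hr⟩
    exact hTc (comm_of_simple_pgroup hT r h)
  have hHp : IsPGroup p H := IsPGroup.of_card (n := 1) (by rw [pow_one])
  obtain ⟨S, hHS⟩ := hHp.exists_le_sylow
  have hSH : (S : Subgroup G) = H := by
    rcases hmax.le_iff.mp hHS with h | h
    · exfalso
      apply hGp p hp
      have h1 : IsPGroup p (S : Subgroup G) := S.isPGroup'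
      have h2 : T ≤ (S : Subgroup G) := by rw [h]; exact le_top
      exact h1.to_le h2
    · exact h
  have hHbot : H ≠ ⊥ := by
    intro h
    rw [hpdef, h, Subgroup.card_bot] at hp
    exact Nat.not_prime_one hp
  -- H is not normal
  have hHnn : ¬ H.Normal := by
    intro hn
    rcases hT.eq_bot_or_eq_top_of_normal (H.subgroupOf T) inferInstance with h | h
    · -- disjoint, so H centralises T
      rw [Subgroup.subgroupOf_eq_bot] at h
      apply hHbot
      rw [eq_bot_iff, ← hC]
      intro x hx
      rw [Subgroup.mem_centralizer_iff]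
      intro t ht
      exact (Subgroup.commute_of_normal_of_disjoint H T hn inferInstance h x t hx ht).symm.eq
    · rw [Subgroup.subgroupOf_eq_top] at h
      exact hTH h
  have hnorm : Subgroup.normalizer (H : Set G) = H := by
    rcases hmax.le_iff.mp (Subgroup.le_normalizer (H := H)) with h | h
    · exact absurd (Subgroup.normalizer_eq_top_iff.mp h) hHnn
    · exact h
  by_cases hHT : H ≤ T
  · -- Case 1
    have hTtop : T = ⊤ := by
      rcases hmax.le_iff.mp hHT with h | h
      · exact h
      · exact absurd h.le hTH
    have hsimple : ∀ K : Subgroup G, K.Normal → K = ⊥ ∨ K = ⊤ := by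
      intro K hK
      rcases hT.eq_bot_or_eq_top_of_normal (K.subgroupOf T) inferInstance with h | h
      · left
        rw [Subgroup.subgroupOf_eq_bot, hTtop, disjoint_top] at h
        exact h
      · right
        rw [Subgroup.subgroupOf_eq_top, hTtop, top_le_iff] at h
        exact h
    have hP : Subgroup.normalizer ((S : Subgroup G) : Set G) ≤ Subgroup.centralizer ((S : Subgroup G) : Set G) := by
      rw [hSH, hnorm]
      intro x hx
      rw [Subgroup.mem_centralizer_iff]
      intro y hy
      exact hHcomm y hy x hx
    have hcompl := MonoidHom.ker_transferSylow_isComplement' S hP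
    have hcard := hcompl.card_mul_card
    have hcS : Nat.card (S : Subgroup G) = Nat.card H := by rw [hSH]
    rw [hcS] at hcard
    rcases hsimple _ (MonoidHom.normal_ker (MonoidHom.transferSylow S hP)) with h | h
    · rw [h, Subgroup.card_bot, one_mul] at hcard
      exact hmax.1 (Subgroup.eq_top_of_card_eq H hcard)
    · rw [h, Subgroup.card_top] at hcard
      have h1 : Nat.card H = 1 := by
        have hpos : 0 < Nat.card G := Nat.card_pos
        exact Nat.eq_of_mul_eq_mul_left hpos (by rw [hcard, mul_one])
      rw [← hpdef] at h1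
      rw [h1] at hp
      exact Nat.not_prime_one hp
  · -- Case 2
    have hdisj : Disjoint T H := by
      rcases (T.subgroupOf H).eq_bot_or_eq_top_of_prime_card with h | h
      · exact Subgroup.subgroupOf_eq_bot.mp h
      · exact absurd (Subgroup.subgroupOf_eq_top.mp h) hHT
    have hpT : ¬ p ∣ Nat.card T := by
      intro hdvd
      have h1 : T.relIndex H = p := by
        rw [Subgroup.relIndex, Subgroup.subgroupOf_eq_bot.mpr hdisj, Subgroup.index_bot]
      have h2 : p ∣ T.index := h1 ▸ Subgroup.relIndex_dvd_index_of_normal T H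
      have h3 : p * p ∣ Nat.card G := by
        rw [← T.card_mul_index]
        exact Nat.mul_dvd_mul hdvd h2
      have h4 := S.card_eq_multiplicity
      rw [hSH] at h4
      have h5 : p ^ 2 ∣ p ^ (Nat.card G).factorization p := by
        rw [← pow_two] at h3
        exact (hp.pow_dvd_iff_dvd_ordProj Nat.card_pos.ne').mp h3
      rw [← h4, ← hpdef] at h5
      have h6 : p ^ 2 ≤ p := Nat.le_of_dvd hp.pos h5
      have h7 : p < p ^ 2 := by nlinarith [hp.two_le]
      omega
    have hT1 : Nat.card T ≠ 1 := by
      have : Nontrivial T := hT.toNontrivial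
      exact (Finite.one_lt_card).ne'
    obtain ⟨r, hr, hrT⟩ := Nat.exists_prime_and_dvd hT1
    have : Fact r.Prime := ⟨hr⟩
    let c : H →* MulAut T := (MulAut.conjNormal).comp H.subtype
    let _ : MulAction H (Sylow r T) := MulAction.compHom _ c
    have hnd : ¬ p ∣ Nat.card (Sylow r T) := by
      intro h
      obtain ⟨P⟩ : Nonempty (Sylow r T) := inferInstance
      exact hpT (h.trans ((P.card_dvd_index).trans (Subgroup.index_dvd_card _)))
    obtain ⟨P, hP⟩ := hHp.nonempty_fixed_point_of_prime_not_dvd_card (Sylow r T) hnd
    have hinv : ∀ h : H, ∀ x : T, x ∈ (P : Subgroup T) → c h x ∈ (P : Subgroup T) := by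
      intro h x hx
      have h1 : c h • P = P := hP h
      have h2 : c h • (P : Subgroup T) = (P : Subgroup T) := by
        rw [← Sylow.pointwise_smul_def, h1]
      rw [← h2]
      exact Subgroup.smul_mem_pointwise_smul x (c h) _ hx
    set R : Subgroup G := (P : Subgroup T).map T.subtype with hR
    have hRT : R ≤ T := by
      rintro _ ⟨x, -, rfl⟩
      exact x.2
    have hHR : H ≤ Subgroup.normalizer (R : Set G) := by
      rw [Subgroup.le_normalizer_iff]
      rintro h hh _ ⟨x, hx, rfl⟩
      exact ⟨c ⟨h, hh⟩ x, hinv ⟨h, hh⟩ x hx, rfl⟩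
    have hPbot : (P : Subgroup T) ≠ ⊥ := P.ne_bot_of_dvd_card hrT
    rcases hmax.le_iff.mp (le_sup_right : H ≤ R ⊔ H) with h | h
    · -- R normal in G
      have h1 : Subgroup.normalizer (R : Set G) = ⊤ := by
        rw [eq_top_iff, ← h]
        exact sup_le Subgroup.le_normalizer hHR
      have h2 : R.Normal := Subgroup.normalizer_eq_top_iff.mp h1
      have h3 : (P : Subgroup T) = R.subgroupOf T := by
        rw [hR, Subgroup.subgroupOf, Subgroup.comap_map_eq_self_of_injective T.subtype_injective]
      have h4 : (P : Subgroup T).Normal := by rw [h3]; infer_instance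
      rcases hT.eq_bot_or_eq_top_of_normal _ h4 with h5 | h5
      · exact hPbot h5
      · apply hGp r hr
        have h6 : IsPGroup r (P : Subgroup T) := P.isPGroup'
        rw [h5] at h6
        exact h6.of_equiv Subgroup.topEquiv
    · have h1 : R ≤ H := by rw [← h]; exact le_sup_left
      have h2 : R = ⊥ := by
        rw [eq_bot_iff]
        exact hdisj (le_refl R |>.trans hRT) h1
      apply hPbot
      rw [hR, Subgroup.map_eq_bot_iff_of_injective _ T.subtype_injective] at h2
      exact h2

end Cfsg.Agent.S3498
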