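import Cfsg.Statements.S3504

set_option autoImplicit false
open Cfsg

namespace Cfsg.Agent.S3504

open Equiv.Perm

/-- existence of a fixed-point-free permutation of prime order `p` when `p ∣ n`. -/
theorem exists_derangement (n p : ℕ) (hp : p.Prime) (hpn : p ∣ n) (hn : 0 < n) :
    ∃ g : Equiv.Perm (Fin n), orderOf g = p ∧ ∀ i : Fin n, g i ≠ i := by
  obtain ⟨m, rfl⟩ := hpn
  have hm : 0 < m := Nat.pos_of_mul_pos_left hn |> fun h => by
    rcases Nat.eq_zero_or_pos m with h0 | h0
    · subst h0; simp at hn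
    · exact h0
  obtain ⟨g, hg⟩ := (Equiv.Perm.exists_with_cycleType_iff (Fin (p * m))
    (m := Multiset.replicate m p)).mpr ⟨by simp [mul_comm], fun a ha => by
      rw [Multiset.eq_of_mem_replicate ha]; exact hp.two_le⟩
  refine ⟨g, ?_, ?_⟩
  · have h1 : orderOf g ∣ p := by
      rw [← lcm_cycleType, hg, Multiset.lcm_dvd]
      intro a ha
      rw [Multiset.eq_of_mem_replicate ha]
    have h2 : p ∣ orderOf g := by
      apply dvd_of_mem_cycleType
      rw [hg, Multiset.mem_replicate]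
      exact ⟨hm.ne', rfl⟩
    exact Nat.dvd_antisymm h1 h2
  · have h1 : g.support.card = p * m := by
      rw [← sum_cycleType, hg]; simp [mul_comm]
    have h2 : g.support = Finset.univ := by
      apply Finset.eq_univ_of_card
      rw [h1]; simp
    intro i
    have : i ∈ g.support := by rw [h2]; exact Finset.mem_univ i
    exact Equiv.Perm.mem_support.mp this

theorem cycleType_of_derangement (n : ℕ) (g : Equiv.Perm (Fin n)) (hg : (orderOf g).Prime)
    (hfix : ∀ i : Fin n, g i ≠ i) :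
    ∃ m, n = m * orderOf g ∧ g.cycleType = Multiset.replicate m (orderOf g) := by
  obtain ⟨m, hm⟩ := cycleType_prime_order hg
  refine ⟨m + 1, ?_, hm⟩
  have h2 : g.support = Finset.univ := by
    ext i
    simp [Equiv.Perm.mem_support, hfix i]
  have h1 : g.support.card = n := by rw [h2]; simp
  rw [← sum_cycleType, hm] at h1
  rw [Multiset.sum_replicate, smul_eq_mul] at h1
  exact h1.symm

/-- For n ≥ 5, the fixed-point-free permutations of prime order in the symmetric group of degree n form a single conjugacy class if and only if n is a prime power. -/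
theorem result (n : ℕ) (hn : 5 ≤ n) :
    Nat.card {c : ConjClasses (Equiv.Perm (Fin n)) // ∃ g : Equiv.Perm (Fin n), ConjClasses.mk g = c ∧ (orderOf g).Prime ∧ ∀ i : Fin n, g i ≠ i} = 1 ↔ IsPrimePow n := by
  have hn0 : 0 < n := by omega
  constructor
  · intro h
    rw [Nat.card_eq_one_iff_unique] at h
    obtain ⟨hs, -⟩ := h
    -- a prime factor
    obtain ⟨p, hp, hpn⟩ := Nat.exists_prime_and_dvd (show n ≠ 1 by omega)
    rw [isPrimePow_iff_unique_prime_dvd]
    refine ⟨p, ⟨hp, hpn⟩, ?_⟩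
    rintro q ⟨hq, hqn⟩
    obtain ⟨g1, ho1, hf1⟩ := exists_derangement n p hp hpn hn0
    obtain ⟨g2, ho2, hf2⟩ := exists_derangement n q hq hqn hn0
    have := hs.elim ⟨ConjClasses.mk g1, g1, rfl, ho1 ▸ hp, hf1⟩ ⟨ConjClasses.mk g2, g2, rfl, ho2 ▸ hq, hf2⟩
    have h2 : ConjClasses.mk g1 = ConjClasses.mk g2 := congrArg Subtype.val this
    rw [ConjClasses.mk_eq_mk_iff_isConj, Equiv.Perm.isConj_iff_cycleType_eq] at h2
    have h3 : orderOf g1 = orderOf g2 := by
      rw [← lcm_cycleType, ← lcm_cycleType, h2]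
    rw [← ho1, ← ho2, h3]
  · intro h
    rw [isPrimePow_iff_unique_prime_dvd] at h
    obtain ⟨p, ⟨hp, hpn⟩, huniq⟩ := h
    rw [Nat.card_eq_one_iff_unique]
    constructor
    · constructor
      rintro ⟨c1, g1, rfl, ho1, hf1⟩ ⟨c2, g2, rfl, ho2, hf2⟩
      apply Subtype.ext
      show ConjClasses.mk g1 = ConjClasses.mk g2
      rw [ConjClasses.mk_eq_mk_iff_isConj, Equiv.Perm.isConj_iff_cycleType_eq]
      obtain ⟨m1, hm1, ht1⟩ := cycleType_of_derangement n g1 ho1 hf1
      obtain ⟨m2, hm2, ht2⟩ := cycleType_of_derangement n g2 ho2 hf2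
      have e1 : orderOf g1 = p := huniq _ ⟨ho1, Dvd.intro_left _ hm1.symm⟩
      have e2 : orderOf g2 = p := huniq _ ⟨ho2, Dvd.intro_left _ hm2.symm⟩
      rw [e1] at hm1 ht1
      rw [e2] at hm2 ht2
      have : m1 = m2 := Nat.eq_of_mul_eq_mul_right hp.pos (hm1.symm.trans hm2)
      rw [ht1, ht2, this]
    · obtain ⟨g1, ho1, hf1⟩ := exists_derangement n p hp hpn hn0
      exact ⟨⟨ConjClasses.mk g1, g1, rfl, ho1 ▸ hp, hf1⟩⟩

end Cfsg.Agent.S3504
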