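import Cfsg.Statements.S3508
set_option autoImplicit false
open Cfsg

namespace Cfsg.Agent.S3508
open Polynomial

theorem unipotent_lemma (p : ℕ) [Fact p.Prime] {V : Type*} [AddCommGroup V] [Module (ZMod p) V]
    [Module.Finite (ZMod p) V] (f : Module.End (ZMod p) V) (r s : ℕ) (hf : f ^ (p ^ r) = 1)
    (hs : Module.finrank (ZMod p) V < p ^ s) :
    f ^ (p ^ s) = 1 ∧ ∑ i ∈ Finset.range (p ^ s), f ^ i = 0 := by
  have P1 : ∀ k : ℕ, ((X : (ZMod p)[X]) - 1) ^ (p ^ k) = X ^ (p ^ k) - 1 := by
    intro k
    rw [sub_pow_char_pow, one_pow]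
  have P2 : ∑ i ∈ Finset.range (p ^ s), (X : (ZMod p)[X]) ^ i = (X - 1) ^ (p ^ s - 1) := by
    have hne : ((X : (ZMod p)[X]) - 1) ≠ 0 := by
      have := Polynomial.X_sub_C_ne_zero (1 : ZMod p)
      simpa using this
    apply mul_right_cancel₀ hne
    rw [geom_sum_mul, ← P1, ← pow_succ, Nat.sub_add_cancel (Nat.one_le_pow _ _ (Fact.out : p.Prime).pos)]
  have A1 : ∀ k : ℕ, (f - 1) ^ (p ^ k) = f ^ (p ^ k) - 1 := by
    intro k
    have := congrArg (aeval f) (P1 k)
    simpa using this
  have A2 : ∑ i ∈ Finset.range (p ^ s), f ^ i = (f - 1) ^ (p ^ s - 1) := by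
    have := congrArg (aeval f) P2
    simpa using this
  have hnil : IsNilpotent (f - 1) := ⟨p ^ r, by rw [A1, hf, sub_self]⟩
  have hfin : (f - 1) ^ Module.finrank (ZMod p) V = 0 := by
    have h1 := hnil.charpoly_eq_X_pow_finrank
    have h2 := LinearMap.aeval_self_charpoly (f - 1)
    rw [h1] at h2
    simpa using h2
  constructor
  · have : (f - 1) ^ (p ^ s) = 0 := pow_eq_zero_of_le hs.le hfin
    rw [A1, sub_eq_zero] at this
    exact this
  · rw [A2]
    exact pow_eq_zero_of_le (by omega) hfin

open scoped IsMulCommutative in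
theorem pow_eq_one_of_lt {G : Type*} [Group G] [Finite G] {Ω : Type*} [Fintype Ω] [MulAction G Ω]
    [FaithfulSMul G Ω] (p m : ℕ) (hp : p.Prime) (hcard : Fintype.card Ω = p ^ m)
    (N : Subgroup G) [N.Normal] (hNc : IsMulCommutative N) (hNp : ∀ n ∈ N, n ^ p = 1)
    (hNtr : MulAction.IsPretransitive N Ω) (hNreg : ∀ ω : Ω, MulAction.stabilizer N ω = ⊥)
    (g : G) (r s : ℕ) (hg : g ^ (p ^ r) = 1) (hs : m < p ^ s) : g ^ (p ^ s) = 1 := by
  have : Fact p.Prime := ⟨hp⟩
  have hpow : ∀ x : Additive N, p • x = 0 := fun x => by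
    have : (Additive.toMul x) ^ p = 1 := Subtype.ext (hNp _ (Additive.toMul x).2)
    exact congrArg Additive.ofMul this
  obtain ⟨inst⟩ : Nonempty (Module (ZMod p) (Additive N)) := ⟨AddCommGroup.zmodModule hpow⟩
  let φ : Additive N →+ Additive N := (MulAut.conjNormal g : N ≃* N).toMonoidHom.toAdditive
  let f : Module.End (ZMod p) (Additive N) := φ.toZModLinearMap p
  have hf1 : ∀ v : Additive N, f v = Additive.ofMul (MulAut.conjNormal g (Additive.toMul v)) :=
    fun v => rfl
  have hfk : ∀ (k : ℕ) (v : Additive N),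
      (f ^ k) v = Additive.ofMul (MulAut.conjNormal (g ^ k) (Additive.toMul v)) := by
    intro k
    induction k with
    | zero => intro v; simp
    | succ k ih =>
      intro v
      rw [pow_succ', Module.End.mul_apply, ih, hf1, pow_succ', map_mul]
      rfl
  have hfr : f ^ (p ^ r) = 1 := by
    ext v
    rw [hfk, hg, map_one]
    rfl
  have hne : Nonempty Ω := by
    rw [← Fintype.card_pos_iff, hcard]
    exact Nat.pow_pos hp.pos
  obtain ⟨α⟩ := hne
  have hbij : Function.Bijective (fun n : N => n • α) := by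
    constructor
    · intro a b hab
      have hab' : a • α = b • α := hab
      have : a⁻¹ * b ∈ MulAction.stabilizer N α := by
        rw [MulAction.mem_stabilizer_iff, mul_smul, ← hab', inv_smul_smul]
      rw [hNreg, Subgroup.mem_bot, inv_mul_eq_one] at this
      exact this
    · intro ω
      exact MulAction.exists_smul_eq N α ω
  have hcardN : Nat.card (Additive N) = p ^ m := by
    rw [← hcard, ← Nat.card_eq_fintype_card]
    exact Nat.card_eq_of_bijective _ hbij
  have : Finite (Additive N) := inferInstanceAs (Finite N)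
  have : Module.Finite (ZMod p) (Additive N) := Module.Finite.of_finite
  have hrank : Module.finrank (ZMod p) (Additive N) = m := by
    have h := Module.natCard_eq_pow_finrank (K := ZMod p) (V := Additive N)
    rw [hcardN, Nat.card_zmod] at h
    exact (Nat.pow_right_injective hp.two_le h).symm
  obtain ⟨hq1, hq2⟩ := unipotent_lemma p f r s hfr (by rw [hrank]; exact hs)
  obtain ⟨n₀, hn₀⟩ := MulAction.exists_smul_eq N α (g • α)
  have hstep : ∀ v : Additive N, g • (Additive.toMul v • α)
      = Additive.toMul (f v + Additive.ofMul n₀) • α := by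
    intro v
    rw [hf1, toMul_add, toMul_ofMul, toMul_ofMul, mul_smul, hn₀]
    change g • (((Additive.toMul v : N) : G) • α) = ((MulAut.conjNormal g (Additive.toMul v) : N) : G) • g • α
    rw [MulAut.conjNormal_apply, smul_smul, smul_smul]
    congr 1
    group
  have hk : ∀ (k : ℕ) (v : Additive N), g ^ k • (Additive.toMul v • α)
      = Additive.toMul ((f ^ k) v + (∑ i ∈ Finset.range k, f ^ i) (Additive.ofMul n₀)) • α := by
    intro k
    induction k with
    | zero => intro v; simp
    | succ k ih =>
      intro v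
      rw [pow_succ', mul_smul, ih, hstep]
      congr 2
      rw [map_add f, Finset.sum_range_succ', pow_succ' f k, Module.End.mul_apply, add_assoc]
      congr 1
      simp only [LinearMap.add_apply, pow_zero, Module.End.one_apply, LinearMap.sum_apply, map_sum,
        pow_succ', Module.End.mul_apply]
  apply FaithfulSMul.eq_of_smul_eq_smul (α := Ω)
  intro ω
  obtain ⟨n, rfl⟩ := hbij.2 ω
  have := hk (p ^ s) (Additive.ofMul n)
  rw [hq1, hq2] at this
  simpa using this

/-- Let a finite group G act faithfully on a set Ω with p ^ m points (p prime) and have an elementary abelian normal p-subgroup N acting regularly on Ω (so G is a group of affine transformations of an m-dimensional space over the field with p elements). If G contains an element of order p ^ r with r ≥ 1, then p ^ (r − 1) ≤ m. In particular an element of order p ^ m forces m ≤ 2, and m ≤ 1 when p is odd. -/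
theorem result {G : Type*} [Group G] [Finite G] {Ω : Type*} [Fintype Ω] [MulAction G Ω] [FaithfulSMul G Ω] (p m : ℕ) (hp : p.Prime) (hcard : Fintype.card Ω = p ^ m)
    (N : Subgroup G) [N.Normal] (hNc : IsMulCommutative N) (hNp : ∀ n ∈ N, n ^ p = 1)
    (hNtr : MulAction.IsPretransitive N Ω) (hNreg : ∀ ω : Ω, MulAction.stabilizer N ω = ⊥)
    (g : G) (r : ℕ) (hr : 1 ≤ r) (hg : orderOf g = p ^ r) :
    p ^ (r - 1) ≤ m ∧ (r = m → m ≤ 2 ∧ (2 < p → m ≤ 1)) := by
  have h1 : p ^ (r - 1) ≤ m := by
    by_contra hcon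
    push Not at hcon
    have hg1 : g ^ (p ^ r) = 1 := by rw [← hg]; exact pow_orderOf_eq_one g
    have h2 := pow_eq_one_of_lt p m hp hcard N hNc hNp hNtr hNreg g r (r - 1) hg1 hcon
    have h3 := orderOf_dvd_of_pow_eq_one h2
    rw [hg] at h3
    have h4 := Nat.le_of_dvd (Nat.pow_pos hp.pos) h3
    have h5 : p ^ (r - 1) < p ^ r := Nat.pow_lt_pow_right hp.one_lt (by omega)
    omega
  refine ⟨h1, ?_⟩
  rintro rfl
  have e2 : ∀ k, 2 ≤ k → k + 1 < 2 ^ k := by
    intro k hk
    induction k, hk using Nat.le_induction with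
    | base => norm_num
    | succ k hk ih => rw [pow_succ]; omega
  have e3 : ∀ k, 1 ≤ k → k + 1 < 3 ^ k := by
    intro k hk
    induction k, hk using Nat.le_induction with
    | base => norm_num
    | succ k hk ih => rw [pow_succ]; omega
  constructor
  · by_contra hcon
    push Not at hcon
    have := e2 (r - 1) (by omega)
    have h6 : 2 ^ (r - 1) ≤ p ^ (r - 1) := Nat.pow_le_pow_left hp.two_le _
    omega
  · intro hp2
    by_contra hcon
    push Not at hcon
    have := e3 (r - 1) (by omega)
    have h6 : 3 ^ (r - 1) ≤ p ^ (r - 1) := Nat.pow_le_pow_left hp2 _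
    omega

end Cfsg.Agent.S3508
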