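import Cfsg.Statements.S3511

set_option autoImplicit false
open Cfsg

namespace Cfsg.Agent.S3511

theorem aux {G : Type*} [Group G] [Finite G] {Ω : Type*} [MulAction G Ω]
    (h : ∀ g : G, Squarefree (orderOf g) → ∃ ω : Ω, MulAction.stabilizer (Subgroup.zpowers g) ω = ⊥) :
    ∀ (n : ℕ) (g : G), orderOf g = n → ∃ ω : Ω, MulAction.stabilizer (Subgroup.zpowers g) ω = ⊥ := by
  intro n
  induction n using Nat.strong_induction_on with
  | _ n ih =>
    intro g hg
    by_cases hsq : Squarefree (orderOf g)
    · exact h g hsq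
    · rw [Nat.squarefree_iff_prime_squarefree] at hsq
      push Not at hsq
      obtain ⟨p, hp, hpp⟩ := hsq
      have hn0 : 0 < orderOf g := orderOf_pos g
      have hpn : p ∣ orderOf g := dvd_trans (dvd_mul_right p p) hpp
      have hord : orderOf (g ^ p) = orderOf g / p := orderOf_pow_of_dvd hp.ne_zero hpn
      obtain ⟨ω, hω⟩ := ih (orderOf g / p) (by rw [← hg]; exact Nat.div_lt_self hn0 hp.one_lt) (g ^ p) hord
      refine ⟨ω, ?_⟩
      rw [Subgroup.eq_bot_iff_forall]
      rintro ⟨x, hx⟩ hxω
      by_contra hne
      have hx1 : x ≠ 1 := fun h1 => hne (Subtype.ext h1)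
      have hxfix : x • ω = ω := hxω
      -- a prime q dividing the order of x
      have hox : orderOf x ≠ 1 := fun h1 => hx1 (orderOf_eq_one_iff.mp h1)
      obtain ⟨q, hq, hqx⟩ := Nat.exists_prime_and_dvd hox
      set y := x ^ (orderOf x / q) with hy
      have hoy : orderOf y = q := by
        rw [hy, orderOf_pow_of_dvd]
        · exact Nat.div_div_self hqx (orderOf_pos x).ne'
        · exact (Nat.div_pos (Nat.le_of_dvd (orderOf_pos x) hqx) hq.pos).ne'
        · exact Nat.div_dvd_of_dvd hqx
      have hyfix : y • ω = ω := by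
        have : x ∈ MulAction.stabilizer G ω := hxfix
        exact (MulAction.stabilizer G ω).pow_mem this _
      have hyg : y ∈ Subgroup.zpowers g := (Subgroup.zpowers g).pow_mem hx _
      have hyg' : y ∈ Submonoid.powers g := (mem_powers_iff_mem_zpowers).mpr hyg
      obtain ⟨j, hj⟩ := hyg'
      replace hj : g ^ j = y := hj
      -- g ^ (j * q) = 1
      have h1 : g ^ (j * q) = 1 := by
        rw [pow_mul, hj, ← hoy, pow_orderOf_eq_one]
      have h2 : orderOf g ∣ j * q := orderOf_dvd_of_pow_eq_one h1
      have h3 : p * p ∣ j * q := dvd_trans hpp h2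
      have h4 : p ∣ j := by
        by_cases hpq : p = q
        · subst hpq
          exact (Nat.mul_dvd_mul_iff_right hp.pos).mp h3
        · have hcop : Nat.Coprime p q := (Nat.coprime_primes hp hq).mpr hpq
          exact hcop.dvd_of_dvd_mul_right (dvd_trans (dvd_mul_right p p) h3)
      obtain ⟨i, rfl⟩ := h4
      have hy' : y ∈ Subgroup.zpowers (g ^ p) := by
        rw [← hj, pow_mul]
        exact (Subgroup.zpowers (g ^ p)).pow_mem (Subgroup.mem_zpowers _) _
      have : (⟨y, hy'⟩ : Subgroup.zpowers (g ^ p)) ∈ MulAction.stabilizer (Subgroup.zpowers (g ^ p)) ω := hyfix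
      rw [hω, Subgroup.mem_bot] at this
      have hy1 : y = 1 := congrArg Subtype.val this
      rw [hy1, orderOf_one] at hoy
      exact hq.one_lt.ne hoy

/-- Let a finite group G act faithfully on a set Ω. If every element of G of square-free order has a regular cycle (an orbit of the cyclic group it generates with trivial stabilizer), then every element of G has a regular cycle. -/
theorem result {G : Type*} [Group G] [Finite G] {Ω : Type*} [MulAction G Ω] [FaithfulSMul G Ω]
    (h : ∀ g : G, Squarefree (orderOf g) → ∃ ω : Ω, MulAction.stabilizer (Subgroup.zpowers g) ω = ⊥) (g : G) :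
    ∃ ω : Ω, MulAction.stabilizer (Subgroup.zpowers g) ω = ⊥ := by
  exact aux h _ g rfl

end Cfsg.Agent.S3511
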