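import Cfsg.Statements.S3514

set_option autoImplicit false
open Cfsg

namespace Cfsg.Agent.S3514

theorem relIndex_sup_eq {Γ : Type*} [Group Γ] [Finite Γ] (S K : Subgroup Γ)
    (h : S ≤ Subgroup.normalizer (K : Set Γ)) : S.relIndex (S ⊔ K) = S.relIndex K := by
  have h5 : K.relIndex (S ⊔ K) = K.relIndex S := by
    letI := Subgroup.normal_subgroupOf_of_le_normalizer h
    letI := Subgroup.normal_subgroupOf_sup_of_le_normalizer h
    exact (Nat.card_congr (QuotientGroup.quotientInfEquivProdNormalizerQuotient S K h).toEquiv).symm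
  have h1 : (⊥ : Subgroup Γ).relIndex (S ⊓ K) * (S ⊓ K).relIndex K = (⊥ : Subgroup Γ).relIndex K :=
    Subgroup.relIndex_mul_relIndex _ _ _ bot_le inf_le_right
  have h2 : (⊥ : Subgroup Γ).relIndex (S ⊓ K) * (S ⊓ K).relIndex S = (⊥ : Subgroup Γ).relIndex S :=
    Subgroup.relIndex_mul_relIndex _ _ _ bot_le inf_le_left
  have h3 : (⊥ : Subgroup Γ).relIndex S * S.relIndex (S ⊔ K) = (⊥ : Subgroup Γ).relIndex (S ⊔ K) :=
    Subgroup.relIndex_mul_relIndex _ _ _ bot_le le_sup_left
  have h4 : (⊥ : Subgroup Γ).relIndex K * K.relIndex (S ⊔ K) = (⊥ : Subgroup Γ).relIndex (S ⊔ K) :=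
    Subgroup.relIndex_mul_relIndex _ _ _ bot_le le_sup_right
  rw [Subgroup.inf_relIndex_right] at h1
  rw [Subgroup.inf_relIndex_left] at h2
  rw [h5] at h4
  have ha : 0 < (⊥ : Subgroup Γ).relIndex (S ⊓ K) := by
    rw [Subgroup.relIndex_bot_left]; exact Nat.card_pos
  have hb : 0 < K.relIndex S := Nat.pos_of_ne_zero (by
    intro h0
    have := Subgroup.relIndex_dvd_card K S
    rw [h0] at this
    exact (Nat.card_pos (α := S)).ne' (Nat.eq_zero_of_zero_dvd this))
  have : ((⊥ : Subgroup Γ).relIndex (S ⊓ K) * K.relIndex S) * S.relIndex (S ⊔ K)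
      = ((⊥ : Subgroup Γ).relIndex (S ⊓ K) * K.relIndex S) * S.relIndex K := by
    calc ((⊥ : Subgroup Γ).relIndex (S ⊓ K) * K.relIndex S) * S.relIndex (S ⊔ K)
        = (⊥ : Subgroup Γ).relIndex (S ⊔ K) := by rw [h2, h3]
      _ = ((⊥ : Subgroup Γ).relIndex (S ⊓ K) * S.relIndex K) * K.relIndex S := by rw [h1, h4]
      _ = _ := by ring
  exact Nat.eq_of_mul_eq_mul_left (Nat.mul_pos ha hb) this

theorem card_orbit_eq {Γ : Type*} [Group Γ] {V : Type*} [MulAction Γ V] (K : Subgroup Γ) (v : V) :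
    Nat.card {u : V | ∃ k ∈ K, k • v = u} = (MulAction.stabilizer Γ v).relIndex K := by
  have h1 : (MulAction.stabilizer Γ v).subgroupOf K = MulAction.stabilizer K v := by
    ext x
    simp [Subgroup.mem_subgroupOf, MulAction.mem_stabilizer_iff, Subgroup.smul_def]
  rw [Subgroup.relIndex, h1, MulAction.index_stabilizer, ← Nat.card_coe_set_eq]
  congr 1
  have : {u : V | ∃ k ∈ K, k • v = u} = MulAction.orbit K v := by
    ext u
    constructor
    · rintro ⟨k, hk, rfl⟩
      exact ⟨⟨k, hk⟩, rfl⟩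
    · rintro ⟨⟨k, hk⟩, rfl⟩
      exact ⟨k, hk, rfl⟩
  rw [this]

theorem part1 {Γ : Type*} [Group Γ] [Finite Γ] (S K H : Subgroup Γ) (hKH : K ≤ H)
    (hn : H ≤ Subgroup.normalizer (K : Set Γ)) : S.relIndex K ∣ S.relIndex H := by
  have h1 : (S ⊓ H).relIndex ((S ⊓ H) ⊔ K) = (S ⊓ H).relIndex K :=
    relIndex_sup_eq _ _ (inf_le_right.trans hn)
  have h2 : (S ⊓ H).relIndex K = S.relIndex K := by
    rw [← Subgroup.inf_relIndex_right (S ⊓ H) K, inf_assoc, inf_eq_right.mpr hKH,
      Subgroup.inf_relIndex_right]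
  have h3 : (S ⊓ H).relIndex ((S ⊓ H) ⊔ K) * ((S ⊓ H) ⊔ K).relIndex H = (S ⊓ H).relIndex H :=
    Subgroup.relIndex_mul_relIndex _ _ _ le_sup_left (sup_le inf_le_right hKH)
  rw [Subgroup.inf_relIndex_right, h1, h2] at h3
  exact Dvd.intro _ h3

theorem part2 {Γ : Type*} [Group Γ] [Finite Γ] (S N H : Subgroup Γ)
    (hn : H ≤ Subgroup.normalizer (N : Set Γ)) :
    S.relIndex (N ⊔ H) ∣ Nat.card N * S.relIndex H := by
  -- |X : X ∩ S| divides |X : H ∩ S| = |X : H| |H : H ∩ S|
  have h1 : H.relIndex (H ⊔ N) = H.relIndex N := relIndex_sup_eq _ _ hn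
  have h2 : (S ⊓ H).relIndex H * H.relIndex (H ⊔ N) = (S ⊓ H).relIndex (H ⊔ N) :=
    Subgroup.relIndex_mul_relIndex _ _ _ inf_le_right le_sup_left
  have h3 : S.relIndex (H ⊔ N) ∣ (S ⊓ H).relIndex (H ⊔ N) :=
    Subgroup.relIndex_dvd_of_le_left _ inf_le_left
  rw [sup_comm]
  refine h3.trans ?_
  rw [← h2, Subgroup.inf_relIndex_right, h1, mul_comm]
  exact Nat.mul_dvd_mul_right (Subgroup.relIndex_dvd_card _ _) _

/-- Let p be a prime, V a finite vector space over the field with p elements, and H a group of linear transformations of V all of whose orbits on V have size coprime to p. (i) Every normal subgroup K of H has all its orbits on V of size coprime to p. (ii) If N is a group of linear transformations of V of order coprime to p that is normalized by H, then the group generated by N and H has all its orbits on V of size coprime to p. -/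
theorem result (p : ℕ) [Fact p.Prime] {V : Type*} [AddCommGroup V] [Module (ZMod p) V] [Finite V]
    (H : Subgroup (V ≃ₗ[ZMod p] V)) (hH : ∀ v : V, ¬ p ∣ Nat.card {u : V | ∃ h ∈ H, h v = u}) :
    (∀ K : Subgroup (V ≃ₗ[ZMod p] V), K ≤ H → H ≤ Subgroup.normalizer (K : Set (V ≃ₗ[ZMod p] V)) →
        ∀ v : V, ¬ p ∣ Nat.card {u : V | ∃ k ∈ K, k v = u}) ∧
    (∀ N : Subgroup (V ≃ₗ[ZMod p] V), ¬ p ∣ Nat.card N → H ≤ Subgroup.normalizer (N : Set (V ≃ₗ[ZMod p] V)) →
        ∀ v : V, ¬ p ∣ Nat.card {u : V | ∃ x ∈ N ⊔ H, x v = u}) := by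
  have hp : p.Prime := Fact.out
  have : Finite (V ≃ₗ[ZMod p] V) := Finite.of_injective (fun f => (f : V → V)) (fun f g h => by
    ext x; exact congrFun h x)
  have key : ∀ (K : Subgroup (V ≃ₗ[ZMod p] V)) (v : V),
      Nat.card {u : V | ∃ k ∈ K, k v = u} = (MulAction.stabilizer (V ≃ₗ[ZMod p] V) v).relIndex K :=
    fun K v => card_orbit_eq K v
  constructor
  · intro K hKH hn v hdiv
    rw [key] at hdiv
    apply hH v
    rw [key]
    exact hdiv.trans (part1 _ K H hKH hn)
  · intro N hN hn v hdiv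
    rw [key] at hdiv
    have := hdiv.trans (part2 (MulAction.stabilizer (V ≃ₗ[ZMod p] V) v) N H hn)
    rcases (Nat.Prime.dvd_mul hp).mp this with h | h
    · exact hN h
    · apply hH v
      rw [key]
      exact h

end Cfsg.Agent.S3514
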