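import Cfsg.Statements.S3515
import Cfsg.Agent.Lib.Helper58.AffTriples

set_option autoImplicit false
open Cfsg

namespace Cfsg.Agent.S3515

open Cfsg.Agent.Lib.Helper58

theorem perm_four (τ : Equiv.Perm (Fin 2 → ZMod 2)) (h0 : τ 0 = 0)
    (h1 : τ (Pi.single 0 1) = Pi.single 0 1) (h2 : τ (Pi.single 1 1) = Pi.single 1 1) :
    ∀ x, τ x = x := by
  have hall : ∀ x : Fin 2 → ZMod 2, x = 0 ∨ x = Pi.single 0 1 ∨ x = Pi.single 1 1 ∨ x = 1 := by
    decide
  intro x
  rcases hall x with rfl | rfl | rfl | rfl
  · exact h0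
  · exact h1
  · exact h2
  · rcases hall (τ 1) with h | h | h | h
    · rw [← h0] at h
      exact absurd (τ.injective h) (by decide)
    · rw [← h1] at h
      exact absurd (τ.injective h) (by decide)
    · rw [← h2] at h
      exact absurd (τ.injective h) (by decide)
    · exact h

/-- Every primitive affine permutation group of degree p² is 3-closed. Let p be a prime and G a group of permutations of the plane V = F_p² consisting of affine maps x ↦ Ax + b, containing all translations, and acting primitively on V. Then any permutation σ of V that agrees on every triple of points with some element of G (σ preserves every G-orbit on ordered triples) already lies in G. -/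
theorem result (p : ℕ) [Fact p.Prime] (G : Subgroup (Equiv.Perm (Fin 2 → ZMod p)))
    (haff : (G : Set (Equiv.Perm (Fin 2 → ZMod p))) ⊆ {τ : Equiv.Perm (Fin 2 → ZMod p) | ∃ (A : (Fin 2 → ZMod p) ≃ₗ[ZMod p] (Fin 2 → ZMod p)) (b : Fin 2 → ZMod p), ∀ x, τ x = A x + b})
    (htrans : ∀ b : Fin 2 → ZMod p, ∃ g ∈ G, ∀ x, g x = x + b) (hprim : MulAction.IsPreprimitive G (Fin 2 → ZMod p))
    (σ : Equiv.Perm (Fin 2 → ZMod p)) (hσ : (∀ t : Fin 3 → (Fin 2 → ZMod p), ∃ g ∈ G, ∀ i, σ (t i) = g (t i))) : σ ∈ G := by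
  obtain ⟨g, hgG, hg⟩ := hσ ![0, Pi.single 0 1, Pi.single 1 1]
  have h0 := hg 0
  have h1 := hg 1
  have h2 := hg 2
  simp only [Matrix.cons_val_zero, Matrix.cons_val_one, Matrix.cons_val] at h0 h1 h2
  suffices h : σ = g by rw [h]; exact hgG
  by_cases hp : p = 2
  · subst hp
    have := perm_four (g⁻¹ * σ) (by simp [h0]) (by simp [h1]) (by simp [h2])
    ext1 x
    have hx := this x
    rw [Equiv.Perm.mul_apply, Equiv.Perm.inv_eq_iff_eq] at hx
    exact hx
  · obtain ⟨A, b, hA⟩ := affine_of_triples p hp σ (fun t => by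
      obtain ⟨g', hg'G, hg'⟩ := hσ t
      obtain ⟨A, b, hA⟩ := haff hg'G
      exact ⟨A, b, fun i => by rw [hg', hA]⟩)
    obtain ⟨A', b', hA'⟩ := haff hgG
    rw [hA, hA'] at h0 h1 h2
    simp only [map_zero, zero_add] at h0
    subst h0
    have h1' := add_right_cancel h1
    have h2' := add_right_cancel h2
    have hAA : (A : (Fin 2 → ZMod p) →ₗ[ZMod p] (Fin 2 → ZMod p)) = A' := by
      apply LinearMap.pi_ext'
      intro i
      ext1
      fin_cases i
      · simpa using h1'
      · simpa using h2'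
    ext1 x
    rw [hA, hA']
    congr 1
    exact LinearMap.congr_fun hAA x

end Cfsg.Agent.S3515
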