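import Cfsg.Statements.S3516
import Cfsg.Agent.Lib.Helper58.AffTriples

set_option autoImplicit false
open Cfsg

namespace Cfsg.Agent.S3516

open Cfsg.Agent.Lib.Helper58

/-- In dimension `≥ 3`, any invertible `A` agrees on two given vectors with a map of determinant 1. -/
theorem exists_det_one {K : Type*} [Field K] (d : ℕ) (hd : 3 ≤ d)
    (A : (Fin d → K) ≃ₗ[K] (Fin d → K)) (u₁ u₂ : Fin d → K) :
    ∃ E : (Fin d → K) ≃ₗ[K] (Fin d → K),
      LinearMap.det (E : (Fin d → K) →ₗ[K] (Fin d → K)) = 1 ∧ E u₁ = A u₁ ∧ E u₂ = A u₂ := by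
  classical
  set W : Submodule K (Fin d → K) := Submodule.span K {u₁, u₂} with hW
  have hWlt : W < ⊤ := by
    rw [lt_top_iff_ne_top]
    intro htop
    have h1 : Module.finrank K W ≤ 2 := by
      have := finrank_span_finset_le_card (R := K) ({u₁, u₂} : Finset (Fin d → K))
      have h2 : ({u₁, u₂} : Finset (Fin d → K)).card ≤ 2 := Finset.card_le_two
      have h3 : ((({u₁, u₂} : Finset (Fin d → K)) : Set (Fin d → K))) = {u₁, u₂} := by simp
      rw [h3] at this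
      exact this.trans h2
    rw [htop, finrank_top, Module.finrank_fin_fun] at h1
    omega
  obtain ⟨f, hf0, hfW⟩ := Submodule.exists_le_ker_of_lt_top W hWlt
  obtain ⟨v₀, hv₀⟩ : ∃ v, f v ≠ 0 := by
    by_contra hcon
    push Not at hcon
    exact hf0 (LinearMap.ext hcon)
  set v : Fin d → K := (f v₀)⁻¹ • v₀ with hv
  have hfv : f v = 1 := by rw [hv, map_smul, smul_eq_mul, inv_mul_cancel₀ hv₀]
  have hdetA : LinearMap.det (A : (Fin d → K) →ₗ[K] (Fin d → K)) ≠ 0 := (A.isUnit_det').ne_zero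
  set c : K := (LinearMap.det (A : (Fin d → K) →ₗ[K] (Fin d → K)))⁻¹ with hc
  set M : (Fin d → K) →ₗ[K] (Fin d → K) :=
    (A : (Fin d → K) →ₗ[K] (Fin d → K)) ∘ₗ LinearMap.transvection ((c - 1) • f) v with hM
  have hdetM : LinearMap.det M = 1 := by
    rw [hM, LinearMap.det_comp, LinearMap.transvection.det, LinearMap.smul_apply, hfv, smul_eq_mul,
      mul_one, add_sub_cancel, hc, mul_inv_cancel₀ hdetA]
  have hu : ∀ u ∈ W, M u = A u := by
    intro u hu
    have : f u = 0 := hfW hu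
    simp [hM, LinearMap.transvection.apply, this]
  refine ⟨LinearMap.equivOfIsUnitDet (f := M) (by rw [hdetM]; exact isUnit_one), ?_, ?_, ?_⟩
  · rw [LinearMap.coe_equivOfIsUnitDet, hdetM]
  · rw [LinearMap.equivOfIsUnitDet_apply]
    exact hu _ (Submodule.subset_span (by simp))
  · rw [LinearMap.equivOfIsUnitDet_apply]
    exact hu _ (Submodule.subset_span (by simp))

/-- Let p be an odd prime, d ≥ 3, and G a group of affine permutations x ↦ Ax + b of V = F_p^d containing all translations and all maps x ↦ Ax with A of determinant 1. Then the 3-closure of G is the full affine group: a permutation σ of V agrees on every triple of points with some element of G if and only if σ is an affine map. -/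
theorem result (p : ℕ) [Fact p.Prime] (hp : p ≠ 2) (d : ℕ) (hd : 3 ≤ d) (G : Subgroup (Equiv.Perm (Fin d → ZMod p)))
    (haff : (G : Set (Equiv.Perm (Fin d → ZMod p))) ⊆ {τ : Equiv.Perm (Fin d → ZMod p) | ∃ (A : (Fin d → ZMod p) ≃ₗ[ZMod p] (Fin d → ZMod p)) (b : Fin d → ZMod p), ∀ x, τ x = A x + b})
    (htrans : ∀ b : Fin d → ZMod p, ∃ g ∈ G, ∀ x, g x = x + b)
    (hsl : ∀ A : (Fin d → ZMod p) ≃ₗ[ZMod p] (Fin d → ZMod p), LinearMap.det (A : (Fin d → ZMod p) →ₗ[ZMod p] (Fin d → ZMod p)) = 1 → ∃ g ∈ G, ∀ x, g x = A x)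
    (σ : Equiv.Perm (Fin d → ZMod p)) :
    (∀ t : Fin 3 → (Fin d → ZMod p), ∃ g ∈ G, ∀ i, σ (t i) = g (t i)) ↔ σ ∈ {τ : Equiv.Perm (Fin d → ZMod p) | ∃ (A : (Fin d → ZMod p) ≃ₗ[ZMod p] (Fin d → ZMod p)) (b : Fin d → ZMod p), ∀ x, τ x = A x + b} := by
  constructor
  · intro hσ
    exact affine_of_triples p hp σ (fun t => by
      obtain ⟨g', hg'G, hg'⟩ := hσ t
      obtain ⟨A, b, hA⟩ := haff hg'G
      exact ⟨A, b, fun i => by rw [hg', hA]⟩)
  · rintro ⟨A, b, hA⟩ t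
    obtain ⟨E, hE, hE1, hE2⟩ := exists_det_one d hd A (t 1 - t 0) (t 2 - t 0)
    obtain ⟨g₁, hg₁G, hg₁⟩ := hsl E hE
    obtain ⟨τ₁, hτ₁G, hτ₁⟩ := htrans (- t 0)
    obtain ⟨τ₂, hτ₂G, hτ₂⟩ := htrans (σ (t 0))
    refine ⟨τ₂ * g₁ * τ₁, G.mul_mem (G.mul_mem hτ₂G hg₁G) hτ₁G, fun i => ?_⟩
    rw [Equiv.Perm.mul_apply, Equiv.Perm.mul_apply, hτ₁, hg₁, hτ₂, ← sub_eq_add_neg, hA, hA]
    have key : E (t i - t 0) = A (t i - t 0) := by
      fin_cases i
      · simp
      · exact hE1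
      · exact hE2
    rw [key, map_sub]; abel

end Cfsg.Agent.S3516
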