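import Cfsg.Statements.S3517
set_option autoImplicit false
open Cfsg

namespace Cfsg.Agent.S3517

theorem exists_linearEquiv_of_linearIndependent {K V ι : Type*} [Field K] [AddCommGroup V] [Module K V]
    [Finite ι] {u w : ι → V} (hu : LinearIndependent K u) (hw : LinearIndependent K w) :
    ∃ A : V ≃ₗ[K] V, ∀ i, A (u i) = w i := by
  classical
  let f := hu.linearCombinationEquiv.symm ≪≫ₗ hw.linearCombinationEquiv
  have : FiniteDimensional K (Submodule.span K (Set.range u)) :=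
    FiniteDimensional.span_of_finite K (Set.finite_range _)
  obtain ⟨g, hg⟩ := Submodule.exists_linearEquiv_restrict_eq f
  refine ⟨g, fun i => ?_⟩
  have q : (hu.linearCombinationEquiv (Finsupp.single i 1) : V) = u i := by simp
  have q' : (hw.linearCombinationEquiv (Finsupp.single i 1) : V) = w i := by simp
  rw [← q, ← hg, ← q']
  simp [f]

theorem exists_one {K V : Type*} [Field K] [AddCommGroup V] [Module K V] {u w : V}
    (hu : u ≠ 0) (hw : w ≠ 0) : ∃ A : V ≃ₗ[K] V, A u = w := by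
  obtain ⟨A, hA⟩ := exists_linearEquiv_of_linearIndependent (K := K) (ι := Unit)
    (u := fun _ => u) (w := fun _ => w) (LinearIndependent.of_subsingleton () hu)
    (LinearIndependent.of_subsingleton () hw)
  exact ⟨A, hA ()⟩

theorem indep_two {V : Type*} [AddCommGroup V] [Module (ZMod 2) V] {u v : V}
    (hu : u ≠ 0) (hv : v ≠ 0) (huv : u ≠ v) : LinearIndependent (ZMod 2) ![u, v] := by
  rw [LinearIndependent.pair_iff]
  intro s t h
  have h2 : ∀ x : V, x + x = 0 := fun x => by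
    have : (2 : ZMod 2) • x = 0 := by
      have : (2 : ZMod 2) = 0 := by decide
      rw [this, zero_smul]
    rwa [two_smul] at this
  have h01 : ∀ x : ZMod 2, x = 0 ∨ x = 1 := by decide
  have hs := h01 s
  have ht := h01 t
  rcases hs with rfl | rfl <;> rcases ht with rfl | rfl
  · exact ⟨rfl, rfl⟩
  · simp only [zero_smul, one_smul, zero_add] at h
    exact absurd h hv
  · simp only [zero_smul, one_smul, add_zero] at h
    exact absurd h hu
  · simp only [one_smul] at h
    exact absurd (add_right_cancel (h.trans (h2 v).symm)) huv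

theorem exists_two {V : Type*} [AddCommGroup V] [Module (ZMod 2) V] {u₁ u₂ w₁ w₂ : V}
    (h1 : u₁ = 0 ↔ w₁ = 0) (h2 : u₂ = 0 ↔ w₂ = 0) (h12 : u₁ = u₂ ↔ w₁ = w₂) :
    ∃ A : V ≃ₗ[ZMod 2] V, A u₁ = w₁ ∧ A u₂ = w₂ := by
  by_cases hu1 : u₁ = 0
  · have hw1 := h1.1 hu1
    by_cases hu2 : u₂ = 0
    · have hw2 := h2.1 hu2
      exact ⟨LinearEquiv.refl _ _, by simp [hu1, hw1], by simp [hu2, hw2]⟩
    · obtain ⟨A, hA⟩ := exists_one (K := ZMod 2) hu2 (fun h => hu2 (h2.2 h))
      exact ⟨A, by simp [hu1, hw1], hA⟩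
  · by_cases hu2 : u₂ = 0
    · have hw2 := h2.1 hu2
      obtain ⟨A, hA⟩ := exists_one (K := ZMod 2) hu1 (fun h => hu1 (h1.2 h))
      exact ⟨A, hA, by simp [hu2, hw2]⟩
    · by_cases hu : u₁ = u₂
      · obtain ⟨A, hA⟩ := exists_one (K := ZMod 2) hu1 (fun h => hu1 (h1.2 h))
        exact ⟨A, hA, by rw [← hu, hA, h12.1 hu]⟩
      · obtain ⟨A, hA⟩ := exists_linearEquiv_of_linearIndependent (indep_two hu1 hu2 hu)
          (indep_two (fun h => hu1 (h1.2 h)) (fun h => hu2 (h2.2 h)) (fun h => hu (h12.2 h)))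
        exact ⟨A, hA 0, hA 1⟩

/-- For d ≥ 3, the 3-closure of the affine group AGL_d(2) acting on F_2^d is the full symmetric group: every permutation of F_2^d agrees on every ordered triple of points with some affine map (AGL_d(2) is 3-transitive). -/
theorem result (d : ℕ) (hd : 3 ≤ d) (σ : Equiv.Perm (Fin d → ZMod 2)) (t : Fin 3 → (Fin d → ZMod 2)) :
    ∃ (A : (Fin d → ZMod 2) ≃ₗ[ZMod 2] (Fin d → ZMod 2)) (b : Fin d → ZMod 2), ∀ i, σ (t i) = A (t i) + b := by
  obtain ⟨A, hA1, hA2⟩ := exists_two (u₁ := t 1 - t 0) (u₂ := t 2 - t 0)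
    (w₁ := σ (t 1) - σ (t 0)) (w₂ := σ (t 2) - σ (t 0))
    (by rw [sub_eq_zero, sub_eq_zero, σ.injective.eq_iff])
    (by rw [sub_eq_zero, sub_eq_zero, σ.injective.eq_iff])
    (by rw [sub_left_inj, sub_left_inj, σ.injective.eq_iff])
  refine ⟨A, σ (t 0) - A (t 0), fun i => ?_⟩
  rw [map_sub] at hA1 hA2
  fin_cases i
  · simp
  · change σ (t 1) = A (t 1) + (σ (t 0) - A (t 0))
    rw [add_sub, add_sub_right_comm, hA1]; abel
  · change σ (t 2) = A (t 2) + (σ (t 0) - A (t 0))
    rw [add_sub, add_sub_right_comm, hA2]; abel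

end Cfsg.Agent.S3517
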