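import Cfsg.Statements.S3524

set_option autoImplicit false
open Cfsg

namespace Cfsg.Agent.S3524

/-- A permutation group with a base is closed at one level above the base size. -/
theorem result {Ω : Type*} (G : Subgroup (Equiv.Perm Ω)) (k : ℕ) (α : Fin k → Ω)
    (hbase : ∀ g ∈ G, (∀ i, g (α i) = α i) → g = 1) (σ : Equiv.Perm Ω)
    (hσ : ∀ t : Fin (k + 1) → Ω, ∃ g ∈ G, ∀ i, σ (t i) = g (t i)) : σ ∈ G := by
  -- pick g₀ agreeing with σ on the base (and anything)
  by_cases hΩ : Nonempty Ω
  · obtain ⟨x₀⟩ := hΩ
    obtain ⟨g₀, hg₀, h₀⟩ := hσ (Fin.snoc α x₀)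
    have hb₀ : ∀ i : Fin k, σ (α i) = g₀ (α i) := by
      intro i
      have := h₀ (Fin.castSucc i)
      simpa using this
    have : σ = g₀ := by
      ext x
      obtain ⟨g, hg, h⟩ := hσ (Fin.snoc α x)
      have hb : ∀ i : Fin k, σ (α i) = g (α i) := by
        intro i
        have := h (Fin.castSucc i)
        simpa using this
      have hx : σ x = g x := by
        have := h (Fin.last k)
        simpa using this
      have hgg : g₀⁻¹ * g = 1 := by
        apply hbase _ (G.mul_mem (G.inv_mem hg₀) hg)
        intro i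
        rw [Equiv.Perm.mul_apply, ← hb i, hb₀ i]
        simp
      have : g = g₀ := by
        have := congrArg (fun z => g₀ * z) hgg
        simpa using this
      rw [hx, this]
    rw [this]; exact hg₀
  · have : σ = 1 := by
      ext x
      exact absurd ⟨x⟩ hΩ
    rw [this]; exact G.one_mem

end Cfsg.Agent.S3524
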