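import Cfsg.Statements.S3518
import Cfsg.Agent.Lib.Helper59.Carlitz
import Cfsg.Agent.S3524

set_option autoImplicit false
open Cfsg

namespace Cfsg.Agent.S3518

variable {p : ℕ} [Fact p.Prime]

/-- the affine permutation `x ↦ a x + b` -/
noncomputable def aff (a : (ZMod p)ˣ) (b : ZMod p) : Equiv.Perm (ZMod p) :=
  Equiv.addRight b * MulAction.toPermHom (ZMod p)ˣ (ZMod p) a

theorem aff_apply (a : (ZMod p)ˣ) (b x : ZMod p) : aff a b x = (a : ZMod p) * x + b := by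
  simp [aff, Units.smul_def]

theorem aff_mem (a : (ZMod p)ˣ) (b : ZMod p) : aff a b ∈ Cfsg.affineGroup (ZMod p) :=
  ⟨a, b, aff_apply a b⟩

theorem part2 (σ : Equiv.Perm (ZMod p)) (t : Fin 2 → ZMod p) :
    ∃ g ∈ Cfsg.affineGroup (ZMod p), ∀ i, σ (t i) = g (t i) := by
  by_cases h : t 0 = t 1
  · refine ⟨aff 1 (σ (t 0) - t 0), aff_mem _ _, ?_⟩
    intro i
    fin_cases i
    · simp [aff_apply]
    · simp [aff_apply, ← h]
  · have h1 : t 0 - t 1 ≠ 0 := sub_ne_zero.mpr h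
    have h2 : σ (t 0) - σ (t 1) ≠ 0 := sub_ne_zero.mpr (fun h' => h (σ.injective h'))
    have h3 : (σ (t 0) - σ (t 1)) / (t 0 - t 1) ≠ 0 := div_ne_zero h2 h1
    refine ⟨aff (Units.mk0 _ h3) (σ (t 0) - (σ (t 0) - σ (t 1)) / (t 0 - t 1) * t 0), aff_mem _ _, ?_⟩
    intro i
    fin_cases i
    · simp [aff_apply]
    · show σ (t 1) = aff _ _ (t 1)
      simp only [aff_apply, Units.val_mk0]
      field_simp
      ring

theorem part3 (σ : Equiv.Perm (ZMod p))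
    (h : ∀ t : Fin 3 → ZMod p, ∃ g ∈ Cfsg.affineGroup (ZMod p), ∀ i, σ (t i) = g (t i)) :
    σ ∈ Cfsg.affineGroup (ZMod p) := by
  apply Cfsg.Agent.S3524.result (Cfsg.affineGroup (ZMod p)) 2 ![0, 1] _ σ h
  rintro g ⟨a, b, hg⟩ hfix
  have h0 := hfix 0
  have h1 := hfix 1
  simp only [Matrix.cons_val_zero, Matrix.cons_val_one, hg] at h0 h1
  rw [mul_zero, zero_add] at h0
  rw [h0, add_zero, mul_one] at h1
  ext x
  rw [hg, h0, h1]
  simp

theorem part1 (G : Subgroup (Equiv.Perm (ZMod p))) (hG : G ≤ Cfsg.affineGroup (ZMod p))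
    (htrans : ∀ b : ZMod p, ∃ g ∈ G, ∀ x, g x = x + b) (hne : G ≠ Cfsg.affineGroup (ZMod p))
    (σ : Equiv.Perm (ZMod p)) (hσ : ∀ t : Fin 2 → ZMod p, ∃ g ∈ G, ∀ i, σ (t i) = g (t i)) :
    σ ∈ G := by
  classical
  have hp : p.Prime := Fact.out
  have htr : ∀ b : ZMod p, aff 1 b ∈ G := by
    intro b
    obtain ⟨g, hg, hgx⟩ := htrans b
    have : aff 1 b = g := by
      ext x
      rw [aff_apply, hgx]; simp
    rw [this]; exact hg
  set A : Subgroup (ZMod p)ˣ := G.comap (MulAction.toPermHom (ZMod p)ˣ (ZMod p)) with hA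
  have hAmem : ∀ a : (ZMod p)ˣ, a ∈ A ↔ aff a 0 ∈ G := by
    intro a
    rw [hA, Subgroup.mem_comap]
    have : aff a 0 = MulAction.toPermHom (ZMod p)ˣ (ZMod p) a := by
      ext x
      rw [aff_apply]; simp [Units.smul_def]
    rw [this]
  have haff_mul : ∀ (a : (ZMod p)ˣ) (b : ZMod p), aff a b = aff 1 b * aff a 0 := by
    intro a b
    ext x
    simp [aff_apply]
  have hGA : ∀ g ∈ G, ∃ a ∈ A, ∃ b, g = aff a b := by
    intro g hg
    obtain ⟨a, b, hab⟩ := hG hg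
    have hgab : g = aff a b := by
      ext x; rw [hab, aff_apply]
    refine ⟨a, ?_, b, hgab⟩
    rw [hAmem]
    have : aff a 0 = (aff 1 b)⁻¹ * g := by
      rw [hgab, haff_mul a b]; group
    rw [this]
    exact G.mul_mem (G.inv_mem (htr b)) hg
  have hAG : ∀ a ∈ A, ∀ b, aff a b ∈ G := by
    intro a ha b
    rw [haff_mul]
    exact G.mul_mem (htr b) ((hAmem a).mp ha)
  have hAtop : A ≠ ⊤ := by
    intro htop
    apply hne
    apply le_antisymm hG
    rintro g ⟨a, b, hab⟩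
    have hgab : g = aff a b := by
      ext x; rw [hab, aff_apply]
    rw [hgab]
    exact hAG a (htop ▸ Subgroup.mem_top a) b
  set m := Nat.card A with hm
  have hcardU : Nat.card (ZMod p)ˣ = p - 1 := by
    rw [Nat.card_eq_fintype_card, ZMod.card_units_eq_totient, Nat.totient_prime hp]
  have hmdvd : m ∣ p - 1 := by
    rw [← hcardU]; exact Subgroup.card_subgroup_dvd_card A
  have hmpos : 1 ≤ m := Nat.one_le_iff_ne_zero.mpr (Nat.card_pos.ne')
  have hmne : m ≠ p - 1 := by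
    intro h
    apply hAtop
    apply Subgroup.eq_top_of_card_eq
    rw [← hm, h, hcardU]
  have h2m : 2 * m ≤ p - 1 := by
    obtain ⟨k, hk⟩ := hmdvd
    have hp2 := hp.two_le
    rcases k with _ | _ | k
    · omega
    · omega
    · rw [hk]; nlinarith
  have hpow : ∀ a ∈ A, (a : ZMod p) ^ m = 1 := by
    intro a ha
    have h1 : (⟨a, ha⟩ : A) ^ m = 1 := pow_card_eq_one'
    have h2 := congrArg (fun z : A => ((z : (ZMod p)ˣ) : ZMod p)) h1
    simpa using h2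
  have hpair : ∀ x y : ZMod p, ∃ a ∈ A, σ x - σ y = (a : ZMod p) * (x - y) := by
    intro x y
    obtain ⟨g, hg, hgt⟩ := hσ ![x, y]
    obtain ⟨a, ha, b, rfl⟩ := hGA g hg
    refine ⟨a, ha, ?_⟩
    have h0 := hgt 0
    have h1 := hgt 1
    simp only [Matrix.cons_val_zero, Matrix.cons_val_one, aff_apply] at h0 h1
    rw [h0, h1]; ring
  obtain ⟨c, d, hcd⟩ := Cfsg.Agent.Lib.Helper59.carlitz_prime m hmpos h2m σ σ.surjective (by
    intro x y
    obtain ⟨a, ha, hxy⟩ := hpair x y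
    rw [hxy, mul_pow, hpow a ha, one_mul])
  obtain ⟨a, ha, h10⟩ := hpair 1 0
  rw [hcd 1, hcd 0] at h10
  have hca : c = a := by
    have : c * 1 + d - (c * 0 + d) = c := by ring
    rw [this] at h10
    rw [h10]; ring
  have : σ = aff a d := by
    ext x
    rw [hcd, aff_apply, hca]
  rw [this]
  exact hAG a ha d

theorem result (p : ℕ) [Fact p.Prime] (G : Subgroup (Equiv.Perm (ZMod p))) (hG : G ≤ Cfsg.affineGroup (ZMod p))
    (htrans : ∀ b : ZMod p, ∃ g ∈ G, ∀ x, g x = x + b) :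
    (G ≠ Cfsg.affineGroup (ZMod p) → ∀ σ : Equiv.Perm (ZMod p), (∀ t : Fin 2 → ZMod p, ∃ g ∈ G, ∀ i, σ (t i) = g (t i)) → σ ∈ G) ∧
    (∀ σ : Equiv.Perm (ZMod p), (∀ t : Fin 2 → ZMod p, ∃ g ∈ Cfsg.affineGroup (ZMod p), ∀ i, σ (t i) = g (t i))) ∧
    (∀ σ : Equiv.Perm (ZMod p), (∀ t : Fin 3 → ZMod p, ∃ g ∈ Cfsg.affineGroup (ZMod p), ∀ i, σ (t i) = g (t i)) → σ ∈ Cfsg.affineGroup (ZMod p)) := by
  exact ⟨fun hne σ hσ => part1 G hG htrans hne σ hσ, part2, part3⟩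

end Cfsg.Agent.S3518
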