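import Cfsg.Statements.S3547
import Cfsg.Agent.Lib.Helper59.Derangement

set_option autoImplicit false
open Cfsg

namespace Cfsg.Agent.S3547

theorem result {G Ω : Type*} [Group G] [Finite G] [MulAction G Ω] [FaithfulSMul G Ω] [Finite Ω]
    (htrans : MulAction.IsPretransitive G Ω) :
    Nat.card (MulAction.orbitRel.Quotient ↥(Subgroup.closure {g : G | ∀ ω : Ω, g • ω ≠ ω}) (Ω × Ω)) - 1 =
      (Nat.card (MulAction.orbitRel.Quotient G (Ω × Ω)) - 1) * (Subgroup.closure {g : G | ∀ ω : Ω, g • ω ≠ ω}).index := by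
  rcases isEmpty_or_nonempty Ω with hΩ | hΩ
  · have h1 : IsEmpty (MulAction.orbitRel.Quotient ↥(Subgroup.closure {g : G | ∀ ω : Ω, g • ω ≠ ω}) (Ω × Ω)) := by
      constructor
      intro x
      induction x using Quotient.inductionOn' with
      | h a => exact hΩ.false a.1
    have h2 : IsEmpty (MulAction.orbitRel.Quotient G (Ω × Ω)) := by
      constructor
      intro x
      induction x using Quotient.inductionOn' with
      | h a => exact hΩ.false a.1
    rw [Nat.card_of_isEmpty, Nat.card_of_isEmpty]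
    simp
  · set D := Subgroup.closure {g : G | ∀ ω : Ω, g • ω ≠ ω} with hD
    have key := Cfsg.Agent.Lib.Helper59.derangement_rank htrans D
      (fun g hg => Subgroup.subset_closure hg)
    have hidx : D.index * Nat.card D = Nat.card G := by
      rw [mul_comm]; exact D.card_mul_index
    set rG := Nat.card (MulAction.orbitRel.Quotient G (Ω × Ω)) with hrG
    set rD := Nat.card (MulAction.orbitRel.Quotient D (Ω × Ω)) with hrD
    have hrGpos : 1 ≤ rG := by
      have : Nonempty (MulAction.orbitRel.Quotient G (Ω × Ω)) :=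
        ⟨Quotient.mk'' (Classical.arbitrary Ω, Classical.arbitrary Ω)⟩
      exact Nat.one_le_iff_ne_zero.mpr (Nat.card_pos.ne')
    have hrDpos : 1 ≤ rD := by
      have : Nonempty (MulAction.orbitRel.Quotient D (Ω × Ω)) :=
        ⟨Quotient.mk'' (Classical.arbitrary Ω, Classical.arbitrary Ω)⟩
      exact Nat.one_le_iff_ne_zero.mpr (Nat.card_pos.ne')
    have hDpos : 0 < Nat.card D := Nat.card_pos
    obtain ⟨a, ha⟩ : ∃ a, rG = a + 1 := ⟨rG - 1, by omega⟩
    obtain ⟨b, hb⟩ : ∃ b, rD = b + 1 := ⟨rD - 1, by omega⟩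
    rw [ha, hb] at key ⊢
    simp only [Nat.add_sub_cancel]
    rw [← hidx] at key
    have : b * Nat.card D = (a * D.index) * Nat.card D := by nlinarith
    exact Nat.eq_of_mul_eq_mul_right hDpos this

end Cfsg.Agent.S3547
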