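import Cfsg.Statements.S3548
import Cfsg.Agent.Lib.Helper59.Derangement2

set_option autoImplicit false
open Cfsg

namespace Cfsg.Agent.S3548

open MulAction

theorem derangement_closure_normal (G Ω : Type*) [Group G] [MulAction G Ω] :
    (Subgroup.closure {g : G | ∀ ω : Ω, g • ω ≠ ω}).Normal := by
  have : Subgroup.closure {g : G | ∀ ω : Ω, g • ω ≠ ω} =
      Subgroup.normalClosure {g : G | ∀ ω : Ω, g • ω ≠ ω} := by
    apply le_antisymm Subgroup.closure_le_normalClosure
    unfold Subgroup.normalClosure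
    apply Subgroup.closure_mono
    intro x hx
    rw [Group.mem_conjugatesOfSet_iff] at hx
    obtain ⟨a, ha, hc⟩ := hx
    rw [isConj_iff] at hc
    obtain ⟨c, rfl⟩ := hc
    intro ω hω
    apply ha (c⁻¹ • ω)
    have : c⁻¹ • ((c * a * c⁻¹) • ω) = c⁻¹ • ω := by rw [hω]
    simpa only [mul_smul, inv_smul_smul] using this
  rw [this]
  exact Subgroup.normalClosure_normal

theorem result {G Ω : Type*} [Group G] [Finite G] [MulAction G Ω] [FaithfulSMul G Ω] [Finite Ω]
    (htrans : MulAction.IsPretransitive G Ω) (hΩ : 2 ≤ Nat.card Ω) :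
    (Subgroup.closure {g : G | ∀ ω : Ω, g • ω ≠ ω}).index ∣ Nat.card Ω - 1 ∧
    ((Subgroup.closure {g : G | ∀ ω : Ω, g • ω ≠ ω}).index = Nat.card Ω - 1 → IsPrimePow (Nat.card Ω)) := by
  classical
  have hDn := derangement_closure_normal G Ω
  set D := Subgroup.closure {g : G | ∀ ω : Ω, g • ω ≠ ω} with hDdef
  have hD : ∀ g : G, (∀ ω : Ω, g • ω ≠ ω) → g ∈ D := fun g hg => Subgroup.subset_closure hg
  have hne : Nonempty Ω := by
    rcases isEmpty_or_nonempty Ω with h | h
    · rw [Nat.card_of_isEmpty] at hΩ; omega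
    · exact h
  obtain ⟨α⟩ := hne
  have hne : Nonempty Ω := ⟨α⟩
  have hDtrans : IsPretransitive D Ω := (Cfsg.Agent.Lib.Helper59.derangement_key htrans D hD).1
  have d2 := Cfsg.Agent.Lib.Helper59.derangement_index_dvd htrans D hD α
    (SubMulAction.ofStabilizer G α) (by
      intro h
      exact h rfl)
  rw [SubMulAction.nat_card_ofStabilizer_eq] at d2
  refine ⟨d2, fun hidx => ?_⟩
  set H := stabilizer G α with hH
  set K := D.subgroupOf H with hK
  have hKidx : K.index = Nat.card Ω - 1 := by
    rw [← hidx]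
    exact Cfsg.Agent.Lib.Helper59.relIndex_stabilizer_of_transitive htrans D hDtrans α
  -- for β ≠ α
  have hβ : ∀ β : Ω, β ≠ α → K ≤ stabilizer H β ∧ orbit H β = {α}ᶜ := by
    intro β hβα
    have hSK : stabilizer H β ≤ K := by
      intro h hh
      rw [hK, Subgroup.mem_subgroupOf]
      exact Cfsg.Agent.Lib.Helper59.mem_of_fixes_two htrans D hD hβα.symm h.2 hh
    have hsub : orbit H β ⊆ {α}ᶜ := by
      rintro _ ⟨h, rfl⟩ hcon
      apply hβα
      have h1 : (h : G) • β = α := hcon
      have h2 : (h : G) • α = α := h.2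
      exact smul_left_cancel _ (h1.trans h2.symm)
    have hle : (orbit H β).ncard ≤ Nat.card Ω - 1 := by
      have := Set.ncard_le_ncard hsub (Set.toFinite _)
      rwa [Set.ncard_compl, Set.ncard_singleton] at this
    have hidxS : (stabilizer H β).index = (orbit H β).ncard := index_stabilizer H β
    have hmul := Subgroup.relIndex_mul_index hSK
    have hpos : 0 < (stabilizer H β).relIndex K := by
      have : (stabilizer H β).relIndex K ≠ 0 := by
        unfold Subgroup.relIndex
        exact Subgroup.index_ne_zero_of_finite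
      omega
    have hrel : (stabilizer H β).relIndex K = 1 := by
      by_contra hne1
      have h2 : 2 ≤ (stabilizer H β).relIndex K := by omega
      have : 2 * K.index ≤ (stabilizer H β).relIndex K * K.index := Nat.mul_le_mul_right _ h2
      omega
    refine ⟨Subgroup.relIndex_eq_one.mp hrel, ?_⟩
    apply Set.eq_of_subset_of_ncard_le hsub _ (Set.toFinite _)
    rw [Set.ncard_compl, Set.ncard_singleton, ← hidxS, ← hmul, hrel, one_mul, hKidx]
  -- D ∩ H trivial
  have hreg : ∀ d ∈ D, d • α = α → d = 1 := by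
    intro d hd hdα
    apply FaithfulSMul.eq_of_smul_eq_smul (α := Ω)
    intro β
    rw [one_smul]
    by_cases hβα : β = α
    · rw [hβα]; exact hdα
    · have : (⟨d, hdα⟩ : H) ∈ K := by
        rw [hK, Subgroup.mem_subgroupOf]; exact hd
      exact (hβ β hβα).1 this
  -- all nonidentity elements of D conjugate
  have hconj : ∀ d ∈ D, ∀ d' ∈ D, d ≠ 1 → d' ≠ 1 → orderOf d = orderOf d' := by
    intro d hd d' hd' hd1 hd1'
    have h1 : d • α ≠ α := fun h => hd1 (hreg d hd h)
    have h2 : d' • α ≠ α := fun h => hd1' (hreg d' hd' h)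
    have h3 : d' • α ∈ orbit H (d • α) := by
      rw [(hβ _ h1).2]; exact h2
    obtain ⟨h, hh⟩ := h3
    have hh' : (h : G) • d • α = d' • α := hh
    have hinv : (h : G)⁻¹ • α = α := by
      have : (h : G) • α = α := h.2
      rw [inv_smul_eq_iff, this]
    have h4 : d'⁻¹ * ((h : G) * d * (h : G)⁻¹) = 1 := by
      apply hreg _ (D.mul_mem (D.inv_mem hd') (hDn.conj_mem d hd h))
      rw [mul_smul, mul_smul, mul_smul, hinv, hh', inv_smul_smul]
    have h5 : d' = (h : G) * d * (h : G)⁻¹ := by
      have := congrArg (fun z => d' * z) h4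
      simpa using this.symm
    have hsc : SemiconjBy (h : G) d d' := by
      unfold SemiconjBy
      rw [h5]; group
    exact hsc.orderOf_eq
  have hcardD : Nat.card D = Nat.card Ω := by
    have h1 : (stabilizer D α).index = Nat.card Ω := index_stabilizer_of_transitive D α
    have h2 : stabilizer D α = ⊥ := by
      rw [Subgroup.eq_bot_iff_forall]
      intro x hx
      have := hreg x x.2 hx
      exact Subtype.ext this
    rw [h2, Subgroup.index_bot] at h1
    exact h1
  obtain ⟨p, hp, hpn⟩ := Nat.exists_prime_and_dvd (show Nat.card Ω ≠ 1 by omega)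
  have : Fact p.Prime := ⟨hp⟩
  obtain ⟨d₀, hd₀⟩ := exists_prime_orderOf_dvd_card' (G := D) p (hcardD ▸ hpn)
  have hd₀' : orderOf (d₀ : G) = p := by rw [Subgroup.orderOf_coe]; exact hd₀
  have hd₀1 : (d₀ : G) ≠ 1 := by
    intro h
    rw [h, orderOf_one] at hd₀'
    exact hp.one_lt.ne hd₀'
  have hpg : IsPGroup p D := by
    intro g
    by_cases hg : (g : G) = 1
    · exact ⟨0, by simpa using Subtype.ext hg⟩
    · refine ⟨1, ?_⟩
      have := hconj d₀ d₀.2 g g.2 hd₀1 hg
      rw [hd₀'] at this
      rw [pow_one]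
      apply Subtype.ext
      rw [Subgroup.coe_pow, this]
      exact pow_orderOf_eq_one _
  obtain ⟨k, hk⟩ := IsPGroup.iff_card.mp hpg
  rw [hcardD] at hk
  rw [hk]
  have hk0 : k ≠ 0 := by
    intro h
    rw [h, pow_zero] at hk
    omega
  exact ⟨p, k, hp.prime, Nat.pos_of_ne_zero hk0, rfl⟩

end Cfsg.Agent.S3548
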