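import Cfsg.Statements.S3549
import Cfsg.Agent.Lib.Helper59.Derangement2

set_option autoImplicit false
open Cfsg

namespace Cfsg.Agent.S3549

open MulAction
open scoped Pointwise

theorem arith (m k l n : ℕ) (hk : 2 ≤ k) (hl : 2 ≤ l) (hn : k * l = n) (h1 : m ∣ k - 1)
    (h2 : m ∣ n - 1) : (m + 1) * (m + 1) ≤ n := by
  obtain ⟨k', rfl⟩ : ∃ k', k = k' + 1 := ⟨k - 1, by omega⟩
  obtain ⟨l', rfl⟩ : ∃ l', l = l' + 1 := ⟨l - 1, by omega⟩
  simp only [Nat.add_sub_cancel] at h1
  have h3 : n - 1 = k' * (l' + 1) + l' := by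
    rw [← hn]
    have : (k' + 1) * (l' + 1) = k' * (l' + 1) + l' + 1 := by ring
    omega
  rw [h3] at h2
  have h4 : m ∣ l' := (Nat.dvd_add_right (Dvd.dvd.mul_right h1 _)).mp h2
  have h5 : m ≤ k' := Nat.le_of_dvd (by omega) h1
  have h6 : m ≤ l' := Nat.le_of_dvd (by omega) h4
  rw [← hn]
  exact Nat.mul_le_mul (by omega) (by omega)

theorem result {G Ω : Type*} [Group G] [Finite G] [MulAction G Ω] [FaithfulSMul G Ω] [Finite Ω]
    (htrans : MulAction.IsPretransitive G Ω) (himp : ¬ MulAction.IsPreprimitive G Ω) :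
    ((Subgroup.closure {g : G | ∀ ω : Ω, g • ω ≠ ω}).index : ℝ) ≤ Real.sqrt (Nat.card Ω) - 1 := by
  classical
  set D := Subgroup.closure {g : G | ∀ ω : Ω, g • ω ≠ ω} with hDdef
  have hD : ∀ g : G, (∀ ω : Ω, g • ω ≠ ω) → g ∈ D := fun g hg => Subgroup.subset_closure hg
  -- a nontrivial block
  obtain ⟨B, hB, hBnt⟩ : ∃ B : Set Ω, IsBlock G B ∧ ¬ IsTrivialBlock B := by
    by_contra hcon
    push Not at hcon
    exact himp { toIsPretransitive := htrans, isTrivialBlock_of_isBlock := fun {B} hB => hcon B hB }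
  unfold IsTrivialBlock at hBnt
  push Not at hBnt
  obtain ⟨hBns, hBnu⟩ := hBnt
  have hBne : B.Nonempty := hBns.nonempty
  obtain ⟨α, hα⟩ := hBne
  have hBfin : B.Finite := Set.toFinite B
  -- the invariant set B \ {α}
  let X1 : SubMulAction (stabilizer G α) Ω :=
    { carrier := B \ {α}
      smul_mem' := by
        rintro h x ⟨hx, hxα⟩
        have hstab : (h : G) ∈ stabilizer G B := hB.stabilizer_le hα h.2
        refine ⟨?_, ?_⟩
        · have : (h : G) • B = B := hstab
          rw [← this]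
          exact Set.smul_mem_smul_set hx
        · intro hcon
          apply hxα
          have h1 : (h : G) • x = α := hcon
          have h2 : (h : G) • α = α := h.2
          exact smul_left_cancel _ (h1.trans h2.symm) }
  have hX1 : α ∉ X1 := by
    intro h
    exact h.2 rfl
  have hcardX1 : Nat.card X1 = B.ncard - 1 := by
    have : Nat.card X1 = (B \ {α}).ncard := rfl
    rw [this, Set.ncard_sdiff_singleton_of_mem hα]
  have d1 := Cfsg.Agent.Lib.Helper59.derangement_index_dvd htrans D hD α X1 hX1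
  have d2 := Cfsg.Agent.Lib.Helper59.derangement_index_dvd htrans D hD α
    (SubMulAction.ofStabilizer G α) (by
      intro h
      exact h rfl)
  rw [hcardX1] at d1
  rw [SubMulAction.nat_card_ofStabilizer_eq] at d2
  have hkl := hB.ncard_block_mul_ncard_orbit_eq ⟨α, hα⟩
  have hk : 2 ≤ B.ncard := by
    have := Set.one_lt_ncard_iff_nontrivial.mpr hBns
    omega
  have hl : 2 ≤ (orbit G B).ncard := by
    by_contra hlt
    apply hBnu
    have hn : 0 < Nat.card Ω := by
      have : Nonempty Ω := ⟨α⟩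
      exact Nat.card_pos
    have h1 : (orbit G B).ncard = 1 := by
      rcases Nat.eq_zero_or_pos (orbit G B).ncard with h0 | h0
      · rw [h0, mul_zero] at hkl; omega
      · omega
    rw [h1, mul_one, ← Set.ncard_univ] at hkl
    exact Set.eq_of_subset_of_ncard_le (Set.subset_univ B) hkl.ge
  have key := arith D.index B.ncard (orbit G B).ncard (Nat.card Ω) hk hl hkl d1 d2
  have : ((D.index : ℝ) + 1) ≤ Real.sqrt (Nat.card Ω) := by
    apply Real.le_sqrt_of_sq_le
    have : (((D.index + 1) * (D.index + 1) : ℕ) : ℝ) ≤ (Nat.card Ω : ℝ) := by exact_mod_cast key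
    push_cast at this
    nlinarith
  linarith

end Cfsg.Agent.S3549
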