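import Cfsg.Statements.S3560

set_option autoImplicit false
open Cfsg

namespace Cfsg.Agent.S3560

open MulAction
open scoped Pointwise

section Hamming

variable {ι : Type*} {m : ℕ}

/-- Hamming adjacency. -/
def adj (x y : ι → ZMod m) : Prop := ∃ i, x i ≠ y i ∧ ∀ j, j ≠ i → x j = y j

/-- The automorphism group of the Hamming graph. -/
def hamG (ι : Type*) (m : ℕ) : Subgroup (Equiv.Perm (ι → ZMod m)) where
  carrier := {σ | ∀ x y, adj (σ x) (σ y) ↔ adj x y}
  one_mem' := fun _ _ => Iff.rfl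
  mul_mem' := by
    intro a b ha hb x y
    rw [Equiv.Perm.mul_apply, Equiv.Perm.mul_apply, ha, hb]
  inv_mem' := by
    intro a ha x y
    have := ha (a⁻¹ x) (a⁻¹ y)
    rw [← Equiv.Perm.mul_apply, ← Equiv.Perm.mul_apply, mul_inv_cancel] at this
    exact this.symm

theorem mem_hamG_of_coord (σ : Equiv.Perm (ι → ZMod m))
    (h : ∀ x y i, σ x i = σ y i ↔ x i = y i) : σ ∈ hamG ι m := by
  intro x y
  unfold adj
  constructor
  · rintro ⟨i, hi, hj⟩
    exact ⟨i, fun e => hi ((h x y i).mpr e), fun j hji => (h x y j).mp (hj j hji)⟩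
  · rintro ⟨i, hi, hj⟩
    exact ⟨i, fun e => hi ((h x y i).mp e), fun j hji => (h x y j).mpr (hj j hji)⟩

/-- coordinatewise permutations -/
def cw (τ : ι → Equiv.Perm (ZMod m)) : Equiv.Perm (ι → ZMod m) := Equiv.piCongrRight τ

theorem cw_apply (τ : ι → Equiv.Perm (ZMod m)) (x : ι → ZMod m) (i : ι) : cw τ x i = τ i (x i) := rfl

theorem cw_mem (τ : ι → Equiv.Perm (ZMod m)) : cw τ ∈ hamG ι m :=
  mem_hamG_of_coord _ (fun x y i => by rw [cw_apply, cw_apply]; exact (τ i).injective.eq_iff)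

/-- permutations of the coordinates -/
def cp (π : Equiv.Perm ι) : Equiv.Perm (ι → ZMod m) := Equiv.arrowCongr π (Equiv.refl _)

theorem cp_apply (π : Equiv.Perm ι) (x : ι → ZMod m) (i : ι) : cp π x i = x (π.symm i) := rfl

theorem cp_mem (π : Equiv.Perm ι) : (cp π : Equiv.Perm (ι → ZMod m)) ∈ hamG ι m := by
  intro x y
  unfold adj
  constructor
  · rintro ⟨i, hi, hj⟩
    refine ⟨π.symm i, hi, fun j hji => ?_⟩
    have := hj (π j) (fun e => hji (by rw [← e, Equiv.symm_apply_apply]))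
    simpa [cp_apply] using this
  · rintro ⟨i, hi, hj⟩
    refine ⟨π i, by simpa [cp_apply] using hi, fun j hji => ?_⟩
    rw [cp_apply, cp_apply]
    exact hj _ (fun e => hji (by rw [← e, Equiv.apply_symm_apply]))

theorem tr_mem (a : ι → ZMod m) : (Equiv.addRight a : Equiv.Perm (ι → ZMod m)) ∈ hamG ι m :=
  mem_hamG_of_coord _ (fun x y i => by simp)

theorem hamG_transitive : IsPretransitive (hamG ι m) (ι → ZMod m) := by
  constructor
  intro x y
  refine ⟨⟨Equiv.addRight (y - x), tr_mem _⟩, ?_⟩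
  show x + (y - x) = y
  abel

theorem hamG_primitive [Fintype ι] [DecidableEq ι] (hm : 3 ≤ m) :
    IsPreprimitive (hamG ι m) (ι → ZMod m) := by
  have : IsPretransitive (hamG ι m) (ι → ZMod m) := hamG_transitive
  have hNZ : NeZero m := ⟨by omega⟩
  apply IsPreprimitive.of_isTrivialBlock_base (0 : ι → ZMod m)
  intro B h0 hB
  by_cases hsub : B.Subsingleton
  · left; exact hsub
  right
  -- basic closure property
  have hcl : ∀ σ ∈ hamG ι m, ∀ a ∈ B, σ a ∈ B → ∀ b ∈ B, σ b ∈ B := by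
    intro σ hσ a ha hσa b hb
    have := hB.smul_eq_of_mem (g := (⟨σ, hσ⟩ : hamG ι m)) ha hσa
    rw [← this]
    exact Set.smul_mem_smul_set (a := (⟨σ, hσ⟩ : hamG ι m)) hb
  have hadd : ∀ a ∈ B, ∀ b ∈ B, b + a ∈ B := by
    intro a ha b hb
    exact hcl (Equiv.addRight a) (tr_mem a) 0 h0 (by simpa using ha) b hb
  have hsubt : ∀ a ∈ B, ∀ b ∈ B, b - a ∈ B := by
    intro a ha b hb
    have := hcl (Equiv.addRight (-a)) (tr_mem (-a)) a ha (by simpa using h0) b hb
    simpa [sub_eq_add_neg] using this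
  have hfix : ∀ σ ∈ hamG ι m, σ 0 = 0 → ∀ b ∈ B, σ b ∈ B := by
    intro σ hσ hσ0 b hb
    exact hcl σ hσ 0 h0 (by rw [hσ0]; exact h0) b hb
  -- a nonzero element
  obtain ⟨y, hy, hy0⟩ : ∃ y ∈ B, y ≠ 0 := by
    by_contra hcon
    push Not at hcon
    apply hsub
    intro a ha b hb
    rw [hcon a ha, hcon b hb]
  obtain ⟨i, hi⟩ : ∃ i, y i ≠ 0 := by
    by_contra hcon
    push Not at hcon
    exact hy0 (funext hcon)
  -- third value
  obtain ⟨z, hz0, hzy⟩ : ∃ z : ZMod m, z ≠ 0 ∧ z ≠ y i := by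
    by_contra hcon
    push Not at hcon
    have hsubset : (Finset.univ : Finset (ZMod m)) ⊆ {0, y i} := by
      intro z _
      by_cases hz : z = 0
      · simp [hz]
      · simp [hcon z hz]
    have := Finset.card_le_card hsubset
    rw [Finset.card_univ, ZMod.card] at this
    have h2 : ({0, y i} : Finset (ZMod m)).card ≤ 2 := Finset.card_le_two
    omega
  -- y' = y with i-th coordinate replaced by z
  have hy' : cw (fun j => if j = i then Equiv.swap (y i) z else 1) y ∈ B := by
    apply hfix _ (cw_mem _) _ y hy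
    funext j
    rw [cw_apply]
    by_cases hj : j = i
    · subst hj
      simp only [if_true, Pi.zero_apply]
      exact Equiv.swap_apply_of_ne_of_ne hi.symm hz0.symm
    · simp [hj]
  have he : Pi.single i (z - y i) ∈ B := by
    have := hsubt y hy _ hy'
    convert this using 1
    funext j
    by_cases hj : j = i
    · subst hj
      simp [cw_apply]
    · simp [cw_apply, hj]
  have hu : z - y i ≠ 0 := sub_ne_zero.mpr hzy
  -- all e_i(u')
  have he' : ∀ u' : ZMod m, Pi.single i u' ∈ B := by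
    intro u'
    by_cases hu' : u' = 0
    · rw [hu', Pi.single_zero]; exact h0
    have := hfix (cw (fun j => if j = i then Equiv.swap (z - y i) u' else 1)) (cw_mem _) (by
      funext j
      rw [cw_apply]
      by_cases hj : j = i
      · subst hj
        simp only [if_true, Pi.zero_apply]
        exact Equiv.swap_apply_of_ne_of_ne hu.symm (Ne.symm hu')
      · simp [hj]) _ he
    convert this using 1
    funext j
    by_cases hj : j = i
    · subst hj
      simp [cw_apply]
    · simp [cw_apply, hj]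
  have he'' : ∀ (j : ι) (u' : ZMod m), Pi.single j u' ∈ B := by
    intro j u'
    have := hfix (cp (Equiv.swap i j)) (cp_mem _) (by funext k; simp [cp_apply]) _ (he' u')
    convert this using 1
    funext k
    rw [cp_apply, Equiv.symm_swap]
    by_cases hk : k = j
    · subst hk
      simp
    · rw [Pi.single_eq_of_ne hk]
      by_cases hki : k = i
      · subst hki
        rw [Equiv.swap_apply_left, Pi.single_eq_of_ne (Ne.symm hk)]
      · rw [Equiv.swap_apply_of_ne_of_ne hki hk, Pi.single_eq_of_ne hki]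
  rw [Set.eq_univ_iff_forall]
  intro x
  rw [← Finset.univ_sum_single x]
  apply Finset.sum_induction _ (· ∈ B)
  · intro a b ha hb; exact hadd b hb a ha
  · exact h0
  · intro j _; exact he'' j (x j)

theorem hamG_not_two_transitive [DecidableEq ι] (hm : 2 ≤ m) (i j : ι) (hij : i ≠ j) :
    ¬ IsMultiplyPretransitive (hamG ι m) (ι → ZMod m) 2 := by
  intro h
  rw [is_two_pretransitive_iff] at h
  have hF : Fact (1 < m) := ⟨by omega⟩
  have h1 : (1 : ZMod m) ≠ 0 := one_ne_zero
  have n1 : (0 : ι → ZMod m) ≠ Pi.single i 1 := by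
    intro e
    have := congrFun e i
    simp at this
  have n2 : (0 : ι → ZMod m) ≠ Pi.single i 1 + Pi.single j 1 := by
    intro e
    have := congrFun e i
    simp [Pi.single_eq_of_ne hij] at this
  obtain ⟨g, hg0, hg1⟩ := h n1 n2
  have hadj : adj (0 : ι → ZMod m) (Pi.single i 1) := by
    refine ⟨i, by simp, fun k hk => ?_⟩
    rw [Pi.single_eq_of_ne hk]; rfl
  have := (g.2 0 (Pi.single i 1)).mpr hadj
  have e0 : (g : Equiv.Perm (ι → ZMod m)) 0 = 0 := hg0
  have e1 : (g : Equiv.Perm (ι → ZMod m)) (Pi.single i 1) = Pi.single i 1 + Pi.single j 1 := hg1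
  rw [e0, e1] at this
  obtain ⟨k, hk, hk'⟩ := this
  by_cases hki : k = i
  · subst hki
    have := hk' j (Ne.symm hij)
    simp [Pi.single_eq_of_ne (Ne.symm hij)] at this
  · have := hk' i (Ne.symm hki)
    simp [Pi.single_eq_of_ne hij] at this

end Hamming

section Transport

theorem transport {Y : Type*} [Fintype Y] {K : Type*} [Group K] (G R : Subgroup (Equiv.Perm Y))
    (hRG : R ≤ G) (hRK : Nonempty (R ≃* K)) (hRt : IsPretransitive R Y)
    (hRs : ∀ a : Y, stabilizer R a = ⊥) (hGp : IsPreprimitive G Y)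
    (hG2 : ¬ IsMultiplyPretransitive G Y 2) :
    ∃ (n : ℕ) (G R : Subgroup (Equiv.Perm (Fin n))), R ≤ G ∧ Nonempty (↥R ≃* K) ∧
      MulAction.IsPretransitive ↥R (Fin n) ∧ (∀ a : Fin n, MulAction.stabilizer ↥R a = ⊥) ∧
      MulAction.IsPreprimitive ↥G (Fin n) ∧ ¬ MulAction.IsMultiplyPretransitive ↥G (Fin n) 2 := by
  classical
  let ε : Y ≃ Fin (Fintype.card Y) := Fintype.equivFin Y
  let Φ : Equiv.Perm Y ≃* Equiv.Perm (Fin (Fintype.card Y)) := ε.permCongrHom
  have hΦ : ∀ (g : Equiv.Perm Y) (y : Y), Φ g (ε y) = ε (g y) := by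
    intro g y
    simp [Φ, Equiv.permCongrHom, Equiv.permCongr_apply]
  -- equivariant maps
  let ψ : ∀ S : Subgroup (Equiv.Perm Y), S → S.map Φ.toMonoidHom :=
    fun S g => ⟨Φ g, Subgroup.mem_map_of_mem _ g.2⟩
  let f : ∀ S : Subgroup (Equiv.Perm Y), Y →ₑ[ψ S] Fin (Fintype.card Y) := fun S =>
    { toFun := ε
      map_smul' := fun g y => (hΦ g y).symm }
  refine ⟨Fintype.card Y, G.map Φ.toMonoidHom, R.map Φ.toMonoidHom, Subgroup.map_mono hRG, ?_, ?_, ?_,
    ?_, ?_⟩
  · obtain ⟨e⟩ := hRK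
    exact ⟨((R.equivMapOfInjective Φ.toMonoidHom Φ.injective).symm).trans e⟩
  · exact IsPretransitive.of_surjective_map (f := f R) ε.surjective hRt
  · intro a
    rw [Subgroup.eq_bot_iff_forall]
    rintro ⟨_, r, hr, rfl⟩ hfix
    obtain ⟨y, rfl⟩ := ε.surjective a
    have h1 : Φ r (ε y) = ε y := hfix
    rw [hΦ] at h1
    have h2 : (⟨r, hr⟩ : R) ∈ stabilizer R y := ε.injective h1
    rw [hRs y, Subgroup.mem_bot] at h2
    have h3 : r = 1 := congrArg Subtype.val h2
    apply Subtype.ext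
    show Φ r = 1
    rw [h3, map_one]
  · exact IsPreprimitive.of_surjective (f := f G) ε.surjective
  · intro h
    apply hG2
    rw [is_two_pretransitive_iff] at h ⊢
    intro a b c d hab hcd
    obtain ⟨⟨_, g, hg, rfl⟩, h1, h2⟩ := h (a := ε a) (b := ε b) (c := ε c) (d := ε d)
      (fun e => hab (ε.injective e)) (fun e => hcd (ε.injective e))
    have h1' : Φ g (ε a) = ε c := h1
    have h2' : Φ g (ε b) = ε d := h2
    rw [hΦ] at h1' h2'
    exact ⟨⟨g, hg⟩, ε.injective h1', ε.injective h2'⟩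

end Transport

theorem result {K : Type*} [Group K] [Finite K] {ι : Type*} [Fintype ι] (F : ι → Type*) [∀ i, Group (F i)]
    (hr : 2 ≤ Fintype.card ι) (m : ℕ) (hm : 3 ≤ m) (hcard : ∀ i, Nat.card (F i) = m) (e : K ≃* (∀ i, F i)) :
    ∃ (n : ℕ) (G R : Subgroup (Equiv.Perm (Fin n))), R ≤ G ∧ Nonempty (↥R ≃* K) ∧
      MulAction.IsPretransitive ↥R (Fin n) ∧ (∀ a : Fin n, MulAction.stabilizer ↥R a = ⊥) ∧
      MulAction.IsPreprimitive ↥G (Fin n) ∧ ¬ MulAction.IsMultiplyPretransitive ↥G (Fin n) 2 := by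
  classical
  have hNZ : NeZero m := ⟨by omega⟩
  have hfin : ∀ i, Finite (F i) := fun i => Nat.finite_of_card_ne_zero (by rw [hcard i]; omega)
  have hbex : ∀ i, Nonempty (F i ≃ ZMod m) := by
    intro i
    have h1 : Nat.card (F i) ≠ 0 := by rw [hcard i]; omega
    have h2 : Nat.card (ZMod m) ≠ 0 := by rw [Nat.card_zmod]; omega
    have h3 : Nat.card (F i) = Nat.card (ZMod m) := by rw [hcard i, Nat.card_zmod]
    exact ⟨(Nat.equivFinOfCardPos h1).trans ((finCongr h3).trans (Nat.equivFinOfCardPos h2).symm)⟩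
  let b : ∀ i, F i ≃ ZMod m := fun i => (hbex i).some
  let B : (∀ i, F i) ≃ (ι → ZMod m) := Equiv.piCongrRight b
  let ρ : (∀ i, F i) →* Equiv.Perm (ι → ZMod m) :=
    (B.permCongrHom).toMonoidHom.comp (MulAction.toPermHom (∀ i, F i) (∀ i, F i))
  have hρ : ∀ (a : ∀ i, F i) (y : ι → ZMod m), ρ a y = B (a * B.symm y) := by
    intro a y
    simp [ρ, Equiv.permCongrHom, Equiv.permCongr_apply]
  have hρinj : Function.Injective ρ := by
    intro a a' h
    have := congrFun (congrArg (fun σ : Equiv.Perm (ι → ZMod m) => (σ : (ι → ZMod m) → (ι → ZMod m))) h) (B 1)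
    simp only [hρ, Equiv.symm_apply_apply, mul_one] at this
    exact B.injective this
  obtain ⟨i, j, hij⟩ : ∃ i j : ι, i ≠ j := by
    have : 1 < Fintype.card ι := by omega
    exact Fintype.exists_pair_of_one_lt_card this
  apply transport (hamG ι m) ρ.range
  · rintro _ ⟨a, rfl⟩
    apply mem_hamG_of_coord
    intro x y k
    rw [hρ, hρ]
    show b k (a k * (b k).symm (x k)) = b k (a k * (b k).symm (y k)) ↔ _
    rw [(b k).injective.eq_iff, mul_right_inj, (b k).symm.injective.eq_iff]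
  · exact ⟨((MonoidHom.ofInjective hρinj).symm).trans e.symm⟩
  · constructor
    intro x y
    refine ⟨⟨ρ (B.symm y * (B.symm x)⁻¹), ⟨_, rfl⟩⟩, ?_⟩
    show ρ (B.symm y * (B.symm x)⁻¹) x = y
    rw [hρ]; simp
  · intro y
    rw [Subgroup.eq_bot_iff_forall]
    rintro ⟨_, a, rfl⟩ hfix
    have h1 : ρ a y = y := hfix
    rw [hρ] at h1
    have h2 : a * B.symm y = B.symm y := by
      conv_rhs => rw [← h1]
      simp
    have h3 : a = 1 := by simpa using h2
    apply Subtype.ext
    show ρ a = 1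
    rw [h3, map_one]
  · exact hamG_primitive hm
  · exact hamG_not_two_transitive (by omega) i j hij

end Cfsg.Agent.S3560
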