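import Cfsg.Statements.S3573

set_option autoImplicit false
set_option linter.unusedSectionVars false
open Cfsg

namespace Cfsg.Agent.S3573

open Equiv Equiv.Perm

section aux

variable {α : Type*} [Fintype α] [DecidableEq α]

theorem mem_iff_of_image_eq {σ : Perm α} {s : Finset α} (hs : s.image σ = s) (x : α) :
    σ x ∈ s ↔ x ∈ s := by
  constructor
  · intro h
    rw [← hs] at h
    obtain ⟨y, hy, hyx⟩ := Finset.mem_image.1 h
    rwa [← σ.injective hyx]
  · intro h
    rw [← hs]
    exact Finset.mem_image_of_mem _ h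

theorem pow_mem_iff_of_image_eq {σ : Perm α} {s : Finset α} (hs : s.image σ = s) (x : α) (i : ℕ) :
    (σ ^ i) x ∈ s ↔ x ∈ s := by
  induction i with
  | zero => simp
  | succ i ih => rw [pow_succ', Perm.mul_apply, mem_iff_of_image_eq hs, ih]

theorem image_eq_of_fixed {σ : Perm α} {t : Finset α} (h : ∀ x ∈ t, σ x = x) : t.image σ = t := by
  ext y
  rw [Finset.mem_image]
  constructor
  · rintro ⟨x, hx, rfl⟩
    rwa [h x hx]
  · intro hy
    exact ⟨y, hy, h y hy⟩

theorem extend {r : ℕ} (hr : r.Prime) (σ : Perm α) (hσ : orderOf σ = r) (s : Finset α)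
    (hs : s.image σ = s) (hc : s.card + r ≤ Fintype.card α) :
    ∃ s' : Finset α, s'.image σ = s' ∧ s'.card = s.card + r := by
  by_cases h : ∃ ω, ω ∉ s ∧ σ ω ≠ ω
  · obtain ⟨ω, hωs, hω⟩ := h
    have hcc : (σ.cycleOf ω).support.card = r := by
      have h1 : (σ.cycleOf ω).IsCycle := isCycle_cycleOf σ hω
      have h2 := orderOf_cycleOf_dvd_orderOf σ ω
      rw [h1.orderOf, hσ] at h2
      rcases (Nat.dvd_prime hr).1 h2 with h3 | h3
      · exact absurd h3 (card_support_ne_one _)
      · exact h3
    have hcinv : (σ.cycleOf ω).support.image σ = (σ.cycleOf ω).support := by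
      apply Finset.eq_of_subset_of_card_le
      · intro y hy
        obtain ⟨x, hx, rfl⟩ := Finset.mem_image.1 hy
        rw [mem_support_cycleOf_iff' hω] at hx ⊢
        exact hx.apply_right
      · rw [Finset.card_image_of_injective _ σ.injective]
    have hdisj : Disjoint s (σ.cycleOf ω).support := by
      rw [Finset.disjoint_left]
      intro y hys hyc
      rw [mem_support_cycleOf_iff' hω] at hyc
      obtain ⟨i, -, rfl⟩ := hyc.exists_pow_eq'
      exact hωs ((pow_mem_iff_of_image_eq hs ω i).1 hys)
    exact ⟨s ∪ (σ.cycleOf ω).support, by rw [Finset.image_union, hs, hcinv],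
      by rw [Finset.card_union_of_disjoint hdisj, hcc]⟩
  · push Not at h
    obtain ⟨t, ht, htc⟩ := Finset.exists_subset_card_eq (s := sᶜ) (n := r)
      (by rw [Finset.card_compl]; omega)
    have hdisj : Disjoint s t := by
      rw [Finset.disjoint_left]
      intro y hys hyt
      exact (Finset.mem_compl.1 (ht hyt)) hys
    refine ⟨s ∪ t, ?_, by rw [Finset.card_union_of_disjoint hdisj, htc]⟩
    rw [Finset.image_union, hs, image_eq_of_fixed (fun x hx => h x (Finset.mem_compl.1 (ht hx)))]

theorem exists_inv {r : ℕ} (hr : r.Prime) (σ : Perm α) (hσ : orderOf σ = r) (k : ℕ)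
    (hk : k ≤ Fintype.card α) (hkr : k % r ≤ Fintype.card α % r) :
    ∃ s : Finset α, s.card = k ∧ s.image σ = s := by
  have : Fact r.Prime := ⟨hr⟩
  have h1 : σ.supportᶜ.card ≡ Fintype.card α [MOD r] :=
    card_compl_support_modEq (n := 1) (by rw [pow_one, ← hσ, pow_orderOf_eq_one])
  have h2 : Fintype.card α % r ≤ σ.supportᶜ.card := by
    rw [← h1]; exact Nat.mod_le _ _
  obtain ⟨W, hW, hWc⟩ := Finset.exists_subset_card_eq (s := σ.supportᶜ) (n := k % r) (by omega)
  have hWinv : W.image σ = W := image_eq_of_fixed (fun x hx => by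
    have := hW hx
    rwa [Finset.mem_compl, notMem_support] at this)
  have key : ∀ a : ℕ, k % r + a * r ≤ Fintype.card α →
      ∃ s : Finset α, s.image σ = s ∧ s.card = k % r + a * r := by
    intro a
    induction a with
    | zero => intro _; exact ⟨W, hWinv, by simpa using hWc⟩
    | succ a ih =>
      intro ha
      have hexp : (a + 1) * r = a * r + r := by ring
      obtain ⟨s, hs, hsc⟩ := ih (by omega)
      obtain ⟨s', hs', hsc'⟩ := extend hr σ hσ s hs (by omega)
      exact ⟨s', hs', by omega⟩
  have hkd : k % r + k / r * r = k := Nat.mod_add_div' k r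
  obtain ⟨s, hs, hsc⟩ := key (k / r) (by omega)
  exact ⟨s, by omega, hs⟩

theorem mod_le {r : ℕ} (hr : r.Prime) (hrn : r ≤ Fintype.card α) (k : ℕ)
    (h : ∀ σ : Perm α, orderOf σ = r → ∃ s : Finset α, s.card = k ∧ s.image σ = s) :
    k % r ≤ Fintype.card α % r := by
  have : Fact r.Prime := ⟨hr⟩
  have hdm : Fintype.card α % r + Fintype.card α / r * r = Fintype.card α := Nat.mod_add_div' _ _
  obtain ⟨σ, hσ⟩ := (exists_with_cycleType_iff α
    (m := Multiset.replicate (Fintype.card α / r) r)).2 ⟨by
      rw [Multiset.sum_replicate, smul_eq_mul]; omega, fun a ha => by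
      rw [Multiset.eq_of_mem_replicate ha]; exact hr.two_le⟩
  have hpow : σ ^ r = 1 := by
    rw [pow_prime_eq_one_iff, hσ]
    exact fun c hc => Multiset.eq_of_mem_replicate hc
  have hne : σ ≠ 1 := by
    intro h1
    rw [h1, cycleType_one] at hσ
    have h2 : 0 < Fintype.card α / r := Nat.div_pos hrn hr.pos
    have := congrArg Multiset.card hσ
    simp at this
    omega
  obtain ⟨s, hsc, hs⟩ := h σ (orderOf_eq_prime hpow hne)
  have hfix : σ.supportᶜ.card = Fintype.card α % r := by
    rw [Finset.card_compl, ← sum_cycleType, hσ, Multiset.sum_replicate, smul_eq_mul]; omega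
  set τ : Perm {x // x ∈ s} := σ.subtypePerm (fun x => mem_iff_of_image_eq hs x) with hτ
  have hτpow : τ ^ r = 1 := by
    rw [hτ, subtypePerm_pow]
    ext x
    simp [hpow]
  have h1 : τ.supportᶜ.card ≡ Fintype.card {x // x ∈ s} [MOD r] :=
    card_compl_support_modEq (n := 1) (by rw [pow_one, hτpow])
  rw [Fintype.card_coe, hsc] at h1
  have h2 : τ.supportᶜ.card ≤ σ.supportᶜ.card := by
    apply Finset.card_le_card_of_injOn (fun x : {x // x ∈ s} => (x : α))
    · intro x hx
      rw [Finset.mem_coe, Finset.mem_compl, notMem_support] at hx ⊢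
      exact congrArg Subtype.val hx
    · intro x _ y _ hxy
      exact Subtype.ext hxy
  have h3 : Fintype.card α % r < r := Nat.mod_lt _ hr.pos
  have h4 : τ.supportᶜ.card % r = k % r := h1
  rw [Nat.mod_eq_of_lt (by omega)] at h4
  omega

end aux

theorem not_dvd_choose_of_lt {r m k : ℕ} (hr : r.Prime) (hm : m < r) (hk : k ≤ m) :
    ¬ r ∣ Nat.choose m k := by
  intro h
  have h1 : r ∣ m.factorial := by
    rw [← Nat.choose_mul_factorial_mul_factorial hk]
    exact Dvd.dvd.mul_right (Dvd.dvd.mul_right h _) _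
  have := (hr.dvd_factorial).1 h1
  omega

theorem core (n k : ℕ) (hkn : k ≤ n) (r : ℕ) (hr : r.Prime) (hrd : r ∣ Nat.choose n k) :
    (∀ σ : Equiv.Perm (Fin n), orderOf σ = r → ∃ s : Finset (Fin n), s.card = k ∧ s.image σ = s) ↔
      k % r ≤ n % r := by
  have hrn : r ≤ n := by
    by_contra h
    exact not_dvd_choose_of_lt hr (by omega) hkn hrd
  constructor
  · intro h
    have := mod_le (α := Fin n) hr (by simpa using hrn) k h
    simpa using this
  · intro h σ hσ
    exact exists_inv hr σ hσ k (by simpa using hkn) (by simpa using h)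

/-- Let 1 ≤ k with 2k < n and consider the symmetric group of degree n acting on the k-subsets of an n-set. Let r be a prime dividing the number C(n,k) of k-subsets. If r is odd, then every permutation of order r fixes some k-subset if and only if r ≤ k and the remainder of k modulo r is at most the remainder of n modulo r. If r = 2, then every involution fixes some k-subset if and only if k is even or n is odd. -/
theorem result (n k : ℕ) (hk : 1 ≤ k) (hkn : 2 * k < n) (r : ℕ) (hr : r.Prime) (hrd : r ∣ Nat.choose n k) :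
    (r ≠ 2 → ((∀ σ : Equiv.Perm (Fin n), orderOf σ = r → ∃ s : Finset (Fin n), s.card = k ∧ s.image σ = s) ↔
      (r ≤ k ∧ k % r ≤ n % r))) ∧
    (r = 2 → ((∀ σ : Equiv.Perm (Fin n), orderOf σ = 2 → ∃ s : Finset (Fin n), s.card = k ∧ s.image σ = s) ↔
      (Even k ∨ Odd n))) := by
  have : Fact r.Prime := ⟨hr⟩
  constructor
  · intro _
    rw [core n k (by omega) r hr hrd]
    constructor
    · intro h
      refine ⟨?_, h⟩
      by_contra hlt
      have hkr : k % r = k := Nat.mod_eq_of_lt (by omega)
      have hL := Choose.choose_modEq_choose_mod_mul_choose_div_nat (n := n) (k := k) (p := r)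
      rw [hkr, Nat.div_eq_of_lt (by omega : k < r), Nat.choose_zero_right, mul_one] at hL
      have h1 : r ∣ Nat.choose (n % r) k := (Nat.modEq_zero_iff_dvd.1
        (hL.symm.trans (Nat.modEq_zero_iff_dvd.2 hrd)))
      exact not_dvd_choose_of_lt hr (Nat.mod_lt _ hr.pos) (by omega) h1
    · exact fun h => h.2
  · rintro rfl
    rw [core n k (by omega) 2 hr hrd, Nat.even_iff, Nat.odd_iff]
    omega

end Cfsg.Agent.S3573
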