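import Cfsg.Statements.S3599
import Cfsg.Agent.Lib.Helper77.Crit.Main

set_option autoImplicit false
open Cfsg

namespace Cfsg.Agent.S3599

open Cfsg.Agent.Lib.Helper77.Crit

/-- the system attached to a choice function `a : Fin s → Fin 2`. -/
noncomputable def mkSys (s : ℕ) (p : Fin s → Fin 2 → ℕ)
    (hp : ∀ j i, (p j i).Prime) (hinj : ∀ j i j' i', p j i = p j' i' → j = j' ∧ i = i')
    (a : Fin s → Fin 2) : Sys s where
  P j := p j (a j)
  Q j := p j (1 - a j)
  hP j := hp _ _
  hQ j := hp _ _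
  hPQ j := fun h => by
    have := (hinj _ _ _ _ h).2
    revert this
    generalize a j = t
    revert t
    decide
  hd i j hij := ⟨fun h => hij (hinj _ _ _ _ h).1, fun h => hij (hinj _ _ _ _ h).1,
    fun h => hij (hinj _ _ _ _ h).1, fun h => hij (hinj _ _ _ _ h).1⟩
  X j := Classical.choice (exists_pack (hp _ _) (hp _ _) (fun h => by
    have := (hinj _ _ _ _ h).2
    revert this
    generalize a j = t
    revert t
    decide))

theorem mkSys_Om (s : ℕ) (p : Fin s → Fin 2 → ℕ)
    (hp : ∀ j i, (p j i).Prime) (hinj : ∀ j i j' i', p j i = p j' i' → j = j' ∧ i = i')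
    (a : Fin s → Fin 2) :
    (mkSys s p hp hinj a).Om = {m : ℕ | ∃ c : Fin s → ℕ,
      (∀ j, c j = 1 ∨ c j = p j 0 ∨ c j = p j 1) ∧ m = ∏ j, c j} := by
  have key : ∀ (j : Fin s) (x : ℕ), (x = 1 ∨ x = p j (a j) ∨ x = p j (1 - a j)) ↔
      (x = 1 ∨ x = p j 0 ∨ x = p j 1) := by
    intro j x
    generalize a j = t
    fin_cases t
    · exact Iff.rfl
    · constructor
      · rintro (h | h | h)
        · exact Or.inl h
        · exact Or.inr (Or.inr h)
        · exact Or.inr (Or.inl h)
      · rintro (h | h | h)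
        · exact Or.inl h
        · exact Or.inr (Or.inr h)
        · exact Or.inr (Or.inl h)
  ext m
  constructor
  · rintro ⟨c, hc, hm⟩
    exact ⟨c, fun j => (key j _).1 (hc j), hm⟩
  · rintro ⟨c, hc, hm⟩
    exact ⟨c, fun j => (key j _).2 (hc j), hm⟩

/-- A finite group is critical with respect to a set Ω of natural numbers when its set of element orders is Ω while no proper section H/N (H a subgroup, N normal in H, (H, N) ≠ (whole group, 1)) has Ω as its set of element orders. Let s ≥ 1 and let p(j,0), p(j,1) (j < s) be 2s pairwise distinct primes, and let Ω be the set of all products c(0)·…·c(s−1) with each c(j) ∈ {1, p(j,0), p(j,1)}. Then there are 2^s pairwise non-isomorphic finite groups critical with respect to Ω. -/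
theorem result (s : ℕ) (hs : 1 ≤ s) (p : Fin s → Fin 2 → ℕ)
    (hp : ∀ j i, (p j i).Prime) (hinj : ∀ j i j' i', p j i = p j' i' → j = j' ∧ i = i') :
    ∃ (G : Fin (2 ^ s) → Type) (_ : ∀ a, Group (G a)) (_ : ∀ a, Fintype (G a)),
      (∀ a b, a ≠ b → ¬ Nonempty (G a ≃* G b)) ∧
      ∀ a, Set.range (orderOf : (G a) → ℕ) = {m : ℕ | ∃ c : Fin s → ℕ, (∀ j, c j = 1 ∨ c j = p j 0 ∨ c j = p j 1) ∧ m = ∏ j, c j} ∧
      ∀ (H : Subgroup (G a)) (N : Subgroup ↥H) [N.Normal], (H ≠ ⊤ ∨ N ≠ ⊥) → Set.range (orderOf : (↥H ⧸ N) → ℕ) ≠ {m : ℕ | ∃ c : Fin s → ℕ, (∀ j, c j = 1 ∨ c j = p j 0 ∨ c j = p j 1) ∧ m = ∏ j, c j} := by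
  classical
  let e : Fin (2 ^ s) ≃ (Fin s → Fin 2) := finFunctionFinEquiv.symm
  refine ⟨fun a => (mkSys s p hp hinj (e a)).G, fun a => inferInstance, fun a => inferInstance,
    ?_, ?_⟩
  · rintro a b hab ⟨f⟩
    have hne : e a ≠ e b := fun h => hab (e.injective h)
    obtain ⟨j, hj⟩ : ∃ j, e a j ≠ e b j := by
      by_contra hcon
      push_neg at hcon
      exact hne (funext hcon)
    -- `r = Q j` for `a`, `= P j` for `b`
    have h1 : ¬ TP (mkSys s p hp hinj (e a)).G ((mkSys s p hp hinj (e a)).Q j) :=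
      (mkSys s p hp hinj (e a)).not_tp j
    have h2 : TP (mkSys s p hp hinj (e b)).G ((mkSys s p hp hinj (e a)).Q j) := by
      apply (mkSys s p hp hinj (e b)).tp
      intro i
      refine (Nat.coprime_primes (hp _ _) (hp _ _)).2 ?_
      intro h
      obtain ⟨hji, h3⟩ := hinj _ _ _ _ h
      subst hji
      revert h3 hj
      generalize e a j = t
      generalize e b j = u
      revert t u
      decide
    exact h1 (TP.of_injective f.toMonoidHom f.injective h2)
  · intro a
    refine ⟨?_, ?_⟩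
    · rw [← mkSys_Om s p hp hinj (e a)]
      exact (mkSys s p hp hinj (e a)).spectrum
    · intro H N _ hHN
      rw [← mkSys_Om s p hp hinj (e a)]
      exact (mkSys s p hp hinj (e a)).critical H N hHN

end Cfsg.Agent.S3599
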