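import Cfsg.Statements.S3619

set_option autoImplicit false
open Cfsg

namespace Cfsg.Agent.S3619

open MulAction SubMulAction
open scoped Pointwise

/-- A quasiprimitive faithful action with a primitive Jordan set is primitive. -/
theorem isPreprimitive_of_quasi {G Ω : Type*} [Group G] [MulAction G Ω] [FaithfulSMul G Ω]
    (hqp : ∀ N : Subgroup G, N.Normal → N ≠ ⊥ → MulAction.IsPretransitive ↥N Ω)
    (s : Set Ω) (hs : sᶜ.Nontrivial)
    (hJp : MulAction.IsPreprimitive ↥(fixingSubgroup G s) ↥(SubMulAction.ofFixingSubgroup G s)) :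
    MulAction.IsPreprimitive G Ω := by
  classical
  -- the fixing subgroup is nontrivial
  obtain ⟨a, ha, b, hb, hab⟩ := hs
  have hH : fixingSubgroup G s ≠ ⊥ := by
    intro hbot
    have htr : IsPretransitive ↥(fixingSubgroup G s) ↥(SubMulAction.ofFixingSubgroup G s) :=
      hJp.toIsPretransitive
    obtain ⟨h, hh⟩ := htr.exists_smul_eq ⟨a, ha⟩ ⟨b, hb⟩
    have h1 : (h : G) = 1 := by
      have h2 : (h : G) ∈ (⊥ : Subgroup G) := hbot ▸ h.2
      exact h2
    apply hab
    have h2 : (h : G) • a = b := congrArg Subtype.val hh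
    rw [h1, one_smul] at h2
    exact h2
  have htop : (⊤ : Subgroup G) ≠ ⊥ := by
    intro h
    apply hH
    rw [eq_bot_iff, ← h]
    exact le_top
  have htrans : IsPretransitive G Ω := by
    have := hqp ⊤ inferInstance htop
    constructor
    intro x y
    obtain ⟨g, hg⟩ := this.exists_smul_eq x y
    exact ⟨g, hg⟩
  refine { toIsPretransitive := htrans, isTrivialBlock_of_isBlock := ?_ }
  intro B hB
  by_contra hBt
  have hBns : ¬ B.Subsingleton := fun h => hBt (Or.inl h)
  have hBnu : B ≠ Set.univ := fun h => hBt (Or.inr h)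
  -- the kernel on the block system
  have hK : (stabilizer G B).normalCore = ⊥ := by
    by_contra hne
    have htr := hqp _ (Subgroup.normalCore_normal _) hne
    obtain ⟨x, hx⟩ : B.Nonempty := by
      by_contra h
      rw [Set.not_nonempty_iff_eq_empty] at h
      exact hBns (h ▸ Set.subsingleton_empty)
    obtain ⟨y, hy⟩ : ∃ y, y ∉ B := by
      by_contra h
      push Not at h
      exact hBnu (Set.eq_univ_of_forall h)
    obtain ⟨k, hk⟩ := htr.exists_smul_eq x y
    have hk' : (k : G) ∈ stabilizer G B := Subgroup.normalCore_le _ k.2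
    rw [mem_stabilizer_iff] at hk'
    apply hy
    rw [← hk]
    have h3 : (k : G) • x ∈ (k : G) • B := Set.smul_mem_smul_set hx
    rw [hk'] at h3
    exact h3
  apply hH
  rw [eq_bot_iff, ← hK]
  intro h hh
  change ∀ g : G, g * h * g⁻¹ ∈ stabilizer G B
  intro g
  rw [mem_stabilizer_iff]
  -- the translated block
  have hB' : IsBlock G (g⁻¹ • B) := hB.translate g⁻¹
  suffices hfix : h • (g⁻¹ • B) = g⁻¹ • B by
    rw [mul_smul, mul_smul, hfix, smul_inv_smul]
  by_cases hc : ∃ c ∈ g⁻¹ • B, c ∈ s
  · obtain ⟨c, hcB, hcs⟩ := hc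
    have hhc : h • c = c := (mem_fixingSubgroup_iff G).mp hh c hcs
    exact (isBlock_iff_smul_eq_of_mem.mp hB') hcB (by rw [hhc]; exact hcB)
  · push Not at hc
    -- the block is contained in the Jordan set
    have hblk : IsBlock ↥(fixingSubgroup G s)
        ((Subtype.val : ↥(SubMulAction.ofFixingSubgroup G s) → Ω) ⁻¹' (g⁻¹ • B)) :=
      (hB'.subgroup (H := fixingSubgroup G s)).subtype_val_preimage
    rcases hJp.isTrivialBlock_of_isBlock hblk with hsub | huniv
    · exfalso
      apply hBns
      have : (g⁻¹ • B).Subsingleton := by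
        intro x hx y hy
        have := @hsub ⟨x, hc x hx⟩ hx ⟨y, hc y hy⟩ hy
        exact congrArg Subtype.val this
      intro x hx y hy
      have := this (Set.smul_mem_smul_set (a := g⁻¹) hx) (Set.smul_mem_smul_set (a := g⁻¹) hy)
      exact smul_left_cancel _ this
    · have hEq : g⁻¹ • B = sᶜ := by
        ext x
        constructor
        · intro hx
          exact hc x hx
        · intro hx
          have : (⟨x, hx⟩ : ↥(SubMulAction.ofFixingSubgroup G s)) ∈
              ((Subtype.val : ↥(SubMulAction.ofFixingSubgroup G s) → Ω) ⁻¹' (g⁻¹ • B)) := by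
            rw [huniv]; trivial
          exact this
      rw [hEq, Set.smul_set_compl]
      congr 1
      ext x
      constructor
      · rintro ⟨y, hy, rfl⟩
        have : h • y = y := (mem_fixingSubgroup_iff G).mp hh y hy
        change h • y ∈ s
        rw [this]; exact hy
      · intro hx
        exact ⟨x, hx, (mem_fixingSubgroup_iff G).mp hh x hx⟩

/-- Let G act faithfully on a finite set in such a way that every non-trivial normal subgroup of G is transitive (G is quasiprimitive). Let Γ be a subset with more than one point and not the whole set, such that the pointwise stabilizer of the complement of Γ acts transitively on Γ (a Jordan set). If that pointwise stabilizer acts primitively on Γ, then G is k-fold transitive where k is one more than the number of points outside Γ (the Jordan set is a trivial one). -/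
theorem result {G Ω : Type*} [Group G] [Finite G] [MulAction G Ω] [FaithfulSMul G Ω] [Finite Ω]
    (hqp : ∀ N : Subgroup G, N.Normal → N ≠ ⊥ → MulAction.IsPretransitive ↥N Ω)
    (Γ : Set Ω) (hΓ1 : 1 < Γ.ncard) (hΓ2 : Γ.ncard < Nat.card Ω)
    (hJ : MulAction.IsPretransitive ↥(fixingSubgroup G Γᶜ) ↥(SubMulAction.ofFixingSubgroup G Γᶜ))
    (hJp : MulAction.IsPreprimitive ↥(fixingSubgroup G Γᶜ) ↥(SubMulAction.ofFixingSubgroup G Γᶜ)) :
    MulAction.IsMultiplyPretransitive G Ω (Nat.card Ω - Γ.ncard + 1) := by
  have hprim : IsPreprimitive G Ω := by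
    apply isPreprimitive_of_quasi hqp Γᶜ _ hJp
    rw [compl_compl]
    rw [Set.one_lt_ncard] at hΓ1
    obtain ⟨a, ha, b, hb, hab⟩ := hΓ1
    exact ⟨a, ha, b, hb, hab⟩
  have hcard : Γ.ncard + Γᶜ.ncard = Nat.card Ω := Set.ncard_add_ncard_compl Γ
  have hn : Γᶜ.ncard = (Nat.card Ω - Γ.ncard - 1) + 1 := by omega
  have := hprim.isMultiplyPreprimitive hn (by omega) hJp
  have h2 : Nat.card Ω - Γ.ncard + 1 = (Nat.card Ω - Γ.ncard - 1) + 2 := by omega
  rw [h2]
  exact this.isMultiplyPretransitive

end Cfsg.Agent.S3619
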