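import Cfsg.Statements.S3620
import Cfsg.Agent.Lib.Helper32.MQ.Main
import Cfsg.Agent.Lib.Helper68.MG.Main

set_option autoImplicit false
open Cfsg


namespace Cfsg.Agent.S3620

theorem hP_aux : Cfsg.Agent.Lib.Helper32.MQ.HP := by
  intro Om _ _ H hprim Gam h1 h2 hJ
  refine Cfsg.Agent.Lib.Helper68.MG.thmP H hprim Gam h1 h2 ?_
  intro x hx y hy
  obtain ⟨g, hg, hfix, hgx⟩ := hJ x (by simpa using hx) y (by simpa using hy)
  exact ⟨g, ⟨hg, fun f hf => hfix f hf⟩, hgx⟩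

theorem result {G Ω : Type*} [Group G] [Finite G] [MulAction G Ω] [FaithfulSMul G Ω] [Fintype Ω] [DecidableEq Ω]
    (hqp : ∀ N : Subgroup G, N.Normal → N ≠ ⊥ → MulAction.IsPretransitive ↥N Ω)
    (Γ : Set Ω) (hΓ1 : 1 < Γ.ncard) (hΓ2 : 2 * Γ.ncard < Fintype.card Ω)
    (hJ : MulAction.IsPretransitive ↥(fixingSubgroup G Γᶜ) ↥(SubMulAction.ofFixingSubgroup G Γᶜ)) :
    ∀ σ : Equiv.Perm Ω, Equiv.Perm.sign σ = 1 → ∃ x : G, (MulAction.toPerm x : Equiv.Perm Ω) = σ :=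
  Cfsg.Agent.Lib.Helper32.MQ.row hP_aux hqp Γ hΓ1 hΓ2 hJ

end Cfsg.Agent.S3620
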