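import Cfsg.Statements.S3627
import Cfsg.Agent.Lib.Helper92.J1.Spectrum

set_option autoImplicit false
open Cfsg

namespace Cfsg.Agent.S3627

open Cfsg.Agent.Lib.Helper92.J1

/-- the generalised dihedral group `3 ^ a : 2`, inside `S₃ ^ a`. -/
def Wsub (a : ℕ) : Subgroup (Fin a → Equiv.Perm (Fin 3)) where
  carrier := {f | ∀ i j, Equiv.Perm.sign (f i) = Equiv.Perm.sign (f j)}
  one_mem' := by intro i j; simp
  mul_mem' := by
    intro f g hf hg i j
    simp only [Pi.mul_apply, map_mul]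
    rw [hf i j, hg i j]
  inv_mem' := by
    intro f hf i j
    simp only [Pi.inv_apply, map_inv]
    rw [hf i j]

theorem s3_even : ∀ σ : Equiv.Perm (Fin 3), Equiv.Perm.sign σ = 1 → σ ^ 3 = 1 := by decide
theorem s3_odd : ∀ σ : Equiv.Perm (Fin 3), Equiv.Perm.sign σ = -1 → σ ^ 2 = 1 := by decide

theorem W_pow {a : ℕ} (f : Wsub a) : f ^ 2 = 1 ∨ f ^ 3 = 1 := by
  rcases Nat.eq_zero_or_pos a with rfl | ha
  · left
    apply Subtype.ext
    funext i
    exact i.elim0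
  · rcases Int.units_eq_one_or (Equiv.Perm.sign (f.1 ⟨0, ha⟩)) with h | h
    · right
      apply Subtype.ext
      funext i
      exact s3_even _ ((f.2 i ⟨0, ha⟩).trans h)
    · left
      apply Subtype.ext
      funext i
      exact s3_odd _ ((f.2 i ⟨0, ha⟩).trans h)

theorem W_order {a : ℕ} (f : Wsub a) : orderOf f = 1 ∨ orderOf f = 2 ∨ orderOf f = 3 := by
  rcases W_pow f with h | h
  · have := orderOf_dvd_of_pow_eq_one h
    rcases (Nat.dvd_prime (by norm_num)).1 this with h | h <;> simp [h]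
  · have := orderOf_dvd_of_pow_eq_one h
    rcases (Nat.dvd_prime (by norm_num)).1 this with h | h <;> simp [h]

def c3 : Equiv.Perm (Fin 3) := finRotate 3

theorem c3_inj : ∀ x y : Fin 3, c3 ^ x.1 = c3 ^ y.1 → x = y := by decide
theorem c3_sign : ∀ x : Fin 3, Equiv.Perm.sign (c3 ^ x.1) = 1 := by decide

theorem W_card (a : ℕ) : 3 ^ a ≤ Nat.card (Wsub a) := by
  let φ : (Fin a → Fin 3) → Wsub a := fun g =>
    ⟨fun i => c3 ^ (g i).1, fun i j => by rw [c3_sign, c3_sign]⟩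
  have hφ : Function.Injective φ := by
    intro g g' h
    funext i
    exact c3_inj _ _ (congrFun (congrArg Subtype.val h) i)
  have := Nat.card_le_card_of_injective φ hφ
  simpa using this

/-- elements of orders 2 and 3 in `Wsub (a + 1)`. -/
def w2 (a : ℕ) : Wsub (a + 1) := ⟨fun _ => Equiv.swap 0 1, fun _ _ => rfl⟩
def w3 (a : ℕ) : Wsub (a + 1) := ⟨fun _ => c3, fun _ _ => rfl⟩

theorem orderOf_w2 (a : ℕ) : orderOf (w2 a) = 2 := by
  apply orderOf_eq_prime
  · apply Subtype.ext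
    funext i
    show (Equiv.swap (0 : Fin 3) 1) ^ 2 = 1
    decide
  · intro h
    have := congrFun (congrArg Subtype.val h) 0
    revert this
    show ¬ (Equiv.swap (0 : Fin 3) 1 = 1)
    decide

theorem orderOf_w3 (a : ℕ) : orderOf (w3 a) = 3 := by
  apply orderOf_eq_prime
  · apply Subtype.ext
    funext i
    show c3 ^ 3 = 1
    decide
  · intro h
    have := congrFun (congrArg Subtype.val h) 0
    revert this
    show ¬ (c3 = 1)
    decide

theorem D_pow : ∀ x : DihedralGroup 5, x ^ 2 = 1 ∨ x ^ 5 = 1 := by decide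

theorem D_order (x : DihedralGroup 5) : orderOf x = 1 ∨ orderOf x = 2 ∨ orderOf x = 5 := by
  rcases D_pow x with h | h
  · have := orderOf_dvd_of_pow_eq_one h
    rcases (Nat.dvd_prime (by norm_num)).1 this with h | h <;> simp [h]
  · have := orderOf_dvd_of_pow_eq_one h
    rcases (Nat.dvd_prime (by norm_num)).1 this with h | h <;> simp [h]

abbrev VV (a : ℕ) := ↥(Wsub (a + 1)) × DihedralGroup 5

theorem d2 : orderOf (DihedralGroup.sr 0 : DihedralGroup 5) = 2 := DihedralGroup.orderOf_sr 0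
theorem d5 : orderOf (DihedralGroup.r 1 : DihedralGroup 5) = 5 := DihedralGroup.orderOf_r_one

/-- the orders of the elements of `VV a` occur in `J1`. -/
theorem V_to_J {a : ℕ} (v : VV a) : ∃ g : JJ, orderOf g = orderOf v := by
  rw [Prod.orderOf]
  rcases W_order v.1 with h | h | h <;> rcases D_order v.2 with h' | h' | h' <;> rw [h, h']
  · exact ⟨1, by simp⟩
  · exact ⟨wJ t1W, orderOf_t1J⟩
  · exact ⟨yJ, orderOf_yJ⟩
  · exact ⟨wJ t1W, orderOf_t1J⟩
  · exact ⟨wJ t1W, orderOf_t1J⟩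
  · exact ⟨wJ c10W, orderOf_c10J⟩
  · exact ⟨wJ c3W, orderOf_c3J⟩
  · exact ⟨wJ c6W, orderOf_c6J⟩
  · exact ⟨wJ c15W, orderOf_c15J⟩

theorem small_to_V (a : ℕ) {n : ℕ}
    (h : n = 1 ∨ n = 2 ∨ n = 3 ∨ n = 5 ∨ n = 6 ∨ n = 10 ∨ n = 15) :
    ∃ v : VV a, orderOf v = n := by
  rcases h with rfl | rfl | rfl | rfl | rfl | rfl | rfl
  · exact ⟨1, by simp⟩
  · exact ⟨(w2 a, 1), by rw [Prod.orderOf, orderOf_w2]; simp⟩
  · exact ⟨(w3 a, 1), by rw [Prod.orderOf, orderOf_w3]; simp⟩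
  · exact ⟨(1, DihedralGroup.r 1), by rw [Prod.orderOf, d5]; simp⟩
  · exact ⟨(w3 a, DihedralGroup.sr 0), by rw [Prod.orderOf, orderOf_w3, d2]; rfl⟩
  · exact ⟨(w2 a, DihedralGroup.r 1), by rw [Prod.orderOf, orderOf_w2, d5]; rfl⟩
  · exact ⟨(w3 a, DihedralGroup.r 1), by rw [Prod.orderOf, orderOf_w3, d5]; rfl⟩

theorem split (g : JJ) : (orderOf g = 1 ∨ orderOf g = 2 ∨ orderOf g = 3 ∨ orderOf g = 5 ∨
    orderOf g = 6 ∨ orderOf g = 10 ∨ orderOf g = 15) ∨
    (orderOf g = 7 ∨ orderOf g = 11 ∨ orderOf g = 19) := by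
  have := orderOf_mem g
  tauto

theorem ord4 {A B C D : Type*} [Monoid A] [Monoid B] [Monoid C] [Monoid D] (a : A) (b : B) (c : C)
    (d : D) : orderOf ((a, b, c, d) : A × B × C × D) =
      Nat.lcm (orderOf a) (Nat.lcm (orderOf b) (Nat.lcm (orderOf c) (orderOf d))) := by
  rw [Prod.orderOf, Prod.orderOf, Prod.orderOf]

theorem range_eq (a : ℕ) : Set.range (orderOf : JJ × JJ × JJ × VV a → ℕ) =
    Set.range (orderOf : JJ × JJ × JJ × JJ → ℕ) := by
  ext n
  constructor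
  · rintro ⟨⟨g1, g2, g3, v⟩, rfl⟩
    obtain ⟨g4, h4⟩ := V_to_J v
    exact ⟨(g1, g2, g3, g4), by rw [ord4, ord4, h4]⟩
  · rintro ⟨⟨g1, g2, g3, g4⟩, rfl⟩
    rcases split g4 with h4 | h4
    · obtain ⟨v, hv⟩ := small_to_V a h4
      exact ⟨(g1, g2, g3, v), by rw [ord4, ord4, hv]⟩
    rcases split g3 with h3 | h3
    · obtain ⟨v, hv⟩ := small_to_V a h3
      exact ⟨(g1, g2, g4, v), by rw [ord4, ord4, hv, Nat.lcm_comm (orderOf g4)]⟩
    rcases split g2 with h2 | h2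
    · obtain ⟨v, hv⟩ := small_to_V a h2
      refine ⟨(g1, g3, g4, v), ?_⟩
      rw [ord4, ord4, hv, ← Nat.lcm_assoc (orderOf g3), Nat.lcm_comm _ (orderOf g2)]
    rcases split g1 with h1 | h1
    · obtain ⟨v, hv⟩ := small_to_V a h1
      refine ⟨(g2, g3, g4, v), ?_⟩
      rw [ord4, ord4, hv, ← Nat.lcm_assoc (orderOf g3), ← Nat.lcm_assoc (orderOf g2),
        Nat.lcm_comm _ (orderOf g1)]
    rcases h1 with h1 | h1 | h1 <;> rcases h2 with h2 | h2 | h2 <;> rcases h3 with h3 | h3 | h3 <;>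
      rcases h4 with h4 | h4 | h4 <;>
      first
      | exact ⟨(g1, g2, g3, 1), by rw [ord4, ord4, h1, h2, h3, h4, orderOf_one]; rfl⟩
      | exact ⟨(g1, g2, g4, 1), by rw [ord4, ord4, h1, h2, h3, h4, orderOf_one]; rfl⟩
      | exact ⟨(g1, g3, g4, 1), by rw [ord4, ord4, h1, h2, h3, h4, orderOf_one]; rfl⟩

/-- Let J be the first Janko group. Then there are finite groups of arbitrarily large order with exactly the same set of element orders as J × J × J × J. -/
theorem result (N : ℕ) : ∃ (H : Type) (_ : Group H) (_ : Fintype H), N < Fintype.card H ∧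
      Set.range (orderOf : H → ℕ) = Set.range (orderOf : ↥Cfsg.Spor.J1 × ↥Cfsg.Spor.J1 × ↥Cfsg.Spor.J1 × ↥Cfsg.Spor.J1 → ℕ) := by
  refine ⟨JJ × JJ × JJ × VV N, inferInstance, Fintype.ofFinite _, ?_, range_eq N⟩
  rw [Fintype.card_eq_nat_card, Nat.card_prod, Nat.card_prod, Nat.card_prod, Nat.card_prod,
    card_JJ]
  have h1 : 3 ^ (N + 1) ≤ Nat.card (Wsub (N + 1)) := W_card (N + 1)
  have h2 : N < 3 ^ (N + 1) := lt_trans (Nat.lt_succ_self N) (Nat.lt_pow_self (by norm_num))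
  have h3 : 0 < Nat.card (DihedralGroup 5) := Nat.card_pos
  calc N < Nat.card (Wsub (N + 1)) := lt_of_lt_of_le h2 h1
    _ ≤ Nat.card (Wsub (N + 1)) * Nat.card (DihedralGroup 5) := Nat.le_mul_of_pos_right _ h3
    _ ≤ 175560 * (175560 * (175560 * (Nat.card (Wsub (N + 1)) * Nat.card (DihedralGroup 5)))) := by
      nlinarith [Nat.zero_le (Nat.card (Wsub (N + 1)) * Nat.card (DihedralGroup 5))]

end Cfsg.Agent.S3627
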