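import Cfsg.Statements.S3639
import Cfsg.Agent.Lib.Helper61.PrimeGraphExt
import Cfsg.Agent.Lib.Helper61.SzFix

set_option autoImplicit false
open Cfsg

namespace Cfsg.Agent.S3639

open Cfsg.Agent.Lib.Helper61 Matrix

universe u

variable {F : Type u} [Field F]

theorem altForm4_eq (u v : Fin 4 → F) :
    Cfsg.Lie.altForm4 u v = u ⬝ᵥ ((J4 : Matrix (Fin 4) (Fin 4) F) *ᵥ v) := by
  simp [Cfsg.Lie.altForm4, J4, Matrix.mulVec, dotProduct, Fin.sum_univ_four]

theorem mem_Sp4_iff (g : GL (Fin 4) F) :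
    g ∈ Cfsg.Lie.Sp4 F ↔ (g : Matrix (Fin 4) (Fin 4) F)ᵀ * J4 * (g : Matrix (Fin 4) (Fin 4) F) = J4 := by
  constructor
  · intro h
    ext i j
    have h1 := h (Pi.single i 1) (Pi.single j 1)
    rw [altForm4_eq, altForm4_eq] at h1
    simp only [Units.coeHom_apply] at h1
    rw [Matrix.mulVec_mulVec, Matrix.dotProduct_mulVec, Matrix.vecMul_mulVec] at h1
    simpa [Matrix.mul_assoc] using h1
  · intro h u v
    rw [altForm4_eq, altForm4_eq]
    simp only [Units.coeHom_apply]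
    rw [Matrix.mulVec_mulVec, Matrix.dotProduct_mulVec, Matrix.vecMul_mulVec, ← Matrix.mul_assoc, h,
      ← Matrix.dotProduct_mulVec]

theorem map_pow_eq [CharP F 2] (n : ℕ) (A : Matrix (Fin 4) (Fin 4) F) :
    A.map (fun x => x ^ 2 ^ n) = A.map (iterateFrobenius F 2 n) := rfl

/-- the defining set of `Sz` is a subgroup -/
def szSub (F : Type u) [Field F] [CharP F 2] (n : ℕ) : Subgroup (GL (Fin 4) F) where
  carrier := {g | g ∈ Cfsg.Lie.Sp4 F ∧ Cfsg.Lie.star4 (g : Matrix (Fin 4) (Fin 4) F) =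
    (g : Matrix (Fin 4) (Fin 4) F).map (fun x => x ^ 2 ^ n)}
  mul_mem' {g h} hg hh := by
    have h2 : (2 : F) = 0 := by
      have := CharP.cast_eq_zero F 2
      exact_mod_cast this
    refine ⟨mul_mem hg.1 hh.1, ?_⟩
    rw [Units.val_mul, star4_mul h2 ((mem_Sp4_iff g).mp hg.1) ((mem_Sp4_iff h).mp hh.1), hg.2, hh.2,
      map_pow_eq, map_pow_eq, map_pow_eq, Matrix.map_mul]
  one_mem' := by
    refine ⟨one_mem _, ?_⟩
    rw [Units.val_one, star4_one, map_pow_eq, Matrix.map_one _ (map_zero _) (map_one _)]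
  inv_mem' {g} hg := by
    have h2 : (2 : F) = 0 := by
      have := CharP.cast_eq_zero F 2
      exact_mod_cast this
    refine ⟨inv_mem hg.1, ?_⟩
    have h1 : Cfsg.Lie.star4 ((g⁻¹ : GL (Fin 4) F) : Matrix (Fin 4) (Fin 4) F) *
        (g : Matrix (Fin 4) (Fin 4) F).map (iterateFrobenius F 2 n) = 1 := by
      rw [← map_pow_eq, ← hg.2, ← star4_mul h2 ((mem_Sp4_iff g⁻¹).mp (inv_mem hg.1))
        ((mem_Sp4_iff g).mp hg.1), ← Units.val_mul, inv_mul_cancel, Units.val_one, star4_one]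
    have h3 : (g : Matrix (Fin 4) (Fin 4) F).map (iterateFrobenius F 2 n) *
        ((g⁻¹ : GL (Fin 4) F) : Matrix (Fin 4) (Fin 4) F).map (iterateFrobenius F 2 n) = 1 := by
      rw [← Matrix.map_mul, ← Units.val_mul, mul_inv_cancel, Units.val_one,
        Matrix.map_one _ (map_zero _) (map_one _)]
    rw [map_pow_eq]
    calc Cfsg.Lie.star4 ((g⁻¹ : GL (Fin 4) F) : Matrix (Fin 4) (Fin 4) F)
        = Cfsg.Lie.star4 ((g⁻¹ : GL (Fin 4) F) : Matrix (Fin 4) (Fin 4) F) *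
          ((g : Matrix (Fin 4) (Fin 4) F).map (iterateFrobenius F 2 n) *
        ((g⁻¹ : GL (Fin 4) F) : Matrix (Fin 4) (Fin 4) F).map (iterateFrobenius F 2 n)) := by
          rw [h3, Matrix.mul_one]
      _ = ((g⁻¹ : GL (Fin 4) F) : Matrix (Fin 4) (Fin 4) F).map (iterateFrobenius F 2 n) := by
          rw [← Matrix.mul_assoc, h1, Matrix.one_mul]

theorem Sz_le [CharP F 2] (n : ℕ) : Cfsg.Lie.Sz F (2 ^ n) ≤ szSub F n := by
  rw [Cfsg.Lie.Sz, Subgroup.closure_le]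
  intro g hg
  exact hg

/-- elements of `Sz` fixing a nonzero vector have order dividing 4 -/
theorem pow_four_of_fix [CharP F 2] (n : ℕ) (g : GL (Fin 4) F) (hg : g ∈ Cfsg.Lie.Sz F (2 ^ n))
    (v : Fin 4 → F) (hv : v ≠ 0) (hgv : (g : Matrix (Fin 4) (Fin 4) F) *ᵥ v = v) : g ^ 4 = 1 := by
  have h := Sz_le n hg
  apply Units.ext
  rw [Units.val_pow_eq_pow_val, Units.val_one]
  exact pow_four_eq_one_of_fix n ((mem_Sp4_iff g).mp h.1) h.2 v hv hgv

/-- the antidiagonal involution -/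
def jGL (F : Type u) [Field F] : GL (Fin 4) F := ⟨J4, J4, J4_mul_J4, J4_mul_J4⟩

theorem jGL_mem [CharP F 2] (n : ℕ) : jGL F ∈ Cfsg.Lie.Sz F (2 ^ n) := by
  have h2 : (2 : F) = 0 := by
    have := CharP.cast_eq_zero F 2
    exact_mod_cast this
  have hneg : (-1 : F) = 1 := by linear_combination (-1 : F) * h2
  apply Subgroup.subset_closure
  refine ⟨(mem_Sp4_iff _).mpr ?_, ?_⟩
  · show (J4 : Matrix (Fin 4) (Fin 4) F)ᵀ * J4 * J4 = J4
    rw [Matrix.mul_assoc, J4_mul_J4, Matrix.mul_one]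
    ext i j
    revert i j
    simp [Fin.forall_fin_succ, J4]
  · show Cfsg.Lie.star4 (J4 : Matrix (Fin 4) (Fin 4) F) = (J4 : Matrix (Fin 4) (Fin 4) F).map _
    ext p r
    rw [star4_apply]
    revert p r
    simp [Fin.forall_fin_succ, m2, Cfsg.Lie.pairOf, J4, hneg]

theorem two_dvd_card_Sz [Fintype F] [CharP F 2] (n : ℕ) : 2 ∣ Nat.card ↥(Cfsg.Lie.Sz F (2 ^ n)) := by
  classical
  let t : ↥(Cfsg.Lie.Sz F (2 ^ n)) := ⟨jGL F, jGL_mem n⟩
  have ht : orderOf t = 2 := by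
    apply orderOf_eq_prime
    · apply Subtype.ext
      apply Units.ext
      show (J4 : Matrix (Fin 4) (Fin 4) F) ^ 2 = 1
      rw [pow_two, J4_mul_J4]
    · intro h
      have h1 := congrArg (fun x : ↥(Cfsg.Lie.Sz F (2 ^ n)) => ((x : GL (Fin 4) F) : Matrix (Fin 4) (Fin 4) F) 0 0) h
      simp [t, jGL, J4] at h1
  have := orderOf_dvd_natCard t
  rwa [ht] at this

/-- Let S be the Suzuki group over the field with q = 2^(2m+1) ≥ 8 elements. Then there are finite groups of arbitrarily large order with the same prime graph as S. -/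
theorem result {F : Type*} [Field F] [Fintype F] {m : ℕ} (hm : 1 ≤ m) (hF : Fintype.card F = 2 ^ (2 * m + 1)) (N : ℕ) :
    ∃ (H : Type) (_ : Group H) (_ : Fintype H), N < Fintype.card H ∧ ((∀ r : ℕ, r.Prime → (r ∣ Nat.card ↥(Cfsg.Lie.Sz F (2 ^ (m + 1))) ↔ r ∣ Nat.card H)) ∧
      (∀ r s : ℕ, r.Prime → s.Prime → r ≠ s → ((∃ x : ↥(Cfsg.Lie.Sz F (2 ^ (m + 1))), orderOf x = r * s) ↔ (∃ y : H, orderOf y = r * s)))) := by
  classical
  have h2 : (2 : F) = 0 := by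
    have h := Nat.cast_card_eq_zero F
    rw [hF] at h
    push_cast at h
    exact (pow_eq_zero_iff (by omega)).mp h
  have : CharP F 2 := CharTwo.of_one_ne_zero_of_two_eq_zero one_ne_zero h2
  obtain ⟨H, iG, iF, hB, hS⟩ := exists_large_samePG (F := F) (n := 4)
    (L := ↥(Cfsg.Lie.Sz F (2 ^ (m + 1)))) 2 Nat.prime_two (by norm_num)
    (Cfsg.Lie.Sz F (2 ^ (m + 1))).subtype (two_dvd_card_Sz (m + 1))
    (fun g v hv hg => ⟨2, by
      apply Subtype.ext
      exact pow_four_of_fix (m + 1) g.1 g.2 v hv hg⟩) N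
  exact ⟨H, iG, iF, hB, hS⟩

end Cfsg.Agent.S3639
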