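import Cfsg.Statements.S3678
import Cfsg.Agent.Lib.Helper61.SL2Char2
import Cfsg.Agent.Lib.Helper61.SL2Trace

set_option autoImplicit false
open Cfsg

namespace Cfsg.Agent.S3678

open Cfsg.Agent.Lib.Helper61

universe u

/-- the set `{2, 3, 7}` -/
def S237 : Set ℕ := {2, 3, 7}

section seven

variable {F : Type u} [Field F] [Fintype F]

theorem seven_eq_zero (hF : Fintype.card F = 7) : (7 : F) = 0 := by
  have h := Nat.cast_card_eq_zero F
  rw [hF] at h
  exact_mod_cast h

theorem eppo7 (hF : Fintype.card F = 7) (x : Matrix.ProjectiveSpecialLinearGroup (Fin 2) F) :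
    ∃ p k : ℕ, p.Prime ∧ p ∈ S237 ∧ x ^ p ^ k = 1 := by
  have h7 := seven_eq_zero hF
  obtain ⟨g, rfl⟩ := QuotientGroup.mk_surjective x
  set t := (g : Matrix (Fin 2) (Fin 2) F).trace with htdef
  have ht : t ^ 7 = t := by
    have := FiniteField.pow_card t
    rwa [hF] at this
  have hprod : t * (t ^ 2 - 1) * (t ^ 2 - 9) * (t ^ 2 - 4) = 0 := by
    linear_combination ht - (5 * t - 7 * t ^ 3 + 2 * t ^ 5) * h7
  rcases mul_eq_zero.mp hprod with h | h
  · rcases mul_eq_zero.mp h with h | h
    · rcases mul_eq_zero.mp h with h | h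
      · refine ⟨2, 1, Nat.prime_two, by simp [S237], ?_⟩
        rw [pow_one]
        apply psl2_pow_eq_one
        show aSeq t _ = 0
        simp only [aSeq]
        linear_combination h
      · refine ⟨3, 1, Nat.prime_three, by simp [S237], ?_⟩
        rw [pow_one]
        apply psl2_pow_eq_one
        show aSeq t _ = 0
        simp only [aSeq]
        linear_combination h
    · refine ⟨2, 2, Nat.prime_two, by simp [S237], ?_⟩
      apply psl2_pow_eq_one
      show aSeq t _ = 0
      simp only [aSeq, Nat.reducePow]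
      linear_combination t * h + t * h7
  · refine ⟨7, 1, by norm_num, by simp [S237], ?_⟩
    rw [pow_one]
    apply psl2_pow_eq_one
    show aSeq t _ = 0
    simp only [aSeq]
    linear_combination (2 - t ^ 2 + t ^ 4) * h + h7

theorem exists7 (hF : Fintype.card F = 7) (p : ℕ) (hp : p ∈ S237) :
    ∃ x : Matrix.ProjectiveSpecialLinearGroup (Fin 2) F, orderOf x = p := by
  have h7 := seven_eq_zero hF
  rcases hp with rfl | rfl | rfl
  · exact exists_orderOf_psl2 0 2 Nat.prime_two (by simp [aSeq])
  · exact exists_orderOf_psl2 1 3 Nat.prime_three (by simp [aSeq])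
  · refine exists_orderOf_psl2 2 7 (by norm_num) ?_
    simp only [aSeq]
    linear_combination h7

end seven

section eight

variable {F : Type u} [Field F] [Fintype F] [CharP F 2]

theorem cases8 (hF : Fintype.card F = 8) (t : F) :
    t = 0 ∨ t = 1 ∨ t ^ 3 + t + 1 = 0 ∨ t ^ 3 + t ^ 2 + 1 = 0 := by
  have h2 : (2 : F) = 0 := two_eq_zero_F
  have ht : t ^ 8 = t := by
    have := FiniteField.pow_card t
    rwa [hF] at this
  have hprod : t * (t - 1) * (t ^ 3 + t + 1) * (t ^ 3 + t ^ 2 + 1) = 0 := by
    linear_combination ht - (t ^ 4 - t ^ 5) * h2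
  rcases mul_eq_zero.mp hprod with h | h
  · rcases mul_eq_zero.mp h with h | h
    · rcases mul_eq_zero.mp h with h | h
      · exact Or.inl h
      · exact Or.inr (Or.inl (by linear_combination h))
    · exact Or.inr (Or.inr (Or.inl h))
  · exact Or.inr (Or.inr (Or.inr h))

theorem eppo8 (hF : Fintype.card F = 8) (x : Matrix.ProjectiveSpecialLinearGroup (Fin 2) F) :
    ∃ p k : ℕ, p.Prime ∧ p ∈ S237 ∧ x ^ p ^ k = 1 := by
  have h2 : (2 : F) = 0 := two_eq_zero_F
  obtain ⟨g, rfl⟩ := QuotientGroup.mk_surjective x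
  set t := (g : Matrix (Fin 2) (Fin 2) F).trace with htdef
  rcases cases8 hF t with h | h | h | h
  · refine ⟨2, 1, Nat.prime_two, by simp [S237], ?_⟩
    rw [pow_one]
    apply psl2_pow_eq_one
    show aSeq t _ = 0
    simp only [aSeq]
    linear_combination h
  · refine ⟨3, 1, Nat.prime_three, by simp [S237], ?_⟩
    rw [pow_one]
    apply psl2_pow_eq_one
    show aSeq t _ = 0
    rw [h]
    simp [aSeq]
  · refine ⟨3, 2, Nat.prime_three, by simp [S237], ?_⟩
    apply psl2_pow_eq_one
    show aSeq t _ = 0
    simp only [aSeq, Nat.reducePow]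
    linear_combination (9 + 23 * t - t ^ 2 - 8 * t ^ 3 + t ^ 5) * h + (-4 - 16 * t - 16 * t ^ 2) * h2
  · refine ⟨7, 1, by norm_num, by simp [S237], ?_⟩
    rw [pow_one]
    apply psl2_pow_eq_one
    show aSeq t _ = 0
    simp only [aSeq]
    linear_combination (3 - 4 * t - t ^ 2 + t ^ 3) * h + (-2 + 2 * t + 2 * t ^ 2) * h2

theorem exists8 (hF : Fintype.card F = 8) (p : ℕ) (hp : p ∈ S237) :
    ∃ x : Matrix.ProjectiveSpecialLinearGroup (Fin 2) F, orderOf x = p := by
  classical
  have h2 : (2 : F) = 0 := two_eq_zero_F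
  rcases hp with rfl | rfl | rfl
  · exact exists_orderOf_psl2 0 2 Nat.prime_two (by simp [aSeq])
  · exact exists_orderOf_psl2 1 3 Nat.prime_three (by simp [aSeq])
  · -- a root of `t³ + t² + 1`
    obtain ⟨t, ht⟩ : ∃ t : F, t ^ 3 + t ^ 2 + 1 = 0 := by
      obtain ⟨t0, h0⟩ : ∃ t0 : F, t0 ∉ ({0, 1} : Finset F) := by
        by_contra hcon
        push Not at hcon
        have : Fintype.card F ≤ ({0, 1} : Finset F).card :=
          Finset.card_le_card (fun x _ => hcon x)
        have h3 : ({0, 1} : Finset F).card ≤ 2 := Finset.card_le_two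
        omega
      simp only [Finset.mem_insert, Finset.mem_singleton, not_or] at h0
      rcases cases8 hF t0 with h | h | h | h
      · exact absurd h h0.1
      · exact absurd h h0.2
      · exact ⟨t0 + 1, by linear_combination h + (2 * t0 ^ 2 + 2 * t0 + 1) * h2⟩
      · exact ⟨t0, h⟩
    refine exists_orderOf_psl2 t 7 (by norm_num) ?_
    simp only [aSeq]
    linear_combination (3 - 4 * t - t ^ 2 + t ^ 3) * ht + (-2 + 2 * t + 2 * t ^ 2) * h2

end eight

/-- The prime graph of a finite group has the prime divisors of its order as vertices, two distinct primes p, q being joined when the group has an element of order pq; two groups have the same prime graph when they have the same prime divisors and the same joined pairs. Let F be the field with 7 elements. There are finite groups of arbitrarily large order with the same prime graph as PSL(2,F) (the graph on {2, 3, 7} with no edges, which is also the prime graph of PSL(2,8)). -/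
theorem result {F : Type*} [Field F] [Fintype F] (hF : Fintype.card F = 7) (N : ℕ) :
    ∃ (H : Type) (_ : Group H) (_ : Finite H), N < Nat.card H ∧
      ((∀ p : ℕ, p.Prime → (p ∣ Nat.card (Matrix.ProjectiveSpecialLinearGroup (Fin 2) F) ↔ p ∣ Nat.card H)) ∧
      (∀ p q : ℕ, p.Prime → q.Prime → p ≠ q → ((∃ g : (Matrix.ProjectiveSpecialLinearGroup (Fin 2) F), orderOf g = p * q) ↔ (∃ g : H, orderOf g = p * q)))) := by
  classical
  have : Finite (GaloisField 2 3) := Nat.finite_of_card_ne_zero (by
    rw [GaloisField.card 2 3 (by norm_num)]; norm_num)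
  let _ : Fintype (GaloisField 2 3) := Fintype.ofFinite _
  have h8 : Fintype.card (GaloisField 2 3) = 8 := by
    rw [← Nat.card_eq_fintype_card, GaloisField.card 2 3 (by norm_num)]
    norm_num
  obtain ⟨H, iG, iF, hB, hS⟩ := exists_large_samePG_PSL2 (F := GaloisField 2 3) N
  have hsame : SamePG (Matrix.ProjectiveSpecialLinearGroup (Fin 2) F)
      (Matrix.ProjectiveSpecialLinearGroup (Fin 2) (GaloisField 2 3)) :=
    samePG_of_EPPO S237 (eppo7 hF) (exists7 hF) (eppo8 h8) (exists8 h8)
  exact ⟨H, iG, inferInstance, by rw [Nat.card_eq_fintype_card]; exact hB, hsame.trans hS⟩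

end Cfsg.Agent.S3678
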