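import Mathlib
import Cfsg.Statements.S3680
import Cfsg.Agent.S0721
import Cfsg.Agent.Lib.Helper1.MinimalNormal

set_option autoImplicit false
open Cfsg

namespace Cfsg.Agent.S3680

variable {G Ω : Type*} [Group G] [MulAction G Ω]

theorem trans_of_normal [FaithfulSMul G Ω] (hprim : MulAction.IsPreprimitive G Ω) (V : Subgroup G)
    (hV : V.Normal) (hne : V ≠ ⊥) : MulAction.IsPretransitive V Ω := by
  apply MulAction.IsQuasiPreprimitive.isPretransitive_of_normal (G := G)
  intro h
  apply hne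
  rw [eq_bot_iff]
  intro v hv
  rw [Subgroup.mem_bot]
  apply FaithfulSMul.eq_of_smul_eq_smul (α := Ω)
  intro a
  have : a ∈ MulAction.fixedPoints V Ω := by rw [h]; trivial
  rw [one_smul]
  exact this ⟨v, hv⟩

/-- an element commuting with a transitive subgroup and fixing a point is trivial -/
theorem eq_one_of_commute_trans [FaithfulSMul G Ω] (V : Subgroup G) (hV : MulAction.IsPretransitive V Ω)
    (c : G) (hc : ∀ v ∈ V, c * v = v * c) (a : Ω) (ha : c • a = a) : c = 1 := by
  apply FaithfulSMul.eq_of_smul_eq_smul (α := Ω)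
  intro b
  obtain ⟨v, rfl⟩ := hV.exists_smul_eq a b
  rw [one_smul]
  show c • ((v : G) • a) = (v : G) • a
  rw [← mul_smul, hc v v.2, mul_smul, ha]

theorem commute_of_inf_eq_bot (V W : Subgroup G) (hV : V.Normal) (hW : W.Normal) (h : V ⊓ W = ⊥) :
    ∀ w ∈ W, ∀ v ∈ V, w * v = v * w := by
  intro w hw v hv
  have h1 : w * v * w⁻¹ * v⁻¹ ∈ V ⊓ W := by
    refine Subgroup.mem_inf.mpr ⟨?_, ?_⟩
    · exact V.mul_mem (hV.conj_mem v hv w) (V.inv_mem hv)
    · have := W.mul_mem hw (hW.conj_mem w⁻¹ (W.inv_mem hw) v)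
      have e : w * v * w⁻¹ * v⁻¹ = w * (v * w⁻¹ * v⁻¹) := by group
      rw [e]; exact this
  rw [h, Subgroup.mem_bot] at h1
  have h2 : w * v = (w * v * w⁻¹ * v⁻¹) * (v * w) := by group
  rw [h2, h1, one_mul]

/-- two regular subgroups centralizing each other are isomorphic -/
theorem nonempty_mulEquiv_of_regular [FaithfulSMul G Ω] (V W : Subgroup G)
    (hV : MulAction.IsPretransitive V Ω) (hW : MulAction.IsPretransitive W Ω)
    (hc : ∀ w ∈ W, ∀ v ∈ V, w * v = v * w) (a : Ω) : Nonempty (V ≃* W) := by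
  have hex : ∀ v : V, ∃ w : W, (w : G) • a = (v : G)⁻¹ • a := fun v => hW.exists_smul_eq a _
  choose θ hθ using hex
  have huniq : ∀ w w' : W, (w : G) • a = (w' : G) • a → w = w' := by
    intro w w' h
    have h1 : ((w' : G)⁻¹ * w) • a = a := by rw [mul_smul, h, inv_smul_smul]
    have h2 := eq_one_of_commute_trans V hV ((w' : G)⁻¹ * w)
      (fun v hv => hc _ (W.mul_mem (W.inv_mem w'.2) w.2) v hv) a h1
    apply Subtype.ext
    exact (inv_mul_eq_one.mp h2).symm
  have huniqV : ∀ v v' : V, (v : G) • a = (v' : G) • a → v = v' := by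
    intro v v' h
    have h1 : ((v' : G)⁻¹ * v) • a = a := by rw [mul_smul, h, inv_smul_smul]
    have h2 := eq_one_of_commute_trans W hW ((v' : G)⁻¹ * v)
      (fun w hw => (hc w hw _ (V.mul_mem (V.inv_mem v'.2) v.2)).symm) a h1
    apply Subtype.ext
    exact (inv_mul_eq_one.mp h2).symm
  have hmul : ∀ v v' : V, θ (v * v') = θ v * θ v' := by
    intro v v'
    apply huniq
    rw [hθ]
    show ((v : G) * (v' : G))⁻¹ • a = ((θ v : G) * (θ v' : G)) • a
    rw [mul_smul, hθ v', ← mul_smul, hc _ (θ v).2 _ (V.inv_mem v'.2), mul_smul, hθ v, ← mul_smul,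
      mul_inv_rev]
  have hinj : Function.Injective θ := by
    intro v v' h
    have h1 : (v : G)⁻¹ • a = (v' : G)⁻¹ • a := by rw [← hθ, ← hθ, h]
    have h2 := huniqV v⁻¹ v'⁻¹ h1
    exact inv_injective h2
  have hsurj : Function.Surjective θ := by
    intro w
    obtain ⟨v, hv⟩ := hV.exists_smul_eq a ((w : G) • a)
    refine ⟨v⁻¹, ?_⟩
    apply huniq
    rw [hθ]
    simp only [Subgroup.coe_inv, inv_inv]
    exact hv
  exact ⟨MulEquiv.ofBijective (MonoidHom.mk' θ hmul) ⟨hinj, hsurj⟩⟩

theorem nonempty_pow_add (T : Type*) [Group T] (a b : ℕ) :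
    Nonempty (((Fin a → T) × (Fin b → T)) ≃* (Fin (a + b) → T)) := by
  induction b with
  | zero =>
    refine ⟨{ toFun := fun x => x.1, invFun := fun x => (x, 1), left_inv := ?_, right_inv := ?_, map_mul' := ?_ }⟩
    · intro x
      ext i
      · rfl
      · exact i.elim0
    · intro x; rfl
    · intro x y; rfl
  | succ b ih =>
    obtain ⟨e⟩ := ih
    obtain ⟨e1⟩ := Cfsg.Agent.S0721.nonempty_cons_equiv T b
    obtain ⟨e2⟩ := Cfsg.Agent.S0721.nonempty_cons_equiv T (a + b)
    exact ⟨((MulEquiv.prodCongr (MulEquiv.refl _) e1.symm).trans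
      (MulEquiv.prodAssoc.symm.trans (MulEquiv.prodCongr e (MulEquiv.refl _)))).trans e2⟩

/-- The socle of a finite primitive permutation group. Let a finite group G act faithfully and primitively on a set Ω, and let N be the subgroup generated by the minimal normal subgroups of G. Then either N is an elementary abelian p-group for some prime p and acts regularly on Ω (transitively with trivial point stabilizers), or N is isomorphic to a direct product of m ≥ 1 copies of a non-abelian simple group. -/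
theorem result {G Ω : Type*} [Group G] [Finite G] [MulAction G Ω] [FaithfulSMul G Ω] [Finite Ω]
    (hprim : MulAction.IsPreprimitive G Ω) (N : Subgroup G)
    (hN : N = sSup {V : Subgroup G | V.Normal ∧ V ≠ ⊥ ∧ ∀ M : Subgroup G, M.Normal → M ≤ V → M = ⊥ ∨ M = V}) :
    (∃ p : ℕ, p.Prime ∧ IsMulCommutative N ∧ (∀ x : N, x ^ p = 1) ∧
      MulAction.IsPretransitive N Ω ∧ ∀ ω : Ω, MulAction.stabilizer N ω = ⊥) ∨
    (∃ (T : Type) (_ : Group T) (m : ℕ), 1 ≤ m ∧ IsSimpleGroup T ∧ ¬ IsMulCommutative T ∧ Nonempty (N ≃* (Fin m → T))) := by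
  by_cases hG : Nontrivial G
  swap
  · left
    have hsub : Subsingleton G := not_nontrivial_iff_subsingleton.mp hG
    refine ⟨2, Nat.prime_two, ⟨⟨fun a b => Subsingleton.elim _ _⟩⟩, fun x => Subsingleton.elim _ _, ?_,
      fun ω => Subsingleton.elim _ _⟩
    have := hprim.toIsPretransitive
    refine ⟨fun a b => ?_⟩
    obtain ⟨g, hg⟩ := MulAction.exists_smul_eq G a b
    refine ⟨1, ?_⟩
    rw [one_smul, ← hg, Subsingleton.elim g 1, one_smul]
  obtain ⟨V, hVn, hV0, hVmin⟩ := Cfsg.Agent.Lib.Helper1.exists_minimal_normal (G := G)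
  have hVt := trans_of_normal hprim V hVn hV0
  have hΩ : Nonempty Ω := by
    by_contra hcon
    rw [not_nonempty_iff] at hcon
    obtain ⟨x, y, hxy⟩ := hG
    exact hxy (FaithfulSMul.eq_of_smul_eq_smul (α := Ω) (fun a => hcon.elim a))
  obtain ⟨a⟩ := hΩ
  have hother : ∀ W : Subgroup G, W.Normal → W ≠ ⊥ →
      (∀ M : Subgroup G, M.Normal → M ≤ W → M = ⊥ ∨ M = W) → W ≠ V →
      V ⊓ W = ⊥ ∧ (∀ w ∈ W, ∀ v ∈ V, w * v = v * w) ∧ W = Subgroup.centralizer (V : Set G) := by
    intro W hWn hW0 hWmin hWV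
    have hinf : V ⊓ W = ⊥ := by
      rcases hVmin (V ⊓ W) inferInstance inf_le_left with h | h
      · exact h
      · have hVW : V ≤ W := inf_eq_left.mp h
        rcases hWmin V hVn hVW with h' | h'
        · exact absurd h' hV0
        · exact absurd h'.symm hWV
    have hc := commute_of_inf_eq_bot V W hVn hWn hinf
    refine ⟨hinf, hc, le_antisymm ?_ ?_⟩
    · intro w hw
      rw [Subgroup.mem_centralizer_iff]
      intro v hv
      exact (hc w hw v hv).symm
    · intro c hcc
      rw [Subgroup.mem_centralizer_iff] at hcc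
      have hWt := trans_of_normal hprim W hWn hW0
      obtain ⟨w, hw⟩ := hWt.exists_smul_eq a (c • a)
      have hw' : (w : G) • a = c • a := hw
      have h1 : ((w : G)⁻¹ * c) • a = a := by rw [mul_smul, ← hw', inv_smul_smul]
      have h2 := eq_one_of_commute_trans V hVt ((w : G)⁻¹ * c) (by
        intro v hv
        have e1 := hc _ (W.inv_mem w.2) v hv
        have e2 := hcc v hv
        calc (w : G)⁻¹ * c * v = (w : G)⁻¹ * (c * v) := by group
          _ = (w : G)⁻¹ * (v * c) := by rw [e2]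
          _ = ((w : G)⁻¹ * v) * c := by group
          _ = (v * (w : G)⁻¹) * c := by rw [e1]
          _ = v * ((w : G)⁻¹ * c) := by group) a h1
      have h3 : c = w := (inv_mul_eq_one.mp h2).symm
      rw [h3]; exact w.2
  have hVmem : V ∈ {V : Subgroup G | V.Normal ∧ V ≠ ⊥ ∧ ∀ M : Subgroup G, M.Normal → M ≤ V → M = ⊥ ∨ M = V} :=
    ⟨hVn, hV0, hVmin⟩
  by_cases hVc : ∀ x ∈ V, ∀ y ∈ V, x * y = y * x
  · -- abelian case
    left
    have hNV : N = V := by
      rw [hN]
      apply le_antisymm _ (le_sSup hVmem)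
      apply sSup_le
      rintro W ⟨hWn, hW0, hWmin⟩
      by_contra hcon
      have hWV : W ≠ V := fun h => hcon h.le
      obtain ⟨-, -, h3⟩ := hother W hWn hW0 hWmin hWV
      have hVW : V ≤ W := by
        rw [h3]
        intro v hv
        rw [Subgroup.mem_centralizer_iff]
        intro x hx
        exact hVc x hx v hv
      rcases hWmin V hVn hVW with h' | h'
      · exact hV0 h'
      · exact hWV h'.symm
    subst hNV
    have hsol : Group.IsSolvable N := Group.isSolvable_of_comm (fun x y => Subtype.ext (hVc x x.2 y y.2))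
    obtain ⟨hcomm, p, hp, hpow⟩ := Cfsg.Agent.Lib.Helper1.minimal_normal_elementary_abelian N hsol hV0 hVmin
    refine ⟨p, hp, hcomm, fun x => Subtype.ext (hpow x x.2), hVt, ?_⟩
    intro ω
    rw [eq_bot_iff]
    intro v hv
    rw [Subgroup.mem_bot]
    apply Subtype.ext
    exact eq_one_of_commute_trans N hVt v (fun x hx => hVc v v.2 x hx) ω hv
  · right
    obtain ⟨T, _, m, hT, hm, ⟨e⟩⟩ := Cfsg.Agent.S0721.result V hV0 hVmin
    have hTnc : ¬ IsMulCommutative T := by
      intro hTc
      apply hVc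
      intro x hx y hy
      have h1 : e ⟨x, hx⟩ * e ⟨y, hy⟩ = e ⟨y, hy⟩ * e ⟨x, hx⟩ := by
        funext i
        exact hTc.is_comm.comm _ _
      rw [← map_mul, ← map_mul] at h1
      exact congrArg Subtype.val (e.injective h1)
    by_cases hW : ∃ W : Subgroup G, W.Normal ∧ W ≠ ⊥ ∧
        (∀ M : Subgroup G, M.Normal → M ≤ W → M = ⊥ ∨ M = W) ∧ W ≠ V
    · obtain ⟨W, hWn, hW0, hWmin, hWV⟩ := hW
      obtain ⟨hinf, hc, hWcent⟩ := hother W hWn hW0 hWmin hWV
      have hNVW : N = V ⊔ W := by
        rw [hN]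
        apply le_antisymm
        · apply sSup_le
          rintro W' ⟨hWn', hW0', hWmin'⟩
          by_cases h : W' = V
          · rw [h]; exact le_sup_left
          · obtain ⟨-, -, h3⟩ := hother W' hWn' hW0' hWmin' h
            rw [h3, ← hWcent]; exact le_sup_right
        · exact sup_le (le_sSup hVmem) (le_sSup ⟨hWn, hW0, hWmin⟩)
      subst hNVW
      have hWt := trans_of_normal hprim W hWn hW0
      obtain ⟨f⟩ := nonempty_mulEquiv_of_regular V W hVt hWt hc a
      obtain ⟨f2⟩ := Cfsg.Agent.S0721.nonempty_prod_equiv_sup V W (fun v hv w hw => (hc w hw v hv).symm) hinf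
      obtain ⟨f3⟩ := nonempty_pow_add T m m
      refine ⟨T, inferInstance, m + m, by omega, hT, hTnc, ⟨?_⟩⟩
      exact (f2.symm.trans (MulEquiv.prodCongr e (f.symm.trans e))).trans f3
    · push Not at hW
      have hNV : N = V := by
        rw [hN]
        apply le_antisymm _ (le_sSup hVmem)
        apply sSup_le
        rintro W ⟨hWn, hW0, hWmin⟩
        exact (hW W hWn hW0 hWmin).le
      subst hNV
      exact ⟨T, inferInstance, m, hm, hT, hTnc, ⟨e⟩⟩

end Cfsg.Agent.S3680
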