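import Cfsg.Statements.S3682
import Cfsg.Agent.Lib.Helper76.TWe

set_option autoImplicit false
open Cfsg

namespace Cfsg.Agent.S3682

open Cfsg.Agent.Lib.Helper76.TW

/-- Wielandt's bound toward the Sims conjecture. Let a finite group G act faithfully and primitively on a set Ω, let a and b be points, and suppose the orbit of b under the stabilizer of a has length d ≥ 2. Then there are a prime p and a normal p-subgroup P of the stabilizer of a, all of whose elements fix b, such that the index of P in the stabilizer of a divides d! · ((d - 1)!)^d. -/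
theorem result {G Ω : Type*} [Group G] [Finite G] [MulAction G Ω] [FaithfulSMul G Ω] [Finite Ω]
    (hprim : MulAction.IsPreprimitive G Ω) (a b : Ω) (d : ℕ) (hd : Nat.card (MulAction.orbit (MulAction.stabilizer G a) b) = d) (h2 : 2 ≤ d) :
    ∃ p : ℕ, p.Prime ∧ ∃ P : Subgroup (MulAction.stabilizer G a), P.Normal ∧ IsPGroup p P ∧ (∀ g : P, ((g : MulAction.stabilizer G a) : G) • b = b) ∧
      P.index ∣ Nat.factorial d * (Nat.factorial (d - 1)) ^ d := by
  have hP : Pair (MulAction.stabilizer G a) (MulAction.stabilizer G b) :=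
    pair_stabilizer hprim a b (hd ▸ h2)
  have hdd : (MulAction.stabilizer G a ⊓ MulAction.stabilizer G b).relIndex
      (MulAction.stabilizer G a) = d := (relIndex_stabilizer a b).trans hd
  by_cases h0 : c2 (MulAction.stabilizer G a) (MulAction.stabilizer G b) = ⊥ ∨
      c2 (MulAction.stabilizer G b) (MulAction.stabilizer G a) = ⊥
  · refine ⟨2, Nat.prime_two, ⊥, inferInstance, IsPGroup.of_bot, ?_, ?_⟩
    · rintro ⟨g, hg⟩
      rw [Subgroup.mem_bot] at hg
      simp [hg]
    · rw [Subgroup.index_bot]
      exact hP.card_dvd d hdd h0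
  · push Not at h0
    obtain ⟨p, hp, h1, -, -, -⟩ := hP.main h0.1 h0.2
    refine ⟨p, hp, (c2 (MulAction.stabilizer G a) (MulAction.stabilizer G b)).subgroupOf
      (MulAction.stabilizer G a), ?_, h1.comap_subtype, ?_, ?_⟩
    · exact (Subgroup.normal_subgroupOf_iff_le_normalizer (c2_le_left _ _)).mpr
        (le_normalizer_c2 _ _)
    · rintro ⟨g, hg⟩
      exact MulAction.mem_stabilizer_iff.mp (c2_le_right _ _ (Subgroup.mem_subgroupOf.mp hg))
    · exact relIndex_c2_dvd hP.card_eq d hdd

end Cfsg.Agent.S3682
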