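import Cfsg.Statements.S3683

set_option autoImplicit false
open Cfsg

namespace Cfsg.Agent.S3683

/-- a group in which the trivial subgroup is maximal is cyclic of prime order -/
theorem cyclic_prime_of_isCoatom_bot {G : Type*} [Group G] [Finite G]
    (h : IsCoatom (⊥ : Subgroup G)) : IsCyclic G ∧ (Nat.card G).Prime := by
  have hnt : Nontrivial G := by
    by_contra hn
    rw [not_nontrivial_iff_subsingleton] at hn
    exact h.1 (Subsingleton.elim _ _)
  obtain ⟨x, hx⟩ := exists_ne (1 : G)
  have hz : Subgroup.zpowers x = ⊤ := by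
    apply h.2
    rw [bot_lt_iff_ne_bot]
    intro h0
    exact hx (Subgroup.zpowers_eq_bot.mp h0)
  have hc : IsCyclic G := ⟨x, fun y => by
    have : y ∈ (⊤ : Subgroup G) := Subgroup.mem_top y
    rwa [← hz] at this⟩
  refine ⟨hc, ?_⟩
  let _ : CommGroup G := IsCyclic.commGroup
  have : IsSimpleGroup G := by
    refine ⟨fun H _ => ?_⟩
    by_cases hH : H = ⊥
    · exact Or.inl hH
    · exact Or.inr (h.2 H (bot_lt_iff_ne_bot.mpr hH))
  exact IsSimpleGroup.prime_card

/-- Let a finite group G act faithfully and primitively on a set Ω, and suppose the stabilizer of a point a fixes a second point b ≠ a (a suborbit of length 1 other than {a}). Then the stabilizer of a is trivial and G is cyclic of prime order. -/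
theorem result {G Ω : Type*} [Group G] [Finite G] [MulAction G Ω] [FaithfulSMul G Ω] [Finite Ω]
    (hprim : MulAction.IsPreprimitive G Ω) (a b : Ω) (hab : a ≠ b) (hfix : ∀ g : G, g • a = a → g • b = b) :
    MulAction.stabilizer G a = ⊥ ∧ IsCyclic G ∧ (Nat.card G).Prime := by
  have : Nontrivial Ω := ⟨a, b, hab⟩
  have hmax : IsCoatom (MulAction.stabilizer G a) :=
    MulAction.IsPreprimitive.isCoatom_stabilizer_of_isPreprimitive G a
  have hmaxb : IsCoatom (MulAction.stabilizer G b) :=
    MulAction.IsPreprimitive.isCoatom_stabilizer_of_isPreprimitive G b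
  have hle : MulAction.stabilizer G a ≤ MulAction.stabilizer G b := fun g hg => hfix g hg
  have heq : MulAction.stabilizer G a = MulAction.stabilizer G b := by
    rcases eq_or_lt_of_le hle with h | h
    · exact h
    · exact absurd (hmax.2 _ h) hmaxb.1
  obtain ⟨g, hg⟩ := MulAction.exists_smul_eq G a b
  have hgn : g ∈ Subgroup.normalizer (MulAction.stabilizer G a : Set G) := by
    rw [Subgroup.mem_normalizer_iff]
    intro h
    constructor
    · intro hh
      have : g * h * g⁻¹ ∈ MulAction.stabilizer G b := by
        rw [MulAction.mem_stabilizer_iff, ← hg, mul_smul, mul_smul, inv_smul_smul,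
          MulAction.mem_stabilizer_iff.mp hh]
      rwa [← heq] at this
    · intro hh
      rw [heq, MulAction.mem_stabilizer_iff, ← hg, mul_smul, mul_smul, inv_smul_smul] at hh
      rw [MulAction.mem_stabilizer_iff]
      exact smul_left_cancel g hh
  have hgS : g ∉ MulAction.stabilizer G a := by
    intro h
    rw [MulAction.mem_stabilizer_iff] at h
    exact hab (h.symm.trans hg)
  have hnorm : Subgroup.normalizer (MulAction.stabilizer G a : Set G) = ⊤ := by
    apply hmax.2
    exact lt_of_le_of_ne Subgroup.le_normalizer (fun h => hgS (by rw [h]; exact hgn))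
  have hN : (MulAction.stabilizer G a).Normal := Subgroup.normalizer_eq_top_iff.mp hnorm
  have hbot : MulAction.stabilizer G a = ⊥ := by
    rw [eq_bot_iff]
    intro s hs
    rw [Subgroup.mem_bot]
    apply FaithfulSMul.eq_of_smul_eq_smul (α := Ω)
    intro x
    obtain ⟨h, rfl⟩ := MulAction.exists_smul_eq G a x
    have h1 : h⁻¹ * s * h⁻¹⁻¹ ∈ MulAction.stabilizer G a := hN.conj_mem s hs h⁻¹
    rw [inv_inv, MulAction.mem_stabilizer_iff, mul_smul, mul_smul] at h1
    rw [one_smul]
    calc s • h • a = h • (h⁻¹ • s • h • a) := by rw [smul_inv_smul]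
      _ = h • a := by rw [h1]
  refine ⟨hbot, ?_⟩
  rw [hbot] at hmax
  exact cyclic_prime_of_isCoatom_bot hmax

end Cfsg.Agent.S3683
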