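import Cfsg.Statements.S3693
import Cfsg.Agent.Lib.Helper76.TWe

set_option autoImplicit false
open Cfsg

namespace Cfsg.Agent.S3693

open Cfsg.Agent.Lib.Helper76.TW Cfsg.Agent.Lib.Helper31 Cfsg.Agent.Lib.Helper62

theorem Qp_inf_eq_bot {G : Type*} [Group G] [Finite G] {M₁ M₂ : Subgroup G} (h : Pair M₁ M₂)
    (p : ℕ) [hp : Fact p.Prime] (hN : Qp p (M₁ ⊓ M₂) ≤ c1 M₁ M₂) : Qp p (M₁ ⊓ M₂) = ⊥ := by
  by_contra hne
  set D := M₁ ⊓ M₂ with hD
  set N := Qp p D with hNdef
  set A₁ := c1 M₁ M₂ with hA₁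
  have hAD : A₁ ≤ D := le_inf (c1_le_left M₁ M₂) (c1_le_right M₁ M₂)
  have hNp : IsPGroup p ↥N := pCore_map_subtype_isPGroup p D
  have h1 : N ≤ Qp p A₁ := le_pCore_map_subtype hN (hAD.trans (le_normalizer_pCore p D)) hNp
  have hM1 : M₁ ≤ Subgroup.normalizer (Qp p A₁ : Set G) :=
    (le_normalizer_c1 M₁ M₂).trans (normalizer_le_normalizer_pCore p A₁)
  have h2 : Qp p A₁ ≤ N :=
    le_pCore_map_subtype ((pCore_map_subtype_le p A₁).trans hAD) (inf_le_left.trans hM1)
      (pCore_map_subtype_isPGroup p A₁)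
  have heq : N = Qp p A₁ := le_antisymm h1 h2
  have hNM : N ≤ M₁ := (pCore_map_subtype_le p D).trans inf_le_left
  have hNM2 : N ≤ M₂ := (pCore_map_subtype_le p D).trans inf_le_right
  have hNN : Subgroup.normalizer (N : Set G) = M₁ :=
    normalizer_eq h.max₁ h.core₁ hNM hne (heq ▸ hM1)
  have hNQ1 : N ≤ Qp p M₁ := heq ▸ Qp_le_Qp (c1_le_left M₁ M₂) (le_normalizer_c1 M₁ M₂)
  have hn2 : N ≤ Subgroup.normalizer (Qp p M₂ : Set G) := hNM2.trans (le_normalizer_pCore p M₂)
  have hT : IsPGroup p ↥(N ⊔ Qp p M₂) :=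
    hNp.to_sup_of_normal_right' (pCore_map_subtype_isPGroup p M₂) hn2
  have hR : Qp p M₂ ⊓ M₁ ≤ N := by
    apply le_pCore_map_subtype
    · exact le_inf inf_le_right (inf_le_left.trans (pCore_map_subtype_le p M₂))
    · exact le_trans (le_inf (inf_le_right.trans (le_normalizer_pCore p M₂))
        (inf_le_left.trans Subgroup.le_normalizer)) Subgroup.inf_normalizer_le_normalizer_inf
    · exact (pCore_map_subtype_isPGroup p M₂).to_le inf_le_left
  have hle : Qp p M₂ ≤ N := by
    by_contra hnle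
    have hlt : N < N ⊔ Qp p M₂ := by
      refine lt_of_le_of_ne le_sup_left fun he => hnle ?_
      rw [he]; exact le_sup_right
    obtain ⟨x, hx, hxN, hxQ⟩ := exists_mem_normalizer_not_mem hT hlt
    rw [hNN] at hxN
    have hx' : x ∈ ((N ⊔ Qp p M₂ : Subgroup G) : Set G) := hx
    rw [Subgroup.coe_mul_of_left_le_normalizer_right _ _ hn2] at hx'
    obtain ⟨u, hu, v, hv, rfl⟩ := hx'
    apply hxQ
    refine N.mul_mem hu (hR ⟨hv, ?_⟩)
    have := M₁.mul_mem (M₁.inv_mem (hNM hu)) hxN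
    simpa using this
  have hQQ : Qp p M₂ = Qp p M₁ :=
    Subgroup.eq_of_le_of_card_ge (hle.trans hNQ1) (h.card_Qp p).ge
  have hQ1 : Qp p M₁ ≠ ⊥ := fun h0 => hne (eq_bot_iff.mpr (h0 ▸ hNQ1))
  have hQN : Subgroup.normalizer (Qp p M₁ : Set G) = M₁ :=
    normalizer_eq h.max₁ h.core₁ (pCore_map_subtype_le p M₁) hQ1 (le_normalizer_pCore p M₁)
  apply h.not_le
  calc M₂ ≤ Subgroup.normalizer (Qp p M₂ : Set G) := le_normalizer_pCore p M₂
    _ = M₁ := by rw [hQQ, hQN]

/-- Let a finite group G act faithfully and primitively on a set Ω, let a and b be points such that the orbit Δ of b under the stabilizer H of a has length d ≥ 2, and consider the permutation group induced on Δ by the elements of H fixing b. If that induced group has trivial Fitting subgroup (no non-trivial nilpotent normal subgroup), then the two-point stabilizer of a and b has trivial Fitting subgroup and the order of H divides d! · ((d - 1)!)^d. -/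
theorem result {G Ω : Type*} [Group G] [Finite G] [MulAction G Ω] [FaithfulSMul G Ω] [Finite Ω]
    (hprim : MulAction.IsPreprimitive G Ω) (a b : Ω) (d : ℕ) (hd : Nat.card (MulAction.orbit (MulAction.stabilizer G a) b) = d) (h2 : 2 ≤ d)
    (hF : Cfsg.fittingSubgroup ↥(((MulAction.stabilizer G b).subgroupOf (MulAction.stabilizer G a)).map (MulAction.toPermHom (MulAction.stabilizer G a) (MulAction.orbit (MulAction.stabilizer G a) b))) = ⊥) :
    Cfsg.fittingSubgroup ↥(MulAction.stabilizer G a ⊓ MulAction.stabilizer G b) = ⊥ ∧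
      Nat.card (MulAction.stabilizer G a) ∣ Nat.factorial d * (Nat.factorial (d - 1)) ^ d := by
  have hP : Pair (MulAction.stabilizer G a) (MulAction.stabilizer G b) :=
    pair_stabilizer hprim a b (hd ▸ h2)
  have hdd : (MulAction.stabilizer G a ⊓ MulAction.stabilizer G b).relIndex
      (MulAction.stabilizer G a) = d := (relIndex_stabilizer a b).trans hd
  set M₁ := MulAction.stabilizer G a with hM₁
  set M₂ := MulAction.stabilizer G b with hM₂
  set f := MulAction.toPermHom ↥M₁ (MulAction.orbit ↥M₁ b) with hf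
  set I := (M₂.subgroupOf M₁).map f with hI
  have key : ∀ p : ℕ, p.Prime → Qp p (M₁ ⊓ M₂) = ⊥ := by
    intro p hp
    have : Fact p.Prime := ⟨hp⟩
    apply Qp_inf_eq_bot hP p
    set N := Qp p (M₁ ⊓ M₂) with hN
    have hNM : N ≤ M₁ := (pCore_map_subtype_le p _).trans inf_le_left
    have hNM2 : N ≤ M₂ := (pCore_map_subtype_le p _).trans inf_le_right
    set J := (N.subgroupOf M₁).map f with hJ
    have hJI : J ≤ I := Subgroup.map_mono (Subgroup.subgroupOf_mono _ hNM2)
    have hJp : IsPGroup p ↥J := ((pCore_map_subtype_isPGroup p _).comap_subtype).map f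
    have hIJ : I ≤ Subgroup.normalizer (J : Set _) := by
      refine le_trans (Subgroup.map_mono ?_) (Subgroup.le_normalizer_map f)
      rw [← Subgroup.subgroupOf_normalizer_eq hNM]
      intro x hx
      rw [Subgroup.mem_subgroupOf] at hx ⊢
      exact le_normalizer_pCore p (M₁ ⊓ M₂) ⟨x.2, hx⟩
    have h1 : J ≤ Qp p I := le_pCore_map_subtype hJI hIJ hJp
    have h2' : Qp p I = ⊥ := by
      rw [eq_bot_iff]
      refine le_trans (Subgroup.map_mono (Cfsg.Agent.Lib.Helper1.pCore_le_fittingSubgroup p)) ?_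
      rw [hF, Subgroup.map_bot]
    rw [h2', le_bot_iff] at h1
    intro x hx
    refine mem_rcore.mpr ⟨hNM hx, fun m hm => ⟨M₁.mul_mem (M₁.mul_mem hm (hNM hx)) (M₁.inv_mem hm), ?_⟩⟩
    have hfx : f ⟨x, hNM hx⟩ = 1 := by
      have : f ⟨x, hNM hx⟩ ∈ J := ⟨⟨x, hNM hx⟩, Subgroup.mem_subgroupOf.mpr hx, rfl⟩
      rwa [h1, Subgroup.mem_bot] at this
    have hpt : (⟨m⁻¹, M₁.inv_mem hm⟩ : ↥M₁) • b ∈ MulAction.orbit ↥M₁ b := ⟨_, rfl⟩
    have h3 := congrArg (fun σ => ((σ ⟨_, hpt⟩ : MulAction.orbit ↥M₁ b) : Ω)) hfx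
    simp only [hf, MulAction.toPermHom_apply, MulAction.toPerm_apply, Equiv.Perm.coe_one, id_eq] at h3
    have h4 : x • (m⁻¹ • b) = m⁻¹ • b := h3
    show m * x * m⁻¹ ∈ MulAction.stabilizer G b
    rw [MulAction.mem_stabilizer_iff, mul_smul, mul_smul, h4, smul_inv_smul]
  constructor
  · rw [Cfsg.Agent.Lib.Helper1.fittingSubgroup_eq_iSup_pCore]
    simp only [iSup_eq_bot]
    intro p
    exact (Subgroup.map_eq_bot_iff_of_injective _ (M₁ ⊓ M₂).subtype_injective).mp (key p p.2)
  · apply hP.card_dvd d hdd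
    by_contra h0
    push Not at h0
    obtain ⟨p, hp, h1, -, -, -⟩ := hP.main h0.1 h0.2
    apply h0.1
    rw [eq_bot_iff, ← key p hp]
    exact le_pCore_map_subtype (le_inf (c2_le_left _ _) (c2_le_right _ _))
      (inf_le_left.trans (le_normalizer_c2 _ _)) h1

end Cfsg.Agent.S3693
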