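import Cfsg.Statements.S3696

set_option autoImplicit false
open Cfsg

namespace Cfsg.Agent.S3696

theorem amgm2 (m o a d : ℕ) (ha : 0 < a) (hd : 0 < d) :
    m ^ a * o ^ d * (a + d) ^ (a + d) ≤ (m + o) ^ (a + d) * (a ^ a * d ^ d) := by
  have hA : (0:ℝ) < a := by exact_mod_cast ha
  have hD : (0:ℝ) < d := by exact_mod_cast hd
  have hs : (0:ℝ) < (a:ℝ) + d := by positivity
  have key := Real.geom_mean_le_arith_mean2_weighted (w₁ := (a:ℝ)/(a+d)) (w₂ := (d:ℝ)/(a+d))
    (p₁ := (m:ℝ)/a) (p₂ := (o:ℝ)/d) (by positivity) (by positivity) (by positivity)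
    (by positivity) (by field_simp)
  have h2 : (a:ℝ)/(a+d) * ((m:ℝ)/a) + (d:ℝ)/(a+d) * ((o:ℝ)/d) = ((m:ℝ)+o)/(a+d) := by
    field_simp
  rw [h2] at key
  have h3 := pow_le_pow_left₀ (by positivity) key (a + d)
  have e1 : (a:ℝ)/(a+d) * ((a + d : ℕ) : ℝ) = ((a : ℕ) : ℝ) := by push_cast; field_simp
  have e2 : (d:ℝ)/(a+d) * ((a + d : ℕ) : ℝ) = ((d : ℕ) : ℝ) := by push_cast; field_simp
  have l1 : (((m:ℝ)/a) ^ ((a:ℝ)/(a+d))) ^ (a+d) = ((m:ℝ)/a)^a := by
    rw [← Real.rpow_natCast, ← Real.rpow_mul (by positivity), e1, Real.rpow_natCast]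
  have l2 : (((o:ℝ)/d) ^ ((d:ℝ)/(a+d))) ^ (a+d) = ((o:ℝ)/d)^d := by
    rw [← Real.rpow_natCast, ← Real.rpow_mul (by positivity), e2, Real.rpow_natCast]
  rw [mul_pow, l1, l2, div_pow, div_pow, div_pow, div_mul_div_comm,
    div_le_div_iff₀ (by positivity) (by positivity)] at h3
  exact_mod_cast h3

theorem num2 (o d : ℕ) (hd : 0 < d) (ho : 2 ^ d ≤ o) : o * d ^ d ≤ o ^ d := by
  obtain ⟨e, rfl⟩ : ∃ e, d = e + 1 := ⟨d - 1, by omega⟩
  have h1 : e + 1 ≤ 2 ^ e := Nat.lt_two_pow_self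
  have h2 : (e + 1) ^ (e + 1) ≤ o ^ e := by
    calc (e + 1) ^ (e + 1) ≤ (2 ^ e) ^ (e + 1) := Nat.pow_le_pow_left h1 _
      _ = (2 ^ (e + 1)) ^ e := by rw [← pow_mul, ← pow_mul, mul_comm]
      _ ≤ o ^ e := Nat.pow_le_pow_left ho _
  calc o * (e + 1) ^ (e + 1) ≤ o * o ^ e := Nat.mul_le_mul le_rfl h2
    _ = o ^ (e + 1) := by ring

theorem step_num (m o a d c : ℕ) (hd : 0 < d) (ho : 2 ^ d ≤ o) (hc : c * a ^ a ≤ m ^ a) :
    (o * c) * (a + d) ^ (a + d) ≤ (m + o) ^ (a + d) := by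
  have h2 := num2 o d hd ho
  rcases Nat.eq_zero_or_pos a with rfl | ha
  · simp only [pow_zero, mul_one, zero_add] at hc ⊢
    calc o * c * d ^ d ≤ o * 1 * d ^ d := by gcongr
      _ = o * d ^ d := by ring
      _ ≤ o ^ d := h2
      _ ≤ (m + o) ^ d := Nat.pow_le_pow_left (by omega) _
  · have h1 := amgm2 m o a d ha hd
    have hpos : 0 < a ^ a * d ^ d := by positivity
    apply Nat.le_of_mul_le_mul_right _ hpos
    calc o * c * (a + d) ^ (a + d) * (a ^ a * d ^ d)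
        = (c * a ^ a) * (o * d ^ d) * (a + d) ^ (a + d) := by ring
      _ ≤ m ^ a * o ^ d * (a + d) ^ (a + d) := by gcongr
      _ ≤ _ := h1

variable {Ω : Type*} [Fintype Ω] [DecidableEq Ω]

/-- elements of order dividing `p` in a commutative subgroup -/
def EE (p : ℕ) (H : Subgroup (Equiv.Perm Ω)) (hc : ∀ a ∈ H, ∀ b ∈ H, a * b = b * a) :
    Subgroup (Equiv.Perm Ω) where
  carrier := {h | h ∈ H ∧ h ^ p = 1}
  mul_mem' := fun {a b} ha hb => ⟨H.mul_mem ha.1 hb.1, by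
    rw [(show Commute a b from hc _ ha.1 _ hb.1).mul_pow, ha.2, hb.2, one_mul]⟩
  one_mem' := ⟨H.one_mem, one_pow _⟩
  inv_mem' := fun {a} ha => ⟨H.inv_mem ha.1, by rw [inv_pow, ha.2, inv_one]⟩

theorem card_EE (p : ℕ) (H : Subgroup (Equiv.Perm Ω)) (hc : ∀ a ∈ H, ∀ b ∈ H, a * b = b * a) :
    Nat.card (EE p H hc) = Nat.card {y : H // y ^ p = 1} :=
  Nat.card_congr
    { toFun := fun e => ⟨⟨e.1, e.2.1⟩, Subtype.ext e.2.2⟩
      invFun := fun y => ⟨y.1.1, ⟨y.1.2, congrArg Subtype.val y.2⟩⟩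
      left_inv := fun _ => rfl
      right_inv := fun _ => rfl }

theorem card_EE_inf (p : ℕ) (H : Subgroup (Equiv.Perm Ω)) (hc : ∀ a ∈ H, ∀ b ∈ H, a * b = b * a)
    (x : Ω) :
    Nat.card (EE p H hc ⊓ MulAction.stabilizer (Equiv.Perm Ω) x : Subgroup (Equiv.Perm Ω)) =
      Nat.card {y : (H ⊓ MulAction.stabilizer (Equiv.Perm Ω) x : Subgroup (Equiv.Perm Ω)) //
        y ^ p = 1} :=
  Nat.card_congr
    { toFun := fun e => ⟨⟨e.1, ⟨e.2.1.1, e.2.2⟩⟩, Subtype.ext e.2.1.2⟩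
      invFun := fun y => ⟨y.1.1, ⟨⟨y.1.2.1, congrArg Subtype.val y.2⟩, y.1.2.2⟩⟩
      left_inv := fun _ => rfl
      right_inv := fun _ => rfl }

theorem OS (H : Subgroup (Equiv.Perm Ω)) (x : Ω) :
    Nat.card (H ⊓ MulAction.stabilizer (Equiv.Perm Ω) x : Subgroup (Equiv.Perm Ω)) *
      (MulAction.orbit H x).ncard = Nat.card H := by
  rw [← MulAction.index_stabilizer, ← Subgroup.card_mul_index (MulAction.stabilizer H x)]
  congr 1
  exact Nat.card_congr
    { toFun := fun s => ⟨⟨s.1, s.2.1⟩, s.2.2⟩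
      invFun := fun s => ⟨s.1.1, ⟨s.1.2, s.2⟩⟩
      left_inv := fun _ => rfl
      right_inv := fun _ => rfl }

theorem main (p : ℕ) (hp : p.Prime) : ∀ (k : ℕ) (T : Finset Ω) (B : Subgroup (Equiv.Perm Ω)),
    IsPGroup p B → (∀ a ∈ B, ∀ b ∈ B, a * b = b * a) → (∀ b ∈ B, ∀ t ∈ T, b t ∈ T) →
    (∀ b ∈ B, (∀ t ∈ T, b t = t) → b = 1) → Nat.card {x : B // x ^ p = 1} = p ^ k →
    Nat.card B * k ^ k ≤ T.card ^ k := by
  classical
  haveI : Fact p.Prime := ⟨hp⟩
  intro k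
  induction k using Nat.strong_induction_on with
  | _ k ih =>
  intro T B hB hc hinv hf hk
  by_cases hbot : B = ⊥
  · subst hbot
    have h1 : Nat.card {x : (⊥ : Subgroup (Equiv.Perm Ω)) // x ^ p = 1} = 1 := by
      rw [Nat.card_eq_one_iff_unique]
      refine ⟨⟨fun a b => Subtype.ext (Subsingleton.elim _ _)⟩, ⟨⟨1, one_pow _⟩⟩⟩
    rw [h1] at hk
    have hk0 : k = 0 := by
      by_contra h
      have := Nat.one_lt_pow h hp.one_lt
      omega
    subst hk0
    simp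
  · -- an element of order p
    obtain ⟨e, heB, he1, hep⟩ : ∃ e ∈ B, e ≠ 1 ∧ e ^ p = 1 := by
      obtain ⟨⟨b, hb⟩, hb1'⟩ := Subgroup.ne_bot_iff_exists_ne_one.mp hbot
      have hb1 : b ≠ 1 := fun h => hb1' (Subtype.ext h)
      obtain ⟨j, hj⟩ := (IsPGroup.iff_orderOf.mp hB) ⟨b, hb⟩
      rw [Subgroup.orderOf_mk] at hj
      have hj0 : j ≠ 0 := by
        rintro rfl
        rw [pow_zero, orderOf_eq_one_iff] at hj
        exact hb1 hj
      obtain ⟨i, rfl⟩ := Nat.exists_eq_succ_of_ne_zero hj0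
      refine ⟨b ^ p ^ i, B.pow_mem hb _, ?_, ?_⟩
      · intro h
        have h3 := orderOf_dvd_of_pow_eq_one h
        rw [hj] at h3
        have h4 := Nat.le_of_dvd (pow_pos hp.pos _) h3
        have h5 : p ^ i < p ^ (i.succ) := Nat.pow_lt_pow_right hp.one_lt (by omega)
        omega
      · rw [← pow_mul, ← pow_succ, ← Nat.succ_eq_add_one, ← hj, pow_orderOf_eq_one]
    obtain ⟨x, hxT, hex⟩ : ∃ x ∈ T, e x ≠ x := by
      by_contra hcon
      push Not at hcon
      exact he1 (hf e heB hcon)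
    set S : Subgroup (Equiv.Perm Ω) := B ⊓ MulAction.stabilizer (Equiv.Perm Ω) x with hS
    set O : Set Ω := MulAction.orbit B x with hO
    have hSB : S ≤ B := inf_le_left
    have hmemO : ∀ y, y ∈ O ↔ ∃ b ∈ B, b x = y := by
      intro y
      rw [hO, MulAction.mem_orbit_iff]
      constructor
      · rintro ⟨b, hb⟩
        exact ⟨b.1, b.2, hb⟩
      · rintro ⟨b, hb, hy⟩
        exact ⟨⟨b, hb⟩, hy⟩
    set T' : Finset Ω := T.filter (fun y => ¬ y ∈ O) with hT'
    have hcardT : O.ncard + T'.card = T.card := by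
      rw [← Finset.card_filter_add_card_filter_not (s := T) (fun y => y ∈ O)]
      congr 1
      rw [← Set.ncard_coe_finset]
      congr 1
      ext y
      simp only [Finset.coe_filter, Set.mem_ofPred_eq]
      constructor
      · intro hy
        obtain ⟨b, hb, rfl⟩ := (hmemO y).mp hy
        exact ⟨hinv b hb x hxT, hy⟩
      · exact fun h => h.2
    -- orbit-stabiliser for B
    have hOS := OS B x
    -- orbit-stabiliser for E
    have hOSE := OS (EE p B hc) x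
    rw [card_EE, hk, card_EE_inf] at hOSE
    have hSp : IsPGroup p S := hB.to_le hSB
    have hScomm : ∀ a ∈ S, ∀ b ∈ S, a * b = b * a := fun a ha b hb => hc a (hSB ha) b (hSB hb)
    obtain ⟨k', hk'⟩ : ∃ k', Nat.card {y : S // y ^ p = 1} = p ^ k' := by
      rw [← card_EE p S hScomm]
      have : IsPGroup p (EE p S hScomm) := hSp.to_le (fun y hy => hy.1)
      exact this.exists_card_eq
    rw [hk'] at hOSE
    set r := (MulAction.orbit (EE p B hc) x).ncard with hr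
    have hr1 : 1 < r := by
      rw [hr, Set.one_lt_ncard_iff (Set.toFinite _)]
      refine ⟨x, e x, MulAction.mem_orbit_self x, ?_, fun h => hex h.symm⟩
      exact ⟨⟨e, heB, hep⟩, rfl⟩
    have hrO : r ≤ O.ncard := by
      apply Set.ncard_le_ncard _ (Set.toFinite _)
      rintro y ⟨b, rfl⟩
      exact (hmemO _).mpr ⟨b.1, b.2.1, rfl⟩
    obtain ⟨d, -, hd⟩ := (Nat.dvd_prime_pow hp).mp (Dvd.intro_left _ hOSE)
    rw [hd, ← pow_add] at hOSE
    have hkd : k' + d = k := Nat.pow_right_injective hp.two_le hOSE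
    have hd0 : 0 < d := by
      rcases Nat.eq_zero_or_pos d with h | h
      · rw [hd, h, pow_zero] at hr1
        omega
      · exact h
    have ho : 2 ^ d ≤ O.ncard := by
      calc 2 ^ d ≤ p ^ d := Nat.pow_le_pow_left hp.two_le _
        _ = r := hd.symm
        _ ≤ _ := hrO
    have hinv' : ∀ b ∈ S, ∀ t ∈ T', b t ∈ T' := by
      intro s hs t ht
      rw [hT', Finset.mem_filter] at ht ⊢
      refine ⟨hinv s (hSB hs) t ht.1, fun h => ht.2 ?_⟩
      obtain ⟨b, hb, hbx⟩ := (hmemO _).mp h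
      refine (hmemO _).mpr ⟨s⁻¹ * b, B.mul_mem (B.inv_mem (hSB hs)) hb, ?_⟩
      rw [Equiv.Perm.mul_apply, hbx]
      exact s.symm_apply_apply t
    have hf' : ∀ b ∈ S, (∀ t ∈ T', b t = t) → b = 1 := by
      intro s hs hst
      apply hf s (hSB hs)
      intro t ht
      by_cases htO : t ∈ O
      · obtain ⟨b, hb, rfl⟩ := (hmemO _).mp htO
        have h1 : s x = x := hs.2
        have h2 := hc s (hSB hs) b hb
        calc s (b x) = (s * b) x := rfl
          _ = (b * s) x := by rw [h2]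
          _ = b (s x) := rfl
          _ = b x := by rw [h1]
      · exact hst t (Finset.mem_filter.mpr ⟨ht, htO⟩)
    have ih' := ih k' (by omega) T' S hSp hScomm hinv' hf' hk'
    have hfin := step_num T'.card O.ncard k' d (Nat.card S) hd0 ho ih'
    rw [hkd] at hfin
    rw [← hOS, ← hcardT, mul_comm (Nat.card _), add_comm]
    exact hfin

/-- Let p be a prime, Ω a finite set with n ≥ p elements, and A an abelian p-subgroup of the symmetric group on Ω whose elements of order dividing p number p^k (so k is the rank of A). Then |A| · k^k ≤ n^k, that is, |A| ≤ (n/k)^k. -/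
theorem result {Ω : Type*} [Fintype Ω] [DecidableEq Ω]
    (p : ℕ) (hp : p.Prime) (hn : p ≤ Fintype.card Ω) (A : Subgroup (Equiv.Perm Ω)) (hA : IsPGroup p A) (hab : IsMulCommutative A)
    (k : ℕ) (hk : Nat.card {x : A // x ^ p = 1} = p ^ k) :
    Nat.card A * k ^ k ≤ Fintype.card Ω ^ k := by
  have h := main p hp k (Finset.univ : Finset Ω) A hA
    (fun a ha b hb => congrArg Subtype.val (hab.is_comm.comm ⟨a, ha⟩ ⟨b, hb⟩))
    (fun _ _ t _ => Finset.mem_univ _)
    (fun b _ hb => Equiv.ext (fun t => hb t (Finset.mem_univ t))) hk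
  rwa [Finset.card_univ] at h

end Cfsg.Agent.S3696
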