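import Mathlib
import Cfsg.Agent.Lib.Helper4.ESCyclic
import Cfsg.Statements.S3767

set_option autoImplicit false
open Cfsg

namespace Cfsg.Agent.S3767

/-- Let P be an extraspecial p-group of order p^(2n+1) and H a cyclic group of order h prime to p acting on P (inside a common finite group: H normalizes P) so that C_P(x) = Z(P) for every non-identity x ∈ H. Then h divides p^n + 1 or h divides p^n − 1. -/
theorem result {G : Type*} [Group G] [Finite G] {p : ℕ} [Fact p.Prime] (P H : Subgroup G) (hP : Cfsg.IsExtraspecial p ↥P) (n : ℕ) (hn : Nat.card P = p ^ (2 * n + 1)) (hH : IsCyclic H) (hcop : (Nat.card H).Coprime p) (hHP : H ≤ Subgroup.normalizer (P : Set G)) (hfix : ∀ x ∈ H, x ≠ 1 → P ⊓ Subgroup.centralizer {x} = (Subgroup.center ↥P).map P.subtype) : Nat.card H ∣ p ^ n + 1 ∨ Nat.card H ∣ p ^ n - 1 := by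
  classical
  set K : Subgroup G := P ⊔ H with hK
  have hPK : P ≤ K := le_sup_left
  have hHK : H ≤ K := le_sup_right
  have hKN : K ≤ Subgroup.normalizer (P : Set G) := sup_le Subgroup.le_normalizer hHP
  have hnorm : (P.subgroupOf K).Normal := (Subgroup.normal_subgroupOf_iff_le_normalizer hPK).2 hKN
  have eP : ↥(P.subgroupOf K) ≃* ↥P := Subgroup.subgroupOfEquivOfLe hPK
  have eH : ↥(H.subgroupOf K) ≃* ↥H := Subgroup.subgroupOfEquivOfLe hHK
  have hP' : Cfsg.IsExtraspecial p ↥(P.subgroupOf K) :=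
    Cfsg.Agent.Lib.Helper4.ESCyclic.isExtraspecial_of_equiv eP.symm hP
  have hcP : Nat.card ↥(P.subgroupOf K) = p ^ (2 * n + 1) := by
    rw [Nat.card_congr eP.toEquiv, hn]
  have hcH : Nat.card ↥(H.subgroupOf K) = Nat.card H := Nat.card_congr eH.toEquiv
  have hcyc : IsCyclic ↥(H.subgroupOf K) := isCyclic_of_surjective eH.symm eH.symm.surjective
  have htop : P.subgroupOf K ⊔ H.subgroupOf K = ⊤ := by
    rw [← Subgroup.subgroupOf_sup hPK hHK]
    exact Subgroup.subgroupOf_self K
  have hmem : ∀ g : G, g ∈ (Subgroup.center ↥P).map P.subtype ↔ g ∈ P ∧ ∀ u ∈ P, u * g = g * u := by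
    intro g
    rw [Subgroup.mem_map]
    constructor
    · rintro ⟨c, hc, rfl⟩
      refine ⟨c.2, fun u hu => ?_⟩
      exact congrArg Subtype.val (Subgroup.mem_center_iff.1 hc ⟨u, hu⟩)
    · rintro ⟨hg, hc⟩
      refine ⟨⟨g, hg⟩, ?_, rfl⟩
      rw [Subgroup.mem_center_iff]
      intro u
      exact Subtype.ext (hc u u.2)
  have := Cfsg.Agent.Lib.Helper4.ESCyclic.es_cyclic_dvd (P.subgroupOf K) (H.subgroupOf K) hP' n hcP
    hcyc (by rw [hcH]; exact hcop) htop (by
      intro x hx hx1 g hg
      have hx' : (x : G) ∈ H := hx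
      have hg' : (g : G) ∈ P := hg
      have hx1' : (x : G) ≠ 1 := fun h => hx1 (Subtype.ext h)
      have h1 := hfix x hx' hx1'
      have h2 : (g : G) ∈ P ⊓ Subgroup.centralizer {(x : G)} ↔ (x : G) * g = g * x := by
        rw [Subgroup.mem_inf, Subgroup.mem_centralizer_singleton_iff]
        constructor
        · rintro ⟨-, h⟩; exact h.symm
        · intro h; exact ⟨hg', h.symm⟩
      rw [h1, hmem] at h2
      constructor
      · intro h u hu
        have h3 := (h2.2 (congrArg Subtype.val h)).2 u hu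
        exact Subtype.ext h3
      · intro h
        apply Subtype.ext
        apply h2.1
        refine ⟨hg', fun u hu => ?_⟩
        exact congrArg Subtype.val (h ⟨u, hPK hu⟩ hu))
  rwa [hcH] at this

end Cfsg.Agent.S3767
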