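import Cfsg.Statements.S3802

set_option autoImplicit false
open Cfsg

namespace Cfsg.Agent.S3802

variable {G : Type*} [Group G]

/-- `A` is a minimal normal subgroup of `H` (all inside `G`). -/
def MinNormalIn (A H : Subgroup G) : Prop :=
  A ≤ H ∧ A ≠ ⊥ ∧ H ≤ Subgroup.normalizer (A : Set G) ∧
    ∀ B : Subgroup G, B ≤ A → B ≠ ⊥ → H ≤ Subgroup.normalizer (B : Set G) → B = A

theorem le_normalizer_of_conj_mem (H J : Subgroup G) (h : ∀ k ∈ H, ∀ x ∈ J, k * x * k⁻¹ ∈ J) :
    H ≤ Subgroup.normalizer (J : Set G) := by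
  intro k hk
  rw [Subgroup.mem_normalizer_iff]
  intro x
  constructor
  · exact h k hk x
  · intro hx
    have := h k⁻¹ (H.inv_mem hk) _ hx
    simpa [mul_assoc] using this

theorem conj_mem_of_le_normalizer {H J : Subgroup G} (h : H ≤ Subgroup.normalizer (J : Set G))
    {k x : G} (hk : k ∈ H) (hx : x ∈ J) : k * x * k⁻¹ ∈ J :=
  (Subgroup.mem_normalizer_iff.mp (h hk) x).mp hx

theorem exists_minNormalIn [Finite G] (A H : Subgroup G) (hA : A ≠ ⊥) (hAH : A ≤ H)
    (hn : H ≤ Subgroup.normalizer (A : Set G)) : ∃ A1 : Subgroup G, A1 ≤ A ∧ MinNormalIn A1 H := by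
  obtain ⟨A1, hA1⟩ := exists_minimal_of_wellFoundedLT
    (fun B : Subgroup G => B ≤ A ∧ B ≠ ⊥ ∧ H ≤ Subgroup.normalizer (B : Set G)) ⟨A, le_refl _, hA, hn⟩
  refine ⟨A1, hA1.1.1, hA1.1.1.trans hAH, hA1.1.2.1, hA1.1.2.2, ?_⟩
  intro B hB hB1 hBn
  exact le_antisymm hB (hA1.2 ⟨hB.trans hA1.1.1, hB1, hBn⟩ hB)

/-- Wielandt: a minimal normal subgroup normalizes every subnormal subgroup (chain version). -/
theorem wielandt [Finite G] (r : ℕ) : ∀ (f : ℕ → Subgroup G), (∀ i, f i ≤ f (i + 1)) →
    (∀ i, f (i + 1) ≤ Subgroup.normalizer (f i : Set G)) → ∀ A : Subgroup G, MinNormalIn A (f r) →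
    A ≤ Subgroup.normalizer (f 0 : Set G) := by
  induction r with
  | zero =>
    intro f _ _ A hA
    exact hA.1.trans Subgroup.le_normalizer
  | succ r ih =>
    intro f hmono hnorm A hA
    obtain ⟨hAH, hA1, hAn, hAmin⟩ := hA
    have hmono' : Monotone f := monotone_nat_of_le_succ hmono
    by_cases hcase : A ⊓ f r = ⊥
    · -- `A` centralizes `f r`
      intro a ha
      rw [Subgroup.mem_normalizer_iff]
      intro x
      have hcomm : ∀ y ∈ f r, a * y * a⁻¹ = y := by
        intro y hy
        have h1 : a * y * a⁻¹ * y⁻¹ ∈ A ⊓ f r := by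
          refine Subgroup.mem_inf.mpr ⟨?_, ?_⟩
          · have h2 : y * a⁻¹ * y⁻¹ ∈ A :=
              conj_mem_of_le_normalizer hAn (hmono r hy) (A.inv_mem ha)
            have e : a * y * a⁻¹ * y⁻¹ = a * (y * a⁻¹ * y⁻¹) := by group
            rw [e]; exact A.mul_mem ha h2
          · have h2 : a * y * a⁻¹ ∈ f r := conj_mem_of_le_normalizer (hnorm r) (hAH ha) hy
            exact (f r).mul_mem h2 ((f r).inv_mem hy)
        rw [hcase, Subgroup.mem_bot] at h1
        exact mul_inv_eq_one.mp h1
      constructor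
      · intro hx
        rw [hcomm x (hmono' (Nat.zero_le r) hx)]; exact hx
      · intro hx
        have h3 := hcomm _ (hmono' (Nat.zero_le r) hx)
        have h4 : a * x * a⁻¹ = x := by
          have : a * (a * x * a⁻¹) * a⁻¹ = a * x * a⁻¹ := h3
          have h5 : a * (a * x * a⁻¹) = a * x := mul_right_cancel this
          have h6 : a * x * a⁻¹ = x := mul_left_cancel h5
          exact h6
        rw [h4] at hx; exact hx
    · -- `A ≤ f r`
      have hAr : A ≤ f r := by
        have h1 : A ⊓ f r = A := by
          apply hAmin _ inf_le_left hcase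
          apply le_normalizer_of_conj_mem
          intro k hk x hx
          obtain ⟨hx1, hx2⟩ := Subgroup.mem_inf.mp hx
          exact Subgroup.mem_inf.mpr
            ⟨conj_mem_of_le_normalizer hAn hk hx1, conj_mem_of_le_normalizer (hnorm r) hk hx2⟩
        exact h1 ▸ inf_le_right
      obtain ⟨A1, hA1A, hA1min⟩ := exists_minNormalIn A (f r) hA1 hAr ((hmono r).trans hAn)
      -- the subgroup of elements of `A` all of whose `f (r+1)`-conjugates normalize `f 0`
      let J : Subgroup G := A ⊓ ⨅ h : f (r + 1),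
        (Subgroup.normalizer (f 0 : Set G)).comap (MulAut.conj (h : G)).toMonoidHom
      have hJmem : ∀ x : G, x ∈ J ↔ x ∈ A ∧ ∀ h ∈ f (r + 1), h * x * h⁻¹ ∈ Subgroup.normalizer (f 0 : Set G) := by
        intro x
        simp only [J, Subgroup.mem_inf, Subgroup.mem_iInf, Subgroup.mem_comap, Subtype.forall]
        rfl
      have hA1J : A1 ≤ J := by
        intro x hx
        rw [hJmem]
        refine ⟨hA1A hx, ?_⟩
        intro h hh
        -- conjugate chain
        let φ : G ≃* G := MulAut.conj h⁻¹
        have hfr : (f r).map φ.toMonoidHom = f r := by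
          have : h⁻¹ ∈ Subgroup.normalizer (f r : Set G) := hnorm r ((f (r + 1)).inv_mem hh)
          exact Subgroup.mem_normalizer_iff_map_conj_eq.mp this
        have h1 := ih (fun i => (f i).map φ.toMonoidHom) (fun i => Subgroup.map_mono (hmono i))
          (fun i => (Subgroup.map_mono (hnorm i)).trans (Subgroup.le_normalizer_map _)) A1
          (by rw [hfr]; exact hA1min)
        have h2 := h1 hx
        rw [← Subgroup.map_equiv_normalizer_eq] at h2
        obtain ⟨y, hy, hyx⟩ := h2
        have h3 : x = h⁻¹ * y * h := by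
          rw [← hyx]; simp [φ, MulAut.conj_apply]
        have h4 : h * x * h⁻¹ = y := by rw [h3]; group
        rw [h4]; exact hy
      have hJA : J = A := by
        apply hAmin J inf_le_left
        · intro hJ
          apply hA1min.2.1
          exact eq_bot_iff.mpr (hJ ▸ hA1J)
        · apply le_normalizer_of_conj_mem
          intro k hk x hx
          rw [hJmem] at hx ⊢
          refine ⟨conj_mem_of_le_normalizer hAn hk hx.1, ?_⟩
          intro h hh
          have := hx.2 (h * k) ((f (r + 1)).mul_mem hh hk)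
          have e : h * (k * x * k⁻¹) * h⁻¹ = h * k * x * (h * k)⁻¹ := by group
          rw [e]; exact this
      intro a ha
      rw [← hJA, hJmem] at ha
      have := ha.2 1 (Subgroup.one_mem _)
      simpa using this

theorem core_free_case [Finite G] (M N : Subgroup G) (hM : IsCoatom M) (hN : N.IsSubnormal) (hNM : N ≤ M)
    (hcore : M.normalCore = ⊥) : N = ⊥ := by
  have htop : (⊤ : Subgroup G) ≠ ⊥ := by
    intro h
    apply hM.1
    rw [eq_top_iff, h]; exact bot_le
  obtain ⟨A, _, hA⟩ := exists_minNormalIn (⊤ : Subgroup G) ⊤ htop le_rfl (by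
    intro x _; rw [Subgroup.mem_normalizer_iff]; intro _; simp)
  have hAnormal : A.Normal := Subgroup.normalizer_eq_top_iff.mp (top_le_iff.mp hA.2.2.1)
  have hAM : ¬ A ≤ M := by
    intro h
    have : A ≤ M.normalCore := Subgroup.normal_le_normalCore.mpr h
    rw [hcore] at this
    exact hA.2.1 (eq_bot_iff.mpr this)
  have hsup : M ⊔ A = ⊤ := by
    apply hM.2
    exact lt_of_le_of_ne le_sup_left (fun h => hAM (h ▸ le_sup_right))
  obtain ⟨n, f, hf, hfn, hf0, hftop⟩ := Subgroup.IsSubnormal.isSubnormal_iff.mp hN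
  have hAN : A ≤ Subgroup.normalizer (N : Set G) := by
    have := wielandt n f (fun i => hf (Nat.le_succ i))
      (fun i => (Subgroup.normal_subgroupOf_iff_le_normalizer (hf (Nat.le_succ i))).mp (hfn i)) A
      (by rw [hftop]; exact hA)
    rwa [hf0] at this
  have hle : N ≤ M.normalCore := by
    intro x hx g
    have hg : g ∈ M ⊔ A := hsup ▸ Subgroup.mem_top g
    rw [← SetLike.mem_coe, Subgroup.mul_normal] at hg
    obtain ⟨m, hm, a, ha, hma⟩ := hg
    have hma' : m * a = g := hma
    rw [← hma']
    have h1 : a * x * a⁻¹ ∈ N := conj_mem_of_le_normalizer hAN ha hx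
    have e : m * a * x * (m * a)⁻¹ = m * (a * x * a⁻¹) * m⁻¹ := by group
    rw [e]
    exact M.mul_mem (M.mul_mem hm (hNM h1)) (M.inv_mem hm)
  rw [hcore] at hle
  exact eq_bot_iff.mpr hle

theorem general_case [Finite G] (M N K : Subgroup G) [K.Normal] (hM : IsCoatom M) (hN : N.IsSubnormal)
    (hNM : N ≤ M) (hKM : K ≤ M) (hKmax : ∀ L : Subgroup G, L.Normal → L ≤ M → L ≤ K) : N ≤ K := by
  have hsurj : Function.Surjective (QuotientGroup.mk' K) := QuotientGroup.mk'_surjective K
  have hcomap : (M.map (QuotientGroup.mk' K)).comap (QuotientGroup.mk' K) = M := by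
    rw [Subgroup.comap_map_eq, QuotientGroup.ker_mk', sup_eq_left]; exact hKM
  have hM' : IsCoatom (M.map (QuotientGroup.mk' K)) := by
    constructor
    · intro h
      apply hM.1
      rw [← hcomap, h, Subgroup.comap_top]
    · intro X hX
      have h1 : M < X.comap (QuotientGroup.mk' K) := by
        refine lt_of_le_of_ne ?_ ?_
        · rw [← hcomap]; exact Subgroup.comap_mono hX.le
        · intro h
          apply hX.ne
          rw [h, Subgroup.map_comap_eq_self_of_surjective hsurj]
      have h2 := hM.2 _ h1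
      rw [← Subgroup.map_comap_eq_self_of_surjective hsurj X, h2]
      exact Subgroup.map_top_of_surjective _ hsurj
  have hcore : (M.map (QuotientGroup.mk' K)).normalCore = ⊥ := by
    set C := (M.map (QuotientGroup.mk' K)).normalCore with hC
    have h1 : C.comap (QuotientGroup.mk' K) ≤ M := by
      rw [← hcomap]; exact Subgroup.comap_mono (Subgroup.normalCore_le _)
    have h2 : C.comap (QuotientGroup.mk' K) ≤ K := hKmax _ inferInstance h1
    rw [← Subgroup.map_comap_eq_self_of_surjective hsurj C, eq_bot_iff, ← QuotientGroup.map_mk'_self K]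
    exact Subgroup.map_mono h2
  have h := core_free_case _ _ hM' (hN.map hsurj) (Subgroup.map_mono hNM) hcore
  rw [Subgroup.map_eq_bot_iff, QuotientGroup.ker_mk'] at h
  exact h

/-- Let G be a finite group, M a maximal subgroup of G and N a subnormal subgroup of G contained in M. Then N is contained in every conjugate of M, that is, N lies in the core of M in G. -/
theorem result {G : Type*} [Group G] [Finite G] (M N : Subgroup G) (hM : IsCoatom M) (hN : N.IsSubnormal) (hNM : N ≤ M) :
    N ≤ Subgroup.normalCore M :=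
  general_case M N M.normalCore hM hN hNM (Subgroup.normalCore_le M)
    (fun _ hL h => (Subgroup.normal_le_normalCore (hN := hL)).mpr h)

end Cfsg.Agent.S3802
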