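import Cfsg.Statements.S3803
import Cfsg.Agent.S4207
import Cfsg.Agent.Lib.Helper1.Frattini
import Cfsg.Agent.Lib.Helper88.CoprimeSmall

set_option autoImplicit false
open Cfsg

namespace Cfsg.Agent.S3803

variable {X : Type*} [Group X]

/-- conjugation by a normalizing element, as an automorphism of the subgroup. -/
def cj (F : Subgroup X) (a : X) (ha : a ∈ Subgroup.normalizer (F : Set X)) : MulAut F where
  toFun y := ⟨a * y * a⁻¹, (Subgroup.mem_normalizer_iff.mp ha y).mp y.2⟩
  invFun y := ⟨a⁻¹ * y * a, by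
    have := (Subgroup.mem_normalizer_iff.mp (inv_mem ha) y).mp y.2
    simpa using this⟩
  left_inv y := Subtype.ext (by simp [mul_assoc])
  right_inv y := Subtype.ext (by simp [mul_assoc])
  map_mul' y z := Subtype.ext (by simp [mul_assoc])

theorem cj_apply (F : Subgroup X) (a : X) (ha : a ∈ Subgroup.normalizer (F : Set X)) (y : F) :
    ((cj F a ha y : F) : X) = a * y * a⁻¹ := rfl

theorem cj_pow (F : Subgroup X) (a : X) (ha : a ∈ Subgroup.normalizer (F : Set X)) (j : ℕ) (y : F) :
    ((((cj F a ha) ^ j) y : F) : X) = a ^ j * y * (a ^ j)⁻¹ := by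
  induction j with
  | zero => simp
  | succ j ih =>
    rw [pow_succ', MulAut.mul_apply, cj_apply, ih, pow_succ']
    group

theorem orderOf_cj_dvd (F : Subgroup X) (a : X) (ha : a ∈ Subgroup.normalizer (F : Set X)) :
    orderOf (cj F a ha) ∣ orderOf a := by
  apply orderOf_dvd_of_pow_eq_one
  ext y
  rw [cj_pow, pow_orderOf_eq_one]
  simp

theorem cj_eq_one_of_dvd (F : Subgroup X) (a : X) (ha : a ∈ Subgroup.normalizer (F : Set X))
    (hodd : Odd (orderOf a)) (s : ℕ) (h : orderOf (cj F a ha) ∣ 2 ^ s) :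
    ∀ y ∈ F, a * y * a⁻¹ = y := by
  have h1 : Odd (orderOf (cj F a ha)) := Odd.of_dvd_nat hodd (orderOf_cj_dvd F a ha)
  have h2 : Nat.Coprime (orderOf (cj F a ha)) (2 ^ s) :=
    Nat.Coprime.pow_right s (Nat.coprime_two_right.mpr h1)
  have h3 : orderOf (cj F a ha) = 1 := Nat.Coprime.eq_one_of_dvd h2 h
  rw [orderOf_eq_one_iff] at h3
  intro y hy
  have := cj_apply F a ha ⟨y, hy⟩
  rw [h3] at this
  exact this.symm

/-- an element of odd order normalizing a cyclic `2`-group centralizes it. -/
theorem centralizes_cyclic [Finite X] (E : Subgroup X) (hE : IsPGroup 2 E) (hc : IsCyclic E) (a : X)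
    (ha : a ∈ Subgroup.normalizer (E : Set X)) (hodd : Odd (orderOf a)) :
    ∀ y ∈ E, a * y * a⁻¹ = y := by
  have : Fact (Nat.Prime 2) := ⟨Nat.prime_two⟩
  obtain ⟨k, hk⟩ := hE.exists_card_eq
  apply cj_eq_one_of_dvd E a ha hodd k
  have h1 : orderOf (cj E a ha) ∣ Nat.card (MulAut E) := orderOf_dvd_natCard _
  rw [IsCyclic.card_mulAut, hk] at h1
  refine h1.trans ?_
  cases k with
  | zero => simp
  | succ k =>
    rw [Nat.totient_prime_pow_succ Nat.prime_two]
    simp [pow_succ]

/-- automorphisms acting trivially on the Frattini quotient. -/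
def B (F : Type*) [Group F] : Subgroup (MulAut F) where
  carrier := {β | ∀ y : F, β y * y⁻¹ ∈ frattini F}
  one_mem' := by intro y; simp
  mul_mem' := by
    intro β γ hβ hγ y
    have : (β * γ) y * y⁻¹ = (β (γ y) * (γ y)⁻¹) * (γ y * y⁻¹) := by
      rw [MulAut.mul_apply]; group
    rw [this]
    exact mul_mem (hβ _) (hγ _)
  inv_mem' := by
    intro β hβ y
    have h1 := hβ (β⁻¹ y)
    rw [MulAut.apply_inv_self] at h1
    have : β⁻¹ y * y⁻¹ = (y * (β⁻¹ y)⁻¹)⁻¹ := by group
    rw [this]
    exact inv_mem h1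

theorem centralizes_of_maximal [Finite X] (F : Subgroup X) (hF : IsPGroup 2 F) (a : X)
    (ha : a ∈ Subgroup.normalizer (F : Set X)) (hodd : Odd (orderOf a))
    (hmax : ∀ M : Subgroup X, M ≤ F → Nat.card M * 2 = Nat.card F →
      a ∈ Subgroup.normalizer (M : Set X)) :
    ∀ y ∈ F, a * y * a⁻¹ = y := by
  have : Fact (Nat.Prime 2) := ⟨Nat.prime_two⟩
  obtain ⟨n, hn⟩ := hF.exists_card_eq
  obtain ⟨r, hr⟩ := hF.index (frattini F)
  have hB := Cfsg.Agent.S4207.result hn hr (B F) (fun α hα x => hα x)
  apply cj_eq_one_of_dvd F a ha hodd (r * (n - r))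
  refine dvd_trans ?_ hB
  have hmem : cj F a ha ∈ B F := by
    intro y
    rw [Cfsg.Agent.Lib.Helper1.mem_frattini_iff]
    intro M' hM'
    have hidx : M'.index = 2 := Cfsg.Agent.Lib.Helper1.IsPGroup.index_of_isCoatom hF hM'
    have hMn := hmax (M'.map F.subtype) (Subgroup.map_subtype_le M') (by
      rw [Subgroup.card_map_of_injective F.subtype_injective, ← hidx]
      exact M'.card_mul_index)
    rw [Subgroup.mul_mem_iff_of_index_two hidx, inv_mem_iff]
    have key := Subgroup.mem_normalizer_iff.mp hMn (y : X)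
    constructor
    · intro h
      have h1 : a * (y : X) * a⁻¹ ∈ M'.map F.subtype := ⟨_, h, rfl⟩
      obtain ⟨w, hw, hwy⟩ := key.mpr h1
      have : w = y := Subtype.ext hwy
      rwa [this] at hw
    · intro h
      have h1 : (y : X) ∈ M'.map F.subtype := ⟨y, h, rfl⟩
      obtain ⟨w, hw, hwy⟩ := key.mp h1
      have : w = cj F a ha y := Subtype.ext hwy
      rwa [this] at hw
  have h1 : orderOf (⟨cj F a ha, hmem⟩ : B F) ∣ Nat.card (B F) := orderOf_dvd_natCard _
  rwa [Subgroup.orderOf_mk] at h1

theorem exists_between [Finite X] (p : ℕ) [Fact p.Prime] (P H : Subgroup X) (hHP : H ≤ P) {n m : ℕ}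
    (hH : Nat.card H = p ^ n) (hnm : n ≤ m) (hdvd : p ^ m ∣ Nat.card P) :
    ∃ K : Subgroup X, H ≤ K ∧ K ≤ P ∧ Nat.card K = p ^ m := by
  obtain ⟨K, hK, hHK⟩ := Sylow.exists_subgroup_card_pow_prime_le p hdvd (H.subgroupOf P)
    (by rw [Nat.card_congr (Subgroup.subgroupOfEquivOfLe hHP).toEquiv, hH]) hnm
  refine ⟨K.map P.subtype, ?_, Subgroup.map_subtype_le K, ?_⟩
  · intro h hh
    exact ⟨⟨h, hHP hh⟩, hHK (by rw [Subgroup.mem_subgroupOf]; exact hh), rfl⟩
  · rw [Subgroup.card_map_of_injective P.subtype_injective, hK]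

theorem result {X : Type*} [Group X] [Finite X] (P A D : Subgroup X) (hP : IsPGroup 2 P) (hA : Odd (Nat.card A))
    (hAP : A ≤ Subgroup.normalizer (P : Set X)) (hDP : D ≤ P) (hD1 : 1 < Nat.card D) (hD2 : Nat.card D < Nat.card P)
    (hinv : ∀ E : Subgroup X, E ≤ P → (Nat.card E = Nat.card D ∨ (Nat.card D = 2 ∧ Nat.card E = 4)) → A ≤ Subgroup.normalizer (E : Set X)) :
    A ≤ Subgroup.centralizer (P : Set X) := by
  have : Fact (Nat.Prime 2) := ⟨Nat.prime_two⟩
  intro a haA
  have hodd : Odd (orderOf a) := Odd.of_dvd_nat hA (Subgroup.orderOf_dvd_natCard A haA)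
  have haP : a ∈ Subgroup.normalizer (P : Set X) := hAP haA
  obtain ⟨n, hn⟩ := hP.exists_card_eq
  obtain ⟨k, hk⟩ := (hP.to_le hDP).exists_card_eq
  have hk1 : 1 ≤ k := by
    rcases Nat.eq_zero_or_pos k with h0 | h0
    · rw [hk, h0] at hD1; simp at hD1
    · exact h0
  have hkn : k < n := by
    rw [hk, hn] at hD2
    exact (Nat.pow_lt_pow_iff_right (by norm_num)).mp hD2
  have key : ∀ x ∈ P, x ^ 4 = 1 → a * x * a⁻¹ = x := by
    intro x hx hx4
    set C := Subgroup.zpowers x with hC
    have hCP : C ≤ P := by rw [hC, Subgroup.zpowers_le]; exact hx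
    have hxC : x ∈ C := Subgroup.mem_zpowers x
    have hCp : IsPGroup 2 C := hP.to_le hCP
    obtain ⟨i, hi⟩ := hCp.exists_card_eq
    have hi2 : i ≤ 2 := by
      have h1 : Nat.card C ∣ 4 := by
        rw [hC, Nat.card_zpowers]; exact orderOf_dvd_of_pow_eq_one hx4
      rw [hi] at h1
      have : (2 : ℕ) ^ i ∣ 2 ^ 2 := by simpa using h1
      exact (Nat.pow_dvd_pow_iff_le_right (by norm_num)).mp this
    have hCc : IsCyclic C := by rw [hC]; infer_instance
    by_cases hk' : k = 1
    · -- `|D| = 2`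
      rw [hk', pow_one] at hk
      by_cases hi0 : i = 0
      · rw [hi0, pow_zero, Subgroup.card_eq_one] at hi
        rw [hi, Subgroup.mem_bot] at hxC
        rw [hxC]; simp
      · have haC : a ∈ Subgroup.normalizer (C : Set X) := by
          apply hinv C hCP _ haA
          have : i = 1 ∨ i = 2 := by omega
          rcases this with h | h
          · left; rw [hi, h, hk, pow_one]
          · right; exact ⟨hk, by rw [hi, h]; norm_num⟩
        exact centralizes_cyclic C hCp hCc a haC hodd x hxC
    · have hk2 : 2 ≤ k := by omega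
      obtain ⟨E, hCE, hEP, hE⟩ := exists_between 2 P C hCP hi (hi2.trans hk2)
        (by rw [hn]; exact pow_dvd_pow 2 hkn.le)
      obtain ⟨F, hEF, hFP, hF⟩ := exists_between 2 P E hEP hE (Nat.le_succ k)
        (by rw [hn]; exact pow_dvd_pow 2 hkn)
      have haE : a ∈ Subgroup.normalizer (E : Set X) := hinv E hEP (Or.inl (by rw [hE, hk])) haA
      have hEp : IsPGroup 2 E := hP.to_le hEP
      have hFp : IsPGroup 2 F := hP.to_le hFP
      by_cases h2 : ∃ M : Subgroup X, M ≤ F ∧ Nat.card M = 2 ^ k ∧ M ≠ E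
      · obtain ⟨M, hMF, hM, hME⟩ := h2
        have haM : a ∈ Subgroup.normalizer (M : Set X) :=
          hinv M (hMF.trans hFP) (Or.inl (by rw [hM, hk])) haA
        have hsup : E ⊔ M = F := by
          apply Subgroup.eq_of_le_of_card_ge (sup_le hEF hMF)
          obtain ⟨s, hs⟩ := (hFp.to_le (sup_le hEF hMF)).exists_card_eq
          rw [hF, hs]
          apply Nat.pow_le_pow_right (by norm_num)
          by_contra hcon
          have hsk : s ≤ k := by omega
          have h3 : E = E ⊔ M := Subgroup.eq_of_le_of_card_ge le_sup_left (by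
            rw [hs, hE]; exact Nat.pow_le_pow_right (by norm_num) hsk)
          have h4 : M ≤ E := by rw [h3]; exact le_sup_right
          exact hME (Subgroup.eq_of_le_of_card_ge h4 (by rw [hM, hE]))
        have haF : a ∈ Subgroup.normalizer (F : Set X) := by
          rw [← hsup]
          exact Subgroup.normalizer_inf_normalizer_le_normalizer_sup E M
            (Subgroup.mem_inf.mpr ⟨haE, haM⟩)
        apply centralizes_of_maximal F hFp a haF hodd _ x (hEF (hCE hxC))
        intro M' hM'F hM'
        apply hinv M' (hM'F.trans hFP) _ haA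
        left
        rw [hF, pow_succ] at hM'
        rw [hk]
        exact Nat.eq_of_mul_eq_mul_right (by norm_num) hM'
      · push Not at h2
        obtain ⟨y, hyF, hyE⟩ : ∃ y ∈ F, y ∉ E := by
          by_contra hcon
          push Not at hcon
          have : Nat.card F ≤ Nat.card E := Subgroup.card_le_of_le hcon
          rw [hF, hE] at this
          have := (Nat.pow_le_pow_iff_right (by norm_num : 1 < 2)).mp this
          omega
        have hC'F : Subgroup.zpowers y ≤ F := by rw [Subgroup.zpowers_le]; exact hyF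
        obtain ⟨s, hs⟩ := (hFp.to_le hC'F).exists_card_eq
        have hsk : k + 1 ≤ s := by
          by_contra hcon
          obtain ⟨K, hCK, hKF, hK⟩ := exists_between 2 F (Subgroup.zpowers y) hC'F hs
            (by omega : s ≤ k) (by rw [hF]; exact pow_dvd_pow 2 (Nat.le_succ k))
          have := h2 K hKF hK
          rw [this] at hCK
          exact hyE (hCK (Subgroup.mem_zpowers y))
        have hFz : Subgroup.zpowers y = F := Subgroup.eq_of_le_of_card_ge hC'F (by
          rw [hF, hs]; exact Nat.pow_le_pow_right (by norm_num) hsk)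
        have hFc : IsCyclic F := by rw [← hFz]; infer_instance
        have hEc : IsCyclic E :=
          isCyclic_of_surjective (Subgroup.subgroupOfEquivOfLe hEF)
            (Subgroup.subgroupOfEquivOfLe hEF).surjective
        exact centralizes_cyclic E hEp hEc a haE hodd x (hCE hxC)
  have hfix := Cfsg.Agent.Lib.Helper88.fixes_of_fixes_small 2 (MulAut.conj a) (orderOf a)
    (Nat.coprime_two_right.mpr hodd) (by rw [← map_pow, pow_orderOf_eq_one, map_one])
    (Nat.card P) P inferInstance hP le_rfl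
    (fun x hx => (Subgroup.mem_normalizer_iff.mp haP x).mp hx)
    (fun x hx h => by
      rw [MulAut.conj_apply]
      apply key x hx
      rcases h with h | ⟨_, h⟩
      · have : x ^ 4 = (x ^ 2) ^ 2 := by rw [← pow_mul]
        rw [this, h, one_pow]
      · exact h)
  rw [Subgroup.mem_centralizer_iff]
  intro x hx
  have := hfix x hx
  rw [MulAut.conj_apply] at this
  calc x * a = (a * x * a⁻¹) * a := by rw [this]
    _ = a * x := by group

end Cfsg.Agent.S3803
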