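import Cfsg.Statements.S3815

set_option autoImplicit false
open Cfsg

namespace Cfsg.Agent.S3815

/-- the submonoid of elements `d` such that `d * g` is a `p'`-element for all `p'`-elements `g` -/
def D (G : Type*) [Group G] (p : ℕ) : Submonoid G where
  carrier := {d | ∀ g : G, (orderOf g).Coprime p → (orderOf (d * g)).Coprime p}
  one_mem' := by
    intro g hg
    simpa using hg
  mul_mem' := by
    intro a b ha hb g hg
    rw [mul_assoc]
    exact ha _ (hb _ hg)

/-- the same as a subgroup (finite group) -/
def DS (G : Type*) [Group G] [Finite G] (p : ℕ) : Subgroup G where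
  toSubmonoid := D G p
  inv_mem' := by
    intro x hx
    have h1 : x⁻¹ = x ^ (orderOf x - 1) := by
      have hpos : 0 < orderOf x := orderOf_pos x
      apply inv_eq_of_mul_eq_one_right
      rw [← pow_succ']
      have : orderOf x - 1 + 1 = orderOf x := by omega
      rw [this, pow_orderOf_eq_one]
    rw [h1]
    exact (D G p).pow_mem hx _

theorem DS_normal (G : Type*) [Group G] [Finite G] (p : ℕ) : (DS G p).Normal := by
  constructor
  intro d hd x g hg
  have h1 : x * d * x⁻¹ * g = x * (d * (x⁻¹ * g * x)) * x⁻¹ := by group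
  rw [h1]
  have h2 : orderOf (x * (d * (x⁻¹ * g * x)) * x⁻¹) = orderOf (d * (x⁻¹ * g * x)) := by
    have := orderOf_injective (MulAut.conj x).toMonoidHom (MulAut.conj x).injective (d * (x⁻¹ * g * x))
    simpa [MulAut.conj_apply] using this
  rw [h2]
  apply hd
  have h3 : orderOf (x⁻¹ * g * x) = orderOf g := by
    have := orderOf_injective (MulAut.conj x⁻¹).toMonoidHom (MulAut.conj x⁻¹).injective g
    simpa [MulAut.conj_apply] using this
  rw [h3]
  exact hg

/-- Let G be a finite group, p a prime and d ∈ G an element of order prime to p. If dg has order prime to p for every element g ∈ G of order prime to p, then d ∈ O_{p'}(G). -/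
theorem result {G : Type*} [Group G] [Finite G] {p : ℕ} [Fact p.Prime]
    (d : G) (hd : (orderOf d).Coprime p)
    (h : ∀ g : G, (orderOf g).Coprime p → (orderOf (d * g)).Coprime p) :
    d ∈ Cfsg.pPrimeCore p G := by
  have hp : p.Prime := Fact.out
  have hmem : d ∈ DS G p := h
  have hcop : (Nat.card (DS G p)).Coprime p := by
    rw [Nat.coprime_comm, Nat.Prime.coprime_iff_not_dvd hp]
    intro hdvd
    obtain ⟨x, hx⟩ := exists_prime_orderOf_dvd_card' p hdvd
    have hx1 : (orderOf ((x : G) * 1)).Coprime p := x.2 1 (by simp)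
    rw [mul_one, Subgroup.orderOf_coe, hx] at hx1
    rw [Nat.coprime_self] at hx1
    exact hp.one_lt.ne' hx1
  have hle : DS G p ≤ Cfsg.pPrimeCore p G := le_sSup ⟨DS_normal G p, hcop⟩
  exact hle hmem

end Cfsg.Agent.S3815
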