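import Cfsg.Statements.S3820

set_option autoImplicit false
open Cfsg

namespace Cfsg.Agent.S3820

theorem mem_map_conj {G : Type*} [Group G] (K : Subgroup G) (g y : G) :
    y ∈ K.map (MulAut.conj g).toMonoidHom ↔ g⁻¹ * y * g ∈ K := by
  constructor
  · rintro ⟨k, hk, rfl⟩
    have : g⁻¹ * (MulAut.conj g).toMonoidHom k * g = k := by
      simp [MulAut.conj_apply, mul_assoc]
    rw [this]; exact hk
  · intro h
    refine ⟨g⁻¹ * y * g, h, ?_⟩
    simp [MulAut.conj_apply, mul_assoc]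

/-- Call a subgroup H of G pronormal if H and gHg⁻¹ are conjugate inside ⟨H, gHg⁻¹⟩ for every g ∈ G. Let S ≤ H ≤ G be subgroups of a finite group with S pronormal in G (for instance S a Sylow subgroup). Then H is pronormal in G if and only if H and gHg⁻¹ are conjugate inside ⟨H, gHg⁻¹⟩ for every g ∈ N_G(S). In particular H is pronormal whenever N_G(S) ≤ H. -/
theorem result {G : Type*} [Group G] [Finite G] (S H : Subgroup G) (hSH : S ≤ H)
    (hS : Cfsg.IsPronormal S) :
    Cfsg.IsPronormal H ↔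
      ∀ g ∈ Subgroup.normalizer (S : Set G), ∃ w ∈ H ⊔ H.map (MulAut.conj g).toMonoidHom,
        H.map (MulAut.conj g).toMonoidHom = H.map (MulAut.conj w).toMonoidHom := by
  constructor
  · intro h g _
    exact h g
  · intro h g
    obtain ⟨x, hx, hxe⟩ := hS g
    have hxJ : x ∈ H ⊔ H.map (MulAut.conj g).toMonoidHom :=
      (sup_le_sup hSH (Subgroup.map_mono hSH)) hx
    have hn : x⁻¹ * g ∈ Subgroup.normalizer (S : Set G) := by
      rw [Subgroup.mem_normalizer_iff'']
      intro s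
      have h3 := SetLike.ext_iff.mp hxe (x * s * x⁻¹)
      rw [mem_map_conj, mem_map_conj] at h3
      have e1 : x⁻¹ * (x * s * x⁻¹) * x = s := by group
      have e2 : g⁻¹ * (x * s * x⁻¹) * g = (x⁻¹ * g)⁻¹ * s * (x⁻¹ * g) := by group
      rw [e1, e2] at h3
      exact h3.symm
    obtain ⟨w, hw, hwe⟩ := h _ hn
    have hle : H ⊔ H.map (MulAut.conj (x⁻¹ * g)).toMonoidHom ≤ H ⊔ H.map (MulAut.conj g).toMonoidHom := by
      apply sup_le le_sup_left
      intro y hy
      rw [mem_map_conj] at hy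
      have h1 : x * y * x⁻¹ ∈ H.map (MulAut.conj g).toMonoidHom := by
        rw [mem_map_conj]
        have e : g⁻¹ * (x * y * x⁻¹) * g = (x⁻¹ * g)⁻¹ * y * (x⁻¹ * g) := by group
        rw [e]; exact hy
      have h2 : x * y * x⁻¹ ∈ H ⊔ H.map (MulAut.conj g).toMonoidHom :=
        (le_sup_right : _ ≤ H ⊔ H.map (MulAut.conj g).toMonoidHom) h1
      have e : y = x⁻¹ * (x * y * x⁻¹) * x := by group
      rw [e]
      exact Subgroup.mul_mem _ (Subgroup.mul_mem _ (Subgroup.inv_mem _ hxJ) h2) hxJ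
    refine ⟨x * w, Subgroup.mul_mem _ hxJ (hle hw), ?_⟩
    ext y
    have h3 := SetLike.ext_iff.mp hwe (x⁻¹ * y * x)
    rw [mem_map_conj, mem_map_conj] at h3
    rw [mem_map_conj, mem_map_conj]
    have e1 : (x⁻¹ * g)⁻¹ * (x⁻¹ * y * x) * (x⁻¹ * g) = g⁻¹ * y * g := by group
    have e2 : w⁻¹ * (x⁻¹ * y * x) * w = (x * w)⁻¹ * y * (x * w) := by group
    rw [e1, e2] at h3
    exact h3

end Cfsg.Agent.S3820
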