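import Cfsg.Statements.S3821
import Mathlib

set_option autoImplicit false
open Cfsg

namespace Cfsg.Agent.S3821

open Subgroup

theorem map_conj_map_subtype {G : Type*} [Group G] (A : Subgroup G) (K : Subgroup A) (a : A) :
    (K.map (MulAut.conj a).toMonoidHom).map A.subtype
      = (K.map A.subtype).map (MulAut.conj (a : G)).toMonoidHom := by
  rw [Subgroup.map_map, Subgroup.map_map]
  congr 1

theorem mem_normalizer_of_map_conj_eq {G : Type*} [Group G] (H : Subgroup G) (g : G)
    (h : H.map (MulAut.conj g).toMonoidHom = H) : g ∈ normalizer (H : Set G) := by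
  rw [mem_normalizer_iff]
  intro x
  constructor
  · intro hx
    rw [← h]
    exact ⟨x, hx, rfl⟩
  · intro hx
    rw [← h] at hx
    obtain ⟨y, hy, hyx⟩ := hx
    have : y = x := (MulAut.conj g).injective hyx
    exact this ▸ hy

theorem map_conj_eq_of_mem_normalizer {G : Type*} [Group G] (H : Subgroup G) (g : G)
    (h : g ∈ normalizer (H : Set G)) : H.map (MulAut.conj g).toMonoidHom = H := by
  rw [mem_normalizer_iff] at h
  ext x
  constructor
  · rintro ⟨y, hy, rfl⟩
    exact (h y).1 hy
  · intro hx
    refine ⟨g⁻¹ * x * g, ?_, ?_⟩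
    · apply (h _).2
      simpa [mul_assoc] using hx
    · simp [mul_assoc]

theorem map_conj_mul {G : Type*} [Group G] (H : Subgroup G) (a b : G) :
    H.map (MulAut.conj (a * b)).toMonoidHom
      = (H.map (MulAut.conj b).toMonoidHom).map (MulAut.conj a).toMonoidHom := by
  rw [Subgroup.map_map]
  congr 1
  ext x
  simp [mul_assoc]

theorem map_conj_le_of_normal {G : Type*} [Group G] (A H : Subgroup G) [A.Normal] (hHA : H ≤ A)
    (g : G) : H.map (MulAut.conj g).toMonoidHom ≤ A := by
  rintro _ ⟨y, hy, rfl⟩
  exact (inferInstance : A.Normal).conj_mem y (hHA hy) g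

/-- Let A be a normal subgroup of the finite group G and H a subgroup of A. Then H is pronormal in G (H and gHg⁻¹ conjugate inside ⟨H, gHg⁻¹⟩ for every g ∈ G) if and only if H is pronormal in A and G = A · N_G(H). -/
theorem result {G : Type*} [Group G] [Finite G] (A H : Subgroup G) [A.Normal] (hHA : H ≤ A) :
    Cfsg.IsPronormal H ↔ (Cfsg.IsPronormal (H.subgroupOf A) ∧ A ⊔ Subgroup.normalizer (H : Set G) = ⊤) := by
  have hmap : (H.subgroupOf A).map A.subtype = H := by
    rw [subgroupOf_map_subtype, inf_of_le_left hHA]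
  have hinj : Function.Injective A.subtype := A.subtype_injective
  constructor
  · intro hpro
    refine ⟨?_, ?_⟩
    · intro a
      obtain ⟨x, hx, hxe⟩ := hpro (a : G)
      have hxA : x ∈ A := (sup_le hHA (map_conj_le_of_normal A H hHA a)) hx
      refine ⟨⟨x, hxA⟩, ?_, ?_⟩
      · rw [← Subgroup.mem_map_iff_mem hinj, Subgroup.map_sup, map_conj_map_subtype, hmap]
        exact hx
      · apply Subgroup.map_injective hinj
        rw [map_conj_map_subtype, map_conj_map_subtype, hmap]
        exact hxe
    · rw [eq_top_iff]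
      intro g _
      obtain ⟨x, hx, hxe⟩ := hpro g
      have hxA : x ∈ A := (sup_le hHA (map_conj_le_of_normal A H hHA g)) hx
      have hn : x⁻¹ * g ∈ normalizer (H : Set G) := by
        apply mem_normalizer_of_map_conj_eq
        rw [map_conj_mul, hxe, ← map_conj_mul, inv_mul_cancel]
        ext y; simp
      have : g = x * (x⁻¹ * g) := by group
      rw [this]
      exact mul_mem_sup hxA hn
  · rintro ⟨hpro, hsup⟩ g
    have hg : g ∈ A ⊔ normalizer (H : Set G) := hsup ▸ mem_top g
    rw [mem_sup_of_normal_left] at hg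
    obtain ⟨a, ha, n, hn, rfl⟩ := hg
    obtain ⟨x, hx, hxe⟩ := hpro ⟨a, ha⟩
    have e : H.map (MulAut.conj (a * n)).toMonoidHom = H.map (MulAut.conj a).toMonoidHom := by
      rw [map_conj_mul, map_conj_eq_of_mem_normalizer H n hn]
    rw [e]
    refine ⟨x, ?_, ?_⟩
    · rw [← Subgroup.mem_map_iff_mem hinj, Subgroup.map_sup, map_conj_map_subtype, hmap] at hx
      exact hx
    · have := congrArg (Subgroup.map A.subtype) hxe
      rw [map_conj_map_subtype, map_conj_map_subtype, hmap] at this
      exact this

end Cfsg.Agent.S3821
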