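import Cfsg.Statements.S3825
import Mathlib

set_option autoImplicit false
open Cfsg

namespace Cfsg.Agent.S3825

open Subgroup
open scoped commutatorElement

/-- A fixed-point-free endomorphism of order two of a finite group inverts every element. -/
theorem fpf_inverts {Q : Type*} [Group Q] [Finite Q] (s : Q →* Q) (hs2 : ∀ q, s (s q) = q)
    (hfix : ∀ q, s q = q → q = 1) : ∀ q, s q = q⁻¹ := by
  have hinj : Function.Injective (fun q : Q => q⁻¹ * s q) := by
    intro a b hab
    simp only at hab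
    have h1 : s (b * a⁻¹) = b * a⁻¹ := by
      rw [map_mul, map_inv]
      have : s b = b * (a⁻¹ * s a) := by rw [hab]; group
      rw [this]; group
    have := hfix _ h1
    exact (mul_inv_eq_one.1 this).symm
  have hsurj := Finite.injective_iff_surjective.1 hinj
  intro q
  obtain ⟨a, rfl⟩ := hsurj q
  simp only [map_mul, map_inv, hs2, mul_inv_rev, inv_inv]

theorem card_le_two_of_subset {V : Type*} [Group V] [Finite V] (K : Subgroup V) (y : V)
    (h : ∀ v ∈ K, v = 1 ∨ v = y) : Nat.card K ≤ 2 := by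
  have h1 : (K : Set V) ⊆ {1, y} := by
    intro v hv
    rcases h v hv with h | h <;> simp [h]
  calc Nat.card K = (K : Set V).ncard := by rw [← Nat.card_coe_set_eq]; rfl
    _ ≤ ({1, y} : Set V).ncard := Set.ncard_le_ncard h1 (Set.toFinite _)
    _ ≤ ({y} : Set V).ncard + 1 := Set.ncard_insert_le _ _
    _ = 2 := by rw [Set.ncard_singleton]

/-- Let U be a subgroup of a finite group H and w an involution of H normalizing U and commuting with exactly two elements of U, the identity and y. If V is a non-cyclic elementary abelian 2-subgroup of U containing y which is normal in U and invariant under w, then V is a Sylow 2-subgroup of U, V has order 4, and U/V is abelian. -/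
theorem result {H : Type*} [Group H] [Finite H] (U : Subgroup H) (w : H) (hw : orderOf w = 2)
    (hwU : w ∈ Subgroup.normalizer (U : Set H)) (y : H) (hy : y ≠ 1) (hyU : y ∈ U)
    (hfix : ∀ u ∈ U, w * u * w⁻¹ = u ↔ (u = 1 ∨ u = y))
    (V : Subgroup H) (hVU : V ≤ U) (hVn : (V.subgroupOf U).Normal) (hVw : ∀ v ∈ V, w * v * w⁻¹ ∈ V)
    (hVe : Cfsg.IsElementaryAbelian 2 V) (hVc : ¬ IsCyclic ↥V) (hyV : y ∈ V) :
    ¬ 2 ∣ V.relIndex U ∧ Nat.card ↥V = 4 ∧ ⁅U, U⁆ ≤ V := by
  have hw2 : w * w = 1 := by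
    have := pow_orderOf_eq_one w
    rwa [hw, pow_two] at this
  have hwinv : w⁻¹ = w := inv_eq_of_mul_eq_one_left hw2
  have hss : ∀ u : H, w * (w * u * w⁻¹) * w⁻¹ = u := by
    intro u
    calc w * (w * u * w⁻¹) * w⁻¹ = (w * w) * u * (w * w)⁻¹ := by group
      _ = u := by rw [hw2]; simp
  have hsmul : ∀ a b : H, w * (a * b) * w⁻¹ = (w * a * w⁻¹) * (w * b * w⁻¹) := by
    intro a b; group
  have comm : ∀ a ∈ V, ∀ b ∈ V, a * b = b * a := by
    intro a ha b hb
    have := hVe.1.is_comm.comm (⟨a, ha⟩ : V) ⟨b, hb⟩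
    exact congrArg Subtype.val this
  have hsq : ∀ a ∈ V, a * a = 1 := by
    intro a ha
    have := hVe.2 a ha
    rwa [pow_two] at this
  have hinvV : ∀ a ∈ V, a⁻¹ = a := fun a ha => inv_eq_of_mul_eq_one_left (hsq a ha)
  -- the homomorphism v ↦ v * σ v
  let θ : V →* V := MonoidHom.mk' (fun v => ⟨v * (w * v * w⁻¹), V.mul_mem v.2 (hVw v v.2)⟩) (by
    intro a b
    apply Subtype.ext
    simp only [Subgroup.coe_mul]
    rw [hsmul]
    have e := comm b b.2 _ (hVw a a.2)
    calc (a : H) * b * (w * a * w⁻¹ * (w * b * w⁻¹)) = a * (b * (w * a * w⁻¹)) * (w * b * w⁻¹) := by group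
      _ = a * ((w * a * w⁻¹) * b) * (w * b * w⁻¹) := by rw [e]
      _ = _ := by group)
  have hθ : ∀ v : V, ((θ v : V) : H) = v * (w * v * w⁻¹) := fun v => rfl
  have hker : ∀ v : H, v ∈ V → v * (w * v * w⁻¹) = 1 → v = 1 ∨ v = y := by
    intro v hv h
    apply (hfix v (hVU hv)).1
    have : w * v * w⁻¹ = v⁻¹ := (inv_eq_of_mul_eq_one_right h).symm
    rw [this, hinvV v hv]
  have hker' : ∀ v ∈ θ.ker, v = 1 ∨ v = (⟨y, hyV⟩ : V) := by
    intro v hv
    have h1 : ((θ v : V) : H) = 1 := by rw [MonoidHom.mem_ker.1 hv]; rfl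
    rw [hθ] at h1
    rcases hker v v.2 h1 with h | h
    · left; exact Subtype.ext h
    · right; exact Subtype.ext h
  have hran' : ∀ v ∈ θ.range, v = 1 ∨ v = (⟨y, hyV⟩ : V) := by
    rintro _ ⟨v, rfl⟩
    have h1 : w * ((θ v : V) : H) * w⁻¹ = (θ v : V) := by
      rw [hθ, hsmul, hss]
      exact comm _ (hVw v v.2) _ v.2
    rcases (hfix _ (hVU (θ v).2)).1 h1 with h | h
    · left; exact Subtype.ext h
    · right; exact Subtype.ext h
  have hcard : Nat.card θ.ker * Nat.card θ.range = Nat.card V := by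
    rw [← Subgroup.index_ker]; exact Subgroup.card_mul_index _
  have hk2 : Nat.card θ.ker ≤ 2 := card_le_two_of_subset _ _ hker'
  have hr2 : Nat.card θ.range ≤ 2 := card_le_two_of_subset _ _ hran'
  have hV4 : Nat.card V = 4 := by
    have hle : Nat.card V ≤ 4 := by
      rw [← hcard]
      calc Nat.card θ.ker * Nat.card θ.range ≤ 2 * 2 := Nat.mul_le_mul hk2 hr2
        _ = 4 := rfl
    have hp : IsPGroup 2 V := by
      intro v
      refine ⟨1, ?_⟩
      apply Subtype.ext
      simpa using hVe.2 v v.2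
    obtain ⟨n, hn⟩ := hp.exists_card_eq
    rcases n with _ | _ | _ | n
    · exfalso; apply hVc
      have : Subsingleton V := (Nat.card_eq_one_iff_unique.1 (by simpa using hn)).1
      exact isCyclic_of_subsingleton
    · exfalso; apply hVc
      have : Fact (Nat.Prime 2) := ⟨Nat.prime_two⟩
      exact isCyclic_of_prime_card (p := 2) (by simpa using hn)
    · simpa using hn
    · exfalso
      have : 8 ≤ 2 ^ (n + 1 + 1 + 1) := by
        calc 8 = 2 ^ 3 := rfl
          _ ≤ 2 ^ (n + 1 + 1 + 1) := Nat.pow_le_pow_right (by norm_num) (by omega)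
      omega
  -- y is in the range of θ
  have hyran : ∃ v1 ∈ V, v1 * (w * v1 * w⁻¹) = y := by
    by_contra hcon
    have hbot : θ.range = ⊥ := by
      rw [eq_bot_iff]
      intro v hv
      rcases hran' v hv with h | h
      · exact h
      · exfalso; apply hcon
        obtain ⟨v1, hv1⟩ := hv
        refine ⟨v1, v1.2, ?_⟩
        rw [← hθ, hv1, h]
    rw [hbot, Subgroup.card_bot, mul_one] at hcard
    omega
  obtain ⟨v1, hv1V, hv1⟩ := hyran
  -- fixed cosets are trivial
  have hstep2 : ∀ u ∈ U, u⁻¹ * (w * u * w⁻¹) ∈ V → u ∈ V := by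
    intro u hu hv
    set v0 := u⁻¹ * (w * u * w⁻¹) with hv0
    have hsu : w * u * w⁻¹ = u * v0 := by rw [hv0]; group
    have h1 : v0 * (w * v0 * w⁻¹) = 1 := by
      have h2 : u = u * v0 * (w * v0 * w⁻¹) := by
        calc u = w * (w * u * w⁻¹) * w⁻¹ := (hss u).symm
          _ = w * (u * v0) * w⁻¹ := by rw [hsu]
          _ = (w * u * w⁻¹) * (w * v0 * w⁻¹) := hsmul _ _
          _ = u * v0 * (w * v0 * w⁻¹) := by rw [hsu]
      have h3 : u * 1 = u * (v0 * (w * v0 * w⁻¹)) := by rw [mul_one, ← mul_assoc]; exact h2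
      exact (mul_left_cancel h3).symm
    rcases hker v0 hv h1 with h | h
    · rw [h, mul_one] at hsu
      rcases (hfix u hu).1 hsu with h' | h'
      · rw [h']; exact V.one_mem
      · rw [h']; exact hyV
    · rw [h] at hsu
      have hsv1 : w * v1 * w⁻¹ = v1 * y := by
        have : w * v1 * w⁻¹ = v1⁻¹ * y := by rw [← hv1]; group
        rw [this, hinvV v1 hv1V]
      have h4 : w * (u * v1) * w⁻¹ = u * v1 := by
        rw [hsmul, hsu, hsv1]
        calc u * y * (v1 * y) = u * (y * v1) * y := by group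
          _ = u * (v1 * y) * y := by rw [comm y hyV v1 hv1V]
          _ = u * v1 * (y * y) := by group
          _ = u * v1 := by rw [hsq y hyV, mul_one]
      have huv : u * v1 ∈ V := by
        rcases (hfix _ (U.mul_mem hu (hVU hv1V))).1 h4 with h' | h'
        · rw [h']; exact V.one_mem
        · rw [h']; exact hyV
      exact (Subgroup.mul_mem_cancel_right V hv1V).1 huv
  -- the induced endomorphism on the quotient
  have hwU' : ∀ u ∈ U, w * u * w⁻¹ ∈ U := fun u hu => (mem_normalizer_iff.1 hwU u).1 hu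
  let σU : U →* U := MonoidHom.mk' (fun u => ⟨w * u * w⁻¹, hwU' u u.2⟩) (by
    intro a b
    apply Subtype.ext
    exact hsmul a b)
  let s : (U ⧸ V.subgroupOf U) →* (U ⧸ V.subgroupOf U) :=
    QuotientGroup.map (V.subgroupOf U) (V.subgroupOf U) σU (by
      intro u hu
      rw [mem_comap, mem_subgroupOf]
      exact hVw u hu)
  have hs2 : ∀ q, s (s q) = q := by
    intro q
    induction q using QuotientGroup.induction_on with
    | H u =>
      change ((σU (σU u) : U) : U ⧸ V.subgroupOf U) = (u : U ⧸ V.subgroupOf U)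
      congr 1
      apply Subtype.ext
      exact hss u
  have hsfix : ∀ q, s q = q → q = 1 := by
    intro q hq
    induction q using QuotientGroup.induction_on with
    | H u =>
      have hq' : ((σU u : U) : U ⧸ V.subgroupOf U) = (u : U ⧸ V.subgroupOf U) := hq
      rw [eq_comm, QuotientGroup.eq, mem_subgroupOf] at hq'
      rw [QuotientGroup.eq_one_iff, mem_subgroupOf]
      exact hstep2 u u.2 hq'
  have hinv := fpf_inverts s hs2 hsfix
  refine ⟨?_, hV4, ?_⟩
  · intro h2
    have : Fact (Nat.Prime 2) := ⟨Nat.prime_two⟩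
    have h2' : 2 ∣ Nat.card (U ⧸ V.subgroupOf U) := h2
    obtain ⟨q, hq⟩ := exists_prime_orderOf_dvd_card' 2 h2'
    have hq2 : q * q = 1 := by
      have := pow_orderOf_eq_one q
      rwa [hq, pow_two] at this
    have hq1 : q = 1 := by
      apply hsfix
      rw [hinv]
      exact inv_eq_of_mul_eq_one_left hq2
    rw [hq1, orderOf_one] at hq
    omega
  · rw [commutator_le]
    intro a ha b hb
    have hc : ∀ p q : U ⧸ V.subgroupOf U, p * q = q * p := by
      intro p q
      have h1 := hinv (p * q)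
      rw [map_mul, hinv, hinv] at h1
      have h2 : (p⁻¹ * q⁻¹)⁻¹ = ((p * q)⁻¹)⁻¹ := by rw [h1]
      simpa using h2.symm
    have h3 := hc ((⟨a, ha⟩ : U) : U ⧸ V.subgroupOf U) ((⟨b, hb⟩ : U) : U ⧸ V.subgroupOf U)
    rw [← QuotientGroup.mk_mul, ← QuotientGroup.mk_mul, eq_comm, QuotientGroup.eq, mem_subgroupOf] at h3
    have h4 : ⁅a, b⁆ = a * b * ((b * a)⁻¹ * (a * b)) * (a * b)⁻¹ := by
      rw [commutatorElement_def]; group
    rw [h4]
    have hn := hVn.conj_mem ⟨(b * a)⁻¹ * (a * b), U.mul_mem (U.inv_mem (U.mul_mem hb ha)) (U.mul_mem ha hb)⟩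
      (by rw [mem_subgroupOf]; exact h3) ⟨a * b, U.mul_mem ha hb⟩
    rw [mem_subgroupOf] at hn
    exact hn

end Cfsg.Agent.S3825
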