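import Cfsg.Statements.S3835
import Cfsg.Agent.Lib.Helper38.QdAlt

set_option autoImplicit false
open Cfsg

namespace Cfsg.Agent.S3835

/-- Let p be an odd prime and n a natural number. The alternating group of degree n has a subgroup isomorphic to Qd(p) (the natural semidirect product of an elementary abelian group of order p² by SL₂(p)) if and only if n ≥ p²; and if n < p² then Qd(p) is not even involved in it. -/
theorem result {p : ℕ} [Fact p.Prime] (hp : p ≠ 2) (n : ℕ) : ((∃ H : Subgroup (alternatingGroup (Fin n)), Nonempty (↥H ≃* ↥(Cfsg.qd p))) ↔ p ^ 2 ≤ n) ∧ (n < p ^ 2 → ¬ Cfsg.Involves ↥(Cfsg.qd p) ↥(alternatingGroup (Fin n))) := by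
  have hinv : n < p ^ 2 → ¬ Cfsg.Involves ↥(Cfsg.qd p) ↥(alternatingGroup (Fin n)) :=
    fun h => Cfsg.Agent.Lib.Helper38.not_involves_qd h
  refine ⟨⟨?_, fun h => Cfsg.Agent.Lib.Helper38.exists_qd_in_alternating hp n h⟩, hinv⟩
  rintro ⟨H, ⟨e⟩⟩
  by_contra hcon
  apply hinv (not_le.1 hcon)
  have hbot : ((⊥ : Subgroup (alternatingGroup (Fin n))).subgroupOf H) = ⊥ := by
    rw [Subgroup.subgroupOf_eq_bot]
    exact disjoint_bot_left
  have hn : ((⊥ : Subgroup (alternatingGroup (Fin n))).subgroupOf H).Normal := by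
    rw [hbot]; infer_instance
  refine ⟨H, ⊥, hn, ⟨?_⟩⟩
  exact ((QuotientGroup.quotientMulEquivOfEq hbot).trans QuotientGroup.quotientBot).trans e

end Cfsg.Agent.S3835
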