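import Cfsg.Statements.S3836
import Mathlib

set_option autoImplicit false
open Cfsg

namespace Cfsg.Agent.S3836

open Subgroup

theorem coe_mem_normalizer_map {G : Type*} [Group G] (H : Subgroup G) (P : Subgroup H) (x : H)
    (hx : x ∈ normalizer (P : Set H)) : (x : G) ∈ normalizer ((P.map H.subtype : Subgroup G) : Set G) := by
  rw [mem_normalizer_iff] at hx ⊢
  intro h
  constructor
  · rintro ⟨y, hy, rfl⟩
    exact ⟨x * y * x⁻¹, (hx y).1 hy, rfl⟩
  · rintro ⟨y, hy, hyx⟩
    refine ⟨x⁻¹ * y * x, ?_, ?_⟩
    · apply (hx _).2
      simpa [mul_assoc] using hy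
    · simp only [Subgroup.coe_subtype, Subgroup.coe_mul, Subgroup.coe_inv] at hyx ⊢
      rw [hyx]; group

theorem coe_mem_centralizer_map_iff {G : Type*} [Group G] (H : Subgroup G) (P : Subgroup H) (x : H) :
    (x : G) ∈ centralizer ((P.map H.subtype : Subgroup G) : Set G) ↔ x ∈ centralizer (P : Set H) := by
  rw [mem_centralizer_iff, mem_centralizer_iff]
  constructor
  · intro h y hy
    apply Subtype.ext
    exact h y ⟨y, hy, rfl⟩
  · rintro h _ ⟨y, hy, rfl⟩
    exact congrArg Subtype.val (h y hy)

theorem pCore_normal (p : ℕ) (G : Type*) [Group G] : (pCore p G).Normal :=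
  sSup_normal _ (fun _ h => h.1)

theorem pCore_isPGroup (p : ℕ) (G : Type*) [Group G] : IsPGroup p (pCore p G) :=
  Sylow.sSup_of_normal _ (fun _ h => h.2) (fun _ h => h.1)

/-- Let G be a finite group that is p-stable in the normalizer form: for every p-subgroup Q and every x ∈ N_G(Q) with [Q, x, x] = 1, the image of x in N_G(Q)/C_G(Q) lies in O_p(N_G(Q)/C_G(Q)). Then every subgroup of G is p-stable in the same sense. -/
theorem result {G : Type*} [Group G] [Finite G] {p : ℕ} [Fact p.Prime] (hst : Cfsg.IsNormalizerPStable p G) (H : Subgroup G) : Cfsg.IsNormalizerPStable p ↥H := by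
  intro P hP g hg hcomm
  have hP' : IsPGroup p (P.map H.subtype) := hP.map _
  have hg' : (g : G) ∈ normalizer ((P.map H.subtype : Subgroup G) : Set G) :=
    coe_mem_normalizer_map H P g hg
  have hcomm' : ⁅⁅P.map H.subtype, zpowers (g : G)⁆, zpowers (g : G)⁆ = ⊥ := by
    have := congrArg (Subgroup.map H.subtype) hcomm
    rw [map_commutator, map_commutator, MonoidHom.map_zpowers, Subgroup.map_bot] at this
    exact this
  have h := hst (P.map H.subtype) hP' g hg' hcomm'
  let f : normalizer (P : Set H) →* normalizer ((P.map H.subtype : Subgroup G) : Set G) :=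
    (H.subtype.comp (normalizer (P : Set H)).subtype).codRestrict _
      (fun x => coe_mem_normalizer_map H P x x.2)
  let ψ := QuotientGroup.map ((centralizer (P : Set H)).subgroupOf (normalizer (P : Set H)))
    ((centralizer ((P.map H.subtype : Subgroup G) : Set G)).subgroupOf
      (normalizer ((P.map H.subtype : Subgroup G) : Set G))) f (by
      intro x hx
      rw [mem_comap, mem_subgroupOf]
      rw [mem_subgroupOf] at hx
      exact (coe_mem_centralizer_map_iff H P x).2 hx)
  have hinj : Function.Injective ψ := by
    rw [injective_iff_map_eq_one]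
    intro q hq
    induction q using QuotientGroup.induction_on with
    | H x =>
      have hq' : ((f x : normalizer ((P.map H.subtype : Subgroup G) : Set G)) :
          _ ⧸ ((centralizer ((P.map H.subtype : Subgroup G) : Set G)).subgroupOf
      (normalizer ((P.map H.subtype : Subgroup G) : Set G)))) = 1 := hq
      rw [QuotientGroup.eq_one_iff, mem_subgroupOf] at hq' ⊢
      exact (coe_mem_centralizer_map_iff H P x).1 hq'
  have hK : (pCore p _).comap ψ ≤ pCore p _ := by
    apply le_sSup
    refine ⟨?_, ?_⟩
    · have := pCore_normal p (↥(normalizer ((P.map H.subtype : Subgroup G) : Set G)) ⧸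
        ((centralizer ((P.map H.subtype : Subgroup G) : Set G)).subgroupOf
          (normalizer ((P.map H.subtype : Subgroup G) : Set G))))
      exact this.comap ψ
    · exact (pCore_isPGroup p _).comap_of_injective ψ hinj
  exact hK h

end Cfsg.Agent.S3836
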