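import Cfsg.Statements.S3838
import Cfsg.Agent.S0081
import Cfsg.Agent.Lib.Helper2.PComplement

set_option autoImplicit false
open Cfsg
open scoped commutatorElement

namespace Cfsg.Agent.S3838

theorem lemmaA {H : Type*} [Group H] [Finite H] {p : ℕ} [Fact p.Prime] (P : Sylow p H)
    (Q : Subgroup H) [Q.Normal] (hQP : Q ≤ (P : Subgroup H))
    (h2 : Q ≤ (frattini (P : Subgroup H)).map (P : Subgroup H).subtype)
    (hN : ∀ n ∈ Subgroup.normalizer ((P : Subgroup H) : Set H), ∀ x ∈ (P : Subgroup H),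
      n * x * n⁻¹ * x⁻¹ ∈ Q) : Cfsg.HasNormalPComplement p H := by
  classical
  have hp : p.Prime := Fact.out
  have hsurj : Function.Surjective (QuotientGroup.mk' Q) := QuotientGroup.mk'_surjective Q
  have hbar : Cfsg.HasNormalPComplement p (H ⧸ Q) := by
    apply Cfsg.Agent.Lib.Helper2.hasNormalPComplement_of_normalizer_le_centralizer
      (P.mapSurjective hsurj)
    intro ybar hy
    obtain ⟨y, rfl⟩ := hsurj ybar
    have hy' : ∀ z, z ∈ (P : Subgroup H).map (QuotientGroup.mk' Q) ↔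
        QuotientGroup.mk' Q y * z * (QuotientGroup.mk' Q y)⁻¹ ∈
          (P : Subgroup H).map (QuotientGroup.mk' Q) := fun z => Subgroup.mem_normalizer_iff.1 hy z
    have hyN : y ∈ Subgroup.normalizer ((P : Subgroup H) : Set H) := by
      apply Subgroup.mem_normalizer_fintype
      intro x hx
      obtain ⟨x', hx', hxx⟩ := (hy' (QuotientGroup.mk' Q x)).1 ⟨x, hx, rfl⟩
      have h3 : QuotientGroup.mk' Q x' = QuotientGroup.mk' Q (y * x * y⁻¹) := by
        rw [hxx]; simp
      have h4 : x'⁻¹ * (y * x * y⁻¹) ∈ Q := QuotientGroup.eq.1 h3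
      have h9 := (P : Subgroup H).mul_mem hx' (hQP h4)
      have h10 : y * x * y⁻¹ ∈ (P : Subgroup H) := by simpa using h9
      exact h10
    rw [Subgroup.mem_centralizer_iff]
    rintro _ ⟨x, hx, rfl⟩
    have h5 := hN y hyN x hx
    rw [← QuotientGroup.eq_one_iff] at h5
    have h6 : QuotientGroup.mk' Q y * QuotientGroup.mk' Q x * (QuotientGroup.mk' Q y)⁻¹ *
        (QuotientGroup.mk' Q x)⁻¹ = 1 := by
      simpa using h5
    have h7 := mul_inv_eq_one.1 h6
    have h8 := mul_inv_eq_iff_eq_mul.1 h7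
    exact h8.symm
  rw [Cfsg.Agent.Lib.Helper2.hasNormalPComplement_iff] at hbar
  obtain ⟨X, hX⟩ : ∃ X : Subgroup H, X = (Cfsg.pResidual p (H ⧸ Q)).comap (QuotientGroup.mk' Q) :=
    ⟨_, rfl⟩
  have hXn : X.Normal := by rw [hX]; infer_instance
  have hXP : X ⊓ (P : Subgroup H) ≤ Q := by
    rintro x ⟨hxX, hxP⟩
    rw [hX] at hxX
    have h1 : QuotientGroup.mk' Q x ∈ Cfsg.pResidual p (H ⧸ Q) := hxX
    have h2 : orderOf (QuotientGroup.mk' Q x) ∣ Nat.card (Cfsg.pResidual p (H ⧸ Q)) := by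
      have := orderOf_dvd_natCard (⟨_, h1⟩ : Cfsg.pResidual p (H ⧸ Q))
      rwa [Subgroup.orderOf_mk] at this
    obtain ⟨j, hj⟩ := (IsPGroup.iff_orderOf.1 P.2) ⟨x, hxP⟩
    have hj' : orderOf x = p ^ j := by rw [← hj, Subgroup.orderOf_mk]
    have h3 : orderOf (QuotientGroup.mk' Q x) ∣ p ^ j := hj' ▸ orderOf_map_dvd _ x
    have h4 : (orderOf (QuotientGroup.mk' Q x)).Coprime (orderOf (QuotientGroup.mk' Q x)) :=
      Nat.Coprime.coprime_dvd_left h2 (Nat.Coprime.coprime_dvd_right h3 (Nat.Coprime.pow_right _ hbar))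
    have h5 : orderOf (QuotientGroup.mk' Q x) = 1 := (Nat.coprime_self _).1 h4
    exact (QuotientGroup.eq_one_iff x).1 (orderOf_eq_one_iff.1 h5)
  have hT := Cfsg.Agent.S0081.result P X (hXP.trans h2)
  rw [Cfsg.Agent.Lib.Helper2.hasNormalPComplement_iff] at hT ⊢
  have hle : Cfsg.pResidual p H ≤ X := by
    unfold Cfsg.pResidual
    rw [Subgroup.closure_le]
    intro g hg
    rw [hX]
    apply Subgroup.subset_closure
    exact Nat.Coprime.coprime_dvd_left (orderOf_map_dvd _ g) hg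
  rw [← Cfsg.Agent.Lib.Helper2.map_pResidual_subtype_eq p X hle,
    Subgroup.card_map_of_injective X.subtype_injective]
  exact hT


theorem factF {G : Type*} [Group G] [Finite G] {p : ℕ} [Fact p.Prime] (P : Sylow p G)
    (hN : Cfsg.HasNormalPComplement p ↥(Subgroup.normalizer ((P : Subgroup G) : Set G))) :
    ∀ n ∈ Subgroup.normalizer ((P : Subgroup G) : Set G), ∀ x ∈ (P : Subgroup G),
      n * x * n⁻¹ * x⁻¹ ∈ ⁅(P : Subgroup G), (P : Subgroup G)⁆ := by
  classical
  have hp : p.Prime := Fact.out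
  obtain ⟨P0, K, hKn, hc⟩ := hN
  have hPN : (P : Subgroup G) ≤ Subgroup.normalizer ((P : Subgroup G) : Set G) :=
    Subgroup.le_normalizer
  have hnorm : ((P.subtype hPN : Sylow p ↥(Subgroup.normalizer ((P : Subgroup G) : Set G))) :
      Subgroup ↥(Subgroup.normalizer ((P : Subgroup G) : Set G))).Normal := by
    rw [Sylow.coe_subtype]; exact Subgroup.normal_in_normalizer
  obtain ⟨g, hg⟩ := MulAction.exists_smul_eq
    (Subgroup.normalizer ((P : Subgroup G) : Set G)) (P.subtype hPN) P0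
  rw [Sylow.smul_eq_of_normal] at hg
  subst hg
  have hKcop : (Nat.card K).Coprime p := by
    rw [← hc.index_eq_card]
    exact ((Nat.Prime.coprime_iff_not_dvd hp).2 (Sylow.not_dvd_index _)).symm
  intro n hn x hx
  obtain ⟨⟨k, u⟩, hku⟩ := hc.2 ⟨n, hn⟩
  obtain ⟨⟨k, hkN⟩, hkK⟩ := k
  obtain ⟨⟨u, huN⟩, huP⟩ := u
  have hu : u ∈ (P : Subgroup G) := by
    rw [SetLike.mem_coe, Sylow.coe_subtype, Subgroup.mem_subgroupOf] at huP
    exact huP
  have hku' : k * u = n := congrArg Subtype.val hku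
  -- `k` centralizes `P`
  have hkc : ∀ y ∈ (P : Subgroup G), k * y * k⁻¹ = y := by
    intro y hy
    have h1 : (⟨k * y * k⁻¹ * y⁻¹, Subgroup.mul_mem _ (Subgroup.mul_mem _ (Subgroup.mul_mem _ hkN
        (hPN hy)) (Subgroup.inv_mem _ hkN)) (Subgroup.inv_mem _ (hPN hy))⟩ :
        ↥(Subgroup.normalizer ((P : Subgroup G) : Set G))) ∈ K := by
      have h2 := hKn.conj_mem _ (K.inv_mem hkK) ⟨y, hPN hy⟩
      have h3 := K.mul_mem hkK h2
      convert h3 using 1
      apply Subtype.ext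
      simp [mul_assoc]
    have h4 : k * y * k⁻¹ * y⁻¹ ∈ (P : Subgroup G) := by
      have h5 := (Subgroup.mem_normalizer_iff.1 hkN y).1 hy
      exact (P : Subgroup G).mul_mem h5 ((P : Subgroup G).inv_mem hy)
    obtain ⟨j, hj⟩ := (IsPGroup.iff_orderOf.1 P.2) ⟨_, h4⟩
    rw [Subgroup.orderOf_mk] at hj
    have h6 := orderOf_dvd_natCard (⟨_, h1⟩ : K)
    rw [Subgroup.orderOf_mk, Subgroup.orderOf_mk] at h6
    have h8 : (orderOf (k * y * k⁻¹ * y⁻¹)).Coprime (Nat.card K) := by
      rw [hj]; exact (Nat.Coprime.pow_right _ hKcop).symm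
    have h9 := orderOf_eq_one_iff.1 (Nat.Coprime.eq_one_of_dvd h8 h6)
    exact mul_inv_eq_one.1 h9
  have e1 : n * x * n⁻¹ = u * x * u⁻¹ := by
    have h1 := hkc _ ((P : Subgroup G).mul_mem ((P : Subgroup G).mul_mem hu hx)
      ((P : Subgroup G).inv_mem hu))
    rw [← h1, ← hku']; group
  rw [e1]
  exact Subgroup.commutator_mem_commutator hu hx

/-- Let G be a finite group with Sylow p-subgroup P such that N_G(P) has a normal p-complement. Then N_G(Q) has a normal p-complement for every subgroup Q with [P, P] ≤ Q ≤ Φ(P). -/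
theorem result {G : Type*} [Group G] [Finite G] {p : ℕ} [Fact p.Prime] (P : Sylow p G) (hN : Cfsg.HasNormalPComplement p ↥(Subgroup.normalizer ((P : Subgroup G) : Set G))) (Q : Subgroup G) (h1 : (commutator ↥(P : Subgroup G)).map (P : Subgroup G).subtype ≤ Q) (h2 : Q ≤ (frattini ↥(P : Subgroup G)).map (P : Subgroup G).subtype) : Cfsg.HasNormalPComplement p ↥(Subgroup.normalizer (Q : Set G)) := by
  classical
  have hF := factF P hN
  have hcomm : ⁅(P : Subgroup G), (P : Subgroup G)⁆ ≤ Q := by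
    rw [← Subgroup.map_subtype_commutator]; exact h1
  have hQP : Q ≤ (P : Subgroup G) := h2.trans (Subgroup.map_subtype_le _)
  have hPH : (P : Subgroup G) ≤ Subgroup.normalizer (Q : Set G) := by
    intro x hx
    apply Subgroup.mem_normalizer_fintype
    intro q hq
    have h3 : ⁅x, q⁆ ∈ Q := hcomm (Subgroup.commutator_mem_commutator hx (hQP hq))
    have h4 := Q.mul_mem h3 hq
    simpa [commutatorElement_def] using h4
  have hQn : (Q.subgroupOf (Subgroup.normalizer (Q : Set G))).Normal := Subgroup.normal_in_normalizer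
  apply lemmaA (P.subtype hPH) (Q.subgroupOf (Subgroup.normalizer (Q : Set G)))
  · rw [Sylow.coe_subtype]
    intro x hx
    exact hQP hx
  · intro q hq
    obtain ⟨y, hy, hyq⟩ := h2 (Subgroup.mem_subgroupOf.1 hq)
    have h5 := frattini_le_comap_frattini_of_surjective
      (φ := (Subgroup.subgroupOfEquivOfLe hPH).symm.toMonoidHom)
      (Subgroup.subgroupOfEquivOfLe hPH).symm.surjective hy
    refine ⟨_, h5, ?_⟩
    apply Subtype.ext
    exact hyq
  · intro n hn x hx
    rw [Sylow.coe_subtype] at hn hx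
    have hnN : (n : G) ∈ Subgroup.normalizer ((P : Subgroup G) : Set G) := by
      apply Subgroup.mem_normalizer_fintype
      intro y hy
      have h6 := (Subgroup.mem_normalizer_iff.1 hn ⟨y, hPH hy⟩).1 (Subgroup.mem_subgroupOf.2 hy)
      exact Subgroup.mem_subgroupOf.1 h6
    rw [Subgroup.mem_subgroupOf]
    exact hcomm (hF n hnN x (Subgroup.mem_subgroupOf.1 hx))

end Cfsg.Agent.S3838
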