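import Cfsg.Statements.S3839
import Cfsg.Agent.Lib.Helper64.LocalTools
import Cfsg.Agent.Lib.Lead.Residual
import Cfsg.Agent.S0071

set_option autoImplicit false
open Cfsg
open scoped Pointwise

namespace Cfsg.Agent.S3839

open Cfsg.Agent.Lib.Helper64 Cfsg.Agent.Lib.Helper72 Cfsg.Agent.Lib.Lead Subgroup

variable {G : Type*} [Group G]

/-- a `p`-subgroup with a `p'`-element acting nontrivially on it. -/
def Bad (p : ℕ) (Q : Subgroup G) : Prop :=
  IsPGroup p Q ∧ ∃ g ∈ normalizer (Q : Set G), (orderOf g).Coprime p ∧ g ∉ centralizer (Q : Set G)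

theorem Bad.conj {p : ℕ} {Q : Subgroup G} (h : Bad p Q) (y : G) : Bad p (MulAut.conj y • Q) := by
  obtain ⟨hQ, g, hg1, hg2, hg3⟩ := h
  refine ⟨hQ.of_equiv (Subgroup.equivSMul (MulAut.conj y) Q), y * g * y⁻¹, ?_, ?_, ?_⟩
  · rw [mem_normalizer_iff_conj_smul_eq] at hg1 ⊢
    rw [smul_smul, ← map_mul]
    have : y * g * y⁻¹ * y = y * g := by group
    rw [this, map_mul, mul_smul, hg1]
  · have : orderOf (y * g * y⁻¹) = orderOf g := by
      rw [← MulAut.conj_apply]; exact MulEquiv.orderOf_eq _ _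
    rwa [this]
  · intro hc
    apply hg3
    rw [mem_centralizer_iff] at hc ⊢
    intro u hu
    have := hc (y * u * y⁻¹) (conj_mem_conj_smul y u Q hu)
    have h2 : y * (u * g) * y⁻¹ = y * (g * u) * y⁻¹ := by
      calc y * (u * g) * y⁻¹ = y * u * y⁻¹ * (y * g * y⁻¹) := by group
        _ = y * g * y⁻¹ * (y * u * y⁻¹) := this
        _ = _ := by group
    exact mul_left_cancel (mul_right_cancel h2)

/-- in a subgroup with a normal `p`-complement, `p'`-elements centralize the `p`-subgroups they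
normalize. -/
theorem mem_centralizer_of_hasNormalPComplement [Finite G] {p : ℕ} [Fact p.Prime] {H Q : Subgroup G}
    (hH : Cfsg.HasNormalPComplement p ↥H) (hQ : IsPGroup p Q) (hQH : Q ≤ H) {g : G} (hgH : g ∈ H)
    (hgN : g ∈ normalizer (Q : Set G)) (hg : (orderOf g).Coprime p) :
    g ∈ centralizer (Q : Set G) := by
  obtain ⟨N, hN, h1, k, h2⟩ := hasNormalPComplement_iff.1 hH
  have hgmem : (⟨g, hgH⟩ : ↥H) ∈ N := by
    rw [mem_iff_coprime_orderOf_of_normal_complement h1 h2, Subgroup.orderOf_mk]; exact hg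
  rw [mem_centralizer_iff]
  intro u hu
  have hc1 : (⟨g, hgH⟩ : ↥H) * ⟨u, hQH hu⟩ * (⟨g, hgH⟩ : ↥H)⁻¹ * (⟨u, hQH hu⟩ : ↥H)⁻¹ ∈ N := by
    have h := N.mul_mem hgmem (hN.conj_mem _ (N.inv_mem hgmem) ⟨u, hQH hu⟩)
    rwa [← mul_assoc, ← mul_assoc] at h
  have hc2 : g * u * g⁻¹ * u⁻¹ ∈ Q := Q.mul_mem ((mem_normalizer_iff.1 hgN u).1 hu) (Q.inv_mem hu)
  have ho1 : (orderOf (g * u * g⁻¹ * u⁻¹)).Coprime p := by
    have h3 := (mem_iff_coprime_orderOf_of_normal_complement h1 h2 _).1 hc1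
    rw [← Subgroup.orderOf_coe] at h3
    exact h3
  obtain ⟨e, he⟩ := hQ ⟨_, hc2⟩
  have he' : (g * u * g⁻¹ * u⁻¹) ^ p ^ e = 1 := congrArg Subtype.val he
  have h4 : g * u * g⁻¹ * u⁻¹ ∈ (⊥ : Subgroup G) :=
    mem_of_pow_prime_pow_mem ho1 (k := e) (by rw [he']; exact one_mem _)
  rw [mem_bot] at h4
  calc u * g = (g * u * g⁻¹ * u⁻¹)⁻¹ * (g * u) := by group
    _ = g * u := by rw [h4]; simp

/-- Main step: a bad subgroup `Q ≤ S` of maximal order gives a contradiction. -/
theorem no_bad [Finite G] {p : ℕ} [Fact p.Prime] (S : Sylow p G) (D : Subgroup G)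
    (hD : Cfsg.IsStronglyClosed D (S : Subgroup G))
    (hyp : ∀ U : Subgroup G, U ≤ D → D ⊓ Subgroup.centralizer (U : Set G) ≤ U →
      Cfsg.HasNormalPComplement p ↥(Subgroup.normalizer (U : Set G)))
    (Q : Subgroup G) (hQS : Q ≤ (S : Subgroup G)) (hbad : Bad p Q)
    (hmax : ∀ R : Subgroup G, Bad p R → Nat.card R ≤ Nat.card Q) : False := by
  obtain ⟨hQp, g, hgN, hgp, hgC⟩ := hbad
  obtain ⟨hDS, hDcl⟩ := hD
  set U := Q ⊓ D with hU
  -- conjugation by elements of `S` preserves `D`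
  have hDn : ∀ w ∈ (S : Subgroup G), ∀ e ∈ D, w * e * w⁻¹ ∈ D := fun w hw e he =>
    hDcl e he w ((S : Subgroup G).mul_mem ((S : Subgroup G).mul_mem hw (hDS he)) ((S : Subgroup G).inv_mem hw))
  have hNU : normalizer (Q : Set G) ≤ normalizer (U : Set G) := by
    apply le_normalizer_of_conj_mem
    intro h hh u hu
    have h1 : h * u * h⁻¹ ∈ Q := (mem_normalizer_iff.1 hh u).1 hu.1
    exact ⟨h1, hDcl u hu.2 h (hQS h1)⟩
  by_cases hcase : D ⊓ centralizer (U : Set G) ≤ U
  · exact hgC (mem_centralizer_of_hasNormalPComplement (hyp U inf_le_right hcase) hQp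
      (le_normalizer.trans hNU) (hNU hgN) hgN hgp)
  · set E := D ⊓ centralizer (U : Set G) with hE
    have hQE : Q ≤ normalizer (E : Set G) := by
      apply le_normalizer_of_conj_mem
      intro w hw e he
      rw [hE, mem_inf] at he ⊢
      refine ⟨hDn w (hQS hw) e he.1, ?_⟩
      rw [mem_centralizer_iff]
      intro u hu
      have hu' : w⁻¹ * u * w ∈ U := by
        have := (mem_normalizer_iff.1 (hNU (le_normalizer (Q.inv_mem hw))) u).1 hu
        simpa using this
      have h1 := (mem_centralizer_iff.1 he.2) _ hu'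
      calc u * (w * e * w⁻¹) = w * ((w⁻¹ * u * w) * e) * w⁻¹ := by group
        _ = w * (e * (w⁻¹ * u * w)) * w⁻¹ := by rw [h1]
        _ = w * e * w⁻¹ * u := by group
    have hlt : Q < Q ⊔ E := by
      refine lt_of_le_of_ne le_sup_left fun heq => hcase ?_
      have h1 : E ≤ Q := heq ▸ le_sup_right
      exact le_inf h1 inf_le_left
    have hYS : Q ⊔ E ≤ (S : Subgroup G) := sup_le hQS (inf_le_left.trans hDS)
    obtain ⟨y, hyY, hyN, hyQ⟩ := Cfsg.Agent.Lib.Helper64.exists_mem_normalizer_not_mem (S.2.to_le hYS) hlt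
    have hyY' : y ∈ ((Q ⊔ E : Subgroup G) : Set G) := hyY
    rw [coe_mul_of_left_le_normalizer_right Q E hQE] at hyY'
    obtain ⟨w, hw, x, hx, rfl⟩ := hyY'
    have hw' : w ∈ Q := hw
    have hx' : x ∈ E := hx
    have hxN : x ∈ normalizer (Q : Set G) := by
      have := mul_mem (le_normalizer (Q.inv_mem hw')) hyN
      simpa using this
    have hxQ : x ∉ Q := fun h => hyQ (Q.mul_mem hw' h)
    have hxS : x ∈ (S : Subgroup G) := hDS hx'.1
    set C := chainStab Q U with hC
    have hxC : x ∈ C := by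
      refine ⟨hxN, fun u hu => ⟨?_, ?_⟩, fun u hu => ((mem_centralizer_iff.1 hx'.2) u hu).symm⟩
      · exact Q.mul_mem ((mem_normalizer_iff.1 hxN u).1 hu) (Q.inv_mem hu)
      · have := D.mul_mem hx'.1 (hDn u (hQS hu) _ (D.inv_mem hx'.1))
        simpa [mul_assoc] using this
    have hgNC : g ∈ normalizer (C : Set G) := normalizer_le_normalizer_chainStab hNU hgN
    obtain ⟨R0, hR0, hxR0⟩ := exists_isSylowIn_ge (p := p) (X := zpowers x) (H := C)
      (S.2.to_le (zpowers_le.2 hxS)) (zpowers_le.2 hxC)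
    have hconj := hR0.smul g
    rw [(mem_normalizer_iff_conj_smul_eq g C).1 hgNC] at hconj
    obtain ⟨m, hmC, hm⟩ := hconj.exists_conj hR0
    -- `n = m * g` normalizes `R0`
    have hnR0 : m * g ∈ normalizer (R0 : Set G) := by
      rw [mem_normalizer_iff_conj_smul_eq, map_mul, mul_smul, ← hm]
    have hCN : C ≤ normalizer (Q : Set G) := fun c hc => hc.1
    have hnQ : m * g ∈ normalizer (Q : Set G) := mul_mem (hCN hmC) hgN
    obtain ⟨k, hk⟩ := exists_pow_prime_pow_coprime (p := p) (m * g)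
    have hbadR : Bad p (Q ⊔ R0) := by
      refine ⟨hQp.to_sup_of_normal_left' hR0.2.1 (hR0.1.trans hCN), (m * g) ^ p ^ k, ?_, hk, ?_⟩
      · apply Subgroup.pow_mem
        rw [mem_normalizer_iff_conj_smul_eq] at hnR0 hnQ ⊢
        rw [Subgroup.smul_sup, hnR0, hnQ]
      · intro hc
        have hc' : (m * g) ^ p ^ k ∈ centralizer (Q : Set G) :=
          centralizer_le (le_sup_left : Q ≤ Q ⊔ R0) hc
        obtain ⟨m', hm', hmg⟩ := exists_mul_pow_eq hgNC hmC (p ^ k)
        have h1 : g ^ p ^ k ∈ C := by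
          have h2 : (m * g) ^ p ^ k ∈ C := centralizer_inf_normalizer_le_chainStab Q U inf_le_left hc'
          have h3 := C.mul_mem (C.inv_mem hm') h2
          rw [hmg] at h3
          simpa using h3
        have h4 := pow_card_mem_centralizer_of_mem_chainStab h1
        obtain ⟨e, he⟩ := (hQp.to_le (inf_le_left : U ≤ Q)).exists_card_eq
        rw [he, ← pow_mul, ← pow_add] at h4
        exact hgC (mem_of_pow_prime_pow_mem hgp h4)
    have h5 := hmax _ hbadR
    have h6 : Q = Q ⊔ R0 := Subgroup.eq_of_le_of_card_ge le_sup_left h5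
    apply hxQ
    rw [h6]
    exact (le_sup_right : R0 ≤ Q ⊔ R0) (hxR0 (mem_zpowers x))

/-- A Frobenius normal p-complement criterion relative to a strongly closed subgroup. Let G be a finite group, S a Sylow p-subgroup and D a subgroup of S strongly closed in S with respect to G. Then G has a normal p-complement if and only if N_G(U) has a normal p-complement for every subgroup U of D with C_D(U) ≤ U. -/
theorem result {G : Type*} [Group G] [Finite G] {p : ℕ} [Fact p.Prime] (S : Sylow p G) (D : Subgroup G) (hD : Cfsg.IsStronglyClosed D (S : Subgroup G)) : Cfsg.HasNormalPComplement p G ↔ ∀ U : Subgroup G, U ≤ D → D ⊓ Subgroup.centralizer (U : Set G) ≤ U → Cfsg.HasNormalPComplement p ↥(Subgroup.normalizer (U : Set G)) := by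
  constructor
  · intro h U _ _
    exact Cfsg.Agent.Lib.Lead.HasNormalPComplement.subgroup h _
  · intro hyp
    by_contra hno
    have h1 : ¬ ∀ Q : Subgroup G, Q ≤ (S : Subgroup G) → ∀ g ∈ Subgroup.normalizer (Q : Set G),
        Nat.Coprime (orderOf g) p → g ∈ Subgroup.centralizer (Q : Set G) := by
      intro h
      obtain ⟨N, hN, hc⟩ := (Cfsg.Agent.S0071.result S).2 h
      exact hno ⟨S, N, hN, hc⟩
    push Not at h1
    obtain ⟨Q0, hQ0S, g, hgN, hgp, hgC⟩ := h1
    have hne : {Q : Subgroup G | Bad p Q}.Nonempty := ⟨Q0, S.2.to_le hQ0S, g, hgN, hgp, hgC⟩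
    obtain ⟨Q, hQ, hmax⟩ := Set.exists_max_image {Q : Subgroup G | Bad p Q}
      (fun Q => Nat.card Q) (Set.toFinite _) hne
    obtain ⟨P, hP⟩ := hQ.1.exists_le_sylow
    obtain ⟨y, hy⟩ := MulAction.exists_smul_eq G P S
    have hle : MulAut.conj y • Q ≤ (S : Subgroup G) := by
      rw [← hy]
      exact Subgroup.pointwise_smul_le_pointwise_smul_iff.2 hP
    refine no_bad S D hD hyp (MulAut.conj y • Q) hle (Bad.conj hQ y) ?_
    intro R hR
    rw [card_conj_smul]
    exact hmax R hR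

end Cfsg.Agent.S3839
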