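import Cfsg.Statements.S3858
import Cfsg.Agent.Lib.Helper64.Sylow

set_option autoImplicit false
open Cfsg

namespace Cfsg.Agent.S3858

open Subgroup Cfsg.Agent.Lib.Helper64
open scoped Pointwise

/-- Let G be a finite group with a normal non-abelian simple subgroup T whose centralizer is trivial (G almost simple with socle T), r a prime and R a Sylow r-subgroup of G meeting T nontrivially. Then R lies in exactly one maximal subgroup of G if and only if G has exactly one conjugacy class of maximal subgroups whose index is prime to r. -/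
theorem result {G : Type*} [Group G] [Finite G] (T : Subgroup G) [T.Normal] (hT : IsSimpleGroup T) (hna : ¬ IsMulCommutative T)
    (hC : Subgroup.centralizer (T : Set G) = ⊥) {r : ℕ} [Fact r.Prime] (R : Sylow r G) (hR0 : (R : Subgroup G) ⊓ T ≠ ⊥) :
    (∃! M : Subgroup G, IsCoatom M ∧ (R : Subgroup G) ≤ M) ↔
      ((∃ M : Subgroup G, IsCoatom M ∧ ¬ r ∣ M.index) ∧
        ∀ M₁ M₂ : Subgroup G, IsCoatom M₁ → ¬ r ∣ M₁.index → IsCoatom M₂ → ¬ r ∣ M₂.index → ∃ g : G, M₂ = M₁.map (MulAut.conj g).toMonoidHom) := by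
  have F1 : ∀ M : Subgroup G, (R : Subgroup G) ≤ M → ¬ r ∣ M.index := fun M hM h =>
    R.not_dvd_index (h.trans (index_dvd_of_le hM))
  constructor
  · rintro ⟨M, ⟨hM, hRM⟩, huniq⟩
    refine ⟨⟨M, hM, F1 M hRM⟩, ?_⟩
    have key : ∀ M₁ : Subgroup G, IsCoatom M₁ → ¬ r ∣ M₁.index → ∃ g : G, M₁ = MulAut.conj g • M := by
      intro M₁ h1 h2
      obtain ⟨g, hg⟩ := exists_smul_sylow_le_of_not_dvd_index R M₁ h2
      rw [Sylow.coe_subgroup_smul, Subgroup.pointwise_smul_subset_iff] at hg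
      have h3 := huniq _ ⟨by
        have := isCoatom_conj_smul h1 g⁻¹
        rwa [map_inv] at this, hg⟩
      refine ⟨g, ?_⟩
      rw [← h3, smul_inv_smul]
    intro M₁ M₂ h1 h1' h2 h2'
    obtain ⟨g1, hg1⟩ := key M₁ h1 h1'
    obtain ⟨g2, hg2⟩ := key M₂ h2 h2'
    refine ⟨g2 * g1⁻¹, ?_⟩
    change M₂ = MulAut.conj (g2 * g1⁻¹) • M₁
    rw [hg1, hg2, map_mul, map_inv, mul_smul, inv_smul_smul]
  · rintro ⟨-, hconj⟩
    have hRnorm : normalizer ((R : Subgroup G) : Set G) ≠ ⊤ := by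
      intro h
      have hn0 : (R : Subgroup G).Normal := normalizer_eq_top_iff.1 h
      have hn : ((R : Subgroup G) ⊓ T).Normal := inferInstance
      have hn' : (((R : Subgroup G) ⊓ T).subgroupOf T).Normal := inferInstance
      rcases hn'.eq_bot_or_eq_top with h1 | h1
      · rw [subgroupOf_eq_bot, disjoint_iff, inf_assoc, inf_idem] at h1
        exact hR0 h1
      · rw [subgroupOf_eq_top] at h1
        have hp : IsPGroup r T := R.2.to_le (h1.trans inf_le_left)
        exact hna (isMulCommutative_of_isPGroup_of_isSimpleGroup hp)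
    obtain ⟨M3, hM3, hN3⟩ := exists_isCoatom_ge _ hRnorm
    have hR3 : (R : Subgroup G) ≤ M3 := le_normalizer.trans hN3
    refine ⟨M3, ⟨hM3, hR3⟩, ?_⟩
    rintro M1 ⟨hM1, hR1⟩
    obtain ⟨g, hg⟩ := hconj M3 M1 hM3 (F1 _ hR3) hM1 (F1 _ hR1)
    change M1 = MulAut.conj g • M3 at hg
    have h1 : ((g⁻¹ • R : Sylow r G) : Subgroup G) ≤ M3 := by
      rw [Sylow.coe_subgroup_smul, map_inv, ← Subgroup.subset_pointwise_smul_iff, ← hg]
      exact hR1
    obtain ⟨m, hm, hmR⟩ := exists_mem_smul_eq_of_le R (g⁻¹ • R) M3 hR3 h1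
    have h2 : (g * m) • R = R := by rw [mul_smul, hmR, smul_inv_smul]
    rw [Sylow.smul_eq_iff_mem_normalizer] at h2
    have h3 : g * m ∈ M3 := hN3 h2
    have h4 : g ∈ M3 := (Subgroup.mul_mem_cancel_right _ hm).1 h3
    rw [hg, Subgroup.conj_smul_eq_self_of_mem h4]

end Cfsg.Agent.S3858
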