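import Cfsg.Statements.S3859
import Cfsg.Agent.Lib.Helper64.Sylow

set_option autoImplicit false
open Cfsg

namespace Cfsg.Agent.S3859

open Subgroup Cfsg.Agent.Lib.Helper64

/-- Let G be a finite group with a normal non-abelian simple subgroup T whose centralizer is trivial (G almost simple with socle T), r a prime and R a Sylow r-subgroup of G meeting T nontrivially. If R lies in exactly one maximal subgroup of G, then G/T is an r-group. -/
theorem result {G : Type*} [Group G] [Finite G] (T : Subgroup G) [T.Normal] (hT : IsSimpleGroup T) (hna : ¬ IsMulCommutative T)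
    (hC : Subgroup.centralizer (T : Set G) = ⊥) {r : ℕ} [Fact r.Prime] (R : Sylow r G) (hR0 : (R : Subgroup G) ⊓ T ≠ ⊥)
    (huniq : ∃! M : Subgroup G, IsCoatom M ∧ (R : Subgroup G) ≤ M) : IsPGroup r (G ⧸ T) := by
  obtain ⟨M, ⟨hM, hRM⟩, huniq⟩ := huniq
  have key : ∀ K : Subgroup G, (R : Subgroup G) ≤ K → K ≠ ⊤ → K ≤ M := by
    intro K hRK hK
    obtain ⟨M', hM', hKM'⟩ := exists_isCoatom_ge K hK
    have := huniq M' ⟨hM', hRK.trans hKM'⟩
    exact this ▸ hKM'
  have hDnorm : normalizer (((R : Subgroup G) ⊓ T : Subgroup G) : Set G) ≠ ⊤ := by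
    intro h
    have hn : ((R : Subgroup G) ⊓ T).Normal := normalizer_eq_top_iff.1 h
    have hn' : (((R : Subgroup G) ⊓ T).subgroupOf T).Normal := inferInstance
    rcases hn'.eq_bot_or_eq_top with h1 | h1
    · rw [subgroupOf_eq_bot, disjoint_iff, inf_assoc, inf_idem] at h1
      exact hR0 h1
    · rw [subgroupOf_eq_top] at h1
      have hp : IsPGroup r T := R.2.to_le (h1.trans inf_le_left)
      exact hna (isMulCommutative_of_isPGroup_of_isSimpleGroup hp)
  have hRN : (R : Subgroup G) ≤ normalizer (((R : Subgroup G) ⊓ T : Subgroup G) : Set G) := by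
    intro g hg
    rw [mem_normalizer_iff]
    intro h
    simp only [SetLike.mem_coe, mem_inf]
    have h1 : g * h * g⁻¹ ∈ (R : Subgroup G) ↔ h ∈ (R : Subgroup G) := by
      rw [Subgroup.mul_mem_cancel_right _ (inv_mem hg), Subgroup.mul_mem_cancel_left _ hg]
    have h2 : g * h * g⁻¹ ∈ T ↔ h ∈ T := by
      constructor
      · intro hh
        have := (inferInstance : T.Normal).conj_mem _ hh g⁻¹
        simpa [mul_assoc] using this
      · intro hh
        exact (inferInstance : T.Normal).conj_mem _ hh g
    rw [h1, h2]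
  have hsup : (R : Subgroup G) ⊔ T = ⊤ := by
    by_contra h
    have h1 := key _ le_sup_left h
    have h2 := key _ hRN hDnorm
    have h3 := normalizer_sylow_inf_sup_eq_top R T
    exact hM.1 (top_le_iff.1 (h3 ▸ sup_le h2 (le_sup_right.trans h1)))
  refine R.2.of_surjective ((QuotientGroup.mk' T).comp (R : Subgroup G).subtype) ?_
  intro q
  induction q using QuotientGroup.induction_on with
  | H g =>
    have hg : g ∈ (R : Subgroup G) ⊔ T := hsup ▸ mem_top g
    rw [mem_sup_of_normal_right] at hg
    obtain ⟨y, hy, z, hz, rfl⟩ := hg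
    refine ⟨⟨y, hy⟩, ?_⟩
    simp only [MonoidHom.coe_comp, Function.comp_apply, Subgroup.coe_subtype, QuotientGroup.mk'_apply]
    rw [QuotientGroup.eq]
    simpa using hz

end Cfsg.Agent.S3859
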