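import Cfsg.Statements.S3863
import Mathlib

set_option autoImplicit false
open Cfsg

namespace Cfsg.Agent.S3863

theorem odd_pow_inverts {G : Type*} [Group G] (x g : G) (h : g * x * g⁻¹ = x⁻¹) (k : ℕ) :
    g ^ (2 * k + 1) * x * (g ^ (2 * k + 1))⁻¹ = x⁻¹ := by
  have h2 : g * x⁻¹ * g⁻¹ = x := by
    have : (g * x * g⁻¹)⁻¹ = x := by rw [h, inv_inv]
    simpa [mul_assoc] using this
  induction k with
  | zero => simpa using h
  | succ k ih =>
    have e : g ^ (2 * (k + 1) + 1) = g * g * g ^ (2 * k + 1) := by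
      rw [show 2 * (k + 1) + 1 = 1 + 1 + (2 * k + 1) by ring, pow_add, pow_add, pow_one]
    rw [e]
    calc g * g * g ^ (2 * k + 1) * x * (g * g * g ^ (2 * k + 1))⁻¹
        = g * (g * (g ^ (2 * k + 1) * x * (g ^ (2 * k + 1))⁻¹) * g⁻¹) * g⁻¹ := by
          simp only [mul_inv_rev, mul_assoc]
      _ = x⁻¹ := by rw [ih, h2, h]

theorem mem_of_two_pow_of_odd_index {G : Type*} [Group G] [Finite G] (N : Subgroup G) [N.Normal]
    (hN : Odd N.index) (t : G) (j : ℕ) (ht : t ^ (2 ^ j) = 1) : t ∈ N := by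
  rw [← QuotientGroup.eq_one_iff]
  have h1 : orderOf (t : G ⧸ N) ∣ 2 ^ j := by
    apply orderOf_dvd_of_pow_eq_one
    rw [← QuotientGroup.mk_pow, ht]; rfl
  have h2 : orderOf (t : G ⧸ N) ∣ N.index := by
    rw [Subgroup.index]; exact orderOf_dvd_natCard _
  have hc : Nat.Coprime (2 ^ j) N.index := by
    apply Nat.Coprime.pow_left
    exact (Nat.coprime_two_left).2 hN
  have : orderOf (t : G ⧸ N) = 1 := Nat.eq_one_of_dvd_coprimes hc h1 h2
  exact orderOf_eq_one_iff.1 this

/-- Let x be an element of the finite group G that is conjugate to its inverse. Then some 2-element conjugates x to its inverse; if the conjugacy class of x has odd size then x ^ 2 = 1; and x lies in, and is conjugate to its inverse inside, every normal subgroup of odd index. -/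
theorem result {G : Type*} [Group G] [Finite G] (x : G) (hx : IsConj x x⁻¹) : (∃ t : G, (∃ j : ℕ, orderOf t = 2 ^ j) ∧ t * x * t⁻¹ = x⁻¹) ∧ (Odd (Subgroup.centralizer ({x} : Set G)).index → x ^ 2 = 1) ∧ ∀ (N : Subgroup G) [N.Normal], Odd N.index → ∃ hxN : x ∈ N, IsConj (⟨x, hxN⟩ : N) (⟨x, hxN⟩ : N)⁻¹ := by
  have key : ∃ t : G, (∃ j : ℕ, orderOf t = 2 ^ j) ∧ t * x * t⁻¹ = x⁻¹ := by
    obtain ⟨g, hg⟩ := isConj_iff.1 hx
    obtain ⟨a, m, hm, hn⟩ := Nat.exists_eq_two_pow_mul_odd (orderOf_pos g).ne'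
    obtain ⟨k, rfl⟩ := hm
    refine ⟨g ^ (2 * k + 1), ⟨a, ?_⟩, odd_pow_inverts x g hg k⟩
    rw [orderOf_pow_of_dvd (by omega) (by rw [hn]; exact Dvd.intro_left _ rfl), hn]
    exact Nat.mul_div_cancel _ (by omega)
  obtain ⟨t, ⟨j, hj⟩, ht⟩ := key
  refine ⟨⟨t, ⟨j, hj⟩, ht⟩, ?_, ?_⟩
  · intro hodd
    classical
    set C := Subgroup.centralizer ({x} : Set G) with hC
    have memC : ∀ g : G, g ∈ C ↔ g * x * g⁻¹ = x := by
      intro g
      rw [hC, Subgroup.mem_centralizer_singleton_iff]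
      constructor
      · intro h; rw [h]; simp
      · intro h; rw [mul_inv_eq_iff_eq_mul] at h; exact h
    have ht' : t⁻¹ * x * t = x⁻¹ := by
      have : x = t⁻¹ * x⁻¹ * t := by rw [← ht]; group
      have h3 : x⁻¹ = (t⁻¹ * x⁻¹ * t)⁻¹ := by rw [← this]
      rw [h3]; group
    have ht'' : t⁻¹ * x⁻¹ * t = x := by rw [← ht]; group
    -- right multiplication by t on G ⧸ C
    let f : G ⧸ C → G ⧸ C := Quotient.map' (fun g => g * t) (by
      intro a b hab
      rw [QuotientGroup.leftRel_apply] at hab ⊢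
      rw [memC] at hab ⊢
      have : (a * t)⁻¹ * (b * t) = t⁻¹ * (a⁻¹ * b) * t := by group
      rw [this]
      calc t⁻¹ * (a⁻¹ * b) * t * x * (t⁻¹ * (a⁻¹ * b) * t)⁻¹
          = t⁻¹ * ((a⁻¹ * b) * (t * x * t⁻¹) * (a⁻¹ * b)⁻¹) * t := by group
        _ = t⁻¹ * ((a⁻¹ * b) * x * (a⁻¹ * b)⁻¹)⁻¹ * t := by rw [ht]; group
        _ = x := by rw [hab, ht''])
    have hff : ∀ q, f (f q) = q := by
      intro q
      induction q using QuotientGroup.induction_on with
      | H g =>
        change ((g * t * t : G) : G ⧸ C) = (g : G ⧸ C)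
        rw [QuotientGroup.eq, memC]
        have : (g * t * t)⁻¹ * g = t⁻¹ * t⁻¹ := by group
        rw [this]
        calc t⁻¹ * t⁻¹ * x * (t⁻¹ * t⁻¹)⁻¹ = t⁻¹ * (t⁻¹ * x * t) * t := by
              simp only [mul_inv_rev, inv_inv, mul_assoc]
          _ = x := by rw [ht', ht'']
    haveI : Fintype (G ⧸ C) := Fintype.ofFinite _
    have hmod := Equiv.Perm.card_fixedPoints_modEq (α := G ⧸ C) (f := f) (p := 2) (n := 1) (by
      funext q; simp only [pow_one, pow_two]; exact hff q)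
    have hcard : Fintype.card (G ⧸ C) = C.index := by
      rw [Subgroup.index, Nat.card_eq_fintype_card]
    rw [hcard] at hmod
    have hne : Fintype.card (Function.fixedPoints f) ≠ 0 := by
      intro h0
      rw [h0] at hmod
      have : C.index % 2 = 0 := hmod
      rw [Nat.odd_iff] at hodd
      omega
    obtain ⟨⟨q, hq⟩⟩ := Fintype.card_pos_iff.1 (Nat.pos_of_ne_zero hne)
    induction q using QuotientGroup.induction_on with
    | H g =>
      have hq' : ((g * t : G) : G ⧸ C) = (g : G ⧸ C) := hq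
      rw [QuotientGroup.eq, memC] at hq'
      have e : (g * t)⁻¹ * g = t⁻¹ := by group
      rw [e, inv_inv, ht'] at hq'
      rw [pow_two]
      calc x * x = x * x⁻¹ := by rw [hq']
        _ = 1 := mul_inv_cancel x
  · intro N _ hN
    have htN : t ∈ N := mem_of_two_pow_of_odd_index N hN t j (by rw [← hj]; exact pow_orderOf_eq_one t)
    have hx2 : x ^ 2 ∈ N := by
      have : x ^ 2 = x * t * x⁻¹ * t⁻¹ := by
        have : x⁻¹ = t * x * t⁻¹ := ht.symm
        calc x ^ 2 = x * (x⁻¹)⁻¹ := by rw [inv_inv, pow_two]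
          _ = x * (t * x * t⁻¹)⁻¹ := by rw [← this]
          _ = x * t * x⁻¹ * t⁻¹ := by group
      rw [this]
      exact N.mul_mem (Subgroup.Normal.conj_mem inferInstance t htN x) (N.inv_mem htN)
    have hxN : x ∈ N := by
      rw [← QuotientGroup.eq_one_iff] at hx2 ⊢
      have h1 : orderOf (x : G ⧸ N) ∣ 2 := by
        apply orderOf_dvd_of_pow_eq_one
        rw [← QuotientGroup.mk_pow, hx2]
      have h2 : orderOf (x : G ⧸ N) ∣ N.index := by
        rw [Subgroup.index]; exact orderOf_dvd_natCard _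
      have hc : Nat.Coprime 2 N.index := (Nat.coprime_two_left).2 hN
      exact orderOf_eq_one_iff.1 (Nat.eq_one_of_dvd_coprimes hc h1 h2)
    refine ⟨hxN, isConj_iff.2 ⟨⟨t, htN⟩, ?_⟩⟩
    apply Subtype.ext
    simpa using ht

end Cfsg.Agent.S3863
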