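import Cfsg.Statements.S3861
import Cfsg.Agent.S3863
import Cfsg.Agent.Lib.Lead.Cores
import Cfsg.Agent.Lib.Helper96.BaerSuzuki

set_option autoImplicit false
open Cfsg

namespace Cfsg.Agent.S3861

open Subgroup Cfsg.Agent.Lib.Lead
open scoped Pointwise

/-- conjugation by `t` as an automorphism of a subgroup `K` stable under `t` and `t⁻¹`. -/
def conjEquiv {G : Type*} [Group G] (K : Subgroup G) (t : G)
    (h1 : ∀ y ∈ K, t * y * t⁻¹ ∈ K) (h2 : ∀ y ∈ K, t⁻¹ * y * t ∈ K) : MulAut K where
  toFun y := ⟨t * y * t⁻¹, h1 y y.2⟩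
  invFun y := ⟨t⁻¹ * y * t, h2 y y.2⟩
  left_inv y := by apply Subtype.ext; simp [mul_assoc]
  right_inv y := by apply Subtype.ext; simp [mul_assoc]
  map_mul' a b := by apply Subtype.ext; simp [mul_assoc]

theorem inverts_zpowers {Q : Type*} [Group Q] (t z : Q) (h : t * z * t⁻¹ = z⁻¹) :
    ∀ y ∈ zpowers z, t * y * t⁻¹ = y⁻¹ := by
  intro y hy
  obtain ⟨k, rfl⟩ := mem_zpowers_iff.1 hy
  have : MulAut.conj t (z ^ k) = (MulAut.conj t z) ^ k := map_zpow _ _ _
  rw [MulAut.conj_apply, MulAut.conj_apply, h] at this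
  rw [this, inv_zpow]

/-- lifting of a real element of odd order through a normal `2`-subgroup. -/
theorem lift_real {G : Type*} [Group G] [Finite G] (N : Subgroup G) [N.Normal] (hN : IsPGroup 2 N)
    (z t : G ⧸ N) (hz1 : z ≠ 1) (hzodd : Odd (orderOf z)) (ht : t * z * t⁻¹ = z⁻¹) :
    ∃ x : G, x ≠ 1 ∧ Odd (orderOf x) ∧ IsConj x x⁻¹ := by
  obtain ⟨t, rfl⟩ := QuotientGroup.mk'_surjective N t
  obtain ⟨z0, rfl⟩ := QuotientGroup.mk'_surjective N z
  set π := QuotientGroup.mk' N with hπ
  set Z := zpowers (π z0) with hZ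
  have hinv := inverts_zpowers (π t) (π z0) ht
  have hinv' : ∀ y ∈ Z, (π t)⁻¹ * y * (π t) = y⁻¹ := by
    intro y hy
    have := hinv y⁻¹ (inv_mem hy)
    rw [inv_inv] at this
    calc (π t)⁻¹ * y * (π t) = (π t)⁻¹ * (π t * y⁻¹ * (π t)⁻¹) * (π t) := by rw [this]
      _ = y⁻¹ := by group
  set K := Z.comap π with hK
  have h1 : ∀ y ∈ K, t * y * t⁻¹ ∈ K := by
    intro y hy
    rw [hK, mem_comap, map_mul, map_mul, map_inv, hinv _ hy]
    exact inv_mem hy
  have h2 : ∀ y ∈ K, t⁻¹ * y * t ∈ K := by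
    intro y hy
    rw [hK, mem_comap, map_mul, map_mul, map_inv, hinv' _ hy]
    exact inv_mem hy
  -- an odd prime dividing |K|
  have hm1 : orderOf (π z0) ≠ 1 := by
    rw [Ne, orderOf_eq_one_iff]; exact hz1
  obtain ⟨q, hq, hqm⟩ := Nat.exists_prime_and_dvd hm1
  have : Fact q.Prime := ⟨hq⟩
  have hqodd : Odd q := Odd.of_dvd_nat hzodd hqm
  have hq2 : q ≠ 2 := by rintro rfl; exact absurd hqodd (by decide)
  have hz0K : z0 ∈ K := by rw [hK, mem_comap]; exact mem_zpowers _
  have hqK : q ∣ Nat.card K := by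
    have e1 : orderOf (π z0) ∣ orderOf z0 := orderOf_map_dvd π z0
    have e2 : orderOf (⟨z0, hz0K⟩ : K) ∣ Nat.card K := orderOf_dvd_natCard _
    rw [Subgroup.orderOf_mk] at e2
    exact hqm.trans (e1.trans e2)
  obtain ⟨Q⟩ : Nonempty (Sylow q K) := inferInstance
  have hQne : (Q : Subgroup K) ≠ ⊥ := Q.ne_bot_of_dvd_card hqK
  obtain ⟨x, hxQ, hx1⟩ := (Subgroup.ne_bot_iff_exists_ne_one).1 hQne |>.elim
    (fun x hx => (⟨x.1, x.2, fun h => hx (Subtype.ext h)⟩ : ∃ x : K, x ∈ (Q : Subgroup K) ∧ x ≠ 1))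
  let φ : MulAut K := conjEquiv K t h1 h2
  obtain ⟨k, hk⟩ := MulAction.exists_smul_eq K (φ • Q) Q
  have hx' : k * φ x * k⁻¹ ∈ (Q : Subgroup K) := by
    have e1 : φ x ∈ ((φ • Q : Sylow q K) : Subgroup K) := by
      rw [Sylow.pointwise_smul_def]
      exact Subgroup.smul_mem_pointwise_smul x φ _ hxQ
    have e2 : k * φ x * k⁻¹ ∈ ((k • (φ • Q) : Sylow q K) : Subgroup K) := by
      rw [Sylow.coe_subgroup_smul]
      exact Subgroup.smul_mem_pointwise_smul (φ x) (MulAut.conj k) _ e1
    rwa [hk] at e2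
  set w : K := k * φ x * k⁻¹ * x with hw
  have hwQ : w ∈ (Q : Subgroup K) := mul_mem hx' hxQ
  have hwN : (w : G) ∈ N := by
    rw [← QuotientGroup.eq_one_iff]
    change π (w : G) = 1
    have hφx : ((φ x : K) : G) = t * x * t⁻¹ := rfl
    rw [hw]
    simp only [Subgroup.coe_mul, Subgroup.coe_inv, hφx, map_mul, map_inv]
    have hxZ : π (x : G) ∈ Z := x.2
    have hkZ : π (k : G) ∈ Z := k.2
    rw [hinv _ hxZ]
    obtain ⟨a, ha⟩ := mem_zpowers_iff.1 hxZ
    obtain ⟨b, hb⟩ := mem_zpowers_iff.1 hkZ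
    rw [← ha, ← hb, ← zpow_neg, ← zpow_neg, ← zpow_add, ← zpow_add, ← zpow_add]
    have : b + -a + -b + a = 0 := by ring
    rw [this, zpow_zero]
  have hw1 : w = 1 := by
    obtain ⟨a, ha⟩ := Q.2 ⟨w, hwQ⟩
    obtain ⟨b, hb⟩ := hN ⟨(w : G), hwN⟩
    have ha' : w ^ (q ^ a) = 1 := congrArg Subtype.val ha
    have hb' : w ^ (2 ^ b) = 1 := by
      apply Subtype.ext
      have := congrArg Subtype.val hb
      simpa using this
    have d1 := orderOf_dvd_of_pow_eq_one ha'
    have d2 := orderOf_dvd_of_pow_eq_one hb'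
    have hc : Nat.Coprime (q ^ a) (2 ^ b) :=
      Nat.Coprime.pow _ _ ((Nat.coprime_primes hq Nat.prime_two).2 hq2)
    exact orderOf_eq_one_iff.1 (Nat.eq_one_of_dvd_coprimes hc d1 d2)
  refine ⟨x, fun h => hx1 (Subtype.ext h), ?_, ?_⟩
  · obtain ⟨a, ha⟩ := Q.2 ⟨x, hxQ⟩
    have ha' : (x : G) ^ (q ^ a) = 1 := congrArg (fun y : (Q : Subgroup K) => ((y : K) : G)) ha
    exact Odd.of_dvd_nat (hqodd.pow) (orderOf_dvd_of_pow_eq_one ha')
  · rw [isConj_iff]
    refine ⟨k * t, ?_⟩
    have e : ((w : K) : G) = 1 := by rw [hw1]; rfl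
    have hφx : ((φ x : K) : G) = t * x * t⁻¹ := rfl
    rw [hw] at e
    simp only [Subgroup.coe_mul, Subgroup.coe_inv, hφx] at e
    rw [eq_inv_iff_mul_eq_one, ← e]
    group

/-- A finite group G has no non-identity element of odd order that is conjugate to its inverse if and only if the Sylow 2-subgroups of G are normal. -/
theorem result {G : Type*} [Group G] [Finite G] (P : Sylow 2 G) : (∀ x : G, x ≠ 1 → Odd (orderOf x) → ¬ IsConj x x⁻¹) ↔ (P : Subgroup G).Normal := by
  have : Fact (Nat.Prime 2) := ⟨Nat.prime_two⟩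
  constructor
  · intro hreal
    have hNp : IsPGroup 2 (pCore 2 G) := pCore_isPGroup 2 G
    have hodd : ¬ 2 ∣ Nat.card (G ⧸ pCore 2 G) := by
      intro h2
      obtain ⟨t, ht⟩ := exists_prime_orderOf_dvd_card' 2 h2
      have ht2 : t * t = 1 := by
        have := pow_orderOf_eq_one t
        rwa [ht, pow_two] at this
      have htinv : t⁻¹ = t := inv_eq_of_mul_eq_one_left ht2
      have ht1 : t ≠ 1 := by
        rintro rfl
        rw [orderOf_one] at ht; omega
      have hX : IsPGroup 2 (zpowers t) := by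
        apply IsPGroup.of_card (n := 1)
        rw [Nat.card_zpowers, ht, pow_one]
      -- Baer-Suzuki
      have hBS : ∃ g : G ⧸ pCore 2 G, ¬ IsPGroup 2 ↥(zpowers t ⊔ MulAut.conj g • zpowers t) := by
        by_contra hcon
        push Not at hcon
        have h1 := Cfsg.Agent.Lib.Helper96.baerSuzuki_normalClosure (zpowers t) hcon
        have h2 : normalClosure ((zpowers t : Subgroup (G ⧸ pCore 2 G)) : Set (G ⧸ pCore 2 G)) ≤ pCore 2 (G ⧸ pCore 2 G) :=
          le_pCore normalClosure_normal h1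
        rw [pCore_quotient_pCore, le_bot_iff] at h2
        apply ht1
        have : t ∈ normalClosure ((zpowers t : Subgroup (G ⧸ pCore 2 G)) : Set (G ⧸ pCore 2 G)) :=
          le_normalClosure (mem_zpowers t)
        rw [h2] at this
        exact this
      obtain ⟨g, hg⟩ := hBS
      set s := g * t * g⁻¹ with hs
      have hs2 : s * s = 1 := by
        rw [hs]
        calc g * t * g⁻¹ * (g * t * g⁻¹) = g * (t * t) * g⁻¹ := by group
          _ = 1 := by rw [ht2]; group
      have hsinv : s⁻¹ = s := inv_eq_of_mul_eq_one_left hs2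
      have hconj : MulAut.conj g • zpowers t = zpowers s := by
        rw [Subgroup.pointwise_smul_def]
        exact MonoidHom.map_zpowers _ t
      set u := t * s with hu
      have htu : t * u * t⁻¹ = u⁻¹ := by
        rw [hu, mul_inv_rev, hsinv, htinv]
        calc t * (t * s) * t = (t * t) * s * t := by group
          _ = s * t := by rw [ht2, one_mul]
      obtain ⟨a, m, hm, hn⟩ := Nat.exists_eq_two_pow_mul_odd (orderOf_pos u).ne'
      have hzord : orderOf (u ^ (2 ^ a)) = m := by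
        rw [orderOf_pow_of_dvd (by positivity) (by rw [hn]; exact Dvd.intro _ rfl), hn]
        exact Nat.mul_div_cancel_left _ (by positivity)
      have htz : t * (u ^ (2 ^ a)) * t⁻¹ = (u ^ (2 ^ a))⁻¹ :=
        inverts_zpowers t u htu _ (pow_mem (mem_zpowers u) _)
      by_cases hz1 : u ^ (2 ^ a) = 1
      · -- then ⟨t, s⟩ is a 2-group
        apply hg
        have hU : IsPGroup 2 (zpowers u) := by
          rintro ⟨y, hy⟩
          obtain ⟨k, rfl⟩ := mem_zpowers_iff.1 hy
          refine ⟨a, ?_⟩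
          apply Subtype.ext
          simp only [SubmonoidClass.mk_pow, OneMemClass.coe_one]
          rw [← zpow_natCast, ← zpow_mul, mul_comm, zpow_mul, zpow_natCast, hz1, one_zpow]
        have hnorm : zpowers t ≤ normalizer ((zpowers u : Subgroup (G ⧸ pCore 2 G)) : Set (G ⧸ pCore 2 G)) := by
          rw [zpowers_le, mem_normalizer_iff]
          intro y
          constructor
          · intro hy
            rw [inverts_zpowers t u htu y hy]
            exact inv_mem hy
          · intro hy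
            have := inverts_zpowers t u htu _ hy
            have e : t * (t * y * t⁻¹) * t⁻¹ = y := by
              rw [htinv]
              calc t * (t * y * t) * t = (t * t) * y * (t * t) := by group
                _ = y := by rw [ht2]; group
            rw [e] at this
            rw [this]
            exact inv_mem hy
        have hsup := hX.to_sup_of_normal_right' hU hnorm
        refine hsup.to_le ?_
        rw [hconj]
        apply sup_le le_sup_left
        rw [zpowers_le]
        have : s = t⁻¹ * u := by rw [hu]; group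
        rw [this]
        exact mul_mem (inv_mem (le_sup_left (a := zpowers t) (mem_zpowers t)))
          (le_sup_right (a := zpowers t) (mem_zpowers u))
      · obtain ⟨x, hx1, hxodd, hxr⟩ := lift_real (pCore 2 G) hNp (u ^ (2 ^ a)) t hz1 (hzord ▸ hm) htz
        exact hreal x hx1 hxodd hxr
    have hle : pCore 2 G ≤ P := pCore_le_sylow P
    have heq : (P : Subgroup G) = pCore 2 G := (hNp.toSylow hodd).3 P.2 hle
    rw [heq]
    infer_instance
  · intro hP x hx1 hxodd hxr
    obtain ⟨⟨t, ⟨j, hj⟩, ht⟩, -, -⟩ := Cfsg.Agent.S3863.result x hxr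
    have htP : t ∈ (P : Subgroup G) := by
      have hT : IsPGroup 2 (zpowers t) := by
        apply IsPGroup.of_card (n := j)
        rw [Nat.card_zpowers, hj]
      obtain ⟨Q, hQ⟩ := hT.exists_le_sylow
      obtain ⟨g, rfl⟩ := MulAction.exists_smul_eq G P Q
      rw [Sylow.smul_eq_of_normal] at hQ
      exact hQ (mem_zpowers t)
    have hx2 : x ^ 2 ∈ (P : Subgroup G) := by
      have : x ^ 2 = x * t * x⁻¹ * t⁻¹ := by
        calc x ^ 2 = x * (x⁻¹)⁻¹ := by rw [inv_inv, pow_two]
          _ = x * (t * x * t⁻¹)⁻¹ := by rw [ht]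
          _ = x * t * x⁻¹ * t⁻¹ := by group
      rw [this]
      exact mul_mem (hP.conj_mem t htP x) (inv_mem htP)
    obtain ⟨b, hb⟩ := P.2 ⟨x ^ 2, hx2⟩
    have hb' : x ^ (2 * 2 ^ b) = 1 := by
      rw [pow_mul]
      exact congrArg Subtype.val hb
    have d1 := orderOf_dvd_of_pow_eq_one hb'
    have hc : Nat.Coprime (orderOf x) (2 * 2 ^ b) := by
      rw [← pow_succ']
      exact Nat.Coprime.pow_right _ (Nat.coprime_two_right.2 hxodd)
    have : orderOf x = 1 := Nat.eq_one_of_dvd_coprimes hc dvd_rfl d1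
    exact hx1 (orderOf_eq_one_iff.1 this)

end Cfsg.Agent.S3861
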