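import Cfsg.Statements.S3862
import Cfsg.Agent.Lib.Helper2.Frobenius
import Cfsg.Agent.Lib.Helper72.SylowCount

set_option autoImplicit false
open Cfsg
open scoped commutatorElement Pointwise

namespace Cfsg.Agent.S3862

open Cfsg.Agent.Lib.Helper72

variable {G : Type*} [Group G]

theorem mem_normalizer_of_conj_mem [Finite G] (Y : Subgroup G) (g : G)
    (h : ∀ u ∈ Y, g * u * g⁻¹ ∈ Y) : g ∈ Subgroup.normalizer (Y : Set G) := by
  rw [mem_normalizer_iff_conj_smul_eq]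
  apply Subgroup.eq_of_le_of_card_ge
  · intro y hy
    rw [mem_conj_smul_iff] at hy
    have := h _ hy
    simpa [mul_assoc] using this
  · rw [card_conj_smul]

theorem conj_mem_closure (S : Set G) (g : G) (h : ∀ s ∈ S, g * s * g⁻¹ ∈ S) :
    ∀ u ∈ Subgroup.closure S, g * u * g⁻¹ ∈ Subgroup.closure S := by
  intro u hu
  induction hu using Subgroup.closure_induction with
  | mem x hx => exact Subgroup.subset_closure (h x hx)
  | one => simp
  | mul x y _ _ hx hy =>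
    have : g * (x * y) * g⁻¹ = (g * x * g⁻¹) * (g * y * g⁻¹) := by group
    rw [this]; exact mul_mem hx hy
  | inv x _ hx =>
    have : g * x⁻¹ * g⁻¹ = (g * x * g⁻¹)⁻¹ := by group
    rw [this]; exact inv_mem hx

theorem key [Finite G]
    (h : ∀ x : G, (∃ j : ℕ, orderOf x = 2 ^ j) → IsConj x x⁻¹ → x ∈ Subgroup.center G) :
    ∀ Q : Subgroup G, IsPGroup 2 Q → ∀ g ∈ Subgroup.normalizer (Q : Set G),
      Nat.Coprime (orderOf g) 2 → g ∈ Subgroup.centralizer (Q : Set G) := by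
  intro Q
  induction Q using WellFoundedLT.induction with
  | _ Q ih =>
  intro hQ g hg hodd
  by_contra hgc
  have hγQ : ∀ x ∈ Q, g * x * g⁻¹ ∈ Q := fun x hx => (Subgroup.mem_normalizer_iff.1 hg x).1 hx
  have hγQ' : ∀ x ∈ Q, g⁻¹ * x * g ∈ Q := fun x hx => by
    have := (Subgroup.mem_normalizer_iff.1 (Subgroup.inv_mem _ hg) x).1 hx
    simpa using this
  have ih' : ∀ Y : Subgroup G, Y ≤ Q → Y ≠ Q → (∀ u ∈ Y, g * u * g⁻¹ ∈ Y) →
      ∀ u ∈ Y, g * u * g⁻¹ = u := by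
    intro Y hYQ hne hinv u hu
    have h1 := ih Y (lt_of_le_of_ne hYQ hne) (hQ.to_le hYQ) g
      (mem_normalizer_of_conj_mem Y g hinv) hodd
    have h2 := Subgroup.mem_centralizer_iff.1 h1 u hu
    rw [← h2, mul_inv_cancel_right]
  have hcent_of_fix : (∀ x ∈ Q, g * x * g⁻¹ = x) → False := by
    intro hfix
    apply hgc
    rw [Subgroup.mem_centralizer_iff]
    intro x hx
    calc x * g = (g * x * g⁻¹) * g := by rw [hfix x hx]
      _ = g * x := by group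
  -- Step 1
  set R := Subgroup.closure {c : G | ∃ x ∈ Q, c = x⁻¹ * (g * x * g⁻¹)} with hR
  have hRQ : R ≤ Q := by
    rw [hR, Subgroup.closure_le]
    rintro _ ⟨x, hx, rfl⟩
    exact Q.mul_mem (Q.inv_mem hx) (hγQ x hx)
  have hRinv : ∀ u ∈ R, g * u * g⁻¹ ∈ R := by
    apply conj_mem_closure
    rintro _ ⟨x, hx, rfl⟩
    exact ⟨g * x * g⁻¹, hγQ x hx, by group⟩
  have hReq : R = Q := by
    by_contra hne
    apply hcent_of_fix
    intro x hx
    obtain ⟨c, hc⟩ : ∃ c, c = x⁻¹ * (g * x * g⁻¹) := ⟨_, rfl⟩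
    have hcR : c ∈ R := Subgroup.subset_closure ⟨x, hx, hc⟩
    have hcfix : g * c * g⁻¹ = c := ih' R hRQ hne hRinv c hcR
    have e3 : g * x * g⁻¹ = x * c := by rw [hc]; group
    have hpow : ∀ n : ℕ, g ^ n * x * (g ^ n)⁻¹ = x * c ^ n := by
      intro n
      induction n with
      | zero => simp
      | succ n ihn =>
        have e1 : g ^ (n + 1) * x * (g ^ (n + 1))⁻¹ = g * (g ^ n * x * (g ^ n)⁻¹) * g⁻¹ := by
          rw [pow_succ']; group
        have e2 : g * (x * c ^ n) * g⁻¹ = (g * x * g⁻¹) * (g * c * g⁻¹) ^ n := by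
          rw [conj_pow]; group
        rw [e1, ihn, e2, hcfix, e3, pow_succ', mul_assoc]
    have h1 := hpow (orderOf g)
    rw [pow_orderOf_eq_one] at h1
    have h2 : c ^ orderOf g = 1 := by simpa using h1.symm
    obtain ⟨k, hk⟩ := hQ ⟨c, hRQ hcR⟩
    have hk' : c ^ (2 ^ k) = 1 := by simpa using congrArg Subtype.val hk
    have hc1 : c = 1 := by
      have d1 : orderOf c ∣ orderOf g := orderOf_dvd_of_pow_eq_one h2
      have d2 : orderOf c ∣ 2 ^ k := orderOf_dvd_of_pow_eq_one hk'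
      have d3 : orderOf c ∣ Nat.gcd (orderOf g) (2 ^ k) := Nat.dvd_gcd d1 d2
      rw [(Nat.Coprime.pow_right k hodd).gcd_eq_one] at d3
      exact orderOf_eq_one_iff.1 (Nat.dvd_one.1 d3)
    rw [e3, hc1, mul_one]
  -- Step 2
  set T := Subgroup.closure {c : G | ∃ x ∈ Q, c = x * x} with hT
  have hsqT : ∀ x ∈ Q, x * x ∈ T := fun x hx => Subgroup.subset_closure ⟨x, hx, rfl⟩
  have hTQ : T ≤ Q := by
    rw [hT, Subgroup.closure_le]
    rintro _ ⟨x, hx, rfl⟩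
    exact Q.mul_mem hx hx
  have hTinv : ∀ u ∈ T, g * u * g⁻¹ ∈ T := by
    apply conj_mem_closure
    rintro _ ⟨x, hx, rfl⟩
    exact ⟨g * x * g⁻¹, hγQ x hx, by group⟩
  have hTne : T ≠ Q := by
    have hQne : Q ≠ ⊥ := by
      rintro rfl
      apply hcent_of_fix
      intro x hx
      rw [Subgroup.mem_bot.1 hx]; simp
    obtain ⟨k, hk⟩ := IsPGroup.iff_card.1 hQ
    have hk0 : k ≠ 0 := by
      rintro rfl
      exact hQne (Subgroup.card_eq_one.1 (by simpa using hk))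
    obtain ⟨k', rfl⟩ := Nat.exists_eq_succ_of_ne_zero hk0
    obtain ⟨K, hK⟩ := Sylow.exists_subgroup_card_pow_prime (G := Q) 2 (n := k')
      (by rw [hk]; exact pow_dvd_pow 2 (Nat.le_succ k'))
    have hKidx : K.index = 2 := by
      have := K.card_mul_index
      rw [hK, hk, pow_succ] at this
      exact Nat.eq_of_mul_eq_mul_left (pow_pos two_pos k') this
    intro hTeq
    have hTK : T ≤ K.map Q.subtype := by
      rw [hT, Subgroup.closure_le]
      rintro _ ⟨x, hx, rfl⟩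
      exact ⟨⟨x, hx⟩ * ⟨x, hx⟩, Subgroup.mul_self_mem_of_index_two hKidx _, rfl⟩
    have h1 : Q ≤ K.map Q.subtype := le_trans (le_of_eq hTeq.symm) hTK
    have h2 := Subgroup.card_le_of_le h1
    rw [Subgroup.card_subtype, hk, hK, pow_succ] at h2
    have : 0 < 2 ^ k' := pow_pos two_pos k'
    omega
  have hTfix : ∀ u ∈ T, g * u * g⁻¹ = u := ih' T hTQ hTne hTinv
  have hcommT : ∀ a ∈ Q, ∀ b ∈ Q, ⁅a, b⁆ ∈ T := by
    intro a ha b hb
    have e : ⁅a, b⁆ = (a * b) * (a * b) * ((b⁻¹ * a⁻¹ * b) * (b⁻¹ * a⁻¹ * b)) * (b⁻¹ * b⁻¹) := by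
      rw [commutatorElement_def]; group
    rw [e]
    exact T.mul_mem (T.mul_mem (hsqT _ (Q.mul_mem ha hb))
      (hsqT _ (Q.mul_mem (Q.mul_mem (Q.inv_mem hb) (Q.inv_mem ha)) hb))) (hsqT _ (Q.inv_mem hb))
  -- Step 3
  have hTcent : ∀ z ∈ T, ∀ y ∈ Q, z * y = y * z := by
    intro z hz y hy
    have hle : R ≤ Subgroup.centralizer {z} := by
      rw [hR, Subgroup.closure_le]
      rintro _ ⟨x, hx, rfl⟩
      rw [SetLike.mem_coe, Subgroup.mem_centralizer_singleton_iff]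
      have hzfix := hTfix z hz
      have hc := hTfix _ (hcommT z (hTQ hz) x hx)
      have e1 : g * ⁅z, x⁆ * g⁻¹ = ⁅g * z * g⁻¹, g * x * g⁻¹⁆ := by
        simp only [commutatorElement_def]; group
      rw [e1, hzfix] at hc
      rw [commutatorElement_def, commutatorElement_def] at hc
      obtain ⟨w, hw⟩ : ∃ w, w = g * x * g⁻¹ := ⟨_, rfl⟩
      rw [← hw] at hc ⊢
      have h3 : w * z⁻¹ * w⁻¹ = x * z⁻¹ * x⁻¹ := by
        have := congrArg (fun t => z⁻¹ * t) hc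
        simpa [mul_assoc] using this
      have h4 : (x⁻¹ * w) * z⁻¹ = z⁻¹ * (x⁻¹ * w) := by
        calc x⁻¹ * w * z⁻¹ = x⁻¹ * (w * z⁻¹ * w⁻¹) * w := by group
          _ = x⁻¹ * (x * z⁻¹ * x⁻¹) * w := by rw [h3]
          _ = z⁻¹ * (x⁻¹ * w) := by group
      exact (Commute.inv_right_iff.1 (show Commute (x⁻¹ * w) z⁻¹ from h4)).eq
    have h5 : y ∈ Subgroup.centralizer {z} := hle (hReq.symm ▸ hy)
    exact (Subgroup.mem_centralizer_singleton_iff.1 h5).symm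
  -- Step 4
  obtain ⟨x, hx, hxne⟩ : ∃ x ∈ Q, g * x * g⁻¹ ≠ x := by
    by_contra hcon
    push Not at hcon
    exact hcent_of_fix hcon
  let B : Subgroup G :=
    { carrier := {c | ∃ a ∈ Q, ⁅a, x⁆ = c}
      mul_mem' := by
        rintro _ _ ⟨a, ha, rfl⟩ ⟨b, hb, rfl⟩
        refine ⟨b * a, Q.mul_mem hb ha, ?_⟩
        have e : ⁅b * a, x⁆ = b * ⁅a, x⁆ * b⁻¹ * ⁅b, x⁆ := by
          simp only [commutatorElement_def]; group
        rw [e, ← hTcent _ (hcommT a ha x hx) b hb, mul_inv_cancel_right]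
      one_mem' := ⟨1, Q.one_mem, by simp⟩
      inv_mem' := by
        rintro _ ⟨a, ha, rfl⟩
        refine ⟨a⁻¹, Q.inv_mem ha, ?_⟩
        have e : ⁅a⁻¹, x⁆ = a⁻¹ * ⁅a, x⁆⁻¹ * a := by
          simp only [commutatorElement_def]; group
        rw [e, ← hTcent _ (T.inv_mem (hcommT a ha x hx)) a⁻¹ (Q.inv_mem ha), inv_mul_cancel_right] }
  have hBmem : ∀ c, c ∈ B ↔ ∃ a ∈ Q, ⁅a, x⁆ = c := fun c => Iff.rfl
  have hBT : B ≤ T := by
    rintro _ ⟨a, ha, rfl⟩
    exact hcommT a ha x hx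
  let Y : Subgroup G :=
    { carrier := {u | u ∈ Q ∧ ∀ a ∈ Q, ⁅a, u⁆ ∈ B}
      mul_mem' := by
        rintro u v ⟨hu, hu'⟩ ⟨hv, hv'⟩
        refine ⟨Q.mul_mem hu hv, fun a ha => ?_⟩
        have e : ⁅a, u * v⁆ = ⁅a, u⁆ * (u * ⁅a, v⁆ * u⁻¹) := by
          simp only [commutatorElement_def]; group
        rw [e, ← hTcent _ (hcommT a ha v hv) u hu, mul_inv_cancel_right]
        exact B.mul_mem (hu' a ha) (hv' a ha)
      one_mem' := ⟨Q.one_mem, fun a _ => by simp⟩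
      inv_mem' := by
        rintro u ⟨hu, hu'⟩
        refine ⟨Q.inv_mem hu, fun a ha => ?_⟩
        have e : ⁅a, u⁻¹⁆ = u⁻¹ * ⁅a, u⁆⁻¹ * u := by
          simp only [commutatorElement_def]; group
        rw [e, ← hTcent _ (T.inv_mem (hcommT a ha u hu)) u⁻¹ (Q.inv_mem hu), inv_mul_cancel_right]
        exact B.inv_mem (hu' a ha) }
  have hYQ : Y ≤ Q := fun u hu => hu.1
  have hxY : x ∈ Y := ⟨hx, fun a ha => ⟨a, ha, rfl⟩⟩
  have hYinv : ∀ u ∈ Y, g * u * g⁻¹ ∈ Y := by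
    rintro u ⟨hu, hu'⟩
    refine ⟨hγQ u hu, fun a ha => ?_⟩
    have h1 := hu' _ (hγQ' a ha)
    have h2 := hTfix _ (hBT h1)
    have e : g * ⁅g⁻¹ * a * g, u⁆ * g⁻¹ = ⁅a, g * u * g⁻¹⁆ := by
      simp only [commutatorElement_def]; group
    rw [e] at h2
    rw [h2]; exact h1
  have hYeq : Y = Q := by
    by_contra hne
    exact hxne (ih' Y hYQ hne hYinv x hxY)
  have hcommB : ∀ a ∈ Q, ∀ b ∈ Q, ⁅a, b⁆ ∈ B := fun a ha b hb =>
    (show b ∈ Y from hYeq.symm ▸ hb).2 a ha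
  let E : Subgroup G :=
    { carrier := {u | u ∈ Q ∧ u * u ∈ B}
      mul_mem' := by
        rintro u v ⟨hu, hu'⟩ ⟨hv, hv'⟩
        refine ⟨Q.mul_mem hu hv, ?_⟩
        have e : u * v * (u * v) = (u * u) * ⁅u⁻¹, v⁆ * (v * v) := by
          simp only [commutatorElement_def]; group
        rw [e]
        exact B.mul_mem (B.mul_mem hu' (hcommB _ (Q.inv_mem hu) v hv)) hv'
      one_mem' := ⟨Q.one_mem, by simp⟩
      inv_mem' := by
        rintro u ⟨hu, hu'⟩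
        refine ⟨Q.inv_mem hu, ?_⟩
        have e : u⁻¹ * u⁻¹ = (u * u)⁻¹ := by group
        rw [e]; exact B.inv_mem hu' }
  have hRE : R ≤ E := by
    rw [hR, Subgroup.closure_le]
    rintro _ ⟨w, hw, rfl⟩
    refine ⟨Q.mul_mem (Q.inv_mem hw) (hγQ w hw), ?_⟩
    have e : w⁻¹ * (g * w * g⁻¹) * (w⁻¹ * (g * w * g⁻¹)) =
        (w⁻¹ * w⁻¹) * ⁅w, g * w * g⁻¹⁆ * (g * (w * w) * g⁻¹) := by
      simp only [commutatorElement_def]; group
    rw [e, hTfix _ (hsqT w hw), mul_assoc,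
      hTcent _ (hcommT w hw _ (hγQ w hw)) (w * w) (Q.mul_mem hw hw)]
    have e2 : w⁻¹ * w⁻¹ * (w * w * ⁅w, g * w * g⁻¹⁆) = ⁅w, g * w * g⁻¹⁆ := by group
    rw [e2]
    exact hcommB w hw _ (hγQ w hw)
  have hxE : x ∈ E := hRE (hReq.symm ▸ hx)
  obtain ⟨a, haQ, hax⟩ := B.inv_mem hxE.2
  have hconj : a * x * a⁻¹ = x⁻¹ := by
    rw [commutatorElement_def] at hax
    calc a * x * a⁻¹ = (a * x * a⁻¹ * x⁻¹) * x := by group
      _ = (x * x)⁻¹ * x := by rw [hax]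
      _ = x⁻¹ := by group
  have hreal : IsConj x x⁻¹ := isConj_iff.2 ⟨a, hconj⟩
  have h2el : ∃ j : ℕ, orderOf x = 2 ^ j := by
    obtain ⟨k, hk⟩ := hQ ⟨x, hx⟩
    have hk' : x ^ (2 ^ k) = 1 := by simpa using congrArg Subtype.val hk
    obtain ⟨j, -, hj⟩ := (Nat.dvd_prime_pow Nat.prime_two).1 (orderOf_dvd_of_pow_eq_one hk')
    exact ⟨j, hj⟩
  have hcen := h x h2el hreal
  apply hxne
  rw [Subgroup.mem_center_iff.1 hcen g, mul_inv_cancel_right]

/-- If every 2-element of the finite group G that is conjugate to its inverse lies in the centre of G, then G has a normal 2-complement. -/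
theorem result {G : Type*} [Group G] [Finite G] (h : ∀ x : G, (∃ j : ℕ, orderOf x = 2 ^ j) → IsConj x x⁻¹ → x ∈ Subgroup.center G) : Cfsg.HasNormalPComplement 2 G := by
  rw [Cfsg.Agent.Lib.Helper2.hasNormalPComplement_iff_frobCond]
  exact key h

end Cfsg.Agent.S3862
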