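import Cfsg.Statements.S3864
import Cfsg.Agent.Lib.Helper21.DihSylow3
import Cfsg.Agent.S1254

set_option autoImplicit false
open Cfsg

namespace Cfsg.Agent.S3864

/-- Let G be a finite group whose Sylow 2-subgroups are dihedral of order 2 ^ n with n ≥ 3, and count the conjugacy classes of involutions of G. Then exactly one of the following holds: there is one class of involutions and no normal subgroup of index 2; there are two classes of involutions, a normal subgroup of index 2 and none of index 4; there are three classes of involutions and G has a normal 2-complement. -/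
theorem result {G : Type*} [Group G] [Finite G] (P : Sylow 2 G) (n : ℕ) (hn : 3 ≤ n) (hdih : Nonempty (↥(P : Subgroup G) ≃* DihedralGroup (2 ^ (n - 1)))) : (Nat.card {C : ConjClasses G // ∃ g : G, ConjClasses.mk g = C ∧ orderOf g = 2} = 1 ∧ ∀ N : Subgroup G, N.Normal → N.index ≠ 2) ∨ (Nat.card {C : ConjClasses G // ∃ g : G, ConjClasses.mk g = C ∧ orderOf g = 2} = 2 ∧ (∃ N : Subgroup G, N.Normal ∧ N.index = 2) ∧ ∀ N : Subgroup G, N.Normal → N.index ≠ 4) ∨ (Nat.card {C : ConjClasses G // ∃ g : G, ConjClasses.mk g = C ∧ orderOf g = 2} = 3 ∧ Cfsg.HasNormalPComplement 2 G) := by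
  open Cfsg.Agent.Lib.Helper21.DihSyl in
  obtain ⟨eS⟩ := hdih
  obtain ⟨i, rfl⟩ : ∃ i, n = i + 3 := ⟨n - 3, by omega⟩
  have hm : 2 ^ (i + 3 - 1) = 2 * 2 ^ (i + 1) := by
    rw [show i + 3 - 1 = (i + 1) + 1 by omega, pow_succ, mul_comm]
  have hk : 2 ^ (i + 1) = 2 * 2 ^ i := by rw [pow_succ, mul_comm]
  have : Fact (Nat.Prime 2) := ⟨Nat.prime_two⟩
  have : NeZero (2 ^ (i + 3 - 1)) := ⟨by positivity⟩
  have h := pkg (P : Subgroup G) eS _ hm
  have h4 := pkg4 (P : Subgroup G) eS _ _ hm hk
  set z := emb (P : Subgroup G) eS (DihedralGroup.r ((2 ^ (i + 1) : ℕ) : ZMod (2 ^ (i + 3 - 1)))) with hz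
  set s := emb (P : Subgroup G) eS (DihedralGroup.sr 0) with hs
  set t := emb (P : Subgroup G) eS (DihedralGroup.sr 1) with ht
  classical
  rw [card_classes z s t h.oz h.os h.ot (fun x hx => h.isConj_cases hx)]
  by_cases hsz : IsConj s z <;> by_cases htz : IsConj t z
  · left
    refine ⟨?_, h.no_index_two hsz htz⟩
    rw [ConjClasses.mk_eq_mk_iff_isConj.mpr hsz, ConjClasses.mk_eq_mk_iff_isConj.mpr htz]
    simp
  · right; left
    refine ⟨?_, ?_, h.no_index_four h4 hsz⟩
    · rw [ConjClasses.mk_eq_mk_iff_isConj.mpr hsz]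
      have : ConjClasses.mk z ≠ ConjClasses.mk t := fun e =>
        htz (ConjClasses.mk_eq_mk_iff_isConj.mp e).symm
      simp [this]
    · rcases h.transfer_Q1 with ⟨M, hM, hi, -⟩ | h1 | h1
      · exact ⟨M, hM, hi⟩
      · exact absurd h1 htz
      · exact absurd (h1.trans hsz) htz
  · right; left
    refine ⟨?_, ?_, h.swap.no_index_four h4.swap htz⟩
    · rw [ConjClasses.mk_eq_mk_iff_isConj.mpr htz]
      have : ConjClasses.mk z ≠ ConjClasses.mk s := fun e =>
        hsz (ConjClasses.mk_eq_mk_iff_isConj.mp e).symm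
      rw [Finset.pair_comm, Finset.insert_idem]
      exact Finset.card_pair this
    · rcases h.swap.transfer_Q1 with ⟨M, hM, hi, -⟩ | h1 | h1
      · exact ⟨M, hM, hi⟩
      · exact absurd h1 hsz
      · exact absurd (h1.trans htz) hsz
  · right; right
    have hc : Cfsg.HasNormalPComplement 2 G :=
      (Cfsg.Agent.S1254.result P _ (by rw [hm]; have : 0 < 2 ^ (i + 1) := by positivity
                                       omega) eS).mpr (h.normalizer_eq h4 hsz htz)
    refine ⟨?_, hc⟩
    have hst : ¬ IsConj s t := by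
      intro hcon
      obtain ⟨u, hu, hut⟩ := conj_in_of_complement
        (Cfsg.Agent.Lib.Lead.HasNormalPComplement.isComplement'_pPrimeCore hc P) h.s_mem h.t_mem hcon
      exact h.t_nmem_Q1 (hut ▸ h.Q1_norm u hu s h.s_mem_Q1)
    have h1 : ConjClasses.mk z ≠ ConjClasses.mk s := fun e =>
      hsz (ConjClasses.mk_eq_mk_iff_isConj.mp e).symm
    have h2 : ConjClasses.mk z ≠ ConjClasses.mk t := fun e =>
      htz (ConjClasses.mk_eq_mk_iff_isConj.mp e).symm
    have h3 : ConjClasses.mk s ≠ ConjClasses.mk t := fun e =>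
      hst (ConjClasses.mk_eq_mk_iff_isConj.mp e)
    rw [Finset.card_insert_of_notMem (by simp [h1, h2]), Finset.card_pair h3]

end Cfsg.Agent.S3864
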