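import Cfsg.Statements.S3866
import Mathlib

set_option autoImplicit false
open Cfsg

namespace Cfsg.Agent.S3866

open Subgroup

/-- Let A be a commutative normal subgroup of the finite group G with G generated by A and an element x. Then a ↦ x a x⁻¹ a⁻¹ is a surjective homomorphism from A onto the commutator subgroup of G whose kernel is the centralizer of x in A; in particular the commutator subgroup has order equal to the index in A of that centralizer. -/
theorem result {G : Type*} [Group G] [Finite G] (A : Subgroup G) [A.Normal] (hA : IsMulCommutative A) (x : G) (hgen : A ⊔ Subgroup.zpowers x = ⊤) : (∀ a ∈ A, x * a * x⁻¹ * a⁻¹ ∈ commutator G) ∧ (∀ c ∈ commutator G, ∃ a ∈ A, x * a * x⁻¹ * a⁻¹ = c) ∧ (∀ a ∈ A, ∀ b ∈ A, x * (a * b) * x⁻¹ * (a * b)⁻¹ = (x * a * x⁻¹ * a⁻¹) * (x * b * x⁻¹ * b⁻¹)) ∧ Nat.card (commutator G) * Nat.card ↥(A ⊓ Subgroup.centralizer ({x} : Set G)) = Nat.card A := by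
  have hAn : A.Normal := inferInstance
  have comm : ∀ a ∈ A, ∀ b ∈ A, a * b = b * a := by
    intro a ha b hb
    have := hA.is_comm.comm (⟨a, ha⟩ : A) ⟨b, hb⟩
    exact congrArg Subtype.val this
  have h1 : ∀ a ∈ A, x * a * x⁻¹ * a⁻¹ ∈ commutator G := by
    intro a _
    rw [commutator_def, ← commutatorElement_def]
    exact commutator_mem_commutator (mem_top x) (mem_top a)
  have h3 : ∀ a ∈ A, ∀ b ∈ A, x * (a * b) * x⁻¹ * (a * b)⁻¹ = (x * a * x⁻¹ * a⁻¹) * (x * b * x⁻¹ * b⁻¹) := by
    intro a ha b hb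
    have hxb : x * b * x⁻¹ * b⁻¹ ∈ A := A.mul_mem (hAn.conj_mem b hb x) (A.inv_mem hb)
    have e := comm _ hxb _ (A.inv_mem ha)
    calc x * (a * b) * x⁻¹ * (a * b)⁻¹ = x * a * x⁻¹ * ((x * b * x⁻¹ * b⁻¹) * a⁻¹) := by group
      _ = x * a * x⁻¹ * (a⁻¹ * (x * b * x⁻¹ * b⁻¹)) := by rw [e]
      _ = _ := by group
  let φ : A →* G := MonoidHom.mk' (fun a => x * a * x⁻¹ * (a : G)⁻¹) (by
    intro a b
    exact h3 a a.2 b b.2)
  have hφ : ∀ a : A, φ a = x * a * x⁻¹ * (a : G)⁻¹ := fun a => rfl
  have hIA : φ.range ≤ A := by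
    rintro _ ⟨a, rfl⟩
    exact A.mul_mem (hAn.conj_mem a a.2 x) (A.inv_mem a.2)
  have hAN : A ≤ normalizer (φ.range : Set G) := by
    intro g hg
    rw [mem_normalizer_iff]
    intro h
    constructor
    · intro hh
      have : g * h * g⁻¹ = h := by rw [comm g hg h (hIA hh)]; group
      rw [this]; exact hh
    · intro hh
      have hh' : g * h * g⁻¹ ∈ A := hIA hh
      have hhA : h ∈ A := by
        have := hAn.conj_mem _ hh' g⁻¹
        simpa [mul_assoc] using this
      have : g * h * g⁻¹ = h := by rw [comm g hg h hhA]; group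
      rw [this] at hh; exact hh
  have hxN : x ∈ normalizer (φ.range : Set G) := by
    rw [mem_normalizer_iff]
    intro h
    constructor
    · rintro ⟨a, rfl⟩
      refine ⟨⟨x * a * x⁻¹, hAn.conj_mem a a.2 x⟩, ?_⟩
      rw [hφ, hφ]; group
    · rintro ⟨a, ha⟩
      refine ⟨⟨x⁻¹ * a * x, by simpa using hAn.conj_mem a a.2 x⁻¹⟩, ?_⟩
      rw [hφ] at ha ⊢
      have : h = x⁻¹ * (x * h * x⁻¹) * x := by group
      rw [this, ← ha]; group
  have hnorm : φ.range.Normal := by
    rw [← normalizer_eq_top_iff, eq_top_iff, ← hgen]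
    exact sup_le hAN ((zpowers_le).2 hxN)
  have hle : commutator G ≤ φ.range := by
    rw [← Subgroup.Normal.quotient_commutative_iff_commutator_le]
    set π := QuotientGroup.mk' φ.range with hπ
    have hS : closure ((A : Set G) ∪ {x}) = ⊤ := by
      rw [Subgroup.closure_union, Subgroup.closure_eq, ← zpowers_eq_closure, hgen]
    have hcomm : ∀ u ∈ π '' ((A : Set G) ∪ {x}), ∀ v ∈ π '' ((A : Set G) ∪ {x}), u * v = v * u := by
      have hxa : ∀ a ∈ A, π x * π a = π a * π x := by
        intro a ha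
        rw [← map_mul, ← map_mul, hπ, QuotientGroup.mk'_apply, QuotientGroup.mk'_apply,
          QuotientGroup.eq]
        refine ⟨⟨x⁻¹ * a⁻¹ * x, by simpa using hAn.conj_mem _ (A.inv_mem ha) x⁻¹⟩, ?_⟩
        rw [hφ]
        group
      rintro _ ⟨u, hu, rfl⟩ _ ⟨v, hv, rfl⟩
      rcases hu with hu | hu <;> rcases hv with hv | hv
      · rw [← map_mul, ← map_mul, comm u hu v hv]
      · rw [Set.mem_singleton_iff.1 hv]; exact (hxa u hu).symm
      · rw [Set.mem_singleton_iff.1 hu]; exact hxa v hv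
      · rw [Set.mem_singleton_iff.1 hu, Set.mem_singleton_iff.1 hv]
    have htop : closure (π '' ((A : Set G) ∪ {x})) = ⊤ := by
      rw [← MonoidHom.map_closure, hS, ← MonoidHom.range_eq_map, MonoidHom.range_eq_top]
      exact QuotientGroup.mk'_surjective _
    have hc := Subgroup.isMulCommutative_closure hcomm
    rw [htop] at hc
    refine ⟨⟨fun u v => ?_⟩⟩
    have := hc.is_comm.comm (⟨u, mem_top u⟩ : (⊤ : Subgroup (G ⧸ φ.range))) ⟨v, mem_top v⟩
    exact congrArg Subtype.val this
  have heq : commutator G = φ.range := by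
    apply le_antisymm hle
    rintro _ ⟨a, rfl⟩
    exact h1 a a.2
  refine ⟨h1, ?_, h3, ?_⟩
  · intro c hc
    obtain ⟨a, rfl⟩ := hle hc
    exact ⟨a, a.2, rfl⟩
  · have hker : A ⊓ centralizer ({x} : Set G) = φ.ker.map A.subtype := by
      ext g
      simp only [mem_inf, mem_centralizer_singleton_iff, mem_map, MonoidHom.mem_ker,
        Subgroup.coe_subtype, Subtype.exists, exists_and_right, exists_eq_right]
      constructor
      · rintro ⟨hg, hc⟩
        refine ⟨hg, ?_⟩
        rw [hφ]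
        simp only
        rw [← hc]; group
      · rintro ⟨hg, hc⟩
        refine ⟨hg, ?_⟩
        rw [hφ] at hc
        simp only at hc
        rw [mul_inv_eq_one, mul_inv_eq_iff_eq_mul] at hc
        exact hc.symm
    rw [hker, Subgroup.card_map_of_injective A.subtype_injective, heq, ← Subgroup.index_ker, mul_comm]
    exact Subgroup.card_mul_index _

end Cfsg.Agent.S3866
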