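import Cfsg.Statements.S3867
import Cfsg.Agent.Lib.Helper64.Sylow

set_option autoImplicit false
open Cfsg

namespace Cfsg.Agent.S3867

open Subgroup Cfsg.Agent.Lib.Helper64
open scoped Pointwise

variable {G : Type*} [Group G]

theorem relIndex_sup_of_normal_left [Finite G] (R T : Subgroup G) [T.Normal] :
    R.relIndex (T ⊔ R) = R.relIndex T := by
  have h1 : R.relIndex T * Nat.card ↥(R ⊓ T) = Nat.card T := by
    rw [← inf_relIndex_right]
    exact relIndex_mul_card inf_le_right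
  have h2 : T.relIndex R * Nat.card ↥(R ⊓ T) = Nat.card R := by
    rw [← inf_relIndex_left]
    exact relIndex_mul_card inf_le_left
  have h3 : T.relIndex R * Nat.card T = Nat.card ↥(T ⊔ R) := by
    rw [← relIndex_sup_left]
    exact relIndex_mul_card le_sup_left
  have h4 : R.relIndex (T ⊔ R) * Nat.card R = Nat.card ↥(T ⊔ R) := relIndex_mul_card le_sup_right
  have hpos : 0 < Nat.card R := Nat.card_pos
  apply Nat.eq_of_mul_eq_mul_right hpos
  rw [h4, ← h3, ← h1, ← h2]
  ring

/-- `N_G(PK) = K N_G(P)` -/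
theorem normalizer_sup_normal [Finite G] {p : ℕ} [Fact p.Prime] (P : Sylow p G) (K : Subgroup G)
    [K.Normal] :
    normalizer (((P : Subgroup G) ⊔ K : Subgroup G) : Set G) = K ⊔ normalizer ((P : Subgroup G) : Set G) := by
  have hKn : K.Normal := inferInstance
  apply le_antisymm
  · intro g hg
    have h1 : ((g • P : Sylow p G) : Subgroup G) ≤ (P : Subgroup G) ⊔ K := by
      intro x hx
      rw [Sylow.coe_subgroup_smul, Subgroup.mem_pointwise_smul_iff_inv_smul_mem] at hx
      have hx' : g⁻¹ * x * g ∈ (P : Subgroup G) ⊔ K := by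
        apply (le_sup_left : (P : Subgroup G) ≤ (P : Subgroup G) ⊔ K)
        simpa using hx
      have := (mem_normalizer_iff.1 hg _).1 hx'
      simpa [mul_assoc] using this
    obtain ⟨m, hm, hmP⟩ := exists_mem_smul_eq_of_le P (g • P) _ le_sup_left h1
    have h2 : (m⁻¹ * g) • P = P := by rw [mul_smul, ← hmP, inv_smul_smul]
    have h3 : m⁻¹ * g ∈ normalizer ((P : Subgroup G) : Set G) := Sylow.smul_eq_iff_mem_normalizer.1 h2
    have h4 : m ∈ K ⊔ normalizer ((P : Subgroup G) : Set G) :=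
      (sup_le (le_normalizer.trans le_sup_right) le_sup_left) hm
    have : g = m * (m⁻¹ * g) := by group
    rw [this]
    exact mul_mem h4 (le_sup_right (a := K) h3)
  · apply sup_le
    · exact (le_sup_right : K ≤ (P : Subgroup G) ⊔ K).trans le_normalizer
    · intro g hg
      have key : ∀ g ∈ normalizer ((P : Subgroup G) : Set G), ∀ h ∈ (P : Subgroup G) ⊔ K,
          g * h * g⁻¹ ∈ (P : Subgroup G) ⊔ K := by
        intro g hg h hh
        rw [mem_sup_of_normal_right] at hh ⊢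
        obtain ⟨y, hy, z, hz, rfl⟩ := hh
        refine ⟨g * y * g⁻¹, (mem_normalizer_iff.1 hg y).1 hy, g * z * g⁻¹, hKn.conj_mem z hz g, ?_⟩
        group
      rw [mem_normalizer_iff]
      intro h
      constructor
      · exact key g hg h
      · intro hh
        have := key g⁻¹ (inv_mem hg) _ hh
        simpa [mul_assoc] using this

theorem card_sylow_quotient [Finite G] {p : ℕ} [Fact p.Prime] (P : Sylow p G) (K : Subgroup G)
    [K.Normal] :
    Nat.card (Sylow p (G ⧸ K)) = (K ⊔ normalizer ((P : Subgroup G) : Set G)).index := by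
  have hsurj := QuotientGroup.mk'_surjective K
  have h0 : Nat.card (Sylow p (G ⧸ K))
      = (normalizer (((P.mapSurjective hsurj : Sylow p (G ⧸ K)) : Subgroup (G ⧸ K)) : Set (G ⧸ K))).index :=
    Sylow.card_eq_index_normalizer (P.mapSurjective hsurj)
  rw [h0, ← normalizer_sup_normal,
    ← index_comap_of_surjective _ hsurj, comap_normalizer_eq_of_surjective _ hsurj,
    Sylow.coe_mapSurjective, comap_map_eq, QuotientGroup.ker_mk']

theorem exists_pow_mem_of_mem_sup {p : ℕ} (P K : Subgroup G) (hP : IsPGroup p P) [K.Normal]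
    (z : G) (hz : z ∈ P ⊔ K) : ∃ a : ℕ, z ^ (p ^ a) ∈ K := by
  rw [mem_sup_of_normal_right] at hz
  obtain ⟨x, hx, k, hk, rfl⟩ := hz
  obtain ⟨a, ha⟩ := hP ⟨x, hx⟩
  refine ⟨a, ?_⟩
  rw [← QuotientGroup.eq_one_iff, QuotientGroup.mk_pow, QuotientGroup.mk_mul,
    (QuotientGroup.eq_one_iff k).2 hk, mul_one, ← QuotientGroup.mk_pow]
  have : x ^ (p ^ a) = 1 := congrArg Subtype.val ha
  rw [this]; rfl

theorem sup_inf_sup_eq {p : ℕ} (P : Sylow p G) (M N : Subgroup G) [M.Normal] [N.Normal]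
    (hMN : M ⊓ N = ⊥) : ((P : Subgroup G) ⊔ M) ⊓ ((P : Subgroup G) ⊔ N) = P := by
  have hle : (P : Subgroup G) ≤ ((P : Subgroup G) ⊔ M) ⊓ ((P : Subgroup G) ⊔ N) :=
    le_inf le_sup_left le_sup_left
  refine (P.3 ?_ hle)
  rintro ⟨z, hz1, hz2⟩
  obtain ⟨a, ha⟩ := exists_pow_mem_of_mem_sup (P : Subgroup G) N P.2 z hz2
  obtain ⟨b, hb⟩ := exists_pow_mem_of_mem_sup (P : Subgroup G) M P.2 (z ^ (p ^ a)) (pow_mem hz1 _)
  refine ⟨a + b, ?_⟩
  apply Subtype.ext
  have h1 : (z ^ (p ^ a)) ^ (p ^ b) ∈ M ⊓ N := ⟨hb, pow_mem ha _⟩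
  rw [hMN, mem_bot, ← pow_mul, ← pow_add] at h1
  exact h1

/-- Let M and N be nontrivial normal subgroups of the finite group G with M ⊓ N trivial, and let p be a prime. Writing n(X) for the number of Sylow p-subgroups of a group X, one has n(G) · n(G/MN) = n(G/M) · n(G/N). -/
theorem result {G : Type*} [Group G] [Finite G] (p : ℕ) [Fact p.Prime] (M N : Subgroup G) [M.Normal] [N.Normal] (hM : M ≠ ⊥) (hN : N ≠ ⊥) (hMN : M ⊓ N = ⊥) : Nat.card (Sylow p G) * Nat.card (Sylow p (G ⧸ (M ⊔ N))) = Nat.card (Sylow p (G ⧸ M)) * Nat.card (Sylow p (G ⧸ N)) := by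
  have hMn : M.Normal := inferInstance
  have hNn : N.Normal := inferInstance
  obtain ⟨P⟩ : Nonempty (Sylow p G) := inferInstance
  have h0 : Nat.card (Sylow p G) = (normalizer ((P : Subgroup G) : Set G)).index :=
    Sylow.card_eq_index_normalizer P
  rw [card_sylow_quotient P M, card_sylow_quotient P N, card_sylow_quotient P (M ⊔ N), h0]
  set Hn := normalizer ((P : Subgroup G) : Set G) with hHn
  have e1 : Hn.relIndex (M ⊔ Hn) * (M ⊔ Hn).index = Hn.index := relIndex_mul_index le_sup_right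
  have e2 : (N ⊔ Hn).relIndex (M ⊔ (N ⊔ Hn)) * (M ⊔ (N ⊔ Hn)).index = (N ⊔ Hn).index :=
    relIndex_mul_index le_sup_right
  have key : (N ⊔ Hn) ⊓ M = Hn ⊓ M := by
    apply le_antisymm
    · rintro m ⟨hm1, hm2⟩
      refine ⟨?_, hm2⟩
      replace hm1 : m ∈ N ⊔ Hn := hm1
      replace hm2 : m ∈ M := hm2
      rw [mem_sup_of_normal_left] at hm1
      obtain ⟨n, hn, h, hh, rfl⟩ := hm1
      refine Sylow.smul_eq_iff_mem_normalizer.1 ?_
      have hle : (((n * h) • P : Sylow p G) : Subgroup G) ≤ P := by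
        rw [← sup_inf_sup_eq P M N hMN]
        intro x hx
        rw [Sylow.coe_subgroup_smul] at hx
        obtain ⟨y, hy, rfl⟩ := hx
        change (n * h) * y * (n * h)⁻¹ ∈ _
        rw [mem_inf]
        constructor
        · rw [mem_sup_of_normal_right]
          refine ⟨y, hy, y⁻¹ * (n * h) * y * (n * h)⁻¹, ?_, by group⟩
          have := hMn.conj_mem _ hm2 y⁻¹
          exact M.mul_mem (by simpa using this) (M.inv_mem hm2)
        · rw [mem_sup_of_normal_right]
          have hy' : h * y * h⁻¹ ∈ (P : Subgroup G) := (mem_normalizer_iff.1 hh y).1 hy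
          refine ⟨h * y * h⁻¹, hy', (h * y * h⁻¹)⁻¹ * n * (h * y * h⁻¹) * n⁻¹, ?_, by group⟩
          have := hNn.conj_mem _ hn (h * y * h⁻¹)⁻¹
          exact N.mul_mem (by simpa using this) (N.inv_mem hn)
      exact Sylow.ext (((n * h) • P).3 P.2 hle).symm
    · exact inf_le_inf_right _ le_sup_right
  have e3 : Hn.relIndex (M ⊔ Hn) = (N ⊔ Hn).relIndex (M ⊔ (N ⊔ Hn)) := by
    rw [relIndex_sup_of_normal_left, relIndex_sup_of_normal_left, ← inf_relIndex_right, ← key,
      inf_relIndex_right]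
  rw [sup_assoc, ← e1, ← e2, e3]
  ring

end Cfsg.Agent.S3867
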