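import Cfsg.Statements.S3878
import Cfsg.Agent.Lib.Helper64.Sylow

set_option autoImplicit false
open Cfsg

namespace Cfsg.Agent.S3878

open Subgroup Cfsg.Agent.Lib.Helper64 Equiv Equiv.Perm MulAction
open scoped Pointwise

/-- a Hall π-subgroup contains a conjugate of every `ℓ`-element, `ℓ ∈ π`. -/
theorem exists_conj_mem {G : Type*} [Group G] [Finite G] (π : Set ℕ) (H : Subgroup G)
    (hH : IsPiHall π H) (l : ℕ) (hl : l.Prime) (hlπ : l ∈ π) (c : G) (k : ℕ)
    (hc : orderOf c = l ^ k) : ∃ g : G, g * c * g⁻¹ ∈ H := by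
  have : Fact l.Prime := ⟨hl⟩
  obtain ⟨S, hS⟩ := exists_sylow_le_of_not_dvd_index (p := l) H (hH.2 l hl hlπ)
  have hC : IsPGroup l (zpowers c) := IsPGroup.of_card (n := k) (by rw [Nat.card_zpowers, hc])
  obtain ⟨S', hS'⟩ := hC.exists_le_sylow
  obtain ⟨g, hg⟩ := MulAction.exists_smul_eq G S' S
  refine ⟨g, hS ?_⟩
  rw [← hg, Sylow.coe_subgroup_smul]
  exact Subgroup.smul_mem_pointwise_smul c (MulAut.conj g) _ (hS' (mem_zpowers c))

theorem isPreprimitive_of_full_cycle {q : ℕ} (hq : q.Prime) (H : Subgroup (Perm (Fin q)))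
    (c : Perm (Fin q)) (hc : c.IsCycle) (hsupp : c.support = Finset.univ) (hcH : c ∈ H) :
    IsPreprimitive H (Fin q) := by
  have : IsPretransitive H (Fin q) := by
    constructor
    intro x y
    have hx : c x ≠ x := by
      have : x ∈ c.support := by rw [hsupp]; exact Finset.mem_univ x
      exact mem_support.1 this
    have hy : c y ≠ y := by
      have : y ∈ c.support := by rw [hsupp]; exact Finset.mem_univ y
      exact mem_support.1 this
    obtain ⟨i, hi⟩ := hc.sameCycle hx hy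
    exact ⟨⟨c ^ i, zpow_mem hcH i⟩, hi⟩
  apply IsPreprimitive.of_prime_card
  rw [Nat.card_eq_fintype_card, Fintype.card_fin]
  exact hq

/-- a Hall π-subgroup of `S_q`, `q ∈ π` prime, is primitive. -/
theorem isPreprimitive_of_hall {q : ℕ} (hq : q.Prime) (π : Set ℕ) (hqπ : q ∈ π)
    (H : Subgroup (Perm (Fin q))) (hH : IsPiHall π H) : IsPreprimitive H (Fin q) := by
  have h2 : 2 ≤ q := hq.two_le
  have hcyc := isCycle_finRotate_of_le h2
  have hsupp := support_finRotate_of_le h2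
  have hord : orderOf (finRotate q) = q ^ 1 := by
    rw [hcyc.orderOf, hsupp, Finset.card_univ, Fintype.card_fin, pow_one]
  obtain ⟨g, hg⟩ := exists_conj_mem π H hH q hq hqπ (finRotate q) 1 hord
  refine isPreprimitive_of_full_cycle hq H _ hcyc.conj ?_ hg
  rw [Finset.eq_univ_iff_forall]
  intro x
  rw [support_conj, hsupp]
  simp

theorem no_hall_of_three {q : ℕ} (hq : q.Prime) (hq3 : 3 ≤ q) (π : Set ℕ) (hqπ : q ∈ π)
    (h2 : 2 ∈ π) (h3 : 3 ∉ π) : ¬ IsEPiGroup π (Perm (Fin q)) := by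
  rintro ⟨H, hH⟩
  have hprim := isPreprimitive_of_hall hq π hqπ H hH
  have : NeZero q := ⟨hq.ne_zero⟩
  have h01 : (⟨0, by omega⟩ : Fin q) ≠ ⟨1, by omega⟩ := by
    intro h; simpa using congrArg Fin.val h
  have hord : orderOf (swap (⟨0, by omega⟩ : Fin q) ⟨1, by omega⟩) = 2 ^ 1 := by
    rw [pow_one]; exact IsSwap.orderOf ⟨_, _, h01, rfl⟩
  obtain ⟨g, hg⟩ := exists_conj_mem π H hH 2 Nat.prime_two h2 _ 1 hord
  have hsw : (g * swap (⟨0, by omega⟩ : Fin q) ⟨1, by omega⟩ * g⁻¹).IsSwap := by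
    refine ⟨g ⟨0, by omega⟩, g ⟨1, by omega⟩, fun h => h01 (g.injective h), ?_⟩
    rw [← swap_apply_apply]
  have htop := subgroup_eq_top_of_isPreprimitive_of_isSwap_mem hprim _ hsw hg
  apply h3
  apply hH.1 3 Nat.prime_three
  rw [htop, Subgroup.card_top, Nat.card_perm, Nat.card_eq_fintype_card, Fintype.card_fin]
  exact (Nat.prime_three.dvd_factorial).2 hq3

theorem no_hall_of_two {p q : ℕ} (hp : p.Prime) (hq : q.Prime) (hpq : p < q) (π : Set ℕ)
    (hpπ : p ∈ π) (hqπ : q ∈ π) (h2 : 2 ∉ π) : ¬ IsEPiGroup π (Perm (Fin q)) := by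
  rintro ⟨H, hH⟩
  have hprim := isPreprimitive_of_hall hq π hqπ H hH
  have : NeZero q := ⟨hq.ne_zero⟩
  have hp2 := hp.two_le
  set i : Fin q := ⟨p - 1, by omega⟩ with hi
  have hi0 : i ≠ 0 := by
    intro h
    have := congrArg Fin.val h
    simp [hi] at this
    omega
  have hcyc := Fin.isCycle_cycleRange hi0
  have hcard : i.cycleRange.support.card = p := by
    have h1 := Fin.cycleType_cycleRange hi0
    have h2 := hcyc.cycleType
    rw [h1] at h2
    have h3 : (i : ℕ) + 1 = i.cycleRange.support.card := by simpa using h2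
    rw [← h3, hi]
    simp only
    omega
  have hord : orderOf i.cycleRange = p ^ 1 := by rw [hcyc.orderOf, hcard, pow_one]
  obtain ⟨g, hg⟩ := exists_conj_mem π H hH p hp hpπ _ 1 hord
  set c := g * i.cycleRange * g⁻¹ with hc
  have hccyc : c.IsCycle := hcyc.conj
  have hccard : c.support.card = p := by rw [hc, card_support_conj, hcard]
  have htrans := isPretransitive_of_isCycle_mem hccyc hg
  have hncard : ((c.support : Set (Fin q))ᶜ).ncard = (q - p - 1) + 1 := by
    rw [Set.ncard_compl, Set.ncard_coe_finset, hccard, Nat.card_eq_fintype_card, Fintype.card_fin]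
    omega
  have h2t := hprim.is_two_pretransitive hncard (by
    rw [Nat.card_eq_fintype_card, Fintype.card_fin]; omega) htrans
  rw [is_two_pretransitive_iff] at h2t
  have h01 : (⟨0, by omega⟩ : Fin q) ≠ ⟨1, by omega⟩ := by
    intro h; simpa using congrArg Fin.val h
  obtain ⟨h, hh0, hh1⟩ := h2t h01 h01.symm
  -- h has even order
  apply h2
  apply hH.1 2 Nat.prime_two
  refine dvd_trans ?_ (orderOf_dvd_natCard h)
  by_contra hodd
  have hodd' : Odd (orderOf h) := by
    rw [← Nat.not_even_iff_odd, even_iff_two_dvd]; exact hodd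
  obtain ⟨m, hm⟩ := hodd'
  have hsq : ∀ n : ℕ, (h ^ (2 * n)) • (⟨0, by omega⟩ : Fin q) = ⟨0, by omega⟩ := by
    intro n
    induction n with
    | zero => simp
    | succ n ih =>
      rw [show 2 * (n + 1) = 2 * n + 1 + 1 by ring, pow_succ, pow_succ, mul_smul, mul_smul, hh0, hh1, ih]
  have h1 : h ^ (2 * m + 1) = 1 := by rw [← hm]; exact pow_orderOf_eq_one h
  have h3 : (h ^ (2 * m + 1)) • (⟨0, by omega⟩ : Fin q) = ⟨1, by omega⟩ := by
    rw [pow_succ', mul_smul, hsq, hh0]
  rw [h1, one_smul] at h3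
  exact h01 h3

theorem no_hall_of_five {r : ℕ} (hr : r.Prime) (hr5 : 5 ≤ r) (π : Set ℕ) (hrπ : r ∉ π)
    (hlt : ∀ l : ℕ, l.Prime → l < r → l ∈ π) : ¬ IsEPiGroup π (Perm (Fin (r + 1))) := by
  rintro ⟨H, hH⟩
  have hcardG : Nat.card (Perm (Fin (r + 1))) = (r + 1).factorial := by
    rw [Nat.card_perm, Nat.card_eq_fintype_card, Fintype.card_fin]
  have hidxdvd : H.index ∣ (r + 1).factorial := by rw [← hcardG]; exact H.index_dvd_card
  have hrodd : Odd r := hr.odd_of_ne_two (by omega)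
  have hprime : ∀ {l : ℕ}, l.Prime → l ∣ H.index → l = r := by
    intro l hl hdvd
    have h1 : l ≤ r + 1 := (hl.dvd_factorial).1 (hdvd.trans hidxdvd)
    have h2 : l ∉ π := fun h => hH.2 l hl h hdvd
    have h3 : ¬ l < r := fun h => h2 (hlt l hl h)
    rcases Nat.lt_or_ge r l with h4 | h4
    · exfalso
      have h5 : l = r + 1 := by omega
      have h6 : 2 ∣ l := by
        rw [h5]
        obtain ⟨m, hm⟩ := hrodd
        exact ⟨m + 1, by omega⟩
      have h7 := (Nat.prime_dvd_prime_iff_eq Nat.prime_two hl).1 h6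
      omega
    · omega
  have hidx0 : H.index ≠ 0 := Subgroup.index_ne_zero_of_finite
  have hpow := Nat.eq_prime_pow_of_unique_prime_dvd hidx0 hprime
  set k := H.index.primeFactorsList.length with hk
  have hsq : ¬ r ^ 2 ∣ (r + 1).factorial := by
    intro h
    obtain ⟨m, rfl⟩ : ∃ m, r = m + 1 := ⟨r - 1, by omega⟩
    rw [Nat.factorial_succ, Nat.factorial_succ, pow_two, mul_left_comm] at h
    have h1 : (m + 1) ∣ (m + 1 + 1) * m.factorial := Nat.dvd_of_mul_dvd_mul_left (by omega) h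
    rcases (hr.dvd_mul).1 h1 with h2 | h2
    · have h3 : (m + 1) ∣ 1 := (Nat.dvd_add_right (dvd_refl (m + 1))).1 h2
      have := Nat.le_of_dvd (by omega) h3
      omega
    · have := (hr.dvd_factorial).1 h2
      omega
  have hidxle : H.index ≤ r := by
    rcases Nat.lt_or_ge k 2 with h | h
    · rw [hpow]
      calc r ^ k ≤ r ^ 1 := Nat.pow_le_pow_right hr.pos (by omega)
        _ = r := pow_one r
    · exfalso
      apply hsq
      refine dvd_trans ?_ hidxdvd
      rw [hpow]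
      exact pow_dvd_pow r h
  have hcore : Nontrivial H.normalCore := by
    rw [Subgroup.nontrivial_iff_ne_bot]
    intro hbot
    rw [Subgroup.normalCore_eq_ker, MonoidHom.ker_eq_bot_iff] at hbot
    have h1 := Nat.card_le_card_of_injective _ hbot
    rw [hcardG, Nat.card_perm] at h1
    have h2 : (Nat.card (Perm (Fin (r + 1)) ⧸ H)).factorial ≤ r.factorial := Nat.factorial_le hidxle
    have h3 : r.factorial < (r + 1).factorial := Nat.factorial_lt_of_lt (by omega) (by omega)
    omega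
  have hA : alternatingGroup (Fin (r + 1)) ≤ H :=
    (alternatingGroup_le_of_normal (by rw [Nat.card_eq_fintype_card, Fintype.card_fin]; omega)
      hcore).trans H.normalCore_le
  apply hrπ
  apply hH.1 r hr
  refine dvd_trans ?_ (Subgroup.card_dvd_of_le hA)
  have : Nontrivial (Fin (r + 1)) := Fin.nontrivial_iff_two_le.2 (by omega)
  have h1 : Nat.card (alternatingGroup (Fin (r + 1))) * 2 = (r + 1).factorial := by
    rw [← hcardG, ← alternatingGroup.index_eq_two (α := Fin (r + 1))]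
    exact Subgroup.card_mul_index _
  have h2 : r ∣ Nat.card (alternatingGroup (Fin (r + 1))) * 2 := by
    rw [h1]; exact (hr.dvd_factorial).2 (by omega)
  rcases (hr.dvd_mul).1 h2 with h3 | h3
  · exact h3
  · have := Nat.le_of_dvd (by omega) h3
    omega

/-- the arithmetic condition on `π`. -/
def Cond (π : Set ℕ) : Prop :=
  (∀ p q : ℕ, p.Prime → q.Prime → p ∈ π → q ∈ π → p = q) ∨ ∀ p : ℕ, p.Prime → p ∈ π

theorem cond_of_E (π : Set ℕ) (h : ∀ (G : Type) [Group G] [Finite G], Cfsg.IsEPiGroup π G) :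
    Cond π := by
  by_contra hcon
  unfold Cond at hcon
  push Not at hcon
  obtain ⟨⟨p, q, hp, hq, hpπ, hqπ, hpq⟩, ⟨r0, hr0, hr0π⟩⟩ := hcon
  classical
  have hex : ∃ r : ℕ, r.Prime ∧ r ∉ π := ⟨r0, hr0, hr0π⟩
  obtain ⟨r, ⟨hrp, hrπ⟩, hmin⟩ : ∃ r : ℕ, (r.Prime ∧ r ∉ π) ∧ ∀ l < r, ¬ (l.Prime ∧ l ∉ π) :=
    ⟨Nat.find hex, Nat.find_spec hex, fun l hl => Nat.find_min hex hl⟩
  have hlt : ∀ l : ℕ, l.Prime → l < r → l ∈ π := by
    intro l hl hlr
    by_contra hlπ
    exact hmin l hlr ⟨hl, hlπ⟩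
  -- wlog p < q
  obtain ⟨p, q, hp, hq, hpπ, hqπ, hpq⟩ : ∃ p q : ℕ, p.Prime ∧ q.Prime ∧ p ∈ π ∧ q ∈ π ∧ p < q := by
    rcases Nat.lt_or_gt_of_ne hpq with h1 | h1
    · exact ⟨p, q, hp, hq, hpπ, hqπ, h1⟩
    · exact ⟨q, p, hq, hp, hqπ, hpπ, h1⟩
  rcases Nat.lt_or_ge r 5 with h5 | h5
  · have hr23 : r = 2 ∨ r = 3 := by
      have h2 := hrp.two_le
      clear hmin hlt
      interval_cases r
      · left; rfl
      · right; rfl
      · exact absurd hrp (by norm_num)
    rcases hr23 with h2 | h3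
    · rw [h2] at hrπ
      exact no_hall_of_two hp hq hpq π hpπ hqπ hrπ (h _)
    · rw [h3] at hrπ
      have h2π : 2 ∈ π := hlt 2 Nat.prime_two (by omega)
      have := hp.two_le
      exact no_hall_of_three hq (by omega) π hqπ h2π hrπ (h _)
  · exact no_hall_of_five hrp h5 π hrπ hlt (h _)

theorem isPiSubgroup_iff_isPGroup {G : Type*} [Group G] [Finite G] (π : Set ℕ) (p : ℕ)
    [Fact p.Prime] (hpπ : p ∈ π) (huniq : ∀ p q : ℕ, p.Prime → q.Prime → p ∈ π → q ∈ π → p = q)
    (K : Subgroup G) : IsPiSubgroup π K ↔ IsPGroup p K := by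
  have hp : p.Prime := Fact.out
  constructor
  · intro h
    have := Nat.eq_prime_pow_of_unique_prime_dvd (n := Nat.card K) (p := p) Nat.card_pos.ne'
      (fun {d} hd hdvd => huniq d p hd hp (h d hd hdvd) hpπ)
    exact IsPGroup.of_card this
  · intro h l hl hdvd
    obtain ⟨n, hn⟩ := h.exists_card_eq
    rw [hn] at hdvd
    have := (Nat.prime_dvd_prime_iff_eq hl hp).1 (hl.dvd_of_dvd_pow hdvd)
    rw [this]; exact hpπ

theorem E_of_cond (π : Set ℕ) (h : Cond π) (G : Type) [Group G] [Finite G] : IsEPiGroup π G := by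
  rcases h with h | h
  · by_cases hex : ∃ p : ℕ, p.Prime ∧ p ∈ π
    · obtain ⟨p, hp, hpπ⟩ := hex
      have : Fact p.Prime := ⟨hp⟩
      obtain ⟨P⟩ : Nonempty (Sylow p G) := inferInstance
      refine ⟨P, (isPiSubgroup_iff_isPGroup π p hpπ h _).2 P.2, ?_⟩
      intro l hl hlπ
      rw [h l p hl hp hlπ hpπ]
      exact P.not_dvd_index
    · push Not at hex
      refine ⟨⊥, ?_, fun l hl hlπ => absurd hlπ (hex l hl)⟩
      intro l hl hdvd
      rw [Subgroup.card_bot] at hdvd
      exact absurd (Nat.dvd_one.1 hdvd) hl.one_lt.ne'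
  · refine ⟨⊤, fun l hl _ => h l hl, ?_⟩
    intro l hl _ hdvd
    rw [Subgroup.index_top] at hdvd
    exact absurd (Nat.dvd_one.1 hdvd) hl.one_lt.ne'

theorem D_of_cond (π : Set ℕ) (h : Cond π) (G : Type) [Group G] [Finite G] : IsDPiGroup π G := by
  intro H K hH hK
  rcases h with h | h
  · by_cases hex : ∃ p : ℕ, p.Prime ∧ p ∈ π
    · obtain ⟨p, hp, hpπ⟩ := hex
      have : Fact p.Prime := ⟨hp⟩
      have key := isPiSubgroup_iff_isPGroup (G := G) π p hpπ h
      let PH : Sylow p G := ⟨H, (key H).1 hH.prop, fun {Q} hQ hle =>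
        le_antisymm (hH.le_of_ge ((key Q).2 hQ) hle) hle⟩
      let PK : Sylow p G := ⟨K, (key K).1 hK.prop, fun {Q} hQ hle =>
        le_antisymm (hK.le_of_ge ((key Q).2 hQ) hle) hle⟩
      obtain ⟨g, hg⟩ := MulAction.exists_smul_eq G PH PK
      refine ⟨g, ?_⟩
      have := congrArg (fun S : Sylow p G => (S : Subgroup G)) hg
      exact this.symm
    · push Not at hex
      have hbot : ∀ L : Subgroup G, IsPiSubgroup π L → L = ⊥ := by
        intro L hL
        rw [← Subgroup.card_eq_one]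
        by_contra hne
        obtain ⟨l, hl, hdvd⟩ := Nat.exists_prime_and_dvd hne
        exact hex l hl (hL l hl hdvd)
      refine ⟨1, ?_⟩
      rw [hbot H hH.prop, hbot K hK.prop, Subgroup.map_bot]
  · have htop : ∀ L : Subgroup G, Maximal (IsPiSubgroup π) L → L = ⊤ := by
      intro L hL
      exact top_le_iff.1 (hL.le_of_ge (fun l hl _ => h l hl) le_top)
    refine ⟨1, ?_⟩
    rw [htop H hH, htop K hK]
    ext x
    simp

theorem E_of_D (π : Set ℕ) (G : Type) [Group G] [Finite G] (h : IsDPiGroup π G) :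
    IsEPiGroup π G := by
  have hbot : IsPiSubgroup π (⊥ : Subgroup G) := by
    intro l hl hdvd
    rw [Subgroup.card_bot] at hdvd
    exact absurd (Nat.dvd_one.1 hdvd) hl.one_lt.ne'
  obtain ⟨H, -, hH⟩ := Finite.exists_le_maximal (p := IsPiSubgroup (G := G) π) hbot
  refine ⟨H, hH.prop, ?_⟩
  intro p hp hpπ hdvd
  have : Fact p.Prime := ⟨hp⟩
  obtain ⟨P⟩ : Nonempty (Sylow p G) := inferInstance
  have hP : IsPiSubgroup π (P : Subgroup G) := by
    intro l hl hdvd
    obtain ⟨n, hn⟩ := P.2.exists_card_eq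
    rw [hn] at hdvd
    have := (Nat.prime_dvd_prime_iff_eq hl hp).1 (hl.dvd_of_dvd_pow hdvd)
    rw [this]; exact hpπ
  obtain ⟨K, hPK, hK⟩ := Finite.exists_le_maximal (p := IsPiSubgroup (G := G) π) hP
  obtain ⟨g, hg⟩ := h H K hH hK
  have hidx : K.index = H.index := by
    rw [hg]
    exact Subgroup.index_map_equiv H (MulAut.conj g)
  apply P.not_dvd_index
  rw [← hidx] at hdvd
  exact hdvd.trans (index_dvd_of_le hPK)

/-- For a set of primes π the following are equivalent: every finite group has a Hall π-subgroup; in every finite group the maximal π-subgroups are pairwise conjugate; π contains at most one prime or contains every prime. -/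
theorem result (π : Set ℕ) :
    ((∀ (G : Type) [Group G] [Finite G], Cfsg.IsEPiGroup π G) ↔
      ((∀ p q : ℕ, p.Prime → q.Prime → p ∈ π → q ∈ π → p = q) ∨ ∀ p : ℕ, p.Prime → p ∈ π)) ∧
    ((∀ (G : Type) [Group G] [Finite G], Cfsg.IsDPiGroup π G) ↔
      ((∀ p q : ℕ, p.Prime → q.Prime → p ∈ π → q ∈ π → p = q) ∨ ∀ p : ℕ, p.Prime → p ∈ π)) := by
  refine ⟨⟨cond_of_E π, fun h G _ _ => E_of_cond π h G⟩,
    ⟨fun h => cond_of_E π (fun G _ _ => E_of_D π G (h G)), fun h G _ _ => D_of_cond π h G⟩⟩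

end Cfsg.Agent.S3878
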