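import Cfsg.Statements.S3881
import Cfsg.Agent.Lib.Helper64.MetaW

set_option autoImplicit false
open Cfsg

namespace Cfsg.Agent.S3881

open Cfsg.Agent.Lib.Helper64

/-- Let p be an odd prime and G a finite metacyclic p-group (G has a cyclic normal subgroup with cyclic quotient). Suppose G is non-abelian with |G'| = p^n. Then for 1 ≤ i ≤ n the number of elements of G whose conjugacy class has exactly p^i elements is |Z(G)| · (p^(2i) − p^(2i−2)). -/
theorem result {G : Type*} [Group G] [Finite G] {p : ℕ} [Fact p.Prime] (hp : p ≠ 2) (hG : IsPGroup p G) (hmc : Cfsg.IsMetacyclic G) (n : ℕ) (hn : n ≠ 0) (hGn : Nat.card ↥(commutator G) = p ^ n) (i : ℕ) (hi : 1 ≤ i) (hin : i ≤ n) :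
    Nat.card {g : G // (Subgroup.centralizer ({g} : Set G)).index = p ^ i} =
      Nat.card ↥(Subgroup.center G) * (p ^ (2 * i) - p ^ (2 * i - 2)) := by
  have hpp : p.Prime := Fact.out
  obtain ⟨a, b, κ, m, k, n', D⟩ := exists_metaData hG hmc
  have hn' : n' = n := by
    have := D.card_commutator
    rw [hGn] at this
    exact (Nat.pow_right_injective hpp.two_le this).symm
  subst hn'
  have hm := D.n_le_m
  have hk := D.n_le_k hp
  have hset : {g : G | (Subgroup.centralizer ({g} : Set G)).index = p ^ i} =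
      (D.W (n' - i) : Set G) \ (D.W (n' - i + 1) : Set G) := by
    ext g
    simp only [Set.mem_setOf_eq, Set.mem_diff, SetLike.mem_coe]
    rw [D.mem_W_iff_index_le hp (by omega), D.mem_W_iff_index_le hp (by omega)]
    have e1 : n' - (n' - i) = i := by omega
    have e2 : n' - (n' - i + 1) = i - 1 := by omega
    rw [e1, e2]
    have hdvd : (Subgroup.centralizer ({g} : Set G)).index ∣ p ^ (m + k) := by
      rw [pow_add, ← D.card_eq]; exact Subgroup.index_dvd_card _
    obtain ⟨e, _, he⟩ := (Nat.dvd_prime_pow hpp).1 hdvd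
    rw [he, Nat.pow_le_pow_iff_right hpp.one_lt, Nat.pow_le_pow_iff_right hpp.one_lt]
    constructor
    · intro h
      have := Nat.pow_right_injective hpp.two_le h
      omega
    · intro h
      congr 1; omega
  have hsub : (D.W (n' - i + 1) : Set G) ⊆ (D.W (n' - i) : Set G) := by
    rintro _ ⟨j, l, rfl⟩
    exact ⟨p * j, p * l, by rw [pow_succ]; simp only [mul_assoc]⟩
  have hc : Nat.card {g : G // (Subgroup.centralizer ({g} : Set G)).index = p ^ i} =
      ({g : G | (Subgroup.centralizer ({g} : Set G)).index = p ^ i}).ncard :=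
    Nat.card_coe_set_eq _
  rw [hc, hset, Set.ncard_diff hsub (Set.toFinite _)]
  have c1 : (D.W (n' - i) : Set G).ncard = p ^ (m - (n' - i)) * p ^ (k - (n' - i)) := by
    rw [← Nat.card_coe_set_eq]; exact D.card_W hp (by omega)
  have c2 : (D.W (n' - i + 1) : Set G).ncard = p ^ (m - (n' - i + 1)) * p ^ (k - (n' - i + 1)) := by
    rw [← Nat.card_coe_set_eq]; exact D.card_W hp (by omega)
  rw [c1, c2, D.card_center hp, Nat.mul_sub]
  congr 1
  · rw [← pow_add, ← pow_add, ← pow_add]; congr 1; omega
  · rw [← pow_add, ← pow_add, ← pow_add]; congr 1; omega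

end Cfsg.Agent.S3881
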