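import Cfsg.Statements.S3883
import Cfsg.Agent.Lib.Helper64.MetaSub
import Cfsg.Agent.Lib.Helper2.PGroupFrattini

set_option autoImplicit false
open Cfsg

namespace Cfsg.Agent.S3883

open Cfsg.Agent.Lib.Helper64 Subgroup

theorem W_normal {G : Type*} [Group G] [Finite G] {p : ℕ} [Fact p.Prime] (hp : p ≠ 2)
    {a b : G} {κ m k n : ℕ} (D : MetaData p a b κ m k n) (s : ℕ) : (D.W s).Normal := by
  constructor
  rintro _ ⟨j, i, rfl⟩ x
  have h : x * (a ^ (p ^ s * j) * b ^ (p ^ s * i)) * x⁻¹ =
      (x * a ^ j * x⁻¹) ^ p ^ s * (x * b ^ i * x⁻¹) ^ p ^ s := by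
    rw [conj_pow, conj_pow, ← pow_mul, ← pow_mul, mul_comm j, mul_comm i]; group
  rw [h, D.W_eq_closure hp]
  exact Subgroup.mul_mem _ (subset_closure ⟨_, rfl⟩) (subset_closure ⟨_, rfl⟩)

theorem frattini_eq_W {G : Type*} [Group G] [Finite G] {p : ℕ} [Fact p.Prime] (hp : p ≠ 2)
    (hG : IsPGroup p G) {a b : G} {κ m k n : ℕ} (D : MetaData p a b κ m k n) :
    frattini G = D.W 1 := by
  apply le_antisymm
  · have := W_normal hp D 1
    apply Cfsg.Agent.Lib.Helper2.frattini_le_of_elementary_quotient (p := p)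
    · rw [D.commutator_eq, zpowers_le]
      obtain ⟨κ', hκ⟩ := D.dvd
      exact ⟨κ', 0, by simp [hκ]⟩
    · intro x
      rw [D.W_eq_closure hp]
      exact subset_closure ⟨x, by simp⟩
  · rw [D.W_eq_closure hp, closure_le]
    rintro _ ⟨y, rfl⟩
    rw [pow_one]
    exact Cfsg.Agent.Lib.Helper2.pow_p_mem_frattini hG y

/-- Let p be an odd prime and G a finite metacyclic p-group (G has a cyclic normal subgroup with cyclic quotient). Suppose G is non-abelian. Then an element g of G lies outside the Frattini subgroup if and only if its centralizer C_G(g) is abelian. -/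
theorem result {G : Type*} [Group G] [Finite G] {p : ℕ} [Fact p.Prime] (hp : p ≠ 2) (hG : IsPGroup p G) (hmc : Cfsg.IsMetacyclic G) (hna : ¬ IsMulCommutative G) (g : G) :
    g ∉ frattini G ↔ IsMulCommutative ↥(Subgroup.centralizer ({g} : Set G)) := by
  have hpp : p.Prime := Fact.out
  obtain ⟨a, b, κ, m, k, n, D⟩ := exists_metaData hG hmc
  have hn : 1 ≤ n := by
    by_contra h0
    have h0 : n = 0 := by omega
    subst h0
    apply hna
    have h1 : a ^ κ = 1 := by
      have := D.hd
      rwa [pow_zero, orderOf_eq_one_iff] at this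
    refine ⟨⟨fun x y => ?_⟩⟩
    have h2 := D.commutator_mem x y
    rw [h1, zpowers_one_eq_bot, mem_bot] at h2
    calc x * y = (x * y * x⁻¹ * y⁻¹) * (y * x) := by group
      _ = y * x := by rw [h2, one_mul]
  have hm := D.n_le_m
  rw [frattini_eq_W hp hG D, D.mem_W_iff_index_le hp hn, D.isMulCommutative_iff_card_le hp,
    D.index_commutator]
  have h1 := (centralizer ({g} : Set G)).card_mul_index
  have hdvd : (Subgroup.centralizer ({g} : Set G)).index ∣ p ^ (m + k) := by
    rw [pow_add, ← D.card_eq]; exact Subgroup.index_dvd_card _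
  obtain ⟨e, he, hidx⟩ := (Nat.dvd_prime_pow hpp).1 hdvd
  have hcard : Nat.card ↥(centralizer ({g} : Set G)) = p ^ (m + k - e) := by
    rw [hidx, D.card_eq] at h1
    have h2 : p ^ m * p ^ k = p ^ (m + k - e) * p ^ e := by
      rw [← pow_add, ← pow_add]; congr 1; omega
    rw [h2] at h1
    exact Nat.eq_of_mul_eq_mul_right (pow_pos hpp.pos e) h1
  rw [hidx, hcard, Nat.pow_le_pow_iff_right hpp.one_lt, Nat.pow_le_pow_iff_right hpp.one_lt]
  omega

end Cfsg.Agent.S3883
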