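import Cfsg.Statements.S3884
import Cfsg.Agent.Lib.Helper64.MetaW

set_option autoImplicit false
open Cfsg

namespace Cfsg.Agent.S3884

open Cfsg.Agent.Lib.Helper64 Subgroup

variable {G : Type*} [Group G]

theorem zpowers_pow_eq_of_val [Finite G] {p : ℕ} [hp : Fact p.Prime] {a : G} {m : ℕ}
    (ha : orderOf a = p ^ m) {σ w : ℕ} (h1 : p ^ w ∣ σ) (h2 : ¬ p ^ (w + 1) ∣ σ) :
    zpowers (a ^ σ) = zpowers (a ^ p ^ w) := by
  obtain ⟨q, rfl⟩ := h1
  have hq : ¬ p ∣ q := by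
    intro h
    apply h2
    rw [pow_succ]
    exact Nat.mul_dvd_mul_left _ h
  have hle : zpowers (a ^ (p ^ w * q)) ≤ zpowers (a ^ p ^ w) := by
    rw [zpowers_le, pow_mul]
    exact Subgroup.pow_mem _ (mem_zpowers _) _
  apply Subgroup.eq_of_le_of_card_ge hle
  rw [Nat.card_zpowers, Nat.card_zpowers, pow_mul]
  apply le_of_eq
  symm
  apply Nat.Coprime.orderOf_pow
  have h3 : orderOf (a ^ p ^ w) ∣ p ^ m := ha ▸ orderOf_pow_dvd _
  obtain ⟨e, _, he⟩ := (Nat.dvd_prime_pow hp.out).1 h3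
  rw [he]
  exact Nat.Coprime.pow_left _ ((Nat.Prime.coprime_iff_not_dvd hp.out).2 hq)

variable {p : ℕ} {a b : G} {κ m k n : ℕ}

theorem conj_b_pow [Finite G] (D : MetaData p a b κ m k n) (i : ℕ) {x : G} (hx : x ∈ zpowers a) :
    b ^ i * x * (b ^ i)⁻¹ = x ^ ((1 + κ) ^ i) := by
  obtain ⟨l, rfl⟩ := exists_pow_of_mem_zpowers hx
  have := D.conj_pow_a 0 i l
  simpa using this

theorem case_one [Finite G] (D : MetaData p a b κ m k n)
    (h : ∃ x ∈ zpowers a, x ^ geo (1 + κ) (p ^ k) * b ^ p ^ k = 1) :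
    ∃ A B : Subgroup G, IsCyclic ↥A ∧ IsCyclic ↥B ∧ A ⊓ B = ⊥ ∧
      Nat.card ↥A * Nat.card ↥B = Nat.card G := by
  obtain ⟨x, hx, hxb⟩ := h
  have hconj : b * x * b⁻¹ = x ^ (1 + κ) := by
    have := conj_b_pow D 1 hx
    simpa using this
  have hpow : ∀ M : ℕ, (x * b) ^ M = x ^ geo (1 + κ) M * b ^ M := mul_pow_of_conj hconj
  have hc1 : (x * b) ^ p ^ k = 1 := by rw [hpow, hxb]
  have hmem : ∀ i : ℕ, (x * b) ^ i ∈ zpowers a → p ^ k ∣ i := by
    intro i hi
    rw [hpow] at hi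
    rw [← D.hb]
    have := (zpowers a).mul_mem ((zpowers a).inv_mem ((zpowers a).pow_mem hx (geo (1 + κ) i))) hi
    simpa using this
  refine ⟨zpowers a, zpowers (x * b), inferInstance, inferInstance, ?_, ?_⟩
  · rw [eq_bot_iff]
    intro y hy
    rw [mem_inf] at hy
    obtain ⟨i, rfl⟩ := exists_pow_of_mem_zpowers hy.2
    obtain ⟨q, rfl⟩ := hmem i hy.1
    rw [mem_bot, pow_mul, hc1, one_pow]
  · rw [Nat.card_zpowers, Nat.card_zpowers, D.ha, D.card_eq]
    congr 1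
    apply Nat.dvd_antisymm
    · exact orderOf_dvd_of_pow_eq_one hc1
    · apply hmem
      rw [pow_orderOf_eq_one]; exact one_mem _

theorem case_two [Finite G] [hp : Fact p.Prime] (hp2 : p ≠ 2) (D : MetaData p a b κ m k n)
    {w : ℕ} (hwk : w < k) (hwm : w < m) (hw : zpowers (b ^ p ^ k) = zpowers (a ^ p ^ w)) :
    ∃ A B : Subgroup G, IsCyclic ↥A ∧ IsCyclic ↥B ∧ A ⊓ B = ⊥ ∧
      Nat.card ↥A * Nat.card ↥B = Nat.card G := by
  have hpos : 0 < p := hp.out.pos
  -- order of `b`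
  have hbk : orderOf (b ^ p ^ k) = p ^ (m - w) := by
    rw [← Nat.card_zpowers, hw, Nat.card_zpowers, orderOf_pow_prime_pow D.ha hwm.le]
  have hb : orderOf b = p ^ k * p ^ (m - w) := by
    have h1 : p ^ k ∣ orderOf b := by
      rw [← D.hb, pow_orderOf_eq_one]; exact one_mem _
    have h2 := orderOf_pow_of_dvd (x := b) (pow_ne_zero k hpos.ne') h1
    rw [hbk] at h2
    rw [h2, Nat.mul_div_cancel' h1]
  set ρ' := (1 + κ) ^ p ^ (k - w) with hρ'
  have hρ1 : ρ' ≡ 1 [MOD p] := D.modEq_pow _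
  set σ := geo ρ' (p ^ w) with hσ
  have hσ1 : p ^ w ∣ σ := (pow_dvd_geo_iff hp2 hρ1 _ _).2 dvd_rfl
  have hσ2 : ¬ p ^ (w + 1) ∣ σ := by
    rw [pow_dvd_geo_iff hp2 hρ1, Nat.pow_dvd_pow_iff_le_right hp.out.one_lt]; omega
  have hz := zpowers_pow_eq_of_val D.ha hσ1 hσ2
  have h1 : (b ^ p ^ k)⁻¹ ∈ zpowers (a ^ σ) := by
    rw [hz, ← hw]; exact Subgroup.inv_mem _ (mem_zpowers _)
  obtain ⟨y, hy⟩ := exists_pow_of_mem_zpowers h1
  set x := a ^ y with hxdef
  have hx : x ∈ zpowers a := Subgroup.pow_mem _ (mem_zpowers a) _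
  have hxσ : x ^ σ = (b ^ p ^ k)⁻¹ := by
    rw [hy, hxdef, ← pow_mul, ← pow_mul, mul_comm]
  set b' := b ^ p ^ (k - w) with hb'
  have hconj : b' * x * b'⁻¹ = x ^ ρ' := conj_b_pow D _ hx
  have hpow : ∀ M : ℕ, (x * b') ^ M = x ^ geo ρ' M * b' ^ M := mul_pow_of_conj hconj
  have hb'w : b' ^ p ^ w = b ^ p ^ k := by
    rw [hb', ← pow_mul, ← pow_add]; congr 2; omega
  have hc1 : (x * b') ^ p ^ w = 1 := by
    rw [hpow, ← hσ, hxσ, hb'w, inv_mul_cancel]
  -- order of `x`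
  have hxo : orderOf x = p ^ m := by
    have h2 : orderOf x ∣ p ^ m := by
      rw [← D.ha, hxdef]; exact orderOf_pow_dvd _
    obtain ⟨f, hf, hfo⟩ := (Nat.dvd_prime_pow hp.out).1 h2
    by_contra hne
    have hfm : f < m := by
      rcases hf.eq_or_lt with rfl | h
      · exact absurd hfo hne
      · exact h
    have h3 : x ^ p ^ (m - 1) = 1 := by
      rw [← orderOf_dvd_iff_pow_eq_one, hfo]; exact pow_dvd_pow p (by omega)
    obtain ⟨q, hq⟩ := hσ1
    have h4 : (x ^ σ) ^ p ^ (m - w - 1) = 1 := by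
      rw [hq, ← pow_mul]
      have : p ^ w * q * p ^ (m - w - 1) = p ^ (m - 1) * q := by
        have : p ^ (m - 1) = p ^ w * p ^ (m - w - 1) := by rw [← pow_add]; congr 1; omega
        rw [this]; ring
      rw [this, pow_mul, h3, one_pow]
    rw [hxσ, ← orderOf_dvd_iff_pow_eq_one, orderOf_inv, hbk,
      Nat.pow_dvd_pow_iff_le_right hp.out.one_lt] at h4
    omega
  have hmem : ∀ i : ℕ, (x * b') ^ i ∈ zpowers b → p ^ w ∣ i := by
    intro i hi
    rw [hpow] at hi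
    have h2 : x ^ geo ρ' i ∈ zpowers b := by
      have := (zpowers b).mul_mem hi ((zpowers b).inv_mem
        ((zpowers b).pow_mem ((zpowers b).pow_mem (mem_zpowers b) (p ^ (k - w))) i))
      simpa [hb'] using this
    obtain ⟨e, he⟩ := exists_pow_of_mem_zpowers h2
    have h3 : b ^ e ∈ zpowers a := he ▸ (zpowers a).pow_mem hx _
    obtain ⟨e', rfl⟩ := (D.hb e).1 h3
    have h4 : (x ^ geo ρ' i) ^ p ^ (m - w) = 1 := by
      rw [he, pow_mul, ← pow_mul, mul_comm, pow_mul, ← hbk, pow_orderOf_eq_one, one_pow]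
    rw [← pow_mul, ← orderOf_dvd_iff_pow_eq_one, hxo] at h4
    have h5 : p ^ m = p ^ w * p ^ (m - w) := by rw [← pow_add]; congr 1; omega
    rw [h5] at h4
    have h6 := Nat.dvd_of_mul_dvd_mul_right (pow_pos hpos _) h4
    rwa [pow_dvd_geo_iff hp2 hρ1] at h6
  refine ⟨zpowers b, zpowers (x * b'), inferInstance, inferInstance, ?_, ?_⟩
  · rw [eq_bot_iff]
    intro y hy
    rw [mem_inf] at hy
    obtain ⟨i, rfl⟩ := exists_pow_of_mem_zpowers hy.2
    obtain ⟨q, rfl⟩ := hmem i hy.1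
    rw [mem_bot, pow_mul, hc1, one_pow]
  · have hco : orderOf (x * b') = p ^ w := by
      apply Nat.dvd_antisymm
      · exact orderOf_dvd_of_pow_eq_one hc1
      · apply hmem
        rw [pow_orderOf_eq_one]; exact one_mem _
    rw [Nat.card_zpowers, Nat.card_zpowers, hb, hco, D.card_eq]
    rw [← pow_add, ← pow_add, ← pow_add]; congr 1; omega

/-- Let p be an odd prime and G a finite metacyclic p-group (G has a cyclic normal subgroup with cyclic quotient). Then G is the product of two cyclic subgroups with trivial intersection: there are cyclic subgroups A and B with A ∩ B = 1 and |A| · |B| = |G|. -/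
theorem result {G : Type*} [Group G] [Finite G] {p : ℕ} [Fact p.Prime] (hp : p ≠ 2) (hG : IsPGroup p G) (hmc : Cfsg.IsMetacyclic G) : ∃ A B : Subgroup G, IsCyclic ↥A ∧ IsCyclic ↥B ∧ A ⊓ B = ⊥ ∧ Nat.card ↥A * Nat.card ↥B = Nat.card G := by
  have hpp : p.Prime := Fact.out
  obtain ⟨a, b, κ, m, k, n, D⟩ := exists_metaData hG hmc
  have h0 : zpowers (b ^ p ^ k) ≤ zpowers a := by
    rw [zpowers_le, D.hb]
  obtain ⟨w, hwm, hw⟩ := exists_eq_zpowers_pow_of_le_zpowers D.ha _ h0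
  by_cases hcase : w < k ∧ w < m
  · exact case_two hp D hcase.1 hcase.2 hw
  · apply case_one D
    by_cases hwk : k ≤ w
    · have hσ1 : p ^ k ∣ geo (1 + κ) (p ^ k) := (pow_dvd_geo_iff hp D.modEq _ _).2 dvd_rfl
      have hσ2 : ¬ p ^ (k + 1) ∣ geo (1 + κ) (p ^ k) := by
        rw [pow_dvd_geo_iff hp D.modEq, Nat.pow_dvd_pow_iff_le_right hpp.one_lt]; omega
      have hz := zpowers_pow_eq_of_val D.ha hσ1 hσ2
      have h1 : (b ^ p ^ k)⁻¹ ∈ zpowers (a ^ geo (1 + κ) (p ^ k)) := by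
        rw [hz]
        have h2 : zpowers (a ^ p ^ w) ≤ zpowers (a ^ p ^ k) := by
          rw [zpowers_le]
          have : p ^ w = p ^ k * p ^ (w - k) := by rw [← pow_add]; congr 1; omega
          rw [this, pow_mul]
          exact Subgroup.pow_mem _ (mem_zpowers _) _
        exact h2 (hw ▸ Subgroup.inv_mem _ (mem_zpowers _))
      obtain ⟨y, hy⟩ := exists_pow_of_mem_zpowers h1
      refine ⟨a ^ y, Subgroup.pow_mem _ (mem_zpowers a) _, ?_⟩
      rw [← pow_mul, mul_comm, pow_mul, ← hy, inv_mul_cancel]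
    · have hwm' : w = m := by omega
      subst hwm'
      have h1 : b ^ p ^ k = 1 := by
        have h2 : b ^ p ^ k ∈ zpowers (a ^ p ^ w) := hw ▸ mem_zpowers _
        rw [← D.ha, pow_orderOf_eq_one, zpowers_one_eq_bot, mem_bot] at h2
        exact h2
      exact ⟨1, one_mem _, by rw [h1]; simp⟩

end Cfsg.Agent.S3884
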