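import Cfsg.Statements.S3885
import Cfsg.Agent.Lib.Helper64.MetaCD

set_option autoImplicit false
open Cfsg

namespace Cfsg.Agent.S3885

open Cfsg.Agent.Lib.Helper64 Subgroup

/-- Let p be an odd prime and G a finite metacyclic p-group (G has a cyclic normal subgroup with cyclic quotient). Then every abelian subgroup K of G containing the center of G is the center of its own centralizer: K = Z(C_G(K)). -/
theorem result {G : Type*} [Group G] [Finite G] {p : ℕ} [Fact p.Prime] (hp : p ≠ 2) (hG : IsPGroup p G) (hmc : Cfsg.IsMetacyclic G) (K : Subgroup G) (hK : IsMulCommutative ↥K) (hZ : Subgroup.center G ≤ K) :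
    K = Subgroup.centralizer (K : Set G) ⊓ Subgroup.centralizer (Subgroup.centralizer (K : Set G) : Set G) := by
  obtain ⟨a, b, κ, m, k, n, D⟩ := exists_metaData hG hmc
  have h1 := D.cdMeasure_eq_of_center_le hp hG hZ
  have h2 := D.cdMeasure_eq_of_center_le hp hG (center_le_centralizer (K : Set G))
  unfold cdMeasure at h1 h2
  rw [← h1, mul_comm] at h2
  have h3 : Nat.card ↥(centralizer (centralizer (K : Set G) : Set G)) = Nat.card ↥K :=
    Nat.eq_of_mul_eq_mul_right Nat.card_pos h2
  have h4 : K ≤ centralizer (centralizer (K : Set G) : Set G) := by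
    rw [← le_centralizer_iff]
  have h5 : K = centralizer (centralizer (K : Set G) : Set G) :=
    Subgroup.eq_of_le_of_card_ge h4 h3.le
  have h6 : K ≤ centralizer (K : Set G) := by
    intro x hx
    rw [mem_centralizer_iff]
    intro y hy
    exact congrArg Subtype.val (hK.is_comm.comm (⟨y, hy⟩ : K) ⟨x, hx⟩)
  rw [← h5]
  exact (inf_eq_right.2 h6).symm

end Cfsg.Agent.S3885
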