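import Cfsg.Statements.S3887
import Cfsg.Agent.Lib.Helper64.MetaCD

set_option autoImplicit false
open Cfsg

namespace Cfsg.Agent.S3887

open Cfsg.Agent.Lib.Helper64

/-- Let p be an odd prime and G a finite metacyclic p-group (G has a cyclic normal subgroup with cyclic quotient). Then a subgroup R of G maximizes |R| · |C_G(R)| over all subgroups of G if and only if R contains the center of G. -/
theorem result {G : Type*} [Group G] [Finite G] {p : ℕ} [Fact p.Prime] (hp : p ≠ 2) (hG : IsPGroup p G) (hmc : Cfsg.IsMetacyclic G) (R : Subgroup G) : Cfsg.IsCentralizerLarge R ↔ Subgroup.center G ≤ R := by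
  obtain ⟨a, b, κ, m, k, n, D⟩ := exists_metaData hG hmc
  have hmax : Cfsg.maxCentralizerProduct G = Nat.card G * Nat.card (Subgroup.center G) := by
    unfold Cfsg.maxCentralizerProduct
    apply IsGreatest.csSup_eq
    constructor
    · exact ⟨⊤, cdMeasure_top⟩
    · rintro _ ⟨R, rfl⟩
      exact D.cdMeasure_le hp hG R
  unfold Cfsg.IsCentralizerLarge
  rw [hmax]
  exact D.cdMeasure_eq_iff hp hG R

end Cfsg.Agent.S3887
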