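import Cfsg.Statements.S3895
import Cfsg.Agent.S0071

set_option autoImplicit false
open Cfsg

namespace Cfsg.Agent.S3895

open Subgroup
open scoped Pointwise

section
variable {G : Type*} [Group G] [Finite G]

omit [Finite G] in
lemma mem_conj_smul_iff (g u : G) (P : Subgroup G) : u ∈ MulAut.conj g • P ↔ g⁻¹ * u * g ∈ P := by
  rw [Subgroup.mem_pointwise_smul_iff_inv_smul_mem]
  simp [MulAut.smul_def]

omit [Finite G] in
lemma orderOf_conj' (g x : G) : orderOf (g * x * g⁻¹) = orderOf x :=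
  MulEquiv.orderOf_eq (MulAut.conj g) x

/-- the type of classes of `2`-elements -/
abbrev K2 (G : Type*) [Group G] := {c : ConjClasses G // ∀ x ∈ c.carrier, ∃ k : ℕ, orderOf x = 2 ^ k}

omit [Finite G] in
lemma mk_mem_K2 {x : G} {k : ℕ} (hx : orderOf x = 2 ^ k) :
    ∀ y ∈ (ConjClasses.mk x).carrier, ∃ k : ℕ, orderOf y = 2 ^ k := by
  intro y hy
  rw [ConjClasses.mem_carrier_iff_mk_eq, ConjClasses.mk_eq_mk_iff_isConj, isConj_iff] at hy
  obtain ⟨c, hc⟩ := hy
  refine ⟨k, ?_⟩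
  rw [← hx, ← hc, orderOf_conj']

/-- the class map from a Sylow 2-subgroup -/
noncomputable def kap (P : Sylow 2 G) (x : ↥(P : Subgroup G)) : K2 G :=
  ⟨ConjClasses.mk (x : G), by
    obtain ⟨k, hk⟩ := (IsPGroup.iff_orderOf.1 P.2) x
    rw [← Subgroup.orderOf_coe] at hk
    exact mk_mem_K2 hk⟩

lemma kap_eq_iff (P : Sylow 2 G) (x y : ↥(P : Subgroup G)) :
    kap P x = kap P y ↔ ∃ g : G, g * x * g⁻¹ = y := by
  unfold kap
  rw [Subtype.mk.injEq, ConjClasses.mk_eq_mk_iff_isConj, isConj_iff]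

lemma kap_surjective (P : Sylow 2 G) : Function.Surjective (kap P) := by
  rintro ⟨c, hc⟩
  obtain ⟨g, rfl⟩ := ConjClasses.mk_surjective c
  obtain ⟨k, hk⟩ := hc g ConjClasses.mem_carrier_mk
  have hz : IsPGroup 2 (zpowers g) := IsPGroup.of_card (n := k) (by rw [Nat.card_zpowers, hk])
  obtain ⟨Q, hQ⟩ := hz.exists_le_sylow
  obtain ⟨h, hh⟩ := MulAction.exists_smul_eq G P Q
  have h1 : h⁻¹ * g * h ∈ (P : Subgroup G) := by
    rw [← mem_conj_smul_iff, ← Sylow.coe_subgroup_smul, hh]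
    exact hQ (mem_zpowers g)
  refine ⟨⟨_, h1⟩, ?_⟩
  unfold kap
  rw [Subtype.mk.injEq, ConjClasses.mk_eq_mk_iff_isConj, isConj_iff]
  exact ⟨h, by group⟩

/-- Part A -/
lemma card_K2_of_complement (P : Sylow 2 G) (N : Subgroup G) [N.Normal]
    (hN : N.IsComplement' (P : Subgroup G)) :
    Nat.card (K2 G) = Nat.card (ConjClasses ↥(P : Subgroup G)) := by
  symm
  have hwd : ∀ a b : ↥(P : Subgroup G), IsConj a b → kap P a = kap P b := by
    intro a b hab
    rw [isConj_iff] at hab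
    obtain ⟨c, hc⟩ := hab
    rw [kap_eq_iff]
    exact ⟨c, congrArg Subtype.val hc⟩
  let f : ConjClasses ↥(P : Subgroup G) → K2 G := Quotient.lift (kap P) hwd
  apply Nat.card_eq_of_bijective f
  constructor
  · intro c c' hcc
    obtain ⟨x, rfl⟩ := ConjClasses.mk_surjective c
    obtain ⟨y, rfl⟩ := ConjClasses.mk_surjective c'
    have h1 : kap P x = kap P y := hcc
    rw [kap_eq_iff] at h1
    obtain ⟨g, hg⟩ := h1
    rw [ConjClasses.mk_eq_mk_iff_isConj, isConj_iff]
    obtain ⟨⟨n, u⟩, hnu⟩ := hN.2 g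
    simp only at hnu
    refine ⟨u, ?_⟩
    apply Subtype.ext
    simp only [Subgroup.coe_mul, InvMemClass.coe_inv]
    set x' : G := u * x * (u : G)⁻¹ with hx'
    have hx'P : x' ∈ (P : Subgroup G) := (P : Subgroup G).mul_mem ((P : Subgroup G).mul_mem u.2 x.2) ((P : Subgroup G).inv_mem u.2)
    have e1 : (y : G) = n * x' * (n : G)⁻¹ := by
      rw [← hg, ← hnu, hx']; group
    have e2 : (y : G) * x'⁻¹ ∈ N := by
      rw [e1]
      have : (n : G) * x' * (n : G)⁻¹ * x'⁻¹ = n * (x' * (n : G)⁻¹ * x'⁻¹) := by group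
      rw [this]
      exact N.mul_mem n.2 (‹N.Normal›.conj_mem _ (N.inv_mem n.2) x')
    have e3 : (y : G) * x'⁻¹ ∈ (P : Subgroup G) := (P : Subgroup G).mul_mem y.2 ((P : Subgroup G).inv_mem hx'P)
    have e4 : (y : G) * x'⁻¹ ∈ N ⊓ (P : Subgroup G) := ⟨e2, e3⟩
    rw [hN.disjoint.eq_bot, mem_bot] at e4
    exact (mul_inv_eq_one.1 e4).symm
  · intro c
    obtain ⟨x, hx⟩ := kap_surjective P c
    exact ⟨ConjClasses.mk x, hx⟩
end

section
variable {G : Type*} [Group G] [Finite G]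

lemma count_fibres {X K : Type*} [Fintype X] [Fintype K] [DecidableEq K] (κ : X → K) (w : X → ℕ)
    (h : ∀ c : K, 6 ≤ ∑ x ∈ Finset.univ.filter (fun x => κ x = c), w x) :
    6 * Fintype.card K ≤ ∑ x, w x := by
  rw [← Finset.sum_fiberwise Finset.univ κ w]
  calc 6 * Fintype.card K = ∑ _c : K, 6 := by simp [mul_comm]
    _ ≤ _ := Finset.sum_le_sum (fun c _ => h c)

omit [Finite G] in
lemma conj_pow_eq (y x c : G) (hc : y * x * y⁻¹ = x * c) (hyc : y * c = c * y) (i : ℕ) :
    y ^ i * x * (y ^ i)⁻¹ = x * c ^ i := by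
  induction i with
  | zero => simp
  | succ i ih =>
    have h1 : y ^ (i + 1) * x * (y ^ (i + 1))⁻¹ = y * (y ^ i * x * (y ^ i)⁻¹) * y⁻¹ := by
      rw [pow_succ']; group
    have hyci : y * c ^ i = c ^ i * y := (Commute.pow_right (show Commute y c from hyc) i)
    rw [h1, ih]
    calc y * (x * c ^ i) * y⁻¹ = (y * x * y⁻¹) * (y * c ^ i) * y⁻¹ := by group
      _ = x * c * (c ^ i * y) * y⁻¹ := by rw [hc, hyci]
      _ = x * c ^ (i + 1) := by rw [pow_succ']; group

/-- the fixed points of an odd order element acting nontrivially on a 2-group have index ≥ 4 -/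
lemma four_mul_card_le (Q : Subgroup G) (hQ : IsPGroup 2 Q) (y : G) (hyN : ∀ x ∈ Q, y * x * y⁻¹ ∈ Q)
    (hyodd : Odd (orderOf y)) (hyC : ∃ x ∈ Q, y * x * y⁻¹ ≠ x) :
    4 * Nat.card ↥(Q ⊓ centralizer {y}) ≤ Nat.card Q := by
  set C := Q ⊓ centralizer {y} with hC
  have hmemC : ∀ x, x ∈ C ↔ x ∈ Q ∧ y * x * y⁻¹ = x := by
    intro x
    rw [hC, mem_inf, mem_centralizer_singleton_iff]
    constructor
    · rintro ⟨h1, h2⟩
      exact ⟨h1, by rw [← h2]; group⟩
    · rintro ⟨h1, h2⟩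
      refine ⟨h1, ?_⟩
      calc x * y = (y * x * y⁻¹) * y := by rw [h2]
        _ = y * x := by group
  have h1 : (C.subgroupOf Q).index * Nat.card C = Nat.card Q := by
    have e1 := (C.subgroupOf Q).index_mul_card
    have e2 : Nat.card (C.subgroupOf Q) = Nat.card C :=
      Nat.card_congr (subgroupOfEquivOfLe inf_le_left).toEquiv
    rw [e2] at e1
    exact e1
  obtain ⟨n, hn⟩ := IsPGroup.iff_card.1 hQ
  have h2 : (C.subgroupOf Q).index ∣ 2 ^ n := hn ▸ (C.subgroupOf Q).index_dvd_card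
  obtain ⟨j, -, hj⟩ := (Nat.dvd_prime_pow Nat.prime_two).1 h2
  obtain ⟨x, hxQ, hxy⟩ := hyC
  have hxC : x ∉ C := fun h => hxy ((hmemC x).1 h).2
  rcases j with _ | _ | j
  · exfalso
    rw [pow_zero, index_eq_one, subgroupOf_eq_top] at hj
    exact hxC (hj hxQ)
  · exfalso
    rw [zero_add, pow_one] at hj
    have hx'Q := hyN x hxQ
    have hx'C : y * x * y⁻¹ ∉ C := by
      intro h
      have := ((hmemC _).1 h).2
      apply hxy
      have e : y⁻¹ * (y * (y * x * y⁻¹) * y⁻¹) * y = y⁻¹ * (y * x * y⁻¹) * y := by rw [this]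
      simpa [mul_assoc] using e
    have hc : x⁻¹ * (y * x * y⁻¹) ∈ C := by
      have := Subgroup.mul_mem_iff_of_index_two hj (a := (⟨x⁻¹, Q.inv_mem hxQ⟩ : Q)) (b := ⟨y * x * y⁻¹, hx'Q⟩)
      have h3 : (⟨x⁻¹, Q.inv_mem hxQ⟩ : Q) * ⟨y * x * y⁻¹, hx'Q⟩ ∈ C.subgroupOf Q := by
        rw [this]
        simp only [mem_subgroupOf]
        constructor
        · intro h; exact absurd (C.inv_mem_iff.1 h) hxC
        · intro h; exact absurd h hx'C
      exact mem_subgroupOf.1 h3
    set c := x⁻¹ * (y * x * y⁻¹) with hcdef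
    have e1 : y * x * y⁻¹ = x * c := by rw [hcdef]; group
    have e2 : y * c = c * y := by
      have := ((hmemC c).1 hc).2
      calc y * c = (y * c * y⁻¹) * y := by group
        _ = c * y := by rw [this]
    have e3 := conj_pow_eq y x c e1 e2 (orderOf y)
    rw [pow_orderOf_eq_one] at e3
    have e4 : c ^ orderOf y = 1 := by simpa using e3.symm
    obtain ⟨k, hk⟩ := (IsPGroup.iff_orderOf.1 hQ) ⟨c, ((hmemC c).1 hc).1⟩
    rw [Subgroup.orderOf_mk] at hk
    have e5 : orderOf c ∣ orderOf y := orderOf_dvd_of_pow_eq_one e4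
    have e6 : (orderOf c).Coprime (orderOf y) := by
      rw [hk]
      exact Nat.Coprime.pow_left _ (Nat.coprime_two_left.2 hyodd)
    have e7 : orderOf c = 1 := Nat.Coprime.eq_one_of_dvd e6 e5
    rw [orderOf_eq_one_iff] at e7
    rw [e7, mul_one] at e1
    exact hxy e1
  · rw [← h1, hj]
    apply Nat.mul_le_mul_right
    calc 4 = 2 ^ 2 := by norm_num
      _ ≤ 2 ^ (j + 1 + 1) := Nat.pow_le_pow_right (by norm_num) (by omega)
end

section
variable {G : Type*} [Group G] [Finite G]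

lemma partB (P : Sylow 2 G) (Q : Subgroup G) (hQP : Q ≤ (P : Subgroup G)) (y : G)
    (hyN : ∀ x ∈ Q, y * x * y⁻¹ ∈ Q) (hyodd : Odd (orderOf y)) (hyC : ∃ x ∈ Q, y * x * y⁻¹ ≠ x)
    (hcent : ∀ z ∈ (P : Subgroup G), (∀ x ∈ Q, z * x = x * z) → z ∈ Q) :
    2 * Nat.card (K2 G) ≤ Nat.card (P : Subgroup G) := by
  classical
  have hQ2 : IsPGroup 2 Q := P.2.to_le hQP
  have h4 := four_mul_card_le Q hQ2 y hyN hyodd hyC
  set C := Q ⊓ centralizer {y} with hC
  have hmemC : ∀ x, x ∈ C ↔ x ∈ Q ∧ y * x * y⁻¹ = x := by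
    intro x
    rw [hC, mem_inf, mem_centralizer_singleton_iff]
    constructor
    · rintro ⟨h1, h2⟩
      exact ⟨h1, by rw [← h2]; group⟩
    · rintro ⟨h1, h2⟩
      refine ⟨h1, ?_⟩
      calc x * y = (y * x * y⁻¹) * y := by rw [h2]
        _ = y * x := by group
  letI : Fintype ↥(P : Subgroup G) := Fintype.ofFinite _
  letI : Fintype (K2 G) := Fintype.ofFinite _
  let w : ↥(P : Subgroup G) → ℕ := fun x => if (x : G) ∈ Q then (if (x : G) ∈ C then 6 else 2) else 3
  have hfib : ∀ c : K2 G, 6 ≤ ∑ x ∈ Finset.univ.filter (fun x => kap P x = c), w x := by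
    intro c
    obtain ⟨x₀, hx₀⟩ := kap_surjective P c
    by_cases h1 : ∃ x, kap P x = c ∧ (x : G) ∈ C
    · obtain ⟨x, hx, hxC⟩ := h1
      have hw : w x = 6 := by
        simp only [w]
        rw [if_pos ((hmemC _).1 hxC).1, if_pos hxC]
      rw [← hw]
      exact Finset.single_le_sum (f := w) (fun _ _ => Nat.zero_le _) (Finset.mem_filter.2 ⟨Finset.mem_univ _, hx⟩)
    push Not at h1
    by_cases h2 : ∃ x, kap P x = c ∧ (x : G) ∈ Q
    · obtain ⟨x, hx, hxQ⟩ := h2
      have hx1Q := hyN _ hxQ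
      have hx2Q := hyN _ hx1Q
      let x₁ : ↥(P : Subgroup G) := ⟨y * x * y⁻¹, hQP hx1Q⟩
      let x₂ : ↥(P : Subgroup G) := ⟨y * (y * x * y⁻¹) * y⁻¹, hQP hx2Q⟩
      have k1 : kap P x₁ = c := by
        rw [← hx, eq_comm, kap_eq_iff]; exact ⟨y, rfl⟩
      have k2 : kap P x₂ = c := by
        rw [← k1, eq_comm, kap_eq_iff]; exact ⟨y, rfl⟩
      have hxC := h1 x hx
      have n01 : x ≠ x₁ := by
        intro e
        apply hxC
        rw [hmemC]
        exact ⟨hxQ, (congrArg Subtype.val e).symm⟩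
      have n12 : x₁ ≠ x₂ := by
        intro e
        apply h1 x₁ k1
        rw [hmemC]
        exact ⟨hx1Q, (congrArg Subtype.val e).symm⟩
      have n02 : x ≠ x₂ := by
        intro e
        have e' : (x : G) = y * (y * x * y⁻¹) * y⁻¹ := congrArg Subtype.val e
        have hc2 : Commute (y ^ 2) (x : G) := by
          show y ^ 2 * x = x * y ^ 2
          calc y ^ 2 * x = (y * (y * x * y⁻¹) * y⁻¹) * y ^ 2 := by simp [sq, mul_assoc]
            _ = x * y ^ 2 := by rw [← e']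
        obtain ⟨m, hm⟩ := exists_pow_eq_self_of_coprime (x := y) (n := 2) (Nat.coprime_two_left.2 hyodd)
        have hc1 : Commute y (x : G) := hm ▸ hc2.pow_left m
        apply hxC
        rw [hmemC]
        refine ⟨hxQ, ?_⟩
        rw [hc1.eq]; group
      have hw0 : w x = 2 := by
        simp only [w]; rw [if_pos hxQ, if_neg hxC]
      have hw1 : w x₁ = 2 := by
        simp only [w]; rw [if_pos hx1Q, if_neg (h1 x₁ k1)]
      have hw2 : w x₂ = 2 := by
        simp only [w]; rw [if_pos hx2Q, if_neg (h1 x₂ k2)]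
      have hsub : ({x, x₁, x₂} : Finset ↥(P : Subgroup G)) ⊆ Finset.univ.filter (fun x => kap P x = c) := by
        intro t ht
        simp only [Finset.mem_insert, Finset.mem_singleton] at ht
        rcases ht with rfl | rfl | rfl
        · exact Finset.mem_filter.2 ⟨Finset.mem_univ _, hx⟩
        · exact Finset.mem_filter.2 ⟨Finset.mem_univ _, k1⟩
        · exact Finset.mem_filter.2 ⟨Finset.mem_univ _, k2⟩
      calc 6 = 2 + (2 + 2) := by norm_num
        _ = ∑ t ∈ ({x, x₁, x₂} : Finset ↥(P : Subgroup G)), w t := by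
            rw [Finset.sum_insert (by simp [n01, n02]), Finset.sum_insert (by simp [n12]),
              Finset.sum_singleton, hw0, hw1, hw2]
        _ ≤ _ := Finset.sum_le_sum_of_subset hsub
    push Not at h2
    have hx₀Q := h2 x₀ hx₀
    obtain ⟨u, hu, hux⟩ : ∃ u ∈ (P : Subgroup G), u * x₀ * u⁻¹ ≠ x₀ := by
      by_contra hcon
      push Not at hcon
      apply hx₀Q
      apply hcent _ x₀.2
      intro x hx
      have := hcon x (hQP hx)
      calc (x₀ : G) * x = (x * x₀ * x⁻¹) * x := by rw [this]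
        _ = x * x₀ := by group
    let x₁ : ↥(P : Subgroup G) := ⟨u * x₀ * u⁻¹, (P : Subgroup G).mul_mem ((P : Subgroup G).mul_mem hu x₀.2) ((P : Subgroup G).inv_mem hu)⟩
    have k1 : kap P x₁ = c := by
      rw [← hx₀, eq_comm, kap_eq_iff]; exact ⟨u, rfl⟩
    have n01 : x₀ ≠ x₁ := fun e => hux (congrArg Subtype.val e).symm
    have hw0 : w x₀ = 3 := by
      simp only [w]; rw [if_neg hx₀Q]
    have hw1 : w x₁ = 3 := by
      simp only [w]; rw [if_neg (h2 x₁ k1)]
    have hsub : ({x₀, x₁} : Finset ↥(P : Subgroup G)) ⊆ Finset.univ.filter (fun x => kap P x = c) := by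
      intro t ht
      simp only [Finset.mem_insert, Finset.mem_singleton] at ht
      rcases ht with rfl | rfl
      · exact Finset.mem_filter.2 ⟨Finset.mem_univ _, hx₀⟩
      · exact Finset.mem_filter.2 ⟨Finset.mem_univ _, k1⟩
    calc 6 = ∑ t ∈ ({x₀, x₁} : Finset ↥(P : Subgroup G)), w t := by
          rw [Finset.sum_pair n01, hw0, hw1]
      _ ≤ _ := Finset.sum_le_sum_of_subset hsub
  have hcount := count_fibres (kap P) w hfib
  have hsum : (∑ x, w x) + Nat.card Q = 3 * Nat.card (P : Subgroup G) + 4 * Nat.card C := by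
    have hpt : ∀ x : ↥(P : Subgroup G), w x + (if x ∈ Q.subgroupOf (P : Subgroup G) then 1 else 0) =
        3 + 4 * (if x ∈ C.subgroupOf (P : Subgroup G) then 1 else 0) := by
      intro x
      simp only [w, mem_subgroupOf]
      by_cases hq : (x : G) ∈ Q
      · by_cases hc : (x : G) ∈ C
        · simp [hq, hc]
        · simp [hq, hc]
      · have hc : (x : G) ∉ C := fun h => hq ((hmemC _).1 h).1
        simp [hq, hc]
    have e1 : ∑ x : ↥(P : Subgroup G), (if x ∈ Q.subgroupOf (P : Subgroup G) then 1 else 0) = Nat.card Q := by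
      rw [Finset.sum_boole, Nat.cast_id, ← Nat.card_congr (subgroupOfEquivOfLe hQP).toEquiv,
        Nat.card_eq_fintype_card, Fintype.card_subtype]
    have e2 : ∑ x : ↥(P : Subgroup G), (if x ∈ C.subgroupOf (P : Subgroup G) then 1 else 0) = Nat.card C := by
      rw [Finset.sum_boole, Nat.cast_id, ← Nat.card_congr (subgroupOfEquivOfLe (inf_le_left.trans hQP)).toEquiv,
        Nat.card_eq_fintype_card, Fintype.card_subtype]
    have e3 := Finset.sum_congr (s₁ := (Finset.univ : Finset ↥(P : Subgroup G))) rfl (fun x _ => hpt x)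
    rw [Finset.sum_add_distrib, Finset.sum_add_distrib, ← Finset.mul_sum, e1, e2] at e3
    rw [e3]
    simp [Nat.card_eq_fintype_card, mul_comm]
  rw [Nat.card_eq_fintype_card (α := K2 G)]
  omega
end

section
variable {G : Type*} [Group G] [Finite G]

omit [Finite G] in
lemma conj_mem_centralizer (Q : Subgroup G) {y d : G} (hy : y ∈ normalizer (Q : Set G))
    (hd : d ∈ centralizer (Q : Set G)) : y * d * y⁻¹ ∈ centralizer (Q : Set G) := by
  have := (Subgroup.normal_subgroupOf_iff (centralizer_le_normalizer (Q : Set G))).1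
    (normal_subgroupOf_centralizer_normalizer (Q : Set G)) d y hd hy
  exact this

/-- Sylow conjugacy inside a subgroup, for a Sylow subgroup moved by a normalizing element. -/
lemma frattini_aux (C : Subgroup G) (R : Sylow 2 ↥C) (y : G) (hy : ∀ d ∈ C, y * d * y⁻¹ ∈ C) :
    ∃ c ∈ C, c⁻¹ * y ∈ normalizer (((R : Subgroup ↥C).map C.subtype : Subgroup G) : Set G) := by
  set R' : Subgroup G := (R : Subgroup ↥C).map C.subtype with hR'
  have hR'C : R' ≤ C := by
    rw [hR']; exact map_subtype_le _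
  have hle : MulAut.conj y • R' ≤ C := by
    intro u hu
    rw [mem_conj_smul_iff] at hu
    have := hy _ (hR'C hu)
    have e : y * (y⁻¹ * u * y) * y⁻¹ = u := by group
    rwa [e] at this
  have hcard : Nat.card ((MulAut.conj y • R').subgroupOf C) = Nat.card (R : Subgroup ↥C) := by
    rw [Nat.card_congr (subgroupOfEquivOfLe hle).toEquiv,
      ← Nat.card_congr (Subgroup.equivSMul (MulAut.conj y) R').toEquiv, hR']
    exact Nat.card_congr ((R : Subgroup ↥C).equivMapOfInjective C.subtype C.subtype_injective).symm.toEquiv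
  let R₂ : Sylow 2 ↥C := Sylow.ofCard ((MulAut.conj y • R').subgroupOf C) (by rw [hcard, R.card_eq_multiplicity])
  obtain ⟨c, hc⟩ := MulAction.exists_smul_eq ↥C R R₂
  refine ⟨c, c.2, ?_⟩
  have hc' : MulAut.conj c • (R : Subgroup ↥C) = (MulAut.conj y • R').subgroupOf C := by
    rw [← Sylow.coe_subgroup_smul, hc]; rfl
  have key : ∀ u : G, u ∈ R' → (c : G)⁻¹ * y * u * ((c : G)⁻¹ * y)⁻¹ ∈ R' := by
    intro u hu
    have h1 : y * u * y⁻¹ ∈ MulAut.conj y • R' := by
      rw [mem_conj_smul_iff]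
      have e : y⁻¹ * (y * u * y⁻¹) * y = u := by group
      rwa [e]
    have h2 : (⟨y * u * y⁻¹, hle h1⟩ : ↥C) ∈ (MulAut.conj y • R').subgroupOf C := by
      rw [mem_subgroupOf]; exact h1
    rw [← hc', mem_conj_smul_iff] at h2
    rw [hR', mem_map]
    refine ⟨_, h2, ?_⟩
    simp only [Subgroup.coe_subtype, Subgroup.coe_mul, InvMemClass.coe_inv]
    group
  rw [mem_normalizer_iff_map_conj_eq]
  apply Subgroup.eq_of_le_of_card_ge
  · rintro _ ⟨u, hu, rfl⟩
    exact key u hu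
  · apply le_of_eq
    exact Nat.card_congr (R'.equivMapOfInjective _ (MulAut.conj ((c : G)⁻¹ * y)).injective).toEquiv

/-- the bad configuration -/
def Bad (Q : Subgroup G) : Prop :=
  IsPGroup 2 Q ∧ ∃ y ∈ normalizer (Q : Set G), Odd (orderOf y) ∧ y ∉ centralizer (Q : Set G)

lemma exists_odd_pow (y : G) : ∃ e : ℕ, Odd (orderOf (y ^ 2 ^ e)) := by
  obtain ⟨k, m, hm, hkm⟩ := Nat.exists_eq_two_pow_mul_odd (orderOf_pos y).ne'
  refine ⟨k, ?_⟩
  rw [orderOf_pow_of_dvd (by positivity) ⟨m, hkm⟩, hkm, Nat.mul_div_cancel_left _ (by positivity)]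
  exact hm

lemma sylow_centralizer_le (Q : Subgroup G) (hQ : Bad Q) (hmax : ∀ T : Subgroup G, Bad T → Nat.card T ≤ Nat.card Q)
    (C : Subgroup G) (hC : C = centralizer (Q : Set G)) (R : Sylow 2 ↥C) :
    (R : Subgroup ↥C).map C.subtype ≤ Q := by
  obtain ⟨hQ2, y, hyN, hyodd, hyC⟩ := hQ
  rw [← hC] at hyC
  have hCN : C ≤ normalizer (Q : Set G) := hC ▸ centralizer_le_normalizer _
  have hconj : ∀ d ∈ C, y * d * y⁻¹ ∈ C := by
    intro d hd
    rw [hC] at hd ⊢
    exact conj_mem_centralizer Q hyN hd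
  set R' : Subgroup G := (R : Subgroup ↥C).map C.subtype with hR'
  have hR'C : R' ≤ C := by
    rw [hR']; exact map_subtype_le _
  obtain ⟨c, hcC, hcy⟩ := frattini_aux C R y hconj
  rw [← hR'] at hcy
  set y' := c⁻¹ * y with hy'
  have hy'N : y' ∈ normalizer (Q : Set G) :=
    mul_mem (inv_mem (hCN hcC)) hyN
  obtain ⟨e, he⟩ := exists_odd_pow y'
  have hpow : ∀ i : ℕ, ∃ d ∈ C, y' ^ i = d * y ^ i := by
    intro i
    induction i with
    | zero => exact ⟨1, one_mem _, by simp⟩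
    | succ i ih =>
      obtain ⟨d, hd, hdi⟩ := ih
      refine ⟨c⁻¹ * (y * d * y⁻¹), mul_mem (inv_mem hcC) (hconj d hd), ?_⟩
      rw [pow_succ', hdi, hy', pow_succ']
      group
  have hR2 : IsPGroup 2 R' := by
    rw [hR']
    exact R.2.map _
  have hT : Bad (Q ⊔ R') := by
    refine ⟨hQ2.to_sup_of_normal_left' hR2 (hR'C.trans hCN), y' ^ 2 ^ e, ?_, he, ?_⟩
    · exact normalizer_inf_normalizer_le_normalizer_sup Q R' ⟨pow_mem hy'N _, pow_mem hcy _⟩
    · intro hcon
      have h1 : y' ^ 2 ^ e ∈ C := hC ▸ centralizer_le (by exact_mod_cast (le_sup_left : Q ≤ Q ⊔ R')) hcon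
      obtain ⟨d, hd, hde⟩ := hpow (2 ^ e)
      have h2 : y ^ 2 ^ e ∈ C := by
        have : y ^ 2 ^ e = d⁻¹ * y' ^ 2 ^ e := by rw [hde]; group
        rw [this]
        exact mul_mem (inv_mem hd) h1
      obtain ⟨m, hm⟩ := exists_pow_eq_self_of_coprime (x := y) (n := 2 ^ e)
        (Nat.Coprime.pow_left _ (Nat.coprime_two_left.2 hyodd))
      apply hyC
      rw [← hm]
      exact pow_mem h2 m
  have h3 := hmax _ hT
  have h4 : Q = Q ⊔ R' := Subgroup.eq_of_le_of_card_ge le_sup_left h3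
  have h5 : R' ≤ Q := by
    intro u hu
    have : u ∈ Q ⊔ R' := (le_sup_right : R' ≤ Q ⊔ R') hu
    rwa [← h4] at this
  exact h5

lemma exists_good (hno : ¬ Cfsg.HasNormalPComplement 2 G) :
    ∃ (P : Sylow 2 G) (Q : Subgroup G) (y : G), Q ≤ (P : Subgroup G) ∧ (∀ x ∈ Q, y * x * y⁻¹ ∈ Q) ∧
      Odd (orderOf y) ∧ (∃ x ∈ Q, y * x * y⁻¹ ≠ x) ∧
      (∀ z ∈ (P : Subgroup G), (∀ x ∈ Q, z * x = x * z) → z ∈ Q) := by
  have hex : ∃ Q : Subgroup G, Bad Q := by
    by_contra hcon
    push Not at hcon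
    apply hno
    let P₀ : Sylow 2 G := default
    obtain ⟨N, hN⟩ := (Cfsg.Agent.S0071.result P₀).2 (by
      intro Q hQ g hg hco
      by_contra hgC
      exact hcon Q ⟨P₀.2.to_le hQ, g, hg, Nat.coprime_two_right.1 hco, hgC⟩)
    exact ⟨P₀, N, hN⟩
  obtain ⟨Q₀, hQ₀⟩ := hex
  haveI : Nonempty {Q : Subgroup G // Bad Q} := ⟨⟨Q₀, hQ₀⟩⟩
  obtain ⟨⟨Q, hQ⟩, hmax⟩ := Finite.exists_max (fun Q : {Q : Subgroup G // Bad Q} => Nat.card (Q : Subgroup G))
  have hmax' : ∀ T : Subgroup G, Bad T → Nat.card T ≤ Nat.card Q := fun T hT => hmax ⟨T, hT⟩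
  obtain ⟨P, hQP⟩ := hQ.1.exists_le_sylow
  set C := centralizer (Q : Set G) with hC
  have hD : IsPGroup 2 (((P : Subgroup G) ⊓ C).subgroupOf C) := by
    exact (P.2.to_le inf_le_left).comap_subtype
  obtain ⟨R, hR⟩ := hD.exists_le_sylow
  have hRQ := sylow_centralizer_le Q hQ hmax' C hC R
  obtain ⟨hQ2, y, hyN, hyodd, hyC⟩ := hQ
  refine ⟨P, Q, y, hQP, fun x hx => (mem_normalizer_iff.1 hyN x).1 hx, hyodd, ?_, ?_⟩
  · by_contra hcon
    push Not at hcon
    apply hyC
    rw [mem_centralizer_iff]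
    intro x hx
    have := hcon x hx
    calc x * y = (y * x * y⁻¹) * y := by rw [this]
      _ = y * x := by group
  · intro z hzP hz
    have hzC : z ∈ C := by
      rw [hC, mem_centralizer_iff]
      intro x hx
      exact (hz x hx).symm
    apply hRQ
    rw [mem_map]
    refine ⟨⟨z, hzC⟩, hR ?_, rfl⟩
    rw [mem_subgroupOf]
    exact ⟨hzP, hzC⟩

end

theorem result {G : Type*} [Group G] [Finite G] (P : Sylow 2 G) :
    Nat.card ↥(P : Subgroup G) < 2 * Nat.card {c : ConjClasses G // ∀ x ∈ c.carrier, ∃ k : ℕ, orderOf x = 2 ^ k} ↔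
      Cfsg.HasNormalPComplement 2 G ∧ Nat.card ↥(P : Subgroup G) < 2 * Nat.card (ConjClasses ↥(P : Subgroup G)) := by
  have hA : Cfsg.HasNormalPComplement 2 G → Nat.card (K2 G) = Nat.card (ConjClasses ↥(P : Subgroup G)) := by
    rintro ⟨P₁, N, hN, hNP⟩
    have hNP' : N.IsComplement' (P : Subgroup G) := by
      apply isComplement'_of_coprime
      · rw [← hNP.card_mul_card, P.card_eq_multiplicity, P₁.card_eq_multiplicity]
      · have h1 := hNP.card_mul_card
        have h2 : Nat.card N = (P₁ : Subgroup G).index := by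
          have := hNP.index_eq_card
          exact this.symm
        rw [h2, P.card_eq_multiplicity, ← P₁.card_eq_multiplicity]
        exact (P₁.card_coprime_index).symm
    exact card_K2_of_complement P N hNP'
  constructor
  · intro h
    have hc : Cfsg.HasNormalPComplement 2 G := by
      by_contra hno
      obtain ⟨P', Q, y, h1, h2, h3, h4, h5⟩ := exists_good hno
      have := partB P' Q h1 y h2 h3 h4 h5
      rw [P'.card_eq_multiplicity, ← P.card_eq_multiplicity] at this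
      change _ < 2 * Nat.card (K2 G) at h
      omega
    refine ⟨hc, ?_⟩
    rw [← hA hc]
    exact h
  · rintro ⟨hc, h⟩
    rw [← hA hc] at h
    exact h

end Cfsg.Agent.S3895
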