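import Cfsg.Statements.S3897

set_option autoImplicit false
open Cfsg

namespace Cfsg.Agent.S3897

open scoped Pointwise

/-- the type of classes of `p`-elements -/
abbrev PCl (p : ℕ) (G : Type*) [Group G] :=
  {c : ConjClasses G // ∀ x ∈ c.carrier, ∃ k : ℕ, orderOf x = p ^ k}

theorem exists_rep {G : Type*} [Group G] [Finite G] {p : ℕ} [Fact p.Prime] (P : Sylow p G)
    (c : PCl p G) : ∃ x : G, x ∈ (P : Subgroup G) ∧ ConjClasses.mk x = c.1 := by
  obtain ⟨g, hg⟩ := ConjClasses.exists_rep c.1
  have hg' : g ∈ c.1.carrier := ConjClasses.mem_carrier_iff_mk_eq.mpr hg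
  obtain ⟨k, hk⟩ := c.2 g hg'
  have hpg : IsPGroup p (Subgroup.zpowers g) := by
    apply IsPGroup.of_card (n := k)
    rw [Nat.card_zpowers, hk]
  obtain ⟨Q, hQ⟩ := hpg.exists_le_sylow
  obtain ⟨h, rfl⟩ := MulAction.exists_smul_eq G Q P
  refine ⟨h * g * h⁻¹, ?_, ?_⟩
  · rw [Sylow.coe_subgroup_smul]
    have h1 : g ∈ (Q : Subgroup G) := hQ (Subgroup.mem_zpowers g)
    have h2 := Subgroup.smul_mem_pointwise_smul g (MulAut.conj h) (Q : Subgroup G) h1
    simpa [MulAut.smul_def] using h2
  · rw [← hg]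
    exact ConjClasses.mk_eq_mk_iff_isConj.mpr (isConj_iff.mpr ⟨h⁻¹, by group⟩)

theorem key {G : Type*} [Group G] [Finite G] {p : ℕ} [hp : Fact p.Prime] (P : Sylow p G)
    (hne : ¬ Subgroup.normalizer ((P : Subgroup G) : Set G) ≤
      Subgroup.centralizer ((P : Subgroup G) : Set G)) :
    2 * p * Nat.card (PCl p G) ≤ (p + 1) * Nat.card ↥(P : Subgroup G) := by
  classical
  choose r hrP hrc using exists_rep P
  set N := Subgroup.normalizer ((P : Subgroup G) : Set G) with hN
  set F : Subgroup G := (P : Subgroup G) ⊓ Subgroup.centralizer (N : Set G) with hF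
  have hFP : F ≤ (P : Subgroup G) := inf_le_left
  have hPF : ¬ (P : Subgroup G) ≤ F := by
    intro hle
    apply hne
    intro n hn
    rw [Subgroup.mem_centralizer_iff]
    intro y hy
    have h1 : y ∈ Subgroup.centralizer (N : Set G) := (hle hy).2
    rw [Subgroup.mem_centralizer_iff] at h1
    exact (h1 n hn).symm
  have hFcard : p * Nat.card F ≤ Nat.card ↥(P : Subgroup G) := by
    have h1 : F.relIndex (P : Subgroup G) * Nat.card F = Nat.card ↥(P : Subgroup G) := by
      have := Subgroup.relIndex_mul_relIndex ⊥ F (P : Subgroup G) bot_le hFP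
      rw [Subgroup.relIndex_bot_left, Subgroup.relIndex_bot_left] at this
      rw [mul_comm]; exact this
    have h2 : F.relIndex (P : Subgroup G) ≠ 1 := by
      rw [Ne, Subgroup.relIndex_eq_one]; exact hPF
    obtain ⟨n, hn⟩ := P.2.exists_card_eq
    have h3 : F.relIndex (P : Subgroup G) ∣ p ^ n := hn ▸ Dvd.intro _ h1
    obtain ⟨j, -, hj⟩ := (Nat.dvd_prime_pow hp.out).mp h3
    have h4 : p ≤ F.relIndex (P : Subgroup G) := by
      rw [hj]
      rcases j with _ | j
      · exact absurd (by simpa using hj) h2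
      · rw [pow_succ]
        exact Nat.le_mul_of_pos_left _ (pow_pos hp.out.pos _)
    calc p * Nat.card F ≤ F.relIndex (P : Subgroup G) * Nat.card F := Nat.mul_le_mul_right _ h4
      _ = _ := h1
  have hex : ∀ c : {c : PCl p G // r c ∉ F}, ∃ n ∈ N, n * r c.1 * n⁻¹ ≠ r c.1 := by
    intro c
    by_contra hcon
    push Not at hcon
    apply c.2
    refine ⟨hrP c.1, ?_⟩
    change r c.1 ∈ Subgroup.centralizer (N : Set G)
    rw [Subgroup.mem_centralizer_iff]
    intro n hn
    have := hcon n hn
    calc n * r c.1 = n * r c.1 * n⁻¹ * n := by group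
      _ = r c.1 * n := by rw [this]
  choose m hmN hm using hex
  have hsP : ∀ c : {c : PCl p G // r c ∉ F}, m c * r c.1 * (m c)⁻¹ ∈ (P : Subgroup G) := by
    intro c
    exact (Subgroup.mem_normalizer_iff.mp (hmN c) (r c.1)).mp (hrP c.1)
  have hsc : ∀ c : {c : PCl p G // r c ∉ F}, ConjClasses.mk (m c * r c.1 * (m c)⁻¹) = c.1.1 := by
    intro c
    rw [← hrc c.1]
    exact ConjClasses.mk_eq_mk_iff_isConj.mpr (isConj_iff.mpr ⟨(m c)⁻¹, by group⟩)
  let φ : PCl p G ⊕ {c : PCl p G // r c ∉ F} → ↥(P : Subgroup G) := fun x =>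
    match x with
    | Sum.inl c => ⟨r c, hrP c⟩
    | Sum.inr c => ⟨m c * r c.1 * (m c)⁻¹, hsP c⟩
  have hφ : Function.Injective φ := by
    rintro (c | c) (d | d) h
    · have h' : r c = r d := congrArg Subtype.val h
      have : c.1 = d.1 := by rw [← hrc c, ← hrc d, h']
      rw [Subtype.ext this]
    · exfalso
      have h' : r c = m d * r d.1 * (m d)⁻¹ := congrArg Subtype.val h
      have : c.1 = d.1.1 := by rw [← hrc c, ← hsc d, h']
      have e : c = d.1 := Subtype.ext this
      rw [e] at h'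
      exact hm d h'.symm
    · exfalso
      have h' : m c * r c.1 * (m c)⁻¹ = r d := congrArg Subtype.val h
      have : c.1.1 = d.1 := by rw [← hrc d, ← hsc c, h']
      have e : c.1 = d := Subtype.ext this
      rw [← e] at h'
      exact hm c h'
    · have h' : m c * r c.1 * (m c)⁻¹ = m d * r d.1 * (m d)⁻¹ := congrArg Subtype.val h
      have : c.1.1 = d.1.1 := by rw [← hsc d, ← hsc c, h']
      have e : c = d := Subtype.ext (Subtype.ext this)
      rw [e]
  have h1 : Nat.card (PCl p G) + Nat.card {c : PCl p G // r c ∉ F} ≤ Nat.card ↥(P : Subgroup G) := by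
    rw [← Nat.card_sum]
    exact Nat.card_le_card_of_injective φ hφ
  let ψ : {c : PCl p G // r c ∈ F} → ↥F := fun c => ⟨r c.1, c.2⟩
  have hψ : Function.Injective ψ := by
    intro c d h
    have h' : r c.1 = r d.1 := congrArg Subtype.val h
    have : c.1.1 = d.1.1 := by rw [← hrc c.1, ← hrc d.1, h']
    exact Subtype.ext (Subtype.ext this)
  have h2 : Nat.card {c : PCl p G // r c ∈ F} ≤ Nat.card F := Nat.card_le_card_of_injective ψ hψ
  have h3 : Nat.card (PCl p G) =
      Nat.card {c : PCl p G // r c ∈ F} + Nat.card {c : PCl p G // r c ∉ F} := by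
    rw [← Nat.card_sum]
    exact (Nat.card_congr (Equiv.sumCompl (fun c : PCl p G => r c ∈ F))).symm
  have h4 : 2 * Nat.card (PCl p G) ≤ Nat.card ↥(P : Subgroup G) + Nat.card F := by omega
  calc 2 * p * Nat.card (PCl p G) = p * (2 * Nat.card (PCl p G)) := by ring
    _ ≤ p * (Nat.card ↥(P : Subgroup G) + Nat.card F) := Nat.mul_le_mul_left _ h4
    _ = p * Nat.card ↥(P : Subgroup G) + p * Nat.card F := by ring
    _ ≤ p * Nat.card ↥(P : Subgroup G) + Nat.card ↥(P : Subgroup G) := by omega
    _ = _ := by ring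

/-- Let p be an odd prime and G a finite group with Sylow p-subgroup P, and write k_p(G) for the number of conjugacy classes of G consisting of p-elements (elements of p-power order, the identity included). Then k_p(G) > (p + 1)|P|/(2p) if and only if G has a normal p-complement and P is abelian. -/
theorem result {G : Type*} [Group G] [Finite G] {p : ℕ} [Fact p.Prime] (hp : p ≠ 2) (P : Sylow p G) :
    (p + 1) * Nat.card ↥(P : Subgroup G) < 2 * p * Nat.card {c : ConjClasses G // ∀ x ∈ c.carrier, ∃ k : ℕ, orderOf x = p ^ k} ↔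
      Cfsg.HasNormalPComplement p G ∧ IsMulCommutative ↥(P : Subgroup G) := by
  have hpp : p.Prime := Fact.out
  constructor
  · intro h
    have hNC : Subgroup.normalizer ((P : Subgroup G) : Set G) ≤
        Subgroup.centralizer ((P : Subgroup G) : Set G) := by
      by_contra hne
      exact absurd (key P hne) (not_le.mpr h)
    refine ⟨⟨P, _, inferInstance, MonoidHom.ker_transferSylow_isComplement' P hNC⟩, ?_⟩
    exact ⟨⟨fun a b => Subtype.ext (hNC (Subgroup.le_normalizer b.2) a a.2)⟩⟩
  · rintro ⟨⟨P', N, hN, hc⟩, hab⟩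
    have hcardP : Nat.card ↥(P : Subgroup G) = Nat.card ↥(P' : Subgroup G) := by
      rw [Sylow.card_eq_multiplicity, Sylow.card_eq_multiplicity]
    have hc' : N.IsComplement' (P : Subgroup G) := by
      apply Subgroup.isComplement'_of_coprime
      · rw [hcardP]; exact hc.card_mul_card
      · rw [← hc.index_eq_card]
        obtain ⟨n, hn⟩ := P.2.exists_card_eq
        rw [hn]
        exact Nat.Coprime.pow_right _ ((Nat.Prime.coprime_iff_not_dvd hpp).mpr P'.not_dvd_index).symm
    have hinj : ∀ x ∈ (P : Subgroup G), ∀ y ∈ (P : Subgroup G), IsConj x y → x = y := by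
      intro x hx y hy hxy
      obtain ⟨g, hg⟩ := isConj_iff.mp hxy
      obtain ⟨⟨⟨n, hn⟩, ⟨u, hu⟩⟩, hnu⟩ := hc'.2 g
      simp only at hnu
      have hux : u * x * u⁻¹ = x := by
        have : u * x = x * u := congrArg Subtype.val (mul_comm' (⟨u, hu⟩ : ↥(P : Subgroup G)) ⟨x, hx⟩)
        rw [this]; group
      have hy' : y = n * x * n⁻¹ := by
        rw [← hg, ← hnu]
        calc n * u * x * (n * u)⁻¹ = n * (u * x * u⁻¹) * n⁻¹ := by group
          _ = _ := by rw [hux]
      have h1 : y * x⁻¹ ∈ N := by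
        rw [hy']
        have : n * x * n⁻¹ * x⁻¹ = n * (x * n⁻¹ * x⁻¹) := by group
        rw [this]
        exact N.mul_mem hn (hN.conj_mem _ (N.inv_mem hn) x)
      have h2 : y * x⁻¹ ∈ (P : Subgroup G) := Subgroup.mul_mem _ hy (Subgroup.inv_mem _ hx)
      have h3 : y * x⁻¹ = 1 := by
        have := hc'.disjoint.le_bot ⟨h1, h2⟩
        simpa using this
      exact (mul_inv_eq_one.mp h3).symm
    let f : ↥(P : Subgroup G) → {c : ConjClasses G // ∀ x ∈ c.carrier, ∃ k : ℕ, orderOf x = p ^ k} :=
      fun x => ⟨ConjClasses.mk x.1, by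
        intro y hy
        rw [ConjClasses.mem_carrier_iff_mk_eq, ConjClasses.mk_eq_mk_iff_isConj] at hy
        obtain ⟨g, hg⟩ := isConj_iff.mp hy
        obtain ⟨k, hk⟩ := (IsPGroup.iff_orderOf.mp P.2) x
        refine ⟨k, ?_⟩
        have : orderOf y = orderOf x.1 := by
          rw [← hg]
          exact (orderOf_injective (MulAut.conj g).toMonoidHom (MulAut.conj g).injective y).symm
        rw [this, ← hk, Subgroup.orderOf_coe]⟩
    have hf : Function.Injective f := by
      intro x y h
      have h' : ConjClasses.mk x.1 = ConjClasses.mk y.1 := congrArg Subtype.val h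
      exact Subtype.ext (hinj x.1 x.2 y.1 y.2 (ConjClasses.mk_eq_mk_iff_isConj.mp h'))
    have hle := Nat.card_le_card_of_injective f hf
    have hpos : 0 < Nat.card ↥(P : Subgroup G) := Nat.card_pos
    have hp2 : 2 ≤ p := hpp.two_le
    calc (p + 1) * Nat.card ↥(P : Subgroup G) < 2 * p * Nat.card ↥(P : Subgroup G) := by
          apply Nat.mul_lt_mul_of_pos_right _ hpos
          omega
      _ ≤ _ := Nat.mul_le_mul_left _ hle

end Cfsg.Agent.S3897
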