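import Cfsg.Statements.S3899
import Cfsg.Agent.S3897
import Cfsg.Agent.Lib.Helper71.PiClasses

set_option autoImplicit false
open Cfsg

namespace Cfsg.Agent.S3899

open Cfsg.Agent.Lib.Helper71

theorem card_classes_le {G : Type*} [Group G] [Finite G] (Pr : G → Prop) (S : Finset G)
    (hS : ∀ x, Pr x → ∃ s ∈ S, IsConj x s) :
    Nat.card {c : ConjClasses G // ∀ x ∈ c.carrier, Pr x} ≤ S.card := by
  have hex : ∀ c : {c : ConjClasses G // ∀ x ∈ c.carrier, Pr x}, ∃ s ∈ S, ConjClasses.mk s = c.1 := by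
    intro c
    obtain ⟨g, hg⟩ := ConjClasses.exists_rep c.1
    obtain ⟨s, hs, hgs⟩ := hS g (c.2 g (ConjClasses.mem_carrier_iff_mk_eq.mpr hg))
    exact ⟨s, hs, by rw [← hg]; exact (ConjClasses.mk_eq_mk_iff_isConj.mpr hgs).symm⟩
  choose f hfS hf using hex
  have hinj : Function.Injective (fun c => (⟨f c, hfS c⟩ : ↥S)) := by
    intro c d h
    have h' : f c = f d := congrArg Subtype.val h
    exact Subtype.ext (by rw [← hf c, ← hf d, h'])
  have := Nat.card_le_card_of_injective _ hinj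
  simpa using this

theorem exists_cover_r {G : Type*} [Group G] [Finite G] (r : ℕ) :
    ∃ R : Finset G, (∀ u : G, (∃ k : ℕ, orderOf u = r ^ k) → ∃ v ∈ R, IsConj u v) ∧
      R.card ≤ Nat.card {c : ConjClasses G // ∀ x ∈ c.carrier, ∃ k : ℕ, orderOf x = r ^ k} := by
  classical
  have : Fintype {c : ConjClasses G // ∀ x ∈ c.carrier, ∃ k : ℕ, orderOf x = r ^ k} :=
    Fintype.ofFinite _
  have hex : ∀ c : {c : ConjClasses G // ∀ x ∈ c.carrier, ∃ k : ℕ, orderOf x = r ^ k},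
      ∃ g : G, ConjClasses.mk g = c.1 := fun c => ConjClasses.exists_rep c.1
  choose rep hrep using hex
  refine ⟨Finset.univ.image rep, ?_, ?_⟩
  · rintro u ⟨k, hk⟩
    let c : {c : ConjClasses G // ∀ x ∈ c.carrier, ∃ k : ℕ, orderOf x = r ^ k} :=
      ⟨ConjClasses.mk u, by
        intro x hx
        rw [ConjClasses.mem_carrier_iff_mk_eq, ConjClasses.mk_eq_mk_iff_isConj] at hx
        exact ⟨k, by rw [orderOf_eq_of_isConj hx, hk]⟩⟩
    refine ⟨rep c, Finset.mem_image_of_mem _ (Finset.mem_univ c), ?_⟩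
    exact ConjClasses.mk_eq_mk_iff_isConj.mp (hrep c).symm
  · rw [Nat.card_eq_fintype_card]
    exact Finset.card_image_le

theorem exists_normal {G : Type*} [Group G] [Finite G] (π : Finset ℕ) (hπ : ∀ r ∈ π, r.Prime)
    (h2 : 2 ∉ π) (p : ℕ) (hp : p ∈ π)
    (hmin : ∀ r ∈ π, p ≤ r) (hk : (p + 1) * π.prod (fun r => r ^ (Nat.card G).factorization r) < 2 * p * Nat.card {c : ConjClasses G // ∀ x ∈ c.carrier, ∀ r : ℕ, r.Prime → r ∣ orderOf x → r ∈ π})
    (r : ℕ) (hr : r ∈ π) :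
    ∃ N : Subgroup G, N.Normal ∧ ¬ r ∣ Nat.card N ∧ (∃ a : ℕ, N.index = r ^ a) ∧
      ∀ x y : G, x * y * x⁻¹ * y⁻¹ ∈ N := by
  classical
  have hrp : r.Prime := hπ r hr
  have : Fact r.Prime := ⟨hrp⟩
  have hpp : p.Prime := hπ p hp
  set kr := Nat.card {c : ConjClasses G // ∀ x ∈ c.carrier, ∃ k : ℕ, orderOf x = r ^ k} with hkr
  set M := piPart (π.erase r) (Nat.card G) with hM
  have hσ' : ∀ q ∈ π.erase r, q.Prime := fun q hq => hπ q (Finset.mem_of_mem_erase hq)
  have hMpos : 0 < M := piPart_pos hσ' _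
  -- the counting inequality
  have hle : Nat.card {c : ConjClasses G // ∀ x ∈ c.carrier, ∀ r : ℕ, r.Prime → r ∣ orderOf x → r ∈ π}
      ≤ kr * M := by
    obtain ⟨R, hR1, hR2⟩ := exists_cover_r (G := G) r
    obtain ⟨S, hS1, hS2⟩ := cover_step r hrp (π.erase r) R hR1 M (by
      intro u
      obtain ⟨S, hS1, hS2⟩ := exists_cover (π.erase r) hσ' ↥(Subgroup.centralizer ({u} : Set G))
      exact ⟨S, hS1, hS2.trans (piPart_le_of_dvd hσ' (Subgroup.card_subgroup_dvd_card _)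
        Nat.card_pos.ne')⟩)
    rw [Finset.insert_erase hr] at hS1
    calc _ ≤ S.card := card_classes_le (fun x => ∀ r : ℕ, r.Prime → r ∣ orderOf x → r ∈ π) S hS1
      _ ≤ R.card * M := hS2
      _ ≤ kr * M := Nat.mul_le_mul_right _ hR2
  have hprod : π.prod (fun r => r ^ (Nat.card G).factorization r) =
      r ^ (Nat.card G).factorization r * M := by
    rw [hM, piPart, Finset.mul_prod_erase π (fun r => r ^ (Nat.card G).factorization r) hr]
  set m := r ^ (Nat.card G).factorization r with hm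
  have h1 : (p + 1) * m < 2 * p * kr := by
    have h3 : (p + 1) * (m * M) < 2 * p * (kr * M) :=
      calc (p + 1) * (m * M) < _ := hprod ▸ hk
        _ ≤ 2 * p * (kr * M) := Nat.mul_le_mul_left _ hle
    have h4 : ((p + 1) * m) * M < (2 * p * kr) * M := by
      calc ((p + 1) * m) * M = (p + 1) * (m * M) := by ring
        _ < 2 * p * (kr * M) := h3
        _ = _ := by ring
    exact lt_of_mul_lt_mul_right h4 (Nat.zero_le M)
  have h5 : (r + 1) * m < 2 * r * kr := by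
    have hpr : p ≤ r := hmin r hr
    have h6 : p * ((r + 1) * m) < p * (2 * r * kr) := by
      calc p * ((r + 1) * m) = (p * r + p) * m := by ring
        _ ≤ (p * r + r) * m := Nat.mul_le_mul_right _ (by omega)
        _ = r * ((p + 1) * m) := by ring
        _ < r * (2 * p * kr) := Nat.mul_lt_mul_of_pos_left h1 hrp.pos
        _ = _ := by ring
    exact lt_of_mul_lt_mul_left h6 (Nat.zero_le p)
  have hr2 : r ≠ 2 := fun h => h2 (h ▸ hr)
  have hall : ∀ Q : Sylow r G, Cfsg.HasNormalPComplement r G ∧ IsMulCommutative ↥(Q : Subgroup G) := by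
    intro Q
    apply (Cfsg.Agent.S3897.result hr2 Q).mp
    rw [Sylow.card_eq_multiplicity]
    exact h5
  obtain ⟨Q₀⟩ : Nonempty (Sylow r G) := inferInstance
  obtain ⟨⟨P', N, hN, hc⟩, -⟩ := hall Q₀
  have hab := (hall P').2
  refine ⟨N, hN, ?_, ?_, ?_⟩
  · rw [← hc.index_eq_card]; exact P'.not_dvd_index
  · rw [hc.symm.index_eq_card]; exact P'.2.exists_card_eq
  · intro x y
    obtain ⟨⟨⟨n₁, hn₁⟩, ⟨u₁, hu₁⟩⟩, h₁⟩ := hc.2 x
    obtain ⟨⟨⟨n₂, hn₂⟩, ⟨u₂, hu₂⟩⟩, h₂⟩ := hc.2 y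
    simp only at h₁ h₂
    rw [← QuotientGroup.eq_one_iff]
    have e₁ : ((x : G) : G ⧸ N) = (u₁ : G ⧸ N) := by
      rw [← h₁, QuotientGroup.mk_mul, (QuotientGroup.eq_one_iff n₁).mpr hn₁, one_mul]
    have e₂ : ((y : G) : G ⧸ N) = (u₂ : G ⧸ N) := by
      rw [← h₂, QuotientGroup.mk_mul, (QuotientGroup.eq_one_iff n₂).mpr hn₂, one_mul]
    have hcomm : u₁ * u₂ = u₂ * u₁ :=
      congrArg Subtype.val (mul_comm' (⟨u₁, hu₁⟩ : ↥(P' : Subgroup G)) ⟨u₂, hu₂⟩)
    rw [QuotientGroup.mk_mul, QuotientGroup.mk_mul, QuotientGroup.mk_mul, QuotientGroup.mk_inv,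
      QuotientGroup.mk_inv, e₁, e₂, ← QuotientGroup.mk_mul, hcomm, QuotientGroup.mk_mul]
    group

/-- Let π be a finite non-empty set of odd primes with smallest member p and G a finite group. Write k_π(G) for the number of conjugacy classes of G consisting of π-elements (elements all of whose order's prime divisors lie in π) and |G|_π for the π-part of the order of G. If k_π(G) > (p + 1)|G|_π/(2p), then G has a normal π-complement (a normal subgroup of order prime to π whose index is a π-number) and an abelian Hall π-subgroup. -/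
theorem result {G : Type*} [Group G] [Finite G] (π : Finset ℕ) (hπ : ∀ r ∈ π, r.Prime) (h2 : 2 ∉ π) (p : ℕ) (hp : p ∈ π)
    (hmin : ∀ r ∈ π, p ≤ r) (hk : (p + 1) * π.prod (fun r => r ^ (Nat.card G).factorization r) < 2 * p * Nat.card {c : ConjClasses G // ∀ x ∈ c.carrier, ∀ r : ℕ, r.Prime → r ∣ orderOf x → r ∈ π}) :
    (∃ N : Subgroup G, N.Normal ∧ (∀ r : ℕ, r.Prime → r ∣ Nat.card ↥N → r ∉ π) ∧ ∀ r : ℕ, r.Prime → r ∣ N.index → r ∈ π) ∧ ∃ H : Subgroup G, Cfsg.IsPiHall (↑π : Set ℕ) H ∧ IsMulCommutative ↥H := by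
  have hex := exists_normal π hπ h2 p hp hmin hk
  choose! Nf hNn hNc hNi hNa using hex
  set N : Subgroup G := ⨅ r ∈ π, Nf r with hNdef
  have hmem : ∀ x : G, x ∈ N ↔ ∀ r ∈ π, x ∈ Nf r := by
    intro x; simp [hNdef, Subgroup.mem_iInf]
  have hNnormal : N.Normal :=
    Subgroup.normal_iInf_normal fun r => Subgroup.normal_iInf_normal fun hr => hNn r hr
  have hle : ∀ r ∈ π, N ≤ Nf r := fun r hr x hx => (hmem x).mp hx r hr
  have hA : ∀ r : ℕ, r.Prime → r ∣ Nat.card ↥N → r ∉ π := by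
    intro r _ hd hr
    exact hNc r hr (hd.trans (Subgroup.card_dvd_of_le (hle r hr)))
  have hB : ∀ r : ℕ, r.Prime → r ∣ N.index → r ∈ π := by
    intro q hq hd
    have : Fact q.Prime := ⟨hq⟩
    rw [Subgroup.index_eq_card] at hd
    obtain ⟨xb, hxb⟩ := exists_prime_orderOf_dvd_card' q hd
    obtain ⟨x, rfl⟩ := QuotientGroup.mk_surjective xb
    have hx1 : x ∉ N := by
      intro hx
      rw [(QuotientGroup.eq_one_iff x).mpr hx, orderOf_one] at hxb
      exact hq.one_lt.ne hxb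
    have hxq : x ^ q ∈ N := by
      rw [← QuotientGroup.eq_one_iff, QuotientGroup.mk_pow, ← hxb, pow_orderOf_eq_one]
    rw [hmem] at hx1
    push Not at hx1
    obtain ⟨r, hr, hxr⟩ := hx1
    have := hNn r hr
    have ho : orderOf ((x : G) : G ⧸ Nf r) = q := by
      apply orderOf_eq_prime
      · rw [← QuotientGroup.mk_pow, QuotientGroup.eq_one_iff]; exact hle r hr hxq
      · rw [Ne, QuotientGroup.eq_one_iff]; exact hxr
    obtain ⟨a, ha⟩ := hNi r hr
    have hd2 : q ∣ r ^ a := by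
      rw [← ha, Subgroup.index_eq_card, ← ho]
      exact orderOf_dvd_natCard _
    have := (Nat.prime_dvd_prime_iff_eq hq (hπ r hr)).mp (hq.dvd_of_dvd_pow hd2)
    exact this ▸ hr
  refine ⟨⟨N, hNnormal, hA, hB⟩, ?_⟩
  have hcop : Nat.Coprime (Nat.card N) N.index :=
    Nat.coprime_of_dvd fun k hk hk1 hk2 => hA k hk hk1 (hB k hk hk2)
  obtain ⟨H, hH⟩ := Subgroup.exists_right_complement'_of_coprime hcop
  refine ⟨H, ⟨?_, ?_⟩, ?_⟩
  · intro q hq hd
    rw [← hH.symm.index_eq_card] at hd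
    exact hB q hq hd
  · intro q hq hqπ hd
    rw [hH.index_eq_card] at hd
    exact hA q hq hd hqπ
  · refine ⟨⟨fun a b => ?_⟩⟩
    have h1 : a.1 * b.1 * a.1⁻¹ * b.1⁻¹ ∈ N := (hmem _).mpr fun r hr => hNa r hr a.1 b.1
    have h2 : a.1 * b.1 * a.1⁻¹ * b.1⁻¹ ∈ H :=
      H.mul_mem (H.mul_mem (H.mul_mem a.2 b.2) (H.inv_mem a.2)) (H.inv_mem b.2)
    have h3 : a.1 * b.1 * a.1⁻¹ * b.1⁻¹ = 1 := by
      have := hH.disjoint.le_bot ⟨h1, h2⟩
      simpa using this
    apply Subtype.ext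
    change a.1 * b.1 = b.1 * a.1
    calc a.1 * b.1 = (a.1 * b.1 * a.1⁻¹ * b.1⁻¹) * (b.1 * a.1) := by group
      _ = _ := by rw [h3, one_mul]

end Cfsg.Agent.S3899
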