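import Mathlib
import Cfsg.Statements.S3898
import Cfsg.Agent.S3895
import Cfsg.Agent.S3899

set_option autoImplicit false
open Cfsg

namespace Cfsg.Agent.S3898

open Cfsg.Agent.Lib.Helper71
open scoped Pointwise

/-- weighted version of the covering step -/
theorem cover_step_w {G : Type*} [Group G] [Finite G] (r : ℕ) (hr : r.Prime) (σ : Finset ℕ)
    (R : Finset G) (hR : ∀ u : G, (∃ k : ℕ, orderOf u = r ^ k) → ∃ v ∈ R, IsConj u v) (M : G → ℕ)
    (hS : ∀ u : G, ∃ S : Finset ↥(Subgroup.centralizer ({u} : Set G)),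
      (∀ y, IsPiElt σ y → ∃ s ∈ S, IsConj y s) ∧ S.card ≤ M u) :
    ∃ S : Finset G, (∀ x, IsPiElt (insert r σ) x → ∃ s ∈ S, IsConj x s) ∧
      S.card ≤ ∑ u ∈ R, M u := by
  classical
  choose S hS1 hS2 using hS
  refine ⟨R.biUnion (fun u => (S u).image (fun s => u * s.1)), ?_, ?_⟩
  · intro x hx
    obtain ⟨a, b, hab, hcomm, ha, hb1, hb2⟩ := exists_rpart_decomp r hr x
    obtain ⟨v, hvR, hav⟩ := hR a ha
    obtain ⟨g, hg⟩ := isConj_iff.mp hav
    have hbc : g * b * g⁻¹ ∈ Subgroup.centralizer ({v} : Set G) := by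
      rw [Subgroup.mem_centralizer_singleton_iff, ← hg]
      have := hcomm.eq
      calc g * b * g⁻¹ * (g * a * g⁻¹) = g * (b * a) * g⁻¹ := by group
        _ = g * (a * b) * g⁻¹ := by rw [this]
        _ = _ := by group
    have hbπ : IsPiElt σ (⟨g * b * g⁻¹, hbc⟩ : ↥(Subgroup.centralizer ({v} : Set G))) := by
      intro q hq hqd
      rw [← Subgroup.orderOf_coe] at hqd
      have e : orderOf (g * b * g⁻¹) = orderOf b :=
        (orderOf_eq_of_isConj (isConj_iff.mpr ⟨g, rfl⟩)).symm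
      simp only [e] at hqd
      have h1 := hx q hq (hqd.trans hb1)
      rcases Finset.mem_insert.mp h1 with h | h
      · exact absurd (h ▸ hqd) hb2
      · exact h
    obtain ⟨s, hsS, hs⟩ := hS1 v _ hbπ
    refine ⟨v * s.1, ?_, ?_⟩
    · exact Finset.mem_biUnion.mpr ⟨v, hvR, Finset.mem_image.mpr ⟨s, hsS, rfl⟩⟩
    · obtain ⟨c, hc⟩ := isConj_iff.mp hs
      have hc' : c.1 * (g * b * g⁻¹) * c.1⁻¹ = s.1 := congrArg Subtype.val hc
      have hcv : c.1 * v = v * c.1 := by
        have := c.2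
        rw [Subgroup.mem_centralizer_singleton_iff] at this
        exact this
      apply isConj_iff.mpr
      refine ⟨c.1 * g, ?_⟩
      rw [← hab, ← hc']
      calc c.1 * g * (a * b) * (c.1 * g)⁻¹ = c.1 * (g * a * g⁻¹) * (g * b * g⁻¹) * c.1⁻¹ := by group
        _ = c.1 * v * (g * b * g⁻¹) * c.1⁻¹ := by rw [hg]
        _ = v * c.1 * (g * b * g⁻¹) * c.1⁻¹ := by rw [hcv]
        _ = _ := by group
  · exact Finset.card_biUnion_le.trans
      (Finset.sum_le_sum fun u _ => Finset.card_image_le.trans (hS2 u))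

/-- distinct conjugates under powers -/
theorem conj_pow_ne {G : Type*} [Group G] (b u : G) (hbu : b * u ≠ u * b) (i j : ℕ) (hij : i < j)
    (hcop : (j - i).Coprime (orderOf b)) :
    b ^ i * u * (b ^ i)⁻¹ ≠ b ^ j * u * (b ^ j)⁻¹ := by
  intro h
  apply hbu
  obtain ⟨d, rfl⟩ : ∃ d, j = i + d := ⟨j - i, by omega⟩
  have hd : i + d - i = d := by omega
  rw [hd] at hcop
  have h1 : Commute (b ^ d) u := by
    have h2 : u = b ^ d * u * (b ^ d)⁻¹ := by
      have : b ^ (i + d) * u * (b ^ (i + d))⁻¹ = b ^ i * (b ^ d * u * (b ^ d)⁻¹) * (b ^ i)⁻¹ := by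
        rw [pow_add]; group
      rw [this] at h
      have h3 := congrArg (fun x => (b ^ i)⁻¹ * x * b ^ i) h
      calc u = (b ^ i)⁻¹ * (b ^ i * u * (b ^ i)⁻¹) * b ^ i := by group
        _ = (b ^ i)⁻¹ * (b ^ i * (b ^ d * u * (b ^ d)⁻¹) * (b ^ i)⁻¹) * b ^ i := h3
        _ = _ := by group
    change b ^ d * u = u * b ^ d
    calc b ^ d * u = (b ^ d * u * (b ^ d)⁻¹) * b ^ d := by group
      _ = u * b ^ d := by rw [← h2]
  obtain ⟨m, hm⟩ := exists_pow_eq_self_of_coprime hcop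
  have := h1.pow_left m
  rw [hm] at this
  exact this.eq

theorem comm_of_index_three {G : Type*} [Group G] [Finite G] (R F : Subgroup G) (hFR : F ≤ R)
    (hcent : ∀ z ∈ F, ∀ x ∈ R, z * x = x * z) (hidx : Nat.card R = 3 * Nat.card F) :
    ∀ x ∈ R, ∀ y ∈ R, x * y = y * x := by
  have : Fact (Nat.Prime 3) := ⟨Nat.prime_three⟩
  have hle : F.subgroupOf R ≤ Subgroup.center ↥R := by
    intro z hz
    rw [Subgroup.mem_center_iff]
    intro x
    apply Subtype.ext
    exact (hcent z.1 (Subgroup.mem_subgroupOf.mp hz) x.1 x.2).symm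
  have h1 : (F.subgroupOf R).index = 3 := by
    have h2 : (F.subgroupOf R).index * Nat.card F = Nat.card R := by
      have := Subgroup.relIndex_mul_relIndex ⊥ F R bot_le hFR
      rw [Subgroup.relIndex_bot_left, Subgroup.relIndex_bot_left] at this
      rw [mul_comm]; exact this
    have hpos : 0 < Nat.card F := Nat.card_pos
    rw [hidx] at h2
    exact Nat.eq_of_mul_eq_mul_right hpos h2
  have h3 : Nat.card (↥R ⧸ Subgroup.center ↥R) ∣ 3 := by
    rw [← Subgroup.index_eq_card, ← h1]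
    exact Subgroup.index_dvd_of_le hle
  have : IsCyclic (↥R ⧸ Subgroup.center ↥R) := isCyclic_of_card_dvd_prime h3
  have hc := MonoidHom.isMulCommutative_of_isCyclic_of_ker_le_center
    (QuotientGroup.mk' (Subgroup.center ↥R)) (by rw [QuotientGroup.ker_mk'])
  intro x hx y hy
  exact congrArg Subtype.val (mul_comm' (⟨x, hx⟩ : ↥R) ⟨y, hy⟩)

theorem exists_coprime_six {G : Type*} [Group G] [Finite G] [Fact (Nat.Prime 3)] (R : Sylow 3 G)
    (hab : ∀ x ∈ (R : Subgroup G), ∀ y ∈ (R : Subgroup G), x * y = y * x) (u : G)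
    (hu : u ∈ (R : Subgroup G)) (k : G)
    (hkN : k ∈ Subgroup.normalizer ((R : Subgroup G) : Set G)) (hodd : Odd (orderOf k))
    (hku : k * u ≠ u * k) :
    ∃ b ∈ Subgroup.zpowers k, b * u ≠ u * b ∧ (orderOf b).Coprime 6 := by
  have hn : orderOf k ≠ 0 := (orderOf_pos k).ne'
  obtain ⟨j, m, hm, hjm⟩ := Nat.exists_eq_pow_mul_and_not_dvd hn 3 (by norm_num)
  have hm0 : m ≠ 0 := by
    rintro rfl
    rw [mul_zero] at hjm
    exact hn hjm
  have ha : orderOf (k ^ m) = 3 ^ j := by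
    rw [orderOf_pow_of_dvd hm0 (hjm ▸ Dvd.intro_left _ rfl), hjm]
    exact Nat.mul_div_cancel _ (Nat.pos_of_ne_zero hm0)
  have hb : orderOf (k ^ 3 ^ j) = m := by
    rw [orderOf_pow_of_dvd (pow_ne_zero _ (by norm_num)) (hjm ▸ Dvd.intro _ rfl), hjm]
    exact Nat.mul_div_cancel_left _ (pow_pos (by norm_num) _)
  have haR : k ^ m ∈ (R : Subgroup G) := by
    have hp : IsPGroup 3 (Subgroup.zpowers (k ^ m)) := by
      apply IsPGroup.of_card (n := j)
      rw [Nat.card_zpowers, ha]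
    have h1 := hp.inf_normalizer_sylow R
    exact (h1.le ⟨Subgroup.mem_zpowers _, Subgroup.pow_mem _ hkN m⟩).2
  refine ⟨k ^ 3 ^ j, Subgroup.pow_mem _ (Subgroup.mem_zpowers k) _, ?_, ?_⟩
  · intro hcb
    apply hku
    have hca : Commute (k ^ m) u := hab _ haR _ hu
    have hcb' : Commute (k ^ 3 ^ j) u := hcb
    have hcop : Nat.Coprime m (3 ^ j) :=
      (Nat.Coprime.pow_left _ ((Nat.Prime.coprime_iff_not_dvd Nat.prime_three).mpr hm)).symm
    have hg := Nat.gcd_eq_gcd_ab m (3 ^ j)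
    rw [hcop] at hg
    have hk : k = (k ^ m) ^ (m.gcdA (3 ^ j)) * (k ^ 3 ^ j) ^ (m.gcdB (3 ^ j)) := by
      rw [← zpow_natCast k m, ← zpow_natCast k (3 ^ j), ← zpow_mul, ← zpow_mul, ← zpow_add, ← hg]
      simp
    have : Commute k u := by
      rw [hk]
      exact (hca.zpow_left _).mul_left (hcb'.zpow_left _)
    exact this.eq
  · rw [hb]
    have hmodd : Odd m := by
      rw [hjm] at hodd
      exact (Nat.odd_mul.mp hodd).2
    have h2 : Nat.Coprime m 2 := Nat.coprime_two_right.mpr hmodd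
    have h3 : Nat.Coprime m 3 := ((Nat.Prime.coprime_iff_not_dvd Nat.prime_three).mpr hm).symm
    have : (6 : ℕ) = 2 * 3 := by norm_num
    rw [this]
    exact Nat.Coprime.mul_right h2 h3

theorem two_mul_le {G : Type*} [Group G] [Finite G] (K : Subgroup G) [K.Normal]
    (hKodd : Odd (Nat.card K)) (hKidx : ∃ a : ℕ, K.index = 2 ^ a) {r : ℕ} [Fact r.Prime]
    (R : Sylow r G) (hRK : (R : Subgroup G) ≤ K) (u : G)
    (hNK : ∀ k ∈ Subgroup.normalizer ((R : Subgroup G) : Set G), k ∈ K → k * u = u * k)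
    (hnot : ∃ n ∈ Subgroup.normalizer ((R : Subgroup G) : Set G), n * u ≠ u * n) :
    2 * 2 ^ (Nat.card (Subgroup.centralizer ({u} : Set G))).factorization 2 ≤
      2 ^ (Nat.card G).factorization 2 := by
  classical
  have : Fact (Nat.Prime 2) := ⟨Nat.prime_two⟩
  set C := Subgroup.centralizer ({u} : Set G) with hC
  have hmemC : ∀ x : G, x ∈ C ↔ x * u = u * x := fun x => by
    rw [hC, Subgroup.mem_centralizer_singleton_iff]
  have hle : (Nat.card C).factorization 2 ≤ (Nat.card G).factorization 2 :=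
    (Nat.factorization_le_iff_dvd Nat.card_pos.ne' Nat.card_pos.ne').mpr
      (Subgroup.card_subgroup_dvd_card C) 2
  rcases hle.lt_or_eq with hlt | heq
  · rw [← pow_succ']
    exact Nat.pow_le_pow_right (by norm_num) hlt
  exfalso
  obtain ⟨n, hnN, hnu⟩ := hnot
  apply hnu
  obtain ⟨a, ha⟩ := hKidx
  -- a Sylow 2-subgroup of `C`
  obtain ⟨T₀⟩ : Nonempty (Sylow 2 ↥C) := inferInstance
  set T : Subgroup G := (T₀ : Subgroup ↥C).map C.subtype with hT
  have hTC : T ≤ C := by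
    rintro _ ⟨x, -, rfl⟩
    exact x.2
  have hTcard : Nat.card T = 2 ^ (Nat.card G).factorization 2 := by
    rw [hT, Subgroup.card_map_of_injective C.subtype_injective, Sylow.card_eq_multiplicity, heq]
  have hG : Nat.card G = Nat.card K * 2 ^ a := by
    rw [← ha, Subgroup.card_mul_index]
  have hfac : (Nat.card G).factorization 2 = a := by
    rw [hG, Nat.factorization_mul Nat.card_pos.ne' (pow_ne_zero _ (by norm_num))]
    have h1 : (Nat.card K).factorization 2 = 0 :=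
      Nat.factorization_eq_zero_of_not_dvd (fun h => (Nat.not_even_iff_odd.mpr hKodd)
        (even_iff_two_dvd.mpr h))
    simp [h1, Nat.Prime.factorization_pow Nat.prime_two]
  have hcompl : K.IsComplement' T := by
    apply Subgroup.isComplement'_of_coprime
    · rw [hTcard, hfac, hG]
    · rw [hTcard]
      exact Nat.Coprime.pow_right _ (Nat.coprime_two_right.mpr hKodd)
  obtain ⟨⟨⟨k, hk⟩, ⟨t, ht⟩⟩, hkt⟩ := hcompl.2 n
  simp only at hkt
  have htC : t ∈ C := hTC ht
  -- Frattini inside `C`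
  set L : Subgroup G := C ⊓ K with hL
  have hRL : (R : Subgroup G) ≤ L := by
    intro x hx
    exact ⟨(hmemC x).mpr (hNK x (Subgroup.le_normalizer hx) (hRK hx)), hRK hx⟩
  have htRL : ((t • R : Sylow r G) : Subgroup G) ≤ L := by
    intro x hx
    rw [Sylow.coe_subgroup_smul] at hx
    obtain ⟨y, hy, rfl⟩ := hx
    have hyL := hRL hy
    change t * y * t⁻¹ ∈ L
    exact ⟨C.mul_mem (C.mul_mem htC hyL.1) (C.inv_mem htC), ‹K.Normal›.conj_mem y hyL.2 t⟩
  obtain ⟨c, hc⟩ := MulAction.exists_smul_eq ↥L (R.subtype hRL) ((t • R).subtype htRL)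
  rw [Sylow.smul_subtype] at hc
  have hc' : (c : G) • R = t • R := Sylow.subtype_injective hc
  have ht1 : (c : G)⁻¹ * t ∈ Subgroup.normalizer ((R : Subgroup G) : Set G) := by
    apply Sylow.smul_eq_iff_mem_normalizer.mp
    rw [mul_smul, ← hc', inv_smul_smul]
  have hk' : k * c ∈ Subgroup.normalizer ((R : Subgroup G) : Set G) := by
    have : k * c = n * ((c : G)⁻¹ * t)⁻¹ := by rw [← hkt]; group
    rw [this]
    exact Subgroup.mul_mem _ hnN (Subgroup.inv_mem _ ht1)
  have h1 : (k * c) * u = u * (k * c) := hNK _ hk' (K.mul_mem hk c.2.2)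
  have h2 : ((c : G)⁻¹ * t) ∈ C := C.mul_mem (C.inv_mem c.2.1) htC
  have h3 : n ∈ C := by
    have : n = (k * c) * ((c : G)⁻¹ * t) := by rw [← hkt]; group
    rw [this]
    exact C.mul_mem ((hmemC _).mpr h1) h2
  exact (hmemC n).mp h3

theorem sum_bound {G : Type*} [DecidableEq G] (Rs Fs : Finset G) (rep : G → G) (e : G → ℕ)
    (m A B c : ℕ)
    (h : ∀ u ∈ Rs.image rep, A * e u ≤
      m * (B * (Rs.filter (fun a => rep a = u)).card + (if u ∈ Fs then c else 0))) :
    A * ∑ u ∈ Rs.image rep, e u ≤ m * (B * Rs.card + c * Fs.card) := by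
  calc A * ∑ u ∈ Rs.image rep, e u = ∑ u ∈ Rs.image rep, A * e u := Finset.mul_sum _ _ _
    _ ≤ ∑ u ∈ Rs.image rep,
        m * (B * (Rs.filter (fun a => rep a = u)).card + (if u ∈ Fs then c else 0)) :=
      Finset.sum_le_sum h
    _ = m * (B * ∑ u ∈ Rs.image rep, (Rs.filter (fun a => rep a = u)).card +
        ∑ u ∈ Rs.image rep, (if u ∈ Fs then c else 0)) := by
      rw [← Finset.mul_sum, Finset.sum_add_distrib, ← Finset.mul_sum]
    _ ≤ m * (B * Rs.card + c * Fs.card) := by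
      apply Nat.mul_le_mul_left
      rw [← Finset.card_eq_sum_card_image rep Rs]
      apply Nat.add_le_add_left
      rw [← Finset.sum_filter, Finset.sum_const, smul_eq_mul, mul_comm]
      apply Nat.mul_le_mul_left
      apply Finset.card_le_card
      intro x hx
      exact (Finset.mem_filter.mp hx).2

theorem card_ge {G : Type*} [Group G] [DecidableEq G] (s : Finset G) (b u : G)
    (hbu : b * u ≠ u * b) (t : ℕ) (hcop : ∀ d, 0 < d → d < t → d.Coprime (orderOf b))
    (hmem : ∀ i : ℕ, b ^ i * u * (b ^ i)⁻¹ ∈ s) : t ≤ s.card := by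
  have hinj : Set.InjOn (fun i : ℕ => b ^ i * u * (b ^ i)⁻¹) (Finset.range t : Set ℕ) := by
    intro i hi j hj hij
    simp only [Finset.coe_range, Set.mem_Iio] at hi hj
    by_contra hne
    rcases Nat.lt_or_gt_of_ne hne with h | h
    · exact conj_pow_ne b u hbu i j h (hcop _ (by omega) (by omega)) hij
    · exact conj_pow_ne b u hbu j i h (hcop _ (by omega) (by omega)) hij.symm
  calc t = (Finset.range t).card := (Finset.card_range t).symm
    _ = ((Finset.range t).image (fun i : ℕ => b ^ i * u * (b ^ i)⁻¹)).card :=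
      (Finset.card_image_of_injOn hinj).symm
    _ ≤ s.card := by
      apply Finset.card_le_card
      intro x hx
      obtain ⟨i, -, rfl⟩ := Finset.mem_image.mp hx
      exact hmem i

theorem sylow_le_of_index {G : Type*} [Group G] [Finite G] (K : Subgroup G) [K.Normal]
    (hKidx : ∃ a : ℕ, K.index = 2 ^ a) {r : ℕ} [hr : Fact r.Prime] (hr2 : r ≠ 2) (R : Sylow r G) :
    (R : Subgroup G) ≤ K := by
  intro x hx
  obtain ⟨a, ha⟩ := hKidx
  obtain ⟨k, hk⟩ := (IsPGroup.iff_orderOf.mp R.2) ⟨x, hx⟩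
  rw [Subgroup.orderOf_mk] at hk
  have h1 : orderOf ((x : G) : G ⧸ K) ∣ r ^ k := by
    rw [← hk]; exact orderOf_map_dvd (QuotientGroup.mk' K) x
  have h2 : orderOf ((x : G) : G ⧸ K) ∣ 2 ^ a := by
    rw [← ha, Subgroup.index_eq_card]; exact orderOf_dvd_natCard _
  have hcop : Nat.Coprime (r ^ k) (2 ^ a) :=
    Nat.Coprime.pow _ _ ((Nat.coprime_primes hr.out Nat.prime_two).mpr hr2)
  have h3 : orderOf ((x : G) : G ⧸ K) = 1 := Nat.eq_one_of_dvd_coprimes hcop h1 h2
  rw [orderOf_eq_one_iff, QuotientGroup.eq_one_iff] at h3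
  exact h3

theorem orbit_bound {G : Type*} [Group G] [Finite G] (K : Subgroup G) [K.Normal]
    (hKodd : Odd (Nat.card K)) (hKidx : ∃ a : ℕ, K.index = 2 ^ a) {r : ℕ} [hr : Fact r.Prime]
    (hr2 : r ≠ 2) (R : Sylow r G)
    (hne : ¬ Subgroup.normalizer ((R : Subgroup G) : Set G) ≤
      Subgroup.centralizer ((R : Subgroup G) : Set G)) :
    ∃ Y : Finset G, (∀ u : G, (∃ k : ℕ, orderOf u = r ^ k) → ∃ v ∈ Y, IsConj u v) ∧
      2 * ∑ u ∈ Y, 2 ^ (Nat.card (Subgroup.centralizer ({u} : Set G))).factorization 2 ≤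
        2 ^ (Nat.card G).factorization 2 * Nat.card ↥(R : Subgroup G) := by
  classical
  set N := Subgroup.normalizer ((R : Subgroup G) : Set G) with hN
  have hRK : (R : Subgroup G) ≤ K := sylow_le_of_index K hKidx hr2 R
  have hRN : (R : Subgroup G) ≤ N := Subgroup.le_normalizer
  set F : Subgroup G := (R : Subgroup G) ⊓ Subgroup.centralizer (N : Set G) with hF
  have hFR : F ≤ (R : Subgroup G) := inf_le_left
  have hmemF : ∀ u : G, u ∈ F ↔ u ∈ (R : Subgroup G) ∧ ∀ n ∈ N, n * u = u * n := by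
    intro u
    rw [hF, Subgroup.mem_inf, Subgroup.mem_centralizer_iff]
    rfl
  have hRF : ¬ (R : Subgroup G) ≤ F := by
    intro hle
    apply hne
    intro n hn
    rw [Subgroup.mem_centralizer_iff]
    intro y hy
    exact (((hmemF y).mp (hle hy)).2 n hn).symm
  -- index of `F`
  have hidx1 : F.relIndex (R : Subgroup G) * Nat.card F = Nat.card ↥(R : Subgroup G) := by
    have := Subgroup.relIndex_mul_relIndex ⊥ F (R : Subgroup G) bot_le hFR
    rw [Subgroup.relIndex_bot_left, Subgroup.relIndex_bot_left] at this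
    rw [mul_comm]; exact this
  have hidx2 : F.relIndex (R : Subgroup G) ≠ 1 := by
    rw [Ne, Subgroup.relIndex_eq_one]; exact hRF
  obtain ⟨nn, hnn⟩ := R.2.exists_card_eq
  have hidx3 : F.relIndex (R : Subgroup G) ∣ r ^ nn := hnn ▸ Dvd.intro _ hidx1
  obtain ⟨j, -, hj⟩ := (Nat.dvd_prime_pow hr.out).mp hidx3
  have hr3 : 3 ≤ r := by
    have := hr.out.two_le
    omega
  have hcases : 4 ≤ F.relIndex (R : Subgroup G) ∨ (r = 3 ∧ F.relIndex (R : Subgroup G) = 3) := by
    rw [hj]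
    rcases j with _ | _ | j
    · exact absurd (by simpa using hj) hidx2
    · rw [zero_add, pow_one]
      rcases Nat.lt_or_ge r 4 with h | h
      · right; constructor <;> omega
      · left; exact h
    · left
      calc 4 ≤ 3 * 3 := by norm_num
        _ ≤ r * r := Nat.mul_le_mul hr3 hr3
        _ = r ^ 2 := by ring
        _ ≤ r ^ (j + 1 + 1) := Nat.pow_le_pow_right hr.out.pos (by omega)
  -- the orbit relation
  let st : Setoid G :=
    { r := fun a b => ∃ n ∈ N, n * a * n⁻¹ = b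
      iseqv :=
        ⟨fun a => ⟨1, N.one_mem, by group⟩,
         fun {a b} ⟨n, hn, h⟩ => ⟨n⁻¹, N.inv_mem hn, by rw [← h]; group⟩,
         fun {a b c} ⟨n, hn, h⟩ ⟨m, hm, h'⟩ => ⟨m * n, N.mul_mem hm hn, by rw [← h', ← h]; group⟩⟩ }
  let rep : G → G := fun a => (Quotient.mk st a).out
  have hrepN : ∀ a, ∃ n ∈ N, n * a * n⁻¹ = rep a := by
    intro a
    exact st.symm (Quotient.mk_out (s := st) a)
  have hrep_conj : ∀ a n, n ∈ N → rep (n * a * n⁻¹) = rep a := by
    intro a n hn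
    have : Quotient.mk st (n * a * n⁻¹) = Quotient.mk st a :=
      Quotient.sound (s := st) (st.symm ⟨n, hn, rfl⟩)
    change (Quotient.mk st (n * a * n⁻¹)).out = (Quotient.mk st a).out
    rw [this]
  have hconjR : ∀ a ∈ (R : Subgroup G), ∀ n ∈ N, n * a * n⁻¹ ∈ (R : Subgroup G) := by
    intro a ha n hn
    exact (Subgroup.mem_normalizer_iff.mp hn a).mp ha
  have hfinR : ((R : Subgroup G) : Set G).Finite := Set.toFinite _
  have hfinF : ((F : Subgroup G) : Set G).Finite := Set.toFinite _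
  set Rs : Finset G := hfinR.toFinset with hRs
  set Fs : Finset G := hfinF.toFinset with hFs
  have hmemRs : ∀ x, x ∈ Rs ↔ x ∈ (R : Subgroup G) := fun x => by
    rw [hRs, Set.Finite.mem_toFinset]; rfl
  have hmemFs : ∀ x, x ∈ Fs ↔ x ∈ F := fun x => by
    rw [hFs, Set.Finite.mem_toFinset]; rfl
  have hRscard : Rs.card = Nat.card ↥(R : Subgroup G) := by
    rw [hRs, ← Set.ncard_eq_toFinset_card _ hfinR]; rfl
  have hFscard : Fs.card = Nat.card F := by
    rw [hFs, ← Set.ncard_eq_toFinset_card _ hfinF]; rfl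
  set e : G → ℕ := fun u => 2 ^ (Nat.card (Subgroup.centralizer ({u} : Set G))).factorization 2
    with he
  set m₂ := 2 ^ (Nat.card G).factorization 2 with hm₂
  have hele : ∀ u, e u ≤ m₂ := by
    intro u
    apply Nat.pow_le_pow_right (by norm_num)
    exact (Nat.factorization_le_iff_dvd Nat.card_pos.ne' Nat.card_pos.ne').mpr
      (Subgroup.card_subgroup_dvd_card _) 2
  -- facts on representatives
  have hY : ∀ u ∈ Rs.image rep, u ∈ (R : Subgroup G) ∧ rep u = u := by
    intro u hu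
    obtain ⟨y, hy, rfl⟩ := Finset.mem_image.mp hu
    obtain ⟨n, hn, h⟩ := hrepN y
    refine ⟨h ▸ hconjR y ((hmemRs y).mp hy) n hn, ?_⟩
    calc rep (rep y) = rep (n * y * n⁻¹) := by rw [h]
      _ = rep y := hrep_conj y n hn
  have hfib : ∀ u ∈ Rs.image rep, ∀ n ∈ N, n * u * n⁻¹ ∈ Rs.filter (fun a => rep a = u) := by
    intro u hu n hn
    obtain ⟨huR, hru⟩ := hY u hu
    rw [Finset.mem_filter, hmemRs]
    exact ⟨hconjR u huR n hn, by rw [hrep_conj u n hn, hru]⟩
  have hfibpow : ∀ u ∈ Rs.image rep, ∀ b ∈ N, ∀ i : ℕ,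
      b ^ i * u * (b ^ i)⁻¹ ∈ Rs.filter (fun a => rep a = u) :=
    fun u hu b hb i => hfib u hu _ (N.pow_mem hb i)
  have hoddK : ∀ k ∈ K, Odd (orderOf k) := by
    intro k hk
    have h1 : orderOf k ∣ Nat.card K := by
      have := orderOf_dvd_natCard (⟨k, hk⟩ : ↥K)
      rwa [Subgroup.orderOf_mk] at this
    exact Odd.of_dvd_nat hKodd h1
  refine ⟨Rs.image rep, ?_, ?_⟩
  · rintro u ⟨k, hk⟩
    have hpg : IsPGroup r (Subgroup.zpowers u) := by
      apply IsPGroup.of_card (n := k)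
      rw [Nat.card_zpowers, hk]
    obtain ⟨Q, hQ⟩ := hpg.exists_le_sylow
    obtain ⟨h, hh⟩ := MulAction.exists_smul_eq G Q R
    have h3 : h * u * h⁻¹ ∈ (R : Subgroup G) := by
      rw [← hh, Sylow.coe_subgroup_smul]
      have h1 : u ∈ (Q : Subgroup G) := hQ (Subgroup.mem_zpowers u)
      have h2 := Subgroup.smul_mem_pointwise_smul u (MulAut.conj h) (Q : Subgroup G) h1
      simpa [MulAut.smul_def] using h2
    obtain ⟨n, hn, h4⟩ := hrepN (h * u * h⁻¹)
    refine ⟨rep (h * u * h⁻¹), Finset.mem_image_of_mem _ ((hmemRs _).mpr h3), ?_⟩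
    apply isConj_iff.mpr
    exact ⟨n * h, by rw [← h4]; group⟩
  -- classification of representatives
  have hclass : ∀ u ∈ Rs.image rep, u ∈ F ∨
      (u ∉ F ∧ 2 * e u ≤ m₂ ∧ 2 ≤ (Rs.filter (fun a => rep a = u)).card) ∨
      (u ∉ F ∧ ∃ k ∈ N, k ∈ K ∧ k * u ≠ u * k) := by
    intro u hu
    obtain ⟨huR, hru⟩ := hY u hu
    by_cases huF : u ∈ F
    · exact Or.inl huF
    right
    have hex : ∃ n ∈ N, n * u ≠ u * n := by
      by_contra hcon
      push Not at hcon
      exact huF ((hmemF u).mpr ⟨huR, hcon⟩)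
    by_cases hNK : ∀ k ∈ N, k ∈ K → k * u = u * k
    · left
      refine ⟨huF, two_mul_le K hKodd hKidx R hRK u hNK hex, ?_⟩
      obtain ⟨n, hn, hnu⟩ := hex
      exact card_ge _ n u hnu 2 (fun d h1 h2 => by
        have : d = 1 := by omega
        rw [this]; exact Nat.coprime_one_left _) (hfibpow u hu n hn)
    · right
      push Not at hNK
      exact ⟨huF, hNK⟩
  have hone : ∀ u ∈ Rs.image rep, 1 ≤ (Rs.filter (fun a => rep a = u)).card := by
    intro u hu
    apply Finset.card_pos.mpr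
    exact ⟨u, by simpa using hfib u hu 1 N.one_mem⟩
  rcases hcases with h4 | ⟨hr3', h3⟩
  · -- case A
    have hf4 : 4 * Fs.card ≤ Rs.card := by
      rw [hFscard, hRscard, ← hidx1]
      exact Nat.mul_le_mul_right _ h4
    have hb := sum_bound Rs Fs rep e m₂ 6 2 4 (by
      intro u hu
      rcases hclass u hu with hF' | ⟨hF', h2e, h2c⟩ | ⟨hF', k, hkN, hkK, hku⟩
      · rw [if_pos ((hmemFs u).mpr hF')]
        have h1 := hone u hu
        have h2 := hele u
        calc 6 * e u ≤ 6 * m₂ := Nat.mul_le_mul_left _ h2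
          _ = m₂ * (2 * 1 + 4) := by ring
          _ ≤ _ := Nat.mul_le_mul_left _ (by omega)
      · rw [if_neg (fun h => hF' ((hmemFs u).mp h))]
        calc 6 * e u = 3 * (2 * e u) := by ring
          _ ≤ 3 * m₂ := Nat.mul_le_mul_left _ h2e
          _ ≤ m₂ * (2 * 2 + 0) := by omega
          _ ≤ _ := Nat.mul_le_mul_left _ (by omega)
      · rw [if_neg (fun h => hF' ((hmemFs u).mp h))]
        have h3c : 3 ≤ (Rs.filter (fun a => rep a = u)).card :=
          card_ge _ k u hku 3 (fun d h1 h2 => by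
            have hodd := hoddK k hkK
            rcases (by omega : d = 1 ∨ d = 2) with rfl | rfl
            · exact Nat.coprime_one_left _
            · exact Nat.coprime_two_left.mpr hodd) (hfibpow u hu k hkN)
        calc 6 * e u ≤ 6 * m₂ := Nat.mul_le_mul_left _ (hele u)
          _ = m₂ * (2 * 3 + 0) := by ring
          _ ≤ _ := Nat.mul_le_mul_left _ (by omega))
    have h5 : 6 * ∑ u ∈ Rs.image rep, e u ≤ m₂ * (3 * Rs.card) :=
      hb.trans (Nat.mul_le_mul_left _ (by omega))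
    rw [← hRscard]
    have h6 : 3 * (2 * ∑ u ∈ Rs.image rep, e u) ≤ 3 * (m₂ * Rs.card) := by
      calc 3 * (2 * ∑ u ∈ Rs.image rep, e u) = 6 * ∑ u ∈ Rs.image rep, e u := by ring
        _ ≤ m₂ * (3 * Rs.card) := h5
        _ = _ := by ring
    exact Nat.le_of_mul_le_mul_left h6 (by norm_num)
  · -- case B
    subst hr3'
    have hf3 : Rs.card = 3 * Fs.card := by
      rw [hFscard, hRscard, ← hidx1, h3]
    have hab : ∀ x ∈ (R : Subgroup G), ∀ y ∈ (R : Subgroup G), x * y = y * x := by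
      apply comm_of_index_three (R : Subgroup G) F hFR
      · intro z hz x hx
        exact (((hmemF z).mp hz).2 x (hRN hx)).symm
      · rw [← hidx1, h3]
    have hb := sum_bound Rs Fs rep e m₂ 4 1 3 (by
      intro u hu
      rcases hclass u hu with hF' | ⟨hF', h2e, h2c⟩ | ⟨hF', k, hkN, hkK, hku⟩
      · rw [if_pos ((hmemFs u).mpr hF')]
        have h1 := hone u hu
        calc 4 * e u ≤ 4 * m₂ := Nat.mul_le_mul_left _ (hele u)
          _ = m₂ * (1 * 1 + 3) := by ring
          _ ≤ _ := Nat.mul_le_mul_left _ (by omega)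
      · rw [if_neg (fun h => hF' ((hmemFs u).mp h))]
        calc 4 * e u = 2 * (2 * e u) := by ring
          _ ≤ 2 * m₂ := Nat.mul_le_mul_left _ h2e
          _ = m₂ * (1 * 2 + 0) := by ring
          _ ≤ _ := Nat.mul_le_mul_left _ (by omega)
      · rw [if_neg (fun h => hF' ((hmemFs u).mp h))]
        obtain ⟨b, hbk, hbu, hb6⟩ := exists_coprime_six R hab u (hY u hu).1 k hkN (hoddK k hkK) hku
        have hbN : b ∈ N := by
          obtain ⟨z, rfl⟩ := Subgroup.mem_zpowers_iff.mp hbk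
          exact N.zpow_mem hkN z
        have h4c : 4 ≤ (Rs.filter (fun a => rep a = u)).card :=
          card_ge _ b u hbu 4 (fun d h1 h2 => by
            have h62 : Nat.Coprime 2 (orderOf b) :=
              (Nat.Coprime.coprime_dvd_right (by norm_num : 2 ∣ 6) hb6).symm
            have h63 : Nat.Coprime 3 (orderOf b) :=
              (Nat.Coprime.coprime_dvd_right (by norm_num : 3 ∣ 6) hb6).symm
            rcases (by omega : d = 1 ∨ d = 2 ∨ d = 3) with rfl | rfl | rfl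
            · exact Nat.coprime_one_left _
            · exact h62
            · exact h63) (hfibpow u hu b hbN)
        calc 4 * e u ≤ 4 * m₂ := Nat.mul_le_mul_left _ (hele u)
          _ = m₂ * (1 * 4 + 0) := by ring
          _ ≤ _ := Nat.mul_le_mul_left _ (by omega))
    have h5 : 4 * ∑ u ∈ Rs.image rep, e u ≤ m₂ * (2 * Rs.card) :=
      hb.trans (Nat.mul_le_mul_left _ (by omega))
    rw [← hRscard]
    have h6 : 2 * (2 * ∑ u ∈ Rs.image rep, e u) ≤ 2 * (m₂ * Rs.card) := by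
      calc 2 * (2 * ∑ u ∈ Rs.image rep, e u) = 4 * ∑ u ∈ Rs.image rep, e u := by ring
        _ ≤ m₂ * (2 * Rs.card) := h5
        _ = _ := by ring
    exact Nat.le_of_mul_le_mul_left h6 (by norm_num)

theorem exists_K {G : Type*} [Group G] [Finite G] (π : Finset ℕ) (hπ : ∀ r ∈ π, r.Prime)
    (h2 : 2 ∈ π)
    (hk : π.prod (fun r => r ^ (Nat.card G).factorization r) < 2 * Nat.card {c : ConjClasses G // ∀ x ∈ c.carrier, ∀ r : ℕ, r.Prime → r ∣ orderOf x → r ∈ π}) :
    ∃ K : Subgroup G, K.Normal ∧ Odd (Nat.card K) ∧ ∃ a : ℕ, K.index = 2 ^ a := by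
  classical
  have : Fact (Nat.Prime 2) := ⟨Nat.prime_two⟩
  set kr := Nat.card {c : ConjClasses G // ∀ x ∈ c.carrier, ∃ k : ℕ, orderOf x = 2 ^ k} with hkr
  set M := piPart (π.erase 2) (Nat.card G) with hM
  have hσ' : ∀ q ∈ π.erase 2, q.Prime := fun q hq => hπ q (Finset.mem_of_mem_erase hq)
  have hMpos : 0 < M := piPart_pos hσ' _
  have hle : Nat.card {c : ConjClasses G // ∀ x ∈ c.carrier, ∀ r : ℕ, r.Prime → r ∣ orderOf x → r ∈ π}
      ≤ kr * M := by
    obtain ⟨R, hR1, hR2⟩ := Cfsg.Agent.S3899.exists_cover_r (G := G) 2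
    obtain ⟨S, hS1, hS2⟩ := cover_step 2 Nat.prime_two (π.erase 2) R hR1 M (by
      intro u
      obtain ⟨S, hS1, hS2⟩ := exists_cover (π.erase 2) hσ' ↥(Subgroup.centralizer ({u} : Set G))
      exact ⟨S, hS1, hS2.trans (piPart_le_of_dvd hσ' (Subgroup.card_subgroup_dvd_card _)
        Nat.card_pos.ne')⟩)
    rw [Finset.insert_erase h2] at hS1
    calc _ ≤ S.card := Cfsg.Agent.S3899.card_classes_le
            (fun x => ∀ r : ℕ, r.Prime → r ∣ orderOf x → r ∈ π) S hS1
      _ ≤ R.card * M := hS2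
      _ ≤ kr * M := Nat.mul_le_mul_right _ hR2
  have hprod : π.prod (fun r => r ^ (Nat.card G).factorization r) =
      2 ^ (Nat.card G).factorization 2 * M := by
    rw [hM, piPart, Finset.mul_prod_erase π (fun r => r ^ (Nat.card G).factorization r) h2]
  set m := 2 ^ (Nat.card G).factorization 2 with hm
  have h1 : m < 2 * kr := by
    have h3 : m * M < 2 * (kr * M) :=
      calc m * M < _ := hprod ▸ hk
        _ ≤ 2 * (kr * M) := Nat.mul_le_mul_left _ hle
    have h4 : m * M < (2 * kr) * M := by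
      calc m * M < 2 * (kr * M) := h3
        _ = _ := by ring
    exact lt_of_mul_lt_mul_right h4 (Nat.zero_le M)
  obtain ⟨Q₀⟩ : Nonempty (Sylow 2 G) := inferInstance
  obtain ⟨⟨P', N, hN, hc⟩, -⟩ := (Cfsg.Agent.S3895.result Q₀).mp (by
    rw [Sylow.card_eq_multiplicity]; exact h1)
  refine ⟨N, hN, ?_, ?_⟩
  · rw [← Nat.not_even_iff_odd, even_iff_two_dvd, ← hc.index_eq_card]
    exact P'.not_dvd_index
  · rw [hc.symm.index_eq_card]; exact P'.2.exists_card_eq

theorem key {G : Type*} [Group G] [Finite G] (π : Finset ℕ) (hπ : ∀ r ∈ π, r.Prime)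
    (h2 : 2 ∈ π) (K : Subgroup G) [K.Normal]
    (hKodd : Odd (Nat.card K)) (hKidx : ∃ a : ℕ, K.index = 2 ^ a) {r : ℕ} [hr : Fact r.Prime]
    (hrπ : r ∈ π) (hr2 : r ≠ 2) (R : Sylow r G)
    (hne : ¬ Subgroup.normalizer ((R : Subgroup G) : Set G) ≤
      Subgroup.centralizer ((R : Subgroup G) : Set G)) :
    2 * Nat.card {c : ConjClasses G // ∀ x ∈ c.carrier, ∀ r : ℕ, r.Prime → r ∣ orderOf x → r ∈ π} ≤
      π.prod (fun r => r ^ (Nat.card G).factorization r) := by
  classical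
  obtain ⟨Y, hY1, hY2⟩ := orbit_bound K hKodd hKidx hr2 R hne
  have h2σ : 2 ∈ π.erase r := Finset.mem_erase.mpr ⟨fun h => hr2 h.symm, h2⟩
  have hσ : ∀ q ∈ π.erase r, q.Prime := fun q hq => hπ q (Finset.mem_of_mem_erase hq)
  have hσ' : ∀ q ∈ (π.erase r).erase 2, q.Prime :=
    fun q hq => hσ q (Finset.mem_of_mem_erase hq)
  set M' := piPart ((π.erase r).erase 2) (Nat.card G) with hM'
  obtain ⟨S, hS1, hS2⟩ := cover_step_w r hr.out (π.erase r) Y hY1
    (fun u => 2 ^ (Nat.card (Subgroup.centralizer ({u} : Set G))).factorization 2 * M') (by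
      intro u
      obtain ⟨S, hS1, hS2⟩ := exists_cover (π.erase r) hσ ↥(Subgroup.centralizer ({u} : Set G))
      refine ⟨S, hS1, hS2.trans ?_⟩
      rw [piPart, ← Finset.mul_prod_erase (π.erase r) _ h2σ]
      exact Nat.mul_le_mul_left _ (piPart_le_of_dvd hσ' (Subgroup.card_subgroup_dvd_card _)
        Nat.card_pos.ne'))
  rw [Finset.insert_erase hrπ] at hS1
  have hprod : π.prod (fun r => r ^ (Nat.card G).factorization r) =
      r ^ (Nat.card G).factorization r * (2 ^ (Nat.card G).factorization 2 * M') := by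
    rw [hM', piPart, Finset.mul_prod_erase (π.erase r) (fun r => r ^ (Nat.card G).factorization r) h2σ,
      Finset.mul_prod_erase π (fun r => r ^ (Nat.card G).factorization r) hrπ]
  rw [Sylow.card_eq_multiplicity] at hY2
  calc 2 * Nat.card {c : ConjClasses G // ∀ x ∈ c.carrier, ∀ r : ℕ, r.Prime → r ∣ orderOf x → r ∈ π}
      ≤ 2 * S.card := Nat.mul_le_mul_left _ (Cfsg.Agent.S3899.card_classes_le
            (fun x => ∀ r : ℕ, r.Prime → r ∣ orderOf x → r ∈ π) S hS1)
    _ ≤ 2 * ∑ u ∈ Y, 2 ^ (Nat.card (Subgroup.centralizer ({u} : Set G))).factorization 2 * M' :=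
      Nat.mul_le_mul_left _ hS2
    _ = (2 * ∑ u ∈ Y, 2 ^ (Nat.card (Subgroup.centralizer ({u} : Set G))).factorization 2) * M' := by
      rw [← Finset.sum_mul, mul_assoc]
    _ ≤ (2 ^ (Nat.card G).factorization 2 * r ^ (Nat.card G).factorization r) * M' :=
      Nat.mul_le_mul_right _ hY2
    _ = _ := by rw [hprod]; ring

theorem exists_normal {G : Type*} [Group G] [Finite G] (π : Finset ℕ) (hπ : ∀ r ∈ π, r.Prime)
    (h2 : 2 ∈ π)
    (hk : π.prod (fun r => r ^ (Nat.card G).factorization r) < 2 * Nat.card {c : ConjClasses G // ∀ x ∈ c.carrier, ∀ r : ℕ, r.Prime → r ∣ orderOf x → r ∈ π})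
    (r : ℕ) (hr : r ∈ π) :
    ∃ N : Subgroup G, N.Normal ∧ ¬ r ∣ Nat.card N ∧ (∃ a : ℕ, N.index = r ^ a) ∧
      (r ≠ 2 → ∀ x y : G, x * y * x⁻¹ * y⁻¹ ∈ N) := by
  classical
  obtain ⟨K, hKn, hKodd, hKidx⟩ := exists_K π hπ h2 hk
  by_cases hr2 : r = 2
  · subst hr2
    refine ⟨K, hKn, ?_, hKidx, fun h => absurd rfl h⟩
    rw [← even_iff_two_dvd, Nat.not_even_iff_odd]
    exact hKodd
  have hrp : r.Prime := hπ r hr
  have : Fact r.Prime := ⟨hrp⟩
  obtain ⟨R⟩ : Nonempty (Sylow r G) := inferInstance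
  have hNC : Subgroup.normalizer ((R : Subgroup G) : Set G) ≤
      Subgroup.centralizer ((R : Subgroup G) : Set G) := by
    by_contra hne
    exact absurd (key π hπ h2 K hKodd hKidx hr hr2 R hne) (not_le.mpr hk)
  have hc := MonoidHom.ker_transferSylow_isComplement' R hNC
  set N := (MonoidHom.transferSylow R hNC).ker with hN
  refine ⟨N, inferInstance, ?_, ?_, ?_⟩
  · rw [← hc.index_eq_card]; exact R.not_dvd_index
  · rw [hc.symm.index_eq_card]; exact R.2.exists_card_eq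
  · intro _ x y
    obtain ⟨⟨⟨n₁, hn₁⟩, ⟨u₁, hu₁⟩⟩, h₁⟩ := hc.2 x
    obtain ⟨⟨⟨n₂, hn₂⟩, ⟨u₂, hu₂⟩⟩, h₂⟩ := hc.2 y
    simp only at h₁ h₂
    rw [← QuotientGroup.eq_one_iff]
    have e₁ : ((x : G) : G ⧸ N) = (u₁ : G ⧸ N) := by
      rw [← h₁, QuotientGroup.mk_mul, (QuotientGroup.eq_one_iff n₁).mpr hn₁, one_mul]
    have e₂ : ((y : G) : G ⧸ N) = (u₂ : G ⧸ N) := by
      rw [← h₂, QuotientGroup.mk_mul, (QuotientGroup.eq_one_iff n₂).mpr hn₂, one_mul]
    have hcomm : u₁ * u₂ = u₂ * u₁ := by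
      have h3 := hNC (Subgroup.le_normalizer hu₁)
      rw [Subgroup.mem_centralizer_iff] at h3
      exact (h3 u₂ hu₂).symm
    rw [QuotientGroup.mk_mul, QuotientGroup.mk_mul, QuotientGroup.mk_mul, QuotientGroup.mk_inv,
      QuotientGroup.mk_inv, e₁, e₂, ← QuotientGroup.mk_mul, hcomm, QuotientGroup.mk_mul]
    group

/-- properties of an intersection of normal subgroups of prime power index -/
theorem inf_props {G : Type*} [Group G] [Finite G] (π : Finset ℕ) (hπ : ∀ r ∈ π, r.Prime)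
    (Nf : ℕ → Subgroup G) (hNn : ∀ r ∈ π, (Nf r).Normal) (hNc : ∀ r ∈ π, ¬ r ∣ Nat.card (Nf r))
    (hNi : ∀ r ∈ π, ∃ a : ℕ, (Nf r).index = r ^ a) :
    (⨅ r ∈ π, Nf r).Normal ∧ (∀ r : ℕ, r.Prime → r ∣ Nat.card ↥(⨅ r ∈ π, Nf r) → r ∉ π) ∧
      ∀ r : ℕ, r.Prime → r ∣ (⨅ r ∈ π, Nf r).index → r ∈ π := by
  set N : Subgroup G := ⨅ r ∈ π, Nf r with hNdef
  have hmem : ∀ x : G, x ∈ N ↔ ∀ r ∈ π, x ∈ Nf r := by
    intro x; simp [hNdef, Subgroup.mem_iInf]
  have hNnormal : N.Normal :=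
    Subgroup.normal_iInf_normal fun r => Subgroup.normal_iInf_normal fun hr => hNn r hr
  have hle : ∀ r ∈ π, N ≤ Nf r := fun r hr x hx => (hmem x).mp hx r hr
  have hA : ∀ r : ℕ, r.Prime → r ∣ Nat.card ↥N → r ∉ π := by
    intro r _ hd hr
    exact hNc r hr (hd.trans (Subgroup.card_dvd_of_le (hle r hr)))
  have hB : ∀ r : ℕ, r.Prime → r ∣ N.index → r ∈ π := by
    intro q hq hd
    have : Fact q.Prime := ⟨hq⟩
    rw [Subgroup.index_eq_card] at hd
    obtain ⟨xb, hxb⟩ := exists_prime_orderOf_dvd_card' q hd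
    obtain ⟨x, rfl⟩ := QuotientGroup.mk_surjective xb
    have hx1 : x ∉ N := by
      intro hx
      rw [(QuotientGroup.eq_one_iff x).mpr hx, orderOf_one] at hxb
      exact hq.one_lt.ne hxb
    have hxq : x ^ q ∈ N := by
      rw [← QuotientGroup.eq_one_iff, QuotientGroup.mk_pow, ← hxb, pow_orderOf_eq_one]
    rw [hmem] at hx1
    push Not at hx1
    obtain ⟨r, hr, hxr⟩ := hx1
    have := hNn r hr
    have ho : orderOf ((x : G) : G ⧸ Nf r) = q := by
      apply orderOf_eq_prime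
      · rw [← QuotientGroup.mk_pow, QuotientGroup.eq_one_iff]; exact hle r hr hxq
      · rw [Ne, QuotientGroup.eq_one_iff]; exact hxr
    obtain ⟨a, ha⟩ := hNi r hr
    have hd2 : q ∣ r ^ a := by
      rw [← ha, Subgroup.index_eq_card, ← ho]
      exact orderOf_dvd_natCard _
    have := (Nat.prime_dvd_prime_iff_eq hq (hπ r hr)).mp (hq.dvd_of_dvd_pow hd2)
    exact this ▸ hr
  exact ⟨hNnormal, hA, hB⟩

/-- Let π be a finite set of primes containing 2 and G a finite group. Write k_π(G) for the number of conjugacy classes of G consisting of π-elements (elements all of whose order's prime divisors lie in π) and |G|_π for the π-part of the order of G. If k_π(G) > |G|_π/2, then G has a normal π-complement (a normal subgroup of order prime to π whose index is a π-number) and an abelian Hall subgroup for the set of odd primes in π. -/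
theorem result {G : Type*} [Group G] [Finite G] (π : Finset ℕ) (hπ : ∀ r ∈ π, r.Prime) (h2 : 2 ∈ π)
    (hk : π.prod (fun r => r ^ (Nat.card G).factorization r) < 2 * Nat.card {c : ConjClasses G // ∀ x ∈ c.carrier, ∀ r : ℕ, r.Prime → r ∣ orderOf x → r ∈ π}) :
    (∃ N : Subgroup G, N.Normal ∧ (∀ r : ℕ, r.Prime → r ∣ Nat.card ↥N → r ∉ π) ∧ ∀ r : ℕ, r.Prime → r ∣ N.index → r ∈ π) ∧ ∃ H : Subgroup G, Cfsg.IsPiHall ((↑π : Set ℕ) \ {2}) H ∧ IsMulCommutative ↥H := by
  classical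
  have hex := exists_normal π hπ h2 hk
  choose! Nf hNn hNc hNi hNa using hex
  refine ⟨⟨_, inf_props π hπ Nf hNn hNc hNi⟩, ?_⟩
  have hsub : ∀ r ∈ π.erase 2, r ∈ π := fun r hr => Finset.mem_of_mem_erase hr
  obtain ⟨hNnormal, hA, hB⟩ := inf_props (π.erase 2) (fun r hr => hπ r (hsub r hr)) Nf
    (fun r hr => hNn r (hsub r hr)) (fun r hr => hNc r (hsub r hr)) (fun r hr => hNi r (hsub r hr))
  set N : Subgroup G := ⨅ r ∈ π.erase 2, Nf r with hNdef
  have hmem : ∀ x : G, x ∈ N ↔ ∀ r ∈ π.erase 2, x ∈ Nf r := by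
    intro x; simp only [hNdef, Subgroup.mem_iInf]
  have hcop : Nat.Coprime (Nat.card N) N.index :=
    Nat.coprime_of_dvd fun k hk hk1 hk2 => hA k hk hk1 (hB k hk hk2)
  obtain ⟨H, hH⟩ := Subgroup.exists_right_complement'_of_coprime hcop
  have hset : ∀ q : ℕ, q ∈ ((↑π : Set ℕ) \ {2}) ↔ q ∈ π.erase 2 := by
    intro q
    simp [Finset.mem_erase, and_comm]
  refine ⟨H, ⟨?_, ?_⟩, ?_⟩
  · intro q hq hd
    rw [← hH.symm.index_eq_card] at hd
    exact (hset q).mpr (hB q hq hd)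
  · intro q hq hqπ hd
    rw [hH.index_eq_card] at hd
    exact hA q hq hd ((hset q).mp hqπ)
  · refine ⟨⟨fun a b => ?_⟩⟩
    have h1 : a.1 * b.1 * a.1⁻¹ * b.1⁻¹ ∈ N := (hmem _).mpr fun r hr =>
      hNa r (hsub r hr) (Finset.ne_of_mem_erase hr) a.1 b.1
    have h2 : a.1 * b.1 * a.1⁻¹ * b.1⁻¹ ∈ H :=
      H.mul_mem (H.mul_mem (H.mul_mem a.2 b.2) (H.inv_mem a.2)) (H.inv_mem b.2)
    have h3 : a.1 * b.1 * a.1⁻¹ * b.1⁻¹ = 1 := by
      have := hH.disjoint.le_bot ⟨h1, h2⟩
      simpa using this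
    apply Subtype.ext
    change a.1 * b.1 = b.1 * a.1
    calc a.1 * b.1 = (a.1 * b.1 * a.1⁻¹ * b.1⁻¹) * (b.1 * a.1) := by group
      _ = _ := by rw [h3, one_mul]

end Cfsg.Agent.S3898
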