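import Cfsg.Statements.S3903

set_option autoImplicit false
open Cfsg

namespace Cfsg.Agent.S3903

open Subgroup
open scoped Pointwise

variable {G : Type*} [Group G] [Finite G]

/-- the product of a nontrivial `p`-power and a different prime is not a prime power -/
lemma not_isPrimePow_mul {p q a : ℕ} (hp : p.Prime) (hq : q.Prime) (hpq : q ≠ p) (ha : 0 < a) :
    ¬ IsPrimePow (p ^ a * q) := by
  intro h
  rw [isPrimePow_nat_iff] at h
  obtain ⟨r, k, hr, hk, hrk⟩ := h
  have h1 : p ∣ r ^ k := by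
    rw [hrk]; exact Dvd.dvd.mul_right (dvd_pow_self p ha.ne') q
  have h2 : q ∣ r ^ k := by
    rw [hrk]; exact Dvd.intro_left _ rfl
  have h3 := (Nat.prime_dvd_prime_iff_eq hp hr).1 (hp.dvd_of_dvd_pow h1)
  have h4 := (Nat.prime_dvd_prime_iff_eq hq hr).1 (hq.dvd_of_dvd_pow h2)
  exact hpq (h4.trans h3.symm)

/-- Step 1: the centralizer of an element outside `N` of order `p ^ a` is a `p`-group. -/
lemma cent_isPGroup (N : Subgroup G) [N.Normal]
    (h : ∀ x : G, x ∉ N → IsPrimePow (orderOf x) ∧ IsCoatom (Subgroup.centralizer ({x} : Set G)))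
    {p a : ℕ} (hp : p.Prime) (ha : 0 < a) {x : G} (hx : x ∉ N) (hox : orderOf x = p ^ a) :
    IsPGroup p ↥(Subgroup.centralizer ({x} : Set G)) := by
  have key : ∀ y : G, y ∈ Subgroup.centralizer ({x} : Set G) → ∀ q : ℕ, q.Prime → q ∣ orderOf y → q = p := by
    intro y hy q hq hqy
    by_contra hne
    set y' := y ^ (orderOf y / q) with hy'
    have hoy' : orderOf y' = q := by
      rw [hy']
      exact orderOf_pow_orderOf_div (orderOf_pos y).ne' hqy
    have hcomm : Commute x y := by
      have := (Subgroup.mem_centralizer_singleton_iff).1 hy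
      exact this.symm
    have hcomm' : Commute x y' := hcomm.pow_right _
    have hcop : (orderOf x).Coprime (orderOf y') := by
      rw [hox, hoy']
      exact Nat.Coprime.pow_left _ ((Nat.coprime_primes hp hq).2 (fun h => hne h.symm))
    have hord : orderOf (x * y') = p ^ a * q := by
      rw [hcomm'.orderOf_mul_eq_mul_orderOf_of_coprime hcop, hox, hoy']
    have hmem : x * y' ∈ N := by
      by_contra hn
      have := (h _ hn).1
      rw [hord] at this
      exact not_isPrimePow_mul hp hq hne ha this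
    have hxq : x ^ q ∈ N := by
      have h1 : (x * y') ^ q = x ^ q := by
        rw [hcomm'.mul_pow, ← hoy', pow_orderOf_eq_one, mul_one]
      rw [← h1]
      exact N.pow_mem hmem q
    have hcop2 : q.Coprime (orderOf x) := by
      rw [hox]
      exact Nat.Coprime.pow_right _ ((Nat.coprime_primes hq hp).2 hne)
    obtain ⟨m, hm⟩ := exists_pow_eq_self_of_coprime hcop2
    apply hx
    rw [← hm]
    exact N.pow_mem hxq m
  intro ⟨y, hy⟩
  have h1 := Nat.eq_prime_pow_of_unique_prime_dvd (orderOf_pos y).ne' (fun {d} hd hdy => key y hy d hd hdy)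
  refine ⟨(orderOf y).primeFactorsList.length, ?_⟩
  apply Subtype.ext
  simp only [Subgroup.coe_pow, Subgroup.coe_one]
  rw [← h1]
  exact pow_orderOf_eq_one y


lemma card_le_index_mul (P N : Subgroup G) : Nat.card N ≤ P.index * Nat.card ↥(P ⊓ N) := by
  have h1 : (P.subgroupOf N).index * Nat.card (P.subgroupOf N) = Nat.card N := index_mul_card _
  have h2 : Nat.card (P.subgroupOf N) = Nat.card ↥(P ⊓ N) := by
    rw [← inf_subgroupOf_right]
    exact Nat.card_congr (subgroupOfEquivOfLe inf_le_right).toEquiv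
  have h3 : P.relIndex N ≤ P.index := by
    rw [← relIndex_top_right]
    apply relIndex_le_of_le_right le_top
    rw [relIndex_top_right]
    exact index_ne_zero_of_finite
  rw [← h1, h2]
  exact Nat.mul_le_mul_right _ h3

lemma sylow_comm (N : Subgroup G) [N.Normal] (P : Subgroup G)
    (hconj : ∀ y : G, y ∉ N → ∃ g : G, ∀ u : G, u ∈ centralizer {y} ↔ g⁻¹ * u * g ∈ P)
    {x : G} (hxP : x ∈ P) (hxN : x ∉ N) :
    ∀ u ∈ P, ∀ v ∈ P, u * v = v * u := by
  classical
  set ZP : Set G := {z | z ∈ P ∧ (∀ u ∈ P, u * z = z * u) ∧ z ∉ N} with hZP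
  set SP : Set G := {z | z ∈ P ∧ z ∉ N} with hSP
  set SX : Set G := {y | y ∉ N} with hSX
  let f : (G ⧸ P) × G → G := fun t => t.1.out * t.2 * t.1.out⁻¹
  have hsub : SX ⊆ f '' (Set.univ ×ˢ ZP) := by
    intro y hy
    obtain ⟨g, hg⟩ := hconj y hy
    have hz1 : g⁻¹ * y * g ∈ P := (hg y).1 (by
      rw [mem_centralizer_singleton_iff])
    have hz2 : ∀ u ∈ P, u * (g⁻¹ * y * g) = (g⁻¹ * y * g) * u := by
      intro u hu
      have h1 : g * u * g⁻¹ ∈ centralizer {y} := by
        rw [hg]; simpa [mul_assoc] using hu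
      rw [mem_centralizer_singleton_iff] at h1
      have h2 : g⁻¹ * (g * u * g⁻¹ * y) * g = g⁻¹ * (y * (g * u * g⁻¹)) * g := by rw [h1]
      simpa [mul_assoc] using h2
    have hz3 : g⁻¹ * y * g ∉ N := by
      intro hn
      apply hy
      have := ‹N.Normal›.conj_mem _ hn g
      simpa [mul_assoc] using this
    obtain ⟨u, hu⟩ := QuotientGroup.mk_out_eq_mul P g
    refine ⟨((g : G ⧸ P), g⁻¹ * y * g), ⟨Set.mem_univ _, hz1, hz2, hz3⟩, ?_⟩
    simp only [f]
    rw [hu]
    have := hz2 u u.2
    calc g * ↑u * (g⁻¹ * y * g) * (g * ↑u)⁻¹ = g * (↑u * (g⁻¹ * y * g)) * (g * ↑u)⁻¹ := by group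
      _ = g * ((g⁻¹ * y * g) * ↑u) * (g * ↑u)⁻¹ := by rw [this]
      _ = y := by group
  have h1 : SX.ncard ≤ P.index * ZP.ncard := by
    calc SX.ncard ≤ (f '' (Set.univ ×ˢ ZP)).ncard := Set.ncard_le_ncard hsub (Set.toFinite _)
      _ ≤ (Set.univ ×ˢ ZP : Set ((G ⧸ P) × G)).ncard := Set.ncard_image_le (Set.toFinite _)
      _ = P.index * ZP.ncard := by
        rw [Set.ncard_prod, Set.ncard_univ]; rfl
  have h2 : Nat.card N + SX.ncard = Nat.card G := by
    have := Set.ncard_add_ncard_compl (N : Set G)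
    rw [← this]
    rfl
  have h3 : Nat.card ↥(P ⊓ N) + SP.ncard = Nat.card P := by
    have := Set.ncard_inter_add_ncard_sdiff_eq_ncard (P : Set G) (N : Set G) (Set.toFinite _)
    have e1 : ((P : Set G) ∩ (N : Set G)).ncard = Nat.card ↥(P ⊓ N) := by
      rw [← Subgroup.coe_inf]; rfl
    have e2 : ((P : Set G) \ (N : Set G)) = SP := rfl
    rw [e1, e2] at this
    rw [this]; rfl
  have h4 := card_le_index_mul P N
  have h5 : P.index * Nat.card P = Nat.card G := index_mul_card P
  have h6 : P.index * SP.ncard ≤ P.index * ZP.ncard := by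
    have : P.index * (Nat.card ↥(P ⊓ N) + SP.ncard) = Nat.card N + SX.ncard := by
      rw [h3, h5, h2]
    rw [mul_add] at this
    omega
  have h7 : SP.ncard ≤ ZP.ncard := Nat.le_of_mul_le_mul_left h6 (Nat.pos_of_ne_zero index_ne_zero_of_finite)
  have h8 : ZP = SP := Set.eq_of_subset_of_ncard_le (fun z hz => ⟨hz.1, hz.2.2⟩) h7 (Set.toFinite _)
  have h9 : ∀ z ∈ P, z ∉ N → ∀ u ∈ P, u * z = z * u := by
    intro z hz hzN
    have : z ∈ ZP := by rw [h8]; exact ⟨hz, hzN⟩
    exact this.2.1
  intro u hu v hv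
  by_cases hvN : v ∈ N
  · have hvx : v * x ∉ N := fun hh => hxN ((N.mul_mem_cancel_left hvN).1 hh)
    have e1 := h9 (v * x) (P.mul_mem hv hxP) hvx u hu
    have e2 := h9 x hxP hxN u hu
    have : u * v * x = v * u * x := by
      calc u * v * x = u * (v * x) := by group
        _ = v * x * u := e1
        _ = v * (x * u) := by group
        _ = v * (u * x) := by rw [e2]
        _ = v * u * x := by group
    exact mul_right_cancel this
  · exact h9 v hv hvN u hu


lemma solvable_of_isPGroup {H : Type*} [Group H] [Finite H] {p : ℕ} (hp : p.Prime) (h : IsPGroup p H) :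
    Group.IsSolvable H := by
  have : Fact p.Prime := ⟨hp⟩
  have := h.isNilpotent
  infer_instance

omit [Finite G] in
lemma solvable_of_coatom_normal (P : Subgroup G) [P.Normal] (hco : IsCoatom P)
    (hs : Group.IsSolvable P) : Group.IsSolvable G := by
  obtain ⟨g, hg⟩ : ∃ g, g ∉ P := by
    by_contra hh
    push Not at hh
    exact hco.1 (eq_top_iff.2 fun y _ => hh y)
  have htop : zpowers g ⊔ P = ⊤ := by
    apply hco.2
    refine lt_of_le_of_ne le_sup_right ?_
    intro he
    apply hg
    rw [he]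
    exact (le_sup_left : zpowers g ≤ _) (mem_zpowers g)
  have hcyc : IsCyclic (G ⧸ P) := by
    refine ⟨⟨(g : G ⧸ P), ?_⟩⟩
    intro y
    obtain ⟨w, rfl⟩ := QuotientGroup.mk_surjective y
    have hw : w ∈ zpowers g ⊔ P := by rw [htop]; trivial
    obtain ⟨a, ha, b, hb, rfl⟩ := Subgroup.mem_sup_of_normal_right.1 hw
    obtain ⟨k, rfl⟩ := Subgroup.mem_zpowers_iff.1 ha
    refine Subgroup.mem_zpowers_iff.2 ⟨k, ?_⟩
    rw [QuotientGroup.mk_mul_of_mem _ hb]
    rfl
  have hq : Group.IsSolvable (G ⧸ P) := Group.isSolvable_of_comm (fun a b => mul_comm' a b)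
  exact (Group.isSolvable_iff_subgroup_quotient P).2 ⟨hs, hq⟩

omit [Finite G] in
lemma mem_conj_smul_iff (g u : G) (P : Subgroup G) : u ∈ MulAut.conj g • P ↔ g⁻¹ * u * g ∈ P := by
  rw [Subgroup.mem_pointwise_smul_iff_inv_smul_mem]
  simp [MulAut.smul_def]

/-- the index of `N` is a nontrivial power of the prime attached to any element outside `N`. -/
lemma index_pow (N : Subgroup G) [N.Normal] (hN : N ≠ ⊤) (hns : ¬ Group.IsSolvable ↥N)
    (h : ∀ x : G, x ∉ N → IsPrimePow (orderOf x) ∧ IsCoatom (Subgroup.centralizer ({x} : Set G)))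
    {p a : ℕ} (hp : p.Prime) (ha : 0 < a) {x : G} (hx : x ∉ N) (hox : orderOf x = p ^ a) :
    p ∣ N.index ∧ ∃ j, N.index = p ^ j := by
  have hM := cent_isPGroup N h hp ha hx hox
  have hMco := (h x hx).2
  have hnle : ¬ N ≤ centralizer ({x} : Set G) := by
    intro hle
    exact hns (solvable_of_isPGroup hp (hM.to_le hle))
  have htop : centralizer ({x} : Set G) ⊔ N = ⊤ := by
    apply hMco.2
    refine lt_of_le_of_ne le_sup_left ?_
    intro he
    apply hnle
    rw [he]
    exact le_sup_right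
  have h1 : N.index = N.relIndex (centralizer ({x} : Set G)) := by
    rw [← relIndex_top_right, ← htop, relIndex_sup_right]
  have h2 : N.index ∣ Nat.card (centralizer ({x} : Set G)) := by
    rw [h1]; exact relIndex_dvd_card _ _
  have : Fact p.Prime := ⟨hp⟩
  obtain ⟨n, hn⟩ := IsPGroup.iff_card.1 hM
  rw [hn] at h2
  obtain ⟨j, -, hj⟩ := (Nat.dvd_prime_pow hp).1 h2
  refine ⟨?_, j, hj⟩
  rw [hj]
  apply dvd_pow_self
  rintro rfl
  rw [pow_zero, index_eq_one] at hj
  exact hN hj

/-- Let N be a proper normal subgroup of the finite group G such that every element x of G outside N has prime power order and has centralizer C_G(x) a maximal subgroup of G. Then N is solvable. -/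
theorem result {G : Type*} [Group G] [Finite G] (N : Subgroup G) [N.Normal] (hN : N ≠ ⊤)
    (h : ∀ x : G, x ∉ N → IsPrimePow (orderOf x) ∧ IsCoatom (Subgroup.centralizer ({x} : Set G))) : Group.IsSolvable ↥N := by
  by_contra hns
  have hGns : ¬ Group.IsSolvable G := fun hG => hns inferInstance
  obtain ⟨x, hx⟩ : ∃ x, x ∉ N := by
    by_contra hh
    push Not at hh
    exact hN (eq_top_iff.2 fun y _ => hh y)
  obtain ⟨p, a, hp, ha, hpa⟩ := (isPrimePow_nat_iff _).1 (h x hx).1
  have hpF : Fact p.Prime := ⟨hp⟩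
  -- every centralizer of an element outside `N` is a Sylow `p`-subgroup
  have hsyl : ∀ y : G, y ∉ N → ∃ P' : Sylow p G, (P' : Subgroup G) = centralizer ({y} : Set G) := by
    intro y hy
    obtain ⟨q, b, hq, hb, hqb⟩ := (isPrimePow_nat_iff _).1 (h y hy).1
    have hqp : q = p := by
      obtain ⟨h1, -⟩ := index_pow N hN hns h hq hb hy hqb.symm
      obtain ⟨-, j, hj⟩ := index_pow N hN hns h hp ha hx hpa.symm
      rw [hj] at h1
      exact (Nat.prime_dvd_prime_iff_eq hq hp).1 (hq.dvd_of_dvd_pow h1)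
    subst hqp
    have hM := cent_isPGroup N h hq hb hy hqb.symm
    obtain ⟨P', hP'⟩ := hM.exists_le_sylow
    refine ⟨P', ?_⟩
    by_contra hne
    have htop : (P' : Subgroup G) = ⊤ := (h y hy).2.2 _ (lt_of_le_of_ne hP' (fun e => hne e.symm))
    apply hGns
    have h1 : IsPGroup q (⊤ : Subgroup G) := htop ▸ P'.2
    exact solvable_of_isPGroup hq (h1.of_equiv Subgroup.topEquiv)
  obtain ⟨P, hP⟩ := hsyl x hx
  have hPco : IsCoatom (P : Subgroup G) := hP ▸ (h x hx).2
  have hxP : x ∈ (P : Subgroup G) := by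
    rw [hP, mem_centralizer_singleton_iff]
  have hconj : ∀ y : G, y ∉ N → ∃ g : G, ∀ u : G, u ∈ centralizer {y} ↔ g⁻¹ * u * g ∈ (P : Subgroup G) := by
    intro y hy
    obtain ⟨P', hP'⟩ := hsyl y hy
    obtain ⟨g, hg⟩ := MulAction.exists_smul_eq G P P'
    refine ⟨g, fun u => ?_⟩
    rw [← hP', ← hg, Sylow.coe_subgroup_smul, mem_conj_smul_iff]
  have hab := sylow_comm N (P : Subgroup G) hconj hxP hx
  have hPs : Group.IsSolvable (P : Subgroup G) := solvable_of_isPGroup hp P.2
  -- the normalizer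
  have hnorm : normalizer ((P : Subgroup G) : Set G) = (P : Subgroup G) := by
    by_contra hne
    have htop := hPco.2 _ (lt_of_le_of_ne le_normalizer (fun e => hne e.symm))
    have : (P : Subgroup G).Normal := normalizer_eq_top_iff.1 htop
    exact hGns (solvable_of_coatom_normal (P : Subgroup G) hPco hPs)
  have hNC : normalizer ((P : Subgroup G) : Set G) ≤ centralizer ((P : Subgroup G) : Set G) := by
    rw [hnorm]
    intro u hu
    rw [mem_centralizer_iff]
    intro v hv
    exact hab v hv u hu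
  set K := (MonoidHom.transferSylow P hNC).ker with hK
  have hKc : IsComplement' K (P : Subgroup G) := MonoidHom.ker_transferSylow_isComplement' P hNC
  have hKp : ¬ p ∣ Nat.card K := MonoidHom.not_dvd_card_ker_transferSylow P hNC
  have hK1 : Nat.card K ≠ 1 := by
    intro h1
    have h2 := hKc.card_mul_card
    rw [h1, one_mul] at h2
    exact hPco.1 ((P : Subgroup G).eq_top_of_card_eq h2)
  set q := (Nat.card K).minFac with hq
  have hqp : q.Prime := Nat.minFac_prime hK1
  have hqK : q ∣ Nat.card K := Nat.minFac_dvd _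
  have hqne : q ≠ p := fun e => hKp (e ▸ hqK)
  have hqF : Fact q.Prime := ⟨hqp⟩
  let Q : Sylow q K := default
  set Q' : Subgroup G := (Q : Subgroup K).map K.subtype with hQ'
  have hQ'q : IsPGroup q Q' := Q.2.map _
  have hQ'card : q ∣ Nat.card Q' := by
    have h1 : Nat.card Q' = Nat.card (Q : Subgroup K) :=
      Nat.card_congr ((Q : Subgroup K).equivMapOfInjective K.subtype K.subtype_injective).symm.toEquiv
    rw [h1]
    exact Q.dvd_card_of_dvd_card hqK
  have hfrat : normalizer (Q' : Set G) ⊔ K = ⊤ := Sylow.normalizer_sup_eq_top Q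
  set L := normalizer (Q' : Set G) with hL
  have hPL : Nat.card (P : Subgroup G) ∣ Nat.card L := by
    have h1 : K.relIndex L = Nat.card (P : Subgroup G) := by
      rw [← relIndex_sup_right, hfrat, relIndex_top_right, hKc.symm.index_eq_card]
    rw [← h1]
    exact relIndex_dvd_card _ _
  rw [P.card_eq_multiplicity] at hPL
  obtain ⟨S, hS⟩ := Sylow.exists_subgroup_card_pow_prime p hPL
  set S' : Subgroup G := S.map L.subtype with hS'
  have hS'card : Nat.card S' = p ^ (Nat.card G).factorization p := by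
    rw [← hS]
    exact Nat.card_congr (S.equivMapOfInjective L.subtype L.subtype_injective).symm.toEquiv
  have hS'L : S' ≤ L := map_subtype_le S
  obtain ⟨g, hg⟩ := MulAction.exists_smul_eq G P (Sylow.ofCard S' hS'card)
  have hS'eq : S' = centralizer ({g * x * g⁻¹} : Set G) := by
    have h1 : S' = MulAut.conj g • (P : Subgroup G) := by
      rw [← Sylow.coe_subgroup_smul, hg, Sylow.coe_ofCard]
    ext u
    rw [h1, mem_conj_smul_iff, hP, mem_centralizer_singleton_iff, mem_centralizer_singleton_iff]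
    constructor
    · intro e
      have : g * (g⁻¹ * u * g * x) * g⁻¹ = g * (x * (g⁻¹ * u * g)) * g⁻¹ := by rw [e]
      simpa [mul_assoc] using this
    · intro e
      have : g⁻¹ * (u * (g * x * g⁻¹)) * g = g⁻¹ * (g * x * g⁻¹ * u) * g := by rw [e]
      simpa [mul_assoc] using this
  have hgx : g * x * g⁻¹ ∉ N := by
    intro hn
    apply hx
    have := ‹N.Normal›.conj_mem _ hn g⁻¹
    simpa [mul_assoc] using this
  have hS'co : IsCoatom S' := hS'eq ▸ (h _ hgx).2
  have hQS : ¬ Q' ≤ S' := by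
    intro hle
    have h1 : q ∣ p ^ (Nat.card G).factorization p := by
      rw [← hS'card]
      exact hQ'card.trans (card_dvd_of_le hle)
    exact hqne ((Nat.prime_dvd_prime_iff_eq hqp hp).1 (hqp.dvd_of_dvd_pow h1))
  have hQL : Q' ≤ L := le_normalizer
  have hLtop : L = ⊤ := by
    apply hS'co.2
    refine lt_of_le_of_ne hS'L ?_
    intro e
    exact hQS (e ▸ hQL)
  have hQn : Q'.Normal := normalizer_eq_top_iff.1 hLtop
  have hSQ : S' ⊔ Q' = ⊤ := by
    apply hS'co.2
    refine lt_of_le_of_ne le_sup_left ?_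
    intro e
    apply hQS
    rw [e]
    exact le_sup_right
  have hidx : Q'.index ∣ p ^ (Nat.card G).factorization p := by
    rw [← hS'card, ← relIndex_top_right, ← hSQ, relIndex_sup_right]
    exact relIndex_dvd_card _ _
  obtain ⟨j, -, hj⟩ := (Nat.dvd_prime_pow hp).1 hidx
  have hquot : IsPGroup p (G ⧸ Q') := IsPGroup.of_card (n := j) hj
  exact hGns ((Group.isSolvable_iff_subgroup_quotient Q').2
    ⟨solvable_of_isPGroup hqp hQ'q, solvable_of_isPGroup hp hquot⟩)

end Cfsg.Agent.S3903
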