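import Cfsg.Statements.S3908
import Cfsg.Agent.S0016

set_option autoImplicit false
open Cfsg

namespace Cfsg.Agent.S3908


open Subgroup

/-- A finite `p`-group with two distinct subgroups of order `p` has a subgroup of order `p ^ 2` and
exponent `p`. -/
lemma exists_sq {R : Type*} [Group R] [Finite R] {p : ℕ} [hp : Fact p.Prime] (hR : IsPGroup p R)
    (H K : Subgroup R) (hH : Nat.card H = p) (hK : Nat.card K = p) (hne : H ≠ K) :
    ∃ E : Subgroup R, Nat.card E = p ^ 2 ∧ ∀ e ∈ E, e ^ p = 1 := by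
  have hnt : Nontrivial R := by
    by_contra hn
    rw [not_nontrivial_iff_subsingleton] at hn
    exact hne (Subsingleton.elim _ _)
  have hcn : Nontrivial (center R) := hR.center_nontrivial
  have hcp : IsPGroup p (center R) := hR.to_subgroup _
  have hdvd : p ∣ Nat.card (center R) := by
    rcases hcp.card_eq_or_dvd with h | h
    · exact absurd h (Finite.one_lt_card).ne'
    · exact h
  obtain ⟨z, hz⟩ := exists_prime_orderOf_dvd_card' p hdvd
  have hzo : orderOf (z : R) = p := by rw [Subgroup.orderOf_coe, hz]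
  set Z := zpowers (z : R) with hZ
  have hZc : Nat.card Z = p := by rw [Nat.card_zpowers, hzo]
  have hZle : Z ≤ center R := by
    rw [hZ, zpowers_le]; exact z.2
  have hZn : Z.Normal := ⟨fun n hn g => by
    have := (Subgroup.mem_center_iff.1 (hZle hn)) g
    rw [this, mul_inv_cancel_right]
    exact hn⟩
  obtain ⟨H', hH', hH'Z⟩ : ∃ H' : Subgroup R, Nat.card H' = p ∧ H' ≠ Z := by
    by_cases h : H = Z
    · exact ⟨K, hK, fun e => hne (h.trans e.symm)⟩
    · exact ⟨H, hH, h⟩
  have hinf : Z ⊓ H' = ⊥ := by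
    have h1 : Nat.card ↥(Z ⊓ H') ∣ p := hH' ▸ card_dvd_of_le inf_le_right
    rcases (Nat.dvd_prime hp.out).1 h1 with h | h
    · exact (Subgroup.card_eq_one).1 h
    · exfalso
      have e1 : Z ⊓ H' = H' := Subgroup.eq_of_le_of_card_ge inf_le_right (by rw [h, hH'])
      have e2 : Z ⊓ H' = Z := Subgroup.eq_of_le_of_card_ge inf_le_left (by rw [h, hZc])
      exact hH'Z (e1.symm.trans e2)
  refine ⟨H' ⊔ Z, ?_, ?_⟩
  · have h1 : Z.relIndex (H' ⊔ Z) = p := by
      rw [relIndex_sup_right, ← inf_relIndex_right, hinf, relIndex_bot_left, hH']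
    have h2 : Z.relIndex (H' ⊔ Z) * Nat.card Z = Nat.card ↥(H' ⊔ Z) := by
      have e1 := (Z.subgroupOf (H' ⊔ Z)).index_mul_card
      have e2 : Nat.card (Z.subgroupOf (H' ⊔ Z)) = Nat.card Z :=
        Nat.card_congr (subgroupOfEquivOfLe le_sup_right).toEquiv
      rw [e2] at e1
      exact e1
    rw [← h2, h1, hZc, sq]
  · intro e he
    obtain ⟨a, ha, b, hb, rfl⟩ := Subgroup.mem_sup_of_normal_right.1 he
    have hcomm : Commute a b := ((Subgroup.mem_center_iff.1 (hZle hb)) a)
    rw [hcomm.mul_pow]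
    have ea : a ^ p = 1 := by
      have := pow_card_eq_one' (x := (⟨a, ha⟩ : H'))
      rw [hH'] at this
      exact congrArg Subtype.val this
    have eb : b ^ p = 1 := by
      have := pow_card_eq_one' (x := (⟨b, hb⟩ : Z))
      rw [hZc] at this
      exact congrArg Subtype.val this
    rw [ea, eb, one_mul]

lemma key {G : Type*} [Group G] [Finite G] (hB : ∀ A B : Subgroup G, IsMulCommutative ↥A → IsMulCommutative ↥B → Nat.card ↥A = Nat.card ↥B → ∃ g : G, B = A.map (MulAut.conj g).toMonoidHom)
    (p : ℕ) [hp : Fact p.Prime] (P : Sylow p G) :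
    (∀ x ∈ (P : Subgroup G), x ^ p = 1) ∨
      (∀ H K : Subgroup ↥(P : Subgroup G), Nat.card H = p → Nat.card K = p → H = K) := by
  by_contra hcon
  push Not at hcon
  obtain ⟨⟨x, hx, hxp⟩, H, K, hH, hK, hne⟩ := hcon
  obtain ⟨E, hE, hEp⟩ := exists_sq P.2 H K hH hK hne
  obtain ⟨k, hk⟩ := (IsPGroup.iff_orderOf.1 P.2) ⟨x, hx⟩
  rw [Subgroup.orderOf_mk] at hk
  rcases k with _ | _ | k
  · rw [pow_zero, orderOf_eq_one_iff] at hk
    exact hxp (by rw [hk, one_pow])
  · rw [zero_add, pow_one] at hk
    exact hxp (by rw [← hk, pow_orderOf_eq_one])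
  · set y := x ^ (p ^ k) with hy
    have hoy : orderOf y = p ^ 2 := by
      rw [hy, orderOf_pow' _ (pow_ne_zero _ hp.out.ne_zero), hk,
        Nat.gcd_eq_right (pow_dvd_pow p (by omega)), Nat.pow_div (by omega) hp.out.pos]
      congr 1; omega
    set E' := E.map (P : Subgroup G).subtype with hE'
    have hE'c : Nat.card E' = p ^ 2 := by
      rw [← hE]
      exact Nat.card_congr (E.equivMapOfInjective _ (P : Subgroup G).subtype_injective).symm.toEquiv
    obtain ⟨g, hg⟩ := hB E' (zpowers y) (IsPGroup.isMulCommutative_of_card_eq_prime_sq hE'c) inferInstance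
      (by rw [Nat.card_zpowers, hE'c, hoy])
    have hym : y ∈ E'.map (MulAut.conj g).toMonoidHom := hg ▸ mem_zpowers y
    obtain ⟨e', ⟨e, he, rfl⟩, hey⟩ := hym
    have h1 : y ^ p = 1 := by
      rw [← hey, ← map_pow]
      have : ((P : Subgroup G).subtype e) ^ p = 1 := by
        rw [← map_pow, hEp e he, map_one]
      rw [this, map_one]
    have h3 := orderOf_dvd_of_pow_eq_one h1
    rw [hoy] at h3
    have h4 := Nat.le_of_dvd hp.out.pos h3
    have h5 := hp.out.one_lt
    nlinarith

/-- Let G be a finite group in which any two abelian subgroups of the same order are conjugate. Then a Sylow 2-subgroup of G is cyclic, elementary abelian or generalized quaternion, and for an odd prime p a Sylow p-subgroup of G is cyclic or has exponent dividing p. -/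
theorem result {G : Type*} [Group G] [Finite G] (hB : ∀ A B : Subgroup G, IsMulCommutative ↥A → IsMulCommutative ↥B → Nat.card ↥A = Nat.card ↥B → ∃ g : G, B = A.map (MulAut.conj g).toMonoidHom) :
    (∀ P : Sylow 2 G, IsCyclic ↥(P : Subgroup G) ∨ Cfsg.IsElementaryAbelian 2 (P : Subgroup G) ∨ ∃ k : ℕ, Nonempty (↥(P : Subgroup G) ≃* QuaternionGroup (2 ^ k))) ∧
    ∀ (p : ℕ) [Fact p.Prime], p ≠ 2 → ∀ P : Sylow p G, IsCyclic ↥(P : Subgroup G) ∨ ∀ x ∈ (P : Subgroup G), x ^ p = 1 := by
  refine ⟨?_, ?_⟩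
  · intro P
    rcases key hB 2 P with h | h
    · right; left
      refine ⟨?_, h⟩
      refine ⟨⟨fun a b => ?_⟩⟩
      have h2 : ∀ c : ↥(P : Subgroup G), c * c = 1 := fun c => by
        have := h c.1 c.2
        apply Subtype.ext
        rw [sq] at this
        exact this
      calc a * b = a * b * ((b * a) * (b * a)) := by rw [h2, mul_one]
        _ = a * (b * b) * a * (b * a) := by group
        _ = b * a := by rw [h2, mul_one, h2, one_mul]
    · rcases Cfsg.Agent.S0016.result 2 P.2 h with hc | ⟨-, n, hn⟩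
      · left; exact hc
      · right; right; exact ⟨n, hn⟩
  · intro p hp hp2 P
    rcases key hB p P with h | h
    · right; exact h
    · rcases Cfsg.Agent.S0016.result p P.2 h with hc | ⟨h2, -⟩
      · left; exact hc
      · exact absurd h2 hp2

end Cfsg.Agent.S3908
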