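import Cfsg.Statements.S3917
-- import your own Cfsg.Agent.* helpers here

set_option autoImplicit false
open Cfsg

namespace Cfsg.Agent.S3917

/-- Say that a group has self-centralizing non-cyclic subgroups when every non-cyclic subgroup H satisfies C_G(H) ≤ H. A finite abelian group with self-centralizing non-cyclic subgroups is cyclic or elementary abelian of order p² for a prime p. -/
theorem result {G : Type*} [CommGroup G] [Finite G] (hX : (∀ H : Subgroup G, ¬ IsCyclic ↥H → Subgroup.centralizer (H : Set G) ≤ H)) :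
    IsCyclic G ∨ ∃ p : ℕ, p.Prime ∧ Nat.card G = p ^ 2 ∧ Monoid.exponent G = p := by
  by_cases hc : IsCyclic G
  · left; exact hc
  right
  have hprop : ∀ H : Subgroup G, H ≠ ⊤ → IsCyclic H := by
    intro H hH
    by_contra hn
    apply hH
    rw [eq_top_iff]
    intro x _
    apply hX H hn
    rw [Subgroup.mem_centralizer_iff]
    intro h _
    exact mul_comm _ _
  have hcc : ∀ H : Subgroup G, IsCyclic H → ∀ m : ℕ, (∀ h ∈ H, h ^ m = 1) → Nat.card H ∣ m := by
    intro H hH m hm
    rw [← IsCyclic.exponent_eq_card]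
    exact Monoid.exponent_dvd_of_forall_pow_eq_one (fun a => Subtype.ext (hm a.1 a.2))
  set e := Monoid.exponent G with he
  have he0 : e ≠ 0 := Monoid.exponent_ne_zero_of_finite
  have hne : e ≠ Nat.card G := fun h => hc (IsCyclic.iff_exponent_eq_card.2 h)
  have hdvd : e ∣ Nat.card G := Group.exponent_dvd_nat_card
  have he1 : e ≠ 1 := by
    intro h
    have : Subsingleton G := Monoid.exp_eq_one_iff.1 h
    exact hc inferInstance
  set p := e.minFac with hp
  have hpp : p.Prime := Nat.minFac_prime he1
  have hpe : p ∣ e := Nat.minFac_dvd e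
  have hpF : Fact p.Prime := ⟨hpp⟩
  have hep : ∀ g : G, g ^ p = 1 := by
    by_contra hcon
    push Not at hcon
    obtain ⟨g₀, hg₀⟩ := hcon
    let φ : G →* G := powMonoidHom (e / p)
    let ψ : G →* G := powMonoidHom p
    have hk1 : φ.ker ≠ ⊤ := by
      intro htop
      have h1 : e ∣ e / p := Monoid.exponent_dvd_of_forall_pow_eq_one (fun g => by
        have : g ∈ φ.ker := by rw [htop]; trivial
        exact this)
      have h2 : e / p < e := Nat.div_lt_self (Nat.pos_of_ne_zero he0) hpp.one_lt
      have h3 : 0 < e / p := Nat.div_pos (Nat.le_of_dvd (Nat.pos_of_ne_zero he0) hpe) hpp.pos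
      exact absurd (Nat.le_of_dvd h3 h1) (not_le.2 h2)
    have hk2 : ψ.ker ≠ ⊤ := by
      intro htop
      have : g₀ ∈ ψ.ker := by rw [htop]; trivial
      exact hg₀ this
    have c1 : Nat.card φ.ker ∣ e / p := hcc _ (hprop _ hk1) _ (fun h hh => hh)
    have c2 : Nat.card ψ.ker ∣ p := hcc _ (hprop _ hk2) _ (fun h hh => hh)
    have c3 : Nat.card φ.range ∣ Nat.card ψ.ker := by
      apply Subgroup.card_dvd_of_le
      rintro _ ⟨g, rfl⟩
      show (g ^ (e / p)) ^ p = 1
      rw [← pow_mul, Nat.div_mul_cancel hpe]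
      exact Monoid.pow_exponent_eq_one g
    have c4 : Nat.card φ.ker * Nat.card φ.range = Nat.card G := by
      rw [← Subgroup.index_ker, Subgroup.card_mul_index]
    have c5 : Nat.card G ∣ e := by
      rw [← c4, ← Nat.div_mul_cancel hpe]
      exact Nat.mul_dvd_mul c1 (c3.trans c2)
    exact hne (Nat.dvd_antisymm hdvd c5)
  have hep' : e = p := by
    have h1 : e ∣ p := Monoid.exponent_dvd_of_forall_pow_eq_one hep
    exact (Nat.dvd_antisymm h1 hpe)
  refine ⟨p, hpp, ?_, hep'⟩
  have hG : IsPGroup p G := fun g => ⟨1, by rw [pow_one]; exact hep g⟩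
  obtain ⟨n, hn⟩ := IsPGroup.iff_card.1 hG
  have hn2 : 2 ≤ n := by
    rcases n with _ | _ | n
    · rw [pow_zero] at hn
      have : Subsingleton G := (Nat.card_eq_one_iff_unique.1 hn).1
      exact absurd (inferInstance : IsCyclic G) hc
    · rw [zero_add, pow_one] at hn
      exact absurd (hep'.trans hn.symm) hne
    · omega
  obtain ⟨H, hH⟩ := Sylow.exists_subgroup_card_pow_prime p (n := 2) (G := G) (by rw [hn]; exact pow_dvd_pow p hn2)
  have hHtop : H = ⊤ := by
    by_contra hne'
    have h1 := hcc H (hprop H hne') p (fun h _ => hep h)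
    rw [hH] at h1
    have h2 := Nat.le_of_dvd hpp.pos h1
    have h3 := hpp.one_lt
    nlinarith
  rw [← hH, hHtop, Subgroup.card_top]

end Cfsg.Agent.S3917
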