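import Cfsg.Statements.S3918
import Cfsg.Agent.Lib.Helper29.NormalRankTwo
import Cfsg.Agent.Lib.Helper73.Taussky

set_option autoImplicit false
open Cfsg

namespace Cfsg.Agent.S3918

open Subgroup

lemma index_centralizer_lt {G : Type*} [Group G] [Finite G] (E : Subgroup G) [hE : E.Normal] (e : G)
    (he : e ∈ E) (he1 : e ≠ 1) : (centralizer {e}).index < Nat.card E := by
  classical
  let f : G ⧸ centralizer {e} → E := fun q => Quotient.liftOn' q
    (fun g => (⟨g * e * g⁻¹, hE.conj_mem e he g⟩ : E)) (by
      intro a b hab
      rw [QuotientGroup.leftRel_apply, mem_centralizer_singleton_iff] at hab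
      apply Subtype.ext
      show a * e * a⁻¹ = b * e * b⁻¹
      have : e = (a⁻¹ * b) * e * (a⁻¹ * b)⁻¹ := by
        rw [hab]; group
      calc a * e * a⁻¹ = a * ((a⁻¹ * b) * e * (a⁻¹ * b)⁻¹) * a⁻¹ := by rw [← this]
        _ = b * e * b⁻¹ := by group)
  have hf : Function.Injective f := by
    intro q q' hqq
    induction q using QuotientGroup.induction_on with | H a => ?_
    induction q' using QuotientGroup.induction_on with | H b => ?_
    have h1 : a * e * a⁻¹ = b * e * b⁻¹ := congrArg Subtype.val hqq
    rw [QuotientGroup.eq, mem_centralizer_singleton_iff]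
    calc a⁻¹ * b * e = a⁻¹ * (b * e * b⁻¹) * b := by group
      _ = a⁻¹ * (a * e * a⁻¹) * b := by rw [h1]
      _ = e * (a⁻¹ * b) := by group
  have hn : (1 : E) ∉ Set.range f := by
    rintro ⟨q, hq⟩
    induction q using QuotientGroup.induction_on with | H a => ?_
    have h1 : a * e * a⁻¹ = 1 := congrArg Subtype.val hq
    apply he1
    calc e = a⁻¹ * (a * e * a⁻¹) * a := by group
      _ = 1 := by rw [h1]; group
  letI : Fintype (G ⧸ centralizer {e}) := Fintype.ofFinite _
  letI : Fintype E := Fintype.ofFinite _
  rw [index_eq_card, Nat.card_eq_fintype_card, Nat.card_eq_fintype_card]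
  exact Fintype.card_lt_of_injective_of_notMem f hf hn

theorem result {G : Type*} [Group G] [Finite G] {p : ℕ} [Fact p.Prime] (hp : p ≠ 2) (hG : IsPGroup p G) (hna : ¬ IsMulCommutative G) :
    (∀ H : Subgroup G, ¬ IsCyclic ↥H → Subgroup.centralizer (H : Set G) ≤ H) ↔ Nat.card G = p ^ 3 := by
  have hpp : p.Prime := Fact.out
  constructor
  · intro h
    have hnc : ¬ IsCyclic (⊤ : Subgroup G) := by
      intro hc
      apply hna
      have : IsCyclic G := (Subgroup.topEquiv (G := G)).isCyclic.1 hc
      exact IsCyclic.isMulCommutative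
    obtain ⟨E, -, hEn, hEc, hEexp, hEcard⟩ :=
      Cfsg.Agent.Lib.Helper29.exists_normal_elemAb_sq_of_not_isCyclic hp hG ⊤ hnc
    have hEnc : ¬ IsCyclic E := by
      intro hc
      obtain ⟨g, hg⟩ := hc.exists_generator
      have h1 : orderOf g = Nat.card E := orderOf_eq_card_of_forall_mem_zpowers hg
      have h2 : g ^ p = 1 := Subtype.ext (by simpa using hEexp g g.2)
      have h3 : orderOf g ∣ p := orderOf_dvd_of_pow_eq_one h2
      rw [h1, hEcard] at h3
      have := Nat.le_of_dvd hpp.pos h3
      nlinarith [hpp.two_le]
    have hCE := h E hEnc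
    have hEbot : E ≠ ⊥ := by
      rintro rfl
      rw [Subgroup.card_bot] at hEcard
      nlinarith [hpp.two_le]
    obtain ⟨z, hzE, hzZ, hzo⟩ := Cfsg.Agent.Lib.Helper73.exists_central_orderOf_eq_prime hG E hEbot
    obtain ⟨e, heE, hez⟩ : ∃ e ∈ E, e ∉ zpowers z := by
      by_contra hcon
      push Not at hcon
      have h1 : Nat.card E ≤ Nat.card (zpowers z) := Subgroup.card_le_of_le hcon
      rw [Nat.card_zpowers, hzo, hEcard] at h1
      nlinarith [hpp.two_le]
    have he1 : e ≠ 1 := fun h1 => hez (h1 ▸ one_mem _)
    have hCe : centralizer {e} ≤ E := by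
      intro x hx
      apply hCE
      set D := E ⊓ centralizer {x} with hD
      have hzD : zpowers z ≤ D := by
        rw [zpowers_le, hD, mem_inf, mem_centralizer_singleton_iff]
        exact ⟨hzE, ((mem_center_iff.1 hzZ) x).symm⟩
      have heD : e ∈ D := by
        rw [hD, mem_inf, mem_centralizer_singleton_iff]
        rw [mem_centralizer_singleton_iff] at hx
        exact ⟨heE, hx.symm⟩
      have hDE : D = E := by
        have h1 : Nat.card D ∣ p ^ 2 := hEcard ▸ Subgroup.card_dvd_of_le inf_le_left
        obtain ⟨k, hk, hkD⟩ := (Nat.dvd_prime_pow hpp).1 h1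
        have h2 : p ∣ Nat.card D := by
          have := Subgroup.card_dvd_of_le hzD
          rwa [Nat.card_zpowers, hzo] at this
        interval_cases k
        · rw [hkD, pow_zero] at h2
          exact absurd (Nat.le_of_dvd (by norm_num) h2) (by have := hpp.two_le; omega)
        · exfalso
          apply hez
          have : zpowers z = D := Subgroup.eq_of_le_of_card_ge hzD (by rw [Nat.card_zpowers, hzo, hkD, pow_one])
          rw [this]; exact heD
        · exact Subgroup.eq_of_le_of_card_ge inf_le_left (by rw [hkD, hEcard])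
      rw [mem_centralizer_iff]
      intro y hy
      have : y ∈ D := hDE ▸ hy
      rw [hD, mem_inf, mem_centralizer_singleton_iff] at this
      exact this.2
    have hidx := index_centralizer_lt E e heE he1
    obtain ⟨n, hn⟩ := IsPGroup.iff_card.1 hG
    have h1 : (centralizer {e}).index ∣ p ^ n := hn ▸ (centralizer {e}).index_dvd_card
    obtain ⟨k, -, hk⟩ := (Nat.dvd_prime_pow hpp).1 h1
    have hk1 : k ≤ 1 := by
      rw [hk, hEcard] at hidx
      have := (Nat.pow_lt_pow_iff_right hpp.one_lt).1 hidx
      omega
    have h2 : Nat.card (centralizer {e}) ∣ p ^ 2 := hEcard ▸ Subgroup.card_dvd_of_le hCe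
    obtain ⟨j, hj, hjc⟩ := (Nat.dvd_prime_pow hpp).1 h2
    have h3 := (centralizer {e}).card_mul_index
    rw [hk, hjc, ← pow_add] at h3
    -- |G| = p^(j+k) with j + k ≤ 3
    have hjk : j + k = 3 := by
      by_contra hne
      have hle : j + k ≤ 2 := by omega
      apply hna
      have hcases : j + k = 0 ∨ j + k = 1 ∨ j + k = 2 := by omega
      rcases hcases with h0 | h0 | h0
      · rw [h0, pow_zero] at h3
        have : Subsingleton G := (Nat.card_eq_one_iff_unique.1 h3.symm).1
        exact ⟨⟨fun a b => Subsingleton.elim _ _⟩⟩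
      · rw [h0, pow_one] at h3
        have : IsCyclic G := isCyclic_of_prime_card h3.symm
        exact IsCyclic.isMulCommutative
      · rw [h0] at h3
        exact IsPGroup.isMulCommutative_of_card_eq_prime_sq h3.symm
    rw [← h3, hjk]
  · intro hcard H hH
    have h1 : Nat.card H ∣ p ^ 3 := hcard ▸ Subgroup.card_subgroup_dvd_card H
    obtain ⟨k, hk, hkH⟩ := (Nat.dvd_prime_pow hpp).1 h1
    interval_cases k
    · exfalso
      apply hH
      rw [pow_zero] at hkH
      have : H = ⊥ := (Subgroup.card_eq_one).1 hkH
      rw [this]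
      infer_instance
    · exfalso
      apply hH
      rw [pow_one] at hkH
      exact isCyclic_of_prime_card hkH
    · intro x hx
      by_contra hxH
      have hHc : IsMulCommutative H := IsPGroup.isMulCommutative_of_card_eq_prime_sq hkH
      have big : ∀ L : Subgroup G, H ≤ L → x ∈ L → L = ⊤ := by
        intro L hHL hxL
        have h2 : Nat.card L ∣ p ^ 3 := hcard ▸ Subgroup.card_subgroup_dvd_card L
        obtain ⟨j, hj, hjL⟩ := (Nat.dvd_prime_pow hpp).1 h2
        have h3 : p ^ 2 ≤ p ^ j := by
          rw [← hkH, ← hjL]; exact Subgroup.card_le_of_le hHL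
        have h4 : 2 ≤ j := (Nat.pow_le_pow_iff_right hpp.one_lt).1 h3
        have h5 : j ≠ 2 := by
          rintro rfl
          have : H = L := Subgroup.eq_of_le_of_card_ge hHL (by rw [hjL, hkH])
          exact hxH (this ▸ hxL)
        have h6 : j = 3 := by omega
        apply Subgroup.eq_top_of_card_eq
        rw [hjL, h6, hcard]
      rw [mem_centralizer_iff] at hx
      have hHZ : H ≤ center G := by
        intro y hy
        have : centralizer {y} = ⊤ := by
          apply big
          · intro w hw
            rw [mem_centralizer_singleton_iff]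
            have := mul_comm' (⟨w, hw⟩ : H) ⟨y, hy⟩
            exact congrArg Subtype.val this
          · rw [mem_centralizer_singleton_iff]
            exact (hx y hy).symm
        rw [mem_center_iff]
        intro g
        have hg : g ∈ centralizer {y} := this ▸ mem_top g
        rw [mem_centralizer_singleton_iff] at hg
        exact hg
      have hxZ : x ∈ center G := by
        have : centralizer {x} = ⊤ := by
          apply big
          · intro w hw
            rw [mem_centralizer_singleton_iff]
            exact hx w hw
          · rw [mem_centralizer_singleton_iff]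
        rw [mem_center_iff]
        intro g
        have hg : g ∈ centralizer {x} := this ▸ mem_top g
        rw [mem_centralizer_singleton_iff] at hg
        exact hg
      have hZ := big _ hHZ hxZ
      apply hna
      refine ⟨⟨fun a b => ?_⟩⟩
      have ha : a ∈ center G := hZ ▸ mem_top a
      exact ((mem_center_iff.1 ha) b).symm
    · have : H = ⊤ := Subgroup.eq_top_of_card_eq H (by rw [hkH, hcard])
      rw [this]
      exact le_top

end Cfsg.Agent.S3918
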