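import Cfsg.Statements.S3919
import Cfsg.Agent.Lib.Helper73.MaxClass2
import Cfsg.Agent.Lib.Helper25.SelfCentralizing
import Cfsg.Agent.Lib.Helper52.FPF
import Cfsg.Agent.S0113

set_option autoImplicit false
open Cfsg

namespace Cfsg.Agent.S3919

open Cfsg.Agent.Lib.Helper73

universe u

/-- maximal class implies self-centralising non-cyclic subgroups -/
theorem selfcent_of_index_four {G : Type u} [Group G] [Finite G] (hG : IsPGroup 2 G)
    (hidx : (commutator G).index = 4) (h4 : Nat.card G ≠ 4) (H : Subgroup G) (hH : ¬ IsCyclic H) :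
    Subgroup.centralizer (H : Set G) ≤ H := by
  obtain ⟨a, b, k, M, hM, hoa, ha, hb, h⟩ := max_class_structure hG hidx h4
  have hMpos : 0 < M := by rw [hM]; positivity
  have ha4 : a ^ (4 * M) = 1 := by rw [← hoa]; exact pow_orderOf_eq_one a
  obtain ⟨c, hc⟩ : ∃ c, c = a ^ (2 * M) := ⟨_, rfl⟩
  have hc2 : c ^ 2 = 1 := by rw [hc, ← pow_mul, ← ha4]; congr 1; ring
  have hoa' : orderOf a = 2 ^ ((k + 1) + 1) := by rw [hoa, hM]; ring
  have hc' : c = a ^ (2 ^ (k + 1)) := by rw [hc, hM]; congr 1; ring
  -- uniform description of the action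
  obtain ⟨s, hs, hbs⟩ : ∃ s : ℕ, Odd s ∧ b * a * b⁻¹ = a ^ (1 + 2 * s) := by
    have hD : b * a * b⁻¹ = a⁻¹ → ∃ s : ℕ, Odd s ∧ b * a * b⁻¹ = a ^ (1 + 2 * s) := by
      intro hba
      refine ⟨2 * M - 1, ⟨M - 1, by omega⟩, ?_⟩
      rw [hba, inv_eq_pow_of_orderOf a (4 * M) (by omega) hoa]
      congr 1; omega
    rcases h with ⟨-, hba⟩ | ⟨-, hba⟩ | ⟨hM2, -, hba⟩
    · exact hD hba
    · exact hD hba
    · obtain ⟨M', hM'⟩ : ∃ M', M = 2 * M' := by
        rcases k with _ | k
        · rw [hM] at hM2; omega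
        · exact ⟨2 ^ k, by rw [hM]; ring⟩
      refine ⟨M - 1, ⟨M' - 1, by omega⟩, ?_⟩
      rw [hba]; congr 1; omega
  have hact : ∀ h : G, h ∉ Subgroup.zpowers a → h * a * h⁻¹ = a ^ (1 + 2 * s) := by
    intro h hh
    have hhb : h * b⁻¹ ∈ Subgroup.zpowers a := by
      rw [Subgroup.mul_mem_iff_of_index_two ha]
      simp [hh, hb]
    obtain ⟨i, hi⟩ := exists_pow_of_mem_zpowers a _ hhb
    have e : h = a ^ i * b := by rw [← hi]; group
    rw [e]; exact conj_pow_mul a b _ i hbs
  have hfix : ∀ h : G, h ∉ Subgroup.zpowers a → ∀ x ∈ Subgroup.zpowers a, x * h = h * x →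
      x = 1 ∨ x = c := by
    intro h hh x hx hxh
    obtain ⟨j, rfl⟩ := exists_pow_of_mem_zpowers a x hx
    have h1 : h * a ^ j * h⁻¹ = a ^ j := by rw [← hxh, mul_inv_cancel_right]
    rw [conj_pow_of_conj a h _ (hact h hh) j] at h1
    have e : (1 + 2 * s) * j = j + 2 * (s * j) := by ring
    rw [e, pow_add, mul_eq_left] at h1
    have h2 := orderOf_dvd_of_pow_eq_one h1
    rw [hoa, show 4 * M = 2 * (2 * M) by ring] at h2
    have h3 : 2 * M ∣ s * j := Nat.dvd_of_mul_dvd_mul_left (by norm_num) h2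
    have hcop : Nat.Coprime (2 * M) s := by
      rw [show 2 * M = 2 ^ (k + 1) by rw [hM]; ring]
      exact Nat.Coprime.pow_left _ (Nat.coprime_two_left.mpr hs)
    obtain ⟨l, hl⟩ := hcop.dvd_of_dvd_mul_left h3
    rw [hl, pow_mul, ← hc]
    exact eq_one_or_eq_of_mem_zpowers hc2 (Subgroup.npow_mem_zpowers c l)
  -- an element of `H` outside `⟨a⟩`
  obtain ⟨h, hhH, hh⟩ : ∃ h ∈ H, h ∉ Subgroup.zpowers a := by
    by_contra hcon
    push Not at hcon
    exact hH (isCyclic_of_injective (Subgroup.inclusion (show H ≤ Subgroup.zpowers a from hcon))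
      (Subgroup.inclusion_injective _))
  obtain ⟨y, hyH, hyA, hy1⟩ : ∃ y ∈ H, y ∈ Subgroup.zpowers a ∧ y ≠ 1 := by
    by_contra hcon
    push Not at hcon
    have hle : H ≤ Subgroup.zpowers h := by
      intro y hy
      by_cases hyA : y ∈ Subgroup.zpowers a
      · rw [hcon y hy hyA]; exact one_mem _
      · have h1 : y * h⁻¹ ∈ Subgroup.zpowers a := by
          rw [Subgroup.mul_mem_iff_of_index_two ha]
          simp [hyA, hh]
        have h2 := hcon _ (mul_mem hy (inv_mem hhH)) h1
        rw [mul_inv_eq_one] at h2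
        rw [h2]; exact Subgroup.mem_zpowers h
    exact hH (isCyclic_of_injective (Subgroup.inclusion hle) (Subgroup.inclusion_injective _))
  have hcH : c ∈ H := by
    obtain ⟨e, he⟩ := hG.exists_orderOf_eq_pow y
    have he1 : 1 ≤ e := by
      rcases e with _ | e
      · rw [pow_zero, orderOf_eq_one_iff] at he; exact absurd he hy1
      · omega
    obtain ⟨e', rfl⟩ : ∃ e', e = e' + 1 := ⟨e - 1, by omega⟩
    have hu := orderOf_pow_prime_pow Nat.prime_two y e' he
    have hu2 : (y ^ (2 ^ e')) ^ 2 = 1 := by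
      have := pow_orderOf_eq_one (y ^ (2 ^ e'))
      rwa [hu] at this
    obtain ⟨i, hi⟩ := exists_pow_of_pow_eq_one Nat.prime_two a (y ^ (2 ^ e')) (k + 1) hoa'
      (pow_mem hyA _) hu2
    rw [← hc'] at hi
    rcases eq_one_or_eq_of_mem_zpowers hc2 (Subgroup.npow_mem_zpowers c i) with h1 | h1
    · rw [h1] at hi
      rw [hi, orderOf_one] at hu
      omega
    · rw [← h1, ← hi]; exact pow_mem hyH _
  intro x hx
  have hxh : x * h = h * x := ((Subgroup.mem_centralizer_iff.mp hx) h hhH).symm
  by_cases hxA : x ∈ Subgroup.zpowers a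
  · rcases hfix h hh x hxA hxh with rfl | rfl
    · exact one_mem _
    · exact hcH
  · have h1 : x * h⁻¹ ∈ Subgroup.zpowers a := by
      rw [Subgroup.mul_mem_iff_of_index_two ha]
      simp [hxA, hh]
    have h2 : x * h⁻¹ * h = h * (x * h⁻¹) := by
      rw [inv_mul_cancel_right, ← mul_assoc, ← hxh, mul_inv_cancel_right]
    have e : x = (x * h⁻¹) * h := by group
    rw [e]
    rcases hfix h hh _ h1 h2 with h3 | h3
    · rw [h3, one_mul]; exact hhH
    · rw [h3]; exact mul_mem hcH hhH

/-- generator data for a proper self-centralising cyclic normal subgroup of a 2-group -/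
theorem exists_gen_of_cyclic_selfcent {G : Type u} [Group G] [Finite G] (hG : IsPGroup 2 G)
    (A : Subgroup G) (hAn : A.Normal) (hcyc : IsCyclic A)
    (hCA : Subgroup.centralizer (A : Set G) ≤ A) (hne : A ≠ ⊤) :
    ∃ (a : G) (k M : ℕ), M = 2 ^ k ∧ orderOf a = 4 * M ∧
      (∀ g : G, g * a * g⁻¹ ∈ Subgroup.zpowers a) ∧
      (∀ g : G, g * a = a * g → g ∈ Subgroup.zpowers a) ∧ ∃ x : G, x ∉ Subgroup.zpowers a := by
  obtain ⟨a', ha'⟩ := hcyc
  obtain ⟨a, haA⟩ : ∃ a : G, a = a' := ⟨_, rfl⟩
  have hAeq : A = Subgroup.zpowers a := by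
    apply le_antisymm
    · intro x hx
      obtain ⟨i, hi⟩ := Subgroup.mem_zpowers_iff.mp (ha' ⟨x, hx⟩)
      rw [Subgroup.mem_zpowers_iff]
      exact ⟨i, by rw [haA, ← Subgroup.coe_zpow, hi]⟩
    · rw [Subgroup.zpowers_le, haA]; exact a'.2
  have hcent : ∀ g : G, g * a = a * g → g ∈ Subgroup.zpowers a := by
    intro g hg
    rw [← hAeq]
    apply hCA
    rw [Subgroup.mem_centralizer_iff]
    intro x hx
    rw [SetLike.mem_coe, hAeq] at hx
    obtain ⟨i, rfl⟩ := Subgroup.mem_zpowers_iff.mp hx
    exact ((Commute.zpow_right (show Commute g a from hg) i)).symm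
  have hnorm : ∀ g : G, g * a * g⁻¹ ∈ Subgroup.zpowers a := by
    intro g
    rw [← hAeq]
    exact hAn.conj_mem a (by rw [hAeq]; exact Subgroup.mem_zpowers a) g
  obtain ⟨x₀, hx₀⟩ : ∃ x₀ : G, x₀ ∉ Subgroup.zpowers a := by
    by_contra hcon
    push Not at hcon
    exact hne (by rw [hAeq]; exact eq_top_iff.mpr fun x _ => hcon x)
  obtain ⟨m, hm'⟩ := hG.exists_orderOf_eq_pow a
  have hm2 : 2 ≤ m := by
    by_contra hcon
    have ha2 : a ^ 2 = 1 := by
      have h1 : orderOf a ∣ 2 := by
        rw [hm']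
        have : m = 0 ∨ m = 1 := by omega
        rcases this with rfl | rfl <;> norm_num
      exact orderOf_dvd_iff_pow_eq_one.mp h1
    apply hx₀
    apply hcent
    rcases eq_one_or_eq_of_mem_zpowers ha2 (hnorm x₀) with h | h
    · have : a = 1 := by
        have h1 : a = x₀⁻¹ * (x₀ * a * x₀⁻¹) * x₀ := by group
        rw [h1, h]; group
      rw [this]; simp
    · calc x₀ * a = x₀ * a * x₀⁻¹ * x₀ := by group
        _ = a * x₀ := by rw [h]
  obtain ⟨k, rfl⟩ : ∃ k, m = k + 2 := ⟨m - 2, by omega⟩
  exact ⟨a, k, 2 ^ k, rfl, by rw [hm']; ring, hnorm, hcent, x₀, hx₀⟩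

theorem index_four_of_selfcent {G : Type u} [Group G] [Finite G] (hG : IsPGroup 2 G)
    (hna : ¬ IsMulCommutative G)
    (hsc : ∀ H : Subgroup G, ¬ IsCyclic ↥H → Subgroup.centralizer (H : Set G) ≤ H) :
    (commutator G).index = 4 := by
  have : Fact (Nat.Prime 2) := ⟨Nat.prime_two⟩
  have hnil : Group.IsNilpotent G := hG.isNilpotent
  obtain ⟨A, hAn, hAc, hCA⟩ := Cfsg.Agent.Lib.Helper25.exists_normal_abelian_selfCentralizing (R := G)
  have hAtop : A ≠ ⊤ := by
    rintro rfl
    apply hna
    exact ⟨⟨fun x y => congrArg Subtype.val (hAc.is_comm.comm ⟨x, trivial⟩ ⟨y, trivial⟩)⟩⟩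
  by_cases hcyc : IsCyclic A
  · obtain ⟨a, k, M, hM, hoa, hnorm, hcent, hx₀⟩ :=
      exists_gen_of_cyclic_selfcent hG A hAn hcyc hCA hAtop
    have hMpos : 0 < M := by rw [hM]; positivity
    rcases cyc2_normal_core hG a k M hM hoa hnorm hcent hx₀ with
      ⟨hidx, b, hb, h⟩ | ⟨hM2, b, hb, hb2, hba⟩
    · apply index_commutator_of_type a b k M hM hoa hidx
      rcases h with ⟨-, hba⟩ | ⟨-, hba⟩ | ⟨hM2, -, hba⟩
      · exact Or.inl hba
      · exact Or.inl hba
      · exact Or.inr ⟨hM2, hba⟩
    · exfalso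
      have ha4 : a ^ (4 * M) = 1 := by rw [← hoa]; exact pow_orderOf_eq_one a
      obtain ⟨c, hcdef⟩ : ∃ c, c = a ^ (2 * M) := ⟨_, rfl⟩
      have hc2 : c * c = 1 := by rw [hcdef, ← pow_add, ← ha4]; congr 1; ring
      have hpow_ne : ∀ j, 0 < j → j < 4 * M → a ^ j ≠ 1 := by
        intro j hj0 hj h1
        have := orderOf_dvd_of_pow_eq_one h1
        rw [hoa] at this
        have := Nat.le_of_dvd hj0 this
        omega
      have hc1 : c ≠ 1 := by rw [hcdef]; exact hpow_ne _ (by omega) (by omega)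
      have hcc : ∀ g : G, g * c * g⁻¹ = c := by
        intro g; rw [hcdef]
        exact conj_half a (2 * M) (by omega) (by rw [hoa]; ring) g (hnorm g)
      have hcA : c ∈ Subgroup.zpowers a := by rw [hcdef]; exact Subgroup.npow_mem_zpowers a _
      have hb2' : b * b = 1 := by rw [← sq]; exact hb2
      have hcb : b * c = c * b := by
        calc b * c = b * c * b⁻¹ * b := by group
          _ = c * b := by rw [hcc b]
      have hb1 : b ≠ 1 := by rintro rfl; exact hb (one_mem _)
      have hbc : b ≠ c := by rintro rfl; exact hb hcA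
      have hV := hsc _ (fourGroup_not_isCyclic c b hc2 hb2' hcb hc1 hb1 hbc)
      have h1 : b * a ^ 2 * b⁻¹ = a ^ 2 := by
        rw [← conj_pow, hba, ← pow_mul]
        have e : (1 + 2 * M) * 2 = 2 + 4 * M := by ring
        rw [e, pow_add, ha4, mul_one]
      have h2 : a ^ 2 * b = b * a ^ 2 := by
        calc a ^ 2 * b = b * a ^ 2 * b⁻¹ * b := by rw [h1]
          _ = b * a ^ 2 := by group
      have h3 : a ^ 2 * c = c * a ^ 2 := by rw [hcdef, ← pow_add, ← pow_add, add_comm]
      have h4 : a ^ 2 ∈ Subgroup.centralizer (fourGroup c b hc2 hb2' hcb : Set G) := by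
        rw [Subgroup.mem_centralizer_iff]
        rintro x (rfl | rfl | rfl | rfl)
        · simp
        · exact h3.symm
        · exact h2.symm
        · rw [mul_assoc, ← h2, ← mul_assoc, ← h3, mul_assoc]
      have ha2A : a ^ 2 ∈ Subgroup.zpowers a := Subgroup.npow_mem_zpowers a 2
      rcases hV h4 with h5 | h5 | h5 | h5
      · exact hpow_ne 2 (by norm_num) (by omega) h5
      · rw [hcdef] at h5
        have e : 2 * M = 2 + (2 * M - 2) := by omega
        rw [e, pow_add] at h5
        exact hpow_ne (2 * M - 2) (by omega) (by omega) (by simpa using h5.symm)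
      · exact hb (h5 ▸ ha2A)
      · apply hb
        have : b = c⁻¹ * a ^ 2 := by rw [h5]; group
        rw [this]; exact mul_mem (inv_mem hcA) ha2A
  · -- `A` is a four-group
    let _ : CommGroup A := { (inferInstance : Group A) with mul_comm := hAc.is_comm.comm }
    obtain ⟨r, c', d', hr, hc', hd', hcd⟩ := Cfsg.Agent.Lib.Helper52.exists_rank_two (A := A) hcyc
    have hr2 : r = 2 := by
      obtain ⟨k, hk⟩ := (hG.to_subgroup A).exists_orderOf_eq_pow d'
      rw [hd'] at hk
      have h1 : r ∣ 2 ^ k := by rw [← hk]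
      exact (Nat.prime_dvd_prime_iff_eq hr Nat.prime_two).mp (hr.dvd_of_dvd_pow h1)
    subst hr2
    have hc1 : c' ≠ 1 := by rintro rfl; exact hcd (one_mem _)
    have hd1 : d' ≠ 1 := by rintro rfl; rw [orderOf_one] at hd'; omega
    have hd2 : d' ^ 2 = 1 := by rw [← hd', pow_orderOf_eq_one]
    have hcd' : c' ≠ d' := by rintro rfl; exact hcd (Subgroup.mem_zpowers _)
    have hAbot : A ≠ ⊥ := by
      rintro rfl
      exact hc1 (Subsingleton.elim _ _)
    obtain ⟨z, hzA, hzc, hz⟩ := exists_central_orderOf_eq_prime hG A hAbot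
    have hz2 : z * z = 1 := by rw [← sq, ← hz, pow_orderOf_eq_one]
    have hz1 : z ≠ 1 := by rintro rfl; rw [orderOf_one] at hz; omega
    obtain ⟨v, hvA, hv2, hv1, hvz⟩ : ∃ v ∈ A, v * v = 1 ∧ v ≠ 1 ∧ v ≠ z := by
      by_cases h : (d' : G) = z
      · refine ⟨c', c'.2, ?_, fun h1 => hc1 (Subtype.ext h1), fun h1 => hcd' (Subtype.ext (h1.trans h.symm))⟩
        rw [← sq]; exact congrArg Subtype.val hc'
      · refine ⟨d', d'.2, ?_, fun h1 => hd1 (Subtype.ext h1), h⟩
        rw [← sq]; exact congrArg Subtype.val hd2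
    have hzv : v * z = z * v := Subgroup.mem_center_iff.mp hzc v
    have hV := hsc _ (fourGroup_not_isCyclic z v hz2 hv2 hzv hz1 hv1 hvz)
    have hAcomm : ∀ x ∈ A, ∀ y ∈ A, x * y = y * x := fun x hx y hy =>
      congrArg Subtype.val (hAc.is_comm.comm ⟨x, hx⟩ ⟨y, hy⟩)
    have hAV : ∀ x ∈ A, x = 1 ∨ x = z ∨ x = v ∨ x = z * v := by
      intro x hx
      apply hV
      rw [Subgroup.mem_centralizer_iff]
      rintro y (rfl | rfl | rfl | rfl)
      · simp
      · exact hAcomm _ hzA _ hx
      · exact hAcomm _ hvA _ hx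
      · exact hAcomm _ (mul_mem hzA hvA) _ hx
    have hconj : ∀ g : G, g ∉ A → g * v * g⁻¹ = z * v := by
      intro g hg
      have hzg : ∀ u : G, u * z * u⁻¹ = z := fun u => by
        rw [Subgroup.mem_center_iff.mp hzc u, mul_inv_cancel_right]
      rcases hAV _ (hAn.conj_mem v hvA g) with h | h | h | h
      · exfalso; apply hv1
        have : v = g⁻¹ * (g * v * g⁻¹) * g := by group
        rw [this, h]; group
      · exfalso; apply hvz
        have : v = g⁻¹ * (g * v * g⁻¹) * g := by group
        rw [this, h]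
        have := hzg g⁻¹
        rwa [inv_inv] at this
      · exfalso; apply hg
        apply hCA
        have hgv : g * v = v * g := by
          calc g * v = g * v * g⁻¹ * g := by group
            _ = v * g := by rw [h]
        have hgz : g * z = z * g := Subgroup.mem_center_iff.mp hzc g
        rw [Subgroup.mem_centralizer_iff]
        intro y hy
        rcases hAV y hy with rfl | rfl | rfl | rfl
        · simp
        · exact hgz.symm
        · exact hgv.symm
        · rw [mul_assoc, ← hgv, ← mul_assoc, ← hgz, mul_assoc]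
      · exact h
    obtain ⟨x₀, hx₀⟩ : ∃ x₀ : G, x₀ ∉ A := by
      by_contra hcon
      push Not at hcon
      exact hAtop (eq_top_iff.mpr fun x _ => hcon x)
    have hidx : A.index = 2 := by
      rw [Subgroup.index_eq_two_iff]
      refine ⟨x₀, fun b => ?_⟩
      by_cases hb : b ∈ A
      · right
        refine ⟨hb, fun h => hx₀ ?_⟩
        have := mul_mem (inv_mem hb) h
        simpa using this
      · left
        refine ⟨?_, hb⟩
        by_contra hbx
        have h1 := hconj _ hbx
        have h2 : b * x₀ * v * (b * x₀)⁻¹ = b * (x₀ * v * x₀⁻¹) * b⁻¹ := by group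
        rw [h2, hconj x₀ hx₀] at h1
        have h3 : b * (z * v) * b⁻¹ = (b * z * b⁻¹) * (b * v * b⁻¹) := by group
        rw [h3, hconj b hb, Subgroup.mem_center_iff.mp hzc b, mul_inv_cancel_right, ← mul_assoc, hz2,
          one_mul] at h1
        apply hz1
        exact mul_right_cancel (h1.symm.trans (one_mul v).symm)
    have hcardA : Nat.card A ≤ 4 := by
      classical
      have hsub : (A : Set G) ⊆ (({1, z, v, z * v} : Finset G) : Set G) := by
        intro x hx
        have := hAV x hx
        simpa using this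
      calc Nat.card A = (A : Set G).ncard := rfl
        _ ≤ ((({1, z, v, z * v} : Finset G) : Set G)).ncard :=
          Set.ncard_le_ncard hsub (Finset.finite_toSet _)
        _ = ({1, z, v, z * v} : Finset G).card := Set.ncard_coe_finset _
        _ ≤ 4 := Finset.card_le_four
    have hcardG : Nat.card G ≤ 8 := by
      have := A.card_mul_index
      rw [hidx] at this
      omega
    have hna' : ∃ x y : G, x * y ≠ y * x := by
      by_contra hcon
      push Not at hcon
      exact hna ⟨⟨hcon⟩⟩
    obtain ⟨t, ht⟩ := sq_dvd_index_commutator hG hna'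
    have hmul := (commutator G).card_mul_index
    have hc2 : 2 ≤ Nat.card (commutator G) := by
      by_contra hcon
      have h1 : Nat.card (commutator G) = 1 := by
        have : 0 < Nat.card (commutator G) := Nat.card_pos
        omega
      obtain ⟨x, y, hxy⟩ := hna'
      exact hxy (comm_of_commutator_eq_bot (Subgroup.card_eq_one.mp h1) x y)
    rw [ht] at hmul ⊢
    have ht1 : t = 1 := by
      have ht0 : 0 < t := by
        rcases t with _ | t
        · simp at hmul; have : 0 < Nat.card G := Nat.card_pos; omega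
        · omega
      by_contra hcon
      have : 2 ≤ t := by omega
      nlinarith
    rw [ht1]; norm_num

/-- Say that a group has self-centralizing non-cyclic subgroups when every non-cyclic subgroup H satisfies C_G(H) ≤ H. A finite non-abelian 2-group G of order 2^n has self-centralizing non-cyclic subgroups if and only if G has nilpotency class n − 1 (that is, G is dihedral, semidihedral or generalized quaternion). -/
theorem result {G : Type*} [Group G] [Finite G] (hna : ¬ IsMulCommutative G) (n : ℕ) (hG : Nat.card G = 2 ^ n) :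
    (∀ H : Subgroup G, ¬ IsCyclic ↥H → Subgroup.centralizer (H : Set G) ≤ H) ↔ (⊤ : Subgroup G).lowerCentralSeries (n - 2) ≠ ⊥ := by
  have : Fact (Nat.Prime 2) := ⟨Nat.prime_two⟩
  have hP : IsPGroup 2 G := IsPGroup.of_card hG
  have hnil : Group.IsNilpotent G := hP.isNilpotent
  have hna' : ∃ x y : G, x * y ≠ y * x := by
    by_contra hcon
    push Not at hcon
    exact hna ⟨⟨hcon⟩⟩
  have hn : 3 ≤ n := by
    obtain ⟨t, ht⟩ := sq_dvd_index_commutator hP hna'
    have hmul := (commutator G).card_mul_index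
    have hc2 : 2 ≤ Nat.card (commutator G) := by
      by_contra hcon
      have h1 : Nat.card (commutator G) = 1 := by
        have : 0 < Nat.card (commutator G) := Nat.card_pos
        omega
      obtain ⟨x, y, hxy⟩ := hna'
      exact hxy (comm_of_commutator_eq_bot (Subgroup.card_eq_one.mp h1) x y)
    rw [ht, hG] at hmul
    have ht0 : 0 < t := by
      rcases t with _ | t
      · simp at hmul
        have : 0 < 2 ^ n := by positivity
        omega
      · omega
    have h8 : 8 ≤ 2 ^ n := by nlinarith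
    by_contra hcon
    have : n ≤ 2 := by omega
    have : 2 ^ n ≤ 2 ^ 2 := Nat.pow_le_pow_right (by norm_num) this
    omega
  have h4 : Nat.card G ≠ 4 := by
    rw [hG]; intro h
    have h1 : (2 : ℕ) ^ n = 2 ^ 2 := by rw [h]; norm_num
    have := Nat.pow_right_injective (le_refl 2) h1
    omega
  have key : (⊤ : Subgroup G).lowerCentralSeries (n - 2) ≠ ⊥ ↔ (commutator G).index = 4 := by
    rw [Ne, Subgroup.lowerCentralSeries_eq_bot_iff_nilpotencyClass_le]
    obtain ⟨h1, h2⟩ := Cfsg.Agent.S0113.class_aux n G hG (by omega)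
    constructor
    · intro h
      exact h2 (by omega)
    · intro h
      have := class_of_index_four n G hG (by omega) h
      omega
  rw [key]
  constructor
  · exact index_four_of_selfcent hP hna
  · intro hidx H hH
    exact selfcent_of_index_four hP hidx h4 H hH

end Cfsg.Agent.S3919
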