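import Cfsg.Statements.S3920

set_option autoImplicit false
open Cfsg

namespace Cfsg.Agent.S3920

open Subgroup DihedralGroup

lemma add_self_eq_zero_cases {n : ℕ} [NeZero n] (i : ZMod n) (h : i + i = 0) : i = 0 ∨ 2 * i.val = n := by
  have h1 : ((i.val + i.val : ℕ) : ZMod n) = 0 := by
    rw [Nat.cast_add, ZMod.natCast_zmod_val, h]
  rw [ZMod.natCast_eq_zero_iff] at h1
  have h2 : i.val < n := ZMod.val_lt i
  obtain ⟨c, hc⟩ := h1
  have hc2 : c < 2 := by
    by_contra hcon
    push Not at hcon
    have : n * 2 ≤ n * c := Nat.mul_le_mul_left n hcon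
    omega
  interval_cases c
  · left
    have : i.val = 0 := by omega
    exact (ZMod.val_eq_zero i).1 this
  · right
    omega

/-- the dihedral subgroup attached to the `q`-torsion -/
def torsionSub (n q : ℕ) : Subgroup (DihedralGroup n) where
  carrier := {g | match g with
    | r i => (q : ZMod n) * i = 0
    | sr i => (q : ZMod n) * i = 0}
  mul_mem' := by
    rintro (a | a) (b | b) ha hb <;> simp only [Set.mem_setOf_eq] at ha hb <;>
      simp only [r_mul_r, r_mul_sr, sr_mul_r, sr_mul_sr, Set.mem_setOf_eq, mul_add, mul_sub, ha, hb] <;> simp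
  one_mem' := by
    show (q : ZMod n) * 0 = 0
    exact mul_zero _
  inv_mem' := by
    rintro (a | a) ha <;> simp only [Set.mem_setOf_eq] at ha <;>
      simp only [inv_r, inv_sr, Set.mem_setOf_eq, mul_neg, ha] <;> simp

lemma r_mem_torsionSub (n q : ℕ) (i : ZMod n) : r i ∈ torsionSub n q ↔ (q : ZMod n) * i = 0 := Iff.rfl
lemma sr_mem_torsionSub (n q : ℕ) (i : ZMod n) : sr i ∈ torsionSub n q ↔ (q : ZMod n) * i = 0 := Iff.rfl

lemma forward (n : ℕ) (hn : 3 ≤ n)
    (h : ∀ H : Subgroup (DihedralGroup n), ¬ IsCyclic ↥H → Subgroup.centralizer (H : Set (DihedralGroup n)) ≤ H) :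
    Odd n ∨ ∃ k : ℕ, n = 2 ^ k := by
  by_contra hcon
  push Not at hcon
  obtain ⟨hodd, hpow⟩ := hcon
  rw [Nat.not_odd_iff_even] at hodd
  obtain ⟨m, hm⟩ := hodd
  -- an odd prime divisor
  obtain ⟨q, hq, hqn, hq2⟩ : ∃ q : ℕ, q.Prime ∧ q ∣ n ∧ q ≠ 2 := by
    by_contra hno
    push Not at hno
    apply hpow (n.primeFactorsList.length)
    exact Nat.eq_prime_pow_of_unique_prime_dvd (by omega) (fun {d} hd hdn => hno d hd hdn)
  obtain ⟨t, ht⟩ := hqn
  have hq3 : 3 ≤ q := by
    have := hq.two_le
    omega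
  have hqodd : Odd q := hq.odd_of_ne_two hq2
  have hnc : ¬ IsCyclic (torsionSub n q) := by
    intro hc
    have hcomm : IsMulCommutative (torsionSub n q) := IsCyclic.isMulCommutative
    have h1 : (sr 0 : DihedralGroup n) ∈ torsionSub n q := by
      rw [sr_mem_torsionSub]; simp
    have h2 : (r (t : ZMod n) : DihedralGroup n) ∈ torsionSub n q := by
      rw [r_mem_torsionSub, ← Nat.cast_mul, ← ht]; simp
    have h3 := congrArg Subtype.val (mul_comm' (⟨_, h1⟩ : torsionSub n q) ⟨_, h2⟩)
    simp only [Subgroup.coe_mul, sr_mul_r, r_mul_sr, sr.injEq] at h3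
    have h4 : ((t + t : ℕ) : ZMod n) = 0 := by
      rw [Nat.cast_add]
      linear_combination h3
    rw [ZMod.natCast_eq_zero_iff] at h4
    have htpos : 0 < t := by
      rcases Nat.eq_zero_or_pos t with h0 | h0
      · subst h0; omega
      · exact h0
    have := Nat.le_of_dvd (by omega) h4
    nlinarith
  have hcent : (r (m : ZMod n) : DihedralGroup n) ∈ centralizer ((torsionSub n q : Subgroup (DihedralGroup n)) : Set (DihedralGroup n)) := by
    have hmm : (m : ZMod n) + m = 0 := by
      rw [← Nat.cast_add, ← hm]; simp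
    rw [mem_centralizer_iff]
    rintro (a | a) -
    · simp [add_comm]
    · simp only [sr_mul_r, r_mul_sr, sr.injEq]
      linear_combination hmm
  have := h _ hnc hcent
  rw [r_mem_torsionSub, ← Nat.cast_mul, ZMod.natCast_eq_zero_iff] at this
  obtain ⟨c, hc⟩ := this
  obtain ⟨u, hu⟩ := hqodd
  have hmpos : 0 < m := by omega
  have h5 : (2 * u + 1) * m = (m + m) * c := by rw [← hu, ← hm, hc]
  have h6 : m * (2 * u + 1) = m * (2 * c) := by nlinarith
  have h7 := Nat.eq_of_mul_eq_mul_left hmpos h6
  omega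

lemma backward (n : ℕ) (hn : 3 ≤ n) (hcase : Odd n ∨ ∃ k : ℕ, n = 2 ^ k)
    (H : Subgroup (DihedralGroup n)) (hH : ¬ IsCyclic ↥H) :
    Subgroup.centralizer (H : Set (DihedralGroup n)) ≤ H := by
  haveI : NeZero n := ⟨by omega⟩
  -- a reflection in H
  obtain ⟨j, hj⟩ : ∃ j : ZMod n, sr j ∈ H := by
    by_contra hno
    push Not at hno
    apply hH
    have hle : H ≤ zpowers (r 1 : DihedralGroup n) := by
      rintro (a | a) ha
      · rw [mem_zpowers_iff]
        exact ⟨(a.val : ℤ), by rw [r_one_zpow]; simp⟩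
      · exact absurd ha (hno a)
    exact Subgroup.isCyclic_of_le hle
  -- key: rotations with 2 i = 0 lie in H
  have key : ∀ i : ZMod n, i + i = 0 → r i ∈ H := by
    intro i hi
    rcases add_self_eq_zero_cases i hi with h0 | h0
    · rw [h0, r_zero]; exact one_mem _
    rcases hcase with hodd | ⟨k, hk⟩
    · exfalso
      rw [← h0] at hodd
      exact (Nat.not_odd_iff_even.2 (even_two_mul _)) hodd
    -- a nontrivial rotation in H
    obtain ⟨a, ha, ha0⟩ : ∃ a : ZMod n, r a ∈ H ∧ a ≠ 0 := by
      by_contra hno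
      push Not at hno
      apply hH
      have hle : H ≤ zpowers (sr j : DihedralGroup n) := by
        rintro (a | a) ha
        · rw [hno a ha, r_zero]; exact one_mem _
        · have h1 : sr j * sr a ∈ H := mul_mem hj ha
          rw [sr_mul_sr] at h1
          have h2 := hno _ h1
          have h3 : a = j := by linear_combination h2
          rw [h3]; exact mem_zpowers _
      exact Subgroup.isCyclic_of_le hle
    have hpow : (r a : DihedralGroup n) ^ 2 ^ k = 1 := by
      rw [r_pow, ← hk]; simp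
    obtain ⟨s, -, hs⟩ := (Nat.dvd_prime_pow Nat.prime_two).1 (orderOf_dvd_of_pow_eq_one hpow)
    have hs0 : s ≠ 0 := by
      rintro rfl
      rw [pow_zero, orderOf_eq_one_iff, ← r_zero, r.injEq] at hs
      exact ha0 hs
    obtain ⟨s', rfl⟩ := Nat.exists_eq_succ_of_ne_zero hs0
    have h1 : (r a : DihedralGroup n) ^ 2 ^ s' ∈ H := pow_mem ha _
    have h2 : ((r a : DihedralGroup n) ^ 2 ^ s') ^ 2 = 1 := by
      rw [← pow_mul, ← pow_succ, ← hs, pow_orderOf_eq_one]
    have h3 : (r a : DihedralGroup n) ^ 2 ^ s' ≠ 1 := by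
      intro h4
      have := orderOf_dvd_of_pow_eq_one h4
      rw [hs] at this
      have := Nat.le_of_dvd (by positivity) this
      rw [pow_succ] at this
      have : 0 < 2 ^ s' := by positivity
      omega
    rw [r_pow] at h1 h2 h3
    set b : ZMod n := a * ((2 ^ s' : ℕ) : ZMod n) with hb
    rw [r_pow, ← r_zero, r.injEq] at h2
    have hb0 : b ≠ 0 := by
      intro h4
      apply h3
      rw [h4, r_zero]
    have hbb : b + b = 0 := by
      have : b * ((2 : ℕ) : ZMod n) = 0 := h2
      push_cast at this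
      linear_combination this
    rcases add_self_eq_zero_cases b hbb with h4 | h4
    · exact absurd h4 hb0
    · have : i = b := ZMod.val_injective n (by omega)
      rw [this]; exact h1
  intro x hx
  rw [mem_centralizer_iff] at hx
  have hxj := hx _ hj
  rcases x with i | i
  · simp only [sr_mul_r, r_mul_sr, sr.injEq] at hxj
    apply key
    linear_combination hxj
  · simp only [sr_mul_sr, r.injEq] at hxj
    have h1 : r (i - j) ∈ H := by
      apply key
      linear_combination hxj
    have h2 : sr j * r (i - j) ∈ H := mul_mem hj h1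
    rw [sr_mul_r] at h2
    have : j + (i - j) = i := by ring
    rwa [this] at h2

theorem result (n : ℕ) (hn : 3 ≤ n) : (∀ H : Subgroup (DihedralGroup n), ¬ IsCyclic ↥H → Subgroup.centralizer (H : Set (DihedralGroup n)) ≤ H) ↔ (Odd n ∨ ∃ k : ℕ, n = 2 ^ k) :=
  ⟨forward n hn, fun hc H hH => backward n hn hc H hH⟩

end Cfsg.Agent.S3920
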