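import Cfsg.Statements.S3927
import Cfsg.Agent.S3947

set_option autoImplicit false
open Cfsg

namespace Cfsg.Agent.S3927

universe u

/-- iterated conjugates of `a`: `T 0 = univ`, `T (k+1) = { t a t⁻¹ : t ∈ T k }`. -/
def T {Γ : Type*} [Group Γ] (a : Γ) : ℕ → Set Γ
  | 0 => Set.univ
  | (k+1) => (fun t => t * a * t⁻¹) '' (T a k)

theorem a_mem_T {Γ : Type*} [Group Γ] (a : Γ) (k : ℕ) : a ∈ T a k := by
  induction k with
  | zero => trivial
  | succ k ih => exact ⟨a, ih, by group⟩

theorem T_map {Γ : Type*} [Group Γ] (H : Subgroup Γ) (a : H) (k : ℕ) :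
    (H.subtype '' T a k) ⊆ T (a : Γ) k := by
  induction k with
  | zero => intro x _; trivial
  | succ k ih =>
    rintro _ ⟨_, ⟨t, ht, rfl⟩, rfl⟩
    exact ⟨t, ih ⟨t, ht, rfl⟩, by simp⟩

theorem main : ∀ (n : ℕ) (Γ : Type u) [Group Γ] [Finite Γ], Nat.card Γ = n → ∀ a : Γ,
    Subgroup.normalClosure {a} = ⊤ → ∀ k, Subgroup.closure (T a k) = ⊤ := by
  intro n
  induction n using Nat.strong_induction_on with
  | _ n ih =>
  intro Γ _ _ hn a ha k
  have hAle : Subgroup.zpowers a ≤ Subgroup.closure (T a k) :=
    Subgroup.zpowers_le.2 (Subgroup.subset_closure (a_mem_T a k))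
  by_cases hA : Subgroup.zpowers a = ⊤
  · exact top_le_iff.1 (hA ▸ hAle)
  have hAn : Subgroup.normalClosure ((Subgroup.zpowers a : Subgroup Γ) : Set Γ) = ⊤ := by
    apply top_le_iff.1
    rw [← ha]
    apply Subgroup.normalClosure_mono
    intro x hx
    rw [Set.mem_singleton_iff] at hx
    subst hx
    exact Subgroup.mem_zpowers x
  rcases Cfsg.Agent.S3947.result (Subgroup.zpowers a) hAn hA with h1 | ⟨M, ⟨hM, hAM⟩, huniq⟩
  · apply top_le_iff.1
    rw [← h1]
    apply sSup_le
    rintro H ⟨hAH, hHtop, hHn⟩
    have haH : a ∈ H := hAH (Subgroup.mem_zpowers a)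
    have hcard : Nat.card H < n := by
      rw [← hn]
      refine lt_of_le_of_ne (Subgroup.card_le_card_group H) ?_
      intro h
      exact hHtop (Subgroup.eq_top_of_card_eq H h)
    have hn' : Subgroup.normalClosure {(⟨a, haH⟩ : H)} = ⊤ := by
      apply top_le_iff.1
      rw [← hHn]
      apply Subgroup.normalClosure_le_normal
      intro x hx
      have hx' : (x : Γ) ∈ Subgroup.zpowers a := hx
      obtain ⟨i, hi⟩ := Subgroup.mem_zpowers_iff.1 hx'
      have : x = (⟨a, haH⟩ : H) ^ i := by
        apply Subtype.ext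
        simp [hi]
      rw [this]
      exact Subgroup.zpow_mem _ (Subgroup.subset_normalClosure (Set.mem_singleton _)) i
    have hcl := ih _ hcard H rfl ⟨a, haH⟩ hn' k
    intro h hh
    have h1 : (⟨h, hh⟩ : H) ∈ Subgroup.closure (T (⟨a, haH⟩ : H) k) := by
      rw [hcl]; trivial
    have h2 : H.subtype ⟨h, hh⟩ ∈ (Subgroup.closure (T (⟨a, haH⟩ : H) k)).map H.subtype :=
      Subgroup.mem_map_of_mem _ h1
    rw [MonoidHom.map_closure] at h2
    exact Subgroup.closure_mono (T_map H ⟨a, haH⟩ k) h2
  · by_contra hK
    obtain ⟨M', hM', hKM'⟩ := (eq_top_or_exists_le_coatom (Subgroup.closure (T a k))).resolve_left hK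
    have hMM' : M' = M := huniq M' ⟨hM', hAle.trans hKM'⟩
    subst hMM'
    have hTk : T a k ⊆ (M' : Set Γ) := fun x hx => hKM' (Subgroup.subset_closure hx)
    have hnorm : ¬ M'.Normal := by
      intro hN
      have : Subgroup.normalClosure {a} ≤ M' := by
        apply Subgroup.normalClosure_le_normal
        intro x hx
        rw [Set.mem_singleton_iff] at hx
        subst hx
        exact hAM (Subgroup.mem_zpowers x)
      rw [ha] at this
      exact hM.1 (top_le_iff.1 this)
    have step : ∀ j, T a (j+1) ⊆ (M' : Set Γ) → T a j ⊆ (M' : Set Γ) := by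
      intro j hj t ht
      have h1 : t * a * t⁻¹ ∈ M' := hj ⟨t, ht, rfl⟩
      have hco : IsCoatom ((MulAut.conj t⁻¹).mapSubgroup M') :=
        (OrderIso.isCoatom_iff _ _).2 hM
      have hle : Subgroup.zpowers a ≤ (MulAut.conj t⁻¹).mapSubgroup M' := by
        apply Subgroup.zpowers_le.2
        refine ⟨t * a * t⁻¹, h1, ?_⟩
        simp [mul_assoc]
      have heq := huniq _ ⟨hco, hle⟩
      have htn : t ∈ Subgroup.normalizer (M' : Set Γ) := by
        rw [Subgroup.mem_normalizer_iff]
        intro h
        constructor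
        · intro hh
          rw [← heq] at hh
          obtain ⟨m, hm, hmh⟩ := hh
          have : t * h * t⁻¹ = m := by
            rw [← hmh]
            simp [mul_assoc]
          rw [this]; exact hm
        · intro hh
          rw [← heq]
          refine ⟨t * h * t⁻¹, hh, ?_⟩
          simp [mul_assoc]
      by_contra htM
      have hlt : M' < Subgroup.normalizer (M' : Set Γ) :=
        lt_of_le_of_ne Subgroup.le_normalizer (fun h => htM (by rw [h]; exact htn))
      exact hnorm (Subgroup.normalizer_eq_top_iff.1 (hM.2 _ hlt))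
    have all : ∀ j, T a j ⊆ (M' : Set Γ) → False := by
      intro j
      induction j with
      | zero =>
        intro h
        exact hM.1 (top_le_iff.1 (fun x _ => h (Set.mem_univ x)))
      | succ j ihj => exact fun h => ihj (step j h)
    exact all k hTk


section app

variable {G : Type u} [Group G]

/-- the semidirect product of `G` with the cyclic group generated by `α` -/
abbrev Gam (α : MulAut G) := G ⋊[(Subgroup.zpowers α).subtype] (Subgroup.zpowers α)

/-- `α` as an element of the semidirect product -/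
def aEl (α : MulAut G) : Gam α := SemidirectProduct.inr ⟨α, Subgroup.mem_zpowers α⟩

theorem conj_inl (α : MulAut G) (d : G) :
    (SemidirectProduct.inl d : Gam α) * aEl α * (SemidirectProduct.inl d)⁻¹
      = SemidirectProduct.inl (d * (α d)⁻¹) * aEl α := by
  apply SemidirectProduct.ext
  · simp [aEl]
  · simp [aEl]

theorem conj_any (α : MulAut G) (t : Gam α) :
    t * aEl α * t⁻¹ = SemidirectProduct.inl (t.left * (α t.left)⁻¹) * aEl α := by
  rw [← conj_inl]
  conv_lhs => rw [← SemidirectProduct.inl_left_mul_inr_right t]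
  have hcomm : (SemidirectProduct.inr t.right : Gam α) * aEl α
      = aEl α * SemidirectProduct.inr t.right := by
    unfold aEl
    rw [← map_mul, ← map_mul]
    congr 1
    obtain ⟨z, hz⟩ := t.right
    obtain ⟨i, rfl⟩ := Subgroup.mem_zpowers_iff.1 hz
    apply Subtype.ext
    show α ^ i * α = α * α ^ i
    exact (Commute.zpow_self α i).symm.eq.symm
  calc SemidirectProduct.inl t.left * SemidirectProduct.inr t.right * aEl α
        * (SemidirectProduct.inl t.left * SemidirectProduct.inr t.right)⁻¹
      = SemidirectProduct.inl t.left * (SemidirectProduct.inr t.right * aEl α)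
        * (SemidirectProduct.inr t.right)⁻¹ * (SemidirectProduct.inl t.left)⁻¹ := by group
    _ = _ := by rw [hcomm]; group

theorem T_form (α : MulAut G) (k : ℕ) : ∀ x ∈ T (aEl α) (k+1),
    ∃ c : G, x = SemidirectProduct.inl ((fun c : G => c * (α c)⁻¹)^[k+1] c) * aEl α := by
  induction k with
  | zero =>
    rintro _ ⟨t, -, rfl⟩
    exact ⟨t.left, conj_any α t⟩
  | succ k ih =>
    rintro _ ⟨t, ht, rfl⟩
    obtain ⟨c, rfl⟩ := ih t ht
    refine ⟨c, ?_⟩
    show _ * aEl α * _⁻¹ = _
    rw [conj_any, Function.iterate_succ_apply' _ (k+1)]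
    simp [aEl]

end app


theorem zpowers_stab {G : Type u} [Group G] (α : MulAut G) (H : Subgroup G)
    (hα : ∀ h ∈ H, α h ∈ H) (hα' : ∀ h ∈ H, α⁻¹ h ∈ H) :
    ∀ z ∈ Subgroup.zpowers α, ∀ h ∈ H, z h ∈ H := by
  intro z hz
  obtain ⟨i, rfl⟩ := Subgroup.mem_zpowers_iff.1 hz
  clear hz
  induction i using Int.induction_on with
  | zero => intro h hh; simpa using hh
  | succ i ih =>
    intro h hh
    rw [zpow_add_one, MulAut.mul_apply]
    exact ih _ (hα h hh)
  | pred i ih =>
    intro h hh
    rw [zpow_sub_one, MulAut.mul_apply]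
    exact ih _ (hα' h hh)

/-- Let G be a finite group and α an automorphism of G with [G, α] = G, that is, the elements g·α(g)⁻¹ generate G. Then for every k ≥ 1 the iterated commutators [g, α, …, α] with k entries α — the values of the k-th iterate of the map c ↦ c·α(c)⁻¹ — also generate G. -/
theorem result {G : Type*} [Group G] [Finite G] (α : MulAut G) (hG : Subgroup.closure (Set.range (fun c : G => c * (α c)⁻¹)) = ⊤) (k : ℕ) (hk : 1 ≤ k) :
    Subgroup.closure (Set.range ((fun c : G => c * (α c)⁻¹)^[k])) = ⊤ := by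
  obtain ⟨j, rfl⟩ : ∃ j, k = j + 1 := ⟨k - 1, by omega⟩
  -- the normal closure of `α` in the semidirect product is everything
  have hnc : Subgroup.normalClosure {aEl α} = ⊤ := by
    have ha : aEl α ∈ Subgroup.normalClosure {aEl α} :=
      Subgroup.subset_normalClosure (Set.mem_singleton _)
    have hinl : ∀ g : G, (SemidirectProduct.inl g : Gam α) ∈ Subgroup.normalClosure {aEl α} := by
      intro g
      have hle : Subgroup.closure (Set.range (fun c : G => c * (α c)⁻¹))
          ≤ (Subgroup.normalClosure {aEl α}).comap (SemidirectProduct.inl : G →* Gam α) := by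
        rw [Subgroup.closure_le]
        rintro _ ⟨c, rfl⟩
        show (SemidirectProduct.inl (c * (α c)⁻¹) : Gam α) ∈ Subgroup.normalClosure {aEl α}
        have h1 : (SemidirectProduct.inl c : Gam α) * aEl α * (SemidirectProduct.inl c)⁻¹
            ∈ Subgroup.normalClosure {aEl α} :=
          Subgroup.normalClosure_normal.conj_mem _ ha _
        rw [conj_inl] at h1
        have h2 := Subgroup.mul_mem _ h1 (Subgroup.inv_mem _ ha)
        simpa using h2
      rw [hG] at hle
      exact hle (Subgroup.mem_top g)
    have hinr : ∀ z : Subgroup.zpowers α,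
        (SemidirectProduct.inr z : Gam α) ∈ Subgroup.normalClosure {aEl α} := by
      rintro ⟨z, hz⟩
      obtain ⟨i, rfl⟩ := Subgroup.mem_zpowers_iff.1 hz
      have : (SemidirectProduct.inr ⟨α ^ i, hz⟩ : Gam α) = aEl α ^ i := by
        unfold aEl
        rw [← map_zpow]
        congr 1
      rw [this]
      exact Subgroup.zpow_mem _ ha i
    apply top_le_iff.1
    intro x _
    rw [← SemidirectProduct.inl_left_mul_inr_right x]
    exact Subgroup.mul_mem _ (hinl _) (hinr _)
  have hfin : Finite (Gam α) := by
    have : Finite (G × Subgroup.zpowers α) := inferInstance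
    exact Finite.of_equiv _ SemidirectProduct.equivProd.symm
  have hmain := main _ (Gam α) rfl (aEl α) hnc (j+1)
  set δ : G → G := fun c : G => c * (α c)⁻¹ with hδ
  set H : Subgroup G := Subgroup.closure (Set.range (δ^[j+1])) with hH
  -- `α` commutes with `δ`
  have hcomm : ∀ (β : MulAut G), Commute β α → ∀ (m : ℕ) (c : G), β (δ^[m] c) = δ^[m] (β c) := by
    intro β hβ m
    induction m with
    | zero => intro c; rfl
    | succ m ih =>
      intro c
      rw [Function.iterate_succ_apply', Function.iterate_succ_apply', ← ih c]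
      have : β (α (δ^[m] c)) = α (β (δ^[m] c)) := by
        rw [← MulAut.mul_apply, ← MulAut.mul_apply, hβ.eq]
      show β (δ^[m] c * (α (δ^[m] c))⁻¹) = β (δ^[m] c) * (α (β (δ^[m] c)))⁻¹
      rw [map_mul, map_inv, this]
  have hinv : ∀ (β : MulAut G), Commute β α → ∀ h ∈ H, β h ∈ H := by
    intro β hβ h hh
    have hle : H ≤ H.comap β.toMonoidHom := by
      rw [hH, Subgroup.closure_le]
      rintro _ ⟨c, rfl⟩
      show β (δ^[j+1] c) ∈ Subgroup.closure (Set.range (δ^[j+1]))
      rw [hcomm β hβ]
      exact Subgroup.subset_closure ⟨_, rfl⟩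
    exact hle hh
  have hstab := zpowers_stab α H (hinv α (Commute.refl α)) (hinv α⁻¹ (Commute.refl α).inv_left)
  -- the subgroup of elements with left component in `H`
  let P : Subgroup (Gam α) :=
    { carrier := {x | x.left ∈ H}
      mul_mem' := by
        intro x y hx hy
        show (x * y).left ∈ H
        rw [SemidirectProduct.mul_left]
        exact H.mul_mem hx (hstab _ x.right.2 _ hy)
      one_mem' := by
        show (1 : Gam α).left ∈ H
        simp
      inv_mem' := by
        intro x hx
        show (x⁻¹).left ∈ H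
        rw [SemidirectProduct.inv_left]
        exact hstab _ (x.right⁻¹).2 _ (H.inv_mem hx) }
  have hTP : Subgroup.closure (T (aEl α) (j+1)) ≤ P := by
    rw [Subgroup.closure_le]
    intro x hx
    obtain ⟨c, rfl⟩ := T_form α j x hx
    show (SemidirectProduct.inl (δ^[j+1] c) * aEl α : Gam α).left ∈ H
    have : (SemidirectProduct.inl (δ^[j+1] c) * aEl α : Gam α).left = δ^[j+1] c := by
      simp [aEl]
    rw [this]
    exact Subgroup.subset_closure ⟨_, rfl⟩
  rw [hmain] at hTP
  apply top_le_iff.1
  intro g _
  have : (SemidirectProduct.inl g : Gam α) ∈ P := hTP (Subgroup.mem_top _)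
  have h2 : (SemidirectProduct.inl g : Gam α).left ∈ H := this
  simpa using h2

end Cfsg.Agent.S3927
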