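import Cfsg.Statements.S3941

set_option autoImplicit false
open Cfsg

namespace Cfsg.Agent.S3941

open Subgroup Equiv Equiv.Perm

lemma mul_pelement {H : Type*} [Group H] [Finite H] {p : ℕ} [Fact p.Prime] (hcl : Cfsg.IsPClosed p H)
    (x y : H) (hx : ∃ k : ℕ, orderOf x = p ^ k) (hy : ∃ k : ℕ, orderOf y = p ^ k) :
    ∃ k : ℕ, orderOf (x * y) = p ^ k := by
  let P : Sylow p H := default
  have hP : (P : Subgroup H).Normal := hcl P
  have key : ∀ z : H, (∃ k : ℕ, orderOf z = p ^ k) → z ∈ (P : Subgroup H) := by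
    rintro z ⟨k, hk⟩
    have hz : IsPGroup p (zpowers z) := IsPGroup.of_card (n := k) (by rw [Nat.card_zpowers, hk])
    obtain ⟨Q, hQ⟩ := hz.exists_le_sylow
    obtain ⟨g, hg⟩ := MulAction.exists_smul_eq H P Q
    rw [Sylow.smul_eq_of_normal] at hg
    rw [hg]
    exact hQ (mem_zpowers z)
  have h1 : x * y ∈ (P : Subgroup H) := mul_mem (key x hx) (key y hy)
  obtain ⟨k, hk⟩ := (IsPGroup.iff_orderOf.1 P.2) ⟨x * y, h1⟩
  rw [Subgroup.orderOf_mk] at hk
  exact ⟨k, hk⟩

lemma prod_three {α : Type*} [DecidableEq α] [Fintype α] {a b d e : α} (hab : a ≠ b) (had : a ≠ d) (hae : a ≠ e)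
    (hbd : b ≠ d) (hbe : b ≠ e) (hde : d ≠ e) :
    orderOf ((swap a b * swap a d) * (swap a b * swap a e)) = 2 := by
  have e1 : (swap a b * swap a d) * (swap a b * swap a e) = swap b d * swap a e := by
    have : swap a b * swap a d * swap a b = swap b d := by
      have := swap_mul_swap_mul_swap (x := d) (y := a) (z := b) had.symm hbd.symm
      rw [swap_comm d a] at this
      exact this
    rw [← mul_assoc, this]
  have hdis : Perm.Disjoint (swap b d) (swap a e) := disjoint_swap_swap (by
    simp only [List.nodup_cons, List.mem_cons, List.not_mem_nil, or_false, not_or, List.nodup_nil, and_true,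
      not_false_eq_true]
    exact ⟨⟨hbd, hab.symm, hbe⟩, ⟨had.symm, hde⟩, hae⟩)
  rw [e1]
  have h1 : (swap b d * swap a e) ^ 2 = 1 := by
    rw [hdis.commute.mul_pow, sq, sq, swap_mul_self, swap_mul_self, one_mul]
  have h2 : swap b d * swap a e ≠ 1 := by
    intro h
    have := congrArg (fun f : Perm α => f a) h
    simp only [Perm.mul_apply, Perm.one_apply, swap_apply_left] at this
    rw [swap_apply_of_ne_of_ne hbe.symm hde.symm] at this
    exact hae this.symm
  exact orderOf_eq_prime h1 h2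

theorem result (n p : ℕ) (hn : 5 ≤ n) [Fact p.Prime] (hp : p ≠ 2) (hpn : p ≤ n)
    (h : ∀ H : Subgroup ↥(alternatingGroup (Fin n)), H ≠ ⊤ → p ∣ Nat.card ↥H → Cfsg.IsPClosed p ↥H) : n = p := by
  have hpp : p.Prime := Fact.out
  by_contra hne
  have hlt : p < n := lt_of_le_of_ne hpn (Ne.symm hne)
  let x₀ : Fin n := ⟨4, by omega⟩
  set H : Subgroup ↥(alternatingGroup (Fin n)) := MulAction.stabilizer ↥(alternatingGroup (Fin n)) x₀ with hH
  haveI : Nontrivial (Fin n) := Fin.nontrivial_iff_two_le.2 (by omega)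
  haveI : MulAction.IsPretransitive ↥(alternatingGroup (Fin n)) (Fin n) :=
    alternatingGroup.isPretransitive_of_three_le_card (Fin n) (by simp; omega)
  have hidx : H.index = n := by
    rw [hH, MulAction.index_stabilizer_of_transitive]; simp
  have hA : 2 * Nat.card ↥(alternatingGroup (Fin n)) = n.factorial := by
    rw [two_mul_nat_card_alternatingGroup, Nat.card_perm]; simp
  have hHtop : H ≠ ⊤ := by
    intro h1
    rw [h1, index_top] at hidx
    omega
  have hdvd : p ∣ Nat.card ↥H := by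
    have h1 := H.card_mul_index
    rw [hidx] at h1
    obtain ⟨m, rfl⟩ : ∃ m, n = m + 1 := ⟨n - 1, by omega⟩
    rw [Nat.factorial_succ, ← h1] at hA
    have h2 : 2 * Nat.card ↥H = m.factorial := by
      have : (m + 1) * (2 * Nat.card ↥H) = (m + 1) * m.factorial := by rw [← hA]; ring
      exact Nat.eq_of_mul_eq_mul_left (by omega) this
    have h3 : p ∣ 2 * Nat.card ↥H := by
      rw [h2]; exact (hpp.dvd_factorial).2 (by omega)
    rcases (hpp.dvd_mul).1 h3 with h4 | h4
    · exact absurd ((Nat.prime_dvd_prime_iff_eq hpp Nat.prime_two).1 h4) hp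
    · exact h4
  have hcl := h H hHtop hdvd
  have mkH : ∀ σ : Perm (Fin n), σ ∈ alternatingGroup (Fin n) → σ x₀ = x₀ →
      ∃ c : ↥H, ((c : ↥(alternatingGroup (Fin n))) : Perm (Fin n)) = σ := by
    intro σ h1 h2
    exact ⟨⟨⟨σ, h1⟩, by rw [hH, MulAction.mem_stabilizer_iff]; exact h2⟩, rfl⟩
  have hord : ∀ c : ↥H, orderOf c = orderOf ((c : ↥(alternatingGroup (Fin n))) : Perm (Fin n)) := by
    intro c
    rw [Subgroup.orderOf_coe, Subgroup.orderOf_coe]
  by_cases hp3 : p = 3
  · subst hp3
    let a : Fin n := ⟨0, by omega⟩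
    let b : Fin n := ⟨1, by omega⟩
    let d : Fin n := ⟨2, by omega⟩
    let e : Fin n := ⟨3, by omega⟩
    have hab : a ≠ b := by simp [a, b, Fin.ext_iff]
    have had : a ≠ d := by simp [a, d, Fin.ext_iff]
    have hae : a ≠ e := by simp [a, e, Fin.ext_iff]
    have hbd : b ≠ d := by simp [b, d, Fin.ext_iff]
    have hbe : b ≠ e := by simp [b, e, Fin.ext_iff]
    have hde : d ≠ e := by simp [d, e, Fin.ext_iff]
    have hax : x₀ ≠ a := by simp [a, x₀, Fin.ext_iff]
    have hbx : x₀ ≠ b := by simp [b, x₀, Fin.ext_iff]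
    have hdx : x₀ ≠ d := by simp [d, x₀, Fin.ext_iff]
    have hex : x₀ ≠ e := by simp [e, x₀, Fin.ext_iff]
    have t1 : IsThreeCycle (swap a b * swap a d) := isThreeCycle_swap_mul_swap_same hab had hbd
    have t2 : IsThreeCycle (swap a b * swap a e) := isThreeCycle_swap_mul_swap_same hab hae hbe
    obtain ⟨c1, hc1⟩ := mkH _ t1.mem_alternatingGroup (by
      rw [Perm.mul_apply, swap_apply_of_ne_of_ne hax hdx, swap_apply_of_ne_of_ne hax hbx])
    obtain ⟨c2, hc2⟩ := mkH _ t2.mem_alternatingGroup (by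
      rw [Perm.mul_apply, swap_apply_of_ne_of_ne hax hex, swap_apply_of_ne_of_ne hax hbx])
    obtain ⟨k, hk⟩ := mul_pelement hcl c1 c2 ⟨1, by rw [hord, hc1, t1.orderOf, pow_one]⟩
      ⟨1, by rw [hord, hc2, t2.orderOf, pow_one]⟩
    rw [hord] at hk
    simp only [Subgroup.coe_mul, hc1, hc2] at hk
    rw [prod_three hab had hae hbd hbe hde] at hk
    have : (3 : ℕ) ∣ 2 := by
      rcases k with _ | k
      · simp at hk
      · rw [hk, pow_succ]; exact dvd_mul_left _ _
    omega
  · obtain ⟨c, hc⟩ := exists_prime_orderOf_dvd_card' (G := ↥H) p hdvd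
    set σ : Perm (Fin n) := ((c : ↥(alternatingGroup (Fin n))) : Perm (Fin n)) with hσ
    have hσo : orderOf σ = p := by rw [hσ, ← hord, hc]
    have hσA : σ ∈ alternatingGroup (Fin n) := (c : ↥(alternatingGroup (Fin n))).2
    have hσx : σ x₀ = x₀ := by
      have := MulAction.mem_stabilizer_iff.1 c.2
      exact this
    have hσ1 : σ ≠ 1 := by
      intro h1
      rw [h1, orderOf_one] at hσo
      exact hpp.one_lt.ne hσo
    obtain ⟨a, ha⟩ : ∃ a, σ a ≠ a := by
      by_contra hcon
      push Not at hcon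
      exact hσ1 (Perm.ext hcon)
    set b := σ a with hb
    set d := σ b with hd
    have hab : a ≠ b := fun h1 => ha h1.symm
    have hbd : b ≠ d := fun h1 => hab (σ.injective h1)
    have had : a ≠ d := by
      intro h1
      obtain ⟨u, hu⟩ := hpp.odd_of_ne_two hp
      have h2 : (σ ^ 2) a = a := by
        rw [sq, Perm.mul_apply, ← hb, ← hd, ← h1]
      have h3 : ((σ ^ 2) ^ (u + 1)) a = a := by
        have : ∀ j : ℕ, ((σ ^ 2) ^ j) a = a := by
          intro j
          induction j with
          | zero => simp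
          | succ j ih => rw [pow_succ, Perm.mul_apply, h2, ih]
        exact this _
      have h4 : (σ ^ 2) ^ (u + 1) = σ := by
        rw [← pow_mul]
        have : 2 * (u + 1) = p + 1 := by omega
        rw [this, pow_succ, ← hσo, pow_orderOf_eq_one, one_mul]
      rw [h4] at h3
      exact ha h3
    have hax : x₀ ≠ a := by
      intro h1
      apply ha
      show σ a = a
      rw [← h1]; exact hσx
    have hbx : x₀ ≠ b := by
      intro h1
      apply hax
      apply σ.injective
      rw [hσx]; exact h1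
    have hσ2A : swap a b * σ * (swap a b)⁻¹ ∈ alternatingGroup (Fin n) :=
      (alternatingGroup.normal).conj_mem σ hσA (swap a b)
    obtain ⟨c2, hc2⟩ := mkH _ hσ2A (by
      rw [swap_inv, Perm.mul_apply, Perm.mul_apply, swap_apply_of_ne_of_ne hax hbx, hσx,
        swap_apply_of_ne_of_ne hax hbx])
    have ho2 : orderOf c2 = p := by
      rw [hord, hc2, ← hσo]
      exact MulEquiv.orderOf_eq (MulAut.conj (swap a b)) σ
    obtain ⟨k, hk⟩ := mul_pelement hcl c2 c⁻¹ ⟨1, by rw [ho2, pow_one]⟩ ⟨1, by rw [orderOf_inv, hc, pow_one]⟩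
    rw [hord] at hk
    simp only [Subgroup.coe_mul, InvMemClass.coe_inv, hc2] at hk
    have h5 : swap a b * σ * (swap a b)⁻¹ * σ⁻¹ = swap b a * swap b d := by
      rw [swap_inv, mul_assoc (swap a b) σ, Equiv.mul_swap_eq_swap_mul, ← hb, ← hd, swap_comm a b]
      group
    rw [← hσ, h5, (isThreeCycle_swap_mul_swap_same hab.symm hbd had).orderOf] at hk
    apply hp3
    rcases k with _ | k
    · simp at hk
    · have : p ∣ 3 := by rw [hk, pow_succ]; exact dvd_mul_left _ _
      exact (Nat.prime_dvd_prime_iff_eq hpp Nat.prime_three).1 this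

end Cfsg.Agent.S3941
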