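import Cfsg.Statements.S3949

set_option autoImplicit false
open Cfsg

namespace Cfsg.Agent.S3949

theorem iter_of_inv {G : Type*} [Group G] (α : MulAut G) (n : ℕ) (c : G) (hc : α c = c⁻¹) :
    (fun c : G => c * (α c)⁻¹)^[n] c = c ^ (2 ^ n) := by
  induction n generalizing c with
  | zero => simp
  | succ n ih =>
    rw [Function.iterate_succ_apply]
    have h1 : c * (α c)⁻¹ = c ^ 2 := by rw [hc, inv_inv, pow_two]
    have h2 : α (c ^ 2) = (c ^ 2)⁻¹ := by rw [map_pow, hc, inv_pow]
    simp only [h1]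
    rw [ih _ h2, ← pow_mul, pow_succ']

/-- Let G be a finite group and α an automorphism of G of order 2 such that the elements g·α(g)⁻¹ generate G. Let j be a positive integer such that 2^j divides the order of no element inverted by α. Then the set of values of the j-th iterate of the map c ↦ c·α(c)⁻¹ is exactly the set of elements of odd order inverted by α. -/
theorem result {G : Type*} [Group G] [Finite G] (α : MulAut G) (hα : orderOf α = 2) (hG : Subgroup.closure (Set.range (fun c : G => c * (α c)⁻¹)) = ⊤)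
    (j : ℕ) (hj : ∀ g : G, α g = g⁻¹ → ¬ 2 ^ j ∣ orderOf g) :
    Set.range ((fun c : G => c * (α c)⁻¹)^[j]) = {g : G | Odd (orderOf g) ∧ α g = g⁻¹} := by
  have hαα : ∀ c, α (α c) = c := by
    intro c
    have : α ^ 2 = 1 := by rw [← hα]; exact pow_orderOf_eq_one α
    have h2 := congrArg (fun f : MulAut G => f c) this
    simpa [pow_two] using h2
  have hj0 : j ≠ 0 := by
    rintro rfl
    exact hj 1 (by simp) (by simp)
  obtain ⟨i, rfl⟩ := Nat.exists_eq_succ_of_ne_zero hj0
  ext g
  constructor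
  · rintro ⟨c, rfl⟩
    rw [Function.iterate_succ_apply]
    set d := c * (α c)⁻¹ with hd
    have hdinv : α d = d⁻¹ := by
      rw [hd, map_mul, map_inv, hαα]; group
    change Odd (orderOf ((fun c : G => c * (α c)⁻¹)^[i] d)) ∧ _
    rw [iter_of_inv α i d hdinv]
    refine ⟨?_, by rw [map_pow, hdinv, inv_pow]⟩
    obtain ⟨a, m, hm, ham⟩ := Nat.exists_eq_two_pow_mul_odd (orderOf_pos d).ne'
    have hai : a ≤ i := by
      by_contra hcon
      push Not at hcon
      apply hj d hdinv
      rw [ham]
      exact Dvd.dvd.mul_right (pow_dvd_pow 2 hcon) m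
    have h1 : (d ^ 2 ^ i) ^ m = 1 := by
      rw [← pow_mul]
      apply orderOf_dvd_iff_pow_eq_one.mp
      rw [ham]
      exact Nat.mul_dvd_mul_right (pow_dvd_pow 2 hai) m
    exact Odd.of_dvd_nat hm (orderOf_dvd_of_pow_eq_one h1)
  · rintro ⟨hodd, hinv⟩
    have hcop : (2 ^ (i + 1)).Coprime (orderOf g) := by
      apply Nat.Coprime.pow_left
      exact (Nat.coprime_two_left).mpr hodd
    obtain ⟨m, hm⟩ := exists_pow_eq_self_of_coprime hcop
    refine ⟨g ^ m, ?_⟩
    have h1 : α (g ^ m) = (g ^ m)⁻¹ := by rw [map_pow, hinv, inv_pow]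
    rw [iter_of_inv α _ _ h1, ← pow_mul, mul_comm, pow_mul, hm]

end Cfsg.Agent.S3949
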