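import Mathlib
import Cfsg.Statements.S3982
import Cfsg.Agent.Lib.Lead.Cores

set_option autoImplicit false
open Cfsg

namespace Cfsg.Agent.S3982

theorem lemB {T : Type*} [Group T] [Finite T] (p : ℕ) [Fact p.Prime] (C : Subgroup T) [C.Normal]
    (hC : Odd (Nat.card C)) (hT : Even (Nat.card T)) (P₀ : Sylow p C) :
    Even (Nat.card (Subgroup.normalizer (((P₀ : Subgroup C).map C.subtype : Subgroup T) : Set T))) := by
  have h1 := Sylow.normalizer_sup_eq_top P₀
  have h2 := Cfsg.Agent.Lib.Lead.card_sup_dvd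
    (Subgroup.normalizer (((P₀ : Subgroup C).map C.subtype : Subgroup T) : Set T)) C
  rw [h1, Subgroup.card_top] at h2
  have h3 : 2 ∣ Nat.card (Subgroup.normalizer (((P₀ : Subgroup C).map C.subtype : Subgroup T) : Set T))
      * Nat.card C := (even_iff_two_dvd.mp hT).trans h2
  have h4 : Nat.Coprime 2 (Nat.card C) := Nat.coprime_two_left.mpr hC
  exact even_iff_two_dvd.mpr (h4.dvd_of_dvd_mul_right h3)

theorem lemA {G : Type*} [Group G] [Finite G] (p : ℕ) [Fact p.Prime] (C : Subgroup G)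
    (hC : Odd (Nat.card C)) (hN : Even (Nat.card (Subgroup.normalizer (C : Set G)))) :
    ∃ P₁ : Subgroup G, P₁ ≤ C ∧ Nat.card P₁ = p ^ (Nat.card C).factorization p ∧
      Even (Nat.card (Subgroup.normalizer (P₁ : Set G))) := by
  set T := Subgroup.normalizer (C : Set G) with hT
  set C' := C.subgroupOf T with hC'
  have hcard : Nat.card C' = Nat.card C :=
    Nat.card_congr (Subgroup.subgroupOfEquivOfLe Subgroup.le_normalizer).toEquiv
  let P₀ : Sylow p C' := default
  have h1 := lemB p C' (by rw [hcard]; exact hC) hN P₀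
  refine ⟨((P₀ : Subgroup C').map C'.subtype).map T.subtype, ?_, ?_, ?_⟩
  · rintro _ ⟨t, ⟨c, -, rfl⟩, rfl⟩
    exact c.2
  · rw [Subgroup.card_map_of_injective T.subtype_injective,
      Subgroup.card_map_of_injective C'.subtype_injective, P₀.card_eq_multiplicity, hcard]
  · have h2 := Subgroup.le_normalizer_map (H := (P₀ : Subgroup C').map C'.subtype) T.subtype
    have h3 := Subgroup.card_dvd_of_le h2
    rw [Subgroup.card_map_of_injective T.subtype_injective] at h3
    exact even_iff_two_dvd.mpr ((even_iff_two_dvd.mp h1).trans h3)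

theorem mem_of_commute {G : Type*} [Group G] [Finite G] (p : ℕ) [hp : Fact p.Prime]
    (C P₁ : Subgroup G) (hP₁C : P₁ ≤ C)
    (hcard : Nat.card P₁ = p ^ (Nat.card C).factorization p) (w : G) (hwC : w ∈ C)
    (hw : ∃ k, orderOf w = p ^ k) (hcomm : ∀ r ∈ P₁, w * r = r * w) : w ∈ P₁ := by
  obtain ⟨k, hk⟩ := hw
  have h1 : IsPGroup p (Subgroup.zpowers w) := IsPGroup.of_card (n := k) (by rw [Nat.card_zpowers, hk])
  have h2 : IsPGroup p P₁ := IsPGroup.of_card hcard
  have h3 : Subgroup.zpowers w ≤ Subgroup.normalizer (P₁ : Set G) := by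
    rw [Subgroup.zpowers_le]
    apply Subgroup.centralizer_le_normalizer
    rw [Subgroup.mem_centralizer_iff]
    intro r hr
    exact (hcomm r hr).symm
  have h4 := IsPGroup.to_sup_of_normal_right' h1 h2 h3
  have h5 : Subgroup.zpowers w ⊔ P₁ ≤ C := sup_le (Subgroup.zpowers_le.mpr hwC) hP₁C
  obtain ⟨j, hj⟩ := h4.exists_card_eq
  have h6 : p ^ j ∣ Nat.card C := by rw [← hj]; exact Subgroup.card_dvd_of_le h5
  have h7 : j ≤ (Nat.card C).factorization p :=
    (Nat.Prime.pow_dvd_iff_le_factorization hp.out Nat.card_pos.ne').mp h6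
  have h8 : P₁ = Subgroup.zpowers w ⊔ P₁ := by
    apply Subgroup.eq_of_le_of_card_ge le_sup_right
    rw [hj, hcard]
    exact Nat.pow_le_pow_right hp.out.pos h7
  rw [h8]
  exact (le_sup_left : Subgroup.zpowers w ≤ _) (Subgroup.mem_zpowers w)

theorem exists_involution {G : Type*} [Group G] [Finite G] (H : Subgroup G) (hH : Even (Nat.card H)) :
    ∃ y ∈ H, orderOf y = 2 := by
  have : Fact (Nat.Prime 2) := ⟨Nat.prime_two⟩
  obtain ⟨y, hy⟩ := exists_prime_orderOf_dvd_card' 2 (even_iff_two_dvd.mp hH)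
  exact ⟨y, y.2, by rw [← hy, Subgroup.orderOf_coe]⟩

theorem inv_comp {G : Type*} [Group G] (y r : G) (hyinv : y⁻¹ = y) :
    y * (r⁻¹ * (y * r * y⁻¹)) * y⁻¹ = (r⁻¹ * (y * r * y⁻¹))⁻¹ := by
  have hyy : y * y = 1 := by
    nth_rewrite 1 [← hyinv]
    exact inv_mul_cancel y
  calc y * (r⁻¹ * (y * r * y⁻¹)) * y⁻¹ = y * r⁻¹ * y * r * (y⁻¹ * y⁻¹) := by group
    _ = y * r⁻¹ * y * r := by rw [hyinv, hyy, mul_one]
    _ = y * r⁻¹ * y⁻¹ * r := by rw [hyinv]
    _ = (r⁻¹ * (y * r * y⁻¹))⁻¹ := by group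

/-- Let p be an odd prime and G a finite group of even order divisible by p in which the centralizer of every non-identity p-element has odd order. If some nontrivial p-subgroup of G has a normalizer of even order, then the normalizer of every Sylow p-subgroup of G has even order. -/
theorem result {G : Type*} [Group G] [Finite G] (p : ℕ) [Fact p.Prime] (hp2 : p ≠ 2) (hpG : p ∣ Nat.card G) (h2G : 2 ∣ Nat.card G) (hC : ∀ g : G, g ≠ 1 → (∃ k : ℕ, orderOf g = p ^ k) → Odd (Nat.card ↥(Subgroup.centralizer ({g} : Set G)))) (Q : Subgroup G) (hQ : IsPGroup p ↥Q) (hQ1 : Q ≠ ⊥) (hev : Even (Nat.card ↥(Subgroup.normalizer (Q : Set G)))) (P : Sylow p G) : Even (Nat.card ↥(Subgroup.normalizer ((P : Subgroup G) : Set G))) := by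
  have hp : p.Prime := Fact.out
  -- no involution commutes with a nontrivial p-element
  have hno : ∀ y g : G, orderOf y = 2 → g ≠ 1 → (∃ k : ℕ, orderOf g = p ^ k) → y * g ≠ g * y := by
    intro y g hy hg1 hg hcomm
    have h1 := hC g hg1 hg
    have h2 : y ∈ Subgroup.centralizer ({g} : Set G) := Subgroup.mem_centralizer_singleton_iff.mpr hcomm
    have h3 := orderOf_dvd_natCard (⟨y, h2⟩ : Subgroup.centralizer ({g} : Set G))
    rw [Subgroup.orderOf_mk, hy] at h3
    exact (Nat.not_even_iff_odd.mpr h1) (even_iff_two_dvd.mpr h3)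
  -- the key step
  have step : ∀ y q : G, orderOf y = 2 → q ≠ 1 → (∃ k : ℕ, orderOf q = p ^ k) → y * q * y⁻¹ = q⁻¹ →
      ∃ P₁ : Subgroup G, P₁ ≤ Subgroup.centralizer ({q} : Set G) ∧
        Nat.card P₁ = p ^ (Nat.card (Subgroup.centralizer ({q} : Set G))).factorization p ∧
        Even (Nat.card (Subgroup.normalizer (P₁ : Set G))) := by
    intro y q hy hq1 hq hinv
    apply lemA p _ (hC q hq1 hq)
    have hyN : y ∈ Subgroup.normalizer ((Subgroup.centralizer ({q} : Set G) : Subgroup G) : Set G) := by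
      rw [Subgroup.mem_normalizer_iff]
      intro h
      rw [Subgroup.mem_centralizer_singleton_iff, Subgroup.mem_centralizer_singleton_iff]
      have hq' : q = y * q⁻¹ * y⁻¹ := by
        have := congrArg (·⁻¹) hinv
        simp only [mul_inv_rev, inv_inv] at this
        rw [mul_assoc]
        exact this.symm
      constructor
      · intro hh
        have hh' : h * q⁻¹ = q⁻¹ * h := ((show Commute h q from hh).inv_right).eq
        calc y * h * y⁻¹ * q = y * h * y⁻¹ * (y * q⁻¹ * y⁻¹) := by rw [← hq']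
          _ = y * (h * q⁻¹) * y⁻¹ := by group
          _ = y * (q⁻¹ * h) * y⁻¹ := by rw [hh']
          _ = (y * q⁻¹ * y⁻¹) * (y * h * y⁻¹) := by group
          _ = q * (y * h * y⁻¹) := by rw [← hq']
      · intro hh
        have h1 : Commute (y * h * y⁻¹) (y * q⁻¹ * y⁻¹) := by rw [← hq']; exact hh
        have h2 : Commute h q⁻¹ := by
          have h3 := h1.eq
          have h4 : y * (h * q⁻¹) * y⁻¹ = y * (q⁻¹ * h) * y⁻¹ := by
            calc y * (h * q⁻¹) * y⁻¹ = (y * h * y⁻¹) * (y * q⁻¹ * y⁻¹) := by group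
              _ = (y * q⁻¹ * y⁻¹) * (y * h * y⁻¹) := h3
              _ = y * (q⁻¹ * h) * y⁻¹ := by group
          exact mul_left_cancel (mul_right_cancel h4)
        have h5 := h2.inv_right
        rw [inv_inv] at h5
        exact h5.eq
    have h3 := orderOf_dvd_natCard (⟨y, hyN⟩ : Subgroup.normalizer
      ((Subgroup.centralizer ({q} : Set G) : Subgroup G) : Set G))
    rw [Subgroup.orderOf_mk, hy] at h3
    exact even_iff_two_dvd.mpr h3
  have hsq : ∀ y : G, orderOf y = 2 → y⁻¹ = y := by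
    intro y hy
    have := pow_orderOf_eq_one y
    rw [hy, pow_two] at this
    exact inv_eq_of_mul_eq_one_left this
  have hordp : ∀ (R : Subgroup G), IsPGroup p R → ∀ x ∈ R, ∃ k, orderOf x = p ^ k := by
    intro R hR x hx
    obtain ⟨c, hc⟩ := (IsPGroup.iff_orderOf.mp hR) ⟨x, hx⟩
    exact ⟨c, by rw [← hc, Subgroup.orderOf_mk]⟩
  -- first application
  obtain ⟨y, hyN, hy⟩ := exists_involution _ hev
  obtain ⟨r, hrQ, hr1⟩ : ∃ r : G, r ∈ Q ∧ r ≠ 1 := by
    obtain ⟨r, hr⟩ := Subgroup.ne_bot_iff_exists_ne_one.mp hQ1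
    exact ⟨r.1, r.2, fun h => hr (Subtype.ext h)⟩
  set q := r⁻¹ * (y * r * y⁻¹) with hq
  have hqQ : q ∈ Q := mul_mem (inv_mem hrQ) ((Subgroup.mem_normalizer_iff.mp hyN r).mp hrQ)
  have hq1 : q ≠ 1 := by
    intro h
    apply hno y r hy hr1 (hordp Q hQ r hrQ)
    have h2 : y * r * y⁻¹ = r := by
      have := inv_mul_eq_one.mp h
      exact this.symm
    exact mul_inv_eq_iff_eq_mul.mp h2
  have hqinv : y * q * y⁻¹ = q⁻¹ := inv_comp y r (hsq y hy)
  obtain ⟨P₁, hP₁C, hP₁card, hP₁ev⟩ := step y q hy hq1 (hordp Q hQ q hqQ) hqinv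
  have hP₁p : IsPGroup p P₁ := IsPGroup.of_card hP₁card
  have hqP₁ : q ∈ P₁ := by
    apply mem_of_commute p _ P₁ hP₁C hP₁card q _ (hordp Q hQ q hqQ)
    · intro r hr
      exact (Subgroup.mem_centralizer_singleton_iff.mp (hP₁C hr)).symm
    · rw [Subgroup.mem_centralizer_singleton_iff]
  obtain ⟨y₁, hy₁N, hy₁⟩ := exists_involution _ hP₁ev
  have hinvP₁ : ∀ z ∈ P₁, y₁ * z * y₁⁻¹ = z⁻¹ := by
    let f : P₁ → P₁ := fun a => ⟨(a : G)⁻¹ * (y₁ * a * y₁⁻¹),
      mul_mem (inv_mem a.2) ((Subgroup.mem_normalizer_iff.mp hy₁N a).mp a.2)⟩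
    have hf : Function.Injective f := by
      intro a b hab
      have h1 : (a : G)⁻¹ * (y₁ * a * y₁⁻¹) = (b : G)⁻¹ * (y₁ * b * y₁⁻¹) := congrArg Subtype.val hab
      by_contra hne
      have h2 : (b : G) * (a : G)⁻¹ ≠ 1 := by
        intro h
        apply hne
        exact (Subtype.ext (mul_inv_eq_one.mp h)).symm
      apply hno y₁ _ hy₁ h2 (hordp P₁ hP₁p _ (mul_mem b.2 (inv_mem a.2)))
      calc y₁ * ((b : G) * (a : G)⁻¹) = (b : G) * ((b : G)⁻¹ * (y₁ * b * y₁⁻¹)) * y₁ * (a : G)⁻¹ := by group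
        _ = (b : G) * ((a : G)⁻¹ * (y₁ * a * y₁⁻¹)) * y₁ * (a : G)⁻¹ := by rw [h1]
        _ = (b : G) * (a : G)⁻¹ * y₁ := by group
    have hsurj := Finite.injective_iff_surjective.mp hf
    intro z hz
    obtain ⟨a, ha⟩ := hsurj ⟨z, hz⟩
    have ha' : (a : G)⁻¹ * (y₁ * a * y₁⁻¹) = z := congrArg Subtype.val ha
    rw [← ha']
    exact inv_comp y₁ a (hsq y₁ hy₁)
  obtain ⟨S, hS⟩ := hP₁p.exists_le_sylow
  have hSnt : Nontrivial (S : Subgroup G) :=
    ⟨⟨⟨q, hS hqP₁⟩, 1, fun h => hq1 (congrArg Subtype.val h)⟩⟩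
  have hcnt : Nontrivial (Subgroup.center (S : Subgroup G)) := S.isPGroup'.center_nontrivial
  obtain ⟨z, hz1⟩ := exists_ne (1 : Subgroup.center (S : Subgroup G))
  have hzc : ∀ s ∈ (S : Subgroup G), ((z : (S : Subgroup G)) : G) * s = s * ((z : (S : Subgroup G)) : G) := by
    intro s hs
    have := Subgroup.mem_center_iff.mp z.2 ⟨s, hs⟩
    exact (congrArg Subtype.val this).symm
  set z' : G := ((z : (S : Subgroup G)) : G) with hz'
  have hz'S : z' ∈ (S : Subgroup G) := (z : (S : Subgroup G)).2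
  have hz'1 : z' ≠ 1 := by
    intro h
    apply hz1
    exact Subtype.ext (Subtype.ext h)
  have hz'o := hordp _ S.isPGroup' z' hz'S
  have hz'P₁ : z' ∈ P₁ := by
    apply mem_of_commute p _ P₁ hP₁C hP₁card z' _ hz'o
    · intro r hr
      exact hzc r (hS hr)
    · rw [Subgroup.mem_centralizer_singleton_iff]
      exact hzc q (hS hqP₁)
  obtain ⟨P₂, hP₂C, hP₂card, hP₂ev⟩ := step y₁ z' hy₁ hz'1 hz'o (hinvP₁ z' hz'P₁)
  have hSC : (S : Subgroup G) ≤ Subgroup.centralizer ({z'} : Set G) := by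
    intro s hs
    rw [Subgroup.mem_centralizer_singleton_iff]
    exact (hzc s hs).symm
  have hfac : (Nat.card (Subgroup.centralizer ({z'} : Set G))).factorization p =
      (Nat.card G).factorization p := by
    apply le_antisymm
    · exact (Nat.factorization_le_iff_dvd Nat.card_pos.ne' Nat.card_pos.ne').mpr
        (Subgroup.card_subgroup_dvd_card _) p
    · have h1 := Subgroup.card_dvd_of_le hSC
      rw [S.card_eq_multiplicity] at h1
      exact (Nat.Prime.pow_dvd_iff_le_factorization hp Nat.card_pos.ne').mp h1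
  rw [hfac] at hP₂card
  let S₂ : Sylow p G := Sylow.ofCard P₂ hP₂card
  have h1 : (Subgroup.normalizer ((S₂ : Subgroup G) : Set G)).index =
      (Subgroup.normalizer ((P : Subgroup G) : Set G)).index := by
    exact (Sylow.card_eq_index_normalizer S₂).symm.trans (Sylow.card_eq_index_normalizer P)
  have h2 := (Subgroup.normalizer ((S₂ : Subgroup G) : Set G)).card_mul_index
  have h3 := (Subgroup.normalizer ((P : Subgroup G) : Set G)).card_mul_index
  rw [h1, ← h3] at h2
  have h4 := Nat.eq_of_mul_eq_mul_right (Nat.pos_of_ne_zero Subgroup.index_ne_zero_of_finite) h2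
  rw [← h4]
  exact hP₂ev

end Cfsg.Agent.S3982
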