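import Cfsg.Statements.S3983
import Cfsg.Agent.Lib.Helper66.TISylow

set_option autoImplicit false
open Cfsg
open scoped Pointwise

namespace Cfsg.Agent.S3983

/-- Let P be a Sylow p-subgroup of the finite group G that meets each conjugate g P g⁻¹ with g outside N_G(P) trivially, and let U be a subgroup of G of order divisible by p. Then a Sylow p-subgroup Q of U has the same property inside U: Q meets each conjugate u Q u⁻¹ with u ∈ U outside N_U(Q) trivially. -/
theorem result {G : Type*} [Group G] [Finite G] (p : ℕ) [Fact p.Prime] (P : Sylow p G) (hTI : ∀ g : G, g ∉ Subgroup.normalizer ((P : Subgroup G) : Set G) → (P : Subgroup G) ⊓ (MulAut.conj g • (P : Subgroup G)) = ⊥) (U : Subgroup G) (hU : p ∣ Nat.card ↥U) (Q : Sylow p ↥U) : ∀ u : ↥U, u ∉ Subgroup.normalizer ((Q : Subgroup ↥U) : Set ↥U) → (Q : Subgroup ↥U) ⊓ (MulAut.conj u • (Q : Subgroup ↥U)) = ⊥ := by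
  rw [Cfsg.Agent.Lib.Helper66.ti_iff] at hTI ⊢
  have key : ∀ Q : Sylow p U, ∃ P : Sylow p G, (Q : Subgroup U) = (P : Subgroup G).subgroupOf U := by
    intro Q
    have h1 : IsPGroup p ((Q : Subgroup U).map U.subtype) := Q.isPGroup'.map _
    obtain ⟨P, hP⟩ := h1.exists_le_sylow
    refine ⟨P, ?_⟩
    symm
    apply Q.is_maximal'
    · exact P.isPGroup'.comap_of_injective _ U.subtype_injective
    · intro x hx
      exact hP ⟨x, hx, rfl⟩
  intro Q₁ Q₂ hne
  obtain ⟨P₁, h1⟩ := key Q₁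
  obtain ⟨P₂, h2⟩ := key Q₂
  have hP : P₁ ≠ P₂ := by
    rintro rfl
    exact hne (Sylow.ext (h1.trans h2.symm))
  rw [h1, h2, Subgroup.subgroupOf, Subgroup.subgroupOf, ← Subgroup.comap_inf, hTI P₁ P₂ hP]
  exact (MonoidHom.ker_eq_bot_iff _).mpr U.subtype_injective

end Cfsg.Agent.S3983
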