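import Cfsg.Statements.S3984
import Cfsg.Agent.Lib.Helper66.TISylow

set_option autoImplicit false
open scoped Pointwise
open Cfsg

namespace Cfsg.Agent.S3984

/-- Let P be a Sylow p-subgroup of the finite group G that meets each conjugate g P g⁻¹ with g outside N_G(P) trivially, and let N be a normal subgroup of G of order prime to p. Then every Sylow p-subgroup Q of G ⧸ N meets each conjugate x Q x⁻¹ with x outside its normalizer trivially. -/
theorem result {G : Type*} [Group G] [Finite G] (p : ℕ) [Fact p.Prime] (P : Sylow p G) (hTI : ∀ g : G, g ∉ Subgroup.normalizer ((P : Subgroup G) : Set G) → (P : Subgroup G) ⊓ (MulAut.conj g • (P : Subgroup G)) = ⊥) (N : Subgroup G) [N.Normal] (hN : (Nat.card ↥N).Coprime p) (Q : Sylow p (G ⧸ N)) : ∀ x : G ⧸ N, x ∉ Subgroup.normalizer ((Q : Subgroup (G ⧸ N)) : Set (G ⧸ N)) → (Q : Subgroup (G ⧸ N)) ⊓ (MulAut.conj x • (Q : Subgroup (G ⧸ N))) = ⊥ := by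
  rw [Cfsg.Agent.Lib.Helper66.ti_iff] at hTI ⊢
  intro Q₁ Q₂ hne
  obtain ⟨P₁, rfl⟩ := Sylow.mapSurjective_surjective (QuotientGroup.mk'_surjective N) p Q₁
  obtain ⟨P₂, rfl⟩ := Sylow.mapSurjective_surjective (QuotientGroup.mk'_surjective N) p Q₂
  rw [eq_bot_iff]
  rintro z ⟨hz1, hz2⟩
  rw [Subgroup.mem_bot]
  by_contra hz
  apply hne
  obtain ⟨x₂, hx₂, rfl⟩ := hz2
  set L : Subgroup G := ((P₁ : Subgroup G).map (QuotientGroup.mk' N)).comap (QuotientGroup.mk' N) with hL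
  have hP₁L : (P₁ : Subgroup G) ≤ L := Subgroup.le_comap_map _ _
  have hx₂L : x₂ ∈ L := hz1
  have hA : IsPGroup p ((P₂ : Subgroup G).subgroupOf L) :=
    P₂.isPGroup'.comap_of_injective _ L.subtype_injective
  obtain ⟨R, hR⟩ := hA.exists_le_sylow
  obtain ⟨m, rfl⟩ := MulAction.exists_smul_eq L (P₁.subtype hP₁L) R
  have h1 : (⟨x₂, hx₂L⟩ : L) ∈ ((m • P₁.subtype hP₁L : Sylow p L) : Subgroup L) := hR hx₂
  rw [Sylow.smul_subtype] at h1
  have h2 : x₂ ∈ (((m : G) • P₁ : Sylow p G) : Subgroup G) := h1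
  have h3 : (m : G) • P₁ = P₂ := by
    by_contra hcon
    have h4 := hTI _ _ hcon
    have h5 : x₂ ∈ (((m : G) • P₁ : Sylow p G) : Subgroup G) ⊓ (P₂ : Subgroup G) := ⟨h2, hx₂⟩
    rw [h4, Subgroup.mem_bot] at h5
    apply hz
    rw [h5, map_one]
  apply Sylow.ext
  apply (Sylow.mapSurjective (QuotientGroup.mk'_surjective N) P₂).is_maximal'
    (Sylow.mapSurjective (QuotientGroup.mk'_surjective N) P₁).isPGroup'
  rintro _ ⟨y, hy, rfl⟩
  have hy' : y ∈ (((m : G) • P₁ : Sylow p G) : Subgroup G) := by rw [h3]; exact hy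
  rw [Sylow.coe_subgroup_smul] at hy'
  obtain ⟨v, hv, hvy⟩ := (Subgroup.mem_smul_pointwise_iff_exists _ _ _).mp hy'
  have hvy' : (m : G) * v * (m : G)⁻¹ = y := by simpa [MulAut.smul_def] using hvy
  rw [← hvy', map_mul, map_mul, map_inv]
  have hm : QuotientGroup.mk' N (m : G) ∈ (P₁ : Subgroup G).map (QuotientGroup.mk' N) := m.2
  have hv' : QuotientGroup.mk' N v ∈ (P₁ : Subgroup G).map (QuotientGroup.mk' N) := ⟨v, hv, rfl⟩
  exact mul_mem (mul_mem hm hv') (inv_mem hm)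

end Cfsg.Agent.S3984
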