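import Mathlib
import Cfsg.Statements.S3985

set_option autoImplicit false
open scoped Pointwise
open Cfsg

namespace Cfsg.Agent.S3985

theorem conj_pow_iter {G : Type*} [Group G] (g z : G) (k : ℕ) (h : g * z * g⁻¹ = z ^ k) (j : ℕ) :
    g ^ j * z * (g ^ j)⁻¹ = z ^ (k ^ j) := by
  induction j with
  | zero => simp
  | succ j ih =>
    have h1 : g ^ (j + 1) * z * (g ^ (j + 1))⁻¹ = g * (g ^ j * z * (g ^ j)⁻¹) * g⁻¹ := by
      rw [pow_succ']; group
    rw [h1, ih, ← conj_pow, h, ← pow_mul, pow_succ']

theorem mem_of_pow_mem_coprime {G : Type*} [Group G] (H : Subgroup G) (g : G) (a b : ℕ)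
    (hab : a.Coprime b) (ha : g ^ a ∈ H) (hb : g ^ b ∈ H) : g ∈ H := by
  have h1 := Nat.gcd_eq_gcd_ab a b
  rw [hab] at h1
  have h2 : g = (g ^ a) ^ (a.gcdA b) * (g ^ b) ^ (a.gcdB b) := by
    rw [← zpow_natCast g a, ← zpow_natCast g b, ← zpow_mul, ← zpow_mul, ← zpow_add, ← h1]
    simp
  rw [h2]
  exact mul_mem (zpow_mem ha _) (zpow_mem hb _)

/-- Let P be a cyclic Sylow p-subgroup of the finite group G. Then P meets each conjugate g P g⁻¹ with g outside N_G(P) trivially if and only if P is weakly self-centralizing: C_G(x) = C_G(P) for every non-identity x ∈ P. -/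
theorem result {G : Type*} [Group G] [Finite G] (p : ℕ) [Fact p.Prime] (P : Sylow p G) (hcyc : IsCyclic ↥(P : Subgroup G)) : (∀ g : G, g ∉ Subgroup.normalizer ((P : Subgroup G) : Set G) → (P : Subgroup G) ⊓ (MulAut.conj g • (P : Subgroup G)) = ⊥) ↔ ∀ x : G, x ∈ (P : Subgroup G) → x ≠ 1 → Subgroup.centralizer ({x} : Set G) = Subgroup.centralizer ((P : Subgroup G) : Set G) := by
  have hp : p.Prime := Fact.out
  obtain ⟨⟨z, hzP⟩, hz⟩ := hcyc.exists_generator
  have hgen : ∀ y ∈ (P : Subgroup G), ∃ t : ℕ, z ^ t = y := by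
    intro y hy
    have h1 := hz ⟨y, hy⟩
    obtain ⟨t, ht⟩ := (mem_powers_iff_mem_zpowers.mpr h1)
    exact ⟨t, by simpa using congrArg Subtype.val ht⟩
  have hcomm : ∀ a ∈ (P : Subgroup G), ∀ b ∈ (P : Subgroup G), a * b = b * a := by
    intro a ha b hb
    obtain ⟨s, rfl⟩ := hgen a ha
    obtain ⟨t, rfl⟩ := hgen b hb
    rw [← pow_add, ← pow_add, add_comm]
  constructor
  · intro hTI x hx hx1
    apply le_antisymm
    · intro g hg
      have hgx : g * x = x * g := (Subgroup.mem_centralizer_singleton_iff.mp hg)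
      have hgN : g ∈ Subgroup.normalizer ((P : Subgroup G) : Set G) := by
        by_contra hcon
        have h1 := hTI g hcon
        have h2 : x ∈ (P : Subgroup G) ⊓ (MulAut.conj g • (P : Subgroup G)) := by
          refine ⟨hx, (Subgroup.mem_smul_pointwise_iff_exists _ _ _).mpr ⟨x, hx, ?_⟩⟩
          simp [MulAut.smul_def, hgx]
        rw [h1, Subgroup.mem_bot] at h2
        exact hx1 h2
      have hgz : g * z * g⁻¹ ∈ (P : Subgroup G) := (Subgroup.mem_normalizer_iff.mp hgN z).mp hzP
      obtain ⟨k, hk⟩ := hgen _ hgz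
      obtain ⟨i, rfl⟩ := hgen x hx
      obtain ⟨n, hn⟩ : ∃ n, orderOf z = p ^ n := by
        obtain ⟨n, hn⟩ := (IsPGroup.iff_orderOf.mp P.isPGroup') ⟨z, hzP⟩
        exact ⟨n, by rw [← hn, Subgroup.orderOf_mk]⟩
      -- p divides k - 1
      have h1 : z ^ (k * i) = z ^ i := by
        rw [pow_mul, hk, conj_pow]
        rw [hgx]; group
      have h2 : (p : ℤ) ∣ (k : ℤ) - 1 := by
        have h3 : k * i ≡ i [MOD orderOf z] := pow_eq_pow_iff_modEq.mp h1
        have h4 : ((orderOf z : ℕ) : ℤ) ∣ (i : ℤ) - ((k * i : ℕ) : ℤ) := (Nat.modEq_iff_dvd.mp h3)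
        have h5 : ¬ (orderOf z) ∣ i := fun h => hx1 (orderOf_dvd_iff_pow_eq_one.mp h)
        by_contra hcon
        apply h5
        have h6 : IsCoprime ((p : ℤ) ^ n) ((k : ℤ) - 1) := by
          apply IsCoprime.pow_left
          exact (Prime.coprime_iff_not_dvd (Nat.prime_iff_prime_int.mp hp)).mpr hcon
        have h7 : ((p : ℤ) ^ n) ∣ ((k : ℤ) - 1) * i := by
          have : ((k : ℤ) - 1) * i = - ((i : ℤ) - ((k * i : ℕ) : ℤ)) := by push_cast; ring
          rw [this, dvd_neg]
          rw [hn] at h4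
          exact_mod_cast h4
        have h8 := h6.dvd_of_dvd_mul_left h7
        rw [hn]
        exact_mod_cast h8
      have h3 : g ^ (p ^ n) ∈ Subgroup.centralizer ({z} : Set G) := by
        rw [Subgroup.mem_centralizer_singleton_iff]
        have h4 := conj_pow_iter g z k hk.symm (p ^ n)
        have h5 : z ^ (k ^ (p ^ n)) = z := by
          have h6 := dvd_sub_pow_of_dvd_sub h2 n
          rw [one_pow] at h6
          have h7 : k ^ p ^ n ≡ 1 [MOD orderOf z] := by
            apply Nat.ModEq.symm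
            rw [Nat.modEq_iff_dvd, hn]
            push_cast
            exact (pow_dvd_pow _ (Nat.le_succ n)).trans h6
          have := pow_eq_pow_iff_modEq.mpr h7
          rwa [pow_one] at this
        rw [h5] at h4
        exact mul_inv_eq_iff_eq_mul.mp h4
      obtain ⟨a, m, hm, ham⟩ := Nat.exists_eq_pow_mul_and_not_dvd (orderOf_pos g).ne' p hp.ne_one
      have h4 : g ^ m ∈ (P : Subgroup G) := by
        have h5 : IsPGroup p (Subgroup.zpowers (g ^ m)) := by
          apply IsPGroup.of_card (n := a)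
          rw [Nat.card_zpowers, orderOf_pow_of_dvd (by rintro rfl; simp at hm) (by rw [ham]; exact Dvd.intro_left _ rfl), ham]
          have hm0 : 0 < m := Nat.pos_of_ne_zero (by rintro rfl; simp at hm)
          exact Nat.mul_div_cancel _ hm0
        have h6 : Subgroup.zpowers (g ^ m) ≤ Subgroup.normalizer ((P : Subgroup G) : Set G) := by
          rw [Subgroup.zpowers_le]
          exact pow_mem hgN m
        have h7 := IsPGroup.to_sup_of_normal_right' h5 P.isPGroup' h6
        have h8 := P.is_maximal' h7 le_sup_right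
        rw [← h8]
        exact (le_sup_left : Subgroup.zpowers (g ^ m) ≤ _) (Subgroup.mem_zpowers _)
      have h5 : g ^ m ∈ Subgroup.centralizer ({z} : Set G) := by
        rw [Subgroup.mem_centralizer_singleton_iff]
        exact hcomm _ h4 _ hzP
      have h6 : g ∈ Subgroup.centralizer ({z} : Set G) :=
        mem_of_pow_mem_coprime _ g m (p ^ n)
          (Nat.Coprime.pow_right _ ((Nat.Prime.coprime_iff_not_dvd hp).mpr hm).symm) h5 h3
      have h7 : g * z = z * g := Subgroup.mem_centralizer_singleton_iff.mp h6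
      rw [Subgroup.mem_centralizer_iff]
      intro y hy
      obtain ⟨t, rfl⟩ := hgen y hy
      exact ((Commute.pow_right (show Commute g z from h7) t).eq).symm
    · apply Subgroup.centralizer_le
      intro y hy
      rw [Set.mem_singleton_iff.mp hy]
      exact hx
  · intro h g hg
    rw [eq_bot_iff]
    rintro x ⟨hx, hxg⟩
    rw [Subgroup.mem_bot]
    by_contra hx1
    apply hg
    have hC := h x hx hx1
    have h1 : (MulAut.conj g • (P : Subgroup G)) ≤ Subgroup.centralizer ((P : Subgroup G) : Set G) := by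
      rw [← hC]
      intro y hy
      rw [Subgroup.mem_centralizer_singleton_iff]
      obtain ⟨a, ha, rfl⟩ := (Subgroup.mem_smul_pointwise_iff_exists _ _ _).mp hy
      obtain ⟨b, hb, rfl⟩ := (Subgroup.mem_smul_pointwise_iff_exists _ _ _).mp hxg
      rw [← smul_mul', ← smul_mul', hcomm a ha b hb]
    have h2 : IsPGroup p (MulAut.conj g • (P : Subgroup G) : Subgroup G) := (g • P).isPGroup'
    have h3 : (MulAut.conj g • (P : Subgroup G)) ≤ Subgroup.normalizer ((P : Subgroup G) : Set G) :=
      h1.trans (Subgroup.centralizer_le_normalizer _)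
    have h4 := IsPGroup.to_sup_of_normal_right' h2 P.isPGroup' h3
    have h5 := P.is_maximal' h4 le_sup_right
    have h6 : ((g • P : Sylow p G) : Subgroup G) ≤ P := by
      rw [← h5]; exact le_sup_left
    have h7 : P = g • P := Sylow.ext ((g • P).is_maximal' P.isPGroup' h6)
    exact Sylow.smul_eq_iff_mem_normalizer.mp h7.symm

end Cfsg.Agent.S3985
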