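import Mathlib
import Cfsg.Statements.S3986
import Cfsg.Agent.S3997
import Cfsg.Agent.Lib.Helper66.PrimaryGen

set_option autoImplicit false
open Cfsg
open Cfsg.Agent.Lib.Helper66

namespace Cfsg.Agent.S3986

/-- Let p be a prime and G a finite group. Then some Sylow p-subgroup of G is a direct factor of G (it is normal and has a normal complement) if and only if every element of p-power order commutes with every element whose order is a power of a prime other than p. -/
theorem result {G : Type*} [Group G] [Finite G] (p : ℕ) [Fact p.Prime] : (∃ (P : Sylow p G) (K : Subgroup G), (P : Subgroup G).Normal ∧ K.Normal ∧ (P : Subgroup G) ⊓ K = ⊥ ∧ (P : Subgroup G) ⊔ K = ⊤) ↔ ∀ x y : G, (∃ a : ℕ, orderOf x = p ^ a) → (∃ q b : ℕ, q.Prime ∧ q ≠ p ∧ orderOf y = q ^ b) → x * y = y * x := by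
  have hp : p.Prime := Fact.out
  constructor
  · rintro ⟨P, K, hPn, hKn, hinf, hsup⟩ x y hx ⟨q, b, hq, hqp, hy⟩
    have hxP : x ∈ (P : Subgroup G) := by
      have := Cfsg.Agent.S3997.sylow_eq_of_normal p P hPn
      have h2 : x ∈ ((P : Subgroup G) : Set G) := by rw [this]; exact hx
      exact h2
    have hdisj : Disjoint (P : Subgroup G) K := disjoint_iff.mpr hinf
    have hyK : y ∈ K := by
      have h1 : y ∈ (P : Subgroup G) ⊔ K := by rw [hsup]; trivial
      obtain ⟨u, hu, v, hv, rfl⟩ := Subgroup.mem_sup_of_normal_right.mp h1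
      have huv : Commute u v := Subgroup.commute_of_normal_of_disjoint _ _ hPn hKn hdisj u v hu hv
      have h2 : (u * v) ^ (q ^ b) = 1 := by rw [← hy]; exact pow_orderOf_eq_one _
      rw [huv.mul_pow] at h2
      have h3 : u ^ (q ^ b) ∈ (P : Subgroup G) ⊓ K := by
        refine ⟨pow_mem hu _, ?_⟩
        rw [eq_inv_of_mul_eq_one_left h2]
        exact K.inv_mem (K.pow_mem hv _)
      rw [hinf, Subgroup.mem_bot] at h3
      obtain ⟨c, hc⟩ := (IsPGroup.iff_orderOf.mp P.isPGroup') ⟨u, hu⟩
      rw [Subgroup.orderOf_mk] at hc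
      have h4 : orderOf u ∣ q ^ b := orderOf_dvd_of_pow_eq_one h3
      have h5 : (orderOf u).Coprime (q ^ b) := by
        rw [hc]
        exact Nat.Coprime.pow _ _ ((Nat.coprime_primes hp hq).mpr hqp.symm)
      have h6 : orderOf u = 1 := Nat.Coprime.eq_one_of_dvd h5 h4
      rw [orderOf_eq_one_iff.mp h6, one_mul]
      exact hv
    exact Subgroup.commute_of_normal_of_disjoint _ _ hPn hKn hdisj x y hxP hyK
  · intro h
    let P : Sylow p G := default
    have hordP : ∀ x ∈ (P : Subgroup G), ∃ a, orderOf x = p ^ a := by
      intro x hx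
      obtain ⟨c, hc⟩ := (IsPGroup.iff_orderOf.mp P.isPGroup') ⟨x, hx⟩
      exact ⟨c, by rw [← hc, Subgroup.orderOf_mk]⟩
    -- P is normal
    have hN : Subgroup.normalizer ((P : Subgroup G) : Set G) = ⊤ := by
      apply eq_top_of_sylow_le
      intro q hq
      by_cases hqp : q = p
      · subst hqp
        exact ⟨P, Subgroup.le_normalizer⟩
      · refine ⟨default, ?_⟩
        intro y hy
        obtain ⟨b, hb⟩ := (IsPGroup.iff_orderOf.mp (default : Sylow q G).isPGroup') ⟨y, hy⟩
        rw [Subgroup.orderOf_mk] at hb
        apply Subgroup.centralizer_le_normalizer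
        rw [Subgroup.mem_centralizer_iff]
        intro x hx
        exact h x y (hordP x hx) ⟨q, b, hq.out, hqp, hb⟩
    have hPn : (P : Subgroup G).Normal := Subgroup.normalizer_eq_top_iff.mp hN
    obtain ⟨K, hK⟩ := Subgroup.exists_right_complement'_of_coprime (N := (P : Subgroup G))
      P.card_coprime_index
    have hKcard : (Nat.card K).Coprime p := by
      have h1 : Nat.card K = (P : Subgroup G).index := hK.symm.index_eq_card.symm
      rw [h1]
      exact ((Nat.Prime.coprime_iff_not_dvd hp).mpr P.not_dvd_index).symm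
    have hcent : ∀ x ∈ (P : Subgroup G), ∀ k ∈ K, x * k = k * x := by
      intro x hx k hk
      have h1 : k ∈ Subgroup.centralizer ({x} : Set G) := by
        apply mem_of_prime_power_mem
        intro y hy q b hq hyo
        rw [Subgroup.mem_centralizer_singleton_iff]
        by_cases hqp : q = p
        · subst hqp
          have h2 : orderOf y ∣ Nat.card K := by
            have h3 : y ∈ K := (Subgroup.zpowers_le.mpr hk) hy
            have := orderOf_dvd_natCard (⟨y, h3⟩ : K)
            rwa [Subgroup.orderOf_mk] at this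
          have h3 : (orderOf y).Coprime (Nat.card K) := by
            rw [hyo]
            exact Nat.Coprime.pow_left _ hKcard.symm
          have h4 : orderOf y = 1 := Nat.Coprime.eq_one_of_dvd h3 h2
          rw [orderOf_eq_one_iff.mp h4]; simp
        · exact (h x y (hordP x hx) ⟨q, b, hq, hqp, hyo⟩).symm
      exact (Subgroup.mem_centralizer_singleton_iff.mp h1).symm
    have hKn : K.Normal := by
      rw [← Subgroup.normalizer_eq_top_iff, eq_top_iff, ← hK.sup_eq_top]
      apply sup_le
      · refine le_trans ?_ (Subgroup.centralizer_le_normalizer _)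
        intro x hx
        rw [Subgroup.mem_centralizer_iff]
        intro k hk
        exact (hcent x hx k hk).symm
      · exact Subgroup.le_normalizer
    exact ⟨P, K, hPn, hKn, hK.disjoint.eq_bot, hK.sup_eq_top⟩

end Cfsg.Agent.S3986
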