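import Mathlib
import Cfsg.Statements.S3987
import Cfsg.Agent.S3986

set_option autoImplicit false
open Cfsg

namespace Cfsg.Agent.S3987

theorem index_centralizer_eq {G : Type*} [Group G] (x : G) :
    (Subgroup.centralizer ({x} : Set G)).index = (Set.range fun g : G => g * x * g⁻¹).ncard := by
  have h1 : (Subgroup.centralizer ({x} : Set G)).index = (MulAction.orbit (ConjAct G) x).ncard := by
    rw [← MulAction.index_stabilizer, ConjAct.stabilizer_eq_centralizer]; rfl
  rw [h1]
  rfl

theorem centralizer_mul_eq {G : Type*} [Group G] [Finite G] (x y : G) (hxy : Commute x y)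
    (hcop : (orderOf x).Coprime (orderOf y)) :
    Subgroup.centralizer ({x * y} : Set G) =
      Subgroup.centralizer ({x} : Set G) ⊓ Subgroup.centralizer ({y} : Set G) := by
  apply le_antisymm
  · intro g hg
    have hg' : Commute g (x * y) := Subgroup.mem_centralizer_singleton_iff.mp hg
    constructor
    · change g ∈ Subgroup.centralizer ({x} : Set G)
      rw [Subgroup.mem_centralizer_singleton_iff]
      obtain ⟨m, hm⟩ := exists_pow_eq_self_of_coprime hcop.symm
      have h1 : (x * y) ^ orderOf y = x ^ orderOf y := by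
        rw [hxy.mul_pow, pow_orderOf_eq_one, mul_one]
      have h2 : Commute g (((x * y) ^ orderOf y) ^ m) := (hg'.pow_right _).pow_right _
      rw [h1, hm] at h2
      exact h2
    · change g ∈ Subgroup.centralizer ({y} : Set G)
      rw [Subgroup.mem_centralizer_singleton_iff]
      obtain ⟨m, hm⟩ := exists_pow_eq_self_of_coprime hcop
      have h1 : (x * y) ^ orderOf x = y ^ orderOf x := by
        rw [hxy.mul_pow, pow_orderOf_eq_one, one_mul]
      have h2 : Commute g (((x * y) ^ orderOf x) ^ m) := (hg'.pow_right _).pow_right _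
      rw [h1, hm] at h2
      exact h2
  · rintro g ⟨h1, h2⟩
    have h1' : Commute g x := Subgroup.mem_centralizer_singleton_iff.mp h1
    have h2' : Commute g y := Subgroup.mem_centralizer_singleton_iff.mp h2
    rw [Subgroup.mem_centralizer_singleton_iff]
    exact h1'.mul_right h2'

/-- Let p be a prime and G a finite group. Then some Sylow p-subgroup of G is a direct factor of G (normal with a normal complement) if and only if for every element x of p-power order and every element y whose order is a power of a prime other than p, the conjugacy class of x y has as many elements as the product of the sizes of the classes of x and of y. -/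
theorem result {G : Type*} [Group G] [Finite G] (p : ℕ) [Fact p.Prime] : (∃ (P : Sylow p G) (K : Subgroup G), (P : Subgroup G).Normal ∧ K.Normal ∧ (P : Subgroup G) ⊓ K = ⊥ ∧ (P : Subgroup G) ⊔ K = ⊤) ↔ ∀ x y : G, (∃ a : ℕ, orderOf x = p ^ a) → (∃ q b : ℕ, q.Prime ∧ q ≠ p ∧ orderOf y = q ^ b) → (Subgroup.centralizer ({x * y} : Set G)).index = (Subgroup.centralizer ({x} : Set G)).index * (Subgroup.centralizer ({y} : Set G)).index := by
  have hp : p.Prime := Fact.out
  rw [Cfsg.Agent.S3986.result]
  constructor
  · rintro h x y ⟨a, hx⟩ ⟨q, b, hq, hqp, hy⟩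
    have hxy : Commute x y := h x y ⟨a, hx⟩ ⟨q, b, hq, hqp, hy⟩
    have hcop : (orderOf x).Coprime (orderOf y) := by
      rw [hx, hy]
      exact Nat.Coprime.pow _ _ ((Nat.coprime_primes hp hq).mpr hqp.symm)
    rw [centralizer_mul_eq x y hxy hcop]
    apply le_antisymm Subgroup.index_inf_le
    apply Nat.le_of_dvd (Nat.pos_of_ne_zero Subgroup.index_ne_zero_of_finite)
    apply Nat.Coprime.mul_dvd_of_dvd_of_dvd
    · apply Nat.coprime_of_dvd
      intro r hr hr1 hr2
      have := Fact.mk hr
      by_cases hrp : r = p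
      · subst hrp
        let P : Sylow r G := default
        have h1 : (P : Subgroup G) ≤ Subgroup.centralizer ({y} : Set G) := by
          intro u hu
          obtain ⟨c, hc⟩ := (IsPGroup.iff_orderOf.mp P.isPGroup') ⟨u, hu⟩
          rw [Subgroup.orderOf_mk] at hc
          rw [Subgroup.mem_centralizer_singleton_iff]
          exact h u y ⟨c, hc⟩ ⟨q, b, hq, hqp, hy⟩
        exact P.not_dvd_index (hr2.trans (Subgroup.index_dvd_of_le h1))
      · let R : Sylow r G := default
        have h1 : (R : Subgroup G) ≤ Subgroup.centralizer ({x} : Set G) := by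
          intro u hu
          obtain ⟨c, hc⟩ := (IsPGroup.iff_orderOf.mp R.isPGroup') ⟨u, hu⟩
          rw [Subgroup.orderOf_mk] at hc
          rw [Subgroup.mem_centralizer_singleton_iff]
          exact (h x u ⟨a, hx⟩ ⟨r, c, hr, hrp, hc⟩).symm
        exact R.not_dvd_index (hr1.trans (Subgroup.index_dvd_of_le h1))
    · exact Subgroup.index_dvd_of_le inf_le_left
    · exact Subgroup.index_dvd_of_le inf_le_right
  · intro h x y hx hy
    have h1 := h x y hx hy
    rw [index_centralizer_eq, index_centralizer_eq, index_centralizer_eq] at h1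
    set X := Set.range fun g : G => g * x * g⁻¹ with hX
    set Y := Set.range fun g : G => g * y * g⁻¹ with hY
    set Z := Set.range fun g : G => g * (x * y) * g⁻¹ with hZ
    have hsub : Z ⊆ (fun w : G × G => w.1 * w.2) '' (X ×ˢ Y) := by
      rintro _ ⟨g, rfl⟩
      exact ⟨(g * x * g⁻¹, g * y * g⁻¹), ⟨⟨g, rfl⟩, ⟨g, rfl⟩⟩, by simp only; group⟩
    have hinj : Set.InjOn (fun w : G × G => w.1 * w.2) (X ×ˢ Y) := by
      apply Set.injOn_of_ncard_image_eq _ (Set.toFinite _)
      apply le_antisymm (Set.ncard_image_le (Set.toFinite _))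
      rw [Set.ncard_prod, ← h1]
      exact Set.ncard_le_ncard hsub (Set.toFinite _)
    have m1 : (y⁻¹ * x * y, x⁻¹ * y * x) ∈ X ×ˢ Y :=
      ⟨⟨y⁻¹, by simp⟩, ⟨x⁻¹, by simp⟩⟩
    have m2 : (x, (x⁻¹ * y * x)⁻¹ * y * (x⁻¹ * y * x)) ∈ X ×ˢ Y :=
      ⟨⟨1, by simp⟩, ⟨(x⁻¹ * y * x)⁻¹, by simp⟩⟩
    have h2 := hinj m1 m2 (by simp only; group)
    have h3 : y⁻¹ * x * y = x := congrArg Prod.fst h2
    calc x * y = y * (y⁻¹ * x * y) := by group
      _ = y * x := by rw [h3]

end Cfsg.Agent.S3987
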