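import Cfsg.Statements.S4010
import Cfsg.Agent.Lib.Helper35.LinDLA
import Cfsg.Agent.Lib.Helper35.LinDLB

set_option autoImplicit false
open Cfsg

namespace Cfsg.Agent.S4010

open Cfsg.Agent.Lib.Helper35.LinDL

/-- Let F be a field, n ≥ 1, and P a finite p-group (p a prime) admitting an injective homomorphism into the general linear group of degree n over F. Then the derived length of P is at most ⌊log₂ n⌋ + 1: that term of the derived series of P is trivial. -/
theorem result {P : Type*} [Group P] [Finite P] (p : ℕ) [Fact p.Prime] (hP : IsPGroup p P) (F : Type*) [Field F] (n : ℕ) (hn : 1 ≤ n) (ρ : P →* Matrix.GeneralLinearGroup (Fin n) F) (hρ : Function.Injective ρ) : derivedSeries P (Nat.log 2 n + 1) = ⊥ := by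
  have hp : p.Prime := Fact.out
  by_cases hpF : (p : F) = 0
  · have : CharP F p := (CharP.charP_iff_prime_eq_zero hp).mpr hpF
    let τ : P →* Module.End F (Fin n → F) :=
      (MonoidHomClass.toMonoidHom (Matrix.toLinAlgEquiv' :
        Matrix (Fin n) (Fin n) F ≃ₐ[F] Module.End F (Fin n → F))).comp ((Units.coeHom _).comp ρ)
    have hτ : Function.Injective τ := by
      intro a b hab
      apply hρ
      apply Units.ext
      exact Matrix.toLinAlgEquiv'.injective hab
    have h1 := charP_aux p hP τ (Nat.log 2 n + 1) (by
      rw [Module.finrank_fin_fun]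
      exact (Nat.lt_pow_succ_log_self (by norm_num) n).le)
    rwa [(MonoidHom.ker_eq_bot_iff τ).mpr hτ, le_bot_iff] at h1
  · let K := AlgebraicClosure F
    have hpK : (p : K) ≠ 0 := by
      intro h
      apply hpF
      apply (algebraMap F K).injective
      rw [map_natCast, h, map_zero]
    let τ : P →* Module.End K (Fin n → K) :=
      (MonoidHomClass.toMonoidHom (Matrix.toLinAlgEquiv' :
        Matrix (Fin n) (Fin n) K ≃ₐ[K] Module.End K (Fin n → K))).comp
        (((algebraMap F K).mapMatrix : Matrix (Fin n) (Fin n) F →+* Matrix (Fin n) (Fin n) K).toMonoidHom.comp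
          ((Units.coeHom _).comp ρ))
    have hτ : Function.Injective τ := by
      intro a b hab
      apply hρ
      apply Units.ext
      have h1 := Matrix.toLinAlgEquiv'.injective hab
      exact Matrix.map_injective (algebraMap F K).injective h1
    have h1 := coprime_aux hpK n P hP (Fin n → K) τ (by rw [Module.finrank_fin_fun])
    rw [(MonoidHom.ker_eq_bot_iff τ).mpr hτ, le_bot_iff] at h1
    have h2 : Nat.log p n + 1 ≤ Nat.log 2 n + 1 :=
      Nat.add_le_add_right (Nat.log_anti_left (by norm_num) hp.two_le) 1
    exact le_bot_iff.mp (h1 ▸ derivedSeries_antitone P h2)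

end Cfsg.Agent.S4010
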