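import Cfsg.Statements.S4013
import Mathlib

set_option autoImplicit false
open Cfsg

namespace Cfsg.Agent.S4013

/-- Let G be a finite p-group (p prime) and N < M normal subgroups of G such that for some g ∈ M ∖ N the conjugacy class of g is exactly M ∖ N. Then p = 2 and N has index 2 in M. -/
theorem result {G : Type*} [Group G] [Finite G] (p : ℕ) [Fact p.Prime] (hG : IsPGroup p G) (N M : Subgroup G) [N.Normal] [M.Normal] (hNM : N < M) (g : G) (hgM : g ∈ M) (hgN : g ∉ N) (hcl : {h : G | IsConj g h} = (M : Set G) \ (N : Set G)) : p = 2 ∧ N.relIndex M = 2 := by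
  have hp : p.Prime := Fact.out
  -- the class size is a power of p
  have h1 : ∃ k, Nat.card {h : G | IsConj g h} = p ^ k := by
    have : {h : G | IsConj g h} = MulAction.orbit (ConjAct G) g := by
      ext h
      rw [ConjAct.mem_orbit_conjAct]
      exact isConj_comm
    rw [this]
    have hG' : IsPGroup p (ConjAct G) := hG
    exact hG'.card_orbit g
  obtain ⟨k, hk⟩ := h1
  -- count
  have h2 : Nat.card {h : G | IsConj g h} + Nat.card N = Nat.card M := by
    rw [hcl]
    have hsub : (N : Set G) ⊆ (M : Set G) := hNM.le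
    have := Set.ncard_sdiff_add_ncard_of_subset hsub (Set.toFinite _)
    rw [← Nat.card_coe_set_eq, ← Nat.card_coe_set_eq, ← Nat.card_coe_set_eq] at this
    exact this
  have h3 : Nat.card N * N.relIndex M = Nat.card M := by
    have := Subgroup.relIndex_mul_relIndex ⊥ N M bot_le hNM.le
    simpa [Subgroup.relIndex_bot_left] using this
  obtain ⟨a, ha⟩ := (hG.to_subgroup N).exists_card_eq
  obtain ⟨b, hb⟩ := (hG.to_subgroup M).exists_card_eq
  have hab : a < b := by
    have hlt : Nat.card N < Nat.card M := by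
      have : 0 < p ^ k := pow_pos hp.pos _
      omega
    rw [ha, hb] at hlt
    exact (Nat.pow_lt_pow_iff_right hp.one_lt).1 hlt
  obtain ⟨c, rfl⟩ : ∃ c, b = a + (c + 1) := ⟨b - a - 1, by omega⟩
  have hidx : N.relIndex M = p ^ (c + 1) := by
    rw [ha, hb, pow_add] at h3
    exact Nat.eq_of_mul_eq_mul_left (pow_pos hp.pos _) h3
  -- p^k + p^a = p^a * p^(c+1)
  rw [hk, ha, hb, pow_add] at h2
  -- p^a ∣ p^k
  have hak : a ≤ k := by
    have hd : p ^ a ∣ p ^ k := by
      have h4 : p ^ a ∣ p ^ k + p ^ a := by rw [h2]; exact dvd_mul_right _ _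
      exact (Nat.dvd_add_left (dvd_refl _)).1 h4
    exact (Nat.pow_dvd_pow_iff_le_right hp.one_lt).1 hd
  obtain ⟨d, rfl⟩ : ∃ d, k = a + d := ⟨k - a, by omega⟩
  have h5 : p ^ d + 1 = p ^ (c + 1) := by
    have : p ^ a * (p ^ d + 1) = p ^ a * p ^ (c + 1) := by
      rw [← h2, pow_add]; ring
    exact Nat.eq_of_mul_eq_mul_left (pow_pos hp.pos _) this
  have hd0 : d = 0 := by
    by_contra hd
    have h6 : p ∣ p ^ d := dvd_pow_self p hd
    have h7 : p ∣ p ^ (c + 1) := dvd_pow_self p (by omega)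
    rw [← h5] at h7
    have : p ∣ 1 := (Nat.dvd_add_right h6).1 h7
    exact hp.one_lt.ne' (Nat.dvd_one.1 this)
  subst hd0
  simp only [pow_zero] at h5
  have h8 : p ∣ 2 := by
    have : p ∣ p ^ (c + 1) := dvd_pow_self p (by omega)
    rw [← h5] at this
    exact this
  have hp2 : p = 2 := (Nat.prime_dvd_prime_iff_eq hp Nat.prime_two).1 h8
  refine ⟨hp2, ?_⟩
  rw [hidx, ← h5]

end Cfsg.Agent.S4013
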