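import Cfsg.Statements.S4022
import Cfsg.Agent.Lib.Helper1.MinimalNormal
import Cfsg.Agent.Lib.Helper1.Hall
import Cfsg.Agent.Lib.Helper25.SZAmbient
import Cfsg.Agent.Lib.Helper1.Tools
import Cfsg.Agent.Lib.Helper67.SylowTools

set_option autoImplicit false
open Cfsg

namespace Cfsg.Agent.S4022

section basic
variable {G : Type*} [Group G]

/-- conjugate subgroup -/
abbrev cj (g : G) (H : Subgroup G) : Subgroup G := H.map (MulAut.conj g).toMonoidHom

theorem mem_cj {g x : G} {H : Subgroup G} : x ∈ cj g H ↔ ∃ h ∈ H, g * h * g⁻¹ = x := by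
  simp [cj, Subgroup.mem_map]

theorem cj_cj (a b : G) (H : Subgroup G) : cj a (cj b H) = cj (a * b) H := by
  ext x
  simp only [mem_cj]
  constructor
  · rintro ⟨y, ⟨h, hh, rfl⟩, rfl⟩
    exact ⟨h, hh, by group⟩
  · rintro ⟨h, hh, rfl⟩
    exact ⟨b * h * b⁻¹, ⟨h, hh, rfl⟩, by group⟩

theorem card_cj (g : G) (H : Subgroup G) : Nat.card (cj g H) = Nat.card H :=
  Subgroup.card_map_of_injective (MulAut.conj g).injective

theorem cj_normal (g : G) (N : Subgroup G) [hN : N.Normal] : cj g N = N := by
  ext x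
  rw [mem_cj]
  constructor
  · rintro ⟨h, hh, rfl⟩
    exact hN.conj_mem h hh g
  · intro hx
    exact ⟨g⁻¹ * x * g, by simpa using hN.conj_mem x hx g⁻¹, by group⟩

theorem cj_inf (g : G) (H K : Subgroup G) : cj g (H ⊓ K) = cj g H ⊓ cj g K :=
  Subgroup.map_inf H K _ (MulAut.conj g).injective

theorem cj_sup (g : G) (H K : Subgroup G) : cj g (H ⊔ K) = cj g H ⊔ cj g K :=
  Subgroup.map_sup H K _

theorem cj_of_mem_normalizer {g : G} {A : Subgroup G}
    (hg : g ∈ Subgroup.normalizer (A : Set G)) : cj g A = A := by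
  ext x
  rw [mem_cj]
  constructor
  · rintro ⟨h, hh, rfl⟩
    exact (Subgroup.mem_normalizer_iff.mp hg h).mp hh
  · intro hx
    refine ⟨g⁻¹ * x * g, ?_, by group⟩
    rw [Subgroup.mem_normalizer_iff.mp hg]
    simpa [mul_assoc] using hx

theorem map_cj {Q : Type*} [Group Q] (f : G →* Q) (g : G) (H : Subgroup G) :
    (cj g H).map f = cj (f g) (H.map f) := by
  ext x
  simp only [Subgroup.mem_map, mem_cj]
  constructor
  · rintro ⟨y, ⟨h, hh, rfl⟩, rfl⟩
    exact ⟨f h, ⟨h, hh, rfl⟩, by simp⟩
  · rintro ⟨y, ⟨h, hh, rfl⟩, rfl⟩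
    exact ⟨g * h * g⁻¹, ⟨h, hh, rfl⟩, by simp⟩

/-- order of the image -/
theorem card_map_mul {Q : Type*} [Group Q] (f : G →* Q) (H : Subgroup G) :
    Nat.card (H.map f) * Nat.card (H ⊓ f.ker : Subgroup G) = Nat.card H := by
  have e1 : Nat.card (H.map f) = Nat.card (f.comp H.subtype).range := by
    rw [MonoidHom.range_comp, Subgroup.range_subtype]
  have e2 : Nat.card (H ⊓ f.ker : Subgroup G) = Nat.card (f.comp H.subtype).ker := by
    have : (f.comp H.subtype).ker = (H ⊓ f.ker).subgroupOf H := by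
      ext x
      simp [MonoidHom.mem_ker, Subgroup.mem_subgroupOf]
    rw [this]
    exact (Nat.card_congr (Subgroup.subgroupOfEquivOfLe (inf_le_left : H ⊓ f.ker ≤ H)).toEquiv).symm
  rw [e1, e2, ← Nat.card_congr (QuotientGroup.quotientKerEquivRange (f.comp H.subtype)).toEquiv]
  exact (Subgroup.card_eq_card_quotient_mul_card_subgroup _).symm

end basic

/-- equal order `p`-subgroups are conjugate, for all primes -/
def DProp (G : Type*) [Group G] : Prop :=
  ∀ p : ℕ, p.Prime → ∀ H K : Subgroup G, IsPGroup p H → IsPGroup p K → Nat.card H = Nat.card K →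
      ∃ g : G, K = cj g H

/-- Sylow subgroups cyclic except possibly for `r` -/
def CycProp (r : ℕ) (G : Type*) [Group G] : Prop :=
  ∀ p : ℕ, p.Prime → p ≠ r → ∀ P : Sylow p G, IsCyclic P

/-- equal order subgroups are conjugate -/
def ConjProp (G : Type*) [Group G] : Prop :=
  ∀ H K : Subgroup G, Nat.card H = Nat.card K → ∃ g : G, K = cj g H

section transfer
variable {G : Type*} [Group G]

/-- In a finite cyclic group two subgroups of the same order coincide. -/
theorem eq_of_card_eq_of_isCyclic {E : Type*} [Group E] [Finite E] [IsCyclic E]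
    {A B : Subgroup E} (h : Nat.card A = Nat.card B) : A = B := by
  classical
  have : Fintype E := Fintype.ofFinite E
  set n := Nat.card A with hn
  have hn0 : 0 < n := Nat.card_pos
  have key : ∀ C : Subgroup E, Nat.card C = n →
      (C : Set E) = ((Finset.univ.filter fun a : E => a ^ n = 1 : Finset E) : Set E) := by
    intro C hC
    apply Set.eq_of_subset_of_ncard_le
    · intro x hx
      simp only [Finset.coe_filter, Finset.mem_univ, true_and, Set.mem_ofPred_eq]
      have := pow_card_eq_one' (x := (⟨x, hx⟩ : C))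
      rw [hC] at this
      exact congrArg Subtype.val this
    · rw [Set.ncard_coe_finset]
      have h1 := IsCyclic.card_pow_eq_one_le (α := E) hn0
      have h2 : (C : Set E).ncard = n := by rw [← hC]; rfl
      rw [h2]
      exact h1
    · exact Set.toFinite _
  apply SetLike.coe_injective
  rw [key A rfl, key B h.symm]

theorem exists_sylow_in [Finite G] (p : ℕ) [Fact p.Prime] (H B : Subgroup G) (hB : B ≤ H)
    (hBp : IsPGroup p B) :
    ∃ S : Subgroup G, S ≤ H ∧ B ≤ S ∧ IsPGroup p S ∧
      Nat.card S = p ^ (Nat.card H).factorization p := by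
  have hB' : IsPGroup p (B.subgroupOf H) := hBp.comap_subtype
  obtain ⟨Q, hQ⟩ := hB'.exists_le_sylow
  refine ⟨(Q : Subgroup H).map H.subtype, Subgroup.map_subtype_le _, ?_, Q.isPGroup'.map _, ?_⟩
  · intro b hb
    exact ⟨⟨b, hB hb⟩, hQ (by simpa [Subgroup.mem_subgroupOf] using hb), rfl⟩
  · rw [Subgroup.card_map_of_injective H.subtype_injective, Q.card_eq_multiplicity]

/-- lifting a `p`-subgroup through a surjection -/
theorem exists_lift_pSubgroup [Finite G] {Q : Type*} [Group Q] (f : G →* Q)
    (hf : Function.Surjective f) (p : ℕ) [Fact p.Prime] (X : Subgroup Q) (hX : IsPGroup p X) :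
    ∃ S : Subgroup G, IsPGroup p S ∧ S.map f = X ∧
      Nat.card S = p ^ (Nat.card X * Nat.card f.ker).factorization p := by
  have hf' : Function.Surjective (f.subgroupComap X) :=
    f.subgroupComap_surjective_of_surjective X hf
  obtain ⟨Q₀⟩ : Nonempty (Sylow p (X.comap f)) := Sylow.nonempty
  have htop : ((Q₀.mapSurjective hf' : Sylow p X) : Subgroup X) = ⊤ :=
    ((Q₀.mapSurjective hf').is_maximal' (Q := ⊤)
      (hX.of_equiv Subgroup.topEquiv.symm) le_top).symm
  refine ⟨(Q₀ : Subgroup (X.comap f)).map (X.comap f).subtype, Q₀.isPGroup'.map _, ?_, ?_⟩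
  · rw [Sylow.coe_mapSurjective] at htop
    have h1 := congrArg (Subgroup.map X.subtype) htop
    rw [Subgroup.map_map, ← MonoidHom.range_eq_map, Subgroup.range_subtype] at h1
    rw [Subgroup.map_map]
    exact h1
  · rw [Subgroup.card_map_of_injective (Subgroup.subtype_injective _), Q₀.card_eq_multiplicity]
    have h2 := card_map_mul f (X.comap f)
    rw [Subgroup.map_comap_eq_self_of_surjective hf,
      inf_eq_right.mpr (Subgroup.ker_le_comap f X)] at h2
    rw [h2]

theorem DProp.of_surjective [Finite G] {Q : Type*} [Group Q] (f : G →* Q)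
    (hf : Function.Surjective f) (h : DProp G) : DProp Q := by
  intro p hp X Y hX hY hXY
  haveI := Fact.mk hp
  obtain ⟨S, hS, hSX, hSc⟩ := exists_lift_pSubgroup f hf p X hX
  obtain ⟨T, hT, hTY, hTc⟩ := exists_lift_pSubgroup f hf p Y hY
  obtain ⟨g, hg⟩ := h p hp S T hS hT (by rw [hSc, hTc, hXY])
  refine ⟨f g, ?_⟩
  rw [← hTY, hg, map_cj, hSX]

theorem cyc_of_surjective [Finite G] {Q : Type*} [Group Q] (f : G →* Q)
    (hf : Function.Surjective f) (p : ℕ) [Fact p.Prime] (h : ∀ P : Sylow p G, IsCyclic P)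
    (P : Sylow p Q) : IsCyclic P := by
  obtain ⟨P₀, rfl⟩ := Sylow.mapSurjective_surjective hf p P
  have := h P₀
  exact isCyclic_of_surjective _ (f.subgroupMap_surjective P₀)

theorem cyc_of_injective {Q : Type*} [Group Q] (f : Q →* G)
    (hf : Function.Injective f) (p : ℕ) (h : ∀ P : Sylow p G, IsCyclic P)
    (P : Sylow p Q) : IsCyclic P := by
  obtain ⟨P₀, hQ⟩ := P.exists_comap_eq_of_injective hf
  have := h P₀
  have h1 : Subgroup.map f P ≤ P₀ := hQ ▸ Subgroup.map_comap_le f ↑P₀
  have := isCyclic_of_surjective _ (Subgroup.subgroupOfEquivOfLe h1).surjective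
  exact isCyclic_of_surjective _ (Subgroup.equivMapOfInjective P f hf).symm.surjective

theorem CycProp.of_surjective [Finite G] {Q : Type*} [Group Q] (f : G →* Q)
    (hf : Function.Surjective f) {r : ℕ} (h : CycProp r G) : CycProp r Q := by
  intro p hp hpr P
  haveI := Fact.mk hp
  exact cyc_of_surjective f hf p (h p hp hpr) P

/-- cyclic Sylow subgroups: equal order `p`-subgroups are conjugate -/
theorem DProp.of_cyclic [Finite G] (h : ∀ p : ℕ, p.Prime → ∀ P : Sylow p G, IsCyclic P) :
    DProp G := by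
  intro p hp A B hA hB hAB
  haveI := Fact.mk hp
  obtain ⟨P₁, hP₁⟩ := hA.exists_le_sylow
  obtain ⟨P₂, hP₂⟩ := hB.exists_le_sylow
  obtain ⟨g, hg⟩ := MulAction.exists_smul_eq G P₁ P₂
  refine ⟨g, ?_⟩
  have h1 : cj g A ≤ P₂ := by
    rw [← hg]
    intro x hx
    obtain ⟨a, ha, rfl⟩ := mem_cj.mp hx
    rw [Sylow.coe_subgroup_smul, Subgroup.mem_smul_pointwise_iff_exists]
    exact ⟨a, hP₁ ha, rfl⟩
  haveI := h p hp P₂
  have h2 : (B.subgroupOf P₂) = ((cj g A).subgroupOf P₂) := by
    apply eq_of_card_eq_of_isCyclic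
    rw [Nat.card_congr (Subgroup.subgroupOfEquivOfLe hP₂).toEquiv,
      Nat.card_congr (Subgroup.subgroupOfEquivOfLe h1).toEquiv, card_cj, hAB]
  have h3 := congrArg (Subgroup.map (P₂ : Subgroup G).subtype) h2
  rwa [Subgroup.map_subgroupOf_eq_of_le hP₂, Subgroup.map_subgroupOf_eq_of_le h1] at h3

end transfer

section steps
variable {G : Type*} [Group G]

theorem card_mul_relIndex {H K : Subgroup G} (h : H ≤ K) :
    Nat.card H * H.relIndex K = Nat.card K := by
  have := Subgroup.relIndex_mul_relIndex ⊥ H K bot_le h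
  simpa [Subgroup.relIndex_bot_left] using this

theorem relIndex_eq_of_card_eq [Finite G] {A H K : Subgroup G} (hH : A ≤ H) (hK : A ≤ K)
    (h : Nat.card H = Nat.card K) : A.relIndex H = A.relIndex K := by
  have h1 := card_mul_relIndex hH
  have h2 := card_mul_relIndex hK
  rw [← h, ← h1] at h2
  exact (Nat.eq_of_mul_eq_mul_left Nat.card_pos h2).symm

/-- small `p`-subgroups lie in a normal `p`-subgroup -/
theorem le_of_card_le [Finite G] (hD : DProp G) (p : ℕ) [hp : Fact p.Prime] (N : Subgroup G)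
    [N.Normal] (hN : IsPGroup p N) (B : Subgroup G) (hB : IsPGroup p B)
    (hle : Nat.card B ≤ Nat.card N) : B ≤ N := by
  obtain ⟨b, hb⟩ := hB.exists_card_eq
  obtain ⟨n, hn⟩ := hN.exists_card_eq
  have hbn : b ≤ n := (Nat.pow_le_pow_iff_right hp.out.one_lt).mp (by rw [← hb, ← hn]; exact hle)
  obtain ⟨K', hK'⟩ := Sylow.exists_subgroup_card_pow_prime (G := N) p (n := b)
    (by rw [hn]; exact pow_dvd_pow p hbn)
  have hB'c : Nat.card (K'.map N.subtype) = Nat.card B := by
    rw [Subgroup.card_map_of_injective N.subtype_injective, hK', hb]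
  have hB'p : IsPGroup p (K'.map N.subtype) := hN.to_le (Subgroup.map_subtype_le K')
  obtain ⟨g, hg⟩ := hD p hp.out _ B hB'p hB hB'c
  rw [hg]
  calc cj g (K'.map N.subtype) ≤ cj g N := Subgroup.map_mono (Subgroup.map_subtype_le K')
    _ = N := cj_normal g N

theorem stepS {X : Type*} [Group X] [Finite X] (N : Subgroup X) [N.Normal]
    (hNs : Group.IsSolvable N) (hQ : ConjProp (X ⧸ N)) (H K A : Subgroup X) [hA : A.Normal]
    (hHK : Nat.card H = Nat.card K) (hHA : H ⊓ N = A) (hKA : K ⊓ N = A)
    (hcase : N ≤ H ∨ (Nat.card N).Coprime (A.relIndex H)) : ∃ g : X, K = cj g H := by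
  have c1 := card_map_mul (QuotientGroup.mk' N) H
  have c2 := card_map_mul (QuotientGroup.mk' N) K
  rw [QuotientGroup.ker_mk', hHA] at c1
  rw [QuotientGroup.ker_mk', hKA, ← hHK, ← c1] at c2
  have c3 := Nat.eq_of_mul_eq_mul_right Nat.card_pos c2
  obtain ⟨g', hg'⟩ := hQ _ _ c3.symm
  obtain ⟨g, rfl⟩ := QuotientGroup.mk'_surjective N g'
  rw [← map_cj] at hg'
  have h3 : K ⊔ N = cj g H ⊔ N := by
    have := congrArg (Subgroup.comap (QuotientGroup.mk' N)) hg'
    rwa [Subgroup.comap_map_eq, Subgroup.comap_map_eq, QuotientGroup.ker_mk'] at this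
  have h4 : cj g H ⊓ N = A := by
    calc cj g H ⊓ N = cj g H ⊓ cj g N := by rw [cj_normal g N]
      _ = cj g (H ⊓ N) := (cj_inf g H N).symm
      _ = A := by rw [hHA, cj_normal g A]
  have hAN : A ≤ N := hHA ▸ inf_le_right
  have hAH' : A ≤ cj g H := h4 ▸ inf_le_left
  have hAK : A ≤ K := hKA ▸ inf_le_left
  have hAH : A ≤ H := hHA ▸ inf_le_left
  rcases hcase with hNH | hcop
  · refine ⟨g, ?_⟩
    have hAeq : A = N := by rw [← hHA]; exact inf_eq_right.mpr hNH
    have h5 : N ≤ K := hAeq ▸ hAK
    have h6 : N ≤ cj g H := hAeq ▸ hAH'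
    rw [sup_eq_left.mpr h5, sup_eq_left.mpr h6] at h3
    exact h3
  · have hc' : Nat.card (cj g H) = Nat.card H := card_cj g H
    have r1 : A.relIndex (cj g H) = A.relIndex H := relIndex_eq_of_card_eq hAH' hAH hc'
    have r2 : A.relIndex K = A.relIndex H := relIndex_eq_of_card_eq hAK hAH hHK.symm
    have hcopA : (Nat.card A).Coprime (A.relIndex H) :=
      Nat.Coprime.coprime_dvd_left (Subgroup.card_dvd_of_le hAN) hcop
    have hnorm : ∀ L : Subgroup X, L ≤ Subgroup.normalizer (A : Set X) := by
      intro L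
      rw [Subgroup.normalizer_eq_top]
      exact le_top
    have hnormN : ∀ L : Subgroup X, L ≤ Subgroup.normalizer (N : Set X) := by
      intro L
      rw [Subgroup.normalizer_eq_top]
      exact le_top
    obtain ⟨H₁, hH₁le, hH₁c, hH₁s⟩ := Cfsg.Agent.Lib.Helper1.sz_exists_rel A (cj g H) hAH'
      (hnorm _) (by rw [r1]; exact hcopA)
    obtain ⟨K₁, hK₁le, hK₁c, hK₁s⟩ := Cfsg.Agent.Lib.Helper1.sz_exists_rel A K hAK
      (hnorm _) (by rw [r2]; exact hcopA)
    have h7 : K₁ ≤ N ⊔ H₁ := by
      calc K₁ ≤ K ⊔ N := hK₁le.trans le_sup_left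
        _ = cj g H ⊔ N := h3
        _ = (H₁ ⊔ A) ⊔ N := by rw [hH₁s]
        _ ≤ N ⊔ H₁ := sup_le (sup_le le_sup_right (hAN.trans le_sup_left)) le_sup_left
    obtain ⟨x, -, hx⟩ := Cfsg.Agent.Lib.Helper25.sz_conj_ambient N H₁ K₁ (hnormN _) h7
      (by rw [hH₁c, r1]; exact hcop) (by rw [hK₁c, hH₁c, r1, r2]) (Or.inl hNs)
    refine ⟨x * g, ?_⟩
    have hx' : cj x H₁ = K₁ := hx.symm
    rw [← cj_cj, ← hH₁s, cj_sup, cj_normal x A, hx', hK₁s]

/-- if the normal elementary abelian `p`-subgroup `N` has order at least `p²`, it contains every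
`p`-element -/
theorem mem_of_pElement [Finite G] (hD : DProp G) (p : ℕ) [hp : Fact p.Prime] (N : Subgroup G)
    [N.Normal] (hexp : ∀ x ∈ N, x ^ p = 1) (hN2 : p ^ 2 ≤ Nat.card N) (x : G) (k : ℕ)
    (hx : orderOf x = p ^ k) : x ∈ N := by
  have hNp : IsPGroup p N := Cfsg.Agent.Lib.Helper1.isPGroup_of_forall_pow_eq_one hexp
  have key : ∀ (y : G) (j : ℕ), orderOf y = p ^ j → p ^ j ≤ Nat.card N → y ∈ N := by
    intro y j hy hj
    have h1 : Subgroup.zpowers y ≤ N := by
      apply le_of_card_le hD p N hNp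
      · exact IsPGroup.of_card (n := j) (by rw [Nat.card_zpowers, hy])
      · rw [Nat.card_zpowers, hy]; exact hj
    exact h1 (Subgroup.mem_zpowers y)
  by_cases hk : p ^ k ≤ Nat.card N
  · exact key x k hx hk
  · exfalso
    have hk2 : 2 ≤ k := by
      by_contra hlt
      apply hk
      calc p ^ k ≤ p ^ 2 := Nat.pow_le_pow_right hp.out.pos (by omega)
        _ ≤ Nat.card N := hN2
    have hy : orderOf (x ^ (p ^ (k - 2))) = p ^ 2 := by
      rw [orderOf_pow_of_dvd (pow_ne_zero _ hp.out.ne_zero) (by rw [hx]; exact pow_dvd_pow p (by omega)),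
        hx]
      exact Nat.pow_div (by omega) hp.out.pos |>.trans (by congr 1; omega)
    have h1 := key _ 2 hy hN2
    have h2 := orderOf_dvd_of_pow_eq_one (hexp _ h1)
    rw [hy] at h2
    have h3 := Nat.le_of_dvd hp.out.pos h2
    have : p < p ^ 2 := by
      have := hp.out.one_lt
      nlinarith
    omega

end steps

universe u

theorem main (r : ℕ) : ∀ (n : ℕ) (G : Type u) [Group G] [Finite G] [Group.IsSolvable G],
    Nat.card G ≤ n → DProp G → CycProp r G → ConjProp G := by
  intro n
  induction n with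
  | zero =>
    intro G _ _ _ hcard
    exact absurd hcard (by have := Nat.card_pos (α := G); omega)
  | succ n ih =>
    intro G _ _ _ hcard hD hC H K hHK
    rcases subsingleton_or_nontrivial G with hG | hG
    · haveI : Subsingleton (Subgroup G) := Subgroup.subsingleton_iff.mpr hG
      exact ⟨1, Subsingleton.elim _ _⟩
    obtain ⟨N, hNn, hNne, hNmin⟩ := Cfsg.Agent.Lib.Helper1.exists_minimal_normal (G := G)
    obtain ⟨hNab, p, hp, hNexp⟩ :=
      Cfsg.Agent.Lib.Helper1.minimal_normal_elementary_abelian N inferInstance hNne hNmin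
    haveI := Fact.mk hp
    have hNp : IsPGroup p N := Cfsg.Agent.Lib.Helper1.isPGroup_of_forall_pow_eq_one hNexp
    -- Step 1
    obtain ⟨Hp, hHp1, hHp2, hHp3, hHp4⟩ :=
      exists_sylow_in p H (H ⊓ N) inf_le_left (hNp.to_le inf_le_right)
    obtain ⟨Kp, hKp1, hKp2, hKp3, hKp4⟩ :=
      exists_sylow_in p K (K ⊓ N) inf_le_left (hNp.to_le inf_le_right)
    obtain ⟨g₁, hg₁⟩ := hD p hp Hp Kp hHp3 hKp3 (by rw [hHp4, hKp4, hHK])
    have e1 : H ⊓ N = Hp ⊓ N := le_antisymm (le_inf hHp2 inf_le_right) (inf_le_inf_right N hHp1)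
    have e2 : K ⊓ N = Kp ⊓ N := le_antisymm (le_inf hKp2 inf_le_right) (inf_le_inf_right N hKp1)
    have e3 : cj g₁ H ⊓ N = K ⊓ N := by
      calc cj g₁ H ⊓ N = cj g₁ H ⊓ cj g₁ N := by rw [cj_normal g₁ N]
        _ = cj g₁ (H ⊓ N) := (cj_inf g₁ H N).symm
        _ = cj g₁ (Hp ⊓ N) := by rw [e1]
        _ = cj g₁ Hp ⊓ cj g₁ N := cj_inf g₁ Hp N
        _ = K ⊓ N := by rw [cj_normal g₁ N, ← hg₁, e2]
    suffices hsuff : ∃ g : G, K = cj g (cj g₁ H) by
      obtain ⟨g, hg⟩ := hsuff
      exact ⟨g * g₁, by rw [← cj_cj]; exact hg⟩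
    have hcH' : Nat.card (cj g₁ H) = Nat.card K := by rw [card_cj, hHK]
    generalize cj g₁ H = H' at e3 hcH' ⊢
    have hNsolv : Group.IsSolvable N := inferInstance
    have hpN : p ≤ Nat.card N := by
      obtain ⟨m, hm⟩ := hNp.exists_card_eq
      have hm0 : m ≠ 0 := by
        rintro rfl
        rw [pow_zero] at hm
        exact hNne (Subgroup.eq_bot_of_card_eq N hm)
      rw [hm]
      calc p = p ^ 1 := (pow_one p).symm
        _ ≤ p ^ m := Nat.pow_le_pow_right hp.pos (by omega)
    have hQ : ConjProp (G ⧸ N) := by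
      apply ih (G ⧸ N)
      · have := Cfsg.Agent.Lib.Helper1.card_quotient_lt_of_ne_bot hNne
        omega
      · exact hD.of_surjective (QuotientGroup.mk' N) (QuotientGroup.mk'_surjective N)
      · exact hC.of_surjective (QuotientGroup.mk' N) (QuotientGroup.mk'_surjective N)
    by_cases hAn : (K ⊓ N).Normal
    · rcases hNmin (K ⊓ N) hAn inf_le_right with hA0 | hAN
      · apply stepS N hNsolv hQ H' K (K ⊓ N) hcH' e3 rfl
        right
        rw [hA0, Subgroup.relIndex_bot_left]
        obtain ⟨m, hm⟩ := hNp.exists_card_eq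
        rw [hm]
        apply Nat.Coprime.pow_left
        rw [Nat.Prime.coprime_iff_not_dvd hp]
        intro hdvd
        obtain ⟨h, hh⟩ := exists_prime_orderOf_dvd_card' (G := H') p hdvd
        have hh' : orderOf (h : G) = p := by rw [Subgroup.orderOf_coe, hh]
        have h1 : Subgroup.zpowers (h : G) ≤ N := by
          apply le_of_card_le hD p N hNp
          · exact IsPGroup.of_card (n := 1) (by rw [Nat.card_zpowers, hh', pow_one])
          · rw [Nat.card_zpowers, hh']; exact hpN
        have h2 : (h : G) ∈ H' ⊓ N := ⟨h.2, h1 (Subgroup.mem_zpowers _)⟩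
        rw [e3, hA0, Subgroup.mem_bot] at h2
        rw [h2, orderOf_one] at hh'
        exact hp.one_lt.ne hh'
      · apply stepS N hNsolv hQ H' K (K ⊓ N) hcH' e3 rfl
        left
        rw [hAN] at e3
        exact inf_eq_right.mp e3
    · generalize hAdef : K ⊓ N = A at e3 hAn
      have hAN : A ≤ N := hAdef ▸ inf_le_right
      have hAK : A ≤ K := hAdef ▸ inf_le_left
      have hAH' : A ≤ H' := e3 ▸ inf_le_left
      have hA0 : A ≠ ⊥ := by
        intro h; apply hAn; rw [h]; infer_instance
      have hAne : A ≠ N := by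
        intro h; apply hAn; rw [h]; exact hNn
      have hAp : IsPGroup p A := hNp.to_le hAN
      have hN2 : p ^ 2 ≤ Nat.card N := by
        obtain ⟨a, ha⟩ := hAp.exists_card_eq
        obtain ⟨m, hm⟩ := hNp.exists_card_eq
        have ha0 : a ≠ 0 := by
          rintro rfl
          rw [pow_zero] at ha
          exact hA0 (Subgroup.eq_bot_of_card_eq A ha)
        have ham : a < m := by
          by_contra hlt
          apply hAne
          apply Subgroup.eq_of_le_of_card_ge hAN
          rw [ha, hm]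
          exact Nat.pow_le_pow_right hp.pos (by omega)
        rw [hm]
        exact Nat.pow_le_pow_right hp.pos (by omega)
      obtain ⟨P, hP⟩ := hNp.exists_le_sylow
      have hPN : (P : Subgroup G) = N := by
        apply le_antisymm _ hP
        intro x hx
        obtain ⟨k, hk⟩ := P.isPGroup' ⟨x, hx⟩
        obtain ⟨j, -, hj⟩ := (Nat.dvd_prime_pow hp).mp (orderOf_dvd_of_pow_eq_one hk)
        rw [← Subgroup.orderOf_coe] at hj
        exact mem_of_pElement hD p N hNexp hN2 x j hj
      have hidx : ¬ p ∣ N.index := hPN ▸ P.not_dvd_index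
      have hpr : p = r := by
        by_contra hne
        have hcyc : IsCyclic (P : Subgroup G) := hC p hp hne P
        have hcyc' : IsCyclic N := hPN ▸ hcyc
        obtain ⟨z, hz⟩ := IsCyclic.exists_ofOrder_eq_natCard (α := N)
        have h1 : z ^ p = 1 := Subtype.ext (by simpa using hNexp z z.2)
        have h2 := orderOf_le_of_pow_eq_one hp.pos h1
        rw [hz] at h2
        have : p < p ^ 2 := by nlinarith [hp.one_lt]
        omega
      -- the normalizer of A
      have hKM : K ≤ Subgroup.normalizer (A : Set G) := by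
        intro k hk
        apply Cfsg.Agent.Lib.Helper67.mem_normalizer_of_conj_mem
        intro x hx
        rw [← hAdef] at hx ⊢
        exact ⟨K.mul_mem (K.mul_mem hk hx.1) (K.inv_mem hk), hNn.conj_mem x hx.2 k⟩
      have hHM : H' ≤ Subgroup.normalizer (A : Set G) := by
        intro k hk
        apply Cfsg.Agent.Lib.Helper67.mem_normalizer_of_conj_mem
        intro x hx
        rw [← e3] at hx ⊢
        exact ⟨H'.mul_mem (H'.mul_mem hk hx.1) (H'.inv_mem hk), hNn.conj_mem x hx.2 k⟩
      have hNM : N ≤ Subgroup.normalizer (A : Set G) := by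
        intro k hk
        apply Cfsg.Agent.Lib.Helper67.mem_normalizer_of_conj_mem
        intro x hx
        have hcomm : k * x = x * k := by
          have := hNab.is_comm.comm (⟨k, hk⟩ : N) ⟨x, hAN hx⟩
          exact congrArg Subtype.val this
        rw [hcomm, mul_inv_cancel_right]
        exact hx
      haveI hA'n : (A.subgroupOf (Subgroup.normalizer (A : Set G))).Normal :=
        Subgroup.normal_in_normalizer
      generalize Subgroup.normalizer (A : Set G) = M at hKM hHM hNM hA'n
      haveI hN'n : (N.subgroupOf M).Normal := inferInstance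
      have hN'ne : N.subgroupOf M ≠ ⊥ := by
        intro h
        rw [Subgroup.subgroupOf_eq_bot, disjoint_iff, inf_eq_left.mpr hNM] at h
        exact hNne h
      have hcardq : Nat.card (↥M ⧸ N.subgroupOf M) ≤ n := by
        have h1 := Cfsg.Agent.Lib.Helper1.card_quotient_lt_of_ne_bot hN'ne
        have h2 : Nat.card M ≤ Nat.card G := Subgroup.card_le_card_group M
        omega
      have hnotdvd : ¬ p ∣ Nat.card (↥M ⧸ N.subgroupOf M) := by
        rw [← Subgroup.index_eq_card]
        intro h
        exact hidx (h.trans (Subgroup.relIndex_dvd_index_of_normal N M))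
      have hallcyc : ∀ q : ℕ, q.Prime → ∀ Q : Sylow q (↥M ⧸ N.subgroupOf M), IsCyclic Q := by
        intro q hq Q
        haveI := Fact.mk hq
        by_cases hqp : q = p
        · subst hqp
          have h1 : Nat.card Q = 1 := by
            rw [Q.card_eq_multiplicity, Nat.factorization_eq_zero_of_not_dvd hnotdvd, pow_zero]
          haveI : Subsingleton Q := (Nat.card_eq_one_iff_unique.mp h1).1
          infer_instance
        · exact cyc_of_surjective (QuotientGroup.mk' (N.subgroupOf M))
            (QuotientGroup.mk'_surjective _) q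
            (cyc_of_injective M.subtype M.subtype_injective q
              (hC q hq (by rw [← hpr]; exact hqp))) Q
      have hQ' : ConjProp (↥M ⧸ N.subgroupOf M) :=
        ih _ hcardq (DProp.of_cyclic hallcyc) (fun q hq _ Q => hallcyc q hq Q)
      obtain ⟨g', hg'⟩ := stepS (N.subgroupOf M) inferInstance hQ' (H'.subgroupOf M)
        (K.subgroupOf M) (A.subgroupOf M)
        (by rw [Nat.card_congr (Subgroup.subgroupOfEquivOfLe hHM).toEquiv,
              Nat.card_congr (Subgroup.subgroupOfEquivOfLe hKM).toEquiv, hcH'])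
        (by rw [← e3]; rfl) (by rw [← hAdef]; rfl)
        (Or.inr (by
          rw [Subgroup.relIndex_subgroupOf hHM,
            Nat.card_congr (Subgroup.subgroupOfEquivOfLe hNM).toEquiv]
          obtain ⟨m, hm⟩ := hNp.exists_card_eq
          rw [hm]
          apply Nat.Coprime.pow_left
          rw [Nat.Prime.coprime_iff_not_dvd hp]
          intro hdvd
          apply hidx
          have : A.relIndex H' = N.relIndex H' := by rw [← e3, Subgroup.inf_relIndex_left]
          rw [this] at hdvd
          exact hdvd.trans (Subgroup.relIndex_dvd_index_of_normal N H')))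
      refine ⟨(g' : G), ?_⟩
      have := congrArg (Subgroup.map M.subtype) hg'
      rw [map_cj, Subgroup.map_subgroupOf_eq_of_le hKM, Subgroup.map_subgroupOf_eq_of_le hHM] at this
      exact this

/-- Let G be a finite solvable group in which, for every prime p, any two p-subgroups of the same order are conjugate, and suppose the Sylow p-subgroups of G are cyclic for all primes p with at most one exception. Then any two subgroups of G of the same order are conjugate. -/
theorem result {G : Type*} [Group G] [Finite G]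
    [Group.IsSolvable G] (hD : ∀ p : ℕ, p.Prime → ∀ H K : Subgroup G, IsPGroup p H → IsPGroup p K → Nat.card H = Nat.card K →
      ∃ g : G, K = H.map (MulAut.conj g).toMonoidHom)
    (r : ℕ) (hcyc : ∀ p : ℕ, p.Prime → p ≠ r → ∀ P : Sylow p G, IsCyclic P) :
    ∀ H K : Subgroup G, Nat.card H = Nat.card K → ∃ g : G, K = H.map (MulAut.conj g).toMonoidHom :=
  main r (Nat.card G) G le_rfl hD hcyc

end Cfsg.Agent.S4022
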