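import Cfsg.Statements.S4027
import Cfsg.Agent.Lib.Helper67.RealOdd

set_option autoImplicit false
open Cfsg

namespace Cfsg.Agent.S4027

open Cfsg.Agent.Lib.Helper67

/-- Let G be a finite group in which every element x of odd order satisfies N_G(⟨x⟩) = C_G(x). Then the Sylow 2-subgroups of G are normal. -/
theorem result {G : Type*} [Group G] [Finite G]
    (hirr : ∀ x : G, (∀ r : ℕ, r.Prime → r ∣ orderOf x → r ≠ 2) →
      Subgroup.normalizer ((Subgroup.zpowers x : Subgroup G) : Set G) ≤ Subgroup.centralizer {x}) (P : Sylow 2 G) :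
    (P : Subgroup G).Normal := by
  apply sylow_two_normal_of_no_real_odd
  intro h hodd hconj
  obtain ⟨g, hg⟩ := isConj_iff.1 hconj
  have h1 : g ∈ Subgroup.centralizer {h} := by
    apply hirr h
    · rintro r - hd rfl
      exact (Nat.not_even_iff_odd.2 hodd) (even_iff_two_dvd.2 hd)
    · rw [mem_normalizer_zpowers_iff, hg]
      exact Subgroup.inv_mem _ (Subgroup.mem_zpowers h)
  rw [Subgroup.mem_centralizer_singleton_iff] at h1
  have h2 : h⁻¹ = h := by
    rw [← hg, h1]; group
  have h3 : h ^ 2 = 1 := by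
    rw [pow_two]
    nth_rewrite 1 [← h2]
    simp
  have h4 : orderOf h ∣ 2 := orderOf_dvd_of_pow_eq_one h3
  rcases (Nat.dvd_prime Nat.prime_two).1 h4 with h5 | h5
  · exact orderOf_eq_one_iff.1 h5
  · rw [h5] at hodd
    exact absurd hodd (by decide)

end Cfsg.Agent.S4027
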