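import Cfsg.Statements.S4028
import Cfsg.Agent.Lib.Helper67.SylowTools

set_option autoImplicit false
open Cfsg

namespace Cfsg.Agent.S4028

open Cfsg.Agent.Lib.Helper67

/-- an element of odd order normalizing a cyclic 2-group centralizes it -/
theorem commute_of_odd_normalizes {G : Type*} [Group G] [Finite G] (x u : G) (e : ℕ)
    (hx : orderOf x = 2 ^ e) (hu : Odd (orderOf u)) (hn : u * x * u⁻¹ ∈ Subgroup.zpowers x) :
    Commute u x := by
  rw [← mem_powers_iff_mem_zpowers] at hn
  obtain ⟨i, hi⟩ := hn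
  simp only at hi
  have hpow : ∀ j : ℕ, u ^ j * x * (u ^ j)⁻¹ = x ^ (i ^ j) := by
    intro j
    induction j with
    | zero => simp
    | succ j ih =>
      calc u ^ (j + 1) * x * (u ^ (j + 1))⁻¹ = u * (u ^ j * x * (u ^ j)⁻¹) * u⁻¹ := by
            rw [pow_succ']; group
        _ = u * x ^ (i ^ j) * u⁻¹ := by rw [ih]
        _ = (u * x * u⁻¹) ^ (i ^ j) := by rw [conj_pow]
        _ = x ^ (i ^ (j + 1)) := by rw [← hi, ← pow_mul, pow_succ']
  have h1 := hpow (orderOf u)
  rw [pow_orderOf_eq_one] at h1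
  simp only [one_mul, inv_one, mul_one] at h1
  have h2 : x ^ 1 = x ^ (i ^ orderOf u) := by rw [pow_one]; exact h1
  rw [pow_eq_pow_iff_modEq, hx] at h2
  have h3 : ((i : ZMod (2 ^ e))) ^ orderOf u = 1 := by
    have := (ZMod.natCast_eq_natCast_iff _ _ _).2 h2
    push_cast at this
    exact this.symm
  obtain ⟨w, hw⟩ := IsUnit.of_pow_eq_one h3 (orderOf_pos u).ne'
  have hw1 : w ^ orderOf u = 1 := by
    apply Units.ext
    rw [Units.val_pow_eq_pow_val, hw, h3]; rfl
  have : NeZero (2 ^ e) := ⟨(pow_pos (by norm_num) e).ne'⟩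
  have hw2 : w ^ (2 ^ e) = 1 := by
    have hc : Fintype.card (ZMod (2 ^ e))ˣ ∣ 2 ^ e := by
      rw [ZMod.card_units_eq_totient]
      rcases Nat.eq_zero_or_pos e with rfl | he
      · simp
      · rw [Nat.totient_prime_pow Nat.prime_two he]
        simp only [Nat.add_one_sub_one, mul_one]
        exact pow_dvd_pow 2 (Nat.sub_le e 1)
    exact orderOf_dvd_iff_pow_eq_one.1 ((orderOf_dvd_card).trans hc)
  have hw3 : w = 1 := by
    have hcop : Nat.Coprime (orderOf u) (2 ^ e) :=
      Nat.Coprime.pow_right e (Nat.coprime_two_right.2 hu)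
    have := pow_gcd_eq_one.2 ⟨hw1, hw2⟩
    rw [hcop.gcd_eq_one, pow_one] at this
    exact this
  have h4 : ((i : ℕ) : ZMod (2 ^ e)) = ((1 : ℕ) : ZMod (2 ^ e)) := by
    rw [← hw, hw3]; simp
  rw [ZMod.natCast_eq_natCast_iff, ← hx, ← pow_eq_pow_iff_modEq, pow_one] at h4
  rw [h4] at hi
  show u * x = x * u
  calc u * x = (u * x * u⁻¹) * u := by group
    _ = x * u := by rw [← hi]

/-- Let G be a finite group with Sylow 2-subgroup P. Then N_G(⟨x⟩) = C_G(x) holds for every 2-element x of G if and only if N_P(⟨y⟩) = C_P(y) holds for every y ∈ P (computed inside P). -/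
theorem result {G : Type*} [Group G] [Finite G] (P : Sylow 2 G) :
    (∀ x : G, (∀ r : ℕ, r.Prime → r ∣ orderOf x → r = 2) →
      Subgroup.normalizer ((Subgroup.zpowers x : Subgroup G) : Set G) ≤ Subgroup.centralizer {x}) ↔
    (∀ y : ↥(P : Subgroup G), Subgroup.normalizer ((Subgroup.zpowers y : Subgroup ↥(P : Subgroup G)) : Set ↥(P : Subgroup G)) ≤
        Subgroup.centralizer {y}) := by
  have : Fact (Nat.Prime 2) := ⟨Nat.prime_two⟩
  constructor
  · intro h y u hu
    rw [mem_normalizer_zpowers_iff] at hu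
    obtain ⟨i, hi⟩ := hu
    simp only at hi
    have h1 : (u : G) ∈ Subgroup.centralizer {(y : G)} := by
      apply h (y : G)
      · intro r hr hd
        obtain ⟨k, hk⟩ := P.2 y
        have : orderOf (y : G) ∣ 2 ^ k := by
          rw [Subgroup.orderOf_coe]
          exact orderOf_dvd_of_pow_eq_one hk
        exact (Nat.prime_dvd_prime_iff_eq hr Nat.prime_two).1 (hr.dvd_of_dvd_pow (hd.trans this))
      · rw [mem_normalizer_zpowers_iff]
        refine ⟨i, ?_⟩
        have := congrArg Subtype.val hi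
        simpa using this
    rw [Subgroup.mem_centralizer_singleton_iff] at h1 ⊢
    exact Subtype.ext h1
  · intro h x hx g hg
    have hx' : orderOf x = 2 ^ (orderOf x).primeFactorsList.length :=
      Nat.eq_prime_pow_of_unique_prime_dvd (orderOf_pos x).ne' (fun {d} hd hdx => hx d hd hdx)
    set e := (orderOf x).primeFactorsList.length
    obtain ⟨k, m, hm, hkm, ho1, ho2, a, b, hab⟩ := exists_pPart 2 Nat.prime_two g
    have hmodd : Odd m := by
      rw [← Nat.not_even_iff_odd, even_iff_two_dvd]; exact hm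
    -- the odd part
    have hu : Commute (g ^ (2 ^ k)) x := by
      apply commute_of_odd_normalizes x _ e hx' (ho2 ▸ hmodd)
      rw [← mem_normalizer_zpowers_iff]
      exact Subgroup.pow_mem _ hg _
    -- the 2-part
    have hv : Commute (g ^ m) x := by
      set v := g ^ m with hvdef
      have hvn : v ∈ Subgroup.normalizer ((Subgroup.zpowers x : Subgroup G) : Set G) :=
        Subgroup.pow_mem _ hg _
      have hpx : IsPGroup 2 (Subgroup.zpowers x) :=
        IsPGroup.of_card (n := e) (by rw [Nat.card_zpowers, hx'])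
      have hpv : IsPGroup 2 (Subgroup.zpowers v) :=
        IsPGroup.of_card (n := k) (by rw [Nat.card_zpowers, ho1])
      have hD : IsPGroup 2 (Subgroup.zpowers v ⊔ Subgroup.zpowers x : Subgroup G) :=
        hpv.to_sup_of_normal_right' hpx (by rw [Subgroup.zpowers_le]; exact hvn)
      obtain ⟨c, hc⟩ := sylow_conj_top P _ hD
      have hxP := hc x (Subgroup.mem_sup_right (Subgroup.mem_zpowers x))
      have hvP := hc v (Subgroup.mem_sup_left (Subgroup.mem_zpowers v))
      rw [mem_normalizer_zpowers_iff] at hvn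
      obtain ⟨i, hi⟩ := hvn
      simp only at hi
      have h1 : (⟨c * v * c⁻¹, hvP⟩ : (P : Subgroup G)) ∈
          Subgroup.centralizer {(⟨c * x * c⁻¹, hxP⟩ : (P : Subgroup G))} := by
        apply h
        rw [mem_normalizer_zpowers_iff]
        refine ⟨i, ?_⟩
        apply Subtype.ext
        simp only [Subgroup.coe_zpow, Subgroup.coe_mul, Subgroup.coe_inv]
        rw [conj_zpow, hi]
        group
      rw [Subgroup.mem_centralizer_singleton_iff] at h1
      have h2 := congrArg Subtype.val h1
      simp only [Subgroup.coe_mul] at h2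
      show v * x = x * v
      have h3 : c * (v * x) * c⁻¹ = c * (x * v) * c⁻¹ := by
        calc c * (v * x) * c⁻¹ = c * v * c⁻¹ * (c * x * c⁻¹) := by group
          _ = c * x * c⁻¹ * (c * v * c⁻¹) := h2
          _ = c * (x * v) * c⁻¹ := by group
      exact mul_left_cancel (mul_right_cancel h3)
    rw [Subgroup.mem_centralizer_singleton_iff, ← hab]
    exact ((hv.zpow_left a).mul_left (hu.zpow_left b)).eq

end Cfsg.Agent.S4028
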