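import Cfsg.Statements.S4029
import Cfsg.Agent.Lib.Helper67.SylowTools
import Cfsg.Agent.Lib.Helper2.PGroupFrattini

set_option autoImplicit false
set_option linter.unusedSimpArgs false
open Cfsg

namespace Cfsg.Agent.S4029

open Cfsg.Agent.Lib.Helper67
open Finset

variable {G : Type*} [Group G] [Fintype G] [DecidableEq G]

/-- the sum of the centralizer orders over a conjugacy class is the group order -/
theorem sum_card_centralizer_class [Fintype (ConjClasses G)] [DecidableEq (ConjClasses G)]
    (c : ConjClasses G) :
    ∑ g ∈ (univ : Finset G) with ConjClasses.mk g = c, Nat.card (Subgroup.centralizer {g}) =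
      Fintype.card G := by
  set s := (univ : Finset G).filter (fun g => ConjClasses.mk g = c) with hs
  have hcard : ∀ g ∈ s, Nat.card (Subgroup.centralizer {g}) * #s = Fintype.card G := by
    intro g hg
    have hg' : ConjClasses.mk g = c := (mem_filter.1 hg).2
    have h1 : #s = (ConjClasses.mk g).carrier.ncard := by
      rw [hg', ← Set.ncard_coe_finset]
      congr 1
      ext x
      simp [hs, ConjClasses.mem_carrier_iff_mk_eq]
    rw [h1, ncard_carrier_eq_index, Subgroup.card_mul_index, Nat.card_eq_fintype_card]
  have hne : 0 < #s := by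
    obtain ⟨g, hg⟩ := ConjClasses.exists_rep c
    exact card_pos.2 ⟨g, mem_filter.2 ⟨mem_univ _, hg⟩⟩
  have h2 : (∑ g ∈ s, Nat.card (Subgroup.centralizer {g})) * #s = Fintype.card G * #s := by
    rw [sum_mul, sum_congr rfl hcard, sum_const, smul_eq_mul, mul_comm]
  exact Nat.eq_of_mul_eq_mul_right hne h2

/-- counting with a conjugation invariant predicate -/
theorem sum_card_centralizer_of_invariant [Fintype (ConjClasses G)] [DecidableEq (ConjClasses G)]
    (Q : G → Prop) [DecidablePred Q] (hQ : ∀ g h : G, IsConj g h → Q g → Q h) :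
    ∑ g : G, (if Q g then Nat.card (Subgroup.centralizer {g}) else 0) =
      #((univ : Finset (ConjClasses G)).filter (fun c => ∃ y, ConjClasses.mk y = c ∧ Q y)) *
        Fintype.card G := by
  classical
  rw [← sum_fiberwise (univ : Finset G) (ConjClasses.mk)
    (fun g => if Q g then Nat.card (Subgroup.centralizer {g}) else 0)]
  rw [card_filter, sum_mul]
  apply sum_congr rfl
  intro c _
  by_cases hc : ∃ y, ConjClasses.mk y = c ∧ Q y
  · rw [if_pos hc, one_mul, ← sum_card_centralizer_class c]
    apply sum_congr rfl
    intro g hg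
    obtain ⟨y, hy, hQy⟩ := hc
    have : IsConj y g := by
      rw [← ConjClasses.mk_eq_mk_iff_isConj, hy, (mem_filter.1 hg).2]
    rw [if_pos (hQ y g this hQy)]
  · rw [if_neg hc, zero_mul]
    apply sum_eq_zero
    intro g hg
    rw [if_neg]
    intro hQg
    exact hc ⟨g, (mem_filter.1 hg).2, hQg⟩

/-- Cauchy-Schwarz for the squaring map -/
theorem card_sq_le (Φ : Subgroup G) [DecidablePred (· ∈ Φ)] (hΦ : ∀ x : G, x ^ 2 ∈ Φ) :
    Fintype.card G ^ 2 ≤ Nat.card Φ *
      #((univ : Finset (G × G)).filter (fun p => p.1 ^ 2 = p.2 ^ 2)) := by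
  set Φs : Finset G := univ.filter (· ∈ Φ) with hΦs
  set r : G → ℕ := fun c => #((univ : Finset G).filter (fun x => x ^ 2 = c)) with hr
  have h1 : Fintype.card G = ∑ c ∈ Φs, r c := by
    rw [← card_univ]
    apply card_eq_sum_card_fiberwise
    intro x _
    simp [hΦs, hΦ x]
  have h2 : #((univ : Finset (G × G)).filter (fun p => p.1 ^ 2 = p.2 ^ 2)) = ∑ c ∈ Φs, r c ^ 2 := by
    rw [card_eq_sum_card_fiberwise (f := fun p : G × G => p.1 ^ 2) (t := Φs)]
    · apply sum_congr rfl
      intro c _
      rw [hr, pow_two, ← card_product]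
      congr 1
      ext ⟨x, y⟩
      simp only [mem_filter, mem_univ, true_and, mem_product]
      constructor
      · rintro ⟨h, h'⟩
        exact ⟨h', by rw [← h, h']⟩
      · rintro ⟨h, h'⟩
        exact ⟨by rw [h, h'], h⟩
    · intro p _
      simp [hΦs, hΦ p.1]
  have h3 : #Φs = Nat.card Φ := by
    rw [Nat.card_eq_fintype_card, hΦs, Fintype.card_subtype]
  rw [h1, h2, ← h3]
  exact sq_sum_le_card_mul_sum_sq

omit [Fintype G] [DecidableEq G] in
/-- Let P be a finite 2-group in which N_P(⟨y⟩) = C_P(y) for every y ∈ P. If s is the number of conjugacy classes of involutions of P, then #(P/Φ(P)) ≤ s + 1; in particular the subgroup generated by the involutions of P has order at least #(P/Φ(P)). -/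
theorem result {P : Type*} [Group P] [Finite P] (hP : IsPGroup 2 P)
    (hirr : ∀ y : P, Subgroup.normalizer ((Subgroup.zpowers y : Subgroup P) : Set P) ≤ Subgroup.centralizer {y}) :
    Nat.card (P ⧸ frattini P) ≤ Nat.card {c : ConjClasses P // ∃ y : P, ConjClasses.mk y = c ∧ orderOf y = 2} + 1 ∧
    Nat.card (P ⧸ frattini P) ≤ Nat.card (Subgroup.closure {y : P | orderOf y = 2}) := by
  classical
  have : Fact (Nat.Prime 2) := ⟨Nat.prime_two⟩
  have : Fintype P := Fintype.ofFinite P
  have : Fintype (ConjClasses P) := Fintype.ofFinite _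
  set A := (univ : Finset (P × P)).filter (fun p => p.1 ^ 2 = p.2 ^ 2) with hAdef
  have hA : #A ≤ ∑ g : P, (if g ^ 2 = 1 then Nat.card (Subgroup.centralizer {g}) else 0) := by
    set B := (univ : Finset (P × P)).filter
      (fun p => p.1 ^ 2 = 1 ∧ p.2 ∈ Subgroup.centralizer {p.1}) with hBdef
    have hAB : #A ≤ #B := by
      apply card_le_card_of_injOn (fun p => (p.1⁻¹ * p.2, p.1))
      · rintro ⟨x, y⟩ hxy
        have hxy' : x ^ 2 = y ^ 2 := by simpa [hAdef] using hxy
        set g := x⁻¹ * y with hg
        have h1 : x⁻¹ * g * x⁻¹⁻¹ = g⁻¹ := by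
          have hy : y = x * g := by rw [hg]; group
          rw [hy, pow_two, pow_two] at hxy'
          -- x * x = x * g * (x * g)
          have h2 : x = g * x * g := by
            have : x * x = x * (g * x * g) := by rw [hxy']; group
            exact mul_left_cancel this
          rw [inv_inv]
          calc x⁻¹ * g * x = x⁻¹ * (g * x * g) * g⁻¹ := by group
            _ = x⁻¹ * x * g⁻¹ := by rw [← h2]
            _ = g⁻¹ := by group
        have h3 : x⁻¹ ∈ Subgroup.centralizer {g} := by
          apply hirr g
          rw [mem_normalizer_zpowers_iff, h1]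
          exact Subgroup.inv_mem _ (Subgroup.mem_zpowers g)
        have h4 : x ∈ Subgroup.centralizer {g} := by simpa using Subgroup.inv_mem _ h3
        rw [Subgroup.mem_centralizer_singleton_iff] at h3
        have h5 : g⁻¹ = g := by
          rw [← h1, h3]; group
        have h6 : g ^ 2 = 1 := by
          rw [pow_two]
          nth_rewrite 1 [← h5]
          simp
        simp only [hBdef, coe_filter, mem_univ, true_and, Set.mem_ofPred_eq]
        exact ⟨h6, h4⟩
      · rintro ⟨x, y⟩ _ ⟨x', y'⟩ _ h
        simp only [Prod.mk.injEq] at h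
        obtain ⟨h1, rfl⟩ := h
        simp only [Prod.mk.injEq, true_and]
        exact mul_left_cancel h1
    have hB : #B = ∑ g : P, (if g ^ 2 = 1 then Nat.card (Subgroup.centralizer {g}) else 0) := by
      rw [hBdef, card_filter, Fintype.sum_prod_type]
      apply sum_congr rfl
      intro g _
      by_cases hg : g ^ 2 = 1
      · simp only [hg, true_and, if_true]
        rw [Nat.card_eq_fintype_card, Fintype.card_subtype, card_filter]
      · simp [hg]
    rw [← hB]; exact hAB
  rw [sum_card_centralizer_of_invariant (fun g : P => g ^ 2 = 1) (by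
    intro g h hgh hg
    have := hgh.pow 2
    rw [hg] at this
    exact isConj_one_right.1 this)] at hA
  set R := (univ : Finset (ConjClasses P)).filter (fun c => ∃ y, ConjClasses.mk y = c ∧ y ^ 2 = 1) with hR
  have hsq := card_sq_le (frattini P) (fun x => Cfsg.Agent.Lib.Helper2.pow_p_mem_frattini hP x)
  have hn : 0 < Fintype.card P := Fintype.card_pos
  have h1 : Fintype.card P ≤ Nat.card (frattini P) * #R := by
    have h2 : Fintype.card P * Fintype.card P ≤ (Nat.card (frattini P) * #R) * Fintype.card P := by
      calc Fintype.card P * Fintype.card P = Fintype.card P ^ 2 := by ring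
        _ ≤ Nat.card (frattini P) * #A := hsq
        _ ≤ Nat.card (frattini P) * (#R * Fintype.card P) := Nat.mul_le_mul_left _ hA
        _ = (Nat.card (frattini P) * #R) * Fintype.card P := by ring
    exact Nat.le_of_mul_le_mul_right h2 hn
  have h2 : Nat.card (P ⧸ frattini P) ≤ #R := by
    have h3 := Subgroup.card_mul_index (frattini P)
    rw [Subgroup.index_eq_card, Nat.card_eq_fintype_card (α := P)] at h3
    rw [← h3] at h1
    exact Nat.le_of_mul_le_mul_left h1 Nat.card_pos
  have h3 : #R ≤ Nat.card {c : ConjClasses P // ∃ y : P, ConjClasses.mk y = c ∧ orderOf y = 2} + 1 := by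
    rw [Nat.card_eq_fintype_card, Fintype.card_subtype]
    refine le_trans (card_le_card ?_) (card_insert_le (ConjClasses.mk (1 : P)) _)
    intro c hc
    obtain ⟨y, hy, hy2⟩ := (mem_filter.1 hc).2
    by_cases hy1 : y = 1
    · rw [← hy, hy1]; exact mem_insert_self _ _
    · exact mem_insert_of_mem (mem_filter.2 ⟨mem_univ _, y, hy, orderOf_eq_prime hy2 hy1⟩)
  have h4 : Nat.card {c : ConjClasses P // ∃ y : P, ConjClasses.mk y = c ∧ orderOf y = 2} + 1 ≤
      Nat.card (Subgroup.closure {y : P | orderOf y = 2}) := by
    rw [← Finite.card_option]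
    let f : Option {c : ConjClasses P // ∃ y : P, ConjClasses.mk y = c ∧ orderOf y = 2} →
        Subgroup.closure {y : P | orderOf y = 2} := fun o =>
      match o with
      | none => 1
      | some c => ⟨c.2.choose, Subgroup.subset_closure c.2.choose_spec.2⟩
    apply Nat.card_le_card_of_injective f
    intro a b hab
    match a, b with
    | none, none => rfl
    | none, some c =>
      exfalso
      have h5 : (1 : P) = c.2.choose := congrArg Subtype.val hab
      have h6 := c.2.choose_spec.2
      rw [← h5, orderOf_one] at h6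
      omega
    | some c, none =>
      exfalso
      have h5 : c.2.choose = (1 : P) := congrArg Subtype.val hab
      have h6 := c.2.choose_spec.2
      rw [h5, orderOf_one] at h6
      omega
    | some c, some c' =>
      have h5 : c.2.choose = c'.2.choose := congrArg Subtype.val hab
      congr 1
      apply Subtype.ext
      rw [← c.2.choose_spec.1, ← c'.2.choose_spec.1, h5]
  exact ⟨h2.trans h3, (h2.trans h3).trans h4⟩

end Cfsg.Agent.S4029
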