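import Cfsg.Statements.S4032
import Cfsg.Agent.Lib.Helper67.SylowTools

set_option autoImplicit false
open Cfsg

namespace Cfsg.Agent.S4032

open Cfsg.Agent.Lib.Helper67

/-- Let π be a set of primes and G a finite group in which N_G(⟨x⟩) = C_G(x) for every π-element x. If N is a normal subgroup of G whose order is divisible by no prime of π, then G/N has the same property: N_{G/N}(⟨y⟩) = C_{G/N}(y) for every π-element y of G/N. -/
theorem result {G : Type*} [Group G] [Finite G] (π : Set ℕ)
    (hirr : ∀ x : G, (∀ r : ℕ, r.Prime → r ∣ orderOf x → r ∈ π) →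
      Subgroup.normalizer ((Subgroup.zpowers x : Subgroup G) : Set G) ≤ Subgroup.centralizer {x})
    (N : Subgroup G) [N.Normal] (hN : ∀ r : ℕ, r.Prime → r ∣ Nat.card N → r ∉ π) :
    ∀ y : G ⧸ N, (∀ r : ℕ, r.Prime → r ∣ orderOf y → r ∈ π) →
      Subgroup.normalizer ((Subgroup.zpowers y : Subgroup (G ⧸ N)) : Set (G ⧸ N)) ≤ Subgroup.centralizer {y} := by
  intro y hy gbar hg
  rw [Subgroup.mem_centralizer_singleton_iff]
  have key : Commute gbar y := by
    apply commute_of_primePow_parts
    intro j r k hr hrd hord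
    have hrπ : r ∈ π := hy r hr hrd
    obtain ⟨x, hx, k', hk'⟩ := exists_lift_pElement (QuotientGroup.mk' N)
      (QuotientGroup.mk'_surjective N) hr (y ^ j) k hord
    obtain ⟨g, rfl⟩ := QuotientGroup.mk'_surjective N gbar
    have h1 := (mem_normalizer_zpowers_iff _ _).1 hg
    obtain ⟨i, hi⟩ := h1
    simp only at hi
    have h2 : (QuotientGroup.mk' N) g * y ^ j * ((QuotientGroup.mk' N) g)⁻¹ = (y ^ j) ^ i := by
      rw [← conj_pow, ← hi, ← zpow_natCast, ← zpow_natCast, ← zpow_mul, ← zpow_mul, mul_comm]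
    have h3 : g * x * g⁻¹ ∈ Subgroup.zpowers x ⊔ N := by
      have h4 : (x ^ i)⁻¹ * (g * x * g⁻¹) ∈ N := by
        rw [← QuotientGroup.eq]
        have : ((x ^ i : G) : G ⧸ N) = (QuotientGroup.mk' N) (x ^ i) := rfl
        rw [this, map_zpow, hx, ← h2, ← hx]
        rfl
      have h5 : g * x * g⁻¹ = x ^ i * ((x ^ i)⁻¹ * (g * x * g⁻¹)) := by group
      rw [h5]
      exact Subgroup.mul_mem _ (Subgroup.mem_sup_left (Subgroup.zpow_mem _ (Subgroup.mem_zpowers x) i))
        (Subgroup.mem_sup_right h4)
    haveI : Fact r.Prime := ⟨hr⟩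
    have hpx : IsPGroup r (Subgroup.zpowers x) := IsPGroup.of_card (n := k') (by rw [Nat.card_zpowers, hk'])
    have hpx' : IsPGroup r (Subgroup.zpowers (g * x * g⁻¹)) := by
      apply IsPGroup.of_card (n := k')
      rw [Nat.card_zpowers, ← hk']
      have := MulEquiv.orderOf_eq (MulAut.conj g) x
      simpa using this
    have hidx : ¬ r ∣ (Subgroup.zpowers x).relIndex (Subgroup.zpowers x ⊔ N) := by
      intro hd
      exact hN r hr (hd.trans (relIndex_sup_dvd_card _ _)) hrπ
    obtain ⟨h, hh, hconj⟩ := sylow_conj_in (p := r) (Subgroup.zpowers x ⊔ N) (Subgroup.zpowers x)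
      (Subgroup.zpowers (g * x * g⁻¹)) (by rw [Subgroup.zpowers_le]; exact h3) hpx hpx' hidx
    have h6 := hconj _ (Subgroup.mem_zpowers _)
    have h7 : (h * g) * x * (h * g)⁻¹ ∈ Subgroup.zpowers x := by
      have : (h * g) * x * (h * g)⁻¹ = h * (g * x * g⁻¹) * h⁻¹ := by group
      rw [this]; exact h6
    have h8 : h * g ∈ Subgroup.centralizer {x} := by
      apply hirr x _ ((mem_normalizer_zpowers_iff _ _).2 h7)
      intro r' hr' hd
      rw [hk'] at hd
      rw [(Nat.prime_dvd_prime_iff_eq hr' hr).1 (hr'.dvd_of_dvd_pow hd)]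
      exact hrπ
    rw [Subgroup.mem_centralizer_singleton_iff] at h8
    -- the image of h commutes with y ^ j
    have h9 : Subgroup.zpowers x ⊔ N ≤ (Subgroup.centralizer {y ^ j}).comap (QuotientGroup.mk' N) := by
      rw [sup_le_iff]
      constructor
      · rw [Subgroup.zpowers_le, Subgroup.mem_comap, Subgroup.mem_centralizer_singleton_iff, hx]
      · intro n hn
        rw [Subgroup.mem_comap, Subgroup.mem_centralizer_singleton_iff]
        have : (QuotientGroup.mk' N) n = 1 := (QuotientGroup.eq_one_iff n).2 hn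
        rw [this]; simp
    have h10 := h9 hh
    rw [Subgroup.mem_comap, Subgroup.mem_centralizer_singleton_iff] at h10
    have h11 := congrArg (QuotientGroup.mk' N) h8
    simp only [map_mul, hx] at h11
    set hb := (QuotientGroup.mk' N) h
    set gb := (QuotientGroup.mk' N) g
    set z := y ^ j
    show gb * z = z * gb
    have : hb * (gb * z) = hb * (z * gb) := by
      calc hb * (gb * z) = hb * gb * z := by group
        _ = z * (hb * gb) := h11
        _ = (z * hb) * gb := by group
        _ = (hb * z) * gb := by rw [h10]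
        _ = hb * (z * gb) := by group
    exact mul_left_cancel this
  exact key.eq

end Cfsg.Agent.S4032
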