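import Cfsg.Statements.S4034
import Cfsg.Agent.Lib.Helper96.ClassPow
import Cfsg.Agent.Lib.Helper67.Basic

set_option autoImplicit false
open Cfsg

namespace Cfsg.Agent.S4034

/-- Let G be a finite group and p a prime. Every conjugacy class of p-regular elements of G (elements of order prime to p) has p-power size if and only if G has an abelian p-complement, i.e. an abelian subgroup of order prime to p and p-power index. -/
theorem result {G : Type*} [Group G] [Finite G] {p : ℕ} (hp : p.Prime) :
    (∀ x : G, (orderOf x).Coprime p → ∃ k : ℕ, (ConjClasses.mk x).carrier.ncard = p ^ k) ↔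
    (∃ H : Subgroup G, IsMulCommutative H ∧ ¬ p ∣ Nat.card H ∧ ∃ k : ℕ, H.index = p ^ k) := by
  simp only [Cfsg.Agent.Lib.Helper67.ncard_carrier_eq_index]
  exact ⟨fun h => Cfsg.Agent.Lib.Helper96.ClassPow.abCompl hp G h,
    fun h => Cfsg.Agent.Lib.Helper96.AbCompl.classPow hp G h⟩

end Cfsg.Agent.S4034
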