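import Cfsg.Statements.S4035
import Cfsg.Agent.Lib.Helper67.PTools
import Cfsg.Agent.Lib.Helper67.UnionConj

set_option autoImplicit false
set_option linter.unusedSimpArgs false
open Cfsg

namespace Cfsg.Agent.S4035

open Cfsg.Agent.Lib.Helper67

/-- if the index of `C` is prime to `p` then `C` contains a conjugate of the Sylow subgroup `P` -/
theorem exists_conj_le {G : Type*} [Group G] [Finite G] {p : ℕ} [Fact p.Prime] (P : Sylow p G)
    (C : Subgroup G) (hC : ¬ p ∣ C.index) : ∃ g : G, ∀ b ∈ P, g * b * g⁻¹ ∈ C := by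
  obtain ⟨Q'⟩ : Nonempty (Sylow p C) := inferInstance
  set Q := (Q' : Subgroup C).map C.subtype with hQ
  have hQp : IsPGroup p Q := Q'.2.map _
  have hQC : Q ≤ C := Subgroup.map_subtype_le _
  have hidx : ¬ p ∣ Q.index := by
    rw [hQ, Subgroup.index_map_subtype]
    intro hd
    rcases (Nat.Prime.dvd_mul Fact.out).1 hd with h1 | h1
    · exact Q'.not_dvd_index h1
    · exact hC h1
  obtain ⟨g, -, hg⟩ := sylow_conj_in (p := p) ⊤ Q (P : Subgroup G) le_top hQp P.2
    (by rw [Subgroup.relIndex_top_right]; exact hidx)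
  exact ⟨g, fun b hb => hQC (hg b hb)⟩

/-- Let G be a finite group and p a prime such that p divides the size of no conjugacy class of p-regular elements (elements of order prime to p). Then G is the internal direct product of a Sylow p-subgroup P and a normal subgroup H of order prime to p: P is normal, P ⊓ H = 1 and PH = G. -/
theorem result {G : Type*} [Group G] [Finite G] {p : ℕ} [Fact p.Prime]
    (h : ∀ x : G, (orderOf x).Coprime p → ¬ p ∣ (ConjClasses.mk x).carrier.ncard) (P : Sylow p G) :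
    (P : Subgroup G).Normal ∧ ∃ H : Subgroup G, H.Normal ∧ ¬ p ∣ Nat.card H ∧
      (P : Subgroup G) ⊓ H = ⊥ ∧ (P : Subgroup G) ⊔ H = ⊤ := by
  have hp : p.Prime := Fact.out
  have h1 : ∀ x : G, (orderOf x).Coprime p → ∃ g : G, ∀ b ∈ P, g * b * g⁻¹ ∈ Subgroup.centralizer {x} := by
    intro x hx
    apply exists_conj_le P
    rw [← ncard_carrier_eq_index]
    exact h x hx
  -- G is the union of the conjugates of P C(P)
  have htop : (P : Subgroup G) ⊔ Subgroup.centralizer ((P : Subgroup G) : Set G) = ⊤ := by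
    apply eq_top_of_forall_exists_conj_mem
    intro y
    obtain ⟨k, m, hm, hkm, ho1, ho2, a, b, hab⟩ := exists_pPart p hp y
    set u := y ^ (p ^ k) with hu
    set v := y ^ m with hv
    have hucop : (orderOf u).Coprime p := by
      rw [ho2]; exact ((Nat.Prime.coprime_iff_not_dvd hp).2 hm).symm
    obtain ⟨g, hg⟩ := h1 u hucop
    set A := (P : Subgroup G).map (MulAut.conj g).toMonoidHom with hA
    have hAC : A ≤ Subgroup.centralizer {u} := by
      rintro _ ⟨b, hb, rfl⟩
      exact hg b hb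
    have hAp : IsPGroup p A := P.2.map _
    have hAidx : ¬ p ∣ A.relIndex (Subgroup.centralizer {u}) := by
      intro hd
      have h2 := hd.trans (Subgroup.relIndex_dvd_index_of_le hAC)
      rw [hA, Subgroup.index_map_of_bijective (MulAut.conj g).bijective] at h2
      exact P.not_dvd_index h2
    have hvC : Subgroup.zpowers v ≤ Subgroup.centralizer {u} := by
      rw [Subgroup.zpowers_le, Subgroup.mem_centralizer_singleton_iff, hu, hv, ← pow_add, ← pow_add,
        add_comm]
    have hvp : IsPGroup p (Subgroup.zpowers v) :=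
      IsPGroup.of_card (n := k) (by rw [Nat.card_zpowers, ho1])
    obtain ⟨c, hc, hcv⟩ := sylow_conj_in (p := p) (Subgroup.centralizer {u}) A (Subgroup.zpowers v)
      hvC hAp hvp hAidx
    obtain ⟨w, hw, hwv⟩ := hcv v (Subgroup.mem_zpowers v)
    simp only [MulEquiv.coe_toMonoidHom, MulAut.conj_apply] at hwv
    refine ⟨g⁻¹ * c, ?_⟩
    have e1 : (g⁻¹ * c) * v * (g⁻¹ * c)⁻¹ = w := by
      calc (g⁻¹ * c) * v * (g⁻¹ * c)⁻¹ = g⁻¹ * (c * v * c⁻¹) * g := by group
        _ = g⁻¹ * (g * w * g⁻¹) * g := by rw [hwv]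
        _ = w := by group
    rw [Subgroup.mem_centralizer_singleton_iff] at hc
    have e2 : (g⁻¹ * c) * u * (g⁻¹ * c)⁻¹ = g⁻¹ * u * g := by
      calc (g⁻¹ * c) * u * (g⁻¹ * c)⁻¹ = g⁻¹ * (c * u) * c⁻¹ * g := by group
        _ = g⁻¹ * (u * c) * c⁻¹ * g := by rw [hc]
        _ = g⁻¹ * u * g := by group
    have e3 : g⁻¹ * u * g ∈ Subgroup.centralizer ((P : Subgroup G) : Set G) := by
      rw [Subgroup.mem_centralizer_iff]
      intro b hb
      have := hg b hb
      rw [Subgroup.mem_centralizer_singleton_iff] at this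
      calc b * (g⁻¹ * u * g) = g⁻¹ * ((g * b * g⁻¹) * u) * g := by group
        _ = g⁻¹ * (u * (g * b * g⁻¹)) * g := by rw [this]
        _ = g⁻¹ * u * g * b := by group
    have e4 : (g⁻¹ * c) * y * (g⁻¹ * c)⁻¹ =
        ((g⁻¹ * c) * v * (g⁻¹ * c)⁻¹) ^ a * ((g⁻¹ * c) * u * (g⁻¹ * c)⁻¹) ^ b := by
      rw [conj_zpow, conj_zpow, ← hab]; group
    rw [e4, e1, e2]
    exact Subgroup.mul_mem _ (Subgroup.mem_sup_left (Subgroup.zpow_mem _ hw a))
      (Subgroup.mem_sup_right (Subgroup.zpow_mem _ e3 b))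
  have hPn : (P : Subgroup G).Normal := by
    rw [← Subgroup.normalizer_eq_top_iff, eq_top_iff, ← htop, sup_le_iff]
    refine ⟨Subgroup.le_normalizer, ?_⟩
    rw [Subgroup.le_normalizer_iff]
    intro c hc b hb
    have := (Subgroup.mem_centralizer_iff.1 hc) b hb
    have e : c * b * c⁻¹ = b := by
      rw [← this]; group
    rw [e]; exact hb
  refine ⟨hPn, ?_⟩
  obtain ⟨H, hH⟩ := Subgroup.exists_left_complement'_of_coprime (N := (P : Subgroup G))
    P.card_coprime_index
  have hHp : ¬ p ∣ Nat.card H := by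
    rw [← hH.index_eq_card]; exact P.not_dvd_index
  have hHC : ∀ x ∈ H, ∀ b ∈ P, x * b = b * x := by
    intro x hx b hb
    have hxcop : (orderOf x).Coprime p := by
      apply Nat.Coprime.symm
      rw [Nat.Prime.coprime_iff_not_dvd hp]
      intro hd
      exact hHp (hd.trans (Subgroup.orderOf_dvd_natCard H hx))
    obtain ⟨g, hg⟩ := h1 x hxcop
    have hb' : g⁻¹ * b * g⁻¹⁻¹ ∈ (P : Subgroup G) := hPn.conj_mem b hb g⁻¹
    have := hg _ hb'
    rw [Subgroup.mem_centralizer_singleton_iff] at this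
    have e : g * (g⁻¹ * b * g⁻¹⁻¹) * g⁻¹ = b := by group
    rw [e] at this
    exact this.symm
  refine ⟨H, ?_, hHp, ?_, ?_⟩
  · rw [← Subgroup.normalizer_eq_top_iff, eq_top_iff, ← hH.sup_eq_top, sup_le_iff]
    refine ⟨Subgroup.le_normalizer, ?_⟩
    rw [Subgroup.le_normalizer_iff]
    intro b hb x hx
    have e : b * x * b⁻¹ = x := by
      rw [← hHC x hx b hb]; group
    rw [e]; exact hx
  · rw [inf_comm]; exact hH.disjoint.eq_bot
  · rw [sup_comm]; exact hH.sup_eq_top

end Cfsg.Agent.S4035
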