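import Cfsg.Statements.S4036
import Cfsg.Agent.Lib.Helper67.SylowTools

set_option autoImplicit false
open Cfsg

namespace Cfsg.Agent.S4036

open Cfsg.Agent.Lib.Helper67

/-- Let P be a finite abelian p-group and K a group of automorphisms of P (a subgroup of Aut P) whose order is divisible by p. If all non-identity elements of K have the same fixed-point subgroup on P, then K has no non-trivial normal subgroup of order prime to p. -/
theorem result {P : Type*} [CommGroup P] [Finite P] {p : ℕ}
    [Fact p.Prime] (hP : IsPGroup p P) (K : Subgroup (MulAut P)) (hK : p ∣ Nat.card K)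
    (hfix : ∀ x y : MulAut P, x ∈ K → y ∈ K → x ≠ 1 → y ≠ 1 → ∀ v : P, x v = v ↔ y v = v) :
    ∀ N : Subgroup ↥K, N.Normal → ¬ p ∣ Nat.card N → N = ⊥ := by
  classical
  intro N hNn hNp
  by_contra hne
  have hp : p.Prime := Fact.out
  have : Finite (MulAut P) := Finite.of_injective (fun f : MulAut P => (f : P → P))
    (fun f g h => MulEquiv.ext (congrFun h))
  have : Fintype N := Fintype.ofFinite N
  obtain ⟨n0, hn0N, hn01⟩ : ∃ n0 : K, n0 ∈ N ∧ n0 ≠ 1 := by
    obtain ⟨a, ha⟩ := (Subgroup.ne_bot_iff_exists_ne_one).1 hne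
    exact ⟨(a : K), a.2, fun h => ha (Subtype.ext h)⟩
  obtain ⟨x, hx⟩ := exists_prime_orderOf_dvd_card' (G := K) p hK
  have hx1 : x ≠ 1 := by
    rintro rfl
    rw [orderOf_one] at hx
    exact hp.one_lt.ne hx
  -- the norm map
  let θ : P →* P := ∏ n : N, (((n : K) : MulAut P).toMonoidHom)
  have hθ : ∀ v, θ v = ∏ n : N, ((n : K) : MulAut P) v := by
    intro v
    simp [θ]
  have ha : ∀ (m : N) (v : P), ((m : K) : MulAut P) (θ v) = θ v := by
    intro m v
    rw [hθ, map_prod]
    exact Fintype.prod_equiv (Equiv.mulLeft m) _ _ (fun n => by simp [MulAut.mul_apply])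
  have hb : ∀ (k : K) (v : P), (k : MulAut P) (θ v) = θ ((k : MulAut P) v) := by
    intro k v
    rw [hθ, hθ, map_prod]
    refine Fintype.prod_equiv (MulAut.conjNormal k : MulAut N).toEquiv _ _ (fun n => ?_)
    have : (((MulAut.conjNormal k : MulAut N) n : N) : K) = k * n * k⁻¹ := MulAut.conjNormal_apply k n
    simp only [MulEquiv.toEquiv_eq_coe, EquivLike.coe_coe]
    rw [this]
    simp [MulAut.mul_apply]
  have hc : ∀ v : P, (∀ n : N, ((n : K) : MulAut P) v = v) → θ v = v ^ Nat.card N := by
    intro v hv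
    rw [hθ, Finset.prod_congr rfl (fun n _ => hv n)]
    simp [Nat.card_eq_fintype_card]
  -- the kernel of θ is trivial
  have hker : θ.ker = ⊥ := by
    by_contra hW
    let W : Subgroup P := θ.ker
    have hinv : ∀ (k : K) (w : W), (k : MulAut P) (w : P) ∈ W := by
      intro k w
      have hw : θ (w : P) = 1 := w.2
      show θ _ = 1
      rw [← hb, hw, map_one]
    letI act : MulAction (Subgroup.zpowers x) W :=
      { smul := fun z w => ⟨((z : K) : MulAut P) (w : P), hinv _ w⟩
        one_smul := fun w => Subtype.ext (by show ((((1 : Subgroup.zpowers x) : K) : MulAut P)) (w : P) = w; simp)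
        mul_smul := fun a b w => Subtype.ext (by
          show ((((a * b : Subgroup.zpowers x) : K) : MulAut P)) (w : P) =
            (((a : K) : MulAut P)) ((((b : K) : MulAut P)) (w : P))
          simp [MulAut.mul_apply]) }
    have hZ : IsPGroup p (Subgroup.zpowers x) :=
      IsPGroup.of_card (n := 1) (by rw [Nat.card_zpowers, hx, pow_one])
    have hWp : IsPGroup p W := hP.to_subgroup W
    have hWcard : p ∣ Nat.card W := by
      obtain ⟨k, hk⟩ := hWp.exists_card_eq
      rw [hk]
      apply dvd_pow_self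
      rintro rfl
      rw [pow_zero, Subgroup.card_eq_one] at hk
      exact hW hk
    have h1fix : (1 : W) ∈ MulAction.fixedPoints (Subgroup.zpowers x) W := by
      intro z
      apply Subtype.ext
      show ((z : K) : MulAut P) ((1 : W) : P) = ((1 : W) : P)
      simp
    obtain ⟨w, hwfix, hw1⟩ := hZ.exists_fixed_point_of_prime_dvd_card_of_fixed_point W hWcard h1fix
    have hxw : (x : MulAut P) (w : P) = w := by
      have := hwfix ⟨x, Subgroup.mem_zpowers x⟩
      exact congrArg Subtype.val this
    have hall : ∀ n : N, ((n : K) : MulAut P) (w : P) = w := by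
      intro n
      by_cases hn : ((n : K) : MulAut P) = 1
      · rw [hn]; rfl
      · exact (hfix (x : MulAut P) _ x.2 (n : K).2 (fun h => hx1 (Subtype.ext h)) hn w).1 hxw
    have h2 := hc w hall
    have hw0 : θ (w : P) = 1 := w.2
    rw [hw0] at h2
    obtain ⟨k, hk⟩ := hP (w : P)
    have hcop : Nat.Coprime (Nat.card N) (p ^ k) :=
      (Nat.Coprime.pow_left k ((Nat.Prime.coprime_iff_not_dvd hp).2 hNp)).symm
    have h3 := pow_gcd_eq_one.2 ⟨h2.symm, hk⟩
    rw [hcop.gcd_eq_one, pow_one] at h3
    exact hw1 (Subtype.ext h3.symm)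
  have hinj : Function.Injective θ := (MonoidHom.ker_eq_bot_iff θ).1 hker
  have hsurj : Function.Surjective θ := Finite.surjective_of_injective hinj
  apply hn01
  apply Subtype.ext
  apply MulEquiv.ext
  intro v
  obtain ⟨u, rfl⟩ := hsurj v
  exact ha ⟨n0, hn0N⟩ u

end Cfsg.Agent.S4036
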