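import Cfsg.Statements.S4043
import Cfsg.Agent.Lib.Helper67.PTools
import Cfsg.Agent.S0059
import Cfsg.Agent.Lib.Helper52.SZ

set_option autoImplicit false
set_option linter.unusedSimpArgs false
open Cfsg

namespace Cfsg.Agent.S4043

open Cfsg.Agent.Lib.Helper67

/-- `C_N(K) = 1` -/
theorem step1 {G : Type*} [Group G] [Finite G] {p : ℕ} [Fact p.Prime] (N : Subgroup G) [N.Normal]
    (hN : IsPGroup p N) (A K S : Subgroup G) (hSA : S ≤ A)
    (hKn : ∀ a ∈ A, ∀ k ∈ K, a * k * a⁻¹ ∈ K) (hSp : IsPGroup p S) (hKS : K ⊔ S = A)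
    (hC : ∀ n : G, n ∈ N → (∀ a : G, a ∈ A → a * n * a⁻¹ = n) → n = 1) :
    ∀ m ∈ N, (∀ k ∈ K, k * m * k⁻¹ = m) → m = 1 := by
  intro m hmN hmK
  by_contra hm1
  set D := N ⊓ Subgroup.centralizer (K : Set G) with hD
  have hmD : m ∈ D := by
    refine Subgroup.mem_inf.2 ⟨hmN, ?_⟩
    rw [Subgroup.mem_centralizer_iff]
    intro k hk
    have := hmK k hk
    calc k * m = (k * m * k⁻¹) * k := by group
      _ = m * k := by rw [this]
  have hDne : D ≠ ⊥ := by
    intro h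
    rw [h] at hmD
    exact hm1 hmD
  have hDp : IsPGroup p D := hN.to_le inf_le_left
  have hSD : S ≤ Subgroup.normalizer (D : Set G) := by
    rw [Subgroup.le_normalizer_iff]
    intro s hs d hd
    rw [hD, Subgroup.mem_inf] at hd
    refine Subgroup.mem_inf.2 ⟨‹N.Normal›.conj_mem d hd.1 s, ?_⟩
    rw [Subgroup.mem_centralizer_iff]
    intro k hk
    have hk' : s⁻¹ * k * s⁻¹⁻¹ ∈ K := hKn s⁻¹ (A.inv_mem (hSA hs)) k hk
    have h2 := (Subgroup.mem_centralizer_iff.1 hd.2) _ hk'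
    rw [inv_inv] at h2
    calc k * (s * d * s⁻¹) = s * ((s⁻¹ * k * s) * d) * s⁻¹ := by group
      _ = s * (d * (s⁻¹ * k * s)) * s⁻¹ := by rw [h2]
      _ = s * d * s⁻¹ * k := by group
  obtain ⟨d, hdD, hd1, hdS⟩ := exists_fixed_of_pGroup_normalizes S D hSp hDp hDne hSD
  rw [hD, Subgroup.mem_inf] at hdD
  apply hd1
  apply hC d hdD.1
  have hle : A ≤ Subgroup.centralizer {d} := by
    rw [← hKS, sup_le_iff]
    constructor
    · intro k hk
      rw [Subgroup.mem_centralizer_singleton_iff]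
      exact (Subgroup.mem_centralizer_iff.1 hdD.2) k hk
    · intro s hs
      rw [Subgroup.mem_centralizer_singleton_iff]
      have := hdS s hs
      calc s * d = (s * d * s⁻¹) * s := by group
        _ = d * s := by rw [this]
  intro a ha
  have := hle ha
  rw [Subgroup.mem_centralizer_singleton_iff] at this
  rw [this]; group

/-- Let G be a finite group that is the semidirect product of a normal p-subgroup N by a subgroup A, and also of N by a subgroup A₁, where p is a prime and A and A₁ both have normal p-complements. If C_N(A) = C_N(A₁) = 1, then A₁ is conjugate to A by an element of N. -/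
theorem result {G : Type*} [Group G] [Finite G] {p : ℕ}
    [Fact p.Prime] (N : Subgroup G) [N.Normal] (hN : IsPGroup p N) (A A₁ : Subgroup G)
    (hA : A.IsComplement' N) (hA₁ : A₁.IsComplement' N)
    (hAp : Cfsg.HasNormalPComplement p A) (hA₁p : Cfsg.HasNormalPComplement p A₁)
    (hC : ∀ n : G, n ∈ N → (∀ a : G, a ∈ A → a * n * a⁻¹ = n) → n = 1)
    (hC₁ : ∀ n : G, n ∈ N → (∀ a : G, a ∈ A₁ → a * n * a⁻¹ = n) → n = 1) :
    ∃ n : G, n ∈ N ∧ A₁ = A.map (MulAut.conj n).toMonoidHom := by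
  have hp : p.Prime := Fact.out
  obtain ⟨K, S, hKA, hSA, hKn, hSp, hKp, hKS, hcardA⟩ := exists_of_hasNormalPComplement A hAp
  obtain ⟨K₁, S₁, hK₁A, hS₁A, hK₁n, hS₁p, hK₁p, hKS₁, hcardA₁⟩ :=
    exists_of_hasNormalPComplement A₁ hA₁p
  have hCK₁ := step1 N hN A₁ K₁ S₁ hS₁A hK₁n hS₁p hKS₁ hC₁
  -- cardinalities
  have hAN : Nat.card A * Nat.card N = Nat.card G := hA.card_mul_card
  have hA₁N : Nat.card A₁ * Nat.card N = Nat.card G := hA₁.card_mul_card
  have hAA₁ : Nat.card A = Nat.card A₁ :=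
    Nat.eq_of_mul_eq_mul_right Nat.card_pos (hAN.trans hA₁N.symm)
  obtain ⟨a, ha⟩ := hSp.exists_card_eq
  obtain ⟨b, hb⟩ := hS₁p.exists_card_eq
  obtain ⟨c, hc⟩ := hN.exists_card_eq
  have hKcop : ∀ j, Nat.Coprime (Nat.card K) (p ^ j) := fun j =>
    (Nat.Coprime.pow_left j ((Nat.Prime.coprime_iff_not_dvd hp).2 hKp)).symm
  have hK₁cop : ∀ j, Nat.Coprime (Nat.card K₁) (p ^ j) := fun j =>
    (Nat.Coprime.pow_left j ((Nat.Prime.coprime_iff_not_dvd hp).2 hK₁p)).symm
  have hKK₁ : Nat.card K = Nat.card K₁ := by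
    have h1 : Nat.card K * p ^ a = Nat.card K₁ * p ^ b := by
      rw [← ha, ← hb, hcardA, hcardA₁, hAA₁]
    apply Nat.dvd_antisymm
    · exact (hKcop b).dvd_of_dvd_mul_right (h1 ▸ dvd_mul_right _ _)
    · exact (hK₁cop a).dvd_of_dvd_mul_right (h1 ▸ dvd_mul_right _ _)
  have hKN : K ⊓ N = ⊥ := Subgroup.inf_eq_bot_of_coprime (hc ▸ hKcop c)
  have hK₁N : K₁ ⊓ N = ⊥ := Subgroup.inf_eq_bot_of_coprime (hc ▸ hK₁cop c)
  -- L = K N
  set L := K ⊔ N with hL
  have hLcard : Nat.card L = Nat.card K * Nat.card N := card_sup_eq_mul K N hKN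
  have hLn : L.Normal := by
    rw [← Subgroup.normalizer_eq_top_iff, eq_top_iff, ← hA.sup_eq_top, sup_le_iff]
    constructor
    · rw [Subgroup.le_normalizer_iff]
      intro x hx l hl
      have hle : L ≤ L.comap (MulAut.conj x).toMonoidHom := by
        rw [hL, sup_le_iff]
        constructor
        · intro k hk
          exact Subgroup.mem_sup_left (hKn x hx k hk)
        · intro n hn
          exact Subgroup.mem_sup_right (‹N.Normal›.conj_mem n hn x)
      exact hle hl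
    · exact le_trans le_sup_right Subgroup.le_normalizer
  have hLidx : L.index = p ^ a := by
    have h1 := Subgroup.card_mul_index L
    rw [hLcard, ← hAN, ← hcardA, ha] at h1
    have h2 : Nat.card K * Nat.card N * L.index = Nat.card K * Nat.card N * p ^ a := by
      rw [h1]; ring
    exact Nat.eq_of_mul_eq_mul_left (Nat.mul_pos Nat.card_pos Nat.card_pos) h2
  have hK₁L : K₁ ≤ L := by
    intro k hk
    rw [← QuotientGroup.eq_one_iff, ← orderOf_eq_one_iff]
    have d1 : orderOf ((k : G) : G ⧸ L) ∣ Nat.card K₁ :=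
      (orderOf_map_dvd (QuotientGroup.mk' L) k).trans (Subgroup.orderOf_dvd_natCard K₁ hk)
    have d2 : orderOf ((k : G) : G ⧸ L) ∣ p ^ a := by
      rw [← hLidx, Subgroup.index_eq_card]
      exact orderOf_dvd_natCard _
    exact Nat.eq_one_of_dvd_coprimes (hK₁cop a) d1 d2
  -- Schur-Zassenhaus conjugacy in L
  have hNL : N ≤ L := le_sup_right
  have hKL : K ≤ L := le_sup_left
  have hidx : (N.subgroupOf L).index = Nat.card K := by
    have h1 : Nat.card N * N.relIndex L = Nat.card L := card_mul_relIndex hNL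
    rw [hLcard, mul_comm] at h1
    exact Nat.eq_of_mul_eq_mul_right Nat.card_pos h1
  have hN'p : IsPGroup p (N.subgroupOf L) := hN.comap_subtype
  have : Group.IsNilpotent (N.subgroupOf L) := hN'p.isNilpotent
  obtain ⟨l, hl⟩ := Cfsg.Agent.Lib.Helper52.conj_card (N.subgroupOf L)
    (by rw [hidx, Cfsg.Agent.Lib.Helper52.card_subgroupOf_of_le hNL, hc]; exact (hKcop c).symm)
    (Or.inl inferInstance) (K.subgroupOf L) (K₁.subgroupOf L)
    (by rw [hidx, Cfsg.Agent.Lib.Helper52.card_subgroupOf_of_le hKL])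
    (by rw [hidx, Cfsg.Agent.Lib.Helper52.card_subgroupOf_of_le hK₁L, hKK₁])
  have hl' : ∀ k ∈ K, (l : G) * k * (l : G)⁻¹ ∈ K₁ := by
    intro k hk
    have := hl ⟨k, hKL hk⟩ (Subgroup.mem_subgroupOf.2 hk)
    rw [Subgroup.mem_subgroupOf] at this
    simpa using this
  obtain ⟨k0, hk0, n0, hn0, hkn⟩ := Subgroup.mem_sup_of_normal_right.1 l.2
  set n := k0 * n0 * k0⁻¹ with hn
  have hnN : n ∈ N := ‹N.Normal›.conj_mem n0 hn0 k0
  have hnK : ∀ k ∈ K, n * k * n⁻¹ ∈ K₁ := by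
    intro k hk
    have h1 := hl' (k0⁻¹ * k * k0) (K.mul_mem (K.mul_mem (K.inv_mem hk0) hk) hk0)
    rw [← hkn] at h1
    have : n * k * n⁻¹ = k0 * n0 * (k0⁻¹ * k * k0) * (k0 * n0)⁻¹ := by rw [hn]; group
    rw [this]; exact h1
  refine ⟨n, hnN, ?_⟩
  have hK' : K.map (MulAut.conj n).toMonoidHom = K₁ := by
    apply Subgroup.eq_of_le_of_card_ge
    · rintro _ ⟨k, hk, rfl⟩
      exact hnK k hk
    · rw [Subgroup.card_map_of_injective (MulAut.conj n).injective, hKK₁]
  set M := Subgroup.normalizer (K₁ : Set G) with hM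
  have hA₁M : A₁ ≤ M := by
    rw [hM, Subgroup.le_normalizer_iff]; exact hK₁n
  have hA'M : A.map (MulAut.conj n).toMonoidHom ≤ M := by
    rw [hM, Subgroup.le_normalizer_iff]
    rintro _ ⟨x, hx, rfl⟩ k₁ hk₁
    rw [← hK'] at hk₁ ⊢
    obtain ⟨k, hk, rfl⟩ := hk₁
    refine ⟨x * k * x⁻¹, hKn x hx k hk, ?_⟩
    simp only [MulEquiv.coe_toMonoidHom, MulAut.conj_apply]
    group
  have hMN : M ⊓ N = ⊥ := by
    rw [eq_bot_iff]
    rintro m ⟨hmM, hmN⟩
    apply hCK₁ m hmN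
    intro k hk
    have h1 : m * k⁻¹ * m⁻¹ ∈ K₁ := (Subgroup.mem_normalizer_iff.1 hmM k⁻¹).1 (K₁.inv_mem hk)
    have h2 : k * (m * k⁻¹ * m⁻¹) ∈ K₁ := K₁.mul_mem hk h1
    have h3 : k * (m * k⁻¹ * m⁻¹) ∈ N := by
      have : k * (m * k⁻¹ * m⁻¹) = (k * m * k⁻¹) * m⁻¹ := by group
      rw [this]
      exact N.mul_mem (‹N.Normal›.conj_mem m hmN k) (N.inv_mem hmN)
    have h4 : k * (m * k⁻¹ * m⁻¹) ∈ K₁ ⊓ N := ⟨h2, h3⟩
    rw [hK₁N] at h4
    have h5 : k * (m * k⁻¹ * m⁻¹) = 1 := h4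
    calc k * m * k⁻¹ = (k * (m * k⁻¹ * m⁻¹)) * m := by group
      _ = m := by rw [h5, one_mul]
  have hMcard : Nat.card M ≤ Nat.card A₁ := by
    have h1 : Nat.card (M ⊔ N : Subgroup G) = Nat.card M * Nat.card N := card_sup_eq_mul M N hMN
    have h2 : Nat.card (M ⊔ N : Subgroup G) ≤ Nat.card G := Subgroup.card_le_card_group _
    rw [h1, ← hA₁N] at h2
    exact Nat.le_of_mul_le_mul_right h2 Nat.card_pos
  have e1 : A₁ = M := Subgroup.eq_of_le_of_card_ge hA₁M hMcard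
  have e2 : A.map (MulAut.conj n).toMonoidHom = M := by
    apply Subgroup.eq_of_le_of_card_ge hA'M
    rw [Subgroup.card_map_of_injective (MulAut.conj n).injective, hAA₁]
    exact hMcard
  rw [e1, e2]

end Cfsg.Agent.S4043
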