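import Cfsg.Statements.S4049
import Cfsg.Agent.Lib.Helper67.RealOdd

set_option autoImplicit false
open Cfsg

namespace Cfsg.Agent.S4049

open Cfsg.Agent.Lib.Helper67

/-- Let G be a finite group such that N_G(H)/C_G(H) has odd order for every nontrivial subgroup H of odd order. Then the Sylow 2-subgroups of G are normal. -/
theorem result {G : Type*} [Group G] [Finite G]
    (hhom : ∀ H : Subgroup G, H ≠ ⊥ → ¬ 2 ∣ Nat.card ↥H →
        ¬ 2 ∣ (Subgroup.centralizer (H : Set G)).relIndex (Subgroup.normalizer (H : Set G))) (P : Sylow 2 G) :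
    (P : Subgroup G).Normal := by
  apply sylow_two_normal_of_no_real_odd
  intro h hodd hconj
  by_contra hne
  obtain ⟨g, hg⟩ := isConj_iff.1 hconj
  set H := Subgroup.zpowers h with hH
  have hHne : H ≠ ⊥ := by
    rw [hH, Ne, Subgroup.zpowers_eq_bot]; exact hne
  have hHodd : ¬ 2 ∣ Nat.card H := by
    rw [hH, Nat.card_zpowers]
    intro hd
    exact (Nat.not_even_iff_odd.2 hodd) (even_iff_two_dvd.2 hd)
  apply hhom H hHne hHodd
  have hgN : g ∈ Subgroup.normalizer (H : Set G) := by
    rw [hH, mem_normalizer_zpowers_iff, hg]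
    exact Subgroup.inv_mem _ (Subgroup.mem_zpowers h)
  rw [Subgroup.relIndex, ← Subgroup.normalizerMonoidHom_ker, Subgroup.index_ker]
  set φ := H.normalizerMonoidHom with hφ
  have hφg : ∀ x : H, ((φ ⟨g, hgN⟩ x : H) : G) = g * x * g⁻¹ := by
    intro x; rfl
  have hord : orderOf (φ ⟨g, hgN⟩) = 2 := by
    apply orderOf_eq_prime
    · apply MulEquiv.ext
      intro x
      apply Subtype.ext
      obtain ⟨_, j, rfl⟩ := x
      rw [pow_two, MulAut.mul_apply, hφg, hφg]
      simp only [MulAut.one_apply]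
      have : g * h ^ j * g⁻¹ = (h ^ j)⁻¹ := by rw [← conj_zpow, hg, inv_zpow]
      rw [this]
      have : g * (h ^ j)⁻¹ * g⁻¹ = h ^ j := by
        rw [← zpow_neg, ← conj_zpow, hg, inv_zpow, zpow_neg, inv_inv]
      rw [this]
    · intro h2
      have h3 := hφg ⟨h, Subgroup.mem_zpowers h⟩
      rw [h2] at h3
      simp only [MulAut.one_apply] at h3
      rw [hg] at h3
      -- h = h⁻¹
      have h4 : h ^ 2 = 1 := by
        rw [pow_two]
        nth_rewrite 1 [h3]
        simp
      have h5 : orderOf h ∣ 2 := orderOf_dvd_of_pow_eq_one h4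
      rcases (Nat.dvd_prime Nat.prime_two).1 h5 with h6 | h6
      · exact hne (orderOf_eq_one_iff.1 h6)
      · rw [h6] at hodd
        exact absurd hodd (by decide)
  rw [← hord]
  exact Subgroup.orderOf_dvd_natCard φ.range ⟨_, rfl⟩

end Cfsg.Agent.S4049
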