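import Cfsg.Statements.S4050
import Cfsg.Agent.Lib.Helper67.PiClosed

set_option autoImplicit false
set_option linter.unusedSimpArgs false
open Cfsg

namespace Cfsg.Agent.S4050

open Cfsg.Agent.Lib.Helper67

/-- a group whose order is a `π`-number or a `π'`-number is `π`-closed -/
theorem piClosed_of_card {X : Type*} [Group X] [Finite X] (π : Set ℕ)
    (h : PiNum π (Nat.card X) ∨ PiNum πᶜ (Nat.card X)) : PiClosed π X := by
  rcases h with h | h
  · exact ⟨⊤, fun x => ⟨fun _ => h.of_dvd (orderOf_dvd_natCard x), fun _ => Subgroup.mem_top x⟩⟩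
  · refine ⟨⊥, fun x => ⟨fun hx => ?_, fun hx => ?_⟩⟩
    · rw [Subgroup.mem_bot.1 hx, orderOf_one]
      intro p hp hd
      exact absurd (Nat.dvd_one.1 hd) hp.one_lt.ne'
    · rw [Subgroup.mem_bot, ← orderOf_eq_one_iff]
      exact Nat.eq_one_of_dvd_coprimes (hx.coprime h) dvd_rfl (orderOf_dvd_natCard x)

theorem forward {G : Type*} [Group G] [Finite G] (π : Set ℕ) (T : Subgroup G)
    (hT : ∀ x : G, x ∈ T ↔ PiNum π (orderOf x)) :
    T.Normal ∧ PiNum π (Nat.card T) ∧ PiNum πᶜ T.index := by
  have hTn : T.Normal := by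
    constructor
    intro n hn g
    rw [hT] at hn ⊢
    have : orderOf (g * n * g⁻¹) = orderOf n := by
      have := MulEquiv.orderOf_eq (MulAut.conj g) n
      simpa using this
    rw [this]; exact hn
  refine ⟨hTn, PiNum.card_of_forall T (fun x hx => (hT x).1 hx), ?_⟩
  intro r hr hd hrπ
  have : Fact r.Prime := ⟨hr⟩
  rw [Subgroup.index_eq_card] at hd
  obtain ⟨z, hz⟩ := exists_prime_orderOf_dvd_card' (G := G ⧸ T) r hd
  obtain ⟨x, hx, k', hk'⟩ := exists_lift_pElement (QuotientGroup.mk' T)
    (QuotientGroup.mk'_surjective T) hr z 1 (by rw [hz, pow_one])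
  have hxT : x ∈ T := by
    rw [hT]
    intro p hp hpd
    rw [hk'] at hpd
    rw [(Nat.prime_dvd_prime_iff_eq hp hr).1 (hp.dvd_of_dvd_pow hpd)]
    exact hrπ
  have : z = 1 := by
    rw [← hx]
    exact (QuotientGroup.eq_one_iff x).2 hxT
  rw [this, orderOf_one] at hz
  exact hr.one_lt.ne hz

/-- Let π be a set of primes and G a finite group. The π-elements of G (elements whose order is divisible only by primes of π) form a subgroup if and only if G is π-separable (it has a chain of normal subgroups from 1 to G with each successive index divisible only by primes in π or only by primes outside π) and N_G(H)/C_G(H) is a π'-group for every nontrivial π'-subgroup H of G. -/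
theorem result {G : Type*} [Group G] [Finite G] (π : Set ℕ)
    (hπ : ∀ p ∈ π, p.Prime) :
    (∃ K : Subgroup G, ∀ x : G, x ∈ K ↔ ∀ p : ℕ, p.Prime → p ∣ orderOf x → p ∈ π) ↔
    ((∃ (n : ℕ) (H : Fin (n + 1) → Subgroup G), H 0 = ⊥ ∧ H (Fin.last n) = ⊤ ∧ Monotone H ∧ (∀ i, (H i).Normal) ∧
      ∀ i : Fin n, (∀ q : ℕ, q.Prime → q ∣ (H i.castSucc).relIndex (H i.succ) → q ∈ π) ∨
        (∀ q : ℕ, q.Prime → q ∣ (H i.castSucc).relIndex (H i.succ) → q ∉ π)) ∧
     (∀ H : Subgroup G, H ≠ ⊥ → (∀ p : ℕ, p.Prime → p ∣ Nat.card ↥H → p ∉ π) →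
        ∀ p : ℕ, p.Prime → p ∣ (Subgroup.centralizer (H : Set G)).relIndex (Subgroup.normalizer (H : Set G)) → p ∉ π)) := by
  constructor
  · rintro ⟨T, hT⟩
    obtain ⟨hTn, hTc, hTi⟩ := forward π T hT
    refine ⟨⟨2, ![⊥, T, ⊤], rfl, rfl, ?_, ?_, ?_⟩, ?_⟩
    · rw [Fin.monotone_iff_le_succ]
      intro i
      fin_cases i
      · exact bot_le
      · exact le_top
    · intro i
      fin_cases i
      · exact Subgroup.normal_bot
      · exact hTn
      · exact Subgroup.normal_top
    · intro i
      fin_cases i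
      · left
        intro q hq hd
        have e : (⊥ : Subgroup G).relIndex T = Nat.card T := Subgroup.relIndex_bot_left T
        exact hTc q hq (e ▸ hd)
      · right
        intro q hq hd
        have e : T.relIndex ⊤ = T.index := Subgroup.relIndex_top_right T
        exact hTi q hq (e ▸ hd)
    · intro H _ hH p hp hd hpπ
      have : Fact p.Prime := ⟨hp⟩
      rw [Subgroup.relIndex, ← Subgroup.normalizerMonoidHom_ker, Subgroup.index_ker] at hd
      set φ := H.normalizerMonoidHom with hφ
      obtain ⟨z, hz⟩ := exists_prime_orderOf_dvd_card' (G := φ.range) p hd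
      obtain ⟨u, hu, k', hk'⟩ := exists_lift_pElement φ.rangeRestrict φ.rangeRestrict_surjective hp z 1
        (by rw [hz, pow_one])
      have huT : (u : G) ∈ T := by
        rw [hT]
        intro r hr hrd
        rw [Subgroup.orderOf_coe, hk'] at hrd
        rw [(Nat.prime_dvd_prime_iff_eq hr hp).1 (hr.dvd_of_dvd_pow hrd)]
        exact hpπ
      have hcop : Nat.Coprime (Nat.card T) (Nat.card H) := PiNum.coprime hTc hH
      have hφu : φ u = 1 := by
        apply MulEquiv.ext
        intro h
        apply Subtype.ext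
        have e1 : ((φ u h : H) : G) = (u : G) * h * (u : G)⁻¹ := rfl
        rw [e1]
        simp only [MulAut.one_apply]
        have m1 : (u : G) * h * (u : G)⁻¹ * (h : G)⁻¹ ∈ T := by
          have : (u : G) * h * (u : G)⁻¹ * (h : G)⁻¹ = (u : G) * ((h : G) * (u : G)⁻¹ * (h : G)⁻¹) := by
            group
          rw [this]
          exact T.mul_mem huT (hTn.conj_mem _ (T.inv_mem huT) _)
        have m2 : (u : G) * h * (u : G)⁻¹ * (h : G)⁻¹ ∈ H :=
          H.mul_mem ((Subgroup.mem_normalizer_iff.1 u.2 h).1 h.2) (H.inv_mem h.2)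
        have := eq_one_of_mem_of_coprime_card hcop m1 m2
        calc (u : G) * h * (u : G)⁻¹ = ((u : G) * h * (u : G)⁻¹ * (h : G)⁻¹) * h := by group
          _ = h := by rw [this, one_mul]
      have hz1 : z = 1 := by
        rw [← hu]
        apply Subtype.ext
        exact hφu
      rw [hz1, orderOf_one] at hz
      exact hp.one_lt.ne hz
  · rintro ⟨⟨n, H, h0, hlast, hmono, hnorm, hstep⟩, hhom⟩
    have hE : PiHomE π G := PiHomE.of_relIndex π hhom
    have key : ∀ i : Fin (n + 1), ∃ T : Subgroup G, ∀ x : G, x ∈ T ↔ x ∈ H i ∧ PiNum π (orderOf x) := by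
      intro i
      induction i using Fin.induction with
      | zero =>
        refine ⟨⊥, fun x => ?_⟩
        rw [h0]
        constructor
        · intro hx
          refine ⟨hx, ?_⟩
          rw [Subgroup.mem_bot.1 hx, orderOf_one]
          intro p hp hd
          exact absurd (Nat.dvd_one.1 hd) hp.one_lt.ne'
        · exact fun hx => hx.1
      | succ i ih =>
        obtain ⟨T, hT⟩ := ih
        have hle : H i.castSucc ≤ H i.succ := hmono (Fin.castSucc_le_succ i)
        have := hnorm i.castSucc
        have hcl : PiClosed π (H i.succ) := by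
          apply PiClosed.of_normal (hE.subgroup (H i.succ)) ((H i.castSucc).subgroupOf (H i.succ))
          · refine ⟨T.subgroupOf (H i.succ), fun x => ?_⟩
            rw [Subgroup.mem_subgroupOf, Subgroup.mem_subgroupOf, hT, Subgroup.orderOf_coe]
          · apply piClosed_of_card
            rw [← Subgroup.index_eq_card]
            exact hstep i
        obtain ⟨T', hT'⟩ := hcl
        refine ⟨T'.map (H i.succ).subtype, fun x => ?_⟩
        constructor
        · rintro ⟨y, hy, rfl⟩
          refine ⟨y.2, ?_⟩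
          have := (hT' y).1 hy
          rwa [← Subgroup.orderOf_coe] at this
        · rintro ⟨hxK, hx⟩
          refine ⟨⟨x, hxK⟩, (hT' _).2 ?_, rfl⟩
          rw [Subgroup.orderOf_mk]
          exact hx
    obtain ⟨T, hT⟩ := key (Fin.last n)
    refine ⟨T, fun x => ?_⟩
    rw [hT, hlast]
    exact ⟨fun h => h.2, fun h => ⟨Subgroup.mem_top x, h⟩⟩

end Cfsg.Agent.S4050
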