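import Cfsg.Statements.S4058
import Cfsg.Agent.Lib.Helper81.Roots
import Cfsg.Agent.Lib.Helper80.Linear
import Cfsg.Agent.Lib.Helper3.Table
import Cfsg.Agent.Lib.Helper3.Integral
import Cfsg.Agent.Lib.Helper90.Extraspecial

set_option autoImplicit false
open Cfsg

namespace Cfsg.Agent.S4058

open Cfsg.Agent.Lib.Helper74
open scoped ComplexConjugate commutatorElement

variable {G : Type*} [Group G]

/-- a sign character, as a complex valued function -/
noncomputable def sgnC (l : G →* ℤˣ) (g : G) : ℂ := ((l g : ℤ) : ℂ)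

theorem sgnC_sq (l : G →* ℤˣ) (g : G) : sgnC l g * sgnC l g = 1 := by
  unfold sgnC
  rcases Int.units_eq_one_or (l g) with h | h <;> simp [h]

theorem sgnC_mul (l m : G →* ℤˣ) (g : G) : sgnC (l * m) g = sgnC l g * sgnC m g := by
  simp [sgnC]

theorem sgnC_one (g : G) : sgnC (1 : G →* ℤˣ) g = 1 := by
  simp [sgnC]

theorem sgnC_map_mul (l : G →* ℤˣ) (g h : G) : sgnC l (g * h) = sgnC l g * sgnC l h := by
  simp [sgnC]

theorem sgnC_map_one (l : G →* ℤˣ) : sgnC l 1 = 1 := by
  simp [sgnC]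

theorem sgnC_conj (l : G →* ℤˣ) (g : G) : conj (sgnC l g) = sgnC l g := by
  simp [sgnC]

theorem sgnC_injective : Function.Injective (sgnC : (G →* ℤˣ) → G → ℂ) := by
  intro l m h
  ext g
  have := congrFun h g
  simpa [sgnC] using this

theorem sgnC_isIrr (l : G →* ℤˣ) : IsIrrCharacter G (sgnC l) := by
  have := isIrrCharacter_of_hom ((Units.map (Int.castRingHom ℂ : ℤ →* ℂ)).comp l)
  convert this using 1
  funext g
  simp [sgnC]

theorem twist_isIrr [Finite G] (l : G →* ℤˣ) (χ : IrrCharacter G) :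
    IsIrrCharacter G (fun g => sgnC l g * (χ : G → ℂ) g) := by
  have := Fintype.ofFinite G
  rw [Cfsg.Agent.Lib.Helper3.isIrrCharacter_iff]
  refine ⟨IsCharacter.mul (IsIrrCharacter.isCharacter (sgnC_isIrr l)) (IrrCharacter.isCharacter χ), ?_⟩
  have h := classInner_irr_self χ
  rw [← h]
  unfold classInner
  congr 1
  refine Finset.sum_congr rfl fun g _ => ?_
  rw [map_mul, sgnC_conj]
  calc sgnC l g * (χ : G → ℂ) g * (sgnC l g * conj ((χ : G → ℂ) g))
      = (sgnC l g * sgnC l g) * ((χ : G → ℂ) g * conj ((χ : G → ℂ) g)) := by ring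
    _ = _ := by rw [sgnC_sq, one_mul]

/-- the twist of an irreducible character by a sign character -/
noncomputable def twist [Finite G] (l : G →* ℤˣ) (χ : IrrCharacter G) : IrrCharacter G :=
  ⟨fun g => sgnC l g * (χ : G → ℂ) g, twist_isIrr l χ⟩

noncomputable instance twistAction [Finite G] : MulAction (G →* ℤˣ) (IrrCharacter G) where
  smul := twist
  one_smul χ := by
    apply Subtype.ext
    funext g
    change sgnC 1 g * (χ : G → ℂ) g = _
    rw [sgnC_one, one_mul]
  mul_smul l m χ := by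
    apply Subtype.ext
    funext g
    change sgnC (l * m) g * (χ : G → ℂ) g = sgnC l g * (sgnC m g * (χ : G → ℂ) g)
    rw [sgnC_mul, mul_assoc]

theorem smul_apply [Finite G] (l : G →* ℤˣ) (χ : IrrCharacter G) (g : G) :
    ((l • χ : IrrCharacter G) : G → ℂ) g = sgnC l g * (χ : G → ℂ) g := rfl


/-- the stabiliser of `χ` among the sign characters has at most `χ(1)²` elements -/
theorem card_stabilizer_le [Finite G] (χ : IrrCharacter G) (d : ℕ) (hd : (χ : G → ℂ) 1 = d) :
    Nat.card (MulAction.stabilizer (G →* ℤˣ) χ) ≤ d ^ 2 := by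
  classical
  have := Fintype.ofFinite G
  have hΦ : IsCharacter G ((χ : G → ℂ) * star (χ : G → ℂ)) :=
    IsCharacter.mul (IrrCharacter.isCharacter χ) (IsCharacter.star (IrrCharacter.isCharacter χ))
  obtain ⟨m, hm⟩ := IsCharacter.exists_mult hΦ
  have hdeg : ∀ ψ : IrrCharacter G, ∃ n : ℕ, (ψ : G → ℂ) 1 = n := fun ψ =>
    Cfsg.Agent.Lib.Helper3.IsCharacter.apply_one_eq_natCast (IrrCharacter.isCharacter ψ)
  choose deg hdeg using hdeg
  have h1 : d ^ 2 = ∑ ψ : IrrCharacter G, m ψ * deg ψ := by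
    have h2 := congrFun hm 1
    simp only [Pi.mul_apply, Pi.star_apply, Finset.sum_apply, Pi.smul_apply,
      smul_eq_mul] at h2
    rw [hd] at h2
    simp only [hdeg] at h2
    have h3 : ((d ^ 2 : ℕ) : ℂ) = ((∑ ψ : IrrCharacter G, m ψ * deg ψ : ℕ) : ℂ) := by
      push_cast
      rw [← h2]
      simp [sq]
    exact_mod_cast h3
  -- the embedding of the stabiliser
  let ι : MulAction.stabilizer (G →* ℤˣ) χ → IrrCharacter G := fun l => ⟨sgnC l.1, sgnC_isIrr l.1⟩
  have hι : Function.Injective ι := by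
    intro a b hab
    apply Subtype.ext
    apply sgnC_injective
    exact congrArg Subtype.val hab
  have hmι : ∀ l, m (ι l) = 1 := by
    intro l
    have h4 : classInner ((χ : G → ℂ) * star (χ : G → ℂ)) (ι l : G → ℂ) = m (ι l) := by
      rw [hm, classInner_sum_irr]
    have h5 : classInner ((χ : G → ℂ) * star (χ : G → ℂ)) (ι l : G → ℂ) = 1 := by
      rw [← classInner_irr_self χ]
      unfold classInner
      congr 1
      refine Finset.sum_congr rfl fun g _ => ?_
      have h6 : sgnC l.1 g * (χ : G → ℂ) g = (χ : G → ℂ) g := by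
        have := l.2
        rw [MulAction.mem_stabilizer_iff] at this
        have h7 := smul_apply l.1 χ g
        rw [this] at h7
        exact h7.symm
      change (χ : G → ℂ) g * star ((χ : G → ℂ) g) * conj (sgnC l.1 g) = _
      rw [sgnC_conj]
      calc (χ : G → ℂ) g * star ((χ : G → ℂ) g) * sgnC l.1 g
          = (sgnC l.1 g * (χ : G → ℂ) g) * star ((χ : G → ℂ) g) := by ring
        _ = _ := by rw [h6]; rfl
    rw [h5] at h4
    exact_mod_cast h4.symm
  have hdι : ∀ l, deg (ι l) = 1 := by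
    intro l
    have := hdeg (ι l)
    change sgnC l.1 1 = _ at this
    rw [sgnC_map_one] at this
    exact_mod_cast this.symm
  have : Finite (MulAction.stabilizer (G →* ℤˣ) χ) := Finite.of_injective ι hι
  have := Fintype.ofFinite (MulAction.stabilizer (G →* ℤˣ) χ)
  rw [h1, Nat.card_eq_fintype_card]
  calc Fintype.card (MulAction.stabilizer (G →* ℤˣ) χ)
      = ∑ l : MulAction.stabilizer (G →* ℤˣ) χ, m (ι l) * deg (ι l) := by
        simp [hmι, hdι]
    _ = ∑ ψ ∈ Finset.univ.image ι, m ψ * deg ψ := by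
        rw [Finset.sum_image (fun a _ b _ h => hι h)]
    _ ≤ ∑ ψ : IrrCharacter G, m ψ * deg ψ :=
        Finset.sum_le_sum_of_subset (Finset.subset_univ _)

/-- degrees of irreducible characters of a `2`-group are powers of `2` -/
theorem exists_degree [Finite G] (hG : IsPGroup 2 G) (χ : IrrCharacter G) :
    ∃ a : ℕ, (χ : G → ℂ) 1 = ((2 ^ a : ℕ) : ℂ) := by
  obtain ⟨χ, n, ρ, hirr, rfl⟩ := χ
  obtain ⟨N, hN⟩ := IsPGroup.iff_card.1 hG
  have h := Cfsg.Agent.Lib.Helper3.finrank_dvd_card ρ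
  rw [hN, Nat.dvd_prime_pow Nat.prime_two] at h
  obtain ⟨a, -, ha⟩ := h
  refine ⟨a, ?_⟩
  change ρ.character 1 = _
  rw [Representation.char_one, ha]


/-- a complex linear character with values of square one comes from a sign character -/
theorem exists_sign_of_hom {A : Type*} [Group A] (f : A →* ℂˣ) (hf : ∀ a, f a * f a = 1) :
    ∃ l : A →* ℤˣ, ∀ a, ((f a : ℂˣ) : ℂ) = sgnC l a := by
  classical
  have h1 : ∀ a, f a = 1 ∨ f a = -1 := by
    intro a
    have h2 : ((f a : ℂˣ) : ℂ) * ((f a : ℂˣ) : ℂ) = 1 := by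
      rw [← Units.val_mul, hf a, Units.val_one]
    rcases mul_self_eq_one_iff.1 h2 with h | h
    · left; exact Units.ext h
    · right; exact Units.ext (by simpa using h)
  have hne : (1 : ℂˣ) ≠ -1 := by
    intro h
    have := congrArg (fun u : ℂˣ => (u : ℂ)) h
    norm_num at this
  refine ⟨MonoidHom.mk' (fun a => if f a = 1 then 1 else -1) ?_, ?_⟩
  · intro a b
    rcases h1 a with ha | ha <;> rcases h1 b with hb | hb <;>
      simp [map_mul, ha, hb, hne.symm]
  · intro a
    rcases h1 a with ha | ha <;> simp [sgnC, ha, hne.symm]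

theorem card_le_card_sign [Finite G] (hG : IsPGroup 2 G) :
    Nat.card (G ⧸ frattini G) ≤ Nat.card (G →* ℤˣ) := by
  have : Fact (Nat.Prime 2) := ⟨Nat.prime_two⟩
  have hcomm : ∀ a b : G ⧸ frattini G, a * b = b * a := by
    intro a b
    induction a using QuotientGroup.induction_on with | H a => ?_
    induction b using QuotientGroup.induction_on with | H b => ?_
    rw [← QuotientGroup.mk_mul, ← QuotientGroup.mk_mul, QuotientGroup.eq]
    apply Cfsg.Agent.Lib.Helper90.commutator_le_frattini hG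
    have : (a * b)⁻¹ * (b * a) = ⁅b⁻¹, a⁻¹⁆ := by
      rw [commutatorElement_def]; group
    rw [this]
    exact Subgroup.commutator_mem_commutator (Subgroup.mem_top _) (Subgroup.mem_top _)
  have hsq : ∀ a : G ⧸ frattini G, a * a = 1 := by
    intro a
    induction a using QuotientGroup.induction_on with | H a => ?_
    rw [← QuotientGroup.mk_mul, QuotientGroup.eq_one_iff, ← pow_two]
    exact Cfsg.Agent.Lib.Helper90.pow_mem_frattini hG a
  rw [← Cfsg.Agent.Lib.Helper80.card_irr_of_comm hcomm]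
  have hex : ∀ χ : IrrCharacter (G ⧸ frattini G), ∃ l : G →* ℤˣ,
      ∀ g : G, (χ : G ⧸ frattini G → ℂ) (QuotientGroup.mk g) = sgnC l g := by
    intro χ
    obtain ⟨f, hf⟩ := Cfsg.Agent.Lib.Helper80.exists_hom_of_degree_one
      (IrrCharacter.isCharacter χ) (Cfsg.Agent.Lib.Helper80.char_one_eq_one_of_comm hcomm χ)
    obtain ⟨l, hl⟩ := exists_sign_of_hom f (fun a => by rw [← map_mul, hsq, map_one])
    refine ⟨l.comp (QuotientGroup.mk' (frattini G)), fun g => ?_⟩
    rw [hf, hl]
    rfl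
  choose L hL using hex
  have : Finite (G →* ℤˣ) := Finite.of_injective (fun l : G →* ℤˣ => (l : G → ℤˣ))
    DFunLike.coe_injective
  apply Nat.card_le_card_of_injective L
  intro χ ψ h
  apply Subtype.ext
  funext a
  induction a using QuotientGroup.induction_on with | H a => ?_
  rw [hL, hL, h]


theorem dvd_sum_of_orbit {Λ X : Type*} [Group Λ] [MulAction Λ X] [Fintype X] (F : X → ℤ) (m : ℤ)
    (hinv : ∀ (l : Λ) x, F (l • x) = F x)
    (h : ∀ x, m ∣ (Nat.card (MulAction.orbit Λ x) : ℤ) * F x) : m ∣ ∑ x, F x := by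
  classical
  rw [Finset.sum_partition (MulAction.orbitRel Λ X)]
  refine Finset.dvd_sum fun xbar hx => ?_
  obtain ⟨x, -, rfl⟩ := Finset.mem_image.1 hx
  have h1 : ∀ y ∈ Finset.univ.filter (fun y : X => (Quotient.mk (MulAction.orbitRel Λ X) y) = Quotient.mk _ x), F y = F x := by
    intro y hy
    have hy' := (Finset.mem_filter.1 hy).2
    have hy2 : y ∈ MulAction.orbit Λ x := by
      have := Quotient.exact hy'
      exact MulAction.orbitRel_apply.1 this
    obtain ⟨l, rfl⟩ := hy2
    exact hinv l x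
  rw [Finset.sum_congr rfl h1, Finset.sum_const]
  have h2 : (Finset.univ.filter (fun y : X => (Quotient.mk (MulAction.orbitRel Λ X) y) = Quotient.mk _ x)).card
      = Nat.card (MulAction.orbit Λ x) := by
    rw [Nat.card_eq_fintype_card, Fintype.card_subtype]
    congr 1
    ext y
    simp only [Finset.mem_filter, Finset.mem_univ, true_and]
    rw [Quotient.eq]
    exact MulAction.orbitRel_apply
  rw [h2, nsmul_eq_mul]
  exact h x


/-- Let G be a finite 2-group with #(G/Φ(G)) ≥ 2^(2k+1). Then the number of elements x of G with x² = 1 is divisible by 2^(k+1). -/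
theorem result {G : Type*} [Group G] [Finite G] (hG : IsPGroup 2 G) (k : ℕ)
    (hgen : 2 ^ (2 * k + 1) ≤ Nat.card (G ⧸ frattini G)) :
    2 ^ (k + 1) ∣ Nat.card {x : G // x ^ 2 = 1} := by
  classical
  have := Fintype.ofFinite G
  have hfinΛ : Finite (G →* ℤˣ) := Finite.of_injective (fun l : G →* ℤˣ => (l : G → ℤˣ))
    DFunLike.coe_injective
  -- the order of the group of sign characters
  have hΛp : IsPGroup 2 (G →* ℤˣ) := by
    intro l
    refine ⟨1, ?_⟩
    ext g
    rcases Int.units_eq_one_or (l g) with h | h <;> simp [h]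
  obtain ⟨n, hn⟩ := IsPGroup.iff_card.1 hΛp
  have hn2 : 2 * k + 1 ≤ n := by
    have h1 := hgen.trans (card_le_card_sign hG)
    rw [hn] at h1
    exact (Nat.pow_le_pow_iff_right (by norm_num)).1 h1
  have hcard : (Nat.card G : ℂ) ≠ 0 := by exact_mod_cast (Nat.card_pos (α := G)).ne'
  -- integrality
  have hF : ∀ χ : IrrCharacter G, ∃ z : ℤ, ∃ a : ℕ, (χ : G → ℂ) 1 = ((2 ^ a : ℕ) : ℂ) ∧
      ((2 ^ a : ℕ) : ℤ) ∣ z ∧
      (z : ℂ) = ((Nat.card G : ℂ)⁻¹ * ∑ s : G, (χ : G → ℂ) (s * s)) * (χ : G → ℂ) 1 := by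
    intro χ
    obtain ⟨a, ha⟩ := exists_degree hG χ
    have hc : (Fintype.card G : ℂ) = (Nat.card G : ℂ) := by rw [Nat.card_eq_fintype_card]
    rcases Cfsg.Agent.Lib.Helper81.IsIrrCharacter.frobSchur χ.2 with ⟨h0, -⟩ | ⟨h1 | h1, -⟩
    · exact ⟨0, a, ha, dvd_zero _, by rw [h0]; simp⟩
    · refine ⟨((2 ^ a : ℕ) : ℤ), a, ha, dvd_refl _, ?_⟩
      rw [h1, hc, inv_mul_cancel₀ hcard, ha]
      push_cast; ring
    · refine ⟨-((2 ^ a : ℕ) : ℤ), a, ha, (dvd_neg).2 (dvd_refl _), ?_⟩
      rw [h1, hc, mul_neg, inv_mul_cancel₀ hcard, ha]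
      push_cast; ring
  choose F a ha hdvd hFeq using hF
  have hmain : ((2 ^ (k + 1) : ℕ) : ℤ) ∣ ∑ χ : IrrCharacter G, F χ := by
    apply dvd_sum_of_orbit (Λ := G →* ℤˣ)
    · intro l χ
      have h1 : (F (l • χ) : ℂ) = (F χ : ℂ) := by
        rw [hFeq, hFeq]
        simp only [smul_apply, sgnC_map_mul, sgnC_sq, sgnC_map_one, one_mul]
      exact_mod_cast h1
    · intro χ
      have h1 : Nat.card (MulAction.stabilizer (G →* ℤˣ) χ) *
          Nat.card (MulAction.orbit (G →* ℤˣ) χ) = 2 ^ n := by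
        rw [← hn, ← Subgroup.card_mul_index (MulAction.stabilizer (G →* ℤˣ) χ),
          MulAction.index_stabilizer, Nat.card_coe_set_eq]
      have h2 : Nat.card (MulAction.stabilizer (G →* ℤˣ) χ) ∣ 2 ^ n := ⟨_, h1.symm⟩
      obtain ⟨s, hs, hs2⟩ := (Nat.dvd_prime_pow Nat.prime_two).1 h2
      have h3 : Nat.card (MulAction.orbit (G →* ℤˣ) χ) = 2 ^ (n - s) := by
        rw [hs2] at h1
        have h4 : 2 ^ s * 2 ^ (n - s) = 2 ^ n := by
          rw [← pow_add]; congr 1; omega
        exact Nat.eq_of_mul_eq_mul_left (pow_pos (by norm_num) s) (h1.trans h4.symm)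
      have h5 : s ≤ 2 * a χ := by
        have h6 := card_stabilizer_le χ (2 ^ a χ) (ha χ)
        rw [hs2, ← pow_mul] at h6
        have := (Nat.pow_le_pow_iff_right (by norm_num)).1 h6
        omega
      have h7 : ((2 ^ (k + 1) : ℕ) : ℤ) ∣ ((2 ^ (n - s) : ℕ) : ℤ) * ((2 ^ a χ : ℕ) : ℤ) := by
        rw [← Nat.cast_mul, ← pow_add]
        exact_mod_cast pow_dvd_pow 2 (by omega)
      rw [h3]
      exact h7.trans (mul_dvd_mul_left _ (hdvd χ))
  have hcount : ((Nat.card {x : G // x ^ 2 = 1} : ℤ) : ℂ) = ((∑ χ : IrrCharacter G, F χ : ℤ) : ℂ) := by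
    have h1 := Cfsg.Agent.Lib.Helper81.card_sqrt_eq (1 : G)
    push_cast
    simp only [hFeq]
    rw [← h1]
    simp only [pow_two]
  have hcount' : (Nat.card {x : G // x ^ 2 = 1} : ℤ) = ∑ χ : IrrCharacter G, F χ := by
    exact_mod_cast hcount
  rw [← hcount'] at hmain
  exact_mod_cast hmain

end Cfsg.Agent.S4058
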