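import Mathlib
import Cfsg.Statements.S4065

set_option autoImplicit false
open Cfsg

namespace Cfsg.Agent.S4065

lemma comm_trans {F : Type*} [Field F] (A B C : Matrix (Fin 2) (Fin 2) F)
    (hB : ¬ (B 0 1 = 0 ∧ B 1 0 = 0 ∧ B 0 0 = B 1 1)) (hAB : A * B = B * A) (hBC : B * C = C * B) :
    A * C = C * A := by
  have e1 := congr_fun (congr_fun hAB 0) 0
  have e2 := congr_fun (congr_fun hAB 0) 1
  have e3 := congr_fun (congr_fun hAB 1) 0
  have f1 := congr_fun (congr_fun hBC 0) 0
  have f2 := congr_fun (congr_fun hBC 0) 1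
  have f3 := congr_fun (congr_fun hBC 1) 0
  simp only [Matrix.mul_apply, Fin.sum_univ_two] at e1 e2 e3 f1 f2 f3
  ext i j
  fin_cases i <;> fin_cases j <;>
    simp only [Matrix.mul_apply, Fin.sum_univ_two, Fin.zero_eta, Fin.mk_one, Fin.isValue] <;> grind

/-- In characteristic two a scalar matrix of determinant one is the identity. -/
lemma eq_one_of_scalar {F : Type*} [Field F] [CharP F 2] (B : Matrix.SpecialLinearGroup (Fin 2) F)
    (hB : (B : Matrix (Fin 2) (Fin 2) F) 0 1 = 0 ∧ (B : Matrix (Fin 2) (Fin 2) F) 1 0 = 0 ∧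
      (B : Matrix (Fin 2) (Fin 2) F) 0 0 = (B : Matrix (Fin 2) (Fin 2) F) 1 1) : B = 1 := by
  obtain ⟨h1, h2, h3⟩ := hB
  have hdet := B.2
  rw [Matrix.det_fin_two, h1, h2, ← h3] at hdet
  have h4 : ((B : Matrix (Fin 2) (Fin 2) F) 0 0 - 1) ^ 2 = 0 := by
    have h2' : (2 : F) = 0 := CharP.cast_eq_zero F 2
    linear_combination hdet - ((B : Matrix (Fin 2) (Fin 2) F) 0 0 - 1) * h2'
  have h5 : (B : Matrix (Fin 2) (Fin 2) F) 0 0 = 1 := by
    have := pow_eq_zero_iff (two_ne_zero) |>.mp h4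
    linear_combination this
  ext i j
  fin_cases i <;> fin_cases j <;> simp [h1, h2, h5, ← h3]

lemma center_eq_bot {F : Type*} [Field F] [CharP F 2] :
    Subgroup.center (Matrix.SpecialLinearGroup (Fin 2) F) = ⊥ := by
  rw [eq_bot_iff]
  intro A hA
  obtain ⟨r, -, hr⟩ := Matrix.SpecialLinearGroup.mem_center_iff.mp hA
  rw [Subgroup.mem_bot]
  apply eq_one_of_scalar
  rw [← hr]
  simp

/-- commuting is transitive on non-identity elements of `SL₂` in characteristic two -/
lemma sl_comm_trans {F : Type*} [Field F] [CharP F 2] (A B C : Matrix.SpecialLinearGroup (Fin 2) F)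
    (hB : B ≠ 1) (hAB : A * B = B * A) (hBC : B * C = C * B) : A * C = C * A := by
  apply Subtype.ext
  rw [Matrix.SpecialLinearGroup.coe_mul, Matrix.SpecialLinearGroup.coe_mul]
  apply comm_trans _ (B : Matrix (Fin 2) (Fin 2) F)
  · intro h
    exact hB (eq_one_of_scalar B h)
  · rw [← Matrix.SpecialLinearGroup.coe_mul, hAB, Matrix.SpecialLinearGroup.coe_mul]
  · rw [← Matrix.SpecialLinearGroup.coe_mul, hBC, Matrix.SpecialLinearGroup.coe_mul]

lemma psl_comm_trans {F : Type*} [Field F] [CharP F 2]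
    (a b c : Matrix.ProjectiveSpecialLinearGroup (Fin 2) F)
    (hb : b ≠ 1) (hab : a * b = b * a) (hbc : b * c = c * b) : a * c = c * a := by
  have hinj : Function.Injective
      (QuotientGroup.mk' (Subgroup.center (Matrix.SpecialLinearGroup (Fin 2) F))) := by
    rw [← MonoidHom.ker_eq_bot_iff, QuotientGroup.ker_mk', center_eq_bot]
  obtain ⟨A, rfl⟩ := QuotientGroup.mk'_surjective _ a
  obtain ⟨B, rfl⟩ := QuotientGroup.mk'_surjective _ b
  obtain ⟨C, rfl⟩ := QuotientGroup.mk'_surjective _ c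
  rw [← map_mul, ← map_mul] at hab hbc ⊢
  congr 1
  apply sl_comm_trans A B C
  · rintro rfl
    exact hb (map_one _)
  · exact hinj hab
  · exact hinj hbc

/-- A group in which commuting is transitive on non-identity elements has TI element centralizers. -/
lemma ti_of_comm_trans {G : Type*} [Group G]
    (h : ∀ a b c : G, b ≠ 1 → a * b = b * a → b * c = c * b → a * c = c * a) (x : G) :
    Cfsg.IsTISubset (Subgroup.centralizer ({x} : Set G) : Set G) := by
  intro g hg y hy hgy
  by_contra hy1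
  apply hg
  rw [SetLike.mem_coe, Subgroup.mem_centralizer_singleton_iff] at hy hgy
  by_cases hx : x = 1
  · subst hx
    rw [Subgroup.mem_normalizer_iff]
    intro k
    simp [Subgroup.mem_centralizer_singleton_iff]
  have hgy1 : g * y * g⁻¹ ≠ 1 := by
    intro h1
    apply hy1
    have : y = g⁻¹ * (g * y * g⁻¹) * g := by group
    rw [this, h1]; group
  rw [Subgroup.mem_normalizer_iff]
  intro k
  rw [Subgroup.mem_centralizer_singleton_iff, Subgroup.mem_centralizer_singleton_iff]
  constructor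
  · intro hk
    have h1 : k * y = y * k := h k x y hx hk hy.symm
    have h2 : (g * k * g⁻¹) * (g * y * g⁻¹) = (g * y * g⁻¹) * (g * k * g⁻¹) := by
      calc (g * k * g⁻¹) * (g * y * g⁻¹) = g * (k * y) * g⁻¹ := by group
        _ = g * (y * k) * g⁻¹ := by rw [h1]
        _ = _ := by group
    exact h _ _ _ hgy1 h2 hgy
  · intro hk
    have h2 : (g * k * g⁻¹) * (g * y * g⁻¹) = (g * y * g⁻¹) * (g * k * g⁻¹) := h _ x _ hx hk hgy.symm
    have h1 : k * y = y * k := by
      calc k * y = g⁻¹ * ((g * k * g⁻¹) * (g * y * g⁻¹)) * g := by group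
        _ = g⁻¹ * ((g * y * g⁻¹) * (g * k * g⁻¹)) * g := by rw [h2]
        _ = _ := by group
    exact h _ _ _ hy1 h1 hy

theorem result (n : ℕ) (hn : 2 ≤ n)
    (x : Matrix.ProjectiveSpecialLinearGroup (Fin 2) (GaloisField 2 n)) :
    Cfsg.IsTISubset (Subgroup.centralizer ({x} : Set (Matrix.ProjectiveSpecialLinearGroup (Fin 2) (GaloisField 2 n))) :
      Set (Matrix.ProjectiveSpecialLinearGroup (Fin 2) (GaloisField 2 n))) := by
  apply ti_of_comm_trans
  intro a b c
  exact psl_comm_trans a b c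

end Cfsg.Agent.S4065
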