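import Mathlib
import Cfsg.Statements.S4066

set_option autoImplicit false
open Cfsg

namespace Cfsg.Agent.S4066

lemma isPGroup_normalClosure {K : Type*} [Group K] (p : ℕ) (x : K) (k : ℕ) (hx : x ^ (p ^ k) = 1)
    (hcomm : ∀ c : K, Commute (c * x * c⁻¹) x) :
    IsPGroup p (Subgroup.normalClosure ({x} : Set K)) := by
  have hmem : ∀ a ∈ Group.conjugatesOfSet ({x} : Set K), ∃ c : K, a = c * x * c⁻¹ := by
    intro a ha
    obtain ⟨y, hy, hya⟩ := Group.mem_conjugatesOfSet_iff.mp ha
    rw [Set.mem_singleton_iff] at hy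
    subst hy
    obtain ⟨c, hc⟩ := isConj_iff.mp hya
    exact ⟨c, hc.symm⟩
  have hS : ∀ a ∈ Group.conjugatesOfSet ({x} : Set K), ∀ b ∈ Group.conjugatesOfSet ({x} : Set K),
      a * b = b * a := by
    intro a ha b hb
    obtain ⟨c, rfl⟩ := hmem a ha
    obtain ⟨d, rfl⟩ := hmem b hb
    have h1 : (d⁻¹ * c) * x * (d⁻¹ * c)⁻¹ * x = x * ((d⁻¹ * c) * x * (d⁻¹ * c)⁻¹) := hcomm (d⁻¹ * c)
    calc c * x * c⁻¹ * (d * x * d⁻¹) = d * ((d⁻¹ * c) * x * (d⁻¹ * c)⁻¹ * x) * d⁻¹ := by group
      _ = d * (x * ((d⁻¹ * c) * x * (d⁻¹ * c)⁻¹)) * d⁻¹ := by rw [h1]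
      _ = d * x * d⁻¹ * (c * x * c⁻¹) := by group
  have hc := Subgroup.isMulCommutative_closure hS
  have hall : ∀ t ∈ Subgroup.closure (Group.conjugatesOfSet ({x} : Set K)), t ^ (p ^ k) = 1 := by
    intro t ht
    induction ht using Subgroup.closure_induction with
    | mem y hy =>
      obtain ⟨c, rfl⟩ := hmem y hy
      rw [conj_pow, hx]; group
    | one => simp
    | mul a b ha hb iha ihb =>
      have hab : Commute a b := by
        have := (isMulCommutative_iff.mp hc) ⟨a, ha⟩ ⟨b, hb⟩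
        exact congr_arg Subtype.val this
      rw [hab.mul_pow, iha, ihb, one_mul]
    | inv a ha iha => rw [inv_pow, iha, inv_one]
  intro t
  exact ⟨k, Subtype.ext (hall t.1 t.2)⟩

theorem result {G : Type*} [Group G] [Finite G] (hTI : ∀ x : G, Cfsg.IsTISubset (Subgroup.centralizer ({x} : Set G) : Set G))
    {p : ℕ} [Fact p.Prime] (P Q : Sylow p G) (hPQ : P ≠ Q) : (P : Subgroup G) ⊓ (Q : Subgroup G) = ⊥ := by
  by_contra hne
  obtain ⟨⟨y, hyP, hyQ⟩, hy1⟩ := Subgroup.ne_bot_iff_exists_ne_one.mp hne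
  have hy1 : y ≠ 1 := fun h => hy1 (Subtype.ext h)
  -- a nontrivial central element of P
  have : Nontrivial (P : Subgroup G) := ⟨⟨⟨y, hyP⟩, 1, fun h => hy1 (congr_arg Subtype.val h)⟩⟩
  have := P.isPGroup'.center_nontrivial
  obtain ⟨⟨z, hz⟩, hz1⟩ := exists_ne (1 : Subgroup.center (P : Subgroup G))
  have hz1 : (z : G) ≠ 1 := fun h => hz1 (Subtype.ext (Subtype.ext h))
  have hPC : (P : Subgroup G) ≤ Subgroup.centralizer ({(z : G)} : Set G) := by
    intro u hu
    rw [Subgroup.mem_centralizer_singleton_iff]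
    have := (Subgroup.mem_center_iff.mp hz) ⟨u, hu⟩
    exact congr_arg Subtype.val this
  -- general consequence of TI
  have hnorm : ∀ x g u : G, u ≠ 1 → u ∈ Subgroup.centralizer ({x} : Set G) →
      g * u * g⁻¹ ∈ Subgroup.centralizer ({x} : Set G) →
      g ∈ Subgroup.normalizer (Subgroup.centralizer ({x} : Set G) : Set G) := by
    intro x g u hu1 hu hgu
    by_contra hg
    exact hu1 (hTI x g hg u hu hgu)
  obtain ⟨g, hg⟩ := MulAction.exists_smul_eq G P Q
  have hQmem : ∀ u : G, u ∈ Q ↔ g⁻¹ * u * g ∈ P := by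
    intro u
    rw [← hg, ← SetLike.mem_coe, Sylow.coe_smul, Set.mem_smul_set_iff_inv_smul_mem]
    simp
  have hgN : g ∈ Subgroup.normalizer (Subgroup.centralizer ({(z : G)} : Set G) : Set G) := by
    apply hnorm z g (g⁻¹ * y * g)
    · intro h
      apply hy1
      have : y = g * (g⁻¹ * y * g) * g⁻¹ := by group
      rw [this, h]; group
    · exact hPC ((hQmem y).mp hyQ)
    · have : g * (g⁻¹ * y * g) * g⁻¹ = y := by group
      rw [this]
      exact hPC hyP
  have hQC : (Q : Subgroup G) ≤ Subgroup.centralizer ({(z : G)} : Set G) := by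
    intro u hu
    have h1 := hPC ((hQmem u).mp hu)
    have h2 := (Subgroup.mem_normalizer_iff.mp hgN _).mp h1
    have : g * (g⁻¹ * u * g) * g⁻¹ = u := by group
    rwa [this] at h2
  set C := Subgroup.centralizer ({(z : G)} : Set G) with hC
  -- conjugates under C commute
  have hcomm : ∀ x ∈ C, ∀ c ∈ C, Commute (c * x * c⁻¹) x := by
    intro x hx c hc
    have hzx : (z : G) ∈ Subgroup.centralizer ({x} : Set G) := by
      rw [Subgroup.mem_centralizer_singleton_iff]
      rw [hC, Subgroup.mem_centralizer_singleton_iff] at hx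
      exact hx.symm
    have hcz : c * z * c⁻¹ = z := by
      rw [hC, Subgroup.mem_centralizer_singleton_iff] at hc
      rw [hc]; group
    have hcN := hnorm x c z hz1 hzx (by rw [hcz]; exact hzx)
    have hxx : x ∈ Subgroup.centralizer ({x} : Set G) := by
      rw [Subgroup.mem_centralizer_singleton_iff]
    have := (Subgroup.mem_normalizer_iff.mp hcN _).mp hxx
    rw [Subgroup.mem_centralizer_singleton_iff] at this
    exact this
  -- P ≤ Q
  apply hPQ
  have hle : (P : Subgroup G) ≤ Q := by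
    intro x hx
    obtain ⟨k, hk⟩ := P.isPGroup' ⟨x, hx⟩
    have hk' : x ^ (p ^ k) = 1 := by simpa using congr_arg Subtype.val hk
    have hxC : x ∈ C := hPC hx
    have hpg : IsPGroup p (Subgroup.normalClosure ({(⟨x, hxC⟩ : C)} : Set C)) := by
      apply isPGroup_normalClosure p _ k
      · exact Subtype.ext (by simpa using hk')
      · intro c
        have := hcomm x hxC c c.2
        exact Subtype.ext this
    have h1 := hpg.le_sylow_of_normal (Q.subtype hQC)
    have h2 : (⟨x, hxC⟩ : C) ∈ Q.subtype hQC := h1 (Subgroup.subset_normalClosure rfl)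
    rw [← SetLike.mem_coe, ← Sylow.coe_coe] at h2
    simpa [Subgroup.mem_subgroupOf] using h2
  exact Sylow.ext (P.is_maximal' Q.isPGroup' hle).symm

end Cfsg.Agent.S4066
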