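import Cfsg.Statements.S4067
import Cfsg.Agent.Lib.Helper49.AO.Defs
import Cfsg.Agent.Lib.Helper49.AO.S1
import Cfsg.Agent.Lib.Helper49.AO.S2
import Cfsg.Agent.Lib.Helper49.AO.S4
import Cfsg.Agent.Lib.Helper49.AO.Yodd
import Cfsg.Agent.Lib.Helper49.AO.Ytwo
import Cfsg.Agent.Lib.Helper49.AO.Todd
import Cfsg.Agent.Lib.Helper49.AO.Ttwo
import Cfsg.Agent.Lib.Helper49.AO.Fin

set_option autoImplicit false
open Cfsg

namespace Cfsg.Agent.S4067

/-- Let G be a finite non-abelian group and p the least prime dividing its order. Then the automorphism group of G has at most #G/p orbits on G. -/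
theorem result {G : Type*} [Group G] [Finite G] (hna : ¬ IsMulCommutative G) :
    Nat.card (MulAction.orbitRel.Quotient (MulAut G) G) ≤ Nat.card G / (Nat.card G).minFac := by
  have hna' : ∃ x y : G, x * y ≠ y * x := by
    by_contra hc
    push Not at hc
    exact hna ⟨⟨hc⟩⟩
  have h1 : Nat.card G ≠ 1 := by
    intro h
    obtain ⟨x, y, hxy⟩ := hna'
    have := (Nat.card_eq_one_iff_unique.1 h).1
    exact hxy (Subsingleton.elim _ _)
  have hp : (Nat.card G).minFac.Prime := Nat.minFac_prime h1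
  rw [Nat.le_div_iff_mul_le hp.pos]
  rcases lt_or_ge (Nat.card G).minFac (Nat.card ↥(commutator G)) with hlt | hge
  · exact le_trans (Nat.mul_le_mul_right _ Cfsg.Agent.Lib.Helper49.AO.orbits_le_classes) (Cfsg.Agent.Lib.Helper49.AO.class_bound hlt)
  · have hcard : Nat.card ↥(commutator G) = (Nat.card G).minFac := by
      apply le_antisymm hge
      apply Nat.minFac_le_of_dvd _ (Subgroup.card_subgroup_dvd_card _)
      have hne : Nat.card ↥(commutator G) ≠ 1 := by
        intro h
        rw [Subgroup.card_eq_one] at h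
        obtain ⟨x, y, hxy⟩ := hna'
        apply hxy
        have := Subgroup.commutator_mem_commutator (H₁ := ⊤) (H₂ := ⊤) (Subgroup.mem_top x) (Subgroup.mem_top y)
        change _ ∈ commutator G at this
        rw [h, Subgroup.mem_bot, commutatorElement_eq_one_iff_mul_comm] at this
        exact this
      have hpos : 0 < Nat.card ↥(commutator G) := Nat.card_pos
      omega
    obtain ⟨c, hc⟩ := Cfsg.Agent.Lib.Helper49.AO.exists_cl2 hcard h1
    by_cases hA : ∃ w ∈ Subgroup.center G, w ^ (Nat.card G).minFac = 1 ∧ w ∉ Subgroup.zpowers c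
    · obtain ⟨w, hw, hwp, hwc⟩ := hA
      exact Cfsg.Agent.Lib.Helper49.AO.final_A hc hna' hw hwp hwc
    · push Not at hA
      by_cases h2 : (Nat.card G).minFac = 2
      · rw [h2] at hc hA ⊢
        obtain ⟨y, hy, hy2⟩ := Cfsg.Agent.Lib.Helper49.AO.exists_y_two hc hna' hA
        obtain ⟨τ, hτ⟩ := Cfsg.Agent.Lib.Helper49.AO.exists_tau_two hc hy2
        exact Cfsg.Agent.Lib.Helper49.AO.final_C hc hy τ hτ
      · obtain ⟨y, hy, hyp⟩ := Cfsg.Agent.Lib.Helper49.AO.exists_y_odd hc h2 hna' hA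
        obtain ⟨τ, hτ⟩ := Cfsg.Agent.Lib.Helper49.AO.exists_tau_odd hc h2 hyp
        exact Cfsg.Agent.Lib.Helper49.AO.final_C hc hy τ hτ

end Cfsg.Agent.S4067
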