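import Mathlib
import Cfsg.Statements.S4071
import Cfsg.Agent.Lib.Helper68.Frobenius

set_option autoImplicit false
open Cfsg

namespace Cfsg.Agent.S4071

open Cfsg.Agent.Lib.Helper68

section backward

variable {G : Type*} [Group G] [Finite G]

lemma backward (x : G) (A : Subgroup G) (p : ℕ) (hp : p.Prime) (hAn : A.Normal)
    (hAc : IsMulCommutative A) (hk : ∃ k : ℕ, orderOf x = p ^ k)
    (hcompl : (Subgroup.zpowers x).IsComplement' A) (hxp : x ^ p ∈ Subgroup.center G)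
    (hfpf : ∀ a : G, a ∈ A → a ≠ 1 → x * a * x⁻¹ ≠ a)
    (H : Subgroup G) (hH : ¬ IsMulCommutative H) : Subgroup.normalizer (H : Set G) = H := by
  obtain ⟨k, hk⟩ := hk
  have hAcomm : ∀ a ∈ A, ∀ b ∈ A, a * b = b * a := fun a ha b hb =>
    congr_arg Subtype.val ((isMulCommutative_iff.mp hAc) ⟨a, ha⟩ ⟨b, hb⟩)
  have hsup : A ⊔ Subgroup.zpowers x = ⊤ := by rw [sup_comm]; exact hcompl.sup_eq_top
  -- Step 1
  have step1 : ∃ y ∈ H, x⁻¹ * y ∈ A := by
    by_contra hcon
    push Not at hcon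
    apply hH
    have hform : ∀ h ∈ H, ∃ c ∈ Subgroup.center G, ∃ a ∈ A, h = c * a := by
      intro h hh
      obtain ⟨z, hz, a, ha, rfl⟩ := exists_mul_of_sup_eq_top' A (Subgroup.zpowers x) hsup h
      rw [← mem_powers_iff_mem_zpowers] at hz
      obtain ⟨i, rfl⟩ := hz
      simp only at hh ⊢
      by_cases hpi : p ∣ i
      · obtain ⟨j, rfl⟩ := hpi
        exact ⟨_, by rw [pow_mul]; exact Subgroup.pow_mem _ hxp j, a, ha, rfl⟩
      · exfalso
        have hcop : i.gcd (orderOf x) = 1 := by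
          rw [hk]
          exact Nat.Coprime.pow_right k ((Nat.Prime.coprime_iff_not_dvd hp).mpr hpi).symm
        obtain ⟨j, hj⟩ := Subgroup.mem_zpowers_iff.mp (mem_zpowers_pow_iff.mpr hcop)
        apply hcon ((x ^ i * a) ^ j) (H.zpow_mem hh j)
        rw [← QuotientGroup.eq_one_iff]
        rw [QuotientGroup.mk_mul, QuotientGroup.mk_inv, QuotientGroup.mk_zpow, QuotientGroup.mk_mul,
          (QuotientGroup.eq_one_iff a).mpr ha, mul_one, ← QuotientGroup.mk_zpow, hj, inv_mul_cancel]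
    rw [isMulCommutative_iff]
    rintro ⟨h₁, hh₁⟩ ⟨h₂, hh₂⟩
    apply Subtype.ext
    obtain ⟨c₁, hc₁, a₁, ha₁, rfl⟩ := hform h₁ hh₁
    obtain ⟨c₂, hc₂, a₂, ha₂, rfl⟩ := hform h₂ hh₂
    rw [Subgroup.mem_center_iff] at hc₁ hc₂
    change c₁ * a₁ * (c₂ * a₂) = c₂ * a₂ * (c₁ * a₁)
    calc c₁ * a₁ * (c₂ * a₂) = c₁ * (a₁ * c₂) * a₂ := by group
      _ = c₁ * (c₂ * a₁) * a₂ := by rw [hc₂ a₁]
      _ = (c₁ * c₂) * (a₁ * a₂) := by group
      _ = (c₂ * c₁) * (a₂ * a₁) := by rw [hc₂ c₁, hAcomm a₁ ha₁ a₂ ha₂]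
      _ = c₂ * (c₁ * a₂) * a₁ := by group
      _ = c₂ * (a₂ * c₁) * a₁ := by rw [hc₁ a₂]
      _ = _ := by group
  obtain ⟨y, hyH, hyA⟩ := step1
  set a₁ := x⁻¹ * y with ha₁
  have hy : y = x * a₁ := by rw [ha₁]; group
  -- Step 2 : y acts fixed point freely on A
  have hyfpf : ∀ n ∈ A, n * y * n⁻¹ = y → n = 1 := by
    intro n hn hny
    by_contra hn1
    apply hfpf n hn hn1
    have h1 : y * n * y⁻¹ = n := by
      have : n * y = y * n := by rw [mul_inv_eq_iff_eq_mul] at hny; exact hny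
      rw [← this]; group
    have h2 : a₁ * n * a₁⁻¹ = n := by rw [hAcomm a₁ hyA n hn]; group
    calc x * n * x⁻¹ = x * (a₁ * n * a₁⁻¹) * x⁻¹ := by rw [h2]
      _ = y * n * y⁻¹ := by rw [hy]; group
      _ = n := h1
  apply le_antisymm _ Subgroup.le_normalizer
  intro g hg
  -- decomposition g = y ^ i * a'
  obtain ⟨z, hz, a, ha, rfl⟩ := exists_mul_of_sup_eq_top' A (Subgroup.zpowers x) hsup g
  obtain ⟨i, rfl⟩ := Subgroup.mem_zpowers_iff.mp hz
  set a' := (y ^ i)⁻¹ * (x ^ i * a) with ha'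
  have ha'A : a' ∈ A := by
    rw [← QuotientGroup.eq_one_iff]
    have hxy : ((y : G) : G ⧸ A) = ((x : G) : G ⧸ A) := by
      rw [hy, QuotientGroup.mk_mul, (QuotientGroup.eq_one_iff a₁).mpr hyA, mul_one]
    rw [ha', QuotientGroup.mk_mul, QuotientGroup.mk_inv, QuotientGroup.mk_zpow, QuotientGroup.mk_mul,
      (QuotientGroup.eq_one_iff a).mpr ha, mul_one, QuotientGroup.mk_zpow, hxy, inv_mul_cancel]
  have hyiH : y ^ i ∈ H := H.zpow_mem hyH i
  have ha'N : a' ∈ Subgroup.normalizer (H : Set G) :=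
    Subgroup.mul_mem _ (Subgroup.inv_mem _ (Subgroup.le_normalizer hyiH)) hg
  have hgeq : x ^ i * a = y ^ i * a' := by rw [ha']; group
  rw [hgeq]
  apply H.mul_mem hyiH
  -- a' ∈ H
  have hconj : a' * y * a'⁻¹ ∈ H := (Subgroup.mem_normalizer_iff.mp ha'N y).mp hyH
  have hmH : y⁻¹ * (a' * y * a'⁻¹) ∈ H := H.mul_mem (H.inv_mem hyH) hconj
  have hmA : y⁻¹ * (a' * y * a'⁻¹) ∈ A := by
    have h1 : y⁻¹ * a' * y ∈ A := by
      have := hAn.conj_mem a' ha'A y⁻¹
      simpa using this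
    have : y⁻¹ * (a' * y * a'⁻¹) = (y⁻¹ * a' * y) * a'⁻¹ := by group
    rw [this]
    exact A.mul_mem h1 (A.inv_mem ha'A)
  have hnormal : (A.subgroupOf H).Normal := inferInstance
  obtain ⟨c, hc, hceq⟩ := exists_conj_of_fpf (A.subgroupOf H) (⟨y, hyH⟩ : H) (by
    rintro ⟨n, hnH⟩ hn hny
    apply Subtype.ext
    exact hyfpf n (Subgroup.mem_subgroupOf.mp hn) (congr_arg Subtype.val hny))
    ⟨_, hmH⟩ (Subgroup.mem_subgroupOf.mpr hmA)
  have hceq' : y * (y⁻¹ * (a' * y * a'⁻¹)) = c * y * (c : G)⁻¹ := congr_arg Subtype.val hceq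
  have h3 : ((c : G)⁻¹ * a') * y * ((c : G)⁻¹ * a')⁻¹ = y := by
    have h4 : a' * y * a'⁻¹ = c * y * (c : G)⁻¹ := by rw [← hceq']; group
    calc ((c : G)⁻¹ * a') * y * ((c : G)⁻¹ * a')⁻¹ = (c : G)⁻¹ * (a' * y * a'⁻¹) * c := by group
      _ = (c : G)⁻¹ * (c * y * (c : G)⁻¹) * c := by rw [h4]
      _ = y := by group
  have h5 := hyfpf _ (A.mul_mem (A.inv_mem (Subgroup.mem_subgroupOf.mp hc)) ha'A) h3
  rw [inv_mul_eq_one] at h5
  rw [← h5]
  exact c.2

end backward

section forward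

variable {G : Type*} [Group G] [Finite G]

lemma exists_normal_prime_index [Group.IsSolvable G] [Nontrivial G] :
    ∃ (M : Subgroup G) (p : ℕ), M.Normal ∧ p.Prime ∧ M.index = p := by
  have hlt : commutator G < ⊤ := Group.IsSolvable.commutator_lt_top_of_nontrivial G
  obtain ⟨M, hM, hle⟩ := (eq_top_or_exists_le_coatom (commutator G)).resolve_left hlt.ne
  have hMn : M.Normal := Subgroup.Normal.of_commutator_le _ hle
  have hidx : M.index ≠ 1 := fun h => hM.1 (Subgroup.index_eq_one.mp h)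
  set p := M.index.minFac with hp
  have hpp : p.Prime := Nat.minFac_prime hidx
  have : Fact p.Prime := ⟨hpp⟩
  obtain ⟨gb, hgb⟩ := exists_prime_orderOf_dvd_card' (G := G ⧸ M) p (Nat.minFac_dvd _)
  refine ⟨M, p, hMn, hpp, ?_⟩
  set L := (Subgroup.zpowers gb).comap (QuotientGroup.mk' M) with hL
  have hML : M ≤ L := by
    intro m hm
    rw [hL, Subgroup.mem_comap]
    have : QuotientGroup.mk' M m = 1 := (QuotientGroup.eq_one_iff m).mpr hm
    rw [this]; exact Subgroup.one_mem _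
  obtain ⟨g, rfl⟩ := QuotientGroup.mk'_surjective M gb
  have hgL : g ∈ L := by
    rw [hL, Subgroup.mem_comap]; exact Subgroup.mem_zpowers _
  have hgM : g ∉ M := by
    intro hgM
    have : QuotientGroup.mk' M g = 1 := (QuotientGroup.eq_one_iff g).mpr hgM
    rw [this, orderOf_one] at hgb
    exact hpp.one_lt.ne hgb
  have hLtop : L = ⊤ := hM.2 L (lt_of_le_of_ne hML (fun h => hgM (h ▸ hgL)))
  have h1 : (Subgroup.zpowers (QuotientGroup.mk' M g)).index = 1 := by
    rw [← Subgroup.index_comap_of_surjective _ (QuotientGroup.mk'_surjective M), ← hL, hLtop,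
      Subgroup.index_top]
  rw [Subgroup.index_eq_one] at h1
  rw [Subgroup.index, ← Nat.card_congr (Subgroup.topEquiv (G := G ⧸ M)).toEquiv, ← h1, Nat.card_zpowers, hgb]

/-- decomposition of an element into commuting `p`-part and `p'`-part -/
lemma exists_decomp (p : ℕ) (hp : p.Prime) (g : G) :
    ∃ x y : G, g = x * y ∧ Commute x y ∧ (∃ k : ℕ, x ^ (p ^ k) = 1) ∧ orderOf y ∣ orderOf g ∧
      ¬ p ∣ orderOf y := by
  set n := orderOf g with hn
  have hn0 : n ≠ 0 := (orderOf_pos g).ne'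
  set a := p ^ n.factorization p with ha
  set b := n / p ^ n.factorization p with hb
  have hab : a * b = n := Nat.ordProj_mul_ordCompl_eq_self n p
  have hcop : Nat.Coprime a b := (Nat.coprime_ordCompl hp hn0).pow_left _
  have key : (1 : ℤ) = a * Nat.gcdA a b + b * Nat.gcdB a b := by
    have := Nat.gcd_eq_gcd_ab a b
    rw [hcop.gcd_eq_one] at this
    exact_mod_cast this
  refine ⟨(g ^ b) ^ (Nat.gcdB a b), (g ^ a) ^ (Nat.gcdA a b), ?_, ?_, ⟨n.factorization p, ?_⟩, ?_, ?_⟩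
  · have h1 : g = g ^ (1 : ℤ) := (zpow_one g).symm
    rw [key, add_comm, zpow_add, zpow_mul, zpow_mul, zpow_natCast, zpow_natCast] at h1
    exact h1
  · exact ((Commute.refl g).pow_pow b a).zpow_zpow _ _
  · rw [← ha, ← zpow_natCast, ← zpow_natCast, ← zpow_mul, ← zpow_mul]
    have h3 : (b : ℤ) * (Nat.gcdB a b * a) = (n : ℤ) * Nat.gcdB a b := by
      rw [← hab]; push_cast; ring
    rw [h3, zpow_mul, zpow_natCast, hn, pow_orderOf_eq_one, one_zpow]
  · exact (orderOf_dvd_of_mem_zpowers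
      ((Subgroup.zpowers g).zpow_mem ((Subgroup.zpowers g).pow_mem (Subgroup.mem_zpowers g) _) _))
  · intro hdvd
    have h1 : ((g ^ a) ^ (Nat.gcdA a b)) ^ b = 1 := by
      rw [← zpow_natCast, ← zpow_natCast, ← zpow_mul, ← zpow_mul]
      have h3 : (a : ℤ) * (Nat.gcdA a b * b) = (n : ℤ) * Nat.gcdA a b := by
        rw [← hab]; push_cast; ring
      rw [h3, zpow_mul, zpow_natCast, hn, pow_orderOf_eq_one, one_zpow]
    have h2 : p ∣ b := hdvd.trans (orderOf_dvd_of_pow_eq_one h1)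
    exact (Nat.not_dvd_ordCompl hp hn0) h2

/-- an element of a subgroup of order prime to `p` killed by a power of `p` is trivial -/
lemma eq_one_of_pow_of_not_dvd {p : ℕ} (hp : p.Prime) (A : Subgroup G) (hpA : ¬ p ∣ Nat.card A)
    (a : G) (ha : a ∈ A) (k : ℕ) (hk : a ^ (p ^ k) = 1) : a = 1 := by
  have h1 : orderOf a ∣ p ^ k := orderOf_dvd_of_pow_eq_one hk
  have h2 : orderOf a ∣ Nat.card A := by
    have : orderOf (⟨a, ha⟩ : A) ∣ Nat.card A := orderOf_dvd_natCard _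
    rwa [Subgroup.orderOf_mk] at this
  have hcop : Nat.Coprime (p ^ k) (Nat.card A) :=
    Nat.Coprime.pow_left k ((Nat.Prime.coprime_iff_not_dvd hp).mpr hpA)
  exact orderOf_eq_one_iff.mp (Nat.eq_one_of_dvd_coprimes hcop h1 h2)

lemma forward [Group.IsSolvable G] (hnn : ¬ Group.IsNilpotent G)
    (hS : ∀ H : Subgroup G, ¬ IsMulCommutative H → Subgroup.normalizer (H : Set G) = H) :
    ∃ (x : G) (A : Subgroup G) (p : ℕ), p.Prime ∧ A.Normal ∧ IsMulCommutative A ∧ (∃ k : ℕ, orderOf x = p ^ k) ∧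
      ¬ p ∣ Nat.card A ∧ (Subgroup.zpowers x).IsComplement' A ∧ x ^ p ∈ Subgroup.center G ∧
      ∀ a : G, a ∈ A → a ≠ 1 → x * a * x⁻¹ ≠ a := by
  have : Nontrivial G := by
    by_contra h
    rw [not_nontrivial_iff_subsingleton] at h
    exact hnn inferInstance
  have N0 : ∀ H : Subgroup G, Subgroup.normalizer (H : Set G) ≠ H → IsMulCommutative H := by
    intro H h
    by_contra hc
    exact h (hS H hc)
  have N1 : ∀ H : Subgroup G, H.Normal → H ≠ ⊤ → IsMulCommutative H := by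
    intro H hn hne
    apply N0
    rw [Subgroup.normalizer_eq_top_iff.mpr hn]
    exact hne.symm
  obtain ⟨M, p, hMn, hp, hMidx⟩ := exists_normal_prime_index (G := G)
  have : Fact p.Prime := ⟨hp⟩
  have hMtop : M ≠ ⊤ := by
    intro h
    rw [h, Subgroup.index_top] at hMidx
    exact hp.one_lt.ne hMidx
  have hMc := N1 M hMn hMtop
  have hMcomm : ∀ a ∈ M, ∀ b ∈ M, a * b = b * a := fun a ha b hb =>
    congr_arg Subtype.val ((isMulCommutative_iff.mp hMc) ⟨a, ha⟩ ⟨b, hb⟩)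
  set e := (Nat.card M).factorization p with he
  set n' := Nat.card M / p ^ (Nat.card M).factorization p with hn'
  have hcardM : p ^ e * n' = Nat.card M := Nat.ordProj_mul_ordCompl_eq_self _ _
  have hpn' : ¬ p ∣ n' := Nat.not_dvd_ordCompl hp Nat.card_pos.ne'
  let A : Subgroup G :=
    { carrier := {m | m ∈ M ∧ m ^ n' = 1}
      mul_mem' := by
        rintro a b ⟨ha, ha'⟩ ⟨hb, hb'⟩
        refine ⟨M.mul_mem ha hb, ?_⟩
        have hc : Commute a b := hMcomm a ha b hb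
        rw [hc.mul_pow, ha', hb', one_mul]
      one_mem' := ⟨M.one_mem, one_pow _⟩
      inv_mem' := by
        rintro a ⟨ha, ha'⟩
        exact ⟨M.inv_mem ha, by rw [inv_pow, ha', inv_one]⟩ }
  have hmemA : ∀ m : G, m ∈ A ↔ m ∈ M ∧ m ^ n' = 1 := fun m => Iff.rfl
  have hAM : A ≤ M := fun a ha => ha.1
  have hAn : A.Normal := by
    constructor
    intro a ha g
    rw [hmemA] at ha ⊢
    exact ⟨hMn.conj_mem a ha.1 g, by rw [conj_pow, ha.2]; group⟩
  have hAcomm : ∀ a ∈ A, ∀ b ∈ A, a * b = b * a := fun a ha b hb => hMcomm a (hAM ha) b (hAM hb)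
  have hAc : IsMulCommutative A := by
    rw [isMulCommutative_iff]
    rintro ⟨a, ha⟩ ⟨b, hb⟩
    exact Subtype.ext (hAcomm a ha b hb)
  have hpA : ¬ p ∣ Nat.card A := by
    intro hdvd
    obtain ⟨a, ha⟩ := exists_prime_orderOf_dvd_card' (G := A) p hdvd
    apply hpn'
    rw [← ha, ← Subgroup.orderOf_coe]
    exact orderOf_dvd_of_pow_eq_one a.2.2
  have hpow : ∀ g : G, g ^ (p ^ (e + 1)) ∈ A := by
    intro g
    have h1 : g ^ p ∈ M := hMidx ▸ Subgroup.pow_index_mem M g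
    rw [pow_succ', pow_mul, hmemA]
    refine ⟨M.pow_mem h1 _, ?_⟩
    rw [← pow_mul, hcardM]
    have := pow_card_eq_one' (x := (⟨g ^ p, h1⟩ : M))
    exact congr_arg Subtype.val this
  have hQp : IsPGroup p (G ⧸ A) := by
    intro gb
    obtain ⟨g, rfl⟩ := QuotientGroup.mk_surjective gb
    exact ⟨e + 1, by rw [← QuotientGroup.mk_pow]; exact (QuotientGroup.eq_one_iff _).mpr (hpow g)⟩
  have N2 : ∀ L : Subgroup G, A ≤ L → L ≠ ⊤ → IsMulCommutative L := by
    intro L hAL hL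
    apply N0
    intro hNL
    apply hL
    have : Group.IsNilpotent (G ⧸ A) := hQp.isNilpotent
    have hnc : NormalizerCondition (G ⧸ A) := Group.normalizerCondition_of_isNilpotent
    rw [normalizerCondition_iff_only_full_group_self_normalizing] at hnc
    have hkh : (QuotientGroup.mk' A).ker ≤ L := by simpa using hAL
    have hsur : Function.Surjective (QuotientGroup.mk' A) := QuotientGroup.mk'_surjective A
    have hL' : Subgroup.normalizer ((L.map (QuotientGroup.mk' A) : Subgroup (G ⧸ A)) : Set (G ⧸ A))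
        = L.map (QuotientGroup.mk' A) := by
      apply Subgroup.comap_injective hsur
      rw [Subgroup.comap_normalizer_eq_of_surjective _ hsur, Subgroup.comap_map_eq_self hkh]
      exact hNL
    apply Subgroup.map_injective_of_ker_le (QuotientGroup.mk' A) hkh le_top
    exact (hnc _ hL').trans (Subgroup.map_top_of_surjective _ hsur).symm
  have hcentral : (∀ a ∈ A, ∀ g : G, g * a = a * g) → False := by
    intro h
    apply hnn
    apply Group.of_quotient_center_nilpotent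
    have hAZ : A ≤ Subgroup.center G := fun a ha => Subgroup.mem_center_iff.mpr (h a ha)
    have : IsPGroup p (G ⧸ Subgroup.center G) := by
      intro gb
      obtain ⟨g, rfl⟩ := QuotientGroup.mk_surjective gb
      exact ⟨e + 1, by rw [← QuotientGroup.mk_pow]; exact (QuotientGroup.eq_one_iff _).mpr (hAZ (hpow g))⟩
    exact this.isNilpotent
  have L5 : ∃ g₀ : G, Subgroup.zpowers g₀ ⊔ A = ⊤ := by
    by_contra hcon
    push Not at hcon
    apply hcentral
    intro a ha g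
    have hc := N2 (Subgroup.zpowers g ⊔ A) le_sup_right (hcon g)
    exact congr_arg Subtype.val ((isMulCommutative_iff.mp hc)
      ⟨g, le_sup_left (a := Subgroup.zpowers g) (Subgroup.mem_zpowers g)⟩ ⟨a, le_sup_right (a := Subgroup.zpowers g) ha⟩)
  obtain ⟨g₀, hg₀⟩ := L5
  obtain ⟨x, y, hxy, -, ⟨k₀, hxk⟩, -, hyp⟩ := exists_decomp p hp g₀
  have hyA : y ∈ A := by
    have h1 := hpow y
    have hcop : (p ^ (e + 1)).gcd (orderOf y) = 1 :=
      Nat.Coprime.pow_left _ ((Nat.Prime.coprime_iff_not_dvd hp).mpr hyp)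
    exact (Subgroup.zpowers_le.mpr h1) (mem_zpowers_pow_iff.mpr hcop)
  have hsup : Subgroup.zpowers x ⊔ A = ⊤ := by
    rw [eq_top_iff, ← hg₀]
    apply sup_le _ le_sup_right
    rw [Subgroup.zpowers_le, hxy]
    exact Subgroup.mul_mem _ (le_sup_left (a := Subgroup.zpowers x) (Subgroup.mem_zpowers x))
      (le_sup_right (a := Subgroup.zpowers x) hyA)
  have hsup' : A ⊔ Subgroup.zpowers x = ⊤ := by rw [sup_comm]; exact hsup
  obtain ⟨k, -, hk⟩ := (Nat.dvd_prime_pow hp).1 (orderOf_dvd_of_pow_eq_one hxk)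
  have hdisj' : ∀ z ∈ Subgroup.zpowers x, z ∈ A → z = 1 := by
    intro z hz hzA
    apply eq_one_of_pow_of_not_dvd hp A hpA z hzA k
    rw [← hk]
    obtain ⟨i, rfl⟩ := Subgroup.mem_zpowers_iff.mp hz
    rw [← zpow_natCast, ← zpow_mul, mul_comm, zpow_mul, zpow_natCast, pow_orderOf_eq_one, one_zpow]
  have hdisj : Disjoint (Subgroup.zpowers x) A := by
    rw [Subgroup.disjoint_def]
    exact fun hz hzA => hdisj' _ hz hzA
  have hcompl : (Subgroup.zpowers x).IsComplement' A := by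
    apply Subgroup.isComplement'_of_disjoint_and_mul_eq_univ hdisj
    rw [← Subgroup.mul_normal, hsup]
    rfl
  -- commuting with x and A implies central
  have hcent_of : ∀ c : G, c * x = x * c → (∀ a ∈ A, c * a = a * c) → c ∈ Subgroup.center G := by
    intro c hcx hcA
    rw [Subgroup.mem_center_iff]
    intro g
    obtain ⟨z, hz, a, ha, rfl⟩ := exists_mul_of_sup_eq_top' A (Subgroup.zpowers x) hsup' g
    obtain ⟨i, rfl⟩ := Subgroup.mem_zpowers_iff.mp hz
    have h1 : Commute c (x ^ i) := (show Commute c x from hcx).zpow_right i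
    have h2 : Commute c a := hcA a ha
    exact (h1.mul_right h2).symm
  have hxne : ¬ (∀ a ∈ A, x * a = a * x) := by
    intro h
    apply hcentral
    intro a ha g
    have : a ∈ Subgroup.center G := hcent_of a (h a ha).symm (fun b hb => hAcomm a ha b hb)
    exact Subgroup.mem_center_iff.mp this g
  have L7 : x ^ p ∈ Subgroup.center G := by
    have hne : Subgroup.zpowers (x ^ p) ⊔ A ≠ ⊤ := by
      intro htop
      have hx : x ∈ ((Subgroup.zpowers (x ^ p) ⊔ A : Subgroup G) : Set G) := by rw [htop]; trivial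
      rw [Subgroup.mul_normal] at hx
      obtain ⟨z, hz, a, ha, hza⟩ := Set.mem_mul.mp hx
      obtain ⟨j, rfl⟩ := Subgroup.mem_zpowers_iff.mp hz
      have h1 : ((x ^ p) ^ j)⁻¹ * x = 1 := by
        apply hdisj'
        · exact Subgroup.mul_mem _ (Subgroup.inv_mem _ (Subgroup.zpow_mem _ (Subgroup.pow_mem _ (Subgroup.mem_zpowers x) _) _)) (Subgroup.mem_zpowers x)
        · have h0 : ((x ^ p) ^ j)⁻¹ * x = a := by
            rw [inv_mul_eq_iff_eq_mul]; exact hza.symm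
          rw [h0]; exact ha
      have h2 : x ∈ Subgroup.zpowers (x ^ p) :=
        Subgroup.mem_zpowers_iff.mpr ⟨j, inv_mul_eq_one.mp h1⟩
      rw [mem_zpowers_pow_iff, hk] at h2
      have hk0 : k = 0 := by
        by_contra hk0
        have : p ∣ p.gcd (p ^ k) := Nat.dvd_gcd dvd_rfl (dvd_pow_self p hk0)
        rw [h2] at this
        exact hp.one_lt.ne' (Nat.dvd_one.mp this)
      rw [hk0, pow_zero, orderOf_eq_one_iff] at hk
      apply hxne
      intro a _
      rw [hk]; simp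
    have hc := N2 _ le_sup_right hne
    have hxpmem : x ^ p ∈ Subgroup.zpowers (x ^ p) ⊔ A :=
      le_sup_left (a := Subgroup.zpowers (x ^ p)) (Subgroup.mem_zpowers _)
    apply hcent_of
    · exact ((Commute.refl x).pow_left p)
    · intro a ha
      exact congr_arg Subtype.val ((isMulCommutative_iff.mp hc) ⟨_, hxpmem⟩
        ⟨a, le_sup_right (a := Subgroup.zpowers (x ^ p)) ha⟩)
  refine ⟨x, A, p, hp, hAn, hAc, ⟨k, hk⟩, hpA, hcompl, L7, ?_⟩
  -- fixed point freeness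
  intro a₀ ha₀ ha₀1 hfix
  have hφA : ∀ a ∈ A, a * x * a⁻¹ * x⁻¹ ∈ A := by
    intro a ha
    have h1 : x * a⁻¹ * x⁻¹ ∈ A := hAn.conj_mem _ (A.inv_mem ha) x
    have : a * x * a⁻¹ * x⁻¹ = a * (x * a⁻¹ * x⁻¹) := by group
    rw [this]; exact A.mul_mem ha h1
  have hxpk : x ^ (p ^ k) = 1 := by rw [← hk]; exact pow_orderOf_eq_one x
  have hφ3 : ∀ a ∈ A, (a * x * a⁻¹ * x⁻¹) * x = x * (a * x * a⁻¹ * x⁻¹) →
      a * x * a⁻¹ * x⁻¹ = 1 := by
    intro a ha hc
    apply eq_one_of_pow_of_not_dvd hp A hpA _ (hφA a ha) k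
    have h1 : (a * x * a⁻¹) ^ (p ^ k) = 1 := by rw [conj_pow, hxpk]; group
    have h2 : a * x * a⁻¹ = (a * x * a⁻¹ * x⁻¹) * x := by group
    rw [h2, (show Commute (a * x * a⁻¹ * x⁻¹) x from hc).mul_pow, hxpk, mul_one] at h1
    exact h1
  let D : Subgroup G :=
    { carrier := {d | ∃ a ∈ A, d = a * x * a⁻¹ * x⁻¹}
      mul_mem' := by
        rintro _ _ ⟨a, ha, rfl⟩ ⟨b, hb, rfl⟩
        refine ⟨a * b, A.mul_mem ha hb, ?_⟩
        have hu : x * a⁻¹ * x⁻¹ ∈ A := hAn.conj_mem _ (A.inv_mem ha) x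
        have hv : x * b⁻¹ * x⁻¹ ∈ A := hAn.conj_mem _ (A.inv_mem hb) x
        calc a * x * a⁻¹ * x⁻¹ * (b * x * b⁻¹ * x⁻¹)
            = a * ((x * a⁻¹ * x⁻¹) * b) * (x * b⁻¹ * x⁻¹) := by group
          _ = a * (b * (x * a⁻¹ * x⁻¹)) * (x * b⁻¹ * x⁻¹) := by rw [hAcomm _ hu b hb]
          _ = a * b * ((x * a⁻¹ * x⁻¹) * (x * b⁻¹ * x⁻¹)) := by group
          _ = a * b * ((x * b⁻¹ * x⁻¹) * (x * a⁻¹ * x⁻¹)) := by rw [hAcomm _ hu _ hv]
          _ = a * b * x * (a * b)⁻¹ * x⁻¹ := by group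
      one_mem' := ⟨1, A.one_mem, by group⟩
      inv_mem' := by
        rintro _ ⟨a, ha, rfl⟩
        refine ⟨a⁻¹, A.inv_mem ha, ?_⟩
        have hu : x * a * x⁻¹ ∈ A := hAn.conj_mem _ ha x
        calc (a * x * a⁻¹ * x⁻¹)⁻¹ = (x * a * x⁻¹) * a⁻¹ := by group
          _ = a⁻¹ * (x * a * x⁻¹) := hAcomm _ hu _ (A.inv_mem ha)
          _ = a⁻¹ * x * a⁻¹⁻¹ * x⁻¹ := by group }
  have hmemD : ∀ d : G, d ∈ D ↔ ∃ a ∈ A, d = a * x * a⁻¹ * x⁻¹ := fun d => Iff.rfl
  have hDA : D ≤ A := by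
    rintro _ ⟨a, ha, rfl⟩
    exact hφA a ha
  have hDn : D.Normal := by
    rw [← Subgroup.normalizer_eq_top_iff, eq_top_iff, ← hsup]
    apply sup_le
    · rw [Subgroup.zpowers_le, Subgroup.mem_normalizer_iff]
      intro h
      constructor
      · rintro ⟨a, ha, rfl⟩
        exact ⟨x * a * x⁻¹, hAn.conj_mem _ ha x, by group⟩
      · rintro ⟨b, hb, hb'⟩
        refine ⟨x⁻¹ * b * x, by simpa using hAn.conj_mem _ hb x⁻¹, ?_⟩
        calc h = x⁻¹ * (x * h * x⁻¹) * x := by group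
          _ = x⁻¹ * (b * x * b⁻¹ * x⁻¹) * x := by rw [hb']
          _ = _ := by group
    · intro a ha
      rw [Subgroup.mem_normalizer_iff]
      intro h
      constructor
      · intro hh
        have : a * h * a⁻¹ = h := by rw [hAcomm a ha h (hDA hh)]; group
        rw [this]; exact hh
      · intro hh
        have h1 : a * h * a⁻¹ ∈ A := hDA hh
        have h2 : h ∈ A := by
          have := hAn.conj_mem _ h1 a⁻¹
          simpa [mul_assoc] using this
        have : a * h * a⁻¹ = h := by rw [hAcomm a ha h h2]; group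
        rw [this] at hh; exact hh
  have ha₀x : a₀ * x = x * a₀ := by
    rw [mul_inv_eq_iff_eq_mul] at hfix
    exact hfix.symm
  have ha₀Z : a₀ ∈ Subgroup.center G := hcent_of a₀ ha₀x (fun b hb => hAcomm a₀ ha₀ b hb)
  have ha₀H : a₀ ∉ Subgroup.zpowers x ⊔ D := by
    intro hmem
    have hmem' : a₀ ∈ ((Subgroup.zpowers x ⊔ D : Subgroup G) : Set G) := hmem
    rw [Subgroup.mul_normal] at hmem'
    obtain ⟨z, hz, d, hd, hzd⟩ := Set.mem_mul.mp hmem'
    have hz1 : z = 1 := by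
      apply hdisj' z hz
      have : z = a₀ * d⁻¹ := by rw [← hzd]; group
      rw [this]
      exact A.mul_mem ha₀ (A.inv_mem (hDA hd))
    rw [hz1, one_mul] at hzd
    obtain ⟨a, ha, hda⟩ := (hmemD d).mp hd
    apply ha₀1
    rw [← hzd, hda]
    apply hφ3 a ha
    rw [← hda, hzd]
    exact ha₀x
  have hHc : IsMulCommutative ↥(Subgroup.zpowers x ⊔ D) := by
    apply N0
    intro heq
    apply ha₀H
    rw [← heq]
    exact Subgroup.center_le_normalizer _ ha₀Z
  apply hxne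
  intro a ha
  have h1 : a * x * a⁻¹ * x⁻¹ = 1 := by
    apply hφ3 a ha
    exact congr_arg Subtype.val ((isMulCommutative_iff.mp hHc)
      ⟨_, le_sup_right (a := Subgroup.zpowers x) ((hmemD _).mpr ⟨a, ha, rfl⟩)⟩
      ⟨x, le_sup_left (a := Subgroup.zpowers x) (Subgroup.mem_zpowers x)⟩)
  calc x * a = (a * x * a⁻¹ * x⁻¹)⁻¹ * (a * x) := by group
    _ = a * x := by rw [h1]; group

end forward

theorem result {G : Type*} [Group G] [Finite G]
    [Group.IsSolvable G] (hnn : ¬ Group.IsNilpotent G) :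
    (∀ H : Subgroup G, ¬ IsMulCommutative H → Subgroup.normalizer (H : Set G) = H) ↔
    ∃ (x : G) (A : Subgroup G) (p : ℕ), p.Prime ∧ A.Normal ∧ IsMulCommutative A ∧ (∃ k : ℕ, orderOf x = p ^ k) ∧
      ¬ p ∣ Nat.card A ∧ (Subgroup.zpowers x).IsComplement' A ∧ x ^ p ∈ Subgroup.center G ∧
      ∀ a : G, a ∈ A → a ≠ 1 → x * a * x⁻¹ ≠ a := by
  constructor
  · exact forward hnn
  · rintro ⟨x, A, p, hp, hAn, hAc, hk, -, hcompl, hxp, hfpf⟩ H hH
    exact backward x A p hp hAn hAc hk hcompl hxp hfpf H hH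

end Cfsg.Agent.S4071
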