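import Cfsg.Statements.S4075

set_option autoImplicit false
open Cfsg

namespace Cfsg.Agent.S4075

theorem result {G : Type*} [Group G] [Finite G]
    [Group.IsNilpotent G] :
    (∀ H : Subgroup G, ¬ IsMulCommutative H → Subgroup.normalizer (H : Set G) = H) ↔
    (IsMulCommutative G ∨ (IsPrimePow (Nat.card G) ∧ ¬ IsMulCommutative G ∧ ∀ H : Subgroup G, H ≠ ⊤ → IsMulCommutative H)) := by
  constructor
  · intro h
    have hnc : NormalizerCondition G := Group.normalizerCondition_of_isNilpotent
    rw [normalizerCondition_iff_only_full_group_self_normalizing] at hnc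
    have hprop : ∀ H : Subgroup G, H ≠ ⊤ → IsMulCommutative H := by
      intro H hH
      by_contra hc
      exact hH (hnc H (h H hc))
    by_cases hG : IsMulCommutative G
    · exact Or.inl hG
    · refine Or.inr ⟨?_, hG, hprop⟩
      obtain ⟨e⟩ := (Group.isNilpotent_of_finite_tfae (G := G)).out 0 4 rfl rfl |>.mp inferInstance
      by_contra hpp
      apply hG
      have hall : ∀ (p : (Nat.card G).primeFactors) (P : Sylow p G), IsMulCommutative (P : Subgroup G) := by
        intro p P
        apply hprop
        intro htop
        apply hpp
        have hp : Nat.Prime (p : ℕ) := Nat.prime_of_mem_primeFactors p.2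
        have : Fact (Nat.Prime (p : ℕ)) := ⟨hp⟩
        have hPG : IsPGroup p G := by
          have := P.isPGroup'
          rw [htop] at this
          exact this.of_surjective (Subgroup.topEquiv (G := G)).toMonoidHom (Subgroup.topEquiv (G := G)).surjective
        obtain ⟨n, hn⟩ := IsPGroup.iff_card.mp hPG
        rw [hn]
        have hn0 : n ≠ 0 := by
          rintro rfl
          have hdvd : (p : ℕ) ∣ Nat.card G := Nat.dvd_of_mem_primeFactors p.2
          have h1 : Nat.card G = 1 := by rw [hn, pow_zero]
          exact hp.one_lt.ne' (Nat.dvd_one.mp (h1 ▸ hdvd))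
        exact hp.isPrimePow.pow hn0
      rw [isMulCommutative_iff]
      intro a b
      apply e.symm.injective
      rw [map_mul, map_mul]
      funext p P
      simp only [Pi.mul_apply]
      exact (isMulCommutative_iff.mp (hall p P)) _ _
  · rintro (h | ⟨_, _, h⟩) H hH
    · exfalso
      apply hH
      rw [isMulCommutative_iff] at h ⊢
      intro a b
      exact Subtype.ext (h a b)
    · have : H = ⊤ := by
        by_contra hne
        exact hH (h H hne)
      subst this
      exact top_le_iff.mp Subgroup.le_normalizer

end Cfsg.Agent.S4075
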