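import Cfsg.Statements.S4072
import Cfsg.Agent.S4071
import Cfsg.Agent.S4075
import Cfsg.Agent.S0071
import Cfsg.Agent.Lib.Helper68.Subnormalizer

set_option autoImplicit false
open Cfsg

namespace Cfsg.Agent.S4072

universe u

/-- every non-abelian subgroup is self-normalizing -/
def SN (G : Type u) [Group G] : Prop :=
  ∀ H : Subgroup G, ¬ IsMulCommutative H → Subgroup.normalizer (H : Set G) = H

lemma SN.subgroup {G : Type u} [Group G] (h : SN G) (K : Subgroup G) : SN K := by
  intro H' hH'
  have hna : ¬ IsMulCommutative (H'.map K.subtype) := by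
    intro hc
    apply hH'
    refine ⟨⟨fun a b => ?_⟩⟩
    have := hc.is_comm.comm ⟨(a : K), Subgroup.mem_map_of_mem K.subtype a.2⟩
      ⟨(b : K), Subgroup.mem_map_of_mem K.subtype b.2⟩
    apply Subtype.ext
    apply Subtype.ext
    have h' : ((a : K) : G) * ((b : K) : G) = ((b : K) : G) * ((a : K) : G) :=
      congr_arg Subtype.val this
    exact h'
  have h1 := h _ hna
  have hle : H'.map K.subtype ≤ K := Subgroup.map_subtype_le _
  have h2 := Subgroup.subgroupOf_normalizer_eq hle
  have h3 : (H'.map K.subtype).subgroupOf K = H' := by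
    ext x
    rw [Subgroup.mem_subgroupOf]
    constructor
    · rintro ⟨y, hy, hxy⟩
      have : y = x := Subtype.ext hxy
      rw [← this]; exact hy
    · intro hx
      exact Subgroup.mem_map_of_mem K.subtype hx
  rw [h3, h1, h3] at h2
  exact h2.symm

lemma normal_comm {G : Type u} [Group G] (hS : SN G) (N : Subgroup G) [hN : N.Normal]
    (hne : N ≠ ⊤) : IsMulCommutative N := by
  by_contra hna
  have := hS N hna
  rw [Subgroup.normalizer_eq_top_iff.mpr hN] at this
  exact hne this.symm

lemma ker_eq_top {G : Type u} {Q : Type*} [Group G] [Group Q] [Group.IsSolvable Q] (hS : SN G)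
    (hns : ¬ Group.IsSolvable G) (φ : G →* Q) : φ.ker = ⊤ := by
  by_contra hne
  have hab : IsMulCommutative φ.ker := normal_comm hS _ hne
  apply hns
  haveI : Group.IsSolvable φ.ker := Group.isSolvable_of_comm (fun a b => hab.is_comm.comm a b)
  exact Group.isSolvable_of_ker_le_range φ.ker.subtype φ (by simp)

lemma normal_le_center {G : Type u} [Group G] [Finite G] (hS : SN G)
    (hns : ¬ Group.IsSolvable G) (N : Subgroup G) [N.Normal] (hN : N ≠ ⊤) :
    N ≤ Subgroup.center G := by
  by_contra hnc
  have hNc : IsMulCommutative N := normal_comm hS N hN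
  have hC : Subgroup.centralizer (N : Set G) ≠ ⊤ := by
    intro h
    exact hnc (Subgroup.centralizer_eq_top_iff_subset.mp h)
  have hNC : N ≤ Subgroup.centralizer (N : Set G) := by
    intro a ha
    rw [Subgroup.mem_centralizer_iff]
    intro b hb
    exact congr_arg Subtype.val (hNc.is_comm.comm ⟨b, hb⟩ ⟨a, ha⟩)
  set C := Subgroup.centralizer (N : Set G) with hCdef
  have hcard : Nat.card (G ⧸ C) ≠ 1 := by
    rw [← Subgroup.index_eq_card]
    intro h
    exact hC (Subgroup.index_eq_one.mp h)
  obtain ⟨r, hr, hrd⟩ := Nat.exists_prime_and_dvd hcard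
  haveI : Fact r.Prime := ⟨hr⟩
  obtain ⟨R⟩ : Nonempty (Sylow r (G ⧸ C)) := inferInstance
  obtain ⟨xb, hxb⟩ := exists_prime_orderOf_dvd_card' r (R.dvd_card_of_dvd_card hrd)
  have hxb1 : (xb : G ⧸ C) ≠ 1 := by
    intro h
    have : orderOf (xb : G ⧸ C) = 1 := by rw [h, orderOf_one]
    rw [Subgroup.orderOf_coe, hxb] at this
    exact hr.one_lt.ne' this
  obtain ⟨x, hx⟩ := QuotientGroup.mk'_surjective C (xb : G ⧸ C)
  have hxC : x ∉ C := by
    intro h
    apply hxb1
    rw [← hx]
    exact (QuotientGroup.eq_one_iff x).mpr h
  -- the cyclic subgroup generated by `xb` is self-normalizing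
  have hself : Subgroup.normalizer ((Subgroup.zpowers (xb : G ⧸ C) : Subgroup (G ⧸ C)) : Set (G ⧸ C))
      = Subgroup.zpowers (xb : G ⧸ C) := by
    have hT : ¬ IsMulCommutative ((Subgroup.zpowers (xb : G ⧸ C)).comap (QuotientGroup.mk' C)) := by
      intro hc
      apply hxC
      rw [hCdef, Subgroup.mem_centralizer_iff]
      intro n hn
      have hxT : x ∈ (Subgroup.zpowers (xb : G ⧸ C)).comap (QuotientGroup.mk' C) := by
        rw [Subgroup.mem_comap, hx]
        exact Subgroup.mem_zpowers _
      have hnT : n ∈ (Subgroup.zpowers (xb : G ⧸ C)).comap (QuotientGroup.mk' C) := by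
        rw [Subgroup.mem_comap]
        have : (QuotientGroup.mk' C) n = 1 := (QuotientGroup.eq_one_iff n).mpr (hNC hn)
        rw [this]
        exact one_mem _
      exact congr_arg Subtype.val (hc.is_comm.comm ⟨n, hnT⟩ ⟨x, hxT⟩)
    have h1 := hS _ hT
    have h2 := Subgroup.comap_normalizer_eq_of_surjective (Subgroup.zpowers (xb : G ⧸ C))
      (QuotientGroup.mk'_surjective C)
    rw [h1] at h2
    exact Subgroup.comap_injective (QuotientGroup.mk'_surjective C) h2
  have hle : Subgroup.zpowers (xb : G ⧸ C) ≤ (R : Subgroup (G ⧸ C)) := by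
    rw [Subgroup.zpowers_le]
    exact xb.2
  have hReq : (R : Subgroup (G ⧸ C)) = Subgroup.zpowers (xb : G ⧸ C) := by
    by_contra hne
    have hlt : Subgroup.zpowers (xb : G ⧸ C) < (R : Subgroup (G ⧸ C)) :=
      lt_of_le_of_ne hle (Ne.symm hne)
    have := Cfsg.Agent.Lib.Helper68.lt_inf_normalizer' R.2 hlt
    rw [hself] at this
    exact absurd (inf_le_right) (not_le_of_gt this)
  have hP : Subgroup.normalizer ((R : Subgroup (G ⧸ C)) : Set (G ⧸ C)) ≤
      Subgroup.centralizer ((R : Subgroup (G ⧸ C)) : Set (G ⧸ C)) := by
    rw [hReq, hself]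
    intro a ha
    rw [Subgroup.mem_centralizer_iff]
    intro b hb
    obtain ⟨i, rfl⟩ := Subgroup.mem_zpowers_iff.mp ha
    obtain ⟨j, rfl⟩ := Subgroup.mem_zpowers_iff.mp hb
    exact ((Commute.refl (xb : G ⧸ C)).zpow_zpow j i)
  have hcompl := MonoidHom.ker_transferSylow_isComplement' R hP
  haveI : Group.IsSolvable (R : Subgroup (G ⧸ C)) := by
    haveI := R.2.isNilpotent
    infer_instance
  have hker := ker_eq_top hS hns ((MonoidHom.transferSylow R hP).comp (QuotientGroup.mk' C))
  have hker' : (MonoidHom.transferSylow R hP).ker = ⊤ := by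
    rw [eq_top_iff]
    intro y _
    obtain ⟨g, rfl⟩ := QuotientGroup.mk'_surjective C y
    have : g ∈ ((MonoidHom.transferSylow R hP).comp (QuotientGroup.mk' C)).ker := by
      rw [hker]; trivial
    exact this
  rw [hker'] at hcompl
  have hbot := hcompl.disjoint.eq_bot
  rw [top_inf_eq] at hbot
  apply hxb1
  have : (xb : G ⧸ C) ∈ (⊥ : Subgroup (G ⧸ C)) := by
    rw [← hbot]; exact xb.2
  exact Subgroup.mem_bot.mp this

lemma mem_of_coprime {K : Type u} [Group K] [Finite K] (A : Subgroup K) [A.Normal] (y : K)
    (h : (A.index).Coprime (orderOf y)) : y ∈ A := by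
  have h1 : y ^ A.index ∈ A := A.pow_index_mem y
  have h2 : y ∈ Subgroup.zpowers (y ^ A.index) := mem_zpowers_pow_iff.mpr h
  exact (Subgroup.zpowers_le.mpr h1) h2

theorem aux : ∀ (n : ℕ) (G : Type u) [Group G] [Finite G], Nat.card G = n → SN G →
    Group.IsSolvable G ∨ IsSimpleGroup G := by
  intro n
  induction n using Nat.strong_induction_on with
  | _ n ih =>
    intro G _ _ hn hS
    by_contra hcon
    push Not at hcon
    obtain ⟨hns, hnsimp⟩ := hcon
    haveI : Nontrivial G := by
      by_contra h
      rw [not_nontrivial_iff_subsingleton] at h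
      exact hns inferInstance
    -- a proper nontrivial normal subgroup
    obtain ⟨N, hNn, hN1, hN2⟩ : ∃ N : Subgroup G, N.Normal ∧ N ≠ ⊥ ∧ N ≠ ⊤ := by
      by_contra h
      push Not at h
      apply hnsimp
      refine ⟨fun H hH => ?_⟩
      by_cases h1 : H = ⊥
      · exact Or.inl h1
      · exact Or.inr (h H hH h1)
    have hNZ : N ≤ Subgroup.center G := normal_le_center hS hns N hN2
    have hcardN : Nat.card N ≠ 1 := by
      intro h
      exact hN1 (Subgroup.card_eq_one.mp h)
    obtain ⟨p, hp, hpN⟩ := Nat.exists_prime_and_dvd hcardN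
    haveI : Fact p.Prime := ⟨hp⟩
    obtain ⟨z, hz⟩ := exists_prime_orderOf_dvd_card' p hpN
    have hzZ : (z : G) ∈ Subgroup.center G := hNZ z.2
    have hzo : orderOf (z : G) = p := by rw [Subgroup.orderOf_coe, hz]
    obtain ⟨P⟩ : Nonempty (Sylow p G) := inferInstance
    have hcond : ∀ Q : Subgroup G, Q ≤ (P : Subgroup G) →
        ∀ g ∈ Subgroup.normalizer (Q : Set G), Nat.Coprime (orderOf g) p →
        g ∈ Subgroup.centralizer (Q : Set G) := by
      intro U hUP y hy hyp
      by_contra hyC
      have hUp : IsPGroup p U := P.2.to_le hUP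
      by_cases hK : Subgroup.normalizer (U : Set G) = ⊤
      · haveI hUn : U.Normal := Subgroup.normalizer_eq_top_iff.mp hK
        have hUt : U ≠ ⊤ := by
          intro h
          apply hns
          have hG : IsPGroup p G := by
            intro g
            obtain ⟨k, hk⟩ := hUp ⟨g, by rw [h]; trivial⟩
            exact ⟨k, congr_arg Subtype.val hk⟩
          haveI := hG.isNilpotent
          infer_instance
        have hUZ := normal_le_center hS hns U hUt
        apply hyC
        rw [Subgroup.mem_centralizer_iff]
        intro u hu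
        exact (Subgroup.mem_center_iff.mp (hUZ hu) y).symm
      · set K := Subgroup.normalizer (U : Set G) with hKdef
        have hSK : SN K := hS.subgroup K
        have hlt : Nat.card K < n := by
          rw [← hn]
          by_contra hge
          push Not at hge
          exact hK (Subgroup.eq_top_of_le_card _ hge)
        have hUK : U ≤ K := Subgroup.le_normalizer
        haveI hUKn : (U.subgroupOf K).Normal := Subgroup.normal_in_normalizer
        -- an element of U not commuting with y
        obtain ⟨u, hu, huy⟩ : ∃ u ∈ U, u * y ≠ y * u := by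
          by_contra h
          push Not at h
          apply hyC
          rw [Subgroup.mem_centralizer_iff]
          exact h
        have hy1 : y ≠ 1 := by
          rintro rfl
          simp at huy
        have hu1 : u ≠ 1 := by
          rintro rfl
          simp at huy
        have hKna : ¬ IsMulCommutative K := by
          intro hc
          exact huy (congr_arg Subtype.val (hc.is_comm.comm ⟨u, hUK hu⟩ ⟨y, hy⟩))
        have hyo : orderOf (⟨y, hy⟩ : K) = orderOf y := by
          rw [← Subgroup.orderOf_coe]
        rcases ih _ hlt K rfl hSK with hsol | hsimp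
        · by_cases hnil : Group.IsNilpotent K
          · rcases (Cfsg.Agent.S4075.result (G := K)).mp hSK with hc | ⟨hpp, -, -⟩
            · exact hKna hc
            · obtain ⟨r, k, hr, hk, hrk⟩ := hpp
              have hr' : r.Prime := hr.nat_prime
              -- order of u is a power of p and divides r ^ k
              have h1 : orderOf u ∣ r ^ k := by
                rw [hrk]
                have : orderOf (⟨u, hUK hu⟩ : K) = orderOf u := by rw [← Subgroup.orderOf_coe]
                rw [← this]
                exact orderOf_dvd_natCard _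
              have h2 : orderOf y ∣ r ^ k := by
                rw [hrk, ← hyo]
                exact orderOf_dvd_natCard _
              obtain ⟨j, hj⟩ := hUp ⟨u, hu⟩
              have h3 : orderOf u ∣ p ^ j := by
                apply orderOf_dvd_of_pow_eq_one
                exact congr_arg Subtype.val hj
              have hou : orderOf u ≠ 1 := by
                rw [Ne, orderOf_eq_one_iff]; exact hu1
              have hoy : orderOf y ≠ 1 := by
                rw [Ne, orderOf_eq_one_iff]; exact hy1
              obtain ⟨q, hq, hqu⟩ := Nat.exists_prime_and_dvd hou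
              have hqp : q = p := (Nat.prime_dvd_prime_iff_eq hq hp).mp (hq.dvd_of_dvd_pow (hqu.trans h3))
              have hqr : q = r := (Nat.prime_dvd_prime_iff_eq hq hr').mp (hq.dvd_of_dvd_pow (hqu.trans h1))
              obtain ⟨q', hq', hqy⟩ := Nat.exists_prime_and_dvd hoy
              have hq'r : q' = r := (Nat.prime_dvd_prime_iff_eq hq' hr').mp (hq'.dvd_of_dvd_pow (hqy.trans h2))
              have : p ∣ orderOf y := by
                rw [← hqp, hqr, ← hq'r]; exact hqy
              have h4 := Nat.eq_one_of_dvd_coprimes hyp this (dvd_refl p)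
              exact hp.one_lt.ne' h4
          · obtain ⟨x, A, r, hr, hAn, hAc, ⟨k, hxk⟩, hrA, hcompl, hxr, hfpf⟩ :=
              (Cfsg.Agent.S4071.result (G := K) hnil).mp hSK
            haveI := hAn
            have hidx : A.index = r ^ k := by
              have h1 := hcompl.card_mul
              have h2 := A.card_mul_index
              rw [Nat.card_zpowers, hxk] at h1
              have h3 : Nat.card A * A.index = Nat.card A * r ^ k := by
                rw [h2, ← h1, mul_comm]
              exact Nat.eq_of_mul_eq_mul_left Nat.card_pos h3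
            -- r = p
            have hzK : (z : G) ∈ K := by
              rw [hKdef, Subgroup.mem_normalizer_iff]
              intro h
              have : (z : G) * h * (z : G)⁻¹ = h := by
                rw [← Subgroup.mem_center_iff.mp hzZ h]; group
              rw [this]
            have hrp : r = p := by
              by_contra hne
              have hzA : (⟨z, hzK⟩ : K) ∈ A := by
                apply mem_of_coprime
                rw [hidx, ← Subgroup.orderOf_coe]
                simp only
                rw [hzo]
                exact Nat.Coprime.pow_left _ ((Nat.coprime_primes hr hp).mpr hne)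
              apply hfpf _ hzA
              · intro h
                have h1 : (z : G) = 1 := congr_arg Subtype.val h
                rw [h1, orderOf_one] at hzo
                exact hp.one_lt.ne hzo
              · apply Subtype.ext
                change (x : G) * z * (x : G)⁻¹ = z
                rw [Subgroup.mem_center_iff.mp hzZ x]; group
            have hyA : (⟨y, hy⟩ : K) ∈ A := by
              apply mem_of_coprime
              rw [hidx, hyo, hrp]
              exact Nat.Coprime.pow_left _ hyp.symm
            -- U ∩ A = 1
            have hcomm : ⁅U.subgroupOf K, A⁆ ≤ U.subgroupOf K ⊓ A := Subgroup.commutator_le_inf _ _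
            have hinf : U.subgroupOf K ⊓ A = ⊥ := by
              rw [eq_bot_iff]
              intro a ha
              obtain ⟨ha1, ha2⟩ := Subgroup.mem_inf.mp ha
              obtain ⟨j, hj⟩ := hUp ⟨a, Subgroup.mem_subgroupOf.mp ha1⟩
              have hj' : a ^ (r ^ j) = 1 := by
                rw [hrp]
                apply Subtype.ext
                have h' : (a : G) ^ (p ^ j) = 1 := congr_arg Subtype.val hj
                exact h'
              rw [Subgroup.mem_bot]
              exact Cfsg.Agent.S4071.eq_one_of_pow_of_not_dvd hr A hrA a ha2 j hj'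
            rw [hinf, le_bot_iff, Subgroup.commutator_eq_bot_iff_le_centralizer] at hcomm
            have h5 := hcomm (show (⟨u, hUK hu⟩ : K) ∈ U.subgroupOf K from
              Subgroup.mem_subgroupOf.mpr hu)
            rw [Subgroup.mem_centralizer_iff] at h5
            have h6 := h5 ⟨y, hy⟩ hyA
            exact huy (congr_arg Subtype.val h6).symm
        · rcases hsimp.eq_bot_or_eq_top_of_normal (U.subgroupOf K) hUKn with h | h
          · rw [Subgroup.subgroupOf_eq_bot] at h
            have : u ∈ U ⊓ K := ⟨hu, hUK hu⟩
            rw [h.eq_bot] at this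
            exact hu1 (Subgroup.mem_bot.mp this)
          · rw [Subgroup.subgroupOf_eq_top] at h
            obtain ⟨j, hj⟩ := hUp ⟨y, h hy⟩
            have h3 : orderOf y ∣ p ^ j := by
              apply orderOf_dvd_of_pow_eq_one
              exact congr_arg Subtype.val hj
            have h4 : orderOf y = 1 :=
              Nat.eq_one_of_dvd_coprimes (hyp.pow_right j) (dvd_refl _) h3
            exact hy1 (orderOf_eq_one_iff.mp h4)
    obtain ⟨M, hMn, hMP⟩ := (Cfsg.Agent.S0071.result P).mpr hcond
    haveI := hMn
    haveI : Group.IsSolvable (G ⧸ M) := by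
      have hidx : M.index = Nat.card (P : Subgroup G) := by
        have h1 := hMP.card_mul
        have h2 := M.card_mul_index
        have h3 : Nat.card M * M.index = Nat.card M * Nat.card (P : Subgroup G) := by
          rw [h2, h1]
        exact Nat.eq_of_mul_eq_mul_left Nat.card_pos h3
      obtain ⟨k, hk⟩ := (IsPGroup.iff_card).mp P.2
      have : IsPGroup p (G ⧸ M) := by
        apply IsPGroup.of_card (n := k)
        rw [← Subgroup.index_eq_card, hidx, hk]
      haveI := this.isNilpotent
      infer_instance
    have hker := ker_eq_top hS hns (QuotientGroup.mk' M)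
    rw [QuotientGroup.ker_mk'] at hker
    rw [hker] at hMP
    have hbot := hMP.disjoint.eq_bot
    rw [top_inf_eq] at hbot
    have hdvd : p ∣ Nat.card (P : Subgroup G) :=
      P.dvd_card_of_dvd_card (hpN.trans (Subgroup.card_subgroup_dvd_card N))
    rw [hbot, Subgroup.card_bot] at hdvd
    exact hp.one_lt.ne' (Nat.dvd_one.mp hdvd)

theorem result {G : Type*} [Group G] [Finite G] (hS : ∀ H : Subgroup G, ¬ IsMulCommutative H → Subgroup.normalizer (H : Set G) = H) :
    Group.IsSolvable G ∨ IsSimpleGroup G :=
  aux _ G rfl hS

end Cfsg.Agent.S4072
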