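import Mathlib
import Cfsg.Statements.S4074

set_option autoImplicit false
open Cfsg

namespace Cfsg.Agent.S4074

open DihedralGroup

/-- the index two subgroup `⟨r², s⟩` for even `n`. -/
def evenSub (n : ℕ) (h2 : 2 ∣ n) : Subgroup (DihedralGroup n) where
  carrier := {x | match x with
    | r i => ZMod.castHom h2 (ZMod 2) i = 0
    | sr i => ZMod.castHom h2 (ZMod 2) i = 0}
  mul_mem' := by
    rintro (i | i) (j | j) hi hj <;>
    simp only [Set.mem_ofPred_eq, r_mul_r, r_mul_sr, sr_mul_r, sr_mul_sr, map_add, map_sub] at hi hj ⊢ <;>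
    simp [hi, hj]
  one_mem' := by
    simp only [one_def, Set.mem_ofPred_eq, map_zero]
  inv_mem' := by
    rintro (i | i) hi <;>
    simp only [Set.mem_ofPred_eq, inv_r, inv_sr, map_neg] at hi ⊢ <;>
    simp [hi]

lemma mem_evenSub_r (n : ℕ) (h2 : 2 ∣ n) (i : ZMod n) :
    r i ∈ evenSub n h2 ↔ ZMod.castHom h2 (ZMod 2) i = 0 := Iff.rfl

lemma mem_evenSub_sr (n : ℕ) (h2 : 2 ∣ n) (i : ZMod n) :
    sr i ∈ evenSub n h2 ↔ ZMod.castHom h2 (ZMod 2) i = 0 := Iff.rfl

lemma exists_sr {n : ℕ} (H : Subgroup (DihedralGroup n)) (hH : ¬ IsMulCommutative H) :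
    ∃ i, sr i ∈ H := by
  by_contra hcon
  push Not at hcon
  apply hH
  rw [isMulCommutative_iff]
  rintro ⟨a | a, ha⟩ ⟨b | b, hb⟩
  · apply Subtype.ext
    simp [add_comm]
  · exact absurd hb (hcon b)
  · exact absurd ha (hcon a)
  · exact absurd ha (hcon a)

lemma exists_r {n : ℕ} (H : Subgroup (DihedralGroup n)) (hH : ¬ IsMulCommutative H) :
    ∃ k, r k ∈ H ∧ k + k ≠ 0 := by
  by_contra hcon
  push Not at hcon
  apply hH
  rw [isMulCommutative_iff]
  rintro ⟨a | a, ha⟩ ⟨b | b, hb⟩
  · apply Subtype.ext
    simp [add_comm]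
  · apply Subtype.ext
    have := hcon a ha
    simp only [MulMemClass.mk_mul_mk, r_mul_sr, sr_mul_r, sr.injEq]
    linear_combination (-1 : ZMod n) * this
  · apply Subtype.ext
    have := hcon b hb
    simp only [MulMemClass.mk_mul_mk, r_mul_sr, sr_mul_r, sr.injEq]
    linear_combination this
  · apply Subtype.ext
    have h1 : r (b - a) ∈ H := by
      have := H.mul_mem ha hb
      simpa using this
    have := hcon _ h1
    simp only [MulMemClass.mk_mul_mk, sr_mul_sr, r.injEq]
    linear_combination this

lemma r_nsmul_mem {n : ℕ} (H : Subgroup (DihedralGroup n)) (a : ZMod n) (ha : r a ∈ H) (m : ℕ) :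
    r (a * (m : ZMod n)) ∈ H := by
  have := H.pow_mem ha m
  rwa [r_pow] at this

theorem result (n : ℕ) (hn : 2 < n) :
    (∀ H : Subgroup (DihedralGroup n), ¬ IsMulCommutative H → Subgroup.normalizer (H : Set (DihedralGroup n)) = H) ↔
    (n = 4 ∨ Odd n) := by
  constructor
  · intro h
    by_contra hcon
    push Not at hcon
    obtain ⟨h4, hodd⟩ := hcon
    have heven : Even n := Nat.not_odd_iff_even.mp hodd
    have h2 : 2 ∣ n := heven.two_dvd
    have hn6 : 6 ≤ n := by
      obtain ⟨k, hk⟩ := h2
      omega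
    have hnc : ¬ IsMulCommutative (evenSub n h2) := by
      intro hc
      have hr : r (2 : ZMod n) ∈ evenSub n h2 := by
        rw [mem_evenSub_r, map_ofNat]
        decide
      have hs : sr (0 : ZMod n) ∈ evenSub n h2 := by
        rw [mem_evenSub_sr, map_zero]
      have := congr_arg Subtype.val ((isMulCommutative_iff.mp hc) ⟨_, hr⟩ ⟨_, hs⟩)
      simp only [MulMemClass.mk_mul_mk, r_mul_sr, sr_mul_r, sr.injEq] at this
      have h40 : ((4 : ℕ) : ZMod n) = 0 := by
        push_cast
        linear_combination (-1 : ZMod n) * this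
      rw [ZMod.natCast_eq_zero_iff] at h40
      have := Nat.le_of_dvd (by norm_num) h40
      omega
    have hN := h _ hnc
    have h1 : r (1 : ZMod n) ∈ Subgroup.normalizer ((evenSub n h2 : Subgroup (DihedralGroup n)) : Set (DihedralGroup n)) := by
      rw [Subgroup.mem_normalizer_iff]
      rintro (i | i)
      · simp only [r_mul_r, inv_r, mem_evenSub_r, map_add, map_neg, map_one]
        ring_nf
      · simp only [r_mul_sr, sr_mul_r, inv_r, mem_evenSub_sr, map_add, map_sub, map_neg, map_one]
        have : (1 : ZMod 2) + 1 = 0 := by decide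
        constructor
        · intro hi
          rw [hi]; decide
        · intro hi
          linear_combination hi + this
    rw [hN, mem_evenSub_r, map_one] at h1
    exact absurd h1 (by decide)
  · intro hcase H hH
    apply le_antisymm _ Subgroup.le_normalizer
    obtain ⟨i, hi⟩ := exists_sr H hH
    -- it suffices to treat rotations
    have hrot : ∀ j, r j ∈ Subgroup.normalizer (H : Set (DihedralGroup n)) → r j ∈ H := by
      intro j hj
      rcases hcase with rfl | hodd
      · obtain ⟨k, hk, hkk⟩ := exists_r H hH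
        have key : ∀ k j : ZMod 4, k + k ≠ 0 → k * ((j * k).val : ZMod 4) = j := by decide
        have := r_nsmul_mem H k hk (j * k).val
        rwa [key k j hkk] at this
      · have h1 := (Subgroup.mem_normalizer_iff.mp hj _).mp hi
        have h2 := H.mul_mem hi h1
        simp only [r_mul_sr, sr_mul_r, inv_r, sr_mul_sr] at h2
        obtain ⟨m, hm⟩ := hodd
        have h3 := r_nsmul_mem H _ h2 m
        have h4 : (i - j + -j - i) * (m : ZMod n) = j := by
          have hn0 : ((n : ℕ) : ZMod n) = 0 := ZMod.natCast_self n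
          have hn1 : ((2 * m + 1 : ℕ) : ZMod n) = 0 := by rw [← hm]; exact hn0
          push_cast at hn1
          linear_combination (-j) * hn1
        rwa [h4] at h3
    rintro (j | j) hj
    · exact hrot j hj
    · have h1 : r (j - i) ∈ Subgroup.normalizer (H : Set (DihedralGroup n)) := by
        have := (Subgroup.normalizer (H : Set (DihedralGroup n))).mul_mem (Subgroup.le_normalizer hi) hj
        simpa using this
      have h2 := H.mul_mem hi (hrot _ h1)
      simpa using h2

end Cfsg.Agent.S4074
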