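import Cfsg.Statements.S4080

set_option autoImplicit false
open Cfsg

namespace Cfsg.Agent.S4080

lemma exists_mul_of_dvd_val {p : ℕ} [Fact p.Prime] (z : ZMod (p ^ 2)) (h : p ∣ z.val) :
    ∃ y : ZMod (p ^ 2), z = (p : ZMod (p ^ 2)) * y := by
  haveI : NeZero (p ^ 2) := ⟨pow_ne_zero _ (Fact.out : p.Prime).ne_zero⟩
  obtain ⟨k, hk⟩ := h
  refine ⟨(k : ZMod (p ^ 2)), ?_⟩
  rw [← ZMod.natCast_zmod_val z, hk]
  push_cast
  rfl

lemma p_mul_p {p : ℕ} : (p : ZMod (p ^ 2)) * p = 0 := by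
  have : ((p ^ 2 : ℕ) : ZMod (p ^ 2)) = 0 := ZMod.natCast_self _
  rw [← this]
  push_cast
  ring

lemma exists_mul_of_mul_eq_zero {p : ℕ} [Fact p.Prime] (z : ZMod (p ^ 2))
    (h : (p : ZMod (p ^ 2)) * z = 0) : ∃ y : ZMod (p ^ 2), z = (p : ZMod (p ^ 2)) * y := by
  haveI : NeZero (p ^ 2) := ⟨pow_ne_zero _ (Fact.out : p.Prime).ne_zero⟩
  apply exists_mul_of_dvd_val
  rw [← ZMod.natCast_zmod_val z, ← Nat.cast_mul, ZMod.natCast_eq_zero_iff] at h
  have h' : p * p ∣ p * z.val := by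
    have e : p * p = p ^ 2 := (pow_two p).symm
    rw [e]; exact h
  exact Nat.dvd_of_mul_dvd_mul_left (Fact.out : p.Prime).pos h'

lemma exists_mul_of_cast_eq_zero {p : ℕ} [Fact p.Prime] (z : ZMod (p ^ 2))
    (h : ZMod.castHom (dvd_pow_self p two_ne_zero) (ZMod p) z = 0) :
    ∃ y : ZMod (p ^ 2), z = (p : ZMod (p ^ 2)) * y := by
  haveI : NeZero (p ^ 2) := ⟨pow_ne_zero _ (Fact.out : p.Prime).ne_zero⟩
  apply exists_mul_of_dvd_val
  rw [ZMod.castHom_apply, ZMod.cast_eq_val, ZMod.natCast_eq_zero_iff] at h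
  exact h

lemma sq_eq_zero_of_nilpotent {K : Type*} [Field K] (n : Matrix (Fin 2) (Fin 2) K)
    (h : IsNilpotent n) : n ^ 2 = 0 := by
  have htr : n.trace = 0 := (Matrix.isNilpotent_trace_of_isNilpotent h).eq_zero
  have hdet : n.det = 0 := by
    obtain ⟨k, hk⟩ := h
    have : n.det ^ k = 0 := by
      rw [← Matrix.det_pow, hk]
      exact Matrix.det_zero
    exact eq_zero_of_pow_eq_zero this
  rw [Matrix.trace_fin_two] at htr
  rw [Matrix.det_fin_two] at hdet
  ext i j
  fin_cases i <;> fin_cases j <;> simp [pow_two, Matrix.mul_apply, Fin.sum_univ_two]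
  · linear_combination (n 0 0) * htr - hdet
  · linear_combination (n 0 1) * htr
  · linear_combination (n 1 0) * htr
  · linear_combination (n 1 1) * htr - hdet

lemma matrix_key {p : ℕ} [Fact p.Prime] (hp : 3 < p) (m : Matrix (Fin 2) (Fin 2) (ZMod (p ^ 2)))
    (hm : m ^ p = 1) : (p : ZMod (p ^ 2)) • (m - 1) = 0 := by
  set n := m - 1 with hn
  set φ := (ZMod.castHom (dvd_pow_self p two_ne_zero) (ZMod p)).mapMatrix (m := Fin 2) with hφ
  have hnb : (φ n) ^ p = 0 := by
    rw [hn, map_sub, map_one, sub_pow_char_of_commute _ (Commute.one_right _), ← map_pow, hm,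
      map_one, one_pow, sub_self]
  have hsq : (φ n) ^ 2 = 0 := sq_eq_zero_of_nilpotent _ ⟨p, hnb⟩
  have hent : ∀ i j, ∃ y : ZMod (p ^ 2), (n ^ 2) i j = (p : ZMod (p ^ 2)) * y := by
    intro i j
    apply exists_mul_of_cast_eq_zero
    have : (φ (n ^ 2)) i j = 0 := by
      rw [map_pow, hsq]; rfl
    exact this
  have hpn2 : (p : ZMod (p ^ 2)) • (n ^ 2) = 0 := by
    ext i j
    obtain ⟨y, hy⟩ := hent i j
    rw [Matrix.smul_apply, hy, smul_eq_mul, ← mul_assoc, p_mul_p, zero_mul]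
    rfl
  have hn4 : n ^ 4 = 0 := by
    have : n ^ 4 = n ^ 2 * n ^ 2 := by rw [← pow_add]
    rw [this]
    ext i j
    rw [Matrix.mul_apply]
    apply Finset.sum_eq_zero
    intro k _
    obtain ⟨y, hy⟩ := hent i k
    obtain ⟨y', hy'⟩ := hent k j
    rw [hy, hy']
    calc (p : ZMod (p ^ 2)) * y * (p * y') = (p * p) * (y * y') := by ring
      _ = 0 := by rw [p_mul_p, zero_mul]
  have hm' : m = n + 1 := by rw [hn]; abel
  rw [hm', (Commute.one_right n).add_pow] at hm
  have hterm : ∀ k ∈ Finset.range (p + 1), k ∉ ({0, 1} : Finset ℕ) →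
      n ^ k * 1 ^ (p - k) * ((p.choose k : ℕ) : Matrix (Fin 2) (Fin 2) (ZMod (p ^ 2))) = 0 := by
    intro k hk hk01
    have hk2 : 2 ≤ k := by
      simp only [Finset.mem_insert, Finset.mem_singleton, not_or] at hk01
      omega
    have hkp : k ≤ p := by
      have := Finset.mem_range.mp hk
      omega
    rcases hkp.eq_or_lt with rfl | hlt
    · have : n ^ k = n ^ 4 * n ^ (k - 4) := by
        rw [← pow_add]; congr 1; omega
      rw [this, hn4]; simp
    · obtain ⟨c, hc⟩ := (Fact.out : p.Prime).dvd_choose_self (by omega : k ≠ 0) hlt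
      have h1 : n ^ k = n ^ (k - 2) * n ^ 2 := by
        rw [← pow_add]; congr 1; omega
      have h2 : n ^ 2 * ((p : ℕ) : Matrix (Fin 2) (Fin 2) (ZMod (p ^ 2))) = 0 := by
        rw [← hpn2]
        ext i j
        simp [Matrix.mul_apply, Matrix.natCast_apply, mul_comm]
      rw [hc, one_pow, mul_one, Nat.cast_mul, h1, mul_assoc, ← mul_assoc (n ^ 2), h2]
      simp
  have hsub : ({0, 1} : Finset ℕ) ⊆ Finset.range (p + 1) := by
    intro k hk
    simp only [Finset.mem_insert, Finset.mem_singleton] at hk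
    rw [Finset.mem_range]
    omega
  rw [← Finset.sum_subset hsub hterm, Finset.sum_pair (by norm_num)] at hm
  simp only [pow_zero, one_pow, mul_one, Nat.choose_zero_right, Nat.cast_one, pow_one,
    Nat.choose_one_right, one_mul] at hm
  have h3 : n * ((p : ℕ) : Matrix (Fin 2) (Fin 2) (ZMod (p ^ 2))) = 0 := by
    have : (1 : Matrix (Fin 2) (Fin 2) (ZMod (p ^ 2))) + n * ((p : ℕ) : Matrix (Fin 2) (Fin 2) (ZMod (p ^ 2))) = 1 + 0 := by
      rw [hm, add_zero]
    exact add_left_cancel this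
  rw [← h3]
  ext i j
  simp [Matrix.mul_apply, Matrix.natCast_apply, mul_comm]

theorem result {p : ℕ} [Fact p.Prime] (hp : 3 < p)
    (a : MulAut (Multiplicative (ZMod (p ^ 2) × ZMod (p ^ 2)))) (ha : orderOf a = p)
    (x : Multiplicative (ZMod (p ^ 2) × ZMod (p ^ 2))) (hx : orderOf x = p) : a x = x := by
  let f0 : (ZMod (p ^ 2) × ZMod (p ^ 2)) →+ (ZMod (p ^ 2) × ZMod (p ^ 2)) :=
    AddMonoidHom.toMultiplicative.symm a.toMonoidHom
  let f : Module.End (ZMod (p ^ 2)) (ZMod (p ^ 2) × ZMod (p ^ 2)) := f0.toZModLinearMap (p ^ 2)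
  have hf : ∀ v, f v = Multiplicative.toAdd (a (Multiplicative.ofAdd v)) := fun v => rfl
  have hfk : ∀ (k : ℕ) v, (f ^ k) v = Multiplicative.toAdd ((a ^ k) (Multiplicative.ofAdd v)) := by
    intro k
    induction k with
    | zero => intro v; simp
    | succ k ih =>
      intro v
      have e1 : f ^ (k + 1) = f ^ k * f := pow_succ f k
      have e2 : a ^ (k + 1) = a ^ k * a := pow_succ a k
      rw [e1, Module.End.mul_apply, ih, e2, MulAut.mul_apply, hf]
      rfl
  have hfp : f ^ p = 1 := by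
    apply LinearMap.ext
    intro v
    have e := pow_orderOf_eq_one a
    rw [ha] at e
    rw [hfk, e]
    rfl
  let φ := LinearMap.toMatrixAlgEquiv (Module.Basis.finTwoProd (ZMod (p ^ 2)))
  have hkey := matrix_key hp (φ f) (by rw [← map_pow, hfp, map_one])
  have hkey' : (p : ZMod (p ^ 2)) • (f - 1) = 0 := by
    apply φ.injective
    rw [map_smul, map_sub, map_one, hkey, map_zero]
  have hxp : x ^ p = 1 := by
    have e := pow_orderOf_eq_one x
    rw [hx] at e
    exact e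
  have hxp' : (p : ZMod (p ^ 2)) • (Multiplicative.toAdd x) = 0 := by
    have : p • (Multiplicative.toAdd x) = 0 := by
      rw [← toAdd_pow, hxp]; rfl
    rw [← this]
    exact Nat.cast_smul_eq_nsmul _ _ _
  obtain ⟨y1, hy1⟩ := exists_mul_of_mul_eq_zero (Multiplicative.toAdd x).1
    (congr_arg Prod.fst hxp')
  obtain ⟨y2, hy2⟩ := exists_mul_of_mul_eq_zero (Multiplicative.toAdd x).2
    (congr_arg Prod.snd hxp')
  have hxy : Multiplicative.toAdd x = (p : ZMod (p ^ 2)) • (y1, y2) := by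
    apply Prod.ext
    · exact hy1
    · exact hy2
  have h1 : (f - 1) (Multiplicative.toAdd x) = 0 := by
    rw [hxy, map_smul, ← LinearMap.smul_apply, hkey']
    rfl
  rw [LinearMap.sub_apply, sub_eq_zero, hf] at h1
  exact h1

end Cfsg.Agent.S4080
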