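import Cfsg.Statements.S4081
import Cfsg.Agent.Lib.Helper38.ThreeOrbFwd
import Cfsg.Agent.Lib.Helper38.ThreeOrbBwd

set_option autoImplicit false
open Cfsg

namespace Cfsg.Agent.S4081

/-- Let G be a finite group whose order is not a prime power. Then the automorphism group of G has exactly three orbits on G if and only if there are distinct primes p, q with #G = pⁿ·q (n ≥ 1) such that G has a normal elementary abelian Sylow p-subgroup P, p is a primitive root modulo q (the multiplicative order of p mod q is q − 1), and every element of order q of G acts on P without non-identity fixed points. -/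
theorem result {G : Type*} [Group G] [Finite G] (hnpp : ¬ IsPrimePow (Nat.card G)) (hnt : Nat.card G ≠ 1) :
    Nat.card (MulAction.orbitRel.Quotient (MulAut G) G) = 3 ↔
    ∃ (p q n : ℕ) (_ : Fact p.Prime) (_ : Fact q.Prime), p ≠ q ∧ 1 ≤ n ∧ Nat.card G = p ^ n * q ∧
      (∀ P : Sylow p G, (P : Subgroup G).Normal ∧ Cfsg.IsElementaryAbelian p (P : Subgroup G)) ∧
      orderOf (p : ZMod q) = q - 1 ∧
      ∀ x y : G, orderOf x = q → orderOf y = p → x * y * x⁻¹ ≠ y := by
  open Cfsg.Agent.Lib.Helper38 in
  open scoped commutatorElement in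
  constructor
  · intro h3
    -- two distinct primes
    have hex : ∃ p q : ℕ, p.Prime ∧ q.Prime ∧ p ≠ q ∧ p ∣ Nat.card G ∧ q ∣ Nat.card G := by
      by_contra hcon
      push Not at hcon
      apply hnpp
      rw [isPrimePow_iff_unique_prime_dvd]
      refine ⟨(Nat.card G).minFac, ⟨Nat.minFac_prime hnt, Nat.minFac_dvd _⟩, ?_⟩
      rintro r ⟨hr, hrd⟩
      by_contra hne
      exact hcon r _ hr (Nat.minFac_prime hnt) hne hrd (Nat.minFac_dvd _)
    obtain ⟨p, q, hp, hq, hpq, hpd, hqd⟩ := hex
    have : Fact p.Prime := ⟨hp⟩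
    have : Fact q.Prime := ⟨hq⟩
    obtain ⟨xp, hxp⟩ := exists_prime_orderOf_dvd_card' (G := G) p hpd
    obtain ⟨xq, hxq⟩ := exists_prime_orderOf_dvd_card' (G := G) q hqd
    have hxp1 : xp ≠ 1 := by
      rintro rfl
      rw [orderOf_one] at hxp
      exact hp.one_lt.ne hxp
    have hxq1 : xq ≠ 1 := by
      rintro rfl
      rw [orderOf_one] at hxq
      exact hq.one_lt.ne hxq
    have hreps := reps_of_card_eq_three h3 (Quotient.mk'' 1) (Quotient.mk'' xp) (Quotient.mk'' xq)
      (by
        rw [Ne, orbit_mk_eq_iff]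
        rintro ⟨α, hα⟩
        exact hxp1 ((MulEquiv.map_eq_one_iff α).1 hα))
      (by
        rw [Ne, orbit_mk_eq_iff]
        rintro ⟨α, hα⟩
        exact hxq1 ((MulEquiv.map_eq_one_iff α).1 hα))
      (by
        rw [Ne, orbit_mk_eq_iff]
        rintro ⟨α, hα⟩
        have h1 := MulEquiv.orderOf_eq α xq
        rw [hα, hxp, hxq] at h1
        exact hpq h1)
    have hcases : ∀ g : G, g = 1 ∨ (∃ α : MulAut G, α xp = g) ∨ (∃ α : MulAut G, α xq = g) := by
      intro g
      rcases hreps (Quotient.mk'' g) with h | h | h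
      · left
        rw [orbit_mk_eq_iff] at h
        obtain ⟨α, hα⟩ := h
        rw [← hα, map_one]
      · right; left
        exact (orbit_mk_eq_iff _ _).1 h
      · right; right
        exact (orbit_mk_eq_iff _ _).1 h
    have hord : ∀ g : G, g = 1 ∨ orderOf g = p ∨ orderOf g = q := by
      intro g
      rcases hcases g with h | ⟨α, rfl⟩ | ⟨α, rfl⟩
      · exact Or.inl h
      · right; left; rw [MulEquiv.orderOf_eq, hxp]
      · right; right; rw [MulEquiv.orderOf_eq, hxq]
    have hP : ∀ g h : G, orderOf g = p → orderOf h = p → ∃ α : MulAut G, α g = h := by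
      have key : ∀ g : G, orderOf g = p → ∃ α : MulAut G, α xp = g := by
        intro g hg
        rcases hcases g with h | h | ⟨α, rfl⟩
        · rw [h, orderOf_one] at hg
          exact absurd hg hp.one_lt.ne
        · exact h
        · rw [MulEquiv.orderOf_eq, hxq] at hg
          exact absurd hg.symm hpq
      intro g h hg hh
      obtain ⟨α, rfl⟩ := key g hg
      obtain ⟨β, rfl⟩ := key h hh
      exact ⟨β * α⁻¹, by simp⟩
    have hQ : ∀ g h : G, orderOf g = q → orderOf h = q → ∃ α : MulAut G, α g = h := by
      have key : ∀ g : G, orderOf g = q → ∃ α : MulAut G, α xq = g := by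
        intro g hg
        rcases hcases g with h | ⟨α, rfl⟩ | h
        · rw [h, orderOf_one] at hg
          exact absurd hg hq.one_lt.ne
        · rw [MulEquiv.orderOf_eq, hxp] at hg
          exact absurd hg hpq
        · exact h
      intro g h hg hh
      obtain ⟨α, rfl⟩ := key g hg
      obtain ⟨β, rfl⟩ := key h hh
      exact ⟨β * α⁻¹, by simp⟩
    -- solvability
    have hform : ∃ a b : ℕ, Nat.card G = p ^ a * q ^ b := by
      obtain ⟨a, m, hm, hcard⟩ := Nat.exists_eq_pow_mul_and_not_dvd (n := Nat.card G)
        Nat.card_pos.ne' p hp.ne_one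
      have hm0 : m ≠ 0 := by
        rintro rfl
        exact hm (dvd_zero p)
      refine ⟨a, m.primeFactorsList.length, ?_⟩
      rw [hcard]
      congr 1
      refine Nat.eq_prime_pow_of_unique_prime_dvd hm0 ?_
      intro r hr hrd
      have : Fact r.Prime := ⟨hr⟩
      obtain ⟨x, hx⟩ := exists_prime_orderOf_dvd_card' (G := G) r
        (hrd.trans (hcard ▸ dvd_mul_left _ _))
      rcases hord x with h | h | h
      · rw [h, orderOf_one] at hx
        exact absurd hx.symm hr.one_lt.ne'
      · exfalso
        rw [hx] at h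
        exact hm (h ▸ hrd)
      · rw [← hx, h]
    obtain ⟨a, b, hab⟩ := hform
    have hsol : Group.IsSolvable G := Cfsg.Agent.S0144.result p q a b hp hq hab
    have hntG : Nontrivial G := by
      rw [← Finite.one_lt_card_iff_nontrivial]
      have := Nat.card_pos (α := G)
      omega
    have hctop : commutator G ≠ ⊤ := (Group.IsSolvable.commutator_lt_top_of_nontrivial G).ne
    have hcbot : ∃ g ∈ commutator G, g ≠ 1 := by
      by_contra hcon
      push Not at hcon
      have hcomm : Commute xp xq := by
        have h1 : ⁅xp, xq⁆ ∈ commutator G :=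
          Subgroup.commutator_mem_commutator (Subgroup.mem_top _) (Subgroup.mem_top _)
        exact commutatorElement_eq_one_iff_commute.1 (hcon _ h1)
      have h1 := hcomm.orderOf_mul_eq_mul_orderOf_of_coprime
        (by rw [hxp, hxq]; exact (Nat.coprime_primes hp hq).2 hpq)
      rw [hxp, hxq] at h1
      have hp2 := hp.two_le
      have hq2 := hq.two_le
      rcases hord (xp * xq) with h | h | h
      · rw [h, orderOf_one] at h1
        nlinarith
      · rw [h] at h1
        nlinarith
      · rw [h] at h1
        nlinarith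
    obtain ⟨g, hg, hg1⟩ := hcbot
    rcases hord g with h | h | h
    · exact absurd h hg1
    · obtain ⟨n, hn⟩ := forward_aux hpq hord hP hQ ⟨xq, hxq⟩ ⟨g, hg, h⟩ hctop
      exact ⟨p, q, n, inferInstance, inferInstance, hpq, hn⟩
    · obtain ⟨n, hn⟩ := forward_aux (p := q) (q := p) hpq.symm
        (fun g => (hord g).imp_right Or.symm) hQ hP ⟨xp, hxp⟩ ⟨g, hg, h⟩ hctop
      exact ⟨q, p, n, inferInstance, inferInstance, hpq.symm, hn⟩
  · rintro ⟨p, q, n, hp, hq, hpq, hn, hcard, hS, hord, hfpf⟩
    exact backward hpq hn hcard hS hord hfpf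

end Cfsg.Agent.S4081
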