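import Cfsg.Statements.S4082
import Cfsg.Agent.Lib.Helper2.PByCyc

set_option autoImplicit false
open Cfsg

namespace Cfsg.Agent.S4082


open Cfsg.Agent.Lib.Helper2 in
theorem backward_aux {G : Type*} [Group G] [Finite G] {p : ℕ} [hp : Fact p.Prime] (hp2 : p ≠ 2)
    (P : Sylow p G)
    (hR : IsCyclic P ∧
      (Subgroup.normalizer ((P : Subgroup G) : Set G) = Subgroup.centralizer ((P : Subgroup G) : Set G) ∨
       ((Subgroup.centralizer ((P : Subgroup G) : Set G)).relIndex (Subgroup.normalizer ((P : Subgroup G) : Set G)) = 2 ∧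
        ∀ Q : Subgroup G, Q ≤ P → Nat.card Q = p →
          IsMulCommutative ↥(Subgroup.centralizer (Q : Set G)) ∧
          ∀ x : G, x ∈ Subgroup.normalizer (Q : Set G) → x ∉ Subgroup.centralizer (Q : Set G) →
            orderOf x = 2 ∧ ∀ c : G, c ∈ Subgroup.centralizer (Q : Set G) → x * c * x⁻¹ = c⁻¹)))
    {H S : Subgroup G} {y : G} (hSH : S ≤ H) (hS : IsPGroup p S)
    (hHN : H ≤ Subgroup.normalizer (S : Set G)) (hyH : y ∈ H) (hyodd : (orderOf y).Coprime p)
    (hcard : Nat.card H ∣ Nat.card S * orderOf y) (hSP : S ≤ P) :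
    IsCyclic H ∨ (∃ n : ℕ, Nonempty (H ≃* DihedralGroup (p ^ n))) := by
  obtain ⟨hPc, hR⟩ := hR
  have hSc : IsCyclic S := Subgroup.isCyclic_of_le hSP
  have hyN : y ∈ Subgroup.normalizer (S : Set G) := hHN hyH
  rcases hR with hNC | ⟨-, hQ⟩
  · left
    apply isCyclic_of_p_by_cyclic_data hSH hS hyH hyodd hcard hSc
    have hPS : (P : Subgroup G) ≤ Subgroup.centralizer (S : Set G) := fun u hu =>
      Subgroup.mem_centralizer_iff.2 (fun s hs => comm_of_mem_isCyclic hPc (hSP hs) hu)
    have hPS' : ((y • P : Sylow p G) : Subgroup G) ≤ Subgroup.centralizer (S : Set G) := by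
      intro u hu
      have hu' : y⁻¹ * u * y ∈ P := mem_sylow_smul_iff.1 hu
      rw [Subgroup.mem_centralizer_iff]
      intro s hs
      have hs' : y⁻¹ * s * y ∈ S := by
        have := (Subgroup.mem_normalizer_iff.1 (Subgroup.inv_mem _ hyN) s).1 hs
        simpa using this
      have h1 := comm_of_mem_isCyclic hPc (hSP hs') hu'
      have h2 : y⁻¹ * (s * u) * y = y⁻¹ * (u * s) * y := by
        calc y⁻¹ * (s * u) * y = (y⁻¹ * s * y) * (y⁻¹ * u * y) := by group
          _ = (y⁻¹ * u * y) * (y⁻¹ * s * y) := h1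
          _ = y⁻¹ * (u * s) * y := by group
      exact mul_left_cancel (mul_right_cancel h2)
    obtain ⟨h, hh, hhP⟩ := sylow_conj_in P (y • P) hPS hPS'
    rw [← mul_smul, Sylow.smul_eq_iff_mem_normalizer] at hhP
    have hhP' : h * y ∈ Subgroup.normalizer ((P : Subgroup G) : Set G) := hhP
    rw [hNC] at hhP'
    have h3 : h * y ∈ Subgroup.centralizer (S : Set G) :=
      Subgroup.centralizer_le (by exact_mod_cast hSP) hhP'
    have := Subgroup.mul_mem _ (Subgroup.inv_mem _ hh) h3
    simpa using this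
  · by_cases hSb : S = ⊥
    · left
      apply isCyclic_of_p_by_cyclic_data hSH hS hyH hyodd hcard hSc
      rw [hSb, Subgroup.mem_centralizer_iff]
      intro s hs
      have : s = 1 := hs
      rw [this]; simp
    · -- a subgroup of order `p`
      obtain ⟨n, hn⟩ := IsPGroup.iff_card.1 hS
      have hpS : p ∣ Nat.card S := by
        rcases n with _ | n
        · exfalso
          apply hSb
          rw [pow_zero] at hn
          exact Subgroup.card_eq_one.1 hn
        · rw [hn]; exact Dvd.intro_left _ (pow_succ p n).symm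
      obtain ⟨u, hu⟩ := exists_prime_orderOf_dvd_card' (G := S) p hpS
      obtain ⟨Q, hQdef⟩ : ∃ Q : Subgroup G, Q = Subgroup.zpowers (u : G) := ⟨_, rfl⟩
      have hQS : Q ≤ S := by rw [hQdef, Subgroup.zpowers_le]; exact u.2
      have hQc : Nat.card Q = p := by rw [hQdef, Nat.card_zpowers, Subgroup.orderOf_coe, hu]
      have hyQ : y ∈ Subgroup.normalizer (Q : Set G) := by
        have h1 : Q.map (MulAut.conj y).toMonoidHom = Q := by
          apply eq_of_card_prime_of_le_cyclic S hSc hS _ _ _ hQS _ hQc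
          · rintro _ ⟨v, hv, rfl⟩
            exact (Subgroup.mem_normalizer_iff.1 hyN v).1 (hQS hv)
          · rw [Subgroup.card_map_of_injective (MulAut.conj y).injective, hQc]
        apply Cfsg.Agent.Lib.Helper72.mem_normalizer_of_conj_mem
        intro v hv
        rw [← h1]
        exact ⟨v, hv, rfl⟩
      obtain ⟨hCab, hinv⟩ := hQ Q (hQS.trans hSP) hQc
      have hSCQ : S ≤ Subgroup.centralizer (Q : Set G) := fun s hs =>
        Subgroup.mem_centralizer_iff.2 (fun v hv => comm_of_mem_isCyclic hSc (hQS hv) hs)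
      by_cases hyC : y ∈ Subgroup.centralizer (Q : Set G)
      · left
        apply isCyclic_of_p_by_cyclic_data hSH hS hyH hyodd hcard hSc
        rw [Subgroup.mem_centralizer_iff]
        intro s hs
        exact congrArg Subtype.val (hCab.is_comm.comm ⟨s, hSCQ hs⟩ ⟨y, hyC⟩)
      · right
        obtain ⟨ho2, hinvC⟩ := hinv y hyQ hyC
        obtain ⟨s, hs⟩ := (Subgroup.isCyclic_iff_exists_zpowers_eq_top S).1 hSc
        have hsS : s ∈ S := hs ▸ Subgroup.mem_zpowers s
        have hos : orderOf s = p ^ n := by rw [← hn, ← hs, Nat.card_zpowers]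
        have hcH : Nat.card H = 2 * p ^ n := by
          rw [ho2, hn, mul_comm] at hcard
          apply Nat.dvd_antisymm hcard
          apply Nat.Coprime.mul_dvd_of_dvd_of_dvd
          · exact Nat.Coprime.pow_right n ((Nat.coprime_primes Nat.prime_two hp.out).2 (Ne.symm hp2))
          · rw [← ho2, ← Subgroup.orderOf_mk y hyH]; exact orderOf_dvd_natCard _
          · rw [← hn]; exact Subgroup.card_dvd_of_le hSH
        haveI : NeZero (p ^ n) := ⟨(pow_pos hp.out.pos n).ne'⟩
        refine ⟨n, Cfsg.Agent.Lib.Helper73.nonempty_mulEquiv_dihedralGroup (p ^ n)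
          (⟨s, hSH hsS⟩ : H) ⟨y, hyH⟩ ?_ ?_ ?_ ?_ hcH⟩
        · rw [Subgroup.orderOf_mk, hos]
        · ext
          have := pow_orderOf_eq_one y
          rw [ho2] at this
          simpa using this
        · ext
          simpa using hinvC s (hSCQ hsS)
        · intro h
          obtain ⟨i, hi⟩ := Subgroup.mem_zpowers_iff.1 h
          apply hyC
          have h1 : s ^ i = y := by simpa using congrArg Subtype.val hi
          rw [← h1]
          exact hSCQ (S.zpow_mem hsS i)

open Cfsg.Agent.Lib.Helper2 in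
theorem backward {G : Type*} [Group G] [Finite G] {p : ℕ} [hp : Fact p.Prime] (hp2 : p ≠ 2)
    (P : Sylow p G)
    (hR : IsCyclic P ∧
      (Subgroup.normalizer ((P : Subgroup G) : Set G) = Subgroup.centralizer ((P : Subgroup G) : Set G) ∨
       ((Subgroup.centralizer ((P : Subgroup G) : Set G)).relIndex (Subgroup.normalizer ((P : Subgroup G) : Set G)) = 2 ∧
        ∀ Q : Subgroup G, Q ≤ P → Nat.card Q = p →
          IsMulCommutative ↥(Subgroup.centralizer (Q : Set G)) ∧
          ∀ x : G, x ∈ Subgroup.normalizer (Q : Set G) → x ∉ Subgroup.centralizer (Q : Set G) →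
            orderOf x = 2 ∧ ∀ c : G, c ∈ Subgroup.centralizer (Q : Set G) → x * c * x⁻¹ = c⁻¹)))
    (H : Subgroup G) (hN : ∀ S : Sylow p ↥H, (S : Subgroup ↥H).Normal)
    (hC : ∀ (S : Sylow p ↥H) [(S : Subgroup ↥H).Normal], IsCyclic (↥H ⧸ (S : Subgroup ↥H))) :
    IsCyclic H ∨ (∃ n : ℕ, Nonempty (H ≃* DihedralGroup (p ^ n))) := by
  obtain ⟨S, y, hSH, hS, hHN, hyH, hyodd, hcard⟩ := exists_p_by_cyclic_data H hN hC
  obtain ⟨P', hP'⟩ := hS.exists_le_sylow
  obtain ⟨g, hg⟩ := MulAction.exists_smul_eq G P P'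
  obtain ⟨φ, hφ⟩ : ∃ φ : G →* G, φ = (MulAut.conj g⁻¹).toMonoidHom := ⟨_, rfl⟩
  have hφx : ∀ x, φ x = g⁻¹ * x * g := fun x => by simp [hφ]
  have hφi : Function.Injective φ := by rw [hφ]; exact (MulAut.conj g⁻¹).injective
  have hSP : S.map φ ≤ P := by
    rintro _ ⟨x, hx, rfl⟩
    rw [hφx]
    have h1 : x ∈ g • P := by rw [hg]; exact hP' hx
    exact mem_sylow_smul_iff.1 h1
  have key := backward_aux hp2 P hR (H := H.map φ) (S := S.map φ) (y := φ y) (Subgroup.map_mono hSH)
    (hS.map φ) (by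
      rintro _ ⟨h, hh, rfl⟩
      apply Cfsg.Agent.Lib.Helper72.mem_normalizer_of_conj_mem
      rintro _ ⟨s, hs, rfl⟩
      exact ⟨h * s * h⁻¹, (Subgroup.mem_normalizer_iff.1 (hHN hh) s).1 hs, by simp⟩)
    ⟨y, hyH, rfl⟩ (by rw [orderOf_injective φ hφi]; exact hyodd)
    (by rw [orderOf_injective φ hφi, Subgroup.card_map_of_injective hφi,
      Subgroup.card_map_of_injective hφi]; exact hcard) hSP
  have e : H ≃* H.map φ := Subgroup.equivMapOfInjective H φ hφi
  rcases key with h | ⟨n, ⟨e'⟩⟩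
  · left
    exact isCyclic_of_injective e.toMonoidHom e.injective
  · right
    exact ⟨n, ⟨e.trans e'⟩⟩

open Cfsg.Agent.Lib.Helper2 in
theorem forward {G : Type*} [Group G] [Finite G] {p : ℕ} [hp : Fact p.Prime] (hp2 : p ≠ 2)
    (P : Sylow p G)
    (hL : ∀ H : Subgroup G, (∀ S : Sylow p ↥H, (S : Subgroup ↥H).Normal) →
        (∀ (S : Sylow p ↥H) [(S : Subgroup ↥H).Normal], IsCyclic (↥H ⧸ (S : Subgroup ↥H))) →
        IsCyclic H ∨ (∃ n : ℕ, Nonempty (H ≃* DihedralGroup (p ^ n)))) :
    (IsCyclic P ∧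
      (Subgroup.normalizer ((P : Subgroup G) : Set G) = Subgroup.centralizer ((P : Subgroup G) : Set G) ∨
       ((Subgroup.centralizer ((P : Subgroup G) : Set G)).relIndex (Subgroup.normalizer ((P : Subgroup G) : Set G)) = 2 ∧
        ∀ Q : Subgroup G, Q ≤ P → Nat.card Q = p →
          IsMulCommutative ↥(Subgroup.centralizer (Q : Set G)) ∧
          ∀ x : G, x ∈ Subgroup.normalizer (Q : Set G) → x ∉ Subgroup.centralizer (Q : Set G) →
            orderOf x = 2 ∧ ∀ c : G, c ∈ Subgroup.centralizer (Q : Set G) → x * c * x⁻¹ = c⁻¹))) := by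
  have hcop2 : Nat.Coprime 2 p := (Nat.coprime_primes Nat.prime_two hp.out).2 (Ne.symm hp2)
  -- `P` is cyclic
  have hPc : IsCyclic (P : Subgroup G) := by
    have htop : ∀ S : Sylow p ↥(P : Subgroup G), (S : Subgroup ↥(P : Subgroup G)) = ⊤ := fun S =>
      (S.is_maximal' (Q := ⊤) (P.2.to_subgroup ⊤) le_top).symm
    have hN : ∀ S : Sylow p ↥(P : Subgroup G), (S : Subgroup ↥(P : Subgroup G)).Normal := fun S => by
      rw [htop S]; infer_instance
    have hC : ∀ (S : Sylow p ↥(P : Subgroup G)) [(S : Subgroup ↥(P : Subgroup G)).Normal],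
        IsCyclic (↥(P : Subgroup G) ⧸ (S : Subgroup ↥(P : Subgroup G))) := by
      intro S hS
      have h1 : Nat.card (↥(P : Subgroup G) ⧸ (S : Subgroup ↥(P : Subgroup G))) = 1 := by
        rw [← Subgroup.index_eq_card, Subgroup.index_eq_one]; exact htop S
      haveI : Subsingleton (↥(P : Subgroup G) ⧸ (S : Subgroup ↥(P : Subgroup G))) :=
        (Nat.card_eq_one_iff_unique.1 h1).1
      exact isCyclic_of_subsingleton
    rcases hL P hN hC with hc | ⟨n, ⟨e⟩⟩
    · exact hc
    · exfalso
      obtain ⟨k, hk⟩ := IsPGroup.iff_card.1 P.2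
      rw [Nat.card_congr e.toEquiv, DihedralGroup.nat_card] at hk
      have h2 : 2 ∣ p ^ k := hk ▸ Dvd.intro _ rfl
      have := (Nat.prime_dvd_prime_iff_eq Nat.prime_two hp.out).1 (Nat.prime_two.dvd_of_dvd_pow h2)
      exact hp2 this.symm
  refine ⟨hPc, ?_⟩
  by_cases hNC : Subgroup.normalizer ((P : Subgroup G) : Set G) =
      Subgroup.centralizer ((P : Subgroup G) : Set G)
  · exact Or.inl hNC
  right
  have hCN : Subgroup.centralizer ((P : Subgroup G) : Set G) ≤
      Subgroup.normalizer ((P : Subgroup G) : Set G) := Subgroup.centralizer_le_normalizer _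
  obtain ⟨x₀, hx₀N, hx₀C⟩ : ∃ x, x ∈ Subgroup.normalizer ((P : Subgroup G) : Set G) ∧
      x ∉ Subgroup.centralizer ((P : Subgroup G) : Set G) := by
    by_contra hcon
    push Not at hcon
    exact hNC (le_antisymm hcon hCN)
  have hinvP : ∀ x, x ∈ Subgroup.normalizer ((P : Subgroup G) : Set G) →
      x ∉ Subgroup.centralizer ((P : Subgroup G) : Set G) → ∀ u ∈ (P : Subgroup G), x * u * x⁻¹ = u⁻¹ :=
    fun x hxN hxC => (inverts_of_restricted hp2 hL P P.2 x hxN hxC).2
  constructor
  · rw [Subgroup.relIndex, Subgroup.index_eq_two_iff]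
    refine ⟨⟨x₀, hx₀N⟩, fun b => ?_⟩
    rw [Subgroup.mem_subgroupOf, Subgroup.mem_subgroupOf]
    by_cases hb : (b : G) ∈ Subgroup.centralizer ((P : Subgroup G) : Set G)
    · right
      refine ⟨hb, fun h => hx₀C ?_⟩
      have := Subgroup.mul_mem _ (Subgroup.inv_mem _ hb) h
      simpa using this
    · left
      refine ⟨?_, hb⟩
      show (b : G) * x₀ ∈ _
      rw [Subgroup.mem_centralizer_iff]
      intro u hu
      have h1 := hinvP x₀ hx₀N hx₀C u hu
      have h2 := hinvP b b.2 hb u⁻¹ (Subgroup.inv_mem _ hu)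
      rw [inv_inv] at h2
      calc u * ((b : G) * x₀) = ((b : G) * u⁻¹ * (b : G)⁻¹) * ((b : G) * x₀) := by rw [h2]
        _ = (b : G) * (x₀ * u * x₀⁻¹) * x₀ := by rw [h1]; group
        _ = (b : G) * x₀ * u := by group
  · intro Q hQP hQc
    have hQp : IsPGroup p Q := P.2.to_le hQP
    have hinvol : ∀ x : G, x ∈ Subgroup.normalizer (Q : Set G) → x ∉ Subgroup.centralizer (Q : Set G) →
        x * x = 1 := fun x hxN hxC => (inverts_of_restricted hp2 hL Q hQp x hxN hxC).1
    have hinvC : ∀ x : G, x ∈ Subgroup.normalizer (Q : Set G) → x ∉ Subgroup.centralizer (Q : Set G) →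
        ∀ c : G, c ∈ Subgroup.centralizer (Q : Set G) → x * c * x⁻¹ = c⁻¹ := by
      intro x hxN hxC c hc
      have hxx := hinvol x hxN hxC
      have hxc : (x * c) * (x * c) = 1 := by
        apply hinvol
        · exact Subgroup.mul_mem _ hxN (Subgroup.centralizer_le_normalizer _ hc)
        · intro h
          apply hxC
          have := Subgroup.mul_mem _ h (Subgroup.inv_mem _ hc)
          simpa using this
      have hxinv : x⁻¹ = x := inv_eq_of_mul_eq_one_left hxx
      rw [hxinv]
      exact eq_inv_of_mul_eq_one_left (by simpa [mul_assoc] using hxc)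
    -- `x₀` normalizes but does not centralize `Q`
    have hx₀Q : x₀ ∈ Subgroup.normalizer (Q : Set G) := by
      apply Cfsg.Agent.Lib.Helper72.mem_normalizer_of_conj_mem
      intro u hu
      rw [hinvP x₀ hx₀N hx₀C u (hQP hu)]
      exact Q.inv_mem hu
    have hx₀Q' : x₀ ∉ Subgroup.centralizer (Q : Set G) := by
      intro h
      have hQne : Q ≠ ⊥ := by
        intro hb
        rw [hb, Subgroup.card_bot] at hQc
        exact hp.out.one_lt.ne hQc
      obtain ⟨u, hu1⟩ := Subgroup.ne_bot_iff_exists_ne_one.1 hQne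
      have h1 := hinvP x₀ hx₀N hx₀C u (hQP u.2)
      have h2 : (u : G) * x₀ = x₀ * u := Subgroup.mem_centralizer_iff.1 h u u.2
      have h3 : (u : G)⁻¹ = u := by
        rw [← h1, ← h2]; group
      have h4 : (u : G) ^ 2 = 1 := by
        rw [sq]
        nth_rewrite 1 [← h3]
        exact inv_mul_cancel _
      have h5 : (orderOf (u : G)).Coprime p :=
        Nat.Coprime.coprime_dvd_left (orderOf_dvd_of_pow_eq_one h4) hcop2
      exact hu1 (Subtype.ext (eq_one_of_mem_pGroup_of_coprime hQp u.2 h5))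
    refine ⟨⟨⟨fun c d => ?_⟩⟩, fun x hxN hxC => ⟨?_, hinvC x hxN hxC⟩⟩
    · apply Subtype.ext
      show (c : G) * d = d * c
      have h1 := hinvC x₀ hx₀Q hx₀Q' _ (Subgroup.mul_mem _ c.2 d.2)
      have h2 := hinvC x₀ hx₀Q hx₀Q' _ c.2
      have h3 := hinvC x₀ hx₀Q hx₀Q' _ d.2
      have h4 : ((c : G) * d)⁻¹ = (c : G)⁻¹ * (d : G)⁻¹ := by
        rw [← h1, ← h2, ← h3]; group
      rw [mul_inv_rev] at h4
      have h5 := congrArg (fun z => z⁻¹) h4
      simpa using h5
    · apply orderOf_eq_prime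
      · rw [sq]; exact hinvol x hxN hxC
      · rintro rfl
        exact hxC (Subgroup.one_mem _)

/-- Let p be an odd prime and G a finite group with Sylow p-subgroup P. Say that G has restricted p-by-cyclic subgroups when every subgroup H of G whose Sylow p-subgroup is normal in H with cyclic quotient is itself cyclic or dihedral of order 2pⁿ for some n. Then G has restricted p-by-cyclic subgroups if and only if P is cyclic and one of the following holds: (1) N_G(P) = C_G(P); or (2) N_G(P)/C_G(P) has order 2 and, for the subgroup Q of order p of P, the centralizer C_G(Q) is abelian and every element of N_G(Q) outside C_G(Q) is an involution inverting every element of C_G(Q). -/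
theorem result {G : Type*} [Group G] [Finite G] {p : ℕ}
    [Fact p.Prime] (hp : p ≠ 2) (P : Sylow p G) :
    (∀ H : Subgroup G, (∀ S : Sylow p ↥H, (S : Subgroup ↥H).Normal) →
        (∀ (S : Sylow p ↥H) [(S : Subgroup ↥H).Normal], IsCyclic (↥H ⧸ (S : Subgroup ↥H))) →
        IsCyclic H ∨ (∃ n : ℕ, Nonempty (H ≃* DihedralGroup (p ^ n)))) ↔
    (IsCyclic P ∧
      (Subgroup.normalizer ((P : Subgroup G) : Set G) = Subgroup.centralizer ((P : Subgroup G) : Set G) ∨
       ((Subgroup.centralizer ((P : Subgroup G) : Set G)).relIndex (Subgroup.normalizer ((P : Subgroup G) : Set G)) = 2 ∧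
        ∀ Q : Subgroup G, Q ≤ P → Nat.card Q = p →
          IsMulCommutative ↥(Subgroup.centralizer (Q : Set G)) ∧
          ∀ x : G, x ∈ Subgroup.normalizer (Q : Set G) → x ∉ Subgroup.centralizer (Q : Set G) →
            orderOf x = 2 ∧ ∀ c : G, c ∈ Subgroup.centralizer (Q : Set G) → x * c * x⁻¹ = c⁻¹))) := by
  exact ⟨fun hL => forward hp P hL, fun hR H hN hC => backward hp P hR H hN hC⟩

end Cfsg.Agent.S4082
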