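import Cfsg.Statements.S4083
import Cfsg.Agent.Lib.Helper2.TwoByCyc

set_option autoImplicit false
open Cfsg

namespace Cfsg.Agent.S4083


open Cfsg.Agent.Lib.Helper2 in
theorem backward {G : Type*} [Group G] [Finite G] (P : Sylow 2 G)
    (hR : IsCyclic P ∨
      ((∃ n : ℕ, 1 ≤ n ∧ Nonempty ((P : Subgroup G) ≃* DihedralGroup (2 ^ n))) ∧
        ∀ K : Subgroup G, K ≤ P → Nat.card K = 4 → (∀ k ∈ K, k ^ 2 = 1) →
          Subgroup.centralizer (K : Set G) = K))
    (H : Subgroup G) (hN : ∀ S : Sylow 2 ↥H, (S : Subgroup ↥H).Normal)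
    (hC : ∀ (S : Sylow 2 ↥H) [(S : Subgroup ↥H).Normal], IsCyclic (↥H ⧸ (S : Subgroup ↥H))) :
    IsCyclic H ∨ (∃ n : ℕ, Nonempty (H ≃* DihedralGroup (2 ^ n))) ∨
      Nonempty (H ≃* alternatingGroup (Fin 4)) := by
  haveI : Fact (2 : ℕ).Prime := ⟨Nat.prime_two⟩
  obtain ⟨Q, y, hQH, hQ2, hHN, hyH, hyodd, hcard⟩ := exists_two_by_cyclic_data H hN hC
  by_cases hQc : IsCyclic Q
  · left
    have hyc := Cfsg.Agent.Lib.Helper72.mem_centralizer_of_isCyclic Q hQ2 hQc y (hHN hyH) hyodd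
    obtain ⟨s, hs⟩ := (Subgroup.isCyclic_iff_exists_zpowers_eq_top Q).1 hQc
    have hsQ : s ∈ Q := hs ▸ Subgroup.mem_zpowers s
    have hcomm : Commute s y := Subgroup.mem_centralizer_iff.1 hyc s hsQ
    have hos : orderOf s = Nat.card Q := by rw [← hs, Nat.card_zpowers]
    obtain ⟨k, hk⟩ := IsPGroup.iff_card.1 hQ2
    have hcop : (orderOf s).Coprime (orderOf y) := by
      rw [hos, hk]
      exact (Nat.Coprime.pow_right k hyodd).symm
    have ho := hcomm.orderOf_mul_eq_mul_orderOf_of_coprime hcop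
    have hmem : s * y ∈ H := H.mul_mem (hQH hsQ) hyH
    apply isCyclic_of_orderOf_eq_card (⟨s * y, hmem⟩ : H)
    rw [Subgroup.orderOf_mk, ho, hos]
    apply Nat.dvd_antisymm _ hcard
    rw [← hos, ← ho, ← Subgroup.orderOf_mk _ hmem]
    exact orderOf_dvd_natCard _
  · have hPc : ¬ IsCyclic (P : Subgroup G) := fun h =>
      hQc (isCyclic_of_two_group_of_sylow_cyclic P h Q hQ2)
    obtain ⟨⟨n, hn, ⟨e⟩⟩, hK⟩ := hR.resolve_left hPc
    obtain ⟨S₀, hQS, ⟨e0⟩⟩ := exists_le_iso_sylow_two P Q hQ2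
    obtain ⟨A, hA, h1, h2⟩ := Cfsg.Agent.Lib.Helper72.exists_dihedral_data S₀ _ (e0.trans e)
    obtain ⟨⟨k, ⟨eQ⟩⟩, K, hKQ, hK4⟩ := dihedral_of_not_cyclic S₀ A hA h1 h2 Q hQS hQ2 hQc
    have hfour : ∀ K : Subgroup G, IsKleinFour K → Subgroup.centralizer (K : Set G) = K :=
      fun K hK4 => centralizer_four_eq P hK K hK4.card_four
        (fun k hk => Cfsg.Agent.Lib.Helper9.IsKleinFour.sq_eq_one hK4 hk)
    by_cases hy1 : y = 1
    · right; left
      have hHQ : Q = H := by
        apply Subgroup.eq_of_le_of_card_ge hQH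
        rw [hy1, orderOf_one, mul_one] at hcard
        exact Nat.le_of_dvd Nat.card_pos hcard
      subst hHQ
      exact ⟨k, ⟨eQ⟩⟩
    · rcases Cfsg.Agent.Lib.Helper72.centralizes_or_kleinFour S₀ A hA h1 h2 Q hQS hQ2 y (hHN hyH)
        hyodd with hyc | hQ4
      · exfalso
        have h3 : y ∈ K := by
          rw [← hfour K hK4]
          exact Subgroup.centralizer_le (by exact_mod_cast hKQ) hyc
        exact hy1 (eq_one_of_mem_two_group_of_odd hQ2 (hKQ h3) hyodd)
      · right; right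
        have hCQ := hfour Q hQ4
        have hy3 : y ^ 3 = 1 := pow_three_eq_one_of_normalizes_four hQ4 hCQ
          (fun x hx => (Subgroup.mem_normalizer_iff.1 (hHN hyH) x).1 hx) hyodd
        have hoy : orderOf y = 3 := orderOf_eq_prime hy3 hy1
        have hcH : Nat.card H = 12 := by
          rw [hoy, hQ4.card_four] at hcard
          have h4 : 4 ∣ Nat.card H := hQ4.card_four ▸ Subgroup.card_dvd_of_le hQH
          have h3 : 3 ∣ Nat.card H := by
            rw [← hoy, ← Subgroup.orderOf_mk y hyH]; exact orderOf_dvd_natCard _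
          have h12 : 4 * 3 ∣ Nat.card H := Nat.Coprime.mul_dvd_of_dvd_of_dvd (by norm_num) h4 h3
          exact Nat.dvd_antisymm hcard h12
        haveI : (Q.subgroupOf H).Normal := (Subgroup.normal_subgroupOf_iff_le_normalizer hQH).2 hHN
        apply Cfsg.Agent.Lib.Helper14.klein_normal_equiv_alt (Q.subgroupOf H)
          (Cfsg.Agent.Lib.Helper14.isKleinFour_of_mulEquiv (Subgroup.subgroupOfEquivOfLe hQH).symm hQ4)
          _ hcH
        ext x
        have hx : (x : G) ∈ Q ↔ (x : G) ∈ Subgroup.centralizer (Q : Set G) := by rw [hCQ]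
        rw [Subgroup.mem_subgroupOf, hx, Subgroup.mem_centralizer_iff, Subgroup.mem_centralizer_iff]
        constructor
        · intro h w hw
          have := h ⟨w, hQH hw⟩ (by
            show (⟨w, hQH hw⟩ : H) ∈ Q.subgroupOf H
            rw [Subgroup.mem_subgroupOf]; exact hw)
          exact congrArg Subtype.val this
        · intro h w hw
          apply Subtype.ext
          exact h w.1 (Subgroup.mem_subgroupOf.mp hw)

theorem not_comm_alt_four : ¬ ∀ a b : alternatingGroup (Fin 4), a * b = b * a := by decide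

theorem card_alt_four : Nat.card (alternatingGroup (Fin 4)) = 12 := by
  rw [Nat.card_eq_fintype_card]; decide

theorem dihedral_comm_le {n : ℕ} (h : ∀ a b : DihedralGroup (2 ^ n), a * b = b * a) : n ≤ 1 := by
  have h1 := h (DihedralGroup.r 1) (DihedralGroup.sr 0)
  rw [DihedralGroup.r_mul_sr, DihedralGroup.sr_mul_r] at h1
  have h2 : (0 : ZMod (2 ^ n)) - 1 = 0 + 1 := by simpa using h1
  have h3 : ((2 : ℕ) : ZMod (2 ^ n)) = 0 := by
    have : (2 : ZMod (2 ^ n)) = (0 + 1) - (0 - 1) := by ring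
    rw [Nat.cast_ofNat, this, h2]; ring
  rw [ZMod.natCast_eq_zero_iff] at h3
  by_contra hn
  push Not at hn
  have h4 : 2 ^ 2 ∣ 2 ^ n := pow_dvd_pow 2 hn
  have h5 := Nat.le_of_dvd (by norm_num) (h4.trans h3)
  norm_num at h5

open Cfsg.Agent.Lib.Helper2 in
theorem forward_centralizer {G : Type*} [Group G] [Finite G]
    (hL : ∀ H : Subgroup G, (∀ S : Sylow 2 ↥H, (S : Subgroup ↥H).Normal) →
        (∀ (S : Sylow 2 ↥H) [(S : Subgroup ↥H).Normal], IsCyclic (↥H ⧸ (S : Subgroup ↥H))) →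
        IsCyclic H ∨ (∃ n : ℕ, Nonempty (H ≃* DihedralGroup (2 ^ n))) ∨
          Nonempty (H ≃* alternatingGroup (Fin 4)))
    (K : Subgroup G) (h4 : Nat.card K = 4) (h2 : ∀ k ∈ K, k ^ 2 = 1) :
    Subgroup.centralizer (K : Set G) = K := by
  haveI : Fact (2 : ℕ).Prime := ⟨Nat.prime_two⟩
  have hK2 : IsPGroup 2 K := IsPGroup.of_card (n := 2) (by rw [h4]; norm_num)
  have hKc : ∀ a ∈ K, ∀ b ∈ K, a * b = b * a := by
    intro a ha b hb
    have h1 : a⁻¹ = a := inv_eq_of_mul_eq_one_left (by rw [← sq]; exact h2 a ha)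
    have h3 : b⁻¹ = b := inv_eq_of_mul_eq_one_left (by rw [← sq]; exact h2 b hb)
    have h5 : (a * b)⁻¹ = a * b :=
      inv_eq_of_mul_eq_one_left (by rw [← sq]; exact h2 _ (K.mul_mem ha hb))
    rw [← h5, mul_inv_rev, h1, h3]
  have hKK : K ≤ Subgroup.centralizer (K : Set G) := fun a ha =>
    Subgroup.mem_centralizer_iff.2 (fun b hb => hKc b hb a ha)
  apply le_antisymm _ hKK
  intro x hx
  set Z := Subgroup.zpowers x with hZ
  set H := K ⊔ Z with hH
  have hZK : Z ≤ Subgroup.centralizer (K : Set G) := Subgroup.zpowers_le.2 hx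
  have hKZ : K ≤ Subgroup.centralizer (Z : Set G) := Subgroup.le_centralizer_iff.1 hZK
  have hZZ : Z ≤ Subgroup.centralizer (Z : Set G) := by
    intro a ha
    rw [Subgroup.mem_centralizer_iff]
    intro b hb
    obtain ⟨i, rfl⟩ := Subgroup.mem_zpowers_iff.1 ha
    obtain ⟨j, rfl⟩ := Subgroup.mem_zpowers_iff.1 hb
    rw [← zpow_add, ← zpow_add, add_comm]
  have hHH : H ≤ Subgroup.centralizer (H : Set G) := by
    apply sup_le
    · exact Subgroup.le_centralizer_iff.1 (sup_le hKK hZK)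
    · exact Subgroup.le_centralizer_iff.1 (sup_le hKZ hZZ)
  have hcomm : ∀ a b : H, a * b = b * a := fun a b =>
    Subtype.ext (Subgroup.mem_centralizer_iff.1 (hHH b.2) a a.2)
  have hxH : x ∈ H := (le_sup_right : Z ≤ H) (Subgroup.mem_zpowers x)
  have hN : ∀ S : Sylow 2 ↥H, (S : Subgroup ↥H).Normal := fun S =>
    ⟨fun n hn g => by rw [hcomm g n, mul_inv_cancel_right]; exact hn⟩
  have hC : ∀ (S : Sylow 2 ↥H) [(S : Subgroup ↥H).Normal], IsCyclic (↥H ⧸ (S : Subgroup ↥H)) := by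
    intro S hS
    refine ⟨⟨QuotientGroup.mk (⟨x, hxH⟩ : H), fun q => ?_⟩⟩
    obtain ⟨h, rfl⟩ := QuotientGroup.mk_surjective q
    set T : Subgroup ↥H := (Subgroup.zpowers (QuotientGroup.mk (⟨x, hxH⟩ : H) :
      ↥H ⧸ (S : Subgroup ↥H))).comap (QuotientGroup.mk' (S : Subgroup ↥H)) with hT
    have hKS : K.subgroupOf H ≤ (S : Subgroup ↥H) := by
      have h1 : IsPGroup 2 (K.subgroupOf H) :=
        hK2.of_equiv (Subgroup.subgroupOfEquivOfLe (le_sup_left : K ≤ H)).symm
      obtain ⟨S', hS'⟩ := h1.exists_le_sylow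
      obtain ⟨g, hg⟩ := MulAction.exists_smul_eq ↥H S S'
      rw [Sylow.smul_eq_of_normal] at hg
      rw [hg]; exact hS'
    have hle : H ≤ T.map H.subtype := by
      apply sup_le
      · intro k hk
        refine ⟨⟨k, (le_sup_left : K ≤ H) hk⟩, ?_, rfl⟩
        rw [hT, SetLike.mem_coe, Subgroup.mem_comap]
        have : QuotientGroup.mk' (S : Subgroup ↥H) ⟨k, (le_sup_left : K ≤ H) hk⟩ = 1 := by
          rw [QuotientGroup.mk'_apply, QuotientGroup.eq_one_iff]
          exact hKS (Subgroup.mem_subgroupOf.2 hk)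
        rw [this]; exact Subgroup.one_mem _
      · rw [hZ, Subgroup.zpowers_le]
        exact ⟨⟨x, hxH⟩, Subgroup.mem_zpowers _, rfl⟩
    obtain ⟨h', hh', hh⟩ := hle h.2
    have : h' = h := Subtype.ext hh
    rw [← this]
    exact hh'
  rcases hL H hN hC with hc | ⟨n, ⟨e⟩⟩ | ⟨⟨e⟩⟩
  · exfalso
    have hKcyc : IsCyclic K := Subgroup.isCyclic_of_le (le_sup_left : K ≤ H)
    obtain ⟨g, hg⟩ := hKcyc.exists_generator
    have h1 : orderOf g = 4 := by rw [orderOf_eq_card_of_forall_mem_zpowers hg, h4]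
    have h3 : g ^ 2 = 1 := Subtype.ext (by simpa using h2 g g.2)
    have h5 := orderOf_dvd_of_pow_eq_one h3
    rw [h1] at h5
    norm_num at h5
  · have hn : n ≤ 1 := dihedral_comm_le (fun a b => by
      apply e.symm.injective
      rw [map_mul, map_mul, hcomm])
    have hcH : Nat.card H ≤ 4 := by
      rw [Nat.card_congr e.toEquiv, DihedralGroup.nat_card]
      have : 2 ^ n ≤ 2 ^ 1 := Nat.pow_le_pow_right (by norm_num) hn
      omega
    have hKH : K = H := Subgroup.eq_of_le_of_card_ge le_sup_left (by rw [h4]; exact hcH)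
    rw [hKH]; exact hxH
  · exfalso
    exact not_comm_alt_four (fun a b => by
      apply e.symm.injective
      rw [map_mul, map_mul, hcomm])

/-- Let G be a finite group with Sylow 2-subgroup P. Every subgroup H of G whose Sylow 2-subgroup is normal in H with cyclic quotient is cyclic, dihedral of 2-power order, or isomorphic to the alternating group of degree 4, if and only if either P is cyclic, or P is dihedral (of order at least 4) and every elementary abelian subgroup K of order 4 of P satisfies C_G(K) = K. -/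
theorem result {G : Type*} [Group G] [Finite G] (P : Sylow 2 G) :
    (∀ H : Subgroup G, (∀ S : Sylow 2 ↥H, (S : Subgroup ↥H).Normal) →
        (∀ (S : Sylow 2 ↥H) [(S : Subgroup ↥H).Normal], IsCyclic (↥H ⧸ (S : Subgroup ↥H))) →
        IsCyclic H ∨ (∃ n : ℕ, Nonempty (H ≃* DihedralGroup (2 ^ n))) ∨ Nonempty (H ≃* alternatingGroup (Fin 4))) ↔
    (IsCyclic P ∨
      ((∃ n : ℕ, 1 ≤ n ∧ Nonempty ((P : Subgroup G) ≃* DihedralGroup (2 ^ n))) ∧
        ∀ K : Subgroup G, K ≤ P → Nat.card K = 4 → (∀ k ∈ K, k ^ 2 = 1) → Subgroup.centralizer (K : Set G) = K)) := by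
  haveI : Fact (2 : ℕ).Prime := ⟨Nat.prime_two⟩
  constructor
  · intro hL
    have htop : ∀ S : Sylow 2 ↥(P : Subgroup G), (S : Subgroup ↥(P : Subgroup G)) = ⊤ := fun S =>
      (S.is_maximal' (Q := ⊤) (P.2.to_subgroup ⊤) le_top).symm
    have hN : ∀ S : Sylow 2 ↥(P : Subgroup G), (S : Subgroup ↥(P : Subgroup G)).Normal := fun S => by
      rw [htop S]; infer_instance
    have hC : ∀ (S : Sylow 2 ↥(P : Subgroup G)) [(S : Subgroup ↥(P : Subgroup G)).Normal],
        IsCyclic (↥(P : Subgroup G) ⧸ (S : Subgroup ↥(P : Subgroup G))) := by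
      intro S hS
      have h1 : Nat.card (↥(P : Subgroup G) ⧸ (S : Subgroup ↥(P : Subgroup G))) = 1 := by
        rw [← Subgroup.index_eq_card, Subgroup.index_eq_one]; exact htop S
      haveI : Subsingleton (↥(P : Subgroup G) ⧸ (S : Subgroup ↥(P : Subgroup G))) :=
        (Nat.card_eq_one_iff_unique.1 h1).1
      exact isCyclic_of_subsingleton
    rcases hL P hN hC with hc | ⟨n, ⟨e⟩⟩ | ⟨⟨e⟩⟩
    · exact Or.inl hc
    · rcases Nat.eq_zero_or_pos n with rfl | hn
      · left
        have h1 : Nat.card (P : Subgroup G) = 2 := by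
          rw [Nat.card_congr e.toEquiv, DihedralGroup.nat_card]; norm_num
        exact isCyclic_of_prime_card (p := 2) h1
      · right
        exact ⟨⟨n, hn, ⟨e⟩⟩, fun K _ h4 h2 => forward_centralizer hL K h4 h2⟩
    · exfalso
      obtain ⟨k, hk⟩ := IsPGroup.iff_card.1 P.2
      rw [Nat.card_congr e.toEquiv, card_alt_four] at hk
      have h3 : 3 ∣ 2 ^ k := hk ▸ (by norm_num : 3 ∣ 12)
      have := (Nat.prime_dvd_prime_iff_eq Nat.prime_three Nat.prime_two).1
        (Nat.prime_three.dvd_of_dvd_pow h3)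
      norm_num at this
  · intro hR H hN hC
    exact backward P hR H hN hC

end Cfsg.Agent.S4083
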