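import Mathlib
import Cfsg.Statements.S4084

set_option autoImplicit false
open Cfsg

namespace Cfsg.Agent.S4084

lemma one_dir {G H : Type*} [Group G] [Finite G] [Group H] [Finite H] (e : G ≃ H)
    (he : ∀ x y : G, Commute x y ↔ Commute (e x) (e y))
    {p q : ℕ} (hp : p.Prime) (hq : q.Prime) (hpq : p ≠ q) :
    (∃ g : G, orderOf g = p * q) → (∃ h : H, orderOf h = p * q) := by
  rintro ⟨g, hg⟩
  have hfin : {A : Subgroup G | IsMulCommutative A ∧ g ∈ A}.Finite := Set.toFinite _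
  have h0 : Subgroup.zpowers g ∈ {A : Subgroup G | IsMulCommutative A ∧ g ∈ A} :=
    ⟨inferInstance, Subgroup.mem_zpowers g⟩
  obtain ⟨A, -, hA⟩ := hfin.exists_le_maximal h0
  obtain ⟨⟨hAc, hgA⟩, hAmax⟩ := hA
  have hAcomm : ∀ a ∈ A, ∀ b ∈ A, a * b = b * a := by
    intro a ha b hb
    exact congr_arg Subtype.val ((isMulCommutative_iff.mp hAc) ⟨a, ha⟩ ⟨b, hb⟩)
  set B : Subgroup H := Subgroup.closure (e '' (A : Set G)) with hB
  have hBc : IsMulCommutative B := by
    apply Subgroup.isMulCommutative_closure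
    rintro _ ⟨a, ha, rfl⟩ _ ⟨b, hb, rfl⟩
    exact (he a b).mp (hAcomm a ha b hb)
  have hBcomm : ∀ a ∈ B, ∀ b ∈ B, a * b = b * a := by
    intro a ha b hb
    exact congr_arg Subtype.val ((isMulCommutative_iff.mp hBc) ⟨a, ha⟩ ⟨b, hb⟩)
  set A' : Subgroup G := Subgroup.closure (e.symm '' (B : Set H)) with hA'
  have hA'c : IsMulCommutative A' := by
    apply Subgroup.isMulCommutative_closure
    rintro _ ⟨a, ha, rfl⟩ _ ⟨b, hb, rfl⟩
    apply (he _ _).mpr
    rw [Equiv.apply_symm_apply, Equiv.apply_symm_apply]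
    exact hBcomm a ha b hb
  have hAA' : A ≤ A' := by
    intro a ha
    apply Subgroup.subset_closure
    exact ⟨e a, Subgroup.subset_closure ⟨a, ha, rfl⟩, by simp⟩
  have hA'A : A' ≤ A := hAmax ⟨hA'c, hAA' hgA⟩ hAA'
  have hBA : (B : Set H) = e '' (A : Set G) := by
    apply Set.Subset.antisymm
    · intro b hb
      refine ⟨e.symm b, hA'A (Subgroup.subset_closure ⟨b, hb, rfl⟩), by simp⟩
    · exact Subgroup.subset_closure
  have hcard : Nat.card B = Nat.card A := by
    have h1 : Nat.card B = Nat.card (B : Set H) := rfl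
    rw [h1, hBA]
    exact Nat.card_image_of_injective e.injective _
  have hdvd : p * q ∣ Nat.card B := by
    rw [hcard, ← hg]
    have : orderOf (⟨g, hgA⟩ : A) ∣ Nat.card A := orderOf_dvd_natCard _
    simpa using this
  have : Fact p.Prime := ⟨hp⟩
  have : Fact q.Prime := ⟨hq⟩
  obtain ⟨b₁, hb₁⟩ := exists_prime_orderOf_dvd_card' (G := B) p ((Dvd.intro _ rfl).trans hdvd)
  obtain ⟨b₂, hb₂⟩ := exists_prime_orderOf_dvd_card' (G := B) q ((Dvd.intro_left _ rfl).trans hdvd)
  refine ⟨(b₁ : H) * b₂, ?_⟩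
  have hc : Commute (b₁ : H) (b₂ : H) := hBcomm _ b₁.2 _ b₂.2
  rw [hc.orderOf_mul_eq_mul_orderOf_of_coprime]
  · simp [hb₁, hb₂]
  · simp only [Subgroup.orderOf_coe, hb₁, hb₂]
    exact (Nat.coprime_primes hp hq).mpr hpq

theorem result {G H : Type*} [Group G] [Finite G] [Group H] [Finite H] (e : G ≃ H)
    (he : ∀ x y : G, Commute x y ↔ Commute (e x) (e y))
    {p q : ℕ} (hp : p.Prime) (hq : q.Prime) (hpq : p ≠ q) :
    (∃ g : G, orderOf g = p * q) ↔ (∃ h : H, orderOf h = p * q) := by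
  constructor
  · exact one_dir e he hp hq hpq
  · apply one_dir e.symm _ hp hq hpq
    intro x y
    rw [he]
    simp

end Cfsg.Agent.S4084
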