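import Mathlib
import Cfsg.Statements.S4086

set_option autoImplicit false
open Cfsg

namespace Cfsg.Agent.S4086

lemma pow_gcd_mem {G : Type*} [Group G] (g : G) (n a : ℕ) (hg : g ^ n = 1) :
    g ^ (Nat.gcd n a) ∈ Subgroup.zpowers (g ^ a) := by
  have key := congr_arg (g ^ ·) (Nat.gcd_eq_gcd_ab n a)
  rw [zpow_natCast, zpow_add, zpow_mul, zpow_mul, zpow_natCast, zpow_natCast, hg, one_zpow, one_mul] at key
  rw [key]
  exact Subgroup.zpow_mem_zpowers _ _

lemma chain_aux {G : Type*} [Group G] (g : G) (p k i j a b : ℕ) (hg : g ^ (p ^ k) = 1)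
    (hi : Nat.gcd (p ^ k) a = p ^ i) (hj : Nat.gcd (p ^ k) b = p ^ j) (hij : i ≤ j) :
    g ^ b ∈ Subgroup.zpowers (g ^ a) := by
  have h1 : g ^ (p ^ i) ∈ Subgroup.zpowers (g ^ a) := hi ▸ pow_gcd_mem g (p ^ k) a hg
  have h2 : p ^ i ∣ b := (pow_dvd_pow p hij).trans (hj ▸ Nat.gcd_dvd_right _ _)
  obtain ⟨c, rfl⟩ := h2
  rw [pow_mul]
  exact Subgroup.pow_mem _ h1 _

theorem result {G : Type*} [Group G] [Finite G] :
    (∀ g : G, g ≠ 1 → IsPrimePow (orderOf g)) ↔
    (∀ x y : G, IsCyclic ↥(Subgroup.closure ({x, y} : Set G)) → (x ∈ Subgroup.zpowers y ∨ y ∈ Subgroup.zpowers x)) := by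
  constructor
  · intro h x y hc
    obtain ⟨g, hg⟩ := (Subgroup.isCyclic_iff_exists_zpowers_eq_top _).mp hc
    have hx : x ∈ Subgroup.zpowers g := hg ▸ Subgroup.subset_closure (by simp)
    have hy : y ∈ Subgroup.zpowers g := hg ▸ Subgroup.subset_closure (by simp)
    rw [← mem_powers_iff_mem_zpowers] at hx hy
    obtain ⟨a, rfl⟩ := hx
    obtain ⟨b, rfl⟩ := hy
    by_cases hg1 : g = 1
    · subst hg1
      left
      simp
    · obtain ⟨p, k, hp, hk, hpk⟩ := h g hg1
      have hp' : p.Prime := hp.nat_prime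
      have hgp : g ^ (p ^ k) = 1 := by rw [hpk]; exact pow_orderOf_eq_one g
      obtain ⟨i, _, hi⟩ := (Nat.dvd_prime_pow hp').1 (Nat.gcd_dvd_left (p ^ k) a)
      obtain ⟨j, _, hj⟩ := (Nat.dvd_prime_pow hp').1 (Nat.gcd_dvd_left (p ^ k) b)
      rcases le_total i j with hij | hij
      · right
        exact chain_aux g p k i j a b hgp hi hj hij
      · left
        exact chain_aux g p k j i b a hgp hj hi hij
  · intro h g hg1
    by_contra hpp
    set n := orderOf g with hn
    have hn0 : n ≠ 0 := (orderOf_pos g).ne'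
    have hn1 : n ≠ 1 := by
      intro h1
      exact hg1 (orderOf_eq_one_iff.mp h1)
    set p := n.minFac with hp
    have hpp' : p.Prime := Nat.minFac_prime hn1
    set a := p ^ n.factorization p with ha
    set b := n / p ^ n.factorization p with hb
    have hab : a * b = n := Nat.ordProj_mul_ordCompl_eq_self n p
    have hcop : Nat.Coprime a b := (Nat.coprime_ordCompl hpp' hn0).pow_left _
    have hv : n.factorization p ≠ 0 := by
      have : 0 < n.factorization p := hpp'.factorization_pos_of_dvd hn0 (Nat.minFac_dvd n)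
      exact this.ne'
    have ha1 : a ≠ 1 := by
      intro h1
      have := (Nat.pow_eq_one.mp h1)
      rcases this with h2 | h2
      · exact hpp'.one_lt.ne' h2
      · exact hv h2
    have hb1 : b ≠ 1 := by
      intro h1
      apply hpp
      rw [← hab, h1, mul_one]
      exact hpp'.isPrimePow.pow hv
    have hoa : orderOf (g ^ a) = b := by
      rw [orderOf_pow_of_dvd (by rintro h0; rw [h0, zero_mul] at hab; exact hn0 hab.symm) ⟨b, hab.symm⟩, ← hn, ← hab]
      exact Nat.mul_div_cancel_left _ (Nat.pos_of_ne_zero (by rintro h0; rw [h0, zero_mul] at hab; exact hn0 hab.symm))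
    have hob : orderOf (g ^ b) = a := by
      rw [orderOf_pow_of_dvd (by rintro h0; rw [h0, mul_zero] at hab; exact hn0 hab.symm) ⟨a, by rw [mul_comm]; exact hab.symm⟩, ← hn, ← hab]
      exact Nat.mul_div_cancel _ (Nat.pos_of_ne_zero (by rintro h0; rw [h0, mul_zero] at hab; exact hn0 hab.symm))
    have hle : Subgroup.closure ({g ^ a, g ^ b} : Set G) ≤ Subgroup.zpowers g := by
      rw [Subgroup.closure_le]
      rintro z (rfl | rfl)
      · exact Subgroup.npow_mem_zpowers _ _
      · exact Subgroup.npow_mem_zpowers _ _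
    have hcyc : IsCyclic ↥(Subgroup.closure ({g ^ a, g ^ b} : Set G)) := Subgroup.isCyclic_of_le hle
    rcases h _ _ hcyc with h1 | h1
    · have := orderOf_dvd_of_mem_zpowers h1
      rw [hoa, hob] at this
      exact hb1 (Nat.Coprime.eq_one_of_dvd hcop.symm this)
    · have := orderOf_dvd_of_mem_zpowers h1
      rw [hoa, hob] at this
      exact ha1 (Nat.Coprime.eq_one_of_dvd hcop this)

end Cfsg.Agent.S4086
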