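import Mathlib
import Cfsg.Statements.S4089
import Cfsg.Agent.Lib.Helper68.Subnormalizer

set_option autoImplicit false
open Cfsg

namespace Cfsg.Agent.S4089

open Cfsg.Agent.Lib.Helper68 Cfsg.Agent.Lib.Helper47

theorem result {G : Type*} [Group G] [Finite G] (p : ℕ) [Fact p.Prime]
    (H : Subgroup G) (hH : IsPGroup p H) :
    {g : G | ((H).subgroupOf (H ⊔ Subgroup.zpowers g)).IsSubnormal} =
      {g : G | ∃ R : Subgroup G, H ≤ R ∧ (Cfsg.pCore p (Subgroup.normalizer (R : Set G))).map (Subgroup.normalizer (R : Set G)).subtype = R ∧ g ∈ Subgroup.normalizer (R : Set G)} ∧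
    ∀ g : G, (((H).subgroupOf (H ⊔ Subgroup.zpowers g)).IsSubnormal ↔
      (((sInf {K : Subgroup G | ∃ Q : Sylow p G, H ≤ (Q : Subgroup G) ∧ K = (Q : Subgroup G)})).subgroupOf ((sInf {K : Subgroup G | ∃ Q : Sylow p G, H ≤ (Q : Subgroup G) ∧ K = (Q : Subgroup G)}) ⊔ Subgroup.zpowers g)).IsSubnormal) := by
  have key : ∀ g : G, ((H).subgroupOf (H ⊔ Subgroup.zpowers g)).IsSubnormal ↔
      ∃ R : Subgroup G, H ≤ R ∧ pCoreOf p (Subgroup.normalizer (R : Set G)) = R ∧
        g ∈ Subgroup.normalizer (R : Set G) := by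
    intro g
    rw [subnormalizer_iff hH]
    constructor
    · rintro ⟨R₀, hR₀, hHR₀, hg⟩
      obtain ⟨R, hle, hrad, hgR⟩ := exists_radical hR₀ hg
      exact ⟨R, hHR₀.trans hle, hrad, hgR⟩
    · rintro ⟨R, hHR, hrad, hg⟩
      exact ⟨R, hrad ▸ pCoreOf_isPGroup _, hHR, hg⟩
  constructor
  · ext g
    exact key g
  · intro g
    change _ ↔ ((sylowInter p H).subgroupOf (sylowInter p H ⊔ Subgroup.zpowers g)).IsSubnormal
    rw [subnormalizer_iff (sylowInter_isPGroup hH)]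
    constructor
    · intro h
      obtain ⟨R, hHR, hrad, hg⟩ := (key g).mp h
      refine ⟨R, hrad ▸ pCoreOf_isPGroup _, ?_, hg⟩
      calc sylowInter p H ≤ sylowInter p R := sylowInter_mono hHR
        _ = R := sylowInter_eq_of_radical hrad
    · rintro ⟨R, hR, hIR, hg⟩
      rw [subnormalizer_iff hH]
      exact ⟨R, hR, (le_sylowInter H).trans hIR, hg⟩

end Cfsg.Agent.S4089
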