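import Cfsg.Statements.S4090
import Cfsg.Agent.Lib.Helper68.Casolo
import Cfsg.Agent.Lib.Helper47.Syl

set_option autoImplicit false
open Cfsg

namespace Cfsg.Agent.S4090

open Subgroup Cfsg.Agent.Lib.Helper47 Cfsg.Agent.Lib.Helper68.Casolo

variable {G : Type*} [Group G] [Finite G] {p : ℕ} [Fact p.Prime]

/-- number of `g` conjugating `H` into `P A` -/
noncomputable def aC (H : Subgroup G) (P : Sylow p G) (A : Subgroup G) : ℕ :=
  Nat.card {g : G // cj g H ≤ (P : Subgroup G) ⊔ A}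

noncomputable def dC (H A B : Subgroup G) : ℕ :=
  Nat.card {u : G // u ∈ B ∧ ∀ h ∈ H, h * u * h⁻¹ * u⁻¹ ∈ A}

theorem sup_eq_of_pfactor (P : Sylow p G) {A B : Subgroup G} (hAB : A ≤ B) [B.Normal]
    {m : ℕ} (hm : A.relIndex B = p ^ m) : (P : Subgroup G) ⊔ A = (P : Subgroup G) ⊔ B := by
  apply le_antisymm (sup_le_sup_left hAB _)
  refine sup_le le_sup_left ?_
  have h1 : IsSylowIn p ((P : Subgroup G) ⊓ B) B :=
    (isSylowIn_top P).inf_of_normal le_top (by rw [normalizer_eq_top]; )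
  have h2 := h1.not_dvd_relIndex
  set C : Subgroup G := ((P : Subgroup G) ⊓ B) ⊔ A with hC
  have h3 : C.relIndex B ∣ p ^ m := hm ▸ relIndex_dvd_of_le_left B (le_sup_right : A ≤ C)
  have h4 : C.relIndex B ∣ ((P : Subgroup G) ⊓ B).relIndex B :=
    relIndex_dvd_of_le_left B (le_sup_left : (P : Subgroup G) ⊓ B ≤ C)
  obtain ⟨k, -, hk⟩ := (Nat.dvd_prime_pow (Fact.out : p.Prime)).mp h3
  have hk0 : k = 0 := by
    by_contra hne
    apply h2
    refine dvd_trans ?_ h4
    rw [hk]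
    exact dvd_pow_self p hne
  rw [hk0, pow_zero, relIndex_eq_one] at hk
  exact hk.trans (sup_le (inf_le_left.trans le_sup_left) le_sup_right)

theorem inf_le_of_coprime (P : Sylow p G) {A B : Subgroup G} (hAB : A ≤ B) [A.Normal]
    (hc : (A.relIndex B).Coprime p) : (P : Subgroup G) ⊓ B ≤ A := by
  rw [← relIndex_eq_one]
  have h1 : A.relIndex ((P : Subgroup G) ⊓ B) ∣ A.relIndex B := by
    rw [← relIndex_sup_right (K := A) (H := (P : Subgroup G) ⊓ B)]
    have := relIndex_mul_relIndex A (((P : Subgroup G) ⊓ B) ⊔ A) B le_sup_right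
      (sup_le inf_le_right hAB)
    exact Dvd.intro _ this
  have h2 : A.relIndex ((P : Subgroup G) ⊓ B) ∣ Nat.card ↥((P : Subgroup G) ⊓ B) := relIndex_dvd_card _ _
  obtain ⟨n, hn⟩ := (IsPGroup.iff_card.mp (P.2.to_le (inf_le_left : (P : Subgroup G) ⊓ B ≤ P)))
  rw [hn] at h2
  have h3 : (A.relIndex ((P : Subgroup G) ⊓ B)).Coprime (p ^ n) :=
    Nat.Coprime.pow_right n (Nat.Coprime.coprime_dvd_left h1 hc)
  exact Nat.Coprime.eq_one_of_dvd h3 h2

theorem key_iff (P : Sylow p G) {A B H₂ : Subgroup G} (hAB : A ≤ B) [A.Normal] [B.Normal]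
    (hc : (A.relIndex B).Coprime p) (hH₂ : H₂ ≤ P) {c : G} (hcB : c ∈ B) :
    cj c H₂ ≤ (P : Subgroup G) ⊔ A ↔ ∀ k ∈ H₂, k * c * k⁻¹ * c⁻¹ ∈ A := by
  constructor
  · intro h k hk
    have h1 : c * k * c⁻¹ ∈ (P : Subgroup G) ⊔ A := h (conj_mem_cj hk)
    have h2 : c * k * c⁻¹ * k⁻¹ ∈ (P : Subgroup G) ⊔ A :=
      mul_mem h1 (inv_mem (mem_sup_left (hH₂ hk)))
    have h3 : c * k * c⁻¹ * k⁻¹ ∈ B := by
      have : c * k * c⁻¹ * k⁻¹ = c * (k * c⁻¹ * k⁻¹) := by group
      rw [this]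
      exact mul_mem hcB (Normal.conj_mem inferInstance _ (inv_mem hcB) _)
    obtain ⟨y, hy, a, ha, hya⟩ := mem_sup_of_normal_right.mp h2
    have hyB : y ∈ B := by
      have : y = c * k * c⁻¹ * k⁻¹ * a⁻¹ := by rw [← hya]; group
      rw [this]
      exact mul_mem h3 (inv_mem (hAB ha))
    have hyA : y ∈ A := inf_le_of_coprime P hAB hc (mem_inf.mpr ⟨hy, hyB⟩)
    have h4 : c * k * c⁻¹ * k⁻¹ ∈ A := hya ▸ mul_mem hyA ha
    have : k * c * k⁻¹ * c⁻¹ = (c * k * c⁻¹ * k⁻¹)⁻¹ := by group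
    rw [this]
    exact inv_mem h4
  · intro h x hx
    rw [mem_cj] at hx
    have h1 := h _ hx
    have h2 : x = ((c⁻¹ * x * c) * c * (c⁻¹ * x * c)⁻¹ * c⁻¹)⁻¹ * (c⁻¹ * x * c) := by group
    rw [h2]
    exact mul_mem (mem_sup_right (inv_mem h1)) (mem_sup_left (hH₂ hx))

theorem fiber_card (P : Sylow p G) {A B H : Subgroup G} (hAB : A ≤ B) [hA : A.Normal] [hB : B.Normal]
    (hc : (A.relIndex B).Coprime p) (hH : IsPGroup p H) {g : G}
    (hg : cj g H ≤ (P : Subgroup G) ⊔ B) :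
    Nat.card {b : G // b ∈ B ∧ cj (b * g) H ≤ (P : Subgroup G) ⊔ A} = dC H A B := by
  have hS : IsSylowIn p (P : Subgroup G) ((P : Subgroup G) ⊔ B) := isSylowIn_of_sylow P le_sup_left
  obtain ⟨x, hx, hxP⟩ := hS.exists_conj_ge (IsPGroup_cj hH g) hg
  rw [sup_comm] at hx
  obtain ⟨b1, hb1, y, hy, rfl⟩ := mem_sup_of_normal_left.mp hx
  rw [cj_mul, cj_eq_self_of_mem hy] at hxP
  set g1 : G := b1⁻¹ * g with hg1
  have hH2 : cj g1 H ≤ P := by
    rw [hg1, cj_mul, cj_le_iff, inv_inv]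
    exact hxP
  unfold dC
  apply Nat.card_congr
  apply Equiv.subtypeEquiv ((Equiv.mulRight b1).trans (MulAut.conj g1⁻¹).toEquiv)
  intro b
  have he : ((Equiv.mulRight b1).trans (MulAut.conj g1⁻¹).toEquiv) b = g1⁻¹ * (b * b1) * g1 := by
    simp
  rw [he]
  have hmem : g1⁻¹ * (b * b1) * g1 ∈ B ↔ b ∈ B := by
    constructor
    · intro h
      have h1 := hB.conj_mem _ h g1
      have h2 : g1 * (g1⁻¹ * (b * b1) * g1) * g1⁻¹ = b * b1 := by group
      rw [h2] at h1
      have := mul_mem h1 (inv_mem hb1)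
      simpa using this
    · intro h
      have := hB.conj_mem _ (mul_mem h hb1) g1⁻¹
      simpa using this
  rw [hmem]
  apply and_congr_right
  intro hbB
  have h1 : cj (b * g) H = cj (b * b1) (cj g1 H) := by
    rw [← cj_mul, hg1]
    congr 1
    group
  rw [h1, key_iff P hAB hc hH2 (mul_mem hbB hb1)]
  constructor
  · intro h k hk
    have h2 := h _ (conj_mem_cj (g := g1) hk)
    have h3 := hA.conj_mem _ h2 g1⁻¹
    have h4 : g1⁻¹ * (g1 * k * g1⁻¹ * (b * b1) * (g1 * k * g1⁻¹)⁻¹ * (b * b1)⁻¹) * g1⁻¹⁻¹ =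
        k * (g1⁻¹ * (b * b1) * g1) * k⁻¹ * (g1⁻¹ * (b * b1) * g1)⁻¹ := by group
    rwa [h4] at h3
  · intro h k hk
    rw [mem_cj] at hk
    have h2 := h _ hk
    have h3 := hA.conj_mem _ h2 g1
    have h4 : g1 * (g1⁻¹ * k * g1 * (g1⁻¹ * (b * b1) * g1) * (g1⁻¹ * k * g1)⁻¹ *
        (g1⁻¹ * (b * b1) * g1)⁻¹) * g1⁻¹ = k * (b * b1) * k⁻¹ * (b * b1)⁻¹ := by group
    rwa [h4] at h3

theorem step_coprime (P : Sylow p G) {A B H : Subgroup G} (hAB : A ≤ B) [hA : A.Normal]
    [hB : B.Normal] (hc : (A.relIndex B).Coprime p) (hH : IsPGroup p H) :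
    aC H P A * Nat.card B = aC H P B * dC H A B := by
  -- the incidence set
  have hinv : ∀ (g b : G), b ∈ B → cj g H ≤ (P : Subgroup G) ⊔ B →
      cj (b * g) H ≤ (P : Subgroup G) ⊔ B := by
    intro g b hb hg
    rw [cj_mul]
    have h1 : cj b (cj g H) ≤ cj b ((P : Subgroup G) ⊔ B) := cj_mono hg
    rwa [cj_eq_self_of_mem (mem_sup_right hb)] at h1
  have h1 : Nat.card {x : G × G // cj x.1 H ≤ (P : Subgroup G) ⊔ B ∧ x.2 ∈ B ∧
      cj (x.2 * x.1) H ≤ (P : Subgroup G) ⊔ A} = aC H P B * dC H A B := by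
    unfold aC
    apply card_eq_of_fibers (fun x : {x : G × G // cj x.1 H ≤ (P : Subgroup G) ⊔ B ∧ x.2 ∈ B ∧
      cj (x.2 * x.1) H ≤ (P : Subgroup G) ⊔ A} =>
        (⟨x.1.1, x.2.1⟩ : {g : G // cj g H ≤ (P : Subgroup G) ⊔ B}))
    rintro ⟨g, hg⟩
    rw [← fiber_card P hAB hc hH hg]
    apply Nat.card_congr
    refine ⟨fun x => ⟨x.1.1.2, x.1.2.2.1, ?_⟩, fun b => ⟨⟨(g, b.1), hg, b.2.1, b.2.2⟩, rfl⟩, ?_, ?_⟩
    · have h := congrArg Subtype.val x.2
      simp only at h
      have h5 := x.1.2.2.2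
      rwa [h] at h5
    · rintro ⟨⟨⟨g', b⟩, h1, h2, h3⟩, h4⟩
      have h := congrArg Subtype.val h4
      simp only at h
      subst h
      rfl
    · intro b; rfl
  have h2 : Nat.card {x : G × G // cj x.1 H ≤ (P : Subgroup G) ⊔ B ∧ x.2 ∈ B ∧
      cj (x.2 * x.1) H ≤ (P : Subgroup G) ⊔ A} = aC H P A * Nat.card B := by
    unfold aC
    rw [← Nat.card_prod]
    apply Nat.card_congr
    refine ⟨fun x => (⟨x.1.2 * x.1.1, x.2.2.2⟩, ⟨x.1.2, x.2.2.1⟩),
      fun y => ⟨(y.2.1⁻¹ * y.1.1, y.2.1), ?_, y.2.2, ?_⟩, ?_, ?_⟩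
    · exact hinv _ _ (inv_mem y.2.2) (y.1.2.trans (sup_le_sup_left hAB _))
    · simpa using y.1.2
    · rintro ⟨⟨g, b⟩, h⟩
      simp
    · rintro ⟨⟨g, hg⟩, ⟨b, hb⟩⟩
      simp
  rw [← h2, h1]

theorem card_dvd_dC (H : Subgroup G) {A B : Subgroup G} (hAB : A ≤ B) [hA : A.Normal] :
    Nat.card A ∣ dC H A B := by
  let D : Subgroup G :=
    { carrier := {u | u ∈ B ∧ ∀ h ∈ H, h * u * h⁻¹ * u⁻¹ ∈ A}
      one_mem' := ⟨one_mem _, fun h _ => by simp⟩
      mul_mem' := by
        rintro u v ⟨hu, hu'⟩ ⟨hv, hv'⟩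
        refine ⟨mul_mem hu hv, fun h hh => ?_⟩
        have h1 := mul_mem (hu' h hh) (hA.conj_mem _ (hv' h hh) u)
        have h2 : h * u * h⁻¹ * u⁻¹ * (u * (h * v * h⁻¹ * v⁻¹) * u⁻¹) =
            h * (u * v) * h⁻¹ * (u * v)⁻¹ := by group
        rwa [h2] at h1
      inv_mem' := by
        rintro u ⟨hu, hu'⟩
        refine ⟨inv_mem hu, fun h hh => ?_⟩
        have h1 := hA.conj_mem _ (inv_mem (hu' h hh)) u⁻¹
        have h2 : u⁻¹ * (h * u * h⁻¹ * u⁻¹)⁻¹ * u⁻¹⁻¹ = h * u⁻¹ * h⁻¹ * u⁻¹⁻¹ := by group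
        rwa [h2] at h1 }
  have hAD : A ≤ D := by
    intro a ha
    refine ⟨hAB ha, fun h _ => ?_⟩
    exact mul_mem (hA.conj_mem a ha h) (inv_mem ha)
  exact card_dvd_of_le hAD

theorem step (P : Sylow p G) {A B H : Subgroup G} (hAB : A ≤ B) [hA : A.Normal]
    [hB : B.Normal] (hH : IsPGroup p H)
    (hfac : (∃ m : ℕ, A.relIndex B = p ^ m) ∨ (A.relIndex B).Coprime p) :
    aC H P A * (if (A.relIndex B).Coprime p then A.relIndex B else 1) =
      aC H P B * (if (A.relIndex B).Coprime p then dC H A B / Nat.card A else 1) := by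
  split_ifs with hc
  · have h1 := step_coprime P hAB hc hH
    obtain ⟨t, ht⟩ := card_dvd_dC H hAB
    have hpos : 0 < Nat.card A := Nat.card_pos
    rw [ht, Nat.mul_div_cancel_left _ hpos]
    have h2 : A.relIndex B * Nat.card A = Nat.card B := by
      rw [← relIndex_bot_left, ← relIndex_bot_left, mul_comm]
      exact relIndex_mul_relIndex ⊥ A B bot_le hAB
    rw [← h2, ht] at h1
    apply Nat.eq_of_mul_eq_mul_right hpos
    calc aC H P A * A.relIndex B * Nat.card A = aC H P A * (A.relIndex B * Nat.card A) := by ring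
      _ = aC H P B * (Nat.card A * t) := h1
      _ = aC H P B * t * Nat.card A := by ring
  · rcases hfac with ⟨m, hm⟩ | h
    · unfold aC
      rw [sup_eq_of_pfactor P hAB hm]
    · exact absurd h hc

theorem chain (P : Sylow p G) {H : Subgroup G} (hH : IsPGroup p H) : ∀ (n : ℕ)
    (M : Fin (n + 1) → Subgroup G), M 0 = ⊥ → Monotone M → (∀ i, (M i).Normal) →
    (∀ i : Fin n, (∃ m : ℕ, (M i.castSucc).relIndex (M i.succ) = p ^ m) ∨
      ((M i.castSucc).relIndex (M i.succ)).Coprime p) →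
    aC H P ⊥ * ∏ i : Fin n, (if ((M i.castSucc).relIndex (M i.succ)).Coprime p then
        (M i.castSucc).relIndex (M i.succ) else 1) =
      aC H P (M (Fin.last n)) * ∏ i : Fin n, (if ((M i.castSucc).relIndex (M i.succ)).Coprime p then
        dC H (M i.castSucc) (M i.succ) / Nat.card (M i.castSucc) else 1) ∧
    Nat.card (M (Fin.last n)) = ∏ i : Fin n, (M i.castSucc).relIndex (M i.succ) := by
  intro n
  induction n with
  | zero =>
    intro M h0 _ _ _
    have : M (Fin.last 0) = ⊥ := h0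
    simp [this, h0]
  | succ n ih =>
    intro M h0 hmono hnorm hfac
    obtain ⟨ih1, ih2⟩ := ih (fun i => M i.castSucc) h0
      (fun a b hab => hmono (Fin.castSucc_le_castSucc_iff.mpr hab)) (fun i => hnorm _)
      (fun i => by
        have := hfac i.castSucc
        rwa [Fin.succ_castSucc] at this)
    haveI := hnorm (Fin.last n).castSucc
    haveI := hnorm (Fin.last n).succ
    have hle : M (Fin.last n).castSucc ≤ M (Fin.last n).succ :=
      hmono (Fin.castSucc_lt_succ).le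
    have hst := step P hle hH (hfac (Fin.last n))
    rw [Fin.prod_univ_castSucc, Fin.prod_univ_castSucc, Fin.prod_univ_castSucc]
    simp only [Fin.succ_castSucc] at ih1 ih2 ⊢
    constructor
    · rw [← mul_assoc, ih1, mul_right_comm, hst, Fin.succ_last]
      ring
    · rw [← ih2, ← Fin.succ_last, ← relIndex_bot_left, ← relIndex_bot_left]
      exact (relIndex_mul_relIndex ⊥ _ _ bot_le hle).symm

theorem aC_bot (H : Subgroup G) (hH : IsPGroup p H) (P : Sylow p G) :
    aC H P ⊥ = Nat.card {g : G // ((H).subgroupOf (H ⊔ Subgroup.zpowers g)).IsSubnormal} := by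
  rw [card_subnormalizer H hH P]
  unfold aC
  simp only [sup_bot_eq]
  apply card_eq_of_fibers
    (fun g : {g : G // H.map (MulAut.conj g).toMonoidHom ≤ P} =>
      (⟨g.1⁻¹ • P, (le_inv_smul_iff H P g.1).mpr g.2⟩ : {Q : Sylow p G // H ≤ (Q : Subgroup G)}))
  rintro ⟨Q, hQ⟩
  obtain ⟨g0, hg0⟩ := MulAction.exists_smul_eq G P Q
  apply Nat.card_congr
  refine ⟨fun x => ⟨x.1.1 * g0, ?_⟩, fun n => ⟨⟨n.1 * g0⁻¹, ?_⟩, ?_⟩, ?_, ?_⟩
  · have h := congrArg Subtype.val x.2
    simp only at h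
    apply Sylow.smul_eq_iff_mem_normalizer.mp
    rw [mul_smul, hg0]
    generalize x.1.1 = y at h
    rw [← h, smul_smul, mul_inv_cancel, one_smul]
  · rw [← le_inv_smul_iff]
    have hn : n.1⁻¹ • P = P := Sylow.smul_eq_iff_mem_normalizer.mpr (inv_mem n.2)
    rw [mul_inv_rev, inv_inv, mul_smul, hn, hg0]
    exact hQ
  · apply Subtype.ext
    simp only
    have hn : n.1⁻¹ • P = P := Sylow.smul_eq_iff_mem_normalizer.mpr (inv_mem n.2)
    rw [mul_inv_rev, inv_inv, mul_smul, hn, hg0]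
  · intro x
    apply Subtype.ext
    apply Subtype.ext
    simp
  · intro n
    apply Subtype.ext
    simp

theorem aC_top (H : Subgroup G) (P : Sylow p G) : aC H P ⊤ = Nat.card G := by
  unfold aC
  simp only [sup_top_eq, le_top]
  exact Nat.card_congr (Equiv.subtypeUnivEquiv (fun _ => trivial))

/-- Let G be a finite p-solvable group, H a p-subgroup of G and P a Sylow p-subgroup, and fix a chain of normal subgroups 1 = M₀ ≤ M₁ ≤ ⋯ ≤ Mₙ = G of G each of whose factors is a p-group or a p'-group. Then the number of elements g of G such that H is subnormal in the subgroup generated by H and g equals the order of P times the product, over the factors Mᵢ₊₁/Mᵢ of order prime to p, of the order of the centralizer of H in Mᵢ₊₁/Mᵢ (counted as the number of u ∈ Mᵢ₊₁ with [h, u] ∈ Mᵢ for all h ∈ H, divided by the order of Mᵢ). -/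
theorem result {G : Type*} [Group G] [Finite G] (p : ℕ) [Fact p.Prime]
    (hG : Cfsg.IsPSolvable p G) (H : Subgroup G) (hH : IsPGroup p H) (P : Sylow p G)
    (n : ℕ) (M : Fin (n + 1) → Subgroup G) (h0 : M 0 = ⊥) (hn : M (Fin.last n) = ⊤) (hmono : Monotone M)
    (hnormal : ∀ i, (M i).Normal)
    (hfac : ∀ i : Fin n, (∃ m : ℕ, (M i.castSucc).relIndex (M i.succ) = p ^ m) ∨ ((M i.castSucc).relIndex (M i.succ)).Coprime p) :
    Nat.card {g : G // ((H).subgroupOf (H ⊔ Subgroup.zpowers g)).IsSubnormal} =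
      Nat.card (P : Subgroup G) *
        ∏ i : Fin n, (if ((M i.castSucc).relIndex (M i.succ)).Coprime p then
          Nat.card {u : G // u ∈ M i.succ ∧ ∀ h ∈ H, h * u * h⁻¹ * u⁻¹ ∈ M i.castSucc} / Nat.card (M i.castSucc)
          else 1) := by
  obtain ⟨h1, h2⟩ := chain P hH n M h0 hmono hnormal hfac
  rw [hn, aC_top, aC_bot H hH P] at h1
  rw [hn, card_top] at h2
  set R' : ℕ := ∏ i : Fin n, (if ((M i.castSucc).relIndex (M i.succ)).Coprime p then
        (M i.castSucc).relIndex (M i.succ) else 1) with hR'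
  set R'' : ℕ := ∏ i : Fin n, (if ((M i.castSucc).relIndex (M i.succ)).Coprime p then
        1 else (M i.castSucc).relIndex (M i.succ)) with hR''
  have h3 : Nat.card G = R' * R'' := by
    rw [h2, hR', hR'', ← Finset.prod_mul_distrib]
    apply Finset.prod_congr rfl
    intro i _
    split_ifs <;> simp
  have h4 : R'.Coprime p := by
    rw [hR']
    apply Nat.Coprime.prod_left
    intro i _
    split_ifs with h
    · exact h
    · exact Nat.coprime_one_left p
  have h5 : ∃ e : ℕ, R'' = p ^ e := by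
    rw [hR'']
    have : ∀ s : Finset (Fin n), ∃ e : ℕ, ∏ i ∈ s,
        (if ((M i.castSucc).relIndex (M i.succ)).Coprime p then
        1 else (M i.castSucc).relIndex (M i.succ)) = p ^ e := by
      intro s
      induction s using Finset.induction_on with
      | empty => exact ⟨0, by simp⟩
      | insert a s ha ih =>
        obtain ⟨e, he⟩ := ih
        rw [Finset.prod_insert ha, he]
        split_ifs with h
        · exact ⟨e, by simp⟩
        · rcases hfac a with ⟨m, hm⟩ | h'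
          · exact ⟨m + e, by rw [hm, pow_add]⟩
          · exact absurd h' h
    exact this _
  obtain ⟨e, he⟩ := h5
  have h6 : R'' = Nat.card (P : Subgroup G) := by
    obtain ⟨f, hf⟩ := IsPGroup.iff_card.mp P.2
    have h7 : Nat.card (P : Subgroup G) * (P : Subgroup G).index = Nat.card G := card_mul_index _
    have h8 : ((P : Subgroup G).index).Coprime p :=
      ((Nat.Prime.coprime_iff_not_dvd (Fact.out : p.Prime)).mpr P.not_dvd_index).symm
    rw [he, hf]
    rw [h3, he, hf] at h7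
    apply Nat.dvd_antisymm
    · have : p ^ e ∣ p ^ f * (P : Subgroup G).index := h7 ▸ Dvd.intro_left _ rfl
      exact (Nat.Coprime.dvd_of_dvd_mul_right (Nat.Coprime.pow_left e h8.symm) this)
    · have : p ^ f ∣ R' * p ^ e := h7 ▸ Dvd.intro _ rfl
      exact (Nat.Coprime.dvd_of_dvd_mul_left (Nat.Coprime.pow_left f h4.symm) this)
  have hR'pos : 0 < R' := by
    rcases Nat.eq_zero_or_pos R' with h | h
    · rw [h, zero_mul] at h3
      exact absurd h3 Nat.card_pos.ne'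
    · exact h
  rw [h3, h6] at h1
  apply Nat.eq_of_mul_eq_mul_right hR'pos
  rw [h1]
  unfold dC
  ring

end Cfsg.Agent.S4090
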