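import Cfsg.Statements.S4091
import Mathlib
import Cfsg.Agent.S4088
import Cfsg.Agent.S4090
import Cfsg.Agent.Lib.Helper82.Gh.INEQ
import Cfsg.Agent.Lib.Helper82.Gh.G1
import Cfsg.Agent.Lib.Helper82.Gh.KF

set_option autoImplicit false
open Cfsg

namespace Cfsg.Agent.S4091

/-- Let G be a finite p-solvable group, P a Sylow p-subgroup of G, u the number of p-elements of G (elements of p-power order, the identity included) and n the number of Sylow p-subgroups of G. Then u/#P ≥ n^((p−1)/p), stated as u^p ≥ #P^p · n^(p−1). -/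
theorem result {G : Type*} [Group G] [Finite G] (p : ℕ) [Fact p.Prime]
    (hG : Cfsg.IsPSolvable p G) (P : Sylow p G) :
    Nat.card (P : Subgroup G) ^ p * Nat.card (Sylow p G) ^ (p - 1) ≤ Nat.card {g : G // ∃ k : ℕ, orderOf g = p ^ k} ^ p := by
  classical
  haveI : Fintype ↥(P : Subgroup G) := Fintype.ofFinite _
  have hp1 : 1 ≤ p := (Fact.out : p.Prime).one_lt.le
  by_cases hpG : p ∣ Nat.card G
  swap
  · -- trivial case: `P = ⊥`
    have hu : 1 ≤ Nat.card {g : G // ∃ k : ℕ, orderOf g = p ^ k} := by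
      haveI : Nonempty {g : G // ∃ k : ℕ, orderOf g = p ^ k} := ⟨⟨1, 0, by simp⟩⟩
      exact Nat.card_pos
    have hcardQ : ∀ Q : Sylow p G, Nat.card ↥(Q : Subgroup G) = 1 := by
      intro Q
      obtain ⟨k, hk⟩ := IsPGroup.iff_card.mp Q.2
      rcases Nat.eq_zero_or_pos k with rfl | hk0
      · simpa using hk
      · exfalso
        apply hpG
        have h1 : p ∣ Nat.card ↥(Q : Subgroup G) := by rw [hk]; exact dvd_pow_self p hk0.ne'
        exact h1.trans (Subgroup.card_subgroup_dvd_card _)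
    have hsub : Subsingleton (Sylow p G) := by
      constructor
      intro Q1 Q2
      apply Sylow.ext
      rw [Subgroup.card_eq_one.mp (hcardQ Q1), Subgroup.card_eq_one.mp (hcardQ Q2)]
    have hn1 : Nat.card (Sylow p G) = 1 := by
      haveI := hsub
      haveI : Nonempty (Sylow p G) := ⟨P⟩
      exact Nat.card_unique
    rw [hcardQ P, hn1, one_pow, one_pow, one_mul]
    exact Nat.one_le_pow _ _ hu
  have hG' := hG
  obtain ⟨N, M, h0, hn, hmono, hnormal, hfac⟩ := hG'
  let s : Subgroup G → ℕ := fun H => ∏ i : Fin N,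
    (if ((M i.castSucc).relIndex (M i.succ)).Coprime p then
      Lib.Helper82.Gh.dC (M i.castSucc) (M i.succ) H else 1)
  let lam : Subgroup G → ℕ := fun H => Nat.card {Q : Sylow p G // H ≤ (Q : Subgroup G)}
  set Nn := Nat.card (Subgroup.normalizer ((P : Subgroup G) : Set G)) with hNn
  set m := Fintype.card ↥(P : Subgroup G) with hm
  have hmc : Nat.card ↥(P : Subgroup G) = m := Nat.card_eq_fintype_card
  have hNpos : 0 < Nn := Nat.card_pos
  have hmpos : 0 < m := Fintype.card_pos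
  have key : ∀ H : Subgroup G, IsPGroup p H → m * s H = lam H * Nn := by
    intro H hH
    have h1 := S4090.result p hG H hH P N M h0 hn hmono hnormal hfac
    have h2 := (S4088.result p hpG H hH P).1
    rw [h1, hmc] at h2
    exact h2
  have hlampos : ∀ H : Subgroup G, IsPGroup p H → 0 < lam H := by
    intro H hH
    obtain ⟨Q, hQ⟩ := hH.exists_le_sylow
    haveI : Nonempty {Q : Sylow p G // H ≤ (Q : Subgroup G)} := ⟨⟨Q, hQ⟩⟩
    exact Nat.card_pos
  have hspos : ∀ H : Subgroup G, IsPGroup p H → 0 < s H := by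
    intro H hH
    have h1 := key H hH
    have h2 := Nat.mul_pos (hlampos H hH) hNpos
    rw [← h1] at h2
    exact Nat.pos_of_mul_pos_left h2
  have hbot : IsPGroup p (⊥ : Subgroup G) := IsPGroup.of_bot
  have hPp : IsPGroup p (P : Subgroup G) := P.2
  have hzp : ∀ x : ↥(P : Subgroup G), IsPGroup p (Subgroup.zpowers (x : G)) := by
    intro x
    exact hPp.to_le (Subgroup.zpowers_le.mpr x.2)
  have hlambot : lam ⊥ = Nat.card (Sylow p G) :=
    Nat.card_congr (Equiv.subtypeUnivEquiv (fun Q => bot_le))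
  have hlamP : lam (P : Subgroup G) = 1 := by
    haveI : Unique {Q : Sylow p G // (P : Subgroup G) ≤ (Q : Subgroup G)} :=
      { default := ⟨P, le_rfl⟩
        uniq := by
          rintro ⟨Q, hQ⟩
          apply Subtype.ext
          exact (Sylow.ext (P.3 Q.2 hQ)) }
    exact Nat.card_unique
  -- the product inequality
  have hprod : (∏ x : ↥(P : Subgroup G), s (Subgroup.zpowers (x : G))) ^ p ≤
      s ⊥ ^ m * s (P : Subgroup G) ^ (m * (p - 1)) := by
    change (∏ x : ↥(P : Subgroup G), ∏ i : Fin N, _) ^ p ≤ (∏ i : Fin N, _) ^ m * (∏ i : Fin N, _) ^ (m * (p - 1))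
    rw [Finset.prod_comm, ← Finset.prod_pow, ← Finset.prod_pow, ← Finset.prod_pow,
      ← Finset.prod_mul_distrib]
    apply Finset.prod_le_prod'
    intro i _
    by_cases hc : ((M i.castSucc).relIndex (M i.succ)).Coprime p
    · rw [if_pos hc, if_pos hc]
      simp only [if_pos hc]
      haveI := hnormal i.castSucc
      haveI := hnormal i.succ
      exact Lib.Helper82.Gh.kf p P (M i.castSucc) (M i.succ)
        (hmono (Fin.castSucc_le_succ i)) hc
    · simp [hc]
  -- pass to the reals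
  have e0 := key ⊥ hbot
  have eP := key (P : Subgroup G) hPp
  rw [hlambot] at e0
  rw [hlamP, one_mul] at eP
  have hs0 : (0 : ℝ) < (s ⊥ : ℝ) := by exact_mod_cast hspos ⊥ hbot
  have hsP : (0 : ℝ) < (s (P : Subgroup G) : ℝ) := by exact_mod_cast hspos _ hPp
  have hsx : ∀ x : ↥(P : Subgroup G), (0 : ℝ) < (s (Subgroup.zpowers (x : G)) : ℝ) := by
    intro x
    exact_mod_cast hspos _ (hzp x)
  have hmR : (0 : ℝ) < (m : ℝ) := by exact_mod_cast hmpos
  have hin := Lib.Helper82.Gh.ineq p hp1 (s ⊥ : ℝ) (s (P : Subgroup G) : ℝ)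
    (fun x : ↥(P : Subgroup G) => (s (Subgroup.zpowers (x : G)) : ℝ)) hs0 hsP hsx
    (by exact_mod_cast hprod)
  have hnR : ((Nat.card (Sylow p G) : ℕ) : ℝ) = (s ⊥ : ℝ) / (s (P : Subgroup G) : ℝ) := by
    rw [eq_div_iff hsP.ne']
    have h1 : (m : ℝ) * (s ⊥ : ℝ) = (Nat.card (Sylow p G) : ℝ) * ((m : ℝ) * (s (P : Subgroup G) : ℝ)) := by
      have : m * s ⊥ = Nat.card (Sylow p G) * (m * s (P : Subgroup G)) := by rw [e0, eP]
      exact_mod_cast this
    have h2 : (m : ℝ) * (s ⊥ : ℝ) = (m : ℝ) * ((Nat.card (Sylow p G) : ℝ) * (s (P : Subgroup G) : ℝ)) := by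
      rw [h1]; ring
    exact (mul_left_cancel₀ hmR.ne' h2).symm
  have hu : (Nat.card {g : G // ∃ k : ℕ, orderOf g = p ^ k} : ℝ) =
      ∑ x : ↥(P : Subgroup G), (s ⊥ : ℝ) / (s (Subgroup.zpowers (x : G)) : ℝ) := by
    rw [Lib.Helper82.Gh.g1 p P, Finset.mul_sum]
    apply Finset.sum_congr rfl
    intro x _
    have ex := key _ (hzp x)
    rw [← eP] at ex
    have h1 : (s (Subgroup.zpowers (x : G)) : ℝ) = (lam (Subgroup.zpowers (x : G)) : ℝ) * (s (P : Subgroup G) : ℝ) := by
      have h2 : (m : ℝ) * (s (Subgroup.zpowers (x : G)) : ℝ) = (m : ℝ) * ((lam (Subgroup.zpowers (x : G)) : ℝ) * (s (P : Subgroup G) : ℝ)) := by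
        have : m * s (Subgroup.zpowers (x : G)) = m * (lam (Subgroup.zpowers (x : G)) * s (P : Subgroup G)) := by
          rw [ex]; ring
        exact_mod_cast this
      exact mul_left_cancel₀ hmR.ne' h2
    have hl : (0 : ℝ) < (lam (Subgroup.zpowers (x : G)) : ℝ) := by exact_mod_cast hlampos _ (hzp x)
    rw [hnR, h1]
    change _ * (1 / (lam (Subgroup.zpowers (x : G)) : ℝ)) = _
    field_simp
  rw [← hu, ← hnR] at hin
  rw [hmc]
  exact_mod_cast hin

end Cfsg.Agent.S4091
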