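import Mathlib
import Cfsg.Statements.S4092

set_option autoImplicit false
open Cfsg

namespace Cfsg.Agent.S4092

open Subgroup MulAction

/-- normalizers grow in finite `p`-groups (relative form). -/
theorem lt_inf_normalizer {G : Type*} [Group G] [Finite G] {p : ℕ} [hp : Fact p.Prime]
    {T P : Subgroup G} (hP : IsPGroup p P)
    (hlt : T < P) : T < P ⊓ normalizer (T : Set G) := by
  have : Group.IsNilpotent ↥P := hP.isNilpotent
  have hnc : NormalizerCondition ↥P := Group.normalizerCondition_of_isNilpotent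
  have h1 : T.subgroupOf P < ⊤ := by
    rw [lt_top_iff_ne_top]
    intro h
    rw [subgroupOf_eq_top] at h
    exact absurd h (not_le_of_gt hlt)
  have h2 := hnc _ h1
  obtain ⟨x, hx, hxn⟩ := SetLike.exists_of_lt h2
  refine lt_of_le_of_ne (le_inf hlt.le le_normalizer) ?_
  intro heq
  apply hxn
  rw [mem_subgroupOf, heq]
  refine mem_inf.mpr ⟨x.2, ?_⟩
  rw [mem_normalizer_iff]
  intro t
  constructor
  · intro ht
    have := (mem_normalizer_iff.mp hx ⟨t, hlt.le ht⟩).mp (by simpa [mem_subgroupOf] using ht)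
    simpa [mem_subgroupOf] using this
  · intro ht
    have htP : t ∈ P := by
      have h3 : (x : G)⁻¹ * ((x : G) * t * (x : G)⁻¹) * x ∈ P :=
        P.mul_mem (P.mul_mem (P.inv_mem x.2) (hlt.le ht)) x.2
      simpa [mul_assoc] using h3
    have := (mem_normalizer_iff.mp hx ⟨t, htP⟩).mpr (by simpa [mem_subgroupOf] using ht)
    simpa [mem_subgroupOf] using this

theorem result {G : Type*} [Group G] [Finite G] (p : ℕ) [Fact p.Prime]
    (P : Sylow p G) (hP : ¬ (P : Subgroup G).Normal) :
    p * Nat.card (P : Subgroup G) ≤ Nat.card {g : G // ∃ k : ℕ, orderOf g = p ^ k} := by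
  classical
  have hp : p.Prime := Fact.out
  have := Fintype.ofFinite G
  -- two distinct Sylow subgroups with maximal intersection
  have hex : ∃ Q : Sylow p G, Q ≠ P := by
    by_contra hcon
    push Not at hcon
    have : Subsingleton (Sylow p G) := ⟨fun a b => (hcon a).trans (hcon b).symm⟩
    exact hP (Sylow.normal_of_subsingleton P)
  obtain ⟨Q₀, hQ₀⟩ := hex
  obtain ⟨⟨P₁, Q₁⟩, hne, hmax⟩ := Set.exists_max_image {x : Sylow p G × Sylow p G | x.1 ≠ x.2}
    (fun x => Nat.card ((x.1 : Subgroup G) ⊓ (x.2 : Subgroup G) : Subgroup G)) (Set.toFinite _)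
    ⟨(P, Q₀), hQ₀.symm⟩
  simp only [Set.mem_ofPred_eq] at hne
  have hmax' : ∀ R R' : Sylow p G, R ≠ R' →
      Nat.card ((R : Subgroup G) ⊓ (R' : Subgroup G) : Subgroup G) ≤
        Nat.card ((P₁ : Subgroup G) ⊓ (Q₁ : Subgroup G) : Subgroup G) :=
    fun R R' h => hmax (R, R') h
  set D : Subgroup G := (P₁ : Subgroup G) ⊓ (Q₁ : Subgroup G) with hD
  have hcardS : ∀ R : Sylow p G, Nat.card (R : Subgroup G) = Nat.card (P : Subgroup G) := by
    intro R
    rw [R.card_eq_multiplicity, P.card_eq_multiplicity]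
  have hDlt : D < P₁ := by
    refine lt_of_le_of_ne inf_le_left ?_
    intro h
    apply hne
    have hle : (P₁ : Subgroup G) ≤ Q₁ := by rw [← h]; exact inf_le_right
    exact Sylow.ext (P₁.is_maximal' Q₁.isPGroup' hle).symm
  have hElt := lt_inf_normalizer P₁.isPGroup' hDlt
  set E : Subgroup G := (P₁ : Subgroup G) ⊓ normalizer (D : Set G) with hE
  obtain ⟨y₀, hy₀E, hy₀D⟩ := SetLike.exists_of_lt hElt
  have hEp : IsPGroup p E := P₁.isPGroup'.to_le inf_le_left
  obtain ⟨n, hn⟩ := hEp.card_orbit Q₁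
  have hn0 : n ≠ 0 := by
    rintro rfl
    rw [pow_zero, Nat.card_eq_one_iff_unique] at hn
    obtain ⟨hsub, -⟩ := hn
    have h1 : (⟨(⟨y₀, hy₀E⟩ : E) • Q₁, mem_orbit _ _⟩ : orbit E Q₁) = ⟨Q₁, mem_orbit_self _⟩ :=
      Subsingleton.elim _ _
    have h2 : y₀ • Q₁ = Q₁ := congr_arg Subtype.val h1
    rw [Sylow.smul_eq_iff_mem_normalizer] at h2
    apply hy₀D
    have h3 : y₀ ∈ (P₁ : Subgroup G) ⊓ normalizer (Q₁ : Set G) := ⟨hy₀E.1, h2⟩
    rwa [P₁.isPGroup'.inf_normalizer_sylow Q₁] at h3
  -- the family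
  set F : Finset (Sylow p G) := insert P₁ (orbit E Q₁).toFinset with hF
  have hP₁F : P₁ ∉ (orbit E Q₁).toFinset := by
    rw [Set.mem_toFinset]
    rintro ⟨y, hy⟩
    apply hne
    have hy' : (y : G) • Q₁ = P₁ := hy
    have h1 : (y : G)⁻¹ • P₁ = P₁ := by
      rw [Sylow.smul_eq_iff_mem_normalizer]
      exact le_normalizer (inv_mem y.2.1)
    rw [← hy', inv_smul_smul] at h1
    rw [← hy', ← h1]
  have hFcard : p + 1 ≤ F.card := by
    rw [hF, Finset.card_insert_of_notMem hP₁F, Set.toFinset_card, ← Nat.card_eq_fintype_card, hn]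
    have : p ^ 1 ≤ p ^ n := Nat.pow_le_pow_right hp.pos (Nat.one_le_iff_ne_zero.mpr hn0)
    rw [pow_one] at this
    omega
  have hDF : ∀ R ∈ F, D ≤ R := by
    intro R hR
    rw [hF, Finset.mem_insert, Set.mem_toFinset] at hR
    rcases hR with rfl | ⟨y, rfl⟩
    · exact inf_le_left
    · intro d hd
      have hyN : (y : G) ∈ normalizer (D : Set G) := y.2.2
      have h1 : (y : G)⁻¹ * d * (y : G) ∈ D := by
        have := (mem_normalizer_iff.mp (inv_mem hyN) d).mp hd
        simpa using this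
      change d ∈ ((y : G) • Q₁ : Sylow p G)
      rw [← SetLike.mem_coe, Sylow.coe_smul, Set.mem_smul_set_iff_inv_smul_mem]
      have : (MulAut.conj (y : G))⁻¹ • d = (y : G)⁻¹ * d * (y : G) := by
        simp [MulAut.smul_def]
      rw [this]
      exact h1.2
  have hinter : ∀ R ∈ F, ∀ R' ∈ F, R ≠ R' → ∀ x : G, x ∈ R → x ∈ R' → x ∈ D := by
    intro R hR R' hR' hRR' x hx hx'
    have hle : D ≤ (R : Subgroup G) ⊓ (R' : Subgroup G) := le_inf (hDF R hR) (hDF R' hR')
    have heq := Subgroup.eq_of_le_of_card_ge hle (hmax' R R' hRR')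
    rw [heq]
    exact ⟨hx, hx'⟩
  -- counting
  set a := Nat.card (P : Subgroup G) with ha
  set d := Nat.card D with hd
  have hpd : p * d ≤ a := by
    have h1 : d ∣ Nat.card (P₁ : Subgroup G) := Subgroup.card_dvd_of_le hDlt.le
    rw [hcardS] at h1
    obtain ⟨c, hc⟩ := h1
    have hlt : d < a := by
      rw [← hcardS P₁]
      by_contra hge
      push Not at hge
      exact hDlt.ne (Subgroup.eq_of_le_of_card_ge hDlt.le hge)
    obtain ⟨m, hm⟩ := IsPGroup.iff_card.mp P.isPGroup'
    have hcd : c ∣ p ^ m := by rw [← hm]; exact Dvd.intro_left _ hc.symm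
    obtain ⟨j, -, hj⟩ := (Nat.dvd_prime_pow hp).1 hcd
    have hj0 : j ≠ 0 := by
      rintro rfl
      rw [pow_zero] at hj
      rw [hj, mul_one] at hc
      omega
    have hpc : p ≤ c := by
      rw [hj]
      calc p = p ^ 1 := (pow_one p).symm
        _ ≤ p ^ j := Nat.pow_le_pow_right hp.pos (Nat.one_le_iff_ne_zero.mpr hj0)
    calc p * d ≤ c * d := Nat.mul_le_mul_right _ hpc
      _ = a := by rw [hc, mul_comm]
  set SD : Finset G := (D : Set G).toFinset with hSD
  let S : Sylow p G → Finset G := fun R => ((R : Subgroup G) : Set G).toFinset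
  have hSDcard : SD.card = d := by
    rw [hSD, Set.toFinset_card, hd, Nat.card_eq_fintype_card]; rfl
  have hScard : ∀ R, (S R).card = a := by
    intro R
    simp only [S]
    rw [Set.toFinset_card, ← hcardS R, Nat.card_eq_fintype_card]; rfl
  have hsdiff : ∀ R ∈ F, (S R \ SD).card = a - d := by
    intro R hR
    rw [Finset.card_sdiff_of_subset, hScard, hSDcard]
    intro x hx
    simp only [S, hSD, Set.mem_toFinset, SetLike.mem_coe] at hx ⊢
    exact hDF R hR hx
  set B : Finset G := F.biUnion (fun R => S R \ SD) with hB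
  have hBcard : B.card = F.card * (a - d) := by
    rw [hB, Finset.card_biUnion, Finset.sum_congr rfl hsdiff, Finset.sum_const, smul_eq_mul]
    intro R hR R' hR' hRR'
    rw [Function.onFun, Finset.disjoint_left]
    intro x hx hx'
    simp only [S, hSD, Finset.mem_sdiff, Set.mem_toFinset, SetLike.mem_coe] at hx hx'
    exact hx.2 (hinter R hR R' hR' hRR' x hx.1 hx'.1)
  have hdisj : Disjoint SD B := by
    rw [Finset.disjoint_left]
    intro x hx hxB
    rw [hB, Finset.mem_biUnion] at hxB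
    obtain ⟨R, -, hxR⟩ := hxB
    exact (Finset.mem_sdiff.mp hxR).2 hx
  have hsub : SD ∪ B ⊆ Finset.univ.filter (fun g : G => ∃ k : ℕ, orderOf g = p ^ k) := by
    intro x hx
    rw [Finset.mem_filter]
    refine ⟨Finset.mem_univ _, ?_⟩
    have hpel : ∀ R : Sylow p G, x ∈ R → ∃ k : ℕ, orderOf x = p ^ k := by
      intro R hxR
      obtain ⟨k, hk⟩ := (IsPGroup.iff_orderOf.mp R.isPGroup') ⟨x, hxR⟩
      exact ⟨k, by simpa using hk⟩
    rcases Finset.mem_union.mp hx with h | h
    · rw [hSD, Set.mem_toFinset] at h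
      exact hpel P₁ h.1
    · rw [hB, Finset.mem_biUnion] at h
      obtain ⟨R, -, hxR⟩ := h
      have := (Finset.mem_sdiff.mp hxR).1
      simp only [S, Set.mem_toFinset, SetLike.mem_coe] at this
      exact hpel R this
  have hfinal := Finset.card_le_card hsub
  rw [Finset.card_union_of_disjoint hdisj, hSDcard, hBcard] at hfinal
  have hcardX : Nat.card {g : G // ∃ k : ℕ, orderOf g = p ^ k} =
      (Finset.univ.filter (fun g : G => ∃ k : ℕ, orderOf g = p ^ k)).card := by
    rw [Nat.card_eq_fintype_card, Fintype.card_subtype]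
  rw [hcardX]
  refine le_trans ?_ hfinal
  have hda : d ≤ a := le_trans (Nat.le_mul_of_pos_left d hp.pos) hpd
  obtain ⟨c, hc⟩ := Nat.exists_eq_add_of_le hda
  have hac : a - d = c := by omega
  rw [hac]
  calc p * a = p * d + p * c := by rw [hc]; ring
    _ ≤ a + p * c := by omega
    _ = d + (p + 1) * c := by rw [hc]; ring
    _ ≤ d + F.card * c := by
      have := Nat.mul_le_mul_right c hFcard
      omega

end Cfsg.Agent.S4092
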