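import Mathlib
import Cfsg.Statements.S4093
import Cfsg.Agent.Lib.Helper68.Frobenius

set_option autoImplicit false
open Cfsg

namespace Cfsg.Agent.S4093

open Cfsg.Agent.Lib.Helper68 MulAction

lemma exists_conj_mem {G : Type*} [Group G] [Finite G] (p : ℕ) [Fact p.Prime] (P : Sylow p G)
    (x : G) (hx : ∃ k : ℕ, x ^ (p ^ k) = 1) : ∃ h : G, h * x * h⁻¹ ∈ P := by
  have hpg : IsPGroup p (Subgroup.zpowers x) := by
    obtain ⟨k, hk⟩ := hx
    rintro ⟨y, hy⟩
    obtain ⟨j, rfl⟩ := Subgroup.mem_zpowers_iff.mp hy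
    refine ⟨k, Subtype.ext ?_⟩
    simp only [SubmonoidClass.mk_pow, OneMemClass.coe_one]
    rw [← zpow_natCast, ← zpow_mul, mul_comm, zpow_mul, zpow_natCast, hk, one_zpow]
  obtain ⟨Q, hQ⟩ := hpg.exists_le_sylow
  obtain ⟨h, hh⟩ := MulAction.exists_smul_eq G Q P
  refine ⟨h, ?_⟩
  rw [← hh, ← SetLike.mem_coe, Sylow.coe_smul, Set.mem_smul_set_iff_inv_smul_mem]
  have : (MulAut.conj h)⁻¹ • (h * x * h⁻¹) = x := by
    simp [MulAut.smul_def, mul_assoc]
  rw [this]
  exact hQ (Subgroup.mem_zpowers x)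

theorem result {G : Type*} [Group G] [Finite G] (p : ℕ) [Fact p.Prime]
    (P : Sylow p G) (N : Subgroup G) [N.Normal] (hNP : N.IsComplement' (P : Subgroup G)) :
    Nat.card {g : G // ∃ k : ℕ, orderOf g = p ^ k} =
      ∑ᶠ x : (P : Subgroup G), Nat.card N / Nat.card ↥(N ⊓ Subgroup.centralizer ({(x : G)} : Set G)) := by
  classical
  have := Fintype.ofFinite (P : Subgroup G)
  letI act : MulAction N G := MulAction.compHom G ((MulAut.conj : G →* MulAut G).comp N.subtype)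
  have hsmul : ∀ (m : N) (g : G), m • g = (m : G) * g * (m : G)⁻¹ := fun _ _ => rfl
  have hsup : N ⊔ (P : Subgroup G) = ⊤ := hNP.sup_eq_top
  have hdisj : ∀ z : G, z ∈ N → z ∈ P → z = 1 := by
    intro z h1 h2
    have := hNP.disjoint
    rw [Subgroup.disjoint_def] at this
    exact this h1 h2
  have hpel : ∀ (x : (P : Subgroup G)) (g : G), g ∈ orbit N (x : G) → ∃ k : ℕ, orderOf g = p ^ k := by
    rintro x _ ⟨m, rfl⟩
    obtain ⟨k, hk⟩ := (IsPGroup.iff_orderOf.mp P.isPGroup') x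
    refine ⟨k, ?_⟩
    have h1 : orderOf ((m : G) * (x : G) * (m : G)⁻¹) = orderOf (x : G) := (MulAut.conj (m : G)).orderOf_eq _
    change orderOf ((m : G) * (x : G) * (m : G)⁻¹) = p ^ k
    rw [h1, Subgroup.orderOf_coe, hk]
  let f : (Σ x : (P : Subgroup G), orbit N (x : G)) → {g : G // ∃ k : ℕ, orderOf g = p ^ k} :=
    fun s => ⟨s.2.1, hpel s.1 s.2.1 s.2.2⟩
  have hf : Function.Bijective f := by
    constructor
    · rintro ⟨x, ⟨g, hg⟩⟩ ⟨x', ⟨g', hg'⟩⟩ h
      have hgg : g = g' := congr_arg Subtype.val h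
      subst hgg
      obtain ⟨m, hm⟩ := hg
      obtain ⟨m', hm'⟩ := hg'
      have hm1 : (m : G) * (x : G) * (m : G)⁻¹ = g := hm
      have hm2 : (m' : G) * (x' : G) * (m' : G)⁻¹ = g := hm'
      have hxx : x = x' := by
        have h1 : ((x : G) : G ⧸ N) = ((x' : G) : G ⧸ N) := by
          have e1 : ((g : G) : G ⧸ N) = ((x : G) : G ⧸ N) := by
            rw [← hm1, QuotientGroup.mk_mul, QuotientGroup.mk_mul, QuotientGroup.mk_inv,
              (QuotientGroup.eq_one_iff (m : G)).mpr m.2]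
            simp
          have e2 : ((g : G) : G ⧸ N) = ((x' : G) : G ⧸ N) := by
            rw [← hm2, QuotientGroup.mk_mul, QuotientGroup.mk_mul, QuotientGroup.mk_inv,
              (QuotientGroup.eq_one_iff (m' : G)).mpr m'.2]
            simp
          rw [← e1, e2]
        rw [QuotientGroup.eq] at h1
        have h2 := hdisj _ h1 ((P : Subgroup G).mul_mem ((P : Subgroup G).inv_mem x.2) x'.2)
        apply Subtype.ext
        exact inv_mul_eq_one.mp h2
      subst hxx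
      rfl
    · rintro ⟨g, k, hk⟩
      obtain ⟨h, hh⟩ := exists_conj_mem p P g ⟨k, by rw [← hk]; exact pow_orderOf_eq_one g⟩
      obtain ⟨n, hn, y, hy, hny⟩ := exists_mul_of_sup_eq_top N (P : Subgroup G) hsup h⁻¹
      have hxP : y * (h * g * h⁻¹) * y⁻¹ ∈ (P : Subgroup G) :=
        (P : Subgroup G).mul_mem ((P : Subgroup G).mul_mem hy hh) ((P : Subgroup G).inv_mem hy)
      refine ⟨⟨⟨_, hxP⟩, ⟨g, ⟨⟨n, hn⟩, ?_⟩⟩⟩, rfl⟩
      change n * (y * (h * g * h⁻¹) * y⁻¹) * n⁻¹ = g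
      calc n * (y * (h * g * h⁻¹) * y⁻¹) * n⁻¹ = (n * y) * (h * g * h⁻¹) * (n * y)⁻¹ := by group
        _ = h⁻¹ * (h * g * h⁻¹) * (h⁻¹)⁻¹ := by rw [← hny]
        _ = g := by group
  rw [finsum_eq_sum_of_fintype, ← Nat.card_congr (Equiv.ofBijective f hf), Nat.card_sigma]
  apply Finset.sum_congr rfl
  intro x _
  have h1 : Nat.card (orbit N (x : G)) * Nat.card (stabilizer N (x : G)) = Nat.card N := by
    rw [← Nat.card_prod]
    exact Nat.card_congr (orbitProdStabilizerEquivGroup N (x : G))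
  have h2 : Nat.card (stabilizer N (x : G)) = Nat.card ↥(N ⊓ Subgroup.centralizer ({(x : G)} : Set G)) := by
    apply Nat.card_congr
    refine ⟨fun m => ⟨((m : N) : G), ⟨(m : N).2, ?_⟩⟩, fun c => ⟨⟨(c : G), c.2.1⟩, ?_⟩, ?_, ?_⟩
    · apply Subgroup.mem_centralizer_singleton_iff.mpr
      have h3 : ((m : N) : G) * (x : G) * ((m : N) : G)⁻¹ = x := m.2
      rw [mul_inv_eq_iff_eq_mul] at h3
      exact h3
    · have h3 := Subgroup.mem_centralizer_singleton_iff.mp c.2.2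
      change (c : G) * (x : G) * (c : G)⁻¹ = x
      rw [h3]; group
    · intro m; rfl
    · intro c; rfl
  rw [← h2, ← h1]
  exact (Nat.mul_div_cancel _ Nat.card_pos).symm

end Cfsg.Agent.S4093
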