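import Cfsg.Statements.S4097
import Cfsg.Agent.S0035
import Cfsg.Agent.S0034
import Cfsg.Agent.Lib.Helper1.CoprimeSylow
import Cfsg.Agent.Lib.Helper22.SupLemmas
import Cfsg.Agent.Lib.Helper96.Zipper
import Cfsg.Agent.Lib.Helper96.ClassPow

set_option autoImplicit false
open Cfsg

namespace Cfsg.Agent.S4097

open scoped Pointwise
open Cfsg.Agent.Lib.Helper96

/-- The preimage of a solvable subgroup of `G / Z(G)` is solvable. -/
theorem isSolvable_comap_center {G : Type*} [Group G] (S : Subgroup (G ⧸ Subgroup.center G))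
    (hS : Group.IsSolvable S) :
    Group.IsSolvable (S.comap (QuotientGroup.mk' (Subgroup.center G))) := by
  have hle : Subgroup.center G ≤ S.comap (QuotientGroup.mk' (Subgroup.center G)) := by
    intro z hz
    rw [Subgroup.mem_comap]
    have : QuotientGroup.mk' (Subgroup.center G) z = 1 := (QuotientGroup.eq_one_iff z).2 hz
    rw [this]; exact S.one_mem
  have hZ : Group.IsSolvable (Subgroup.center G) :=
    Group.isSolvable_of_comm (fun a b => mul_comm' a b)
  refine Group.isSolvable_of_ker_le_range (Subgroup.inclusion hle)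
    ((QuotientGroup.mk' (Subgroup.center G)).subgroupComap S) ?_
  intro x hx
  rw [MonoidHom.mem_ker] at hx
  have h1 : QuotientGroup.mk' (Subgroup.center G) (x : G) = 1 := congrArg Subtype.val hx
  have h2 : (x : G) ∈ Subgroup.center G := (QuotientGroup.eq_one_iff _).1 h1
  exact ⟨⟨x, h2⟩, rfl⟩

theorem key {G : Type*} [Group G] [Finite G] (A : Subgroup G) (hA : Group.IsSolvable A)
    (hc : ∀ S : Subgroup G, A ≤ S → Group.IsSolvable S → ∀ a ∈ A, ∀ s ∈ S, a * s = s * a)
    (hmax : ∀ M : Subgroup G, A ≤ M → M ≠ ⊤ → M ≤ Subgroup.centralizer (A : Set G)) :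
    A ≤ Subgroup.center G := by
  by_contra hcon
  set C := Subgroup.centralizer (A : Set G) with hC
  have hCtop : C ≠ ⊤ := fun h => hcon (Subgroup.centralizer_eq_top_iff_subset.1 h)
  have hAC : A ≤ C := by
    intro a ha
    rw [hC, Subgroup.mem_centralizer_iff]
    intro b hb
    exact hc A le_rfl hA b hb a ha
  -- conjugates of `A` inside `C`
  have hconj : ∀ g : G, MulAut.conj g • A ≤ C → g ∈ Subgroup.normalizer (C : Set G) := by
    intro g hg
    have h1 : A ≤ MulAut.conj g⁻¹ • C := by
      intro a ha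
      rw [Cfsg.Agent.S0034.mem_conj_smul]
      apply hg
      rw [Cfsg.Agent.S0034.mem_conj_smul]
      simpa [mul_assoc] using ha
    have h2 := hmax _ h1 (conj_smul_ne_top g⁻¹ hCtop)
    have h3 := mem_normalizer_of_conj_smul_eq (conj_smul_eq_of_le h2)
    simpa using Subgroup.inv_mem _ h3
  have hNC : Subgroup.normalizer (C : Set G) ≤ C := by
    by_cases hN : Subgroup.normalizer (C : Set G) = ⊤
    · exfalso
      have hCn : C.Normal := Subgroup.normalizer_eq_top_iff.1 hN
      set Z := C ⊓ Subgroup.centralizer (C : Set G) with hZ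
      have hZn : Z.Normal := inferInstance
      have hAZ : A ≤ Z := le_inf hAC (Subgroup.le_centralizer_iff.1 le_rfl)
      have hZs : Group.IsSolvable Z := by
        apply Group.isSolvable_of_comm
        intro x y
        apply Subtype.ext
        exact (Subgroup.mem_centralizer_iff.1 y.2.2 x x.2.1)
      apply hCtop
      rw [eq_top_iff]
      intro g _
      have hS : Group.IsSolvable (Z ⊔ Subgroup.zpowers g : Subgroup G) := by
        apply Cfsg.Agent.Lib.Helper22.isSolvable_sup _ hZs
        · exact Group.isSolvable_of_comm (fun a b => mul_comm' a b)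
        · rw [Subgroup.normalizer_eq_top_iff.2 hZn]
          exact le_top
      rw [hC, Subgroup.mem_centralizer_iff]
      intro a ha
      exact hc _ (hAZ.trans le_sup_left) hS a ha g
        ((le_sup_right : Subgroup.zpowers g ≤ _) (Subgroup.mem_zpowers g))
    · exact hmax _ (hAC.trans Subgroup.le_normalizer) hN
  have hTI : ∀ g : G, g ∉ C → ∀ z ∈ C, z ∈ MulAut.conj g • C → z ∈ Subgroup.center G := by
    intro g hg z hz hzg
    by_cases hD : Subgroup.centralizer {z} = ⊤
    · have := Subgroup.centralizer_eq_top_iff_subset.1 hD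
      exact this rfl
    · exfalso
      have hAD : A ≤ Subgroup.centralizer {z} := by
        intro a ha
        rw [Subgroup.mem_centralizer_singleton_iff]
        exact (Subgroup.mem_centralizer_iff.1 hz a ha)
      have hDC := hmax _ hAD hD
      apply hg
      apply hNC
      apply hconj
      refine le_trans ?_ hDC
      intro b hb
      rw [Cfsg.Agent.S0034.mem_conj_smul] at hb hzg
      rw [Subgroup.mem_centralizer_singleton_iff]
      have h1 := Subgroup.mem_centralizer_iff.1 hzg _ hb
      -- g⁻¹ b g * (g⁻¹ z g) = (g⁻¹ z g) * (g⁻¹ b g)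
      have h2 : g * (g⁻¹ * b * g * (g⁻¹ * z * g)) * g⁻¹ = g * (g⁻¹ * z * g * (g⁻¹ * b * g)) * g⁻¹ := by
        rw [h1]
      have e1 : g * (g⁻¹ * b * g * (g⁻¹ * z * g)) * g⁻¹ = b * z := by group
      have e2 : g * (g⁻¹ * z * g * (g⁻¹ * b * g)) * g⁻¹ = z * b := by group
      rw [e1, e2] at h2
      exact h2
  -- the Frobenius group `G / Z(G)`
  set π := QuotientGroup.mk' (Subgroup.center G) with hπ
  have hπs : Function.Surjective π := QuotientGroup.mk'_surjective _
  have hker : π.ker = Subgroup.center G := QuotientGroup.ker_mk' _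
  have hZC : Subgroup.center G ≤ C := Subgroup.center_le_centralizer _
  have hπ1 : ∀ x : G, π x = 1 ↔ x ∈ Subgroup.center G := fun x => QuotientGroup.eq_one_iff x
  have hmemHb : ∀ x : G, π x ∈ C.map π → x ∈ C := by
    intro x hx
    obtain ⟨c, hc', hcx⟩ := hx
    have h1 : π (c⁻¹ * x) = 1 := by rw [map_mul, map_inv, hcx, inv_mul_cancel]
    have h2 := hZC ((hπ1 _).1 h1)
    have : x = c * (c⁻¹ * x) := by group
    rw [this]
    exact C.mul_mem hc' h2
  have hfrob : IsFrobeniusComplement (C.map π) := by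
    refine ⟨?_, ?_, ?_⟩
    · intro h
      rw [Subgroup.map_eq_bot_iff, hker] at h
      exact hcon (hAC.trans h)
    · intro h
      apply hCtop
      rw [eq_top_iff]
      intro x _
      exact hmemHb x (by rw [h]; trivial)
    · intro q hq
      obtain ⟨g, rfl⟩ := hπs q
      have hg : g ∉ C := fun h => hq ⟨g, h, rfl⟩
      rw [eq_bot_iff]
      intro x hx
      obtain ⟨hx1, hx2⟩ := Subgroup.mem_inf.1 hx
      obtain ⟨c, hc', rfl⟩ := hx1
      rw [Cfsg.Agent.S0034.mem_conj_smul, ← map_inv, ← map_mul, ← map_mul] at hx2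
      have h1 := hmemHb _ hx2
      have h2 := hTI g hg c hc' ((Cfsg.Agent.S0034.mem_conj_smul C g c).2 h1)
      rw [Subgroup.mem_bot]
      exact (hπ1 c).2 h2
  obtain ⟨N, hNK, hNn, hcompl⟩ := Cfsg.Agent.S0035.result _ hfrob
  have hcardN : Nat.card N = (C.map π).index := hcompl.index_eq_card.symm
  have hcop : (Nat.card (C.map π)).Coprime (Nat.card N) := by
    have h1 := (Cfsg.Agent.S0034.result _ hfrob).2
    have h2 : Nat.gcd (C.map π).index (Nat.card (C.map π)) = Nat.gcd 1 (Nat.card (C.map π)) :=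
      Nat.ModEq.gcd_eq h1
    rw [Nat.gcd_one_left] at h2
    rw [hcardN, Nat.coprime_comm]
    exact h2
  have hNbot : N ≠ ⊥ := by
    intro h
    rw [h, Subgroup.isComplement'_bot_left] at hcompl
    exact hfrob.2.1 hcompl
  have hN1 : Nat.card N ≠ 1 := fun h => hNbot (Subgroup.card_eq_one.1 h)
  have hr : Fact (Nat.card N).minFac.Prime := ⟨Nat.minFac_prime hN1⟩
  have hAbs : Group.IsSolvable (A.map π) :=
    Group.isSolvable_of_surjective (π.subgroupMap_surjective A)
  have hAbC : A.map π ≤ C.map π := Subgroup.map_mono hAC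
  obtain ⟨R, hRN, hRp, hRi, hAR⟩ := Cfsg.Agent.Lib.Helper1.exists_invariant_sylow (A.map π) N
    (by rw [Subgroup.normalizer_eq_top_iff.2 hNn]; exact le_top)
    (Nat.Coprime.coprime_dvd_left (Subgroup.card_dvd_of_le hAbC) hcop) (Or.inl hAbs)
    (Nat.card N).minFac
  have hRbot : R ≠ ⊥ := by
    intro h
    rw [h, Subgroup.relIndex_bot_left] at hRi
    exact hRi (Nat.minFac_dvd _)
  have hSb : Group.IsSolvable (R ⊔ A.map π : Subgroup _) :=
    Cfsg.Agent.Lib.Helper22.isSolvable_sup hAR (isSolvable_of_isPGroup hr.out hRp) hAbs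
  have hS := isSolvable_comap_center _ hSb
  obtain ⟨x, hxR, hx1⟩ : ∃ x, x ∈ R ∧ x ≠ 1 := by
    obtain ⟨x, hx⟩ := Subgroup.ne_bot_iff_exists_ne_one.1 hRbot
    exact ⟨x, x.2, fun h => hx (Subtype.ext h)⟩
  obtain ⟨y, rfl⟩ := hπs x
  obtain ⟨a, haA, haZ⟩ := SetLike.not_le_iff_exists.1 hcon
  have hcomm := hc _ (fun b hb => (le_sup_right : A.map π ≤ R ⊔ A.map π) ⟨b, hb, rfl⟩) hS a haA y
    ((le_sup_left : R ≤ R ⊔ A.map π) hxR)
  have hyH : π y ∉ C.map π := by
    intro h
    have := Subgroup.disjoint_def.1 hcompl.disjoint (hRN hxR) h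
    exact hx1 this
  have h1 : π a ∈ C.map π ⊓ MulAut.conj (π y) • C.map π := by
    rw [Subgroup.mem_inf]
    refine ⟨⟨a, hAC haA, rfl⟩, ?_⟩
    rw [Cfsg.Agent.S0034.mem_conj_smul, ← map_inv, ← map_mul, ← map_mul, mul_assoc,
      hcomm, inv_mul_cancel_left]
    exact ⟨a, hAC haA, rfl⟩
  rw [hfrob.2.2 _ hyH, Subgroup.mem_bot] at h1
  exact haZ ((hπ1 a).1 h1)

/-- A solvable subgroup that is central in every solvable subgroup containing it is central in G. -/
theorem result {G : Type*} [Group G] [Finite G]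
    (A : Subgroup G) (hA : Group.IsSolvable A)
    (hc : ∀ S : Subgroup G, A ≤ S → Group.IsSolvable S → ∀ a ∈ A, ∀ s ∈ S, a * s = s * a) : A ≤ Subgroup.center G := by
  induction hn : Nat.card G using Nat.strong_induction_on generalizing G with
  | _ n ih =>
    subst hn
    apply key A hA hc
    intro M hAM hM
    have hlt : Nat.card M < Nat.card G :=
      lt_of_le_of_ne (Subgroup.card_le_card_group M) (fun h => hM (Subgroup.eq_top_of_card_eq M h))
    have hA' : Group.IsSolvable (A.subgroupOf M) :=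
      Group.isSolvable_of_isSolvable_injective (f := (Subgroup.subgroupOfEquivOfLe hAM).toMonoidHom)
        (Subgroup.subgroupOfEquivOfLe hAM).injective
    have := ih _ hlt (A.subgroupOf M) hA' (by
      intro S' hAS' hS' a ha s hs
      have hS : Group.IsSolvable (S'.map M.subtype) :=
        Group.isSolvable_of_surjective (M.subtype.subgroupMap_surjective S')
      have h1 := hc (S'.map M.subtype) (fun b hb => ⟨⟨b, hAM hb⟩, hAS' hb, rfl⟩) hS a ha s
        ⟨s, hs, rfl⟩
      exact Subtype.ext h1) rfl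
    intro m hm
    rw [Subgroup.mem_centralizer_iff]
    intro a ha
    have h2 := Subgroup.mem_center_iff.1 (this (show (⟨a, hAM ha⟩ : M) ∈ A.subgroupOf M from ha))
      ⟨m, hm⟩
    exact (congrArg Subtype.val h2).symm

end Cfsg.Agent.S4097
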