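import Mathlib
import Cfsg.Statements.S4106

set_option autoImplicit false
open Cfsg

namespace Cfsg.Agent.S4106

universe u

/-- decomposition of an element into commuting `p`-part and `p'`-part -/
lemma exists_decomp {G : Type*} [Group G] [Finite G] (p : ℕ) (hp : p.Prime) (g : G) :
    ∃ x y : G, g = x * y ∧ Commute x y ∧ (∃ k : ℕ, x ^ (p ^ k) = 1) ∧ orderOf y ∣ orderOf g ∧
      ¬ p ∣ orderOf y := by
  set n := orderOf g with hn
  have hn0 : n ≠ 0 := (orderOf_pos g).ne'
  set a := p ^ n.factorization p with ha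
  set b := n / p ^ n.factorization p with hb
  have hab : a * b = n := Nat.ordProj_mul_ordCompl_eq_self n p
  have hcop : Nat.Coprime a b := (Nat.coprime_ordCompl hp hn0).pow_left _
  have key : (1 : ℤ) = a * Nat.gcdA a b + b * Nat.gcdB a b := by
    have := Nat.gcd_eq_gcd_ab a b
    rw [hcop.gcd_eq_one] at this
    exact_mod_cast this
  refine ⟨(g ^ b) ^ (Nat.gcdB a b), (g ^ a) ^ (Nat.gcdA a b), ?_, ?_, ⟨n.factorization p, ?_⟩, ?_, ?_⟩
  · have h1 : g = g ^ (1 : ℤ) := (zpow_one g).symm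
    rw [key, add_comm, zpow_add, zpow_mul, zpow_mul, zpow_natCast, zpow_natCast] at h1
    exact h1
  · exact ((Commute.refl g).pow_pow b a).zpow_zpow _ _
  · rw [← ha, ← zpow_natCast, ← zpow_natCast, ← zpow_mul, ← zpow_mul]
    have h3 : (b : ℤ) * (Nat.gcdB a b * a) = (n : ℤ) * Nat.gcdB a b := by
      rw [← hab]; push_cast; ring
    rw [h3, zpow_mul, zpow_natCast, hn, pow_orderOf_eq_one, one_zpow]
  · exact (orderOf_dvd_of_mem_zpowers
      ((Subgroup.zpowers g).zpow_mem ((Subgroup.zpowers g).pow_mem (Subgroup.mem_zpowers g) _) _))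
  · intro hdvd
    have h1 : ((g ^ a) ^ (Nat.gcdA a b)) ^ b = 1 := by
      rw [← zpow_natCast, ← zpow_natCast, ← zpow_mul, ← zpow_mul]
      have h3 : (a : ℤ) * (Nat.gcdA a b * b) = (n : ℤ) * Nat.gcdA a b := by
        rw [← hab]; push_cast; ring
      rw [h3, zpow_mul, zpow_natCast, hn, pow_orderOf_eq_one, one_zpow]
    have h2 : p ∣ b := hdvd.trans (orderOf_dvd_of_pow_eq_one h1)
    exact (Nat.not_dvd_ordCompl hp hn0) h2

lemma exists_conj_mem {G : Type*} [Group G] [Finite G] (p : ℕ) [Fact p.Prime] (P : Sylow p G)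
    (x : G) (hx : ∃ k : ℕ, x ^ (p ^ k) = 1) : ∃ h : G, h * x * h⁻¹ ∈ P := by
  have hpg : IsPGroup p (Subgroup.zpowers x) := by
    obtain ⟨k, hk⟩ := hx
    rintro ⟨y, hy⟩
    obtain ⟨j, rfl⟩ := Subgroup.mem_zpowers_iff.mp hy
    refine ⟨k, Subtype.ext ?_⟩
    simp only [SubmonoidClass.mk_pow, OneMemClass.coe_one]
    rw [← zpow_natCast, ← zpow_mul, mul_comm, zpow_mul, zpow_natCast, hk, one_zpow]
  obtain ⟨Q, hQ⟩ := hpg.exists_le_sylow
  obtain ⟨h, hh⟩ := MulAction.exists_smul_eq G Q P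
  refine ⟨h, ?_⟩
  rw [← hh, ← SetLike.mem_coe, Sylow.coe_smul, Set.mem_smul_set_iff_inv_smul_mem]
  have : (MulAut.conj h)⁻¹ • (h * x * h⁻¹) = x := by
    simp [MulAut.smul_def, mul_assoc]
  rw [this]
  exact hQ (Subgroup.mem_zpowers x)

theorem reps (s : Finset ℕ) : (∀ q ∈ s, q.Prime) → ∀ (G : Type u) [Group G] [Finite G],
    ∃ T : Finset G, T.card ≤ ∏ q ∈ s, q ^ (Nat.card G).factorization q ∧
      ∀ g : G, (∀ q : ℕ, q.Prime → q ∣ orderOf g → q ∈ s) → ∃ t ∈ T, IsConj g t := by
  classical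
  induction s using Finset.induction_on with
  | empty =>
    intro _ G _ _
    refine ⟨{1}, by simp, ?_⟩
    intro g hg
    refine ⟨1, by simp, ?_⟩
    have : orderOf g = 1 := by
      by_contra h1
      exact absurd (hg _ (Nat.minFac_prime h1) (Nat.minFac_dvd _)) (by simp)
    rw [orderOf_eq_one_iff.mp this]
  | insert p s' hp IH =>
    intro hs G _ _
    have hpp : p.Prime := hs p (Finset.mem_insert_self _ _)
    have hs' : ∀ q ∈ s', q.Prime := fun q hq => hs q (Finset.mem_insert_of_mem hq)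
    have : Fact p.Prime := ⟨hpp⟩
    obtain ⟨P⟩ : Nonempty (Sylow p G) := inferInstance
    have : Fintype (P : Subgroup G) := Fintype.ofFinite _
    choose T hTcard hTrep using fun x : (P : Subgroup G) =>
      IH hs' (↥(Subgroup.centralizer ({(x : G)} : Set G)))
    refine ⟨(Finset.univ : Finset (P : Subgroup G)).biUnion
      (fun x => (T x).image (fun y : Subgroup.centralizer ({(x : G)} : Set G) => (x : G) * (y : G))), ?_, ?_⟩
    · calc _ ≤ ∑ x : (P : Subgroup G), ((T x).image (fun y : Subgroup.centralizer ({(x : G)} : Set G) => (x : G) * (y : G))).card :=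
            Finset.card_biUnion_le
        _ ≤ ∑ x : (P : Subgroup G), ∏ q ∈ s', q ^ (Nat.card G).factorization q := by
            apply Finset.sum_le_sum
            intro x _
            refine Finset.card_image_le.trans ((hTcard x).trans ?_)
            apply Finset.prod_le_prod'
            intro q hq
            apply Nat.pow_le_pow_right (hs' q hq).pos
            exact (Nat.factorization_le_iff_dvd Nat.card_pos.ne' Nat.card_pos.ne').mpr
              (Subgroup.card_subgroup_dvd_card _) q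
        _ = _ := by
            rw [Finset.sum_const, Finset.prod_insert hp, smul_eq_mul, Finset.card_univ,
              ← Nat.card_eq_fintype_card, P.card_eq_multiplicity]
    · intro g hg
      obtain ⟨x, y, hxy, hcomm, hx, hyg, hyp⟩ := exists_decomp p hpp g
      obtain ⟨h, hh⟩ := exists_conj_mem p P x hx
      set x' : (P : Subgroup G) := ⟨h * x * h⁻¹, hh⟩ with hx'
      have hyC : h * y * h⁻¹ ∈ Subgroup.centralizer ({(x' : G)} : Set G) := by
        rw [Subgroup.mem_centralizer_singleton_iff]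
        have hc : x * y = y * x := hcomm
        change h * y * h⁻¹ * (h * x * h⁻¹) = (h * x * h⁻¹) * (h * y * h⁻¹)
        calc h * y * h⁻¹ * (h * x * h⁻¹) = h * (y * x) * h⁻¹ := by group
          _ = h * (x * y) * h⁻¹ := by rw [hc]
          _ = _ := by group
      have hord : orderOf (⟨h * y * h⁻¹, hyC⟩ : Subgroup.centralizer ({(x' : G)} : Set G)) = orderOf y := by
        rw [← Subgroup.orderOf_coe]
        exact (MulAut.conj h).orderOf_eq y
      obtain ⟨t, ht, htc⟩ := hTrep x' ⟨h * y * h⁻¹, hyC⟩ (by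
        intro q hq hqd
        rw [hord] at hqd
        have h1 := hg q hq (hqd.trans hyg)
        rcases Finset.mem_insert.mp h1 with rfl | h2
        · exact absurd hqd hyp
        · exact h2)
      refine ⟨(x' : G) * (t : G), ?_, ?_⟩
      · rw [Finset.mem_biUnion]
        exact ⟨x', Finset.mem_univ _, Finset.mem_image.mpr ⟨t, ht, rfl⟩⟩
      · obtain ⟨c, hc⟩ := isConj_iff.mp htc
        have hc' : (c : G) * (h * y * h⁻¹) * (c : G)⁻¹ = t := congr_arg Subtype.val hc
        have hcx : (c : G) * (h * x * h⁻¹) = (h * x * h⁻¹) * c :=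
          Subgroup.mem_centralizer_singleton_iff.mp c.2
        rw [isConj_iff]
        refine ⟨c * h, ?_⟩
        rw [← hc', hxy]
        change (c : G) * h * (x * y) * (c * h)⁻¹ = (h * x * h⁻¹) * ((c : G) * (h * y * h⁻¹) * (c : G)⁻¹)
        calc (c : G) * h * (x * y) * (c * h)⁻¹ = ((c : G) * (h * x * h⁻¹)) * (h * y * h⁻¹) * (c : G)⁻¹ := by group
          _ = ((h * x * h⁻¹) * c) * (h * y * h⁻¹) * (c : G)⁻¹ := by rw [hcx]
          _ = _ := by group

theorem result {G : Type*} [Group G] [Finite G]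
    (π : Set ℕ) (hπ : ∀ q ∈ π, q.Prime)
    (m : ℕ) (hm : m ∣ Nat.card G) (hmπ : ∀ q : ℕ, q.Prime → q ∣ m → q ∈ π)
    (hm' : ∀ q ∈ π, ¬ q ∣ Nat.card G / m) :
    Nat.card {C : ConjClasses G // ∀ q : ℕ, q.Prime → (∃ g : G, ConjClasses.mk g = C ∧ q ∣ orderOf g) → q ∈ π} ≤ m := by
  classical
  set s : Finset ℕ := (Nat.card G).primeFactors.filter (· ∈ π) with hs
  have hsp : ∀ q ∈ s, q.Prime := fun q hq => hπ q (Finset.mem_filter.mp hq).2
  obtain ⟨T, hTcard, hTrep⟩ := reps s hsp G
  have hN0 : Nat.card G ≠ 0 := Nat.card_pos.ne'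
  have hm0 : m ≠ 0 := by
    rintro rfl
    exact hN0 (Nat.eq_zero_of_zero_dvd hm)
  have hbound : ∏ q ∈ s, q ^ (Nat.card G).factorization q ≤ m := by
    apply Nat.le_of_dvd (Nat.pos_of_ne_zero hm0)
    apply Finset.prod_dvd_of_isRelPrime
    · intro a ha b hb hab
      exact Nat.coprime_iff_isRelPrime.mp
        (Nat.Coprime.pow _ _ ((Nat.coprime_primes (hsp a ha) (hsp b hb)).mpr hab))
    · intro q hq
      have hqp := hsp q hq
      have hqπ : q ∈ π := (Finset.mem_filter.mp hq).2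
      obtain ⟨c, hc⟩ := hm
      have hc0 : c ≠ 0 := by
        rintro rfl
        exact hN0 (by rw [hc, mul_zero])
      have hdiv : Nat.card G / m = c := by
        rw [hc]; exact Nat.mul_div_cancel_left _ (Nat.pos_of_ne_zero hm0)
      have hqc : ¬ q ∣ c := hdiv ▸ hm' q hqπ
      rw [hc, Nat.factorization_mul hm0 hc0]
      simp only [Finsupp.coe_add, Pi.add_apply]
      rw [Nat.factorization_eq_zero_of_not_dvd hqc, add_zero]
      exact Nat.ordProj_dvd m q
  refine le_trans ?_ (hTcard.trans hbound)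
  have hsub : {C : ConjClasses G | ∀ q : ℕ, q.Prime → (∃ g : G, ConjClasses.mk g = C ∧ q ∣ orderOf g) → q ∈ π}
      ⊆ ↑(T.image ConjClasses.mk) := by
    intro C hC
    obtain ⟨g, rfl⟩ := ConjClasses.exists_rep C |>.imp fun g hg => hg
    obtain ⟨t, ht, hgt⟩ := hTrep g (by
      intro q hq hqd
      refine Finset.mem_filter.mpr ⟨?_, hC q hq ⟨g, rfl, hqd⟩⟩
      exact Nat.mem_primeFactors.mpr ⟨hq, hqd.trans (orderOf_dvd_natCard g), hN0⟩)
    rw [Finset.coe_image]
    exact ⟨t, ht, (ConjClasses.mk_eq_mk_iff_isConj.mpr hgt).symm⟩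
  calc _ = Set.ncard {C : ConjClasses G | ∀ q : ℕ, q.Prime → (∃ g : G, ConjClasses.mk g = C ∧ q ∣ orderOf g) → q ∈ π} := rfl
    _ ≤ Set.ncard (↑(T.image ConjClasses.mk) : Set (ConjClasses G)) := Set.ncard_le_ncard hsub (Finset.finite_toSet _)
    _ = (T.image ConjClasses.mk).card := Set.ncard_coe_finset _
    _ ≤ T.card := Finset.card_image_le

end Cfsg.Agent.S4106
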