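import Mathlib
import Cfsg.Statements.S4107

set_option autoImplicit false
open Cfsg

namespace Cfsg.Agent.S4107

set_option linter.unusedSectionVars false

variable {G : Type*} [Group G] [Finite G]

/-- key lemma: an element outside `N` inside a normal `r`-subgroup forces `N` to be an `r`-group. -/
lemma key (N : Subgroup G)
    (heq : ∀ x : G, x ∉ N → ∀ n ∈ N, orderOf (x * n) = orderOf x)
    (r : ℕ) (R : Subgroup G) [R.Normal] (hR : IsPGroup r R) (x : G) (hxR : x ∈ R) (hxN : x ∉ N) :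
    IsPGroup r N := by
  intro y
  obtain ⟨k, hk⟩ := hR ⟨x, hxR⟩
  have hk' : x ^ (r ^ k) = 1 := by
    have := congr_arg Subtype.val hk
    simpa using this
  have h1 : (x * (y : G)) ^ (r ^ k) = 1 := by
    rw [← orderOf_dvd_iff_pow_eq_one, heq x hxN y y.2, orderOf_dvd_iff_pow_eq_one]
    exact hk'
  have h2 : (y : G) ^ (r ^ k) ∈ R := by
    rw [← QuotientGroup.eq_one_iff]
    have h3 : ((x * (y : G) : G) : G ⧸ R) = ((y : G) : G ⧸ R) := by
      rw [QuotientGroup.mk_mul, (QuotientGroup.eq_one_iff x).mpr hxR, one_mul]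
    rw [QuotientGroup.mk_pow, ← h3, ← QuotientGroup.mk_pow, h1]
    rfl
  obtain ⟨j, hj⟩ := hR ⟨_, h2⟩
  have hj' : ((y : G) ^ (r ^ k)) ^ (r ^ j) = 1 := by
    have := congr_arg Subtype.val hj
    simpa using this
  refine ⟨k + j, ?_⟩
  apply Subtype.ext
  rw [pow_add, pow_mul]
  simpa using hj'

/-- A Sylow subgroup of a normal nilpotent subgroup, viewed in `G`, is a normal `r`-subgroup of `G`. -/
lemma sylow_map_normal (K : Subgroup G) [K.Normal] [Group.IsNilpotent K] (r : ℕ) [Fact r.Prime]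
    (P : Sylow r K) : ((P : Subgroup K).map K.subtype).Normal := by
  have h1 : (P : Subgroup K).Normal := inferInstance
  have h2 : (P : Subgroup K).Characteristic := P.characteristic_of_normal h1
  exact ConjAct.normal_of_characteristic_of_normal

lemma sylow_map_isPGroup (K : Subgroup G) (r : ℕ) [Fact r.Prime]
    (P : Sylow r K) : IsPGroup r ((P : Subgroup K).map K.subtype) :=
  P.isPGroup'.map K.subtype

lemma exists_prime (N : Subgroup G)
    (heq : ∀ x : G, x ∉ N → ∀ n ∈ N, orderOf (x * n) = orderOf x)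
    (hF : ¬ Cfsg.fittingSubgroup G ≤ N) : ∃ r : ℕ, r.Prime ∧ IsPGroup r N := by
  have : ∃ K : Subgroup G, (K.Normal ∧ Group.IsNilpotent K) ∧ ¬ K ≤ N := by
    by_contra hcon
    push Not at hcon
    exact hF (sSup_le fun K hK => hcon K hK)
  obtain ⟨K, ⟨hKn, hKnil⟩, hKN⟩ := this
  have hidx : (N.subgroupOf K).index ≠ 1 := by
    intro h1
    rw [Subgroup.index_eq_one, Subgroup.subgroupOf_eq_top] at h1
    exact hKN h1
  set r := (N.subgroupOf K).index.minFac with hr
  have hrp : r.Prime := Nat.minFac_prime hidx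
  have : Fact r.Prime := ⟨hrp⟩
  obtain ⟨P⟩ : Nonempty (Sylow r K) := inferInstance
  have hPN : ¬ (P : Subgroup K) ≤ N.subgroupOf K := by
    intro hle
    have h1 : (N.subgroupOf K).index ∣ (P : Subgroup K).index := Subgroup.index_dvd_of_le hle
    exact P.not_dvd_index ((Nat.minFac_dvd _).trans h1)
  obtain ⟨x, hxP, hxN⟩ := SetLike.not_le_iff_exists.mp hPN
  have := sylow_map_normal K r P
  refine ⟨r, hrp, key N heq r ((P : Subgroup K).map K.subtype) (sylow_map_isPGroup K r P) x ?_ ?_⟩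
  · exact Subgroup.mem_map_of_mem K.subtype hxP
  · simpa [Subgroup.mem_subgroupOf] using hxN

lemma eq_one_of_two_primes {r q : ℕ} (hr : r.Prime) (hq : q.Prime) (hne : q ≠ r) (x : G)
    (h1 : ∃ k, x ^ (r ^ k) = 1) (h2 : ∃ k, x ^ (q ^ k) = 1) : x = 1 := by
  obtain ⟨k, hk⟩ := h1
  obtain ⟨j, hj⟩ := h2
  rw [← orderOf_dvd_iff_pow_eq_one] at hk hj
  have hcop : Nat.Coprime (r ^ k) (q ^ j) :=
    Nat.Coprime.pow _ _ ((Nat.coprime_primes hr hq).mpr hne.symm)
  have := Nat.eq_one_of_dvd_coprimes hcop hk hj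
  exact orderOf_eq_one_iff.mp this

theorem result {G : Type*} [Group G] [Finite G] (N : Subgroup G) [N.Normal] (hN1 : N ≠ ⊥) (hN2 : N ≠ ⊤)
    (heq : ∀ x : G, x ∉ N → ∀ n ∈ N, orderOf (x * n) = orderOf x) :
    (N ≤ Cfsg.fittingSubgroup G ∨ Cfsg.fittingSubgroup G ≤ N) ∧
    (N < Cfsg.fittingSubgroup G → IsPrimePow (Nat.card (Cfsg.fittingSubgroup G))) := by
  constructor
  · by_cases hF : Cfsg.fittingSubgroup G ≤ N
    · exact Or.inr hF
    · left
      obtain ⟨r, hr, hNr⟩ := exists_prime N heq hF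
      have : Fact r.Prime := ⟨hr⟩
      exact le_sSup ⟨inferInstance, hNr.isNilpotent⟩
  · intro hlt
    have hF : ¬ Cfsg.fittingSubgroup G ≤ N := not_le_of_gt hlt
    obtain ⟨r, hr, hNr⟩ := exists_prime N heq hF
    have : Fact r.Prime := ⟨hr⟩
    obtain ⟨n, hn1⟩ := Subgroup.ne_bot_iff_exists_ne_one.mp hN1
    have hall : ∀ K ∈ {K : Subgroup G | K.Normal ∧ Group.IsNilpotent K}, IsPGroup r K := by
      rintro K ⟨hKn, hKnil⟩
      rw [IsPGroup.iff_card]
      refine ⟨_, Nat.eq_prime_pow_of_unique_prime_dvd Nat.card_pos.ne' ?_⟩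
      intro q hq hqK
      by_contra hne
      have : Fact q.Prime := ⟨hq⟩
      obtain ⟨Q⟩ : Nonempty (Sylow q K) := inferInstance
      have hQ : (Q : Subgroup K) ≠ ⊥ := Q.ne_bot_of_dvd_card hqK
      obtain ⟨x, hx1⟩ := Subgroup.ne_bot_iff_exists_ne_one.mp hQ
      have := sylow_map_normal K q Q
      have hxq : ∃ k, ((x : K) : G) ^ (q ^ k) = 1 := by
        obtain ⟨k, hk⟩ := Q.isPGroup' x
        refine ⟨k, ?_⟩
        have := congr_arg (fun z : (Q : Subgroup K) => ((z : K) : G)) hk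
        simpa using this
      have hxN : ((x : K) : G) ∉ N := by
        intro hxN
        apply hx1
        have hxr : ∃ k, ((x : K) : G) ^ (r ^ k) = 1 := by
          obtain ⟨k, hk⟩ := hNr ⟨_, hxN⟩
          refine ⟨k, ?_⟩
          have := congr_arg Subtype.val hk
          simpa using this
        have := eq_one_of_two_primes hr hq hne _ hxr hxq
        apply Subtype.ext
        apply Subtype.ext
        simpa using this
      have hNq : IsPGroup q N := key N heq q ((Q : Subgroup K).map K.subtype) (sylow_map_isPGroup K q Q)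
        ((x : K) : G) (Subgroup.mem_map_of_mem K.subtype x.2) hxN
      apply hn1
      have h1 : ∃ k, (n : G) ^ (r ^ k) = 1 := by
        obtain ⟨k, hk⟩ := hNr n
        exact ⟨k, by simpa using congr_arg Subtype.val hk⟩
      have h2 : ∃ k, (n : G) ^ (q ^ k) = 1 := by
        obtain ⟨k, hk⟩ := hNq n
        exact ⟨k, by simpa using congr_arg Subtype.val hk⟩
      exact Subtype.ext (eq_one_of_two_primes hr hq hne _ h1 h2)
    have hFp : IsPGroup r (Cfsg.fittingSubgroup G) :=
      Sylow.sSup_of_normal _ hall (fun K hK => hK.1)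
    obtain ⟨k, hk⟩ := IsPGroup.iff_card.mp hFp
    rw [hk]
    apply hr.isPrimePow.pow
    rintro rfl
    rw [pow_zero, Subgroup.card_eq_one] at hk
    rw [hk] at hlt
    exact not_lt_bot hlt

end Cfsg.Agent.S4107
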