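import Mathlib
import Cfsg.Statements.S4108
import Cfsg.Agent.Lib.Helper68.Frobenius

set_option autoImplicit false
open Cfsg

namespace Cfsg.Agent.S4108

theorem result {G : Type*} [Group G] [Finite G] (N : Subgroup G) [N.Normal] (hN1 : N ≠ ⊥) (hN2 : N ≠ ⊤)
    (heq : ∀ x : G, x ∉ N → ∀ n ∈ N, orderOf (x * n) = orderOf x)
    (p : ℕ) [Fact p.Prime] (hNp : IsPGroup p N) :
    ∀ H : Subgroup G, H ≠ ⊥ → (Nat.card H).Coprime p →
      Cfsg.IsFrobeniusComplement (H.subgroupOf (N ⊔ H)) ∧ Cfsg.frobeniusKernel (H.subgroupOf (N ⊔ H)) = (N.subgroupOf (N ⊔ H) : Set ↥(N ⊔ H)) := by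
  intro H hH hcop
  -- orders
  have hordN : ∀ n ∈ N, ∃ k, orderOf n = p ^ k := by
    intro n hn
    obtain ⟨k, hk⟩ := (IsPGroup.iff_orderOf.mp hNp) ⟨n, hn⟩
    exact ⟨k, by simpa using hk⟩
  have hordH : ∀ h ∈ H, (orderOf h).Coprime p := by
    intro h hh
    have h1 : orderOf (⟨h, hh⟩ : H) ∣ Nat.card H := orderOf_dvd_natCard _
    have h2 : orderOf (⟨h, hh⟩ : H) = orderOf h := by simp
    rw [h2] at h1
    exact Nat.Coprime.coprime_dvd_left h1 hcop
  have hdisj : ∀ z : G, z ∈ N → z ∈ H → z = 1 := by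
    intro z h1 h2
    obtain ⟨k, hk⟩ := hordN z h1
    have h3 := hordH z h2
    rw [hk] at h3
    have h4 : (p ^ k).Coprime (p ^ k) := Nat.Coprime.pow_right k h3
    rw [Nat.coprime_self] at h4
    rw [h4] at hk
    exact orderOf_eq_one_iff.mp hk
  have hfpf : ∀ h ∈ H, h ≠ 1 → ∀ n ∈ N, n * h * n⁻¹ = h → n = 1 := by
    intro h hh h1 n hn hc
    have hhN : h ∉ N := fun hhN => h1 (hdisj h hhN hh)
    have hcomm : Commute h n := by
      rw [mul_inv_eq_iff_eq_mul] at hc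
      exact hc.symm
    obtain ⟨k, hk⟩ := hordN n hn
    have hco : (orderOf h).Coprime (orderOf n) := by
      rw [hk]; exact Nat.Coprime.pow_right k (hordH h hh)
    have h2 := hcomm.orderOf_mul_eq_mul_orderOf_of_coprime hco
    rw [heq h hhN n hn] at h2
    have h3 : orderOf n = 1 := by
      have hpos : 0 < orderOf h := orderOf_pos h
      nth_rewrite 1 [← mul_one (orderOf h)] at h2
      exact (Nat.eq_of_mul_eq_mul_left hpos h2).symm
    exact orderOf_eq_one_iff.mp h3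
  have : (N.subgroupOf (N ⊔ H)).Normal := inferInstance
  apply Cfsg.Agent.Lib.Helper68.isFrobeniusComplement_of_fpf (N.subgroupOf (N ⊔ H)) (H.subgroupOf (N ⊔ H))
  · intro h
    rw [Subgroup.subgroupOf_eq_bot, disjoint_iff, inf_eq_left.mpr le_sup_left] at h
    exact hN1 h
  · intro h
    rw [Subgroup.subgroupOf_eq_bot, disjoint_iff, inf_eq_left.mpr le_sup_right] at h
    exact hH h
  · rw [← Subgroup.subgroupOf_sup le_sup_left le_sup_right]
    exact Subgroup.subgroupOf_self _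
  · rw [eq_bot_iff]
    rintro ⟨z, hz'⟩ ⟨h1, h2⟩
    rw [Subgroup.mem_bot]
    exact Subtype.ext (hdisj z (Subgroup.mem_subgroupOf.mp h1) (Subgroup.mem_subgroupOf.mp h2))
  · rintro ⟨h, hh'⟩ hh h1 ⟨n, hn'⟩ hn hc
    rw [Subgroup.mem_subgroupOf] at hh hn
    apply Subtype.ext
    apply hfpf h hh (fun h0 => h1 (Subtype.ext h0)) n hn
    exact congr_arg Subtype.val hc

end Cfsg.Agent.S4108
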