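import Cfsg.Statements.S4112

set_option autoImplicit false
open Cfsg

namespace Cfsg.Agent.S4112

lemma coprime_of_cent {G : Type*} [Group G] [Finite G] (N M : Subgroup G) [N.Normal] [M.Normal]
    (hC : ∀ x ∈ M, x ≠ 1 → Subgroup.centralizer ({x} : Set G) ≤ N) :
    N.index.Coprime (Nat.card M) := by
  apply Nat.coprime_of_dvd
  intro r hr hrN hrM
  haveI : Fact r.Prime := ⟨hr⟩
  obtain ⟨R⟩ : Nonempty (Sylow r G) := inferInstance
  letI : MulAction R M :=
    MulAction.compHom M ((MulAut.conjNormal (H := M)).comp (R : Subgroup G).subtype)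
  have hsm : ∀ (g : R) (m : M), ((g • m : M) : G) = (g : G) * m * (g : G)⁻¹ := by
    intro g m
    rfl
  have h1 : (1 : M) ∈ MulAction.fixedPoints R M := by
    intro g
    apply Subtype.ext
    rw [hsm]
    simp
  obtain ⟨x, hx, hx1⟩ := R.2.exists_fixed_point_of_prime_dvd_card_of_fixed_point M hrM h1
  have hx1' : (x : G) ≠ 1 := by
    intro h
    apply hx1
    apply Subtype.ext
    simp [h]
  have hRN : (R : Subgroup G) ≤ N := by
    intro g hg
    apply hC x x.2 hx1'
    rw [Subgroup.mem_centralizer_singleton_iff]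
    have := congr_arg Subtype.val (hx ⟨g, hg⟩)
    rw [hsm] at this
    simp only at this
    calc g * x = g * x * g⁻¹ * g := by group
      _ = x * g := by rw [this]
  have := Subgroup.index_dvd_of_le hRN
  exact R.not_dvd_index (hrN.trans this)

lemma cent_of_coprime {G : Type*} [Group G] [Finite G] (N M : Subgroup G) [N.Normal] [M.Normal]
    (hcam : ∀ g : G, g ∉ N → ∀ m ∈ M, ∃ x : G, x * g * x⁻¹ = g * m)
    (hcop : N.index.Coprime (Nat.card M)) (x : G) (hx : x ∈ M) (hx1 : x ≠ 1) :
    ∀ (n : ℕ) (g : G), orderOf g = n → Commute g x → g ∈ N := by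
  intro n
  induction n using Nat.strong_induction_on with
  | _ n ih =>
    intro g hgn hgx
    by_contra hgN
    set o := orderOf x with ho
    have ho1 : o ≠ 1 := by
      intro h
      exact hx1 (orderOf_eq_one_iff.mp h)
    have ho0 : 0 < o := orderOf_pos x
    have hoM : o ∣ Nat.card M := by
      have : orderOf (⟨x, hx⟩ : M) = o := by
        rw [← Subgroup.orderOf_coe]
      rw [← this]
      exact orderOf_dvd_natCard _
    have hdvd : o ∣ orderOf g := by
      obtain ⟨c, hc⟩ := hcam g hgN x hx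
      have h1 : orderOf (g * x) = orderOf g := by
        rw [← hc]
        exact (MulAut.conj c).orderOf_eq g
      have h2 : (g * x) ^ orderOf g = 1 := by
        rw [← h1]; exact pow_orderOf_eq_one _
      rw [hgx.mul_pow, pow_orderOf_eq_one, one_mul] at h2
      exact orderOf_dvd_of_pow_eq_one h2
    have hord : orderOf (g ^ o) = orderOf g / o := orderOf_pow_of_dvd ho0.ne' hdvd
    have hlt : orderOf (g ^ o) < n := by
      rw [hord, hgn]
      apply Nat.div_lt_self
      · rw [← hgn]; exact orderOf_pos g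
      · omega
    have hmem := ih _ hlt (g ^ o) rfl (hgx.pow_left o)
    have h1 : orderOf (QuotientGroup.mk g : G ⧸ N) ∣ o :=
      orderOf_dvd_of_pow_eq_one (by
        rw [← QuotientGroup.mk_pow]; exact (QuotientGroup.eq_one_iff _).mpr hmem)
    have h2 : orderOf (QuotientGroup.mk g : G ⧸ N) ∣ N.index := by
      rw [Subgroup.index_eq_card]; exact orderOf_dvd_natCard _
    have h3 : orderOf (QuotientGroup.mk g : G ⧸ N) = 1 :=
      Nat.eq_one_of_dvd_coprimes hcop h2 (h1.trans hoM)
    exact hgN ((QuotientGroup.eq_one_iff _).mp (orderOf_eq_one_iff.mp h3))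

lemma exists_proper_supplement {G : Type*} [Group G] [Finite G] (N : Subgroup G) [N.Normal]
    (q : ℕ) (hq : q.Prime) (hqG : q ∣ Nat.card G) (hqN : ¬ q ∣ N.index) :
    ∃ T : Subgroup G, T ≠ ⊤ ∧ T ⊔ N = ⊤ := by
  haveI : Fact q.Prime := ⟨hq⟩
  have hqN' : q ∣ Nat.card N := by
    rw [← N.card_mul_index] at hqG
    exact (hq.dvd_mul.mp hqG).resolve_right hqN
  obtain ⟨Q⟩ : Nonempty (Sylow q N) := inferInstance
  have hsup := Sylow.normalizer_sup_eq_top Q
  by_cases hT : Subgroup.normalizer (((Q : Subgroup N).map N.subtype : Subgroup G) : Set G) = ⊤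
  · have hnorm : ((Q : Subgroup N).map N.subtype).Normal := Subgroup.normalizer_eq_top_iff.mp hT
    have hle : (Q : Subgroup N).map N.subtype ≤ N := Subgroup.map_subtype_le _
    have hcard : Nat.card ((Q : Subgroup N).map N.subtype) = Nat.card (Q : Subgroup N) :=
      Subgroup.card_map_of_injective N.subtype_injective
    have hidx : ((Q : Subgroup N).map N.subtype).index = (Q : Subgroup N).index * N.index :=
      Subgroup.index_map_subtype _
    have hcop : Nat.Coprime (Nat.card ((Q : Subgroup N).map N.subtype))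
        ((Q : Subgroup N).map N.subtype).index := by
      rw [hcard, hidx]
      obtain ⟨k, hk⟩ := (IsPGroup.iff_card).mp Q.2
      rw [hk]
      apply Nat.Coprime.pow_left
      rw [Nat.Prime.coprime_iff_not_dvd hq]
      intro h
      rcases hq.dvd_mul.mp h with h | h
      · exact Q.not_dvd_index h
      · exact hqN h
    obtain ⟨H, hH⟩ := Subgroup.exists_right_complement'_of_coprime hcop
    refine ⟨H, ?_, ?_⟩
    · intro hHt
      have h1 := hH.disjoint.eq_bot
      rw [hHt, inf_top_eq] at h1
      have h2 : Nat.card ((Q : Subgroup N).map N.subtype) = 1 := by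
        rw [h1]; exact Subgroup.card_bot
      rw [hcard] at h2
      have h3 : q ∣ Nat.card (Q : Subgroup N) := Q.dvd_card_of_dvd_card hqN'
      rw [h2] at h3
      exact hq.one_lt.ne' (Nat.dvd_one.mp h3)
    · have h1 := hH.sup_eq_top
      rw [eq_top_iff, ← h1]
      exact sup_le (hle.trans le_sup_right) le_sup_left
  · exact ⟨_, hT, hsup⟩

lemma exists_supplement : ∀ (n : ℕ) (G : Type*) [Group G] [Finite G] (N : Subgroup G) [N.Normal],
    Nat.card G = n →
    ∃ H : Subgroup G, H ⊔ N = ⊤ ∧ ∀ q : ℕ, q.Prime → q ∣ Nat.card H → q ∣ N.index := by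
  intro n
  induction n using Nat.strong_induction_on with
  | _ n ih =>
    intro G _ _ N _ hn
    by_cases hall : ∀ q : ℕ, q.Prime → q ∣ Nat.card G → q ∣ N.index
    · refine ⟨⊤, top_sup_eq _, ?_⟩
      intro q hq hqd
      rw [Subgroup.card_top] at hqd
      exact hall q hq hqd
    · push Not at hall
      obtain ⟨q, hq, hqG, hqN⟩ := hall
      obtain ⟨T, hT, hTN⟩ := exists_proper_supplement N q hq hqG hqN
      have hlt : Nat.card T < n := by
        rw [← hn]
        by_contra hge
        push Not at hge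
        apply hT
        apply Subgroup.eq_top_of_le_card
        exact hge
      obtain ⟨H, hH, hHq⟩ := ih _ hlt T (N.subgroupOf T) rfl
      have hidx : (N.subgroupOf T).index = N.index := by
        change N.relIndex T = N.index
        rw [← Subgroup.relIndex_sup_right, hTN, Subgroup.relIndex_top_right]
      refine ⟨H.map T.subtype, ?_, ?_⟩
      · have h1 : (H ⊔ N.subgroupOf T).map T.subtype = T := by
          rw [hH, ← MonoidHom.range_eq_map, Subgroup.range_subtype]
        rw [Subgroup.map_sup, Subgroup.subgroupOf_map_subtype] at h1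
        rw [eq_top_iff, ← hTN]
        apply sup_le _ le_sup_right
        calc T = H.map T.subtype ⊔ N ⊓ T := h1.symm
          _ ≤ _ := sup_le_sup_left inf_le_left _
      · intro q hq hqd
        rw [Subgroup.card_map_of_injective T.subtype_injective] at hqd
        rw [← hidx]
        exact hHq q hq hqd

theorem result {G : Type*} [Group G] [Finite G] (N M : Subgroup G) [N.Normal] [M.Normal] (hMN : M ≤ N) (hM1 : M ≠ ⊥) (hN2 : N ≠ ⊤)
    (hcam : ∀ g : G, g ∉ N → ∀ m ∈ M, ∃ x : G, x * g * x⁻¹ = g * m) :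
    ((∀ x ∈ M, x ≠ 1 → Subgroup.centralizer ({x} : Set G) ≤ N) ↔ N.index.Coprime (Nat.card M)) ∧
    ((∀ x ∈ M, x ≠ 1 → Subgroup.centralizer ({x} : Set G) ≤ N) → ∃ H : Subgroup G, H ⊔ N = ⊤ ∧ H ⊓ M = ⊥) := by
  refine ⟨⟨coprime_of_cent N M, ?_⟩, ?_⟩
  · intro hcop x hx hx1 g hg
    exact cent_of_coprime N M hcam hcop x hx hx1 _ g rfl
      (Subgroup.mem_centralizer_singleton_iff.mp hg)
  · intro hC
    have hcop := coprime_of_cent N M hC
    obtain ⟨H, hH, hHq⟩ := exists_supplement _ G N rfl
    refine ⟨H, hH, ?_⟩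
    rw [← Subgroup.card_eq_one]
    by_contra hne
    obtain ⟨q, hq, hqd⟩ := Nat.exists_prime_and_dvd hne
    have h1 : q ∣ N.index := hHq q hq (hqd.trans (Subgroup.card_dvd_of_le inf_le_left))
    have h2 : q ∣ Nat.card M := hqd.trans (Subgroup.card_dvd_of_le inf_le_right)
    exact hq.one_lt.ne' (Nat.eq_one_of_dvd_coprimes hcop h1 h2)

end Cfsg.Agent.S4112
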