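import Cfsg.Statements.S4115
import Cfsg.Agent.Lib.Helper76.FrobWielandt
import Cfsg.Agent.Lib.Helper1.CoprimeSylow
import Cfsg.Agent.Lib.Helper47.Nilp
import Cfsg.Agent.Lib.Helper68.Frobenius
import Cfsg.Agent.Lib.Helper69.Split5
import Cfsg.Agent.S4116

set_option autoImplicit false
universe u
open Cfsg

namespace Cfsg.Agent.S4115

open Cfsg.Agent.Lib.Helper76.FrobWielandt
open scoped Pointwise

theorem mem_of_pow_eq_one {L : Type*} [Group L] (N : Subgroup L) [N.Normal] {x : L} {a : ℕ}
    (hx : x ^ a = 1) (hcop : a.Coprime N.index) : x ∈ N := by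
  have h1 : (N.index).Coprime (orderOf x) :=
    (Nat.Coprime.coprime_dvd_left (orderOf_dvd_of_pow_eq_one hx) hcop).symm
  obtain ⟨m, hm⟩ := exists_pow_eq_self_of_coprime h1
  rw [← hm]
  exact N.pow_mem (N.pow_index_mem x) m

section
variable {G : Type u} [Group G] [Finite G] {H : Subgroup G}

theorem card_H' : Nat.card (H.subgroupOf (Subgroup.normalizer (H : Set G))) = Nat.card H :=
  Nat.card_congr (Subgroup.subgroupOfEquivOfLe Subgroup.le_normalizer).toEquiv

/-- elements of the normalizer of order dividing `|H|` lie in `H`. -/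
theorem mem_H_of_pow
    (hHall : (Nat.card H).Coprime (H.subgroupOf (Subgroup.normalizer (H : Set G))).index)
    {y : G} (hy : y ∈ Subgroup.normalizer (H : Set G)) (hyb : y ^ Nat.card H = 1) : y ∈ H := by
  have hHn : (H.subgroupOf (Subgroup.normalizer (H : Set G))).Normal := Subgroup.normal_in_normalizer
  have := mem_of_pow_eq_one (H.subgroupOf (Subgroup.normalizer (H : Set G)))
    (x := ⟨y, hy⟩) (a := Nat.card H) (Subtype.ext (by simpa using hyb)) hHall
  exact Subgroup.mem_subgroupOf.1 this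

theorem fw_of_complement (hTI : IsTISubset (H : Set G))
    (hHall : (Nat.card H).Coprime (H.subgroupOf (Subgroup.normalizer (H : Set G))).index)
    (K : Subgroup (Subgroup.normalizer (H : Set G))) (hKn : K.Normal)
    (hK : K.IsComplement' (H.subgroupOf (Subgroup.normalizer (H : Set G)))) :
    FW (Subgroup.normalizer (H : Set G)) (K.map (Subgroup.normalizer (H : Set G)).subtype) := by
  have hHn : (H.subgroupOf (Subgroup.normalizer (H : Set G))).Normal := Subgroup.normal_in_normalizer
  have hiH : (H.subgroupOf (Subgroup.normalizer (H : Set G))).index = Nat.card K := hK.index_eq_card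
  have hiK : K.index = Nat.card (H.subgroupOf (Subgroup.normalizer (H : Set G))) :=
    hK.symm.index_eq_card
  refine ⟨Subgroup.map_subtype_le _, ?_, ?_⟩
  · rintro x hx _ ⟨k, hk, rfl⟩
    exact ⟨⟨x, hx⟩ * k * ⟨x, hx⟩⁻¹, hKn.conj_mem k hk _, rfl⟩
  · intro g hg x hx hgx
    have h1 : (⟨x, hx⟩ : Subgroup.normalizer (H : Set G)) ^ Nat.card K ∈
        H.subgroupOf (Subgroup.normalizer (H : Set G)) := by
      rw [← hiH]; exact Subgroup.pow_index_mem _ _
    have h2 : (⟨_, hgx⟩ : Subgroup.normalizer (H : Set G)) ^ Nat.card K ∈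
        H.subgroupOf (Subgroup.normalizer (H : Set G)) := by
      rw [← hiH]; exact Subgroup.pow_index_mem _ _
    rw [Subgroup.mem_subgroupOf] at h1 h2
    simp only [Subgroup.coe_pow] at h1 h2
    have h3 : x ^ Nat.card K = 1 := by
      apply hTI g⁻¹ (fun h => hg (by simpa using Subgroup.inv_mem _ h)) _ h1
      have := conj_pow (a := g⁻¹) (b := x) (i := Nat.card K)
      rw [inv_inv] at this ⊢
      rw [← this]
      exact h2
    have h4 : (⟨x, hx⟩ : Subgroup.normalizer (H : Set G)) ∈ K := by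
      apply mem_of_pow_eq_one K (a := Nat.card K) (Subtype.ext (by simpa using h3))
      rw [hiK, card_H', ← hiH]
      exact hHall.symm
    exact ⟨⟨x, hx⟩, h4, rfl⟩

theorem exists_normal_complement (hTI : IsTISubset (H : Set G))
    (hHall : (Nat.card H).Coprime (H.subgroupOf (Subgroup.normalizer (H : Set G))).index)
    (K : Subgroup (Subgroup.normalizer (H : Set G))) (hKn : K.Normal)
    (hK : K.IsComplement' (H.subgroupOf (Subgroup.normalizer (H : Set G)))) :
    ∃ M : Subgroup G, M.Normal ∧ M.IsComplement' H ∧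
      Nat.card M = (Subgroup.normalizer (H : Set G)).index * Nat.card K := by
  have hF := fw_of_complement hTI hHall K hKn hK
  obtain ⟨M, hMn, hML, hMc, -⟩ := frobenius_wielandt hF
  have hcK : Nat.card (K.map (Subgroup.normalizer (H : Set G)).subtype) = Nat.card K :=
    Subgroup.card_map_of_injective (Subgroup.subtype_injective _)
  refine ⟨M, hMn, ?_, by rw [hMc, hcK]⟩
  apply Subgroup.isComplement'_of_card_mul_and_disjoint
  · rw [hMc, hcK, mul_assoc, ← card_H' (H := H), hK.card_mul_card, mul_comm,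
      Subgroup.card_mul_index]
  · rw [Subgroup.disjoint_def]
    intro x hxM hxH
    have h1 : x ∈ M ⊓ Subgroup.normalizer (H : Set G) := ⟨hxM, Subgroup.le_normalizer hxH⟩
    rw [hML] at h1
    obtain ⟨k, hk, rfl⟩ := h1
    have h2 : k ∈ K ⊓ H.subgroupOf (Subgroup.normalizer (H : Set G)) :=
      ⟨hk, Subgroup.mem_subgroupOf.2 hxH⟩
    rw [hK.disjoint.eq_bot] at h2
    simp [Subgroup.mem_bot.1 h2]

theorem complement_in_normalizer (N : Subgroup G) (hN : N.Normal) (hc : N.IsComplement' H) :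
    ∃ K : Subgroup (Subgroup.normalizer (H : Set G)), K.Normal ∧
      K.IsComplement' (H.subgroupOf (Subgroup.normalizer (H : Set G))) := by
  refine ⟨N.subgroupOf _, inferInstance, ?_⟩
  apply Subgroup.isComplement'_of_disjoint_and_mul_eq_univ
  · rw [Subgroup.disjoint_def]
    intro x h1 h2
    have : (x : G) ∈ N ⊓ H := ⟨h1, h2⟩
    rw [hc.disjoint.eq_bot] at this
    exact Subtype.ext (Subgroup.mem_bot.1 this)
  · rw [Set.eq_univ_iff_forall]
    intro x
    have : (x : G) ∈ (N : Set G) * H := by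
      rw [hc.mul_eq]; trivial
    obtain ⟨n, hn, h, hh, hx⟩ := Set.mem_mul.1 this
    have hnL : n ∈ Subgroup.normalizer (H : Set G) := by
      have : n = x * h⁻¹ := by rw [← hx]; group
      rw [this]
      exact Subgroup.mul_mem _ x.2 (Subgroup.inv_mem _ (Subgroup.le_normalizer hh))
    exact Set.mem_mul.2 ⟨⟨n, hnL⟩, hn, ⟨h, Subgroup.le_normalizer hh⟩, hh, Subtype.ext hx⟩

theorem not_dvd_index (hTI : IsTISubset (H : Set G))
    (hHall : (Nat.card H).Coprime (H.subgroupOf (Subgroup.normalizer (H : Set G))).index)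
    {p : ℕ} (hp : p.Prime) (hpH : p ∣ Nat.card H) :
    ¬ p ∣ (Subgroup.normalizer (H : Set G)).index := by
  have : Fact p.Prime := ⟨hp⟩
  obtain ⟨x, hx⟩ := exists_prime_orderOf_dvd_card' (G := H) p hpH
  have hx1 : (x : G) ≠ 1 := by
    intro h
    have : x = 1 := Subtype.ext h
    rw [this, orderOf_one] at hx
    exact hp.one_lt.ne hx
  have hP : IsPGroup p (Subgroup.zpowers (x : G)) :=
    IsPGroup.of_card (n := 1) (by rw [Nat.card_zpowers, Subgroup.orderOf_coe, hx, pow_one])
  have h1 := hP.card_modEq_card_fixedPoints (G ⧸ Subgroup.normalizer (H : Set G))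
  have key : ∀ a ∈ MulAction.fixedPoints (Subgroup.zpowers (x : G))
      (G ⧸ Subgroup.normalizer (H : Set G)), a = ((1 : G) : G ⧸ Subgroup.normalizer (H : Set G)) := by
    intro a ha
    induction a using QuotientGroup.induction_on with
    | H g =>
      have h2 := ha ⟨(x : G), Subgroup.mem_zpowers _⟩
      have h3 : (((x : G) * g : G) : G ⧸ Subgroup.normalizer (H : Set G)) = g := h2
      rw [QuotientGroup.eq] at h3
      have h4 : g⁻¹ * x * g ∈ Subgroup.normalizer (H : Set G) := by
        have := Subgroup.inv_mem _ h3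
        simpa [mul_assoc] using this
      have h5 : g⁻¹ * x * g ∈ H := by
        apply mem_H_of_pow hHall h4
        have := conj_pow (a := g⁻¹) (b := (x : G)) (i := Nat.card H)
        rw [inv_inv] at this
        rw [this]
        have h6 : (x : G) ^ Nat.card H = 1 := by
          have := pow_card_eq_one' (G := H) (x := x)
          exact_mod_cast congrArg Subtype.val this
        rw [h6]; group
      rw [QuotientGroup.eq]
      by_contra hg
      apply hx1
      apply hTI g⁻¹ (by simpa using hg) x x.2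
      simpa using h5
  have h2 : Nat.card (MulAction.fixedPoints (Subgroup.zpowers (x : G))
      (G ⧸ Subgroup.normalizer (H : Set G))) = 1 := by
    rw [Nat.card_eq_one_iff_unique]
    refine ⟨⟨?_⟩, ⟨⟨((1 : G) : G ⧸ Subgroup.normalizer (H : Set G)), ?_⟩⟩⟩
    · rintro ⟨a, ha⟩ ⟨b, hb⟩
      exact Subtype.ext ((key a ha).trans (key b hb).symm)
    · intro y
      obtain ⟨y, hy⟩ := y
      have h3 : y ∈ Subgroup.normalizer (H : Set G) :=
        Subgroup.le_normalizer ((Subgroup.zpowers_le.2 x.2) hy)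
      change ((y * 1 : G) : G ⧸ Subgroup.normalizer (H : Set G)) = _
      rw [QuotientGroup.eq]
      simpa using h3
  rw [h2] at h1
  intro hd
  have h3 : Nat.card (G ⧸ Subgroup.normalizer (H : Set G)) ≡ 0 [MOD p] :=
    (Nat.modEq_zero_iff_dvd).2 hd
  have h4 : 1 ≡ 0 [MOD p] := h1.symm.trans h3
  have h5 := (Nat.modEq_zero_iff_dvd).1 h4
  exact hp.one_lt.ne' (Nat.dvd_one.1 h5)

open Cfsg.Agent.Lib.Helper1 in
theorem exists_invariant_sylow' (hTI : IsTISubset (H : Set G)) (M : Subgroup G) (hMn : M.Normal)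
    (hc : M.IsComplement' H) (hcop : (Nat.card H).Coprime (Nat.card M)) (q : ℕ) [Fact q.Prime] :
    ∃ Q : Subgroup G, Q ≤ M ∧ IsPGroup q Q ∧ ¬ q ∣ Q.relIndex M ∧
      H ≤ Subgroup.normalizer (Q : Set G) := by
  obtain ⟨hPK, hP, hi⟩ := sylow_map_subtype_props (default : Sylow q M)
  set P : Subgroup G := ((default : Sylow q M) : Subgroup M).map M.subtype
  set R : Subgroup G := Subgroup.normalizer (P : Set G) with hR
  have hMtop : Subgroup.normalizer (M : Set G) = ⊤ := Subgroup.normalizer_eq_top_iff.2 hMn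
  have hRM : R ⊔ M = ⊤ := by
    rw [eq_top_iff]
    intro a _
    obtain ⟨k, hk, hk'⟩ := sylow_frattini_rel hPK hP hi (g := a) (by rw [hMtop]; trivial)
    have h1 : a = k⁻¹ * (k * a) := by group
    rw [h1]
    exact Subgroup.mul_mem _ (Subgroup.mem_sup_right (M.inv_mem hk)) (Subgroup.mem_sup_left hk')
  have hRn : R ≤ Subgroup.normalizer (M : Set G) := by rw [hMtop]; exact le_top
  have hDn : R ≤ Subgroup.normalizer ((R ⊓ M : Subgroup G) : Set G) :=
    (le_inf Subgroup.le_normalizer hRn).trans Subgroup.inf_normalizer_le_normalizer_inf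
  have h1 := card_sup_mul_card_inf hRn
  rw [hRM, Subgroup.card_top, ← hc.card_mul_card] at h1
  have h2 : Nat.card H * Nat.card (R ⊓ M : Subgroup G) = Nat.card R := by
    apply Nat.eq_of_mul_eq_mul_right (Nat.card_pos (α := M))
    rw [← h1]; ring
  have h3 : (R ⊓ M).relIndex R = Nat.card H := by
    have h4 := relIndex_mul_card (inf_le_left : R ⊓ M ≤ R)
    rw [← h2] at h4
    exact Nat.eq_of_mul_eq_mul_right Nat.card_pos h4
  obtain ⟨B, hBR, hB, -⟩ := sz_exists_rel (R ⊓ M) R inf_le_left hDn (by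
    rw [h3]
    exact (Nat.Coprime.coprime_dvd_right (Subgroup.card_dvd_of_le inf_le_right) hcop).symm)
  rw [h3] at hB
  have hHall' : (Nat.card H).Coprime H.index := by
    rw [hc.index_eq_card]; exact hcop
  obtain ⟨g, hg⟩ := Cfsg.Agent.S4116.result H hHall' hTI B (fun r _ hrB => by rwa [hB] at hrB)
  have hg' : B = MulAut.conj g • H := by
    apply Subgroup.eq_of_le_of_card_ge hg
    rw [hB]
    exact (Subgroup.card_map_of_injective (MulAut.conj g).injective).le
  have hgM : MulAut.conj g⁻¹ • M = M := Subgroup.Normal.conj_smul_eq_self _ _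
  refine ⟨MulAut.conj g⁻¹ • P, ?_, hP.of_equiv (Subgroup.equivSMul (MulAut.conj g⁻¹) P), ?_, ?_⟩
  · conv_rhs => rw [← hgM]
    exact Subgroup.pointwise_smul_le_pointwise_smul_iff.2 hPK
  · rw [← hgM, relIndex_conj_smul]; exact hi
  · rw [le_normalizer_conj_smul_iff, inv_inv, ← hg']
    exact hBR

theorem exists_frobenius (hTI : IsTISubset (H : Set G)) (M : Subgroup G) (hMn : M.Normal)
    (hc : M.IsComplement' H) (hcop : (Nat.card H).Coprime (Nat.card M)) (hHn : ¬ H.Normal) :
    ∃ (F : Type u) (_ : Group F) (_ : Finite F) (C : Subgroup F),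
      Cfsg.IsFrobeniusComplement C ∧ Nonempty (H ≃* C) := by
  classical
  have hMH : ∀ x ∈ M, x ∈ H → x = 1 := by
    intro x h1 h2
    have : x ∈ M ⊓ H := ⟨h1, h2⟩
    rw [hc.disjoint.eq_bot] at this
    exact Subgroup.mem_bot.1 this
  have hKM : (M ⊓ Subgroup.normalizer (H : Set G)).relIndex M ≠ 1 := by
    intro h
    have h1 : M ≤ M ⊓ Subgroup.normalizer (H : Set G) := Subgroup.relIndex_eq_one.1 h
    apply hHn
    rw [← Subgroup.normalizer_eq_top_iff, eq_top_iff, ← hc.sup_eq_top]
    exact sup_le (h1.trans inf_le_right) Subgroup.le_normalizer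
  obtain ⟨q, hq, hqd⟩ := Nat.exists_prime_and_dvd hKM
  have : Fact q.Prime := ⟨hq⟩
  obtain ⟨Q, hQM, hQ, hQi, hHQ⟩ := exists_invariant_sylow' hTI M hMn hc hcop q
  set Q0 : Subgroup G := Q ⊓ Subgroup.normalizer (H : Set G) with hQ0
  have hlt : Q0 < Q := by
    refine lt_of_le_of_ne inf_le_left ?_
    intro h
    have hQK : Q ≤ M ⊓ Subgroup.normalizer (H : Set G) := le_inf hQM (inf_eq_left.1 h)
    apply hQi
    rw [← Subgroup.relIndex_mul_relIndex Q _ M hQK inf_le_left]
    exact Dvd.dvd.mul_left hqd _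
  have hlt2 := Cfsg.Agent.Lib.Helper47.lt_inf_normalizer hQ hlt
  set R : Subgroup G := Q ⊓ Subgroup.normalizer (Q0 : Set G) with hR
  have hHQ0 : H ≤ Subgroup.normalizer (Q0 : Set G) :=
    (le_inf hHQ (Subgroup.le_normalizer.trans Subgroup.le_normalizer)).trans
      Subgroup.inf_normalizer_le_normalizer_inf
  have hHR : H ≤ Subgroup.normalizer (R : Set G) :=
    (le_inf hHQ (hHQ0.trans Subgroup.le_normalizer)).trans
      Subgroup.inf_normalizer_le_normalizer_inf
  set T : Subgroup G := R ⊔ H with hT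
  have hRT : R ≤ T := le_sup_left
  have hHT : H ≤ T := le_sup_right
  have hQ0T : Q0 ≤ T := hlt2.le.trans hRT
  have hTQ0 : T ≤ Subgroup.normalizer (Q0 : Set G) := sup_le inf_le_right hHQ0
  have hTR : T ≤ Subgroup.normalizer (R : Set G) := sup_le Subgroup.le_normalizer hHR
  have hn0 : (Q0.subgroupOf T).Normal := (Subgroup.normal_subgroupOf_iff_le_normalizer hQ0T).2 hTQ0
  have hnR : (R.subgroupOf T).Normal := (Subgroup.normal_subgroupOf_iff_le_normalizer hRT).2 hTR
  let π : T →* T ⧸ Q0.subgroupOf T := QuotientGroup.mk' (Q0.subgroupOf T)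
  have hπ1 : ∀ t : T, π t = 1 ↔ (t : G) ∈ Q0 := by
    intro t
    rw [QuotientGroup.mk'_apply, QuotientGroup.eq_one_iff, Subgroup.mem_subgroupOf]
  have hπs : Function.Surjective π := QuotientGroup.mk'_surjective _
  let Nb : Subgroup (T ⧸ Q0.subgroupOf T) := (R.subgroupOf T).map π
  let C : Subgroup (T ⧸ Q0.subgroupOf T) := (H.subgroupOf T).map π
  have hNbn : Nb.Normal := hnR.map π hπs
  let f : H →* T ⧸ Q0.subgroupOf T := π.comp (Subgroup.inclusion hHT)
  have hRM : R ≤ M := inf_le_left.trans hQM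
  have hQ0M : Q0 ≤ M := inf_le_left.trans hQM
  have hf : Function.Injective f := by
    rw [injective_iff_map_eq_one]
    intro h hh
    have h1 : (h : G) ∈ Q0 := (hπ1 _).1 hh
    exact Subtype.ext (hMH _ (hQ0M h1) h.2)
  have hfr : f.range = C := by
    rw [← MonoidHom.map_range, Subgroup.inclusion_range]
  refine ⟨T ⧸ Q0.subgroupOf T, inferInstance, inferInstance, C, ?_,
    ⟨(MonoidHom.ofInjective hf).trans (MulEquiv.subgroupCongr hfr)⟩⟩
  refine (Cfsg.Agent.Lib.Helper68.isFrobeniusComplement_of_fpf Nb C ?_ ?_ ?_ ?_ ?_).1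
  · -- Nb ≠ ⊥
    intro h
    obtain ⟨r, hr, hr0⟩ := SetLike.exists_of_lt hlt2
    have h1 : π ⟨r, hRT hr⟩ ∈ Nb := ⟨⟨r, hRT hr⟩, Subgroup.mem_subgroupOf.2 hr, rfl⟩
    rw [h, Subgroup.mem_bot, hπ1] at h1
    exact hr0 h1
  · -- C ≠ ⊥
    intro h
    apply hHn
    have : H = ⊥ := by
      rw [eq_bot_iff]
      intro x hx
      have h1 : f ⟨x, hx⟩ ∈ C := by rw [← hfr]; exact ⟨_, rfl⟩
      rw [h, Subgroup.mem_bot] at h1
      have h2 := hf (h1.trans (map_one f).symm)
      rw [Subgroup.mem_bot]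
      exact congrArg Subtype.val h2
    rw [this]
    infer_instance
  · -- sup
    change (R.subgroupOf T).map π ⊔ (H.subgroupOf T).map π = ⊤
    rw [← Subgroup.map_sup, ← Subgroup.subgroupOf_sup hRT hHT, Subgroup.subgroupOf_self,
      ← MonoidHom.range_eq_map, MonoidHom.range_eq_top]
    exact hπs
  · -- inf
    rw [eq_bot_iff]
    rintro x ⟨⟨r, hr, rfl⟩, ⟨h, hh, hrh⟩⟩
    rw [SetLike.mem_coe, Subgroup.mem_subgroupOf] at hr hh
    have h1 : π (r⁻¹ * h) = 1 := by rw [map_mul, map_inv, hrh]; group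
    rw [hπ1] at h1
    have h2 : (h : G) ∈ M := by
      have : (h : G) = r * ((r⁻¹ * h : T) : G) := by simp
      rw [this]
      exact M.mul_mem (hRM hr) (hQ0M h1)
    have h3 : h = 1 := Subtype.ext (hMH _ h2 hh)
    rw [Subgroup.mem_bot, ← hrh, h3, map_one]
  · -- fixed point free
    rintro _ ⟨h, hh, rfl⟩ hne _ ⟨r, hr, rfl⟩ hcomm
    rw [SetLike.mem_coe, Subgroup.mem_subgroupOf] at hr hh
    have hh1 : h ≠ 1 := by rintro rfl; exact hne (map_one _)
    have ho : orderOf h ≠ 1 := by rwa [Ne, orderOf_eq_one_iff]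
    obtain ⟨p, hp, hpd⟩ := Nat.exists_prime_and_dvd ho
    have : Fact p.Prime := ⟨hp⟩
    set t : T := h ^ (orderOf h / p) with ht
    have hto : orderOf t = p := orderOf_pow_orderOf_div (orderOf_pos h).ne' hpd
    have htH : (t : G) ∈ H := by
      rw [ht, Subgroup.coe_pow]; exact H.pow_mem hh _
    have ht1 : (t : G) ≠ 1 := by
      intro h0
      have : t = 1 := Subtype.ext h0
      rw [this, orderOf_one] at hto
      exact hp.one_lt.ne hto
    have hcomm' : π r * π t * (π r)⁻¹ = π t := by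
      rw [ht, map_pow, ← conj_pow, hcomm]
    have h1 : r * t * r⁻¹ * t⁻¹ ∈ Q0.subgroupOf T := by
      rw [← QuotientGroup.eq_one_iff]
      change π _ = 1
      rw [map_mul, map_mul, map_mul, map_inv, map_inv, hcomm']
      group
    have hpQ : ¬ p ∣ Nat.card (Q0.subgroupOf T) := by
      intro hd
      have e1 : Nat.card (Q0.subgroupOf T) = Nat.card Q0 :=
        Nat.card_congr (Subgroup.subgroupOfEquivOfLe hQ0T).toEquiv
      have h2 : p ∣ Nat.card M := (e1 ▸ hd).trans (Subgroup.card_dvd_of_le hQ0M)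
      have h3 : p ∣ Nat.card H := by
        have e2 : orderOf (⟨(t : G), htH⟩ : H) = p := by
          rw [← hto, ← Subgroup.orderOf_coe, ← Subgroup.orderOf_coe]
        rw [← e2]
        exact orderOf_dvd_natCard _
      exact hp.one_lt.ne' (Nat.dvd_one.1 (hcop.gcd_eq_one ▸ Nat.dvd_gcd h3 h2))
    obtain ⟨k, hk, hk'⟩ := Cfsg.Agent.Lib.Helper69.exists_conj_eq_of_coprime (Q0.subgroupOf T) hpQ
      (t := t) ⟨1, by rw [pow_one, ← hto, pow_orderOf_eq_one]⟩ r h1
    rw [Subgroup.mem_subgroupOf] at hk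
    have hz : ((k⁻¹ * r : T) : G) ∈ Subgroup.normalizer (H : Set G) := by
      by_contra hz
      apply ht1
      apply hTI _ hz t htH
      have e1 : (k⁻¹ * r) * t * (k⁻¹ * r)⁻¹ = t := by
        have : (k⁻¹ * r) * t * (k⁻¹ * r)⁻¹ = k⁻¹ * (r * t * r⁻¹) * k := by group
        rw [this, hk']; group
      have e2 := congrArg (Subtype.val : T → G) e1
      simp only [Subgroup.coe_mul, Subgroup.coe_inv] at e2 ⊢
      rw [e2]
      exact htH
    have hzQ : ((k⁻¹ * r : T) : G) ∈ Q := by
      rw [Subgroup.coe_mul, Subgroup.coe_inv]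
      exact Q.mul_mem (Q.inv_mem hk.1) hr.1
    have hr0 : (r : G) ∈ Q0 := by
      have : (r : G) = k * ((k⁻¹ * r : T) : G) := by simp
      rw [this]
      exact Q0.mul_mem hk ⟨hzQ, hz⟩
    exact (hπ1 r).2 hr0

end

/-- Let G be a finite group and H a subgroup that meets each of its conjugates by elements outside N_G(H) trivially and whose order is coprime to its index in N_G(H). Then H has a normal complement in N_G(H) if and only if H has a normal complement in G. Moreover, if H is not normal in G and has a normal complement in N_G(H), then H is isomorphic to a Frobenius complement of some finite Frobenius group. -/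
theorem result {G : Type u} [Group G] [Finite G] (H : Subgroup G)
    (hTI : Cfsg.IsTISubset (H : Set G)) (hHall : (Nat.card H).Coprime (H.subgroupOf (Subgroup.normalizer (H : Set G))).index) :
    ((∃ K : Subgroup (Subgroup.normalizer (H : Set G)), K.Normal ∧ K.IsComplement' (H.subgroupOf (Subgroup.normalizer (H : Set G)))) ↔
      (∃ N : Subgroup G, N.Normal ∧ N.IsComplement' H)) ∧
    (¬ H.Normal → (∃ K : Subgroup (Subgroup.normalizer (H : Set G)), K.Normal ∧ K.IsComplement' (H.subgroupOf (Subgroup.normalizer (H : Set G)))) →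
      ∃ (F : Type u) (_ : Group F) (_ : Finite F) (C : Subgroup F), Cfsg.IsFrobeniusComplement C ∧ Nonempty (H ≃* C)) := by
  refine ⟨⟨?_, ?_⟩, ?_⟩
  · rintro ⟨K, hKn, hK⟩
    obtain ⟨M, hMn, hc, -⟩ := exists_normal_complement hTI hHall K hKn hK
    exact ⟨M, hMn, hc⟩
  · rintro ⟨N, hN, hc⟩
    exact complement_in_normalizer N hN hc
  · rintro hHn ⟨K, hKn, hK⟩
    obtain ⟨M, hMn, hc, hcard⟩ := exists_normal_complement hTI hHall K hKn hK
    apply exists_frobenius hTI M hMn hc ?_ hHn
    rw [hcard]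
    apply Nat.Coprime.mul_right
    · exact Nat.coprime_of_dvd (fun p hp hpH => not_dvd_index hTI hHall hp hpH)
    · rw [← hK.index_eq_card]
      exact hHall

end Cfsg.Agent.S4115
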