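import Cfsg.Statements.S4117

set_option autoImplicit false
open Cfsg

namespace Cfsg.Agent.S4117

/-- vanishing of `H¹` for a coprime action on an abelian group -/
lemma exists_fixed_of_cocycle {A V : Type*} [Group A] [Finite A] [CommGroup V] [Finite V]
    [MulDistribMulAction A V]
    (hcop : (Nat.card A).Coprime (Nat.card V)) (k : A → V)
    (hk : ∀ a b, k (a * b) = k a * a • k b) :
    ∃ v : V, ∀ a, k a * a • v = v := by
  classical
  haveI := Fintype.ofFinite A
  set t := ∏ b, k b with ht0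
  have ht : ∀ a, t = (k a) ^ (Nat.card A) * a • t := by
    intro a
    calc t = ∏ b, k (a * b) := (Fintype.prod_equiv (Equiv.mulLeft a) _ _ (fun b => rfl)).symm
      _ = ∏ b, (k a * a • k b) := by simp_rw [hk]
      _ = (k a) ^ (Nat.card A) * a • t := by
        rw [Finset.prod_mul_distrib, Finset.prod_const, Finset.card_univ,
          Nat.card_eq_fintype_card, ht0, Finset.smul_prod']
  obtain ⟨v, hv⟩ := (powCoprime hcop.symm).surjective t
  refine ⟨v, fun a => ?_⟩
  apply (powCoprime hcop.symm).injective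
  simp only [powCoprime_apply] at hv ⊢
  rw [mul_pow, ← smul_pow', hv]
  exact (ht a).symm

lemma mem_zpowers_of_isCyclic {T : Type*} [Group T] [Finite T] [IsCyclic T] (x y : T) (p : ℕ)
    (hp : 0 < p) (hx : orderOf x = p) (hy : y ^ p = 1) : y ∈ Subgroup.zpowers x := by
  classical
  haveI := Fintype.ofFinite T
  have hS : (Finset.univ.filter (fun a : T => a ^ p = 1)).card ≤ p :=
    IsCyclic.card_pow_eq_one_le hp
  have hsub : (Finset.range p).image (fun i => x ^ i) ⊆ Finset.univ.filter (fun a : T => a ^ p = 1) := by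
    intro z hz
    obtain ⟨i, _, rfl⟩ := Finset.mem_image.mp hz
    rw [Finset.mem_filter]
    refine ⟨Finset.mem_univ _, ?_⟩
    rw [← pow_mul, mul_comm, pow_mul, ← hx, pow_orderOf_eq_one, one_pow]
  have hcard : ((Finset.range p).image (fun i => x ^ i)).card = p := by
    rw [Finset.card_image_of_injOn, Finset.card_range]
    intro i hi j hj hij
    rw [Finset.coe_range, Set.mem_Iio] at hi hj
    exact pow_injOn_Iio_orderOf (by rw [hx]; exact hi) (by rw [hx]; exact hj) hij
  have heq := Finset.eq_of_subset_of_card_le hsub (by rw [hcard]; exact hS)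
  have hy' : y ∈ Finset.univ.filter (fun a : T => a ^ p = 1) := by
    rw [Finset.mem_filter]; exact ⟨Finset.mem_univ _, hy⟩
  rw [← heq] at hy'
  obtain ⟨i, _, rfl⟩ := Finset.mem_image.mp hy'
  exact Subgroup.pow_mem _ (Subgroup.mem_zpowers x) i

section
variable (A G : Type*) [Group G] [Group A] [MulDistribMulAction A G]

/-- the subgroup `[G, A]` -/
abbrev DD : Subgroup G := Subgroup.closure {y : G | ∃ (a : A) (g : G), y = g⁻¹ * a • g}

lemma DD_normal : (DD A G).Normal := by
  constructor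
  intro d hd x
  have : DD A G ≤ (DD A G).comap (MulAut.conj x).toMonoidHom := by
    rw [Subgroup.closure_le]
    rintro y ⟨a, g, rfl⟩
    change x * (g⁻¹ * a • g) * x⁻¹ ∈ DD A G
    have h1 : (g * x⁻¹)⁻¹ * a • (g * x⁻¹) ∈ DD A G := Subgroup.subset_closure ⟨a, g * x⁻¹, rfl⟩
    have h2 : (x⁻¹)⁻¹ * a • (x⁻¹) ∈ DD A G := Subgroup.subset_closure ⟨a, x⁻¹, rfl⟩
    have h3 : x * (g⁻¹ * a • g) * x⁻¹
        = ((g * x⁻¹)⁻¹ * a • (g * x⁻¹)) * ((x⁻¹)⁻¹ * a • (x⁻¹))⁻¹ := by
      simp only [smul_mul', smul_inv']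
      group
    rw [h3]
    exact mul_mem h1 (inv_mem h2)
  exact this hd

lemma DD_inv (b : A) (d : G) (hd : d ∈ DD A G) : b • d ∈ DD A G := by
  have : DD A G ≤ (DD A G).comap (MulDistribMulAction.toMonoidHom G b) := by
    rw [Subgroup.closure_le]
    rintro y ⟨a, g, rfl⟩
    change b • (g⁻¹ * a • g) ∈ DD A G
    have h1 : g⁻¹ * b • g ∈ DD A G := Subgroup.subset_closure ⟨b, g, rfl⟩
    have h2 : g⁻¹ * (b * a) • g ∈ DD A G := Subgroup.subset_closure ⟨b * a, g, rfl⟩
    have h3 : b • (g⁻¹ * a • g) = (g⁻¹ * b • g)⁻¹ * (g⁻¹ * (b * a) • g) := by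
      simp only [smul_mul', smul_inv', mul_smul]
      group
    rw [h3]
    exact mul_mem (inv_mem h1) h2
  exact this hd

lemma smul_mem_commutator (a : A) (k : G) (hk : k ∈ commutator G) : a • k ∈ commutator G := by
  have h := (inferInstance : (commutator G).Characteristic).fixed (MulDistribMulAction.toMulEquiv G a)
  rw [← h] at hk
  exact hk

lemma DD_le_centralizer [IsCyclic (commutator G)] :
    DD A G ≤ Subgroup.centralizer (commutator G : Set G) := by
  rw [Subgroup.closure_le]
  rintro y ⟨a, g, rfl⟩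
  rw [SetLike.mem_coe, Subgroup.mem_centralizer_iff]
  intro k hk
  obtain ⟨m, hm⟩ := MonoidHom.map_cyclic ((MulAut.conjNormal g : MulAut (commutator G)).toMonoidHom)
  have hm' : ∀ k ∈ commutator G, g * k * g⁻¹ = k ^ m := by
    intro k hk
    exact congr_arg Subtype.val (hm ⟨k, hk⟩)
  have h1 := hm' (a⁻¹ • k) (smul_mem_commutator A G _ _ hk)
  have h2 : a • (g * a⁻¹ • k * g⁻¹) = a • ((a⁻¹ • k) ^ m) := congr_arg (a • ·) h1
  have h4 : a • ((a⁻¹ • k) ^ m) = k ^ m := by
    have := map_zpow (MulDistribMulAction.toMonoidHom G a) (a⁻¹ • k) m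
    simp only [MulDistribMulAction.toMonoidHom_apply, smul_inv_smul] at this
    exact this
  rw [h4, ← hm' k hk] at h2
  simp only [smul_mul', smul_inv', smul_inv_smul] at h2
  -- h2 : a • g * k * (a • g)⁻¹ = g * k * g⁻¹
  calc k * (g⁻¹ * a • g) = g⁻¹ * (g * k * g⁻¹) * a • g := by group
    _ = g⁻¹ * (a • g * k * (a • g)⁻¹) * a • g := by rw [h2]
    _ = g⁻¹ * a • g * k := by group

end

lemma isCyclic_centralizer {G : Type*} [Group G] [Finite G] [IsZGroup G] :
    IsCyclic (Subgroup.centralizer (commutator G : Set G)) := by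
  let f : Subgroup.centralizer (commutator G : Set G) →* Abelianization G :=
    (Abelianization.of).comp (Subgroup.centralizer (commutator G : Set G)).subtype
  have hf : f.ker ≤ Subgroup.center (Subgroup.centralizer (commutator G : Set G)) := by
    intro z hz
    rw [MonoidHom.mem_ker] at hz
    have hzK : (z : G) ∈ commutator G := (QuotientGroup.eq_one_iff _).mp hz
    rw [Subgroup.mem_center_iff]
    intro w
    apply Subtype.ext
    exact (Subgroup.mem_centralizer_iff.mp w.2 z hzK).symm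
  have hcomm := MonoidHom.isMulCommutative_of_isCyclic_of_ker_le_center f hf
  haveI : Group.IsNilpotent (Subgroup.centralizer (commutator G : Set G)) :=
    ⟨1, Subgroup.upperCentralSeries_one_eq_top_iff.mpr hcomm⟩
  infer_instance

theorem result {G A : Type*} [Group G] [Finite G] [Group A] [Finite A]
    [MulDistribMulAction A G] (hcop : (Nat.card A).Coprime (Nat.card G))
    (hcyc : ∀ (p : ℕ) [Fact p.Prime] (P : Sylow p G), IsCyclic (P : Subgroup G)) :
    (Nat.card (MulAction.fixedPoints A G : Set G)).Coprime (Nat.card G / Nat.card (MulAction.fixedPoints A G : Set G)) ∧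
    IsCyclic (Subgroup.closure {y : G | ∃ (a : A) (g : G), y = g⁻¹ * a • g}) ∧
    (Subgroup.closure {y : G | ∃ (a : A) (g : G), y = g⁻¹ * a • g}).Normal ∧
    (Subgroup.closure {y : G | ∃ (a : A) (g : G), y = g⁻¹ * a • g} : Set G) ∩ MulAction.fixedPoints A G = {1} ∧
    Subgroup.closure {y : G | ∃ (a : A) (g : G), y = g⁻¹ * a • g} ⊔ Subgroup.closure (MulAction.fixedPoints A G) = ⊤ := by
  classical
  haveI : IsZGroup G := ⟨fun p hp P => by haveI := Fact.mk hp; exact hcyc p P⟩
  haveI := Fintype.ofFinite A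
  haveI hKc : IsCyclic (commutator G) := IsZGroup.isCyclic_commutator G
  haveI hZc : IsCyclic (Subgroup.centralizer (commutator G : Set G)) := isCyclic_centralizer
  haveI hDc : IsCyclic (DD A G) := Subgroup.isCyclic_of_le (DD_le_centralizer A G)
  haveI hDn : (DD A G).Normal := DD_normal A G
  have hDinv := DD_inv A G
  letI : CommGroup (DD A G) := IsCyclic.commGroup
  letI : MulDistribMulAction A (DD A G) :=
    { smul := fun a d => ⟨a • d.1, hDinv a d.1 d.2⟩
      one_smul := fun d => Subtype.ext (one_smul A d.1)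
      mul_smul := fun a b d => Subtype.ext (mul_smul a b d.1)
      smul_mul := fun a d e => Subtype.ext (smul_mul' a d.1 e.1)
      smul_one := fun a => Subtype.ext (smul_one a) }
  have hsm : ∀ (a : A) (d : DD A G), ((a • d : DD A G) : G) = a • (d : G) := fun _ _ => rfl
  have hcopD : (Nat.card A).Coprime (Nat.card (DD A G)) :=
    hcop.coprime_dvd_right (Subgroup.card_subgroup_dvd_card _)
  have hk : ∀ (g : G) (a b : A),
      (⟨g⁻¹ * (a * b) • g, Subgroup.subset_closure ⟨a * b, g, rfl⟩⟩ : DD A G) =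
      (⟨g⁻¹ * a • g, Subgroup.subset_closure ⟨a, g, rfl⟩⟩ : DD A G) *
        a • (⟨g⁻¹ * b • g, Subgroup.subset_closure ⟨b, g, rfl⟩⟩ : DD A G) := by
    intro g a b
    apply Subtype.ext
    change g⁻¹ * (a * b) • g = (g⁻¹ * a • g) * a • (g⁻¹ * b • g)
    simp only [smul_mul', smul_inv', mul_smul]
    group
  have hlift : ∀ g : G, ∃ d ∈ DD A G, g * d ∈ MulAction.fixedPoints A G := by
    intro g
    obtain ⟨v, hv⟩ := exists_fixed_of_cocycle hcopD
      (fun a => (⟨g⁻¹ * a • g, Subgroup.subset_closure ⟨a, g, rfl⟩⟩ : DD A G)) (hk g)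
    refine ⟨v, v.2, fun a => ?_⟩
    have h1 : g⁻¹ * a • g * a • (v : G) = v := congr_arg Subtype.val (hv a)
    rw [smul_mul']
    calc a • g * a • (v : G) = g * (g⁻¹ * a • g * a • (v : G)) := by group
      _ = g * v := by rw [h1]
  let ν : DD A G →* DD A G :=
    { toFun := fun d => ∏ a : A, a • d
      map_one' := by simp
      map_mul' := by intro x y; simp [smul_mul', Finset.prod_mul_distrib] }
  have hν : DD A G ≤ (ν.ker).map (DD A G).subtype := by
    rw [Subgroup.closure_le]
    rintro y ⟨a, g, rfl⟩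
    refine ⟨⟨g⁻¹ * a • g, Subgroup.subset_closure ⟨a, g, rfl⟩⟩, ?_, rfl⟩
    rw [SetLike.mem_coe, MonoidHom.mem_ker]
    change ∏ b : A, b • (⟨g⁻¹ * a • g, Subgroup.subset_closure ⟨a, g, rfl⟩⟩ : DD A G) = 1
    have h1 : ∀ b : A, b • (⟨g⁻¹ * a • g, Subgroup.subset_closure ⟨a, g, rfl⟩⟩ : DD A G) =
        (⟨g⁻¹ * b • g, Subgroup.subset_closure ⟨b, g, rfl⟩⟩ : DD A G)⁻¹ *
        (⟨g⁻¹ * (b * a) • g, Subgroup.subset_closure ⟨b * a, g, rfl⟩⟩ : DD A G) := by
      intro b
      rw [hk g b a]
      group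
    simp_rw [h1]
    rw [Finset.prod_mul_distrib, Finset.prod_inv_distrib]
    have h2 : ∏ b : A, (⟨g⁻¹ * (b * a) • g, Subgroup.subset_closure ⟨b * a, g, rfl⟩⟩ : DD A G) =
        ∏ b : A, (⟨g⁻¹ * b • g, Subgroup.subset_closure ⟨b, g, rfl⟩⟩ : DD A G) :=
      Fintype.prod_equiv (Equiv.mulRight a) _ _ (fun b => rfl)
    rw [h2, inv_mul_cancel]
  have hint : ∀ d ∈ DD A G, d ∈ MulAction.fixedPoints A G → d = 1 := by
    intro d hd hfix
    obtain ⟨d', hd', rfl⟩ := hν hd
    rw [SetLike.mem_coe, MonoidHom.mem_ker] at hd'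
    change ∏ a : A, a • d' = 1 at hd'
    have h1 : ∀ a : A, a • d' = d' := fun a => Subtype.ext (hfix a)
    simp_rw [h1] at hd'
    rw [Finset.prod_const, Finset.card_univ, ← Nat.card_eq_fintype_card] at hd'
    have h2 : d' = 1 := by
      apply (powCoprime hcopD.symm).injective
      simp only [powCoprime_apply]
      rw [hd', one_pow]
    rw [h2]
    rfl
  have hC : (FixedPoints.subgroup A G : Set G) = MulAction.fixedPoints A G := rfl
  have hcompl : Subgroup.IsComplement' (DD A G) (FixedPoints.subgroup A G) := by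
    apply Subgroup.isComplement'_of_disjoint_and_mul_eq_univ
    · rw [Subgroup.disjoint_def]
      intro x hx hx'
      exact hint x hx hx'
    · rw [Set.eq_univ_iff_forall]
      intro g
      obtain ⟨d, hd, hgd⟩ := hlift g⁻¹
      refine ⟨d, hd, (g⁻¹ * d)⁻¹, (FixedPoints.subgroup A G).inv_mem hgd, ?_⟩
      simp
  have hcard := hcompl.card_mul
  have hcardC : Nat.card (MulAction.fixedPoints A G : Set G) = Nat.card (FixedPoints.subgroup A G) := rfl
  refine ⟨?_, hDc, hDn, ?_, ?_⟩
  · rw [hcardC, ← hcard, Nat.mul_div_cancel _ Nat.card_pos]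
    apply Nat.coprime_of_dvd
    intro p hp hpC hpD
    haveI : Fact p.Prime := ⟨hp⟩
    obtain ⟨x, hx⟩ := exists_prime_orderOf_dvd_card' p hpC
    obtain ⟨y, hy⟩ := exists_prime_orderOf_dvd_card' p hpD
    let E : Subgroup G :=
      { carrier := {d | d ∈ DD A G ∧ d ^ p = 1}
        mul_mem' := by
          rintro a b ⟨ha, ha'⟩ ⟨hb, hb'⟩
          refine ⟨mul_mem ha hb, ?_⟩
          have hab : Commute a b := congr_arg Subtype.val (mul_comm (⟨a, ha⟩ : DD A G) ⟨b, hb⟩)
          rw [hab.mul_pow, ha', hb', one_mul]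
        one_mem' := ⟨one_mem _, one_pow _⟩
        inv_mem' := by
          rintro a ⟨ha, ha'⟩
          exact ⟨inv_mem ha, by rw [inv_pow, ha', inv_one]⟩ }
    haveI hEn : E.Normal := by
      constructor
      rintro d ⟨hd, hd'⟩ g
      refine ⟨hDn.conj_mem d hd g, ?_⟩
      rw [conj_pow, hd']
      simp
    have hEp : IsPGroup p E := by
      intro e
      refine ⟨1, ?_⟩
      apply Subtype.ext
      rw [pow_one]
      exact e.2.2
    have hxp : IsPGroup p (Subgroup.zpowers (x : G)) := by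
      rw [IsPGroup.iff_card]
      refine ⟨1, ?_⟩
      rw [Nat.card_zpowers, Subgroup.orderOf_coe, hx, pow_one]
    have hT : IsPGroup p (Subgroup.zpowers (x : G) ⊔ E : Subgroup G) :=
      hxp.to_sup_of_normal_right hEp
    haveI hTc : IsCyclic (Subgroup.zpowers (x : G) ⊔ E : Subgroup G) := hT.isCyclic_of_isZGroup
    have hxT : (x : G) ∈ (Subgroup.zpowers (x : G) ⊔ E : Subgroup G) :=
      (le_sup_left : Subgroup.zpowers (x : G) ≤ _) (Subgroup.mem_zpowers _)
    have hyE : (y : G) ∈ E := by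
      refine ⟨y.2, ?_⟩
      rw [← hy, ← Subgroup.orderOf_coe, pow_orderOf_eq_one]
    have hyT : (y : G) ∈ (Subgroup.zpowers (x : G) ⊔ E : Subgroup G) :=
      (le_sup_right : E ≤ _) hyE
    have hmem := mem_zpowers_of_isCyclic
      (⟨x, hxT⟩ : (Subgroup.zpowers (x : G) ⊔ E : Subgroup G)) ⟨y, hyT⟩ p hp.pos
      (by rw [← Subgroup.orderOf_coe]; simp only; rw [Subgroup.orderOf_coe, hx])
      (Subtype.ext hyE.2)
    obtain ⟨i, hi⟩ := Subgroup.mem_zpowers_iff.mp hmem
    have hi' : (x : G) ^ i = y := congr_arg Subtype.val hi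
    have hyC : (y : G) ∈ FixedPoints.subgroup A G := by
      rw [← hi']
      exact Subgroup.zpow_mem _ x.2 i
    have hy1 : (y : G) = 1 := hint y y.2 hyC
    have : orderOf y = 1 := by
      rw [orderOf_eq_one_iff]
      exact Subtype.ext hy1
    rw [hy] at this
    exact hp.one_lt.ne' this
  · ext z
    constructor
    · rintro ⟨hz, hz'⟩
      exact hint z hz hz'
    · intro hz
      rw [Set.mem_singleton_iff] at hz
      subst hz
      exact ⟨one_mem _, fun a => smul_one a⟩
  · rw [eq_top_iff]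
    intro g _
    obtain ⟨d, hd, hgd⟩ := hlift g
    have : g = (g * d) * d⁻¹ := by group
    rw [this]
    exact mul_mem ((le_sup_right : Subgroup.closure (MulAction.fixedPoints A G) ≤ _)
      (Subgroup.subset_closure hgd)) ((le_sup_left : DD A G ≤ _) (inv_mem hd))

end Cfsg.Agent.S4117
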