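import Cfsg.Statements.S4125
import Cfsg.Agent.Lib.Helper16.QB.A12
import Cfsg.Agent.Lib.Helper16.QB.G2B13
import Cfsg.Agent.Lib.Helper16.QB.GB
import Cfsg.Agent.Lib.Helper61.QB.DefsG
import Cfsg.Agent.Lib.Helper61.QB.LemmaX
import Cfsg.Agent.Lib.Helper69.QB.G1
import Cfsg.Agent.Lib.Helper69.QB.QUOT
import Cfsg.Agent.Lib.Helper69.QB.S4of
import Cfsg.Agent.Lib.Helper8.QB.P5
import Cfsg.Agent.Lib.Helper8.QB.S2
import Cfsg.Agent.Lib.Helper54.QB.S3a
-- import your own Cfsg.Agent.* helpers here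

set_option autoImplicit false
open Cfsg

namespace Cfsg.Agent.S4125

/-- Let G be a finite group and q a prime dividing its order such that every element of q-power order has a conjugacy class of prime-power size. Then G is q-solvable of q-length 1: there are normal subgroups K ≤ L of G with K of order prime to q, L/K a q-group and L of index prime to q. Moreover there is a prime p such that every element of q-power order has a class of p-power size (one prime serving for all of them), and for a Sylow q-subgroup Q: if p = q then Q is normal with a normal complement (a direct factor), while if p ≠ q then Q is abelian, the product of Q with the largest normal p-subgroup O_p(G) is normal in G, and G/O_{q'}(G) is solvable, where O_{q'}(G) is the largest normal subgroup of order prime to q. -/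
theorem result {G : Type*} [Group G] [Finite G] (q : ℕ) [Fact q.Prime] (hq : q ∣ Nat.card G)
    (hBaer : ∀ x : G, (∃ k : ℕ, orderOf x = q ^ k) → ∃ (r : ℕ) (a : ℕ), r.Prime ∧ (Subgroup.centralizer ({x} : Set G)).index = r ^ a) (Q : Sylow q G) :
    (∃ K L : Subgroup G, K.Normal ∧ L.Normal ∧ K ≤ L ∧ (Nat.card K).Coprime q ∧ (∃ m : ℕ, K.relIndex L = q ^ m) ∧ L.index.Coprime q) ∧
    ∃ p : ℕ, p.Prime ∧ (∀ x : G, (∃ k : ℕ, orderOf x = q ^ k) → ∃ a : ℕ, (Subgroup.centralizer ({x} : Set G)).index = p ^ a) ∧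
      (p = q → (Q : Subgroup G).Normal ∧ ∃ N : Subgroup G, N.Normal ∧ N.IsComplement' (Q : Subgroup G)) ∧
      (p ≠ q → IsMulCommutative (Q : Subgroup G) ∧ (Cfsg.pCore p G ⊔ (Q : Subgroup G)).Normal ∧
        ∀ _h : (Cfsg.pPrimeCore q G).Normal, Group.IsSolvable (G ⧸ Cfsg.pPrimeCore q G)) := by
  rcases Cfsg.Agent.Lib.Helper69.QB.dichotomy (q := q) hBaer with hα | hβ
  · obtain ⟨hn, N, hN, hc⟩ := Cfsg.Agent.Lib.Helper16.QB.case_alpha hα Q
    exact ⟨Cfsg.Agent.Lib.Helper16.QB.qlength_alpha Q hn, q, Fact.out, hα,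
      fun _ => ⟨hn, N, hN, hc⟩, fun h => absurd rfl h⟩
  · obtain ⟨p, hp, hpq, h⟩ := Cfsg.Agent.Lib.Helper16.QB.single_prime_aux
      (fun x y hx hy r s a b hr hs hrs hrq hsq hxi hyi ha hb =>
        Cfsg.Agent.Lib.Helper8.QB.pair_false hBaer x y hx hy hr hs hrs hrq hsq hxi hyi ha hb)
      hBaer hβ
    have := Fact.mk hp
    obtain ⟨hab, hn⟩ := Cfsg.Agent.Lib.Helper16.QB.case_beta hp hpq h Q
    refine ⟨Cfsg.Agent.Lib.Helper16.QB.qlength_beta hp hpq Q hn, p, hp, h, fun h' => absurd h' hpq,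
      fun _ => ⟨hab, hn, fun _h => ?_⟩⟩
    exact Cfsg.Agent.Lib.Helper69.QB.solvable_of_solvHyp_of (q := q) (p := p)
      (fun M _ _ _ A hA => Cfsg.Agent.Lib.Helper61.QB.lemmaX q p A hA)
      (fun V _ a b c d g e => Cfsg.Agent.Lib.Helper8.QB.mem_of_commute_omega V a b c d g e)
      (fun Ω _ a b => Cfsg.Agent.Lib.Helper54.QB.exists_linearization Ω a b)
      (Cfsg.Agent.Lib.Helper69.QB.quot_props hp hpq h Q hab hn)

end Cfsg.Agent.S4125
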