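import Cfsg.Statements.S4127
import Cfsg.Agent.Lib.Helper69.Wielandt
import Cfsg.Agent.Lib.Helper69.DirectFactor
import Cfsg.Agent.Lib.Lead.Residual

set_option autoImplicit false
open Cfsg

namespace Cfsg.Agent.S4127

open Cfsg.Agent.Lib.Helper69 Cfsg.Agent.Lib.Lead Subgroup

/-- Let G be a finite group, p a prime and p^a the largest power of p dividing the size of any conjugacy class of G. If some element of p-power order has a conjugacy class of size exactly p^a, then G has a normal p-complement. -/
theorem result {G : Type*} [Group G] [Finite G] (p : ℕ) [Fact p.Prime]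
    (a : ℕ) (hmax : ∀ y : G, ¬ p ^ (a + 1) ∣ (Subgroup.centralizer ({y} : Set G)).index)
    (hx : ∃ x : G, (∃ k : ℕ, orderOf x = p ^ k) ∧ (Subgroup.centralizer ({x} : Set G)).index = p ^ a) :
    Cfsg.HasNormalPComplement p G := by
  classical
  have hp : p.Prime := Fact.out
  obtain ⟨x, ⟨k, hk⟩, hxa⟩ := hx
  set C := centralizer ({x} : Set G) with hC
  have hxpow : x ^ (p ^ k) = 1 := by rw [← hk]; exact pow_orderOf_eq_one x
  -- (1) in `C`, no class size of a `p'`-element is divisible by `p`
  have h1 : ∀ t : C, ¬ p ∣ orderOf t → ¬ p ∣ (centralizer ({t} : Set C)).index := by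
    intro t ht hdvd
    have e0 : centralizer ({t} : Set C) = (centralizer ({(t : G)} : Set G)).subgroupOf C := by
      ext g
      rw [mem_subgroupOf, mem_cent_singleton, mem_cent_singleton, Subtype.ext_iff]
      rfl
    have hcomm : Commute x (t : G) := (mem_cent_singleton.1 t.2).symm
    have hcop : (orderOf x).Coprime (orderOf (t : G)) := by
      rw [hk, Subgroup.orderOf_coe]
      exact Nat.Coprime.pow_left _ ((Nat.Prime.coprime_iff_not_dvd hp).2 ht)
    have e1 := centralizer_mul_of_coprime hcomm hcop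
    have e2 : (centralizer ({(t : G)} : Set G) ⊓ C).relIndex C * C.index =
        (centralizer ({(t : G)} : Set G) ⊓ C).index := relIndex_mul_index inf_le_right
    rw [inf_relIndex_right] at e2
    rw [e0] at hdvd
    apply hmax (x * t)
    rw [e1, inf_comm, ← hC, ← e2, hxa, pow_succ, mul_comm]
    exact mul_dvd_mul_right hdvd _
  -- (2) `C = P₀ × N₀`
  obtain ⟨P0⟩ : Nonempty (Sylow p C) := inferInstance
  obtain ⟨-, N0, hN0n, hN0c, -⟩ := sylow_direct_factor h1 P0
  have hN0card : (Nat.card N0).Coprime p := by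
    rw [← hN0c.index_eq_card, Nat.coprime_comm, Nat.Prime.coprime_iff_not_dvd hp]
    exact P0.not_dvd_index
  obtain ⟨j, hj⟩ : ∃ j, N0.index = p ^ j := by
    rw [hN0c.symm.index_eq_card]
    exact P0.2.exists_card_eq
  -- (3) `H`
  set H : Subgroup G := N0.map C.subtype with hH
  have hHcard : (Nat.card H).Coprime p := by
    rw [hH, Nat.card_congr (N0.equivMapOfInjective C.subtype C.subtype_injective).symm.toEquiv]
    exact hN0card
  have hHidx : H.index = p ^ (j + a) := by
    rw [hH, index_map_subtype, hj, hxa, pow_add]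
  have hHC : H ≤ C := map_subtype_le _
  -- `p'`-elements of `C` lie in `H`
  have hmemH : ∀ y ∈ C, (orderOf y).Coprime p → y ∈ H := by
    intro y hy hcop
    have : (⟨y, hy⟩ : C) ∈ N0 := by
      rw [mem_iff_coprime_orderOf_of_normal_complement hN0card hj, Subgroup.orderOf_mk]
      exact hcop
    exact ⟨⟨y, hy⟩, this, rfl⟩
  have hordH : ∀ y ∈ H, (orderOf y).Coprime p := by
    intro y hy
    have : orderOf (⟨y, hy⟩ : H) ∣ Nat.card H := orderOf_dvd_natCard _
    rw [Subgroup.orderOf_mk] at this
    exact hHcard.coprime_dvd_left this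
  set L := normalizer (H : Set G) with hL
  have hCL : C ≤ L := by
    intro c hc
    apply mem_normalizer_of_conj_le
    rintro _ ⟨n, hn, rfl⟩
    exact ⟨⟨c, hc⟩ * n * ⟨c, hc⟩⁻¹, hN0n.conj_mem n hn _, rfl⟩
  -- (4) `L = ⊤`
  have hLtop : L = ⊤ := by
    by_contra hne
    have hLidx : p ∣ L.index := by
      have h2 : L.index ∣ p ^ a := hxa ▸ index_dvd_of_le hCL
      obtain ⟨i, -, hi⟩ := (Nat.dvd_prime_pow hp).1 h2
      rcases i with _ | i
      · exact absurd (index_eq_one.1 (by simpa using hi)) hne
      · rw [hi, pow_succ]; exact dvd_mul_left _ _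
    have hz : IsPGroup p (zpowers x) := by
      apply IsPGroup.of_card_dvd_pow (n := k)
      rw [Nat.card_zpowers, hk]
    have hfix : ((1 : G) : G ⧸ L) ∈ MulAction.fixedPoints (zpowers x) (G ⧸ L) := by
      rintro ⟨z, hz'⟩
      have hzL : z ∈ L := by
        apply hCL
        obtain ⟨i, rfl⟩ := mem_zpowers_iff.1 hz'
        exact zpow_mem (by rw [hC, mem_cent_singleton]) i
      show ((z * 1 : G) : G ⧸ L) = _
      rw [QuotientGroup.eq]
      simpa using hzL
    obtain ⟨b, hb, hne'⟩ := hz.exists_fixed_point_of_prime_dvd_card_of_fixed_point (G ⧸ L)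
      (by rw [← index_eq_card]; exact hLidx) hfix
    obtain ⟨g, rfl⟩ := QuotientGroup.mk_surjective b
    have hgL : g ∉ L := by
      intro hg
      apply hne'
      rw [QuotientGroup.eq]
      simpa using hg
    have hu : g⁻¹ * x * g ∈ L := by
      have := hb ⟨x, mem_zpowers x⟩
      have h3 : ((x * g : G) : G ⧸ L) = (g : G ⧸ L) := this
      rw [QuotientGroup.eq] at h3
      have h4 := L.inv_mem h3
      simpa [mul_assoc] using h4
    set u := g⁻¹ * x * g with hu'
    -- `u` lies in every Sylow subgroup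
    have huS : ∀ S : Sylow p G, u ∈ S := by
      intro S
      apply mem_sylow_of_index_centralizer_eq_pow u (a := a)
      · refine ⟨k, ?_⟩
        have : u = g⁻¹ * x * g⁻¹⁻¹ := by rw [inv_inv]
        rw [this, conj_pow, hxpow]; group
      · have : u = g⁻¹ * x * g⁻¹⁻¹ := by rw [inv_inv]
        rw [this, index_centralizer_conj, ← hC, hxa]
    obtain ⟨S⟩ : Nonempty (Sylow p G) := inferInstance
    -- `u` centralizes `H`
    have hucent : ∀ y ∈ H, u * y = y * u := by
      intro y hy
      have hw1 : u⁻¹ * y⁻¹ * u * y ∈ H := by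
        have := (mem_normalizer_iff''.1 hu y⁻¹).1 (H.inv_mem hy)
        exact H.mul_mem this hy
      have hw2 : u⁻¹ * y⁻¹ * u * y ∈ S := by
        have h5 : y⁻¹ * u * y ∈ S := by
          have h6 : u ∈ (y • S : Sylow p G) := huS _
          rw [← SetLike.mem_coe, Sylow.coe_smul] at h6
          obtain ⟨v, hv, hvu⟩ := h6
          have : v = y⁻¹ * u * y := by
            rw [← hvu]; simp [MulAut.conj_apply, mul_assoc]
          rw [← this]; exact hv
        have h10 : u⁻¹ * (y⁻¹ * u * y) ∈ S := S.mul_mem (S.inv_mem (huS S)) h5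
        have h11 : u⁻¹ * y⁻¹ * u * y = u⁻¹ * (y⁻¹ * u * y) := by group
        rw [h11]; exact h10
      have hw3 : u⁻¹ * y⁻¹ * u * y = 1 := by
        obtain ⟨n, hn⟩ := (S.2 ⟨_, hw2⟩)
        have hn' : (u⁻¹ * y⁻¹ * u * y) ^ (p ^ n) = 1 := by
          have := congrArg Subtype.val hn
          simpa using this
        have h7 : orderOf (u⁻¹ * y⁻¹ * u * y) ∣ p ^ n := orderOf_dvd_of_pow_eq_one hn'
        have h8 : (orderOf (u⁻¹ * y⁻¹ * u * y)).Coprime (p ^ n) := (hordH _ hw1).pow_right n
        have h9 : orderOf (u⁻¹ * y⁻¹ * u * y) = 1 := Nat.eq_one_of_dvd_coprimes h8 dvd_rfl h7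
        exact orderOf_eq_one_iff.1 h9
      calc u * y = y * u * (u⁻¹ * y⁻¹ * u * y) := by group
        _ = y * u := by rw [hw3, mul_one]
    apply hgL
    apply mem_normalizer_of_conj_le
    intro y hy
    apply hmemH
    · rw [hC, mem_cent_singleton]
      have := hucent y hy
      calc g * y * g⁻¹ * x = g * (y * u) * g⁻¹ := by rw [hu']; group
        _ = g * (u * y) * g⁻¹ := by rw [this]
        _ = _ := by rw [hu']; group
    · have : orderOf (g * y * g⁻¹) = orderOf y := by
        have := (MulAut.conj g).orderOf_eq y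
        simpa using this
      rw [this]; exact hordH y hy
  have hHn : H.Normal := normalizer_eq_top_iff.1 hLtop
  exact hasNormalPComplement_iff.2 ⟨H, hHn, hHcard, j + a, hHidx⟩

end Cfsg.Agent.S4127
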