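import Cfsg.Statements.S4134
import Cfsg.Agent.Lib.Helper69.Ito3
import Cfsg.Agent.Lib.Helper69.Ito4
import Cfsg.Agent.Lib.Helper69.DirectFactor
import Cfsg.Agent.Lib.Helper69.CoprimeIndex
import Cfsg.Agent.Lib.Helper69.SmallClasses
-- import your own Cfsg.Agent.* helpers here

set_option autoImplicit false
open Cfsg

namespace Cfsg.Agent.S4134

open Cfsg.Agent.Lib.Helper69 Subgroup

/-- Let G be a finite group whose conjugacy classes have exactly two sizes, 1 and n > 1. Then n is a power of a prime p and G is the direct product of a p-group and an abelian group of order prime to p: its Sylow p-subgroup P is normal with an abelian normal complement centralizing it; moreover P has an abelian normal subgroup A with P/A of exponent dividing p. -/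
theorem result {G : Type*} [Group G] [Finite G] (n : ℕ) (hn : 1 < n)
    (h : ∀ x : G, (Subgroup.centralizer ({x} : Set G)).index = 1 ∨ (Subgroup.centralizer ({x} : Set G)).index = n) (hex : ∃ x : G, (Subgroup.centralizer ({x} : Set G)).index = n) :
    ∃ (p : ℕ) (_ : Fact p.Prime) (a : ℕ), n = p ^ a ∧ ∀ P : Sylow p G, (P : Subgroup G).Normal ∧
      (∃ N : Subgroup G, N.Normal ∧ N.IsComplement' (P : Subgroup G) ∧ IsMulCommutative N ∧
        ∀ x ∈ N, ∀ y ∈ (P : Subgroup G), x * y = y * x) ∧
      ∃ A : Subgroup (P : Subgroup G), A.Normal ∧ IsMulCommutative A ∧ ∀ y : (P : Subgroup G), y ^ p ∈ A := by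
  have hT : TwoSizes G n := h
  obtain ⟨x₀, hx₀⟩ := hex
  have hx₀Z : x₀ ∉ center G := by
    intro hc
    rw [← index_centralizer_eq_one_iff] at hc
    omega
  obtain ⟨p, a, hp, hna⟩ := hT.exists_eq_prime_pow hn ⟨x₀, hx₀Z⟩
  have hfact : Fact p.Prime := ⟨hp⟩
  refine ⟨p, hfact, a, hna, ?_⟩
  have ha0 : a ≠ 0 := by
    rintro rfl
    rw [pow_zero] at hna
    omega
  -- the index of a centralizer is not divisible by primes other than `p`
  have hq_ndvd : ∀ q : ℕ, q.Prime → q ≠ p → ∀ t : G, ¬ q ∣ (centralizer ({t} : Set G)).index := by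
    intro q hq hqp t hd
    rcases h t with h1 | h1
    · rw [h1] at hd
      exact hq.one_lt.ne' (Nat.dvd_one.1 hd)
    · rw [h1, hna] at hd
      exact hqp ((Nat.prime_dvd_prime_iff_eq hq hp).1 (hq.dvd_of_dvd_pow hd))
  -- Sylow `q`-subgroups are central for `q ≠ p`
  have hQ : ∀ q : ℕ, q.Prime → q ≠ p → ∀ [Fact q.Prime] (Q : Sylow q G), (Q : Subgroup G) ≤ center G := by
    intro q hq hqp _ Q x hx
    obtain ⟨-, K, -, hKc, hKQ⟩ := sylow_direct_factor (p := q) (fun t _ => hq_ndvd q hq hqp t) Q
    have hle : K ≤ centralizer ({x} : Set G) := by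
      intro k hk
      rw [mem_cent_singleton]
      exact hKQ k hk x hx
    have h1 : (centralizer ({x} : Set G)).index ∣ Nat.card (Q : Subgroup G) := by
      rw [← hKc.symm.index_eq_card]
      exact index_dvd_of_le hle
    rw [Q.card_eq_multiplicity] at h1
    rcases h x with h2 | h2
    · exact (index_centralizer_eq_one_iff x).1 h2
    · exfalso
      rw [h2, hna] at h1
      have h3 : p ∣ q ^ (Nat.card G).factorization q := (dvd_pow_self p ha0).trans h1
      exact hqp ((Nat.prime_dvd_prime_iff_eq hp hq).1 (hp.dvd_of_dvd_pow h3)).symm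
  -- `p'`-elements are central
  have hcentral : ∀ t : G, ¬ p ∣ orderOf t → t ∈ center G := by
    intro t ht
    rw [← QuotientGroup.eq_one_iff, ← orderOf_eq_one_iff]
    by_contra hne
    obtain ⟨q, hq, hqd⟩ := Nat.exists_prime_and_dvd hne
    have hqt : q ∣ orderOf t := hqd.trans (orderOf_map_dvd (QuotientGroup.mk' (center G)) t)
    have hqp : q ≠ p := by
      rintro rfl
      exact ht hqt
    have : Fact q.Prime := ⟨hq⟩
    obtain ⟨Q⟩ : Nonempty (Sylow q G) := inferInstance
    have h1 : q ∣ (center G).index := hqd.trans (orderOf_dvd_natCard _)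
    exact Q.not_dvd_index (h1.trans (index_dvd_of_le (hQ q hq hqp Q)))
  intro P
  obtain ⟨hPn, N, hNn, hNc, hNP⟩ := sylow_direct_factor (p := p) (fun t ht hd => by
    rw [(index_centralizer_eq_one_iff t).2 (hcentral t ht)] at hd
    exact hp.one_lt.ne' (Nat.dvd_one.1 hd)) P
  refine ⟨hPn, ⟨N, hNn, hNc, ?_, hNP⟩, ?_⟩
  · have hNcard : ¬ p ∣ Nat.card N := by
      rw [← hNc.index_eq_card]
      exact P.not_dvd_index
    refine ⟨⟨fun u v => Subtype.ext ?_⟩⟩
    have hu : (u : G) ∈ center G := by
      apply hcentral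
      intro hd
      exact hNcard (hd.trans (Subgroup.orderOf_dvd_natCard N u.2))
    exact ((mem_center_iff.1 hu) v).symm
  · apply TwoSizes.exists_abelian_normal_pow_mem (P := (P : Subgroup G)) P.2 (n := n)
    rintro ⟨x, hx⟩
    rw [centralizer_singleton_subtype]
    show (centralizer ({x} : Set G)).relIndex (P : Subgroup G) = 1 ∨
      (centralizer ({x} : Set G)).relIndex (P : Subgroup G) = n
    rw [relIndex_eq_index_of_coprime]
    · exact h x
    · rcases h x with h1 | h1
      · rw [h1]; exact Nat.coprime_one_left _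
      · rw [h1, hna]
        exact Nat.Coprime.pow_left _ ((Nat.Prime.coprime_iff_not_dvd hp).2 P.not_dvd_index)

end Cfsg.Agent.S4134
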