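import Cfsg.Statements.S4135
import Cfsg.Agent.Lib.Helper69.RelIto5

set_option autoImplicit false
open Cfsg
open Cfsg.Agent.Lib.Helper69 Subgroup

namespace Cfsg.Agent.S4135

/-- Let G be a finite group, r a prime and R a Sylow r-subgroup of G that is not central, N a normal subgroup of G containing R, and m a natural number such that every element of N has a conjugacy class in G of size 1 or m. Then N is nilpotent. -/
theorem result {G : Type*} [Group G] [Finite G] (r : ℕ) [Fact r.Prime]
    (R : Sylow r G) (hR : ¬ (R : Subgroup G) ≤ Subgroup.center G) (N : Subgroup G) [N.Normal] (hRN : (R : Subgroup G) ≤ N)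
    (m : ℕ) (h : ∀ x ∈ N, (Subgroup.centralizer ({x} : Set G)).index = 1 ∨ (Subgroup.centralizer ({x} : Set G)).index = m) : Group.IsNilpotent N := by
  have hr : r.Prime := Fact.out
  have hNn : N.Normal := inferInstance
  have hrmem : ∀ x : G, (∃ k : ℕ, x ^ (r ^ k) = 1) → x ∈ N :=
    fun x hx => mem_of_sylow_le_normal R N hRN hx
  obtain ⟨t₀, ht₀R, ht₀Z⟩ := SetLike.not_le_iff_exists.1 hR
  have hRel : ∀ a ∈ R, ∃ k : ℕ, a ^ (r ^ k) = 1 := by
    intro a ha
    obtain ⟨k, hk⟩ := R.2 ⟨a, ha⟩
    exact ⟨k, by simpa using congrArg Subtype.val hk⟩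
  have ht₀r := hRel t₀ ht₀R
  have ctx : RCtx r N m := ⟨h, hNn, hrmem, ⟨t₀, ht₀Z, ht₀r⟩⟩
  by_cases hrm : r ∣ m
  · -- all `r'`-elements of `N` are central
    set f : N →* G ⧸ center G := (QuotientGroup.mk' (center G)).comp N.subtype with hf
    have hker : f.ker ≤ center N := by
      intro x hx
      have h1 : (x : G) ∈ center G := (QuotientGroup.eq_one_iff (x : G)).1 hx
      rw [mem_center_iff]
      intro g
      exact Subtype.ext ((mem_center_iff.1 h1) g)
    have hp : IsPGroup r f.range := by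
      rintro ⟨_, x, rfl⟩
      obtain ⟨a, b, hab, ⟨k, hk⟩, hb⟩ := exists_p_decomp r (x : G)
      have h1 : (x : G) ^ b ∈ center G := ctx.mem_center R hR hrm (N.pow_mem x.2 b) hb
      refine ⟨k, Subtype.ext ?_⟩
      show (f x) ^ (r ^ k) = 1
      have h2 : f x = QuotientGroup.mk' (center G) ((x : G) ^ a) := by
        show QuotientGroup.mk' (center G) (x : G) = _
        conv_lhs => rw [← hab]
        have h1' : QuotientGroup.mk' (center G) ((x : G) ^ b) = 1 := (QuotientGroup.eq_one_iff _).2 h1
        rw [map_mul, h1', mul_one]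
      rw [h2, ← map_pow, hk, map_one]
    have hnil : Group.IsNilpotent f.range := hp.isNilpotent
    exact Subgroup.isNilpotent_of_ker_le_center f.rangeRestrict (by rw [MonoidHom.ker_rangeRestrict]; exact hker)
  · -- `N` is commutative
    have hnd : ∀ x ∈ N, ¬ r ∣ (centralizer ({x} : Set G)).index := by
      intro x hx
      rcases h x hx with h1 | h1
      · rw [h1]; exact hr.one_lt.ne' ∘ Nat.dvd_one.1
      · rw [h1]; exact hrm
    -- `R` is central in `N`
    have hRZ : ∀ x ∈ N, ∀ a ∈ R, a * x = x * a := by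
      have htop : (centralizer ((R : Subgroup G) : Set G)).subgroupOf N = ⊤ := by
        apply eq_top_of_forall_conj_mem
        intro x
        have h1 : ¬ r ∣ ((centralizer ({(x : G)} : Set G)).subgroupOf N).index := fun hd =>
          hnd x x.2 (hd.trans (relIndex_dvd_index_of_normal_right _ N))
        obtain ⟨k, hk⟩ := exists_conj_sylow_le _ h1 (R.subtype hRN)
        refine ⟨k⁻¹, ?_⟩
        rw [mem_subgroupOf, mem_centralizer_iff]
        intro a ha
        have h2 : k * ⟨a, hRN ha⟩ * k⁻¹ ∈ (centralizer ({(x : G)} : Set G)).subgroupOf N :=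
          hk ⟨a, hRN ha⟩ (show (⟨a, hRN ha⟩ : N) ∈ (R : Subgroup G).subgroupOf N from
            mem_subgroupOf.2 ha)
        rw [mem_subgroupOf, mem_cent_singleton] at h2
        have h3 : (k : G) * a * (k : G)⁻¹ * (x : G) = (x : G) * ((k : G) * a * (k : G)⁻¹) := h2
        show a * ((k : G)⁻¹ * (x : G) * (k : G)⁻¹⁻¹) = ((k : G)⁻¹ * (x : G) * (k : G)⁻¹⁻¹) * a
        calc a * ((k : G)⁻¹ * (x : G) * (k : G)⁻¹⁻¹)
            = (k : G)⁻¹ * ((k : G) * a * (k : G)⁻¹ * (x : G)) * (k : G) := by group
          _ = (k : G)⁻¹ * ((x : G) * ((k : G) * a * (k : G)⁻¹)) * (k : G) := by rw [h3]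
          _ = _ := by group
      intro x hx a ha
      have h1 : (⟨x, hx⟩ : N) ∈ (centralizer ((R : Subgroup G) : Set G)).subgroupOf N :=
        htop ▸ mem_top _
      rw [mem_subgroupOf, mem_centralizer_iff] at h1
      exact h1 a ha
    have hcomm : ∀ x ∈ N, ∀ g ∈ N, g * x = x * g := by
      intro x hx g hg
      obtain ⟨a, b, hab, ha, hb⟩ := exists_p_decomp r x
      -- the `r`-part lies in `R`
      have h1 : g * x ^ a = x ^ a * g := by
        obtain ⟨c, hcN, hc⟩ := exists_conj_mem_sylow_of_le N R hRN (x ^ a) (N.pow_mem hx a) ha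
        have h2 : c * x ^ a * c⁻¹ = x ^ a := by
          have h3 := hRZ c⁻¹ (N.inv_mem hcN) _ hc
          have h4 : c * x ^ a * c⁻¹ * c⁻¹ = x ^ a * c⁻¹ := by rw [h3]; group
          exact mul_right_cancel h4
        rw [h2] at hc
        exact (hRZ g hg _ hc).symm
      have h2 : g * x ^ b = x ^ b * g := by
        have h3 : Commute t₀ (x ^ b) := hRZ _ (N.pow_mem hx b) t₀ ht₀R
        have h4 := ctx.two.centralizer_le_of_coprime (hRN ht₀R) (N.pow_mem hx b) ht₀Z h3
          (coprime_orderOf_of_not_dvd hr ht₀r hb)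
        have h5 : g ∈ centralizer ({t₀} : Set G) := mem_cent_singleton.2 (hRZ g hg t₀ ht₀R).symm
        exact mem_cent_singleton.1 (h4 h5)
      rw [← hab, ← mul_assoc, h1, mul_assoc, h2, mul_assoc]
    exact Subgroup.isNilpotent_of_ker_le_center (1 : N →* Unit) (fun x _ => by
      rw [mem_center_iff]
      intro g
      exact Subtype.ext (hcomm x x.2 g g.2))

end Cfsg.Agent.S4135
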