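import Cfsg.Statements.S4138
import Cfsg.Agent.Lib.Helper59.TopTwo

set_option autoImplicit false
open Cfsg

namespace Cfsg.Agent.S4138

open Subgroup Cfsg.Agent.Lib.Helper69 Cfsg.Agent.Lib.Helper59.TopTwo
open scoped Pointwise

/-- Let G be a finite group whose two largest conjugacy class sizes m > n > 1 are coprime, and let x, y ∈ G have classes of sizes n and m respectively. Then C_G(x) and C_G(y) are abelian, and G/Z(G) is a Frobenius group with kernel C_G(x)/Z(G) and complement C_G(y)/Z(G). -/
theorem result {G : Type*} [Group G] [Finite G] (m n : ℕ) (hmn : n < m) (hn : 1 < n)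
    (hcop : m.Coprime n) (htop : ∀ z : G, (Subgroup.centralizer ({z} : Set G)).index ≤ m) (hsecond : ∀ z : G, (Subgroup.centralizer ({z} : Set G)).index < m → (Subgroup.centralizer ({z} : Set G)).index ≤ n)
    (x y : G) (hx : (Subgroup.centralizer ({x} : Set G)).index = n) (hy : (Subgroup.centralizer ({y} : Set G)).index = m) :
    IsMulCommutative (Subgroup.centralizer ({x} : Set G)) ∧ IsMulCommutative (Subgroup.centralizer ({y} : Set G)) ∧
    Cfsg.IsFrobeniusComplement ((Subgroup.centralizer ({y} : Set G)).map (QuotientGroup.mk' (Subgroup.center G))) ∧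
    Cfsg.frobeniusKernel ((Subgroup.centralizer ({y} : Set G)).map (QuotientGroup.mk' (Subgroup.center G))) =
      ((Subgroup.centralizer ({x} : Set G)).map (QuotientGroup.mk' (Subgroup.center G)) : Set (G ⧸ Subgroup.center G)) := by
  have h : Hyp m n x y := ⟨hmn, hn, hcop, htop, hsecond, hx, hy⟩
  let W : G → Prop := fun g => cind g ∣ n
  let U : G → Prop := fun g => cind g ∣ m
  have hs : Split W U := by
    refine ⟨?_, ?_, ?_, ?_⟩
    · intro g
      rcases cover h g with hz | hg | hg
      · left
        show cind g ∣ n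
        rw [cind, (index_centralizer_eq_one_iff g).2 hz]
        exact one_dvd _
      · left
        show cind g ∣ n
        rw [hg]
      · right
        show cind g ∣ m
        rw [hg]
    · intro w u hw hu
      exact Nat.Coprime.coprime_dvd_left hw (Nat.Coprime.coprime_dvd_right hu hcop.symm)
    · intro g g' hg hd
      exact hd.trans hg
    · intro g g' hg hd
      exact hd.trans hg
  have hyU : U y := by show cind y ∣ m; rw [h.hy]
  have hxW : W x := by show cind x ∣ n; rw [h.hx]
  obtain ⟨L, hLn, hLc, hLm⟩ := hs.exists_L hyU (fun g => by rw [h.hy]; exact htop g)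
  have hSL : SplitL W U L := ⟨hs, hLn, hLc, hLm⟩
  have hxZ : x ∉ center G := by
    intro hz
    have := (index_centralizer_eq_one_iff x).2 hz
    rw [hx] at this
    exact hn.ne' this
  have hyZ : y ∉ center G := by
    intro hz
    have := (index_centralizer_eq_one_iff y).2 hz
    rw [hy] at this
    omega
  set π := QuotientGroup.mk' (center G) with hπ
  have hπ1 : ∀ g : G, π g = 1 ↔ g ∈ center G := fun g => QuotientGroup.eq_one_iff g
  have hmemGen : ∀ (v g : G), π g ∈ (centralizer ({v} : Set G)).map π ↔ Commute g v := by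
    intro v g
    constructor
    · rintro ⟨c, hc, hcg⟩
      have hc' : Commute c v := mem_cent_singleton.1 hc
      have h1 : c⁻¹ * g ∈ center G := by
        rw [← hπ1, map_mul, map_inv, hcg, inv_mul_cancel]
      have h2 : Commute (c⁻¹ * g) v := ((mem_center_iff.1 h1) v).symm
      have h3 := hc'.mul_left h2
      rwa [mul_inv_cancel_left] at h3
    · intro hg
      exact ⟨g, mem_cent_singleton.2 hg, rfl⟩
  have hmemH := hmemGen y
  refine ⟨?_, ?_, ⟨?_, ?_, ?_⟩, ?_⟩
  · constructor
    constructor
    rintro ⟨a, ha⟩ ⟨b, hb⟩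
    apply Subtype.ext
    exact (hSL.commute (hSL.W_of_commute hxW hxZ (mem_cent_singleton.1 ha))
      (hSL.W_of_commute hxW hxZ (mem_cent_singleton.1 hb))).eq
  · constructor
    constructor
    rintro ⟨a, ha⟩ ⟨b, hb⟩
    apply Subtype.ext
    exact (hSL.commute_of_commute hxW hxZ hyU hyZ (mem_cent_singleton.1 ha)
      (mem_cent_singleton.1 hb)).eq
  · intro hbot
    have h1 : π y ∈ (centralizer ({y} : Set G)).map π := (hmemH y).2 (Commute.refl y)
    rw [hbot, mem_bot, hπ1] at h1
    exact hyZ h1
  · intro htop'
    apply hyZ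
    rw [mem_center_iff]
    intro g
    exact (hmemH g).1 (htop' ▸ mem_top _)
  · intro gb hgb
    obtain ⟨g, rfl⟩ := QuotientGroup.mk'_surjective (center G) gb
    rw [eq_bot_iff]
    rintro xb ⟨hx1, hx2⟩
    obtain ⟨x', rfl⟩ := QuotientGroup.mk'_surjective (center G) xb
    rw [mem_bot]
    by_contra hx'
    have hxZ' : x' ∉ center G := fun h1 => hx' ((hπ1 x').2 h1)
    have hx1' : Commute x' y := (hmemH x').1 hx1
    have hx2' : π x' ∈ MulAut.conj (π g) • (centralizer ({y} : Set G)).map π := hx2
    rw [Subgroup.mem_pointwise_smul_iff_inv_smul_mem, MulAut.smul_def, ← map_inv, MulAut.conj_apply,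
      ← map_inv, ← map_mul, ← map_inv, ← map_mul, hmemH] at hx2'
    have h3 := hSL.commute_of_conj hxW hxZ hyU hyZ hx1' hxZ' hx2'
    exact hgb ((hmemH g).2 (by simpa using h3.inv_left))
  · ext xb
    obtain ⟨g, rfl⟩ := QuotientGroup.mk'_surjective (center G) xb
    show π g ∈ Cfsg.frobeniusKernel ((centralizer ({y} : Set G)).map π) ↔
      π g ∈ (centralizer ({x} : Set G)).map π
    rw [hmemGen x g]
    constructor
    · intro hg
      have hgW : W g := by
        by_contra hgW
        have hgU : U g := (hs.cover g).resolve_left hgW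
        have hgZ : g ∉ center G := fun h1 => hgW (hs.centW hxW h1)
        obtain ⟨γ, hγ⟩ := hSL.exists_conj_commute hxW hxZ hyU hyZ hgU hgZ
        rcases hg with hg | hg
        · exact hgZ ((hπ1 g).1 hg)
        · apply hg (π γ⁻¹)
          rw [Subgroup.mem_pointwise_smul_iff_inv_smul_mem, MulAut.smul_def, ← map_inv,
            MulAut.conj_apply, ← map_inv, ← map_mul, ← map_inv, ← map_mul, hmemH]
          simpa using hγ
      exact hSL.commute hgW hxW
    · intro hg
      have hgW : W g := hSL.W_of_commute hxW hxZ hg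
      by_cases hgZ : g ∈ center G
      · exact Or.inl ((hπ1 g).2 hgZ)
      · right
        intro γb hγ
        obtain ⟨γ, rfl⟩ := QuotientGroup.mk'_surjective (center G) γb
        have hγ' : π g ∈ MulAut.conj (π γ) • (centralizer ({y} : Set G)).map π := hγ
        rw [Subgroup.mem_pointwise_smul_iff_inv_smul_mem, MulAut.smul_def, ← map_inv,
          MulAut.conj_apply, ← map_inv, ← map_mul, ← map_inv, ← map_mul, hmemH] at hγ'
        exact hSL.not_commute (hs.conjW hgW γ⁻¹) (not_mem_center_conj hgZ γ⁻¹) hyU hyZ hγ'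

end Cfsg.Agent.S4138
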