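import Cfsg.Statements.S4143
import Mathlib
import Cfsg.Agent.S0112
import Cfsg.Agent.Lib.Helper29.PGroupSmall

set_option autoImplicit false
open Cfsg

namespace Cfsg.Agent.S4143

open scoped commutatorElement

theorem p_mul_card_le {X : Type*} [Group X] [Finite X] {p : ℕ} [Fact p.Prime] (hX : IsPGroup p X)
    {H K : Subgroup X} (h : H < K) : p * Nat.card H ≤ Nat.card K := by
  have h1 : H.relIndex K * Nat.card H = Nat.card K := by
    have h2 := Subgroup.card_mul_index (H.subgroupOf K)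
    rw [Nat.card_congr (Subgroup.subgroupOfEquivOfLe h.le).toEquiv, mul_comm] at h2
    exact h2
  obtain ⟨j, hj⟩ : ∃ j, H.relIndex K = p ^ j := (hX.to_subgroup K).index (H.subgroupOf K)
  have hj0 : j ≠ 0 := by
    rintro rfl
    rw [pow_zero] at hj
    exact absurd (Subgroup.relIndex_eq_one.mp hj) (not_le_of_gt h)
  rw [← h1, hj]
  exact Nat.mul_le_mul_right _ (Nat.le_self_pow hj0 p)

theorem card_le_of_fiber_coset {X : Type*} [Group X] [Finite X] (S : Set X) (Z : Subgroup X)
    {T : Type*} [Finite T] (f : S → T) (h : ∀ x y : S, f x = f y → (y : X)⁻¹ * x ∈ Z) :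
    Nat.card S ≤ Nat.card T * Nat.card Z := by
  classical
  rcases isEmpty_or_nonempty S with hS | hS
  · simp
  let r : T → S := fun t => if ht : ∃ y, f y = t then ht.choose else Classical.arbitrary S
  have hr : ∀ x : S, f (r (f x)) = f x := by
    intro x
    have hx : ∃ y, f y = f x := ⟨x, rfl⟩
    simp only [r, dif_pos hx]
    exact hx.choose_spec
  let g : S → T × Z := fun x => (f x, ⟨(r (f x) : X)⁻¹ * x, h x (r (f x)) (hr x).symm⟩)
  have hg : Function.Injective g := by
    intro x y hxy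
    have h1 : f x = f y := congrArg Prod.fst hxy
    have h2 : (r (f x) : X)⁻¹ * x = (r (f y) : X)⁻¹ * y := congrArg (fun q => ((q.2 : Z) : X)) hxy
    rw [h1] at h2
    exact Subtype.ext (mul_left_cancel h2)
  calc Nat.card S ≤ Nat.card (T × Z) := Nat.card_le_card_of_injective g hg
    _ = _ := Nat.card_prod _ _


/-- Let X be a finite p-group of order p^n containing a non-abelian subgroup B of order p³ with C_X(B) ≤ B. Then X has nilpotency class n − 1 (maximal class). -/
theorem result {X : Type*} [Group X] [Finite X] {p : ℕ} [Fact p.Prime] (n : ℕ) (hX : Nat.card X = p ^ n)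
    (B : Subgroup X) (hB : Nat.card B = p ^ 3) (hBna : ¬ IsMulCommutative B) (hC : Subgroup.centralizer (B : Set X) ≤ B) :
    Group.nilpotencyClass X = n - 1 := by
  have hp : p.Prime := Fact.out
  have hXp : IsPGroup p X := IsPGroup.of_card hX
  set Z := Subgroup.centralizer (B : Set X) with hZ
  obtain ⟨a, ha, b, hb, hab⟩ : ∃ a ∈ B, ∃ b ∈ B, a * b ≠ b * a := by
    by_contra hcon
    push Not at hcon
    exact hBna ⟨⟨fun x y => Subtype.ext (hcon x x.2 y y.2)⟩⟩
  have hchain : ∀ g ∈ B, g ∉ Z →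
      Z < B ⊓ Subgroup.centralizer {g} ∧ B ⊓ Subgroup.centralizer {g} < B := by
    intro g hg hgZ
    constructor
    · refine lt_of_le_of_ne (le_inf hC ?_) ?_
      · intro z hz
        rw [Subgroup.mem_centralizer_singleton_iff]
        exact ((Subgroup.mem_centralizer_iff.mp hz) g hg).symm
      · intro h
        apply hgZ
        rw [h]
        exact ⟨hg, Subgroup.mem_centralizer_singleton_iff.mpr rfl⟩
    · refine lt_of_le_of_ne inf_le_left ?_
      intro h
      apply hgZ
      rw [hZ, Subgroup.mem_centralizer_iff]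
      intro y hy
      have : y ∈ B ⊓ Subgroup.centralizer {g} := by rw [h]; exact hy
      exact Subgroup.mem_centralizer_singleton_iff.mp this.2
  have haZ : a ∉ Z := by
    intro h
    exact hab ((Subgroup.mem_centralizer_iff.mp h) b hb).symm
  have hZle : Nat.card Z ≤ p := by
    obtain ⟨h1, h2⟩ := hchain a ha haZ
    have h3 := p_mul_card_le hXp h1
    have h4 := p_mul_card_le hXp h2
    rw [hB] at h4
    have h5 : p * (p * Nat.card Z) ≤ p * (p * p) := by
      calc p * (p * Nat.card Z) ≤ p * Nat.card (B ⊓ Subgroup.centralizer {a} : Subgroup X) :=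
            Nat.mul_le_mul_left _ h3
        _ ≤ p ^ 3 := h4
        _ = p * (p * p) := by ring
    exact Nat.le_of_mul_le_mul_left (Nat.le_of_mul_le_mul_left h5 hp.pos) hp.pos
  have hnt : Nontrivial X := ⟨⟨a * b, b * a, hab⟩⟩
  have hcz : Subgroup.center X ≤ Z := Subgroup.center_le_centralizer _
  have hcne : (⊥ : Subgroup X) < Subgroup.center X := by
    have := hXp.center_nontrivial
    exact bot_lt_iff_ne_bot.mpr ((Subgroup.nontrivial_iff_ne_bot _).mp this)
  have hcge : p ≤ Nat.card (Subgroup.center X) := by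
    have := p_mul_card_le hXp hcne
    rwa [Subgroup.card_bot, mul_one] at this
  have hZc : Subgroup.center X = Z :=
    Subgroup.eq_of_le_of_card_ge hcz (hZle.trans hcge)
  have hZcard : Nat.card Z = p := le_antisymm hZle (hZc ▸ hcge)
  -- an element commuting with a non-commuting pair of `B` centralizes `B`
  have hgen : ∀ u ∈ B, ∀ v ∈ B, u * v ≠ v * u → ∀ g : X, g * u = u * g → g * v = v * g → g ∈ Z := by
    intro u hu v hv huv g hgu hgv
    by_contra hgZ
    have hlt : B ⊓ Subgroup.centralizer {g} < B := by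
      refine lt_of_le_of_ne inf_le_left ?_
      intro h
      apply hgZ
      rw [hZ, Subgroup.mem_centralizer_iff]
      intro y hy
      have : y ∈ B ⊓ Subgroup.centralizer {g} := by rw [h]; exact hy
      exact Subgroup.mem_centralizer_singleton_iff.mp this.2
    have h4 := p_mul_card_le hXp hlt
    rw [hB] at h4
    have h5 : Nat.card (B ⊓ Subgroup.centralizer {g} : Subgroup X) ≤ p ^ 2 := by
      have : p * Nat.card (B ⊓ Subgroup.centralizer {g} : Subgroup X) ≤ p * p ^ 2 := by
        calc _ ≤ p ^ 3 := h4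
          _ = p * p ^ 2 := by ring
      exact Nat.le_of_mul_le_mul_left this hp.pos
    have hu' : u ∈ B ⊓ Subgroup.centralizer {g} :=
      ⟨hu, Subgroup.mem_centralizer_singleton_iff.mpr hgu.symm⟩
    have hv' : v ∈ B ⊓ Subgroup.centralizer {g} :=
      ⟨hv, Subgroup.mem_centralizer_singleton_iff.mpr hgv.symm⟩
    have h6 := Cfsg.Agent.Lib.Helper29.comm_of_card_le_sq (hXp.to_subgroup _) h5 ⟨u, hu'⟩ ⟨v, hv'⟩
    exact huv (congrArg Subtype.val h6)
  have hconj : ∀ (x y u : X), x * u * x⁻¹ * u⁻¹ = y * u * y⁻¹ * u⁻¹ → y⁻¹ * x * u = u * (y⁻¹ * x) := by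
    intro x y u h1
    have h2 : x * u * x⁻¹ = y * u * y⁻¹ := mul_right_cancel h1
    calc y⁻¹ * x * u = y⁻¹ * (x * u * x⁻¹) * x := by group
      _ = y⁻¹ * (y * u * y⁻¹) * x := by rw [h2]
      _ = u * (y⁻¹ * x) := by group
  have hcomm : ∀ x ∈ B, ∀ y ∈ B, x * y * x⁻¹ * y⁻¹ ∈ Z := by
    intro x hx y hy
    have h1 := Cfsg.Agent.Lib.Helper29.class_two_of_card_le (hXp.to_subgroup B) hB.le
    rw [hZ, Subgroup.mem_centralizer_iff]
    intro t ht
    have h2 : ⁅⁅(⟨x, hx⟩ : ↥B), (⟨y, hy⟩ : ↥B)⁆, (⟨t, ht⟩ : ↥B)⁆ ∈ ⁅commutator ↥B, (⊤ : Subgroup ↥B)⁆ :=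
      Subgroup.commutator_mem_commutator (Subgroup.commutator_mem_commutator
        (Subgroup.mem_top _) (Subgroup.mem_top _)) (Subgroup.mem_top _)
    rw [h1, Subgroup.mem_bot, commutatorElement_eq_one_iff_mul_comm] at h2
    have h3 := congrArg Subtype.val h2
    simp only [commutatorElement_def, Subgroup.coe_mul, Subgroup.coe_inv] at h3
    exact h3.symm
  obtain ⟨w, hwZ, hw⟩ : ∃ w : X, w ∉ Z ∧ ∀ x : X, x * w * x⁻¹ * w⁻¹ ∈ Z := by
    rw [← hZc]
    have hne : Nontrivial (X ⧸ Subgroup.center X) :=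
      ⟨⟨(a : X ⧸ Subgroup.center X), 1, fun h => haZ (hZc ▸ (QuotientGroup.eq_one_iff a).mp h)⟩⟩
    have := (hXp.to_quotient (Subgroup.center X)).center_nontrivial
    obtain ⟨⟨wbar, hwbar⟩, hne1⟩ := exists_ne (1 : Subgroup.center (X ⧸ Subgroup.center X))
    obtain ⟨w, rfl⟩ := QuotientGroup.mk_surjective wbar
    refine ⟨w, ?_, ?_⟩
    · intro h
      apply hne1
      apply Subtype.ext
      exact (QuotientGroup.eq_one_iff w).mpr h
    · intro x
      rw [← QuotientGroup.eq_one_iff]
      have h1 := Subgroup.mem_center_iff.mp hwbar (x : X ⧸ Subgroup.center X)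
      rw [QuotientGroup.mk_mul, QuotientGroup.mk_mul, QuotientGroup.mk_mul, h1,
        QuotientGroup.mk_inv, QuotientGroup.mk_inv]
      group
  have hwB : w ∈ B := by
    let S : Set X := {x | x * a * x⁻¹ * a⁻¹ ∈ Z ∧ x * b * x⁻¹ * b⁻¹ ∈ Z}
    have hBS : (B : Set X) ⊆ S := fun x hx => ⟨hcomm x hx a ha, hcomm x hx b hb⟩
    have hinv : ∀ u : X, w * u * w⁻¹ * u⁻¹ ∈ Z := by
      intro u
      have h1 := inv_mem (hw u)
      have h2 : (u * w * u⁻¹ * w⁻¹)⁻¹ = w * u * w⁻¹ * u⁻¹ := by group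
      rwa [h2] at h1
    have hwS : w ∈ S := ⟨hinv a, hinv b⟩
    have hcard : Nat.card S ≤ Nat.card (Z × Z) * Nat.card Z :=
      card_le_of_fiber_coset S Z (fun x => (⟨_, x.2.1⟩, ⟨_, x.2.2⟩)) (by
        intro x y hxy
        have h1 : (x : X) * a * (x : X)⁻¹ * a⁻¹ = y * a * (y : X)⁻¹ * a⁻¹ :=
          congrArg (fun q => ((q.1 : Z) : X)) hxy
        have h2 : (x : X) * b * (x : X)⁻¹ * b⁻¹ = y * b * (y : X)⁻¹ * b⁻¹ :=
          congrArg (fun q => ((q.2 : Z) : X)) hxy
        exact hgen a ha b hb hab _ (hconj _ _ _ h1) (hconj _ _ _ h2))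
    rw [Nat.card_prod, hZcard] at hcard
    have hBS' : (B : Set X) = S := Set.eq_of_subset_of_ncard_le hBS (by
      rw [← Nat.card_coe_set_eq, ← Nat.card_coe_set_eq]
      calc Nat.card S ≤ p * p * p := hcard
        _ = p ^ 3 := by ring
        _ = Nat.card B := hB.symm)
    have h3 : w ∈ (B : Set X) := hBS' ▸ hwS
    exact h3
  obtain ⟨b', hb', hwb'⟩ : ∃ b' ∈ B, b' * w ≠ w * b' := by
    by_contra hcon
    push Not at hcon
    apply hwZ
    rw [hZ, Subgroup.mem_centralizer_iff]
    exact hcon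
  have hb'Z : b' ∉ Z := fun h => hwb' ((Subgroup.mem_centralizer_iff.mp h) w hwB).symm
  set A := B ⊓ Subgroup.centralizer {b'} with hA
  obtain ⟨h1, h2⟩ := hchain b' hb' hb'Z
  have hAcard : Nat.card A = p ^ 2 := by
    have h3 := p_mul_card_le hXp h1
    have h4 := p_mul_card_le hXp h2
    rw [hZcard] at h3
    rw [hB] at h4
    apply le_antisymm
    · have : p * Nat.card A ≤ p * p ^ 2 := by
        calc _ ≤ p ^ 3 := h4
          _ = p * p ^ 2 := by ring
      exact Nat.le_of_mul_le_mul_left this hp.pos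
    · calc p ^ 2 = p * p := by ring
        _ ≤ _ := h3
  have hAcomm : IsMulCommutative A := IsPGroup.isMulCommutative_of_card_eq_prime_sq hAcard
  have hAle : A ≤ Subgroup.centralizer (A : Set X) := by
    intro x hx
    rw [Subgroup.mem_centralizer_iff]
    intro y hy
    exact setLike_mul_comm hy hx
  have hb'A : b' ∈ A := ⟨hb', Subgroup.mem_centralizer_singleton_iff.mpr rfl⟩
  have hCcard : Nat.card (Subgroup.centralizer (A : Set X)) ≤ p ^ 2 := by
    have h5 := card_le_of_fiber_coset ((Subgroup.centralizer (A : Set X) : Subgroup X) : Set X) Z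
      (T := Z) (fun c => ⟨(c : X) * w * (c : X)⁻¹ * w⁻¹, hw c⟩) (by
        intro x y hxy
        have h1 : (x : X) * w * (x : X)⁻¹ * w⁻¹ = y * w * (y : X)⁻¹ * w⁻¹ :=
          congrArg Subtype.val hxy
        refine hgen w hwB b' hb' (Ne.symm hwb') _ (hconj _ _ _ h1) ?_
        have hm : (y : X)⁻¹ * x ∈ Subgroup.centralizer (A : Set X) := mul_mem (inv_mem y.2) x.2
        exact ((Subgroup.mem_centralizer_iff.mp hm) b' hb'A).symm)
    rw [hZcard] at h5
    calc Nat.card (Subgroup.centralizer (A : Set X)) ≤ p * p := h5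
      _ = p ^ 2 := by ring
  have hCA : Subgroup.centralizer (A : Set X) = A :=
    (Subgroup.eq_of_le_of_card_ge hAle (by rw [hAcard]; exact hCcard)).symm
  exact Cfsg.Agent.S0112.result n hX A hAcard hCA

end Cfsg.Agent.S4143
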