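import Cfsg.Statements.S4145
import Cfsg.Agent.Lib.Helper69.SubgroupSylow
import Cfsg.Agent.Lib.Helper69.CyclicSylow
import Cfsg.Agent.Lib.Lead.Residual

set_option autoImplicit false
open Cfsg

namespace Cfsg.Agent.S4145

open Cfsg.Agent.Lib.Helper69 Cfsg.Agent.Lib.Lead Subgroup

theorem abelian_of_cyclic {G : Type*} [Group G] (P : Subgroup G) (hP : IsCyclic P) :
    ∀ a ∈ P, ∀ b ∈ P, a * b = b * a := by
  intro a ha b hb
  obtain ⟨g, hg⟩ := hP.exists_generator
  obtain ⟨i, hi⟩ := mem_zpowers_iff.1 (hg ⟨a, ha⟩)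
  obtain ⟨j, hj⟩ := mem_zpowers_iff.1 (hg ⟨b, hb⟩)
  have : (⟨a, ha⟩ : P) * ⟨b, hb⟩ = ⟨b, hb⟩ * ⟨a, ha⟩ := by
    rw [← hi, ← hj, ← zpow_add, ← zpow_add, add_comm]
  exact congrArg Subtype.val this

/-- part 1 -/
theorem part1 {G : Type*} [Group G] [Finite G] (p : ℕ) [Fact p.Prime]
    (P : Sylow p G) (hP : IsCyclic (P : Subgroup G)) (H : Subgroup G) [H.Normal]
    (h2 : p ∣ H.index) (Q0 : Sylow p H) (hQ0 : (P : Subgroup G).subgroupOf H = Q0) :
    Cfsg.HasNormalPComplement p H := by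
  have hab := abelian_of_cyclic _ hP
  have hPH : ¬ (P : Subgroup G) ≤ H := fun h => P.not_dvd_index (h2.trans (index_dvd_of_le h))
  have hmap : (Q0 : Subgroup H).map H.subtype = (P : Subgroup G) ⊓ H := by
    rw [← hQ0, subgroupOf_map_subtype]
  apply burnside_in_subgroup H Q0
  rw [hmap]
  set P0 := (P : Subgroup G) ⊓ H with hP0
  intro x hxH hxN
  -- the subgroup `C1`
  set C1 := ((P : Subgroup G) ⊔ H) ⊓ centralizer (P0 : Set G) with hC1
  have hPC1 : (P : Subgroup G) ≤ C1 := by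
    refine le_inf le_sup_left ?_
    intro u hu
    rw [mem_centralizer_iff]
    intro z hz
    exact hab z hz.1 u hu
  have hPxC1 : ((x • P : Sylow p G) : Subgroup G) ≤ C1 := by
    intro w hw
    have hw' : x⁻¹ * w * x ∈ P := (mem_smul_sylow P x w).1 hw
    refine Subgroup.mem_inf.2 ⟨?_, ?_⟩
    · have e : w = x * (x⁻¹ * w * x) * x⁻¹ := by group
      rw [e]
      exact mul_mem (mul_mem (mem_sup_right hxH) (mem_sup_left hw')) (inv_mem (mem_sup_right hxH))
    · rw [mem_centralizer_iff]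
      intro z hz
      have hz' : x⁻¹ * z * x ∈ P0 := (mem_normalizer_iff''.1 hxN z).1 hz
      have := hab _ hz'.1 _ hw'
      calc z * w = x * ((x⁻¹ * z * x) * (x⁻¹ * w * x)) * x⁻¹ := by group
        _ = x * ((x⁻¹ * w * x) * (x⁻¹ * z * x)) * x⁻¹ := by rw [this]
        _ = w * z := by group
  obtain ⟨c, hc, hcP⟩ := exists_smul_eq_of_le C1 P (x • P) hPC1 hPxC1
  rw [← mul_smul] at hcP
  have hyN : c * x ∈ normalizer ((P : Subgroup G) : Set G) := Sylow.smul_eq_iff_mem_normalizer.1 hcP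
  obtain ⟨u, hu, h', hh', huh⟩ := mem_sup_of_normal_right.1 hc.1
  set h := h' * x with hh
  have hhH : h ∈ H := mul_mem hh' hxH
  have hhe : h = u⁻¹ * (c * x) := by rw [hh, ← huh]; group
  have hhN : h ∈ normalizer ((P : Subgroup G) : Set G) := by
    rw [hhe]
    exact mul_mem (inv_mem (le_normalizer hu)) hyN
  have hhC : h ∈ centralizer ((P : Subgroup G) : Set G) := by
    apply mem_centralizer_of_cyclic_sylow P hP h hhN
    right
    refine ⟨P0, fun hle => hPH (hle.trans inf_le_right), ?_⟩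
    intro z hz
    refine Subgroup.mem_inf.2 ⟨(P : Subgroup G).mul_mem ((P : Subgroup G).inv_mem hz) ((mem_normalizer_iff.1 hhN z).1 hz), ?_⟩
    have e : z⁻¹ * (h * z * h⁻¹) = (z⁻¹ * h * z⁻¹⁻¹) * h⁻¹ := by group
    rw [e]
    exact H.mul_mem (‹H.Normal›.conj_mem h hhH z⁻¹) (H.inv_mem hhH)
  rw [mem_centralizer_iff]
  intro z hz
  -- `x z x⁻¹ = z`
  have hxz : x * z * x⁻¹ ∈ P0 := (mem_normalizer_iff.1 hxN z).1 hz
  have e1 : z * h = h * z := (mem_centralizer_iff.1 hhC) z hz.1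
  have e2 : (x * z * x⁻¹) * c = c * (x * z * x⁻¹) := (mem_centralizer_iff.1 hc.2) _ hxz
  have e3 : (x * z * x⁻¹) * u⁻¹ = u⁻¹ * (x * z * x⁻¹) := hab _ hxz.1 _ (inv_mem hu)
  have e4 : h * z * h⁻¹ = x * z * x⁻¹ := by
    calc h * z * h⁻¹ = u⁻¹ * (c * (x * z * x⁻¹)) * c⁻¹ * u := by rw [hhe]; group
      _ = u⁻¹ * ((x * z * x⁻¹) * c) * c⁻¹ * u := by rw [e2]
      _ = (u⁻¹ * (x * z * x⁻¹)) * u := by group
      _ = ((x * z * x⁻¹) * u⁻¹) * u := by rw [e3]
      _ = _ := by group
  have e5 : h * z * h⁻¹ = z := by rw [← e1]; group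
  have e6 : x * z * x⁻¹ = z := e4.symm.trans e5
  calc z * x = (x * z * x⁻¹) * x := by rw [e6]
    _ = x * z := by group

/-- part 2 -/
theorem part2 {G : Type*} [Group G] [Finite G] (p : ℕ) [Fact p.Prime]
    (P : Sylow p G) (hP : IsCyclic (P : Subgroup G)) (H : Subgroup G) [H.Normal]
    (h1 : p ∣ Nat.card H) (Q0 : Sylow p H) (hQ0 : (P : Subgroup G).subgroupOf H = Q0)
    (hH : Cfsg.HasNormalPComplement p H) : Cfsg.IsPSolvable p G := by
  have hp : p.Prime := Fact.out
  have hab := abelian_of_cyclic _ hP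
  set L' := pPrimeCore p H with hL'
  have hL'c : L'.IsComplement' (Q0 : Subgroup H) := HasNormalPComplement.isComplement'_pPrimeCore hH Q0
  set L := L'.map H.subtype with hL
  have hLn : L.Normal := normal_map_subtype_of_characteristic H L'
  set f := QuotientGroup.mk' L with hf
  have hHbn : (H.map f).Normal := ‹H.Normal›.map f (QuotientGroup.mk'_surjective L)
  set C1 := (centralizer ((H.map f : Subgroup (G ⧸ L)) : Set (G ⧸ L))).comap f with hC1
  have hC1n : C1.Normal := inferInstance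
  have hmemC1 : ∀ g, g ∈ C1 ↔ ∀ h ∈ H, f h * f g = f g * f h := by
    intro g
    rw [hC1, mem_comap, mem_centralizer_iff]
    constructor
    · intro hg h hh
      exact hg _ ⟨h, hh, rfl⟩
    · rintro hg _ ⟨h, hh, rfl⟩
      exact hg h hh
  -- every element of `H` is congruent mod `L` to an element of `P ⊓ H`
  have hdecomp : ∀ h ∈ H, ∃ z ∈ P, z ∈ H ∧ f h = f z := by
    intro h hh
    obtain ⟨⟨⟨l, hl⟩, ⟨z, hz⟩⟩, hlz, -⟩ := (isComplement_iff_existsUnique.1 hL'c) ⟨h, hh⟩
    simp only at hlz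
    have hzP : (z : G) ∈ P := by
      have : z ∈ (P : Subgroup G).subgroupOf H := by rw [hQ0]; exact hz
      exact mem_subgroupOf.1 this
    refine ⟨z, hzP, z.2, ?_⟩
    have e : h = (l : G) * (z : G) := (congrArg Subtype.val hlz).symm
    have hlL : (l : G) ∈ L := ⟨l, hl, rfl⟩
    have hfl : f (l : G) = 1 := (QuotientGroup.eq_one_iff _).2 hlL
    rw [e, map_mul, hfl, one_mul]
  have hPC1 : (P : Subgroup G) ≤ C1 := by
    intro u hu
    rw [hmemC1]
    intro h hh
    obtain ⟨z, hz, -, hfz⟩ := hdecomp h hh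
    rw [hfz, ← map_mul, ← map_mul, hab z hz u hu]
  -- a nontrivial element of `P ⊓ H`
  obtain ⟨z0, hz0P, hz0H, hz01⟩ : ∃ z ∈ P, z ∈ H ∧ z ≠ 1 := by
    have hne := Q0.ne_bot_of_dvd_card h1
    obtain ⟨⟨z, hz⟩, hz1⟩ := (Subgroup.ne_bot_iff_exists_ne_one).1 hne
    have hzP : (z : G) ∈ P := by
      have : z ∈ (P : Subgroup G).subgroupOf H := by rw [hQ0]; exact hz
      exact mem_subgroupOf.1 this
    refine ⟨z, hzP, z.2, ?_⟩
    intro h
    apply hz1
    apply Subtype.ext
    apply Subtype.ext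
    exact h
  -- `L ⊓ P = ⊥`
  have hLP : ∀ w ∈ L, w ∈ P → w = 1 := by
    rintro _ ⟨w, hw, rfl⟩ hwP
    have h3 : w ∈ (Q0 : Subgroup H) := by
      rw [← hQ0]; exact mem_subgroupOf.2 hwP
    have h4 : w ∈ L' ⊓ (Q0 : Subgroup H) := ⟨hw, h3⟩
    rw [hL'c.disjoint.eq_bot, mem_bot] at h4
    rw [h4]; rfl
  -- Burnside in `C1`
  have hC1p : Cfsg.HasNormalPComplement p C1 := by
    apply burnside_in_subgroup C1 (P.subtype hPC1)
    have hmap : ((P.subtype hPC1 : Sylow p C1) : Subgroup C1).map C1.subtype = (P : Subgroup G) := by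
      rw [Sylow.coe_subtype, subgroupOf_map_subtype, inf_eq_left]
      exact hPC1
    rw [hmap]
    intro y hyC hyN
    apply mem_centralizer_of_cyclic_sylow P hP y hyN
    left
    refine ⟨z0, hz0P, hz01, ?_⟩
    have h5 : y * z0 * y⁻¹ ∈ P := (mem_normalizer_iff.1 hyN z0).1 hz0P
    have h6 : f (z0⁻¹ * (y * z0 * y⁻¹)) = 1 := by
      have := (hmemC1 y).1 hyC z0 hz0H
      rw [map_mul, map_mul, map_mul, map_inv, map_inv, ← this]
      group
    have h7 : z0⁻¹ * (y * z0 * y⁻¹) ∈ L := (QuotientGroup.eq_one_iff _).1 h6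
    have h8 := hLP _ h7 (mul_mem (inv_mem hz0P) h5)
    calc y * z0 * y⁻¹ = z0 * (z0⁻¹ * (y * z0 * y⁻¹)) := by group
      _ = z0 := by rw [h8, mul_one]
  set M' := pPrimeCore p C1 with hM'
  obtain ⟨k, hk⟩ := hasNormalPComplement_iff_index_pPrimeCore.1 hC1p
  set M := M'.map C1.subtype with hM
  have hMn : M.Normal := normal_map_subtype_of_characteristic C1 M'
  have hMC : M ≤ C1 := map_subtype_le _
  have hMcard : (Nat.card M).Coprime p := by
    rw [hM, Nat.card_congr (M'.equivMapOfInjective C1.subtype C1.subtype_injective).symm.toEquiv]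
    exact card_pPrimeCore_coprime p
  have hMrel : M.relIndex C1 = p ^ k := by
    rw [← hk, relIndex, hM]
    congr 1
    exact comap_map_eq_self_of_injective C1.subtype_injective M'
  have hC1idx : (C1.index).Coprime p := by
    rw [Nat.coprime_comm, Nat.Prime.coprime_iff_not_dvd hp]
    exact fun h => P.not_dvd_index (h.trans (index_dvd_of_le hPC1))
  refine ⟨3, ![⊥, M, C1, ⊤], rfl, rfl, ?_, ?_, ?_⟩
  · rw [Fin.monotone_iff_le_succ]
    intro i
    fin_cases i
    · exact bot_le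
    · exact hMC
    · exact le_top
  · intro i
    fin_cases i
    · exact (inferInstance : (⊥ : Subgroup G).Normal)
    · exact hMn
    · exact hC1n
    · exact (inferInstance : (⊤ : Subgroup G).Normal)
  · intro i
    fin_cases i
    · right
      show ((⊥ : Subgroup G).relIndex M).Coprime p
      rw [relIndex_bot_left]; exact hMcard
    · left
      exact ⟨k, hMrel⟩
    · right
      show (C1.relIndex ⊤).Coprime p
      rw [relIndex_top_right]; exact hC1idx

/-- Let G be a finite group with a cyclic Sylow p-subgroup and H a normal subgroup such that p divides both the order of H and the index of H. Then H has a normal p-complement and G is p-solvable. -/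
theorem result {G : Type*} [Group G] [Finite G] (p : ℕ) [Fact p.Prime]
    (P : Sylow p G) (hP : IsCyclic (P : Subgroup G)) (H : Subgroup G) [H.Normal] (h1 : p ∣ Nat.card H) (h2 : p ∣ H.index) :
    Cfsg.HasNormalPComplement p H ∧ Cfsg.IsPSolvable p G := by
  obtain ⟨Q0⟩ : Nonempty (Sylow p H) := inferInstance
  obtain ⟨P', hP'⟩ := Q0.exists_comap_subtype_eq
  have hcyc : IsCyclic (P' : Subgroup G) := (P.equiv P').isCyclic.1 hP
  have hH := part1 p P' hcyc H h2 Q0 hP'
  exact ⟨hH, part2 p P' hcyc H h1 Q0 hP' hH⟩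

end Cfsg.Agent.S4145
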