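import Cfsg.Statements.S4149
import Cfsg.Agent.Lib.Helper59.ClassSize

set_option autoImplicit false
open Cfsg

namespace Cfsg.Agent.S4149

open Cfsg.Agent.Lib.Helper59

/-- Let G be a finite group that has a normal p-complement for at most one prime p dividing its order, and let σ be a natural number such that every conjugacy class size of G has at most σ distinct prime divisors. Then the number of primes dividing at least one conjugacy class size of G is at most 2σ. -/
theorem result {G : Type*} [Group G] [Finite G] (σ : ℕ)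
    (hσ : ∀ x : G, ((Subgroup.centralizer ({x} : Set G)).index).primeFactors.card ≤ σ)
    (hnil : ∀ p q : ℕ, p.Prime → q.Prime → p ∣ Nat.card G → q ∣ Nat.card G →
      Cfsg.HasNormalPComplement p G → Cfsg.HasNormalPComplement q G → p = q) :
    Nat.card {p : ℕ | p.Prime ∧ ∃ x : G, p ∣ (Subgroup.centralizer ({x} : Set G)).index} ≤ 2 * σ := by
  classical
  have : Fintype G := Fintype.ofFinite G
  set idx : G → ℕ := fun x => (Subgroup.centralizer ({x} : Set G)).index with hidx
  have hidx0 : ∀ x, idx x ≠ 0 := fun x => Subgroup.index_ne_zero_of_finite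
  set V : Finset ℕ := (Nat.card G).primeFactors.filter (fun p => ∃ x : G, p ∣ idx x) with hV
  have hVmem : ∀ p, p ∈ V ↔ p.Prime ∧ ∃ x : G, p ∣ idx x := by
    intro p
    rw [hV, Finset.mem_filter, Nat.mem_primeFactors]
    constructor
    · rintro ⟨⟨hp, _, _⟩, x, hx⟩; exact ⟨hp, x, hx⟩
    · rintro ⟨hp, x, hx⟩
      exact ⟨⟨hp, hx.trans (Subgroup.index_dvd_card _), Nat.card_pos.ne'⟩, x, hx⟩
  have hset : {p : ℕ | p.Prime ∧ ∃ x : G, p ∣ idx x} = ↑V := by
    ext p
    rw [Finset.mem_coe, hVmem]; rfl
  show Nat.card ↥{p : ℕ | p.Prime ∧ ∃ x : G, p ∣ idx x} ≤ 2 * σ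
  rw [hset, Nat.card_coe_set_eq, Set.ncard_coe_finset]
  set n := Nat.card G with hn
  have hnpos : 0 < n := Nat.card_pos
  set M : ℕ → ℕ := fun p => Nat.card {y : G // ¬ p ∣ idx y} with hM
  have hdc : ∑ p ∈ V, M p = ∑ y : G, (V.filter (fun p => ¬ p ∣ idx y)).card := by
    simp only [hM, Nat.card_eq_fintype_card, Fintype.card_subtype, Finset.card_filter]
    exact Finset.sum_comm
  have hlow : ∀ y : G, V.card ≤ (V.filter (fun p => ¬ p ∣ idx y)).card + σ := by
    intro y
    have h1 := Finset.card_filter_add_card_filter_not (s := V) (fun p => p ∣ idx y)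
    have h2 : (V.filter (fun p => p ∣ idx y)).card ≤ (idx y).primeFactors.card := by
      apply Finset.card_le_card
      intro p hp
      rw [Finset.mem_filter] at hp
      rw [Nat.mem_primeFactors]
      exact ⟨((hVmem p).mp hp.1).1, hp.2, hidx0 y⟩
    have h3 : (idx y).primeFactors.card ≤ σ := hσ y
    omega
  have hlow' : n * V.card ≤ ∑ p ∈ V, M p + n * σ := by
    rw [hdc]
    have : ∑ _y : G, V.card ≤ ∑ y : G, ((V.filter (fun p => ¬ p ∣ idx y)).card + σ) :=
      Finset.sum_le_sum fun y _ => hlow y
    rw [Finset.sum_const, Finset.sum_add_distrib, Finset.sum_const, Finset.card_univ,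
      ← Nat.card_eq_fintype_card, smul_eq_mul, smul_eq_mul] at this
    exact this
  -- upper bounds
  have hup1 : ∀ p ∈ V, M p + 1 ≤ n := by
    intro p hp
    obtain ⟨_, x, hx⟩ := (hVmem p).mp hp
    have : M p < n := by
      rw [hM, hn]
      simp only [Nat.card_eq_fintype_card]
      exact Fintype.card_subtype_lt (x := x) (by simpa using hx)
    omega
  have hup2 : ∀ p ∈ V, ¬ Cfsg.HasNormalPComplement p G → 2 * M p ≤ n := by
    intro p hp hc
    have hpp := ((hVmem p).mp hp).1
    have : Fact p.Prime := ⟨hpp⟩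
    obtain ⟨P⟩ : Nonempty (Sylow p G) := inferInstance
    apply two_mul_card_not_dvd_le p P
    intro hP
    exact hc ⟨P, (MonoidHom.transferSylow P hP).ker, inferInstance,
      MonoidHom.ker_transferSylow_isComplement' P hP⟩
  set E : Finset ℕ := V.filter (fun p => Cfsg.HasNormalPComplement p G) with hE
  have hEcard : E.card ≤ 1 := by
    rw [Finset.card_le_one]
    intro a ha b hb
    rw [hE, Finset.mem_filter] at ha hb
    have hdv : ∀ p ∈ V, p ∣ Nat.card G := by
      intro p hp
      obtain ⟨_, x, hx⟩ := (hVmem p).mp hp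
      exact hx.trans (Subgroup.index_dvd_card _)
    exact hnil a b ((hVmem a).mp ha.1).1 ((hVmem b).mp hb.1).1 (hdv a ha.1) (hdv b hb.1) ha.2 hb.2
  have hup : ∑ p ∈ V, 2 * M p ≤ V.card * n + E.card * (n - 2) := by
    have h1 : ∑ p ∈ V, 2 * M p ≤
        ∑ p ∈ V, (n + if Cfsg.HasNormalPComplement p G then (n - 2) else 0) := by
      apply Finset.sum_le_sum
      intro p hp
      by_cases hc : Cfsg.HasNormalPComplement p G
      · rw [if_pos hc]
        have := hup1 p hp
        omega
      · rw [if_neg hc]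
        have := hup2 p hp hc
        omega
    rw [Finset.sum_add_distrib, Finset.sum_const, smul_eq_mul, ← Finset.sum_filter,
      Finset.sum_const, smul_eq_mul] at h1
    exact h1
  rw [← Finset.mul_sum] at hup
  have hE2 : E.card * (n - 2) ≤ n - 2 := by
    calc E.card * (n - 2) ≤ 1 * (n - 2) := Nat.mul_le_mul_right _ hEcard
      _ = n - 2 := one_mul _
  have hfin : n * (2 * V.card) < n * (V.card + 1 + 2 * σ) := by
    have e1 : n * (2 * V.card) = 2 * (n * V.card) := by ring
    have e2 : n * (V.card + 1 + 2 * σ) = V.card * n + n + 2 * (n * σ) := by ring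
    rw [e1, e2]
    omega
  have := Nat.lt_of_mul_lt_mul_left hfin
  omega

end Cfsg.Agent.S4149
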