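import Cfsg.Statements.S4151
import Cfsg.Agent.Lib.Helper55.TIHall
import Cfsg.Agent.S4117
import Cfsg.Agent.Lib.Helper11.Basic2

set_option autoImplicit false
set_option linter.style.haveILetI false
open Cfsg

namespace Cfsg.Agent.S4151

open Subgroup Cfsg.Agent.Lib.Helper55.TIHall

/-- Let G be a finite group and H a non-normal subgroup meeting each of its conjugates by elements outside N_G(H) trivially, with the order of H coprime to its index in N_G(H), such that G is π-separable for π the set of primes dividing the order of H (G has a chain of normal subgroups from 1 to G each of whose factors has order divisible only by primes dividing the order of H or coprime to it). Suppose a Sylow 2-subgroup of H is abelian and Q is a complement of H in N_G(H). Then C_H(Q), the subgroup of elements of H commuting with Q, has order coprime to its index in G and has a normal complement in G. -/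
theorem result {G : Type*} [Group G] [Finite G] (H : Subgroup G)
    (hTI : Cfsg.IsTISubset (H : Set G)) (hnn : ¬ H.Normal)
    (hHall : (Nat.card H).Coprime (H.subgroupOf (Subgroup.normalizer (H : Set G))).index)
    (hsep : ∃ (n : ℕ) (M : Fin (n + 1) → Subgroup G), M 0 = ⊥ ∧ M (Fin.last n) = ⊤ ∧ Monotone M ∧ (∀ i, (M i).Normal) ∧
      ∀ i : Fin n, (∀ q : ℕ, q.Prime → q ∣ (M i.castSucc).relIndex (M i.succ) → q ∣ Nat.card H) ∨
        ((M i.castSucc).relIndex (M i.succ)).Coprime (Nat.card H))
    (h2 : ∀ P : Sylow 2 H, IsMulCommutative (P : Subgroup H))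
    (Q : Subgroup G) (hQ : Q ≤ Subgroup.normalizer (H : Set G)) (hQH : Q ⊓ H = ⊥) (hQH' : Q ⊔ H = Subgroup.normalizer (H : Set G)) :
    (Nat.card ↥(H ⊓ Subgroup.centralizer (Q : Set G))).Coprime (H ⊓ Subgroup.centralizer (Q : Set G)).index ∧
    ∃ N : Subgroup G, N.Normal ∧ N.IsComplement' (H ⊓ Subgroup.centralizer (Q : Set G)) := by
  classical
  set O := pPrimeCore (Nat.card H) G with hOdef
  haveI hOn : O.Normal := (Cfsg.Agent.Lib.Lead.pPrimeCore_mem (G := G) (Nat.card H)).1
  have hOc : (Nat.card O).Coprime (Nat.card H) :=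
    (Cfsg.Agent.Lib.Lead.pPrimeCore_mem (G := G) (Nat.card H)).2
  have hHG := coprime_index hTI hHall
  have htop := core_sup_normalizer hTI hnn hHall hsep
  -- all Sylow subgroups of `H` are cyclic
  have hcyc : ∀ (p : ℕ) [Fact p.Prime] (P : Sylow p H), IsCyclic (P : Subgroup H) := by
    intro p _ P
    rcases sylow_cyclic_or_quat hTI hnn hHall hsep p P with h | ⟨rfl, -⟩
    · exact h
    · have h1 : IsCyclic ((P : Subgroup H).map H.subtype : Subgroup G) := by
        apply isCyclic_of_abelian_le hTI hnn hHall hsep _ (map_subtype_le _)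
        rintro _ ⟨x, hx, rfl⟩ _ ⟨y, hy, rfl⟩
        have h3 := h2 P
        have := mul_comm' (⟨x, hx⟩ : (P : Subgroup H)) ⟨y, hy⟩
        have h4 : x * y = y * x := congrArg Subtype.val this
        exact congrArg Subtype.val h4
      let e := (P : Subgroup H).equivMapOfInjective H.subtype (Subgroup.subtype_injective _)
      exact isCyclic_of_injective e.toMonoidHom e.injective
  -- `|Q|` is prime to `|H|`
  have hcardN : Nat.card (normalizer (H : Set G)) = Nat.card Q * Nat.card H := by
    rw [← hQH']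
    exact Cfsg.Agent.Lib.Helper1.card_sup_of_disjoint hQ (disjoint_iff.2 hQH)
  have hidx : (H.subgroupOf (normalizer (H : Set G))).index = Nat.card Q := by
    have h1 := card_mul_index (H.subgroupOf (normalizer (H : Set G)))
    rw [Cfsg.Agent.Lib.Helper1.card_subgroupOf le_normalizer, hcardN, mul_comm] at h1
    exact Nat.eq_of_mul_eq_mul_right Nat.card_pos h1
  have hcopQ : (Nat.card Q).Coprime (Nat.card H) := by rw [← hidx]; exact hHall.symm
  -- the conjugation action of `Q` on `H`
  letI act : MulDistribMulAction Q H :=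
    { smul := fun q h => ⟨(q : G) * h * (q : G)⁻¹, (mem_normalizer_iff.1 (hQ q.2) h).1 h.2⟩
      one_smul := fun h => Subtype.ext (by
        change ((1 : Q) : G) * h * ((1 : Q) : G)⁻¹ = h
        simp)
      mul_smul := fun a b h => Subtype.ext (by
        change ((a * b : Q) : G) * h * ((a * b : Q) : G)⁻¹ = (a : G) * ((b : G) * h * (b : G)⁻¹) * (a : G)⁻¹
        simp [mul_assoc])
      smul_mul := fun a h k => Subtype.ext (by
        change (a : G) * ((h * k : H) : G) * (a : G)⁻¹
          = ((a : G) * h * (a : G)⁻¹) * ((a : G) * k * (a : G)⁻¹)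
        simp [mul_assoc])
      smul_one := fun a => Subtype.ext (by
        change (a : G) * ((1 : H) : G) * (a : G)⁻¹ = 1
        simp) }
  have hsmul : ∀ (q : Q) (h : H), ((q • h : H) : G) = (q : G) * h * (q : G)⁻¹ := fun q h => rfl
  obtain ⟨r1, -, r3, r4, r5⟩ := Cfsg.Agent.S4117.result (G := H) (A := Q) hcopQ hcyc
  set RH : Subgroup H := closure {y : H | ∃ (a : Q) (g : H), y = g⁻¹ * a • g} with hRH
  set C : Subgroup G := H ⊓ centralizer (Q : Set G) with hC
  have hCH : C ≤ H := inf_le_left
  have hF : (MulAction.fixedPoints Q H : Set H) = ((C.subgroupOf H : Subgroup H) : Set H) := by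
    ext h
    rw [MulAction.mem_fixedPoints, SetLike.mem_coe, mem_subgroupOf, hC, mem_inf,
      mem_centralizer_iff]
    constructor
    · intro hh
      refine ⟨h.2, fun q hq => ?_⟩
      have h1 := congrArg Subtype.val (hh ⟨q, hq⟩)
      rw [hsmul] at h1
      exact mul_inv_eq_iff_eq_mul.1 h1
    · rintro ⟨-, hh⟩ q
      apply Subtype.ext
      rw [hsmul, hh q q.2, mul_inv_cancel_right]
  rw [hF] at r1 r4 r5
  rw [closure_eq] at r5
  have hdisj : Disjoint (C.subgroupOf H) RH := by
    rw [disjoint_iff, eq_bot_iff]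
    intro x hx
    have h1 : x ∈ (RH : Set H) ∩ ((C.subgroupOf H : Subgroup H) : Set H) := ⟨hx.2, hx.1⟩
    rw [r4] at h1
    exact h1
  have hcardH : Nat.card H = Nat.card C * Nat.card RH := by
    have h1 := Cfsg.Agent.Lib.Helper1.card_sup_of_disjoint (H := C.subgroupOf H) (K := RH)
      (by rw [normalizer_eq_top]; exact le_top) hdisj
    rw [sup_comm, r5, card_top, Cfsg.Agent.Lib.Helper1.card_subgroupOf hCH] at h1
    exact h1
  have hcopCR : (Nat.card C).Coprime (Nat.card RH) := by
    have h1 : Nat.card ((C.subgroupOf H : Subgroup H) : Set H) = Nat.card C :=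
      Cfsg.Agent.Lib.Helper1.card_subgroupOf hCH
    rw [h1, hcardH, Nat.mul_div_cancel_left _ Nat.card_pos] at r1
    exact r1
  set R : Subgroup G := RH.map H.subtype with hR
  have hcardR : Nat.card R = Nat.card RH :=
    Nat.card_congr (RH.equivMapOfInjective _ (subtype_injective H)).symm.toEquiv
  have hCdvd : Nat.card C ∣ Nat.card H := card_dvd_of_le hCH
  refine ⟨?_, ?_⟩
  · rw [← relIndex_mul_index hCH]
    have h1 : C.relIndex H = Nat.card RH := by
      have h2 := Cfsg.Agent.Lib.Helper1.relIndex_mul_card hCH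
      rw [hcardH, mul_comm] at h2
      exact Nat.eq_of_mul_eq_mul_left Nat.card_pos h2
    rw [h1]
    exact Nat.Coprime.mul_right hcopCR (Nat.Coprime.of_dvd_left hCdvd hHG)
  -- `Q` normalizes `R`
  have hgen : ∀ (q : Q) (g : H), g⁻¹ * q • g ∈ RH := fun q g => subset_closure ⟨q, g, rfl⟩
  have hQR : Q ≤ normalizer (R : Set G) := by
    intro q hq
    apply Cfsg.Agent.Lib.Helper11.mem_normalizer_of_conj_mem
    rintro _ ⟨x, hx, rfl⟩
    have h1 : RH ≤ RH.comap (MulDistribMulAction.toMonoidHom H (⟨q, hq⟩ : Q)) := by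
      rw [hRH, closure_le]
      rintro _ ⟨a, g, rfl⟩
      rw [SetLike.mem_coe, mem_comap, MulDistribMulAction.toMonoidHom_apply, smul_mul', smul_inv',
        ← hRH]
      have h2 : (⟨q, hq⟩ : Q) • a • g
          = ((⟨q, hq⟩ : Q) * a * (⟨q, hq⟩ : Q)⁻¹) • ((⟨q, hq⟩ : Q) • g) := by
        rw [smul_smul, smul_smul, inv_mul_cancel_right]
      rw [h2]
      exact hgen _ _
    have h3 := h1 hx
    rw [mem_comap, MulDistribMulAction.toMonoidHom_apply] at h3
    exact ⟨_, h3, rfl⟩
  set N₁ : Subgroup G := (R ⊔ Q) ⊔ O with hN₁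
  have hRN : R ≤ N₁ := le_sup_left.trans le_sup_left
  have hQN : Q ≤ N₁ := le_sup_right.trans le_sup_left
  have hON : O ≤ N₁ := le_sup_right
  have hHnorm : H ≤ normalizer (N₁ : Set G) := by
    intro h hh
    apply Cfsg.Agent.Lib.Helper11.mem_normalizer_of_conj_mem
    have h1 : N₁ ≤ N₁.comap (MulAut.conj h).toMonoidHom := by
      refine sup_le (sup_le ?_ ?_) ?_
      · rintro _ ⟨x, hx, rfl⟩
        rw [mem_comap]
        apply hRN
        exact ⟨_, r3.conj_mem x hx ⟨h, hh⟩, rfl⟩
      · intro q hq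
        rw [mem_comap]
        change h * q * h⁻¹ ∈ N₁
        have h2 : h * q * h⁻¹ = (h * (q * h⁻¹ * q⁻¹)) * q := by group
        rw [h2]
        refine mul_mem (hRN ?_) (hQN hq)
        refine ⟨_, hgen ⟨q, hq⟩ ⟨h⁻¹, inv_mem hh⟩, ?_⟩
        change (h⁻¹)⁻¹ * (q * h⁻¹ * q⁻¹) = h * (q * h⁻¹ * q⁻¹)
        rw [inv_inv]
      · intro x hx
        rw [mem_comap]
        exact hON (hOn.conj_mem x hx h)
    intro a ha
    exact h1 ha
  have hN₁n : N₁.Normal := by
    rw [← normalizer_eq_top_iff, eq_top_iff, ← htop, ← hQH']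
    exact sup_le (hON.trans le_normalizer) (sup_le (hQN.trans le_normalizer) hHnorm)
  have hsup : N₁ ⊔ C = ⊤ := by
    have h1 : R ⊔ C = H := by
      have h2 := congrArg (Subgroup.map H.subtype) r5
      rw [Subgroup.map_sup, ← MonoidHom.range_eq_map, range_subtype, subgroupOf_map_subtype,
        inf_of_le_left hCH] at h2
      exact h2
    have h3 : H ≤ N₁ ⊔ C := h1.symm.le.trans (sup_le (hRN.trans le_sup_left) le_sup_right)
    rw [eq_top_iff, ← htop, ← hQH']
    exact sup_le (hON.trans le_sup_left) (sup_le (hQN.trans le_sup_left) h3)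
  have hcop : (Nat.card N₁).Coprime (Nat.card C) := by
    have h1 : Nat.card N₁ ∣ Nat.card (R ⊔ Q : Subgroup G) * Nat.card O :=
      Cfsg.Agent.Lib.Lead.card_sup_dvd _ _
    have h2 : Nat.card (R ⊔ Q : Subgroup G) ∣ Nat.card R * Nat.card Q :=
      Cfsg.Agent.Lib.Helper22.card_sup_dvd hQR
    refine Nat.Coprime.of_dvd_left h1 (Nat.Coprime.mul_left (Nat.Coprime.of_dvd_left h2
      (Nat.Coprime.mul_left ?_ ?_)) ?_)
    · rw [hcardR]; exact hcopCR.symm
    · exact Nat.Coprime.of_dvd_right hCdvd hcopQ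
    · exact Nat.Coprime.of_dvd_right hCdvd hOc
  refine ⟨N₁, hN₁n, isComplement'_of_disjoint_and_mul_eq_univ (disjoint_of_coprime_natCard hcop) ?_⟩
  rw [← normal_mul, hsup, coe_top]

end Cfsg.Agent.S4151
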