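import Cfsg.Statements.S4152
import Cfsg.Agent.Lib.Helper69.ClassSize
-- import your own Cfsg.Agent.* helpers here

set_option autoImplicit false
open Cfsg

namespace Cfsg.Agent.S4152

open Cfsg.Agent.Lib.Helper69 Subgroup

/-- `x` is a `π`-element -/
def IsPi (π : Set ℕ) {X : Type*} [Group X] (x : X) : Prop :=
  ∀ q : ℕ, q.Prime → q ∣ orderOf x → q ∈ π

theorem class_pred_iff (π : Set ℕ) {X : Type*} [Group X] (x : X) :
    (∀ q : ℕ, q.Prime → (∃ g : X, ConjClasses.mk g = ConjClasses.mk x ∧ q ∣ orderOf g) → q ∈ π)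
      ↔ IsPi π x := by
  constructor
  · intro h q hq hqx
    exact h q hq ⟨x, rfl, hqx⟩
  · rintro h q hq ⟨g, hg, hqg⟩
    apply h q hq
    rw [ConjClasses.mk_eq_mk_iff_isConj, isConj_iff] at hg
    obtain ⟨c, rfl⟩ := hg
    have : orderOf (c * g * c⁻¹) = orderOf g := (MulAut.conj c).orderOf_eq g
    rwa [this]

/-- generic fibre bound -/
theorem card_le_of_fiber {α β : Type*} [Finite α] [Finite β] (f : α → β) (n : ℕ)
    (h : ∀ b, Nat.card {a // f a = b} ≤ n) : Nat.card α ≤ Nat.card β * n := by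
  classical
  have := Fintype.ofFinite β
  rw [Nat.card_congr (Equiv.sigmaFiberEquiv f).symm, Nat.card_sigma]
  calc ∑ b, Nat.card {a // f a = b} ≤ ∑ _b : β, n := Finset.sum_le_sum (fun b _ => h b)
    _ = Nat.card β * n := by
      rw [Finset.sum_const, Finset.card_univ, smul_eq_mul, Nat.card_eq_fintype_card]

theorem card_eq_of_fiber {α β : Type*} [Finite α] [Finite β] (f : α → β) (n : ℕ)
    (h : ∀ b, Nat.card {a // f a = b} = n) : Nat.card α = Nat.card β * n := by
  classical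
  have := Fintype.ofFinite β
  rw [Nat.card_congr (Equiv.sigmaFiberEquiv f).symm, Nat.card_sigma]
  calc ∑ b, Nat.card {a // f a = b} = ∑ _b : β, n := Finset.sum_congr rfl (fun b _ => h b)
    _ = Nat.card β * n := by
      rw [Finset.sum_const, Finset.card_univ, smul_eq_mul, Nat.card_eq_fintype_card]

/-- generic comparison of pair counts -/
theorem card_pairs_le {α β γ : Type*} [Finite α] [Finite β] [Finite γ]
    (r : α → β → Prop) (r' : α → γ → Prop)
    (h : ∀ a, Nat.card {b // r a b} ≤ Nat.card {c // r' a c}) :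
    Nat.card {p : α × β // r p.1 p.2} ≤ Nat.card {p : α × γ // r' p.1 p.2} := by
  classical
  have := Fintype.ofFinite α
  rw [Nat.card_congr (Equiv.subtypeProdEquivSigmaSubtype r),
    Nat.card_congr (Equiv.subtypeProdEquivSigmaSubtype r'), Nat.card_sigma, Nat.card_sigma]
  exact Finset.sum_le_sum (fun a _ => h a)

/-- Burnside count of the classes of `π`-elements -/
theorem card_commuting_pairs (π : Set ℕ) (X : Type*) [Group X] [Finite X] :
    Nat.card {p : X × X // IsPi π p.1 ∧ p.1 * p.2 = p.2 * p.1} =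
      Nat.card {C : ConjClasses X // ∀ q : ℕ, q.Prime →
        (∃ g : X, ConjClasses.mk g = C ∧ q ∣ orderOf g) → q ∈ π} * Nat.card X := by
  classical
  apply card_eq_of_fiber (fun a => ⟨ConjClasses.mk a.1.1, (class_pred_iff π a.1.1).2 a.2.1⟩)
  rintro ⟨C, hC⟩
  have e : {a : {p : X × X // IsPi π p.1 ∧ p.1 * p.2 = p.2 * p.1} //
      (⟨ConjClasses.mk a.1.1, (class_pred_iff π a.1.1).2 a.2.1⟩ : {C : ConjClasses X // ∀ q : ℕ, q.Prime →
        (∃ g : X, ConjClasses.mk g = C ∧ q ∣ orderOf g) → q ∈ π}) = ⟨C, hC⟩} ≃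
      Σ x : {x : X // ConjClasses.mk x = C}, {g : X // x.1 * g = g * x.1} :=
    { toFun := fun a => ⟨⟨a.1.1.1, congrArg Subtype.val a.2⟩, ⟨a.1.1.2, a.1.2.2⟩⟩
      invFun := fun s => ⟨⟨(s.1.1, s.2.1), ⟨(class_pred_iff π s.1.1).1 (by rw [s.1.2]; exact hC), s.2.2⟩⟩,
        Subtype.ext s.1.2⟩
      left_inv := by rintro ⟨⟨⟨x, g⟩, h1, h2⟩, h3⟩; rfl
      right_inv := by rintro ⟨⟨x, hx⟩, ⟨g, hg⟩⟩; rfl }
  have := Fintype.ofFinite {x : X // ConjClasses.mk x = C}
  rw [Nat.card_congr e, Nat.card_sigma]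
  set m := Nat.card {x : X // ConjClasses.mk x = C} with hm
  have hterm : ∀ x : {x : X // ConjClasses.mk x = C},
      Nat.card {g : X // x.1 * g = g * x.1} * m = Nat.card X := by
    rintro ⟨x, hx⟩
    have h1 := (centralizer ({x} : Set X)).card_mul_index
    rw [index_centralizer_eq_card_carrier, hx] at h1
    rw [← h1]
    congr 1
    · apply Nat.card_congr
      apply Equiv.subtypeEquivRight
      intro g
      rw [mem_cent_singleton]
      exact eq_comm
    · apply Nat.card_congr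
      apply Equiv.subtypeEquivRight
      intro y
      rw [ConjClasses.mem_carrier_iff_mk_eq]
  have hmpos : 0 < m := by
    obtain ⟨x, hx⟩ := ConjClasses.exists_rep C
    have : Nonempty {x : X // ConjClasses.mk x = C} := ⟨⟨x, hx⟩⟩
    exact Nat.card_pos
  apply Nat.eq_of_mul_eq_mul_right hmpos
  rw [Finset.sum_mul, Finset.sum_congr rfl (fun x _ => hterm x), Finset.sum_const, Finset.card_univ,
    smul_eq_mul, ← Nat.card_eq_fintype_card, mul_comm]

/-- elements of a coset commuting with `g` -/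
theorem card_coset_commuting_le {G : Type*} [Group G] [Finite G] (N : Subgroup G) [N.Normal]
    (P : Prop) (g : G) (d : G ⧸ N) :
    Nat.card {h : G // P ∧ (h : G ⧸ N) = d ∧ g * h = h * g} ≤
      Nat.card {n : G // P ∧ n ∈ N ∧ g * n = n * g} := by
  by_cases hne : Nonempty {h : G // P ∧ (h : G ⧸ N) = d ∧ g * h = h * g}
  · obtain ⟨⟨h0, hP, h0d, h0g⟩⟩ := hne
    apply Nat.card_le_card_of_injective
      (fun h => (⟨h0⁻¹ * h.1, hP, by
        rw [← QuotientGroup.eq, h0d, h.2.2.1], by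
        have h1 := h.2.2.2
        have h2 : g * h0⁻¹ = h0⁻¹ * g := by
          calc g * h0⁻¹ = h0⁻¹ * (h0 * g) * h0⁻¹ := by group
            _ = h0⁻¹ * (g * h0) * h0⁻¹ := by rw [h0g]
            _ = _ := by group
        rw [← mul_assoc, h2, mul_assoc, h1, mul_assoc]⟩ : {n : G // P ∧ n ∈ N ∧ g * n = n * g}))
    intro a b hab
    have := congrArg Subtype.val hab
    simp only [mul_right_inj] at this
    exact Subtype.ext this
  · rw [not_nonempty_iff] at hne
    rw [Nat.card_of_isEmpty]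
    exact Nat.zero_le _


theorem pi_split (π : Set ℕ) (M : ℕ) (hM : M ≠ 0) :
    ∃ a b : ℕ, M = a * b ∧ a.Coprime b ∧ (∀ q : ℕ, q.Prime → q ∣ a → q ∈ π) ∧
      (∀ q : ℕ, q.Prime → q ∣ b → q ∉ π) := by
  induction M using Nat.strong_induction_on with
  | _ M ih =>
    by_cases h1 : M = 1
    · exact ⟨1, 1, by simp [h1], by simp, fun q hq h => absurd (Nat.dvd_one.1 h) hq.ne_one,
        fun q hq h => absurd (Nat.dvd_one.1 h) hq.ne_one⟩
    · obtain ⟨p, hp, hpM⟩ := Nat.exists_prime_and_dvd h1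
      obtain ⟨k, M', hM', rfl⟩ := Nat.exists_eq_pow_mul_and_not_dvd hM p hp.ne_one
      have hk : k ≠ 0 := by
        rintro rfl
        rw [pow_zero, one_mul] at hpM
        exact hM' hpM
      have hM'0 : M' ≠ 0 := by
        rintro rfl
        exact hM' (dvd_zero p)
      have hlt : M' < p ^ k * M' := by
        have h2 : 1 < p ^ k := Nat.one_lt_pow hk hp.one_lt
        nlinarith [Nat.pos_of_ne_zero hM'0]
      obtain ⟨a, b, hab, hcop, ha, hb⟩ := ih M' hlt hM'0
      have hpa : ¬ p ∣ a := fun h => hM' (hab ▸ h.mul_right b)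
      have hpb : ¬ p ∣ b := fun h => hM' (hab ▸ h.mul_left a)
      by_cases hpπ : p ∈ π
      · refine ⟨p ^ k * a, b, by rw [hab]; ring, ?_, ?_, hb⟩
        · exact Nat.Coprime.mul_left (Nat.Coprime.pow_left k ((Nat.Prime.coprime_iff_not_dvd hp).2 hpb)) hcop
        · intro q hq hqd
          rcases (Nat.Prime.dvd_mul hq).1 hqd with h | h
          · have := (Nat.prime_dvd_prime_iff_eq hq hp).1 (hq.dvd_of_dvd_pow h)
            rw [this]; exact hpπ
          · exact ha q hq h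
      · refine ⟨a, p ^ k * b, by rw [hab]; ring, ?_, ha, ?_⟩
        · exact Nat.Coprime.mul_right (Nat.Coprime.pow_right k
            (Nat.Coprime.symm ((Nat.Prime.coprime_iff_not_dvd hp).2 hpa))) hcop
        · intro q hq hqd
          rcases (Nat.Prime.dvd_mul hq).1 hqd with h | h
          · have := (Nat.prime_dvd_prime_iff_eq hq hp).1 (hq.dvd_of_dvd_pow h)
            rw [this]; exact hpπ
          · exact hb q hq h

theorem card_A_le_B {G : Type*} [Group G] [Finite G] (N : Subgroup G) [N.Normal] (π : Set ℕ)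
    (c : G ⧸ N) :
    Nat.card {p : G × G // (IsPi π p.1 ∧ (p.1 : G ⧸ N) = c) ∧ p.2 ∈ N ∧ p.1 * p.2 = p.2 * p.1} ≤
    Nat.card {p : G × G // (p.1 ∈ N ∧ IsPi π p.1) ∧ (p.2 : G ⧸ N) = c ∧ p.1 * p.2 = p.2 * p.1} := by
  obtain ⟨a, b, hab, hcop, ha, hb⟩ := pi_split π (Nat.card G) Nat.card_pos.ne'
  have hpow : ∀ g : G, g ^ (a * b) = 1 := fun g => by rw [← hab]; exact pow_card_eq_one'
  have hpi1 : ∀ y : G, IsPi π y → y ^ a = 1 := by
    intro y hy
    apply orderOf_dvd_iff_pow_eq_one.1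
    have h1 : orderOf y ∣ a * b := orderOf_dvd_of_pow_eq_one (hpow y)
    apply Nat.Coprime.dvd_of_dvd_mul_right _ h1
    apply Nat.Coprime.symm
    apply Nat.coprime_of_dvd
    intro q hq hqb hqy
    exact hb q hq hqb (hy q hq hqy)
  have hpi2 : ∀ u : G, u ^ a = 1 → IsPi π u := by
    intro u hu q hq hqu
    exact ha q hq (hqu.trans (orderOf_dvd_of_pow_eq_one hu))
  set s := Nat.gcdA a b with hs
  set t := Nat.gcdB a b with ht
  have hst : (a : ℤ) * s + b * t = 1 := by
    have := Nat.gcd_eq_gcd_ab a b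
    rw [hcop.gcd_eq_one] at this
    rw [← this]; rfl
  set e1 : ℤ := b * t with he1
  set e2 : ℤ := a * s with he2
  have h12 : ∀ g : G, (g ^ e2) ^ e1 = 1 := by
    intro g
    rw [← zpow_mul, he1, he2]
    have : (a : ℤ) * s * (b * t) = ((a * b : ℕ) : ℤ) * (s * t) := by push_cast; ring
    rw [this, zpow_mul, zpow_natCast, hpow, one_zpow]
  have h1a : ∀ g : G, (g ^ e1) ^ a = 1 := by
    intro g
    rw [← zpow_natCast, ← zpow_mul, he1]
    have : (b : ℤ) * t * a = ((a * b : ℕ) : ℤ) * t := by push_cast; ring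
    rw [this, zpow_mul, zpow_natCast, hpow, one_zpow]
  have hsum : ∀ g : G, g ^ e2 * g ^ e1 = g := by
    intro g
    rw [← zpow_add, hst, zpow_one]
  have hy1 : ∀ y : G, y ^ a = 1 → y ^ e1 = y := by
    intro y hy
    have h2 : y ^ e2 = 1 := by rw [he2, zpow_mul, zpow_natCast, hy, one_zpow]
    have := hsum y
    rwa [h2, one_mul] at this
  have hrec : ∀ y n : G, y ^ a = 1 → y * n = n * y → (y * n ^ e2) ^ e1 = y := by
    intro y n hy hyn
    have hc : Commute y n := hyn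
    rw [(hc.zpow_right e2).mul_zpow, h12, mul_one, hy1 y hy]
  apply Nat.card_le_card_of_injective
    (fun p => (⟨(p.1.2 ^ e1, p.1.1 * p.1.2 ^ e2), ⟨N.zpow_mem p.2.2.1 e1, hpi2 _ (h1a _)⟩, by
        show ((p.1.1 * p.1.2 ^ e2 : G) : G ⧸ N) = c
        rw [QuotientGroup.mk_mul, (QuotientGroup.eq_one_iff _).2 (N.zpow_mem p.2.2.1 e2), mul_one]
        exact p.2.1.2, by
        have hc : Commute p.1.1 p.1.2 := p.2.2.2
        exact Commute.mul_right (hc.zpow_right e1).symm ((Commute.refl p.1.2).zpow_zpow e1 e2)⟩ :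
      {p : G × G // (p.1 ∈ N ∧ IsPi π p.1) ∧ (p.2 : G ⧸ N) = c ∧ p.1 * p.2 = p.2 * p.1}))
  rintro ⟨⟨y, n⟩, ⟨hy, hyc⟩, hn, hyn⟩ ⟨⟨y', n'⟩, ⟨hy', hyc'⟩, hn', hyn'⟩ heq
  have heq' := congrArg Subtype.val heq
  simp only [Prod.mk.injEq] at heq'
  obtain ⟨h1, h2⟩ := heq'
  have hyy : y = y' := by
    rw [← hrec y n (hpi1 y hy) hyn, ← hrec y' n' (hpi1 y' hy') hyn', h2]
  subst hyy
  have h3 : n ^ e2 = n' ^ e2 := mul_left_cancel h2
  have hnn : n = n' := by
    rw [← hsum n, ← hsum n', h1, h3]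
  subst hnn
  rfl

/-- Let G be a finite group, N a normal subgroup and π a set of primes. Then the number of conjugacy classes of π-elements of G (elements whose order is divisible only by primes in π) is at most the number of conjugacy classes of π-elements of N (under conjugation by N) times the number of conjugacy classes of π-elements of G/N. -/
theorem result {G : Type*} [Group G] [Finite G] (N : Subgroup G) [N.Normal] (π : Set ℕ) :
    Nat.card {C : ConjClasses G // ∀ q : ℕ, q.Prime → (∃ g : G, ConjClasses.mk g = C ∧ q ∣ orderOf g) → q ∈ π} ≤ Nat.card {C : ConjClasses N // ∀ q : ℕ, q.Prime → (∃ g : N, ConjClasses.mk g = C ∧ q ∣ orderOf g) → q ∈ π} * Nat.card {C : ConjClasses (G ⧸ N) // ∀ q : ℕ, q.Prime → (∃ g : (G ⧸ N), ConjClasses.mk g = C ∧ q ∣ orderOf g) → q ∈ π} := by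
  have hG := card_commuting_pairs π G
  have hN := card_commuting_pairs π N
  have hQ := card_commuting_pairs π (G ⧸ N)
  have key : Nat.card {p : G × G // IsPi π p.1 ∧ p.1 * p.2 = p.2 * p.1} ≤
      Nat.card {p : (G ⧸ N) × (G ⧸ N) // IsPi π p.1 ∧ p.1 * p.2 = p.2 * p.1} *
        Nat.card {p : N × N // IsPi π p.1 ∧ p.1 * p.2 = p.2 * p.1} := by
    apply card_le_of_fiber (fun a => (⟨((a.1.1 : G ⧸ N), (a.1.2 : G ⧸ N)), by
        intro q hq hqd
        exact a.2.1 q hq (hqd.trans (orderOf_map_dvd (QuotientGroup.mk' N) a.1.1)), by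
        show ((a.1.1 : G ⧸ N)) * (a.1.2 : G ⧸ N) = (a.1.2 : G ⧸ N) * (a.1.1 : G ⧸ N)
        rw [← QuotientGroup.mk_mul, ← QuotientGroup.mk_mul, a.2.2]⟩ :
        {p : (G ⧸ N) × (G ⧸ N) // IsPi π p.1 ∧ p.1 * p.2 = p.2 * p.1}))
    rintro ⟨⟨c, d⟩, hc, hcd⟩
    refine le_trans ?_ (le_trans (card_pairs_le
      (fun g h : G => (IsPi π g ∧ (g : G ⧸ N) = c) ∧ (h : G ⧸ N) = d ∧ g * h = h * g)
      (fun g n : G => (IsPi π g ∧ (g : G ⧸ N) = c) ∧ n ∈ N ∧ g * n = n * g)
      (fun g => card_coset_commuting_le N _ g d)) (le_trans (card_A_le_B N π c) (le_trans (card_pairs_le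
      (fun u w : G => (u ∈ N ∧ IsPi π u) ∧ (w : G ⧸ N) = c ∧ u * w = w * u)
      (fun u n : G => (u ∈ N ∧ IsPi π u) ∧ n ∈ N ∧ u * n = n * u)
      (fun u => card_coset_commuting_le N _ u c)) ?_)))
    · apply Nat.card_le_card_of_injective (fun a => (⟨a.1.1, ⟨a.1.2.1,
        congrArg (fun z => z.1.1) a.2⟩, congrArg (fun z => z.1.2) a.2, a.1.2.2⟩ :
        {p : G × G // (IsPi π p.1 ∧ (p.1 : G ⧸ N) = c) ∧ (p.2 : G ⧸ N) = d ∧ p.1 * p.2 = p.2 * p.1}))
      intro x y hxy
      have h1 : x.1.1 = y.1.1 := congrArg (fun z => z.1) hxy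
      exact Subtype.ext (Subtype.ext h1)
    · apply Nat.card_le_card_of_injective (fun a => (⟨(⟨a.1.1, a.2.1.1⟩, ⟨a.1.2, a.2.2.1⟩), by
          intro q hq hqd
          apply a.2.1.2 q hq
          rwa [Subgroup.orderOf_mk] at hqd, Subtype.ext a.2.2.2⟩ :
        {p : N × N // IsPi π p.1 ∧ p.1 * p.2 = p.2 * p.1}))
      intro x y hxy
      have h1 := congrArg (fun z => (z.1.1 : G)) hxy
      have h2 := congrArg (fun z => (z.1.2 : G)) hxy
      exact Subtype.ext (Prod.ext h1 h2)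
  rw [hG, hN, hQ] at key
  have hidx : Nat.card N * Nat.card (G ⧸ N) = Nat.card G := N.card_mul_index
  have hpos : 0 < Nat.card G := Nat.card_pos
  apply Nat.le_of_mul_le_mul_right _ hpos
  calc _ ≤ _ := key
    _ = _ := by rw [← hidx]; ring

end Cfsg.Agent.S4152
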