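import Cfsg.Statements.S4153
import Cfsg.Agent.Lib.Helper69.SylowCent

set_option autoImplicit false
open Cfsg

namespace Cfsg.Agent.S4153

open Cfsg.Agent.Lib.Helper69 Subgroup

/-- Let G be a finite group, p a prime, N a normal subgroup, P a Sylow p-subgroup of G and P̄ a Sylow p-subgroup of G/N. Count the elements of p-power order, the identity included. Then (number of such elements of G/N)/#P̄ ≤ (number of such elements of G)/#P, stated as a cross-multiplied inequality, with equality when N is central. -/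
theorem result {G : Type*} [Group G] [Finite G] (p : ℕ) [Fact p.Prime] (N : Subgroup G) [N.Normal]
    (P : Sylow p G) (Pbar : Sylow p (G ⧸ N)) :
    Nat.card {g : (G ⧸ N) // ∃ k : ℕ, orderOf g = p ^ k} * Nat.card (P : Subgroup G) ≤ Nat.card {g : G // ∃ k : ℕ, orderOf g = p ^ k} * Nat.card (Pbar : Subgroup (G ⧸ N)) ∧
    (N ≤ Subgroup.center G → Nat.card {g : (G ⧸ N) // ∃ k : ℕ, orderOf g = p ^ k} * Nat.card (P : Subgroup G) = Nat.card {g : G // ∃ k : ℕ, orderOf g = p ^ k} * Nat.card (Pbar : Subgroup (G ⧸ N))) := by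
  classical
  have hp : p.Prime := Fact.out
  set f := QuotientGroup.mk' N with hf
  have hfs : Function.Surjective f := QuotientGroup.mk'_surjective N
  -- cardinalities
  have hc1 : Nat.card (N.subgroupOf P) * Nat.card ((P : Subgroup G).map f) = Nat.card (P : Subgroup G) := by
    have h1 := (N.subgroupOf P).card_mul_index
    have h2 : (N.subgroupOf P).index = Nat.card ((P : Subgroup G).map f) := by
      have := relIndex_ker (K := (P : Subgroup G)) f
      rw [hf, QuotientGroup.ker_mk'] at this
      exact this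
    rw [h2] at h1
    exact h1
  have hc2 : Nat.card ((P : Subgroup G).map f) = Nat.card (Pbar : Subgroup (G ⧸ N)) := by
    have h1 := (P.mapSurjective hfs).card_eq_multiplicity
    have h2 := Pbar.card_eq_multiplicity
    rw [h2, ← h1]
    rfl
  -- choice of representatives
  have hex : ∀ gb : {g : (G ⧸ N) // ∃ k : ℕ, orderOf g = p ^ k},
      ∃ x s : G, s ∈ P ∧ f (x⁻¹ * s * x) = gb.1 := by
    rintro ⟨gb, k, hk⟩
    obtain ⟨c, -, hc⟩ := exists_conj_mem_sylow_of_le ⊤ (P.mapSurjective hfs) le_top gb (mem_top _)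
      ⟨k, by rw [← hk]; exact pow_orderOf_eq_one gb⟩
    obtain ⟨s, hs, hsc⟩ : c * gb * c⁻¹ ∈ (P : Subgroup G).map f := hc
    obtain ⟨x, rfl⟩ := hfs c
    refine ⟨x, s, hs, ?_⟩
    rw [map_mul, map_mul, map_inv, hsc]
    group
  choose X S hS hXS using hex
  have hpel : ∀ (x y : G), y ∈ P → ∃ k : ℕ, orderOf (x⁻¹ * y * x) = p ^ k := by
    intro x y hy
    obtain ⟨k, hk⟩ := (IsPGroup.iff_orderOf.1 P.2) ⟨y, hy⟩
    refine ⟨k, ?_⟩
    rw [← hk, Subgroup.orderOf_mk]
    have := (MulAut.conj x⁻¹).orderOf_eq y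
    simpa using this
  let Φ : {g : (G ⧸ N) // ∃ k : ℕ, orderOf g = p ^ k} × (N.subgroupOf P) →
      {g : G // ∃ k : ℕ, orderOf g = p ^ k} :=
    fun gn => ⟨(X gn.1)⁻¹ * (S gn.1 * ((gn.2 : P) : G)) * X gn.1,
      hpel _ _ (mul_mem (hS gn.1) (gn.2 : P).2)⟩
  have hΦf : ∀ gn, f (Φ gn).1 = gn.1.1 := by
    intro gn
    have hn : ((gn.2 : P) : G) ∈ N := gn.2.2
    have h1 : f ((gn.2 : P) : G) = 1 := (QuotientGroup.eq_one_iff _).2 hn
    rw [← hXS gn.1]
    simp only [Φ, map_mul, map_inv, h1, mul_one]
  have hΦinj : Function.Injective Φ := by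
    rintro ⟨g1, n1⟩ ⟨g2, n2⟩ h
    have e1 : g1 = g2 := by
      apply Subtype.ext
      rw [← hΦf (g1, n1), ← hΦf (g2, n2), h]
    subst e1
    have e2 := congrArg Subtype.val h
    simp only [Φ] at e2
    have e3 : ((n1 : P) : G) = ((n2 : P) : G) := by
      have := mul_left_cancel (mul_right_cancel e2)
      exact mul_left_cancel this
    have e4 : n1 = n2 := Subtype.ext (Subtype.ext e3)
    rw [e4]
  have hle := Nat.card_le_card_of_injective Φ hΦinj
  rw [Nat.card_prod] at hle
  constructor
  · rw [← hc1, ← hc2]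
    calc _ = (Nat.card {g : (G ⧸ N) // ∃ k : ℕ, orderOf g = p ^ k} * Nat.card (N.subgroupOf P)) *
          Nat.card ((P : Subgroup G).map f) := by ring
      _ ≤ _ := Nat.mul_le_mul_right _ hle
  · intro hcen
    have hΦsurj : Function.Surjective Φ := by
      rintro ⟨g, k, hk⟩
      have hgb : ∃ k : ℕ, orderOf (f g) = p ^ k := by
        have : orderOf (f g) ∣ p ^ k := hk ▸ orderOf_map_dvd f g
        obtain ⟨j, -, hj⟩ := (Nat.dvd_prime_pow hp).1 this
        exact ⟨j, hj⟩
      set gb : {g : (G ⧸ N) // ∃ k : ℕ, orderOf g = p ^ k} := ⟨f g, hgb⟩ with hgbdef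
      set y := (X gb)⁻¹ * S gb * X gb with hy
      have hfy : f y = f g := hXS gb
      set z := y⁻¹ * g with hz
      have hzN : z ∈ N := by
        rw [hz, ← QuotientGroup.eq]
        exact hfy
      have hzc : z ∈ center G := hcen hzN
      have hgy : g = y * z := by rw [hz]; group
      -- `z` is a `p`-element
      obtain ⟨j, hj⟩ := hpel (X gb) (S gb) (hS gb)
      have hzp : z ^ (p ^ (j + k)) = 1 := by
        have hcomm : Commute y⁻¹ g := by
          rw [hgy]
          have h1 : Commute y z := mem_center_iff.1 hzc y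
          exact (Commute.mul_right (Commute.refl y) h1).inv_left
        rw [hz, hcomm.mul_pow, inv_pow]
        have h1 : y ^ (p ^ (j + k)) = 1 := by
          rw [pow_add, pow_mul, ← hj, pow_orderOf_eq_one, one_pow]
        have h2 : g ^ (p ^ (j + k)) = 1 := by
          rw [pow_add, mul_comm, pow_mul, ← hk, pow_orderOf_eq_one, one_pow]
        rw [h1, h2]; simp
      have hzP : z ∈ P := by
        have hnorm : (zpowers z).Normal := by
          constructor
          intro n hn c
          obtain ⟨i, rfl⟩ := mem_zpowers_iff.1 hn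
          have hcomm : Commute c z := mem_center_iff.1 hzc c
          have : c * z ^ i * c⁻¹ = z ^ i := by
            rw [(hcomm.zpow_right i).eq]; group
          rw [this]; exact hn
        have hzg : IsPGroup p (zpowers z) := by
          apply IsPGroup.of_card_dvd_pow (n := j + k)
          rw [Nat.card_zpowers]
          exact orderOf_dvd_of_pow_eq_one hzp
        exact hzg.le_sylow_of_normal P (mem_zpowers z)
      refine ⟨(gb, ⟨⟨z, hzP⟩, hzN⟩), ?_⟩
      apply Subtype.ext
      show (X gb)⁻¹ * (S gb * z) * X gb = g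
      have hcomm : z * X gb = X gb * z := (mem_center_iff.1 hzc (X gb)).symm
      calc (X gb)⁻¹ * (S gb * z) * X gb = (X gb)⁻¹ * S gb * (z * X gb) := by group
        _ = (X gb)⁻¹ * S gb * (X gb * z) := by rw [hcomm]
        _ = y * z := by rw [hy]; group
        _ = g := hgy.symm
    have hge := Nat.card_le_card_of_surjective Φ hΦsurj
    rw [Nat.card_prod] at hge
    have heq := le_antisymm hle hge
    rw [← hc1, ← hc2, ← heq]
    ring

end Cfsg.Agent.S4153
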