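import Cfsg.Statements.S4154
-- import your own Cfsg.Agent.* helpers here

set_option autoImplicit false
open Cfsg

namespace Cfsg.Agent.S4154

/-- fibres of `g ↦ g⁻¹ β g` are cosets of the fixed subgroup -/
theorem card_range_mul_card_fixed_le {Q : Type*} [Group Q] [Finite Q] (β : Q →* Q)
    (F : Subgroup Q) (hF : ∀ q, q ∈ F ↔ β q = q) :
    Nat.card (Set.range (fun g : Q => g⁻¹ * β g)) * Nat.card F ≤ Nat.card Q := by
  classical
  rw [← Nat.card_prod]
  refine Nat.card_le_card_of_injective
    (fun kf : (Set.range (fun g : Q => g⁻¹ * β g)) × F => (kf.2 : Q) * kf.1.2.choose) ?_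
  rintro ⟨k, f⟩ ⟨k', f'⟩ h
  simp only at h
  have hk := k.2.choose_spec
  have hk' := k'.2.choose_spec
  simp only at hk hk'
  have hf : β f = f := (hF _).1 f.2
  have hf' : β f' = f' := (hF _).1 f'.2
  have key : ∀ (f : Q) (s : Q), β f = f → (f * s)⁻¹ * β (f * s) = s⁻¹ * β s := by
    intro f s hfs
    rw [map_mul, hfs]; group
  have e1 : (k : Q) = k' := by
    calc (k : Q) = _ := hk.symm
      _ = _ := (key f _ hf).symm
      _ = _ := by rw [h]
      _ = _ := key f' _ hf'
      _ = k' := hk'
  have e2 : k = k' := Subtype.ext e1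
  subst e2
  have e3 : (f : Q) = f' := mul_right_cancel h
  have e4 : f = f' := Subtype.ext e3
  rw [e4]

/-- Let G be a finite group and α an automorphism of G such that every element of G is the product of an element fixed by α and an element of the form g⁻¹α(g). If N is a normal α-invariant subgroup, then the automorphism ᾱ induced on G/N has the same property, and every coset fixed by ᾱ contains an element fixed by α (so the fixed points of ᾱ are the images of the fixed points of α). -/
theorem result {G : Type*} [Group G] [Finite G] (α : MulAut G)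
    (hccp : ∀ x : G, ∃ c g : G, α c = c ∧ x = c * (g⁻¹ * α g))
    (N : Subgroup G) [N.Normal] (hN : ∀ n ∈ N, α n ∈ N) :
    (∀ x : G, ∃ c g : G, c⁻¹ * α c ∈ N ∧ x⁻¹ * (c * (g⁻¹ * α g)) ∈ N) ∧
    (∀ x : G, x⁻¹ * α x ∈ N → ∃ c : G, α c = c ∧ c⁻¹ * x ∈ N) := by
  classical
  constructor
  · intro x
    obtain ⟨c, g, hc, hx⟩ := hccp x
    refine ⟨c, g, ?_, ?_⟩
    · rw [hc]; simp
    · rw [← hx]; simp
  · -- the induced endomorphism on the quotient
    have hN' : N ≤ N.comap (α.toMonoidHom) := fun n hn => hN n hn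
    let β : (G ⧸ N) →* (G ⧸ N) := QuotientGroup.map N N α.toMonoidHom hN'
    have hβ : ∀ g : G, β (g : G ⧸ N) = ((α g : G) : G ⧸ N) := fun g => rfl
    let F : Subgroup (G ⧸ N) :=
      { carrier := {q | β q = q}
        mul_mem' := by
          intro a b ha hb
          simp only [Set.mem_ofPred_eq] at *
          rw [map_mul, ha, hb]
        one_mem' := by simp
        inv_mem' := by
          intro a ha
          simp only [Set.mem_ofPred_eq] at *
          rw [map_inv, ha] }
    have hF : ∀ q, q ∈ F ↔ β q = q := fun q => Iff.rfl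
    let C : Subgroup G :=
      { carrier := {g | α g = g}
        mul_mem' := by
          intro a b ha hb
          simp only [Set.mem_ofPred_eq] at *
          rw [map_mul, ha, hb]
        one_mem' := by simp
        inv_mem' := by
          intro a ha
          simp only [Set.mem_ofPred_eq] at *
          rw [map_inv, ha] }
    let Cb : Subgroup (G ⧸ N) := C.map (QuotientGroup.mk' N)
    have hCF : Cb ≤ F := by
      rintro _ ⟨c, hc, rfl⟩
      have hc' : α c = c := hc
      show β _ = _
      simp only [QuotientGroup.mk'_apply]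
      rw [hβ, hc']
    have h1 := card_range_mul_card_fixed_le β F hF
    have h2 : Nat.card (G ⧸ N) ≤ Nat.card Cb * Nat.card (Set.range (fun g : G ⧸ N => g⁻¹ * β g)) := by
      rw [← Nat.card_prod]
      refine Nat.card_le_card_of_surjective
        (fun ck : Cb × (Set.range (fun g : G ⧸ N => g⁻¹ * β g)) => (ck.1 : G ⧸ N) * ck.2) ?_
      intro q
      obtain ⟨x, rfl⟩ := QuotientGroup.mk_surjective q
      obtain ⟨c, g, hc, hx⟩ := hccp x
      refine ⟨⟨⟨(c : G ⧸ N), ⟨c, hc, rfl⟩⟩, ⟨((g⁻¹ * α g : G) : G ⧸ N), ⟨(g : G ⧸ N), ?_⟩⟩⟩, ?_⟩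
      · simp only [hβ]; rfl
      · simp only
        conv_rhs => rw [hx]
        rfl
    have hpos : 0 < Nat.card (Set.range (fun g : G ⧸ N => g⁻¹ * β g)) := by
      have : Nonempty (Set.range (fun g : G ⧸ N => g⁻¹ * β g)) := ⟨⟨_, ⟨1, rfl⟩⟩⟩
      exact Nat.card_pos
    have h3 : Nat.card F ≤ Nat.card Cb := by
      have : Nat.card (Set.range (fun g : G ⧸ N => g⁻¹ * β g)) * Nat.card F ≤
          Nat.card (Set.range (fun g : G ⧸ N => g⁻¹ * β g)) * Nat.card Cb := by
        calc _ ≤ Nat.card (G ⧸ N) := h1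
          _ ≤ _ := by rw [mul_comm]; exact h2
      exact Nat.le_of_mul_le_mul_left this hpos
    have h4 : Cb = F := Subgroup.eq_of_le_of_card_ge hCF h3
    intro x hx
    have hxF : (x : G ⧸ N) ∈ F := by
      show β _ = _
      rw [hβ]
      exact ((QuotientGroup.eq).2 hx).symm
    rw [← h4] at hxF
    obtain ⟨c, hc, hcx⟩ := hxF
    refine ⟨c, hc, ?_⟩
    exact (QuotientGroup.eq).1 hcx

end Cfsg.Agent.S4154
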