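import Cfsg.Statements.S4155
import Cfsg.Agent.S0016
import Cfsg.Agent.Lib.Lead.CosetSum
import Cfsg.Agent.Lib.Helper91.Fitting
import Cfsg.Agent.Lib.Helper1.Nilpotent
import Cfsg.Agent.Lib.Helper69.SylowCent
-- import your own Cfsg.Agent.* helpers here

set_option autoImplicit false
open Cfsg

namespace Cfsg.Agent.S4155

open Cfsg.Agent.Lib.Helper69 Subgroup

/-- the hypothesis of an equal order pair -/
def EqOrd {G : Type*} [Group G] (N : Subgroup G) : Prop :=
  ∀ x : G, x ∉ N → ∀ n ∈ N, orderOf (x * n) = orderOf x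

theorem EqOrd.eq_one {G : Type*} [Group G] [Finite G] {N : Subgroup G} (h : EqOrd N) {x n : G}
    (hx : x ∉ N) (hn : n ∈ N) (hc : Commute x n) (hcop : (orderOf x).Coprime (orderOf n)) : n = 1 := by
  have h1 := h x hx n hn
  rw [hc.orderOf_mul_eq_mul_orderOf_of_coprime hcop] at h1
  have h2 : 0 < orderOf x := orderOf_pos x
  have h3 : orderOf n = 1 := by
    have : orderOf x * orderOf n = orderOf x * 1 := by rw [h1, mul_one]
    exact Nat.eq_of_mul_eq_mul_left h2 this
  exact orderOf_eq_one_iff.1 h3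

/-- an element outside `N` with `q`-th power in `N` has no fixed points of order prime to `q` -/
theorem EqOrd.eq_one' {G : Type*} [Group G] [Finite G] {N : Subgroup G} [N.Normal] (h : EqOrd N)
    {q : ℕ} [Fact q.Prime] {e v : G} (he : e ∉ N) (heq : e ^ q ∈ N) (hv : v ∈ N) (hc : Commute e v)
    (hcop : (orderOf v).Coprime q) : v = 1 := by
  have hq : q.Prime := Fact.out
  obtain ⟨i, j, hij, ⟨k, hk⟩, hj⟩ := exists_p_decomp q e
  have hjN : e ^ j ∈ N := by
    rw [← QuotientGroup.eq_one_iff, ← orderOf_eq_one_iff]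
    have h1 : orderOf ((e ^ j : G) : G ⧸ N) ∣ orderOf (e ^ j) :=
      orderOf_map_dvd (QuotientGroup.mk' N) _
    have h2 : orderOf ((e ^ j : G) : G ⧸ N) ∣ q := by
      apply orderOf_dvd_of_pow_eq_one
      rw [← QuotientGroup.mk_pow, ← pow_mul, mul_comm, pow_mul, QuotientGroup.mk_pow,
        (QuotientGroup.eq_one_iff _).2 heq, one_pow]
    rcases (Nat.dvd_prime hq).1 h2 with h3 | h3
    · exact h3
    · exact absurd (h3 ▸ h1) hj
  have hiN : e ^ i ∉ N := by
    intro hi
    apply he
    rw [← hij]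
    exact N.mul_mem hi hjN
  apply h.eq_one hiN hv (hc.pow_left i)
  exact Nat.Coprime.of_dvd_left (orderOf_dvd_of_pow_eq_one hk) (Nat.Coprime.pow_left _ hcop.symm)

/-- the `r`-part of the centre of `N` -/
def zr {G : Type*} [Group G] (N : Subgroup G) (r : ℕ) : Subgroup G where
  carrier := {v | v ∈ N ∧ (∀ n ∈ N, n * v = v * n) ∧ ∃ k : ℕ, v ^ (r ^ k) = 1}
  one_mem' := ⟨N.one_mem, fun n _ => by simp, 0, by simp⟩
  mul_mem' := by
    rintro v w ⟨hv, hvc, k, hk⟩ ⟨hw, hwc, l, hl⟩
    refine ⟨N.mul_mem hv hw, fun n hn => ?_, k + l, ?_⟩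
    · rw [← mul_assoc, hvc n hn, mul_assoc, hwc n hn, mul_assoc]
    · have hc : Commute v w := (hwc v hv)
      rw [hc.mul_pow, pow_add, pow_mul, hk, one_pow, mul_comm (r ^ k), pow_mul, hl, one_pow, one_mul]
  inv_mem' := by
    rintro v ⟨hv, hvc, k, hk⟩
    refine ⟨N.inv_mem hv, fun n hn => ?_, k, by rw [inv_pow, hk, inv_one]⟩
    have := hvc n hn
    rw [eq_inv_mul_iff_mul_eq, ← mul_assoc, ← this, mul_inv_cancel_right]

theorem mem_zr {G : Type*} [Group G] {N : Subgroup G} {r : ℕ} {v : G} :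
    v ∈ zr N r ↔ v ∈ N ∧ (∀ n ∈ N, n * v = v * n) ∧ ∃ k : ℕ, v ^ (r ^ k) = 1 := Iff.rfl

instance zr_normal {G : Type*} [Group G] (N : Subgroup G) [hN : N.Normal] (r : ℕ) : (zr N r).Normal := by
  constructor
  rintro v ⟨hv, hvc, k, hk⟩ g
  refine ⟨hN.conj_mem v hv g, fun n hn => ?_, k, by rw [conj_pow, hk, mul_one, mul_inv_cancel]⟩
  have h1 : g⁻¹ * n * g ∈ N := by simpa using hN.conj_mem n hn g⁻¹
  have h2 := hvc _ h1
  calc n * (g * v * g⁻¹) = g * (g⁻¹ * n * g * v) * g⁻¹ := by group
    _ = g * (v * (g⁻¹ * n * g)) * g⁻¹ := by rw [h2]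
    _ = g * v * g⁻¹ * n := by group

theorem zr_ne_bot {G : Type*} [Group G] [Finite G] (N : Subgroup G) (hnil : Group.IsNilpotent N) (r : ℕ)
    [Fact r.Prime] (hr : r ∣ Nat.card N) : zr N r ≠ ⊥ := by
  have hnorm := ((Group.isNilpotent_of_finite_tfae (G := N)).out 0 3).1 hnil
  obtain ⟨R⟩ : Nonempty (Sylow r N) := inferInstance
  have hRn : (R : Subgroup N).Normal := hnorm r inferInstance R
  have hR : (R : Subgroup N) ≠ ⊥ := by
    intro h
    have h1 := R.card_eq_multiplicity
    rw [h, Subgroup.card_bot] at h1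
    have h2 : r ∣ r ^ (Nat.card N).factorization r := by
      apply dvd_pow_self
      have : 0 < (Nat.card N).factorization r :=
        (Fact.out : r.Prime).factorization_pos_of_dvd Nat.card_pos.ne' hr
      omega
    rw [← h1] at h2
    exact (Fact.out : r.Prime).one_lt.ne' (Nat.dvd_one.1 h2)
  have h3 := Cfsg.Agent.Lib.Helper1.normal_inf_center_ne_bot hR
  obtain ⟨⟨z, hz⟩, hz1⟩ := Subgroup.ne_bot_iff_exists_ne_one.1 h3
  obtain ⟨hzR, hzc⟩ := Subgroup.mem_inf.1 hz
  obtain ⟨k, hk⟩ := R.2 ⟨z, hzR⟩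
  intro hbot
  have hmem : (z : G) ∈ zr N r := by
    refine ⟨z.2, fun n hn => ?_, k, ?_⟩
    · have := Subgroup.mem_center_iff.1 hzc ⟨n, hn⟩
      exact congrArg Subtype.val this
    · have h4 : z ^ (r ^ k) = 1 := by
        have := congrArg Subtype.val hk
        simpa using this
      have := congrArg Subtype.val h4
      simpa using this
  rw [hbot, Subgroup.mem_bot] at hmem
  apply hz1
  apply Subtype.ext
  apply Subtype.ext
  simpa using hmem

theorem orderOf_coprime_of_mem_zr {G : Type*} [Group G] {N : Subgroup G} {r q : ℕ} [Fact r.Prime]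
    [Fact q.Prime] (hqr : q ≠ r) {v : G} (hv : v ∈ zr N r) : (orderOf v).Coprime q := by
  obtain ⟨-, -, k, hk⟩ := hv
  exact Nat.Coprime.of_dvd_left (orderOf_dvd_of_pow_eq_one hk)
    (Nat.Coprime.pow_left _ ((Nat.coprime_primes Fact.out Fact.out).2 hqr.symm))

theorem exists_prime_ne {m q : ℕ} (hm : m ≠ 0) (hm1 : m ≠ 1) (hpp : ¬ IsPrimePow m) (hq : q.Prime) :
    ∃ r : ℕ, r.Prime ∧ r ≠ q ∧ r ∣ m := by
  by_contra hcon
  push Not at hcon
  have h1 : ∀ d : ℕ, d.Prime → d ∣ m → d = q := by
    intro d hd hdm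
    by_contra hne
    exact hcon d hd hne hdm
  have h2 := Nat.eq_prime_pow_of_unique_prime_dvd hm (fun {d} hd hdm => h1 d hd hdm)
  apply hpp
  rw [h2]
  apply hq.isPrimePow.pow
  intro h0
  rw [h0, pow_zero] at h2
  exact hm1 h2

/-- the norm of an automorphism of order dividing `n` is fixed -/
theorem norm_fixed {A : Type*} [Group A] (hA : ∀ a b : A, a * b = b * a) (φ : MulAut A) {n : ℕ}
    (hn : φ ^ n = 1) (v : A) :
    φ ((List.range n).map (fun k => (φ ^ k) v)).prod = ((List.range n).map (fun k => (φ ^ k) v)).prod := by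
  have h1 := List.prod_range_succ (fun k => (φ ^ k) v) n
  have h2 := List.prod_range_succ' (fun k => (φ ^ k) v) n
  have h3 : φ ((List.range n).map (fun k => (φ ^ k) v)).prod
      = ((List.range n).map (fun k => (φ ^ (k + 1)) v)).prod := by
    rw [map_list_prod, List.map_map]
    congr 1
    apply List.map_congr_left
    intro k _
    simp [pow_succ']
  rw [h1] at h2
  simp only [hn, pow_zero, MulAut.one_apply] at h2
  rw [h3]
  rw [hA] at h2
  exact (mul_left_cancel h2).symm

/-- no `q × q` in `G / N` -/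
theorem EqOrd.no_rank_two {G : Type*} [Group G] [Finite G] {N : Subgroup G} [hNn : N.Normal] (h : EqOrd N)
    (hnil : Group.IsNilpotent N) {q r : ℕ} [Fact q.Prime] [Fact r.Prime] (hqr : q ≠ r) (hr : r ∣ Nat.card N)
    {a b : G} (ha : a ^ q ∈ N) (hb : b ^ q ∈ N) (hab : a * b * a⁻¹ * b⁻¹ ∈ N) (hbN : b ∉ N)
    (hj : ∀ j : ℤ, a * b ^ j ∉ N) : False := by
  have hq : q.Prime := Fact.out
  set V := zr N r with hV
  have hA : ∀ v w : V, v * w = w * v := by
    intro v w
    apply Subtype.ext
    exact w.2.2.1 v v.2.1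
  let ρ : G →* MulAut V := MulAut.conjNormal
  have hρ : ∀ (g : G) (v : V), ((ρ g v : V) : G) = g * v * g⁻¹ := fun g v => rfl
  have hρN : ∀ n ∈ N, ρ n = 1 := by
    intro n hn
    ext v
    rw [hρ, MulAut.one_apply, v.2.2.1 n hn, mul_inv_cancel_right]
  have hfix : ∀ e : G, e ∉ N → e ^ q ∈ N → ∀ v : V, ρ e v = v → v = 1 := by
    intro e he heq v hv
    apply Subtype.ext
    apply h.eq_one' he heq v.2.1 _ (orderOf_coprime_of_mem_zr hqr v.2)
    have := congrArg Subtype.val hv
    rw [hρ] at this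
    exact mul_inv_eq_iff_eq_mul.1 this
  have hcomm : Commute (ρ a) (ρ b) := by
    have h1 := hρN _ hab
    rw [map_mul, map_mul, map_mul, map_inv, map_inv, mul_inv_eq_one, mul_inv_eq_iff_eq_mul] at h1
    exact h1
  have hVp : IsPGroup r V := by
    intro v
    obtain ⟨k, hk⟩ := v.2.2.2
    exact ⟨k, Subtype.ext (by simpa using hk)⟩
  have hT : zpowers (ρ b) = ⊥ := by
    apply Cfsg.Agent.Lib.Lead.mulAut_eq_bot_of_norm_coset_eq_one hA (p := Nat.card V)
      (fun v => pow_card_eq_one') (ρ a) (zpowers (ρ b)) _ _ hq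
    · rintro y ⟨j, rfl⟩ v
      have e1 : ρ a * (ρ b) ^ j = ρ (a * b ^ j) := by rw [map_mul, map_zpow]
      simp only [] 
      rw [e1]
      have he : (a * b ^ j) ^ q ∈ N := by
        rw [← QuotientGroup.eq_one_iff] at ha hb hab ⊢
        have hc : Commute (a : G ⧸ N) (b : G ⧸ N) := by
          rw [QuotientGroup.mk_mul, QuotientGroup.mk_mul, QuotientGroup.mk_mul, QuotientGroup.mk_inv,
            QuotientGroup.mk_inv, mul_inv_eq_one, mul_inv_eq_iff_eq_mul] at hab
          exact hab
        rw [QuotientGroup.mk_pow, QuotientGroup.mk_mul, QuotientGroup.mk_zpow, (hc.zpow_right j).mul_pow,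
          ← QuotientGroup.mk_pow, ha, one_mul, ← zpow_natCast, ← zpow_mul, mul_comm, zpow_mul, zpow_natCast,
          ← QuotientGroup.mk_pow, hb, one_zpow]
      apply hfix _ (hj j) he
      apply norm_fixed hA
      rw [← map_pow, hρN _ he]
    · rw [Nat.card_zpowers]
      obtain ⟨k, hk⟩ := hVp.exists_card_eq
      rw [hk]
      apply Nat.Coprime.pow_right
      refine Nat.Coprime.of_dvd_left (?_ : _ ∣ q) ((Nat.coprime_primes Fact.out Fact.out).2 hqr)
      apply orderOf_dvd_of_pow_eq_one
      rw [← map_pow, hρN _ hb]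
    · rintro y ⟨j, rfl⟩
      have := (hcomm.zpow_right j).eq
      simp only []
      rw [mul_assoc, ← this, inv_mul_cancel_left]
      exact zpow_mem (mem_zpowers _) j
  have hb1 : ρ b = 1 := by
    have := mem_zpowers (ρ b)
    rw [hT, Subgroup.mem_bot] at this
    exact this
  obtain ⟨v, hv⟩ := Subgroup.ne_bot_iff_exists_ne_one.1 (zr_ne_bot N hnil r hr)
  apply hv
  apply hfix b hbN hb v
  rw [hb1, MulAut.one_apply]

/-- Let G be a finite group and N a proper non-trivial normal nilpotent subgroup whose order is not a prime power, such that for every x outside N all elements of the coset xN have the same order as x. Then N is the Fitting subgroup of G, and for every prime q every Sylow q-subgroup of G/N is cyclic or generalized quaternion. -/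
theorem result {G : Type*} [Group G] [Finite G] (N : Subgroup G) [N.Normal] (hN1 : N ≠ ⊥) (hN2 : N ≠ ⊤)
    (heq : ∀ x : G, x ∉ N → ∀ n ∈ N, orderOf (x * n) = orderOf x)
    (hnil : Group.IsNilpotent N) (hnpp : ¬ IsPrimePow (Nat.card N)) :
    N = Cfsg.fittingSubgroup G ∧
    ∀ (q : ℕ) [Fact q.Prime] (Q : Sylow q (G ⧸ N)), IsCyclic (Q : Subgroup (G ⧸ N)) ∨ ∃ n : ℕ, Nonempty ((Q : Subgroup (G ⧸ N)) ≃* QuaternionGroup (2 ^ n)) := by
  have hE : EqOrd N := heq
  have hcard1 : Nat.card N ≠ 1 := by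
    intro h
    exact hN1 (Subgroup.card_eq_one.1 h)
  constructor
  · apply le_antisymm (Cfsg.Agent.Lib.Helper91.le_fittingSubgroup N hnil)
    intro x hxF
    by_contra hxN
    have hF : (Cfsg.fittingSubgroup G).Normal := Cfsg.Agent.Lib.Helper91.fittingSubgroup_normal
    have hFnil : Group.IsNilpotent (Cfsg.fittingSubgroup G) :=
      Cfsg.Agent.Lib.Helper91.fittingSubgroup_isNilpotent
    have hx1 : orderOf (x : G ⧸ N) ≠ 1 := by
      rw [Ne, orderOf_eq_one_iff, QuotientGroup.eq_one_iff]
      exact hxN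
    obtain ⟨q, hq, hqd⟩ := Nat.exists_prime_and_dvd hx1
    obtain ⟨m, hm⟩ := hqd
    have : Fact q.Prime := ⟨hq⟩
    obtain ⟨r, hr, hrq, hrd⟩ := exists_prime_ne Nat.card_pos.ne' hcard1 hnpp hq
    have : Fact r.Prime := ⟨hr⟩
    have hyN : x ^ m ∉ N := by
      intro hy
      rw [← QuotientGroup.eq_one_iff, QuotientGroup.mk_pow] at hy
      have h1 := orderOf_dvd_of_pow_eq_one hy
      rw [hm] at h1
      have hm0 : 0 < m := by
        rcases Nat.eq_zero_or_pos m with h0 | h0
        · rw [h0, mul_zero] at hm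
          exact absurd hm (orderOf_pos _).ne'
        · exact h0
      have h2 := Nat.le_of_dvd hm0 h1
      have := hq.two_le
      nlinarith
    have hyq : (x ^ m) ^ q ∈ N := by
      rw [← QuotientGroup.eq_one_iff, ← pow_mul, mul_comm, ← hm, QuotientGroup.mk_pow, pow_orderOf_eq_one]
    have hVF : zr N r ≤ Cfsg.fittingSubgroup G :=
      fun v hv => Cfsg.Agent.Lib.Helper91.le_fittingSubgroup N hnil hv.1
    have hVne : (zr N r).subgroupOf (Cfsg.fittingSubgroup G) ≠ ⊥ := by
      intro h
      rw [Subgroup.subgroupOf_eq_bot, disjoint_iff, inf_eq_left.2 hVF] at h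
      exact zr_ne_bot N hnil r hrd h
    have h3 := Cfsg.Agent.Lib.Helper1.normal_inf_center_ne_bot hVne
    obtain ⟨⟨v, hv⟩, hv1⟩ := Subgroup.ne_bot_iff_exists_ne_one.1 h3
    obtain ⟨hvV, hvc⟩ := Subgroup.mem_inf.1 hv
    rw [Subgroup.mem_subgroupOf] at hvV
    have hcomm : Commute (x ^ m) (v : G) := by
      have := Subgroup.mem_center_iff.1 hvc ⟨x ^ m, (Cfsg.fittingSubgroup G).pow_mem hxF m⟩
      exact congrArg Subtype.val this
    have := hE.eq_one' hyN hyq hvV.1 hcomm (orderOf_coprime_of_mem_zr hrq.symm hvV)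
    apply hv1
    apply Subtype.ext
    apply Subtype.ext
    simpa using this
  · intro q _ Q
    have hq : q.Prime := Fact.out
    obtain ⟨r, hr, hrq, hrd⟩ := exists_prime_ne Nat.card_pos.ne' hcard1 hnpp hq
    have : Fact r.Prime := ⟨hr⟩
    have K2 : ∀ α β : G ⧸ N, α ^ q = 1 → β ^ q = 1 → Commute α β → β ≠ 1 → α ∈ zpowers β := by
      intro α β hα hβ hc hβ1
      by_contra hcon
      obtain ⟨a, rfl⟩ := QuotientGroup.mk_surjective α
      obtain ⟨b, rfl⟩ := QuotientGroup.mk_surjective β
      apply hE.no_rank_two hnil hrq.symm hrd (a := a) (b := b)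
      · rw [← QuotientGroup.eq_one_iff, QuotientGroup.mk_pow]; exact hα
      · rw [← QuotientGroup.eq_one_iff, QuotientGroup.mk_pow]; exact hβ
      · rw [← QuotientGroup.eq_one_iff, QuotientGroup.mk_mul, QuotientGroup.mk_mul, QuotientGroup.mk_mul,
          QuotientGroup.mk_inv, QuotientGroup.mk_inv, mul_inv_eq_one, mul_inv_eq_iff_eq_mul]
        exact hc
      · rw [← QuotientGroup.eq_one_iff]; exact hβ1
      · intro j hj
        rw [← QuotientGroup.eq_one_iff, QuotientGroup.mk_mul, QuotientGroup.mk_zpow, mul_eq_one_iff_eq_inv,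
          ← zpow_neg] at hj
        apply hcon
        rw [hj]
        exact zpow_mem (mem_zpowers _) _
    have huniq : ∀ H K : Subgroup (Q : Subgroup (G ⧸ N)), Nat.card H = q → Nat.card K = q → H = K := by
      intro H K hH hK
      have hnt : Nontrivial (Q : Subgroup (G ⧸ N)) := by
        by_contra hnt
        rw [not_nontrivial_iff_subsingleton] at hnt
        have : Nat.card H = 1 := Nat.card_eq_one_iff_unique.2 ⟨inferInstance, inferInstance⟩
        rw [hH] at this
        exact hq.one_lt.ne' this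
      have hcn := Q.2.center_nontrivial
      have hcp : IsPGroup q (center (Q : Subgroup (G ⧸ N))) := Q.2.to_subgroup _
      have hqc : q ∣ Nat.card (center (Q : Subgroup (G ⧸ N))) := by
        obtain ⟨k, hk⟩ := hcp.exists_card_eq
        rw [hk]
        apply dvd_pow_self
        rintro rfl
        rw [pow_zero] at hk
        have := Finite.one_lt_card (α := center (Q : Subgroup (G ⧸ N)))
        omega
      obtain ⟨⟨z, hzc⟩, hz⟩ := exists_prime_orderOf_dvd_card' q hqc
      rw [Subgroup.orderOf_mk] at hz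
      have key : ∀ H : Subgroup (Q : Subgroup (G ⧸ N)), Nat.card H = q → H = zpowers z := by
        intro H hH
        have : Nontrivial H := by
          rw [← Finite.one_lt_card_iff_nontrivial, hH]
          exact hq.one_lt
        obtain ⟨⟨t, htH⟩, ht1⟩ := exists_ne (1 : H)
        have ht1' : t ≠ 1 := fun h => ht1 (Subtype.ext h)
        have htq : t ^ q = 1 := by
          have : (⟨t, htH⟩ : H) ^ Nat.card H = 1 := pow_card_eq_one'
          rw [hH] at this
          exact congrArg Subtype.val this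
        have hto : orderOf t = q := orderOf_eq_prime htq ht1'
        have h1 : zpowers t = H := by
          apply Subgroup.eq_of_le_of_card_ge
          · rw [zpowers_le]; exact htH
          · rw [Nat.card_zpowers, hto, hH]
        have h2 : (t : G ⧸ N) ∈ zpowers (z : G ⧸ N) := by
          apply K2
          · rw [← Subgroup.coe_pow, htq]; rfl
          · have hzq : z ^ q = 1 := by
              have := pow_orderOf_eq_one z
              rwa [hz] at this
            rw [← Subgroup.coe_pow, hzq]; rfl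
          · exact congrArg Subtype.val (Subgroup.mem_center_iff.1 hzc t)
          · intro h
            have : z = 1 := Subtype.ext h
            rw [this, orderOf_one] at hz
            exact hq.one_lt.ne hz
        obtain ⟨j, hj⟩ := h2
        have h3 : t ∈ zpowers z := ⟨j, Subtype.ext (by simpa using hj)⟩
        rw [← h1]
        apply Subgroup.eq_of_le_of_card_ge
        · rw [zpowers_le]; exact h3
        · rw [Nat.card_zpowers, Nat.card_zpowers, hto, hz]
      rw [key H hH, key K hK]
    rcases Cfsg.Agent.S0016.result q Q.2 huniq with h | ⟨-, h⟩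
    · exact Or.inl h
    · exact Or.inr h

end Cfsg.Agent.S4155
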