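import Cfsg.Statements.S4156

set_option autoImplicit false
open Cfsg

namespace Cfsg.Agent.S4156

open Matrix

section
variable (n : ℕ) (F : Type*) [Field F]

/-- extension of a vector of length `n` to a sum-zero vector of length `n + 1`. -/
def extL : (Fin n → F) →ₗ[F] (Fin (n + 1) → F) where
  toFun x := Fin.snoc (α := fun _ => F) x (-∑ i, x i)
  map_add' x y := by
    ext j
    refine Fin.lastCases ?_ (fun i => ?_) j
    · simp [Finset.sum_add_distrib]; ring
    · simp
  map_smul' c x := by
    ext j
    refine Fin.lastCases ?_ (fun i => ?_) j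
    · simp [Finset.mul_sum]
    · simp

variable {n F}

@[simp] lemma extL_castSucc (x : Fin n → F) (i : Fin n) : extL n F x i.castSucc = x i := by
  simp [extL]

@[simp] lemma extL_last (x : Fin n → F) : extL n F x (Fin.last n) = -∑ i, x i := by
  simp [extL]

lemma sum_extL (x : Fin n → F) : ∑ j, extL n F x j = 0 := by
  rw [Fin.sum_univ_castSucc]
  simp

lemma extL_res (w : Fin (n + 1) → F) (hw : ∑ j, w j = 0) :
    extL n F (fun i => w i.castSucc) = w := by
  ext j
  refine Fin.lastCases ?_ (fun i => ?_) j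
  · rw [extL_last]
    rw [Fin.sum_univ_castSucc] at hw
    linear_combination -hw
  · simp

/-- the action on the sum-zero module in coordinates. -/
def L (σ : Equiv.Perm (Fin (n + 1))) : Module.End F (Fin n → F) :=
  (LinearMap.funLeft F F Fin.castSucc) ∘ₗ (LinearMap.funLeft F F (σ⁻¹ : Equiv.Perm (Fin (n + 1))))
    ∘ₗ extL n F

lemma L_apply (σ : Equiv.Perm (Fin (n + 1))) (x : Fin n → F) (i : Fin n) :
    L σ x i = extL n F x (σ⁻¹ i.castSucc) := rfl

variable (n F) in
/-- the representation as a monoid homomorphism. -/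
def Lhom : Equiv.Perm (Fin (n + 1)) →* Module.End F (Fin n → F) where
  toFun := L
  map_one' := by
    ext x i
    simp [L_apply]
  map_mul' σ τ := by
    apply LinearMap.ext
    intro x
    ext i
    rw [Module.End.mul_apply, L_apply, L_apply]
    have h : (L τ x : Fin n → F) = fun i => (fun j => extL n F x (τ⁻¹ j)) i.castSucc := rfl
    have h2 : extL n F (fun i => (fun j => extL n F x (τ⁻¹ j)) i.castSucc)
        = fun j => extL n F x (τ⁻¹ j) := by
      refine extL_res (fun j => extL n F x (τ⁻¹ j)) ?_
      rw [Equiv.sum_comp (τ⁻¹ : Equiv.Perm (Fin (n + 1))) (extL n F x)]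
      exact sum_extL x
    rw [h, h2]
    simp [_root_.mul_inv_rev]

variable (n F) in
/-- matrix form, restricted to the alternating group. -/
noncomputable def f0 : alternatingGroup (Fin (n + 1)) →* Matrix (Fin n) (Fin n) F :=
  ((LinearMap.toMatrixAlgEquiv' (R := F) (n := Fin n)).toAlgHom.toRingHom.toMonoidHom.comp
    (Lhom n F)).comp (alternatingGroup (Fin (n + 1))).subtype

lemma f0_apply (a : alternatingGroup (Fin (n + 1))) (i j : Fin n) :
    f0 n F a i j = extL n F (Pi.single j 1) ((a : Equiv.Perm (Fin (n + 1)))⁻¹ i.castSucc) := by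
  change LinearMap.toMatrix' (L (a : Equiv.Perm (Fin (n + 1)))) i j = _
  rw [LinearMap.toMatrix'_apply, L_apply]

lemma det_f0 (hn : 5 ≤ n) (a : alternatingGroup (Fin (n + 1))) : (f0 n F a).det = 1 := by
  have hperf : commutator (alternatingGroup (Fin (n + 1))) = ⊤ :=
    commutator_alternatingGroup_eq_top (by simp; omega)
  have h := Abelianization.commutator_subset_ker
    ((Matrix.detMonoidHom.comp (f0 n F)).toHomUnits)
  rw [hperf] at h
  have ha : a ∈ ((Matrix.detMonoidHom.comp (f0 n F)).toHomUnits).ker := h (Subgroup.mem_top a)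
  rw [MonoidHom.mem_ker] at ha
  have := congrArg Units.val ha
  simpa using this

variable (n F) in
/-- the homomorphism to `SL`. -/
noncomputable def f1 (hn : 5 ≤ n) :
    alternatingGroup (Fin (n + 1)) →* Matrix.SpecialLinearGroup (Fin n) F where
  toFun a := ⟨f0 n F a, det_f0 hn a⟩
  map_one' := by
    apply Subtype.ext
    simp
  map_mul' a b := by
    apply Subtype.ext
    exact map_mul (f0 n F) a b

end

/-- Let n ≥ 5 and F a finite field. Then the projective special linear group PSL_n(F) contains a subgroup isomorphic to the alternating group of degree n + 1. -/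
theorem result (n : ℕ) (hn : 5 ≤ n) (F : Type*) [Field F] [Finite F] :
    ∃ f : alternatingGroup (Fin (n + 1)) →* Matrix.ProjectiveSpecialLinearGroup (Fin n) F, Function.Injective f := by
  refine ⟨(QuotientGroup.mk' (Subgroup.center (Matrix.SpecialLinearGroup (Fin n) F))).comp
    (f1 n F hn), ?_⟩
  rw [← MonoidHom.ker_eq_bot_iff]
  have hs : IsSimpleGroup (alternatingGroup (Fin (n + 1))) :=
    alternatingGroup.isSimpleGroup (by simp; omega)
  refine (Subgroup.Normal.eq_bot_or_eq_top (MonoidHom.normal_ker _)).resolve_right ?_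
  intro htop
  -- a three-cycle
  let i0 : Fin n := ⟨0, by omega⟩
  let i1 : Fin n := ⟨1, by omega⟩
  let i2 : Fin n := ⟨2, by omega⟩
  have h01 : i0.castSucc ≠ i1.castSucc := by simp [i0, i1, Fin.ext_iff]
  have h02 : i0.castSucc ≠ i2.castSucc := by simp [i0, i2, Fin.ext_iff]
  have h12 : i1.castSucc ≠ i2.castSucc := by simp [i1, i2, Fin.ext_iff]
  have hc := Equiv.Perm.isThreeCycle_swap_mul_swap_same h01 h02 h12
  let c : alternatingGroup (Fin (n + 1)) := ⟨_, hc.mem_alternatingGroup⟩
  have hcm : c ∈ ((QuotientGroup.mk' (Subgroup.center (Matrix.SpecialLinearGroup (Fin n) F))).comp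
    (f1 n F hn)).ker := by rw [htop]; exact Subgroup.mem_top c
  rw [MonoidHom.mem_ker, MonoidHom.comp_apply, QuotientGroup.mk'_apply,
    QuotientGroup.eq_one_iff, Matrix.SpecialLinearGroup.mem_center_iff] at hcm
  obtain ⟨r, -, hr⟩ := hcm
  have h1 : f0 n F c i1 i2 = 1 := by
    rw [f0_apply]
    have : ((c : Equiv.Perm (Fin (n + 1)))⁻¹ i1.castSucc) = i2.castSucc := by
      change (Equiv.swap i0.castSucc i1.castSucc * Equiv.swap i0.castSucc i2.castSucc)⁻¹
        i1.castSucc = i2.castSucc
      rw [_root_.mul_inv_rev, Equiv.swap_inv, Equiv.swap_inv, Equiv.Perm.mul_apply,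
        Equiv.swap_apply_right, Equiv.swap_apply_left]
    rw [this, extL_castSucc]
    simp
  have h2 : f0 n F c i1 i2 = 0 := by
    have : (f0 n F c) = Matrix.scalar (Fin n) r := hr.symm
    rw [this]
    have hne : i1 ≠ i2 := by simp [i1, i2, Fin.ext_iff]
    simp [hne]
  rw [h1] at h2
  exact one_ne_zero h2

end Cfsg.Agent.S4156
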