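import Cfsg.Statements.S4157
import Cfsg.Agent.Lib.Helper87.Kul.Common
import Cfsg.Agent.Lib.Helper86.Kul2.Main

set_option autoImplicit false
open Cfsg

namespace Cfsg.Agent.S4157

open Cfsg.Agent.Lib.Helper87.Kul

/-- the `p = 2` half (helper86, Kul2). -/
theorem even_cN_two {G : Type*} [Group G] [Finite G] (m : ℕ) (hG : Nat.card G = 2 ^ m) (hnc : ¬ IsCyclic G)
    (h2 : Group.nilpotencyClass G ≠ m - 1) (b : ℕ) (hb : 2 ≤ b) : 2 ∣ cN G (2 ^ b) :=
  even_iff_two_dvd.mp (Cfsg.Agent.Lib.Helper86.Kul2.even_cyclic m hG hnc h2 b hb)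

theorem result {G : Type*} [Group G] [Finite G] {p : ℕ} [Fact p.Prime] (m : ℕ)
    (hG : Nat.card G = p ^ m) (hnc : ¬ IsCyclic G) (h2 : p = 2 → Group.nilpotencyClass G ≠ m - 1)
    (k : ℕ) (hk1 : 1 ≤ k) (hk2 : k < m) :
    Nat.card {H : Subgroup G // Nat.card H = p ^ k} ≡ 1 + p [MOD p ^ 2] := by
  have hp : p.Prime := Fact.out
  have hdvd : p ^ (k + 1) ∣ Nat.card G := by rw [hG]; exact pow_dvd_pow p hk2
  have hpG : p ∣ Nat.card G := (dvd_pow_self p (Nat.succ_ne_zero k)).trans hdvd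
  by_cases hp2 : p = 2
  · subst hp2
    exact modEq_of_dvd_cN 2 k hp hdvd (even_cN_two m hG hnc (h2 rfl) (k + 1) (by omega))
  · obtain ⟨P⟩ : Nonempty (Sylow p G) := inferInstance
    have htop : (P : Subgroup G) = ⊤ := by
      apply Subgroup.eq_top_of_card_eq
      rw [Sylow.card_eq_multiplicity, hG, Nat.Prime.factorization_pow hp]
      simp
    have hP : ¬ IsCyclic ↥(P : Subgroup G) := by
      intro h
      apply hnc
      rw [htop] at h
      exact isCyclic_of_surjective Subgroup.topEquiv Subgroup.topEquiv.surjective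
    exact modEq_of_dvd_cN p k hp hdvd (dvd_cN_of_odd p hp2 hpG P hP k hk1)

end Cfsg.Agent.S4157
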