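import Cfsg.Statements.S4160
import Cfsg.Agent.Lib.Helper69.SylowCent

set_option autoImplicit false
open Cfsg

namespace Cfsg.Agent.S4160

open Cfsg.Agent.Lib.Helper69 Subgroup

/-- conjugating the centralizer of `P` by an element normalizing `P` -/
theorem conj_mem_centralizer {G : Type*} [Group G] (P : Subgroup G) :
    ∀ n ∈ normalizer (P : Set G), ∀ c ∈ centralizer (P : Set G), n * c * n⁻¹ ∈ centralizer (P : Set G) := by
  intro n hn c hc
  rw [mem_centralizer_iff] at hc ⊢
  intro y hy
  have h1 : n⁻¹ * y * n ∈ P := (mem_normalizer_iff''.1 hn y).1 hy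
  have h2 := hc _ h1
  calc y * (n * c * n⁻¹) = n * (n⁻¹ * y * n * c) * n⁻¹ := by group
    _ = n * (c * (n⁻¹ * y * n)) * n⁻¹ := by rw [h2]
    _ = _ := by group

theorem count {G : Type*} [Group G] [Finite G] (P : Subgroup G)
    (hP : ¬ normalizer (P : Set G) ≤ centralizer (P : Set G)) :
    2 * ((normalizer (P : Set G)).index * Nat.card (centralizer (P : Set G))) ≤ Nat.card G := by
  have hle : centralizer (P : Set G) ≤ normalizer (P : Set G) := centralizer_le_normalizer _
  obtain ⟨k, hk⟩ := card_dvd_of_le hle
  have hpos : 0 < Nat.card (normalizer (P : Set G)) := Nat.card_pos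
  have hposC : 0 < Nat.card (centralizer (P : Set G)) := Nat.card_pos
  have hk2 : 2 ≤ k := by
    rcases k with _ | _ | k
    · simp [hk] at hpos
    · exfalso
      apply hP
      rw [zero_add, mul_one] at hk
      exact (eq_of_le_of_card_ge hle hk.le).ge
    · omega
  calc 2 * ((normalizer (P : Set G)).index * Nat.card (centralizer (P : Set G)))
      = (normalizer (P : Set G)).index * (Nat.card (centralizer (P : Set G)) * 2) := by ring
    _ ≤ (normalizer (P : Set G)).index * (Nat.card (centralizer (P : Set G)) * k) := by gcongr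
    _ = Nat.card (normalizer (P : Set G)) * (normalizer (P : Set G)).index := by rw [← hk]; ring
    _ = Nat.card G := card_mul_index _

/-- Let G be a finite group and p ≠ q primes each dividing the size of some conjugacy class of G, such that no conjugacy class size is divisible by pq. Then G has a normal p-complement or a normal q-complement. -/
theorem result {G : Type*} [Group G] [Finite G] (p q : ℕ) (hp : p.Prime) (hq : q.Prime) (hpq : p ≠ q)
    (hp' : ∃ x : G, p ∣ (Subgroup.centralizer ({x} : Set G)).index) (hq' : ∃ x : G, q ∣ (Subgroup.centralizer ({x} : Set G)).index) (h : ∀ x : G, ¬ p * q ∣ (Subgroup.centralizer ({x} : Set G)).index) :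
    Cfsg.HasNormalPComplement p G ∨ Cfsg.HasNormalPComplement q G := by
  classical
  have := Fact.mk hp
  have := Fact.mk hq
  obtain ⟨P⟩ : Nonempty (Sylow p G) := inferInstance
  obtain ⟨Q⟩ : Nonempty (Sylow q G) := inferInstance
  by_contra hcon
  push Not at hcon
  have hP : ¬ normalizer ((P : Subgroup G) : Set G) ≤ centralizer ((P : Subgroup G) : Set G) :=
    fun h' => hcon.1 (hasNormalPComplement_of_normalizer_le_centralizer P h')
  have hQ : ¬ normalizer ((Q : Subgroup G) : Set G) ≤ centralizer ((Q : Subgroup G) : Set G) :=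
    fun h' => hcon.2 (hasNormalPComplement_of_normalizer_le_centralizer Q h')
  have cP := count (P : Subgroup G) hP
  have cQ := count (Q : Subgroup G) hQ
  have uP := ncard_conj_union_le _ _ (conj_mem_centralizer (P : Subgroup G))
  have uQ := ncard_conj_union_le _ _ (conj_mem_centralizer (Q : Subgroup G))
  have hcover : ({1}ᶜ : Set G) ⊆
      {g : G | g ≠ 1 ∧ ∃ k : G, k * g * k⁻¹ ∈ centralizer ((P : Subgroup G) : Set G)} ∪
      {g : G | g ≠ 1 ∧ ∃ k : G, k * g * k⁻¹ ∈ centralizer ((Q : Subgroup G) : Set G)} := by
    intro g hg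
    have hg1 : g ≠ 1 := hg
    by_cases h1 : p ∣ (centralizer ({g} : Set G)).index
    · have h2 : ¬ q ∣ (centralizer ({g} : Set G)).index := by
        intro h2
        exact h g (Nat.Coprime.mul_dvd_of_dvd_of_dvd ((Nat.coprime_primes hp hq).2 hpq) h1 h2)
      exact Or.inr ⟨hg1, exists_conj_mem_centralizer_sylow Q g h2⟩
    · exact Or.inl ⟨hg1, exists_conj_mem_centralizer_sylow P g h1⟩
  have h1 := (Set.ncard_le_ncard hcover (Set.toFinite _)).trans (Set.ncard_union_le _ _)
  rw [Set.ncard_compl, Set.ncard_singleton] at h1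
  have iP : 0 < (normalizer ((P : Subgroup G) : Set G)).index :=
    Nat.pos_of_ne_zero (index_ne_zero_of_finite)
  have iQ : 0 < (normalizer ((Q : Subgroup G) : Set G)).index :=
    Nat.pos_of_ne_zero (index_ne_zero_of_finite)
  rw [Nat.mul_sub, mul_one] at uP uQ
  have hG : 0 < Nat.card G := Nat.card_pos
  have jP : (normalizer ((P : Subgroup G) : Set G)).index ≤
      (normalizer ((P : Subgroup G) : Set G)).index * Nat.card (centralizer ((P : Subgroup G) : Set G)) :=
    Nat.le_mul_of_pos_right _ Nat.card_pos
  have jQ : (normalizer ((Q : Subgroup G) : Set G)).index ≤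
      (normalizer ((Q : Subgroup G) : Set G)).index * Nat.card (centralizer ((Q : Subgroup G) : Set G)) :=
    Nat.le_mul_of_pos_right _ Nat.card_pos
  omega

end Cfsg.Agent.S4160
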