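import Cfsg.Statements.S4169
import Cfsg.Agent.Lib.Helper69.SmallClasses
import Cfsg.Agent.S0015
-- import your own Cfsg.Agent.* helpers here

set_option autoImplicit false
open Cfsg

namespace Cfsg.Agent.S4169

/-- Let P be a finite p-group whose conjugacy classes have exactly two sizes (1 and one other value). Then P has nilpotency class at most 3. -/
theorem result {P : Type*} [Group P] [Finite P] {p : ℕ} [Fact p.Prime] (hP : IsPGroup p P)
    (m : ℕ) (hm : 1 < m) (h : ∀ x : P, (Subgroup.centralizer ({x} : Set P)).index = 1 ∨ (Subgroup.centralizer ({x} : Set P)).index = m) :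
    upperCentralSeries P 3 = ⊤ := by
  have hnil : Group.IsNilpotent P := hP.isNilpotent
  -- a maximal abelian normal subgroup
  obtain ⟨A, ⟨hAn, hAc⟩, hAmax⟩ : ∃ A : Subgroup P, (A.Normal ∧ IsMulCommutative A) ∧
      ∀ B : Subgroup P, (B.Normal ∧ IsMulCommutative B) → A ≤ B → B = A := by
    have hfin : {A : Subgroup P | A.Normal ∧ IsMulCommutative A}.Finite := Set.toFinite _
    have hne : {A : Subgroup P | A.Normal ∧ IsMulCommutative A}.Nonempty :=
      ⟨⊥, inferInstance, inferInstance⟩
    obtain ⟨A, hA⟩ := hfin.exists_maximal hne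
    exact ⟨A, hA.prop, fun B hB hAB => le_antisymm (hA.le_of_ge hB hAB) hAB⟩
  have hCA : Subgroup.centralizer (A : Set P) = A :=
    Cfsg.Agent.S0015.result A (fun M hM hMc hAM => hAmax M ⟨hM, hMc⟩ hAM)
  have hab : ∀ a ∈ A, ∀ b ∈ A, a * b = b * a := by
    intro a ha b hb
    exact congrArg Subtype.val (hAc.is_comm.comm ⟨a, ha⟩ ⟨b, hb⟩)
  apply Cfsg.Agent.Lib.Helper69.upperCentralSeries_three_eq_top' A hCA
  intro y a ha
  rcases h y with hy | hy
  · have hyc := (Cfsg.Agent.Lib.Helper69.index_centralizer_eq_one_iff y).1 hy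
    rw [Subgroup.mem_center_iff] at hyc
    have e : a * y * a⁻¹ * y⁻¹ = 1 := by rw [hyc a]; group
    rw [e]; exact Subgroup.one_mem _
  · refine Cfsg.Agent.Lib.Helper69.commutator_mem_center A hab m ?_ y hy a ha
    intro x hx
    rcases h x with h1 | h1
    · omega
    · exact h1.ge

end Cfsg.Agent.S4169
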