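import Cfsg.Statements.S4176
import Cfsg.Agent.Lib.Helper69.SpanOrbit
import Cfsg.Agent.Lib.Helper69.PSolv

set_option autoImplicit false
open Cfsg

namespace Cfsg.Agent.S4176

open Cfsg.Agent.Lib.Helper69 Subgroup

theorem star {k V H : Type*} [Field k] (p : ℕ) [Fact p.Prime] [CharP k p] [AddCommGroup V] [Module k V]
    [Group H] [Finite H] (hsol : Cfsg.IsPSolvable p H) (ρ : Representation k H V) (a : V)
    (hfix : ∃ P : Sylow p H, ∀ x : H, x ∈ (P : Subgroup H) → ρ x a = a)
    (hspan : Submodule.span k {u : V | ∃ h : H, ρ h a = u} = ⊤)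
    (B : Subgroup H) (hB : ∀ h : H, ∃ g ∈ B, ρ g a = ρ h a) :
    ∃ σ : V, (∀ h : H, ρ h σ = σ) ∧ ∀ v : V, (∀ g ∈ B, ρ g v = v) → ∃ c : k, v = c • σ := by
  have hp : p.Prime := Fact.out
  obtain ⟨P, hP⟩ := hfix
  have hA : ¬ p ∣ (stab ρ a).index := by
    intro h
    exact P.not_dvd_index (h.trans (index_dvd_of_le (fun x hx => hP x hx)))
  let ρB : Representation k B V := ρ.comp B.subtype
  have hidx : (stab ρB a).index = (stab ρ a).index := by
    rw [← card_orbit_eq_index, ← card_orbit_eq_index]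
    have hset : {u : V | ∃ h : B, ρB h a = u} = {u : V | ∃ h : H, ρ h a = u} := by
      ext u
      constructor
      · rintro ⟨g, rfl⟩
        exact ⟨g, rfl⟩
      · rintro ⟨h, rfl⟩
        obtain ⟨g, hg, hga⟩ := hB h
        exact ⟨⟨g, hg⟩, hga⟩
    rw [hset]
  obtain ⟨K', hK'c, m, hK'i⟩ := exists_pComplement (isPSolvable_subgroup B hsol)
  have hcop : ((stab ρB a).index).Coprime K'.index := by
    rw [hidx, hK'i]
    exact Nat.Coprime.pow_right _ ((Nat.Prime.coprime_iff_not_dvd hp).2 hA).symm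
  have hKcard : Nat.card (K'.map B.subtype) = Nat.card K' :=
    Nat.card_congr (K'.equivMapOfInjective B.subtype B.subtype_injective).symm.toEquiv
  have hK0 : (Nat.card (K'.map B.subtype) : k) ≠ 0 := by
    rw [hKcard]
    intro h0
    rw [CharP.cast_eq_zero_iff k p] at h0
    exact (Nat.Prime.coprime_iff_not_dvd hp).1 hK'c.symm h0
  have htrans : ∀ h : H, ∃ g ∈ K'.map B.subtype, ρ g a = ρ h a := by
    intro h
    obtain ⟨g, hg, hga⟩ := hB h
    obtain ⟨c, hc, a', ha', hca⟩ := exists_mul_of_coprime_index (stab ρB a) K' hcop ⟨g, hg⟩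
    refine ⟨c, ⟨c, hc, rfl⟩, ?_⟩
    rw [← hga]
    have h1 : g = (c : H) * (a' : H) := congrArg Subtype.val hca
    have h2 : ρ (a' : H) a = a := ha'
    rw [h1, map_mul, Module.End.mul_apply, h2]
  obtain ⟨σ, hσ, hall⟩ := invariant_of_transitive ρ a hspan (K'.map B.subtype) hK0 htrans
  refine ⟨σ, hσ, fun v hv => hall v ?_⟩
  rintro _ ⟨c, _, rfl⟩
  exact hv c c.2

/-- Let k be a field of prime characteristic p, H a finite p-soluble group and ρ a k-linear representation of H on V. Let a be a vector that is fixed by some Sylow p-subgroup of H and whose H-orbit spans V. Then the space of H-fixed vectors has dimension at most 1, and every vector b whose H-orbit has size coprime to the size of the orbit of a is fixed by H. -/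
theorem result {k V H : Type*} [Field k] (p : ℕ) [Fact p.Prime] [CharP k p] [AddCommGroup V] [Module k V]
    [Group H] [Finite H] (hsol : Cfsg.IsPSolvable p H) (ρ : Representation k H V) (a : V)
    (hfix : ∃ P : Sylow p H, ∀ x : H, x ∈ (P : Subgroup H) → ρ x a = a)
    (hspan : Submodule.span k {u : V | ∃ h : H, ρ h a = u} = ⊤) :
    Module.finrank k ρ.invariants ≤ 1 ∧
    ∀ b : V, (Nat.card {u : V | ∃ h : H, ρ h a = u}).Coprime (Nat.card {u : V | ∃ h : H, ρ h b = u}) → ∀ h : H, ρ h b = b := by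
  constructor
  · obtain ⟨σ, hσ, hall⟩ := star p hsol ρ a hfix hspan ⊤ (fun h => ⟨h, trivial, rfl⟩)
    apply finrank_le_one (⟨σ, hσ⟩ : ρ.invariants)
    intro w
    obtain ⟨c, hc⟩ := hall w (fun g _ => w.2 g)
    exact ⟨c, Subtype.ext hc.symm⟩
  · intro b hcop h
    rw [card_orbit_eq_index, card_orbit_eq_index] at hcop
    have htrans : ∀ h, ∃ g ∈ stab ρ b, ρ g a = ρ h a := by
      intro h
      obtain ⟨g, hg, a', ha', rfl⟩ := exists_mul_of_coprime_index (stab ρ a) (stab ρ b) hcop h
      exact ⟨g, hg, by rw [map_mul, Module.End.mul_apply, (mem_stab ρ a a').1 ha']⟩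
    obtain ⟨σ', hσ', hall'⟩ := star p hsol ρ a hfix hspan (stab ρ b) htrans
    obtain ⟨c, hc⟩ := hall' b (fun g hg => hg)
    rw [hc, map_smul, hσ']

end Cfsg.Agent.S4176
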