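import Cfsg.Statements.S4177
import Cfsg.Agent.Lib.Helper69.SpanOrbit

set_option autoImplicit false
open Cfsg

namespace Cfsg.Agent.S4177

open Cfsg.Agent.Lib.Helper69

/-- Let k be a field whose characteristic does not divide the order of the finite group H (for instance a field of characteristic zero), and ρ a k-linear representation of H on V. Let a be a vector whose H-orbit spans V. Then the space of H-fixed vectors has dimension at most 1, and every vector b whose H-orbit has size coprime to the size of the orbit of a is fixed by H. -/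
theorem result {k V H : Type*} [Field k] [AddCommGroup V] [Module k V] [Group H] [Finite H]
    (hchar : ¬ ringChar k ∣ Nat.card H) (ρ : Representation k H V) (a : V)
    (hspan : Submodule.span k {u : V | ∃ h : H, ρ h a = u} = ⊤) :
    Module.finrank k ρ.invariants ≤ 1 ∧
    ∀ b : V, (Nat.card {u : V | ∃ h : H, ρ h a = u}).Coprime (Nat.card {u : V | ∃ h : H, ρ h b = u}) → ∀ h : H, ρ h b = b := by
  have hH : ∀ K : Subgroup H, (Nat.card K : k) ≠ 0 := by
    intro K h
    apply hchar
    exact ((ringChar.spec k _).1 h).trans (Subgroup.card_subgroup_dvd_card K)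
  obtain ⟨σ, hσ, hall⟩ := invariant_of_transitive ρ a hspan ⊤ (hH ⊤) (fun h => ⟨h, trivial, rfl⟩)
  constructor
  · apply finrank_le_one (⟨σ, hσ⟩ : ρ.invariants)
    intro w
    obtain ⟨c, hc⟩ := hall w (fun g _ => w.2 g)
    exact ⟨c, Subtype.ext hc.symm⟩
  · intro b hcop h
    rw [card_orbit_eq_index, card_orbit_eq_index] at hcop
    have htrans : ∀ h, ∃ g ∈ stab ρ b, ρ g a = ρ h a := by
      intro h
      obtain ⟨g, hg, a', ha', rfl⟩ := exists_mul_of_coprime_index (stab ρ a) (stab ρ b) hcop h
      exact ⟨g, hg, by rw [map_mul, Module.End.mul_apply, (mem_stab ρ a a').1 ha']⟩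
    obtain ⟨σ', hσ', hall'⟩ := invariant_of_transitive ρ a hspan (stab ρ b) (hH _) htrans
    obtain ⟨c, hc⟩ := hall' b (fun g hg => hg)
    rw [hc, map_smul, hσ']

end Cfsg.Agent.S4177
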