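import Cfsg.Statements.S4178
-- import your own Cfsg.Agent.* helpers here

set_option autoImplicit false
open Cfsg

namespace Cfsg.Agent.S4178

open Subgroup

theorem index_le_of_stabilizer_le {Γ X : Type*} [Group Γ] [Finite Γ] [MulAction Γ X] (R : Subgroup Γ)
    (x : X) (hst : MulAction.stabilizer Γ x ≤ R) (S : Set X) (hS : S.Finite)
    (horb : MulAction.orbit Γ x ⊆ S) : R.index ≤ S.ncard := by
  calc R.index ≤ (MulAction.stabilizer Γ x).index :=
        Nat.le_of_dvd (Nat.pos_of_ne_zero index_ne_zero_of_finite) (index_dvd_of_le hst)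
    _ = (MulAction.orbit Γ x).ncard := MulAction.index_stabilizer Γ x
    _ ≤ S.ncard := Set.ncard_le_ncard horb hS

theorem ncard_ne_zero_set {F U : Type*} [Field F] [Fintype F] [AddCommGroup U] [Module F U]
    [FiniteDimensional F U] : {u : U | u ≠ 0}.ncard = Fintype.card F ^ Module.finrank F U - 1 := by
  classical
  have : Finite U := Module.finite_of_finite F
  have := Fintype.ofFinite U
  have h1 : {u : U | u ≠ 0} = ({0} : Set U)ᶜ := by ext; simp
  rw [h1, Set.ncard_compl, Set.ncard_singleton, Nat.card_eq_fintype_card, Module.card_eq_pow_finrank (K := F)]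

theorem real_bound (q d e n : ℕ) (hq : 1 ≤ q) (he : 2 * e ≤ d) (hn : n ≤ q ^ e - 1) :
    (n : ℝ) ≤ Real.sqrt ((q : ℝ) ^ d) - 1 := by
  have h1 : 1 ≤ q ^ e := Nat.one_le_pow _ _ hq
  have h2 : (n : ℝ) ≤ (q : ℝ) ^ e - 1 := by
    have : (n : ℝ) ≤ ((q ^ e - 1 : ℕ) : ℝ) := by exact_mod_cast hn
    rw [Nat.cast_sub h1] at this
    simpa using this
  have hq' : (1 : ℝ) ≤ q := by exact_mod_cast hq
  have h3 : (q : ℝ) ^ e ≤ Real.sqrt ((q : ℝ) ^ d) := by
    apply Real.le_sqrt_of_sq_le
    rw [← pow_mul, mul_comm]
    exact pow_le_pow_right₀ hq' he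
  linarith

/-- Let F be a finite field with q elements, V a non-zero finite-dimensional F-space of dimension d, H a group of invertible linear maps of V, and R the subgroup of H generated by the elements of H that fix some non-zero vector (have eigenvalue 1). Then the index of R in H is at most q^d − 1; and if H leaves invariant some proper non-zero subspace, the index is at most q^(d/2) − 1. -/
theorem result {F V : Type*} [Field F] [Fintype F] [AddCommGroup V] [Module F V] [FiniteDimensional F V] [Nontrivial V]
    (H : Subgroup (V ≃ₗ[F] V)) :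
    (Subgroup.closure {h : ↥H | ∃ v : V, v ≠ 0 ∧ (h : V ≃ₗ[F] V) v = v}).index ≤ Fintype.card F ^ Module.finrank F V - 1 ∧
    ((∃ W : Submodule F V, W ≠ ⊥ ∧ W ≠ ⊤ ∧ ∀ h ∈ H, ∀ w ∈ W, h w ∈ W) →
      ((Subgroup.closure {h : ↥H | ∃ v : V, v ≠ 0 ∧ (h : V ≃ₗ[F] V) v = v}).index : ℝ) ≤ Real.sqrt ((Fintype.card F : ℝ) ^ Module.finrank F V) - 1) := by
  classical
  have hVfin : Finite V := Module.finite_of_finite F
  have hEfin : Finite (V ≃ₗ[F] V) := Finite.of_injective (fun e => (e : V → V)) DFunLike.coe_injective
  set R := closure {h : ↥H | ∃ v : V, v ≠ 0 ∧ (h : V ≃ₗ[F] V) v = v} with hR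
  have hq : 1 ≤ Fintype.card F := Fintype.card_pos
  -- stabilizers of nonzero vectors lie in `R`
  have hstab : ∀ v : V, v ≠ 0 → MulAction.stabilizer ↥H v ≤ R := by
    intro v hv h hh
    exact subset_closure ⟨v, hv, hh⟩
  have horb0 : ∀ v : V, v ≠ 0 → MulAction.orbit ↥H v ⊆ {u : V | u ≠ 0} := by
    rintro v hv _ ⟨h, rfl⟩
    show (h : V ≃ₗ[F] V) v ≠ 0
    simpa using hv
  constructor
  · obtain ⟨v, hv⟩ := exists_ne (0 : V)
    have := index_le_of_stabilizer_le R v (hstab v hv) _ (Set.toFinite _) (horb0 v hv)
    rwa [ncard_ne_zero_set (F := F)] at this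
  · rintro ⟨W, hW0, hW1, hinv⟩
    have hsum := Submodule.finrank_quotient_add_finrank W
    rcases Nat.lt_or_ge (Module.finrank F V) (2 * Module.finrank F W) with hlt | hge
    · -- the quotient is small
      have hle : ∀ h : ↥H, W ≤ W.comap ((h : V ≃ₗ[F] V) : V →ₗ[F] V) := fun h w hw => hinv h h.2 w hw
      let act : MulAction ↥H (V ⧸ W) :=
        { smul := fun h x => W.mapQ W ((h : V ≃ₗ[F] V) : V →ₗ[F] V) (hle h) x
          one_smul := by
            intro x
            induction x using Submodule.Quotient.induction_on with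
            | _ x => rfl
          mul_smul := by
            intro g h x
            induction x using Submodule.Quotient.induction_on with
            | _ x => rfl }
      have hsmul : ∀ (h : ↥H) (v : V), h • (Submodule.Quotient.mk v : V ⧸ W) =
          Submodule.Quotient.mk ((h : V ≃ₗ[F] V) v) := fun _ _ => rfl
      obtain ⟨v, hv⟩ : ∃ v : V, v ∉ W := by
        by_contra hno
        push Not at hno
        exact hW1 (eq_top_iff.2 fun x _ => hno x)
      have hst : MulAction.stabilizer ↥H (Submodule.Quotient.mk v : V ⧸ W) ≤ R := by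
        intro h hh
        rw [MulAction.mem_stabilizer_iff, hsmul, Submodule.Quotient.eq] at hh
        by_contra hnot
        have hnofix : ∀ u : V, (h : V ≃ₗ[F] V) u = u → u = 0 := by
          intro u hu
          by_contra hu0
          exact hnot (subset_closure ⟨u, hu0, hu⟩)
        let T : V →ₗ[F] V := ((h : V ≃ₗ[F] V) : V →ₗ[F] V) - LinearMap.id
        have hTinj : Function.Injective T := by
          rw [← LinearMap.ker_eq_bot, LinearMap.ker_eq_bot']
          intro u hu
          apply hnofix
          have : (h : V ≃ₗ[F] V) u - u = 0 := hu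
          exact sub_eq_zero.1 this
        have hTW : ∀ w ∈ W, T w ∈ W := fun w hw => W.sub_mem (hinv h h.2 w hw) hw
        let TW : W →ₗ[F] W := T.restrict hTW
        have hTWinj : Function.Injective TW := by
          intro x y hxy
          apply Subtype.ext
          apply hTinj
          exact congrArg Subtype.val hxy
        have hTWsurj : Function.Surjective TW := LinearMap.injective_iff_surjective.1 hTWinj
        obtain ⟨w, hw⟩ := hTWsurj ⟨T v, hh⟩
        have : T w = T v := congrArg Subtype.val hw
        apply hv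
        rw [← hTinj this]
        exact w.2
      have horb : MulAction.orbit ↥H (Submodule.Quotient.mk v : V ⧸ W) ⊆ {u : V ⧸ W | u ≠ 0} := by
        rintro _ ⟨h, rfl⟩
        show h • (Submodule.Quotient.mk v : V ⧸ W) ≠ 0
        rw [hsmul, Ne, Submodule.Quotient.mk_eq_zero]
        intro hmem
        apply hv
        have := hinv (h⁻¹ : ↥H) (h⁻¹ : ↥H).2 _ hmem
        simpa using this
      have hfinQ : Finite (V ⧸ W) := Module.finite_of_finite F
      have := index_le_of_stabilizer_le R _ hst _ (Set.toFinite _) horb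
      rw [ncard_ne_zero_set (F := F)] at this
      exact real_bound _ _ _ _ hq (by omega) this
    · -- `W` is small
      obtain ⟨w, hwW, hw0⟩ := (Submodule.ne_bot_iff W).1 hW0
      have horb : MulAction.orbit ↥H w ⊆ (fun x : W => (x : V)) '' {u : W | u ≠ 0} := by
        rintro _ ⟨h, rfl⟩
        refine ⟨⟨(h : V ≃ₗ[F] V) w, hinv h h.2 w hwW⟩, ?_, rfl⟩
        intro h0
        apply hw0
        have : (h : V ≃ₗ[F] V) w = 0 := congrArg Subtype.val h0
        simpa using this
      have h1 := index_le_of_stabilizer_le R w (hstab w hw0) _ (Set.toFinite _) horb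
      have h2 : ((fun x : W => (x : V)) '' {u : W | u ≠ 0}).ncard = {u : W | u ≠ 0}.ncard :=
        Set.ncard_image_of_injective _ Subtype.val_injective
      rw [h2, ncard_ne_zero_set (F := F)] at h1
      exact real_bound _ _ _ _ hq hge h1

end Cfsg.Agent.S4178
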