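import Cfsg.Statements.S4182
-- import your own Cfsg.Agent.* helpers here

set_option autoImplicit false
open Cfsg

namespace Cfsg.Agent.S4182

open Subgroup

universe u v

/-- the subgroup generated by the `p`-elements of `X` -/
def O (p : ℕ) {G : Type u} [Group G] (X : Subgroup G) : Subgroup G :=
  closure {g : G | g ∈ X ∧ ∃ k : ℕ, orderOf g = p ^ k}

theorem O_le (p : ℕ) {G : Type u} [Group G] (X : Subgroup G) : O p X ≤ X := by
  unfold O
  rw [closure_le]
  exact fun g hg => hg.1

theorem O_mono (p : ℕ) {G : Type u} [Group G] {X Y : Subgroup G} (h : X ≤ Y) : O p X ≤ O p Y := by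
  unfold O
  apply Subgroup.closure_mono
  exact fun g hg => ⟨h hg.1, hg.2⟩

theorem O_O (p : ℕ) {G : Type u} [Group G] (X : Subgroup G) : O p (O p X) = O p X := by
  apply le_antisymm (O_le p _)
  conv_lhs => unfold O
  rw [closure_le]
  intro g hg
  exact Subgroup.subset_closure ⟨Subgroup.subset_closure hg, hg.2⟩

theorem O_conj (p : ℕ) {G : Type u} [Group G] (X : Subgroup G) (g : G) :
    O p (X.map (MulAut.conj g).toMonoidHom) = (O p X).map (MulAut.conj g).toMonoidHom := by
  unfold O
  rw [MonoidHom.map_closure]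
  congr 1
  ext y
  constructor
  · rintro ⟨⟨z, hz, rfl⟩, k, hk⟩
    refine ⟨z, ⟨hz, k, ?_⟩, rfl⟩
    rw [← hk]
    exact ((MulAut.conj g).orderOf_eq z).symm
  · rintro ⟨z, ⟨hz, k, hk⟩, rfl⟩
    refine ⟨⟨z, hz, rfl⟩, k, ?_⟩
    rw [← hk]
    exact (MulAut.conj g).orderOf_eq z

/-- a `p`-group is not the union of at most `p` proper subgroups -/
theorem pgroup_case (p : ℕ) [Fact p.Prime] {G : Type u} [Group G] [Finite G] (hG : IsPGroup p G)
    {ι : Type v} [Fintype ι] (K : ι → Subgroup G) (hK : ∀ i, K i ≠ ⊤)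
    (hcov : ∀ g : G, ∃ i, g ∈ K i) : p + 1 ≤ Fintype.card ι := by
  classical
  have hp : p.Prime := Fact.out
  by_contra hlt
  have hle : Fintype.card ι ≤ p := by omega
  have hidx : ∀ i, p * Nat.card (K i) ≤ Nat.card G := by
    intro i
    obtain ⟨n, hn⟩ := hG.index (K i)
    rcases n with _ | n
    · exact absurd (index_eq_one.1 (by simpa using hn)) (hK i)
    · rw [← (K i).card_mul_index, hn, pow_succ, mul_comm p]
      apply Nat.mul_le_mul_left
      exact Nat.le_mul_of_pos_left _ (pow_pos hp.pos n)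
  have hsurj : Function.Surjective
      (fun x : (Σ i, {y : K i // y ≠ 1}) => (⟨(x.2.1 : G), fun h => x.2.2 (Subtype.ext h)⟩ : {g : G // g ≠ 1})) := by
    rintro ⟨g, hg⟩
    obtain ⟨i, hi⟩ := hcov g
    exact ⟨⟨i, ⟨⟨g, hi⟩, fun h => hg (congrArg Subtype.val h)⟩⟩, rfl⟩
  have h1 := Nat.card_le_card_of_surjective _ hsurj
  have hc : ∀ (H : Type u) [Group H] [Finite H], Nat.card {y : H // y ≠ 1} = Nat.card H - 1 := by
    intro H _ _
    have := Fintype.ofFinite H
    rw [Nat.card_eq_fintype_card, Nat.card_eq_fintype_card, Fintype.card_subtype_compl]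
    simp
  rw [Nat.card_sigma, hc G] at h1
  simp_rw [hc] at h1
  obtain ⟨i0, -⟩ := hcov 1
  have hGp : p ≤ Nat.card G := le_trans (Nat.le_mul_of_pos_right _ Nat.card_pos) (hidx i0)
  have h2 : p * ∑ i, (Nat.card (K i) - 1) ≤ p * (Nat.card G - p) := by
    rw [Finset.mul_sum]
    calc ∑ i, p * (Nat.card (K i) - 1) ≤ ∑ _i : ι, (Nat.card G - p) := by
          apply Finset.sum_le_sum
          intro i _
          rw [Nat.mul_sub, mul_one]
          exact Nat.sub_le_sub_right (hidx i) p
      _ = Fintype.card ι * (Nat.card G - p) := by simp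
      _ ≤ p * (Nat.card G - p) := Nat.mul_le_mul_right _ hle
  have h3 : ∑ i, (Nat.card (K i) - 1) ≤ Nat.card G - p := Nat.le_of_mul_le_mul_left h2 hp.pos
  have := hp.two_le
  omega

theorem main (p : ℕ) [Fact p.Prime] {ι : Type v} [Fintype ι] :
    ∀ (n : ℕ) (G : Type u) [Group G] [Finite G], Nat.card G = n →
      closure {g : G | ∃ k : ℕ, orderOf g = p ^ k} = ⊤ →
      ∀ K : ι → Subgroup G, (∀ i, K i ≠ ⊤) →
        (∀ g : G, (∃ k : ℕ, orderOf g = p ^ k) → ∃ i, g ∈ K i) → p + 1 ≤ Fintype.card ι := by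
  classical
  have hp : p.Prime := Fact.out
  intro n
  induction n using Nat.strong_induction_on with
  | _ n ih =>
  intro G _ _ hn hgen K hK hcov
  by_contra hlt
  have hle : Fintype.card ι ≤ p := by omega
  -- Step 1
  have step1 : ∀ H : Subgroup G, H ≠ ⊤ → O p H = H → ∃ i, H ≤ K i := by
    intro H hH hO
    by_contra hno
    push Not at hno
    apply hlt
    have hcard : Nat.card H < n := by
      rw [← hn]
      by_contra hge
      exact hH (eq_top_of_card_eq H (le_antisymm (card_le_card_group H) (not_lt.1 hge)))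
    refine ih (Nat.card H) hcard H rfl ?_ (fun i => (K i).subgroupOf H) ?_ ?_
    · apply map_injective H.subtype_injective
      rw [MonoidHom.map_closure, ← MonoidHom.range_eq_map, range_subtype]
      conv_rhs => rw [← hO]
      unfold O
      congr 1
      ext y
      constructor
      · rintro ⟨z, ⟨k, hk⟩, rfl⟩
        exact ⟨z.2, k, by rw [← hk]; exact Subgroup.orderOf_coe z⟩
      · rintro ⟨hy, k, hk⟩
        exact ⟨⟨y, hy⟩, ⟨k, by rw [← hk]; exact Subgroup.orderOf_mk y hy⟩, rfl⟩
    · intro i h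
      exact hno i (subgroupOf_eq_top.1 h)
    · rintro g ⟨k, hk⟩
      obtain ⟨i, hi⟩ := hcov (g : G) ⟨k, by rw [← hk]; exact Subgroup.orderOf_coe g⟩
      exact ⟨i, mem_subgroupOf.2 hi⟩
  obtain ⟨P⟩ : Nonempty (Sylow p G) := inferInstance
  by_cases hPtop : (P : Subgroup G) = ⊤
  · -- `G` is a `p`-group
    have hG : IsPGroup p G := by
      have := P.2
      rw [hPtop] at this
      exact this.of_equiv topEquiv
    apply hlt
    apply pgroup_case p hG K hK
    intro g
    exact hcov g ((IsPGroup.iff_orderOf.1 hG) g)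
  -- the family `s'`
  let s' : Set (Subgroup G) := {X | X ≠ ⊤ ∧ O p X = X ∧ ¬ p ∣ X.index}
  have hPs : (P : Subgroup G) ∈ s' := by
    refine ⟨hPtop, ?_, P.not_dvd_index⟩
    apply le_antisymm (O_le p _)
    intro g hg
    apply Subgroup.subset_closure
    refine ⟨hg, ?_⟩
    obtain ⟨k, hk⟩ := (IsPGroup.iff_orderOf.1 P.2) ⟨g, hg⟩
    exact ⟨k, by rw [← hk]; exact (Subgroup.orderOf_mk g hg).symm⟩
  have : Nonempty s' := ⟨⟨_, hPs⟩⟩
  obtain ⟨⟨M, hMs⟩, hMmax⟩ := Finite.exists_max (fun X : s' => Nat.card (X : Subgroup G))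
  have hMmax' : ∀ X ∈ s', Nat.card X ≤ Nat.card M := fun X hX => hMmax ⟨X, hX⟩
  obtain ⟨hMtop, hMO, hMidx⟩ := hMs
  -- conjugates of `M`
  let Mc : G → Subgroup G := fun g => M.map (MulAut.conj g).toMonoidHom
  have hMc_card : ∀ g, Nat.card (Mc g) = Nat.card M := fun g =>
    (Nat.card_congr (M.equivMapOfInjective _ (MulAut.conj g).injective).toEquiv).symm
  have hMc_top : ∀ g, Mc g ≠ ⊤ := by
    intro g h
    apply hMtop
    apply eq_top_of_card_eq
    rw [← hMc_card g, h, card_top]
  have hMc_O : ∀ g, O p (Mc g) = Mc g := by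
    intro g
    show O p (M.map _) = M.map _
    rw [O_conj, hMO]
  have hchoice : ∀ g, ∃ i, Mc g ≤ K i := fun g => step1 _ (hMc_top g) (hMc_O g)
  choose φ hφ using hchoice
  have hMc_eq : ∀ g i, Mc g ≤ K i → Mc g = O p (K i) := by
    intro g i hgi
    have h1 : Mc g ≤ O p (K i) := by
      rw [← hMc_O g]; exact O_mono p hgi
    apply eq_of_le_of_card_ge h1
    rw [hMc_card]
    apply hMmax'
    refine ⟨?_, O_O p _, ?_⟩
    · intro h
      apply hK i
      rw [eq_top_iff, ← h]
      exact O_le p _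
    · intro hdvd
      apply hMidx
      have h2 : (O p (K i)).index ∣ (Mc g).index := index_dvd_of_le h1
      have h3 : (Mc g).index = M.index := index_map_equiv M (MulAut.conj g)
      rw [h3] at h2
      exact hdvd.trans h2
  set N := normalizer (M : Set G) with hN
  have hinj : Function.Injective (fun q : G ⧸ N => φ q.out) := by
    intro q1 q2 h
    simp only at h
    have e1 := hMc_eq _ _ (hφ q1.out)
    have e2 := hMc_eq _ _ (hφ q2.out)
    rw [h] at e1
    have e3 : Mc q1.out = Mc q2.out := e1.trans e2.symm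
    rw [← q1.out_eq', ← q2.out_eq']
    rw [QuotientGroup.eq]
    show _ ∈ normalizer (M : Set G)
    rw [mem_normalizer_iff_map_conj_eq]
    have e4 : (Mc q1.out).map (MulAut.conj (q1.out)⁻¹).toMonoidHom =
        (Mc q2.out).map (MulAut.conj (q1.out)⁻¹).toMonoidHom := by rw [e3]
    simp only [Mc, map_map] at e4
    have e5 : (MulAut.conj (q1.out)⁻¹).toMonoidHom.comp (MulAut.conj q1.out).toMonoidHom = MonoidHom.id G := by
      ext y; simp [MulAut.conj_apply, mul_assoc]
    have e6 : (MulAut.conj (q1.out)⁻¹).toMonoidHom.comp (MulAut.conj q2.out).toMonoidHom =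
        (MulAut.conj ((q1.out)⁻¹ * q2.out)).toMonoidHom := by
      ext y; simp [MulAut.conj_apply, mul_assoc]
    rw [e5, e6, map_id] at e4
    exact e4.symm
  have hNidx_le : N.index ≤ p := by
    have := Nat.card_le_card_of_injective _ hinj
    rw [Nat.card_eq_fintype_card (α := ι)] at this
    exact this.trans hle
  have hNidx_ndvd : ¬ p ∣ N.index := fun h => hMidx (h.trans (index_dvd_of_le le_normalizer))
  have hNidx_lt : N.index < p := by
    rcases Nat.lt_or_ge N.index p with h | h
    · exact h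
    · exact absurd (by rw [le_antisymm hNidx_le h]) hNidx_ndvd
  -- every `p`-element normalizes `M`
  have hpelN : ∀ x : G, (∃ k : ℕ, orderOf x = p ^ k) → x ∈ N := by
    rintro x ⟨k, hk⟩
    let f := MulAction.toPermHom G (G ⧸ N)
    have h1 : orderOf (f x) ∣ p ^ k := hk ▸ orderOf_map_dvd f x
    have h2 : orderOf (f x) ∣ (N.index).factorial := by
      have := orderOf_dvd_natCard (f x)
      rwa [Nat.card_perm] at this
    have h3 : (p ^ k).Coprime (N.index).factorial := by
      apply Nat.Coprime.pow_left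
      rw [Nat.Prime.coprime_iff_not_dvd hp, hp.dvd_factorial]
      omega
    have h4 : orderOf (f x) = 1 := Nat.eq_one_of_dvd_coprimes h3 h1 h2
    have h5 : f x = 1 := orderOf_eq_one_iff.1 h4
    have h6 : x • ((1 : G) : G ⧸ N) = ((1 : G) : G ⧸ N) := by
      have := congrArg (fun σ : Equiv.Perm (G ⧸ N) => σ ((1 : G) : G ⧸ N)) h5
      simpa [f] using this
    have h7 : ((x * 1 : G) : G ⧸ N) = ((1 : G) : G ⧸ N) := h6
    rw [QuotientGroup.eq] at h7
    have := N.inv_mem h7
    simpa using this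
  have hNtop : N = ⊤ := by
    rw [eq_top_iff, ← hgen, closure_le]
    exact fun x hx => hpelN x hx
  have hMn : M.Normal := normalizer_eq_top_iff.1 hNtop
  -- `M` contains a Sylow subgroup hence all `p`-elements
  apply hMtop
  rw [eq_top_iff, ← hgen, closure_le]
  rintro x ⟨k, hk⟩
  -- image of `x` in `G ⧸ M` has order dividing `p ^ k` and `M.index`
  have h1 : orderOf (x : G ⧸ M) ∣ p ^ k := hk ▸ orderOf_map_dvd (QuotientGroup.mk' M) x
  have h2 : orderOf (x : G ⧸ M) ∣ M.index := orderOf_dvd_natCard _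
  have h3 : (p ^ k).Coprime M.index := by
    apply Nat.Coprime.pow_left
    rwa [Nat.Prime.coprime_iff_not_dvd hp]
  have h4 : orderOf (x : G ⧸ M) = 1 := Nat.eq_one_of_dvd_coprimes h3 h1 h2
  exact (QuotientGroup.eq_one_iff x).1 (orderOf_eq_one_iff.1 h4)

/-- Let p be a prime and G a finite group generated by its p-elements. If a finite family of proper subgroups of G covers the set of p-elements of G (every element of p-power order lies in one of them), then the family has at least p + 1 members. -/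
theorem result {G : Type*} [Group G] [Finite G] (p : ℕ) [Fact p.Prime] (hgen : Subgroup.closure {g : G | ∃ k : ℕ, orderOf g = p ^ k} = ⊤)
    {ι : Type*} [Fintype ι] (K : ι → Subgroup G) (hK : ∀ i, K i ≠ ⊤)
    (hcov : ∀ g : G, (∃ k : ℕ, orderOf g = p ^ k) → ∃ i, g ∈ K i) :
    p + 1 ≤ Fintype.card ι :=
  main p (Nat.card G) G rfl hgen K hK hcov

end Cfsg.Agent.S4182
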