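import Mathlib
import Cfsg.Statements.S4184

set_option autoImplicit false
open Cfsg

namespace Cfsg.Agent.S4184

open Subgroup

/-- class size of `g`. -/
noncomputable def cs {G : Type*} [Group G] (g : G) : ℕ := (centralizer ({g} : Set G)).index

/-- `n` carries the full `A`-part of `m`. -/
def Full (A : Set ℕ) (m n : ℕ) : Prop :=
  ∀ r ∈ A, r.Prime → m.factorization r ≤ n.factorization r

theorem Full.mono {A : Set ℕ} {m n n' : ℕ} (h : Full A m n) (hd : n ∣ n') (hn' : n' ≠ 0) :
    Full A m n' := by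
  intro r hr hp
  have hn : n ≠ 0 := by
    rintro rfl
    exact hn' (Nat.eq_zero_of_zero_dvd hd)
  exact (h r hr hp).trans (((Nat.factorization_le_iff_dvd hn hn').2 hd) r)

theorem Full.dvd {A : Set ℕ} {m n : ℕ} (h : Full A m n) (h' : Full Aᶜ m n) (hm : m ≠ 0)
    (hn : n ≠ 0) : m ∣ n := by
  rw [← Nat.factorization_le_iff_dvd hm hn]
  intro r
  by_cases hp : r.Prime
  · by_cases hr : r ∈ A
    · exact h r hr hp
    · exact h' r hr hp
  · rw [Nat.factorization_eq_zero_of_not_prime _ hp]
    exact Nat.zero_le _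

section basics
variable {G : Type*} [Group G] [Finite G]

theorem cs_ne_zero (g : G) : cs g ≠ 0 := by
  unfold cs
  exact Subgroup.index_ne_zero_of_finite

theorem cs_mul_card (g : G) : cs g * Nat.card (centralizer ({g} : Set G)) = Nat.card G :=
  Subgroup.index_mul_card _

theorem cs_dvd_card (g : G) : cs g ∣ Nat.card G := Subgroup.index_dvd_card _

theorem cs_one : cs (1 : G) = 1 := by
  unfold cs
  rw [Subgroup.index_eq_one, eq_top_iff]
  intro x _
  rw [mem_centralizer_singleton_iff]
  simp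

theorem cs_ne_one (hZ : center G = ⊥) {g : G} (hg : g ≠ 1) : cs g ≠ 1 := by
  intro h
  unfold cs at h
  rw [Subgroup.index_eq_one] at h
  apply hg
  have : g ∈ center G := by
    rw [Subgroup.mem_center_iff]
    intro x
    have hx : x ∈ centralizer ({g} : Set G) := by rw [h]; trivial
    rw [mem_centralizer_singleton_iff] at hx
    exact hx
  rw [hZ] at this
  exact (Subgroup.mem_bot).1 this

theorem cs_conj (g x : G) : cs (x * g * x⁻¹) = cs g := by
  have h1 := cs_mul_card g
  have h2 := cs_mul_card (x * g * x⁻¹)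
  have h3 : Nat.card (centralizer ({x * g * x⁻¹} : Set G)) = Nat.card (centralizer ({g} : Set G)) := by
    have : centralizer ({x * g * x⁻¹} : Set G)
        = (centralizer ({g} : Set G)).map (MulAut.conj x).toMonoidHom := by
      ext y
      rw [Subgroup.mem_map_equiv, mem_centralizer_singleton_iff, mem_centralizer_singleton_iff]
      simp only [MulAut.conj_symm_apply]
      constructor
      · intro h
        calc x⁻¹ * y * x * g = x⁻¹ * (y * (x * g * x⁻¹)) * x := by group
          _ = x⁻¹ * ((x * g * x⁻¹) * y) * x := by rw [h]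
          _ = g * (x⁻¹ * y * x) := by group
      · intro h
        calc y * (x * g * x⁻¹) = x * (x⁻¹ * y * x * g) * x⁻¹ := by group
          _ = x * (g * (x⁻¹ * y * x)) * x⁻¹ := by rw [h]
          _ = x * g * x⁻¹ * y := by group
    rw [this]
    exact Subgroup.card_map_of_injective (MulAut.conj x).injective
  rw [h3, ← h1] at h2
  exact Nat.eq_of_mul_eq_mul_right Nat.card_pos h2

/-- `¬ |G| ∣ cs g` for `g ≠ 1`. -/
theorem not_card_dvd_cs {g : G} (hg : g ≠ 1) : ¬ Nat.card G ∣ cs g := by
  intro h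
  have h1 := cs_mul_card g
  have h2 : 1 < Nat.card (centralizer ({g} : Set G)) := by
    rw [Finite.one_lt_card_iff_nontrivial]
    refine ⟨⟨⟨g, ?_⟩, 1, ?_⟩⟩
    · rw [mem_centralizer_singleton_iff]
    · intro h
      exact hg (congrArg Subtype.val h)
  have h3 := Nat.le_of_dvd (Nat.pos_of_ne_zero (cs_ne_zero g)) h
  have h4 : 0 < cs g := Nat.pos_of_ne_zero (cs_ne_zero g)
  nlinarith

/-- commuting elements of coprime orders. -/
theorem cs_dvd_cs_mul {u w : G} (hc : Commute u w) (hco : (orderOf u).Coprime (orderOf w)) :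
    cs u ∣ cs (u * w) := by
  unfold cs
  apply Subgroup.index_dvd_of_le
  intro g hg
  rw [mem_centralizer_singleton_iff] at hg ⊢
  obtain ⟨k, hk⟩ := exists_pow_eq_self_of_coprime (x := u) (n := orderOf w) hco.symm
  have h1 : (u * w) ^ (orderOf w) = u ^ (orderOf w) := by
    rw [hc.mul_pow, pow_orderOf_eq_one, mul_one]
  have h2 : ((u * w) ^ (orderOf w)) ^ k = u := by rw [h1, hk]
  have h3 : Commute g (u * w) := hg
  have h4 : Commute g (((u * w) ^ (orderOf w)) ^ k) := (h3.pow_right _).pow_right _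
  rw [h2] at h4
  exact h4

theorem cs_dvd_cs_mul' {u w : G} (hc : Commute u w) (hco : (orderOf u).Coprime (orderOf w)) :
    cs w ∣ cs (u * w) := by
  have := cs_dvd_cs_mul hc.symm hco.symm
  rwa [hc.symm.eq] at this

theorem mul_ne_one_of_coprime {u w : G} (hco : (orderOf u).Coprime (orderOf w)) (hu : u ≠ 1) :
    u * w ≠ 1 := by
  intro h
  have h1 : u = w⁻¹ := eq_inv_of_mul_eq_one_left h
  have h2 : orderOf u = orderOf w := by rw [h1, orderOf_inv]
  rw [h2, Nat.coprime_self] at hco
  rw [hco, orderOf_eq_one_iff] at h2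
  exact hu h2

end basics

/-- the data extracted from `M`. -/
structure Hyp (G : Type*) [Group G] (m : ℕ) (A : Set ℕ) : Prop where
  full : ∀ g : G, g ≠ 1 → Full A m (cs g) ∨ Full Aᶜ m (cs g)
  ndvd : ∀ g : G, g ≠ 1 → ¬ m ∣ cs g
  dvd : ∀ g : G, cs g ∣ m
  exA : ∃ a ∈ A, a.Prime ∧ a ∣ m
  exB : ∃ b ∉ A, b.Prime ∧ b ∣ m
  dvd_card : m ∣ Nat.card G

section core
variable {G : Type*} [Group G] [Finite G] {m : ℕ} {A : Set ℕ}

theorem Hyp.compl (H : Hyp G m A) : Hyp G m Aᶜ where
  full := fun g hg => by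
    rw [compl_compl]
    exact (H.full g hg).symm
  ndvd := H.ndvd
  dvd := H.dvd
  exA := by
    obtain ⟨b, hb, h⟩ := H.exB
    exact ⟨b, hb, h⟩
  exB := by
    obtain ⟨a, ha, h⟩ := H.exA
    exact ⟨a, fun hh => hh ha, h⟩
  dvd_card := H.dvd_card

theorem Hyp.m_ne_zero (H : Hyp G m A) : m ≠ 0 := by
  rintro rfl
  have := H.dvd_card
  rw [zero_dvd_iff] at this
  exact Nat.card_pos.ne' this

theorem Hyp.not_both (H : Hyp G m A) {g : G} (hg : g ≠ 1) (h1 : Full A m (cs g))
    (h2 : Full Aᶜ m (cs g)) : False :=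
  H.ndvd g hg (h1.dvd h2 H.m_ne_zero (cs_ne_zero g))

theorem Hyp.same_type (H : Hyp G m A) {u w : G} (hc : Commute u w)
    (hco : (orderOf u).Coprime (orderOf w)) (hu : u ≠ 1) (hw : Full A m (cs w)) :
    Full A m (cs u) := by
  rcases H.full u hu with h | h
  · exact h
  · exfalso
    exact H.not_both (mul_ne_one_of_coprime hco hu)
      (hw.mono (cs_dvd_cs_mul' hc hco) (cs_ne_zero _))
      (h.mono (cs_dvd_cs_mul hc hco) (cs_ne_zero _))

/-- a central element of a Sylow `q`-subgroup, `q ∉ A`, is `A`-full. -/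
theorem Hyp.exists_central (H : Hyp G m A) {q : ℕ} (hq : q.Prime) (hqA : q ∉ A) (hqm : q ∣ m) :
    ∃ w : G, w ≠ 1 ∧ (∃ k, orderOf w = q ^ k) ∧ Full A m (cs w) := by
  haveI : Fact q.Prime := ⟨hq⟩
  obtain ⟨Q⟩ : Nonempty (Sylow q G) := inferInstance
  have hQ : Nontrivial (Q : Subgroup G) := by
    rw [← Finite.one_lt_card_iff_nontrivial, Sylow.card_eq_multiplicity]
    apply Nat.one_lt_pow _ hq.one_lt
    exact (hq.factorization_pos_of_dvd Nat.card_pos.ne' (hqm.trans H.dvd_card)).ne'
  haveI := Q.2.center_nontrivial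
  obtain ⟨w₀, hw₀⟩ := exists_ne (1 : center (Q : Subgroup G))
  have hw1 : ((w₀ : (Q : Subgroup G)) : G) ≠ 1 := by
    intro h
    apply hw₀
    ext
    exact h
  refine ⟨((w₀ : (Q : Subgroup G)) : G), hw1, ?_, ?_⟩
  · obtain ⟨k, hk⟩ := (IsPGroup.iff_orderOf.1 Q.2) (w₀ : (Q : Subgroup G))
    exact ⟨k, by rw [← hk, Subgroup.orderOf_coe]⟩
  · have hle : (Q : Subgroup G) ≤ centralizer ({((w₀ : (Q : Subgroup G)) : G)} : Set G) := by
      intro x hx
      rw [mem_centralizer_singleton_iff]
      have := (Subgroup.mem_center_iff.1 w₀.2) ⟨x, hx⟩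
      exact congrArg Subtype.val this
    have hnd : ¬ q ∣ cs ((w₀ : (Q : Subgroup G)) : G) := fun h =>
      Q.not_dvd_index (h.trans (Subgroup.index_dvd_of_le hle))
    rcases H.full _ hw1 with h | h
    · exact h
    · exfalso
      have h1 := h q hqA hq
      rw [Nat.factorization_eq_zero_of_not_dvd hnd] at h1
      have h2 := hq.factorization_pos_of_dvd H.m_ne_zero hqm
      omega

/-- the `p`-part of the centralizer of an `A`-full element. -/
theorem Hyp.fact_centralizer (H : Hyp G m A) {p : ℕ} (hp : p.Prime) (hpA : p ∈ A) {g : G}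
    (hg : Full A m (cs g)) :
    (Nat.card (centralizer ({g} : Set G))).factorization p + m.factorization p
      = (Nat.card G).factorization p := by
  have h1 := cs_mul_card g
  have h2 : (cs g).factorization p = m.factorization p :=
    le_antisymm (((Nat.factorization_le_iff_dvd (cs_ne_zero g) H.m_ne_zero).2 (H.dvd g)) p)
      (hg p hpA hp)
  rw [← h1, Nat.factorization_mul (cs_ne_zero g) Nat.card_pos.ne', Finsupp.add_apply, h2, add_comm]

/-- Main step. -/
theorem Hyp.key (H : Hyp G m A) {p : ℕ} (hp : p.Prime) (hpA : p ∈ A)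
    (hlt : m.factorization p < (Nat.card G).factorization p) :
    ∃ P : Sylow p G, m.factorization p = 0 ∧ ∀ u ∈ (P : Subgroup G), u ≠ 1 → Full A m (cs u) := by
  haveI : Fact p.Prime := ⟨hp⟩
  obtain ⟨q, hqA, hq, hqm⟩ := H.exB
  have hpq : p ≠ q := by
    rintro rfl
    exact hqA hpA
  obtain ⟨w, hw1, ⟨k, hwk⟩, hwF⟩ := H.exists_central hq hqA hqm
  have hcw := H.fact_centralizer hp hpA hwF
  set C := centralizer ({w} : Set G) with hC
  obtain ⟨R₀⟩ : Nonempty (Sylow p C) := inferInstance
  have hR₀card := R₀.card_eq_multiplicity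
  set R : Subgroup G := (R₀ : Subgroup C).map C.subtype with hR
  have hRcard : Nat.card R = p ^ (Nat.card C).factorization p := by
    rw [← hR₀card]
    exact Subgroup.card_map_of_injective C.subtype_injective
  have hRC : R ≤ C := by
    rintro _ ⟨x, _, rfl⟩
    exact x.2
  have hRp : IsPGroup p R := IsPGroup.of_card hRcard
  -- all elements of R are A-full
  have hRfull : ∀ u ∈ R, u ≠ 1 → Full A m (cs u) := by
    intro u hu hu1
    have hcomm : Commute u w := by
      have := hRC hu
      rw [hC, mem_centralizer_singleton_iff] at this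
      exact this
    obtain ⟨j, hj⟩ := (IsPGroup.iff_orderOf.1 hRp) ⟨u, hu⟩
    have hj' : orderOf u = p ^ j := by rw [← hj, Subgroup.orderOf_mk]
    refine H.same_type hcomm ?_ hu1 hwF
    rw [hj', hwk]
    exact Nat.Coprime.pow _ _ ((Nat.coprime_primes hp hq).2 hpq)
  have hRnt : Nontrivial R := by
    rw [← Finite.one_lt_card_iff_nontrivial, hRcard]
    apply Nat.one_lt_pow _ hp.one_lt
    omega
  obtain ⟨P, hRP⟩ := hRp.exists_le_sylow
  haveI := hRp.center_nontrivial
  obtain ⟨u₀, hu₀⟩ := exists_ne (1 : center R)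
  set u : G := ((u₀ : R) : G) with hu
  have huR : u ∈ R := (u₀ : R).2
  have hu1 : u ≠ 1 := by
    intro h
    apply hu₀
    ext
    exact h
  have huF := hRfull u huR hu1
  have hcu := H.fact_centralizer hp hpA huF
  -- C_P(u) = R
  have hle : R ≤ (P : Subgroup G) ⊓ centralizer ({u} : Set G) := by
    refine le_inf hRP ?_
    intro x hx
    rw [mem_centralizer_singleton_iff]
    have := (Subgroup.mem_center_iff.1 u₀.2) ⟨x, hx⟩
    exact congrArg Subtype.val this
  have hCPp : IsPGroup p ((P : Subgroup G) ⊓ centralizer ({u} : Set G) : Subgroup G) :=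
    P.2.to_le inf_le_left
  obtain ⟨j, hj⟩ := IsPGroup.iff_card.1 hCPp
  have hjle : j ≤ (Nat.card (centralizer ({u} : Set G))).factorization p := by
    rw [← hp.pow_dvd_iff_le_factorization Nat.card_pos.ne', ← hj]
    exact Subgroup.card_dvd_of_le inf_le_right
  have heq : R = (P : Subgroup G) ⊓ centralizer ({u} : Set G) := by
    apply Subgroup.eq_of_le_of_card_ge hle
    rw [hj, hRcard]
    apply Nat.pow_le_pow_right hp.pos
    omega
  -- Z(P) ≤ R
  have hPnt : Nontrivial (P : Subgroup G) := by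
    refine ⟨⟨⟨u, hRP huR⟩, 1, ?_⟩⟩
    intro h
    exact hu1 (congrArg Subtype.val h)
  haveI := P.2.center_nontrivial
  obtain ⟨z₀, hz₀⟩ := exists_ne (1 : center (P : Subgroup G))
  set z : G := ((z₀ : (P : Subgroup G)) : G) with hz
  have hz1 : z ≠ 1 := by
    intro h
    apply hz₀
    ext
    exact h
  have hzR : z ∈ R := by
    rw [heq]
    refine Subgroup.mem_inf.2 ⟨(z₀ : (P : Subgroup G)).2, ?_⟩
    rw [mem_centralizer_singleton_iff]
    have := (Subgroup.mem_center_iff.1 z₀.2) ⟨u, hRP huR⟩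
    exact (congrArg Subtype.val this).symm
  have hzF := hRfull z hzR hz1
  have hPz : (P : Subgroup G) ≤ centralizer ({z} : Set G) := by
    intro x hx
    rw [mem_centralizer_singleton_iff]
    have := (Subgroup.mem_center_iff.1 z₀.2) ⟨x, hx⟩
    exact congrArg Subtype.val this
  have hnd : ¬ p ∣ cs z := fun h => P.not_dvd_index (h.trans (Subgroup.index_dvd_of_le hPz))
  have hm0 : m.factorization p = 0 := by
    have h1 := hzF p hpA hp
    rw [Nat.factorization_eq_zero_of_not_dvd hnd] at h1
    omega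
  refine ⟨P, hm0, ?_⟩
  have hRPeq : R = (P : Subgroup G) := by
    apply Subgroup.eq_of_le_of_card_ge hRP
    rw [hRcard, P.card_eq_multiplicity]
    apply Nat.pow_le_pow_right hp.pos
    omega
  rw [← hRPeq]
  exact hRfull

theorem Hyp.false_of_lt (H : Hyp G m A) {p : ℕ} (hp : p.Prime) (hpA : p ∈ A)
    (hlt : m.factorization p < (Nat.card G).factorization p) : False := by
  haveI : Fact p.Prime := ⟨hp⟩
  obtain ⟨P, hm0, hP⟩ := H.key hp hpA hlt
  obtain ⟨a, haA, ha, ham⟩ := H.exA
  have hpa : p ≠ a := by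
    rintro rfl
    have := hp.factorization_pos_of_dvd H.m_ne_zero ham
    omega
  obtain ⟨w, hw1, ⟨k, hwk⟩, hwF⟩ := H.compl.exists_central ha (fun h => h haA) ham
  -- p divides |C(w)|
  have h1 := cs_mul_card w
  have h2 : (cs w).factorization p = 0 := by
    have := ((Nat.factorization_le_iff_dvd (cs_ne_zero w) H.m_ne_zero).2 (H.dvd w)) p
    omega
  have h3 : (Nat.card (centralizer ({w} : Set G))).factorization p = (Nat.card G).factorization p := by
    rw [← h1, Nat.factorization_mul (cs_ne_zero w) Nat.card_pos.ne', Finsupp.add_apply, h2, zero_add]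
  have h4 : p ∣ Nat.card (centralizer ({w} : Set G)) := by
    apply Nat.dvd_of_factorization_pos
    omega
  obtain ⟨u₀, hu₀⟩ := exists_prime_orderOf_dvd_card' p h4
  have huo : orderOf (u₀ : G) = p := by rw [Subgroup.orderOf_coe, hu₀]
  have hu1 : (u₀ : G) ≠ 1 := by
    intro h
    rw [h, orderOf_one] at huo
    exact hp.one_lt.ne huo
  have hcomm : Commute (u₀ : G) w := by
    have := u₀.2
    rw [mem_centralizer_singleton_iff] at this
    exact this
  have huF : Full Aᶜ m (cs (u₀ : G)) := by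
    refine H.compl.same_type hcomm ?_ hu1 hwF
    rw [huo, hwk]
    exact Nat.Coprime.pow_right _ ((Nat.coprime_primes hp ha).2 hpa)
  -- conjugate into P
  have hzp : IsPGroup p (zpowers (u₀ : G)) := by
    apply IsPGroup.of_card (n := 1)
    rw [Nat.card_zpowers, huo, pow_one]
  obtain ⟨P', hP'⟩ := hzp.exists_le_sylow
  obtain ⟨g, hg⟩ := MulAction.exists_smul_eq G P' P
  have hmem : g * (u₀ : G) * g⁻¹ ∈ (P : Subgroup G) := by
    rw [← hg, Sylow.coe_subgroup_smul, Subgroup.mem_pointwise_smul_iff_inv_smul_mem]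
    rw [MulAut.smul_def, ← map_inv, MulAut.conj_apply, inv_inv]
    have : g⁻¹ * (g * (u₀ : G) * g⁻¹) * g = (u₀ : G) := by group
    rw [this]
    exact hP' (mem_zpowers _)
  have hne : g * (u₀ : G) * g⁻¹ ≠ 1 := by
    intro h
    apply hu1
    have : (u₀ : G) = g⁻¹ * (g * (u₀ : G) * g⁻¹) * g := by group
    rw [this, h]
    group
  have hF := hP _ hmem hne
  rw [cs_conj] at hF
  exact H.not_both hu1 hF huF

theorem Hyp.card_eq (H : Hyp G m A) : Nat.card G = m := by
  apply Nat.eq_of_factorization_eq Nat.card_pos.ne' H.m_ne_zero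
  intro p
  by_cases hp : p.Prime
  · have hle := ((Nat.factorization_le_iff_dvd H.m_ne_zero Nat.card_pos.ne').2 H.dvd_card) p
    by_contra hne
    have hlt : m.factorization p < (Nat.card G).factorization p := by omega
    by_cases hpA : p ∈ A
    · exact H.false_of_lt hp hpA hlt
    · exact H.compl.false_of_lt hp hpA hlt
  · rw [Nat.factorization_eq_zero_of_not_prime _ hp, Nat.factorization_eq_zero_of_not_prime _ hp]

end core

section Mside
variable {M : Type*} [Group M] [Finite M]

/-- an element of `M` of order divisible by a prime of `A` has `Aᶜ`-full class size. -/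
theorem full_of_prime_dvd {A : Set ℕ}
    (hd : ∀ a ∈ A, ∀ b ∉ A, a.Prime → b.Prime → a ∣ Nat.card M → b ∣ Nat.card M →
      ¬ ∃ x : M, orderOf x = a * b)
    {x : M} {r : ℕ} (hr : r.Prime) (hrA : r ∈ A) (hrx : r ∣ orderOf x) :
    Full Aᶜ (Nat.card M) (cs x) := by
  intro b hbA hb
  have h1 := cs_mul_card x
  have hnd : ¬ b ∣ Nat.card (centralizer ({x} : Set M)) := by
    intro hdvd
    haveI : Fact b.Prime := ⟨hb⟩
    obtain ⟨y, hy⟩ := exists_prime_orderOf_dvd_card' b hdvd
    have hyo : orderOf (y : M) = b := by rw [Subgroup.orderOf_coe, hy]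
    have hx' : orderOf (x ^ (orderOf x / r)) = r :=
      orderOf_pow_orderOf_div (orderOf_pos x).ne' hrx
    have hcomm : Commute (x ^ (orderOf x / r)) (y : M) := by
      have := y.2
      rw [mem_centralizer_singleton_iff] at this
      have h' : Commute (y : M) x := this
      exact (h'.pow_right _).symm
    have hrb : r ≠ b := by
      rintro rfl
      exact hbA hrA
    have hco : (orderOf (x ^ (orderOf x / r))).Coprime (orderOf (y : M)) := by
      rw [hx', hyo]
      exact (Nat.coprime_primes hr hb).2 hrb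
    refine hd r hrA b hbA hr hb (hrx.trans (orderOf_dvd_natCard x)) ?_
      ⟨x ^ (orderOf x / r) * (y : M), ?_⟩
    · rw [← hyo]
      exact orderOf_dvd_natCard _
    · rw [hcomm.orderOf_mul_eq_mul_orderOf_of_coprime hco, hx', hyo]
  rw [← h1, Nat.factorization_mul (cs_ne_zero x) Nat.card_pos.ne', Finsupp.add_apply,
    Nat.factorization_eq_zero_of_not_dvd hnd, add_zero]

end Mside

/-- Let G and M be finite groups with trivial centres and the same set of conjugacy class sizes, and suppose the prime graph of M is disconnected: the prime divisors of #M split into two non-empty parts such that M has no element of order pq with p in one part and q in the other. Then #G = #M. -/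
theorem result {G M : Type*}
    [Group G] [Finite G] [Group M] [Finite M] (hZG : Subgroup.center G = ⊥) (hZM : Subgroup.center M = ⊥)
    (h : Set.range (fun g : G => (Subgroup.centralizer ({g} : Set G)).index) = Set.range (fun g : M => (Subgroup.centralizer ({g} : Set M)).index))
    (hdisc : ∃ A : Set ℕ, (∃ a ∈ A, a.Prime ∧ a ∣ Nat.card M) ∧ (∃ b ∉ A, b.Prime ∧ b ∣ Nat.card M) ∧
      ∀ a ∈ A, ∀ b ∉ A, a.Prime → b.Prime → a ∣ Nat.card M → b ∣ Nat.card M → ¬ ∃ x : M, orderOf x = a * b) :
    Nat.card G = Nat.card M := by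
  obtain ⟨A, hexA, hexB, hd⟩ := hdisc
  have hd' : ∀ a ∈ Aᶜ, ∀ b ∉ Aᶜ, a.Prime → b.Prime → a ∣ Nat.card M → b ∣ Nat.card M →
      ¬ ∃ x : M, orderOf x = a * b := by
    intro a ha b hb hap hbp ham hbm
    rw [mul_comm]
    exact hd b (by simpa using hb) a ha hbp hap hbm ham
  have hGM : ∀ g : G, ∃ x : M, cs x = cs g := by
    intro g
    have : cs g ∈ Set.range (fun g : M => (Subgroup.centralizer ({g} : Set M)).index) := by
      rw [← h]
      exact ⟨g, rfl⟩
    exact this
  have hMG : ∀ x : M, ∃ g : G, cs g = cs x := by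
    intro x
    have : cs x ∈ Set.range (fun g : G => (Subgroup.centralizer ({g} : Set G)).index) := by
      rw [h]
      exact ⟨x, rfl⟩
    exact this
  have hGM' : ∀ g : G, g ≠ 1 → ∃ x : M, x ≠ 1 ∧ cs x = cs g := by
    intro g hg
    obtain ⟨x, hx⟩ := hGM g
    refine ⟨x, ?_, hx⟩
    rintro rfl
    rw [cs_one] at hx
    exact cs_ne_one hZG hg hx.symm
  have hMfull : ∀ x : M, x ≠ 1 → Full A (Nat.card M) (cs x) ∨ Full Aᶜ (Nat.card M) (cs x) := by
    intro x hx
    have hx1 : orderOf x ≠ 1 := by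
      rw [Ne, orderOf_eq_one_iff]
      exact hx
    obtain ⟨r, hr, hrx⟩ := Nat.exists_prime_and_dvd hx1
    by_cases hrA : r ∈ A
    · exact Or.inr (full_of_prime_dvd hd hr hrA hrx)
    · left
      have := full_of_prime_dvd hd' hr hrA hrx
      rwa [compl_compl] at this
  have H : Hyp G (Nat.card M) A := by
    refine ⟨?_, ?_, ?_, hexA, hexB, ?_⟩
    · intro g hg
      obtain ⟨x, hx, hxg⟩ := hGM' g hg
      rw [← hxg]
      exact hMfull x hx
    · intro g hg
      obtain ⟨x, hx, hxg⟩ := hGM' g hg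
      rw [← hxg]
      exact not_card_dvd_cs hx
    · intro g
      obtain ⟨x, hxg⟩ := hGM g
      rw [← hxg]
      exact cs_dvd_card x
    · -- |M| divides |G|
      obtain ⟨a, haA, ha, ham⟩ := hexA
      obtain ⟨b, hbA, hb, hbm⟩ := hexB
      haveI : Fact a.Prime := ⟨ha⟩
      haveI : Fact b.Prime := ⟨hb⟩
      obtain ⟨x, hx⟩ := exists_prime_orderOf_dvd_card' a ham
      obtain ⟨y, hy⟩ := exists_prime_orderOf_dvd_card' b hbm
      have hxF : Full Aᶜ (Nat.card M) (cs x) := full_of_prime_dvd hd ha haA (by rw [hx])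
      have hyF : Full A (Nat.card M) (cs y) := by
        have := full_of_prime_dvd hd' hb hbA (x := y) (by rw [hy])
        rwa [compl_compl] at this
      obtain ⟨g, hg⟩ := hMG x
      obtain ⟨g', hg'⟩ := hMG y
      rw [← hg] at hxF
      rw [← hg'] at hyF
      exact (hyF.mono (cs_dvd_card g') Nat.card_pos.ne').dvd
        (hxF.mono (cs_dvd_card g) Nat.card_pos.ne') Nat.card_pos.ne' Nat.card_pos.ne'
  exact H.card_eq

end Cfsg.Agent.S4184
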