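import Cfsg.Statements.S4186
import Mathlib

set_option autoImplicit false
open Cfsg

namespace Cfsg.Agent.S4186

/-- Let T and X be subgroups of a group with T a finite 2-group normalizing X but not centralizing it. Then some element of T inverts some non-identity element of X under conjugation. -/
theorem result {G : Type*} [Group G] (T X : Subgroup G) [Finite ↥T] (hT : IsPGroup 2 ↥T) (hTN : T ≤ Subgroup.normalizer (X : Set G)) (hTC : ¬ T ≤ Subgroup.centralizer (X : Set G)) : ∃ t ∈ T, ∃ x ∈ X, x ≠ 1 ∧ t * x * t⁻¹ = x⁻¹ := by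
  classical
  -- pick `t ∈ T` not centralizing `X`
  obtain ⟨t0, ht0, ht0C⟩ := SetLike.not_le_iff_exists.mp hTC
  -- order of t0 is a power of two
  obtain ⟨k, hk⟩ := hT ⟨t0, ht0⟩
  have hk' : t0 ^ 2 ^ k = 1 := by
    have := congrArg Subtype.val hk
    simpa using this
  -- find least j with t0^(2^j) centralizing X
  have hex : ∃ j, t0 ^ 2 ^ j ∈ Subgroup.centralizer (X : Set G) := ⟨k, by rw [hk']; exact one_mem _⟩
  let j := Nat.find hex
  have hj : t0 ^ 2 ^ j ∈ Subgroup.centralizer (X : Set G) := Nat.find_spec hex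
  have hj0 : j ≠ 0 := by
    intro h0
    rw [h0] at hj
    simp at hj
    exact ht0C (by simpa using hj)
  obtain ⟨i, hi⟩ := Nat.exists_eq_succ_of_ne_zero hj0
  have hi' : t0 ^ 2 ^ i ∉ Subgroup.centralizer (X : Set G) := Nat.find_min hex (by omega)
  set t := t0 ^ 2 ^ i with ht
  have htT : t ∈ T := T.pow_mem ht0 _
  have ht2 : t * t ∈ Subgroup.centralizer (X : Set G) := by
    have : t * t = t0 ^ 2 ^ j := by
      rw [hi, ht, ← pow_add, Nat.succ_eq_add_one, pow_succ]; congr 1; ring
    rw [this]; exact hj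
  rw [Subgroup.mem_centralizer_iff] at hi'
  push Not at hi'
  obtain ⟨x, hx, hxt⟩ := hi'
  have hxX : x ∈ X := hx
  have htx : t * x * t⁻¹ ∈ X := by
    have := (Subgroup.mem_normalizer_iff.mp (hTN htT)) x
    exact this.mp hxX
  refine ⟨t, htT, x⁻¹ * (t * x * t⁻¹), X.mul_mem (X.inv_mem hxX) htx, ?_, ?_⟩
  · intro h
    apply hxt
    have : t * x * t⁻¹ = x := by
      have := congrArg (fun z => x * z) h
      simpa using this
    have := congrArg (fun z => z * t) this
    simpa using this.symm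
  · have h2 := (Subgroup.mem_centralizer_iff.mp ht2) x hx
    -- h2 : x * (t*t) = t*t*x
    have h3 : t * t * x * t⁻¹ * t⁻¹ = x := by
      rw [← h2]; group
    calc t * (x⁻¹ * (t * x * t⁻¹)) * t⁻¹ = (t * x⁻¹ * t⁻¹) * (t * t * x * t⁻¹ * t⁻¹) := by group
      _ = (t * x⁻¹ * t⁻¹) * x := by rw [h3]
      _ = (x⁻¹ * (t * x * t⁻¹))⁻¹ := by group

end Cfsg.Agent.S4186
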