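import Cfsg.Statements.S4188
import Cfsg.Agent.Lib.Helper69.FB.Main

set_option autoImplicit false
open Cfsg

namespace Cfsg.Agent.S4188

/-- Let G be a finite group that is the semidirect product of a normal abelian subgroup N of odd order by a 2-subgroup P, and suppose N is the unique minimal normal subgroup of G. Then the index of the Frattini subgroup of P in P is at most #N − 1. -/
theorem result {G : Type*} [Group G] [Finite G] (N P : Subgroup G) (hN : N.Normal) (hNab : IsMulCommutative ↥N) (hNodd : Odd (Nat.card ↥N)) (hP : IsPGroup 2 ↥P) (hdisj : N ⊓ P = ⊥) (hprod : N ⊔ P = ⊤) (hmin : N ≠ ⊥ ∧ ∀ M : Subgroup G, M.Normal → M ≠ ⊥ → N ≤ M) : (frattini ↥P).index ≤ Nat.card ↥N - 1 := by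
  classical
  let _ : CommGroup ↥N := { (inferInstance : Group ↥N) with mul_comm := fun a b => hNab.is_comm.comm a b }
  have hcz : (Subgroup.centralizer (N : Set G)).Normal := inferInstance
  -- the centralizer of N in P is normal in G
  have hKn : (P ⊓ Subgroup.centralizer (N : Set G)).Normal := by
    constructor
    intro k hk g
    have hg : g ∈ N ⊔ P := by rw [hprod]; trivial
    have hg' : g ∈ ((N ⊔ P : Subgroup G) : Set G) := hg
    rw [Subgroup.normal_mul] at hg'
    obtain ⟨n, hn, p, hp, rfl⟩ := Set.mem_mul.mp hg'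
    have h1 : p * k * p⁻¹ ∈ P ⊓ Subgroup.centralizer (N : Set G) :=
      ⟨P.mul_mem (P.mul_mem hp hk.1) (P.inv_mem hp), hcz.conj_mem k hk.2 p⟩
    have h2 : n * (p * k * p⁻¹) = (p * k * p⁻¹) * n := (Subgroup.mem_centralizer_iff.mp h1.2 n hn)
    have h3 : n * p * k * (n * p)⁻¹ = p * k * p⁻¹ := by
      calc n * p * k * (n * p)⁻¹ = (n * (p * k * p⁻¹)) * n⁻¹ := by group
        _ = p * k * p⁻¹ := by rw [h2, mul_inv_cancel_right]
    rw [h3]
    exact h1
  have hK : P ⊓ Subgroup.centralizer (N : Set G) = ⊥ := by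
    by_contra hne
    have h1 := hmin.2 _ hKn hne
    apply hmin.1
    rw [eq_bot_iff, ← hdisj]
    exact le_inf le_rfl (h1.trans inf_le_left)
  let φ : ↥P →* MulAut ↥N := (MulAut.conjNormal : G →* MulAut ↥N).comp P.subtype
  have hφ : Function.Injective φ := by
    rw [injective_iff_map_eq_one]
    intro k hk
    have h1 : (k : G) ∈ P ⊓ Subgroup.centralizer (N : Set G) := by
      refine Subgroup.mem_inf.mpr ⟨k.2, ?_⟩
      rw [Subgroup.mem_centralizer_iff]
      intro n hn
      have h2 : φ k ⟨n, hn⟩ = ⟨n, hn⟩ := by rw [hk]; rfl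
      have h3 : (k : G) * n * (k : G)⁻¹ = n := congrArg Subtype.val h2
      calc n * (k : G) = ((k : G) * n * (k : G)⁻¹) * (k : G) := by rw [h3]
        _ = (k : G) * n := by group
    rw [hK, Subgroup.mem_bot] at h1
    exact Subtype.ext h1
  have hN1 : Nat.card ↥N ≠ 1 := by
    intro h
    exact hmin.1 (Subgroup.card_eq_one.mp h)
  exact Cfsg.Agent.Lib.Helper69.FB.index_frattini_le φ hφ hP hNodd hN1

end Cfsg.Agent.S4188
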