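import Cfsg.Statements.S4189
import Mathlib
import Cfsg.Agent.Lib.Helper70.RegularPGroup
import Cfsg.Agent.Lib.Helper5.Quaternion
import Cfsg.Agent.S4207
import Cfsg.Agent.S0012

set_option autoImplicit false
open Cfsg

namespace Cfsg.Agent.S4189

open scoped commutatorElement
open Cfsg.Agent.Lib.Helper70

/-- automorphisms act on the quotient by a characteristic subgroup -/
noncomputable def autQuot {P : Type*} [Group P] (N : Subgroup P) [hN : N.Characteristic] :
    MulAut P →* MulAut (P ⧸ N) where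
  toFun β := QuotientGroup.congr N N β (Subgroup.characteristic_iff_map_eq.mp hN β)
  map_one' := by
    ext x
    obtain ⟨x, rfl⟩ := QuotientGroup.mk_surjective x
    rfl
  map_mul' α β := by
    ext x
    obtain ⟨x, rfl⟩ := QuotientGroup.mk_surjective x
    rfl

theorem autQuot_mk {P : Type*} [Group P] (N : Subgroup P) [hN : N.Characteristic] (β : MulAut P) (x : P) :
    autQuot N β (x : P ⧸ N) = ((β x : P) : P ⧸ N) := rfl

/-- odd order automorphism of a four-group -/
theorem four_group {Q : Type*} [Group Q] (hcard : Nat.card Q = 4) (hexp : ∀ x : Q, x * x = 1)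
    (σ : MulAut Q) (m : ℕ) (hm : Odd m) (hσ : σ ^ m = 1) (A : Q) (hA : σ A ≠ A) :
    Subgroup.closure ({A, σ A} : Set Q) = ⊤ ∧ σ (σ A) = A * σ A := by
  classical
  have hfin : Finite Q := Nat.finite_of_card_ne_zero (by rw [hcard]; norm_num)
  have : Fintype Q := Fintype.ofFinite Q
  set B := σ A with hB
  have hA1 : A ≠ 1 := by
    rintro rfl
    exact hA (map_one σ)
  have hB1 : B ≠ 1 := by
    intro h
    apply hA1
    apply σ.injective
    rw [map_one]; exact h
  have hD1 : σ B ≠ 1 := by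
    intro h
    apply hB1
    apply σ.injective
    rw [map_one]; exact h
  have hDB : σ B ≠ B := by
    intro h
    exact hA (σ.injective h)
  have hDA : σ B ≠ A := by
    intro h
    apply hA
    have h2 : σ ^ 2 ∈ MulAction.stabilizer (MulAut Q) A := by
      rw [MulAction.mem_stabilizer_iff, pow_two]
      exact h
    obtain ⟨k, rfl⟩ := hm
    have h3 : σ ∈ MulAction.stabilizer (MulAut Q) A := by
      have e : σ = σ ^ (2 * k + 1) * ((σ ^ 2) ^ k)⁻¹ := by
        rw [← pow_mul, pow_succ]; group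
      rw [e, hσ, one_mul]
      exact Subgroup.inv_mem _ (Subgroup.pow_mem _ h2 k)
    exact h3
  have hinv : ∀ x : Q, x⁻¹ = x := fun x => inv_eq_of_mul_eq_one_left (hexp x)
  have hAB1 : A * B ≠ 1 := by
    intro h
    apply hA
    have : B = A⁻¹ := (inv_eq_of_mul_eq_one_right h).symm
    rw [this, hinv]
  have hABA : A * B ≠ A := by
    intro h
    exact hB1 (by simpa using h)
  have hABB : A * B ≠ B := by
    intro h
    exact hA1 (by simpa using h)
  have huniv : ({1, A, B, A * B} : Finset Q) = Finset.univ := by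
    apply Finset.eq_univ_of_card
    rw [← Nat.card_eq_fintype_card, hcard]
    rw [Finset.card_insert_of_notMem, Finset.card_insert_of_notMem, Finset.card_insert_of_notMem,
      Finset.card_singleton]
    · simp only [Finset.mem_singleton]; exact fun h => hABB h.symm
    · simp only [Finset.mem_insert, Finset.mem_singleton, not_or]
      exact ⟨fun h => hA h.symm, fun h => hABA h.symm⟩
    · simp only [Finset.mem_insert, Finset.mem_singleton, not_or]
      exact ⟨fun h => hA1 h.symm, fun h => hB1 h.symm, fun h => hAB1 h.symm⟩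
  have hall : ∀ x : Q, x = 1 ∨ x = A ∨ x = B ∨ x = A * B := by
    intro x
    have : x ∈ ({1, A, B, A * B} : Finset Q) := by rw [huniv]; exact Finset.mem_univ x
    simpa using this
  constructor
  · rw [eq_top_iff]
    intro x _
    have hAm : A ∈ Subgroup.closure ({A, B} : Set Q) := Subgroup.subset_closure (by simp)
    have hBm : B ∈ Subgroup.closure ({A, B} : Set Q) := Subgroup.subset_closure (by simp)
    rcases hall x with rfl | rfl | rfl | rfl
    · exact Subgroup.one_mem _
    · exact hAm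
    · exact hBm
    · exact Subgroup.mul_mem _ hAm hBm
  · rcases hall (σ B) with h | h | h | h
    · exact absurd h hD1
    · exact absurd h hDA
    · exact absurd h hDB
    · exact h

/-- the class two computation -/
theorem class_two {Q : Type*} [Group Q] (σ : MulAut Q) (A B Z : Q) (i j : ℤ)
    (hc : ∀ x : Q, ⁅A, B⁆ * x = x * ⁅A, B⁆) (hA2 : A * A = ⁅A, B⁆ ^ i) (hZ : Z = ⁅A, B⁆ ^ j)
    (hσA : σ A = B) (hσB : σ B = A * B * Z) :
    A * A = ⁅A, B⁆ ∧ B * B = ⁅A, B⁆ ∧ ⁅A, B⁆ * ⁅A, B⁆ = 1 := by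
  set C := ⁅A, B⁆ with hC
  have hCdef : A * B = C * B * A := by rw [hC, commutatorElement_def]; group
  have hcz : ∀ (k : ℤ) (x : Q), C ^ k * x = x * C ^ k := by
    intro k x
    exact ((Commute.zpow_left (show Commute C x from hc x) k)).eq
  -- C^2 = 1
  have hCC : C * C = 1 := by
    -- A*A commutes with B
    have h1 : (A * A) * B = B * (A * A) := by rw [hA2]; exact hcz i B
    -- A A B = A (C B A) = C A B A = C C B A A
    have h2 : (A * A) * B = C * C * (B * (A * A)) := by
      calc (A * A) * B = A * (A * B) := by group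
        _ = A * (C * B * A) := by rw [← hCdef]
        _ = (A * C) * B * A := by group
        _ = (C * A) * B * A := by rw [hc A]
        _ = C * (A * B) * A := by group
        _ = C * (C * B * A) * A := by rw [← hCdef]
        _ = C * C * (B * (A * A)) := by group
    rw [h1] at h2
    have := mul_right_cancel (a := 1) (b := B * (A * A)) (c := C * C) (by rw [one_mul]; exact h2)
    exact this.symm
  have hCinv : C⁻¹ = C := inv_eq_of_mul_eq_one_left hCC
  have hsq : ∀ k : ℤ, C ^ k * C ^ k = 1 := by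
    intro k
    rw [← zpow_add, ← two_mul, zpow_mul, zpow_two, hCC, one_zpow]
  have hZc : ∀ x : Q, Z * x = x * Z := by rw [hZ]; exact hcz j
  have hZZ : Z * Z = 1 := by rw [hZ]; exact hsq j
  have hσC : σ C = C := by
    have h1 : σ C = ⁅B, A * B * Z⁆ := by
      rw [hC, map_commutatorElement, hσA, hσB]
    have h2 : ⁅B, A * B * Z⁆ = ⁅B, A⁆ := by
      rw [commutatorElement_def, commutatorElement_def]
      calc B * (A * B * Z) * B⁻¹ * (A * B * Z)⁻¹ = B * A * B * (Z * B⁻¹) * Z⁻¹ * B⁻¹ * A⁻¹ := by group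
        _ = B * A * B * (B⁻¹ * Z) * Z⁻¹ * B⁻¹ * A⁻¹ := by rw [hZc]
        _ = B * A * B⁻¹ * A⁻¹ := by group
    rw [h1, h2, ← commutatorElement_inv, ← hC, hCinv]
  have hσCk : ∀ k : ℤ, σ (C ^ k) = C ^ k := by
    intro k
    rw [map_zpow, hσC]
  have hBB : B * B = A * A := by
    have : σ (A * A) = B * B := by rw [map_mul, hσA]
    rw [← this, hA2, hσCk]
  have hBA : B * A = C * (A * B) := by
    rw [hCdef]
    calc B * A = (C * C) * (B * A) := by rw [hCC, one_mul]
      _ = C * (C * B * A) := by group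
  have h3 : σ (B * B) = C * ((A * A) * (B * B)) := by
    rw [map_mul, hσB]
    calc A * B * Z * (A * B * Z) = A * B * (Z * (A * B)) * Z := by group
      _ = A * B * ((A * B) * Z) * Z := by rw [hZc]
      _ = A * (B * A) * B * (Z * Z) := by group
      _ = A * (C * (A * B)) * B := by rw [hZZ, hBA, mul_one]
      _ = (A * C) * A * B * B := by group
      _ = (C * A) * A * B * B := by rw [hc A]
      _ = C * ((A * A) * (B * B)) := by group
  have h4 : σ (B * B) = A * A := by
    rw [hBB, hA2, hσCk]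
  have hAA : A * A = C := by
    rw [← h4, h3, hBB, hA2, hsq, mul_one]
  exact ⟨hAA, hBB.trans hAA, hCC⟩


theorem closure_eq_top_of_image {P : Type*} [Group P] [Finite P] (S : Set P)
    (h : Subgroup.closure ((QuotientGroup.mk' (frattini P)) '' S) = ⊤) : Subgroup.closure S = ⊤ := by
  apply frattini_nongenerating
  have h1 : (Subgroup.closure S).map (QuotientGroup.mk' (frattini P)) = ⊤ := by
    rw [MonoidHom.map_closure]; exact h
  have h2 := Subgroup.comap_map_eq (QuotientGroup.mk' (frattini P)) (Subgroup.closure S)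
  rw [h1, Subgroup.comap_top, QuotientGroup.ker_mk'] at h2
  exact h2.symm

theorem comm_of_closure_eq_top {P : Type*} [Group P] (S : Set P) (h : Subgroup.closure S = ⊤)
    (hS : ∀ x ∈ S, ∀ y ∈ S, x * y = y * x) : ∀ x y : P, x * y = y * x := by
  intro x y
  have hc := Subgroup.isMulCommutative_closure hS
  have hx : x ∈ Subgroup.closure S := by rw [h]; trivial
  have hy : y ∈ Subgroup.closure S := by rw [h]; trivial
  have := hc.is_comm.comm (⟨x, hx⟩ : Subgroup.closure S) ⟨y, hy⟩
  exact congrArg Subtype.val this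

theorem zpowers_normal_of_central {Q : Type*} [Group Q] (C : Q) (hC : ∀ x : Q, C * x = x * C) :
    (Subgroup.zpowers C).Normal := by
  constructor
  intro n hn g
  obtain ⟨k, rfl⟩ := Subgroup.mem_zpowers_iff.mp hn
  have : g * C ^ k * g⁻¹ = C ^ k := by
    have h1 : C ^ k * g = g * C ^ k := (Commute.zpow_left (show Commute C g from hC g) k).eq
    rw [← h1]; group
  rw [this]
  exact Subgroup.zpow_mem_zpowers C k

/-- Part I: the Frattini subgroup is the derived subgroup. -/
theorem frattini_eq_commutator {P : Type*} [Group P] [Finite P] (hP : IsPGroup 2 P)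
    (hna : ¬ IsMulCommutative P) (h4 : (commutator P).index = 4) : frattini P = commutator P := by
  have : Fact (Nat.Prime 2) := ⟨Nat.prime_two⟩
  obtain ⟨hcomm_le, hsq⟩ := Cfsg.Agent.S0012.result 2 hP
  have hidx_dvd : (frattini P).index ∣ 2 ^ 2 := by
    have := Subgroup.index_dvd_of_le hcomm_le
    rw [h4] at this
    exact this
  obtain ⟨r, hr2, hr⟩ := (Nat.dvd_prime_pow Nat.prime_two).mp hidx_dvd
  have hr2' : r = 2 := by
    by_contra hne
    have hr1 : r ≤ 1 := by omega
    have hQ : Nat.card (P ⧸ frattini P) = 2 ^ r := hr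
    obtain ⟨xbar, hxbar⟩ := Cfsg.Agent.S4207.exists_gen hQ
    choose x hx using fun i => QuotientGroup.mk_surjective (xbar i)
    have hgen : Subgroup.closure (Set.range x) = ⊤ := by
      apply Cfsg.Agent.S4207.closure_eq_top_of_mk x
      have : (fun i => (x i : P ⧸ frattini P)) = xbar := funext hx
      rw [this, hxbar]
    apply hna
    refine ⟨⟨comm_of_closure_eq_top _ hgen ?_⟩⟩
    rintro _ ⟨i, rfl⟩ _ ⟨j, rfl⟩
    have : i = j := by
      apply Fin.ext
      have := i.2
      have := j.2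
      omega
    rw [this]
  subst hr2'
  have h1 := Subgroup.relIndex_mul_index hcomm_le
  rw [hr, h4] at h1
  have h2 : (commutator P).relIndex (frattini P) = 1 := by omega
  exact le_antisymm (Subgroup.relIndex_eq_one.mp h2) hcomm_le


/-- Part I': existence of the generators `a`, `b = β a`. -/
theorem exists_gens {P : Type*} [Group P] [Finite P] (hP : IsPGroup 2 P)
    (hna : ¬ IsMulCommutative P) (h4 : (commutator P).index = 4) (haut : ¬ IsPGroup 2 (MulAut P)) :
    ∃ (β : MulAut P) (a : P), Subgroup.closure ({a, β a} : Set P) = ⊤ ∧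
      (a * β a)⁻¹ * β (β a) ∈ commutator P := by
  have : Fact (Nat.Prime 2) := ⟨Nat.prime_two⟩
  obtain ⟨hcomm_le, hsq⟩ := Cfsg.Agent.S0012.result 2 hP
  have hΦ := frattini_eq_commutator hP hna h4
  obtain ⟨n, hn⟩ := IsPGroup.iff_card.mp hP
  have hidx : (frattini P).index = 2 ^ 2 := by rw [hΦ, h4]; norm_num
  unfold IsPGroup at haut
  push Not at haut
  obtain ⟨α, hα⟩ := haut
  have hα0 : orderOf α ≠ 0 := (orderOf_pos α).ne'
  obtain ⟨k, m, hm, hkm⟩ := Nat.exists_eq_two_pow_mul_odd hα0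
  set β := α ^ (2 ^ k) with hβ
  have hβm : β ^ m = 1 := by rw [hβ, ← pow_mul, ← hkm, pow_orderOf_eq_one]
  have hβ1 : β ≠ 1 := hα k
  have hσQ : autQuot (frattini P) β ≠ 1 := by
    intro h
    have hker : β ∈ (autQuot (frattini P)).ker := h
    have hdvd := Cfsg.Agent.S4207.result hn hidx ((autQuot (frattini P)).ker) (by
      intro γ hγ x
      have h1 : autQuot (frattini P) γ (x : P ⧸ frattini P) = (x : P ⧸ frattini P) := by
        rw [MonoidHom.mem_ker.mp hγ]; rfl
      rw [autQuot_mk, QuotientGroup.eq_iff_div_mem, div_eq_mul_inv] at h1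
      exact h1)
    have h1 : orderOf β ∣ 2 ^ (2 * (n - 2)) := by
      rw [← Subgroup.orderOf_mk β hker]
      exact (orderOf_dvd_natCard _).trans hdvd
    have h2 : orderOf β ∣ m := orderOf_dvd_of_pow_eq_one hβm
    have h3 : Nat.Coprime (2 ^ (2 * (n - 2))) m := by
      apply Nat.Coprime.pow_left
      rw [Nat.coprime_two_left]
      exact hm
    have h4 : orderOf β = 1 := Nat.eq_one_of_dvd_coprimes h3 h1 h2
    exact hβ1 (orderOf_eq_one_iff.mp h4)
  obtain ⟨A, hA⟩ : ∃ A : P ⧸ frattini P, autQuot (frattini P) β A ≠ A := by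
    by_contra hcon
    push Not at hcon
    apply hσQ
    ext x
    exact hcon x
  obtain ⟨a, rfl⟩ := QuotientGroup.mk_surjective A
  have hcardQ : Nat.card (P ⧸ frattini P) = 4 := by
    have : Nat.card (P ⧸ frattini P) = (frattini P).index := rfl
    rw [this, hidx]; norm_num
  have hexpQ : ∀ x : P ⧸ frattini P, x * x = 1 := by
    intro x
    obtain ⟨x, rfl⟩ := QuotientGroup.mk_surjective x
    rw [← QuotientGroup.mk_mul, QuotientGroup.eq_one_iff, ← pow_two]
    exact hsq x
  obtain ⟨h1, h2⟩ := four_group hcardQ hexpQ (autQuot (frattini P) β) m hm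
    (by rw [← map_pow, hβm, map_one]) (a : P ⧸ frattini P) hA
  refine ⟨β, a, ?_, ?_⟩
  · apply closure_eq_top_of_image
    rw [Set.image_pair]
    exact h1
  · rw [← hΦ]
    rw [autQuot_mk, autQuot_mk, ← QuotientGroup.mk_mul] at h2
    exact QuotientGroup.eq.mp h2.symm


theorem comm_aux {Q : Type*} [Group Q] (C A N : Q) (hN : ∀ x : Q, N * x = x * N)
    (h : C = A * A * N⁻¹) : C * A = A * C := by
  have h1 : N⁻¹ * A = A * N⁻¹ := by
    have := hN A
    calc N⁻¹ * A = N⁻¹ * (A * N) * N⁻¹ := by group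
      _ = N⁻¹ * (N * A) * N⁻¹ := by rw [this]
      _ = A * N⁻¹ := by group
  rw [h]
  calc A * A * N⁻¹ * A = A * A * (N⁻¹ * A) := by group
    _ = A * A * (A * N⁻¹) := by rw [h1]
    _ = A * (A * A * N⁻¹) := by group



/-- Let P be a finite non-abelian 2-group whose commutator subgroup has index 4 and whose automorphism group is not a 2-group (some automorphism has order that is not a power of 2). Then P is isomorphic to the quaternion group of order 8. -/
theorem result {P : Type*} [Group P] [Finite P] (hP : IsPGroup 2 P) (hna : ¬ IsMulCommutative P) (h4 : (commutator P).index = 4) (haut : ¬ IsPGroup 2 (MulAut P)) : Nonempty (P ≃* QuaternionGroup 2) := by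
  have : Fact (Nat.Prime 2) := ⟨Nat.prime_two⟩
  obtain ⟨hcomm_le, hsq⟩ := Cfsg.Agent.S0012.result 2 hP
  have hΦ := frattini_eq_commutator hP hna h4
  obtain ⟨β, a, hgen, hz⟩ := exists_gens hP hna h4 haut
  set b := β a with hb
  set c := ⁅a, b⁆ with hc
  have hcΓ2 : c ∈ commutator P := by
    rw [commutator_def]
    exact Subgroup.commutator_mem_commutator (Subgroup.mem_top a) (Subgroup.mem_top b)
  have hΓ2le : ∀ Ω : Subgroup P, Ω.Normal → c ∈ Ω → commutator P ≤ Ω := by
    intro Ω hΩ hcΩ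
    have := commutator_closure_pair_le Ω a b (by rw [Subgroup.normalizer_eq_top]; trivial)
      (by rw [Subgroup.normalizer_eq_top]; trivial) hcΩ
    rwa [hgen, ← commutator_def] at this
  -- general fact: image of `⁅N, ⊤⁆`-quotient is central
  have hcentral : ∀ (N : Subgroup P) [N.Normal], ∀ g ∈ N, ∀ x : P ⧸ ⁅N, (⊤ : Subgroup P)⁆,
      (g : P ⧸ ⁅N, (⊤ : Subgroup P)⁆) * x = x * (g : P ⧸ ⁅N, (⊤ : Subgroup P)⁆) := by
    intro N _ g hg x
    obtain ⟨x, rfl⟩ := QuotientGroup.mk_surjective x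
    rw [← QuotientGroup.mk_mul, ← QuotientGroup.mk_mul, QuotientGroup.eq]
    have e : (g * x)⁻¹ * (x * g) = ⁅x⁻¹, g⁻¹⁆ := by
      rw [commutatorElement_def]; group
    rw [e, Subgroup.commutator_comm]
    exact Subgroup.commutator_mem_commutator (Subgroup.mem_top _) (N.inv_mem hg)
  -- level 3
  have hmkc3 : ⁅(a : P ⧸ ⁅commutator P, (⊤ : Subgroup P)⁆), (b : P ⧸ ⁅commutator P, (⊤ : Subgroup P)⁆)⁆ =
      (c : P ⧸ ⁅commutator P, (⊤ : Subgroup P)⁆) :=
    (map_commutatorElement (QuotientGroup.mk' ⁅commutator P, (⊤ : Subgroup P)⁆) a b).symm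
  have hc3 := hcentral (commutator P) c hcΓ2
  have hΩ3 : commutator P ≤ (Subgroup.zpowers (c : P ⧸ ⁅commutator P, (⊤ : Subgroup P)⁆)).comap
      (QuotientGroup.mk' ⁅commutator P, (⊤ : Subgroup P)⁆) := by
    have := zpowers_normal_of_central _ hc3
    apply hΓ2le _ inferInstance
    exact Subgroup.mem_zpowers _
  obtain ⟨i, hi⟩ : ∃ i : ℤ, (c : P ⧸ ⁅commutator P, (⊤ : Subgroup P)⁆) ^ i = ((a * a : P) : P ⧸ ⁅commutator P, (⊤ : Subgroup P)⁆) := by
    have h1 : a * a ∈ commutator P := by rw [← hΦ, ← pow_two]; exact hsq a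
    exact Subgroup.mem_zpowers_iff.mp (hΩ3 h1)
  obtain ⟨j, hj⟩ : ∃ j : ℤ, (c : P ⧸ ⁅commutator P, (⊤ : Subgroup P)⁆) ^ j = (((a * b)⁻¹ * β b : P) : P ⧸ ⁅commutator P, (⊤ : Subgroup P)⁆) :=
    Subgroup.mem_zpowers_iff.mp (hΩ3 hz)
  obtain ⟨hAA, hBB, hCC⟩ := class_two (autQuot ⁅commutator P, (⊤ : Subgroup P)⁆ β)
    (a : P ⧸ ⁅commutator P, (⊤ : Subgroup P)⁆) (b : P ⧸ ⁅commutator P, (⊤ : Subgroup P)⁆)
    (((a * b)⁻¹ * β b : P) : P ⧸ ⁅commutator P, (⊤ : Subgroup P)⁆) i j
    (by rw [hmkc3]; exact hc3) (by rw [hmkc3, hi]; rfl) (by rw [hmkc3, hj]) rfl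
    (by
      rw [autQuot_mk, ← QuotientGroup.mk_mul, ← QuotientGroup.mk_mul]
      congr 1
      group)
  rw [hmkc3] at hAA hBB hCC
  -- level 4
  have hna' : c⁻¹ * (a * a) ∈ ⁅commutator P, (⊤ : Subgroup P)⁆ := QuotientGroup.eq.mp hAA.symm
  have hnb' : c⁻¹ * (b * b) ∈ ⁅commutator P, (⊤ : Subgroup P)⁆ := QuotientGroup.eq.mp hBB.symm
  have hcen4 := hcentral ⁅commutator P, (⊤ : Subgroup P)⁆
  have hca4 : (c : P ⧸ ⁅⁅commutator P, (⊤ : Subgroup P)⁆, (⊤ : Subgroup P)⁆) * a = a * c := by
    apply comm_aux _ _ _ (hcen4 _ hna')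
    rw [← QuotientGroup.mk_mul, ← QuotientGroup.mk_inv, ← QuotientGroup.mk_mul]
    congr 1
    group
  have hcb4 : (c : P ⧸ ⁅⁅commutator P, (⊤ : Subgroup P)⁆, (⊤ : Subgroup P)⁆) * b = b * c := by
    apply comm_aux _ _ _ (hcen4 _ hnb')
    rw [← QuotientGroup.mk_mul, ← QuotientGroup.mk_inv, ← QuotientGroup.mk_mul]
    congr 1
    group
  have hcc4 : (c : P ⧸ ⁅⁅commutator P, (⊤ : Subgroup P)⁆, (⊤ : Subgroup P)⁆) ∈
      Subgroup.center (P ⧸ ⁅⁅commutator P, (⊤ : Subgroup P)⁆, (⊤ : Subgroup P)⁆) := by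
    have hle : Subgroup.closure ({a, b} : Set P) ≤ (Subgroup.centralizer
        ({(c : P ⧸ ⁅⁅commutator P, (⊤ : Subgroup P)⁆, (⊤ : Subgroup P)⁆)} : Set _)).comap
        (QuotientGroup.mk' ⁅⁅commutator P, (⊤ : Subgroup P)⁆, (⊤ : Subgroup P)⁆) := by
      rw [Subgroup.closure_le]
      intro y hy
      rw [SetLike.mem_coe, Subgroup.mem_comap, Subgroup.mem_centralizer_iff]
      intro z hz'
      rw [Set.mem_singleton_iff] at hz'
      subst hz'
      rcases hy with rfl | rfl
      · exact hca4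
      · exact hcb4
    rw [hgen] at hle
    rw [Subgroup.mem_center_iff]
    intro g
    obtain ⟨g, rfl⟩ := QuotientGroup.mk_surjective g
    have := hle (Subgroup.mem_top g)
    rw [Subgroup.mem_comap, Subgroup.mem_centralizer_iff] at this
    exact (this _ rfl).symm
  have hΩ4 := hΓ2le ((Subgroup.center (P ⧸ ⁅⁅commutator P, (⊤ : Subgroup P)⁆, (⊤ : Subgroup P)⁆)).comap
      (QuotientGroup.mk' ⁅⁅commutator P, (⊤ : Subgroup P)⁆, (⊤ : Subgroup P)⁆)) inferInstance hcc4
  have hΓ34 : ⁅commutator P, (⊤ : Subgroup P)⁆ ≤ ⁅⁅commutator P, (⊤ : Subgroup P)⁆, (⊤ : Subgroup P)⁆ := by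
    rw [Subgroup.commutator_le]
    intro g hg x _
    rw [← QuotientGroup.eq_one_iff]
    have h1 := hΩ4 hg
    rw [Subgroup.mem_comap, Subgroup.mem_center_iff] at h1
    have h2 : ((⁅g, x⁆ : P) : P ⧸ ⁅⁅commutator P, (⊤ : Subgroup P)⁆, (⊤ : Subgroup P)⁆) =
        ⁅(g : P ⧸ ⁅⁅commutator P, (⊤ : Subgroup P)⁆, (⊤ : Subgroup P)⁆), (x : P ⧸ ⁅⁅commutator P, (⊤ : Subgroup P)⁆, (⊤ : Subgroup P)⁆)⁆ :=
      map_commutatorElement (QuotientGroup.mk' ⁅⁅commutator P, (⊤ : Subgroup P)⁆, (⊤ : Subgroup P)⁆) g x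
    rw [h2, commutatorElement_eq_one_iff_mul_comm]
    exact (h1 _).symm
  have hΓ3 : ⁅commutator P, (⊤ : Subgroup P)⁆ = ⊥ := by
    have hnil : Group.IsNilpotent P := hP.isNilpotent
    obtain ⟨n, hn⟩ := Subgroup.nilpotent_iff_lowerCentralSeries.mp hnil
    have hk : ∀ k, ⁅commutator P, (⊤ : Subgroup P)⁆ ≤ (⊤ : Subgroup P).lowerCentralSeries (2 + k) := by
      intro k
      induction k with
      | zero =>
        apply le_of_eq
        simp [Subgroup.lowerCentralSeries_succ, commutator_def]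
      | succ k ih =>
        rw [← add_assoc, Subgroup.lowerCentralSeries_succ]
        exact hΓ34.trans (Subgroup.commutator_mono ih le_rfl)
    rw [eq_bot_iff, ← hn]
    exact (hk n).trans (Subgroup.lowerCentralSeries_antitone _ (by omega))
  -- back to `P`
  have hinj : ∀ x y : P, (x : P ⧸ ⁅commutator P, (⊤ : Subgroup P)⁆) = y → x = y := by
    intro x y h
    have := QuotientGroup.eq.mp h
    rw [hΓ3, Subgroup.mem_bot] at this
    exact (inv_mul_eq_one.mp this)
  have haa : a * a = c := hinj _ _ hAA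
  have hbb : b * b = c := hinj _ _ hBB
  have hcc : c * c = 1 := hinj _ _ hCC
  have hccen : ∀ x : P, c * x = x * c := fun x => hinj _ _ (hc3 x)
  have hc1 : c ≠ 1 := by
    intro h
    apply hna
    refine ⟨⟨comm_of_closure_eq_top _ hgen ?_⟩⟩
    have hab : a * b = b * a := commutatorElement_eq_one_iff_mul_comm.mp (hc ▸ h)
    rintro x (rfl | rfl) y (rfl | rfl)
    · rfl
    · exact hab
    · exact hab.symm
    · rfl
  have hcard : Nat.card P = 4 * 2 := by
    have hle : commutator P ≤ Subgroup.zpowers c :=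
      hΓ2le _ (zpowers_normal_of_central c hccen) (Subgroup.mem_zpowers c)
    have heq : commutator P = Subgroup.zpowers c :=
      le_antisymm hle (by rw [Subgroup.zpowers_le]; exact hcΓ2)
    have ho : orderOf c = 2 := orderOf_eq_prime (by rw [pow_two]; exact hcc) hc1
    have := (commutator P).card_mul_index
    rw [h4, heq, Nat.card_zpowers, ho] at this
    omega
  apply Cfsg.Agent.Lib.Helper5.nonempty_mulEquiv_quaternionGroup a b
  · have : orderOf a = 2 ^ (1 + 1) := by
      apply orderOf_eq_prime_pow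
      · rw [pow_one, pow_two, haa]; exact hc1
      · have : a ^ 2 ^ (1 + 1) = (a * a) * (a * a) := by
          have e : 2 ^ (1 + 1) = 2 + 2 := by norm_num
          rw [e, pow_add, pow_two]
        rw [this, haa, hcc]
    rw [this]; norm_num
  · rw [pow_two, pow_two, haa, hbb]
  · -- c = a b a⁻¹ b⁻¹ = a a
    have h1 : a * b * a⁻¹ * b⁻¹ = a * a := by rw [haa, hc, commutatorElement_def]
    have h2 : b * a⁻¹ * b⁻¹ = a := by
      have := congrArg (fun z => a⁻¹ * z) h1
      simpa [mul_assoc] using this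
    have h3 : a⁻¹ = b⁻¹ * a * b := by
      have := congrArg (fun z => b⁻¹ * z * b) h2
      simpa [mul_assoc] using this
    exact h3.symm
  · intro h
    apply hc1
    obtain ⟨k, hk⟩ := Subgroup.mem_zpowers_iff.mp h
    rw [hc, commutatorElement_eq_one_iff_commute, ← hk]
    exact (Commute.refl a).zpow_right k
  · exact hcard

end Cfsg.Agent.S4189
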