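import Cfsg.Statements.S4194
import Cfsg.Agent.Lib.Helper71.CaminaHerzog

set_option autoImplicit false
open Cfsg

namespace Cfsg.Agent.S4194

/-- A finite group G has commutative Sylow 2-subgroups if and only if every 2-element of G (element of order a power of 2) is 2-central, that is, its centralizer contains a Sylow 2-subgroup of G. -/
theorem result {G : Type*} [Group G] [Finite G] (P : Sylow 2 G) :
    IsMulCommutative (P : Subgroup G) ↔ ∀ x : G, (∃ k : ℕ, orderOf x = 2 ^ k) → (∃ Q : Sylow 2 G, (Q : Subgroup G) ≤ Subgroup.centralizer ({x} : Set G)) := by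
  constructor
  · rintro hP x ⟨k, hk⟩
    have h1 : IsPGroup 2 (Subgroup.zpowers x) := by
      apply IsPGroup.of_card (n := k)
      rw [Nat.card_zpowers, hk]
    obtain ⟨Q, hQ⟩ := h1.exists_le_sylow
    refine ⟨Q, ?_⟩
    obtain ⟨g, rfl⟩ := MulAction.exists_smul_eq G P Q
    intro z hz
    have hx : x ∈ ((g • P : Sylow 2 G) : Subgroup G) := hQ (Subgroup.mem_zpowers x)
    rw [Lib.Helper71.CaminaHerzog.mem_smul_sylow] at hx hz
    rw [Lib.Helper71.CaminaHerzog.mem_cent]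
    have h2 : (⟨_, hx⟩ : ↥(P : Subgroup G)) * ⟨_, hz⟩ = ⟨_, hz⟩ * ⟨_, hx⟩ := hP.is_comm.comm _ _
    have h3 : (g⁻¹ * x * g) * (g⁻¹ * z * g) = (g⁻¹ * z * g) * (g⁻¹ * x * g) :=
      congrArg Subtype.val h2
    calc x * z = g * ((g⁻¹ * x * g) * (g⁻¹ * z * g)) * g⁻¹ := by group
      _ = g * ((g⁻¹ * z * g) * (g⁻¹ * x * g)) * g⁻¹ := by rw [h3]
      _ = z * x := by group
  · intro h
    refine ⟨⟨fun a b => ?_⟩⟩
    apply Subtype.ext
    exact Lib.Helper71.CaminaHerzog.comm_of_CH h P a.2 b.2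

end Cfsg.Agent.S4194
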