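import Cfsg.Statements.S4196
import Mathlib
import Cfsg.Agent.S4195

set_option autoImplicit false
open Cfsg

namespace Cfsg.Agent.S4196

/-- A finite group G has elementary abelian Sylow 2-subgroups (commutative with every element squaring to the identity) if and only if every 2-element of G has a Sylow 2-subgroup in its centralizer and is conjugate to its inverse. -/
theorem result {G : Type*} [Group G] [Finite G] (P : Sylow 2 G) :
    (IsMulCommutative (P : Subgroup G) ∧ ∀ x ∈ (P : Subgroup G), x ^ 2 = 1) ↔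
      ∀ x : G, (∃ k : ℕ, orderOf x = 2 ^ k) → (∃ Q : Sylow 2 G, (Q : Subgroup G) ≤ Subgroup.centralizer ({x} : Set G)) ∧ IsConj x x⁻¹ := by
  classical
  constructor
  · rintro ⟨hc, h2⟩ x ⟨k, hk⟩
    have hxp : IsPGroup 2 (Subgroup.zpowers x) := by
      apply IsPGroup.of_card (n := k)
      rw [Nat.card_zpowers, hk]
    obtain ⟨Q, hQ⟩ := hxp.exists_le_sylow
    obtain ⟨g, hg⟩ := MulAction.exists_smul_eq G P Q
    have hxQ : x ∈ Q := hQ (Subgroup.mem_zpowers x)
    have hmem : ∀ y, y ∈ Q ↔ g⁻¹ * y * g ∈ P := by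
      intro y
      have : y ∈ Q ↔ y ∈ ((g • P : Sylow 2 G) : Subgroup G) := by rw [hg]; rfl
      rw [this, Sylow.coe_subgroup_smul, Subgroup.mem_pointwise_smul_iff_inv_smul_mem]
      simp [MulAut.smul_def]
      rfl
    have hx2 : x ^ 2 = 1 := by
      have := h2 _ ((hmem x).mp hxQ)
      have h3 : g⁻¹ * x ^ 2 * g = 1 := by
        rw [← this, pow_two, pow_two]; group
      have := congrArg (fun z => g * z * g⁻¹) h3
      simpa [mul_assoc] using this
    refine ⟨⟨Q, ?_⟩, ?_⟩
    · intro y hy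
      rw [Subgroup.mem_centralizer_iff]
      intro z hz
      rw [Set.mem_singleton_iff] at hz
      subst hz
      have h1 := (hmem z).mp hxQ
      have h3 := (hmem y).mp hy
      have := hc.is_comm.comm ⟨_, h1⟩ ⟨_, h3⟩
      have h4 : g⁻¹ * z * g * (g⁻¹ * y * g) = g⁻¹ * y * g * (g⁻¹ * z * g) := congrArg Subtype.val this
      have := congrArg (fun w => g * w * g⁻¹) h4
      simpa [mul_assoc] using this
    · have : x⁻¹ = x := by
        rw [inv_eq_iff_mul_eq_one, ← pow_two, hx2]
      rw [this]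
  · intro h
    have h2 : ∀ x ∈ (P : Subgroup G), x ^ 2 = 1 := by
      intro x hx
      by_cases hx1 : x = 1
      · simp [hx1]
      obtain ⟨k, hk⟩ := (IsPGroup.iff_orderOf.mp P.2) ⟨x, hx⟩
      rw [Subgroup.orderOf_mk] at hk
      obtain ⟨⟨Q, hQ⟩, hr⟩ := h x ⟨k, hk⟩
      have := Cfsg.Agent.S4195.result x hx1 Q hQ hr
      rw [← this]; exact pow_orderOf_eq_one x
    refine ⟨⟨⟨?_⟩⟩, h2⟩
    rintro ⟨a, ha⟩ ⟨b, hb⟩
    apply Subtype.ext
    change a * b = b * a
    have hab := h2 _ (mul_mem ha hb)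
    have haa := h2 _ ha
    have hbb := h2 _ hb
    rw [pow_two] at hab haa hbb
    calc a * b = (b * b) * (a * b) * (a * a) := by rw [haa, hbb]; simp
      _ = b * (b * (a * b * (a * b)) * b⁻¹) * a := by group
      _ = b * a := by rw [hab]; group

end Cfsg.Agent.S4196
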