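import Cfsg.Statements.S4213
import Mathlib
import Cfsg.Agent.Lib.Helper70.FrobeniusCount
import Cfsg.Agent.Lib.Helper1.MinimalNormal

set_option autoImplicit false
open Cfsg

namespace Cfsg.Agent.S4213

open Cfsg.Agent.Lib.Helper70 Cfsg.Agent.Lib.Helper1

universe u

theorem normal_of_coe_eq {G : Type*} [Group G] (H : Subgroup G) (n : ℕ)
    (h : (H : Set G) = {x | x ^ n = 1}) : H.Normal := by
  constructor
  intro x hx g
  have hx' : x ∈ (H : Set G) := hx
  rw [h] at hx'
  have hx'' : x ^ n = 1 := hx'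
  have : g * x * g⁻¹ ∈ (H : Set G) := by
    rw [h]
    show (g * x * g⁻¹) ^ n = 1
    rw [conj_pow, hx'', mul_one, mul_inv_cancel]
  exact this

theorem le_card_pow_eq_one {G : Type*} [Group G] [Finite G] (n : ℕ) (hn : n ∣ Nat.card G) :
    n ≤ Nat.card {x : G // x ^ n = 1} := by
  have h1 := gcd_dvd_card_pow_eq_one (G := G) n
  rw [Nat.gcd_eq_left hn] at h1
  have : Nonempty {x : G // x ^ n = 1} := ⟨⟨1, one_pow n⟩⟩
  exact Nat.le_of_dvd Nat.card_pos h1

theorem card_preimage_mk {G : Type*} [Group G] (N : Subgroup G) (t : Set (G ⧸ N)) :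
    Nat.card ((QuotientGroup.mk : G → G ⧸ N) ⁻¹' t) = Nat.card N * Nat.card t := by
  rw [Nat.card_congr (QuotientGroup.preimageMkEquivSubgroupProdSet N t), Nat.card_prod]

theorem main : ∀ (m : ℕ) (G : Type u) [Group G] [Finite G] [Group.IsSolvable G],
    Nat.card G = m → ∀ n, n ∣ Nat.card G → Nat.card {x : G // x ^ n = 1} = n →
      ∃ H : Subgroup G, (H : Set G) = {x : G | x ^ n = 1} := by
  intro m
  induction m using Nat.strong_induction_on with
  | _ m IH =>
  intro G _ _ _ hm n hn hcount
  rcases subsingleton_or_nontrivial G with hsub | hnt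
  · refine ⟨⊤, ?_⟩
    ext x
    simp [Subsingleton.elim x 1]
  obtain ⟨N, hNn, hNne, hNmin⟩ := exists_minimal_normal (G := G)
  obtain ⟨-, p, hp, hNp⟩ := minimal_normal_elementary_abelian N inferInstance hNne hNmin
  have : Fact p.Prime := ⟨hp⟩
  have hNpg : IsPGroup p N := isPGroup_of_forall_pow_eq_one hNp
  obtain ⟨a, ha⟩ := IsPGroup.iff_card.mp hNpg
  have hn0 : 0 < n := Nat.pos_of_dvd_of_pos hn Nat.card_pos
  have hcardG : Nat.card G = Nat.card N * Nat.card (G ⧸ N) := by
    rw [mul_comm]; exact Subgroup.card_eq_card_quotient_mul_card_subgroup N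
  have hN1 : 1 < Nat.card N := by
    have : Nontrivial N := (Subgroup.nontrivial_iff_ne_bot N).2 hNne
    exact Finite.one_lt_card
  have hlt : Nat.card (G ⧸ N) < m := by
    rw [← hm, hcardG]
    have : 0 < Nat.card (G ⧸ N) := Nat.card_pos
    nlinarith
  have hpN : p ∣ Nat.card N := by
    rw [ha] at hN1 ⊢
    rcases Nat.eq_zero_or_pos a with rfl | h
    · simp at hN1
    · exact dvd_pow_self p h.ne'
  by_cases hpn : p ∣ n
  · set q := Nat.card N with hq
    set d := Nat.gcd n q with hd
    obtain ⟨n', hn'⟩ : d ∣ n := Nat.gcd_dvd_left n q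
    have hd0 : 0 < d := Nat.gcd_pos_of_pos_left _ hn0
    have hn'0 : 0 < n' := by
      rcases Nat.eq_zero_or_pos n' with h | h
      · rw [h, mul_zero] at hn'; omega
      · exact h
    have hpd : p ∣ d := Nat.dvd_gcd hpn hpN
    obtain ⟨q', hq'⟩ : d ∣ q := Nat.gcd_dvd_right n q
    have hcop : Nat.Coprime n' q' := by
      have h1 := Nat.coprime_div_gcd_div_gcd (m := n) (n := q) hd0
      have h2 : n / d = n' := by rw [hn']; exact Nat.mul_div_cancel_left _ hd0
      have h3 : q / d = q' := by rw [hq']; exact Nat.mul_div_cancel_left _ hd0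
      rwa [← hd, h2, h3] at h1
    have hn'dvd : n' ∣ Nat.card (G ⧸ N) := by
      have h1 : d * n' ∣ d * (q' * Nat.card (G ⧸ N)) := by
        rw [← hn', ← mul_assoc, ← hq', ← hcardG]; exact hn
      have h2 := Nat.dvd_of_mul_dvd_mul_left hd0 h1
      exact hcop.dvd_of_dvd_mul_left h2
    set t : Set (G ⧸ N) := {y | y ^ n' = 1} with ht
    have hsub : (QuotientGroup.mk : G → G ⧸ N) ⁻¹' t ⊆ {x : G | x ^ n = 1} := by
      intro x hx
      have hx1 : (QuotientGroup.mk x : G ⧸ N) ^ n' = 1 := hx
      rw [← QuotientGroup.mk_pow, QuotientGroup.eq_one_iff] at hx1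
      have hx2 := hNp _ hx1
      obtain ⟨k, hk⟩ := hpd
      show x ^ n = 1
      have : n = n' * p * k := by rw [hn', hk]; ring
      rw [this, pow_mul, pow_mul, hx2, one_pow]
    have hcardS := card_preimage_mk N t
    have hle : Nat.card ((QuotientGroup.mk : G → G ⧸ N) ⁻¹' t) ≤ d * n' := by
      rw [← hn', ← hcount]; exact Nat.card_mono (Set.toFinite _) hsub
    have hge : n' ≤ Nat.card t := le_card_pow_eq_one n' hn'dvd
    rw [hcardS] at hle
    have hqd : q = d := by
      apply le_antisymm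
      · have h1 : q * n' ≤ d * n' := (Nat.mul_le_mul_left q hge).trans hle
        exact Nat.le_of_mul_le_mul_right h1 hn'0
      · exact Nat.le_of_dvd (by omega) (Nat.gcd_dvd_right n q)
    have hct : Nat.card t = n' := by
      apply le_antisymm _ hge
      rw [← hqd] at hle
      exact Nat.le_of_mul_le_mul_left hle (by omega)
    obtain ⟨Hbar, hHbar⟩ := IH _ hlt (G ⧸ N) rfl n' hn'dvd hct
    refine ⟨Hbar.comap (QuotientGroup.mk' N), ?_⟩
    have hcoe : ((Hbar.comap (QuotientGroup.mk' N) : Subgroup G) : Set G)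
        = (QuotientGroup.mk : G → G ⧸ N) ⁻¹' t := by
      rw [Subgroup.coe_comap, hHbar]; rfl
    rw [hcoe]
    apply Set.eq_of_subset_of_ncard_le hsub
    rw [← Nat.card_coe_set_eq, ← Nat.card_coe_set_eq, hcardS, hct, ← hq, hqd, ← hn']
    exact hcount.le
  · have hcopq : Nat.Coprime n (Nat.card N) := by
      rw [ha]
      exact Nat.Coprime.pow_right _ (Nat.coprime_comm.mp ((Nat.Prime.coprime_iff_not_dvd hp).mpr hpn))
    have hndvd : n ∣ Nat.card (G ⧸ N) := by
      rw [hcardG] at hn; exact hcopq.dvd_of_dvd_mul_left hn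
    have hsurj : Function.Surjective (fun x : {x : G // x ^ n = 1} =>
        (⟨QuotientGroup.mk x.1, by rw [← QuotientGroup.mk_pow, x.2]; rfl⟩ :
          {y : G ⧸ N // y ^ n = 1})) := by
      rintro ⟨y, hy⟩
      obtain ⟨x, rfl⟩ := QuotientGroup.mk_surjective y
      have hord : orderOf (QuotientGroup.mk x : G ⧸ N) ∣ n := orderOf_dvd_of_pow_eq_one hy
      have hc : Nat.Coprime p (orderOf (QuotientGroup.mk x : G ⧸ N)) :=
        Nat.Coprime.of_dvd_right hord ((Nat.Prime.coprime_iff_not_dvd hp).mpr hpn)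
      obtain ⟨k, hk⟩ := exists_pow_eq_self_of_coprime hc
      have hxN : x ^ n ∈ N := by
        rw [← QuotientGroup.eq_one_iff, QuotientGroup.mk_pow]; exact hy
      refine ⟨⟨(x ^ p) ^ k, ?_⟩, ?_⟩
      · have : ((x ^ p) ^ k) ^ n = ((x ^ n) ^ p) ^ k := by
          simp only [← pow_mul]; congr 1; ring
        rw [this, hNp _ hxN, one_pow]
      · apply Subtype.ext; exact hk
    have hle : Nat.card {y : G ⧸ N // y ^ n = 1} ≤ n := by
      have h1 := Nat.card_le_card_of_surjective _ hsurj
      rwa [hcount] at h1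
    have hct : Nat.card {y : G ⧸ N // y ^ n = 1} = n :=
      le_antisymm hle (le_card_pow_eq_one n hndvd)
    obtain ⟨Hbar, hHbar⟩ := IH _ hlt (G ⧸ N) rfl n hndvd hct
    have hHbarcard : Nat.card Hbar = n := by
      rw [← hct]; exact Nat.card_congr (Equiv.setCongr hHbar)
    set H := Hbar.comap (QuotientGroup.mk' N) with hH
    have hNH : N ≤ H := by
      intro x hx
      rw [hH, Subgroup.mem_comap]
      have : QuotientGroup.mk' N x = 1 := (QuotientGroup.eq_one_iff x).mpr hx
      rw [this]; exact one_mem _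
    have hcardNH : Nat.card (N.subgroupOf H) = Nat.card N :=
      Nat.card_congr (Subgroup.subgroupOfEquivOfLe hNH).toEquiv
    have hcardH : Nat.card H = Nat.card N * n := by
      have h1 := card_preimage_mk N (Hbar : Set (G ⧸ N))
      rw [← hHbarcard]
      exact h1
    have hidx : (N.subgroupOf H).index = n := by
      have h1 := Subgroup.card_mul_index (N.subgroupOf H)
      rw [hcardNH, hcardH] at h1
      exact Nat.eq_of_mul_eq_mul_left (by omega) h1
    obtain ⟨K, hK⟩ := Subgroup.exists_right_complement'_of_coprime (N := N.subgroupOf H)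
      (by rw [hcardNH, hidx]; exact hcopq.symm)
    have hKcard : Nat.card K = n := by rw [← hidx]; exact hK.symm.index_eq_card.symm
    refine ⟨K.map H.subtype, ?_⟩
    have hsub : ((K.map H.subtype : Subgroup G) : Set G) ⊆ {x : G | x ^ n = 1} := by
      rintro x ⟨k, hk, rfl⟩
      have h1 : (⟨k, hk⟩ : ↥K) ^ Nat.card K = 1 := pow_card_eq_one'
      rw [hKcard] at h1
      have h2 : k ^ n = 1 := congrArg Subtype.val h1
      show ((k : G)) ^ n = 1
      exact_mod_cast congrArg Subtype.val h2
    apply Set.eq_of_subset_of_ncard_le hsub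
    rw [← Nat.card_coe_set_eq, ← Nat.card_coe_set_eq]
    have h3 : Nat.card (K.map H.subtype) = n := by
      rw [Subgroup.card_map_of_injective H.subtype_injective, hKcard]
    calc Nat.card {x : G | x ^ n = 1} = n := hcount
      _ = Nat.card (K.map H.subtype) := h3.symm
      _ ≤ _ := le_rfl

/-- If `G` is a finite solvable group and `n` divides the order of `G` and exactly `n` elements `x` of `G` satisfy `x^n = 1`, then these elements form a normal subgroup. -/
theorem result {G : Type*} [Group G] [Finite G] [Group.IsSolvable G] (n : ℕ) (hn : n ∣ Nat.card G) (hcount : Nat.card {x : G // x ^ n = 1} = n) : ∃ H : Subgroup G, H.Normal ∧ (H : Set G) = {x : G | x ^ n = 1} := by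
  obtain ⟨H, hH⟩ := main _ G rfl n hn hcount
  exact ⟨H, normal_of_coe_eq H n hH, hH⟩

end Cfsg.Agent.S4213
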