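import Cfsg.Statements.S4216
import Cfsg.Agent.Lib.Helper2.Alperin

set_option autoImplicit false
open Cfsg

namespace Cfsg.Agent.S4216

open scoped commutatorElement Pointwise
open Cfsg.Agent.Lib.Helper2 Subgroup

variable {G : Type*} [Group G] {p : ℕ}

/-- The right-hand side of Grün's first theorem. -/
abbrev grunD (P : Sylow p G) : Subgroup G :=
  ((P : Subgroup G) ⊓ ⁅Subgroup.normalizer ((P : Subgroup G) : Set G), Subgroup.normalizer ((P : Subgroup G) : Set G)⁆) ⊔ ⨆ z : G, (P : Subgroup G) ⊓ (⁅(P : Subgroup G), (P : Subgroup G)⁆).map (MulAut.conj z).toMonoidHom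

theorem mem_grunD_of_conj (P : Sylow p G) {w : G} (hw : w ∈ (P : Subgroup G)) (z : G)
    (hz : w ∈ (⁅(P : Subgroup G), (P : Subgroup G)⁆).map (MulAut.conj z).toMonoidHom) :
    w ∈ grunD P := by
  apply (le_sup_right : _ ≤ grunD P)
  exact (le_iSup (fun z : G => (P : Subgroup G) ⊓
    (⁅(P : Subgroup G), (P : Subgroup G)⁆).map (MulAut.conj z).toMonoidHom) z)
    (Subgroup.mem_inf.mpr ⟨hw, hz⟩)

theorem chain_lemma [Finite G] (P : Sylow p G) (D : Subgroup G) (c : ℕ)
    (IH : ∀ Q : Sylow p G, Tame P Q → c < Nat.card ((P : Subgroup G) ⊓ (Q : Subgroup G) : Subgroup G) →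
      ∀ y ∈ normalizer ((((P : Subgroup G) ⊓ (Q : Subgroup G)) : Subgroup G) : Set G),
      ∀ x ∈ (P : Subgroup G) ⊓ (Q : Subgroup G), x⁻¹ * (y⁻¹ * x * y) ∈ D) :
    ∀ (A : Set G) (g : G), AChain P A g → c < A.ncard → ∀ x ∈ A, x⁻¹ * (g⁻¹ * x * g) ∈ D := by
  intro A g h
  induction h with
  | nil A =>
    intro _ x _
    simp
  | cons A Q y x' ht hy hA _ ih =>
    intro hc x hx
    have h1 : c < Nat.card ((P : Subgroup G) ⊓ (Q : Subgroup G) : Subgroup G) := by
      refine lt_of_lt_of_le hc ?_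
      rw [← Nat.card_coe_set_eq]
      exact Nat.card_mono (Set.toFinite _) hA
    have h2 := IH Q ht h1 y hy x (hA hx)
    have h3 : (cc y • A).ncard = A.ncard := by
      rw [cc_smul_set]
      apply Set.ncard_image_of_injective
      intro a b hab
      simpa using hab
    have h4 : y⁻¹ * x * y ∈ cc y • A := by
      rw [cc_smul_set]; exact ⟨x, hx, rfl⟩
    have h5 := ih (by rw [h3]; exact hc) _ h4
    have h6 : x⁻¹ * ((y * x')⁻¹ * x * (y * x')) =
        (x⁻¹ * (y⁻¹ * x * y)) * ((y⁻¹ * x * y)⁻¹ * (x'⁻¹ * (y⁻¹ * x * y) * x')) := by group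
    rw [h6]
    exact D.mul_mem h2 h5

theorem key [Fact p.Prime] [Finite G] (P : Sylow p G) : ∀ (m : ℕ) (Q : Sylow p G), Tame P Q →
    Nat.card (P : Subgroup G) - Nat.card ((P : Subgroup G) ⊓ (Q : Subgroup G) : Subgroup G) = m →
    ∀ y ∈ normalizer ((((P : Subgroup G) ⊓ (Q : Subgroup G)) : Subgroup G) : Set G),
    ∀ x ∈ (P : Subgroup G) ⊓ (Q : Subgroup G), x⁻¹ * (y⁻¹ * x * y) ∈ grunD P := by
  intro m
  induction m using Nat.strong_induction_on with
  | _ m IHm =>
  intro Q ht hm y hy x hx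
  set T : Subgroup G := (P : Subgroup G) ⊓ (Q : Subgroup G) with hT
  set M : Subgroup G := normalizer (T : Set G) with hM
  have hTP : T ≤ (P : Subgroup G) := inf_le_left
  have hconjT : ∀ k ∈ M, ∀ a ∈ T, k⁻¹ * a * k ∈ T := by
    intro k hk a ha
    exact (mem_normalizer_iff''.mp hk a).mp ha
  by_cases hTeq : T = (P : Subgroup G)
  · apply (le_sup_left : _ ≤ grunD P)
    refine Subgroup.mem_inf.mpr ⟨?_, ?_⟩
    · exact (P : Subgroup G).mul_mem ((P : Subgroup G).inv_mem (hTP hx)) (hTP (hconjT y hy x hx))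
    · have h1 : x⁻¹ * (y⁻¹ * x * y) = ⁅x⁻¹, y⁻¹⁆ := by rw [commutatorElement_def]; group
      rw [h1]
      have hy' : y ∈ normalizer ((P : Subgroup G) : Set G) := by rw [← hTeq]; exact hy
      exact Subgroup.commutator_mem_commutator
        (Subgroup.inv_mem _ (Subgroup.le_normalizer (hTP hx))) (Subgroup.inv_mem _ hy')
  · have hTlt : T < (P : Subgroup G) := lt_of_le_of_ne hTP hTeq
    obtain ⟨u, huP, huN, huT⟩ := exists_mem_normalizer_not_mem (P : Subgroup G) T P.2 hTlt
    set S : Subgroup G := (P : Subgroup G) ⊓ M with hS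
    have hTS : T < S := by
      refine lt_of_le_of_ne (le_inf hTP Subgroup.le_normalizer) ?_
      intro h
      apply huT
      rw [h]
      exact Subgroup.mem_inf.mpr ⟨huP, huN⟩
    have hSp : IsPGroup p S := P.2.to_le inf_le_left
    have hSM : S ≤ M := inf_le_right
    have hSrel : ¬ p ∣ S.relIndex M := ht.1
    set K : Subgroup G := Subgroup.closure {h | ∃ m ∈ M, ∃ s ∈ S, h = m * s * m⁻¹} with hK
    have hKM : K ≤ M := by
      rw [hK, Subgroup.closure_le]
      rintro _ ⟨m, hm, s, hs, rfl⟩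
      exact M.mul_mem (M.mul_mem hm (hSM hs)) (M.inv_mem hm)
    have hSK : S ≤ K := by
      intro s hs
      apply Subgroup.subset_closure
      exact ⟨1, M.one_mem, s, hs, by simp⟩
    have hKgood : ∀ k ∈ K, k ∈ M ∧ ∀ a ∈ T, a⁻¹ * (k⁻¹ * a * k) ∈ grunD P := by
      intro k hk
      induction hk using Subgroup.closure_induction with
      | mem h hh =>
        obtain ⟨m, hm, s, hs, rfl⟩ := hh
        have hmem : m * s * m⁻¹ ∈ M := M.mul_mem (M.mul_mem hm (hSM hs)) (M.inv_mem hm)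
        refine ⟨hmem, fun a ha => ?_⟩
        apply mem_grunD_of_conj P _ m
        · refine Subgroup.mem_map.mpr ⟨⁅(m⁻¹ * a * m)⁻¹, s⁻¹⁆, ?_, ?_⟩
          · exact Subgroup.commutator_mem_commutator
              ((P : Subgroup G).inv_mem (hTP (hconjT m hm a ha)))
              ((P : Subgroup G).inv_mem hs.1)
          · change m * ⁅(m⁻¹ * a * m)⁻¹, s⁻¹⁆ * m⁻¹ = _
            rw [commutatorElement_def]; group
        · exact (P : Subgroup G).mul_mem ((P : Subgroup G).inv_mem (hTP ha))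
            (hTP (hconjT _ hmem a ha))
      | one => exact ⟨M.one_mem, fun a _ => by simp⟩
      | mul k1 k2 _ _ ih1 ih2 =>
        refine ⟨M.mul_mem ih1.1 ih2.1, fun a ha => ?_⟩
        have h6 : a⁻¹ * ((k1 * k2)⁻¹ * a * (k1 * k2)) =
            (a⁻¹ * (k1⁻¹ * a * k1)) * ((k1⁻¹ * a * k1)⁻¹ * (k2⁻¹ * (k1⁻¹ * a * k1) * k2)) := by group
        rw [h6]
        exact (grunD P).mul_mem (ih1.2 a ha) (ih2.2 _ (hconjT k1 ih1.1 a ha))
      | inv k _ ih =>
        refine ⟨M.inv_mem ih.1, fun a ha => ?_⟩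
        have ha' : k * a * k⁻¹ ∈ T := by
          have := hconjT k⁻¹ (M.inv_mem ih.1) a ha
          simpa using this
        have h7 := ih.2 _ ha'
        have h8 : a⁻¹ * (k⁻¹⁻¹ * a * k⁻¹) = ((k * a * k⁻¹)⁻¹ * (k⁻¹ * (k * a * k⁻¹) * k))⁻¹ := by group
        rw [h8]
        exact (grunD P).inv_mem h7
    -- Frattini argument
    set U : Subgroup G := S.map (MulAut.conj y⁻¹).toMonoidHom with hU
    have hUp : IsPGroup p U := hSp.map _
    have hUK : U ≤ K := by
      rintro _ ⟨s, hs, rfl⟩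
      apply Subgroup.subset_closure
      exact ⟨y⁻¹, M.inv_mem hy, s, hs, rfl⟩
    have hSrelK : ¬ p ∣ S.relIndex K := by
      intro h
      apply hSrel
      rw [← Subgroup.relIndex_mul_relIndex S K M hSK hKM]
      exact Dvd.dvd.mul_right h _
    obtain ⟨c, hcK, hc⟩ := exists_conj_le_of_relIndex K U S hUp hUK hSp hSrelK
    set n := y * c⁻¹ with hn
    have hnM : n ∈ M := M.mul_mem hy (M.inv_mem (hKM hcK))
    have hnS : ∀ s ∈ S, n⁻¹ * s * n ∈ S := by
      intro s hs
      have h1 := hc (y⁻¹ * s * y⁻¹⁻¹) (Subgroup.mem_map.mpr ⟨s, hs, rfl⟩)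
      have h2 : n⁻¹ * s * n = c * (y⁻¹ * s * y⁻¹⁻¹) * c⁻¹ := by rw [hn]; group
      rw [h2]; exact h1
    have hchain : AChain P (S : Set G) n := by
      apply alperin_chain P (S : Set G) n
      · intro s hs; exact hs.1
      · rw [cc_smul_set]
        rintro _ ⟨s, hs, rfl⟩
        exact (hnS s hs).1
    have hcardTS : Nat.card T < Nat.card S := card_lt_card_of_lt hTS
    have hstep := chain_lemma P (grunD P) (Nat.card T) (by
      intro Q' ht' hc' y' hy' x' hx'
      have hle : Nat.card ((P : Subgroup G) ⊓ (Q' : Subgroup G) : Subgroup G) ≤ Nat.card (P : Subgroup G) :=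
        Subgroup.card_le_of_le inf_le_left
      exact IHm _ (by omega) Q' ht' rfl y' hy' x' hx') (S : Set G) n hchain
      (by rw [← Nat.card_coe_set_eq]; exact hcardTS) x (hTS.le hx)
    have hx' : n⁻¹ * x * n ∈ T := hconjT n hnM x hx
    have hstep2 := (hKgood c hcK).2 _ hx'
    have h9 : x⁻¹ * (y⁻¹ * x * y) =
        (x⁻¹ * (n⁻¹ * x * n)) * ((n⁻¹ * x * n)⁻¹ * (c⁻¹ * (n⁻¹ * x * n) * c)) := by
      rw [hn]; group
    rw [h9]
    exact (grunD P).mul_mem hstep hstep2

/-- Grün's first Theorem: if `P` is a Sylow `p`-subgroup of the finite group `G`, then `P ∩ G'` is the subgroup generated by `P ∩ N_G(P)'` together with the subgroups `P ∩ z P' z⁻¹` for all `z ∈ G`, where `'` denotes the derived subgroup and `N_G(P)` the normalizer of `P`. -/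
theorem result {G : Type*} [Group G] [Finite G] {p : ℕ} [Fact p.Prime] (P : Sylow p G) : (P : Subgroup G) ⊓ commutator G = ((P : Subgroup G) ⊓ ⁅Subgroup.normalizer ((P : Subgroup G) : Set G), Subgroup.normalizer ((P : Subgroup G) : Set G)⁆) ⊔ ⨆ z : G, (P : Subgroup G) ⊓ (⁅(P : Subgroup G), (P : Subgroup G)⁆).map (MulAut.conj z).toMonoidHom := by
  apply le_antisymm
  · rw [inf_comm, Subgroup.commutator_inf_eq_focalSubgroup, Subgroup.focalSubgroup_def,
      Subgroup.closure_le]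
    rintro g ⟨hgP, x, hx, u, rfl⟩
    have h1 : u * x⁻¹ * u⁻¹ ∈ (P : Subgroup G) := by
      have : u * x⁻¹ * u⁻¹ = x⁻¹ * ⁅x, u⁆ := by rw [commutatorElement_def]; group
      rw [this]
      exact (P : Subgroup G).mul_mem ((P : Subgroup G).inv_mem hx) hgP
    have hchain : AChain P {x⁻¹} u⁻¹ := by
      apply alperin_chain P {x⁻¹} u⁻¹
      · intro a ha
        rw [Set.mem_singleton_iff.mp ha]
        exact (P : Subgroup G).inv_mem hx
      · rw [cc_smul_set]
        rintro _ ⟨a, ha, rfl⟩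
        rw [Set.mem_singleton_iff.mp ha, inv_inv]
        exact h1
    have := chain_lemma P (grunD P) 0 (fun Q ht _ y hy a ha => key P _ Q ht rfl y hy a ha)
      {x⁻¹} u⁻¹ hchain (by simp) x⁻¹ rfl
    have h2 : ⁅x, u⁆ = x⁻¹⁻¹ * (u⁻¹⁻¹ * x⁻¹ * u⁻¹) := by rw [commutatorElement_def]; group
    change ⁅x, u⁆ ∈ grunD P
    rw [h2]; exact this
  · apply sup_le
    · refine inf_le_inf_left _ ?_
      rw [_root_.commutator_def]
      exact Subgroup.commutator_mono le_top le_top
    · apply iSup_le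
      intro z
      refine inf_le_inf_left _ ?_
      rw [Subgroup.map_commutator, _root_.commutator_def]
      exact Subgroup.commutator_mono le_top le_top

end Cfsg.Agent.S4216
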