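import Cfsg.Statements.S4218
import Mathlib
import Cfsg.Agent.S4189
import Cfsg.Agent.S4207
import Cfsg.Agent.S0012
import Cfsg.Agent.Lib.Lead.Cores
import Cfsg.Agent.Lib.Helper76.PSolvable

set_option autoImplicit false
open Cfsg

namespace Cfsg.Agent.S4218

open Cfsg Cfsg.Agent.Lib.Lead
open scoped commutatorElement

theorem frattini_comap_eq {A B : Type*} [Group A] [Group B] (ψ : A →* B)
    (hψ : Function.Surjective ψ) (K : Subgroup A) [K.Normal] (hK : ψ.ker = K) :
    (frattini (A ⧸ K)).comap (QuotientGroup.mk' K) = (frattini B).comap ψ := by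
  subst hK
  let e := QuotientGroup.quotientKerEquivOfSurjective ψ hψ
  ext y
  simp only [Subgroup.mem_comap]
  constructor
  · intro hy
    exact frattini_le_comap_frattini_of_surjective (φ := e.toMonoidHom) e.surjective hy
  · intro hy
    have := frattini_le_comap_frattini_of_surjective (φ := e.symm.toMonoidHom) e.symm.surjective hy
    have h2 : e.symm (ψ y) = QuotientGroup.mk' ψ.ker y := by
      rw [MulEquiv.symm_apply_eq]; rfl
    simpa [h2] using this

theorem core_lemma {X : Type*} [Group X] [Finite X] {p : ℕ} [Fact p.Prime]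
    (hC : Subgroup.centralizer (pCore p X : Set X) ≤ pCore p X) (h : X) :
    (∀ r : ↥(pCore p X), MulAut.conjNormal h r * r⁻¹ ∈ frattini ↥(pCore p X)) ↔ h ∈ pCore p X := by
  have hRp : IsPGroup p (pCore p X) := pCore_isPGroup p X
  constructor
  · intro hh
    set R := pCore p X with hR
    let φ : X →* MulAut (↥R ⧸ frattini ↥R) :=
      (Cfsg.Agent.S4189.autQuot (frattini ↥R)).comp MulAut.conjNormal
    have hD : IsPGroup p φ.ker := by
      obtain ⟨n, hn⟩ := IsPGroup.iff_card.mp hRp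
      obtain ⟨r, hr⟩ := hRp.index (frattini ↥R)
      have hA := Cfsg.Agent.S4207.result hn hr ((Cfsg.Agent.S4189.autQuot (frattini ↥R)).ker) (by
        intro γ hγ x
        have h1 : Cfsg.Agent.S4189.autQuot (frattini ↥R) γ (x : ↥R ⧸ frattini ↥R)
            = (x : ↥R ⧸ frattini ↥R) := by
          rw [MonoidHom.mem_ker.mp hγ]; rfl
        rw [Cfsg.Agent.S4189.autQuot_mk, QuotientGroup.eq_iff_div_mem, div_eq_mul_inv] at h1
        exact h1)
      obtain ⟨m, -, hm⟩ := (Nat.dvd_prime_pow Fact.out).mp hA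
      have hAp : IsPGroup p (Cfsg.Agent.S4189.autQuot (frattini ↥R)).ker := IsPGroup.of_card hm
      intro d
      have hd : MulAut.conjNormal (d : X) ∈ (Cfsg.Agent.S4189.autQuot (frattini ↥R)).ker := d.2
      obtain ⟨k, hk⟩ := hAp ⟨_, hd⟩
      have hk' : (MulAut.conjNormal (d : X) : MulAut ↥R) ^ p ^ k = 1 := congrArg Subtype.val hk
      rw [← map_pow] at hk'
      have hcen : (d : X) ^ p ^ k ∈ Subgroup.centralizer (R : Set X) := by
        rw [Subgroup.mem_centralizer_iff]
        intro y hy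
        have h2 : (MulAut.conjNormal ((d : X) ^ p ^ k) : MulAut ↥R) ⟨y, hy⟩ = ⟨y, hy⟩ := by
          rw [hk']; rfl
        have h3 := congrArg Subtype.val h2
        rw [MulAut.conjNormal_apply] at h3
        simp only at h3
        exact (mul_inv_eq_iff_eq_mul.mp h3).symm
      obtain ⟨j, hj⟩ := hRp ⟨_, hC hcen⟩
      have hj' : ((d : X) ^ p ^ k) ^ p ^ j = 1 := congrArg Subtype.val hj
      refine ⟨k + j, ?_⟩
      apply Subtype.ext
      rw [Subgroup.coe_pow, pow_add, pow_mul, hj']; rfl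
    have hle : φ.ker ≤ R := le_pCore inferInstance hD
    apply hle
    rw [MonoidHom.mem_ker]
    ext A
    obtain ⟨a, rfl⟩ := QuotientGroup.mk_surjective A
    show Cfsg.Agent.S4189.autQuot (frattini ↥R) (MulAut.conjNormal h) (a : ↥R ⧸ frattini ↥R) = _
    rw [Cfsg.Agent.S4189.autQuot_mk]
    simp only [MulAut.one_apply]
    rw [QuotientGroup.eq_iff_div_mem, div_eq_mul_inv]
    exact hh a
  · intro hh r
    have h1 := (Cfsg.Agent.S0012.result p hRp).1
    apply h1
    have : MulAut.conjNormal h r * r⁻¹ = ⁅(⟨h, hh⟩ : ↥(pCore p X)), r⁆ := by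
      apply Subtype.ext
      simp [commutatorElement_def]
    rw [this]
    exact Subgroup.commutator_mem_commutator (Subgroup.mem_top _) (Subgroup.mem_top _)


/-- Let `G` be a finite `p`-solvable group, `N₀ = O_{p'}(G)`, `P₁ = O_{p',p}(G)`, and let `F ≤ P₁` be the preimage of the Frattini subgroup of `P₁/N₀`. Then an element `g` of `G` induces the identity on `P₁/F` by conjugation (that is, `g x g⁻¹ x⁻¹ ∈ F` for all `x ∈ P₁`) if and only if `g ∈ P₁`: the group `G/P₁` acts faithfully on `P₁/F`. -/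
theorem result {G : Type*} [Group G] [Finite G] {p : ℕ} [Fact p.Prime] (hG : Cfsg.IsPSolvable p G) (g : G) : (∀ x ∈ Cfsg.pPrimePCore p G, g * x * g⁻¹ * x⁻¹ ∈ ((frattini (↥(Cfsg.pPrimePCore p G) ⧸ (Cfsg.pPrimeCore p G).subgroupOf (Cfsg.pPrimePCore p G))).comap (QuotientGroup.mk' ((Cfsg.pPrimeCore p G).subgroupOf (Cfsg.pPrimePCore p G)))).map (Cfsg.pPrimePCore p G).subtype) ↔ g ∈ Cfsg.pPrimePCore p G := by
  set N0 := pPrimeCore p G with hN0
  set R := pCore p (G ⧸ N0) with hR
  have hP1 : pPrimePCore p G = R.comap (QuotientGroup.mk' N0) := rfl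
  have hC : Subgroup.centralizer (R : Set (G ⧸ N0)) ≤ R :=
    Cfsg.Agent.Lib.Helper76.centralizer_pCore_le
      (Cfsg.Agent.Lib.Helper76.isPSolvable_quotient N0 hG) (pPrimeCore_quotient_pPrimeCore p G)
  have key := core_lemma hC (QuotientGroup.mk' N0 g)
  have hmem : g ∈ pPrimePCore p G ↔ QuotientGroup.mk' N0 g ∈ R := Iff.rfl
  rw [hmem, ← key]
  let ψ : ↥(pPrimePCore p G) →* ↥R := (QuotientGroup.mk' N0).subgroupComap R
  have hψ : Function.Surjective ψ :=
    MonoidHom.subgroupComap_surjective_of_surjective _ _ (QuotientGroup.mk'_surjective N0)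
  have hker : ψ.ker = N0.subgroupOf (pPrimePCore p G) := by
    ext y
    rw [MonoidHom.mem_ker, Subgroup.mem_subgroupOf, ← QuotientGroup.eq_one_iff]
    constructor
    · intro h; exact congrArg Subtype.val h
    · intro h; exact Subtype.ext h
  rw [frattini_comap_eq ψ hψ _ hker]
  have hnorm : (pPrimePCore p G).Normal := by rw [hP1]; infer_instance
  constructor
  · intro h r
    obtain ⟨x, rfl⟩ := hψ r
    obtain ⟨y, hy, hyx⟩ := Subgroup.mem_map.mp (h x x.2)
    rw [Subgroup.mem_comap] at hy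
    convert hy using 1
    apply Subtype.ext
    have : ((ψ y : ↥R) : G ⧸ N0) = QuotientGroup.mk' N0 (y : G) := rfl
    rw [this]
    have hyx' : (y : G) = g * x * g⁻¹ * x⁻¹ := hyx
    rw [hyx']
    simp [ψ]
    rfl
  · intro h x hx
    have hy : g * x * g⁻¹ * x⁻¹ ∈ pPrimePCore p G :=
      mul_mem (hnorm.conj_mem x hx g) (inv_mem hx)
    refine Subgroup.mem_map.mpr ⟨⟨_, hy⟩, ?_, rfl⟩
    rw [Subgroup.mem_comap]
    convert h (ψ ⟨x, hx⟩) using 1
    apply Subtype.ext
    simp [ψ]
    rfl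

end Cfsg.Agent.S4218
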