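import Cfsg.Statements.S4227
import Cfsg.Agent.S4218
import Cfsg.Agent.S0635
import Cfsg.Agent.S0144
import Cfsg.Agent.S1462
import Cfsg.Agent.Lib.Helper9.Schmidt
import Cfsg.Agent.Lib.Helper2.PGroupFrattini

set_option autoImplicit false
open Cfsg

namespace Cfsg.Agent.S4227

open Subgroup Cfsg.Agent.Lib.Helper63 Cfsg.Agent.Lib.Lead

/-- the "module" computation: `A₄` acting on an elementary abelian `3`-group. -/
lemma module_lemma {W : Type*} [Group W] (hcomm : ∀ u v : W, u * v = v * u)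
    (h3 : ∀ u : W, u ^ 3 = 1) (α β γ ξ : MulAut W) (hαα : α * α = 1) (hββ : β * β = 1)
    (hαβ : α * β = β * α) (hγ : γ = α * β) (h1 : ξ * α = β * ξ) (h2 : ξ * β = γ * ξ)
    (h3' : ξ * γ = α * ξ) (hα : α ≠ 1) : ∃ v : W, v * ξ v * ξ (ξ v) ≠ 1 := by
  have eαα : ∀ u, α (α u) = u := fun u => DFunLike.congr_fun hαα u
  have eββ : ∀ u, β (β u) = u := fun u => DFunLike.congr_fun hββ u
  have eαβ : ∀ u, α (β u) = β (α u) := fun u => DFunLike.congr_fun hαβ u
  have eγ : ∀ u, γ u = α (β u) := fun u => by rw [hγ]; rfl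
  have e1 : ∀ u, ξ (α u) = β (ξ u) := fun u => DFunLike.congr_fun h1 u
  have e2 : ∀ u, ξ (β u) = γ (ξ u) := fun u => DFunLike.congr_fun h2 u
  have e3 : ∀ u, ξ (γ u) = α (ξ u) := fun u => DFunLike.congr_fun h3' u
  have hsq : ∀ u : W, u * u = 1 → u = 1 := by
    intro u hu
    have := h3 u
    rw [pow_succ, sq, hu, one_mul] at this
    exact this
  -- general final step
  have final : ∀ (δ : MulAut W) (v : W), v ≠ 1 → δ v = v → δ (ξ v) = (ξ v)⁻¹ →
      δ (ξ (ξ v)) = (ξ (ξ v))⁻¹ → v * ξ v * ξ (ξ v) ≠ 1 := by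
    intro δ v hv d0 d1 d2 hN
    apply hv
    apply hsq
    have hδ : δ (v * ξ v * ξ (ξ v)) = 1 := by rw [hN, map_one]
    rw [map_mul, map_mul, d0, d1, d2] at hδ
    calc v * v = (v * ξ v * ξ (ξ v)) * (v * (ξ v)⁻¹ * (ξ (ξ v))⁻¹) := by
          rw [hcomm (v * ξ v * ξ (ξ v)), mul_assoc (v * (ξ v)⁻¹), mul_assoc v (ξ v),
            hcomm v (ξ v * ξ (ξ v)), hcomm (ξ v)]
          group
      _ = 1 := by rw [hN, hδ, one_mul]
  obtain ⟨w, hw⟩ : ∃ w, α w ≠ w := by
    by_contra hcon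
    push Not at hcon
    exact hα (by ext u; exact hcon u)
  obtain ⟨u, hu⟩ : ∃ u, u = α w * w⁻¹ := ⟨_, rfl⟩
  have hu1 : u ≠ 1 := fun h => hw (mul_inv_eq_one.1 (hu ▸ h))
  have hαu : α u = u⁻¹ := by
    rw [hu, map_mul, eαα, map_inv, mul_inv_rev, inv_inv]
  by_cases hplus : u * β u = 1
  · -- then β u = u⁻¹
    have hβu : β u = u⁻¹ := (eq_inv_of_mul_eq_one_right hplus)
    have hγu : γ u = u := by rw [eγ, hβu, map_inv, hαu, inv_inv]
    refine ⟨u, final γ u hu1 hγu ?_ ?_⟩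
    · rw [← e2, hβu, map_inv]
    · rw [← e2, ← e1, hαu, map_inv, map_inv]
  · obtain ⟨v, hv⟩ : ∃ v, v = u * β u := ⟨_, rfl⟩
    rw [← hv] at hplus
    have hβv : β v = v := by rw [hv, map_mul, eββ, hcomm]
    have hαv : α v = v⁻¹ := by
      rw [hv, map_mul, eαβ, hαu, map_inv, mul_inv_rev, hcomm]
    have hγv : γ v = v⁻¹ := by rw [eγ, hβv, hαv]
    refine ⟨v, final β v hplus hβv ?_ ?_⟩
    · rw [← e1, hαv, map_inv]
    · rw [← e1, ← e3, hγv, map_inv, map_inv]

lemma card_eq {G : Type*} [Group G] [Finite G] (h : ∀ x : G, x ^ 6 = 1) :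
    ∃ a b : ℕ, Nat.card G = 2 ^ a * 3 ^ b := by
  have hpos : Nat.card G ≠ 0 := Nat.card_pos.ne'
  obtain ⟨a, m, hm2, hm⟩ := Nat.exists_eq_pow_mul_and_not_dvd hpos 2 (by norm_num)
  have hm0 : m ≠ 0 := by
    rintro rfl
    simp at hm2
  obtain ⟨b, m', hm3, hm'⟩ := Nat.exists_eq_pow_mul_and_not_dvd hm0 3 (by norm_num)
  refine ⟨a, b, ?_⟩
  have hm1 : m' = 1 := by
    by_contra hne
    obtain ⟨q, hq, hqm⟩ := Nat.exists_prime_and_dvd hne
    have : Fact q.Prime := ⟨hq⟩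
    have hqG : q ∣ Nat.card G := by
      rw [hm, hm']
      exact Dvd.dvd.mul_left (Dvd.dvd.mul_left hqm _) _
    obtain ⟨x, hx⟩ := exists_prime_orderOf_dvd_card' (G := G) q hqG
    have h6 : q ∣ 6 := hx ▸ orderOf_dvd_of_pow_eq_one (h x)
    have h6' : q ∣ 2 * 3 := h6
    rcases (Nat.Prime.dvd_mul hq).1 h6' with h2 | h2
    · rw [(Nat.prime_dvd_prime_iff_eq hq Nat.prime_two).1 h2] at hqm
      exact hm2 (hm' ▸ Dvd.dvd.mul_left hqm _)
    · rw [(Nat.prime_dvd_prime_iff_eq hq Nat.prime_three).1 h2] at hqm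
      exact hm3 hqm
  rw [hm, hm', hm1, mul_one]

lemma solvable_of_exp {G : Type*} [Group G] [Finite G] (h : ∀ x : G, x ^ 6 = 1) :
    Group.IsSolvable G := by
  obtain ⟨a, b, hab⟩ := card_eq h
  exact Cfsg.Agent.S0144.result 2 3 a b Nat.prime_two Nat.prime_three hab

universe u

lemma exists_pLengthLE (p : ℕ) (hp : p.Prime) : ∀ (n : ℕ) (G : Type u) [Group G] [Finite G]
    [Group.IsSolvable G], Nat.card G = n → ∃ k, PLengthLE p k G := by
  intro n
  induction n using Nat.strong_induction_on with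
  | _ n ih =>
    intro G _ _ _ hn
    by_cases hnt : Nontrivial G
    swap
    · rw [not_nontrivial_iff_subsingleton] at hnt
      refine ⟨0, pLengthLE_zero_of_coprime ?_⟩
      rw [Nat.card_eq_one_iff_unique.2 ⟨hnt, ⟨1⟩⟩]
      exact Nat.coprime_one_left p
    obtain ⟨M, hMn, hMp⟩ := Cfsg.Agent.Lib.Helper9.exists_normal_prime_index (G := G)
    have hlt : Nat.card M < n := by
      have h1 := M.card_mul_index
      rw [hn] at h1
      have h2 := hMp.one_lt
      have h3 : 0 < Nat.card M := Nat.card_pos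
      nlinarith
    obtain ⟨a, ha⟩ := ih _ hlt M rfl
    have hQ : PLengthLE p 1 (G ⧸ M) := by
      by_cases hpq : M.index = p
      · have : Fact p.Prime := ⟨hp⟩
        apply pLengthLE_one_of_isPGroup hp
        apply IsPGroup.of_card (n := 1)
        rw [pow_one, ← hpq, Subgroup.index_eq_card]
      · refine PLengthLE.mono (pLengthLE_zero_of_coprime ?_) (Nat.zero_le 1)
        rw [← Subgroup.index_eq_card]
        exact (Nat.coprime_primes hMp hp).2 hpq
    exact ⟨a + 1, PLengthLE.extension hp M ha hQ⟩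

lemma isPSolvable_of_exp {G : Type u} [Group G] [Finite G] (h : ∀ x : G, x ^ 6 = 1) (p : ℕ)
    (hp : p.Prime) : IsPSolvable p G := by
  have := solvable_of_exp h
  obtain ⟨k, hk⟩ := exists_pLengthLE p hp _ G rfl
  exact Cfsg.Agent.S1462.isPSolvable_of_pLengthLE hp hk

lemma two_length {G : Type u} [Group G] [Finite G] (h : ∀ x : G, x ^ 6 = 1) : PLengthLE 2 1 G := by
  have : Fact (Nat.Prime 2) := ⟨Nat.prime_two⟩
  let S : Sylow 2 G := default
  have h1 := Cfsg.Agent.S0635.result (isPSolvable_of_exp h 2 Nat.prime_two) S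
  refine PLengthLE.mono h1 ?_
  have hsq : ∀ s : ↥(S : Subgroup G), s * s = 1 := by
    intro s
    obtain ⟨k, hk⟩ := (IsPGroup.iff_orderOf.1 S.2) s
    have h6 : orderOf s ∣ 6 := orderOf_dvd_of_pow_eq_one (Subtype.ext (by simpa using h s.1))
    have h2 : orderOf s ∣ 2 := by
      rw [hk] at h6 ⊢
      have : (2 ^ k).Coprime 3 := Nat.Coprime.pow_left k (by norm_num)
      exact this.dvd_of_dvd_mul_right (show 2 ^ k ∣ 2 * 3 from h6)
    rw [← sq]
    exact orderOf_dvd_iff_pow_eq_one.1 h2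
  have hcomm : ∀ s t : ↥(S : Subgroup G), s * t = t * s := by
    intro s t
    have e1 := hsq (s * t)
    have e2 : s * t = (s * t)⁻¹ := eq_inv_of_mul_eq_one_left e1
    rw [e2, mul_inv_rev, ← eq_inv_of_mul_eq_one_left (hsq s), ← eq_inv_of_mul_eq_one_left (hsq t)]
  have : Group.IsNilpotent ↥(S : Subgroup G) := S.2.isNilpotent
  rw [← Subgroup.upperCentralSeries_eq_top_iff_nilpotencyClass_le, Subgroup.upperCentralSeries_one,
    eq_top_iff]
  intro s _
  rw [mem_center_iff]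
  intro g
  exact hcomm g s

lemma key {X : Type u} [Group X] [Finite X] (h : ∀ x : X, x ^ 6 = 1)
    (hcore : pPrimeCore 3 X = ⊥) : (Nat.card (X ⧸ pCore 3 X)).Coprime 3 := by
  have : Fact (Nat.Prime 3) := ⟨Nat.prime_three⟩
  have : Fact (Nat.Prime 2) := ⟨Nat.prime_two⟩
  set R := pCore 3 X with hR
  have hRp : IsPGroup 3 R := pCore_isPGroup 3 X
  have hC : centralizer (R : Set X) ≤ R :=
    Cfsg.Agent.Lib.Helper76.centralizer_pCore_le (isPSolvable_of_exp h 3 Nat.prime_three) hcore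
  have core := Cfsg.Agent.S4218.core_lemma hC
  by_contra hn
  have hdvd : 3 ∣ Nat.card (X ⧸ R) := by
    by_contra h3
    exact hn ((Nat.Prime.coprime_iff_not_dvd Nat.prime_three).2 h3).symm
  obtain ⟨y, hy⟩ := exists_prime_orderOf_dvd_card' (G := X ⧸ R) 3 hdvd
  have hY6 : ∀ z : X ⧸ R, z ^ 6 = 1 := by
    intro z
    obtain ⟨z, rfl⟩ := QuotientGroup.mk_surjective z
    rw [← QuotientGroup.mk_pow, h z]; rfl
  have hc3 : pCore 3 (X ⧸ R) = ⊥ := pCore_quotient_pCore 3 X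
  have hc2 : pPrimeCore 2 (X ⧸ R) = ⊥ := by
    rw [eq_bot_iff, ← hc3]
    apply le_pCore inferInstance
    intro z
    refine ⟨1, ?_⟩
    have h1 : orderOf z ∣ Nat.card (pPrimeCore 2 (X ⧸ R)) := orderOf_dvd_natCard z
    have h2 : (orderOf z).Coprime 2 :=
      Nat.Coprime.coprime_dvd_left h1 (card_pPrimeCore_coprime 2)
    have h6 : orderOf z ∣ 2 * 3 := orderOf_dvd_of_pow_eq_one (Subtype.ext (by simpa using hY6 z.1))
    rw [pow_one]
    exact orderOf_dvd_iff_pow_eq_one.1 (h2.dvd_of_dvd_mul_left h6)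
  set T := pCore 2 (X ⧸ R) with hT
  have hTp : IsPGroup 2 T := pCore_isPGroup 2 _
  have hCT : centralizer (T : Set (X ⧸ R)) ≤ T :=
    Cfsg.Agent.Lib.Helper76.centralizer_pCore_le (isPSolvable_of_exp hY6 2 Nat.prime_two) hc2
  have hTsq : ∀ s ∈ T, s * s = 1 := by
    intro s hs
    obtain ⟨k, hk⟩ := (IsPGroup.iff_orderOf.1 hTp) ⟨s, hs⟩
    rw [Subgroup.orderOf_mk] at hk
    have h6 : orderOf s ∣ 2 * 3 := orderOf_dvd_of_pow_eq_one (hY6 s)
    have h2 : orderOf s ∣ 2 := by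
      rw [hk] at h6 ⊢
      have : (2 ^ k).Coprime 3 := Nat.Coprime.pow_left k (by norm_num)
      exact this.dvd_of_dvd_mul_right h6
    rw [← sq]
    exact orderOf_dvd_iff_pow_eq_one.1 h2
  have hTcomm : ∀ s ∈ T, ∀ t ∈ T, s * t = t * s := by
    intro s hs t ht
    have e1 := hTsq (s * t) (mul_mem hs ht)
    have e2 : s * t = (s * t)⁻¹ := eq_inv_of_mul_eq_one_left e1
    rw [e2, mul_inv_rev, ← eq_inv_of_mul_eq_one_left (hTsq s hs),
      ← eq_inv_of_mul_eq_one_left (hTsq t ht)]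
  have hy3 : y ^ 3 = 1 := by
    have := pow_orderOf_eq_one y
    rwa [hy] at this
  have hyT : y ∉ T := by
    intro hyT
    have h1 := hTsq y hyT
    have h2 : orderOf y ∣ 2 := orderOf_dvd_of_pow_eq_one (by rw [sq]; exact h1)
    rw [hy] at h2
    omega
  obtain ⟨t, htT, hty⟩ : ∃ t ∈ T, t * y ≠ y * t := by
    by_contra hcon
    push Not at hcon
    exact hyT (hCT (mem_centralizer_iff.2 hcon))
  -- the module
  have hWc : IsMulCommutative (↥R ⧸ frattini ↥R) :=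
    (Subgroup.Normal.quotient_commutative_iff_commutator_le).2
      (Cfsg.Agent.Lib.Helper2.commutator_le_frattini hRp)
  have hWcomm : ∀ u v : ↥R ⧸ frattini ↥R, u * v = v * u := fun u v => mul_comm' u v
  have hR3 : ∀ r : ↥R, r ^ 3 = 1 := by
    intro r
    obtain ⟨k, hk⟩ := (IsPGroup.iff_orderOf.1 hRp) r
    have h6 : orderOf r ∣ 2 * 3 := orderOf_dvd_of_pow_eq_one (Subtype.ext (by simpa using h r.1))
    rw [hk] at h6
    have : (3 ^ k).Coprime 2 := Nat.Coprime.pow_left k (by norm_num)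
    have h3 := this.dvd_of_dvd_mul_left h6
    rw [← hk] at h3
    exact orderOf_dvd_iff_pow_eq_one.1 h3
  have hW3 : ∀ u : ↥R ⧸ frattini ↥R, u ^ 3 = 1 := by
    intro u
    obtain ⟨r, rfl⟩ := QuotientGroup.mk_surjective u
    rw [← QuotientGroup.mk_pow, hR3 r]; rfl
  let Φ : X →* MulAut (↥R ⧸ frattini ↥R) :=
    (Cfsg.Agent.S4189.autQuot (frattini ↥R)).comp MulAut.conjNormal
  have hΦmk : ∀ (z : X) (r : ↥R), Φ z (r : ↥R ⧸ frattini ↥R) =
      ((MulAut.conjNormal z r : ↥R) : ↥R ⧸ frattini ↥R) := fun z r => rfl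
  have hΦ : ∀ z, Φ z = 1 ↔ z ∈ R := by
    intro z
    rw [← core z]
    constructor
    · intro hz r
      have h1 := DFunLike.congr_fun hz (r : ↥R ⧸ frattini ↥R)
      rw [hΦmk] at h1
      have h2 : ((MulAut.conjNormal z r * r⁻¹ : ↥R) : ↥R ⧸ frattini ↥R) = 1 := by
        rw [QuotientGroup.mk_mul, QuotientGroup.mk_inv, h1]
        exact mul_inv_cancel _
      exact (QuotientGroup.eq_one_iff _).1 h2
    · intro hz
      ext u
      obtain ⟨r, rfl⟩ := QuotientGroup.mk_surjective u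
      have h2 := (QuotientGroup.eq_one_iff _).2 (hz r)
      rw [QuotientGroup.mk_mul, QuotientGroup.mk_inv, mul_inv_eq_one] at h2
      exact h2
  let Ψ : X ⧸ R →* MulAut (↥R ⧸ frattini ↥R) := QuotientGroup.lift R Φ (fun z hz => (hΦ z).2 hz)
  have hΨmk : ∀ z : X, Ψ (z : X ⧸ R) = Φ z := fun z => rfl
  have hΨ : ∀ z, Ψ z = 1 → z = 1 := by
    intro z hz
    obtain ⟨z, rfl⟩ := QuotientGroup.mk_surjective z
    rw [hΨmk, hΦ] at hz
    exact (QuotientGroup.eq_one_iff _).2 hz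
  -- the elements
  obtain ⟨t1, ht1⟩ : ∃ t1, t1 = y * t * y⁻¹ := ⟨_, rfl⟩
  obtain ⟨t2, ht2⟩ : ∃ t2, t2 = y * t1 * y⁻¹ := ⟨_, rfl⟩
  have hTn : T.Normal := inferInstance
  have ht1T : t1 ∈ T := ht1 ▸ hTn.conj_mem t htT y
  have ht2T : t2 ∈ T := ht2 ▸ hTn.conj_mem t1 ht1T y
  have ht3 : y * t2 * y⁻¹ = t := by
    rw [ht2, ht1]
    have e : y * (y * (y * t * y⁻¹) * y⁻¹) * y⁻¹ = y ^ 3 * t * (y ^ 3)⁻¹ := by
      simp only [pow_succ, pow_zero, one_mul, mul_inv_rev, mul_assoc]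
    rw [e, hy3]; simp
  have r1 : y * (t * t1) = (t1 * t2) * y := by rw [ht2, ht1]; group
  have r2 : y * (t1 * t2) = (t2 * t) * y := by
    have : y * (t1 * t2) = (y * t1 * y⁻¹) * (y * t2 * y⁻¹) * y := by group
    rw [this, ht3, ← ht2]
  have r3 : y * (t2 * t) = (t * t1) * y := by
    have : y * (t2 * t) = (y * t2 * y⁻¹) * (y * t * y⁻¹) * y := by group
    rw [this, ht3, ← ht1]
  have raa : (t * t1) * (t * t1) = 1 := hTsq _ (mul_mem htT ht1T)
  have rbb : (t1 * t2) * (t1 * t2) = 1 := hTsq _ (mul_mem ht1T ht2T)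
  have rab : (t * t1) * (t1 * t2) = (t1 * t2) * (t * t1) :=
    hTcomm _ (mul_mem htT ht1T) _ (mul_mem ht1T ht2T)
  have rc : t2 * t = (t * t1) * (t1 * t2) := by
    have : (t * t1) * (t1 * t2) = t * (t1 * t1) * t2 := by group
    rw [this, hTsq t1 ht1T, mul_one]
    exact hTcomm _ ht2T _ htT
  have ra1 : t * t1 ≠ 1 := by
    intro hcon
    apply hty
    have h1 : t1 = t := by
      have := eq_inv_of_mul_eq_one_right hcon
      rw [this]
      exact (eq_inv_of_mul_eq_one_left (hTsq t htT)).symm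
    rw [ht1] at h1
    exact (mul_inv_eq_iff_eq_mul.1 h1).symm
  obtain ⟨v, hv⟩ := module_lemma hWcomm hW3 (Ψ (t * t1)) (Ψ (t1 * t2)) (Ψ (t2 * t)) (Ψ y)
    (by rw [← map_mul, raa, map_one]) (by rw [← map_mul, rbb, map_one])
    (by rw [← map_mul, ← map_mul, rab]) (by rw [← map_mul, rc])
    (by rw [← map_mul, ← map_mul, r1]) (by rw [← map_mul, ← map_mul, r2])
    (by rw [← map_mul, ← map_mul, r3]) (fun hcon => ra1 (hΨ _ hcon))
  -- lift
  obtain ⟨y0, rfl⟩ := QuotientGroup.mk_surjective y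
  obtain ⟨v0, rfl⟩ := QuotientGroup.mk_surjective v
  have hx : ((y0 ^ 4 : X) : X ⧸ R) = (y0 : X ⧸ R) := by
    rw [QuotientGroup.mk_pow, pow_succ, hy3, one_mul]
  rw [← hx, hΨmk, hΦmk, hΦmk] at hv
  set x := y0 ^ 4 with hxdef
  have hx3 : x ^ 3 = 1 := by
    rw [hxdef, ← pow_mul]
    have : y0 ^ (4 * 3) = (y0 ^ 6) ^ 2 := by rw [← pow_mul]
    rw [this, h y0, one_pow]
  set r : ↥R := v0 * MulAut.conjNormal x v0 * MulAut.conjNormal x (MulAut.conjNormal x v0) with hr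
  have hr1 : r ≠ 1 := by
    intro hcon
    apply hv
    rw [← QuotientGroup.mk_mul, ← QuotientGroup.mk_mul, ← hr, hcon]
    rfl
  have hg : ((v0 : X) * x) ^ 3 = (r : X) := by
    have e1 : (r : X) = (v0 : X) * (x * v0 * x⁻¹) * (x * (x * v0 * x⁻¹) * x⁻¹) := by
      rw [hr]
      simp only [Subgroup.coe_mul, MulAut.conjNormal_apply]
    have e2 : ((v0 : X) * x) ^ 3 = (v0 : X) * (x * v0 * x⁻¹) * (x * (x * v0 * x⁻¹) * x⁻¹) * x ^ 3 := by
      simp only [pow_succ, pow_zero, one_mul]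
      simp only [mul_assoc, inv_mul_cancel_left]
    rw [e2, hx3, mul_one, e1]
  have hrr : r * r = 1 := by
    apply Subtype.ext
    have h6 := h ((v0 : X) * x)
    have : ((v0 : X) * x) ^ 6 = (((v0 : X) * x) ^ 3) ^ 2 := by rw [← pow_mul]
    rw [this, hg, sq] at h6
    exact h6
  apply hr1
  have := hR3 r
  rw [pow_succ, sq, hrr, one_mul] at this
  exact this

lemma three_length {G : Type u} [Group G] [Finite G] (h : ∀ x : G, x ^ 6 = 1) :
    PLengthLE 3 1 G := by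
  have : Fact (Nat.Prime 3) := ⟨Nat.prime_three⟩
  have hX6 : ∀ z : G ⧸ pPrimeCore 3 G, z ^ 6 = 1 := by
    intro z
    obtain ⟨z, rfl⟩ := QuotientGroup.mk_surjective z
    rw [← QuotientGroup.mk_pow, h z]; rfl
  have h1 := key hX6 (pPrimeCore_quotient_pPrimeCore 3 G)
  have h2 : PLengthLE 3 (1 + 0) (G ⧸ pPrimeCore 3 G) :=
    PLengthLE.extension Nat.prime_three (pCore 3 (G ⧸ pPrimeCore 3 G))
      (pLengthLE_one_of_isPGroup Nat.prime_three (pCore_isPGroup 3 _))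
      (pLengthLE_zero_of_coprime h1)
  have h3 : PLengthLE 3 (0 + (1 + 0)) G :=
    PLengthLE.extension Nat.prime_three (pPrimeCore 3 G)
      (pLengthLE_zero_of_coprime (card_pPrimeCore_coprime 3)) h2
  exact h3

/-- A finite group in which every element has order dividing `6` has `2`-length at most `1` and `3`-length at most `1`. -/
theorem result {G : Type*} [Group G] [Finite G] (h : ∀ x : G, x ^ 6 = 1) : Cfsg.PLengthLE 2 1 G ∧ Cfsg.PLengthLE 3 1 G := by
  exact ⟨two_length h, three_length h⟩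

end Cfsg.Agent.S4227
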