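-- Statement S4231: see Cfsg/Statements/S4231.lean (frozen statement).
import Cfsg.Statements.S4231
import Mathlib
import Cfsg.Agent.S2119

set_option autoImplicit false
open Cfsg Equiv Equiv.Perm

namespace Cfsg.Agent.S4231


abbrev A6 := alternatingGroup (Fin 6)

def PP (ψ : A6 ≃* A6) : Prop :=
  ∀ g : A6, (g : Perm (Fin 6)).IsThreeCycle → (ψ g : Perm (Fin 6)).IsThreeCycle

lemma type3 (g : A6) (hg : orderOf g = 3) :
    (g : Perm (Fin 6)).cycleType = {3} ∨ (g : Perm (Fin 6)).cycleType = {3, 3} := by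
  have ho : orderOf (g : Perm (Fin 6)) = 3 := by rw [Subgroup.orderOf_coe, hg]
  obtain ⟨k, hk⟩ := cycleType_prime_order (σ := (g : Perm (Fin 6))) (by rw [ho]; exact Nat.prime_three)
  rw [ho] at hk
  have h1 := sum_cycleType (g : Perm (Fin 6))
  rw [hk] at h1
  simp only [Multiset.sum_replicate, smul_eq_mul] at h1
  have h2 := (g : Perm (Fin 6)).support.card_le_univ
  simp only [Fintype.card_fin] at h2
  have hk1 : k ≤ 1 := by omega
  interval_cases k
  · left; rw [hk]; rfl
  · right; rw [hk]; rfl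

lemma order3_of_type {g : A6} (h : (g : Perm (Fin 6)).cycleType = {3} ∨ (g : Perm (Fin 6)).cycleType = {3, 3}) :
    orderOf g = 3 := by
  rw [← Subgroup.orderOf_coe, ← lcm_cycleType]
  rcases h with h | h <;> rw [h] <;> simp

lemma lemA (ψ : A6 ≃* A6) :
    PP ψ ∨ ∀ g : A6, (g : Perm (Fin 6)).IsThreeCycle → (ψ g : Perm (Fin 6)).cycleType = {3, 3} := by
  by_cases h : ∃ g0 : A6, (g0 : Perm (Fin 6)).IsThreeCycle ∧ (ψ g0 : Perm (Fin 6)).IsThreeCycle
  · left
    obtain ⟨g0, h0, h0'⟩ := h
    intro g hg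
    have hc : IsConj g0 g := alternatingGroup.isThreeCycle_isConj (by simp) h0 hg
    have hc2 : IsConj (ψ g0) (ψ g) := ψ.toMonoidHom.map_isConj hc
    have hc3 : IsConj ((ψ g0 : A6) : Perm (Fin 6)) ((ψ g : A6) : Perm (Fin 6)) :=
      (alternatingGroup (Fin 6)).subtype.map_isConj hc2
    have := isConj_iff_cycleType_eq.1 hc3
    unfold IsThreeCycle at *
    rw [← this, h0']
  · right
    push Not at h
    intro g hg
    have ho : orderOf (ψ g) = 3 := by
      rw [MulEquiv.orderOf_eq]; exact order3_of_type (Or.inl hg)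
    rcases type3 _ ho with h1 | h1
    · exact absurd h1 (h g hg)
    · exact h1

lemma card1 : (Finset.univ.filter (fun g : A6 => (g : Perm (Fin 6)).cycleType = {3})).card = 40 := by
  rw [AlternatingGroup.card_of_cycleType]
  simp
  decide

lemma card2 : (Finset.univ.filter (fun g : A6 => (g : Perm (Fin 6)).cycleType = {3, 3})).card = 40 := by
  rw [AlternatingGroup.card_of_cycleType]
  simp
  decide

lemma lemB (ψ : A6 ≃* A6) (h : ¬ PP ψ) (k : A6) (hk : (k : Perm (Fin 6)).cycleType = {3, 3}) :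
    (ψ k : Perm (Fin 6)).IsThreeCycle := by
  classical
  have hA := (lemA ψ).resolve_left h
  set C1 := Finset.univ.filter (fun g : A6 => (g : Perm (Fin 6)).cycleType = {3}) with hC1
  set C2 := Finset.univ.filter (fun g : A6 => (g : Perm (Fin 6)).cycleType = {3, 3}) with hC2
  have hsub : C1.image ψ ⊆ C2 := by
    intro x hx
    obtain ⟨g, hg, rfl⟩ := Finset.mem_image.1 hx
    rw [hC1, Finset.mem_filter] at hg
    rw [hC2, Finset.mem_filter]
    exact ⟨Finset.mem_univ _, hA g hg.2⟩
  have hcard : C2.card ≤ (C1.image ψ).card := by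
    rw [Finset.card_image_of_injective _ ψ.injective, hC1, hC2, card1, card2]
  have heq := Finset.eq_of_subset_of_card_le hsub hcard
  have ho : orderOf (ψ k) = 3 := by
    rw [MulEquiv.orderOf_eq]; exact order3_of_type (Or.inr hk)
  rcases type3 _ ho with h1 | h1
  · exact h1
  · exfalso
    have hm : ψ k ∈ C1.image ψ := by
      rw [heq, hC2, Finset.mem_filter]; exact ⟨Finset.mem_univ _, h1⟩
    obtain ⟨g, hg, hgk⟩ := Finset.mem_image.1 hm
    rw [hC1, Finset.mem_filter] at hg
    have := ψ.injective hgk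
    rw [this, hk] at hg
    exact absurd hg.2 (by decide)

lemma PP_mul {ψ₁ ψ₂ : A6 ≃* A6} (h1 : PP ψ₁) (h2 : PP ψ₂) : PP (ψ₁ * ψ₂) :=
  fun g hg => h1 _ (h2 g hg)

lemma PP_one : PP 1 := fun _ hg => hg

lemma PP_pow {ψ : A6 ≃* A6} (h : PP ψ) (k : ℕ) : PP (ψ ^ k) := by
  induction k with
  | zero => rw [pow_zero]; exact PP_one
  | succ k ih => rw [pow_succ]; exact PP_mul ih h

lemma PP_sq (ψ : A6 ≃* A6) : PP (ψ * ψ) := by
  by_cases h : PP ψ
  · exact PP_mul h h
  · intro g hg
    exact lemB ψ h _ ((lemA ψ).resolve_left h g hg)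

lemma PP_of_odd (φ : A6 ≃* A6) {r : ℕ} (hr : Odd r) (h : φ ^ r = 1) : PP φ := by
  obtain ⟨s, rfl⟩ := hr
  have : φ = (φ * φ) ^ (s + 1) := by
    rw [← pow_two, ← pow_mul]
    have : 2 * (s + 1) = (2 * s + 1) + 1 := by ring
    rw [this, pow_succ, h, one_mul]
  rw [this]
  exact PP_pow (PP_sq φ) _

/-- odd order automorphisms of `A_n` are induced by permutations -/
theorem mem_range_of_odd (n : ℕ) (hn : 5 ≤ n) (φ : MulAut (alternatingGroup (Fin n))) {r : ℕ}
    (hr : Odd r) (h : φ ^ r = 1) :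
    φ ∈ (MulAut.conjNormal : Perm (Fin n) →* MulAut (alternatingGroup (Fin n))).range := by
  by_cases h6 : n = 6
  · subst h6
    have hP := PP_of_odd φ hr h
    obtain ⟨σ, hσ⟩ := Cfsg.Agent.S2119.exists_conj (p := (0 : Fin 6)) (q := 1) (i0 := 2) (i1 := 3)
      (by decide) (by decide) (by decide) (by decide) (by decide) (by decide) φ hP
    refine ⟨σ, ?_⟩
    ext g : 2
    rw [MulAut.conjNormal_apply, hσ]
  · exact (Cfsg.Agent.S2119.result n (by omega) h6).2 φ



open scoped Nat in
theorem not_dvd_fact {q n : ℕ} (hq : q.Prime) (hq3 : 3 ≤ q) (hn : n < 3 * q) : ¬ q ^ 3 ∣ n ! := by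
  have hlog : Nat.log q n < 2 := by
    apply Nat.log_lt_of_lt_pow'  (by norm_num)
    nlinarith
  rw [hq.pow_dvd_factorial_iff hlog]
  have : Finset.Ico 1 2 = {1} := by decide
  rw [this, Finset.sum_singleton, pow_one]
  have := Nat.div_lt_of_lt_mul (m := n) (n := q) (k := 3) (by linarith)
  omega

theorem exists_order (n p q : ℕ) (hp : p.Prime) (hq : q.Prime) (hlt : p < q) (hn : 3 * q ≤ n) :
    ∃ g : alternatingGroup (Fin n), orderOf g = p * q := by
  have hp2 := hp.two_le
  have hqodd : Odd q := hq.odd_of_ne_two (by omega)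
  have hcop : Nat.Coprime p q := (Nat.coprime_primes hp hq).2 (by omega)
  by_cases h2 : p = 2
  · subst h2
    obtain ⟨g, hg⟩ := (exists_with_cycleType_iff (Fin n) (m := {2, 2, q})).2 ⟨by
      simp; omega, by
      intro a ha
      simp at ha
      rcases ha with rfl | rfl <;> omega⟩
    refine ⟨⟨g, ?_⟩, ?_⟩
    · rw [mem_alternatingGroup, sign_of_cycleType, hg]
      simp
      apply Even.neg_one_pow
      obtain ⟨s, rfl⟩ := hqodd
      exact ⟨s + 4, by ring⟩
    · rw [Subgroup.orderOf_mk, ← lcm_cycleType, hg]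
      simp
      have h1 : lcm 2 q = 2 * q := hcop.lcm_eq_mul
      rw [h1]
      exact Nat.lcm_eq_right (Dvd.intro q rfl)
  · have hpodd : Odd p := hp.odd_of_ne_two h2
    obtain ⟨g, hg⟩ := (exists_with_cycleType_iff (Fin n) (m := {p, q})).2 ⟨by
      simp; omega, by
      intro a ha
      simp at ha
      rcases ha with rfl | rfl <;> omega⟩
    refine ⟨⟨g, ?_⟩, ?_⟩
    · rw [mem_alternatingGroup, sign_of_cycleType, hg]
      simp
      apply Even.neg_one_pow
      obtain ⟨s, rfl⟩ := hqodd
      obtain ⟨t, rfl⟩ := hpodd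
      exact ⟨s + t + 2, by ring⟩
    · rw [Subgroup.orderOf_mk, ← lcm_cycleType, hg]
      simp
      exact hcop.lcm_eq_mul

theorem conj_injective (n : ℕ) (hn : 5 ≤ n) :
    Function.Injective (MulAut.conj : alternatingGroup (Fin n) →* MulAut (alternatingGroup (Fin n))) := by
  rw [injective_iff_map_eq_one]
  intro g hg
  have hc : g ∈ Subgroup.center (alternatingGroup (Fin n)) := by
    rw [Subgroup.mem_center_iff]
    intro x
    have := congrArg (fun f : MulAut (alternatingGroup (Fin n)) => f x) hg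
    simp only [MulAut.conj_apply, MulAut.one_apply] at this
    exact (mul_inv_eq_iff_eq_mul.1 this).symm
  rw [alternatingGroup.center_eq_bot (by simp; omega)] at hc
  exact Subgroup.mem_bot.1 hc

theorem comm_of_card {X : Type*} [Group X] {q k : ℕ} [Fact q.Prime] (hk : k ≤ 2)
    (hc : Nat.card X = q ^ k) : IsMulCommutative X := by
  interval_cases k
  · rw [pow_zero] at hc
    haveI : Subsingleton X := (Nat.card_eq_one_iff_unique.1 hc).1
    exact ⟨⟨fun a b => Subsingleton.elim _ _⟩⟩
  · rw [pow_one] at hc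
    haveI := isCyclic_of_prime_card hc
    exact ⟨⟨fun a b => IsCyclic.commGroup.mul_comm a b⟩⟩
  · exact ⟨⟨IsPGroup.commutative_of_card_eq_prime_sq hc⟩⟩

/-- Let n ≥ 5 and let G be a group of automorphisms of the alternating group of degree n containing all inner automorphisms. If p ≠ q are primes and G has no element of order pq, then every Sylow p-subgroup of G is abelian or every Sylow q-subgroup of G is abelian. -/
theorem result (n : ℕ) (hn : 5 ≤ n) (G : Subgroup (MulAut (alternatingGroup (Fin n))))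
    (hG : (MulAut.conj : alternatingGroup (Fin n) →* MulAut (alternatingGroup (Fin n))).range ≤ G)
    (p q : ℕ) [Fact p.Prime] [Fact q.Prime] (hpq : p ≠ q) (h : ∀ g : G, orderOf g ≠ p * q) :
    (∀ P : Sylow p G, IsMulCommutative (P : Subgroup G)) ∨ (∀ Q : Sylow q G, IsMulCommutative (Q : Subgroup G)) := by
  wlog hlt : p < q generalizing p q
  · have hlt' : q < p := lt_of_le_of_ne (not_lt.1 hlt) hpq.symm
    exact (this q p hpq.symm (fun g => by rw [mul_comm]; exact h g) hlt').symm
  right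
  intro Q
  have hp : p.Prime := Fact.out
  have hq : q.Prime := Fact.out
  have hq3 : 3 ≤ q := by have := hp.two_le; omega
  have hqodd : Odd q := hq.odd_of_ne_two (by omega)
  obtain ⟨k, hk⟩ := IsPGroup.iff_card.1 Q.2
  have hle : ((Q : Subgroup G).map G.subtype) ≤
      (MulAut.conjNormal : Perm (Fin n) →* MulAut (alternatingGroup (Fin n))).range := by
    rintro _ ⟨x, hx, rfl⟩
    obtain ⟨j, hj⟩ := Q.2 ⟨x, hx⟩
    apply mem_range_of_odd n hn _ (hqodd.pow (n := j))
    have := congrArg (fun z : (Q : Subgroup G) => ((z : G) : MulAut (alternatingGroup (Fin n)))) hj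
    simpa using this
  have hdvd : q ^ k ∣ n.factorial := by
    rw [← hk, ← Subgroup.card_map_of_injective (Subgroup.subtype_injective G)]
    refine (Subgroup.card_dvd_of_le hle).trans ((Subgroup.card_range_dvd _).trans ?_)
    rw [Nat.card_perm]; simp
  by_cases hk2 : k ≤ 2
  · exact comm_of_card hk2 hk
  · exfalso
    have h3 : q ^ 3 ∣ n.factorial := (pow_dvd_pow q (by omega)).trans hdvd
    have hn3 : 3 * q ≤ n := by
      by_contra hc
      exact not_dvd_fact hq hq3 (by omega) h3
    obtain ⟨g, hg⟩ := exists_order n p q hp hq hlt hn3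
    apply h ⟨MulAut.conj g, hG ⟨g, rfl⟩⟩
    rw [Subgroup.orderOf_mk, orderOf_injective _ (conj_injective n hn), hg]

end Cfsg.Agent.S4231
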