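import Cfsg.Statements.S4236
import Cfsg.Agent.Lib.Helper61.SylowTwoP

set_option autoImplicit false
open Cfsg

namespace Cfsg.Agent.S4236

open Subgroup Cfsg.Agent.Lib.Helper61 Cfsg.Agent.Lib.Helper61.TwoP

instance fact17 : Fact (Nat.Prime 17) := ⟨by norm_num⟩

theorem finish (G : Type*) [Group G] [Finite G] (S : Sylow 17 G) (hS : Nat.card S = 17)
    (hC : Nat.card (centralizer ((S : Subgroup G) : Set G)) = 17)
    (hG : Nat.card (normalizer ((S : Subgroup G) : Set G)) * (2 * 17 + 1) = Nat.card G) :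
    ∃ K : Subgroup G, K.Normal ∧ K ≠ ⊤ ∧ K.index.Coprime 17 := by
  by_cases h2 : 2 ∣ Nat.card G
  · exact exists_normal_of_even (by norm_num) S hS hC _ (by norm_num) hG h2
  · obtain ⟨k, hk, hN⟩ := card_normalizer S hS hC
    rw [hN] at hG
    have hk1 : k = 1 := by
      have hle : k ≤ 16 := Nat.le_of_dvd (by norm_num) hk
      have hodd : ¬ 2 ∣ k := fun h => h2 (by rw [← hG]; exact Dvd.dvd.mul_right (Dvd.dvd.mul_left h _) _)
      clear hG hN
      interval_cases k <;> omega
    rw [hk1] at hG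
    have : Fact (Nat.Prime 5) := ⟨by norm_num⟩
    obtain ⟨K, hK1, hK2⟩ := exists_normal_index_prime (default : Sylow 5 G)
      (card_sylow_eq_prime (m := 119) (by omega) (by norm_num) _) (by rw [← hG]; norm_num)
    refine ⟨K, hK1, ?_, by rw [hK2]; norm_num⟩
    intro h'; rw [h', Subgroup.index_top] at hK2; omega

/-- No finite group has exactly 35 Sylow 17-subgroups. -/
theorem result {G : Type*} [Group G] [Finite G] : Nat.card (Sylow 17 G) ≠ 35 := by
  exact card_sylow_ne (p := 17) (by norm_num) (fun G _ _ S h1 h2 h3 => finish G S h1 h2 h3) _ G rfl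

end Cfsg.Agent.S4236
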