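import Cfsg.Statements.S4237
import Cfsg.Agent.Lib.Helper87.Kul.Common

set_option autoImplicit false
open Cfsg

namespace Cfsg.Agent.S4237

open Cfsg.Agent.Lib.Helper87.Kul

/-- Let G be a finite group, p a prime and a a natural number such that p^(a+1) divides the order of G. Then the number of subgroups of G of order p^a is congruent to 1 or to 1 + p modulo p². -/
theorem result {G : Type*} [Group G] [Finite G] (p a : ℕ) (hp : p.Prime) (hdvd : p ^ (a + 1) ∣ Nat.card G) :
    Nat.card {H : Subgroup G // Nat.card H = p ^ a} ≡ 1 [MOD p ^ 2] ∨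
      Nat.card {H : Subgroup G // Nat.card H = p ^ a} ≡ 1 + p [MOD p ^ 2] := by
  haveI : Fact p.Prime := ⟨hp⟩
  have hW := W (G := G) p a hp hdvd
  have hpG : p ∣ Nat.card G := (dvd_pow_self p (Nat.succ_ne_zero a)).trans hdvd
  by_cases h2 : p = 2
  · subst h2
    have hs : Nat.card {H : Subgroup G // Nat.card H = 2 ^ a} ≡ 1 [MOD 2] :=
      Cfsg.Agent.S3975.result 2 a hp ((pow_dvd_pow 2 (Nat.le_succ a)).trans hdvd)
    unfold Nat.ModEq at hs ⊢
    omega
  · obtain ⟨P⟩ : Nonempty (Sylow p G) := inferInstance
    by_cases hP : IsCyclic ↥(P : Subgroup G)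
    · left
      have h0 := ncN_eq_zero_of_cyclic p P hP (a + 1)
      unfold ncN at h0
      rw [h0] at hW
      simpa using hW
    · rcases Nat.eq_zero_or_pos a with ha | ha
      · left
        subst ha
        have h0 : Nat.card {H : Subgroup G // Nat.card H = p ^ (0 + 1) ∧ ¬ IsCyclic H} = 0 := by
          rw [Nat.card_eq_zero]
          left
          constructor
          rintro ⟨H, hH, hnc⟩
          apply hnc
          rw [zero_add, pow_one] at hH
          exact isCyclic_of_prime_card hH
        rw [h0] at hW
        simpa using hW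
      · right
        exact modEq_of_dvd_cN p a hp hdvd (dvd_cN_of_odd p h2 hpG P hP a ha)

end Cfsg.Agent.S4237
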