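import Cfsg.Statements.S4238
import Cfsg.Agent.Lib.Helper2.Frobenius
import Cfsg.Agent.Lib.Lead.Residual
import Cfsg.Agent.Lib.Helper72.SylowCount

set_option autoImplicit false
open Cfsg
open scoped Pointwise

namespace Cfsg.Agent.S4238

open Cfsg.Agent.Lib.Helper72

theorem mem_normalizer_of_conj_mem {G : Type*} [Group G] [Finite G] (Y : Subgroup G) (g : G)
    (h : ∀ u ∈ Y, g * u * g⁻¹ ∈ Y) : g ∈ Subgroup.normalizer (Y : Set G) := by
  rw [mem_normalizer_iff_conj_smul_eq]
  apply Subgroup.eq_of_le_of_card_ge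
  · intro y hy
    rw [mem_conj_smul_iff] at hy
    have := h _ hy
    simpa [mul_assoc] using this
  · rw [card_conj_smul]

theorem exists_orderOf_eq_exponent_of_isPGroup {K : Type*} [Group K] [Finite K] (p : ℕ)
    [Fact p.Prime] (hK : IsPGroup p K) : ∃ k : K, orderOf k = Monoid.exponent K := by
  obtain ⟨n, hn⟩ := IsPGroup.iff_card.1 hK
  have hd : Monoid.exponent K ∣ p ^ n := hn ▸ Group.exponent_dvd_nat_card
  obtain ⟨j, -, hj⟩ := (Nat.dvd_prime_pow Fact.out).1 hd
  rcases j with _ | j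
  · exact ⟨1, by rw [orderOf_one, hj, pow_zero]⟩
  · have : ∃ x : K, x ^ p ^ j ≠ 1 := by
      by_contra hcon
      push Not at hcon
      have := Monoid.exponent_dvd_of_forall_pow_eq_one hcon
      rw [hj] at this
      exact absurd ((Nat.pow_dvd_pow_iff_le_right (Fact.out : p.Prime).one_lt).1 this) (by omega)
    obtain ⟨x, hx⟩ := this
    refine ⟨x, ?_⟩
    rw [hj]
    exact orderOf_eq_prime_pow hx (hj ▸ Monoid.pow_exponent_eq_one x)

theorem conj_eq_self_of_commute {G : Type*} [Group G] {b x : G} {N : ℕ}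
    (hc : b * (x⁻¹ * (b * x * b⁻¹)) * b⁻¹ = x⁻¹ * (b * x * b⁻¹))
    (hN : (x⁻¹ * (b * x * b⁻¹)) ^ N = 1) (hcop : Nat.Coprime (orderOf b) N) :
    b * x * b⁻¹ = x := by
  obtain ⟨c, hcdef⟩ : ∃ c, c = x⁻¹ * (b * x * b⁻¹) := ⟨_, rfl⟩
  rw [← hcdef] at hc hN
  have e3 : b * x * b⁻¹ = x * c := by rw [hcdef]; group
  have hpow : ∀ n : ℕ, b ^ n * x * (b ^ n)⁻¹ = x * c ^ n := by
    intro n
    induction n with
    | zero => simp
    | succ n ihn =>
      have e1 : b ^ (n + 1) * x * (b ^ (n + 1))⁻¹ = b * (b ^ n * x * (b ^ n)⁻¹) * b⁻¹ := by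
        rw [pow_succ']; group
      have e2 : b * (x * c ^ n) * b⁻¹ = (b * x * b⁻¹) * (b * c * b⁻¹) ^ n := by
        rw [conj_pow]; group
      rw [e1, ihn, e2, hc, e3, pow_succ', mul_assoc]
  have h1 := hpow (orderOf b)
  rw [pow_orderOf_eq_one] at h1
  have h2 : c ^ orderOf b = 1 := by simpa using h1.symm
  have d1 : orderOf c ∣ orderOf b := orderOf_dvd_of_pow_eq_one h2
  have d2 : orderOf c ∣ N := orderOf_dvd_of_pow_eq_one hN
  have d3 : orderOf c ∣ Nat.gcd (orderOf b) N := Nat.dvd_gcd d1 d2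
  rw [hcop.gcd_eq_one] at d3
  rw [e3, orderOf_eq_one_iff.1 (Nat.dvd_one.1 d3), mul_one]

theorem lemmaK {K : Type*} [Group K] [Finite K] (p : ℕ) [Fact p.Prime]
    (ha : ¬ HasNormalPComplement p K)
    (hb : ∀ U : Subgroup K, U ≠ ⊤ → HasNormalPComplement p U)
    (hc : ∀ M : Subgroup K, ∀ _ : M.Normal, M ≠ ⊥ → HasNormalPComplement p (K ⧸ M)) :
    pPrimeCore p K = ⊥ ∧ ∀ k : K, orderOf k ≠ Monoid.exponent K := by
  have hp : p.Prime := Fact.out
  constructor
  · by_contra hne
    apply ha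
    have h1 := hc (pPrimeCore p K) inferInstance hne
    rw [Cfsg.Agent.Lib.Lead.hasNormalPComplement_iff] at h1 ⊢
    obtain ⟨N, hN, hcop, k, hk⟩ := h1
    refine ⟨N.comap (QuotientGroup.mk' _), hN.comap _, ?_, k, ?_⟩
    · rw [Cfsg.Agent.Lib.Lead.card_comap_mk']
      exact Nat.Coprime.mul_left (Cfsg.Agent.Lib.Lead.card_pPrimeCore_coprime p) hcop
    · rw [Subgroup.index_comap_of_surjective _ (QuotientGroup.mk'_surjective _), hk]
  intro k hk
  have hF : ¬ Cfsg.Agent.Lib.Helper2.FrobCond p K := fun h =>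
    ha (Cfsg.Agent.Lib.Helper2.hasNormalPComplement_iff_frobCond.2 h)
  unfold Cfsg.Agent.Lib.Helper2.FrobCond at hF
  push Not at hF
  obtain ⟨Q, hQ, g, hg, hgo, hgc⟩ := hF
  have htop : Q ⊔ Subgroup.zpowers g = ⊤ := by
    by_contra hne
    apply hgc
    have hU := Cfsg.Agent.Lib.Helper2.hasNormalPComplement_iff_frobCond.1 (hb _ hne)
    have hQU : Q ≤ Q ⊔ Subgroup.zpowers g := le_sup_left
    have hgU : g ∈ Q ⊔ Subgroup.zpowers g :=
      (le_sup_right : Subgroup.zpowers g ≤ Q ⊔ Subgroup.zpowers g) (Subgroup.mem_zpowers g)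
    have := hU (Q.subgroupOf (Q ⊔ Subgroup.zpowers g)) (hQ.comap_subtype) ⟨g, hgU⟩ ?_ ?_
    · rw [Subgroup.mem_centralizer_iff] at this ⊢
      intro x hx
      have h2 := this ⟨x, hQU hx⟩ (by
        rw [SetLike.mem_coe, Subgroup.mem_subgroupOf]; exact hx)
      exact congrArg Subtype.val h2
    · rw [Subgroup.mem_normalizer_iff] at hg ⊢
      intro x
      simp only [Subgroup.mem_subgroupOf]
      exact hg x
    · rwa [Subgroup.orderOf_mk]
  have hQn : Q.Normal := by
    rw [← Subgroup.normalizer_eq_top_iff, eq_top_iff, ← htop, sup_le_iff]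
    exact ⟨Subgroup.le_normalizer, by rw [Subgroup.zpowers_le]; exact hg⟩
  obtain ⟨s, hs⟩ := IsPGroup.iff_card.1 hQ
  obtain ⟨n, hn⟩ : ∃ n, n = Q.index := ⟨_, rfl⟩
  have hcardK : Nat.card Q * n = Nat.card K := hn ▸ Q.card_mul_index
  have hnog : n ∣ orderOf g := by
    have h1 : Nat.card K ∣ Nat.card (Subgroup.zpowers g) * Nat.card Q := by
      have := Cfsg.Agent.Lib.Lead.card_sup_dvd (Subgroup.zpowers g) Q
      rw [sup_comm, htop, Subgroup.card_top] at this
      exact this
    rw [← hcardK, Nat.card_zpowers, mul_comm] at h1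
    exact Nat.dvd_of_mul_dvd_mul_right Nat.card_pos h1
  have hncop : n.Coprime p := Nat.Coprime.coprime_dvd_left hnog hgo
  have hne' : n ∣ orderOf k := hk ▸ (hnog.trans (Monoid.order_dvd_exponent g))
  have hpK : p ∣ Nat.card K := by
    by_contra h
    exact ha (Cfsg.Agent.Lib.Lead.hasNormalPComplement_of_coprime_card
      (Nat.Coprime.symm ((Nat.Prime.coprime_iff_not_dvd hp).2 h)))
  obtain ⟨x0, hx0⟩ := exists_prime_orderOf_dvd_card' p hpK
  have hpe : p ∣ orderOf k := hk ▸ (hx0 ▸ Monoid.order_dvd_exponent x0)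
  obtain ⟨a, hadef⟩ : ∃ a, a = k ^ n := ⟨_, rfl⟩
  obtain ⟨b, hbdef⟩ : ∃ b, b = k ^ (p ^ s) := ⟨_, rfl⟩
  have hab : Commute b a := by rw [hadef, hbdef]; exact (Commute.refl k).pow_pow _ _
  have hkK : k ^ (p ^ s * n) = 1 := by rw [← hs, hcardK]; exact pow_card_eq_one'
  have ha1 : a ≠ 1 := by
    intro h
    rw [hadef] at h
    have h2 : p ∣ n := hpe.trans (orderOf_dvd_of_pow_eq_one h)
    exact (Nat.Prime.coprime_iff_not_dvd hp).1 hncop.symm h2
  have haps : a ^ (p ^ s) = 1 := by
    rw [hadef, ← pow_mul, mul_comm]; exact hkK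
  have haQ : a ∈ Q := by
    have h1 : a ^ n ∈ Q := hn ▸ Subgroup.pow_index_mem Q a
    have h2 : n.Coprime (orderOf a) :=
      Nat.Coprime.coprime_dvd_right (orderOf_dvd_of_pow_eq_one haps) (Nat.Coprime.pow_right s hncop)
    obtain ⟨m, hm⟩ := exists_pow_eq_self_of_coprime h2
    rw [← hm]; exact Q.pow_mem h1 m
  have hbn : b ^ n = 1 := by rw [hbdef, ← pow_mul]; exact hkK
  have hbo : (orderOf b).Coprime p :=
    Nat.Coprime.coprime_dvd_left (orderOf_dvd_of_pow_eq_one hbn) hncop
  have hnb : n ∣ orderOf b := by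
    have h1 : k ^ (p ^ s * orderOf b) = 1 := by
      rw [pow_mul, ← hbdef]; exact pow_orderOf_eq_one b
    have h2 : n ∣ p ^ s * orderOf b := hne'.trans (orderOf_dvd_of_pow_eq_one h1)
    exact Nat.Coprime.dvd_of_dvd_mul_left (Nat.Coprime.pow_right s hncop) h2
  have hW : Q ⊔ Subgroup.zpowers b = ⊤ := by
    rw [← Subgroup.card_eq_iff_eq_top]
    apply Nat.dvd_antisymm (Subgroup.card_subgroup_dvd_card _)
    rw [← hcardK]
    apply Nat.Coprime.mul_dvd_of_dvd_of_dvd
    · rw [hs]; exact Nat.Coprime.pow_left s hncop.symm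
    · exact Subgroup.card_dvd_of_le le_sup_left
    · exact hnb.trans ((Nat.card_zpowers b) ▸ Subgroup.card_dvd_of_le le_sup_right)
  have hi : ∀ M : Subgroup K, M.Normal → M ≠ ⊥ → ∀ x ∈ Q, x⁻¹ * (b * x * b⁻¹) ∈ M := by
    intro M hM hMne x hx
    have hF' := Cfsg.Agent.Lib.Helper2.hasNormalPComplement_iff_frobCond.1 (hc M hM hMne)
    have h1 := hF' (Q.map (QuotientGroup.mk' M)) (hQ.map _) (QuotientGroup.mk' M b) ?_ ?_
    · rw [Subgroup.mem_centralizer_iff] at h1
      have h2 := h1 (QuotientGroup.mk' M x) (Subgroup.mem_map_of_mem _ hx)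
      rw [← QuotientGroup.eq_one_iff, ← QuotientGroup.mk'_apply]
      simp only [map_mul, map_inv]
      rw [← h2]; group
    · have : (Q.map (QuotientGroup.mk' M)).Normal := hQn.map _ (QuotientGroup.mk'_surjective M)
      rw [Subgroup.normalizer_eq_top_iff.2 this]; exact Subgroup.mem_top _
    · exact Nat.Coprime.coprime_dvd_left (orderOf_map_dvd _ b) hbo
  have hQnt : Nontrivial Q := ⟨⟨⟨a, haQ⟩, 1, fun h => ha1 (congrArg Subtype.val h)⟩⟩
  have hZnt := hQ.center_nontrivial
  have hZn : ((Subgroup.center Q).map Q.subtype).Normal :=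
    Cfsg.Agent.Lib.Lead.normal_map_subtype_of_characteristic Q (Subgroup.center Q)
  have hZne : (Subgroup.center Q).map Q.subtype ≠ ⊥ := by
    intro h
    rw [Subgroup.map_eq_bot_iff_of_injective _ Q.subtype_injective] at h
    rw [h] at hZnt; exact not_nontrivial _ hZnt
  have hz : ∀ x ∈ Q, ∀ u ∈ Q, (x⁻¹ * (b * x * b⁻¹)) * u = u * (x⁻¹ * (b * x * b⁻¹)) := by
    intro x hx u hu
    obtain ⟨z, hz, hzx⟩ := hi _ hZn hZne x hx
    rw [← hzx]
    have := Subgroup.mem_center_iff.1 hz ⟨u, hu⟩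
    exact (congrArg Subtype.val this).symm
  have hP0n : (Q ⊓ Subgroup.centralizer {b}).Normal := by
    rw [← Subgroup.normalizer_eq_top_iff, eq_top_iff, ← hW, sup_le_iff]
    constructor
    · intro y hy
      apply mem_normalizer_of_conj_mem
      intro u hu0
      obtain ⟨hu, hub⟩ := Subgroup.mem_inf.1 hu0
      refine Subgroup.mem_inf.2 ⟨Q.mul_mem (Q.mul_mem hy hu) (Q.inv_mem hy), ?_⟩
      rw [Subgroup.mem_centralizer_singleton_iff] at hub ⊢
      obtain ⟨z, hzdef⟩ : ∃ z, z = y⁻¹ * (b * y * b⁻¹) := ⟨_, rfl⟩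
      have hzu : z * u = u * z := by rw [hzdef]; exact hz y hy u hu
      have e1 : b * y * b⁻¹ = y * z := by rw [hzdef]; group
      have e2 : b * u * b⁻¹ = u := by rw [← hub, mul_inv_cancel_right]
      have e3 : z * u * z⁻¹ = u := by rw [hzu, mul_inv_cancel_right]
      have e4 : b * (y * u * y⁻¹) * b⁻¹ = y * u * y⁻¹ := by
        calc b * (y * u * y⁻¹) * b⁻¹ = (b * y * b⁻¹) * (b * u * b⁻¹) * (b * y * b⁻¹)⁻¹ := by group
          _ = (y * z) * u * (y * z)⁻¹ := by rw [e1, e2]
          _ = y * (z * u * z⁻¹) * y⁻¹ := by group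
          _ = y * u * y⁻¹ := by rw [e3]
      calc y * u * y⁻¹ * b = (b * (y * u * y⁻¹) * b⁻¹) * b := by rw [e4]
        _ = b * (y * u * y⁻¹) := by group
    · rw [Subgroup.zpowers_le]
      apply mem_normalizer_of_conj_mem
      intro u hu0
      obtain ⟨hu, hub⟩ := Subgroup.mem_inf.1 hu0
      rw [Subgroup.mem_centralizer_singleton_iff] at hub
      have e2 : b * u * b⁻¹ = u := by rw [← hub, mul_inv_cancel_right]
      rw [e2]; exact hu0
  have hP0ne : Q ⊓ Subgroup.centralizer {b} ≠ ⊥ := by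
    intro h
    have : a ∈ Q ⊓ Subgroup.centralizer {b} :=
      Subgroup.mem_inf.2 ⟨haQ, Subgroup.mem_centralizer_singleton_iff.2 hab.symm.eq⟩
    rw [h] at this
    exact ha1 (Subgroup.mem_bot.1 this)
  have hfix : ∀ x ∈ Q, b * x * b⁻¹ = x := by
    intro x hx
    obtain ⟨hcQ, hcb⟩ := Subgroup.mem_inf.1 (hi _ hP0n hP0ne x hx)
    rw [Subgroup.mem_centralizer_singleton_iff] at hcb
    apply conj_eq_self_of_commute (N := p ^ s)
    · rw [← hcb, mul_inv_cancel_right]
    · have := pow_card_eq_one' (G := Q) (x := ⟨_, hcQ⟩)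
      rw [hs] at this
      exact congrArg Subtype.val this
    · exact Nat.Coprime.pow_right s hbo
  apply hgc
  have hbC : b ∈ Subgroup.centralizer (Q : Set K) := by
    rw [Subgroup.mem_centralizer_iff]
    intro x hx
    calc x * b = (b * x * b⁻¹) * b := by rw [hfix x hx]
      _ = b * x := by group
  have hgmem : g ∈ (↑(Q ⊔ Subgroup.zpowers b) : Set K) := by rw [hW]; trivial
  rw [Subgroup.normal_mul] at hgmem
  obtain ⟨y, hy, c, hc', hyc⟩ := hgmem
  have hcC : c ∈ Subgroup.centralizer (Q : Set K) := (Subgroup.zpowers_le.2 hbC) hc'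
  have hcomm : Commute y c := Subgroup.mem_centralizer_iff.1 hcC y hy
  have hyp : y ^ (p ^ s) = 1 := by
    have := pow_card_eq_one' (G := Q) (x := ⟨y, hy⟩)
    rw [hs] at this
    exact congrArg Subtype.val this
  have hgp : g ^ (p ^ s) ∈ Subgroup.centralizer (Q : Set K) := by
    have : g = y * c := hyc.symm
    rw [this, hcomm.mul_pow, hyp, one_mul]
    exact Subgroup.pow_mem _ hcC _
  obtain ⟨m, hm⟩ := exists_pow_eq_self_of_coprime
    (show (p ^ s).Coprime (orderOf g) from Nat.Coprime.pow_left s hgo.symm)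
  rw [← hm]
  exact Subgroup.pow_mem _ hgp m

/-- Let G be a finite group and p a prime. Then G has a normal p-complement if and only if every section K = H/N of G (N a normal subgroup of a subgroup H) whose largest normal subgroup of order prime to p is trivial contains an element whose order equals the exponent of K. -/
theorem result {G : Type*} [Group G] [Finite G] (p : ℕ) [Fact p.Prime] :
    Cfsg.HasNormalPComplement p G ↔
      ∀ (H : Subgroup G) (N : Subgroup H) [N.Normal], Cfsg.pPrimeCore p (H ⧸ N) = ⊥ →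
        ∃ k : H ⧸ N, orderOf k = Monoid.exponent (H ⧸ N) := by
  constructor
  · intro h H N _ hcore
    have hK : HasNormalPComplement p (H ⧸ N) :=
      Cfsg.Agent.Lib.Lead.HasNormalPComplement.quotient
        (Cfsg.Agent.Lib.Lead.HasNormalPComplement.subgroup h H) N
    obtain ⟨k, hk⟩ := Cfsg.Agent.Lib.Lead.hasNormalPComplement_iff_index_pPrimeCore.1 hK
    rw [hcore, Subgroup.index_bot] at hk
    exact exists_orderOf_eq_exponent_of_isPGroup p (IsPGroup.of_card hk)
  · intro h
    by_contra hG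
    obtain ⟨H, hH⟩ := exists_minimal_of_wellFoundedLT
      (fun H : Subgroup G => ¬ HasNormalPComplement p H)
      ⟨⊤, fun ht => hG (Cfsg.Agent.Lib.Lead.HasNormalPComplement.of_surjective ht
        (Subgroup.topEquiv : (⊤ : Subgroup G) ≃* G).toMonoidHom Subgroup.topEquiv.surjective)⟩
    have hHa : ¬ HasNormalPComplement p H := hH.prop
    have hHb : ∀ U : Subgroup H, U ≠ ⊤ → HasNormalPComplement p U := by
      intro U hU
      by_contra hcon
      have h1 : ¬ HasNormalPComplement p (U.map H.subtype) := fun h2 =>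
        hcon (Cfsg.Agent.Lib.Lead.HasNormalPComplement.of_surjective h2
          (U.equivMapOfInjective H.subtype H.subtype_injective).symm.toMonoidHom
          (MulEquiv.surjective _))
      have h2 := hH.le_of_le h1 (Subgroup.map_subtype_le U)
      apply hU
      rw [eq_top_iff]
      intro x _
      obtain ⟨y, hy, hyx⟩ := h2 x.2
      have : y = x := Subtype.ext hyx
      exact this ▸ hy
    obtain ⟨N, hN⟩ := exists_maximal_of_wellFoundedGT
      (fun N : Subgroup H => ∃ _ : N.Normal, ¬ HasNormalPComplement p (H ⧸ N))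
      ⟨⊥, inferInstance, fun hb => hHa (Cfsg.Agent.Lib.Lead.HasNormalPComplement.of_surjective hb
        (QuotientGroup.quotientBot : H ⧸ (⊥ : Subgroup H) ≃* H).toMonoidHom
        QuotientGroup.quotientBot.surjective)⟩
    obtain ⟨hNn, hNa⟩ := hN.prop
    have hK := lemmaK p hNa ?_ ?_
    · obtain ⟨k, hk⟩ := h H N hK.1
      exact hK.2 k hk
    · intro U hU
      have hU' : U.comap (QuotientGroup.mk' N) ≠ ⊤ := by
        intro ht
        apply hU
        apply Subgroup.comap_injective (QuotientGroup.mk'_surjective N)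
        rw [ht, Subgroup.comap_top]
      exact Cfsg.Agent.Lib.Lead.HasNormalPComplement.of_surjective (hHb _ hU')
        ((QuotientGroup.mk' N).subgroupComap U)
        (MonoidHom.subgroupComap_surjective_of_surjective _ _ (QuotientGroup.mk'_surjective N))
    · intro M hM hMne
      by_contra hcon
      have hM'n : (M.comap (QuotientGroup.mk' N)).Normal := hM.comap _
      have hP : ∃ _ : (M.comap (QuotientGroup.mk' N)).Normal,
          ¬ HasNormalPComplement p (H ⧸ (M.comap (QuotientGroup.mk' N))) :=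
        ⟨hM'n, fun hq => hcon (Cfsg.Agent.Lib.Lead.HasNormalPComplement.of_surjective hq
          (QuotientGroup.map (M.comap (QuotientGroup.mk' N)) M (QuotientGroup.mk' N) le_rfl) (by
            intro q
            obtain ⟨y, rfl⟩ := QuotientGroup.mk'_surjective M q
            obtain ⟨x, rfl⟩ := QuotientGroup.mk'_surjective N y
            exact ⟨QuotientGroup.mk x, rfl⟩))⟩
      have hNM : N ≤ M.comap (QuotientGroup.mk' N) := by
        intro x hx
        have h1 : QuotientGroup.mk' N x = 1 := (QuotientGroup.eq_one_iff x).2 hx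
        rw [Subgroup.mem_comap, h1]
        exact M.one_mem
      have hle := hN.le_of_ge hP hNM
      apply hMne
      rw [eq_bot_iff]
      intro y hy
      obtain ⟨x, rfl⟩ := QuotientGroup.mk'_surjective N y
      have : x ∈ N := hle hy
      exact Subgroup.mem_bot.2 ((QuotientGroup.eq_one_iff x).2 this)

end Cfsg.Agent.S4238
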