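import Cfsg.Statements.S4242
import Cfsg.Agent.Lib.Helper2.Frobenius
import Cfsg.Agent.Lib.Helper25.NilpotentCoprime
import Cfsg.Agent.Lib.Helper91.Subnormal
import Cfsg.Agent.Lib.Helper64.Sylow
import Cfsg.Agent.Lib.Helper71.Fitting
import Cfsg.Agent.Lib.Helper1.Tools
import Cfsg.Agent.Lib.Lead.Residual
import Cfsg.Agent.Lib.Lead.FrobeniusComplement

set_option autoImplicit false
open Cfsg
open scoped Pointwise

namespace Cfsg.Agent.S4242

variable {G : Type*} [Group G] [Finite G]

/-- assembling the third alternative from an element of order `p` centralising a non-nilpotent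
maximal `p'`-subgroup -/
theorem final (p : ℕ) (hp : p.Prime)
    (hnil : ∀ H : Subgroup G, H ≠ ⊤ → p ∣ Nat.card H → Group.IsNilpotent H)
    (M : Subgroup G) (hM : IsCoatom M) (hMn : ¬ Group.IsNilpotent M) (hpM : ¬ p ∣ Nat.card M)
    (x : G) (hx : orderOf x = p) (hcomm : ∀ y ∈ M, x * y = y * x) :
    ∃ Z K : Subgroup G, Z.Normal ∧ K.Normal ∧ Z ⊓ K = ⊥ ∧ Z ⊔ K = ⊤ ∧ Nat.card Z = p ∧
          Cfsg.IsMinimalNonNilpotent K ∧ ¬ p ∣ Nat.card K := by
  set Z := Subgroup.zpowers x with hZ
  have hZcard : Nat.card Z = p := by rw [hZ, Nat.card_zpowers, hx]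
  have hxM : x ∉ M := by
    intro h
    apply hpM
    have := orderOf_dvd_natCard (⟨x, h⟩ : M)
    rwa [Subgroup.orderOf_mk, hx] at this
  have hsup : Z ⊔ M = ⊤ := by
    apply hM.lt_iff.1
    refine lt_of_le_of_ne le_sup_right ?_
    intro h
    apply hxM
    rw [h]
    exact (le_sup_left : Z ≤ Z ⊔ M) (Subgroup.mem_zpowers x)
  have hZM : ∀ z ∈ Z, ∀ y ∈ M, z * y = y * z := by
    intro z hz y hy
    obtain ⟨k, rfl⟩ := Subgroup.mem_zpowers_iff.1 hz
    exact ((show Commute x y from hcomm y hy).zpow_left k).eq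
  have hZn : Z.Normal := by
    rw [← Subgroup.normalizer_eq_top_iff, eq_top_iff, ← hsup]
    refine sup_le Subgroup.le_normalizer ?_
    refine le_trans ?_ (Subgroup.centralizer_le_normalizer _)
    intro y hy
    rw [Subgroup.mem_centralizer_iff]
    intro z hz
    exact hZM z hz y hy
  have hMnorm : M.Normal := by
    rw [← Subgroup.normalizer_eq_top_iff, eq_top_iff, ← hsup]
    refine sup_le ?_ Subgroup.le_normalizer
    refine le_trans ?_ (Subgroup.centralizer_le_normalizer _)
    intro z hz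
    rw [Subgroup.mem_centralizer_iff]
    intro y hy
    exact (hZM z hz y hy).symm
  have hinf : Z ⊓ M = ⊥ := by
    apply Subgroup.inf_eq_bot_of_coprime
    rw [hZcard]
    exact (Nat.Prime.coprime_iff_not_dvd hp).2 hpM
  refine ⟨Z, M, hZn, hMnorm, hinf, hsup, hZcard, ⟨hMn, ?_⟩, hpM⟩
  intro H hH
  set H' := H.map M.subtype with hH'
  have hL : Z ⊔ H' ≠ ⊤ := by
    intro hL
    apply hH
    rw [eq_top_iff]
    intro m _
    have h1 : (m : G) ∈ Z ⊔ H' := by rw [hL]; trivial
    obtain ⟨z, hz, h, hh, hzh⟩ := Subgroup.mem_sup_of_normal_left.1 h1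
    have hhM : h ∈ M := by
      obtain ⟨h0, _, rfl⟩ := hh
      exact h0.2
    have hz1 : z ∈ Z ⊓ M := ⟨hz, by
      have : z = m * h⁻¹ := by rw [← hzh]; group
      rw [this]; exact M.mul_mem m.2 (M.inv_mem hhM)⟩
    rw [hinf, Subgroup.mem_bot] at hz1
    rw [hz1, one_mul] at hzh
    obtain ⟨h0, hh0, rfl⟩ := hh
    have : h0 = m := Subtype.ext hzh
    rw [← this]; exact hh0
  have hLp : p ∣ Nat.card (Z ⊔ H' : Subgroup G) := by
    rw [← hZcard]; exact Subgroup.card_dvd_of_le le_sup_left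
  have h2 := Cfsg.Agent.Lib.Helper91.isNilpotent_of_le (le_sup_right : H' ≤ Z ⊔ H') (hnil _ hL hLp)
  exact Cfsg.Agent.Lib.Helper91.isNilpotent_of_map_injective M.subtype M.subtype_injective h2

/-- Case B: a nontrivial normal `p`-subgroup is centralised by `M`. -/
theorem caseB (p : ℕ) (hp : p.Prime)
    (hnil : ∀ H : Subgroup G, H ≠ ⊤ → p ∣ Nat.card H → Group.IsNilpotent H)
    (M : Subgroup G) (hMn : ¬ Group.IsNilpotent M) (hpM : ¬ p ∣ Nat.card M)
    (U : Subgroup G) (hUn : U.Normal) (hUp : IsPGroup p U) (hU : U ≠ ⊥) :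
    ∀ u ∈ U, ∀ y ∈ M, u * y = y * u := by
  have : Fact p.Prime := ⟨hp⟩
  obtain ⟨n, hn⟩ := IsPGroup.iff_card.1 hUp
  have hn0 : n ≠ 0 := by
    rintro rfl
    rw [pow_zero] at hn
    exact hU (Subgroup.card_eq_one.1 hn)
  have hpU : p ∣ Nat.card U := by rw [hn]; exact dvd_pow_self p hn0
  have hcopM : (Nat.card U).Coprime (Nat.card M) := by
    rw [hn]; exact Nat.Coprime.pow_left _ ((Nat.Prime.coprime_iff_not_dvd hp).2 hpM)
  have hinf : U ⊓ M = ⊥ := (Subgroup.disjoint_of_coprime_natCard hcopM).eq_bot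
  intro u hu y hy
  by_cases hL : U ⊔ Subgroup.zpowers y = ⊤
  · exfalso
    apply hMn
    have hc : ∀ a b : M, a * b = b * a := by
      intro a b
      have ha : (a : G) ∈ U ⊔ Subgroup.zpowers y := by rw [hL]; trivial
      have hb : (b : G) ∈ U ⊔ Subgroup.zpowers y := by rw [hL]; trivial
      obtain ⟨u1, hu1, z1, hz1, h1⟩ := Subgroup.mem_sup_of_normal_left.1 ha
      obtain ⟨u2, hu2, z2, hz2, h2⟩ := Subgroup.mem_sup_of_normal_left.1 hb
      obtain ⟨k1, rfl⟩ := Subgroup.mem_zpowers_iff.1 hz1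
      obtain ⟨k2, rfl⟩ := Subgroup.mem_zpowers_iff.1 hz2
      have hq : ∀ (w : G) (v : G), v ∈ U → ((v * w : G) : G ⧸ U) = (w : G ⧸ U) := by
        intro w v hv
        rw [QuotientGroup.mk_mul, (QuotientGroup.eq_one_iff v).2 hv, one_mul]
      have h3 : (((a : G) * b * (a : G)⁻¹ * (b : G)⁻¹ : G) : G ⧸ U) = 1 := by
        rw [QuotientGroup.mk_mul, QuotientGroup.mk_mul, QuotientGroup.mk_mul, QuotientGroup.mk_inv,
          QuotientGroup.mk_inv, ← h1, ← h2, hq _ _ hu1, hq _ _ hu2, QuotientGroup.mk_zpow,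
          QuotientGroup.mk_zpow]
        have : Commute ((y : G ⧸ U) ^ k1) ((y : G ⧸ U) ^ k2) :=
          ((Commute.refl (y : G ⧸ U)).zpow_left k1).zpow_right k2
        rw [this.eq]; group
      have h4 : (a : G) * b * (a : G)⁻¹ * (b : G)⁻¹ ∈ U ⊓ M :=
        ⟨(QuotientGroup.eq_one_iff _).1 h3,
          M.mul_mem (M.mul_mem (M.mul_mem a.2 b.2) (M.inv_mem a.2)) (M.inv_mem b.2)⟩
      rw [hinf, Subgroup.mem_bot] at h4
      apply Subtype.ext
      rw [Subgroup.coe_mul, Subgroup.coe_mul]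
      rw [mul_inv_eq_one, mul_inv_eq_iff_eq_mul] at h4
      exact h4
    let _ : CommGroup M := { (inferInstance : Group M) with mul_comm := hc }
    exact CommGroup.isNilpotent
  · have hLp : p ∣ Nat.card (U ⊔ Subgroup.zpowers y : Subgroup G) :=
      hpU.trans (Subgroup.card_dvd_of_le le_sup_left)
    have h1 := hnil _ hL hLp
    apply Cfsg.Agent.Lib.Helper25.commute_of_coprime_orderOf_of_mem h1 (le_sup_left (a := U) hu)
      ((le_sup_right : Subgroup.zpowers y ≤ U ⊔ Subgroup.zpowers y) (Subgroup.mem_zpowers y))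
    have h2 : orderOf u ∣ Nat.card U := by
      have := orderOf_dvd_natCard (⟨u, hu⟩ : U)
      rwa [Subgroup.orderOf_mk] at this
    have h3 : orderOf y ∣ Nat.card M := by
      have := orderOf_dvd_natCard (⟨y, hy⟩ : M)
      rwa [Subgroup.orderOf_mk] at this
    exact Nat.Coprime.coprime_dvd_left h2 (Nat.Coprime.coprime_dvd_right h3 hcopM)

/-- Case A: no nontrivial normal `p`-subgroup. -/
theorem caseA (p : ℕ) (hp : p.Prime) (hpG : p ∣ Nat.card G)
    (hnil : ∀ H : Subgroup G, H ≠ ⊤ → p ∣ Nat.card H → Group.IsNilpotent H)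
    (M : Subgroup G) (hM : IsCoatom M) (hMn : ¬ Group.IsNilpotent M) (hpM : ¬ p ∣ Nat.card M)
    (hO : ∀ U : Subgroup G, IsPGroup p U → U ≠ ⊥ → ¬ U.Normal) :
    ∃ x : G, orderOf x = p ∧ ∀ y ∈ M, x * y = y * x := by
  have : Fact p.Prime := ⟨hp⟩
  have hpdvd : ∀ Q : Subgroup G, IsPGroup p Q → Q ≠ ⊥ → p ∣ Nat.card Q := by
    intro Q hQ hQb
    obtain ⟨n, hn⟩ := IsPGroup.iff_card.1 hQ
    have hn0 : n ≠ 0 := by
      rintro rfl
      rw [pow_zero] at hn
      exact hQb (Subgroup.card_eq_one.1 hn)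
    rw [hn]; exact dvd_pow_self p hn0
  have hF : Cfsg.Agent.Lib.Helper2.FrobCond p G := by
    intro Q hQ g hg hgo
    by_cases hQb : Q = ⊥
    · subst hQb
      rw [Subgroup.mem_centralizer_iff]
      intro x hx
      have : x = 1 := by simpa using hx
      simp [this]
    · have hN : Subgroup.normalizer (Q : Set G) ≠ ⊤ :=
        fun h => hO Q hQ hQb (Subgroup.normalizer_eq_top_iff.1 h)
      have hpN : p ∣ Nat.card (Subgroup.normalizer (Q : Set G)) :=
        (hpdvd Q hQ hQb).trans (Subgroup.card_dvd_of_le Subgroup.le_normalizer)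
      have h1 := hnil _ hN hpN
      rw [Subgroup.mem_centralizer_iff]
      intro x hx
      apply Cfsg.Agent.Lib.Helper25.commute_of_coprime_orderOf_of_mem h1
        (Subgroup.le_normalizer hx) hg
      obtain ⟨k, hk⟩ := (IsPGroup.iff_orderOf.1 hQ) ⟨x, hx⟩
      rw [Subgroup.orderOf_mk] at hk
      rw [hk]
      exact Nat.Coprime.pow_left _ hgo.symm
  have hc := Cfsg.Agent.Lib.Helper2.hasNormalPComplement_iff_frobCond.2 hF
  rw [Cfsg.Agent.Lib.Lead.hasNormalPComplement_iff] at hc
  obtain ⟨K, hKn, hK1, k, hK2⟩ := hc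
  have hMK : M ≤ K := by
    intro y hy
    rw [Cfsg.Agent.Lib.Lead.mem_iff_coprime_orderOf_of_normal_complement hK1 hK2]
    have h3 : orderOf y ∣ Nat.card M := by
      have := orderOf_dvd_natCard (⟨y, hy⟩ : M)
      rwa [Subgroup.orderOf_mk] at this
    exact Nat.Coprime.coprime_dvd_left h3 ((Nat.Prime.coprime_iff_not_dvd hp).2 hpM).symm
  have hKtop : K ≠ ⊤ := by
    intro h
    rw [h, Subgroup.card_top] at hK1
    exact (Nat.Prime.coprime_iff_not_dvd hp).1 hK1.symm hpG
  have hKM : K = M := by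
    rcases hM.le_iff.1 hMK with h | h
    · exact absurd h hKtop
    · exact h
  subst hKM
  obtain ⟨x, hx⟩ := exists_prime_orderOf_dvd_card' (G := G) p hpG
  have hxp : IsPGroup p (Subgroup.zpowers x) := by
    apply IsPGroup.of_card (n := 1)
    rw [Nat.card_zpowers, hx, pow_one]
  obtain ⟨P, hP⟩ := hxp.exists_le_sylow
  have hPb : (P : Subgroup G) ≠ ⊥ := P.ne_bot_of_dvd_card hpG
  set C := Subgroup.centralizer ((P : Subgroup G) : Set G) with hC
  have hidx : ∀ r : ℕ, r.Prime → r ≠ p → ¬ r ∣ C.index := by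
    intro r hr hrp
    have : Fact r.Prime := ⟨hr⟩
    obtain ⟨R⟩ : Nonempty (Sylow r G) := inferInstance
    have hRK : (R : Subgroup G) ≤ K := by
      intro y hy
      rw [Cfsg.Agent.Lib.Lead.mem_iff_coprime_orderOf_of_normal_complement hK1 hK2]
      obtain ⟨j, hj⟩ := (IsPGroup.iff_orderOf.1 R.2) ⟨y, hy⟩
      rw [Subgroup.orderOf_mk] at hj
      rw [hj]
      exact Nat.Coprime.pow_left _ ((Nat.coprime_primes hr hp).2 hrp)
    set N := Subgroup.normalizer ((R : Subgroup G) : Set G) with hN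
    have hfr : N ⊔ K = ⊤ := Sylow.normalizer_sup_eq_top' R hRK
    have hNidx : ¬ p ∣ N.index := by
      have h1 := Cfsg.Agent.Lib.Helper1.card_sup_mul_card_inf (H := N) (K := K)
        (by rw [Subgroup.normalizer_eq_top_iff.2 hKn]; exact le_top)
      rw [hfr, Subgroup.card_top, ← N.card_mul_index, mul_assoc] at h1
      have h2 : N.index * Nat.card (N ⊓ K : Subgroup G) = Nat.card K :=
        Nat.eq_of_mul_eq_mul_left Nat.card_pos h1
      intro h3
      exact (Nat.Prime.coprime_iff_not_dvd hp).1 hK1.symm (h2 ▸ (h3.trans (dvd_mul_right _ _)))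
    obtain ⟨g, hg⟩ := Cfsg.Agent.Lib.Helper64.exists_smul_sylow_le_of_not_dvd_index P N hNidx
    set P' : Sylow p G := g • P with hP'
    have hP'b : (P' : Subgroup G) ≠ ⊥ := P'.ne_bot_of_dvd_card hpG
    set H := (P' : Subgroup G) ⊔ (R : Subgroup G) with hH
    have hHcard : Nat.card H ∣ Nat.card (P' : Subgroup G) * Nat.card (R : Subgroup G) :=
      Cfsg.Agent.Lib.Helper1.card_sup_dvd hg
    have hHtop : H ≠ ⊤ := by
      intro h
      apply hMn
      rw [h, Subgroup.card_top] at hHcard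
      obtain ⟨a, ha⟩ := IsPGroup.iff_card.1 P'.2
      obtain ⟨b, hb⟩ := IsPGroup.iff_card.1 R.2
      have h1 : Nat.card K ∣ p ^ a * r ^ b := by
        rw [← ha, ← hb]; exact (Subgroup.card_subgroup_dvd_card K).trans hHcard
      have h2 : Nat.card K ∣ r ^ b := (Nat.Coprime.pow_right a hK1).dvd_of_dvd_mul_left h1
      obtain ⟨c, _, hc⟩ := (Nat.dvd_prime_pow hr).1 h2
      exact (IsPGroup.of_card hc).isNilpotent
    have hHp : p ∣ Nat.card H :=
      (hpdvd _ P'.2 hP'b).trans (Subgroup.card_dvd_of_le le_sup_left)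
    have hHn := hnil H hHtop hHp
    -- `g⁻¹ • R` centralises `P`
    have hle : ((g⁻¹ • R : Sylow r G) : Subgroup G) ≤ C := by
      intro y hy
      rw [Cfsg.Agent.Lib.Lead.mem_coe_smul_sylow, inv_inv] at hy
      rw [hC, Subgroup.mem_centralizer_iff]
      intro u hu
      have hu' : g * u * g⁻¹ ∈ (P' : Subgroup G) := by
        rw [hP', Cfsg.Agent.Lib.Lead.mem_coe_smul_sylow]
        have e : g⁻¹ * (g * u * g⁻¹) * g = u := by group
        rw [e]; exact hu
      have hco : (orderOf (g * u * g⁻¹)).Coprime (orderOf (g * y * g⁻¹)) := by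
        obtain ⟨i, hi⟩ := (IsPGroup.iff_orderOf.1 P'.2) ⟨_, hu'⟩
        obtain ⟨j, hj⟩ := (IsPGroup.iff_orderOf.1 R.2) ⟨_, hy⟩
        rw [Subgroup.orderOf_mk] at hi hj
        rw [hi, hj]
        exact Nat.Coprime.pow _ _ ((Nat.coprime_primes hp hr).2 (Ne.symm hrp))
      have h5 := Cfsg.Agent.Lib.Helper25.commute_of_coprime_orderOf_of_mem hHn
        ((le_sup_left : (P' : Subgroup G) ≤ H) hu') ((le_sup_right : (R : Subgroup G) ≤ H) hy) hco
      have h6 : g * (u * y) * g⁻¹ = g * (y * u) * g⁻¹ := by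
        have e1 : g * (u * y) * g⁻¹ = (g * u * g⁻¹) * (g * y * g⁻¹) := by group
        have e2 : g * (y * u) * g⁻¹ = (g * y * g⁻¹) * (g * u * g⁻¹) := by group
        rw [e1, e2, h5]
      exact mul_left_cancel (mul_right_cancel h6)
    intro h
    exact (g⁻¹ • R : Sylow r G).not_dvd_index (h.trans (Subgroup.index_dvd_of_le hle))
  have hKC : K ≤ C := by
    rw [← Subgroup.relIndex_eq_one, Nat.eq_one_iff_not_exists_prime_dvd]
    intro r hr hrd
    have h1 : r ∣ C.index :=
      hrd.trans (Cfsg.Agent.Lib.Helper71.relIndex_dvd_index_of_normal_right C K)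
    have h2 : r ∣ Nat.card K := hrd.trans (Subgroup.relIndex_dvd_card C K)
    have hrp : r ≠ p := by
      rintro rfl
      exact hpM h2
    exact hidx r hr hrp h1
  refine ⟨x, hx, fun y hy => ?_⟩
  have := (Subgroup.mem_centralizer_iff.1 (hKC hy)) x (hP (Subgroup.mem_zpowers x))
  exact this

/-- Let G be a finite group and p a prime dividing its order. Every maximal subgroup of G of order divisible by p is nilpotent if and only if G is nilpotent, or G is a minimal non-nilpotent group, or G is the internal direct product of a normal subgroup of order p and a normal minimal non-nilpotent subgroup of order prime to p. -/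
theorem result {G : Type*} [Group G] [Finite G] (p : ℕ) (hp : p.Prime) (hpG : p ∣ Nat.card G) :
    (∀ M : Subgroup G, IsCoatom M → p ∣ Nat.card M → Group.IsNilpotent M) ↔
      (Group.IsNilpotent G ∨ Cfsg.IsMinimalNonNilpotent G ∨
        ∃ Z K : Subgroup G, Z.Normal ∧ K.Normal ∧ Z ⊓ K = ⊥ ∧ Z ⊔ K = ⊤ ∧ Nat.card Z = p ∧
          Cfsg.IsMinimalNonNilpotent K ∧ ¬ p ∣ Nat.card K) := by
  have : Fact p.Prime := ⟨hp⟩
  constructor
  · intro h
    have hnil : ∀ H : Subgroup G, H ≠ ⊤ → p ∣ Nat.card H → Group.IsNilpotent H := by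
      intro H hH hpH
      rcases eq_top_or_exists_le_coatom H with h1 | ⟨M, hM, hHM⟩
      · exact absurd h1 hH
      · exact Cfsg.Agent.Lib.Helper91.isNilpotent_of_le hHM
          (h M hM (hpH.trans (Subgroup.card_dvd_of_le hHM)))
    by_cases hG : Group.IsNilpotent G
    · exact Or.inl hG
    by_cases hmin : Cfsg.IsMinimalNonNilpotent G
    · exact Or.inr (Or.inl hmin)
    right; right
    obtain ⟨H, hH, hHn⟩ : ∃ H : Subgroup G, H ≠ ⊤ ∧ ¬ Group.IsNilpotent H := by
      by_contra hcon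
      push Not at hcon
      exact hmin ⟨hG, hcon⟩
    obtain ⟨M, hM, hHM⟩ : ∃ M : Subgroup G, IsCoatom M ∧ H ≤ M := by
      rcases eq_top_or_exists_le_coatom H with h1 | h1
      · exact absurd h1 hH
      · exact h1
    have hMn : ¬ Group.IsNilpotent M :=
      fun hn => hHn (Cfsg.Agent.Lib.Helper91.isNilpotent_of_le hHM hn)
    have hpM : ¬ p ∣ Nat.card M := fun hd => hMn (h M hM hd)
    obtain ⟨x, hx, hcomm⟩ : ∃ x : G, orderOf x = p ∧ ∀ y ∈ M, x * y = y * x := by
      by_cases hO : ∀ U : Subgroup G, IsPGroup p U → U ≠ ⊥ → ¬ U.Normal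
      · exact caseA p hp hpG hnil M hM hMn hpM hO
      · push Not at hO
        obtain ⟨U, hUp, hU, hUn⟩ := hO
        have hpU : p ∣ Nat.card U := by
          obtain ⟨n, hn⟩ := IsPGroup.iff_card.1 hUp
          have hn0 : n ≠ 0 := by
            rintro rfl
            rw [pow_zero] at hn
            exact hU (Subgroup.card_eq_one.1 hn)
          rw [hn]; exact dvd_pow_self p hn0
        obtain ⟨x, hx⟩ := exists_prime_orderOf_dvd_card' (G := U) p hpU
        refine ⟨x, by rw [Subgroup.orderOf_coe, hx], fun y hy => ?_⟩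
        exact caseB p hp hnil M hMn hpM U hUn hUp hU x x.2 y hy
    exact final p hp hnil M hM hMn hpM x hx hcomm
  · rintro (hG | hmin | ⟨Z, K, hZn, hKn, hinf, hsup, hZ, hK, hpK⟩) M hM hpM
    · infer_instance
    · exact hmin.2 M hM.1
    · obtain ⟨x, hx⟩ := exists_prime_orderOf_dvd_card' (G := M) p hpM
      have hcard : Nat.card G = Nat.card Z * Nat.card K := by
        have := Cfsg.Agent.Lib.Helper1.card_sup_mul_card_inf (H := Z) (K := K)
          (by rw [Subgroup.normalizer_eq_top_iff.2 hKn]; exact le_top)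
        rw [hsup, hinf, Subgroup.card_top, Subgroup.card_bot, mul_one] at this
        exact this
      have hidx : Z.index = Nat.card K := by
        have h1 := Z.card_mul_index
        rw [hcard] at h1
        exact Nat.eq_of_mul_eq_mul_left Nat.card_pos h1
      have hxZ : (x : G) ∈ Z := by
        rw [← QuotientGroup.eq_one_iff, ← orderOf_eq_one_iff]
        have h1 : orderOf ((x : G) : G ⧸ Z) ∣ p := by
          apply orderOf_dvd_of_pow_eq_one
          rw [← QuotientGroup.mk_pow, ← Subgroup.coe_pow, ← hx, pow_orderOf_eq_one]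
          rfl
        have h2 : orderOf ((x : G) : G ⧸ Z) ∣ Nat.card K := by
          rw [← hidx, Subgroup.index_eq_card]
          exact orderOf_dvd_natCard _
        exact Nat.eq_one_of_dvd_coprimes ((Nat.Prime.coprime_iff_not_dvd hp).2 hpK) h1 h2
      have hx1 : x ≠ 1 := by
        rintro rfl
        rw [orderOf_one] at hx
        exact hp.one_lt.ne hx
      have hZM : Z ≤ M := by
        intro z hz
        have h1 : (⟨z, hz⟩ : Z) ∈ Subgroup.zpowers (⟨x, hxZ⟩ : Z) := by
          apply mem_zpowers_of_prime_card hZ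
          intro h
          apply hx1
          apply Subtype.ext
          exact congrArg (Subtype.val : Z → G) h
        obtain ⟨k, hk⟩ := Subgroup.mem_zpowers_iff.1 h1
        have h2 : (x : G) ^ k = z := by
          have := congrArg Subtype.val hk
          simpa using this
        rw [← h2]
        exact M.zpow_mem x.2 k
      have hle : M ≤ Z ⊔ (M ⊓ K) := by
        intro m hm
        have h1 : m ∈ Z ⊔ K := by rw [hsup]; trivial
        obtain ⟨z, hz, k, hk, hzk⟩ := Subgroup.mem_sup_of_normal_left.1 h1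
        rw [← hzk]
        refine Subgroup.mul_mem_sup hz ⟨?_, hk⟩
        have : k = z⁻¹ * m := by rw [← hzk]; group
        rw [this]
        exact M.mul_mem (M.inv_mem (hZM hz)) hm
      have hZnil : Group.IsNilpotent Z :=
        (IsPGroup.of_card (p := p) (n := 1) (by rw [hZ, pow_one])).isNilpotent
      have hMK : Group.IsNilpotent (M ⊓ K : Subgroup G) := by
        have h1 : (M ⊓ K).subgroupOf K ≠ ⊤ := by
          intro h
          rw [Subgroup.subgroupOf_eq_top] at h
          apply hM.1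
          rw [eq_top_iff, ← hsup]
          exact sup_le hZM (h.trans inf_le_left)
        have h2 := Cfsg.Agent.Lib.Helper91.isNilpotent_map K.subtype (hK.2 _ h1)
        rw [Subgroup.subgroupOf_map_subtype, inf_assoc, inf_idem] at h2
        exact h2
      refine Cfsg.Agent.Lib.Helper91.isNilpotent_of_le hle
        (Cfsg.Agent.Lib.Helper91.isNilpotent_sup' Z (M ⊓ K) ?_ ?_ hZnil hMK)
      · intro z hz
        rw [Subgroup.mem_normalizer_iff]
        intro h
        constructor
        · rintro ⟨h1, h2⟩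
          exact ⟨M.mul_mem (M.mul_mem (hZM hz) h1) (M.inv_mem (hZM hz)), hKn.conj_mem h h2 z⟩
        · rintro ⟨h1, h2⟩
          constructor
          · have := M.mul_mem (M.mul_mem (M.inv_mem (hZM hz)) h1) (hZM hz)
            have e : z⁻¹ * (z * h * z⁻¹) * z = h := by group
            rwa [e] at this
          · have := hKn.conj_mem _ h2 z⁻¹
            have e : z⁻¹ * (z * h * z⁻¹) * z⁻¹⁻¹ = h := by group
            rwa [e] at this
      · rw [Subgroup.normalizer_eq_top_iff.2 hZn]; exact le_top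

end Cfsg.Agent.S4242
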