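import Cfsg.Statements.S4244
import Mathlib

set_option autoImplicit false
open Cfsg

namespace Cfsg.Agent.S4244

theorem relIndex_dvd_index_of_normal' {G : Type*} [Group G] [Finite G] (A B : Subgroup G) [A.Normal] :
    B.relIndex A ∣ B.index := by
  have h1 : Nat.card ↥(A ⊓ B) * B.relIndex A = Nat.card A := by
    have := Subgroup.relIndex_mul_relIndex ⊥ (A ⊓ B) A bot_le inf_le_left
    rwa [Subgroup.relIndex_bot_left, Subgroup.relIndex_bot_left, Subgroup.inf_relIndex_left] at this
  have h2 : Nat.card ↥(A ⊓ B) * A.relIndex B = Nat.card B := by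
    have := Subgroup.relIndex_mul_relIndex ⊥ (A ⊓ B) B bot_le inf_le_right
    rwa [Subgroup.relIndex_bot_left, Subgroup.relIndex_bot_left, Subgroup.inf_relIndex_right] at this
  have h3 : Nat.card A * A.relIndex B = Nat.card ↥(A ⊔ B) := by
    have := Subgroup.relIndex_mul_relIndex ⊥ A (A ⊔ B) bot_le le_sup_left
    rwa [Subgroup.relIndex_bot_left, Subgroup.relIndex_bot_left, Subgroup.relIndex_sup_left] at this
  have h4 : Nat.card B * B.relIndex (A ⊔ B) = Nat.card ↥(A ⊔ B) := by
    have := Subgroup.relIndex_mul_relIndex ⊥ B (A ⊔ B) bot_le le_sup_right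
    rwa [Subgroup.relIndex_bot_left, Subgroup.relIndex_bot_left] at this
  have h5 : B.relIndex A = B.relIndex (A ⊔ B) := by
    have hB : 0 < Nat.card B := Nat.card_pos
    apply Nat.eq_of_mul_eq_mul_left hB
    rw [h4, ← h3, ← h1, ← h2]
    ring
  rw [h5]
  exact Subgroup.relIndex_dvd_index_of_le le_sup_right


/-- Let H be a subnormal subgroup of a finite group G. Then for every subgroup K of G the index of H ∩ K in H divides the index of K in G. -/
theorem result {G : Type*} [Group G] [Finite G] (H : Subgroup G) (hH : H.IsSubnormal) (K : Subgroup G) :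
    (H ⊓ K).relIndex H ∣ K.index := by
  rw [Subgroup.inf_relIndex_left]
  induction hH with
  | top => rw [Subgroup.relIndex_top_right]
  | step H K' hle _ hn ih =>
    refine dvd_trans ?_ ih
    have := relIndex_dvd_index_of_normal' (H.subgroupOf K') (K.subgroupOf K')
    rwa [Subgroup.relIndex_subgroupOf hle] at this

end Cfsg.Agent.S4244
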