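import Cfsg.Statements.S4250
import Cfsg.Agent.Lib.Helper34.Alperin

set_option autoImplicit false
open Cfsg
open scoped commutatorElement
open Cfsg.Agent.Lib.Helper34 Cfsg.Agent.Lib.Helper34.Alperin

namespace Cfsg.Agent.S4250

/-- moving an element along an Alperin chain changes it only by elements of `R`, as soon as `R` contains
the commutators of every single admissible step. -/
theorem chain_mem {G : Type*} [Group G] {p : ℕ} (P : Sylow p G) (R : Subgroup G)
    (hR : ∀ (Q : Sylow p G) (y : G), Good P Q y → ∀ d ∈ (P : Subgroup G) ⊓ (Q : Subgroup G),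
      d⁻¹ * (y⁻¹ * d * y) ∈ R) (l : List (Sylow p G × G)) :
    ∀ (D : Subgroup G), Chain P D l → ∀ d ∈ D,
      d⁻¹ * ((l.map Prod.snd).prod⁻¹ * d * (l.map Prod.snd).prod) ∈ R := by
  induction l with
  | nil =>
    intro D _ d _
    simp [R.one_mem]
  | cons Qx l ih =>
    intro D hc d hd
    have h1 := hR Qx.1 Qx.2 hc.1 d (hc.2.1 hd)
    have hd' : Qx.2⁻¹ * d * Qx.2 ∈ rc D Qx.2 := by
      rw [mem_rc]
      have e : Qx.2 * (Qx.2⁻¹ * d * Qx.2) * Qx.2⁻¹ = d := by group
      rw [e]; exact hd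
    have h2 := ih _ hc.2.2 _ hd'
    have e : d⁻¹ * (((Qx :: l).map Prod.snd).prod⁻¹ * d * ((Qx :: l).map Prod.snd).prod) =
        (d⁻¹ * (Qx.2⁻¹ * d * Qx.2)) * ((Qx.2⁻¹ * d * Qx.2)⁻¹ *
          ((l.map Prod.snd).prod⁻¹ * (Qx.2⁻¹ * d * Qx.2) * (l.map Prod.snd).prod)) := by
      simp only [List.map_cons, List.prod_cons]
      group
    rw [e]
    exact R.mul_mem h1 h2

/-- Let P be a Sylow p-subgroup of a finite group G. Call an intersection H = P ∩ Q with a Sylow p-subgroup Q tame when N_P(H) and N_Q(H) are Sylow p-subgroups of N_G(H). Then P ∩ G′ is generated by [P, N_G(P)] together with the commutator subgroups [P ∩ Q, ⟨x⟩] for all tame intersections P ∩ Q and all p-elements x of N_G(P ∩ Q). -/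
theorem result {G : Type*} [Group G] [Finite G] (p : ℕ) [Fact p.Prime] (P : Sylow p G) :
    (P : Subgroup G) ⊓ commutator G =
      ⁅(P : Subgroup G), Subgroup.normalizer ((P : Subgroup G) : Set G)⁆ ⊔
        ⨆ (Q : Sylow p G) (_ : (¬ p ∣ ((P : Subgroup G) ⊓ Subgroup.normalizer (((P : Subgroup G) ⊓ (Q : Subgroup G) : Subgroup G) : Set G)).relIndex (Subgroup.normalizer (((P : Subgroup G) ⊓ (Q : Subgroup G) : Subgroup G) : Set G)) ∧ ¬ p ∣ ((Q : Subgroup G) ⊓ Subgroup.normalizer (((P : Subgroup G) ⊓ (Q : Subgroup G) : Subgroup G) : Set G)).relIndex (Subgroup.normalizer (((P : Subgroup G) ⊓ (Q : Subgroup G) : Subgroup G) : Set G))))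
          (x : G) (_ : x ∈ Subgroup.normalizer (((P : Subgroup G) ⊓ (Q : Subgroup G) : Subgroup G) : Set G) ∧ ∃ k : ℕ, orderOf x = p ^ k),
          ⁅(P : Subgroup G) ⊓ (Q : Subgroup G), Subgroup.zpowers x⁆ := by
  set R := ⁅(P : Subgroup G), Subgroup.normalizer ((P : Subgroup G) : Set G)⁆ ⊔
        ⨆ (Q : Sylow p G) (_ : (¬ p ∣ ((P : Subgroup G) ⊓ Subgroup.normalizer (((P : Subgroup G) ⊓ (Q : Subgroup G) : Subgroup G) : Set G)).relIndex (Subgroup.normalizer (((P : Subgroup G) ⊓ (Q : Subgroup G) : Subgroup G) : Set G)) ∧ ¬ p ∣ ((Q : Subgroup G) ⊓ Subgroup.normalizer (((P : Subgroup G) ⊓ (Q : Subgroup G) : Subgroup G) : Set G)).relIndex (Subgroup.normalizer (((P : Subgroup G) ⊓ (Q : Subgroup G) : Subgroup G) : Set G))))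
          (x : G) (_ : x ∈ Subgroup.normalizer (((P : Subgroup G) ⊓ (Q : Subgroup G) : Subgroup G) : Set G) ∧ ∃ k : ℕ, orderOf x = p ^ k),
          ⁅(P : Subgroup G) ⊓ (Q : Subgroup G), Subgroup.zpowers x⁆ with hRdef
  have hcomm_le : ∀ (H K : Subgroup G), K ≤ Subgroup.normalizer (H : Set G) → ⁅H, K⁆ ≤ H := by
    intro H K hK
    rw [Subgroup.commutator_le]
    intro h hh k hk
    rw [commutatorElement_def]
    have h1 : k * h⁻¹ * k⁻¹ ∈ H := (Subgroup.mem_normalizer_iff.mp (hK hk) h⁻¹).mp (H.inv_mem hh)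
    have e : h * k * h⁻¹ * k⁻¹ = h * (k * h⁻¹ * k⁻¹) := by group
    rw [e]
    exact H.mul_mem hh h1
  apply le_antisymm
  · rw [inf_comm, Subgroup.commutator_inf_eq_focalSubgroup, Subgroup.focalSubgroup_def, Subgroup.closure_le]
    rintro g ⟨hgP, x, hx, u, rfl⟩
    have hstep : ∀ (Q : Sylow p G) (y : G), Good P Q y → ∀ d ∈ (P : Subgroup G) ⊓ (Q : Subgroup G),
        d⁻¹ * (y⁻¹ * d * y) ∈ R := by
      intro Q y hgood d hd
      have e : d⁻¹ * (y⁻¹ * d * y) = ⁅d⁻¹, y⁻¹⁆ := by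
        rw [commutatorElement_def]; group
      rw [e]
      obtain ⟨hy, ht1, ht2, hor⟩ := hgood
      rcases hor with hQP | hk
      · apply Subgroup.mem_sup_left
        apply Subgroup.commutator_mem_commutator (Subgroup.inv_mem _ hd.1)
        apply Subgroup.inv_mem
        rw [hQP, inf_idem] at hy
        exact hy
      · apply Subgroup.mem_sup_right
        have hle : ⁅(P : Subgroup G) ⊓ (Q : Subgroup G), Subgroup.zpowers y⁆ ≤ ⨆ (Q : Sylow p G) (_ : (¬ p ∣ ((P : Subgroup G) ⊓ Subgroup.normalizer (((P : Subgroup G) ⊓ (Q : Subgroup G) : Subgroup G) : Set G)).relIndex (Subgroup.normalizer (((P : Subgroup G) ⊓ (Q : Subgroup G) : Subgroup G) : Set G)) ∧ ¬ p ∣ ((Q : Subgroup G) ⊓ Subgroup.normalizer (((P : Subgroup G) ⊓ (Q : Subgroup G) : Subgroup G) : Set G)).relIndex (Subgroup.normalizer (((P : Subgroup G) ⊓ (Q : Subgroup G) : Subgroup G) : Set G))))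
          (x : G) (_ : x ∈ Subgroup.normalizer (((P : Subgroup G) ⊓ (Q : Subgroup G) : Subgroup G) : Set G) ∧ ∃ k : ℕ, orderOf x = p ^ k),
          ⁅(P : Subgroup G) ⊓ (Q : Subgroup G), Subgroup.zpowers x⁆ :=
          le_iSup_of_le Q (le_iSup_of_le ⟨ht1, ht2⟩ (le_iSup_of_le y (le_iSup_of_le ⟨hy, hk⟩ le_rfl)))
        apply hle
        exact Subgroup.commutator_mem_commutator (Subgroup.inv_mem _ hd)
          (Subgroup.inv_mem _ (Subgroup.mem_zpowers y))
    have hux : u * x⁻¹ * u⁻¹ ∈ (P : Subgroup G) := by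
      have e : u * x⁻¹ * u⁻¹ = x⁻¹ * ⁅x, u⁆ := by rw [commutatorElement_def]; group
      rw [e]
      exact Subgroup.mul_mem _ (Subgroup.inv_mem _ hx) hgP
    have hD : Subgroup.zpowers x⁻¹ ≤ (P : Subgroup G) := by
      rw [Subgroup.zpowers_le]; exact Subgroup.inv_mem _ hx
    have hDg : rc (Subgroup.zpowers x⁻¹) u⁻¹ ≤ (P : Subgroup G) := by
      intro y hy
      rw [mem_rc] at hy
      obtain ⟨k, hk⟩ := Subgroup.mem_zpowers_iff.mp hy
      have e : y = (u * x⁻¹ * u⁻¹) ^ k := by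
        rw [conj_zpow, hk]; group
      rw [e]
      exact Subgroup.zpow_mem _ hux k
    obtain ⟨l, hl, hprod⟩ := alperin_chain P _ u⁻¹ hD hDg
    have := chain_mem P R hstep l _ hl x⁻¹ (Subgroup.mem_zpowers _)
    rw [hprod] at this
    have e : ⁅x, u⁆ = x⁻¹⁻¹ * (u⁻¹⁻¹ * x⁻¹ * u⁻¹) := by rw [commutatorElement_def]; group
    rw [e]
    exact this
  · apply le_inf
    · apply sup_le
      · exact hcomm_le _ _ le_rfl
      · refine iSup_le fun Q => iSup_le fun _ => iSup_le fun x => iSup_le fun hx => ?_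
        refine (hcomm_le _ _ ?_).trans inf_le_left
        rw [Subgroup.zpowers_le]; exact hx.1
    · apply sup_le
      · exact Subgroup.commutator_mono le_top le_top
      · refine iSup_le fun Q => iSup_le fun _ => iSup_le fun x => iSup_le fun hx => ?_
        exact Subgroup.commutator_mono le_top le_top

end Cfsg.Agent.S4250
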