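import Cfsg.Statements.S4251
import Cfsg.Agent.Lib.Helper34.Alperin
import Cfsg.Agent.S0071

set_option autoImplicit false
open Cfsg
open Cfsg.Agent.Lib.Helper34 Cfsg.Agent.Lib.Helper34.Alperin

namespace Cfsg.Agent.S4251

/-- if `N(H)/C(H)` is a `p`-group and `S ≤ N(H)` has index prime to `p`, then `N(H) = C(H) S`. -/
theorem exists_factor {G : Type*} [Group G] [Finite G] {p : ℕ} [hp : Fact p.Prime] (H S : Subgroup G)
    (h1 : IsPGroup p (Subgroup.normalizer (H : Set G) ⧸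
        (Subgroup.centralizer (H : Set G)).subgroupOf (Subgroup.normalizer (H : Set G))))
    (h2 : ¬ p ∣ S.relIndex (Subgroup.normalizer (H : Set G)))
    (x : G) (hx : x ∈ Subgroup.normalizer (H : Set G)) :
    ∃ c ∈ Subgroup.centralizer (H : Set G), ∃ s ∈ S, x = c * s := by
  set N := Subgroup.normalizer (H : Set G) with hN
  set C' := (Subgroup.centralizer (H : Set G)).subgroupOf N with hC'
  set S' := S.subgroupOf N with hS'
  have hT : C' ⊔ S' = ⊤ := by
    rw [← Subgroup.index_eq_one]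
    have d1 : (C' ⊔ S').index ∣ S'.index := Subgroup.index_dvd_of_le le_sup_right
    have d2 : (C' ⊔ S').index ∣ C'.index := Subgroup.index_dvd_of_le le_sup_left
    obtain ⟨k, hk⟩ := IsPGroup.iff_card.mp h1
    have hk' : C'.index = p ^ k := hk
    rw [hk'] at d2
    obtain ⟨j, _, hj⟩ := (Nat.dvd_prime_pow hp.out).mp d2
    rcases Nat.eq_zero_or_pos j with h0 | h0
    · rw [hj, h0, pow_zero]
    · exfalso
      apply h2
      have : p ∣ (C' ⊔ S').index := by rw [hj]; exact dvd_pow_self p h0.ne'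
      exact this.trans d1
  have hx' : (⟨x, hx⟩ : N) ∈ C' ⊔ S' := hT ▸ Subgroup.mem_top _
  rw [← SetLike.mem_coe, Subgroup.normal_mul] at hx'
  obtain ⟨c, hc, s, hs, hcs⟩ := hx'
  refine ⟨c, Subgroup.mem_subgroupOf.mp hc, s, Subgroup.mem_subgroupOf.mp hs, ?_⟩
  have := congrArg Subtype.val hcs
  simpa using this.symm

/-- fusion along an Alperin chain is realised inside `P`. -/
theorem chain_in_P {G : Type*} [Group G] {p : ℕ} (P : Sylow p G)
    (hstep : ∀ (Q : Sylow p G) (x : G), Good P Q x → (P : Subgroup G) ⊓ (Q : Subgroup G) ≠ ⊥ →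
      ∃ c ∈ Subgroup.centralizer (((P : Subgroup G) ⊓ (Q : Subgroup G) : Subgroup G) : Set G),
        ∃ s ∈ (P : Subgroup G), x = c * s) (l : List (Sylow p G × G)) :
    ∀ (D : Subgroup G), Chain P D l → ∃ y ∈ (P : Subgroup G), ∀ d ∈ D,
      (l.map Prod.snd).prod⁻¹ * d * (l.map Prod.snd).prod = y⁻¹ * d * y := by
  induction l with
  | nil =>
    intro D _
    exact ⟨1, Subgroup.one_mem _, fun d _ => by simp⟩
  | cons Qx l ih =>
    intro D hc
    obtain ⟨y', hy', hy'2⟩ := ih _ hc.2.2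
    by_cases hbot : (P : Subgroup G) ⊓ (Qx.1 : Subgroup G) = ⊥
    · refine ⟨1, Subgroup.one_mem _, fun d hd => ?_⟩
      have : d = 1 := by
        have := hc.2.1 hd
        rwa [hbot, Subgroup.mem_bot] at this
      subst this
      simp
    · obtain ⟨c, hc', s, hs, hx⟩ := hstep Qx.1 Qx.2 hc.1 hbot
      refine ⟨s * y', Subgroup.mul_mem _ hs hy', fun d hd => ?_⟩
      have hd' : Qx.2⁻¹ * d * Qx.2 ∈ rc D Qx.2 := by
        rw [mem_rc]
        have e : Qx.2 * (Qx.2⁻¹ * d * Qx.2) * Qx.2⁻¹ = d := by group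
        rw [e]; exact hd
      have h2 := hy'2 _ hd'
      have hcd : d * c = c * d := (Subgroup.mem_centralizer_iff.mp hc') d (hc.2.1 hd)
      have e1 : Qx.2⁻¹ * d * Qx.2 = s⁻¹ * d * s := by
        rw [hx]
        calc (c * s)⁻¹ * d * (c * s) = s⁻¹ * (c⁻¹ * (d * c)) * s := by group
          _ = s⁻¹ * d * s := by rw [hcd]; group
      simp only [List.map_cons, List.prod_cons]
      calc (Qx.2 * (l.map Prod.snd).prod)⁻¹ * d * (Qx.2 * (l.map Prod.snd).prod)
          = (l.map Prod.snd).prod⁻¹ * (Qx.2⁻¹ * d * Qx.2) * (l.map Prod.snd).prod := by group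
        _ = y'⁻¹ * (Qx.2⁻¹ * d * Qx.2) * y' := h2
        _ = (s * y')⁻¹ * d * (s * y') := by rw [e1]; group

/-- Let P be a Sylow p-subgroup of a finite group G. Call an intersection H = P ∩ Q with a Sylow p-subgroup Q tame when N_P(H) and N_Q(H) are Sylow p-subgroups of N_G(H). If N_G(H)/C_G(H) is a p-group for every nontrivial tame intersection H = P ∩ Q, then G has a normal p-complement. -/
theorem result {G : Type*} [Group G] [Finite G] (p : ℕ) [Fact p.Prime] (P : Sylow p G)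
    (h : ∀ Q : Sylow p G, (P : Subgroup G) ⊓ (Q : Subgroup G) ≠ ⊥ → (¬ p ∣ ((P : Subgroup G) ⊓ Subgroup.normalizer (((P : Subgroup G) ⊓ (Q : Subgroup G) : Subgroup G) : Set G)).relIndex (Subgroup.normalizer (((P : Subgroup G) ⊓ (Q : Subgroup G) : Subgroup G) : Set G)) ∧ ¬ p ∣ ((Q : Subgroup G) ⊓ Subgroup.normalizer (((P : Subgroup G) ⊓ (Q : Subgroup G) : Subgroup G) : Set G)).relIndex (Subgroup.normalizer (((P : Subgroup G) ⊓ (Q : Subgroup G) : Subgroup G) : Set G))) →
      IsPGroup p (Subgroup.normalizer (((P : Subgroup G) ⊓ (Q : Subgroup G) : Subgroup G) : Set G) ⧸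
        (Subgroup.centralizer (((P : Subgroup G) ⊓ (Q : Subgroup G) : Subgroup G) : Set G)).subgroupOf
          (Subgroup.normalizer (((P : Subgroup G) ⊓ (Q : Subgroup G) : Subgroup G) : Set G)))) :
    Cfsg.HasNormalPComplement p G := by
  have hstep : ∀ (Q : Sylow p G) (x : G), Good P Q x → (P : Subgroup G) ⊓ (Q : Subgroup G) ≠ ⊥ →
      ∃ c ∈ Subgroup.centralizer (((P : Subgroup G) ⊓ (Q : Subgroup G) : Subgroup G) : Set G),
        ∃ s ∈ (P : Subgroup G), x = c * s := by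
    intro Q x hgood hne
    obtain ⟨hx, ht1, ht2, -⟩ := hgood
    obtain ⟨c, hc, s, hs, hxe⟩ := exists_factor _ _ (h Q hne ⟨ht1, ht2⟩) ht1 x hx
    exact ⟨c, hc, s, hs.1, hxe⟩
  obtain ⟨N, hN, hc⟩ := (Cfsg.Agent.S0071.result P).mpr (by
    intro Q₀ hQ₀ g hg hgo
    have hrc : rc Q₀ g = Q₀ := rc_eq_self hg
    obtain ⟨l, hl, hprod⟩ := alperin_chain P Q₀ g hQ₀ (hrc.le.trans hQ₀)
    obtain ⟨y, hy, hy2⟩ := chain_in_P P hstep l Q₀ hl
    rw [hprod] at hy2
    -- powers
    have hmem : ∀ d ∈ Q₀, g⁻¹ * d * g ∈ Q₀ := by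
      intro d hd
      have : g⁻¹ * d * g ∈ rc Q₀ g := by
        rw [mem_rc]
        have e : g * (g⁻¹ * d * g) * g⁻¹ = d := by group
        rw [e]; exact hd
      rwa [hrc] at this
    have hpow : ∀ n : ℕ, ∀ d ∈ Q₀, (g ^ n)⁻¹ * d * g ^ n = (y ^ n)⁻¹ * d * y ^ n := by
      intro n
      induction n with
      | zero => intro d _; simp
      | succ n ih =>
        intro d hd
        have h1 := ih _ (hmem d hd)
        calc (g ^ (n + 1))⁻¹ * d * g ^ (n + 1) = (g ^ n)⁻¹ * (g⁻¹ * d * g) * g ^ n := by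
              rw [pow_succ']; group
          _ = (y ^ n)⁻¹ * (g⁻¹ * d * g) * y ^ n := h1
          _ = (y ^ n)⁻¹ * (y⁻¹ * d * y) * y ^ n := by rw [hy2 d hd]
          _ = (y ^ (n + 1))⁻¹ * d * y ^ (n + 1) := by rw [pow_succ']; group
    obtain ⟨k, hk⟩ := (P.isPGroup' ⟨y, hy⟩)
    have hyk : y ^ p ^ k = 1 := by
      have := congrArg Subtype.val hk
      simpa using this
    have hgk : g ^ p ^ k ∈ Subgroup.centralizer (Q₀ : Set G) := by
      rw [Subgroup.mem_centralizer_iff]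
      intro d hd
      have := hpow (p ^ k) d hd
      rw [hyk] at this
      have h3 : (g ^ p ^ k)⁻¹ * d * g ^ p ^ k = d := by simpa using this
      calc d * g ^ p ^ k = g ^ p ^ k * ((g ^ p ^ k)⁻¹ * d * g ^ p ^ k) := by group
        _ = g ^ p ^ k * d := by rw [h3]
    have hcop : Nat.Coprime (p ^ k) (orderOf g) := Nat.Coprime.pow_left k hgo.symm
    obtain ⟨m, hm⟩ := exists_pow_eq_self_of_coprime hcop
    rw [← hm]
    exact Subgroup.pow_mem _ hgk m)
  exact ⟨P, N, hN, hc⟩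

end Cfsg.Agent.S4251
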