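import Cfsg.Statements.S4252

set_option autoImplicit false
open Cfsg
open scoped Pointwise

namespace Cfsg.Agent.S4252

/-- Let a finite group G act on a finite set Ω with more than one point, transitively but not regularly, so that no non-identity element of G fixes two distinct points. Then the stabilizer H of any point is a Frobenius complement in G (nontrivial, proper, meeting its other conjugates trivially), and the Frobenius kernel of G with respect to H (the identity together with the elements lying in no conjugate of H) is exactly the set consisting of the identity and the elements fixing no point. -/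
theorem result {G Ω : Type*} [Group G] [Finite G] [Fintype Ω] [MulAction G Ω] (hΩ : 1 < Fintype.card Ω)
    (htrans : ∀ α β : Ω, ∃ g : G, g • α = β) (hnreg : ∃ g : G, g ≠ 1 ∧ ∃ α : Ω, g • α = α)
    (hfix : ∀ g : G, g ≠ 1 → ∀ α β : Ω, g • α = α → g • β = β → α = β) (α : Ω) :
    Cfsg.IsFrobeniusComplement (MulAction.stabilizer G α) ∧
      Cfsg.frobeniusKernel (MulAction.stabilizer G α) = {g : G | g = 1 ∨ ∀ ω : Ω, g • ω ≠ ω} := by
  have hmem : ∀ (x g : G), x ∈ MulAut.conj g • MulAction.stabilizer G α ↔ x • (g • α) = g • α := by
    intro x g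
    rw [Subgroup.mem_pointwise_smul_iff_inv_smul_mem, MulAction.mem_stabilizer_iff]
    simp only [MulAut.smul_def, MulAut.conj_inv_apply, mul_smul]
    rw [inv_smul_eq_iff]
  refine ⟨⟨?_, ?_, ?_⟩, ?_⟩
  · obtain ⟨g, hg, β, hβ⟩ := hnreg
    obtain ⟨c, hc⟩ := htrans β α
    intro hbot
    have h1 : c * g * c⁻¹ ∈ MulAction.stabilizer G α := by
      rw [MulAction.mem_stabilizer_iff, ← hc]
      simp [mul_smul, hβ]
    rw [hbot, Subgroup.mem_bot] at h1
    apply hg
    have : g = c⁻¹ * (c * g * c⁻¹) * c := by group
    rw [this, h1]; simp
  · intro htop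
    obtain ⟨β, hβ⟩ := Fintype.exists_ne_of_one_lt_card hΩ α
    obtain ⟨g, hg⟩ := htrans α β
    have : g ∈ MulAction.stabilizer G α := by rw [htop]; trivial
    rw [MulAction.mem_stabilizer_iff] at this
    exact hβ (hg.symm.trans this)
  · intro g hg
    rw [eq_bot_iff]
    intro x hx
    rw [Subgroup.mem_inf, hmem, MulAction.mem_stabilizer_iff] at hx
    rw [Subgroup.mem_bot]
    by_contra hx1
    have := hfix x hx1 _ _ hx.1 hx.2
    exact hg (MulAction.mem_stabilizer_iff.mpr this.symm)
  · ext x
    simp only [Cfsg.frobeniusKernel, Set.mem_setOf_eq, hmem]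
    constructor
    · rintro (h | h)
      · exact Or.inl h
      · right
        intro ω
        obtain ⟨g, rfl⟩ := htrans α ω
        exact h g
    · rintro (h | h)
      · exact Or.inl h
      · exact Or.inr fun g => h _

end Cfsg.Agent.S4252
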