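import Cfsg.Statements.S4261
import Cfsg.Agent.Lib.Helper1.MinimalNormal
import Cfsg.Agent.Lib.Helper1.Frattini

set_option autoImplicit false
open Cfsg

namespace Cfsg.Agent.S4261

universe u

/-- `|N : S ∩ N| = |G : S|` for `N` normal with `S N = G`. -/
theorem relIndex_eq_index_of_sup_eq_top {G : Type*} [Group G] [Finite G] (S N : Subgroup G) [N.Normal]
    (htop : S ⊔ N = ⊤) : S.relIndex N = S.index := by
  have h1 : S.relIndex N * N.index = (S ⊓ N).index := by
    have := Subgroup.relIndex_inf_mul_relIndex S N ⊤
    simpa using this
  have h2 : N.relIndex S * S.index = (S ⊓ N).index := by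
    have := Subgroup.relIndex_inf_mul_relIndex N S ⊤
    rw [inf_comm N S] at this
    simpa using this
  have h3 : N.relIndex (S ⊔ N) * (S ⊔ N).index = N.index :=
    Subgroup.relIndex_mul_index le_sup_right
  rw [Subgroup.relIndex_sup_right, htop, Subgroup.index_top, mul_one] at h3
  have h4 : N.relIndex S ≠ 0 := by
    have : (N.subgroupOf S).index ≠ 0 := Subgroup.index_ne_zero_of_finite
    exact this
  have : N.relIndex S * S.index = N.relIndex S * S.relIndex N := by
    rw [h2, ← h1, ← h3]; ring
  exact (Nat.eq_of_mul_eq_mul_left (Nat.pos_of_ne_zero h4) this).symm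

theorem aux (n : ℕ) : ∀ (G : Type u) [Group G] [Finite G], Nat.card G = n → Group.IsSolvable G →
    ∀ M : Subgroup G, IsCoatom M → (∀ x : G, x ^ M.index ∈ M) → M.Normal := by
  induction n using Nat.strong_induction_on with
  | _ n ih =>
    intro G _ _ hn hG M hM hexp
    by_cases hcore : M.normalCore = ⊥
    · have hnt : Nontrivial G := by
        by_contra hcon
        rw [not_nontrivial_iff_subsingleton] at hcon
        exact hM.1 (Subsingleton.elim _ _)
      obtain ⟨p, N, hp, hNn, hNne, hNp, -, -⟩ :=
        Cfsg.Agent.Lib.Helper1.exists_normal_pSubgroup_of_solvable (G := G)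
      have : Fact p.Prime := ⟨hp⟩
      have hNM : ¬ N ≤ M := by
        intro hle
        apply hNne
        rw [eq_bot_iff, ← hcore]
        exact Subgroup.normal_le_normalCore.mpr hle
      have htop : M ⊔ N = ⊤ := by
        apply hM.2
        exact lt_of_le_of_ne le_sup_left (fun h => hNM (by rw [h]; exact le_sup_right))
      obtain ⟨k, hk⟩ := hNp.index (M.subgroupOf N)
      have hidx : M.index = p ^ k := by
        rw [← relIndex_eq_index_of_sup_eq_top M N htop]; exact hk
      have hp' : ∀ x : G, (orderOf x).Coprime p → x = 1 := by
        intro x hx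
        have hall : ∀ y : G, (orderOf y).Coprime p → y ∈ M := by
          intro y hy
          have hc : Nat.Coprime M.index (orderOf y) := by
            rw [hidx]; exact Nat.Coprime.pow_left k hy.symm
          obtain ⟨m, hm⟩ := exists_pow_eq_self_of_coprime hc
          rw [← hm]
          exact M.pow_mem (hexp y) m
        have hxc : x ∈ M.normalCore := by
          show ∀ b : G, b * x * b⁻¹ ∈ M
          intro b
          apply hall
          have : orderOf (b * x * b⁻¹) = orderOf x := by
            have := (MulAut.conj b).orderOf_eq x
            simpa using this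
          rw [this]; exact hx
        rwa [hcore, Subgroup.mem_bot] at hxc
      have hGp : IsPGroup p G := by
        intro g
        obtain ⟨e, s, hs, hes⟩ := Nat.exists_eq_pow_mul_and_not_dvd (orderOf_pos g).ne' p hp.ne_one
        refine ⟨e, hp' _ ?_⟩
        have h1 : (g ^ (p ^ e)) ^ s = 1 := by
          rw [← pow_mul, ← hes, pow_orderOf_eq_one]
        exact Nat.Coprime.coprime_dvd_left (orderOf_dvd_of_pow_eq_one h1)
          ((Nat.Prime.coprime_iff_not_dvd hp).mpr hs).symm
      exact Cfsg.Agent.Lib.Helper1.IsPGroup.normal_of_isCoatom hGp hM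
    · set N := M.normalCore with hN
      set φ := QuotientGroup.mk' N with hφ
      have hsurj : Function.Surjective φ := QuotientGroup.mk'_surjective N
      have hker : φ.ker ≤ M := by
        rw [hφ, QuotientGroup.ker_mk']; exact Subgroup.normalCore_le M
      have hco : IsCoatom (M.map φ) := Cfsg.Agent.Lib.Helper1.isCoatom_map_of_surjective hsurj hker hM
      have hidx : (M.map φ).index = M.index := Subgroup.index_map_eq M hsurj hker
      have hlt : Nat.card (G ⧸ N) < n := by
        rw [← hn, Subgroup.card_eq_card_quotient_mul_card_subgroup N]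
        apply lt_mul_of_one_lt_right Nat.card_pos
        exact (Subgroup.one_lt_card_iff_ne_bot _).mpr hcore
      have hnorm : (M.map φ).Normal := by
        apply ih _ hlt (G ⧸ N) rfl inferInstance _ hco
        intro y
        obtain ⟨x, rfl⟩ := hsurj y
        rw [hidx, ← map_pow]
        exact Subgroup.mem_map_of_mem φ (hexp x)
      rw [← Subgroup.comap_map_eq_self hker]
      exact hnorm.comap φ

/-- Let M be a maximal subgroup of a finite solvable group G such that x^[G : M] lies in M for every x in G. Then M is normal in G. -/
theorem result {G : Type*} [Group G] [Finite G] (hG : Group.IsSolvable G) (M : Subgroup G) (hM : IsCoatom M)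
    (hexp : ∀ x : G, x ^ M.index ∈ M) : M.Normal := by
  exact aux _ G rfl hG M hM hexp

end Cfsg.Agent.S4261
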