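import Cfsg.Statements.S4263
import Cfsg.Agent.Lib.Helper91.Fitting

set_option autoImplicit false
open Cfsg

namespace Cfsg.Agent.S4263

/-- Let G be a finite group. An element x lies in the Fitting subgroup F(G) if and only if, for every subgroup H of G, the power x^[G : H] lies in H. -/
theorem result {G : Type*} [Group G] [Finite G] (x : G) :
    x ∈ Cfsg.fittingSubgroup G ↔ ∀ H : Subgroup G, x ^ H.index ∈ H := by
  have hFn : (Cfsg.fittingSubgroup G).Normal := Lib.Helper91.fittingSubgroup_normal
  have hFnil : Group.IsNilpotent (Cfsg.fittingSubgroup G) := Lib.Helper91.fittingSubgroup_isNilpotent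
  constructor
  · intro hx H
    have h1 := Lib.Helper91.pow_index_mem_of_isNilpotent
      (H.subgroupOf (Cfsg.fittingSubgroup G)) ⟨x, hx⟩
    rw [Subgroup.mem_subgroupOf] at h1
    have h2 : x ^ H.relIndex (Cfsg.fittingSubgroup G) ∈ H := by
      simpa [Subgroup.relIndex] using h1
    obtain ⟨k, hk⟩ := Lib.Helper91.relIndex_dvd_index_of_normal_right H (Cfsg.fittingSubgroup G)
    rw [hk, pow_mul]
    exact H.pow_mem h2 k
  · intro h
    rw [← QuotientGroup.eq_one_iff, ← orderOf_eq_one_iff]
    by_contra hne
    obtain ⟨q, hq, hqd⟩ := Nat.exists_prime_and_dvd hne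
    have : Fact q.Prime := ⟨hq⟩
    obtain ⟨P⟩ : Nonempty (Sylow q G) := inferInstance
    have hcore : x ^ (P : Subgroup G).index ∈ (P : Subgroup G).normalCore := by
      intro b
      have h1 := h ((P : Subgroup G).comap (MulAut.conj b).toMonoidHom)
      rw [Subgroup.index_comap_of_surjective _ (MulAut.conj b).surjective] at h1
      simpa using h1
    have hpg : IsPGroup q (P : Subgroup G).normalCore :=
      P.isPGroup'.to_le (Subgroup.normalCore_le _)
    have hle : (P : Subgroup G).normalCore ≤ Cfsg.fittingSubgroup G :=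
      Lib.Helper91.le_fittingSubgroup _ hpg.isNilpotent
    have h2 : orderOf (x : G ⧸ Cfsg.fittingSubgroup G) ∣ (P : Subgroup G).index := by
      rw [orderOf_dvd_iff_pow_eq_one, ← QuotientGroup.mk_pow, QuotientGroup.eq_one_iff]
      exact hle hcore
    exact P.not_dvd_index (hqd.trans h2)

end Cfsg.Agent.S4263
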