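import Cfsg.Statements.S4269

set_option autoImplicit false
open Cfsg
open scoped commutatorElement

namespace Cfsg.Agent.S4269

theorem mem_map_conj {G : Type*} [Group G] (H : Subgroup G) (g x : G) :
    x ∈ H.map (MulAut.conj g).toMonoidHom ↔ g⁻¹ * x * g ∈ H := by
  rw [Subgroup.mem_map_equiv]
  simp [MulAut.conj_symm_apply]

theorem map_conj_mul {G : Type*} [Group G] (H : Subgroup G) (a b : G) :
    H.map (MulAut.conj (a * b)).toMonoidHom =
      (H.map (MulAut.conj b).toMonoidHom).map (MulAut.conj a).toMonoidHom := by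
  ext x
  simp only [mem_map_conj]
  simp [mul_assoc]

theorem map_conj_of_mem {G : Type*} [Group G] (H : Subgroup G) {h : G} (hh : h ∈ H) :
    H.map (MulAut.conj h).toMonoidHom = H := by
  ext x
  rw [mem_map_conj]
  constructor
  · intro hx
    have : x = h * (h⁻¹ * x * h) * h⁻¹ := by group
    rw [this]
    exact H.mul_mem (H.mul_mem hh hx) (H.inv_mem hh)
  · intro hx
    exact H.mul_mem (H.mul_mem (H.inv_mem hh) hx) hh

theorem map_conj_of_mem_normalizer {G : Type*} [Group G] (H : Subgroup G) {n : G}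
    (hn : n ∈ Subgroup.normalizer (H : Set G)) :
    H.map (MulAut.conj n).toMonoidHom = H := by
  ext x
  rw [mem_map_conj]
  have h1 := (Subgroup.mem_normalizer_iff.mp (Subgroup.inv_mem _ hn)) x
  simpa using h1.symm

theorem mem_normalizer_of_map_conj_eq {G : Type*} [Group G] (H : Subgroup G) {n : G}
    (hn : H.map (MulAut.conj n).toMonoidHom = H) :
    n ∈ Subgroup.normalizer (H : Set G) := by
  rw [Subgroup.mem_normalizer_iff]
  intro x
  constructor
  · intro hx
    rw [← hn, mem_map_conj]
    simpa [mul_assoc] using hx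
  · intro hx
    rw [← hn, mem_map_conj] at hx
    simpa [mul_assoc] using hx

/-- a subgroup of the abelian normal subgroup `V` that is `H`-invariant is normal in `G = HV`. -/
theorem normal_of_invariant {G : Type*} [Group G]
    (V : Subgroup G) (hV : IsMulCommutative ↥V) (H : Subgroup G) (hHV : H ⊔ V = ⊤)
    (U : Subgroup G) (hUV : U ≤ V) (hU : ∀ h ∈ H, U.map (MulAut.conj h).toMonoidHom = U) :
    U.Normal := by
  rw [← Subgroup.normalizer_eq_top_iff, eq_top_iff, ← hHV, sup_le_iff]
  constructor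
  · intro h hh
    exact mem_normalizer_of_map_conj_eq U (hU h hh)
  · intro v hv
    rw [Subgroup.mem_normalizer_iff]
    intro x
    constructor
    · intro hx
      have hc : v * x = x * v := by
        have := mul_comm' (⟨v, hv⟩ : V) ⟨x, hUV hx⟩
        exact congrArg Subtype.val this
      rw [hc]; simpa using hx
    · intro hx
      have hc : v⁻¹ * (v * x * v⁻¹) = (v * x * v⁻¹) * v⁻¹ := by
        have := mul_comm' (⟨v⁻¹, V.inv_mem hv⟩ : V) ⟨v * x * v⁻¹, hUV hx⟩
        exact congrArg Subtype.val this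
      have : x = v * x * v⁻¹ := by
        have h2 : x * v⁻¹ = v * x * v⁻¹ * v⁻¹ := by rw [← hc]; group
        exact mul_right_cancel h2
      rw [this]; exact hx

/-- Let G be a finite group, V an abelian normal subgroup and H a subgroup with HV = G. Then H is pronormal in G (H and gHg⁻¹ are conjugate inside the subgroup they generate, for every g) if and only if every H-invariant subgroup U of V satisfies U = N_U(H)·[H, U], that is, U is the join of U ∩ N_G(H) and the commutator subgroup [H, U]. -/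
theorem result {G : Type*} [Group G] [Finite G]
    (V : Subgroup G) [V.Normal] (hV : IsMulCommutative ↥V) (H : Subgroup G) (hHV : H ⊔ V = ⊤) :
    Cfsg.IsPronormal H ↔
      ∀ U : Subgroup G, U ≤ V → (∀ h ∈ H, U.map (MulAut.conj h).toMonoidHom = U) →
        U = (U ⊓ Subgroup.normalizer (H : Set G)) ⊔ ⁅H, U⁆ := by
  have hcomm : ∀ a ∈ V, ∀ b ∈ V, a * b = b * a := by
    intro a ha b hb
    have := mul_comm' (⟨a, ha⟩ : V) ⟨b, hb⟩
    exact congrArg Subtype.val this
  constructor
  · -- pronormal ⇒ criterion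
    intro hpro U hUV hU
    have hUn : U.Normal := normal_of_invariant V hV H hHV U hUV hU
    have hWU : ⁅H, U⁆ ≤ U := by
      rw [Subgroup.commutator_le]
      intro h hh u hu
      rw [commutatorElement_def]
      exact U.mul_mem (hUn.conj_mem u hu h) (U.inv_mem hu)
    have hWinv : ∀ h ∈ H, (⁅H, U⁆ : Subgroup G).map (MulAut.conj h).toMonoidHom = ⁅H, U⁆ := by
      intro h hh
      rw [Subgroup.map_commutator, hU h hh, map_conj_of_mem H hh]
    have hWn : (⁅H, U⁆ : Subgroup G).Normal :=
      normal_of_invariant V hV H hHV _ (hWU.trans hUV) hWinv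
    apply le_antisymm
    · intro u hu
      obtain ⟨x, hx, hxe⟩ := hpro u
      have hle : H ⊔ H.map (MulAut.conj u).toMonoidHom ≤ ⁅H, U⁆ ⊔ H := by
        rw [sup_le_iff]
        refine ⟨le_sup_right, ?_⟩
        intro y hy
        rw [mem_map_conj] at hy
        have e : y = ⁅u, u⁻¹ * y * u⁆ * (u⁻¹ * y * u) := by
          rw [commutatorElement_def]; group
        rw [e]
        refine Subgroup.mul_mem _ (Subgroup.mem_sup_left ?_) (Subgroup.mem_sup_right hy)
        rw [← commutatorElement_inv]
        exact Subgroup.inv_mem _ (Subgroup.commutator_mem_commutator hy hu)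
      have hx' := hle hx
      rw [← SetLike.mem_coe, Subgroup.normal_mul] at hx'
      obtain ⟨w, hw, h, hh, rfl⟩ := hx'
      rw [map_conj_mul, map_conj_of_mem H hh] at hxe
      have hn : w⁻¹ * u ∈ Subgroup.normalizer (H : Set G) := by
        apply mem_normalizer_of_map_conj_eq
        rw [map_conj_mul, hxe, ← map_conj_mul, inv_mul_cancel]
        exact map_conj_of_mem H H.one_mem
      have e : u = (w⁻¹ * u) * (u⁻¹ * w * u) := by group
      rw [e]
      refine Subgroup.mul_mem _ (Subgroup.mem_sup_left ⟨?_, hn⟩) (Subgroup.mem_sup_right ?_)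
      · exact U.mul_mem (U.inv_mem (hWU hw)) hu
      · have := hWn.conj_mem w hw u⁻¹
        simpa [mul_assoc] using this
    · exact sup_le inf_le_left hWU
  · -- criterion ⇒ pronormal
    intro hcrit g
    have hg : g ∈ V ⊔ H := by rw [sup_comm, hHV]; trivial
    rw [← SetLike.mem_coe, Subgroup.normal_mul] at hg
    obtain ⟨v, hv, h₀, hh₀, rfl⟩ := hg
    rw [map_conj_mul, map_conj_of_mem H hh₀]
    set K := H ⊔ H.map (MulAut.conj v).toMonoidHom with hK
    have hHK : H ≤ K := le_sup_left
    have hcV : ∀ h : G, ∀ u ∈ V, ⁅h, u⁆ ∈ V := by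
      intro h u hu
      rw [commutatorElement_def]
      exact V.mul_mem (‹V.Normal›.conj_mem u hu h) (V.inv_mem hu)
    -- the subgroup of all `u ∈ V` with `[H, u] ⊆ K`
    let U : Subgroup G :=
      { carrier := {u | u ∈ V ∧ ∀ h ∈ H, ⁅h, u⁆ ∈ K}
        one_mem' := ⟨V.one_mem, fun h _ => by simp [commutatorElement_def, K.one_mem]⟩
        mul_mem' := by
          rintro a b ⟨ha, ha'⟩ ⟨hb, hb'⟩
          refine ⟨V.mul_mem ha hb, fun h hh => ?_⟩
          have e : ⁅h, a * b⁆ = ⁅h, a⁆ * ⁅h, b⁆ := by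
            have h1 : ⁅h, a * b⁆ = ⁅h, a⁆ * (a * ⁅h, b⁆) * a⁻¹ := by
              simp only [commutatorElement_def]; group
            rw [h1, hcomm a ha _ (hcV h b hb)]
            group
          rw [e]
          exact K.mul_mem (ha' h hh) (hb' h hh)
        inv_mem' := by
          rintro a ⟨ha, ha'⟩
          refine ⟨V.inv_mem ha, fun h hh => ?_⟩
          have e : ⁅h, a⁻¹⁆ = (⁅h, a⁆)⁻¹ := by
            have h1 : ⁅h, a⁻¹⁆ = a⁻¹ * (⁅h, a⁆)⁻¹ * a := by
              simp only [commutatorElement_def]; group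
            rw [h1, hcomm a⁻¹ (V.inv_mem ha) _ (V.inv_mem (hcV h a ha))]
            group
          rw [e]
          exact K.inv_mem (ha' h hh) }
    have hmemU : ∀ u, u ∈ U ↔ (u ∈ V ∧ ∀ h ∈ H, ⁅h, u⁆ ∈ K) := fun u => Iff.rfl
    have hUV : U ≤ V := fun u hu => hu.1
    have hconjU : ∀ h ∈ H, ∀ u ∈ U, h * u * h⁻¹ ∈ U := by
      intro h' hh' u hu
      refine ⟨‹V.Normal›.conj_mem u hu.1 h', fun h hh => ?_⟩
      have e : ⁅h, h' * u * h'⁻¹⁆ = h' * ⁅h'⁻¹ * h * h', u⁆ * h'⁻¹ := by
        simp only [commutatorElement_def]; group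
      rw [e]
      exact K.mul_mem (K.mul_mem (hHK hh')
        (hu.2 _ (H.mul_mem (H.mul_mem (H.inv_mem hh') hh) hh'))) (K.inv_mem (hHK hh'))
    have hUinv : ∀ h ∈ H, U.map (MulAut.conj h).toMonoidHom = U := by
      intro h hh
      ext x
      rw [mem_map_conj]
      constructor
      · intro hx
        have := hconjU h hh _ hx
        have e : x = h * (h⁻¹ * x * h) * h⁻¹ := by group
        rw [e]; exact this
      · intro hx
        have := hconjU h⁻¹ (H.inv_mem hh) _ hx
        simpa using this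
    have hvU : v ∈ U := by
      refine ⟨hv, fun h hh => ?_⟩
      have e : ⁅h, v⁆ = h * (v * h⁻¹ * v⁻¹) := by
        simp only [commutatorElement_def]; group
      rw [e]
      refine K.mul_mem (hHK hh) (Subgroup.mem_sup_right ?_)
      rw [mem_map_conj]
      have : v⁻¹ * (v * h⁻¹ * v⁻¹) * v = h⁻¹ := by group
      rw [this]; exact H.inv_mem hh
    have hWK : ⁅H, U⁆ ≤ K := by
      rw [Subgroup.commutator_le]
      intro h hh u hu
      exact hu.2 h hh
    have hUn : U.Normal := normal_of_invariant V hV H hHV U hUV hUinv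
    have hWU : ⁅H, U⁆ ≤ U := by
      rw [Subgroup.commutator_le]
      intro h hh u hu
      rw [commutatorElement_def]
      exact U.mul_mem (hUn.conj_mem u hu h) (U.inv_mem hu)
    have hWinv : ∀ h ∈ H, (⁅H, U⁆ : Subgroup G).map (MulAut.conj h).toMonoidHom = ⁅H, U⁆ := by
      intro h hh
      rw [Subgroup.map_commutator, hUinv h hh, map_conj_of_mem H hh]
    have hWn : (⁅H, U⁆ : Subgroup G).Normal :=
      normal_of_invariant V hV H hHV _ (hWU.trans hUV) hWinv
    have hv2 : v ∈ ⁅H, U⁆ ⊔ (U ⊓ Subgroup.normalizer (H : Set G)) := by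
      rw [sup_comm, ← hcrit U hUV hUinv]; exact hvU
    rw [← SetLike.mem_coe, Subgroup.normal_mul] at hv2
    obtain ⟨w, hw, n, hn, rfl⟩ := hv2
    refine ⟨w, hWK hw, ?_⟩
    rw [map_conj_mul, map_conj_of_mem_normalizer H hn.2]

end Cfsg.Agent.S4269
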