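import Cfsg.Statements.S4271
import Cfsg.Agent.Lib.Helper71.PronormalSylow

set_option autoImplicit false
open Cfsg

namespace Cfsg.Agent.S4271

/-- Let p be a prime and G a finite group with a normal subgroup A such that every subgroup of A containing a Sylow p-subgroup of A is pronormal in A, and the Sylow p-subgroups of G/A are self-normalizing. Let T be a Sylow p-subgroup of A. Then every subgroup of G containing a Sylow p-subgroup of G is pronormal in G if and only if every subgroup of N_G(T)/T containing a Sylow p-subgroup of N_G(T)/T is pronormal in N_G(T)/T. (Pronormal: H and gHg⁻¹ are conjugate inside the subgroup they generate, for every g.) -/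
theorem result {G : Type*} [Group G] [Finite G] {p : ℕ} [Fact p.Prime]
    (A : Subgroup G) [A.Normal] (hA : (∀ K : Subgroup ↥A, (∃ P : Sylow p ↥A, (P : Subgroup ↥A) ≤ K) → Cfsg.IsPronormal K))
    (hQ : ∀ P : Sylow p (G ⧸ A), Subgroup.normalizer ((P : Subgroup (G ⧸ A)) : Set (G ⧸ A)) = P)
    (T : Subgroup G) (hT : ∃ P : Sylow p ↥A, (P : Subgroup ↥A).map A.subtype = T) [(T.subgroupOf (Subgroup.normalizer (T : Set G))).Normal] :
    (∀ K : Subgroup G, (∃ P : Sylow p G, (P : Subgroup G) ≤ K) → Cfsg.IsPronormal K) ↔ (∀ K : Subgroup (↥(Subgroup.normalizer (T : Set G)) ⧸ T.subgroupOf (Subgroup.normalizer (T : Set G))), (∃ P : Sylow p (↥(Subgroup.normalizer (T : Set G)) ⧸ T.subgroupOf (Subgroup.normalizer (T : Set G))), (P : Subgroup (↥(Subgroup.normalizer (T : Set G)) ⧸ T.subgroupOf (Subgroup.normalizer (T : Set G)))) ≤ K) → Cfsg.IsPronormal K) := by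
  constructor
  · intro h
    obtain ⟨P₀, hP₀⟩ := hT
    have hT' : Cfsg.Agent.Lib.Helper34.IsSylowIn p T A :=
      hP₀ ▸ Cfsg.Agent.Lib.Helper34.Sylow.isSylowIn_map P₀
    exact Cfsg.Agent.Lib.Helper71.osp_quot_of_osp hT' h
  · intro h
    refine Cfsg.Agent.Lib.Helper71.osp_of_local hA
      (Cfsg.Agent.Lib.Helper71.osp_of_self_normalizing hQ) hT h ?_
    rintro K ⟨S, hSK⟩
    have hs : Function.Surjective (QuotientGroup.mk' A) := QuotientGroup.mk'_surjective A
    have h1 := Cfsg.Agent.Lib.Helper71.normalizer_eq_of_self_normalizing hQ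
      (K := K.map (QuotientGroup.mk' A)) ⟨S.mapSurjective hs, by
        rw [Sylow.coe_mapSurjective]; exact Subgroup.map_mono hSK⟩
    apply le_antisymm
    · exact Subgroup.le_normalizer_map _
    · rw [h1]
      exact Subgroup.map_mono Subgroup.le_normalizer

end Cfsg.Agent.S4271
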