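import Cfsg.Statements.S4303
-- import your own Cfsg.Agent.* helpers here
import Cfsg.Agent.Lib.Helper72.SylowCount
import Cfsg.Agent.Lib.Helper1.CoprimeSylow

set_option autoImplicit false
set_option linter.style.haveILetI false
universe u
open Cfsg

namespace Cfsg.Agent.S4303

/-- the target predicate -/
def Good (p : ℕ) (n : ℕ) : Prop :=
  ∃ l : List ℕ, l.prod = n ∧
      ∀ m ∈ l, (IsPrimePow m ∧ m % p = 1) ∨
        ∃ (S : Type u) (_ : Group S) (_ : Finite S), IsSimpleGroup S ∧ m = Nat.card (Sylow p S)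

theorem Good.one (p : ℕ) : Good.{u} p 1 := ⟨[], rfl, by simp⟩

theorem Good.mul {p a b : ℕ} (ha : Good.{u} p a) (hb : Good.{u} p b) : Good.{u} p (a * b) := by
  obtain ⟨la, ha1, ha2⟩ := ha
  obtain ⟨lb, hb1, hb2⟩ := hb
  refine ⟨la ++ lb, by rw [List.prod_append, ha1, hb1], ?_⟩
  intro m hm
  rcases List.mem_append.1 hm with h | h
  · exact ha2 m h
  · exact hb2 m h

theorem good_of_ordProj (p t : ℕ) (ht : t ≠ 0)
    (h : ∀ q ∈ t.primeFactors, (q ^ t.factorization q) % p = 1) : Good.{u} p t := by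
  refine ⟨t.primeFactors.toList.map (fun q => q ^ t.factorization q), ?_, ?_⟩
  · rw [Finset.prod_map_toList]
    exact Nat.prod_factorization_pow_eq_self ht
  · intro m hm
    obtain ⟨q, hq, rfl⟩ := List.mem_map.1 hm
    rw [Finset.mem_toList] at hq
    left
    refine ⟨?_, h q hq⟩
    have hqp := Nat.prime_of_mem_primeFactors hq
    apply hqp.isPrimePow.pow
    have := (Nat.mem_primeFactors.1 hq).2.1
    exact (hqp.factorization_pos_of_dvd ht this).ne'

theorem ordProj_eq (q t a b e : ℕ) (hq : q.Prime) (ht : t ≠ 0) (ha : ¬ q ∣ a) (hb : ¬ q ∣ b)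
    (h : t * a = b * q ^ e) : q ^ t.factorization q = q ^ e := by
  have ha0 : a ≠ 0 := fun h0 => ha (h0 ▸ dvd_zero q)
  have hb0 : b ≠ 0 := fun h0 => hb (h0 ▸ dvd_zero q)
  have h1 : (t * a).factorization q = (b * q ^ e).factorization q := by rw [h]
  rw [Nat.factorization_mul ht ha0, Nat.factorization_mul hb0 (pow_ne_zero _ hq.ne_zero),
    Finsupp.add_apply, Finsupp.add_apply, Nat.factorization_eq_zero_of_not_dvd ha,
    Nat.factorization_eq_zero_of_not_dvd hb, hq.factorization_pow, Finsupp.single_eq_same] at h1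
  simp only [add_zero, zero_add] at h1
  rw [h1]

open Cfsg.Agent.Lib.Helper72

variable {G : Type u} [Group G] [Finite G] {p : ℕ} [Fact p.Prime]

/-- `n_p(KP) = [K : N_K(P)]` when `P` normalizes `K`. -/
theorem card_sylow_sup (P : Sylow p G) (K : Subgroup G)
    (hK : (P : Subgroup G) ≤ Subgroup.normalizer (K : Set G)) :
    Nat.card (Sylow p (K ⊔ (P : Subgroup G) : Subgroup G)) =
      (Subgroup.normalizer ((P : Subgroup G) : Set G)).relIndex K := by
  have hS : IsSylowIn p (P : Subgroup G) (K ⊔ (P : Subgroup G)) := sylow_isSylowIn P le_sup_right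
  rw [hS.card_sylow]
  symm
  apply relIndex_eq_of_forall_exists _ _ _ le_sup_left
  intro l hl
  rw [← SetLike.mem_coe, Subgroup.coe_mul_of_right_le_normalizer_left K _ hK, Set.mem_mul] at hl
  obtain ⟨x, hx, y, hy, rfl⟩ := hl
  refine ⟨x, hx, ?_⟩
  rw [inv_mul_cancel_left]
  exact Subgroup.le_normalizer hy

/-- `n_p(G) = n_p(N) * n_p(N_G(P ∩ N))`. -/
theorem card_sylow_eq_mul' (N : Subgroup G) [N.Normal] (P : Sylow p G) :
    Nat.card (Sylow p G) = Nat.card (Sylow p N) *
      Nat.card (Sylow p (Subgroup.normalizer (((P : Subgroup G) ⊓ N : Subgroup G) : Set G))) := by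
  have hQ : IsSylowIn p ((P : Subgroup G) ⊓ N) N := sylow_inf_normal_isSylowIn P N
  have hNtop : (⊤ : Subgroup G) ≤ Subgroup.normalizer (N : Set G) := by
    rw [Subgroup.normalizer_eq_top]
  have hle : Subgroup.normalizer ((P : Subgroup G) : Set G) ≤
      Subgroup.normalizer (((P : Subgroup G) ⊓ N : Subgroup G) : Set G) := by
    refine le_trans ?_ Subgroup.inf_normalizer_le_normalizer_inf
    exact le_inf le_rfl (le_top.trans hNtop)
  have hP : IsSylowIn p (P : Subgroup G)
      (Subgroup.normalizer (((P : Subgroup G) ⊓ N : Subgroup G) : Set G)) :=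
    sylow_isSylowIn P (Subgroup.le_normalizer.trans hle)
  rw [hQ.card_sylow, hQ.frattini le_top hNtop, Subgroup.relIndex_top_right, hP.card_sylow,
    card_sylow_eq_index_normalizer P, mul_comm]
  exact (Subgroup.relIndex_mul_index hle).symm

/-- The case of a normal `p'`-subgroup. -/
theorem good_sup (N : Subgroup G) [hN : N.Normal] (P : Sylow p G)
    (hPN : (P : Subgroup G) ⊓ N = ⊥) :
    Good.{u} p (Nat.card (Sylow p (N ⊔ (P : Subgroup G) : Subgroup G))) := by
  have hNtop : (P : Subgroup G) ≤ Subgroup.normalizer (N : Set G) := by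
    rw [Subgroup.normalizer_eq_top]; exact le_top
  rw [card_sylow_sup P N hNtop]
  set NP := Subgroup.normalizer ((P : Subgroup G) : Set G) with hNP
  have ht : NP.relIndex N ≠ 0 := (NP.subgroupOf N).index_ne_zero_of_finite
  apply good_of_ordProj _ _ ht
  intro q hq
  have hqp := Nat.prime_of_mem_primeFactors hq
  haveI : Fact q.Prime := ⟨hqp⟩
  have hcop : (Nat.card (P : Subgroup G)).Coprime (Nat.card N) := by
    have h1 := (sylow_inf_normal_isSylowIn P N).2.2
    rw [hPN, Subgroup.relIndex_bot_left] at h1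
    obtain ⟨n, hn⟩ := IsPGroup.iff_card.1 P.isPGroup'
    rw [hn]
    exact Nat.Coprime.pow_left _ ((Nat.Prime.coprime_iff_not_dvd Fact.out).2 h1)
  set M := N ⊓ NP with hM
  have hcomm : ∀ x ∈ M, ∀ y ∈ (P : Subgroup G), x * y = y * x := by
    intro x hx y hy
    have h1 : x * y * x⁻¹ * y⁻¹ ∈ (P : Subgroup G) ⊓ N := by
      refine Subgroup.mem_inf.mpr ⟨?_, ?_⟩
      · exact mul_mem ((Subgroup.mem_normalizer_iff.1 hx.2 y).1 hy) (inv_mem hy)
      · have : x * y * x⁻¹ * y⁻¹ = x * (y * x⁻¹ * y⁻¹) := by group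
        rw [this]
        exact mul_mem hx.1 (hN.conj_mem _ (inv_mem hx.1) y)
    rw [hPN, Subgroup.mem_bot] at h1
    have h2 : x * y = (x * y * x⁻¹ * y⁻¹) * (y * x) := by group
    rw [h2, h1, one_mul]
  obtain ⟨D0⟩ : Nonempty (Sylow q M) := inferInstance
  have hD := isSylowIn_of_sylow D0
  set D := (D0 : Subgroup M).map M.subtype with hDdef
  have hDP : (P : Subgroup G) ≤ Subgroup.normalizer (D : Set G) := by
    refine le_trans ?_ (Subgroup.centralizer_le_normalizer _)
    intro y hy
    rw [Subgroup.mem_centralizer_iff]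
    intro d hd
    exact hcomm d (hD.1 hd) y hy
  haveI := P.isPGroup'.isNilpotent
  obtain ⟨S, hDS, hSN, hSq, hSi, hSP⟩ :=
    Cfsg.Agent.Lib.Helper1.invariant_pSubgroup_le_invariant_sylow (P : Subgroup G) N hNtop hcop
      (Or.inl inferInstance) q D (hD.1.trans inf_le_left) hD.2.1 hDP
  have hk := card_sylow_sup P S hSP
  have hmod := card_sylow_modEq_one p (S ⊔ (P : Subgroup G) : Subgroup G)
  rw [hk] at hmod
  set E := S ⊓ NP with hE
  have hEM : E ≤ M := le_inf (inf_le_left.trans hSN) inf_le_right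
  have hES : E ≤ S := inf_le_left
  have hDE : D ≤ E := le_inf hDS (hD.1.trans inf_le_right)
  have e1 : NP.relIndex N = M.relIndex N := (Subgroup.inf_relIndex_left N NP).symm
  have e2 : NP.relIndex S = E.relIndex S := (Subgroup.inf_relIndex_left S NP).symm
  have e3 := Subgroup.relIndex_mul_relIndex E M N hEM inf_le_left
  have e4 := Subgroup.relIndex_mul_relIndex E S N hES hSN
  have e5 := Subgroup.relIndex_mul_relIndex D E M hDE hEM
  have ha : ¬ q ∣ E.relIndex M := fun hd => hD.2.2 (e5 ▸ Dvd.dvd.mul_left hd _)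
  obtain ⟨e, he⟩ := hSq.index (E.subgroupOf S)
  have he' : E.relIndex S = q ^ e := he
  have hfin := ordProj_eq q (NP.relIndex N) (E.relIndex M) (S.relIndex N) e hqp ht ha hSi (by
    rw [e1, ← he', mul_comm, e3, mul_comm, e4])
  rw [hfin, ← he', ← e2]
  have h1p : 1 < p := (Fact.out : p.Prime).one_lt
  have := hmod
  unfold Nat.ModEq at this
  rwa [Nat.mod_eq_of_lt h1p] at this

omit [Finite G] [Fact p.Prime] in
theorem card_lt_of_ne_top [Finite G] (H : Subgroup G) (hH : H ≠ ⊤) : Nat.card H < Nat.card G :=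
  lt_of_le_of_ne (Subgroup.card_le_card_group H) (fun h => hH (Subgroup.eq_top_of_card_eq H h))

omit [Finite G] [Fact p.Prime] in
theorem card_quot_lt_of_ne_bot [Finite G] (H : Subgroup G) (hH : H ≠ ⊥) :
    Nat.card (G ⧸ H) < Nat.card G := by
  have h1 := Subgroup.card_mul_index H
  have h2 : Nat.card H ≠ 1 := fun h => hH (Subgroup.card_eq_one.1 h)
  have h3 : 0 < Nat.card H := Nat.card_pos
  have h4 : 0 < H.index := Nat.pos_of_ne_zero H.index_ne_zero_of_finite
  change H.index < _
  rw [← h1]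
  have h5 : 2 ≤ Nat.card H := by omega
  nlinarith

theorem main (p : ℕ) [Fact p.Prime] : ∀ (n : ℕ) (G : Type u) [Group G] [Finite G],
    Nat.card G = n → Good.{u} p (Nat.card (Sylow p G)) := by
  intro n
  induction n using Nat.strong_induction_on with
  | _ n ih =>
  intro G _ _ hn
  subst hn
  by_cases hsub : Subsingleton G
  · have : Nat.card (Sylow p G) = 1 := by
      haveI : Subsingleton (Sylow p G) :=
        ⟨fun a b => Sylow.ext (Subsingleton.elim _ _)⟩
      exact Nat.card_unique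
    rw [this]; exact Good.one p
  haveI : Nontrivial G := not_subsingleton_iff_nontrivial.1 hsub
  by_cases hsimple : IsSimpleGroup G
  · exact ⟨[Nat.card (Sylow p G)], by simp, fun m hm =>
      Or.inr ⟨G, inferInstance, inferInstance, hsimple, by simpa using hm⟩⟩
  obtain ⟨N, hNn, hNbot, hNtop⟩ : ∃ N : Subgroup G, N.Normal ∧ N ≠ ⊥ ∧ N ≠ ⊤ := by
    by_contra hcon
    push Not at hcon
    refine hsimple ⟨fun H hH => ?_⟩
    by_cases h : H = ⊥
    · exact Or.inl h
    · exact Or.inr (hcon H hH h)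
  haveI := hNn
  obtain ⟨P⟩ : Nonempty (Sylow p G) := inferInstance
  by_cases hQ : (P : Subgroup G) ⊓ N = ⊥
  · rw [card_sylow_eq_mul N P]
    refine Good.mul (ih _ (card_quot_lt_of_ne_bot N hNbot) _ rfl) ?_
    rw [sup_comm]
    exact good_sup N P hQ
  by_cases hQn : Subgroup.normalizer (((P : Subgroup G) ⊓ N : Subgroup G) : Set G) = ⊤
  · haveI : ((P : Subgroup G) ⊓ N).Normal := Subgroup.normalizer_eq_top_iff.1 hQn
    rw [← card_sylow_quotient_of_isPGroup ((P : Subgroup G) ⊓ N) (P.isPGroup'.to_le inf_le_left)]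
    exact ih _ (card_quot_lt_of_ne_bot _ hQ) _ rfl
  · rw [card_sylow_eq_mul' N P]
    exact Good.mul (ih _ (card_lt_of_ne_top N hNtop) _ rfl) (ih _ (card_lt_of_ne_top _ hQn) _ rfl)

/-- For a finite group `G` and a prime `p`, the number of Sylow `p`-subgroups of `G` is a product of natural numbers each of which is either a prime power congruent to 1 modulo `p` or the number of Sylow `p`-subgroups of some finite simple group. -/
theorem result {G : Type u} [Group G] [Finite G]
    (p : ℕ) [Fact p.Prime] :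
    ∃ l : List ℕ, l.prod = Nat.card (Sylow p G) ∧
      ∀ m ∈ l, (IsPrimePow m ∧ m % p = 1) ∨
        ∃ (S : Type u) (_ : Group S) (_ : Finite S), IsSimpleGroup S ∧ m = Nat.card (Sylow p S) := by
  exact main p _ G rfl

end Cfsg.Agent.S4303
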