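import Cfsg.Statements.S4331

set_option autoImplicit false
open Cfsg
open SemidirectProduct

namespace Cfsg.Agent.S4331

theorem isSubnormal_of_isNilpotent {K : Type*} [Group K] [Finite K] [Group.IsNilpotent K]
    (B : Subgroup K) : B.IsSubnormal := by
  induction B using WellFoundedGT.induction with
  | _ B ih =>
    by_cases hB : B = ⊤
    · rw [hB]; exact Subgroup.IsSubnormal.top
    · have hlt : B < Subgroup.normalizer (B : Set K) :=
        Group.normalizerCondition_of_isNilpotent B (lt_top_iff_ne_top.2 hB)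
      exact Subgroup.IsSubnormal.step B _ Subgroup.le_normalizer (ih _ hlt)
        Subgroup.normal_in_normalizer

theorem mem_normalizer_zpowers_of_commute {G : Type*} [Group G] {g x : G} (h : Commute g x) :
    g ∈ Subgroup.normalizer ((Subgroup.zpowers x : Subgroup G) : Set G) := by
  rw [Subgroup.mem_normalizer_iff]
  intro y
  constructor
  · intro hy
    obtain ⟨k, rfl⟩ := Subgroup.mem_zpowers_iff.1 hy
    have : g * x ^ k * g⁻¹ = x ^ k := by
      rw [(h.zpow_right k).eq, mul_assoc, mul_inv_cancel, mul_one]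
    rw [this]; exact hy
  · intro hy
    obtain ⟨k, hk⟩ := Subgroup.mem_zpowers_iff.1 hy
    have : y = x ^ k := by
      have h1 : y = g⁻¹ * (g * y * g⁻¹) * g := by group
      rw [h1, ← hk, mul_assoc, ← (h.zpow_right k).eq, ← mul_assoc, inv_mul_cancel, one_mul]
    rw [this]
    exact Subgroup.zpow_mem_zpowers x k

theorem subnormal_of_commute {G : Type*} [Group G] {g x : G} (h : Commute g x) :
    ((Subgroup.zpowers x).subgroupOf (Subgroup.zpowers x ⊔ Subgroup.zpowers g)).IsSubnormal := by
  apply Subgroup.Normal.isSubnormal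
  rw [Subgroup.normal_subgroupOf_iff_le_normalizer le_sup_left]
  apply sup_le Subgroup.le_normalizer
  rw [Subgroup.zpowers_le]
  exact mem_normalizer_zpowers_of_commute h

theorem subnormal_of_le_pgroup {G : Type*} [Group G] [Finite G] {p : ℕ} [Fact p.Prime]
    (A B K : Subgroup G) (hK : IsPGroup p K) (hB : B ≤ K) : (A.subgroupOf B).IsSubnormal := by
  have : Group.IsNilpotent B := (hK.to_le hB).isNilpotent
  exact isSubnormal_of_isNilpotent _

theorem conj_inl {N H : Type} [CommGroup N] [Group H] (φ : H →* MulAut N) (m n : N) (h : H) :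
    (inl m : N ⋊[φ] H) * ⟨n, h⟩ * (inl m)⁻¹ = ⟨m * n * (φ h m)⁻¹, h⟩ := by
  apply SemidirectProduct.ext
  · simp
  · simp

theorem conj_inr {N H : Type} [CommGroup N] [Group H] (φ : H →* MulAut N) (y : H) (n : N) (h : H) :
    (inr y : N ⋊[φ] H) * ⟨n, h⟩ * (inr y)⁻¹ = ⟨φ y n, y * h * y⁻¹⟩ := by
  apply SemidirectProduct.ext
  · simp
  · simp

theorem abstract_example {N H : Type} [CommGroup N] [Finite N] [Group H] [Finite H]
    (φ : H →* MulAut N) (hH : IsPGroup 2 H) (hN3 : ∀ n : N, n ^ 3 = 1)
    (a : H) (ha2 : a * a = 1) (e : N) (hae : φ a e = e)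
    (htrans : ∀ n : N, n ≠ 1 → ∃ h : H, φ h e = n)
    (hstab : ∀ h : H, φ h e = e → h = 1 ∨ h = a)
    (hmove : ∃ n : N, φ a n ≠ n) :
    ∃ (A : Subgroup (N ⋊[φ] H)), Group.IsSolvable (N ⋊[φ] H) ∧ Nat.card A = 2 ∧
      (∀ c : N ⋊[φ] H, ∃ g : N ⋊[φ] H, IsConj c g ∧
        (A.subgroupOf (A ⊔ Subgroup.zpowers g)).IsSubnormal) ∧
      ¬ A ≤ Cfsg.pCore 2 (N ⋊[φ] H) := by
  have : Fact (Nat.Prime 2) := ⟨Nat.prime_two⟩
  have : Finite (N ⋊[φ] H) := Finite.of_equiv _ equivProd.symm
  have ha1 : a ≠ 1 := by
    rintro rfl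
    obtain ⟨n, hn⟩ := hmove
    simp at hn
  have haa : ∀ n : N, φ a (φ a n) = n := by
    intro n
    rw [← MulAut.mul_apply, ← map_mul, ha2, map_one, MulAut.one_apply]
  refine ⟨Subgroup.zpowers (inr a), ?_, ?_, ?_, ?_⟩
  · have : Group.IsNilpotent H := hH.isNilpotent
    exact Group.isSolvable_of_ker_le_range (inl : N →* N ⋊[φ] H) rightHom
      range_inl_eq_ker_rightHom.ge
  · rw [Nat.card_zpowers]
    apply orderOf_eq_prime
    · rw [pow_two, ← map_mul, ha2, map_one]
    · intro h
      exact ha1 (inr_injective (h.trans (map_one _).symm))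
  · -- the class analysis
    have T1 : ∀ h : H, ((Subgroup.zpowers (inr a : N ⋊[φ] H)).subgroupOf
        (Subgroup.zpowers (inr a) ⊔ Subgroup.zpowers (inr h))).IsSubnormal := by
      intro h
      apply subnormal_of_le_pgroup (p := 2) _ _ (inr : H →* N ⋊[φ] H).range
      · exact hH.of_surjective _ (inr : H →* N ⋊[φ] H).rangeRestrict_surjective
      · apply sup_le <;> rw [Subgroup.zpowers_le] <;> exact ⟨_, rfl⟩
    have T2 : ∀ n : N, φ a n = n → ∀ h : H, Commute h a → ((Subgroup.zpowers (inr a : N ⋊[φ] H)).subgroupOf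
        (Subgroup.zpowers (inr a) ⊔ Subgroup.zpowers (⟨n, h⟩ : N ⋊[φ] H))).IsSubnormal := by
      intro n hn h hha
      apply subnormal_of_commute
      apply SemidirectProduct.ext
      · simp [hn]
      · exact hha
    intro c
    by_cases hfix : ∀ m : N, φ c.right m = m → m = 1
    · -- fixed point free
      let ψ : N →* N :=
        { toFun := fun m => m⁻¹ * φ c.right m
          map_one' := by simp
          map_mul' := by
            intro x y
            rw [map_mul, mul_inv]
            exact mul_mul_mul_comm _ _ _ _ }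
      have hinj : Function.Injective ψ := by
        rw [injective_iff_map_eq_one]
        intro m hm
        apply hfix
        have : m⁻¹ * φ c.right m = 1 := hm
        exact (inv_mul_eq_one.1 this).symm
      obtain ⟨m, hm⟩ := Finite.surjective_of_injective hinj c.left
      have hm' : m⁻¹ * φ c.right m = c.left := hm
      refine ⟨inr c.right, isConj_iff.2 ⟨inl m, ?_⟩, T1 _⟩
      apply SemidirectProduct.ext
      · simp only [mul_left, left_inl, right_inl, map_one, MulAut.one_apply, mul_right, one_mul,
          inv_left, inv_one, left_inr, map_inv]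
        rw [← hm']
        simp
      · simp
    · push Not at hfix
      obtain ⟨m, hm, hm1⟩ := hfix
      obtain ⟨y, hy⟩ := htrans m hm1
      have hst : φ (y⁻¹ * c.right * y) e = e := by
        rw [map_mul, map_mul, MulAut.mul_apply, MulAut.mul_apply, hy, hm, ← hy, ← MulAut.mul_apply,
          ← map_mul, inv_mul_cancel, map_one, MulAut.one_apply]
      set n' := φ y⁻¹ c.left with hn'
      have hc' : IsConj c (⟨n', y⁻¹ * c.right * y⟩ : N ⋊[φ] H) := by
        refine isConj_iff.2 ⟨inr y⁻¹, ?_⟩
        apply SemidirectProduct.ext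
        · simp [hn']
        · simp
      rcases hstab _ hst with h1 | h1
      · rw [h1] at hc'
        by_cases hn1 : n' = 1
        · refine ⟨_, hc', T2 n' (by rw [hn1, map_one]) 1 (Commute.one_left a)⟩
        · obtain ⟨z, hz⟩ := htrans n' hn1
          refine ⟨(⟨e, 1⟩ : N ⋊[φ] H), hc'.trans (isConj_iff.2 ⟨inr z⁻¹, ?_⟩),
            T2 e hae 1 (Commute.one_left a)⟩
          apply SemidirectProduct.ext
          · simp only [mul_left, left_inr, right_inr, one_mul, mul_right, mul_one, inv_left,
              inv_inv, inv_one, map_one]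
            rw [← hz, ← MulAut.mul_apply, ← map_mul, inv_mul_cancel, map_one, MulAut.one_apply]
          · simp
      · rw [h1] at hc'
        set w := φ a n' with hw
        have hwa : φ a w = n' := haa n'
        refine ⟨(⟨w * w * n'⁻¹, a⟩ : N ⋊[φ] H), hc'.trans (isConj_iff.2 ⟨inl (w * n'⁻¹), ?_⟩),
          T2 _ ?_ a (Commute.refl a)⟩
        · rw [conj_inl, map_mul, map_inv, hwa, ← hw]
          congr 1
          rw [mul_inv, inv_inv, inv_mul_cancel_right, mul_comm n'⁻¹ w, mul_assoc]
        · rw [map_mul, map_mul, map_inv, hwa, ← hw]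
          have h3w : w⁻¹ = w * w := by
            apply inv_eq_of_mul_eq_one_right
            have := hN3 w
            rw [pow_succ, pow_two] at this
            rw [← mul_assoc]; exact this
          have h3n : n'⁻¹ = n' * n' := by
            apply inv_eq_of_mul_eq_one_right
            have := hN3 n'
            rw [pow_succ, pow_two] at this
            rw [← mul_assoc]; exact this
          rw [h3w, h3n, mul_comm]
  · intro hle
    obtain ⟨n, hn⟩ := hmove
    have hT : IsPGroup 2 (Cfsg.pCore 2 (N ⋊[φ] H)) :=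
      Sylow.sSup_of_normal _ (fun _ h => h.2) (fun _ h => h.1)
    have hTn : (Cfsg.pCore 2 (N ⋊[φ] H)).Normal := Subgroup.sSup_normal _ (fun _ h => h.1)
    have haT : (inr a : N ⋊[φ] H) ∈ Cfsg.pCore 2 (N ⋊[φ] H) := hle (Subgroup.mem_zpowers _)
    set q := φ a n * n⁻¹ with hq
    have hqT : (inl q : N ⋊[φ] H) ∈ Cfsg.pCore 2 (N ⋊[φ] H) := by
      have h1 := hTn.conj_mem _ ((Cfsg.pCore 2 (N ⋊[φ] H)).inv_mem haT) (inl n)
      have h2 := (Cfsg.pCore 2 (N ⋊[φ] H)).mul_mem haT h1
      have e1 : (inr a : N ⋊[φ] H) * (inl n * (inr a)⁻¹ * (inl n)⁻¹) = inl q := by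
        rw [hq, map_mul, inl_aut, map_inv, map_inv]
        group
      rwa [e1] at h2
    obtain ⟨k, hk⟩ := hT ⟨_, hqT⟩
    have hk' : q ^ 2 ^ k = 1 := by
      have h1 := congrArg Subtype.val hk
      simp only [Subgroup.coe_pow, Subgroup.coe_one] at h1
      rw [← map_pow] at h1
      exact inl_injective (h1.trans (map_one _).symm)
    have ho1 : orderOf q ∣ 2 ^ k := orderOf_dvd_of_pow_eq_one hk'
    have ho2 : orderOf q ∣ 3 := orderOf_dvd_of_pow_eq_one (hN3 q)
    have hcop : Nat.Coprime (2 ^ k) 3 := Nat.Coprime.pow_left k (by norm_num)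
    have ho : orderOf q = 1 := Nat.eq_one_of_dvd_coprimes hcop ho1 ho2
    rw [orderOf_eq_one_iff, hq, mul_inv_eq_one] at ho
    exact hn ho

/-- Normal form in `⟨a⟩⟨s⟩` when the involution `a` normalizes `⟨s⟩`. -/
theorem mem_sup_normal_form {Γ : Type*} [Group Γ] (a s : Γ) (ha2 : a * a = 1)
    (hn : ∀ h, h ∈ Subgroup.zpowers s → a * h * a ∈ Subgroup.zpowers s) :
    ∀ h ∈ Subgroup.zpowers a ⊔ Subgroup.zpowers s, h ∈ Subgroup.zpowers s ∨ a * h ∈ Subgroup.zpowers s := by
  have hainv : a⁻¹ = a := inv_eq_of_mul_eq_one_left ha2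
  let K : Subgroup Γ :=
    { carrier := {h | h ∈ Subgroup.zpowers s ∨ a * h ∈ Subgroup.zpowers s}
      one_mem' := Or.inl (Subgroup.one_mem _)
      mul_mem' := by
        rintro x y (hx | hx) (hy | hy)
        · exact Or.inl (Subgroup.mul_mem _ hx hy)
        · right
          have h1 := Subgroup.mul_mem _ (hn x hx) hy
          have e : a * x * a * (a * y) = a * (x * y) := by
            calc a * x * a * (a * y) = a * x * (a * a) * y := by group
              _ = a * (x * y) := by rw [ha2]; group
          rwa [e] at h1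
        · right
          have h1 := Subgroup.mul_mem _ hx hy
          rwa [mul_assoc] at h1
        · left
          have h1 := Subgroup.mul_mem _ (hn _ hx) hy
          have e : a * (a * x) * a * (a * y) = x * y := by
            calc a * (a * x) * a * (a * y) = (a * a) * x * (a * a) * y := by group
              _ = x * y := by rw [ha2]; group
          rwa [e] at h1
      inv_mem' := by
        rintro x (hx | hx)
        · exact Or.inl (Subgroup.inv_mem _ hx)
        · right
          have h1 := hn _ (Subgroup.inv_mem _ hx)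
          have e : a * (a * x)⁻¹ * a = a * x⁻¹ := by
            calc a * (a * x)⁻¹ * a = a * x⁻¹ * (a⁻¹ * a) := by group
              _ = a * x⁻¹ := by group
          rwa [e] at h1 }
  have hle : Subgroup.zpowers a ⊔ Subgroup.zpowers s ≤ K := by
    apply sup_le
    · rw [Subgroup.zpowers_le]
      right
      rw [ha2]
      exact Subgroup.one_mem _
    · intro x hx
      exact Or.inl hx
  intro h hh
  exact hle hh

abbrev V := ZMod 3 × ZMod 3
abbrev N := Multiplicative V

/-- multiplication by a generator of the multiplicative group of the field with 9 elements -/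
def sAdd : V ≃+ V where
  toFun v := (v.1 - v.2, v.1 + v.2)
  invFun v := (-v.1 - v.2, v.1 - v.2)
  left_inv := by decide
  right_inv := by decide
  map_add' := by decide

/-- the Frobenius map of the field with 9 elements -/
def aAdd : V ≃+ V where
  toFun v := (v.1, -v.2)
  invFun v := (v.1, -v.2)
  left_inv := by decide
  right_inv := by decide
  map_add' := by decide

def s : MulAut N := AddEquiv.toMultiplicative sAdd
def a : MulAut N := AddEquiv.toMultiplicative aAdd

theorem rel : a * s * a = s ^ 3 := by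
  apply MulEquiv.ext
  decide

theorem s8 : s ^ 8 = 1 := by
  apply MulEquiv.ext
  decide

theorem a2 : a * a = 1 := by
  apply MulEquiv.ext
  decide

theorem n3 : ∀ n : N, n ^ 3 = 1 := by decide

def e : N := Multiplicative.ofAdd (1, 0)

theorem tr : ∀ n : N, n ≠ 1 → ∃ k : Fin 8, (s ^ (k : ℕ)) e = n := by decide

theorem st : ∀ k : Fin 8, (s ^ (k : ℕ)) e = e → k = 0 := by decide

theorem ae : a e = e := by decide

theorem amove : a (Multiplicative.ofAdd (0, 1)) ≠ Multiplicative.ofAdd (0, 1) := by decide

theorem hn : ∀ h, h ∈ Subgroup.zpowers s → a * h * a ∈ Subgroup.zpowers s := by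
  intro h hh
  obtain ⟨k, rfl⟩ := Subgroup.mem_zpowers_iff.1 hh
  have hainv : a⁻¹ = a := inv_eq_of_mul_eq_one_left a2
  have : a * s ^ k * a = (s ^ 3) ^ k := by
    rw [← rel]
    conv_rhs => rw [← hainv]
    rw [hainv]
    have := conj_zpow (a := a) (b := s) (i := k)
    rw [hainv] at this
    exact this.symm
  rw [this]
  exact Subgroup.zpow_mem _ (Subgroup.pow_mem _ (Subgroup.mem_zpowers s) 3) k

/-- the semilinear group of the field with 9 elements -/
def HH : Subgroup (MulAut N) := Subgroup.zpowers a ⊔ Subgroup.zpowers s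

theorem isPGroup_zpowers_of_pow {Γ : Type*} [Group Γ] (x : Γ) (k : ℕ) (h : x ^ 2 ^ k = 1) :
    IsPGroup 2 (Subgroup.zpowers x) := by
  obtain ⟨j, -, hj⟩ := (Nat.dvd_prime_pow Nat.prime_two).1 (orderOf_dvd_of_pow_eq_one h)
  apply IsPGroup.of_card (n := j)
  rw [Nat.card_zpowers, hj]

theorem HH_isPGroup : IsPGroup 2 HH := by
  apply IsPGroup.to_sup_of_normal_right'
  · exact isPGroup_zpowers_of_pow a 1 (by rw [pow_one, pow_two, a2])
  · exact isPGroup_zpowers_of_pow s 3 s8
  · rw [Subgroup.zpowers_le, Subgroup.mem_normalizer_iff]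
    have hainv : a⁻¹ = a := inv_eq_of_mul_eq_one_left a2
    intro h
    rw [hainv]
    constructor
    · exact hn h
    · intro hh
      have := hn _ hh
      have e1 : a * (a * h * a) * a = h := by
        calc a * (a * h * a) * a = (a * a) * h * (a * a) := by group
          _ = h := by rw [a2]; group
      rwa [e1] at this

theorem zpow_s_eq (k : ℤ) : ∃ j : Fin 8, s ^ k = s ^ (j : ℕ) := by
  refine ⟨⟨(k % 8).toNat, by omega⟩, ?_⟩
  have h1 : s ^ k = s ^ (k % ((8 : ℕ) : ℤ)) := zpow_eq_zpow_emod' k s8
  have h2 : ((k % 8).toNat : ℤ) = k % ((8 : ℕ) : ℤ) := by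
    have : 0 ≤ k % 8 := Int.emod_nonneg _ (by norm_num)
    simpa using this
  rw [h1, ← h2, zpow_natCast]

/-- There is a finite solvable group G with a subgroup A of order 2 such that every conjugacy class of G contains an element g for which A is subnormal in the subgroup generated by A and g, and yet A is not contained in O_2(G). (So the corresponding criteria for odd primes fail at the prime 2, even for solvable groups.) -/
theorem result :
    ∃ (G : Type) (_ : Group G) (_ : Finite G) (A : Subgroup G), Group.IsSolvable G ∧ Nat.card A = 2 ∧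
      (∀ c : G, ∃ g : G, IsConj c g ∧ (A.subgroupOf (A ⊔ Subgroup.zpowers g)).IsSubnormal) ∧
      ¬ A ≤ Cfsg.pCore 2 G := by
  have haH : a ∈ HH := (le_sup_left : Subgroup.zpowers a ≤ HH) (Subgroup.mem_zpowers a)
  have hsH : s ∈ HH := (le_sup_right : Subgroup.zpowers s ≤ HH) (Subgroup.mem_zpowers s)
  obtain ⟨A, hA⟩ := abstract_example (N := N) (H := HH) HH.subtype HH_isPGroup n3 ⟨a, haH⟩
    (Subtype.ext a2) e ae
    (by
      intro n hn1
      obtain ⟨k, hk⟩ := tr n hn1
      exact ⟨⟨s ^ (k : ℕ), Subgroup.pow_mem _ hsH _⟩, hk⟩)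
    (by
      rintro ⟨h, hh⟩ hfix
      have hfix' : h e = e := hfix
      rcases mem_sup_normal_form a s a2 hn h hh with h1 | h1
      · left
        obtain ⟨k, rfl⟩ := Subgroup.mem_zpowers_iff.1 h1
        obtain ⟨j, hj⟩ := zpow_s_eq k
        apply Subtype.ext
        rw [hj] at hfix'
        change s ^ k = 1
        rw [hj, st j hfix']
        rfl
      · right
        obtain ⟨k, hk⟩ := Subgroup.mem_zpowers_iff.1 h1
        obtain ⟨j, hj⟩ := zpow_s_eq k
        apply Subtype.ext
        have h2 : (s ^ (j : ℕ)) e = e := by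
          rw [← hj, hk, MulAut.mul_apply, hfix', ae]
        have h3 := st j h2
        rw [hj, h3] at hk
        have h4 : a * h = 1 := hk.symm
        change h = a
        calc h = (a * a) * h := by rw [a2, one_mul]
          _ = a * (a * h) := by group
          _ = a := by rw [h4, mul_one])
    ⟨_, amove⟩
  exact ⟨N ⋊[HH.subtype] HH, inferInstance, Finite.of_equiv _ equivProd.symm, A, hA⟩

end Cfsg.Agent.S4331
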