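import Cfsg.Statements.S4333
import Cfsg.Agent.Lib.Helper62.Subnormal2

set_option autoImplicit false
open Cfsg

namespace Cfsg.Agent.S4333

open scoped Pointwise
open Cfsg.Agent.Lib.Helper62

/-- relative ambient form -/
theorem sharp_rel {G : Type*} [Group G] [Finite G] : ∀ (n : ℕ) (H : Subgroup G), Nat.card H = n →
    ∀ A : Subgroup G, A ≤ H →
    (∀ a ∈ A, ∀ g ∈ H, SubnIn A (A ⊔ A.map (MulAut.conj (g⁻¹ * a * g)).toMonoidHom)) →
    SubnIn A H := by
  intro n
  induction n using Nat.strong_induction_on with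
  | _ n ih =>
    intro H hH A hAH hA
    by_contra hcon
    have IH : ∀ V : Subgroup G, V < H → ∀ g ∈ H, A.map (MulAut.conj g).toMonoidHom ≤ V →
        SubnIn (A.map (MulAut.conj g).toMonoidHom) V := by
      intro V hV h hh hle
      have hcard : Nat.card V < n := by
        rw [← hH]
        by_contra hnot
        exact absurd (Subgroup.eq_of_le_of_card_ge hV.le (not_lt.mp hnot)) hV.ne
      refine ih _ hcard V rfl _ hle ?_
      rintro _ ⟨a, ha, rfl⟩ v hv
      have hvH : v ∈ H := hV.le hv
      have h1 := (hA a ha (h⁻¹ * v * h) (H.mul_mem (H.mul_mem (H.inv_mem hh) hvH) hh)).conj h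
      rw [Subgroup.map_sup, map_conj_mul] at h1
      rw [map_conj_mul]
      have e : h * ((h⁻¹ * v * h)⁻¹ * a * (h⁻¹ * v * h))
          = v⁻¹ * (MulAut.conj h).toMonoidHom a * v * h := by
        simp only [MulEquiv.coe_toMonoidHom, MulAut.conj_apply]
        group
      rwa [e] at h1
    have IH1 : ∀ V : Subgroup G, V < H → A ≤ V → SubnIn A V := by
      intro V hV hle
      have := IH V hV 1 H.one_mem (by rwa [map_conj_one])
      rwa [map_conj_one] at this
    let U : Set (Subgroup G) := {V | A ≤ V ∧ V < H}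
    have hAne : A ≠ H := by
      rintro rfl
      exact hcon (SubnIn.refl _)
    have hUne : U.Nonempty := ⟨A, le_rfl, lt_of_le_of_ne hAH hAne⟩
    let S : Subgroup G → Set (Subgroup G) :=
      fun V => {B | (∃ g ∈ H, B = A.map (MulAut.conj g).toMonoidHom) ∧ SubnIn B V}
    obtain ⟨M, hMU, hMmax⟩ := zipper_rel H A U hUne (fun V hV => hV.2.le) S (fun V B => Iff.rfl)
      (by
        rintro V hV W _ B ⟨⟨g, hg, rfl⟩, _⟩ hle
        exact ⟨⟨g, hg, rfl⟩, IH V hV.2 g hg hle⟩)
      (by
        intro V hV W hW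
        set D : Subgroup G := sSup (S V ∩ S W) with hD
        have hAS : A ∈ S V ∩ S W :=
          ⟨⟨⟨1, H.one_mem, (map_conj_one A).symm⟩, IH1 V hV.2 hV.1⟩,
            ⟨⟨1, H.one_mem, (map_conj_one A).symm⟩, IH1 W hW.2 hW.1⟩⟩
        have hAD : A ≤ D := le_sSup hAS
        have hDV : D ≤ V := sSup_le (fun B hB => hB.1.2.le)
        have hnot : ¬ H ≤ Subgroup.normalizer (D : Set G) := by
          intro h
          exact hcon (((IH1 V hV.2 hV.1).restrict hAD hDV).trans
            (SubnIn.of_normal (hDV.trans hV.2.le) h))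
        refine ⟨H ⊓ Subgroup.normalizer (D : Set G), ⟨le_inf hAH (hAD.trans Subgroup.le_normalizer), ?_⟩,
          le_rfl⟩
        refine lt_of_le_of_ne inf_le_left ?_
        intro h
        exact hnot (inf_eq_left.mp h))
    -- conjugates of elements of `A` normalize `M`
    have hxM : ∀ a ∈ A, ∀ g ∈ H, g⁻¹ * a * g ∈ Subgroup.normalizer (M : Set G) := by
      intro a ha g hg
      set x : G := g⁻¹ * a * g with hx
      have hxH : x ∈ H := H.mul_mem (H.mul_mem (H.inv_mem hg) (hAH ha)) hg
      have hle : A ⊔ A.map (MulAut.conj x).toMonoidHom ≤ H := by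
        refine sup_le hAH ?_
        rintro _ ⟨b, hb, rfl⟩
        exact H.mul_mem (H.mul_mem hxH (hAH hb)) (H.inv_mem hxH)
      have hne : A ⊔ A.map (MulAut.conj x).toMonoidHom ≠ H := by
        intro h
        have := hA a ha g hg
        rw [h] at this
        exact hcon this
      have h1 : A.map (MulAut.conj x).toMonoidHom ≤ M :=
        le_sup_right.trans (hMmax _ ⟨le_sup_left, lt_of_le_of_ne hle hne⟩)
      have h2 : A ≤ M.map (MulAut.conj x⁻¹).toMonoidHom := (map_conj_le_iff x A M).mp h1
      have h3 : M.map (MulAut.conj x⁻¹).toMonoidHom ≤ H := by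
        rintro _ ⟨m, hm, rfl⟩
        exact H.mul_mem (H.mul_mem (H.inv_mem hxH) (hMU.2.le hm)) (H.inv_mem (H.inv_mem hxH))
      have hcardeq : Nat.card ↥(M.map (MulAut.conj x⁻¹).toMonoidHom) = Nat.card M :=
        Subgroup.card_map_of_injective (MulAut.conj x⁻¹).injective
      have h4 : M.map (MulAut.conj x⁻¹).toMonoidHom ≠ H := by
        intro h
        have h5 : Nat.card H ≤ Nat.card M := by rw [← hcardeq, h]
        exact hMU.2.ne (Subgroup.eq_of_le_of_card_ge hMU.2.le h5)
      have h5 : M.map (MulAut.conj x⁻¹).toMonoidHom ≤ M := hMmax _ ⟨h2, lt_of_le_of_ne h3 h4⟩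
      have h6 : M.map (MulAut.conj x⁻¹).toMonoidHom = M :=
        Subgroup.eq_of_le_of_card_ge h5 hcardeq.ge
      have h7 : x⁻¹ ∈ Subgroup.normalizer (M : Set G) :=
        Subgroup.mem_normalizer_iff_map_conj_eq.mpr h6
      simpa using Subgroup.inv_mem _ h7
    set F : Set (Subgroup G) := {X | ∃ g ∈ H, X = A.map (MulAut.conj g).toMonoidHom} with hF
    have hNH : H ≤ Subgroup.normalizer ((sSup F : Subgroup G) : Set G) := by
      apply le_normalizer_sSup_of_stable
      rintro h hh _ ⟨g, hg, rfl⟩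
      exact ⟨h * g, H.mul_mem hh hg, map_conj_mul h g A⟩
    have hAN : A ≤ sSup F := le_sSup ⟨1, H.one_mem, (map_conj_one A).symm⟩
    have hNleH : sSup F ≤ H := by
      refine sSup_le ?_
      rintro _ ⟨g, hg, rfl⟩ _ ⟨a, ha, rfl⟩
      exact H.mul_mem (H.mul_mem hg (hAH ha)) (H.inv_mem hg)
    have hNM : sSup F ≤ Subgroup.normalizer (M : Set G) := by
      refine sSup_le ?_
      rintro _ ⟨g, hg, rfl⟩ _ ⟨a, ha, rfl⟩
      have := hxM a ha g⁻¹ (H.inv_mem hg)
      simpa using this
    by_cases hN : sSup F = H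
    · rw [hN] at hNM
      exact hcon ((IH1 M hMU.2 hMU.1).trans (SubnIn.of_normal hMU.2.le hNM))
    · have hNlt : sSup F < H := lt_of_le_of_ne hNleH hN
      exact hcon ((IH1 _ hNlt hAN).trans (SubnIn.of_normal hNlt.le hNH))

/-- Let A be a subgroup of a finite group G. If A is subnormal in the subgroup generated by A and its conjugate by g⁻¹ a g, for every a ∈ A and every g ∈ G, then A is subnormal in G. (A sharpening of Wielandt's subnormality criterion: only conjugates of A by conjugates of elements of A are needed.) -/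
theorem result {G : Type*} [Group G] [Finite G]
    (A : Subgroup G)
    (h : ∀ a ∈ A, ∀ g : G, (A.subgroupOf (A ⊔ MulAut.conj (g⁻¹ * a * g) • A)).IsSubnormal) :
    A.IsSubnormal := by
  refine subnIn_top_iff.mp (sharp_rel _ ⊤ rfl A le_top (fun a ha g _ => ?_))
  exact (subnIn_iff le_sup_left).mpr (h a ha g)

end Cfsg.Agent.S4333
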