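import Cfsg.Statements.S4334
import Cfsg.Agent.S0071
import Cfsg.Agent.Lib.Helper72.SylowCount

set_option autoImplicit false
open Cfsg
open scoped Pointwise

namespace Cfsg.Agent.S4334

open Cfsg.Agent.Lib.Helper72

variable {G : Type*} [Group G]

theorem index_conj_smul (g : G) (B : Subgroup G) : (MulAut.conj g • B).index = B.index :=
  Subgroup.index_map_equiv (H := B) (MulAut.conj g)

/-- If `C_G(Q)` contains a subgroup `B` whose index is prime to the order of `g ∈ N_G(Q)`, then
`g` centralizes `Q`. -/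
theorem mem_centralizer_of_coprime [Finite G] (Q B : Subgroup G)
    (hB : B ≤ Subgroup.centralizer (Q : Set G))
    (g : G) (hg : g ∈ Subgroup.normalizer (Q : Set G))
    (h : ∀ r : ℕ, r.Prime → r ∣ orderOf g → ¬ r ∣ B.index) :
    g ∈ Subgroup.centralizer (Q : Set G) := by
  set N := Subgroup.normalizer (Q : Set G) with hN
  set C := Subgroup.centralizer (Q : Set G) with hC
  have hCN : C ≤ N := Subgroup.centralizer_le_normalizer _
  have hnorm : (C.subgroupOf N).Normal := by
    rw [hC, hN, ← Subgroup.normalizerMonoidHom_ker]; infer_instance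
  have h1 : (⟨g, hg⟩ : N) ^ (C.subgroupOf N).index ∈ C.subgroupOf N := Subgroup.pow_index_mem _ _
  have h2' : g ^ (C.subgroupOf N).index ∈ C := by
    simpa [Subgroup.mem_subgroupOf] using h1
  have h2 : g ^ (C.relIndex N) ∈ C := h2'
  have hcop : (C.relIndex N).Coprime (orderOf g) := by
    apply Nat.Coprime.symm
    apply Nat.coprime_of_dvd
    intro k hk hkd hkd'
    apply h k hk hkd
    exact hkd'.trans ((Subgroup.relIndex_dvd_of_le_left N hB).trans
      (Subgroup.relIndex_dvd_index_of_le (hB.trans hCN)))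
  obtain ⟨m, hm⟩ := exists_pow_eq_self_of_coprime hcop
  rw [← hm]
  exact C.pow_mem h2 m

theorem IsSylowIn.exists_le_conj [Finite G] {p : ℕ} [Fact p.Prime] {R H P' : Subgroup G}
    (h : IsSylowIn p R H) (hP : IsPGroup p P') (hPH : P' ≤ H) :
    ∃ n ∈ H, P' ≤ MulAut.conj n • R := by
  obtain ⟨T, hT⟩ := (isPGroup_subgroupOf hP H).exists_le_sylow
  have hT' := isSylowIn_of_sylow T
  obtain ⟨n, hn, hn'⟩ := h.exists_conj hT'
  refine ⟨n, hn, ?_⟩
  rw [← hn']
  intro y hy
  exact ⟨⟨y, hPH hy⟩, hT hy, rfl⟩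

theorem commute_of_conj {w q b : G} (h : w⁻¹ * q * w * (w⁻¹ * b * w) = w⁻¹ * b * w * (w⁻¹ * q * w)) :
    q * b = b * q := by
  calc q * b = w * (w⁻¹ * q * w * (w⁻¹ * b * w)) * w⁻¹ := by group
    _ = w * (w⁻¹ * b * w * (w⁻¹ * q * w)) * w⁻¹ := by rw [h]
    _ = b * q := by group

theorem conj_le_centralizer {S B : Subgroup G} (hSB : B ≤ Subgroup.centralizer (S : Set G)) (w : G) :
    MulAut.conj w • B ≤ Subgroup.centralizer ((MulAut.conj w • S : Subgroup G) : Set G) := by
  intro b hb
  rw [mem_conj_smul_iff] at hb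
  rw [Subgroup.mem_centralizer_iff]
  intro q hq
  have hq' : q ∈ MulAut.conj w • S := hq
  rw [mem_conj_smul_iff] at hq'
  exact commute_of_conj ((Subgroup.mem_centralizer_iff.1 (hSB hb)) _ hq')

/-- The core step: adding one prime. -/
theorem core [Finite G] (p : ℕ) [Fact p.Prime] (τ : Set ℕ) (S : Sylow p G)
    (B : Subgroup G) (hSB : B ≤ Subgroup.centralizer ((S : Subgroup G) : Set G))
    (hD : ∀ K : Subgroup G, IsPiSubgroup τ K → ∃ g : G, K ≤ MulAut.conj g • B)
    (K : Subgroup G) (hK : IsPiSubgroup (insert p τ) K) :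
    ∃ g : G, K ≤ MulAut.conj g • ((S : Subgroup G) ⊔ B) := by
  have hidx : ∀ r : ℕ, r.Prime → r ∈ τ → ¬ r ∣ B.index := by
    intro r hr hrτ hdvd
    have : Fact r.Prime := ⟨hr⟩
    obtain ⟨R⟩ : Nonempty (Sylow r G) := inferInstance
    have hR : IsPiSubgroup τ (R : Subgroup G) := by
      intro q hq hqd
      obtain ⟨k, hk⟩ := IsPGroup.iff_card.1 R.isPGroup'
      rw [hk] at hqd
      have := (Nat.prime_dvd_prime_iff_eq hq hr).1 (hq.dvd_of_dvd_pow hqd)
      rw [this]; exact hrτ
    obtain ⟨g, hg⟩ := hD _ hR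
    have h1 : (MulAut.conj g • B).index ∣ (R : Subgroup G).index := Subgroup.index_dvd_of_le hg
    rw [index_conj_smul] at h1
    exact R.not_dvd_index (hdvd.trans h1)
  obtain ⟨P⟩ : Nonempty (Sylow p K) := inferInstance
  have hfrob : ∃ N : Subgroup K, N.Normal ∧ N.IsComplement' (P : Subgroup K) := by
    rw [Cfsg.Agent.S0071.result P]
    intro Q hQP g hg hgp
    set Q' := Q.map K.subtype with hQ'
    have hQ'p : IsPGroup p Q' := (P.isPGroup'.to_le hQP).map _
    obtain ⟨S', hS'⟩ := hQ'p.exists_le_sylow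
    obtain ⟨w, rfl⟩ := MulAction.exists_smul_eq G S S'
    have hB' : MulAut.conj w • B ≤ Subgroup.centralizer (Q' : Set G) := by
      refine (conj_le_centralizer hSB w).trans ?_
      apply Subgroup.centralizer_le
      exact hS'
    have hg' : (g : G) ∈ Subgroup.normalizer (Q' : Set G) := by
      rw [Subgroup.mem_normalizer_iff] at hg ⊢
      intro x
      constructor
      · rintro ⟨y, hy, rfl⟩
        exact ⟨g * y * g⁻¹, (hg y).1 hy, rfl⟩
      · rintro ⟨z, hz, hzx⟩
        refine ⟨g⁻¹ * z * g, ?_, ?_⟩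
        · apply (hg _).2
          have : g * (g⁻¹ * z * g) * g⁻¹ = z := by group
          rw [this]; exact hz
        · have h1 : (K.subtype z : G) = (g : G) * x * (g : G)⁻¹ := hzx
          simp only [map_mul, map_inv, h1, Subgroup.subtype_apply]
          group
    have hmem := mem_centralizer_of_coprime Q' (MulAut.conj w • B) hB' (g : G) hg' (by
      intro r hr hrd
      rw [index_conj_smul]
      apply hidx r hr
      rw [Subgroup.orderOf_coe] at hrd
      have h1 : r ∣ Nat.card K := hrd.trans (orderOf_dvd_natCard g)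
      rcases hK r hr h1 with rfl | h2
      · exfalso
        have := Nat.Coprime.eq_one_of_dvd hgp.symm hrd
        exact hr.one_lt.ne' this
      · exact h2)
    rw [Subgroup.mem_centralizer_iff] at hmem ⊢
    intro y hy
    apply Subtype.ext
    exact hmem (y : G) ⟨y, hy, rfl⟩
  obtain ⟨N, hNn, hNc⟩ := hfrob
  set N' := N.map K.subtype with hN'
  have hN'τ : IsPiSubgroup τ N' := by
    intro q hq hqd
    have hc : Nat.card N' = Nat.card N := Subgroup.card_map_of_injective K.subtype_injective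
    rw [hc] at hqd
    have h1 : q ∣ Nat.card K := hqd.trans (Subgroup.card_subgroup_dvd_card N)
    rcases hK q hq h1 with rfl | h2
    · exfalso
      have := hNc.index_eq_card
      exact P.not_dvd_index (this ▸ hqd)
    · exact h2
  obtain ⟨x, hx⟩ := hD N' hN'τ
  have hSx : ((x • S : Sylow p G) : Subgroup G) ≤ Subgroup.normalizer (N' : Set G) := by
    refine le_trans ?_ (Subgroup.centralizer_le_normalizer _)
    rw [Subgroup.le_centralizer_iff, Sylow.coe_subgroup_smul]
    exact hx.trans (conj_le_centralizer hSB x)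
  set P' := (P : Subgroup K).map K.subtype with hP'
  have hP'p : IsPGroup p P' := P.isPGroup'.map _
  have hKN : K ≤ Subgroup.normalizer (N' : Set G) := by
    intro k hk
    rw [Subgroup.mem_normalizer_iff]
    intro y
    constructor
    · rintro ⟨z, hz, rfl⟩
      exact ⟨⟨k, hk⟩ * z * ⟨k, hk⟩⁻¹, hNn.conj_mem z hz _, rfl⟩
    · rintro ⟨z, hz, hzy⟩
      refine ⟨⟨k, hk⟩⁻¹ * z * ⟨k, hk⟩, ?_, ?_⟩
      · have := hNn.conj_mem z hz (⟨k, hk⟩⁻¹)
        simpa using this
      · have h1 : (K.subtype z : G) = k * y * k⁻¹ := hzy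
        simp only [map_mul, map_inv, h1, Subgroup.subtype_apply]
        group
  have hP'N : P' ≤ Subgroup.normalizer (N' : Set G) := (Subgroup.map_subtype_le _).trans hKN
  have hsyl : IsSylowIn p ((x • S : Sylow p G) : Subgroup G) (Subgroup.normalizer (N' : Set G)) :=
    sylow_isSylowIn (x • S) hSx
  obtain ⟨n, hn, hPn⟩ := IsSylowIn.exists_le_conj hsyl hP'p hP'N
  refine ⟨n * x, ?_⟩
  have hKeq : K = N' ⊔ P' := by
    have h1 := hNc.sup_eq_top
    have h2 : (N ⊔ (P : Subgroup K)).map K.subtype = N' ⊔ P' := Subgroup.map_sup _ _ _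
    rw [h1] at h2
    rw [← h2, ← MonoidHom.range_eq_map, Subgroup.range_subtype]
  rw [hKeq, sup_le_iff, map_mul, mul_smul]
  constructor
  · have h1 : MulAut.conj n • N' = N' := (mem_normalizer_iff_conj_smul_eq n N').1 hn
    rw [← h1]
    exact Subgroup.pointwise_smul_le_pointwise_smul_iff.2
      (hx.trans (Subgroup.pointwise_smul_le_pointwise_smul_iff.2 le_sup_right))
  · refine hPn.trans (Subgroup.pointwise_smul_le_pointwise_smul_iff.2 ?_)
    rw [Sylow.coe_subgroup_smul]
    exact Subgroup.pointwise_smul_le_pointwise_smul_iff.2 le_sup_left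

theorem isPiSubgroup_conj (π : Set ℕ) {H : Subgroup G} (hH : IsPiSubgroup π H) (g : G) :
    IsPiSubgroup π (MulAut.conj g • H) := by
  intro q hq hqd
  rw [card_conj_smul] at hqd
  exact hH q hq hqd

theorem isDPi_of_conjInto [Finite G] (π : Set ℕ) (H : Subgroup G) (hH : IsPiSubgroup π H)
    (h : ∀ K : Subgroup G, IsPiSubgroup π K → ∃ g : G, K ≤ MulAut.conj g • H) :
    IsDPiGroup π G := by
  intro M M' hM hM'
  obtain ⟨g, hg⟩ := h M hM.prop
  obtain ⟨g', hg'⟩ := h M' hM'.prop
  have e1 : M = MulAut.conj g • H := le_antisymm hg (hM.le_of_ge (isPiSubgroup_conj π hH g) hg)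
  have e2 : M' = MulAut.conj g' • H :=
    le_antisymm hg' (hM'.le_of_ge (isPiSubgroup_conj π hH g') hg')
  refine ⟨g' * g⁻¹, ?_⟩
  change M' = MulAut.conj (g' * g⁻¹) • M
  rw [e1, e2, smul_smul, ← map_mul]
  simp

theorem conjInto_of_isDPi [Finite G] (π : Set ℕ) (H : Subgroup G) (hH : IsPiHall π H)
    (hD : IsDPiGroup π G) (K : Subgroup G) (hK : IsPiSubgroup π K) :
    ∃ g : G, K ≤ MulAut.conj g • H := by
  obtain ⟨M, hKM, hM⟩ := Finite.exists_le_maximal (p := IsPiSubgroup π) hK
  have hHmax : Maximal (IsPiSubgroup π) H := by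
    refine ⟨hH.1, fun L hL hHL => ?_⟩
    rw [← Subgroup.relIndex_eq_one]
    by_contra hne
    obtain ⟨q, hq, hqd⟩ := Nat.exists_prime_and_dvd hne
    exact hH.2 q hq (hL q hq (hqd.trans (Subgroup.relIndex_dvd_card H L)))
      (hqd.trans (Subgroup.relIndex_dvd_index_of_le hHL))
  obtain ⟨g, hg⟩ := hD H M hHmax hM
  refine ⟨g, ?_⟩
  change K ≤ H.map (MulAut.conj g).toMonoidHom
  rw [← hg]
  exact hKM

/-- Let σ and τ be disjoint sets of primes with union π. Suppose a finite group G has a Hall π-subgroup H which is the direct product of a nilpotent σ-subgroup and a τ-subgroup (two elementwise-commuting subgroups generating H), and that the maximal τ-subgroups of G are pairwise conjugate. Then the maximal π-subgroups of G are pairwise conjugate. -/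
theorem result {G : Type*} [Group G] [Finite G]
    (σ τ π : Set ℕ) (hπ : π = σ ∪ τ) (hd : Disjoint σ τ) (H Hs Ht : Subgroup G) (hH : Cfsg.IsPiHall π H)
    (hs : Cfsg.IsPiSubgroup σ Hs) (ht : Cfsg.IsPiSubgroup τ Ht) (hsn : Group.IsNilpotent Hs)
    (hjoin : Hs ⊔ Ht = H) (hcomm : ∀ a ∈ Hs, ∀ b ∈ Ht, a * b = b * a) (hD : Cfsg.IsDPiGroup τ G) :
    Cfsg.IsDPiGroup π G := by
  classical
  subst hπ
  have hdisj : ∀ q : ℕ, q ∈ σ → q ∈ τ → False := fun q h1 h2 => Set.disjoint_left.1 hd h1 h2
  have hsH : Hs ≤ H := hjoin ▸ le_sup_left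
  have htH : Ht ≤ H := hjoin ▸ le_sup_right
  have hnorm : ∀ (p : ℕ) [Fact p.Prime] (P : Sylow p Hs), (P : Subgroup Hs).Normal := by
    have h := (Group.isNilpotent_of_finite_tfae (G := Hs)).out 0 3
    exact fun p _ P => h.1 hsn p inferInstance P
  have hcard : Nat.card H ∣ Nat.card Hs * Nat.card Ht := by
    have := Subgroup.card_range_dvd
      (MonoidHom.noncommCoprod Hs.subtype Ht.subtype (fun a b => hcomm a a.2 b b.2))
    have e : (MonoidHom.noncommCoprod Hs.subtype Ht.subtype
        (fun a b => hcomm a a.2 b b.2)).range = H := by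
      refine (MonoidHom.noncommCoprod_range _ _ _).trans ?_
      rw [Subgroup.range_subtype, Subgroup.range_subtype, hjoin]
    rw [e, Nat.card_prod] at this
    exact this
  have hrel_s : Hs.relIndex H ∣ Nat.card Ht := by
    have h1 : Nat.card Hs * Hs.relIndex H = Nat.card H := by
      have := Subgroup.relIndex_mul_relIndex ⊥ Hs H bot_le hsH
      simpa [Subgroup.relIndex_bot_left] using this
    rw [← h1] at hcard
    exact Nat.dvd_of_mul_dvd_mul_left Nat.card_pos hcard
  have hrel_t : Ht.relIndex H ∣ Nat.card Hs := by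
    have h1 : Nat.card Ht * Ht.relIndex H = Nat.card H := by
      have := Subgroup.relIndex_mul_relIndex ⊥ Ht H bot_le htH
      simpa [Subgroup.relIndex_bot_left] using this
    rw [← h1, mul_comm (Nat.card Hs)] at hcard
    exact Nat.dvd_of_mul_dvd_mul_left Nat.card_pos hcard
  -- `Ht` is a Hall τ-subgroup
  have htHall : IsPiHall τ Ht := by
    refine ⟨ht, fun r hr hrτ hrd => ?_⟩
    rw [← Subgroup.relIndex_mul_index htH] at hrd
    rcases (Nat.Prime.dvd_mul hr).1 hrd with h1 | h1
    · exact hdisj r (hs r hr (h1.trans hrel_t)) hrτ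
    · exact hH.2 r hr (Or.inr hrτ) h1
  -- the Sylow subgroups of `Hs`
  let Sg : ℕ → Subgroup G := fun p => ((default : Sylow p Hs) : Subgroup Hs).map Hs.subtype
  have hSgle : ∀ p, Sg p ≤ Hs := fun p => Subgroup.map_subtype_le _
  have hSgp : ∀ p, IsPGroup p (Sg p) := fun p => (default : Sylow p Hs).isPGroup'.map _
  have hSgidx : ∀ p, p.Prime → p ∈ σ → ¬ p ∣ (Sg p).index := by
    intro p hp hpσ hpd
    have : Fact p.Prime := ⟨hp⟩
    rw [← Subgroup.relIndex_mul_index (hSgle p), ← Subgroup.relIndex_mul_index hsH] at hpd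
    rcases (Nat.Prime.dvd_mul hp).1 hpd with h1 | h1
    · exact (isSylowIn_of_sylow (default : Sylow p Hs)).2.2 h1
    · rcases (Nat.Prime.dvd_mul hp).1 h1 with h2 | h2
      · exact hdisj p hpσ (ht p hp (h2.trans hrel_s))
      · exact hH.2 p hp (Or.inl hpσ) h2
  have hSgcomm : ∀ p q, p.Prime → q.Prime → p ≠ q → Sg q ≤ Subgroup.centralizer (Sg p : Set G) := by
    intro p q hp hq hne
    have : Fact p.Prime := ⟨hp⟩
    have : Fact q.Prime := ⟨hq⟩
    rintro _ ⟨b, hb, rfl⟩
    rw [Subgroup.mem_centralizer_iff]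
    rintro _ ⟨a, ha, rfl⟩
    have := Subgroup.commute_of_normal_of_disjoint _ _ (hnorm p default) (hnorm q default)
      (IsPGroup.disjoint_of_ne p q hne _ _ (default : Sylow p Hs).isPGroup'
        (default : Sylow q Hs).isPGroup') a b ha hb
    exact congrArg Subtype.val this.eq
  have hSgt : ∀ p, Ht ≤ Subgroup.centralizer (Sg p : Set G) := by
    intro p b hb
    rw [Subgroup.mem_centralizer_iff]
    intro a ha
    exact hcomm a (hSgle p ha) b hb
  -- the induction on the set of primes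
  have key : ∀ T : Finset ℕ, (∀ p ∈ T, p.Prime ∧ p ∈ σ) → ∃ B : Subgroup G, B ≤ H ∧
      (∀ q : ℕ, q.Prime → q ∉ T → B ≤ Subgroup.centralizer (Sg q : Set G)) ∧
      ∀ K : Subgroup G, IsPiSubgroup (τ ∪ ↑T) K → ∃ g : G, K ≤ MulAut.conj g • B := by
    intro T
    induction T using Finset.induction_on with
    | empty =>
      intro _
      refine ⟨Ht, htH, fun q _ _ => hSgt q, fun K hK => ?_⟩
      apply conjInto_of_isDPi τ Ht htHall hD K
      intro q hq hqd
      simpa using hK q hq hqd
    | insert p T hpT ih =>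
      intro hT
      obtain ⟨B, hBH, hBc, hBD⟩ := ih (fun q hq => hT q (Finset.mem_insert_of_mem hq))
      obtain ⟨hp, hpσ⟩ := hT p (Finset.mem_insert_self p T)
      have : Fact p.Prime := ⟨hp⟩
      refine ⟨Sg p ⊔ B, sup_le ((hSgle p).trans hsH) hBH, fun q hq hqT => ?_, fun K hK => ?_⟩
      · rw [Finset.mem_insert, not_or] at hqT
        exact sup_le (hSgcomm q p hq hp hqT.1) (hBc q hq hqT.2)
      · have := core p (τ ∪ ↑T) ((hSgp p).toSylow (hSgidx p hp hpσ)) B (hBc p hp hpT) hBD K (by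
          intro q hq hqd
          have := hK q hq hqd
          simp only [Finset.coe_insert, Set.mem_union, Set.mem_insert_iff, Finset.mem_coe] at this ⊢
          tauto)
        exact this
  apply isDPi_of_conjInto (σ ∪ τ) H hH.1
  intro K hK
  obtain ⟨B, hBH, -, hBD⟩ := key ((Nat.card G).primeFactors.filter (· ∈ σ)) (by
    intro p hp
    rw [Finset.mem_filter, Nat.mem_primeFactors] at hp
    exact ⟨hp.1.1, hp.2⟩)
  obtain ⟨g, hg⟩ := hBD K (by
    intro q hq hqd
    rcases hK q hq hqd with h1 | h1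
    · right
      rw [Finset.mem_coe, Finset.mem_filter, Nat.mem_primeFactors]
      exact ⟨⟨hq, hqd.trans (Subgroup.card_subgroup_dvd_card K), Nat.card_pos.ne'⟩, h1⟩
    · left; exact h1)
  exact ⟨g, hg.trans (Subgroup.pointwise_smul_le_pointwise_smul_iff.2 hBH)⟩

end Cfsg.Agent.S4334
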