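import Cfsg.Statements.S4337
import Cfsg.Agent.Lib.Helper72.PermSolvable

set_option autoImplicit false
open Cfsg
open Cfsg.Agent.Lib.Helper72

namespace Cfsg.Agent.S4337

theorem card_union_le_of_not_disjoint {α : Type*} [DecidableEq α] (A B : Finset α)
    (h : ¬ Disjoint A B) : (A ∪ B).card + 1 ≤ A.card + B.card := by
  have h1 := Finset.card_union_add_card_inter A B
  have h2 : 0 < (A ∩ B).card := by
    rw [Finset.card_pos]
    rw [Finset.disjoint_iff_inter_eq_empty] at h
    exact Finset.nonempty_iff_ne_empty.2 h
  omega

/-- isolated case -/
theorem isolated {n : ℕ} (a b c : Equiv.Perm (Fin n))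
    (ha : a.support.card = 2) (hb : b.support.card = 2)
    (hca : Disjoint c.support a.support) (hcb : Disjoint c.support b.support) :
    Group.IsSolvable (Subgroup.closure (insert c ({a, b} : Set (Equiv.Perm (Fin n))))) := by
  apply isSolvable_closure_insert_of_commute
  · rintro s (rfl | rfl)
    · exact (Equiv.Perm.disjoint_iff_disjoint_support.2 hca).commute.symm
    · exact (Equiv.Perm.disjoint_iff_disjoint_support.2 hcb).commute.symm
  · apply isSolvable_closure_of_support_subset _ (a.support ∪ b.support)
    · have := Finset.card_union_le a.support b.support
      omega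
    · rintro s (rfl | rfl)
      · exact Finset.subset_union_left
      · exact Finset.subset_union_right

/-- In a finite symmetric group, any three transpositions generate a solvable subgroup. -/
theorem result (n : ℕ) (a b c : Equiv.Perm (Fin n))
    (ha : a.IsSwap) (hb : b.IsSwap) (hc : c.IsSwap) :
    Group.IsSolvable (Subgroup.closure ({a, b, c} : Set (Equiv.Perm (Fin n)))) := by
  have ha2 := Equiv.Perm.card_support_eq_two.2 ha
  have hb2 := Equiv.Perm.card_support_eq_two.2 hb
  have hc2 := Equiv.Perm.card_support_eq_two.2 hc
  have small : (a.support ∪ b.support ∪ c.support).card ≤ 4 →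
      Group.IsSolvable (Subgroup.closure ({a, b, c} : Set (Equiv.Perm (Fin n)))) := by
    intro h
    apply isSolvable_closure_of_support_subset _ _ h
    rintro s (rfl | rfl | rfl)
    · exact Finset.subset_union_left.trans Finset.subset_union_left
    · exact Finset.subset_union_right.trans Finset.subset_union_left
    · exact Finset.subset_union_right
  have e1 : ({a, b, c} : Set (Equiv.Perm (Fin n))) = insert c {a, b} := by
    ext x; simp only [Set.mem_insert_iff, Set.mem_singleton_iff]; tauto
  have e2 : ({a, b, c} : Set (Equiv.Perm (Fin n))) = insert b {a, c} := by
    ext x; simp only [Set.mem_insert_iff, Set.mem_singleton_iff]; tauto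
  have e3 : ({a, b, c} : Set (Equiv.Perm (Fin n))) = insert a {b, c} := rfl
  by_cases hAB : Disjoint a.support b.support
  · by_cases hAC : Disjoint a.support c.support
    · rw [e3]; exact isolated b c a hb2 hc2 hAB hAC
    · by_cases hBC : Disjoint b.support c.support
      · rw [e2]; exact isolated a c b ha2 hc2 hAB.symm hBC
      · apply small
        have h1 := card_union_le_of_not_disjoint _ _ hAC
        have h2 : ¬ Disjoint (a.support ∪ c.support) b.support := by
          intro h
          exact hBC (Finset.disjoint_of_subset_left Finset.subset_union_right h).symm
        have h3 := card_union_le_of_not_disjoint _ _ h2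
        have e : a.support ∪ b.support ∪ c.support = a.support ∪ c.support ∪ b.support := by
          rw [Finset.union_right_comm]
        rw [e]
        omega
  · by_cases hC : Disjoint (a.support ∪ b.support) c.support
    · rw [e1]
      exact isolated a b c ha2 hb2
        (Finset.disjoint_of_subset_left Finset.subset_union_left hC).symm
        (Finset.disjoint_of_subset_left Finset.subset_union_right hC).symm
    · apply small
      have h1 := card_union_le_of_not_disjoint _ _ hAB
      have h3 := card_union_le_of_not_disjoint _ _ hC
      omega

end Cfsg.Agent.S4337
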