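import Cfsg.Statements.S4341
import Cfsg.Agent.Lib.Helper72.SylowCount

set_option autoImplicit false
open Cfsg
open Cfsg.Agent.Lib.Helper72

namespace Cfsg.Agent.S4341

/-- Let K be a normal subgroup of a finite group G, p a prime and P a Sylow p-subgroup of G; let N be the normalizer of P ∩ K inside the subgroup PK. Then the number of Sylow p-subgroups of G equals the product of the numbers of Sylow p-subgroups of G/K, of K, and of N/(P ∩ K). (The normality of P ∩ K in N, which always holds, is assumed as a hypothesis so that the quotient can be formed.) -/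
theorem result {G : Type*} [Group G] [Finite G]
    (p : ℕ) [Fact p.Prime] (K : Subgroup G) [K.Normal] (P : Sylow p G) (N : Subgroup G)
    (hN : N = ((P : Subgroup G) ⊔ K) ⊓ Subgroup.normalizer (((P : Subgroup G) ⊓ K : Subgroup G) : Set G))
    [hn : (((P : Subgroup G) ⊓ K).subgroupOf N).Normal] :
    Nat.card (Sylow p G) =
      Nat.card (Sylow p (G ⧸ K)) * Nat.card (Sylow p K) * Nat.card (Sylow p (N ⧸ ((P : Subgroup G) ⊓ K).subgroupOf N)) := by
  have hNP : Subgroup.normalizer ((P : Subgroup G) : Set G) ≤
      Subgroup.normalizer (((P : Subgroup G) ⊓ K : Subgroup G) : Set G) := by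
    intro g hg
    rw [mem_normalizer_iff_conj_smul_eq] at hg ⊢
    rw [Subgroup.smul_inf, hg, Subgroup.Normal.conj_smul_eq_self]
  have hPN : (P : Subgroup G) ≤ N := by
    rw [hN]
    exact le_inf le_sup_left (Subgroup.le_normalizer.trans hNP)
  have hNPK : N ≤ (P : Subgroup G) ⊔ K := hN ▸ inf_le_left
  have hQ : IsPGroup p (((P : Subgroup G) ⊓ K).subgroupOf N) :=
    isPGroup_subgroupOf (P.isPGroup'.to_le inf_le_left) N
  rw [card_sylow_eq_mul K P, card_sylow_quotient_of_isPGroup _ hQ, mul_assoc]
  congr 1
  have hK := sylow_inf_normal_isSylowIn P K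
  have hKn : (P : Subgroup G) ⊔ K ≤ Subgroup.normalizer (K : Set G) := by
    rw [Subgroup.normalizer_eq_top]; exact le_top
  rw [(sylow_isSylowIn P le_sup_left).card_sylow, (sylow_isSylowIn P hPN).card_sylow,
    hK.card_sylow, hK.frattini le_sup_right hKn]
  rw [← Subgroup.inf_relIndex_right _ ((P : Subgroup G) ⊔ K),
    ← Subgroup.inf_relIndex_right _ N,
    ← Subgroup.inf_relIndex_right (Subgroup.normalizer (((P : Subgroup G) ⊓ K : Subgroup G) : Set G))
      ((P : Subgroup G) ⊔ K)]
  have e1 : Subgroup.normalizer (((P : Subgroup G) ⊓ K : Subgroup G) : Set G) ⊓ ((P : Subgroup G) ⊔ K) = N := by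
    rw [hN, inf_comm]
  have e2 : Subgroup.normalizer ((P : Subgroup G) : Set G) ⊓ ((P : Subgroup G) ⊔ K) =
      Subgroup.normalizer ((P : Subgroup G) : Set G) ⊓ N := by
    rw [hN]
    apply le_antisymm
    · exact le_inf inf_le_left (le_inf inf_le_right (inf_le_left.trans hNP))
    · exact le_inf inf_le_left (inf_le_right.trans inf_le_left)
  rw [e1, e2, mul_comm]
  exact (Subgroup.relIndex_mul_relIndex _ _ _ inf_le_right hNPK).symm

end Cfsg.Agent.S4341
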