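import Cfsg.Statements.S4343
import Cfsg.Agent.Lib.Helper72.SylowCount

set_option autoImplicit false
open Cfsg
open Cfsg.Agent.Lib.Helper72
open scoped Pointwise

namespace Cfsg.Agent.S4343

theorem exists_conj_le {G : Type*} [Group G] [Finite G] {p : ℕ} [Fact p.Prime]
    {R H U : Subgroup G} (h : IsSylowIn p R H) (hU : U ≤ H) (hUp : IsPGroup p U) :
    ∃ x ∈ H, U ≤ MulAut.conj x • R := by
  obtain ⟨S, hS⟩ := (isPGroup_subgroupOf hUp H).exists_le_sylow
  obtain ⟨x, hx, hxe⟩ := h.exists_conj (isSylowIn_of_sylow S)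
  refine ⟨x, hx, ?_⟩
  rw [← hxe]
  intro u hu
  exact ⟨⟨u, hU hu⟩, hS (by simpa [Subgroup.mem_subgroupOf] using hu), rfl⟩

/-- With fewer than `p²` Sylow subgroups, two distinct ones meet in a subgroup of index `p`. -/
theorem relIndex_eq_prime {G : Type*} [Group G] [Finite G] {p : ℕ} [Fact p.Prime]
    (hn : Nat.card (Sylow p G) < p ^ 2) (P Q : Sylow p G) (hPQ : P ≠ Q) :
    (Q : Subgroup G).relIndex (P : Subgroup G) = p := by
  have hstab : MulAction.stabilizer (P : Subgroup G) Q =
      (Subgroup.normalizer ((Q : Subgroup G) : Set G)).subgroupOf (P : Subgroup G) := by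
    ext x
    rw [MulAction.mem_stabilizer_iff, Subgroup.mem_subgroupOf]
    exact Sylow.smul_eq_iff_mem_normalizer
  have h1 : (Q : Subgroup G).relIndex (P : Subgroup G) =
      (MulAction.orbit (P : Subgroup G) Q).ncard := by
    rw [← MulAction.index_stabilizer, hstab, ← Subgroup.relIndex,
      ← Subgroup.inf_relIndex_left (P : Subgroup G) (Subgroup.normalizer _), Q.coe_coe,
      P.isPGroup'.inf_normalizer_sylow Q, Subgroup.inf_relIndex_left]
  have h2 : (MulAction.orbit (P : Subgroup G) Q).ncard ≤ Nat.card (Sylow p G) := by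
    rw [← Set.ncard_univ]
    exact Set.ncard_le_ncard (Set.subset_univ _) Set.finite_univ
  obtain ⟨n, hk⟩ := P.isPGroup'.index ((Q : Subgroup G).subgroupOf (P : Subgroup G))
  rw [← Subgroup.relIndex] at hk
  have hlt : p ^ n < p ^ 2 := by
    rw [← hk, h1]; exact lt_of_le_of_lt h2 hn
  have hn2 : n < 2 := (Nat.pow_lt_pow_iff_right (Fact.out : p.Prime).one_lt).1 hlt
  have hn0 : n ≠ 0 := by
    rintro rfl
    rw [pow_zero, Subgroup.relIndex_eq_one] at hk
    exact hPQ (Sylow.ext (P.is_maximal' Q.isPGroup' hk)).symm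
  have : n = 1 := by omega
  rw [hk, this, pow_one]

theorem normal_of_relIndex_eq_prime {G : Type*} [Group G] [Finite G] {p : ℕ} [Fact p.Prime]
    (P D : Subgroup G) (hP : IsPGroup p P) (hDP : D ≤ P) (h : D.relIndex P = p) :
    P ≤ Subgroup.normalizer (D : Set G) := by
  rw [← Subgroup.normal_subgroupOf_iff_le_normalizer hDP]
  apply Subgroup.normal_of_index_eq_minFac_card
  rw [← Subgroup.relIndex, h]
  obtain ⟨k, hk⟩ := hP.exists_card_eq
  rw [hk]
  have hk0 : k ≠ 0 := by
    rintro rfl
    rw [pow_zero] at hk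
    have : D.relIndex P ∣ 1 := hk ▸ Subgroup.relIndex_dvd_card D P
    rw [h] at this
    exact (Fact.out : p.Prime).one_lt.ne' (Nat.dvd_one.1 this)
  exact ((Fact.out : p.Prime).pow_minFac hk0).symm

/-- Let S be a finite non-abelian simple group and p a prime dividing its order. If S has fewer than p² Sylow p-subgroups, then its Sylow p-subgroups have order p. -/
theorem result {S : Type*} [Group S] [Finite S]
    [IsSimpleGroup S] (hS : ¬ IsMulCommutative S) (p : ℕ) [Fact p.Prime] (hp : p ∣ Nat.card S)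
    (hn : Nat.card (Sylow p S) < p ^ 2) (P : Sylow p S) : Nat.card P = p := by
  classical
  -- there are two distinct Sylow subgroups
  have hex : ∃ Q : Sylow p S, P ≠ Q := by
    by_contra hcon
    push Not at hcon
    have hsub : Subsingleton (Sylow p S) := ⟨fun a b => (hcon a).symm.trans (hcon b)⟩
    have hPn : (P : Subgroup S).Normal := P.normal_of_subsingleton
    rcases hPn.eq_bot_or_eq_top with h | h
    · exact P.ne_bot_of_dvd_card hp h
    · have hpS : IsPGroup p S := by
        have := P.isPGroup'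
        rw [h] at this
        exact this.of_equiv Subgroup.topEquiv
      have hc : Nontrivial (Subgroup.center S) := hpS.center_nontrivial
      rcases (inferInstance : (Subgroup.center S).Normal).eq_bot_or_eq_top with h' | h'
      · rw [Subgroup.nontrivial_iff_ne_bot] at hc
        exact hc h'
      · apply hS
        constructor
        constructor
        intro a b
        have : a ∈ Subgroup.center S := h' ▸ Subgroup.mem_top a
        exact (Subgroup.mem_center_iff.1 this b).symm
  -- choose a pair with minimal intersection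
  let T : Set (Sylow p S × Sylow p S) := {x | x.1 ≠ x.2}
  have hT : T.Nonempty := by
    obtain ⟨Q, hQ⟩ := hex
    exact ⟨(P, Q), hQ⟩
  obtain ⟨⟨P0, Q0⟩, hPQ0, hmin⟩ := Set.exists_min_image T
    (fun x => Nat.card ((x.1 : Subgroup S) ⊓ (x.2 : Subgroup S) : Subgroup S)) (Set.toFinite T) hT
  have hne : P0 ≠ Q0 := hPQ0
  set D : Subgroup S := (P0 : Subgroup S) ⊓ (Q0 : Subgroup S) with hD
  have hDP : D.relIndex (P0 : Subgroup S) = p := by
    rw [hD, Subgroup.inf_relIndex_left]; exact relIndex_eq_prime hn P0 Q0 hne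
  have hDQ : D.relIndex (Q0 : Subgroup S) = p := by
    rw [hD, Subgroup.inf_relIndex_right]; exact relIndex_eq_prime hn Q0 P0 hne.symm
  have hPN := normal_of_relIndex_eq_prime (P0 : Subgroup S) D P0.isPGroup' inf_le_left hDP
  have hQN := normal_of_relIndex_eq_prime (Q0 : Subgroup S) D Q0.isPGroup' inf_le_right hDQ
  set N := Subgroup.normalizer (D : Set S) with hN
  -- D lies in every Sylow subgroup
  have hall : ∀ R : Sylow p S, D ≤ (R : Subgroup S) := by
    intro R
    obtain ⟨x, hx, hxle⟩ := exists_conj_le (sylow_isSylowIn P0 hPN)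
      (inf_le_right : (R : Subgroup S) ⊓ N ≤ N) (R.isPGroup'.to_le inf_le_left)
    -- move by x⁻¹
    have hxN : MulAut.conj x⁻¹ • N = N := Subgroup.conj_smul_eq_self_of_mem (N.inv_mem hx)
    have hxD : MulAut.conj x⁻¹ • D = D :=
      (mem_normalizer_iff_conj_smul_eq _ _).1 (N.inv_mem hx)
    have h1 : ((x⁻¹ • R : Sylow p S) : Subgroup S) ⊓ N ≤ (P0 : Subgroup S) := by
      rw [Sylow.coe_subgroup_smul, ← hxN, ← Subgroup.smul_inf, map_inv,
        Subgroup.pointwise_smul_subset_iff, inv_inv]
      exact hxle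
    have h2 : ((x⁻¹ • R : Sylow p S) : Subgroup S) ⊓ (Q0 : Subgroup S) ≤ D :=
      le_inf ((le_inf inf_le_left (inf_le_right.trans hQN)).trans h1) inf_le_right
    have h3 : D ≤ ((x⁻¹ • R : Sylow p S) : Subgroup S) := by
      by_cases hRQ : (x⁻¹ • R : Sylow p S) = Q0
      · rw [hRQ]; exact inf_le_right
      · have hm := hmin (x⁻¹ • R, Q0) hRQ
        have := Subgroup.eq_of_le_of_card_ge h2 hm
        rw [← this]
        exact inf_le_left
    rw [Sylow.coe_subgroup_smul, ← hxD, Subgroup.pointwise_smul_le_pointwise_smul_iff] at h3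
    exact h3
  -- hence D lies in the normal core of P0, which is trivial
  have hcore : D ≤ (P0 : Subgroup S).normalCore := by
    intro d hd b
    have := hall (b⁻¹ • P0) hd
    rw [Sylow.coe_subgroup_smul, mem_conj_smul_iff] at this
    simpa using this
  have hbot : (P0 : Subgroup S).normalCore = ⊥ := by
    rcases (P0 : Subgroup S).normalCore_normal.eq_bot_or_eq_top with h | h
    · exact h
    · exfalso
      have htop : (P0 : Subgroup S) = ⊤ := top_le_iff.1 (h ▸ (P0 : Subgroup S).normalCore_le)
      apply hne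
      have : (Q0 : Subgroup S) ≤ P0 := htop ▸ le_top
      exact (Sylow.ext (Q0.is_maximal' P0.isPGroup' this))
  have hDbot : D = ⊥ := le_bot_iff.1 (hbot ▸ hcore)
  rw [hDbot, Subgroup.relIndex_bot_left] at hDP
  have : Nat.card (P : Subgroup S) = Nat.card (P0 : Subgroup S) := by
    rw [P.card_eq_multiplicity, P0.card_eq_multiplicity]
  exact this.trans hDP

end Cfsg.Agent.S4343
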