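import Cfsg.Statements.S4344

set_option autoImplicit false
open Cfsg
open scoped Pointwise

namespace Cfsg.Agent.S4344

/-- Let S be a finite non-abelian simple group, M a maximal subgroup of S and C a cyclic normal subgroup of M. If a Sylow p-subgroup P of S (for a prime p dividing the order of S) is contained in C, then the number of Sylow p-subgroups of S equals the index of M. -/
theorem result {S : Type*} [Group S] [Finite S]
    [IsSimpleGroup S] (hS : ¬ IsMulCommutative S) (p : ℕ) [Fact p.Prime] (hp : p ∣ Nat.card S)
    (M : Subgroup S) (hM : IsCoatom M) (C : Subgroup S) (hCM : C ≤ M) (hCn : (C.subgroupOf M).Normal)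
    (hC : IsCyclic C) (P : Sylow p S) (hP : (P : Subgroup S) ≤ C) :
    Nat.card (Sylow p S) = M.index := by
  rw [P.card_eq_index_normalizer]
  -- Sylow p-subgroups of C are unique
  have hsub : Subsingleton (Sylow p C) := by
    have hnorm : ((P.subtype hP : Sylow p C) : Subgroup C).Normal := by
      constructor
      intro n hn g
      have : g * n * g⁻¹ = n := by
        rw [mul_comm' g n, mul_assoc, mul_inv_cancel, mul_one]
      rwa [this]
    exact (Sylow.unique_of_normal _ hnorm).instSubsingleton
  have hMN : M ≤ Subgroup.normalizer (P : Set S) := by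
    intro m hm
    rw [← Sylow.smul_eq_iff_mem_normalizer]
    have hle : ((m • P : Sylow p S) : Subgroup S) ≤ C := by
      rw [Sylow.coe_subgroup_smul]
      intro y hy
      rw [Subgroup.mem_pointwise_smul_iff_inv_smul_mem] at hy
      have hy' : m⁻¹ * y * m ∈ C := by
        apply hP
        simpa [MulAut.smul_def, MulAut.conj_apply] using hy
      have hyM : m⁻¹ * y * m ∈ M := hCM hy'
      have := hCn.conj_mem ⟨m⁻¹ * y * m, hyM⟩ (by simpa [Subgroup.mem_subgroupOf] using hy') ⟨m, hm⟩
      simpa [Subgroup.mem_subgroupOf, mul_assoc] using this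
    exact Sylow.subtype_injective (hP := hle) (hQ := hP) (Subsingleton.elim _ _)
  have hne : Subgroup.normalizer (P : Set S) ≠ ⊤ := by
    intro htop
    have hPn : (P : Subgroup S).Normal := Subgroup.normalizer_eq_top_iff.1 htop
    rcases hPn.eq_bot_or_eq_top with h | h
    · exact P.ne_bot_of_dvd_card hp h
    · apply hS
      have hCtop : C = ⊤ := top_le_iff.1 (h ▸ hP)
      constructor
      constructor
      intro a b
      have := mul_comm' (⟨a, hCtop ▸ Subgroup.mem_top a⟩ : C) ⟨b, hCtop ▸ Subgroup.mem_top b⟩
      exact congrArg Subtype.val this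
  have : Subgroup.normalizer (P : Set S) = M :=
    (hM.le_iff.1 hMN).resolve_left hne
  rw [this]

end Cfsg.Agent.S4344
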