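import Cfsg.Statements.S4345
import Cfsg.Agent.Lib.Helper72.SylowCount

set_option autoImplicit false
open Cfsg
open Cfsg.Agent.Lib.Helper72
open scoped Pointwise commutatorElement

namespace Cfsg.Agent.S4345

/-- A nontrivial finite solvable group has a nontrivial normal `r`-subgroup for some prime `r`. -/
theorem exists_normal_pgroup {G : Type*} [Group G] [Finite G] [Nontrivial G]
    (hG : Group.IsSolvable G) :
    ∃ (r : ℕ) (K : Subgroup G), r.Prime ∧ K.Normal ∧ K ≠ ⊥ ∧ IsPGroup r K := by
  classical
  obtain ⟨n, hn⟩ := hG.solvable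
  -- least n with derivedSeries = ⊥
  have hex : ∃ n, derivedSeries G n = ⊥ := ⟨n, hn⟩
  set m := Nat.find hex with hm
  have hm1 : derivedSeries G m = ⊥ := Nat.find_spec hex
  have hm0 : m ≠ 0 := by
    intro h0
    rw [h0, derivedSeries_zero] at hm1
    exact top_ne_bot hm1
  obtain ⟨k, hk⟩ := Nat.exists_eq_succ_of_ne_zero hm0
  set A := derivedSeries G k with hA
  have hAne : A ≠ ⊥ := Nat.find_min hex (by omega : k < m)
  have hAn : A.Normal := derivedSeries_normal G k
  have hAc : ∀ a ∈ A, ∀ b ∈ A, a * b = b * a := by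
    intro a ha b hb
    have : ⁅a, b⁆ ∈ derivedSeries G m := by
      rw [hk, Nat.succ_eq_add_one, derivedSeries_succ]
      exact Subgroup.commutator_mem_commutator ha hb
    rw [hm1, Subgroup.mem_bot, commutatorElement_eq_one_iff_mul_comm] at this
    exact this
  have hcard : Nat.card A ≠ 1 := by
    intro h1
    exact hAne (Subgroup.card_eq_one.1 h1)
  obtain ⟨r, hr, hrd⟩ := Nat.exists_prime_and_dvd hcard
  have : Fact r.Prime := ⟨hr⟩
  let K : Subgroup G :=
    { carrier := {a | a ∈ A ∧ a ^ r = 1}
      mul_mem' := by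
        rintro a b ⟨ha, ha'⟩ ⟨hb, hb'⟩
        refine ⟨A.mul_mem ha hb, ?_⟩
        rw [(show Commute a b from hAc a ha b hb).mul_pow, ha', hb', one_mul]
      one_mem' := ⟨A.one_mem, one_pow _⟩
      inv_mem' := by
        rintro a ⟨ha, ha'⟩
        exact ⟨A.inv_mem ha, by rw [inv_pow, ha', inv_one]⟩ }
  refine ⟨r, K, hr, ?_, ?_, ?_⟩
  · constructor
    rintro a ⟨ha, ha'⟩ g
    refine ⟨hAn.conj_mem a ha g, ?_⟩
    rw [conj_pow, ha']
    simp
  · obtain ⟨x, hx⟩ := exists_prime_orderOf_dvd_card' (G := A) r hrd
    intro hbot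
    have hxK : (x : G) ∈ K := by
      refine ⟨x.2, ?_⟩
      have := pow_orderOf_eq_one x
      rw [hx] at this
      exact_mod_cast congrArg Subtype.val this
    rw [hbot, Subgroup.mem_bot] at hxK
    have : x = 1 := Subtype.ext hxK
    rw [this, orderOf_one] at hx
    exact hr.one_lt.ne hx
  · rintro ⟨a, ha, ha'⟩
    refine ⟨1, ?_⟩
    apply Subtype.ext
    simpa using ha'

theorem main (p ℓ : ℕ) [Fact p.Prime] (hℓ : ℓ.Prime) : ∀ (n : ℕ) (G : Type*) [Group G] [Finite G],
    Group.IsSolvable G → Nat.card G = n →
    ℓ ^ (Nat.card (Sylow p G)).factorization ℓ ≡ 1 [MOD p] := by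
  intro n
  induction n using Nat.strong_induction_on with
  | _ n ih =>
    intro G _ _ hG hcard
    by_cases hnt : Nontrivial G
    · obtain ⟨r, K, hr, hKn, hKne, hKr⟩ := exists_normal_pgroup hG
      have : Fact r.Prime := ⟨hr⟩
      obtain ⟨P⟩ : Nonempty (Sylow p G) := inferInstance
      have hlt : Nat.card (G ⧸ K) < n := by
        rw [← hcard, ← Subgroup.index_eq_card, ← Subgroup.card_mul_index K]
        have h1 : 1 < Nat.card K := by
          rw [Finite.one_lt_card_iff_nontrivial, Subgroup.nontrivial_iff_ne_bot]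
          exact hKne
        have h2 : 0 < K.index := Nat.pos_of_ne_zero K.index_ne_zero_of_finite
        nlinarith
      have ih' := ih _ hlt (G ⧸ K) inferInstance rfl
      rw [card_sylow_eq_mul K P]
      have hne1 : Nat.card (Sylow p (G ⧸ K)) ≠ 0 := Nat.card_pos.ne'
      have hne2 : Nat.card (Sylow p ((P : Subgroup G) ⊔ K : Subgroup G)) ≠ 0 := Nat.card_pos.ne'
      rw [Nat.factorization_mul hne1 hne2, Finsupp.add_apply, pow_add]
      have key : ℓ ^ (Nat.card (Sylow p ((P : Subgroup G) ⊔ K : Subgroup G))).factorization ℓ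
          ≡ 1 [MOD p] := by
        -- the number of Sylow subgroups of PK is a power of r
        have hS : IsSylowIn p (P : Subgroup G) ((P : Subgroup G) ⊔ K) := sylow_isSylowIn P le_sup_left
        have hdvd : Nat.card (Sylow p ((P : Subgroup G) ⊔ K : Subgroup G)) ∣ Nat.card K := by
          rw [hS.card_sylow]
          have h1 : (Subgroup.normalizer ((P : Subgroup G) : Set G)).relIndex ((P : Subgroup G) ⊔ K) ∣
              (P : Subgroup G).relIndex ((P : Subgroup G) ⊔ K) :=
            Subgroup.relIndex_dvd_of_le_left _ Subgroup.le_normalizer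
          have h2 : (P : Subgroup G).relIndex ((P : Subgroup G) ⊔ K) = (P : Subgroup G).relIndex K := by
            symm
            apply relIndex_eq_of_forall_exists _ _ _ le_sup_right
            intro l hl
            rw [sup_comm, Subgroup.mem_sup_of_normal_left] at hl
            obtain ⟨y, hy, z, hz, rfl⟩ := hl
            exact ⟨y, hy, by simpa using hz⟩
          rw [h2] at h1
          exact h1.trans (Subgroup.relIndex_dvd_card _ _)
        obtain ⟨k, hk⟩ := hKr.exists_card_eq
        rw [hk] at hdvd
        obtain ⟨j, -, hj⟩ := (Nat.dvd_prime_pow hr).1 hdvd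
        have hmod : Nat.card (Sylow p ((P : Subgroup G) ⊔ K : Subgroup G)) ≡ 1 [MOD p] :=
          card_sylow_modEq_one p _
        by_cases hℓr : ℓ = r
        · subst hℓr
          rw [hj, hr.factorization_pow, Finsupp.single_eq_same, ← hj]
          exact hmod
        · rw [hj, hr.factorization_pow, Finsupp.single_eq_of_ne (by tauto), pow_zero]
      simpa using ih'.mul key
    · rw [not_nontrivial_iff_subsingleton] at hnt
      have : Nat.card (Sylow p G) = 1 := by
        have : Subsingleton (Sylow p G) := by
          constructor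
          intro a b
          apply Sylow.ext
          exact Subsingleton.elim _ _
        exact Nat.card_unique
      rw [this]
      simp [Nat.ModEq]

/-- Let G be a finite solvable group and p, ℓ primes. Then the largest power of ℓ dividing the number of Sylow p-subgroups of G is congruent to 1 modulo p. -/
theorem result {G : Type*} [Group G] [Finite G]
    (hG : Group.IsSolvable G) (p ℓ : ℕ) [Fact p.Prime] (hℓ : ℓ.Prime) :
    ℓ ^ (Nat.card (Sylow p G)).factorization ℓ ≡ 1 [MOD p] :=
  main p ℓ hℓ _ G hG rfl

end Cfsg.Agent.S4345
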