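import Cfsg.Statements.S4346
-- import your own Cfsg.Agent.* helpers here

import Cfsg.Agent.S4303
import Cfsg.Agent.Lib.Helper21.Syl22b

set_option autoImplicit false
open Cfsg

namespace Cfsg.Agent.S4346

/-- No finite group has exactly 22 Sylow 3-subgroups. -/
theorem result {G : Type*} [Group G] [Finite G] : Nat.card (Sylow 3 G) ≠ 22 := by
  intro h22
  obtain ⟨l, hprod, hl⟩ := Cfsg.Agent.S4303.result (G := G) 3
  rw [h22] at hprod
  have hmod : ∀ m ∈ l, m % 3 = 1 := by
    intro m hm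
    rcases hl m hm with ⟨_, h⟩ | ⟨S, _, _, _, h⟩
    · exact h
    · rw [h]; exact card_sylow_modEq_one 3 S
  have hdvd : ∀ m ∈ l, m ∣ 22 := fun m hm => hprod ▸ List.dvd_prod hm
  have hex : ∃ m ∈ l, m = 22 := by
    by_contra hno
    push Not at hno
    have hone : ∀ m ∈ l, m = 1 := by
      intro m hm
      have h1 := hmod m hm
      have h2 := hdvd m hm
      have h3 := hno m hm
      have h4 : m ≤ 22 := Nat.le_of_dvd (by norm_num) h2
      interval_cases m <;> first | rfl | omega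
    rw [List.prod_eq_one hone] at hprod
    norm_num at hprod
  obtain ⟨m, hm, rfl⟩ := hex
  rcases hl 22 hm with ⟨hpp, _⟩ | ⟨S, _, _, hS, h⟩
  · obtain ⟨p, k, hp, _, hpk⟩ := hpp
    have hp' : p.Prime := hp.nat_prime
    have h2 : 2 ∣ p := Nat.Prime.dvd_of_dvd_pow Nat.prime_two (hpk ▸ (by norm_num : 2 ∣ 22))
    have h11 : 11 ∣ p := Nat.Prime.dvd_of_dvd_pow (by norm_num : Nat.Prime 11)
      (hpk ▸ (by norm_num : 11 ∣ 22))
    have e2 := (Nat.prime_dvd_prime_iff_eq Nat.prime_two hp').mp h2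
    have e11 := (Nat.prime_dvd_prime_iff_eq (by norm_num : Nat.Prime 11) hp').mp h11
    omega
  · classical
    have := Fintype.ofFinite (Sylow 3 S)
    exact Cfsg.Agent.Lib.Helper21.Syl22.simple_false h.symm

end Cfsg.Agent.S4346
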