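import Cfsg.Statements.S4354
import Cfsg.Agent.Lib.Helper72.SylowCount

set_option autoImplicit false
open Cfsg
open Cfsg.Agent.Lib.Helper72
open scoped Pointwise

namespace Cfsg.Agent.S4354

/-- every `p`-element has class size prime to `p` -/
def CS (p : ℕ) (X : Type*) [Group X] : Prop :=
  ∀ x : X, (∃ k : ℕ, orderOf x = p ^ k) → ¬ p ∣ (Subgroup.centralizer ({x} : Set X)).index

variable {G : Type*} [Group G] [Finite G] {p : ℕ} [Fact p.Prime]

theorem CS.normal (h : CS p G) (N : Subgroup G) [N.Normal] : CS p N := by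
  intro x hx hd
  have hx' : ∃ k : ℕ, orderOf (x : G) = p ^ k := by
    obtain ⟨k, hk⟩ := hx
    exact ⟨k, by rw [Subgroup.orderOf_coe, hk]⟩
  apply h (x : G) hx'
  have e : Subgroup.centralizer ({x} : Set N) =
      (Subgroup.centralizer ({(x : G)} : Set G)).subgroupOf N := by
    ext y
    rw [Subgroup.mem_subgroupOf, Subgroup.mem_centralizer_singleton_iff,
      Subgroup.mem_centralizer_singleton_iff]
    constructor
    · intro hy; exact congrArg Subtype.val hy
    · intro hy; exact Subtype.ext hy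
  rw [e] at hd
  exact hd.trans (relIndex_dvd_index_of_normal_right _ N)

theorem orderOf_of_mem_sylow (P : Sylow p G) {x : G} (hx : x ∈ P) : ∃ k : ℕ, orderOf x = p ^ k := by
  obtain ⟨k, hk⟩ := P.isPGroup' ⟨x, hx⟩
  have : x ^ p ^ k = 1 := by
    have := congrArg Subtype.val hk
    simpa using this
  exact ((Nat.dvd_prime_pow Fact.out).1 (orderOf_dvd_of_pow_eq_one this)).imp fun _ h => h.2

theorem isPGroup_zpowers {X : Type*} [Group X] {x : X} (hx : ∃ k : ℕ, orderOf x = p ^ k) :
    IsPGroup p (Subgroup.zpowers x) := by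
  obtain ⟨k, hk⟩ := hx
  apply IsPGroup.of_card (n := k)
  rw [Nat.card_zpowers, hk]

theorem CS.quotient (h : CS p G) (N : Subgroup G) [N.Normal] : CS p (G ⧸ N) := by
  intro xbar hx hd
  obtain ⟨Pbar, hP⟩ := (isPGroup_zpowers hx).exists_le_sylow
  obtain ⟨P, rfl⟩ := Sylow.mapSurjective_surjective (QuotientGroup.mk'_surjective N) p Pbar
  have hxP : xbar ∈ (P : Subgroup G).map (QuotientGroup.mk' N) := hP (Subgroup.mem_zpowers xbar)
  obtain ⟨x, hxP', rfl⟩ := hxP
  apply h x (orderOf_of_mem_sylow P hxP')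
  have hle : (Subgroup.centralizer ({x} : Set G)).map (QuotientGroup.mk' N) ≤
      Subgroup.centralizer ({QuotientGroup.mk' N x} : Set (G ⧸ N)) := by
    rintro _ ⟨y, hy, rfl⟩
    rw [SetLike.mem_coe, Subgroup.mem_centralizer_singleton_iff] at hy
    rw [Subgroup.mem_centralizer_singleton_iff, ← map_mul, ← map_mul, hy]
  exact (hd.trans (Subgroup.index_dvd_of_le hle)).trans
    (Subgroup.index_map_dvd _ (QuotientGroup.mk'_surjective N))

/-- a `p`-element of `p'`-class size is centralized by a Sylow subgroup containing it -/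
theorem exists_sylow_le_centralizer (h : CS p G) (x : G) (hx : ∃ k : ℕ, orderOf x = p ^ k) :
    ∃ Q : Sylow p G, (Q : Subgroup G) ≤ Subgroup.centralizer ({x} : Set G) ∧ x ∈ Q := by
  obtain ⟨S⟩ : Nonempty (Sylow p (Subgroup.centralizer ({x} : Set G))) := inferInstance
  have hS := isSylowIn_of_sylow S
  set R := (S : Subgroup _).map (Subgroup.centralizer ({x} : Set G)).subtype with hR
  have hidx : ¬ p ∣ R.index := by
    rw [← Subgroup.relIndex_mul_index hS.1]
    exact (Fact.out : p.Prime).not_dvd_mul hS.2.2 (h x hx)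
  let Q : Sylow p G := hS.2.1.toSylow hidx
  have hQ : (Q : Subgroup G) = R := rfl
  refine ⟨Q, hQ ▸ hS.1, ?_⟩
  -- x ∈ Q by maximality
  have hnorm : Subgroup.zpowers x ≤ Subgroup.normalizer ((Q : Subgroup G) : Set G) := by
    rw [Subgroup.zpowers_le, Subgroup.mem_normalizer_iff]
    intro y
    by_cases hy : y ∈ (Q : Subgroup G)
    · have hc : y * x = x * y := Subgroup.mem_centralizer_singleton_iff.1 (hS.1 (hQ ▸ hy))
      have : x * y * x⁻¹ = y := by rw [← hc]; group
      rw [this]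
    · constructor
      · intro h'; exact absurd h' hy
      · intro h'
        have hc : (x * y * x⁻¹) * x = x * (x * y * x⁻¹) :=
          Subgroup.mem_centralizer_singleton_iff.1 (hS.1 (hQ ▸ h'))
        have : x * y * x⁻¹ = y := by
          have h2 : x * y = x * (x * y * x⁻¹) := by
            rw [← hc]; group
          exact (mul_left_cancel h2).symm
        rwa [this] at h'
  have hsup : IsPGroup p (Subgroup.zpowers x ⊔ (Q : Subgroup G) : Subgroup G) :=
    (isPGroup_zpowers hx).to_sup_of_normal_right' Q.isPGroup' hnorm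
  have := Q.is_maximal' hsup le_sup_right
  have hx' : x ∈ Subgroup.zpowers x ⊔ (Q : Subgroup G) :=
    (le_sup_left : Subgroup.zpowers x ≤ _) (Subgroup.mem_zpowers x)
  rw [this] at hx'
  exact hx'

/-- Step 2: `P ∩ N` is central in `P` when the Sylow subgroups of `N` are abelian. -/
theorem inf_normal_central (h : CS p G) (N : Subgroup G) [N.Normal]
    (hN : ∀ S : Sylow p N, IsMulCommutative S) (P : Sylow p G) (x u : G) (hx : x ∈ P)
    (hu : u ∈ (P : Subgroup G) ⊓ N) : x * u = u * x := by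
  obtain ⟨Q, hQc, hxQ⟩ := exists_sylow_le_centralizer h x (orderOf_of_mem_sylow P hx)
  set L := N ⊔ Subgroup.zpowers x with hL
  have key : ∀ T : Sylow p G, x ∈ T →
      IsSylowIn p (((T : Subgroup G) ⊓ N) ⊔ Subgroup.zpowers x) L := by
    intro T hxT
    have hzT : Subgroup.zpowers x ≤ (T : Subgroup G) := by rw [Subgroup.zpowers_le]; exact hxT
    refine ⟨sup_le (inf_le_right.trans le_sup_left) le_sup_right,
      T.isPGroup'.to_le (sup_le inf_le_left hzT), ?_⟩
    have e : (((T : Subgroup G) ⊓ N) ⊔ Subgroup.zpowers x).relIndex N =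
        (((T : Subgroup G) ⊓ N) ⊔ Subgroup.zpowers x).relIndex L := by
      apply relIndex_eq_of_forall_exists _ _ _ le_sup_left
      intro l hl
      rw [Subgroup.mem_sup_of_normal_left] at hl
      obtain ⟨y, hy, z, hz, rfl⟩ := hl
      refine ⟨y, hy, ?_⟩
      rw [inv_mul_cancel_left]
      exact (le_sup_right : Subgroup.zpowers x ≤ _) hz
    rw [← e]
    intro hd
    exact (sylow_inf_normal_isSylowIn T N).2.2
      (hd.trans (Subgroup.relIndex_dvd_of_le_left N le_sup_left))
  obtain ⟨l, -, hl⟩ := (key Q hxQ).exists_conj (key P hx)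
  -- the group attached to Q is abelian
  set R2 := ((Q : Subgroup G) ⊓ N) ⊔ Subgroup.zpowers x with hR2
  have hQN : ∀ a ∈ (Q : Subgroup G) ⊓ N, ∀ b ∈ (Q : Subgroup G) ⊓ N, a * b = b * a := by
    intro a ha b hb
    have hc := hN (sylow_inf_normal_isSylowIn Q N).toSylow
    have := mul_comm' (⟨⟨a, ha.2⟩, ha⟩ : (sylow_inf_normal_isSylowIn Q N).toSylow) ⟨⟨b, hb.2⟩, hb⟩
    exact congrArg (fun t : (sylow_inf_normal_isSylowIn Q N).toSylow => ((t : N) : G)) this
  have hxc : ∀ a ∈ (Q : Subgroup G) ⊓ N, a * x = x * a := by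
    intro a ha
    exact Subgroup.mem_centralizer_singleton_iff.1 (hQc ha.1)
  have h1 : R2 ≤ Subgroup.centralizer (((Q : Subgroup G) ⊓ N : Subgroup G) : Set G) := by
    apply sup_le
    · intro a ha
      rw [Subgroup.mem_centralizer_iff]
      intro b hb
      exact hQN b hb a ha
    · rw [Subgroup.zpowers_le, Subgroup.mem_centralizer_iff]
      intro b hb
      exact hxc b hb
  have h2 : R2 ≤ Subgroup.centralizer ((Subgroup.zpowers x : Subgroup G) : Set G) := by
    apply sup_le
    · rw [Subgroup.le_centralizer_iff, Subgroup.zpowers_le, Subgroup.mem_centralizer_iff]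
      intro b hb
      exact hxc b hb
    · rw [Subgroup.zpowers_le, Subgroup.mem_centralizer_iff]
      intro b hb
      obtain ⟨k, rfl⟩ := Subgroup.mem_zpowers_iff.1 hb
      exact ((Commute.refl x).zpow_left k).eq
  have hR2c : R2 ≤ Subgroup.centralizer (R2 : Set G) := by
    apply sup_le
    · rw [Subgroup.le_centralizer_iff]; exact h1
    · rw [Subgroup.le_centralizer_iff]; exact h2
  have hxR : x ∈ MulAut.conj l • R2 := by
    rw [← hl]
    exact (le_sup_right : Subgroup.zpowers x ≤ _) (Subgroup.mem_zpowers x)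
  have huR : u ∈ MulAut.conj l • R2 := by
    rw [← hl]
    exact (le_sup_left : (P : Subgroup G) ⊓ N ≤ _) hu
  rw [mem_conj_smul_iff] at hxR huR
  have hcomm := Subgroup.mem_centralizer_iff.1 (hR2c huR) _ hxR
  -- l⁻¹ x l * (l⁻¹ u l) = (l⁻¹ u l) * (l⁻¹ x l)
  have e1 : l⁻¹ * (x * u) * l = l⁻¹ * (u * x) * l := by
    calc l⁻¹ * (x * u) * l = (l⁻¹ * x * l) * (l⁻¹ * u * l) := by group
      _ = (l⁻¹ * u * l) * (l⁻¹ * x * l) := hcomm
      _ = l⁻¹ * (u * x) * l := by group
  exact mul_left_cancel (mul_right_cancel e1)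

/-- Step 3. -/
theorem sylow_commutative (h : CS p G) (N : Subgroup G) [N.Normal]
    (hN : ∀ S : Sylow p N, IsMulCommutative S) (hQ : ∀ S : Sylow p (G ⧸ N), IsMulCommutative S)
    (P : Sylow p G) (x y : G) (hx : x ∈ P) (hy : y ∈ P) : x * y = y * x := by
  obtain ⟨Q, hQc, hxQ⟩ := exists_sylow_le_centralizer h x (orderOf_of_mem_sylow P hx)
  obtain ⟨g, rfl⟩ := MulAction.exists_smul_eq G P Q
  set x' := g⁻¹ * x * g with hx'
  have hmemQ : ∀ z, z ∈ ((g • P : Sylow p G) : Subgroup G) ↔ g⁻¹ * z * g ∈ (P : Subgroup G) := by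
    intro z
    rw [Sylow.coe_subgroup_smul, mem_conj_smul_iff]
  have hx'P : x' ∈ (P : Subgroup G) := (hmemQ x).1 hxQ
  have hx'c : ∀ z ∈ (P : Subgroup G), z * x' = x' * z := by
    intro z hz
    have h1 : g * z * g⁻¹ ∈ ((g • P : Sylow p G) : Subgroup G) := by
      rw [hmemQ]
      have : g⁻¹ * (g * z * g⁻¹) * g = z := by group
      rwa [this]
    have h2 := Subgroup.mem_centralizer_singleton_iff.1 (hQc h1)
    calc z * x' = g⁻¹ * ((g * z * g⁻¹) * x) * g := by rw [hx']; group
      _ = g⁻¹ * (x * (g * z * g⁻¹)) * g := by rw [h2]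
      _ = x' * z := by rw [hx']; group
  -- Burnside fusion in the quotient
  have hs := QuotientGroup.mk'_surjective N
  set Pbar : Sylow p (G ⧸ N) := P.mapSurjective hs with hPbar
  have hPbarc : IsMulCommutative Pbar := hQ Pbar
  have hmemPbar : ∀ z ∈ (P : Subgroup G), QuotientGroup.mk' N z ∈ Pbar := by
    intro z hz
    exact ⟨z, hz, rfl⟩
  obtain ⟨nbar, hnbar, hconj⟩ := Pbar.conj_eq_normalizer_conj_of_mem (QuotientGroup.mk' N x)
    (QuotientGroup.mk' N g) (hmemPbar x hx) (by
      have := hmemPbar x' hx'P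
      rwa [hx', map_mul, map_mul, map_inv] at this)
  obtain ⟨m, rfl⟩ := hs nbar
  have hm : m ∈ Subgroup.normalizer (((P : Subgroup G) ⊔ N : Subgroup G) : Set G) := by
    have h1 : m ∈ (Subgroup.normalizer ((Pbar : Subgroup (G ⧸ N)) : Set (G ⧸ N))).comap
        (QuotientGroup.mk' N) := hnbar
    rw [Subgroup.comap_normalizer_eq_of_surjective _ hs, hPbar, Sylow.coe_mapSurjective,
      Subgroup.comap_map_eq, QuotientGroup.ker_mk'] at h1
    exact h1
  have hS : IsSylowIn p (P : Subgroup G) ((P : Subgroup G) ⊔ N) := sylow_isSylowIn P le_sup_left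
  have hS' := hS.smul m
  rw [(mem_normalizer_iff_conj_smul_eq m _).1 hm] at hS'
  obtain ⟨u, hu, hue⟩ := hS.exists_conj hS'
  set n := u⁻¹ * m with hn
  have hnP : MulAut.conj n • (P : Subgroup G) = P := by
    rw [hn, map_mul, mul_smul, hue, ← mul_smul, ← map_mul, inv_mul_cancel, map_one, one_smul]
  have hnP' : ∀ z, z ∈ (P : Subgroup G) ↔ n⁻¹ * z * n ∈ (P : Subgroup G) := by
    intro z
    conv_lhs => rw [← hnP, mem_conj_smul_iff]
  -- the image of u lies in Pbar
  have huP : QuotientGroup.mk' N u ∈ Pbar := by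
    rw [Subgroup.mem_sup_of_normal_right] at hu
    obtain ⟨a, ha, b, hb, rfl⟩ := hu
    have : QuotientGroup.mk' N (a * b) = QuotientGroup.mk' N a := by
      have hb1 : QuotientGroup.mk' N b = 1 := (QuotientGroup.eq_one_iff b).2 hb
      rw [map_mul, hb1, mul_one]
    rw [this]
    exact hmemPbar a ha
  have hux : QuotientGroup.mk' N u * QuotientGroup.mk' N x =
      QuotientGroup.mk' N x * QuotientGroup.mk' N u := by
    have := mul_comm' (⟨_, huP⟩ : Pbar) ⟨_, hmemPbar x hx⟩
    exact congrArg Subtype.val this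
  set w := (n⁻¹ * x * n)⁻¹ * x' with hw
  have hwN : w ∈ N := by
    rw [← QuotientGroup.eq_one_iff, ← QuotientGroup.mk'_apply, hw, map_mul, map_inv, inv_mul_eq_one]
    have e0 : QuotientGroup.mk' N (g⁻¹ * x * g) = (QuotientGroup.mk' N g)⁻¹ * QuotientGroup.mk' N x *
        QuotientGroup.mk' N g := by rw [map_mul, map_mul, map_inv]
    rw [hx', e0, hconj, hn]
    simp only [map_mul, map_inv, mul_inv_rev, inv_inv]
    calc (QuotientGroup.mk' N m)⁻¹ * QuotientGroup.mk' N u * QuotientGroup.mk' N x *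
          ((QuotientGroup.mk' N u)⁻¹ * QuotientGroup.mk' N m)
        = (QuotientGroup.mk' N m)⁻¹ * (QuotientGroup.mk' N u * QuotientGroup.mk' N x) *
          (QuotientGroup.mk' N u)⁻¹ * QuotientGroup.mk' N m := by group
      _ = (QuotientGroup.mk' N m)⁻¹ * QuotientGroup.mk' N x * QuotientGroup.mk' N m := by
          rw [hux]; group
  have hwP : w ∈ (P : Subgroup G) :=
    (P : Subgroup G).mul_mem ((P : Subgroup G).inv_mem ((hnP' x).1 hx)) hx'P
  have hwc : ∀ z ∈ (P : Subgroup G), z * w = w * z := fun z hz =>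
    inf_normal_central h N hN P z w hz ⟨hwP, hwN⟩
  have hxn : n⁻¹ * x * n = x' * w⁻¹ := by rw [hw]; group
  have hyn : n⁻¹ * y * n ∈ (P : Subgroup G) := (hnP' y).1 hy
  have hc : (n⁻¹ * y * n) * (n⁻¹ * x * n) = (n⁻¹ * x * n) * (n⁻¹ * y * n) := by
    rw [hxn]
    have c1 : Commute (n⁻¹ * y * n) x' := hx'c _ hyn
    have c2 : Commute (n⁻¹ * y * n) w := hwc _ hyn
    exact (c1.mul_right c2.inv_right).eq
  have e1 : n⁻¹ * (y * x) * n = n⁻¹ * (x * y) * n := by
    calc n⁻¹ * (y * x) * n = (n⁻¹ * y * n) * (n⁻¹ * x * n) := by group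
      _ = (n⁻¹ * x * n) * (n⁻¹ * y * n) := hc
      _ = n⁻¹ * (x * y) * n := by group
  exact (mul_left_cancel (mul_right_cancel e1)).symm

/-- Let G be a finite group and p a prime such that the Sylow p-subgroups of G are non-abelian while every element of p-power order has conjugacy class size prime to p, and suppose no nontrivial proper normal subgroup N of G has this property and no quotient G/N by such an N has it. Then G is simple. -/
theorem result {G : Type*} [Group G] [Finite G]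
    (p : ℕ) [Fact p.Prime] (h : ((∃ P : Sylow p G, ¬ IsMulCommutative P) ∧ ∀ x : G, (∃ k : ℕ, orderOf x = p ^ k) → ¬ p ∣ (Subgroup.centralizer ({x} : Set G)).index))
    (hmin : ∀ (N : Subgroup G) [N.Normal], N ≠ ⊥ → N ≠ ⊤ →
      ¬ ((∃ P : Sylow p N, ¬ IsMulCommutative P) ∧ ∀ x : N, (∃ k : ℕ, orderOf x = p ^ k) → ¬ p ∣ (Subgroup.centralizer ({x} : Set N)).index) ∧
      ¬ ((∃ P : Sylow p (G ⧸ N), ¬ IsMulCommutative P) ∧ ∀ x : (G ⧸ N), (∃ k : ℕ, orderOf x = p ^ k) → ¬ p ∣ (Subgroup.centralizer ({x} : Set (G ⧸ N))).index)) :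
    IsSimpleGroup G := by
  obtain ⟨⟨P, hP⟩, hcs⟩ := h
  have hCS : CS p G := hcs
  have hnt : Nontrivial G := by
    by_contra hcon
    rw [not_nontrivial_iff_subsingleton] at hcon
    apply hP
    exact ⟨⟨fun a b => Subsingleton.elim _ _⟩⟩
  refine { exists_pair_ne := hnt.exists_pair_ne, eq_bot_or_eq_top_of_normal := ?_ }
  intro N hNn
  by_contra hcon
  push Not at hcon
  obtain ⟨hbot, htop⟩ := hcon
  obtain ⟨h1, h2⟩ := hmin N hbot htop
  have hN : ∀ S : Sylow p N, IsMulCommutative S := by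
    intro S
    by_contra hS
    exact h1 ⟨⟨S, hS⟩, hCS.normal N⟩
  have hQ : ∀ S : Sylow p (G ⧸ N), IsMulCommutative S := by
    intro S
    by_contra hS
    exact h2 ⟨⟨S, hS⟩, hCS.quotient N⟩
  apply hP
  refine ⟨⟨fun a b => ?_⟩⟩
  apply Subtype.ext
  exact sylow_commutative hCS N hN hQ P a b a.2 b.2

end Cfsg.Agent.S4354
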