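import Cfsg.Statements.S4364
import Cfsg.Agent.Lib.Helper97.KazarinCore

set_option autoImplicit false
open Cfsg

namespace Cfsg.Agent.S4364

/-- Let G be a finite group, p a prime and x an element whose conjugacy class has p-power size. Then for any two conjugates y and z of x, the commutator y z y⁻¹ z⁻¹ lies in O_p(G), the largest normal p-subgroup of G. -/
theorem result {G : Type*} [Group G] [Finite G] (p : ℕ) [Fact p.Prime]
    (x : G) (hx : ∃ a : ℕ, (Subgroup.centralizer ({x} : Set G)).index = p ^ a) (g h : G) :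
    (g * x * g⁻¹) * (h * x * h⁻¹) * (g * x * g⁻¹)⁻¹ * (h * x * h⁻¹)⁻¹ ∈ Cfsg.pCore p G := by
  have hp : p.Prime := Fact.out
  obtain ⟨a, ha⟩ := hx
  have hn : (Cfsg.pCore p G).Normal := Cfsg.Agent.Lib.Lead.pCore_normal' p G
  obtain ⟨b, -, hb⟩ := (Nat.dvd_prime_pow hp).1
    (ha ▸ Cfsg.Agent.Lib.Helper97.index_centralizer_map_dvd (QuotientGroup.mk' (Cfsg.pCore p G))
      (QuotientGroup.mk'_surjective _) x)
  have hc := Cfsg.Agent.Lib.Helper97.commute_conj_of_pCore_eq_bot hp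
    (Cfsg.Agent.Lib.Lead.pCore_quotient_pCore p G) (QuotientGroup.mk' (Cfsg.pCore p G) x) hb
    (QuotientGroup.mk' (Cfsg.pCore p G) g) (QuotientGroup.mk' (Cfsg.pCore p G) h)
  rw [← QuotientGroup.eq_one_iff]
  have h1 : ((((g * x * g⁻¹) * (h * x * h⁻¹) * (g * x * g⁻¹)⁻¹ * (h * x * h⁻¹)⁻¹ : G)) : G ⧸ Cfsg.pCore p G)
      = (QuotientGroup.mk' (Cfsg.pCore p G) g * QuotientGroup.mk' (Cfsg.pCore p G) x * (QuotientGroup.mk' (Cfsg.pCore p G) g)⁻¹) *
        (QuotientGroup.mk' (Cfsg.pCore p G) h * QuotientGroup.mk' (Cfsg.pCore p G) x * (QuotientGroup.mk' (Cfsg.pCore p G) h)⁻¹) *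
        (QuotientGroup.mk' (Cfsg.pCore p G) g * QuotientGroup.mk' (Cfsg.pCore p G) x * (QuotientGroup.mk' (Cfsg.pCore p G) g)⁻¹)⁻¹ *
        (QuotientGroup.mk' (Cfsg.pCore p G) h * QuotientGroup.mk' (Cfsg.pCore p G) x * (QuotientGroup.mk' (Cfsg.pCore p G) h)⁻¹)⁻¹ := by
    simp
  rw [h1, hc.eq]
  group

end Cfsg.Agent.S4364
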