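import Cfsg.Statements.S4365

set_option autoImplicit false
open Cfsg

namespace Cfsg.Agent.S4365

variable {P : Type*} [Group P]

local notation "Cz" y => Subgroup.centralizer ({y} : Set P)

theorem mem_Cz {y g : P} : g ∈ (Cz y) ↔ g * y = y * g := Subgroup.mem_centralizer_singleton_iff

theorem Cz_eq_top_iff {y : P} : (Cz y) = ⊤ ↔ y ∈ Subgroup.center P := by
  rw [Subgroup.mem_center_iff, Subgroup.eq_top_iff']
  simp only [mem_Cz]

theorem commute_of_mul {g w z : P} (h1 : g * w = w * g) (h2 : g * (w * z) = (w * z) * g) :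
    g * z = z * g := by
  have : Commute g (w⁻¹ * (w * z)) := (Commute.inv_right h1).mul_right h2
  simpa using this.eq

theorem Cz_mul_central (y ζ : P) (hζ : ζ ∈ Subgroup.center P) : (Cz (y * ζ)) = Cz y := by
  ext g
  rw [mem_Cz, mem_Cz]
  have h : Commute g ζ := Subgroup.mem_center_iff.1 hζ g
  constructor
  · intro hg
    have : Commute g ((y * ζ) * ζ⁻¹) := (show Commute g (y * ζ) from hg).mul_right h.inv_right
    simpa using this.eq
  · intro hg
    exact ((show Commute g y from hg).mul_right h).eq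

theorem Cz_le_pow (y : P) (n : ℕ) : (Cz y) ≤ Cz (y ^ n) := by
  intro g hg
  rw [mem_Cz] at hg ⊢
  exact ((show Commute g y from hg).pow_right n)

theorem card_relIndex {Z C : Subgroup P} (h : Z ≤ C) : Nat.card Z * Z.relIndex C = Nat.card C := by
  have := Subgroup.relIndex_mul_relIndex ⊥ Z C bot_le h
  rwa [Subgroup.relIndex_bot_left, Subgroup.relIndex_bot_left] at this

/-- Let P be a finite p-group whose conjugacy class sizes are exactly 1 and pᵃ for some a ≥ 1. Then every element of P has its p-th power in the center of P (P/Z(P) has exponent p). -/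
theorem result {P : Type*} [Group P] [Finite P] (p : ℕ) [Fact p.Prime]
    (hP : IsPGroup p P) (a : ℕ) (ha : 1 ≤ a)
    (hcs : {k : ℕ | ∃ x : P, (Subgroup.centralizer ({x} : Set P)).index = k} = {1, p ^ a}) (x : P) :
    x ^ p ∈ Subgroup.center P := by
  classical
  have hp : p.Prime := Fact.out
  set Z := Subgroup.center P with hZ
  -- basic facts on indices
  have hidx : ∀ y : P, y ∉ Z → (Subgroup.centralizer ({y} : Set P)).index = p ^ a := by
    intro y hy
    have h1 : (Subgroup.centralizer ({y} : Set P)).index ∈ ({1, p ^ a} : Set ℕ) := by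
      rw [← hcs]; exact ⟨y, rfl⟩
    rcases h1 with h1 | h1
    · exact absurd (Cz_eq_top_iff.1 (Subgroup.index_eq_one.1 h1)) hy
    · exact h1
  have heq : ∀ y w : P, y ∉ Z → w ∉ Z →
      Subgroup.centralizer ({y} : Set P) ≤ Subgroup.centralizer ({w} : Set P) →
      Subgroup.centralizer ({y} : Set P) = Subgroup.centralizer ({w} : Set P) := by
    intro y w hy hw hle
    apply le_antisymm hle
    rw [← Subgroup.relIndex_eq_one]
    have h1 := Subgroup.relIndex_mul_index hle
    rw [hidx y hy, hidx w hw] at h1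
    have hpos : 0 < p ^ a := pow_pos hp.pos a
    exact Nat.eq_of_mul_eq_mul_right hpos (by rw [h1, one_mul])
  have hpowZ : ∀ y : P, y ∈ Z → y ^ p ∈ Z := fun y hy => Z.pow_mem hy p
  have hpow : ∀ y : P, y ^ p ∉ Z →
      Subgroup.centralizer ({y ^ p} : Set P) = Subgroup.centralizer ({y} : Set P) := by
    intro y hy
    exact (heq y (y ^ p) (fun h => hy (hpowZ y h)) hy (Cz_le_pow y p)).symm
  by_contra hx
  have hxZ : x ∉ Z := fun h => hx (hpowZ x h)
  -- an element z0 of order p in the centre of P / Z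
  have hQ : IsPGroup p (P ⧸ Z) := hP.to_quotient Z
  have hQnt : Nontrivial (P ⧸ Z) := by
    refine ⟨⟨QuotientGroup.mk x, 1, ?_⟩⟩
    intro h
    exact hxZ ((QuotientGroup.eq_one_iff x).1 h)
  have hcnt : Nontrivial (Subgroup.center (P ⧸ Z)) := hQ.center_nontrivial
  have hcp : IsPGroup p (Subgroup.center (P ⧸ Z)) := hQ.to_subgroup _
  have hdvd : p ∣ Nat.card (Subgroup.center (P ⧸ Z)) := by
    rcases hcp.card_eq_or_dvd with h | h
    · exact absurd h (Finite.one_lt_card_iff_nontrivial.2 hcnt).ne'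
    · exact h
  obtain ⟨c, hc⟩ := exists_prime_orderOf_dvd_card' (G := Subgroup.center (P ⧸ Z)) p hdvd
  obtain ⟨z0, hz0⟩ := QuotientGroup.mk_surjective (c : P ⧸ Z)
  have hz0Z : z0 ∉ Z := by
    intro h
    have h1 : (c : P ⧸ Z) = 1 := by rw [← hz0]; exact (QuotientGroup.eq_one_iff z0).2 h
    have h2 : c = 1 := Subtype.ext h1
    rw [h2, orderOf_one] at hc
    exact hp.one_lt.ne hc
  have hz0p : (QuotientGroup.mk z0 : P ⧸ Z) ^ p = 1 := by
    rw [hz0]
    have := pow_orderOf_eq_one c
    rw [hc] at this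
    exact_mod_cast congrArg Subtype.val this
  have hz0c : ∀ g : P, Commute (QuotientGroup.mk g : P ⧸ Z) (QuotientGroup.mk z0) := by
    intro g
    rw [hz0]
    exact Subgroup.mem_center_iff.1 c.2 _
  set C := Subgroup.centralizer ({z0} : Set P) with hC
  -- Step 1
  have step1 : ∀ w : P, w ^ p ∉ Z → Subgroup.centralizer ({w} : Set P) = C := by
    intro w hw
    have hwZ : w ∉ Z := fun h => hw (hpowZ w h)
    set ζ := (w ^ p)⁻¹ * (w * z0) ^ p with hζ
    have hζZ : ζ ∈ Z := by
      rw [← QuotientGroup.eq_one_iff, hζ, QuotientGroup.mk_mul, QuotientGroup.mk_inv,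
        QuotientGroup.mk_pow, QuotientGroup.mk_pow, QuotientGroup.mk_mul, (hz0c w).mul_pow, hz0p]
      simp
    have hwz : (w * z0) ^ p = w ^ p * ζ := by rw [hζ]; group
    have hwzZ : (w * z0) ^ p ∉ Z := by
      rw [hwz]
      intro h
      apply hw
      have := Z.mul_mem h (Z.inv_mem hζZ)
      simpa using this
    have e1 : Subgroup.centralizer ({w * z0} : Set P) = Subgroup.centralizer ({w} : Set P) := by
      rw [← hpow _ hwzZ, hwz, Cz_mul_central _ _ hζZ, hpow _ hw]
    apply heq w z0 hwZ hz0Z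
    intro g hg
    have hg2 : g ∈ Subgroup.centralizer ({w * z0} : Set P) := e1 ▸ hg
    rw [mem_Cz] at hg hg2 ⊢
    exact commute_of_mul hg hg2
  have hCx : Subgroup.centralizer ({x} : Set P) = C := step1 x hx
  have hCxp : Subgroup.centralizer ({x ^ p} : Set P) = C := (hpow x hx).trans hCx
  have hxC : x ∈ C := by rw [← hCx, mem_Cz]
  -- C is normal
  have hCn : C.Normal := by
    constructor
    intro n hn g
    set ζ := z0⁻¹ * (g⁻¹ * z0 * g) with hζ
    have hζZ : ζ ∈ Z := by
      rw [← QuotientGroup.eq_one_iff, hζ]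
      simp only [QuotientGroup.mk_mul, QuotientGroup.mk_inv]
      have h1 := (hz0c g).eq
      rw [mul_assoc, ← h1]
      simp
    have h2 : g⁻¹ * z0 * g = z0 * ζ := by rw [hζ]; group
    have h3 : n ∈ Subgroup.centralizer ({z0 * ζ} : Set P) := by
      rw [Cz_mul_central _ _ hζZ]; exact hn
    rw [← h2, mem_Cz] at h3
    rw [hC, mem_Cz]
    calc g * n * g⁻¹ * z0 = g * (n * (g⁻¹ * z0 * g)) * g⁻¹ := by group
      _ = g * ((g⁻¹ * z0 * g) * n) * g⁻¹ := by rw [h3]
      _ = z0 * (g * n * g⁻¹) := by group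
  -- Step 2: C is abelian
  have hCab : ∀ c ∈ C, ∀ d ∈ C, d * c = c * d := by
    intro c hc d hd
    by_cases hcp : c ^ p ∈ Z
    · have hxc : Commute x c := by
        have : c ∈ Subgroup.centralizer ({x} : Set P) := hCx ▸ hc
        exact (mem_Cz.1 this).symm
      have h1 : (x * c) ^ p ∉ Z := by
        rw [hxc.mul_pow]
        intro h
        apply hx
        have := Z.mul_mem h (Z.inv_mem hcp)
        simpa using this
      have h2 := step1 _ h1
      have h3 : d ∈ Subgroup.centralizer ({x * c} : Set P) := h2 ▸ hd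
      have h4 : d ∈ Subgroup.centralizer ({x} : Set P) := hCx ▸ hd
      rw [mem_Cz] at h3 h4
      exact commute_of_mul h4 h3
    · have h2 := step1 _ hcp
      have h3 : d ∈ Subgroup.centralizer ({c} : Set P) := h2 ▸ hd
      exact mem_Cz.1 h3
  -- Step 3
  have step3a : ∀ g : P, g ∉ C → g ^ p ∈ Z := by
    intro g hg
    by_contra h
    apply hg
    rw [← step1 g h, mem_Cz]
  have hZC : Z ≤ C := by
    intro z hz
    rw [hC, mem_Cz]
    exact (Subgroup.mem_center_iff.1 hz z0).symm
  have step3b : ∀ g : P, g ∉ C → C ⊓ Subgroup.centralizer ({g} : Set P) = Z := by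
    intro g hg
    apply le_antisymm
    · rintro y ⟨hyC, hyg⟩
      by_contra hyZ
      apply hg
      have h1 : C ≤ Subgroup.centralizer ({y} : Set P) := by
        intro d hd
        rw [mem_Cz]
        exact hCab y hyC d hd
      have h2 := heq z0 y hz0Z hyZ h1
      rw [hC, h2, mem_Cz]
      exact (mem_Cz.1 hyg).symm
    · refine le_inf hZC ?_
      intro z hz
      rw [mem_Cz]
      exact (Subgroup.mem_center_iff.1 hz g).symm
  -- Step 4
  have hCidx : C.index = p ^ a := hidx z0 hz0Z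
  have hCtop : C ≠ ⊤ := fun h => hz0Z (Cz_eq_top_iff.1 h)
  obtain ⟨g0, hg0⟩ : ∃ g0 : P, g0 ∉ C := by
    by_contra h
    push Not at h
    exact hCtop ((Subgroup.eq_top_iff' C).2 h)
  have hg0Z : g0 ∉ Z := fun h => hg0 (hZC h)
  have step4 : Z.relIndex C ≤ p ^ a := by
    have h1 : Nat.card (Subgroup.centralizer ({g0} : Set P)) = Nat.card C := by
      have e1 := (Subgroup.centralizer ({g0} : Set P)).card_mul_index
      have e2 := C.card_mul_index
      rw [hidx g0 hg0Z] at e1
      rw [hCidx] at e2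
      exact Nat.eq_of_mul_eq_mul_right (pow_pos hp.pos a) (e1.trans e2.symm)
    have hZg : Z ≤ Subgroup.centralizer ({g0} : Set P) := by
      rw [← step3b g0 hg0]; exact inf_le_right
    have h2 : Z.relIndex (Subgroup.centralizer ({g0} : Set P)) = Z.relIndex C := by
      have e1 := card_relIndex hZg
      have e2 := card_relIndex hZC
      rw [h1, ← e2] at e1
      exact Nat.eq_of_mul_eq_mul_left Nat.card_pos e1
    rw [← h2, ← step3b g0 hg0, Subgroup.inf_relIndex_right, ← hCidx]
    exact Nat.le_of_dvd (Nat.pos_of_ne_zero C.index_ne_zero_of_finite)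
      (Subgroup.relIndex_dvd_index_of_normal C _)
  -- Step 5: pigeonhole
  have hconj : ∀ g : P, g * x * g⁻¹ ∈ C := fun g => hCn.conj_mem x hxC g
  let f : P ⧸ C → C ⧸ Z.subgroupOf C := Quotient.lift
    (fun g : P => (QuotientGroup.mk (⟨g * x * g⁻¹, hconj g⟩ : C) : C ⧸ Z.subgroupOf C)) (by
      intro g h hgh
      have hgh' : g⁻¹ * h ∈ C := QuotientGroup.leftRel_apply.1 hgh
      have h1 : g⁻¹ * h ∈ Subgroup.centralizer ({x} : Set P) := hCx ▸ hgh'
      rw [mem_Cz] at h1
      have : g * x * g⁻¹ = h * x * h⁻¹ := by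
        calc g * x * g⁻¹ = g * (x * (g⁻¹ * h)) * h⁻¹ := by group
          _ = g * ((g⁻¹ * h) * x) * h⁻¹ := by rw [h1]
          _ = h * x * h⁻¹ := by group
      simp only [this])
  have hf : ∀ g : P, f (QuotientGroup.mk g) = QuotientGroup.mk (⟨g * x * g⁻¹, hconj g⟩ : C) :=
    fun g => rfl
  have : Fintype (P ⧸ C) := Fintype.ofFinite _
  have : Fintype (C ⧸ Z.subgroupOf C) := Fintype.ofFinite _
  have hcard : ((Finset.univ : Finset (C ⧸ Z.subgroupOf C)).erase 1).card <
      (Finset.univ : Finset (P ⧸ C)).card := by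
    rw [Finset.card_erase_of_mem (Finset.mem_univ _), Finset.card_univ, Finset.card_univ,
      ← Nat.card_eq_fintype_card, ← Nat.card_eq_fintype_card]
    have h1 : Nat.card (C ⧸ Z.subgroupOf C) = Z.relIndex C := rfl
    have h2 : Nat.card (P ⧸ C) = p ^ a := hCidx
    rw [h1, h2]
    have : 0 < Z.relIndex C := Nat.pos_of_ne_zero (Z.subgroupOf C).index_ne_zero_of_finite
    omega
  obtain ⟨q1, -, q2, -, hne, hfq⟩ := Finset.exists_ne_map_eq_of_card_lt_of_maps_to hcard
    (f := f) (by
      intro q _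
      obtain ⟨g, rfl⟩ := QuotientGroup.mk_surjective q
      simp only [Finset.coe_erase, Finset.coe_univ, Set.mem_sdiff, Set.mem_univ, true_and,
        Set.mem_singleton_iff]
      rw [hf, QuotientGroup.eq_one_iff, Subgroup.mem_subgroupOf]
      intro h
      apply hxZ
      have := (inferInstance : Z.Normal).conj_mem _ h g⁻¹
      simpa [mul_assoc] using this)
  obtain ⟨g, rfl⟩ := QuotientGroup.mk_surjective q1
  obtain ⟨h, rfl⟩ := QuotientGroup.mk_surjective q2
  rw [hf, hf, QuotientGroup.eq, Subgroup.mem_subgroupOf] at hfq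
  have hfq' : (g * x * g⁻¹)⁻¹ * (h * x * h⁻¹) ∈ Z := hfq
  set k := g⁻¹ * h with hk
  have hkC : k ∉ C := by
    intro hkC
    exact hne (QuotientGroup.eq.2 hkC)
  set ζ := x⁻¹ * (k * x * k⁻¹) with hζ
  have hζZ : ζ ∈ Z := by
    have := (inferInstance : Z.Normal).conj_mem _ hfq' g⁻¹
    have e : g⁻¹ * ((g * x * g⁻¹)⁻¹ * (h * x * h⁻¹)) * g⁻¹⁻¹ = ζ := by
      rw [hζ, hk]; group
    rwa [e] at this
  have hkx : k * x * k⁻¹ = x * ζ := by rw [hζ]; group
  have hζc : ∀ y : P, Commute y ζ := fun y => Subgroup.mem_center_iff.1 hζZ y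
  -- Step 6
  have hkn : ∀ n : ℕ, k ^ n * x * (k ^ n)⁻¹ = x * ζ ^ n := by
    intro n
    induction n with
    | zero => simp
    | succ n ih =>
      calc k ^ (n + 1) * x * (k ^ (n + 1))⁻¹ = k * (k ^ n * x * (k ^ n)⁻¹) * k⁻¹ := by
            rw [pow_succ']; group
        _ = k * (x * ζ ^ n) * k⁻¹ := by rw [ih]
        _ = (k * x * k⁻¹) * (k * ζ ^ n * k⁻¹) := by group
        _ = (x * ζ) * ζ ^ n := by
            rw [hkx, ((hζc k).pow_right n).eq]; group
        _ = x * ζ ^ (n + 1) := by rw [pow_succ']; group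
  have hkp : k ^ p ∈ Z := step3a k hkC
  have hζp : ζ ^ p = 1 := by
    have h1 := hkn p
    have h2 : k ^ p * x * (k ^ p)⁻¹ = x := by
      rw [← (Subgroup.mem_center_iff.1 hkp x)]; group
    rw [h2] at h1
    exact (mul_eq_left.1 h1.symm)
  apply hkC
  rw [← hCxp, mem_Cz]
  have h3 : k * x ^ p * k⁻¹ = x ^ p := by
    calc k * x ^ p * k⁻¹ = (k * x * k⁻¹) ^ p := (conj_pow).symm
      _ = (x * ζ) ^ p := by rw [hkx]
      _ = x ^ p * ζ ^ p := (hζc x).mul_pow p
      _ = x ^ p := by rw [hζp, mul_one]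
  calc k * x ^ p = (k * x ^ p * k⁻¹) * k := by group
    _ = x ^ p * k := by rw [h3]

end Cfsg.Agent.S4365
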