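import Cfsg.Statements.S4377

set_option autoImplicit false
open Cfsg

namespace Cfsg.Agent.S4377

theorem sum_formula (G : Type*) [Group G] [Finite G] (n : ℕ) (hn : 0 < n) :
    Nat.card {g : G // g ^ n = 1} = ∑ d ∈ n.divisors, Nat.card {g : G // orderOf g = d} := by
  classical
  haveI := Fintype.ofFinite G
  simp only [Nat.card_eq_fintype_card, Fintype.card_subtype]
  rw [Finset.card_eq_sum_card_fiberwise (f := fun g : G => orderOf g) (t := n.divisors)]
  · apply Finset.sum_congr rfl
    intro d hd
    congr 1
    ext g
    simp only [Finset.mem_filter, Finset.mem_univ, true_and]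
    constructor
    · rintro ⟨_, h⟩; exact h
    · intro h
      refine ⟨?_, h⟩
      rw [← orderOf_dvd_iff_pow_eq_one, h]
      exact Nat.dvd_of_mem_divisors hd
  · intro g hg
    simp only [Finset.coe_filter, Finset.mem_univ, true_and, Set.mem_setOf_eq] at hg
    simp only [Finset.mem_coe, Nat.mem_divisors]
    exact ⟨orderOf_dvd_of_pow_eq_one hg, hn.ne'⟩

theorem card_zero (G : Type*) [Group G] [Finite G] (N : ℕ) (hN : Nat.card G ∣ N) :
    Nat.card {g : G // g ^ N = 1} = Nat.card {g : G // g ^ 0 = 1} := by
  apply Nat.card_congr
  apply Equiv.subtypeEquivRight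
  intro g
  simp only [pow_zero, iff_true]
  obtain ⟨k, rfl⟩ := hN
  rw [pow_mul, pow_card_eq_one', one_pow]

/-- Two finite groups have the same number of elements of each order if and only if, for every n, they have the same number of elements g with gⁿ = 1. -/
theorem result {G H : Type*} [Group G] [Finite G] [Group H] [Finite H] :
    (∀ n : ℕ, Nat.card {g : G // orderOf g = n} = Nat.card {h : H // orderOf h = n}) ↔
      ∀ n : ℕ, Nat.card {g : G // g ^ n = 1} = Nat.card {h : H // h ^ n = 1} := by
  constructor
  · intro h
    have hpos : ∀ n, 0 < n → Nat.card {g : G // g ^ n = 1} = Nat.card {h : H // h ^ n = 1} := by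
      intro n hn
      rw [sum_formula G n hn, sum_formula H n hn]
      exact Finset.sum_congr rfl (fun d _ => h d)
    intro n
    rcases Nat.eq_zero_or_pos n with rfl | hn
    · rw [← card_zero G (Nat.card G * Nat.card H) (dvd_mul_right _ _),
        ← card_zero H (Nat.card G * Nat.card H) (dvd_mul_left _ _)]
      exact hpos _ (Nat.mul_pos Nat.card_pos Nat.card_pos)
    · exact hpos n hn
  · intro h n
    induction n using Nat.strong_induction_on with
    | _ n ih =>
      rcases Nat.eq_zero_or_pos n with rfl | hn
      · have h1 : IsEmpty {g : G // orderOf g = 0} := ⟨fun g => (orderOf_pos g.1).ne' g.2⟩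
        have h2 : IsEmpty {g : H // orderOf g = 0} := ⟨fun g => (orderOf_pos g.1).ne' g.2⟩
        rw [Nat.card_of_isEmpty, Nat.card_of_isEmpty]
      · have hG := sum_formula G n hn
        have hH := sum_formula H n hn
        rw [← Nat.cons_self_properDivisors hn.ne', Finset.sum_cons] at hG hH
        have : ∑ d ∈ n.properDivisors, Nat.card {g : G // orderOf g = d}
            = ∑ d ∈ n.properDivisors, Nat.card {g : H // orderOf g = d} :=
          Finset.sum_congr rfl (fun d hd => ih d (Nat.mem_properDivisors.mp hd).2)
        have h3 := h n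
        omega

end Cfsg.Agent.S4377
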