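import Cfsg.Statements.S4376
import Cfsg.Agent.S4377
import Cfsg.Agent.Lib.Helper73.OTGamma
import Cfsg.Agent.Lib.Helper73.OTSL3

set_option autoImplicit false
set_option synthInstance.maxSize 100000
set_option synthInstance.maxHeartbeats 4000000
open Cfsg

namespace Cfsg.Agent.S4376

open Cfsg.Agent.Lib.Helper73.OT

theorem cnt_fib2 {X Y : Type} [Group X] [Group Y] [Finite X] [Finite Y] (f : X →* Z 2) (g : Y →* Z 2)
    (n : ℕ) : cnt ↥(Fib f g) n =
      gcnt f n (Multiplicative.ofAdd 0) * gcnt g n (Multiplicative.ofAdd 0) +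
      gcnt f n (Multiplicative.ofAdd 1) * gcnt g n (Multiplicative.ofAdd 1) := by
  rw [cnt_eq_sum_gcnt (Fib.gr f g), sum_Z2, gcnt_fib, gcnt_fib]

/-- the solvable group -/
abbrev GS : Type :=
  (Fin 3 → Z 4) × (Fin 1 → Z 7) × (Fin 3 → G168) ×
  (Fin 6 → ↥(Fib grD8b grS3)) × (Fin 6 → ↥(Fib grD14 grD8a)) × (Fin 3 → ↥(Fib grC4 grF42)) ×
  (Fin 2 → ↥(Fib grD14 grD14)) × (Fin 6 → ↥(Fib (Fib.gr grC4 grD14) grF42)) ×
  (Fin 6 → ↥(Fib (Fib.gr grD8b grD8b) grF42)) × (Fin 3 → ↥(Fib (Fib.gr grF42 grF42) grF42)) ×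
  (Fin 3 → ↥(Fib (Fib.gr (Fib.gr grD14 grD8b) grD8b) grS3))

/-- the solvable part of the non-solvable group -/
abbrev HS : Type :=
  (Fin 3 → Z 2) × (Fin 3 → Z 3) × (Fin 6 → D8) × (Fin 4 → F21) × (Fin 3 → F42) ×
  (Fin 3 → ↥(Fib grC4 grS3)) × (Fin 6 → ↥(Fib grC4 grD14)) × (Fin 6 → ↥(Fib grD8a grD8a)) ×
  (Fin 8 → ↥(Fib grD14 grF42)) × (Fin 3 → ↥(Fib (Fib.gr grD14 grD8a) grS3)) ×
  (Fin 3 → ↥(Fib (Fib.gr grD14 grD8b) grD8b)) ×
  (Fin 3 → ↥(Fib (Fib.gr (Fib.gr grC4 grF42) grF42) grF42))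

/-- the non-solvable group -/
abbrev HN : Type := (Fin 3 → SL3) × HS

theorem cnt_eq (n : ℕ) : cnt GS n = cnt HN n := by
  simp only [cnt_prod, cnt_pi, cnt_fib2, gcnt_fib, cnt_Z2, cnt_Z3, cnt_Z4, cnt_Z7, cnt_D8, cnt_F21,
    cnt_F42, cnt_G168, cnt_SL3, g0_C4, g1_C4, g0_S3, g1_S3, g0_D8a, g1_D8a, g0_D8b, g1_D8b,
    g0_D14, g1_D14, g0_F42, g1_F42]
  have hd : Nat.gcd n 84 ∈ Nat.divisors 84 :=
    Nat.mem_divisors.mpr ⟨Nat.gcd_dvd_right _ _, by norm_num⟩
  generalize Nat.gcd n 84 = d at hd ⊢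
  revert d
  decide +kernel

theorem solvable_GS : Group.IsSolvable GS := by
  have : ∀ (X : Type) [Group X] [Group.IsSolvable X] (k : ℕ), Group.IsSolvable (Fin k → X) :=
    fun X _ _ k => isSolvable_pi X (Fin k)
  infer_instance

theorem not_solvable_HN : ¬ Group.IsSolvable HN := by
  intro h
  apply not_isSolvable_SL3
  let j : SL3 →* HN := (MonoidHom.inl (Fin 3 → SL3) HS).comp (Pi.constMonoidHom (Fin 3) SL3)
  have hj : Function.Injective j := by
    intro x y hxy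
    have h1 : (j x).1 0 = (j y).1 0 := by rw [hxy]
    exact h1
  exact Group.isSolvable_of_isSolvable_injective hj

/-- There are finite groups G and H having the same number of elements of each order (the same order type) with G solvable and H not solvable. -/
theorem result :
    ∃ (G : Type) (_ : Group G) (_ : Finite G) (H : Type) (_ : Group H) (_ : Finite H),
      Group.IsSolvable G ∧ ¬ Group.IsSolvable H ∧ ∀ n : ℕ, Nat.card {g : G // orderOf g = n} = Nat.card {h : H // orderOf h = n} := by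
  refine ⟨GS, inferInstance, inferInstance, HN, inferInstance, inferInstance, solvable_GS,
    not_solvable_HN, ?_⟩
  exact (Cfsg.Agent.S4377.result (G := GS) (H := HN)).mpr cnt_eq

end Cfsg.Agent.S4376
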