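import Cfsg.Statements.S4387

set_option autoImplicit false
open Pointwise
open Cfsg

namespace Cfsg.Agent.S4387

/-- A proper subgroup of a finite group does not meet every conjugacy class. -/
theorem exists_not_mem_conj {G : Type*} [Group G] [Finite G] (M : Subgroup G) (hM : M ≠ ⊤) :
    ∃ g : G, ∀ x : G, x⁻¹ * g * x ∉ M := by
  classical
  have := Fintype.ofFinite G
  by_contra hcon
  push Not at hcon
  have hB := MulAction.sum_card_fixedBy_eq_card_orbits_mul_card_group G (G ⧸ M)
  have horb : Fintype.card (Quotient (MulAction.orbitRel G (G ⧸ M))) = 1 := by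
    rw [Fintype.card_eq_one_iff]
    refine ⟨Quotient.mk'' (QuotientGroup.mk 1), fun y => ?_⟩
    induction y using Quotient.inductionOn' with
    | h y =>
      apply Quotient.sound'
      exact MulAction.exists_smul_eq G _ _
  rw [horb, one_mul] at hB
  have h1 : ∀ g : G, 1 ≤ Fintype.card (MulAction.fixedBy (G ⧸ M) g) := by
    intro g
    obtain ⟨x, hx⟩ := hcon g
    apply Fintype.card_pos_iff.mpr
    refine ⟨⟨QuotientGroup.mk x, ?_⟩⟩
    rw [MulAction.mem_fixedBy]
    show (QuotientGroup.mk (g * x) : G ⧸ M) = QuotientGroup.mk x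
    rw [QuotientGroup.eq]
    have : (g * x)⁻¹ * x = (x⁻¹ * g * x)⁻¹ := by group
    rw [this]; exact inv_mem hx
  have h2 : 2 ≤ Fintype.card (MulAction.fixedBy (G ⧸ M) (1 : G)) := by
    have : Fintype.card (MulAction.fixedBy (G ⧸ M) (1 : G)) = Fintype.card (G ⧸ M) := by
      apply Fintype.card_congr
      refine (Equiv.subtypeUnivEquiv ?_)
      intro x
      simp
    rw [this, ← Nat.card_eq_fintype_card]
    have h3 : M.index ≠ 1 := fun h => hM (Subgroup.index_eq_one.mp h)
    have h4 : M.index ≠ 0 := Subgroup.index_ne_zero_of_finite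
    show 2 ≤ M.index
    omega
  have h5 : Fintype.card G < ∑ g : G, Fintype.card (MulAction.fixedBy (G ⧸ M) g) := by
    calc Fintype.card G = ∑ _g : G, 1 := by simp
      _ < _ := Finset.sum_lt_sum (fun g _ => h1 g) ⟨1, Finset.mem_univ _, h2⟩
  omega

/-- Let G be a non-trivial finite group in which any two maximal subgroups are conjugate. Then G is cyclic of prime-power order. -/
theorem result {G : Type*} [Group G] [Finite G] [Nontrivial G]
    (h : ∀ M N : Subgroup G, IsCoatom M → IsCoatom N → ∃ g : G, N = MulAut.conj g • M) :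
    IsCyclic G ∧ IsPrimePow (Nat.card G) := by
  obtain ⟨M, hM, -⟩ : ∃ M : Subgroup G, IsCoatom M ∧ ⊥ ≤ M :=
    (eq_top_or_exists_le_coatom (⊥ : Subgroup G)).resolve_left bot_ne_top
  have key : ∀ K : Subgroup G, K ≠ ⊤ → ∃ x : G, K ≤ MulAut.conj x • M := by
    intro K hK
    obtain ⟨N, hN, hKN⟩ := (eq_top_or_exists_le_coatom K).resolve_left hK
    obtain ⟨x, rfl⟩ := h M N hM hN
    exact ⟨x, hKN⟩
  constructor
  · obtain ⟨g, hg⟩ := exists_not_mem_conj M hM.1
    have : Subgroup.zpowers g = ⊤ := by
      by_contra hne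
      obtain ⟨x, hx⟩ := key _ hne
      have h1 := hx (Subgroup.mem_zpowers g)
      rw [Subgroup.mem_pointwise_smul_iff_inv_smul_mem] at h1
      apply hg x
      simpa [MulAut.smul_def] using h1
    exact ⟨g, fun y => by
      have hy : y ∈ (⊤ : Subgroup G) := Subgroup.mem_top y
      rwa [← this] at hy⟩
  · by_contra hpp
    apply hM.1
    apply Subgroup.eq_top_of_card_eq
    apply Nat.dvd_antisymm (Subgroup.card_subgroup_dvd_card M)
    rw [← Nat.factorization_prime_le_iff_dvd Nat.card_pos.ne' Nat.card_pos.ne']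
    intro p hp
    have := Fact.mk hp
    obtain ⟨P⟩ : Nonempty (Sylow p G) := inferInstance
    have hP : (P : Subgroup G) ≠ ⊤ := by
      intro htop
      apply hpp
      have h1 := P.card_eq_multiplicity
      rw [htop, Subgroup.card_top] at h1
      rw [h1]
      refine ⟨p, _, hp.prime, ?_, rfl⟩
      rcases Nat.eq_zero_or_pos ((Nat.card G).factorization p) with h0 | h0
      · rw [h0, pow_zero] at h1
        have := Finite.one_lt_card (α := G)
        omega
      · exact h0
    obtain ⟨x, hx⟩ := key _ hP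
    have h2 : Nat.card (P : Subgroup G) ∣ Nat.card (MulAut.conj x • M : Subgroup G) :=
      Subgroup.card_dvd_of_le hx
    have h3 : Nat.card (MulAut.conj x • M : Subgroup G) = Nat.card M :=
      (Nat.card_congr (Subgroup.equivSMul (MulAut.conj x) M).toEquiv).symm
    rw [P.card_eq_multiplicity, h3] at h2
    exact (hp.pow_dvd_iff_le_factorization Nat.card_pos.ne').mp h2

end Cfsg.Agent.S4387
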