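import Mathlib
import Cfsg.Statements.S4398
import Cfsg.Agent.S4399
import Cfsg.Agent.Lib.Helper64.SecRankC
import Cfsg.Agent.Lib.Helper64.Meta2Inv

set_option autoImplicit false
open Cfsg

namespace Cfsg.Agent.S4398

open Cfsg.Agent.Lib.Helper64

/-- Let S be a finite 2-group of sectional 2-rank at most 2 that contains a subgroup isomorphic to the dihedral group of order 8 or to the quaternion group of order 8. Then S is dihedral of order at least 8, semidihedral of order at least 16 (order 2^(k+4) with an element a of order 2^(k+3) and an involution b with b a b⁻¹ = a^(2^(k+2)−1)), or generalized quaternion of order at least 8. -/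
theorem result {S : Type*} [Group S] [Finite S] (h2 : IsPGroup 2 S) (hr : Cfsg.SectionalPRankLE 2 2 S)
    (hsub : ∃ H : Subgroup S, Nonempty (↥H ≃* DihedralGroup 4) ∨ Nonempty (↥H ≃* QuaternionGroup 2)) :
    ((∃ k : ℕ, Nonempty (S ≃* DihedralGroup (2 ^ (k + 2)))) ∨
      (∃ k : ℕ, Nat.card S = 2 ^ (k + 4) ∧ ∃ a b : S, orderOf a = 2 ^ (k + 3) ∧ orderOf b = 2 ∧ b * a * b⁻¹ = a ^ (2 ^ (k + 2) - 1)) ∨
      (∃ k : ℕ, Nonempty (S ≃* QuaternionGroup (2 ^ (k + 1))))) := by
  have hm : Cfsg.IsMetacyclic S := metacyclic_aux _ S le_rfl h2 hr
  have key : (commutator S).index = 4 ∧ Nat.card S ≠ 4 := by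
    obtain ⟨H, ⟨⟨e⟩⟩ | ⟨⟨e⟩⟩⟩ := hsub
    · let g : DihedralGroup 4 →* S := H.subtype.comp e.symm.toMonoidHom
      have hg : Function.Injective g := H.subtype_injective.comp e.symm.injective
      apply index_commutator_of_dq h2 hm (u := g (DihedralGroup.r 1))
        (v := g (DihedralGroup.sr 0))
      · rw [← map_pow]
        intro h
        have := hg (h.trans (map_one g).symm)
        revert this
        decide
      · rw [← map_pow]
        have : (DihedralGroup.r 1 : DihedralGroup 4) ^ 4 = 1 := by decide
        rw [this, map_one]
      · rw [← map_inv, ← map_inv, ← map_mul, ← map_mul]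
        congr 1
      · left
        rw [← map_pow]
        have : (DihedralGroup.sr 0 : DihedralGroup 4) ^ 2 = 1 := by decide
        rw [this, map_one]
    · let g : QuaternionGroup 2 →* S := H.subtype.comp e.symm.toMonoidHom
      have hg : Function.Injective g := H.subtype_injective.comp e.symm.injective
      apply index_commutator_of_dq h2 hm (u := g (QuaternionGroup.a 1))
        (v := g (QuaternionGroup.xa 0))
      · rw [← map_pow]
        intro h
        have := hg (h.trans (map_one g).symm)
        revert this
        decide
      · rw [← map_pow]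
        have : (QuaternionGroup.a 1 : QuaternionGroup 2) ^ 4 = 1 := by decide
        rw [this, map_one]
      · rw [← map_inv, ← map_inv, ← map_mul, ← map_mul]
        congr 1
      · right
        rw [← map_pow, ← map_pow]
        congr 1
  exact Cfsg.Agent.S4399.taussky h2 key.1 key.2

end Cfsg.Agent.S4398
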