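import Cfsg.Statements.S4400
import Cfsg.Agent.Lib.Helper73.Agemo
import Cfsg.Agent.Lib.Helper51.PGroup

set_option autoImplicit false
open Cfsg

namespace Cfsg.Agent.S4400

open Cfsg.Agent.Lib.Helper73

theorem section_bound {S : Type*} [Group S] [Finite S] (k : ℕ) (hr : Cfsg.SectionalPRankLE 2 k S)
    (H N : Subgroup S) [hN : N.Normal] (hle : N ≤ H) (hsq : ∀ h ∈ H, h ^ 2 ∈ N) :
    Nat.card H ≤ 2 ^ k * Nat.card N := by
  have hq : ∀ a : H ⧸ N.subgroupOf H, a ^ 2 = 1 := by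
    intro a
    obtain ⟨h, rfl⟩ := QuotientGroup.mk'_surjective _ a
    rw [← map_pow, QuotientGroup.mk'_apply, QuotientGroup.eq_one_iff, Subgroup.mem_subgroupOf]
    exact hsq h h.2
  have hcomm : IsMulCommutative (⊤ : Subgroup (H ⧸ N.subgroupOf H)) :=
    ⟨⟨fun a b => Subtype.ext (comm_of_sq_eq_one hq a b)⟩⟩
  have h1 := hr H (N.subgroupOf H) ⊤ hcomm (fun a _ => hq a)
  rw [Subgroup.card_top] at h1
  rw [Subgroup.card_eq_card_quotient_mul_card_subgroup (N.subgroupOf H),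
    Nat.card_congr (Subgroup.subgroupOfEquivOfLe hle).toEquiv]
  exact Nat.mul_le_mul_right _ h1

theorem exists_center_gen {S : Type*} [Group S] (P : Subgroup S)
    (h : Nat.card (Subgroup.center P) = 2) :
    ∃ z : S, z ≠ 1 ∧ z ∈ P ∧ (∀ y ∈ P, y * z = z * y) ∧
      (∀ x ∈ P, (∀ y ∈ P, y * x = x * y) → x = 1 ∨ x = z) := by
  obtain ⟨z, hz1, hzu⟩ := (Nat.card_eq_two_iff' (1 : Subgroup.center P)).mp h
  refine ⟨z, fun h1 => hz1 (Subtype.ext (Subtype.ext h1)), z.1.2, ?_, ?_⟩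
  · intro y hy
    exact congrArg Subtype.val (Subgroup.mem_center_iff.mp z.2 ⟨y, hy⟩)
  · intro x hx hxc
    by_cases hx1 : x = 1
    · exact Or.inl hx1
    · right
      have hxZ : (⟨x, hx⟩ : P) ∈ Subgroup.center P := by
        rw [Subgroup.mem_center_iff]
        intro g
        exact Subtype.ext (hxc g g.2)
      have := hzu ⟨⟨x, hx⟩, hxZ⟩ (fun h1 => hx1 (by
        have h2 := congrArg (fun u : Subgroup.center P => ((u : P) : S)) h1
        exact h2))
      exact congrArg (fun u : Subgroup.center P => ((u : P) : S)) this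

theorem mem_map_center_iff {S : Type*} [Group S] (P : Subgroup S) (x : S) :
    x ∈ (Subgroup.center P).map P.subtype ↔ x ∈ P ∧ ∀ y ∈ P, y * x = x * y := by
  constructor
  · rintro ⟨u, hu, rfl⟩
    exact ⟨u.2, fun y hy => congrArg Subtype.val (Subgroup.mem_center_iff.mp hu ⟨y, hy⟩)⟩
  · rintro ⟨hx, hc⟩
    refine ⟨⟨x, hx⟩, ?_, rfl⟩
    rw [SetLike.mem_coe, Subgroup.mem_center_iff]
    intro g
    exact Subtype.ext (hc g g.2)

theorem exists_pow_not_mem_sq_mem {G : Type*} [Group G] [Finite G] (hG : IsPGroup 2 G)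
    (U : Subgroup G) (x : G) (hx : x ∉ U) : ∃ k : ℕ, x ^ k ∉ U ∧ (x ^ k) ^ 2 ∈ U := by
  have key : ∀ (e : ℕ) (j : ℕ), (x ^ j) ^ (2 ^ e) ∈ U → x ^ j ∉ U →
      ∃ k : ℕ, x ^ k ∉ U ∧ (x ^ k) ^ 2 ∈ U := by
    intro e
    induction e with
    | zero => intro j hj hjn; rw [pow_zero, pow_one] at hj; exact absurd hj hjn
    | succ e ih =>
      intro j hj hjn
      by_cases hxp : (x ^ j) ^ 2 ∈ U
      · exact ⟨j, hjn, hxp⟩
      · rw [← pow_mul] at hxp
        exact ih (j * 2) (by rw [pow_mul, ← pow_mul (x ^ j), ← pow_succ']; exact hj) hxp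
  obtain ⟨e, he⟩ := hG x
  exact key e 1 (by rw [pow_one, he]; exact one_mem _) (by rwa [pow_one])

/-- the central involution lies in the subgroup generated by squares -/
theorem center_gen_mem_sqClosure {S : Type*} [Group S] [Finite S] (h2 : IsPGroup 2 S)
    (P : Subgroup S) (hP : ¬ IsMulCommutative ↥P) (z : S)
    (hzu : ∀ x ∈ P, (∀ y ∈ P, y * x = x * y) → x = 1 ∨ x = z) : z ∈ sqClosure P := by
  have : Fact (Nat.Prime 2) := ⟨Nat.prime_two⟩
  have hne : commutator P ≠ ⊥ := by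
    intro h
    exact hP ⟨⟨comm_of_commutator_eq_bot h⟩⟩
  obtain ⟨w, hw, hwc, hw2⟩ := exists_central_orderOf_eq_prime (h2.to_subgroup P) (commutator P) hne
  have h1 : (w : S) ∈ sqClosure P := commutator_le_comap_sqClosure P hw
  rcases hzu w w.2 (fun y hy => congrArg Subtype.val (Subgroup.mem_center_iff.mp hwc ⟨y, hy⟩)) with
    h | h
  · exfalso
    have : w = 1 := Subtype.ext h
    rw [this, orderOf_one] at hw2
    omega
  · rw [← h]; exact h1

theorem not_isCyclic_of_not_comm {X : Type*} [Group X] (h : ¬ IsMulCommutative X) : ¬ IsCyclic X :=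
  fun hc => h ⟨⟨hc.commGroup.mul_comm⟩⟩

/-- Let S be a finite 2-group of sectional 2-rank at most 4, and let P and Q be normal non-abelian subgroups of S whose centres have order 2 and are different. Then P and Q commute elementwise and intersect trivially, and PQ contains its own centralizer in S. -/
theorem result {S : Type*} [Group S] [Finite S] (h2 : IsPGroup 2 S) (hr : Cfsg.SectionalPRankLE 2 4 S)
    (P Q : Subgroup S) [P.Normal] [Q.Normal] (hP : ¬ IsMulCommutative ↥P) (hQ : ¬ IsMulCommutative ↥Q)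
    (hZP : Nat.card ↥(Subgroup.center ↥P) = 2) (hZQ : Nat.card ↥(Subgroup.center ↥Q) = 2)
    (hne : (Subgroup.center ↥P).map P.subtype ≠ (Subgroup.center ↥Q).map Q.subtype) :
    ⁅P, Q⁆ = ⊥ ∧ P ⊓ Q = ⊥ ∧ Subgroup.centralizer ((P ⊔ Q : Subgroup S) : Set S) ≤ P ⊔ Q := by
  have : Fact (Nat.Prime 2) := ⟨Nat.prime_two⟩
  obtain ⟨zP, hzP1, hzPP, hzPc, hzPu⟩ := exists_center_gen P hZP
  obtain ⟨zQ, hzQ1, hzQQ, hzQc, hzQu⟩ := exists_center_gen Q hZQ
  have hzne : zP ≠ zQ := by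
    intro h
    apply hne
    ext x
    rw [mem_map_center_iff, mem_map_center_iff]
    constructor
    · rintro ⟨hx, hc⟩
      rcases hzPu x hx hc with rfl | rfl
      · exact ⟨one_mem _, fun y _ => by simp⟩
      · rw [h]; exact ⟨hzQQ, hzQc⟩
    · rintro ⟨hx, hc⟩
      rcases hzQu x hx hc with rfl | rfl
      · exact ⟨one_mem _, fun y _ => by simp⟩
      · rw [← h]; exact ⟨hzPP, hzPc⟩
  have hinf : P ⊓ Q = ⊥ := by
    by_contra hcon
    obtain ⟨z, hz, hzc, hz2⟩ := exists_central_orderOf_eq_prime h2 (P ⊓ Q) hcon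
    have hz1 : z ≠ 1 := by rintro rfl; rw [orderOf_one] at hz2; omega
    have hc : ∀ y : S, y * z = z * y := Subgroup.mem_center_iff.mp hzc
    have e1 := (hzPu z hz.1 (fun y _ => hc y)).resolve_left hz1
    have e2 := (hzQu z hz.2 (fun y _ => hc y)).resolve_left hz1
    exact hzne (e1.symm.trans e2)
  have hcomm0 : ⁅P, Q⁆ = ⊥ := by
    rw [eq_bot_iff, ← hinf]; exact Subgroup.commutator_le_inf P Q
  refine ⟨hcomm0, hinf, ?_⟩
  have hcomm : ∀ x ∈ P, ∀ y ∈ Q, x * y = y * x := by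
    intro x hx y hy
    have := (Subgroup.commutator_eq_bot_iff_le_centralizer.mp hcomm0) hx
    exact ((Subgroup.mem_centralizer_iff.mp this) y hy).symm
  by_contra hcon
  obtain ⟨c₀, hc₀C, hc₀R⟩ := SetLike.not_le_iff_exists.mp hcon
  obtain ⟨k, hcR, hc2R⟩ := exists_pow_not_mem_sq_mem h2 (P ⊔ Q) c₀ hc₀R
  obtain ⟨c, hc⟩ : ∃ c, c = c₀ ^ k := ⟨_, rfl⟩
  rw [← hc] at hcR hc2R
  have hcC : c ∈ Subgroup.centralizer ((P ⊔ Q : Subgroup S) : Set S) := by
    rw [hc]; exact pow_mem hc₀C k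
  have hcP : ∀ x ∈ P, Commute x c := fun x hx =>
    (Subgroup.mem_centralizer_iff.mp hcC) x (Subgroup.mem_sup_left hx)
  have hcQ : ∀ y ∈ Q, Commute y c := fun y hy =>
    (Subgroup.mem_centralizer_iff.mp hcC) y (Subgroup.mem_sup_right hy)
  obtain ⟨x₀, hx₀, y₀, hy₀, hxy₀⟩ := Subgroup.mem_sup_of_normal_right.mp hc2R
  have hzPD := center_gen_mem_sqClosure h2 P hP zP hzPu
  have hzQD := center_gen_mem_sqClosure h2 Q hQ zQ hzQu
  have hx₀D : x₀ ∈ sqClosure P := by
    have hcen : ∀ p ∈ P, p * x₀ = x₀ * p := by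
      intro p hp
      have h1 : Commute p (x₀ * y₀) := by rw [hxy₀]; exact (hcP p hp).pow_right 2
      have h3 : p * x₀ * y₀ = x₀ * p * y₀ := by
        calc p * x₀ * y₀ = p * (x₀ * y₀) := by group
          _ = x₀ * y₀ * p := h1.eq
          _ = x₀ * (y₀ * p) := by group
          _ = x₀ * p * y₀ := by rw [← hcomm p hp y₀ hy₀]; group
      exact mul_right_cancel h3
    rcases hzPu x₀ hx₀ hcen with h | h
    · rw [h]; exact one_mem _
    · rw [h]; exact hzPD
  have hy₀D : y₀ ∈ sqClosure Q := by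
    have hcen : ∀ q ∈ Q, q * y₀ = y₀ * q := by
      intro q hq
      have h1 : Commute q (x₀ * y₀) := by rw [hxy₀]; exact (hcQ q hq).pow_right 2
      have h3 : x₀ * (q * y₀) = x₀ * (y₀ * q) := by
        calc x₀ * (q * y₀) = (x₀ * q) * y₀ := by group
          _ = q * (x₀ * y₀) := by rw [hcomm x₀ hx₀ q hq]; group
          _ = x₀ * y₀ * q := h1.eq
          _ = x₀ * (y₀ * q) := by group
      exact mul_left_cancel h3
    rcases hzQu y₀ hy₀ hcen with h | h
    · rw [h]; exact one_mem _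
    · rw [h]; exact hzQD
  have hDPn : (sqClosure P).Normal := sqClosure_normal P
  have hDQn : (sqClosure Q).Normal := sqClosure_normal Q
  obtain ⟨N, hN⟩ : ∃ N, N = sqClosure P ⊔ sqClosure Q := ⟨_, rfl⟩
  have hNn : N.Normal := by rw [hN]; infer_instance
  obtain ⟨H, hH⟩ : ∃ H, H = (P ⊔ Q) ⊔ Subgroup.zpowers c := ⟨_, rfl⟩
  have hNH : N ≤ H := by
    rw [hN, hH]
    exact le_trans (sup_le_sup (sqClosure_le P) (sqClosure_le Q)) le_sup_left
  have hc2N : c ^ 2 ∈ N := by
    rw [← hxy₀, hN]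
    exact mul_mem (Subgroup.mem_sup_left hx₀D) (Subgroup.mem_sup_right hy₀D)
  have hsq : ∀ h ∈ H, h ^ 2 ∈ N := by
    intro h hh
    rw [hH] at hh
    obtain ⟨r, hr', w, hw, rfl⟩ := Subgroup.mem_sup_of_normal_left.mp hh
    obtain ⟨x, hx, y, hy, rfl⟩ := Subgroup.mem_sup_of_normal_right.mp hr'
    obtain ⟨i, rfl⟩ := Subgroup.mem_zpowers_iff.mp hw
    have c1 : Commute x y := hcomm x hx y hy
    have c2 : Commute (x * y) (c ^ i) := ((hcP x hx).mul_left (hcQ y hy)).zpow_right i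
    rw [c2.mul_pow, c1.mul_pow]
    have e : (c ^ i) ^ 2 = (c ^ 2) ^ i := by
      rw [← zpow_natCast, ← zpow_mul, mul_comm, zpow_mul, zpow_natCast]
    rw [e]
    refine mul_mem (mul_mem ?_ ?_) (zpow_mem hc2N i)
    · rw [hN]; exact Subgroup.mem_sup_left (sq_mem_sqClosure P hx)
    · rw [hN]; exact Subgroup.mem_sup_right (sq_mem_sqClosure Q hy)
  have hb := section_bound 4 hr H N hNH hsq
  have hcardN : Nat.card N ≤ Nat.card (sqClosure P) * Nat.card (sqClosure Q) := by
    have h1 := Cfsg.Agent.Lib.Helper51.card_sup_mul_card_inf_of_le_normalizer (sqClosure P)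
      (sqClosure Q) (by rw [Subgroup.normalizer_eq_top]; exact le_top)
    rw [← hN] at h1
    rw [← h1]
    exact Nat.le_mul_of_pos_right _ Nat.card_pos
  have hcardR : Nat.card (P ⊔ Q : Subgroup S) = Nat.card P * Nat.card Q := by
    have h1 := Cfsg.Agent.Lib.Helper51.card_sup_mul_card_inf_of_le_normalizer P Q
      (by rw [Subgroup.normalizer_eq_top]; exact le_top)
    rw [hinf, Subgroup.card_bot, mul_one] at h1
    exact h1
  have hcardH : 2 * Nat.card (P ⊔ Q : Subgroup S) ≤ Nat.card H := by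
    have hle : P ⊔ Q ≤ H := by rw [hH]; exact le_sup_left
    obtain ⟨t, ht⟩ := Subgroup.card_dvd_of_le hle
    have hpos : 0 < Nat.card H := Nat.card_pos
    have ht1 : t ≠ 1 := by
      rintro rfl
      rw [mul_one] at ht
      have h3 : P ⊔ Q = H := Subgroup.eq_of_le_of_card_ge hle (by rw [ht])
      apply hcR
      rw [h3, hH]
      exact Subgroup.mem_sup_right (Subgroup.mem_zpowers c)
    have ht0 : t ≠ 0 := by rintro rfl; omega
    have : 2 ≤ t := by omega
    rw [ht, mul_comm]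
    exact Nat.mul_le_mul_left _ this
  have h4P := four_mul_card_sqClosure_le P (h2.to_subgroup P) (not_isCyclic_of_not_comm hP)
  have h4Q := four_mul_card_sqClosure_le Q (h2.to_subgroup Q) (not_isCyclic_of_not_comm hQ)
  have hNpos : 0 < Nat.card N := Nat.card_pos
  have h5 : 16 * (Nat.card (sqClosure P) * Nat.card (sqClosure Q)) ≤ Nat.card P * Nat.card Q := by
    calc 16 * (Nat.card (sqClosure P) * Nat.card (sqClosure Q))
        = (4 * Nat.card (sqClosure P)) * (4 * Nat.card (sqClosure Q)) := by ring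
      _ ≤ Nat.card P * Nat.card Q := Nat.mul_le_mul h4P h4Q
  rw [hcardR] at hcardH
  norm_num at hb
  omega

end Cfsg.Agent.S4400
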