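import Cfsg.Statements.S4401
import Cfsg.Agent.S4400
import Cfsg.Agent.Lib.Helper73.Sectional
import Cfsg.Agent.Lib.Helper32.Subnormal
import Cfsg.Agent.Lib.Helper51.PGroup

set_option autoImplicit false
open Cfsg

namespace Cfsg.Agent.S4401

open Cfsg.Agent.Lib.Helper73

/-- relative, elementwise form of S4400 -/
theorem rel {S : Type*} [Group S] [Finite S] (h2 : IsPGroup 2 S) (hr : SectionalPRankLE 2 4 S)
    (T P Q : Subgroup S) (hPT : P ≤ T) (hQT : Q ≤ T)
    (hPn : ∀ s ∈ T, ∀ x ∈ P, s * x * s⁻¹ ∈ P) (hQn : ∀ s ∈ T, ∀ x ∈ Q, s * x * s⁻¹ ∈ Q)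
    (hP : ¬ IsMulCommutative ↥P) (hQ : ¬ IsMulCommutative ↥Q)
    (hZP : Nat.card ↥(Subgroup.center ↥P) = 2) (hZQ : Nat.card ↥(Subgroup.center ↥Q) = 2)
    (z : S) (hzP : z ∈ P) (hzc : ∀ y ∈ P, y * z = z * y)
    (hzQ : ¬ (z ∈ Q ∧ ∀ y ∈ Q, y * z = z * y)) :
    (∀ x ∈ P, ∀ y ∈ Q, x * y = y * x) ∧ (∀ x, x ∈ P → x ∈ Q → x = 1) ∧
      ∀ c ∈ T, (∀ x ∈ P, x * c = c * x) → (∀ y ∈ Q, y * c = c * y) → c ∈ P ⊔ Q := by
  have hPn' : (P.subgroupOf T).Normal := by
    refine ⟨fun n hn s => ?_⟩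
    rw [Subgroup.mem_subgroupOf] at hn ⊢
    exact hPn s s.2 n hn
  have hQn' : (Q.subgroupOf T).Normal := by
    refine ⟨fun n hn s => ?_⟩
    rw [Subgroup.mem_subgroupOf] at hn ⊢
    exact hQn s s.2 n hn
  have eP := Subgroup.subgroupOfEquivOfLe hPT
  have eQ := Subgroup.subgroupOfEquivOfLe hQT
  have hP' : ¬ IsMulCommutative ↥(P.subgroupOf T) := fun h => hP ⟨⟨fun a b =>
    eP.symm.injective (by rw [map_mul, map_mul]; exact h.is_comm.comm _ _)⟩⟩
  have hQ' : ¬ IsMulCommutative ↥(Q.subgroupOf T) := fun h => hQ ⟨⟨fun a b =>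
    eQ.symm.injective (by rw [map_mul, map_mul]; exact h.is_comm.comm _ _)⟩⟩
  have hZP' : Nat.card ↥(Subgroup.center ↥(P.subgroupOf T)) = 2 := by
    rw [Nat.card_congr (Subgroup.centerCongr eP).toEquiv]; exact hZP
  have hZQ' : Nat.card ↥(Subgroup.center ↥(Q.subgroupOf T)) = 2 := by
    rw [Nat.card_congr (Subgroup.centerCongr eQ).toEquiv]; exact hZQ
  have hne : (Subgroup.center ↥(P.subgroupOf T)).map (P.subgroupOf T).subtype ≠
      (Subgroup.center ↥(Q.subgroupOf T)).map (Q.subgroupOf T).subtype := by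
    intro h
    have h1 : (⟨z, hPT hzP⟩ : T) ∈
        (Subgroup.center ↥(P.subgroupOf T)).map (P.subgroupOf T).subtype := by
      rw [Cfsg.Agent.S4400.mem_map_center_iff]
      exact ⟨Subgroup.mem_subgroupOf.mpr hzP, fun y hy => Subtype.ext (hzc y hy)⟩
    rw [h, Cfsg.Agent.S4400.mem_map_center_iff] at h1
    exact hzQ ⟨h1.1, fun y hy => congrArg Subtype.val (h1.2 ⟨y, hQT hy⟩ hy)⟩
  obtain ⟨h1, h2', h3⟩ := Cfsg.Agent.S4400.result (h2.to_subgroup T) (sectional_subgroup 4 hr T)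
    (P.subgroupOf T) (Q.subgroupOf T) hP' hQ' hZP' hZQ' hne
  refine ⟨?_, ?_, ?_⟩
  · intro x hx y hy
    have h4 := (Subgroup.commutator_eq_bot_iff_le_centralizer.mp h1)
      (show (⟨x, hPT hx⟩ : T) ∈ P.subgroupOf T from hx)
    have h5 := (Subgroup.mem_centralizer_iff.mp h4) ⟨y, hQT hy⟩ hy
    exact (congrArg Subtype.val h5).symm
  · intro x hx hy
    have h4 : (⟨x, hPT hx⟩ : T) ∈ P.subgroupOf T ⊓ Q.subgroupOf T := ⟨hx, hy⟩
    rw [h2', Subgroup.mem_bot] at h4
    exact congrArg Subtype.val h4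
  · intro c hc hcP hcQ
    have h4 : (⟨c, hc⟩ : T) ∈
        Subgroup.centralizer ((P.subgroupOf T ⊔ Q.subgroupOf T : Subgroup T) : Set T) := by
      have h5 : P.subgroupOf T ⊔ Q.subgroupOf T ≤
          Subgroup.centralizer ({(⟨c, hc⟩ : T)} : Set T) := by
        apply sup_le
        · intro x hx
          rw [Subgroup.mem_centralizer_singleton_iff]
          exact Subtype.ext (hcP x hx)
        · intro x hx
          rw [Subgroup.mem_centralizer_singleton_iff]
          exact Subtype.ext (hcQ x hx)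
      rw [Subgroup.mem_centralizer_iff]
      intro e he
      exact Subgroup.mem_centralizer_singleton_iff.mp (h5 he)
    have h5 := h3 h4
    have h6 : c ∈ (P.subgroupOf T ⊔ Q.subgroupOf T).map T.subtype := ⟨_, h5, rfl⟩
    rw [Subgroup.map_sup, Subgroup.subgroupOf_map_subtype, Subgroup.subgroupOf_map_subtype] at h6
    have h7 : P ⊓ T ⊔ Q ⊓ T ≤ P ⊔ Q := sup_le_sup inf_le_left inf_le_left
    exact h7 h6

theorem mem_sup_of_comm {S : Type*} [Group S] (A B : Subgroup S)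
    (hcomm : ∀ x ∈ A, ∀ y ∈ B, x * y = y * x) (c : S) (hc : c ∈ A ⊔ B) :
    ∃ x ∈ A, ∃ y ∈ B, c = x * y := by
  have hnorm : A ≤ Subgroup.normalizer (B : Set S) := by
    apply Cfsg.Agent.Lib.Helper32.le_normalizer_of_conj_mem
    intro k hk b hb
    rw [hcomm k hk b hb, mul_inv_cancel_right]; exact hb
  rw [← SetLike.mem_coe, Subgroup.coe_mul_of_left_le_normalizer_right A B hnorm] at hc
  obtain ⟨a, ha, b, hb, rfl⟩ := hc
  exact ⟨a, ha, b, hb, rfl⟩

theorem le_normalizer_of_comm {S : Type*} [Group S] (A B : Subgroup S)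
    (hcomm : ∀ x ∈ A, ∀ y ∈ B, x * y = y * x) : A ≤ Subgroup.normalizer (B : Set S) := by
  apply Cfsg.Agent.Lib.Helper32.le_normalizer_of_conj_mem
  intro k hk b hb
  rw [hcomm k hk b hb, mul_inv_cancel_right]; exact hb

/-- sections of a direct product -/
theorem prod_bound {S : Type*} [Group S] [Finite S] (k : ℕ) (hr : SectionalPRankLE 2 k S)
    (B₁ N₁ B₂ N₂ : Subgroup S)
    (hcomm : ∀ x ∈ B₁, ∀ y ∈ B₂, x * y = y * x) (hinf : ∀ x, x ∈ B₁ → x ∈ B₂ → x = 1)
    (h1 : N₁ ≤ B₁) (h2 : N₂ ≤ B₂)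
    (hn1 : ∀ h ∈ B₁, ∀ n ∈ N₁, h * n * h⁻¹ ∈ N₁) (hn2 : ∀ h ∈ B₂, ∀ n ∈ N₂, h * n * h⁻¹ ∈ N₂)
    (hs1 : ∀ h ∈ B₁, h ^ 2 ∈ N₁) (hs2 : ∀ h ∈ B₂, h ^ 2 ∈ N₂) :
    Nat.card B₁ * Nat.card B₂ ≤ 2 ^ k * (Nat.card N₁ * Nat.card N₂) := by
  have hB := Cfsg.Agent.Lib.Helper51.card_sup_mul_card_inf_of_le_normalizer B₁ B₂
    (le_normalizer_of_comm B₁ B₂ hcomm)
  have hbot : B₁ ⊓ B₂ = ⊥ := by
    rw [eq_bot_iff]
    intro x hx
    exact Subgroup.mem_bot.mpr (hinf x hx.1 hx.2)
  rw [hbot, Subgroup.card_bot, mul_one] at hB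
  have hN := Cfsg.Agent.Lib.Helper51.card_sup_mul_card_inf_of_le_normalizer N₁ N₂
    (le_normalizer_of_comm N₁ N₂ (fun x hx y hy => hcomm x (h1 hx) y (h2 hy)))
  have hN' : Nat.card ↥(N₁ ⊔ N₂) ≤ Nat.card N₁ * Nat.card N₂ := by
    rw [← hN]; exact Nat.le_mul_of_pos_right _ Nat.card_pos
  have hnorm : B₁ ⊔ B₂ ≤ Subgroup.normalizer ((N₁ ⊔ N₂ : Subgroup S) : Set S) := by
    apply sup_le
    · apply Cfsg.Agent.Lib.Helper32.le_normalizer_of_conj_mem
      intro b hb n hn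
      have h3 : (N₁ ⊔ N₂).map (MulAut.conj b).toMonoidHom ≤ N₁ ⊔ N₂ := by
        rw [Subgroup.map_sup]
        apply sup_le_sup
        · rintro _ ⟨n, hn, rfl⟩
          exact hn1 b hb n hn
        · rintro _ ⟨n, hn, rfl⟩
          show b * n * b⁻¹ ∈ N₂
          rw [hcomm b hb n (h2 hn), mul_inv_cancel_right]; exact hn
      exact h3 ⟨n, hn, rfl⟩
    · apply Cfsg.Agent.Lib.Helper32.le_normalizer_of_conj_mem
      intro b hb n hn
      have h3 : (N₁ ⊔ N₂).map (MulAut.conj b).toMonoidHom ≤ N₁ ⊔ N₂ := by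
        rw [Subgroup.map_sup]
        apply sup_le_sup
        · rintro _ ⟨n, hn, rfl⟩
          show b * n * b⁻¹ ∈ N₁
          rw [← hcomm n (h1 hn) b hb, mul_inv_cancel_right]; exact hn
        · rintro _ ⟨n, hn, rfl⟩
          exact hn2 b hb n hn
      exact h3 ⟨n, hn, rfl⟩
  have hb := section_bound' k hr (B₁ ⊔ B₂) (N₁ ⊔ N₂) (sup_le_sup h1 h2)
    (fun h hh n hn => (Subgroup.mem_normalizer_iff.mp (hnorm hh) n).mp hn) ?_
  · rw [← hB]
    exact hb.trans (Nat.mul_le_mul_left _ hN')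
  · intro h hh
    obtain ⟨x, hx, y, hy, rfl⟩ := mem_sup_of_comm B₁ B₂ hcomm h hh
    have hc : Commute x y := hcomm x hx y hy
    rw [hc.mul_pow]
    exact mul_mem (Subgroup.mem_sup_left (hs1 x hx)) (Subgroup.mem_sup_right (hs2 y hy))

/-- central elements of a direct product of two groups with centres of order two -/
theorem central_class {S : Type*} [Group S] (P Q : Subgroup S)
    (hcomm : ∀ x ∈ P, ∀ y ∈ Q, x * y = y * x) (z z' : S)
    (hzu : ∀ x ∈ P, (∀ y ∈ P, y * x = x * y) → x = 1 ∨ x = z)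
    (hzu' : ∀ x ∈ Q, (∀ y ∈ Q, y * x = x * y) → x = 1 ∨ x = z')
    (c : S) (hc : c ∈ P ⊔ Q) (hcP : ∀ x ∈ P, x * c = c * x) (hcQ : ∀ y ∈ Q, y * c = c * y) :
    c = 1 ∨ c = z ∨ c = z' ∨ c = z * z' := by
  obtain ⟨x, hx, y, hy, rfl⟩ := mem_sup_of_comm P Q hcomm c hc
  have hxc : ∀ p ∈ P, p * x = x * p := by
    intro p hp
    have h1 := hcP p hp
    have h3 : p * x * y = x * p * y := by
      calc p * x * y = p * (x * y) := by group
        _ = x * y * p := h1
        _ = x * (y * p) := by group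
        _ = x * p * y := by rw [← hcomm p hp y hy]; group
    exact mul_right_cancel h3
  have hyc : ∀ q ∈ Q, q * y = y * q := by
    intro q hq
    have h1 := hcQ q hq
    have h3 : x * (q * y) = x * (y * q) := by
      calc x * (q * y) = (x * q) * y := by group
        _ = q * (x * y) := by rw [hcomm x hx q hq]; group
        _ = x * y * q := h1
        _ = x * (y * q) := by group
    exact mul_left_cancel h3
  rcases hzu x hx hxc with rfl | rfl <;> rcases hzu' y hy hyc with rfl | rfl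
  · left; simp
  · right; right; left; simp
  · right; left; simp
  · right; right; right; rfl

/-- Let S be a finite 2-group of sectional 2-rank at most 4 and P a proper non-abelian subgroup whose centre has order 2. Let S₀ be the centralizer in S of Z(P) and suppose P is normal in S₀. Then either S₀ = S, or P has sectional 2-rank at most 2 and S₀ has index 2 in S. -/
theorem result {S : Type*} [Group S] [Finite S] (h2 : IsPGroup 2 S) (hr : Cfsg.SectionalPRankLE 2 4 S)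
    (P : Subgroup S) (hPlt : P ≠ ⊤) (hP : ¬ IsMulCommutative ↥P) (hZP : Nat.card ↥(Subgroup.center ↥P) = 2)
    (S₀ : Subgroup S) (hS₀ : S₀ = Subgroup.centralizer (((Subgroup.center ↥P).map P.subtype : Subgroup S) : Set S))
    (hPn : ∀ s ∈ S₀, ∀ x ∈ P, s * x * s⁻¹ ∈ P) :
    S₀ = ⊤ ∨ (Cfsg.SectionalPRankLE 2 2 ↥P ∧ S₀.index = 2) := by
  have : Fact (Nat.Prime 2) := ⟨Nat.prime_two⟩
  have hnil : Group.IsNilpotent S := h2.isNilpotent
  obtain ⟨z, hz1, hzP, hzc, hzu⟩ := Cfsg.Agent.S4400.exists_center_gen P hZP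
  have hmem : ∀ s : S, s ∈ S₀ ↔ s * z = z * s := by
    intro s
    rw [hS₀, Subgroup.mem_centralizer_iff]
    constructor
    · intro h
      exact (h z ((Cfsg.Agent.S4400.mem_map_center_iff P z).mpr ⟨hzP, hzc⟩)).symm
    · intro h x hx
      obtain ⟨hxP, hxc⟩ := (Cfsg.Agent.S4400.mem_map_center_iff P x).mp hx
      rcases hzu x hxP hxc with rfl | rfl
      · simp
      · exact h.symm
  have hzz : z * z = 1 := by
    rcases hzu (z * z) (mul_mem hzP hzP) (fun y hy => by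
      rw [← mul_assoc, hzc y hy, mul_assoc, hzc y hy, mul_assoc]) with h | h
    · exact h
    · exfalso; apply hz1
      exact mul_left_cancel (a := z) (by rw [h, mul_one])
  have hPS₀ : P ≤ S₀ := fun x hx => (hmem x).mpr (hzc x hx)
  by_cases htop : S₀ = ⊤
  · exact Or.inl htop
  right
  have hnc := Group.normalizerCondition_of_isNilpotent (G := S)
  obtain ⟨T, hT⟩ : ∃ T, T = Subgroup.normalizer (S₀ : Set S) := ⟨_, rfl⟩
  have hlt : S₀ < T := by rw [hT]; exact hnc S₀ (lt_top_iff_ne_top.mpr htop)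
  obtain ⟨g, hgT, hgS₀⟩ := SetLike.exists_of_lt hlt
  have hS₀T : S₀ ≤ T := hlt.le
  have hTconj : ∀ t ∈ T, ∀ s ∈ S₀, t * s * t⁻¹ ∈ S₀ := by
    intro t ht s hs
    rw [hT] at ht
    exact (Subgroup.mem_normalizer_iff.mp ht s).mp hs
  have hTconj' : ∀ t ∈ T, ∀ s ∈ S₀, t⁻¹ * s * t ∈ S₀ := by
    intro t ht s hs
    have := hTconj t⁻¹ (inv_mem ht) s hs
    rwa [inv_inv] at this
  have hzS₀ : z ∈ S₀ := hPS₀ hzP
  obtain ⟨z', hz'⟩ : ∃ z', z' = g * z * g⁻¹ := ⟨_, rfl⟩
  obtain ⟨Q, hQdef⟩ : ∃ Q, Q = P.map (MulAut.conj g).toMonoidHom := ⟨_, rfl⟩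
  have hQmem : ∀ x ∈ P, g * x * g⁻¹ ∈ Q := by
    intro x hx; rw [hQdef]; exact ⟨x, hx, rfl⟩
  have hQex : ∀ y ∈ Q, ∃ x ∈ P, y = g * x * g⁻¹ := by
    intro y hy; rw [hQdef] at hy
    obtain ⟨x, hx, rfl⟩ := hy
    exact ⟨x, hx, rfl⟩
  have hz'ne : z' ≠ z := by
    intro h
    apply hgS₀
    rw [hmem]
    have h1 : g * z * g⁻¹ = z := by rw [← hz']; exact h
    exact mul_inv_eq_iff_eq_mul.mp h1
  have hz'1 : z' ≠ 1 := by
    intro h
    apply hz1
    have : z = g⁻¹ * z' * g := by rw [hz']; group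
    rw [this, h]; group
  have hz'z' : z' * z' = 1 := by
    have : z' * z' = g * (z * z) * g⁻¹ := by rw [hz']; group
    rw [this, hzz]; group
  have hQS₀ : Q ≤ S₀ := by
    intro y hy
    obtain ⟨x, hx, rfl⟩ := hQex y hy
    exact hTconj g hgT x (hPS₀ hx)
  have hQn : ∀ s ∈ S₀, ∀ y ∈ Q, s * y * s⁻¹ ∈ Q := by
    intro s hs y hy
    obtain ⟨x, hx, rfl⟩ := hQex y hy
    have e : s * (g * x * g⁻¹) * s⁻¹ = g * ((g⁻¹ * s * g) * x * (g⁻¹ * s * g)⁻¹) * g⁻¹ := by group
    rw [e]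
    exact hQmem _ (hPn _ (hTconj' g hgT s hs) x hx)
  have eQ : P ≃* Q := by
    rw [hQdef]
    exact Subgroup.equivMapOfInjective P _ (MulAut.conj g).injective
  have hQ : ¬ IsMulCommutative ↥Q := fun h => hP ⟨⟨fun a b =>
    eQ.injective (by rw [map_mul, map_mul]; exact h.is_comm.comm _ _)⟩⟩
  have hZQ : Nat.card ↥(Subgroup.center ↥Q) = 2 := by
    rw [← Nat.card_congr (Subgroup.centerCongr eQ).toEquiv]; exact hZP
  have hz'Q : z' ∈ Q := by rw [hz']; exact hQmem z hzP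
  have hzu' : ∀ y ∈ Q, (∀ q ∈ Q, q * y = y * q) → y = 1 ∨ y = z' := by
    intro y hy hyc
    obtain ⟨x, hx, rfl⟩ := hQex y hy
    have hxc : ∀ p ∈ P, p * x = x * p := by
      intro p hp
      have h1 := hyc _ (hQmem p hp)
      have e1 : g * p * g⁻¹ * (g * x * g⁻¹) = g * (p * x) * g⁻¹ := by group
      have e2 : g * x * g⁻¹ * (g * p * g⁻¹) = g * (x * p) * g⁻¹ := by group
      rw [e1, e2] at h1
      exact mul_left_cancel (mul_right_cancel h1)
    rcases hzu x hx hxc with rfl | rfl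
    · left; group
    · right; exact hz'.symm
  have hzQ : ¬ (z ∈ Q ∧ ∀ y ∈ Q, y * z = z * y) := by
    rintro ⟨h1, h3⟩
    rcases hzu' z h1 h3 with h | h
    · exact hz1 h
    · exact hz'ne h.symm
  obtain ⟨hcomm, hinf, hcent⟩ := rel h2 hr S₀ P Q hPS₀ hQS₀ hPn hQn hP hQ hZP hZQ z hzP hzc hzQ
  -- the sectional rank of `P`
  have hsec : SectionalPRankLE 2 2 ↥P := by
    apply sectional_subgroup_of_bound
    intro B N hBP hNB hn hsq
    have hBQ : B.map (MulAut.conj g).toMonoidHom ≤ Q := by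
      rw [hQdef]; exact Subgroup.map_mono hBP
    have h := prod_bound 4 hr B N (B.map (MulAut.conj g).toMonoidHom)
      (N.map (MulAut.conj g).toMonoidHom)
      (fun x hx y hy => hcomm x (hBP hx) y (hBQ hy))
      (fun x hx hy => hinf x (hBP hx) (hBQ hy)) hNB (Subgroup.map_mono hNB) hn
      (by
        rintro _ ⟨h, hh, rfl⟩ _ ⟨n, hn', rfl⟩
        exact ⟨h * n * h⁻¹, hn h hh n hn', by rw [map_mul, map_mul, map_inv]⟩) hsq
      (by
        rintro _ ⟨h, hh, rfl⟩
        exact ⟨h ^ 2, hsq h hh, by simp⟩)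
    rw [Subgroup.card_map_of_injective (MulAut.conj g).injective,
      Subgroup.card_map_of_injective (MulAut.conj g).injective] at h
    apply Nat.mul_self_le_mul_self_iff.mp
    calc Nat.card B * Nat.card B ≤ 2 ^ 4 * (Nat.card N * Nat.card N) := h
      _ = 2 ^ 2 * Nat.card N * (2 ^ 2 * Nat.card N) := by ring
  refine ⟨hsec, ?_⟩
  obtain ⟨w, hw⟩ : ∃ w, w = z * z' := ⟨_, rfl⟩
  have hzz'c : z * z' = z' * z := hcomm z hzP z' hz'Q
  have hw1 : w ≠ 1 := by
    intro h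
    apply hz'ne
    have h1 : z * z' = z * z := by rw [← hw, h, hzz]
    exact mul_left_cancel h1
  have hzw : z * w = z' := by rw [hw, ← mul_assoc, hzz, one_mul]
  have hz'w : z' * w = z := by rw [hw, hzz'c, ← mul_assoc, hz'z', one_mul]
  have hwS₀ : w ∈ S₀ := by rw [hw]; exact mul_mem hzS₀ (hQS₀ hz'Q)
  have hwP : w ∉ P := by
    intro h
    apply hz'1
    apply hinf z' _ hz'Q
    rw [← hzw]; exact mul_mem hzP h
  have hwQ : w ∉ Q := by
    intro h
    apply hz1
    apply hinf z hzP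
    rw [← hz'w]; exact mul_mem hz'Q h
  have hwz : w ≠ z := by
    intro h
    apply hz'1
    have h1 : z * z' = z * 1 := by rw [← hw, h, mul_one]
    exact mul_left_cancel h1
  have hV : ∀ c ∈ S₀, (∀ s ∈ S₀, s * c = c * s) → c = 1 ∨ c = z ∨ c = z' ∨ c = w := by
    intro c hc hcc
    rw [hw]
    exact central_class P Q hcomm z z' hzu hzu' c
      (hcent c hc (fun x hx => hcc x (hPS₀ hx)) (fun y hy => hcc y (hQS₀ hy)))
      (fun x hx => hcc x (hPS₀ hx)) (fun y hy => hcc y (hQS₀ hy))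
  have hgz : g * z ≠ z * g := fun h => hgS₀ ((hmem g).mpr h)
  have hgz' : g * z' ≠ z' * g := by
    intro h
    apply hz'ne
    have h1 : g * z' = g * z := by rw [h, hz']; group
    exact mul_left_cancel h1
  have hwT : ∀ t ∈ T, t * w = w * t := by
    have hNn : ((S₀ ⊓ Subgroup.centralizer (S₀ : Set S)).subgroupOf T).Normal := by
      refine ⟨fun n hn t => ?_⟩
      rw [Subgroup.mem_subgroupOf, Subgroup.mem_inf] at hn ⊢
      refine ⟨hTconj t t.2 n hn.1, ?_⟩
      rw [Subgroup.mem_centralizer_iff]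
      intro s hs
      have h1 := Subgroup.mem_centralizer_iff.mp hn.2 _ (hTconj' t t.2 s hs)
      show s * ((t : S) * n * (t : S)⁻¹) = (t : S) * n * (t : S)⁻¹ * s
      calc s * ((t : S) * n * (t : S)⁻¹) = t * (((t : S)⁻¹ * s * t) * n) * (t : S)⁻¹ := by group
        _ = t * (n * ((t : S)⁻¹ * s * t)) * (t : S)⁻¹ := by rw [h1]
        _ = (t : S) * n * (t : S)⁻¹ * s := by group
    have hNne : (S₀ ⊓ Subgroup.centralizer (S₀ : Set S)).subgroupOf T ≠ ⊥ := by
      intro h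
      have h1 : (⟨z, hS₀T hzS₀⟩ : T) ∈ (S₀ ⊓ Subgroup.centralizer (S₀ : Set S)).subgroupOf T := by
        rw [Subgroup.mem_subgroupOf, Subgroup.mem_inf]
        refine ⟨hzS₀, ?_⟩
        rw [Subgroup.mem_centralizer_iff]
        intro s hs
        exact (hmem s).mp hs
      rw [h, Subgroup.mem_bot] at h1
      exact hz1 (congrArg Subtype.val h1)
    obtain ⟨v, hvN, hvc, hv2⟩ := exists_central_orderOf_eq_prime (h2.to_subgroup T) _ hNne
    rw [Subgroup.mem_subgroupOf, Subgroup.mem_inf] at hvN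
    have hvT : ∀ t ∈ T, t * (v : S) = v * t := fun t ht =>
      congrArg Subtype.val (Subgroup.mem_center_iff.mp hvc ⟨t, ht⟩)
    have hv1 : (v : S) ≠ 1 := by
      intro h
      have h3 : v = 1 := Subtype.ext h
      rw [h3, orderOf_one] at hv2; omega
    rcases hV v hvN.1 (fun s hs => Subgroup.mem_centralizer_iff.mp hvN.2 s hs) with h | h | h | h
    · exact absurd h hv1
    · exact absurd (by rw [← h]; exact hvT g hgT) hgz
    · exact absurd (by rw [← h]; exact hvT g hgT) hgz'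
    · rw [← h]; exact hvT
  have hTz : ∀ t ∈ T, t ∉ S₀ → t * z * t⁻¹ = z' := by
    intro t ht htS
    have hc : ∀ s ∈ S₀, s * (t * z * t⁻¹) = t * z * t⁻¹ * s := by
      intro s hs
      have h1 := (hmem _).mp (hTconj' t ht s hs)
      calc s * (t * z * t⁻¹) = t * ((t⁻¹ * s * t) * z) * t⁻¹ := by group
        _ = t * (z * (t⁻¹ * s * t)) * t⁻¹ := by rw [h1]
        _ = t * z * t⁻¹ * s := by group
    rcases hV _ (hTconj t ht z hzS₀) hc with h | h | h | h
    · exfalso; apply hz1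
      have h3 : z = t⁻¹ * (t * z * t⁻¹) * t := by group
      rw [h3, h]; group
    · exfalso; exact htS ((hmem t).mpr (mul_inv_eq_iff_eq_mul.mp h))
    · exact h
    · exfalso; apply hwz
      have h1 : t * w * t⁻¹ = w := mul_inv_eq_iff_eq_mul.mpr (hwT t ht)
      have h3 : t * w * t⁻¹ = t * z * t⁻¹ := by rw [h1, h]
      exact mul_left_cancel (mul_right_cancel h3)
  have hTP : ∀ t ∈ T, t ∉ S₀ → ∀ x ∈ P, t * x * t⁻¹ ∈ Q := by
    intro t ht htS x hx
    have h1 : g⁻¹ * t ∈ S₀ := by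
      rw [hmem]
      have h3 := hTz t ht htS
      rw [hz'] at h3
      calc g⁻¹ * t * z = g⁻¹ * (t * z * t⁻¹) * t := by group
        _ = g⁻¹ * (g * z * g⁻¹) * t := by rw [h3]
        _ = z * (g⁻¹ * t) := by group
    have e : t * x * t⁻¹ = g * ((g⁻¹ * t) * x * (g⁻¹ * t)⁻¹) * g⁻¹ := by group
    rw [e]
    exact hQmem _ (hPn _ h1 x hx)
  have hTtop : T = ⊤ := by
    by_contra hTne
    have hlt2 := hnc T (lt_top_iff_ne_top.mpr hTne)
    obtain ⟨u, huN, huT⟩ := SetLike.exists_of_lt hlt2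
    have hUconj : ∀ t ∈ T, u * t * u⁻¹ ∈ T := fun t ht =>
      (Subgroup.mem_normalizer_iff.mp huN t).mp ht
    have hUconj' : ∀ t ∈ T, u⁻¹ * t * u ∈ T := by
      intro t ht
      have := (Subgroup.mem_normalizer_iff.mp (inv_mem huN) t).mp ht
      rwa [inv_inv] at this
    obtain ⟨z₂, hz₂⟩ : ∃ z₂, z₂ = u * z * u⁻¹ := ⟨_, rfl⟩
    have hz₂T : z₂ ∈ T := by rw [hz₂]; exact hUconj z (hS₀T hzS₀)
    have hZT : ∀ c ∈ T, (∀ t ∈ T, t * c = c * t) → c = 1 ∨ c = w := by
      intro c hc hcc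
      have hcS : c ∈ S₀ := (hmem c).mpr (hcc z (hS₀T hzS₀)).symm
      rcases hV c hcS (fun s hs => hcc s (hS₀T hs)) with h | h | h | h
      · exact Or.inl h
      · exact absurd (by rw [← h]; exact hcc g hgT) hgz
      · exact absurd (by rw [← h]; exact hcc g hgT) hgz'
      · exact Or.inr h
    have huw : u * w * u⁻¹ = w := by
      have hc : ∀ t ∈ T, t * (u * w * u⁻¹) = u * w * u⁻¹ * t := by
        intro t ht
        have h1 := hwT _ (hUconj' t ht)
        calc t * (u * w * u⁻¹) = u * ((u⁻¹ * t * u) * w) * u⁻¹ := by group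
          _ = u * (w * (u⁻¹ * t * u)) * u⁻¹ := by rw [h1]
          _ = u * w * u⁻¹ * t := by group
      rcases hZT _ (hUconj w (hS₀T hwS₀)) hc with h | h
      · exfalso; apply hw1
        have h3 : w = u⁻¹ * (u * w * u⁻¹) * u := by group
        rw [h3, h]; group
      · exact h
    have hconj2 : ∀ x ∈ T, x * z₂ * x⁻¹ = z₂ ∨ x * z₂ * x⁻¹ = z₂ * w := by
      intro x hx
      have ht := hUconj' x hx
      have e : x * z₂ * x⁻¹ = u * ((u⁻¹ * x * u) * z * (u⁻¹ * x * u)⁻¹) * u⁻¹ := by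
        rw [hz₂]; group
      by_cases hts : u⁻¹ * x * u ∈ S₀
      · left
        rw [e, mul_inv_eq_iff_eq_mul.mpr ((hmem _).mp hts), hz₂]
      · right
        rw [e, hTz _ ht hts, ← hzw, hz₂]
        calc u * (z * w) * u⁻¹ = u * z * u⁻¹ * (u * w * u⁻¹) := by group
          _ = u * z * u⁻¹ * w := by rw [huw]
    by_cases hz₂S : z₂ ∈ S₀
    · have hcP : ∀ x ∈ P, x * z₂ = z₂ * x := by
        intro x hx
        rcases hconj2 x (hS₀T (hPS₀ hx)) with h | h
        · exact mul_inv_eq_iff_eq_mul.mp h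
        · exfalso; apply hwP
          have e : w = (z₂⁻¹ * x * z₂⁻¹⁻¹) * x⁻¹ := by
            have h3 : w = z₂⁻¹ * (x * z₂ * x⁻¹) := by rw [h]; group
            rw [h3]; group
          rw [e]
          exact mul_mem (hPn _ (inv_mem hz₂S) x hx) (inv_mem hx)
      have hcQ : ∀ y ∈ Q, y * z₂ = z₂ * y := by
        intro x hx
        rcases hconj2 x (hS₀T (hQS₀ hx)) with h | h
        · exact mul_inv_eq_iff_eq_mul.mp h
        · exfalso; apply hwQ
          have e : w = (z₂⁻¹ * x * z₂⁻¹⁻¹) * x⁻¹ := by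
            have h3 : w = z₂⁻¹ * (x * z₂ * x⁻¹) := by rw [h]; group
            rw [h3]; group
          rw [e]
          exact mul_mem (hQn _ (inv_mem hz₂S) x hx) (inv_mem hx)
      rcases central_class P Q hcomm z z' hzu hzu' z₂ (hcent z₂ hz₂S hcP hcQ) hcP hcQ with
        h | h | h | h
      · apply hz1
        have h3 : z = u⁻¹ * (u * z * u⁻¹) * u := by group
        rw [h3, ← hz₂, h]; group
      · apply huT
        apply hS₀T
        rw [hmem]
        rw [hz₂] at h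
        exact mul_inv_eq_iff_eq_mul.mp h
      · apply huT
        have h1 : g⁻¹ * u ∈ S₀ := by
          rw [hmem]
          rw [hz₂, hz'] at h
          calc g⁻¹ * u * z = g⁻¹ * (u * z * u⁻¹) * u := by group
            _ = g⁻¹ * (g * z * g⁻¹) * u := by rw [h]
            _ = z * (g⁻¹ * u) := by group
        have e : u = g * (g⁻¹ * u) := by group
        rw [e]
        exact mul_mem hgT (hS₀T h1)
      · apply hwz
        rw [← hw, hz₂] at h
        have h3 : u * w * u⁻¹ = u * z * u⁻¹ := by rw [huw, h]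
        exact mul_left_cancel (mul_right_cancel h3)
    · have hz₂i : z₂⁻¹ ∉ S₀ := fun h => hz₂S (by simpa using inv_mem h)
      have hall : ∀ x ∈ P, x = 1 ∨ x = z := by
        intro x hx
        have hy : z₂⁻¹ * x * z₂ ∈ Q := by
          have := hTP z₂⁻¹ (inv_mem hz₂T) hz₂i x hx
          rwa [inv_inv] at this
        rcases hconj2 x (hS₀T (hPS₀ hx)) with h | h
        · left
          apply hinf x hx
          have e : z₂⁻¹ * x * z₂ = x := by
            have h1 : x * z₂ = z₂ * x := mul_inv_eq_iff_eq_mul.mp h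
            rw [mul_assoc, h1]; group
          rw [← e]; exact hy
        · right
          have e : z₂⁻¹ * x * z₂ = w * x := by
            have h1 : x * z₂ = z₂ * w * x := mul_inv_eq_iff_eq_mul.mp h
            rw [mul_assoc, h1]; group
          have h3 : z * x ∈ Q := by
            have h4 : z * x = z' * (z₂⁻¹ * x * z₂) := by rw [e, ← mul_assoc, hz'w]
            rw [h4]; exact mul_mem hz'Q hy
          have h4 := hinf (z * x) (mul_mem hzP hx) h3
          have h5 : z * x = z * z := by rw [h4, hzz]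
          exact mul_left_cancel h5
      apply hP
      refine ⟨⟨fun a b => ?_⟩⟩
      apply Subtype.ext
      show (a : S) * b = b * a
      rcases hall a a.2 with h | h <;> rcases hall b b.2 with h' | h' <;> simp [h, h']
  rw [Subgroup.index_eq_two_iff]
  refine ⟨g, fun b => ?_⟩
  have hbT : b ∈ T := by rw [hTtop]; trivial
  by_cases hb : b ∈ S₀
  · right
    refine ⟨hb, fun h => hgS₀ ?_⟩
    exact (Subgroup.mul_mem_cancel_left S₀ hb).mp h
  · left
    refine ⟨?_, hb⟩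
    rw [hmem]
    have h1 := hTz b hbT hb
    have h3 : b * z' * b⁻¹ = z := by
      rw [← hzw]
      calc b * (z * w) * b⁻¹ = (b * z * b⁻¹) * (b * w * b⁻¹) := by group
        _ = z' * w := by rw [h1, mul_inv_eq_iff_eq_mul.mpr (hwT b hbT)]
        _ = z := hz'w
    calc b * g * z = (b * (g * z * g⁻¹) * b⁻¹) * (b * g) := by group
      _ = z * (b * g) := by rw [← hz', h3]

end Cfsg.Agent.S4401
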