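import Cfsg.Statements.S4405
import Mathlib
import Cfsg.Agent.S0044
import Cfsg.Agent.S0144
import Cfsg.Agent.Lib.Lead.Cores

set_option autoImplicit false
open Cfsg

namespace Cfsg.Agent.S4405

open Subgroup
open scoped commutatorElement

theorem part1 {G : Type*} [Group G] [Finite G] (hG : Nat.card G = 320)
    (H : Subgroup G) [H.Normal] (h32 : Nat.card H = 32)
    (hmaxH : ∀ N : Subgroup G, N.Normal → IsPGroup 2 N → N ≤ H)
    (T : G) (hT : orderOf T = 2) (hTH : T ∉ H) (f : G) (hf : orderOf f = 5) :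
    (∀ Γ : Subgroup G, H ⊔ zpowers T ≤ Γ → Γ = H ⊔ zpowers T ∨ Γ = ⊤) ∧ f * T * f⁻¹ ∉ H ⊔ zpowers T := by
  classical
  set L := H ⊔ zpowers T with hL
  have hHp : IsPGroup 2 H := IsPGroup.of_card (n := 5) (by rw [h32]; norm_num)
  have hTp : IsPGroup 2 (zpowers T) := IsPGroup.of_card (n := 1) (by rw [Nat.card_zpowers, hT]; norm_num)
  have hLp : IsPGroup 2 L := IsPGroup.to_sup_of_normal_left hHp hTp
  have hHL : H ≤ L := le_sup_left
  have hTL : T ∈ L := (le_sup_right : zpowers T ≤ L) (mem_zpowers T)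
  have hL64 : Nat.card L = 64 := by
    obtain ⟨k, hk⟩ := IsPGroup.iff_card.mp hLp
    have h1 : 32 ∣ Nat.card L := by rw [← h32]; exact Subgroup.card_dvd_of_le hHL
    have h2 : Nat.card L ∣ 320 := by rw [← hG]; exact Subgroup.card_subgroup_dvd_card L
    have h3 : Nat.card L ≠ 32 := by
      intro h
      have : H = L := Subgroup.eq_of_le_of_card_ge hHL (by rw [h, h32])
      exact hTH (this ▸ hTL)
    have hk6 : k ≤ 6 := by
      by_contra hc
      have : 2 ^ 7 ∣ 2 ^ k := Nat.pow_dvd_pow 2 (by omega)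
      have := (this.trans (hk ▸ h2))
      norm_num at this
    rw [hk] at h1 h3 ⊢
    interval_cases k <;> omega
  have hmax : ∀ Γ : Subgroup G, L ≤ Γ → Γ = L ∨ Γ = ⊤ := by
    intro Γ hΓ
    have h1 : 64 ∣ Nat.card Γ := by rw [← hL64]; exact Subgroup.card_dvd_of_le hΓ
    have h2 : Nat.card Γ ∣ 320 := by rw [← hG]; exact Subgroup.card_subgroup_dvd_card Γ
    obtain ⟨m, hm⟩ := h1
    have hm5 : m ∣ 5 := by
      rw [hm] at h2
      exact Nat.dvd_of_mul_dvd_mul_left (by norm_num : 0 < 64) (by simpa using h2)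
    rcases (Nat.dvd_prime (by norm_num : Nat.Prime 5)).mp hm5 with h | h
    · left
      exact (Subgroup.eq_of_le_of_card_ge hΓ (by rw [hm, h, hL64])).symm
    · right
      exact Subgroup.eq_top_of_card_eq Γ (by rw [hm, h, hG])
  refine ⟨hmax, ?_⟩
  intro hT'
  have hfL : f ∉ L := by
    intro h
    have : orderOf (⟨f, h⟩ : L) ∣ Nat.card L := orderOf_dvd_natCard _
    rw [Subgroup.orderOf_mk, hf, hL64] at this
    norm_num at this
  have h1 : ∀ x ∈ L, f * x * f⁻¹ ∈ L := by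
    have : L ≤ L.comap (MulAut.conj f).toMonoidHom := by
      apply sup_le
      · intro x hx
        exact hHL (‹H.Normal›.conj_mem x hx f)
      · rw [Subgroup.zpowers_le]
        exact hT'
    intro x hx
    exact this hx
  have hf5 : f ^ 5 = 1 := by rw [← hf]; exact pow_orderOf_eq_one f
  have h2 : ∀ x ∈ L, f⁻¹ * x * f ∈ L := by
    intro x hx
    have := h1 _ (h1 _ (h1 _ (h1 _ hx)))
    have e : f⁻¹ = f ^ 4 := by
      rw [inv_eq_iff_mul_eq_one, ← pow_succ', hf5]
    have e' : f * (f * (f * (f * x * f⁻¹) * f⁻¹) * f⁻¹) * f⁻¹ = f ^ 4 * x * (f ^ 4)⁻¹ := by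
      simp only [pow_succ, pow_zero, one_mul, mul_inv_rev, mul_assoc]
    rw [e', ← e, inv_inv] at this
    exact this
  have hfN : f ∈ normalizer (L : Set G) := by
    rw [Subgroup.mem_normalizer_iff]
    intro x
    refine ⟨h1 x, fun h => ?_⟩
    have := h2 _ h
    simpa [mul_assoc] using this
  have hN : normalizer (L : Set G) = ⊤ := by
    rcases hmax _ Subgroup.le_normalizer with h | h
    · exact absurd (h ▸ hfN) hfL
    · exact h
  have hLn : L.Normal := Subgroup.normalizer_eq_top_iff.mp hN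
  exact hTH (hmaxH L hLn hLp hTL)

theorem part2 {G : Type*} [Group G] [Finite G] (H : Subgroup G) [H.Normal] (h32 : Nat.card H = 32)
    (hCH : centralizer (H : Set G) ≤ H) (f : G) (hf : orderOf f = 5) :
    Nat.card ↥(H ⊓ centralizer {f}) ≤ 2 := by
  classical
  have : Fact (Nat.Prime 5) := ⟨by norm_num⟩
  have hFp : IsPGroup 5 (zpowers f) := IsPGroup.of_card (n := 1) (by rw [Nat.card_zpowers, hf]; norm_num)
  let _ : MulAction (zpowers f) H := MulAction.compHom H ((MulAut.conjNormal (H := H)).comp (zpowers f).subtype)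
  have hsm : ∀ (g : zpowers f) (x : H), ((g • x : H) : G) = g.1 * x.1 * g.1⁻¹ := fun g x => rfl
  have hmod := hFp.card_modEq_card_fixedPoints (α := H)
  have hcard : Nat.card (MulAction.fixedPoints (zpowers f) H) = Nat.card ↥(H ⊓ centralizer {f}) := by
    apply Nat.card_congr
    refine { toFun := fun x => ⟨x.1.1, x.1.2, ?_⟩, invFun := fun x => ⟨⟨x.1, x.2.1⟩, ?_⟩, left_inv := fun x => rfl, right_inv := fun x => rfl }
    · show x.1.1 ∈ centralizer {f}
      rw [mem_centralizer_singleton_iff]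
      have := x.2 ⟨f, mem_zpowers f⟩
      have h2 := congrArg Subtype.val this
      rw [hsm] at h2
      exact (mul_inv_eq_iff_eq_mul.mp h2).symm
    · intro g
      apply Subtype.ext
      rw [hsm]
      have h1 : zpowers f ≤ centralizer {x.1} := by
        rw [zpowers_le, mem_centralizer_singleton_iff]
        exact (mem_centralizer_singleton_iff.mp x.2.2).symm
      have h2 := mem_centralizer_singleton_iff.mp (h1 g.2)
      rw [mul_inv_eq_iff_eq_mul]
      exact h2
  rw [hcard, h32] at hmod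
  have hd : Nat.card ↥(H ⊓ centralizer {f}) ∣ 32 := by
    rw [← h32]; exact Subgroup.card_dvd_of_le inf_le_left
  have hne : Nat.card ↥(H ⊓ centralizer {f}) ≠ 32 := by
    intro h
    have h1 : H ⊓ centralizer {f} = H := Subgroup.eq_of_le_of_card_ge inf_le_left (by rw [h, h32])
    have h2 : f ∈ centralizer (H : Set G) := by
      rw [mem_centralizer_iff]
      intro x hx
      have : x ∈ H ⊓ centralizer {f} := by rw [h1]; exact hx
      exact (mem_centralizer_singleton_iff.mp this.2)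
    have h3 := hCH h2
    have : orderOf (⟨f, h3⟩ : H) ∣ Nat.card H := orderOf_dvd_natCard _
    rw [Subgroup.orderOf_mk, hf, h32] at this
    norm_num at this
  have hle : Nat.card ↥(H ⊓ centralizer {f}) ≤ 32 := Nat.le_of_dvd (by norm_num) hd
  unfold Nat.ModEq at hmod
  generalize Nat.card ↥(H ⊓ centralizer {f}) = c at *
  interval_cases c <;> omega

theorem coprime_trick {G : Type*} [Group G] (Z : Subgroup G)
    (hZc : ∀ ζ ∈ Z, ∀ g : G, g * ζ = ζ * g) (hZsq : ∀ ζ ∈ Z, ζ * ζ = 1)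
    (f w : G) (hf5 : f ^ 5 = 1) (h : (w * f)⁻¹ * (f * w) ∈ Z) : w * f = f * w := by
  set ζ := (w * f)⁻¹ * (f * w) with hζ
  have e : f * w = w * f * ζ := by rw [hζ]; group
  have key : ∀ n : ℕ, f ^ n * w = w * f ^ n * ζ ^ n := by
    intro n
    induction n with
    | zero => simp
    | succ n ih =>
      have c1 : f ^ n * ζ = ζ * f ^ n := hZc ζ h _
      calc f ^ (n + 1) * w = f ^ n * (f * w) := by rw [pow_succ, mul_assoc]
        _ = f ^ n * (w * f * ζ) := by rw [e]
        _ = (f ^ n * w) * f * ζ := by simp only [mul_assoc]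
        _ = (w * f ^ n * ζ ^ n) * f * ζ := by rw [ih]
        _ = w * f ^ n * (ζ ^ n * f) * ζ := by simp only [mul_assoc]
        _ = w * f ^ n * (f * ζ ^ n) * ζ := by
            have : f * ζ ^ n = ζ ^ n * f := hZc _ (Z.pow_mem h n) f
            rw [this]
        _ = w * f ^ (n + 1) * ζ ^ (n + 1) := by simp only [pow_succ, mul_assoc]
  have h5 := key 5
  rw [hf5, one_mul, mul_one] at h5
  have h6 : ζ ^ 5 = 1 := by
    have := h5.symm
    simpa using this
  have h7 : ζ = 1 := by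
    have h2 : ζ ^ 2 = 1 := by rw [pow_two]; exact hZsq ζ h
    calc ζ = ζ ^ 5 * ((ζ ^ 2) ^ 2)⁻¹ := by group
      _ = 1 := by rw [h6, h2]; simp
  rw [e, h7, mul_one]

theorem part3 {G : Type*} [Group G] [Finite G] (H Z : Subgroup G) [H.Normal] [Z.Normal] (h32 : Nat.card H = 32)
    (hZc : ∀ ζ ∈ Z, ∀ g : G, g * ζ = ζ * g) (hZsq : ∀ ζ ∈ Z, ζ * ζ = 1)
    (hcomm : ∀ a ∈ H, ∀ b ∈ H, a * b * a⁻¹ * b⁻¹ ∈ Z)
    (T f : G) (hf5 : f ^ 5 = 1)
    (hmax : ∀ Γ : Subgroup G, H ⊔ zpowers T ≤ Γ → Γ = H ⊔ zpowers T ∨ Γ = ⊤)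
    (hT' : f * T * f⁻¹ ∉ H ⊔ zpowers T)
    (hCf : Nat.card ↥(H ⊓ centralizer {f}) ≤ 2) :
    Nat.card ↥(H ⊓ (centralizer {(QuotientGroup.mk' Z T)}).comap (QuotientGroup.mk' Z)) ≤ 8 := by
  classical
  set π := QuotientGroup.mk' Z with hπ
  set W := H ⊓ (centralizer {π T}).comap π with hW
  set W' := W.map (MulAut.conj f).toMonoidHom with hW'
  set D0 := W ⊓ W' with hD0
  set Γ := (centralizer ((D0.map π : Subgroup (G ⧸ Z)) : Set (G ⧸ Z))).comap π with hΓ
  have F1 : ∀ a ∈ H, ∀ b ∈ H, π a * π b = π b * π a := by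
    intro a ha b hb
    rw [← map_mul, ← map_mul]
    apply QuotientGroup.eq.mpr
    have := hcomm b⁻¹ (H.inv_mem hb) a⁻¹ (H.inv_mem ha)
    simpa [mul_assoc] using this
  have hWH : W ≤ H := inf_le_left
  have hW'H : W' ≤ H := by
    rintro _ ⟨w, hw, rfl⟩
    exact ‹H.Normal›.conj_mem w (hWH hw) f
  have hmemΓ : ∀ x : G, x ∈ Γ ↔ ∀ w ∈ D0, π w * π x = π x * π w := by
    intro x
    rw [hΓ, mem_comap, mem_centralizer_iff]
    constructor
    · intro h w hw
      exact h (π w) ⟨w, hw, rfl⟩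
    · rintro h _ ⟨w, hw, rfl⟩
      exact h w hw
  have hHΓ : H ≤ Γ := by
    intro x hx
    rw [hmemΓ]
    intro w hw
    exact F1 w (hWH hw.1) x hx
  have hTΓ : T ∈ Γ := by
    rw [hmemΓ]
    intro w hw
    have := (Subgroup.mem_inf.mp (Subgroup.mem_inf.mp hw).1).2
    rw [mem_comap, mem_centralizer_singleton_iff] at this
    exact this
  have hT'Γ : f * T * f⁻¹ ∈ Γ := by
    rw [hmemΓ]
    intro w hw
    obtain ⟨w0, hw0, rfl⟩ := hw.2
    have := (Subgroup.mem_inf.mp hw0).2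
    rw [mem_comap, mem_centralizer_singleton_iff] at this
    have e1 : (MulAut.conj f).toMonoidHom w0 = f * w0 * f⁻¹ := rfl
    rw [e1]
    simp only [map_mul, map_inv]
    calc π f * π w0 * (π f)⁻¹ * (π f * π T * (π f)⁻¹) = π f * (π w0 * π T) * (π f)⁻¹ := by group
      _ = π f * (π T * π w0) * (π f)⁻¹ := by rw [this]
      _ = _ := by group
  have hLΓ : H ⊔ zpowers T ≤ Γ := sup_le hHΓ (by rw [zpowers_le]; exact hTΓ)
  have hΓtop : Γ = ⊤ := by
    rcases hmax Γ hLΓ with h | h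
    · exact absurd (h ▸ hT'Γ) hT'
    · exact h
  have hfΓ : f ∈ Γ := hΓtop ▸ mem_top f
  rw [hmemΓ] at hfΓ
  have hD0le : D0 ≤ H ⊓ centralizer {f} := by
    intro w hw
    refine Subgroup.mem_inf.mpr ⟨hWH hw.1, ?_⟩
    rw [mem_centralizer_singleton_iff]
    apply coprime_trick Z hZc hZsq f w hf5
    have := hfΓ w hw
    rw [← map_mul, ← map_mul] at this
    exact QuotientGroup.eq.mp this
  have hd : Nat.card D0 ≤ 2 := (Subgroup.card_le_of_le hD0le).trans hCf
  have hcW' : Nat.card W' = Nat.card W := Subgroup.card_map_of_injective (MulAut.conj f).injective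
  have hrel := Subgroup.relIndex_inf_le (H := W) (K := W') (L := H)
  have rc : ∀ A : Subgroup G, A ≤ H → A.relIndex H * Nat.card A = 32 := by
    intro A hA
    have := Subgroup.relIndex_mul_relIndex ⊥ A H bot_le hA
    rw [relIndex_bot_left, relIndex_bot_left, h32] at this
    rw [mul_comm]; exact this
  have e1 := rc W hWH
  have e2 := rc W' hW'H
  have e3 := rc D0 (inf_le_left.trans hWH)
  rw [hcW'] at e2
  have e4 : W'.relIndex H = W.relIndex H := by
    have hpos : 0 < Nat.card W := Nat.card_pos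
    exact Nat.eq_of_mul_eq_mul_right hpos (e2.trans e1.symm)
  rw [e4] at hrel
  change D0.relIndex H ≤ _ at hrel
  generalize Nat.card W = w at *
  generalize Nat.card D0 = d at *
  generalize W.relIndex H = a at *
  generalize D0.relIndex H = b at *
  by_contra hc
  push Not at hc
  have ha : a ≤ 3 := by
    by_contra h
    push Not at h
    nlinarith
  have : b ≤ 9 := by nlinarith
  nlinarith

theorem part4 {G : Type*} [Group G] [Finite G] (H Z : Subgroup G) [H.Normal] [Z.Normal] (h32 : Nat.card H = 32)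
    (hZ2 : Nat.card Z = 2) (hZH : Z ≤ H)
    (hZc : ∀ ζ ∈ Z, ∀ g : G, g * ζ = ζ * g) (hZsq : ∀ ζ ∈ Z, ζ * ζ = 1)
    (hsq : ∀ a ∈ H, a * a ∈ Z)
    (T : G) (hT : T * T = 1)
    (hCW : H ⊓ (centralizer {(QuotientGroup.mk' Z T)}).comap (QuotientGroup.mk' Z) ≤ H ⊓ centralizer {T})
    (hC8 : Nat.card ↥(H ⊓ centralizer {T}) = 8) :
    ∀ x ∈ H ⊓ centralizer {T}, x * x = 1 := by
  classical
  have _ : Fintype G := Fintype.ofFinite G
  set C := H ⊓ centralizer {T} with hC
  have hTi : T⁻¹ = T := inv_eq_of_mul_eq_one_left hT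
  have hmemC : ∀ x, x ∈ C ↔ x ∈ H ∧ x * T = T * x := by
    intro x
    rw [hC, Subgroup.mem_inf, mem_centralizer_singleton_iff]
  obtain ⟨z, hzZ, hz1⟩ : ∃ z ∈ Z, z ≠ 1 := by
    have : Nontrivial Z := by
      rw [← Finite.one_lt_card_iff_nontrivial, hZ2]; norm_num
    obtain ⟨z, hz⟩ := exists_ne (1 : Z)
    exact ⟨z.1, z.2, fun h => hz (Subtype.ext h)⟩
  let c : G → G := fun h => T * h * T⁻¹ * h⁻¹
  have ca : ∀ h ∈ H, c h ∈ H := fun h hh => H.mul_mem (‹H.Normal›.conj_mem h hh T) (H.inv_mem hh)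
  have cb : ∀ h, T * c h * T⁻¹ = (c h)⁻¹ := by
    intro h
    show T * (T * h * T⁻¹ * h⁻¹) * T⁻¹ = (T * h * T⁻¹ * h⁻¹)⁻¹
    have : T * (T * h * T⁻¹ * h⁻¹) * T⁻¹ = (T * T) * h * T⁻¹ * h⁻¹ * T⁻¹ := by group
    rw [this, hT, hTi]
    simp [mul_assoc, hTi]
  -- membership in W from commutator in Z
  have hW : ∀ u ∈ H, c u ∈ Z → u ∈ C := by
    intro u hu hcu
    apply hCW
    refine Subgroup.mem_inf.mpr ⟨hu, ?_⟩
    rw [mem_comap, mem_centralizer_singleton_iff, ← map_mul, ← map_mul]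
    apply QuotientGroup.eq.mpr
    have e : (u * T)⁻¹ * (T * u) = T⁻¹ * (u⁻¹ * (c u) * u) * T := by
      show _ = T⁻¹ * (u⁻¹ * (T * u * T⁻¹ * u⁻¹) * u) * T
      group
    rw [e]
    have h1 : u⁻¹ * c u * u ∈ Z := by
      have := ‹Z.Normal›.conj_mem _ hcu u⁻¹
      simpa using this
    have := ‹Z.Normal›.conj_mem _ h1 T⁻¹
    simpa using this
  have cC1 : ∀ u ∈ C, c u = 1 := by
    intro u hu
    have := ((hmemC u).mp hu).2
    show T * u * T⁻¹ * u⁻¹ = 1
    rw [← this]; group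
  have cc : ∀ h ∈ H, c h ∈ C := by
    intro h hh
    apply hW _ (ca h hh)
    show T * c h * T⁻¹ * (c h)⁻¹ ∈ Z
    rw [cb]
    have := Z.inv_mem (hsq _ (ca h hh))
    simpa using this
  have cd : ∀ h ∈ H, c h * c h = 1 := by
    intro h hh
    have h1 := ((hmemC _).mp (cc h hh)).2
    have h2 := cb h
    rw [← h1] at h2
    have h3 : c h = (c h)⁻¹ := by simpa using h2
    calc c h * c h = c h * (c h)⁻¹ := by rw [← h3]
      _ = 1 := mul_inv_cancel _
  have cmul : ∀ h u, c (h * u) = c h * (h * c u * h⁻¹) := by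
    intro h u
    show T * (h * u) * T⁻¹ * (h * u)⁻¹ = T * h * T⁻¹ * h⁻¹ * (h * (T * u * T⁻¹ * u⁻¹) * h⁻¹)
    group
  have key : ∀ A : Subgroup G, Nat.card A = (Finset.univ.filter (fun x => x ∈ A)).card := by
    intro A
    rw [Nat.card_eq_fintype_card]
    exact Fintype.card_of_subtype _ (by simp)
  set Hs := Finset.univ.filter (fun x => x ∈ H) with hHs
  set Cs := Finset.univ.filter (fun x => x ∈ C) with hCs
  set I := Hs.image c with hI
  have hfib : ∀ b ∈ I, (Hs.filter (fun h => c h = b)).card = 8 := by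
    intro b hb
    obtain ⟨h0, hh0, rfl⟩ := Finset.mem_image.mp hb
    have hh0' : h0 ∈ H := (Finset.mem_filter.mp hh0).2
    have : Hs.filter (fun h => c h = c h0) = Cs.image (fun x => h0 * x) := by
      ext h
      simp only [Finset.mem_filter, Finset.mem_image, hHs, hCs, Finset.mem_univ, true_and]
      constructor
      · rintro ⟨hh, he⟩
        refine ⟨h0⁻¹ * h, ?_, by group⟩
        have hu : h0⁻¹ * h ∈ H := H.mul_mem (H.inv_mem hh0') hh
        apply hW _ hu
        have e := cmul h0 (h0⁻¹ * h)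
        rw [mul_inv_cancel_left, he] at e
        have e2 : h0 * c (h0⁻¹ * h) * h0⁻¹ = 1 := by
          have := e.symm
          simpa using this
        have e3 : c (h0⁻¹ * h) = 1 := by
          have : c (h0⁻¹ * h) = h0⁻¹ * (h0 * c (h0⁻¹ * h) * h0⁻¹) * h0 := by group
          rw [this, e2]; group
        rw [e3]; exact Z.one_mem
      · rintro ⟨x, hx, rfl⟩
        refine ⟨H.mul_mem hh0' ((hmemC x).mp hx).1, ?_⟩
        rw [cmul, cC1 x hx]; group
    rw [this, Finset.card_image_of_injective _ (mul_right_injective h0), ← key, hC8]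
  have hI4 : I.card = 4 := by
    have h1 := Finset.card_eq_sum_card_image c Hs
    rw [Finset.sum_congr rfl hfib, Finset.sum_const, ← key, h32] at h1
    simp only [smul_eq_mul] at h1
    omega
  set J := I ∪ I.image (fun x => x * z) with hJ
  have hdisj : Disjoint I (I.image (fun x => x * z)) := by
    rw [Finset.disjoint_left]
    intro a ha ha'
    obtain ⟨h', hh', rfl⟩ := Finset.mem_image.mp ha
    obtain ⟨b, hb, hbe⟩ := Finset.mem_image.mp ha'
    obtain ⟨h, hh, rfl⟩ := Finset.mem_image.mp hb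
    have hhH : h ∈ H := (Finset.mem_filter.mp hh).2
    have hh'H : h' ∈ H := (Finset.mem_filter.mp hh').2
    have e := cmul h (h⁻¹ * h')
    rw [mul_inv_cancel_left, ← hbe] at e
    have e2 : z = h * c (h⁻¹ * h') * h⁻¹ := mul_left_cancel e
    have e3 : c (h⁻¹ * h') = z := by
      have : c (h⁻¹ * h') = h⁻¹ * (h * c (h⁻¹ * h') * h⁻¹) * h := by group
      rw [this, ← e2, mul_assoc, ← hZc z hzZ h]; group
    have hu : h⁻¹ * h' ∈ C := hW _ (H.mul_mem (H.inv_mem hhH) hh'H) (e3 ▸ hzZ)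
    exact hz1 (e3.symm.trans (cC1 _ hu))
  have hJ8 : J.card = 8 := by
    rw [hJ, Finset.card_union_of_disjoint hdisj, Finset.card_image_of_injective _ (mul_left_injective z), hI4]
  have hzC : z ∈ C := (hmemC z).mpr ⟨hZH hzZ, (hZc z hzZ T).symm⟩
  have hJC : J ⊆ Cs := by
    intro a ha
    simp only [hCs, Finset.mem_filter, Finset.mem_univ, true_and]
    rcases Finset.mem_union.mp ha with h | h
    · obtain ⟨h', hh', rfl⟩ := Finset.mem_image.mp h
      exact cc _ (Finset.mem_filter.mp hh').2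
    · obtain ⟨b, hb, rfl⟩ := Finset.mem_image.mp h
      obtain ⟨h', hh', rfl⟩ := Finset.mem_image.mp hb
      exact C.mul_mem (cc _ (Finset.mem_filter.mp hh').2) hzC
  have hJeq : J = Cs := Finset.eq_of_subset_of_card_le hJC (by rw [hJ8, ← key, hC8])
  intro x hx
  have hxJ : x ∈ J := by rw [hJeq]; simp [hCs, hx]
  rcases Finset.mem_union.mp hxJ with h | h
  · obtain ⟨h', hh', rfl⟩ := Finset.mem_image.mp h
    exact cd _ (Finset.mem_filter.mp hh').2
  · obtain ⟨b, hb, rfl⟩ := Finset.mem_image.mp h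
    obtain ⟨h', hh', rfl⟩ := Finset.mem_image.mp hb
    have h1 := cd _ (Finset.mem_filter.mp hh').2
    calc c h' * z * (c h' * z) = c h' * (z * c h') * z := by group
      _ = c h' * (c h' * z) * z := by rw [hZc z hzZ (c h')]
      _ = (c h' * c h') * (z * z) := by group
      _ = 1 := by rw [h1, hZsq z hzZ, one_mul]

theorem core {G : Type*} [Group G] [Finite G] (hG : Nat.card G = 320)
    (H Z : Subgroup G) [H.Normal] [Z.Normal] (h32 : Nat.card H = 32) (hZ2 : Nat.card Z = 2) (hZH : Z ≤ H)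
    (hZc : ∀ ζ ∈ Z, ∀ g : G, g * ζ = ζ * g) (hZsq : ∀ ζ ∈ Z, ζ * ζ = 1)
    (hcomm : ∀ a ∈ H, ∀ b ∈ H, a * b * a⁻¹ * b⁻¹ ∈ Z) (hsq : ∀ a ∈ H, a * a ∈ Z)
    (hCH : centralizer (H : Set G) ≤ H)
    (hmaxH : ∀ N : Subgroup G, N.Normal → IsPGroup 2 N → N ≤ H)
    (hminus : ∀ A : Subgroup G, A ≤ H → (∀ a ∈ A, a * a = 1) → Nat.card A ≤ 4)
    (T : G) (hT : orderOf T = 2) (hTH : T ∉ H) (hC4 : 4 ∣ Nat.card ↥(H ⊓ centralizer {T})) :
    Nat.card ↥(H ⊓ centralizer {T}) = 4 := by
  classical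
  have : Fact (Nat.Prime 5) := ⟨by norm_num⟩
  obtain ⟨f, hf⟩ := exists_prime_orderOf_dvd_card' (G := G) 5 (by rw [hG]; norm_num)
  have hf5 : f ^ 5 = 1 := by rw [← hf]; exact pow_orderOf_eq_one f
  have hTT : T * T = 1 := by rw [← pow_two, ← hT]; exact pow_orderOf_eq_one T
  obtain ⟨hmax, hT'⟩ := part1 hG H h32 hmaxH T hT hTH f hf
  have hCf := part2 H h32 hCH f hf
  have hW8 := part3 H Z h32 hZc hZsq hcomm T f hf5 hmax hT' hCf
  have hCW : H ⊓ centralizer {T} ≤ H ⊓ (centralizer {(QuotientGroup.mk' Z T)}).comap (QuotientGroup.mk' Z) := by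
    intro x hx
    obtain ⟨h1, h2⟩ := Subgroup.mem_inf.mp hx
    refine Subgroup.mem_inf.mpr ⟨h1, ?_⟩
    rw [mem_centralizer_singleton_iff] at h2
    rw [mem_comap, mem_centralizer_singleton_iff, ← map_mul, ← map_mul, h2]
  have hC8 : Nat.card ↥(H ⊓ centralizer {T}) ≤ 8 := (Subgroup.card_le_of_le hCW).trans hW8
  have hpos : 0 < Nat.card ↥(H ⊓ centralizer {T}) := Nat.card_pos
  by_contra hne
  have h8 : Nat.card ↥(H ⊓ centralizer {T}) = 8 := by
    obtain ⟨m, hm⟩ := hC4
    omega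
  have hWC : H ⊓ (centralizer {(QuotientGroup.mk' Z T)}).comap (QuotientGroup.mk' Z) ≤ H ⊓ centralizer {T} := by
    have := Subgroup.eq_of_le_of_card_ge hCW (by rw [h8]; exact hW8)
    rw [← this]
  have hexp := part4 H Z h32 hZ2 hZH hZc hZsq hsq T hTT hWC h8
  have := hminus _ inf_le_left hexp
  omega


/-- Let G be a finite group of order 320 = 64·5 whose largest normal 2-subgroup H = O₂(G) equals the Fitting subgroup F(G) and is extraspecial of order 32 containing no elementary abelian subgroup of order 8 (so H is the central product of a quaternion group and a dihedral group of order 8). If T is an involution of G outside H whose centralizer in H contains an elementary abelian subgroup of order 4, then C_H(T) itself is elementary abelian of order 4. -/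
theorem result {G : Type*} [Group G] [Finite G]
    (hG : Nat.card G = 320) (hHF : Cfsg.pCore 2 G = Cfsg.fittingSubgroup G)
    (hex : Cfsg.IsExtraspecial 2 ↥(Cfsg.pCore 2 G)) (h32 : Nat.card ↥(Cfsg.pCore 2 G) = 32)
    (hminus : ∀ A : Subgroup G, A ≤ Cfsg.pCore 2 G → Cfsg.IsElementaryAbelian 2 A → Nat.card ↥A ≤ 4)
    (T : G) (hT : orderOf T = 2) (hTH : T ∉ Cfsg.pCore 2 G)
    (V : Subgroup G) (hV : V ≤ Cfsg.pCore 2 G ⊓ Subgroup.centralizer ({T} : Set G)) (hV4 : Nat.card ↥V = 4) (hVe : Cfsg.IsElementaryAbelian 2 V) :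
    Nat.card ↥(Cfsg.pCore 2 G ⊓ Subgroup.centralizer ({T} : Set G)) = 4 ∧
      Cfsg.IsElementaryAbelian 2 (Cfsg.pCore 2 G ⊓ Subgroup.centralizer ({T} : Set G)) := by
  classical
  set H := Cfsg.pCore 2 G with hH
  have hHn : H.Normal := Cfsg.Agent.Lib.Lead.pCore_normal' 2 G
  have hsolv : Group.IsSolvable G := Cfsg.Agent.S0144.result 2 5 6 1 (by norm_num) (by norm_num) (by rw [hG]; norm_num)
  have hCH : centralizer (H : Set G) ≤ H := by
    have := Cfsg.Agent.S0044.result (G := G)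
    rw [← hHF] at this
    exact this
  set Z : Subgroup G := (Subgroup.center ↥H).map H.subtype with hZ
  have hZn : Z.Normal := ConjAct.normal_of_characteristic_of_normal
  have hZ2 : Nat.card Z = 2 := by
    rw [hZ, Subgroup.card_map_of_injective H.subtype_injective]; exact hex.2
  have hZH : Z ≤ H := Subgroup.map_subtype_le _
  have hZc : ∀ ζ ∈ Z, ∀ g : G, g * ζ = ζ * g := by
    intro ζ hζ g
    by_cases h1 : ζ = 1
    · simp [h1]
    obtain ⟨y, -, hy⟩ := (Nat.card_eq_two_iff' (1 : Z)).mp hZ2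
    have e1 : (⟨ζ, hζ⟩ : Z) = y := hy _ (fun h => h1 (congrArg Subtype.val h))
    have hc : g * ζ * g⁻¹ ∈ Z := hZn.conj_mem ζ hζ g
    have e2 : (⟨g * ζ * g⁻¹, hc⟩ : Z) = y := hy _ (fun h => h1 (by
      have := congrArg Subtype.val h
      simpa using this))
    have e3 : g * ζ * g⁻¹ = ζ := congrArg Subtype.val (e2.trans e1.symm)
    exact mul_inv_eq_iff_eq_mul.mp e3
  have hZsq : ∀ ζ ∈ Z, ζ * ζ = 1 := by
    intro ζ hζ
    have : (⟨ζ, hζ⟩ : Z) ^ 2 = 1 := by rw [← hZ2]; exact pow_card_eq_one'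
    have := congrArg Subtype.val this
    simpa [pow_two] using this
  have hZmem : ∀ x ∈ H, (∀ h ∈ H, h * x = x * h) → x ∈ Z := by
    intro x hx hc
    refine ⟨⟨x, hx⟩, ?_, rfl⟩
    rw [SetLike.mem_coe, Subgroup.mem_center_iff]
    intro g
    exact Subtype.ext (hc g.1 g.2)
  have hcomm : ∀ a ∈ H, ∀ b ∈ H, a * b * a⁻¹ * b⁻¹ ∈ Z := by
    intro a ha b hb
    have h1 : ⁅(⟨a, ha⟩ : ↥H), (⟨b, hb⟩ : ↥H)⁆ ∈ _root_.commutator ↥H := by
      rw [_root_.commutator_def]
      exact Subgroup.commutator_mem_commutator (Subgroup.mem_top _) (Subgroup.mem_top _)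
    rw [hex.1.2.2] at h1
    exact ⟨_, h1, rfl⟩
  have hsq : ∀ a ∈ H, a * a ∈ Z := by
    intro a ha
    apply hZmem _ (H.mul_mem ha ha)
    intro h hh
    have hζ := hcomm h hh a ha
    set ζ := h * a * h⁻¹ * a⁻¹ with hζd
    have e : h * a = ζ * (a * h) := by rw [hζd]; group
    have c1 : a * ζ = ζ * a := hZc ζ hζ a
    calc h * (a * a) = (h * a) * a := by group
      _ = ζ * (a * h) * a := by rw [e]
      _ = ζ * a * (h * a) := by group
      _ = ζ * a * (ζ * (a * h)) := by rw [e]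
      _ = ζ * (a * ζ) * (a * h) := by group
      _ = ζ * (ζ * a) * (a * h) := by rw [c1]
      _ = (ζ * ζ) * (a * a * h) := by group
      _ = a * a * h := by rw [hZsq ζ hζ, one_mul]
  have hmaxH : ∀ N : Subgroup G, N.Normal → IsPGroup 2 N → N ≤ H :=
    fun N hN hp => Cfsg.Agent.Lib.Lead.le_pCore hN hp
  have hminus' : ∀ A : Subgroup G, A ≤ H → (∀ a ∈ A, a * a = 1) → Nat.card A ≤ 4 := by
    intro A hA hexp
    apply hminus A hA
    refine ⟨⟨⟨fun a b => ?_⟩⟩, fun a ha => by rw [pow_two]; exact hexp a ha⟩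
    apply Subtype.ext
    have h1 := hexp a.1 a.2
    have h2 := hexp b.1 b.2
    have h3 := hexp (a.1 * b.1) (A.mul_mem a.2 b.2)
    show a.1 * b.1 = b.1 * a.1
    calc a.1 * b.1 = (b.1 * b.1) * (a.1 * b.1) * (a.1 * a.1) := by rw [h1, h2]; group
      _ = b.1 * (b.1 * a.1 * (b.1 * a.1)) * a.1 := by group
      _ = b.1 * a.1 := by
          have h4 : b.1 * a.1 * (b.1 * a.1) = 1 := hexp _ (A.mul_mem b.2 a.2)
          rw [h4]; group
  have hC4 : 4 ∣ Nat.card ↥(H ⊓ centralizer {T}) := by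
    rw [← hV4]; exact Subgroup.card_dvd_of_le hV
  have hcard := core hG H Z h32 hZ2 hZH hZc hZsq hcomm hsq hCH hmaxH hminus' T hT hTH hC4
  refine ⟨hcard, ?_⟩
  have : V = H ⊓ centralizer {T} := Subgroup.eq_of_le_of_card_ge hV (by rw [hcard, hV4])
  rw [← this]; exact hVe

end Cfsg.Agent.S4405
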