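import Cfsg.Statements.S4406
import Mathlib

set_option autoImplicit false
open Cfsg

namespace Cfsg.Agent.S4406

abbrev A4 := ↥(alternatingGroup (Fin 4))

def cj (s x : A4) : A4 := s * x * s⁻¹

def Nrm (s t b1 b2 c1 c2 : A4) : Prop :=
  ((cj s b1 = b1 ∧ cj t b2 = b2) ∨ (cj s b1 = c1 ∧ cj t b2 = c2) ∨
    (cj s b1 = b1 * c1 ∧ cj t b2 = b2 * c2)) ∧
  ((cj s c1 = b1 ∧ cj t c2 = b2) ∨ (cj s c1 = c1 ∧ cj t c2 = c2) ∨
    (cj s c1 = b1 * c1 ∧ cj t c2 = b2 * c2))

instance (s t b1 b2 c1 c2 : A4) : Decidable (Nrm s t b1 b2 c1 c2) := by unfold Nrm; infer_instance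

def L3 (s t b1 b2 : A4) : Prop :=
    ∀ c1 : A4, (c1 ≠ 1 ∧ c1 ^ 2 = 1 ∧ b1 * c1 ≠ 1) →
    ∀ c2 : A4, (c2 ≠ 1 ∧ c2 ^ 2 = 1 ∧ b2 * c2 ≠ 1) →
    Nrm s t b1 b2 c1 c2 ∨ Nrm s (t ^ 2) b1 b2 c1 c2

instance (s t b1 b2 : A4) : Decidable (L3 s t b1 b2) := by unfold L3; infer_instance

def L2 (s t : A4) : Prop :=
    ∀ b1 : A4, (b1 ≠ 1 ∧ b1 ^ 2 = 1) → ∀ b2 : A4, (b2 ≠ 1 ∧ b2 ^ 2 = 1) → L3 s t b1 b2

instance (s t : A4) : Decidable (L2 s t) := by unfold L2; infer_instance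

set_option maxRecDepth 1000000 in
theorem main : ∀ s : A4, (s ≠ 1 ∧ s ^ 3 = 1) → ∀ t : A4, (t ≠ 1 ∧ t ^ 3 = 1) → L2 s t := by
  decide +kernel

set_option maxRecDepth 1000000 in
theorem two_or_three : ∀ x : A4, x ^ 2 = 1 ∨ x ^ 3 = 1 := by decide +kernel

set_option maxRecDepth 1000000 in
theorem card_A4 : Fintype.card A4 = 12 := by decide +kernel

theorem sq_of_pow {x : A4} {k : ℕ} (h : x ^ 2 ^ k = 1) : x ^ 2 = 1 := by
  rcases two_or_three x with h2 | h3
  · exact h2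
  · have h1 := orderOf_dvd_of_pow_eq_one h
    have h2 := orderOf_dvd_of_pow_eq_one h3
    have hc : Nat.Coprime (2 ^ k) 3 := Nat.Coprime.pow_left k (by decide)
    have := Nat.eq_one_of_dvd_coprimes hc h1 h2
    rw [orderOf_eq_one_iff.1 this, one_pow]

theorem cube_of_pow {x : A4} {k : ℕ} (h : x ^ 3 ^ k = 1) : x ^ 3 = 1 := by
  rcases two_or_three x with h2 | h3
  · have h1 := orderOf_dvd_of_pow_eq_one h
    have h2 := orderOf_dvd_of_pow_eq_one h2
    have hc : Nat.Coprime (3 ^ k) 2 := Nat.Coprime.pow_left k (by decide)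
    have := Nat.eq_one_of_dvd_coprimes hc h1 h2
    rw [orderOf_eq_one_iff.1 this, one_pow]
  · exact h3

/-- A subgroup of order `9` of `A₄ × A₄` meets the kernel of a homomorphism to `A₄`. -/
theorem exists_ker (Q : Subgroup (A4 × A4)) (hQ : Nat.card Q = 9) (f : (A4 × A4) →* A4) :
    ∃ x ∈ Q, x ≠ 1 ∧ f x = 1 := by
  let g : Q →* A4 := f.comp Q.subtype
  have h1 : Nat.card g.ker * g.ker.index = 9 := by rw [Subgroup.card_mul_index, hQ]
  have h2 : g.ker.index ∣ 12 := by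
    rw [Subgroup.index_ker, ← card_A4, ← Nat.card_eq_fintype_card]
    exact Subgroup.card_subgroup_dvd_card _
  have h3 : g.ker.index ∣ 9 := Dvd.intro_left _ h1
  have h4 : g.ker.index ∣ 3 := by
    have := Nat.dvd_gcd h2 h3
    simpa using this
  have h5 : Nat.card g.ker ≠ 1 := by
    intro h
    rw [h, one_mul] at h1
    rw [h1] at h4
    omega
  have h6 : g.ker ≠ ⊥ := fun h => h5 (by rw [h, Subgroup.card_bot])
  obtain ⟨⟨x, hx⟩, hx1⟩ := (Subgroup.ne_bot_iff_exists_ne_one).1 h6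
  refine ⟨x.1, x.2, ?_, hx⟩
  intro h
  exact hx1 (Subtype.ext (Subtype.ext h))

/-- In the direct product P = A₄ × A₄, let X be the Sylow 2-subgroup, X₁ and X₂ its intersections with the two direct factors, Q a Sylow 3-subgroup and Q₁, Q₂ its intersections with the two factors. Then every subgroup B of X of order 4 either meets X₁ or X₂ nontrivially, or is normalized by one of the two subgroups of Q of order 3 other than Q₁ and Q₂. -/
theorem result
    (X : Sylow 2 (↥(alternatingGroup (Fin 4)) × ↥(alternatingGroup (Fin 4))))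
    (Q : Sylow 3 (↥(alternatingGroup (Fin 4)) × ↥(alternatingGroup (Fin 4))))
    (B : Subgroup (↥(alternatingGroup (Fin 4)) × ↥(alternatingGroup (Fin 4)))) (hBX : B ≤ (X : Subgroup _)) (hB4 : Nat.card ↥B = 4) :
    B ⊓ ((X : Subgroup _) ⊓ Subgroup.prod ⊤ ⊥) ≠ ⊥ ∨ B ⊓ ((X : Subgroup _) ⊓ Subgroup.prod ⊥ ⊤) ≠ ⊥ ∨
      ∃ R : Subgroup (↥(alternatingGroup (Fin 4)) × ↥(alternatingGroup (Fin 4))), R ≤ (Q : Subgroup _) ∧ Nat.card ↥R = 3 ∧
        R ≠ (Q : Subgroup _) ⊓ Subgroup.prod ⊤ ⊥ ∧ R ≠ (Q : Subgroup _) ⊓ Subgroup.prod ⊥ ⊤ ∧ R ≤ Subgroup.normalizer (B : Set _) := by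
  by_cases h1 : B ⊓ ((X : Subgroup _) ⊓ Subgroup.prod ⊤ ⊥) ≠ ⊥
  · exact Or.inl h1
  by_cases h2 : B ⊓ ((X : Subgroup _) ⊓ Subgroup.prod ⊥ ⊤) ≠ ⊥
  · exact Or.inr (Or.inl h2)
  right; right
  push Not at h1 h2
  have F1 : ∀ x ∈ B, x.1 ^ 2 = 1 ∧ x.2 ^ 2 = 1 := by
    intro x hx
    obtain ⟨k, hk⟩ := X.2 ⟨x, hBX hx⟩
    have hk' : x ^ 2 ^ k = 1 := congrArg Subtype.val hk
    exact ⟨sq_of_pow (k := k) (congrArg Prod.fst hk'), sq_of_pow (k := k) (congrArg Prod.snd hk')⟩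
  have F2 : ∀ x ∈ B, x ≠ 1 → x.1 ≠ 1 ∧ x.2 ≠ 1 := by
    intro x hx hx1
    constructor
    · intro h
      apply hx1
      have : x ∈ B ⊓ ((X : Subgroup _) ⊓ Subgroup.prod ⊥ ⊤) :=
        ⟨hx, hBX hx, Subgroup.mem_prod.2 ⟨Subgroup.mem_bot.2 h, Subgroup.mem_top _⟩⟩
      rw [h2] at this
      exact Subgroup.mem_bot.1 this
    · intro h
      apply hx1
      have : x ∈ B ⊓ ((X : Subgroup _) ⊓ Subgroup.prod ⊤ ⊥) :=
        ⟨hx, hBX hx, Subgroup.mem_prod.2 ⟨Subgroup.mem_top _, Subgroup.mem_bot.2 h⟩⟩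
      rw [h1] at this
      exact Subgroup.mem_bot.1 this
  -- generators of `B`
  have hBne : B ≠ ⊥ := by
    intro h
    rw [h, Subgroup.card_bot] at hB4
    omega
  obtain ⟨⟨b, hb⟩, hb1'⟩ := (Subgroup.ne_bot_iff_exists_ne_one).1 hBne
  have hb1 : b ≠ 1 := fun h => hb1' (Subtype.ext h)
  have hb2 : b ^ 2 = 1 := Prod.ext (F1 b hb).1 (F1 b hb).2
  have hbo : orderOf b = 2 := orderOf_eq_prime hb2 hb1
  have hzb : Subgroup.zpowers b ≤ B := Subgroup.zpowers_le.2 hb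
  obtain ⟨c, hc, hcb⟩ : ∃ c ∈ B, c ∉ Subgroup.zpowers b := by
    by_contra hcon
    push Not at hcon
    have : B = Subgroup.zpowers b := le_antisymm hcon hzb
    rw [this, Nat.card_zpowers, hbo] at hB4
    omega
  have hc1 : c ≠ 1 := fun h => hcb (h ▸ Subgroup.one_mem _)
  have hbc : b * c ≠ 1 := by
    intro h
    apply hcb
    have : c = b⁻¹ := eq_inv_of_mul_eq_one_right h
    rw [this]
    exact Subgroup.inv_mem _ (Subgroup.mem_zpowers b)
  have hK : Subgroup.closure {b, c} = B := by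
    have hle : Subgroup.closure {b, c} ≤ B := by
      rw [Subgroup.closure_le]
      rintro x (rfl | rfl)
      · exact hb
      · exact hc
    have hzK : Subgroup.zpowers b ≤ Subgroup.closure {b, c} :=
      Subgroup.zpowers_le.2 (Subgroup.subset_closure (by simp))
    have d1 : 2 ∣ Nat.card (Subgroup.closure {b, c}) := by
      have := Subgroup.card_dvd_of_le hzK
      rwa [Nat.card_zpowers, hbo] at this
    have d2 : Nat.card (Subgroup.closure {b, c}) ∣ 4 := by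
      have := Subgroup.card_dvd_of_le hle
      rwa [hB4] at this
    have d3 : Nat.card (Subgroup.closure {b, c}) ≠ 2 := by
      intro h
      have : Subgroup.zpowers b = Subgroup.closure {b, c} :=
        Subgroup.eq_of_le_of_card_ge hzK (by rw [h, Nat.card_zpowers, hbo])
      apply hcb
      rw [this]
      exact Subgroup.subset_closure (by simp)
    have d4 : Nat.card (Subgroup.closure {b, c}) = 4 := by
      have hle4 := Nat.le_of_dvd (by norm_num) d2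
      interval_cases h : Nat.card (Subgroup.closure {b, c}) <;> omega
    exact Subgroup.eq_of_le_of_card_ge hle (by rw [d4, hB4])
  -- the Sylow 3-subgroup
  have : Fact (Nat.Prime 3) := ⟨Nat.prime_three⟩
  have hQ9 : Nat.card (Q : Subgroup (A4 × A4)) = 9 := by
    rw [Sylow.card_eq_multiplicity, Nat.card_prod, Nat.card_eq_fintype_card, card_A4]
    have : (12 * 12 : ℕ).factorization 3 = 2 := by
      have h144 : (12 * 12 : ℕ) = 3 ^ 2 * 16 := by norm_num
      rw [h144, Nat.factorization_mul (by norm_num) (by norm_num), Nat.Prime.factorization_pow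
        Nat.prime_three]
      simp
      exact Nat.factorization_eq_zero_of_not_dvd (by norm_num)
    rw [this]
    norm_num
  have hQ3 : ∀ x ∈ (Q : Subgroup (A4 × A4)), x.1 ^ 3 = 1 ∧ x.2 ^ 3 = 1 := by
    intro x hx
    obtain ⟨k, hk⟩ := Q.2 ⟨x, hx⟩
    have hk' : x ^ 3 ^ k = 1 := congrArg Subtype.val hk
    exact ⟨cube_of_pow (k := k) (congrArg Prod.fst hk'),
      cube_of_pow (k := k) (congrArg Prod.snd hk')⟩
  obtain ⟨x, hxQ, hx1, hx2⟩ := exists_ker Q hQ9 (MonoidHom.snd A4 A4)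
  obtain ⟨y, hyQ, hy1, hy2⟩ := exists_ker Q hQ9 (MonoidHom.fst A4 A4)
  have hx2' : x.2 = 1 := hx2
  have hy2' : y.1 = 1 := hy2
  have hs1 : x.1 ≠ 1 := fun h => hx1 (Prod.ext h hx2')
  have ht1 : y.2 ≠ 1 := fun h => hy1 (Prod.ext hy2' h)
  have hmain := main x.1 ⟨hs1, (hQ3 x hxQ).1⟩ y.2 ⟨ht1, (hQ3 y hyQ).2⟩ b.1
    ⟨(F2 b hb hb1).1, (F1 b hb).1⟩ b.2 ⟨(F2 b hb hb1).2, (F1 b hb).2⟩ c.1
    ⟨(F2 c hc hc1).1, (F1 c hc).1, (F2 (b * c) (B.mul_mem hb hc) hbc).1⟩ c.2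
    ⟨(F2 c hc hc1).2, (F1 c hc).2, (F2 (b * c) (B.mul_mem hb hc) hbc).2⟩
  -- common conclusion
  have key : ∀ t : A4, t ≠ 1 → t ^ 3 = 1 → ((x.1, t) : A4 × A4) ∈ (Q : Subgroup (A4 × A4)) →
      Nrm x.1 t b.1 b.2 c.1 c.2 →
      ∃ R : Subgroup (A4 × A4), R ≤ (Q : Subgroup _) ∧ Nat.card ↥R = 3 ∧
        R ≠ (Q : Subgroup _) ⊓ Subgroup.prod ⊤ ⊥ ∧ R ≠ (Q : Subgroup _) ⊓ Subgroup.prod ⊥ ⊤ ∧
        R ≤ Subgroup.normalizer (B : Set _) := by
    intro t ht1 ht3 htQ hN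
    set r : A4 × A4 := (x.1, t) with hr
    have hr3 : r ^ 3 = 1 := Prod.ext (hQ3 x hxQ).1 ht3
    have hr1 : r ≠ 1 := fun h => ht1 (congrArg Prod.snd h)
    have hro : orderOf r = 3 := orderOf_eq_prime hr3 hr1
    have hconj : ∀ z ∈ B, r * z * r⁻¹ ∈ B := by
      intro z hz
      rw [← hK] at hz
      induction hz using Subgroup.closure_induction with
      | mem z hz =>
        rcases hz with rfl | rfl
        · rcases hN.1 with ⟨e1, e2⟩ | ⟨e1, e2⟩ | ⟨e1, e2⟩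
          · have : r * z * r⁻¹ = z := Prod.ext e1 e2
            rw [this]; exact hb
          · have : r * z * r⁻¹ = c := Prod.ext e1 e2
            rw [this]; exact hc
          · have : r * z * r⁻¹ = z * c := Prod.ext e1 e2
            rw [this]; exact B.mul_mem hb hc
        · rcases hN.2 with ⟨e1, e2⟩ | ⟨e1, e2⟩ | ⟨e1, e2⟩
          · have : r * z * r⁻¹ = b := Prod.ext e1 e2
            rw [this]; exact hb
          · have : r * z * r⁻¹ = z := Prod.ext e1 e2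
            rw [this]; exact hc
          · have : r * z * r⁻¹ = b * z := Prod.ext e1 e2
            rw [this]; exact B.mul_mem hb hc
      | one => simp
      | mul u v _ _ hu hv =>
        have : r * (u * v) * r⁻¹ = (r * u * r⁻¹) * (r * v * r⁻¹) := by group
        rw [this]; exact B.mul_mem hu hv
      | inv u _ hu =>
        have : r * u⁻¹ * r⁻¹ = (r * u * r⁻¹)⁻¹ := by group
        rw [this]; exact B.inv_mem hu
    refine ⟨Subgroup.zpowers r, Subgroup.zpowers_le.2 htQ, by rw [Nat.card_zpowers, hro], ?_, ?_, ?_⟩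
    · intro h
      have : r ∈ (Q : Subgroup _) ⊓ Subgroup.prod (⊤ : Subgroup A4) (⊥ : Subgroup A4) := by
        rw [← h]; exact Subgroup.mem_zpowers r
      exact ht1 (Subgroup.mem_bot.1 (Subgroup.mem_prod.1 this.2).2)
    · intro h
      have : r ∈ (Q : Subgroup _) ⊓ Subgroup.prod (⊥ : Subgroup A4) (⊤ : Subgroup A4) := by
        rw [← h]; exact Subgroup.mem_zpowers r
      exact hs1 (Subgroup.mem_bot.1 (Subgroup.mem_prod.1 this.2).1)
    · rw [Subgroup.zpowers_le, Subgroup.mem_normalizer_iff]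
      intro z
      refine ⟨hconj z, fun hz => ?_⟩
      have h2 := hconj _ (hconj _ hz)
      have e : r * (r * (r * z * r⁻¹) * r⁻¹) * r⁻¹ = r ^ 3 * z * (r ^ 3)⁻¹ := by
        simp only [pow_succ, pow_zero, one_mul, mul_inv_rev, mul_assoc]
      rw [e, hr3] at h2
      simpa using h2
  rcases hmain with hN | hN
  · refine key y.2 ht1 (hQ3 y hyQ).2 ?_ hN
    have : ((x.1, y.2) : A4 × A4) = x * y := by
      apply Prod.ext
      · show x.1 = x.1 * y.1
        rw [hy2', mul_one]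
      · show y.2 = x.2 * y.2
        rw [hx2', one_mul]
    rw [this]
    exact Subgroup.mul_mem _ hxQ hyQ
  · refine key (y.2 ^ 2) ?_ ?_ ?_ hN
    · intro h
      apply ht1
      have h3 := (hQ3 y hyQ).2
      rw [pow_succ, h, one_mul] at h3
      exact h3
    · rw [← pow_mul, mul_comm, pow_mul, (hQ3 y hyQ).2, one_pow]
    · have : ((x.1, y.2 ^ 2) : A4 × A4) = x * y ^ 2 := by
        apply Prod.ext
        · show x.1 = x.1 * y.1 ^ 2
          rw [hy2', one_pow, mul_one]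
        · show y.2 ^ 2 = x.2 * y.2 ^ 2
          rw [hx2', one_mul]
      rw [this]
      exact Subgroup.mul_mem _ hxQ (Subgroup.pow_mem _ hyQ 2)

end Cfsg.Agent.S4406
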