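import Cfsg.Statements.S4407
import Cfsg.Agent.Lib.Helper35.D8M.P4
import Cfsg.Agent.Lib.Helper11.D8M.P1
import Cfsg.Agent.Lib.Helper11.D8M.P2B
import Cfsg.Agent.Lib.Helper11.D8M.P3
import Cfsg.Agent.Lib.Helper11.D8M.P5

set_option autoImplicit false
open Cfsg

namespace Cfsg.Agent.S4407

open DihedralGroup Cfsg.Agent.Lib.Helper35.D8M

theorem mid {S : Type*} [Group S] [Finite S] (A : Subgroup S) [A.Normal]
    (hcomm : ∀ x ∈ A, ∀ y ∈ A, x * y = y * x) (hexp : ∀ x ∈ A, x ^ 3 = 1)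
    (hA9 : Nat.card A = 9) (ψ : DihedralGroup 4 →* S) (hAX : A ⊔ ψ.range = ⊤)
    {M : Type*} [AddCommGroup M] [Module (ZMod 2) M] [Finite M] (ρ : Representation (ZMod 2) S M)
    (hfaith : Function.Injective ρ)
    (hirr : ∀ N : Submodule (ZMod 2) M, (∀ s : S, ∀ m ∈ N, ρ s m ∈ N) → N = ⊥ ∨ N = ⊤)
    (hz : ∀ x ∈ A, ψ (r 2) * x = x⁻¹ * ψ (r 2)) (k : ZMod 4)
    (c : S) (hcA : c ∈ A) (hc1 : c ≠ 1) (hsc : ψ (sr k) * c = c * ψ (sr k))
    (hfix : ∃ m, m ≠ 0 ∧ ρ c m = m) :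
    Nat.card M = 16 ∧ Nat.card {m : M // ρ (ψ (r 2)) m = m ∧ ρ (ψ (sr (k + 1))) m = m} = 2 ∧
      Nat.card {m : M // ρ (ψ (r 2)) m = m ∧ ρ (ψ (sr k)) m = m} ≠ 2 := by
  obtain ⟨d, hd⟩ : ∃ d, d = ψ (r 1) * c * (ψ (r 1))⁻¹ := ⟨_, rfl⟩
  obtain ⟨hdA, hd1, hdc, hdc', e1, e2, e3⟩ := rels A hexp ψ hz k c hcA hc1 hsc d hd
  have hmul : ∀ (g h : S) (m : M), ρ g (ρ h m) = ρ (g * h) m := fun g h m => by
    rw [map_mul]; rfl
  have hone : ∀ m : M, ρ 1 m = m := fun m => by rw [map_one]; rfl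
  have key := core (ρ c) (ρ d) (ρ (ψ (r 1))) (ρ (ψ (sr k)))
    (fun m => by
      rw [hmul, hmul, ← pow_two, ← pow_succ, hexp c hcA, hone])
    (fun m => by
      rw [hmul, hmul, ← pow_two, ← pow_succ, hexp d hdA, hone])
    (fun m => by rw [hmul, hmul, hcomm c hcA d hdA])
    (fun m => by
      rw [hmul, ← map_mul, sr_mul_self, map_one, hone])
    (fun m => by
      rw [hmul, hmul, hmul, ← map_mul, ← map_mul, ← map_mul]
      have : (r 1 * r 1 * r 1 * r 1 : DihedralGroup 4) = 1 := by decide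
      rw [this, map_one, hone])
    (fun m => by
      rw [hmul, hmul, ← map_mul, ← map_mul]
      have : ∀ k : ZMod 4, (r 1 * sr k * r 1 : DihedralGroup 4) = sr k := by decide
      rw [this k])
    (fun m => by rw [hmul, hmul, e1])
    (fun m => by
      rw [hmul, hmul, mul_assoc, e2, ← mul_assoc, mul_inv_cancel, one_mul])
    (fun m => by rw [hmul, hmul, hsc])
    (fun m => by
      rw [hmul, hmul, mul_assoc, e3, ← mul_assoc, mul_inv_cancel, one_mul])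
    (fun N h1 h2 h3 h4 => hirr N
      (inv_of_gens A hexp hA9 ψ hAX k c d hcA hdA hc1 hd1 hdc hdc' ρ N h1 h2 h3 h4))
    hfix
    (disj_fix A hexp hA9 c d hcA hdA hc1 hd1 hdc hdc' ρ hfaith hirr)
  have h2 : ∀ m : M, ρ (ψ (r 1)) (ρ (ψ (r 1)) m) = ρ (ψ (r 2)) m := fun m => by
    rw [hmul, ← map_mul]
    have : (r 1 * r 1 : DihedralGroup 4) = r 2 := by decide
    rw [this]
  have h3 : ∀ m : M, ρ (ψ (sr k)) (ρ (ψ (r 1)) m) = ρ (ψ (sr (k + 1))) m := fun m => by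
    rw [hmul, ← map_mul, sr_mul_r]
  simp only [h2, h3] at key
  exact key

theorem final {S : Type*} [Group S] (ψ : DihedralGroup 4 →* S) (hψ : Function.Injective ψ)
    {M : Type*} [AddCommGroup M] [Module (ZMod 2) M] (ρ : Representation (ZMod 2) S M)
    (k : ZMod 4)
    (h : Nat.card M = 16 ∧ Nat.card {m : M // ρ (ψ (r 2)) m = m ∧ ρ (ψ (sr (k + 1))) m = m} = 2 ∧
      Nat.card {m : M // ρ (ψ (r 2)) m = m ∧ ρ (ψ (sr k)) m = m} ≠ 2) :
    Nat.card M = 16 ∧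
      ∃! B : Subgroup S, B ≤ ψ.range ∧ Nat.card ↥B = 4 ∧ (∀ b ∈ B, b ^ 2 = 1) ∧
        Nat.card {m : M // ∀ b ∈ B, ρ b m = m} = 2 := by
  obtain ⟨h16, ha, hb⟩ := h
  refine ⟨h16, (E (k + 1)).map ψ, ⟨?_, card_E_map ψ hψ _, exp_E_map ψ _, ?_⟩, ?_⟩
  · rintro _ ⟨x, -, rfl⟩
    exact ⟨x, rfl⟩
  · simp only [fix_E_iff]
    exact ha
  · rintro B ⟨hB, h4, h2, hfx⟩
    rcases classify ψ hψ k B hB h4 h2 with rfl | rfl
    · exfalso
      simp only [fix_E_iff] at hfx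
      exact hb hfx
    · rfl

/-- Let S be a finite group with a normal elementary abelian subgroup A of order 9 that is self-centralizing (C_S(A) = A), and a dihedral subgroup X of order 8 with S = AX. Let M be a finite-dimensional module for S over the field with two elements that is faithful and irreducible. Then M has 16 elements, and X contains exactly one subgroup B of order 4 and exponent 2 whose fixed points on M form a subspace with exactly 2 elements (equivalently, M is free of rank one over the group algebra of B). -/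
theorem result {S : Type*} [Group S] [Finite S]
    (A : Subgroup S) [A.Normal] (hA : Cfsg.IsElementaryAbelian 3 A) (hA9 : Nat.card ↥A = 9)
    (hAC : Subgroup.centralizer (A : Set S) = A) (X : Subgroup S) (hX : Nonempty (↥X ≃* DihedralGroup 4)) (hAX : A ⊔ X = ⊤)
    {M : Type*} [AddCommGroup M] [Module (ZMod 2) M] [Finite M] (ρ : Representation (ZMod 2) S M)
    (hfaith : Function.Injective ρ)
    (hirr : ∀ N : Submodule (ZMod 2) M, (∀ s : S, ∀ m ∈ N, ρ s m ∈ N) → N = ⊥ ∨ N = ⊤) (hM : Nontrivial M) :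
    Nat.card M = 16 ∧
      ∃! B : Subgroup S, B ≤ X ∧ Nat.card ↥B = 4 ∧ (∀ b ∈ B, b ^ 2 = 1) ∧
        Nat.card {m : M // ∀ b ∈ B, ρ b m = m} = 2 := by
  obtain ⟨φ⟩ := hX
  obtain ⟨ψ, hψdef⟩ : ∃ ψ : DihedralGroup 4 →* S, ψ = X.subtype.comp φ.symm.toMonoidHom :=
    ⟨_, rfl⟩
  have hψ : Function.Injective ψ := by
    rw [hψdef]
    exact X.subtype_injective.comp φ.symm.injective
  have hrange : ψ.range = X := by
    rw [hψdef, MonoidHom.range_comp]
    have : φ.symm.toMonoidHom.range = ⊤ := MonoidHom.range_eq_top.2 φ.symm.surjective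
    rw [this, ← MonoidHom.range_eq_map, Subgroup.range_subtype]
  rw [← hrange] at hAX ⊢
  have hcomm : ∀ x ∈ A, ∀ y ∈ A, x * y = y * x := by
    intro x hx y hy
    have h := hA.1.is_comm.comm (⟨x, hx⟩ : A) ⟨y, hy⟩
    exact congrArg Subtype.val h
  have hexp : ∀ x ∈ A, x ^ 3 = 1 := hA.2
  have hz := z_inverts A hcomm hexp hA9 hAC ψ hψ
  obtain ⟨c, hcA, hc1, hsc⟩ := exists_c A hcomm hexp hAC ψ hψ hz
  obtain ⟨d, hd⟩ : ∃ d, d = ψ (r 1) * c * (ψ (r 1))⁻¹ := ⟨_, rfl⟩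
  obtain ⟨hdA, hd1, hdc, hdc', e1, e2, e3⟩ := rels A hexp ψ hz 0 c hcA hc1 hsc d hd
  have hmul : ∀ (g h : S) (m : M), ρ g (ρ h m) = ρ (g * h) m := fun g h m => by
    rw [map_mul]; rfl
  have hone : ∀ m : M, ρ 1 m = m := fun m => by rw [map_one]; rfl
  rcases exists_fix ρ hfaith c d (hcomm c hcA d hdA) (hexp c hcA) (hexp d hdA) hdc.symm with
    h | h | h
  · exact final ψ hψ ρ 0 (mid A hcomm hexp hA9 ψ hAX ρ hfaith hirr hz 0 c hcA hc1 hsc h)
  · refine final ψ hψ ρ 0 (mid A hcomm hexp hA9 ψ hAX ρ hfaith hirr hz 0 c hcA hc1 hsc ?_)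
    obtain ⟨m, hm0, hm⟩ := h
    refine ⟨ρ (ψ (r 1))⁻¹ m, ?_, ?_⟩
    · intro h0
      apply hm0
      have := congrArg (ρ (ψ (r 1))) h0
      rwa [hmul, mul_inv_cancel, hone, map_zero] at this
    · have : c * (ψ (r 1))⁻¹ = (ψ (r 1))⁻¹ * d := by
        rw [hd]
        group
      rw [hmul, this, ← hmul, hm]
  · have hs3 : ψ (sr 3) = ψ (sr 0) * (ψ (r 1))⁻¹ := by
      rw [← map_inv, ← map_mul]
      congr 1
    have hcd1 : c * d ≠ 1 := by
      intro h1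
      exact hdc' (eq_inv_of_mul_eq_one_right h1)
    have hcomm3 : ψ (sr 3) * (c * d) = (c * d) * ψ (sr 3) := by
      have f1 : (ψ (r 1))⁻¹ * c = d⁻¹ * (ψ (r 1))⁻¹ := by
        have := congrArg (fun x => x⁻¹) e2
        simp only [_root_.mul_inv_rev, inv_inv] at this
        exact this.symm
      have f2 : (ψ (r 1))⁻¹ * d = c * (ψ (r 1))⁻¹ := by
        rw [hd]
        group
      have f3 : ψ (sr 0) * d⁻¹ = d * ψ (sr 0) := by
        have : d * (ψ (sr 0) * d) = ψ (sr 0) := by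
          rw [e3, ← mul_assoc, mul_inv_cancel, one_mul]
        calc ψ (sr 0) * d⁻¹ = d * (ψ (sr 0) * d) * d⁻¹ := by rw [this]
          _ = d * ψ (sr 0) := by group
      calc ψ (sr 3) * (c * d) = ψ (sr 0) * ((ψ (r 1))⁻¹ * c) * d := by rw [hs3]; group
        _ = ψ (sr 0) * d⁻¹ * ((ψ (r 1))⁻¹ * d) := by rw [f1]; group
        _ = d * (ψ (sr 0) * c) * (ψ (r 1))⁻¹ := by rw [f3, f2]; group
        _ = d * c * (ψ (sr 0) * (ψ (r 1))⁻¹) := by rw [hsc]; group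
        _ = (c * d) * ψ (sr 3) := by rw [hs3, hcomm c hcA d hdA]
    exact final ψ hψ ρ 3 (mid A hcomm hexp hA9 ψ hAX ρ hfaith hirr hz 3 (c * d)
      (A.mul_mem hcA hdA) hcd1 hcomm3 h)

end Cfsg.Agent.S4407
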