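import Cfsg.Statements.S4408
import Cfsg.Agent.Lib.Helper62.DihedralLemma
import Cfsg.Agent.Lib.Helper1.Fitting
import Cfsg.Agent.Lib.Helper1.Cores
import Cfsg.Agent.S0044

set_option autoImplicit false
open Cfsg

namespace Cfsg.Agent.S4408

open Cfsg.Agent.Lib.Helper62

/-- Let S be a finite solvable group whose Fitting subgroup F(S) has odd order, and let I be an elementary abelian 2-subgroup of S of order 2ⁿ with n ≥ 1. Then F(S) contains subgroups A₁, …, Aₙ of prime order, each normalized by I, pairwise commuting and generating a subgroup A of order |A₁|⋯|Aₙ| (their internal direct product), such that no non-identity element of I centralizes A. -/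
theorem result {S : Type*} [Group S] [Finite S]
    [Group.IsSolvable S] (hF : Odd (Nat.card ↥(Cfsg.fittingSubgroup S)))
    (I : Subgroup S) (hI : Cfsg.IsElementaryAbelian 2 I) (n : ℕ) (hn : 1 ≤ n) (hIn : Nat.card ↥I = 2 ^ n) :
    ∃ f : Fin n → Subgroup S, (∀ i, (Nat.card ↥(f i)).Prime) ∧ (∀ i, f i ≤ Cfsg.fittingSubgroup S) ∧
      (∀ i, I ≤ Subgroup.normalizer ((f i) : Set S)) ∧ (∀ i j, i ≠ j → ∀ a ∈ f i, ∀ b ∈ f j, a * b = b * a) ∧
      Nat.card ↥(⨆ i, f i) = ∏ i, Nat.card ↥(f i) ∧ I ⊓ Subgroup.centralizer ((⨆ i, f i : Subgroup S) : Set S) = ⊥ := by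
  have hnorm : (Cfsg.fittingSubgroup S).Normal := Cfsg.Agent.Lib.Helper1.fittingSubgroup_normal
  have hIF : I ≤ Subgroup.normalizer ((Cfsg.fittingSubgroup S : Subgroup S) : Set S) := by
    rw [Subgroup.normalizer_eq_top]
    exact le_top
  have hfaith : I ⊓ Subgroup.centralizer ((Cfsg.fittingSubgroup S : Subgroup S) : Set S) = ⊥ := by
    rw [eq_bot_iff]
    have h1 : I ⊓ Subgroup.centralizer ((Cfsg.fittingSubgroup S : Subgroup S) : Set S) ≤
        I ⊓ Cfsg.fittingSubgroup S := inf_le_inf_left _ Cfsg.Agent.S0044.result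
    refine h1.trans (le_of_eq ?_)
    apply Subgroup.inf_eq_bot_of_coprime
    rw [hIn]
    exact Nat.Coprime.pow_left _ (Nat.coprime_two_left.2 hF)
  obtain ⟨f, h1, h2, h3, h4, h5, h6, -⟩ := dihedral_core I hI.1 hI.2 n I (Cfsg.fittingSubgroup S)
    le_rfl hIn Cfsg.Agent.Lib.Helper1.fittingSubgroup_isNilpotent hF hIF hfaith
  refine ⟨f, h1, h2, fun i => ?_, h4, h5, h6⟩
  rw [Subgroup.le_normalizer_iff]
  intro s hs a ha
  rcases h3 i s hs with h | h
  · rw [h a ha]; exact ha
  · rw [h a ha]; exact inv_mem ha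

end Cfsg.Agent.S4408
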