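import Cfsg.Statements.S4410
import Cfsg.Agent.S1264
import Cfsg.Agent.Lib.Lead.Cores
import Cfsg.Agent.Lib.Helper91.Fitting

set_option autoImplicit false
open Cfsg

namespace Cfsg.Agent.S4410

theorem card_fitting_coprime {p : ℕ} (hp : p.Prime) (K : Type*) [Group K] [Finite K]
    (hcore : Cfsg.pCore p K = ⊥) : (Nat.card (Cfsg.fittingSubgroup K)).Coprime p := by
  have : Fact p.Prime := ⟨hp⟩
  have hFn : (Cfsg.fittingSubgroup K).Normal := Cfsg.Agent.Lib.Helper91.fittingSubgroup_normal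
  have hFnil : Group.IsNilpotent (Cfsg.fittingSubgroup K) :=
    Cfsg.Agent.Lib.Helper91.fittingSubgroup_isNilpotent
  obtain ⟨P⟩ : Nonempty (Sylow p (Cfsg.fittingSubgroup K)) := inferInstance
  have hPn : (P : Subgroup (Cfsg.fittingSubgroup K)).Normal := inferInstance
  have h1 : Cfsg.pCore p (Cfsg.fittingSubgroup K) = P :=
    Cfsg.Agent.Lib.Lead.pCore_eq_of_normal_sylow P
  have h2 := Cfsg.Agent.Lib.Lead.pCore_normal_subgroup_eq (p := p) (Cfsg.fittingSubgroup K)
  rw [hcore, bot_inf_eq, h1] at h2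
  have h3 : (P : Subgroup (Cfsg.fittingSubgroup K)) = ⊥ :=
    (Subgroup.map_eq_bot_iff_of_injective _ (Subgroup.subtype_injective _)).1 h2
  rw [Nat.coprime_comm, Nat.Prime.coprime_iff_not_dvd hp]
  intro hd
  exact P.ne_bot_of_dvd_card hd h3

variable {V : Type*} [AddCommGroup V] [Module (ZMod 2) V]

theorem add_self_zero (x : V) : x + x = 0 := by
  have h : (2 : ZMod 2) • x = 0 := by
    have : (2 : ZMod 2) = 0 := by decide
    rw [this, zero_smul]
  rwa [two_smul] at h

/-- `d` is an involutory transvection with centre `c`, congruent to `t` modulo `Q`. -/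
structure IsD (Q : Subgroup (V ≃ₗ[ZMod 2] V)) (t d : V ≃ₗ[ZMod 2] V) (c : V) : Prop where
  mem : d * t ∈ Q
  sq : d * d = 1
  tv : ∀ v, d v = v ∨ d v = v + c
  fix : d c = c

theorem pow_four_eq_one (d₁ d₂ : V ≃ₗ[ZMod 2] V) (c₁ c₂ : V)
    (h1 : ∀ v, d₁ v = v ∨ d₁ v = v + c₁) (h2 : ∀ v, d₂ v = v ∨ d₂ v = v + c₂)
    (f1 : d₁ c₁ = c₁) (f2 : d₂ c₂ = c₂) (f12 : d₁ c₂ = c₂) : (d₁ * d₂) ^ 4 = 1 := by
  have key : ∀ v, ∃ u, d₁ (d₂ (d₁ (d₂ v))) = v + u ∧ d₁ (d₂ u) = u := by
    intro v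
    rcases h2 v with a | a <;> rcases h1 v with b | b <;> rcases h2 c₁ with c | c
    · exact ⟨0, by simp [a, b], by simp⟩
    · exact ⟨0, by simp [a, b], by simp⟩
    · refine ⟨0, ?_, by simp⟩
      simp only [a, b, map_add, c, f1, add_zero]
      rw [add_assoc, add_self_zero, add_zero]
    · refine ⟨c₂, ?_, by rw [f2, f12]⟩
      simp only [a, b, map_add, c, f1, f12]
      have := add_self_zero c₁
      rw [add_assoc, ← add_assoc c₁, this, zero_add]
    · refine ⟨0, ?_, by simp⟩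
      simp only [a, b, map_add, f2, f12, add_zero]
      rw [add_assoc, add_self_zero, add_zero]
    · refine ⟨0, ?_, by simp⟩
      simp only [a, b, map_add, f2, f12, add_zero]
      rw [add_assoc, add_self_zero, add_zero]
    · refine ⟨0, ?_, by simp⟩
      simp only [a, b, map_add, f2, f12, c, f1, add_zero]
      have e1 := add_self_zero c₁
      have e2 := add_self_zero c₂
      have : v + c₁ + c₂ + c₁ + c₂ = v + (c₁ + c₁) + (c₂ + c₂) := by abel
      rw [this, e1, e2, add_zero, add_zero]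
    · refine ⟨c₂, ?_, by rw [f2, f12]⟩
      simp only [a, b, map_add, f2, f12, c, f1]
      have e1 := add_self_zero c₁
      have e2 := add_self_zero c₂
      have : v + c₁ + c₂ + (c₁ + c₂) + c₂ = v + (c₁ + c₁) + (c₂ + c₂) + c₂ := by abel
      rw [this, e1, e2, add_zero, add_zero]
  ext v
  obtain ⟨u, hu1, hu2⟩ := key v
  have : ((d₁ * d₂) ^ 4) v = d₁ (d₂ (d₁ (d₂ (d₁ (d₂ (d₁ (d₂ v))))))) := by
    rfl
  rw [this, hu1]
  simp only [map_add, hu1, hu2]
  rw [add_assoc, add_self_zero, add_zero]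
  rfl

theorem eq_one_of_pow_four [Finite V] {Q : Subgroup (V ≃ₗ[ZMod 2] V)}
    (hQ : (Nat.card Q).Coprime 2) {g : V ≃ₗ[ZMod 2] V} (hg : g ∈ Q) (h4 : g ^ 4 = 1) : g = 1 := by
  have h1 : orderOf g ∣ 4 := orderOf_dvd_of_pow_eq_one h4
  have h2 : orderOf g ∣ Nat.card Q := by
    have := orderOf_dvd_natCard (⟨g, hg⟩ : Q)
    rwa [Subgroup.orderOf_mk] at this
  have h3 : (Nat.card Q).Coprime 4 := Nat.Coprime.pow_right 2 hQ
  have h4 : orderOf g = 1 := Nat.eq_one_of_dvd_coprimes h3 h2 h1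
  exact orderOf_eq_one_iff.1 h4

theorem IsD.move [Finite V] {Q : Subgroup (V ≃ₗ[ZMod 2] V)} (hQ : (Nat.card Q).Coprime 2)
    {t d₁ d₂ : V ≃ₗ[ZMod 2] V} {c₁ c₂ : V} (ht : t * t = 1)
    (h1 : IsD Q t d₁ c₁) (h2 : IsD Q t d₂ c₂) (hne : d₁ ≠ d₂) : d₁ c₂ ≠ c₂ := by
  intro hfix
  apply hne
  have h4 := pow_four_eq_one d₁ d₂ c₁ c₂ h1.tv h2.tv h1.fix h2.fix hfix
  have hmem : d₁ * d₂ ∈ Q := by
    have e : d₁ * d₂ = (d₁ * t) * (d₂ * t)⁻¹ := by
      have e1 : t⁻¹ = t := inv_eq_of_mul_eq_one_left ht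
      have e2 : d₂⁻¹ = d₂ := inv_eq_of_mul_eq_one_left h2.sq
      rw [mul_inv_rev, e1, e2, mul_assoc, ← mul_assoc t t, ht, one_mul]
    rw [e]
    exact Q.mul_mem h1.mem (Q.inv_mem h2.mem)
  have h5 := eq_one_of_pow_four hQ hmem h4
  have e2 : d₂⁻¹ = d₂ := inv_eq_of_mul_eq_one_left h2.sq
  rw [← e2]
  exact eq_inv_of_mul_eq_one_left h5

theorem IsD.move' [Finite V] {Q : Subgroup (V ≃ₗ[ZMod 2] V)} (hQ : (Nat.card Q).Coprime 2)
    {t d₁ d₂ : V ≃ₗ[ZMod 2] V} {c₁ c₂ : V} (ht : t * t = 1)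
    (h1 : IsD Q t d₁ c₁) (h2 : IsD Q t d₂ c₂) (hne : d₁ ≠ d₂) : d₁ c₂ = c₂ + c₁ :=
  (h1.tv c₂).resolve_left (h1.move hQ ht h2 hne)

theorem IsD.conj {Q : Subgroup (V ≃ₗ[ZMod 2] V)}
    {t d : V ≃ₗ[ZMod 2] V} {c : V} (h : IsD Q t d c) (g : V ≃ₗ[ZMod 2] V)
    (hgQ : ∀ q ∈ Q, g * q * g⁻¹ ∈ Q) (hgt : g * t = t * g) : IsD Q t (g * d * g⁻¹) (g c) where
  mem := by
    have e : g * d * g⁻¹ * t = g * (d * t) * g⁻¹ := by
      have : g⁻¹ * t = t * g⁻¹ := by
        rw [inv_mul_eq_iff_eq_mul, ← mul_assoc, hgt, mul_assoc, mul_inv_cancel, mul_one]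
      rw [mul_assoc (g * d), this]; group
    rw [e]; exact hgQ _ h.mem
  sq := by
    have : g * d * g⁻¹ * (g * d * g⁻¹) = g * (d * d) * g⁻¹ := by group
    rw [this, h.sq]; group
  tv := by
    intro v
    have e : (g * d * g⁻¹) v = g (d (g⁻¹ v)) := rfl
    have e' : g (g⁻¹ v) = v := by
      have : (g * g⁻¹) v = v := by rw [mul_inv_cancel]; rfl
      exact this
    rcases h.tv (g⁻¹ v) with a | a
    · left; rw [e, a, e']
    · right; rw [e, a, map_add, e']
  fix := by
    have e : (g * d * g⁻¹) (g c) = g (d (g⁻¹ (g c))) := rfl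
    have e' : g⁻¹ (g c) = c := by
      have : (g⁻¹ * g) c = c := by rw [inv_mul_cancel]; rfl
      exact this
    rw [e, e', h.fix]

/-- The group-theoretic core. -/
theorem core [Finite V] (Q : Subgroup (V ≃ₗ[ZMod 2] V)) (hQ : (Nat.card Q).Coprime 2)
    (P : V ≃ₗ[ZMod 2] V) (hPQ : ∀ q ∈ Q, P * q * P⁻¹ ∈ Q) (a : V)
    (htv : ∀ v, (P * P) v = v ∨ (P * P) v = v + a) (ht : (P * P) * (P * P) = 1)
    (y : V ≃ₗ[ZMod 2] V) (hy : y ∈ Q) (hyt : y * (P * P) * y⁻¹ ≠ P * P) : False := by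
  obtain ⟨t, htdef⟩ : ∃ t, t = P * P := ⟨_, rfl⟩
  rw [← htdef] at htv ht hyt
  have hPt : P * t = t * P := by rw [htdef, mul_assoc]
  have htQ : ∀ q ∈ Q, t * q * t⁻¹ ∈ Q := by
    intro q hq
    have : t * q * t⁻¹ = P * (P * q * P⁻¹) * P⁻¹ := by rw [htdef]; group
    rw [this]; exact hPQ _ (hPQ _ hq)
  have hta : t a = a := by
    by_contra hne
    have h1 : t a = a + a := (htv a).resolve_left hne
    rw [add_self_zero] at h1
    have h2 : a = 0 := by
      have := t.injective (h1.trans (map_zero t).symm)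
      exact this
    exact hne (by rw [h2, map_zero])
  have Dt : IsD Q t t a := ⟨by rw [ht]; exact Q.one_mem, ht, htv, hta⟩
  have tinv : t⁻¹ = t := inv_eq_of_mul_eq_one_left ht
  -- `d = y t y⁻¹`
  obtain ⟨d, hd⟩ : ∃ d, d = y * t * y⁻¹ := ⟨_, rfl⟩
  obtain ⟨c, hc⟩ : ∃ c, c = y a := ⟨_, rfl⟩
  have Dd : IsD Q t d c := by
    refine ⟨?_, ?_, ?_, ?_⟩
    · have : d * t = y * (t * y⁻¹ * t⁻¹) := by rw [hd, tinv]; group
      rw [this]; exact Q.mul_mem hy (htQ _ (Q.inv_mem hy))
    · have : d * d = y * (t * t) * y⁻¹ := by rw [hd]; group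
      rw [this, ht]; group
    · intro v
      have e : d v = y (t (y⁻¹ v)) := by rw [hd]; rfl
      have e' : y (y⁻¹ v) = v := by
        have : (y * y⁻¹) v = v := by rw [mul_inv_cancel]; rfl
        exact this
      rcases htv (y⁻¹ v) with a | a
      · left; rw [e, a, e']
      · right; rw [e, a, map_add, e', hc]
    · have e : d c = y (t (y⁻¹ (y a))) := by rw [hd, hc]; rfl
      have e' : y⁻¹ (y a) = a := by
        have : (y⁻¹ * y) a = a := by rw [inv_mul_cancel]; rfl
        exact this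
      rw [e, e', hta, hc]
  have hdt : d ≠ t := by rw [hd]; exact hyt
  have D1 : IsD Q t (P * d * P⁻¹) (P c) := Dd.conj P hPQ hPt
  have D2 : IsD Q t (t * d * t⁻¹) (t c) := Dd.conj t htQ rfl
  have htc : t c = c + a := Dt.move' hQ ht Dd hdt.symm
  have n1 : P * d * P⁻¹ ≠ t := by
    intro h
    apply hdt
    have : d = P⁻¹ * (P * d * P⁻¹) * P := by group
    rw [this, h, mul_assoc, ← hPt]; group
  have n2 : P * d * P⁻¹ ≠ d := by
    intro h
    have h1 : P * d = d * P := by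
      rw [mul_inv_eq_iff_eq_mul] at h; exact h
    have h2 : t * d = d * t := by
      rw [htdef, mul_assoc, h1, ← mul_assoc, h1, mul_assoc]
    have h3 : (d * t) ^ 4 = 1 := by
      have : (d * t) * (d * t) = 1 := by
        rw [mul_assoc, ← mul_assoc t, h2, mul_assoc, ht, mul_one, Dd.sq]
      rw [show (4 : ℕ) = 2 + 2 from rfl, pow_add, pow_two, this, one_mul]
    have h4 := eq_one_of_pow_four hQ Dd.mem h3
    apply hdt
    rw [← tinv]; exact eq_inv_of_mul_eq_one_left h4
  have n3 : P * d * P⁻¹ ≠ t * d * t⁻¹ := by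
    intro h
    apply n2
    have : P * d * P⁻¹ = P⁻¹ * (t * d * t⁻¹) * P := by rw [htdef]; group
    rw [this, ← h]; group
  have m1 := D1.move' hQ ht Dt n1
  have m2 := D1.move' hQ ht Dd n2
  have m3 := D1.move hQ ht D2 n3
  apply m3
  rw [htc, map_add, m1, m2]
  have : c + P c + (a + P c) = c + a + (P c + P c) := by abel
  rw [this, add_self_zero, add_zero]

theorem four_le_card (R : Submodule (ZMod 2) V) [Finite V] (a b : V) (ha : a ∈ R) (hb : b ∈ R)
    (ha0 : a ≠ 0) (hb0 : b ≠ 0) (hab : b ≠ a) : 4 ≤ Nat.card R := by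
  classical
  have hcard : ({0, a, b, a + b} : Finset V).card = 4 := by
    rw [Finset.card_insert_of_notMem, Finset.card_insert_of_notMem, Finset.card_insert_of_notMem,
      Finset.card_singleton]
    · simp only [Finset.mem_singleton]
      intro h
      apply ha0
      have : a + b = 0 + b := by rw [zero_add]; exact h.symm
      exact add_right_cancel this
    · simp only [Finset.mem_insert, Finset.mem_singleton, not_or]
      refine ⟨hab.symm, ?_⟩
      intro h
      apply hb0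
      have : a + b = a + 0 := by rw [add_zero]; exact h.symm
      exact add_left_cancel this
    · simp only [Finset.mem_insert, Finset.mem_singleton, not_or]
      refine ⟨ha0.symm, hb0.symm, ?_⟩
      intro h
      apply hab
      have : a + b = a + a := by rw [add_self_zero]; exact h.symm
      exact add_left_cancel this
  have h1 : Nat.card R = (R : Set V).ncard := Nat.card_coe_set_eq _
  rw [h1, ← hcard, ← Set.ncard_coe_finset]
  apply Set.ncard_le_ncard _ (Set.toFinite _)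
  intro x hx
  simp only [Finset.coe_insert, Finset.coe_singleton, Set.mem_insert_iff,
    Set.mem_singleton_iff] at hx
  rcases hx with rfl | rfl | rfl | rfl
  · exact R.zero_mem
  · exact ha
  · exact hb
  · exact R.add_mem ha hb

/-- Let V be a finite-dimensional vector space over the field with two elements and S a solvable group of linear automorphisms of V with O₂(S) = 1. If P ∈ S has order 4 and (P − 1)³ = 0 on V, then the image of (P − 1)² has at least 4 elements; equivalently, in the decomposition of V into indecomposable modules for the cyclic group generated by P, at least two summands have dimension 3. -/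
theorem result
    {V : Type*} [AddCommGroup V] [Module (ZMod 2) V] [Finite V]
    (S : Subgroup (V ≃ₗ[ZMod 2] V)) (hS : Group.IsSolvable ↥S) (hO2 : Cfsg.pCore 2 ↥S = ⊥)
    (P : V ≃ₗ[ZMod 2] V) (hPS : P ∈ S) (hP4 : orderOf P = 4)
    (hcub : ((P : V →ₗ[ZMod 2] V) - LinearMap.id) ^ 3 = 0) :
    4 ≤ Nat.card ↥(LinearMap.range (((P : V →ₗ[ZMod 2] V) - LinearMap.id) ^ 2)) := by
  have hfin : Finite (V ≃ₗ[ZMod 2] V) :=
    Finite.of_injective (fun f => (f : V → V)) DFunLike.coe_injective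
  by_contra hlt
  obtain ⟨F, hF⟩ : ∃ F, F = Cfsg.fittingSubgroup ↥S := ⟨_, rfl⟩
  have hFn : F.Normal := by rw [hF]; exact Cfsg.Agent.Lib.Helper91.fittingSubgroup_normal
  have hFc : (Nat.card F).Coprime 2 := by
    rw [hF]; exact card_fitting_coprime Nat.prime_two _ hO2
  have hQc : (Nat.card (F.map S.subtype)).Coprime 2 := by
    rw [Subgroup.card_map_of_injective S.subtype_injective]; exact hFc
  have hPQ : ∀ q ∈ F.map S.subtype, P * q * P⁻¹ ∈ F.map S.subtype := by
    rintro q ⟨f, hf, rfl⟩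
    exact ⟨⟨P, hPS⟩ * f * ⟨P, hPS⟩⁻¹, hFn.conj_mem f hf _, rfl⟩
  have ht : (P * P) * (P * P) = 1 := by
    have : P ^ 4 = 1 := by rw [← hP4]; exact pow_orderOf_eq_one P
    rw [← this, show (4 : ℕ) = 2 + 2 from rfl, pow_add, pow_two]
  have ht1 : P * P ≠ 1 := by
    intro h
    have : orderOf P ∣ 2 := orderOf_dvd_of_pow_eq_one (by rw [pow_two]; exact h)
    rw [hP4] at this
    revert this; decide
  have hmem : ∀ v, (P * P) v + v ∈
      LinearMap.range (((P : V →ₗ[ZMod 2] V) - LinearMap.id) ^ 2) := by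
    intro v
    refine ⟨v, ?_⟩
    have e : ((((P : V →ₗ[ZMod 2] V) - LinearMap.id) ^ 2 : V →ₗ[ZMod 2] V)) v
        = P (P v - v) - (P v - v) := by
      rw [pow_two]; rfl
    rw [e, map_sub]
    have e2 : (P * P) v = P (P v) := rfl
    rw [e2]
    have e3 : P (P v) - P v - (P v - v) = P (P v) + v - (P v + P v) := by abel
    rw [e3, add_self_zero, sub_zero]
  have hex : ∃ v0, (P * P) v0 + v0 ≠ 0 := by
    by_contra hno
    push Not at hno
    apply ht1
    ext v
    have h1 := hno v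
    have h2 : (P * P) v = (P * P) v + (v + v) := by rw [add_self_zero, add_zero]
    rw [h2, ← add_assoc, h1, zero_add]; rfl
  obtain ⟨v0, hv0⟩ := hex
  have htv : ∀ v, (P * P) v = v ∨ (P * P) v = v + ((P * P) v0 + v0) := by
    intro v
    have h2 : (P * P) v = (P * P) v + v + v := by rw [add_assoc, add_self_zero, add_zero]
    by_cases h0 : (P * P) v + v = 0
    · left; rw [h2, h0, zero_add]
    · right
      by_cases h1 : (P * P) v + v = (P * P) v0 + v0
      · rw [← h1, add_comm v, ← h2]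
      · exact absurd (four_le_card _ _ _ (hmem v0) (hmem v) hv0 h0 h1) hlt
  have htQ : P * P ∉ F.map S.subtype := by
    intro h
    apply ht1
    apply eq_one_of_pow_four hQc h
    rw [show (4 : ℕ) = 2 + 2 from rfl, pow_add, pow_two, ht, one_mul]
  have hy : ∃ y ∈ F.map S.subtype, y * (P * P) * y⁻¹ ≠ P * P := by
    by_contra hno
    push Not at hno
    apply htQ
    have hcent : (⟨P * P, S.mul_mem hPS hPS⟩ : S) ∈ Subgroup.centralizer (F : Set S) := by
      rw [Subgroup.mem_centralizer_iff]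
      intro f hf
      have := hno (S.subtype f) ⟨f, hf, rfl⟩
      rw [mul_inv_eq_iff_eq_mul] at this
      exact Subtype.ext this
    have hle := Cfsg.Agent.S1264.result (G := ↥S) (Subgroup.centralizer (F : Set S))
      (by rw [hF]) (by rw [hF]; exact Subgroup.le_normalizer) inferInstance
    obtain ⟨z, _, hz⟩ := hle hcent
    refine ⟨⟨P * P, S.mul_mem hPS hPS⟩, ?_, rfl⟩
    rw [← hz, hF]
    exact z.2
  obtain ⟨y, hy1, hy2⟩ := hy
  exact core _ hQc P hPQ _ htv ht y hy1 hy2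

end Cfsg.Agent.S4410
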