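import Cfsg.Statements.S4414
import Cfsg.Agent.Lib.Helper32.FM.CP2
import Cfsg.Agent.Lib.Helper32.FM.CP
import Cfsg.Agent.Lib.Helper32.FM.F1
import Cfsg.Agent.Lib.Helper32.FM.F2
import Cfsg.Agent.Lib.Helper32.FM.F3
import Cfsg.Agent.Lib.Helper32.FM.F4

set_option autoImplicit false
open Cfsg

namespace Cfsg.Agent.S4414

/-- Let S be a finite solvable group whose order is divisible only by the primes 2, p, q (p, q distinct odd primes), with a Sylow system S₂, S_p, S_q (pairwise permutable Sylow subgroups) such that: S_p is a minimal normal subgroup of S of order p or p²; S_q has order q and [S_p, S_q] = S_p; and O₂(S) = 1. Let E be an irreducible module for S over the field with two elements on which S_p acts faithfully, and E₀ the subspace of fixed points of S₂. Then either E₀ has at least 8 elements, or E₀ has exactly 4 elements and S_q does not leave E₀ invariant. -/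
theorem result {S : Type*} [Group S] [Finite S]
    [Group.IsSolvable S] (p q : ℕ) (hp : p.Prime) (hq : q.Prime) (hp2 : p ≠ 2) (hq2 : q ≠ 2) (hpq : p ≠ q)
    (hπ : ∀ r : ℕ, r.Prime → r ∣ Nat.card S → r = 2 ∨ r = p ∨ r = q)
    (S₂ : Sylow 2 S) (Sp : Sylow p S) (Sq : Sylow q S)
    (h2q : Nat.card ↥((S₂ : Subgroup S) ⊔ (Sq : Subgroup S)) = Nat.card ↥S₂ * Nat.card ↥Sq)
    (h2p : Nat.card ↥((S₂ : Subgroup S) ⊔ (Sp : Subgroup S)) = Nat.card ↥S₂ * Nat.card ↥Sp)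
    (hpq' : Nat.card ↥((Sp : Subgroup S) ⊔ (Sq : Subgroup S)) = Nat.card ↥Sp * Nat.card ↥Sq)
    (hSpN : (Sp : Subgroup S).Normal) (hSpmin : ∀ N : Subgroup S, N.Normal → N ≤ (Sp : Subgroup S) → N = ⊥ ∨ N = (Sp : Subgroup S))
    (hSpcard : Nat.card ↥Sp = p ∨ Nat.card ↥Sp = p ^ 2)
    (hSq : Nat.card ↥Sq = q) (hcomm : ⁅(Sp : Subgroup S), (Sq : Subgroup S)⁆ = (Sp : Subgroup S))
    (hO2 : Cfsg.pCore 2 S = ⊥)
    {E : Type*} [AddCommGroup E] [Module (ZMod 2) E] [Finite E] (ρ : Representation (ZMod 2) S E) (hE : Nontrivial E)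
    (hirr : ∀ N : Submodule (ZMod 2) E, (∀ s : S, ∀ m ∈ N, ρ s m ∈ N) → N = ⊥ ∨ N = ⊤)
    (hfaith : ∀ x ∈ (Sp : Subgroup S), ρ x = 1 → x = 1) :
    8 ≤ Nat.card {v : E // ∀ s ∈ (S₂ : Subgroup S), ρ s v = v} ∨
      (Nat.card {v : E // ∀ s ∈ (S₂ : Subgroup S), ρ s v = v} = 4 ∧
        ∃ x ∈ (Sq : Subgroup S), ∃ v : E, (∀ s ∈ (S₂ : Subgroup S), ρ s v = v) ∧ ¬ ∀ s ∈ (S₂ : Subgroup S), ρ s (ρ x v) = ρ x v) := by
  open Cfsg.Agent.Lib.Helper32.FM Cfsg.Agent.Lib.Helper25.FrF in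
  have hV1 : (Sp : Subgroup S) ≠ ⊥ := by
    intro h
    have h1 : Nat.card ↥(Sp : Subgroup S) = 1 := by rw [h]; simp
    rcases hSpcard with h2 | h2
    · exact hp.one_lt.ne (h1.symm.trans h2)
    · exact (Nat.one_lt_pow (by norm_num) hp.one_lt).ne (h1.symm.trans h2)
  have c : Cfg ρ p q (Sp : Subgroup S) (S₂ : Subgroup S) (Sq : Subgroup S) :=
    { hp := hp
      hp2 := hp2
      hq := hq
      hq2 := hq2
      nV := hSpN
      ab := ab_of_card p hp _ hSpcard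
      fixV := fixV_zero ρ _ hSpN hirr hfaith hV1
      irr := hirr
      top := top_of_sylow p q hp hq hπ S₂ Sp Sq
      hT := S₂.isPGroup'
      cQ := hSq
      cK := by rw [h2q, hSq, mul_comm]; rfl
      ordq := ordq_of q hq _ hSpN Sq hSq hcomm
      ntE := hE }
  have key : 8 ≤ Nat.card ↥(fixS ρ (S₂ : Subgroup S)) ∨
      (Nat.card ↥(fixS ρ (S₂ : Subgroup S)) = 4 ∧
        ∃ x ∈ (Sq : Subgroup S), ∃ v ∈ fixS ρ (S₂ : Subgroup S), ρ x v ∉ fixS ρ (S₂ : Subgroup S)) := by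
    rcases hSpcard with h | h
    · exact Or.inl (caseP c h)
    · exact caseP2 c h (exp_of_min p hp _ hSpN h hSpmin)
  have e : Nat.card {v : E // ∀ s ∈ (S₂ : Subgroup S), ρ s v = v} = Nat.card ↥(fixS ρ (S₂ : Subgroup S)) := rfl
  rw [e]
  rcases key with h | ⟨h, x, hx, v, hv, hxv⟩
  · exact Or.inl h
  · exact Or.inr ⟨h, x, hx, v, hv, hxv⟩

end Cfsg.Agent.S4414
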