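import Cfsg.Statements.S4420

set_option autoImplicit false
open Cfsg

namespace Cfsg.Agent.S4420

theorem inv_eq_of_sq {H : Type*} [Group H] {x : H} (h : x ^ 2 = 1) : x⁻¹ = x := by
  rw [inv_eq_iff_mul_eq_one, ← sq]; exact h

theorem inverts {H : Type*} [Group H] (A : Subgroup H) (hD : ∀ x : H, x ∉ A → x ^ 2 = 1)
    (x : H) (hx : x ∉ A) (a : H) (ha : a ∈ A) : x * a * x⁻¹ = a⁻¹ := by
  have h1 : x * a ∉ A := fun h => hx (by simpa using mul_mem h (inv_mem ha))
  have h2 := hD _ h1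
  have h3 := inv_eq_of_sq (hD x hx)
  rw [h3]
  rw [sq] at h2
  rw [eq_inv_iff_mul_eq_one]
  simpa [mul_assoc] using h2

theorem uniq {H : Type*} [Group H] [Finite H] (B B' : Subgroup H)
    (hBc : IsMulCommutative ↥B) (hB2 : B.index = 2)
    (hB : ∀ x : H, x ∉ B → x ^ 2 = 1 ∧ ∀ b ∈ B, x * b * x⁻¹ = b⁻¹)
    (hBc' : IsMulCommutative ↥B') (hB2' : B'.index = 2)
    (hB' : ∀ x : H, x ∉ B' → x ^ 2 = 1 ∧ ∀ b ∈ B', x * b * x⁻¹ = b⁻¹)
    (hne : ¬ (IsMulCommutative H ∧ ∀ x : H, x ^ 2 = 1)) : B' = B := by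
  by_contra hBB
  have hnle : ¬ B' ≤ B := by
    intro hle
    apply hBB
    have := Subgroup.relIndex_mul_index hle
    rw [hB2, hB2'] at this
    have h1 : B'.relIndex B = 1 := by omega
    exact le_antisymm hle (Subgroup.relIndex_eq_one.mp h1)
  obtain ⟨x, hx', hx⟩ := SetLike.not_le_iff_exists.mp hnle
  have hsq : ∀ h : H, h ^ 2 = 1 := by
    intro h
    by_cases h1 : h ∈ B
    · by_cases h2 : h ∈ B'
      · have e1 := (hB x hx).2 h h1
        have e2 : x * h = h * x := by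
          have := hBc'.is_comm.comm ⟨x, hx'⟩ ⟨h, h2⟩
          exact congrArg Subtype.val this
        rw [e2, mul_inv_cancel_right] at e1
        rw [sq]
        nth_rewrite 1 [e1]
        simp
      · exact (hB' h h2).1
    · exact (hB h h1).1
  apply hne
  refine ⟨⟨⟨fun a b => ?_⟩⟩, hsq⟩
  have h1 := hsq (a * b)
  have ha := inv_eq_of_sq (hsq a)
  have hb := inv_eq_of_sq (hsq b)
  have h2 := inv_eq_of_sq h1
  rw [mul_inv_rev, ha, hb] at h2
  exact h2.symm

/-- Structure of groups in which every element outside some proper subgroup has square 1. -/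
theorem result {H : Type*} [Group H] [Finite H] (A : Subgroup H) (hA : A ≠ ⊤) (hD : ∀ x : H, x ∉ A → x ^ 2 = 1) :
    ∃ B : Subgroup H, B.Normal ∧ IsMulCommutative ↥B ∧ B.index = 2 ∧
      (∀ x : H, x ∉ B → x ^ 2 = 1 ∧ ∀ b ∈ B, x * b * x⁻¹ = b⁻¹) ∧
      (¬ (IsMulCommutative H ∧ ∀ x : H, x ^ 2 = 1) →
        ∀ B' : Subgroup H, B'.Normal → IsMulCommutative ↥B' → B'.index = 2 →
          (∀ x : H, x ∉ B' → x ^ 2 = 1 ∧ ∀ b ∈ B', x * b * x⁻¹ = b⁻¹) → B' = B) := by
  suffices hmain : ∃ B : Subgroup H, B.Normal ∧ IsMulCommutative ↥B ∧ B.index = 2 ∧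
      (∀ x : H, x ∉ B → x ^ 2 = 1 ∧ ∀ b ∈ B, x * b * x⁻¹ = b⁻¹) by
    obtain ⟨B, h1, h2, h3, h4⟩ := hmain
    exact ⟨B, h1, h2, h3, h4, fun hne B' _ h2' h3' h4' => uniq B B' h2 h3 h4 h2' h3' h4' hne⟩
  obtain ⟨x, hx⟩ : ∃ x : H, x ∉ A := by
    by_contra h
    push_neg at h
    exact hA (eq_top_iff.mpr fun y _ => h y)
  have hinv := inverts A hD
  have hAc : ∀ a ∈ A, ∀ b ∈ A, a * b = b * a := by
    intro a ha b hb
    have h1 := hinv x hx (a * b) (mul_mem ha hb)
    have h2 := hinv x hx a ha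
    have h3 := hinv x hx b hb
    have h4 : x * (a * b) * x⁻¹ = (x * a * x⁻¹) * (x * b * x⁻¹) := by group
    rw [h4, h2, h3, ← mul_inv_rev] at h1
    exact (inv_injective h1).symm
  by_cases hidx : A.index = 2
  · refine ⟨A, Subgroup.normal_of_index_eq_two hidx, ⟨⟨fun a b => Subtype.ext (hAc a a.2 b b.2)⟩⟩, hidx, ?_⟩
    intro y hy
    exact ⟨hD y hy, hinv y hy⟩
  · -- index > 2 : find x, y, x*y outside A
    have hex : ∃ y : H, y ∉ A ∧ x * y ∉ A := by
      by_contra hcon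
      push_neg at hcon
      apply hidx
      rw [Subgroup.index_eq_two_iff]
      refine ⟨x, fun b => ?_⟩
      by_cases hb : b ∈ A
      · right
        refine ⟨hb, fun h => hx ?_⟩
        simpa using mul_mem (inv_mem hb) h
      · left
        refine ⟨?_, hb⟩
        have h1 := hcon b hb
        have h2 : b * x = (x * b)⁻¹ := by
          rw [mul_inv_rev, inv_eq_of_sq (hD x hx), inv_eq_of_sq (hD b hb)]
        rw [h2]; exact inv_mem h1
    obtain ⟨y, hy, hxy⟩ := hex
    have hA2 : ∀ a ∈ A, a ^ 2 = 1 := by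
      intro a ha
      have h1 := hinv (x * y) hxy a ha
      have h2 := hinv y hy a ha
      have h3 := hinv x hx a⁻¹ (inv_mem ha)
      have h4 : x * y * a * (x * y)⁻¹ = x * (y * a * y⁻¹) * x⁻¹ := by group
      rw [h4, h2, h3, inv_inv] at h1
      rw [sq]
      nth_rewrite 1 [h1]
      simp
    have hsq : ∀ h : H, h ^ 2 = 1 := fun h => by
      by_cases hh : h ∈ A
      · exact hA2 h hh
      · exact hD h hh
    have hcomm : ∀ a b : H, a * b = b * a := by
      intro a b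
      have h1 := hsq (a * b)
      have ha := inv_eq_of_sq (hsq a)
      have hb := inv_eq_of_sq (hsq b)
      have h2 := inv_eq_of_sq h1
      rw [mul_inv_rev, ha, hb] at h2
      exact h2.symm
    -- H is a nontrivial 2-group
    have hp : IsPGroup 2 H := fun g => ⟨1, by simpa using hsq g⟩
    obtain ⟨n, hn⟩ := IsPGroup.iff_card.mp hp
    have hn0 : n ≠ 0 := by
      rintro rfl
      have h1 : Nat.card H = 1 := by simpa using hn
      have := Nat.card_eq_one_iff_unique.mp h1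
      apply hx
      have := this.1.elim x 1
      rw [this]; exact one_mem A
    obtain ⟨k, rfl⟩ := Nat.exists_eq_succ_of_ne_zero hn0
    haveI : Fact (Nat.Prime 2) := ⟨Nat.prime_two⟩
    obtain ⟨B, hB⟩ := Sylow.exists_subgroup_card_pow_prime 2 (G := H) (n := k)
      (by rw [hn]; exact pow_dvd_pow 2 (Nat.le_succ k))
    have hBi : B.index = 2 := by
      have := B.card_mul_index
      rw [hB, hn, pow_succ] at this
      exact Nat.eq_of_mul_eq_mul_left (by positivity) this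
    refine ⟨B, Subgroup.normal_of_index_eq_two hBi, ⟨⟨fun a b => Subtype.ext (hcomm a b)⟩⟩, hBi, ?_⟩
    intro z _
    refine ⟨hsq z, fun b _ => ?_⟩
    rw [hcomm z b, mul_inv_cancel_right, inv_eq_of_sq (hsq b)]

end Cfsg.Agent.S4420
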