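import Cfsg.Statements.S4452
import Cfsg.Agent.Lib.Helper15.CoprimeCount

set_option autoImplicit false
open Cfsg

namespace Cfsg.Agent.S4452

open Cfsg.Agent.Lib Cfsg.Agent.Lib.Helper15
open scoped Pointwise

/-- Let the finite group G be the product of a normal subgroup K and a solvable subgroup H of coprime orders, and let N = N_G(H). Then the number of irreducible characters of G of degree coprime to the order of H equals the number of irreducible characters of N of degree coprime to the order of H. (The two sets are in fact in a canonical bijection; only the equality of their sizes is stated here.) -/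
theorem result {G : Type*} [Group G] [Finite G] (K H : Subgroup G) [K.Normal] (hKH : K ⊔ H = ⊤) (hcop : (Nat.card K).Coprime (Nat.card H)) (hsolv : Group.IsSolvable H) : Nat.card {χ : Cfsg.IrrCharacter G // (Cfsg.charDegree (χ : G → ℂ)).Coprime (Nat.card H)} = Nat.card {η : Cfsg.IrrCharacter (Subgroup.normalizer (H : Set G)) // (Cfsg.charDegree (η : Subgroup.normalizer (H : Set G) → ℂ)).Coprime (Nat.card H)} := by
  classical
  have := Fintype.ofFinite G
  have hK : K.Normal := inferInstance
  have hdisj : Disjoint K H := Subgroup.disjoint_of_coprime_natCard hcop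
  have hmul : (K : Set G) * (H : Set G) = Set.univ := by
    rw [← Subgroup.normal_mul, hKH]; rfl
  have hidx : K.index = Nat.card H := by
    have hc : H.IsComplement' K :=
      (Subgroup.isComplement'_of_disjoint_and_mul_eq_univ hdisj hmul).symm
    exact hc.index_eq_card
  have hHN : H ≤ Subgroup.normalizer (H : Set G) := Subgroup.le_normalizer
  have hKN : K ⊔ Subgroup.normalizer (H : Set G) = ⊤ :=
    top_le_iff.1 (hKH ▸ sup_le_sup_left hHN K)
  have hidx' : (K.subgroupOf (Subgroup.normalizer (H : Set G))).index = Nat.card H := by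
    change K.relIndex (Subgroup.normalizer (H : Set G)) = _
    rw [← Subgroup.relIndex_sup_right, sup_comm, hKN, Subgroup.relIndex_top_right, hidx]
  -- `K ∩ N = C_K(H)`
  have hinf : K ⊓ Subgroup.normalizer (H : Set G) = K ⊓ Subgroup.centralizer (H : Set G) := by
    apply le_antisymm
    · rintro k ⟨hk, hkN⟩
      refine ⟨hk, ?_⟩
      apply Subgroup.mem_centralizer_iff.2
      intro h hh
      have h1 : k * h * k⁻¹ * h⁻¹ ∈ H :=
        H.mul_mem ((Subgroup.mem_normalizer_iff.1 hkN h).1 hh) (H.inv_mem hh)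
      have h2 : k * h * k⁻¹ * h⁻¹ ∈ K := by
        have : k * h * k⁻¹ * h⁻¹ = k * (h * k⁻¹ * h⁻¹) := by group
        rw [this]
        exact K.mul_mem hk (hK.conj_mem _ (K.inv_mem hk) h)
      have h3 : k * h * k⁻¹ * h⁻¹ = 1 := Subgroup.disjoint_def.1 hdisj h2 h1
      have h4 : k * h = h * k := by
        have := congrArg (fun x => x * h * k) h3
        simpa [mul_assoc] using this
      exact h4.symm
    · exact inf_le_inf_left K (Subgroup.centralizer_le_normalizer _)
  have hcard' : Nat.card (K.subgroupOf (Subgroup.normalizer (H : Set G))) ∣ Nat.card K := by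
    rw [← Subgroup.inf_subgroupOf_right,
      Nat.card_congr (Subgroup.subgroupOfEquivOfLe inf_le_right).toEquiv]
    exact Subgroup.card_dvd_of_le inf_le_left
  rw [← hidx]
  conv_rhs => rw [hidx, ← hidx']
  rw [card_coprime_degree K (hidx ▸ hcop),
    card_coprime_degree (K.subgroupOf (Subgroup.normalizer (H : Set G)))
      (hidx' ▸ Nat.Coprime.coprime_dvd_left hcard' hcop),
    card_hom_ker, card_hom_ker,
    Nat.card_congr (MulEquiv.monoidHomCongrLeftEquiv (quotEquivOfSup K _ hKN))]
  congr 1
  have hdecomp : ∀ g : G, ∃ k ∈ K, ∃ h ∈ H, g = k * h := by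
    intro g
    have hg : g ∈ (K : Set G) * (H : Set G) := by rw [hmul]; trivial
    obtain ⟨k, hk, h, hh, rfl⟩ := Set.mem_mul.1 hg
    exact ⟨k, hk, h, hh, rfl⟩
  -- the left hand side
  have hL : Nat.card {ϑ : IrrCharacter K // ∀ (g : G) (n : K),
      (ϑ : K → ℂ) ⟨g * n * g⁻¹, hK.conj_mem (n : G) n.2 g⟩ = (ϑ : K → ℂ) n}
      = Nat.card {χ : IrrCharacter K // InvUnder K H (χ : K → ℂ)} := by
    apply Nat.card_congr
    apply Equiv.subtypeEquivRight
    intro ϑ
    constructor
    · intro h s _ g g' hg'
      rw [← h s g]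
      exact congrArg _ (Subtype.ext hg')
    · intro h g n
      obtain ⟨k, hk, s, hs, rfl⟩ := hdecomp g
      have h1 := h s hs n ⟨s * n * s⁻¹, hK.conj_mem (n : G) n.2 s⟩ rfl
      rw [← h1, ← irr_cf ϑ.2 ⟨s * n * s⁻¹, hK.conj_mem (n : G) n.2 s⟩ ⟨k, hk⟩]
      refine congrArg _ (Subtype.ext ?_)
      change k * s * n * (k * s)⁻¹ = k * (s * n * s⁻¹) * k⁻¹
      group
  rw [hL, card_inv_eq H hsolv _ K rfl (fun s _ g hg => hK.conj_mem g hg s) hcop]
  -- the right hand side
  have hR : Nat.card {ϑ : IrrCharacter (K.subgroupOf (Subgroup.normalizer (H : Set G))) //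
      ∀ (g : Subgroup.normalizer (H : Set G)) (n : K.subgroupOf (Subgroup.normalizer (H : Set G))),
      (ϑ : K.subgroupOf (Subgroup.normalizer (H : Set G)) → ℂ)
        ⟨g * n * g⁻¹, Subgroup.Normal.conj_mem inferInstance
          (n : Subgroup.normalizer (H : Set G)) n.2 g⟩
        = (ϑ : K.subgroupOf (Subgroup.normalizer (H : Set G)) → ℂ) n}
      = Nat.card (IrrCharacter (K.subgroupOf (Subgroup.normalizer (H : Set G)))) := by
    apply Nat.card_congr
    apply Equiv.subtypeUnivEquiv
    intro ϑ g n
    obtain ⟨k, hk, s, hs, hg⟩ := hdecomp (g : G)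
    have hkN : k ∈ Subgroup.normalizer (H : Set G) := by
      have : k = g * s⁻¹ := by rw [hg]; group
      rw [this]
      exact Subgroup.mul_mem _ g.2 (Subgroup.inv_mem _ (hHN hs))
    have hn : ((n : Subgroup.normalizer (H : Set G)) : G) ∈
        K ⊓ Subgroup.centralizer (H : Set G) := by
      rw [← hinf]
      exact ⟨n.2, (n : Subgroup.normalizer (H : Set G)).2⟩
    have hcomm := Subgroup.mem_centralizer_iff.1 hn.2 s hs
    rw [← irr_cf ϑ.2 n ⟨⟨k, hkN⟩, hk⟩]
    refine congrArg _ (Subtype.ext (Subtype.ext ?_))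
    change (g : G) * ((n : Subgroup.normalizer (H : Set G)) : G) * (g : G)⁻¹
      = k * ((n : Subgroup.normalizer (H : Set G)) : G) * k⁻¹
    rw [hg, mul_assoc k s, hcomm]
    group
  rw [hR]
  have e : K.subgroupOf (Subgroup.normalizer (H : Set G)) ≃*
      ↥(K ⊓ Subgroup.centralizer (H : Set G)) :=
    ((MulEquiv.subgroupCongr (Subgroup.inf_subgroupOf_right K _)).symm.trans
      (Subgroup.subgroupOfEquivOfLe inf_le_right)).trans (MulEquiv.subgroupCongr hinf)
  exact Nat.card_congr (Helper80.irrCongr e)

end Cfsg.Agent.S4452
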