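import Cfsg.Statements.S4456
import Cfsg.Agent.Lib.Lead.Residual
import Cfsg.Agent.Lib.Helper15.Relative
import Cfsg.Agent.Lib.Helper16.OrbitSum
import Cfsg.Agent.Lib.Helper80.Linear
import Cfsg.Agent.Lib.Helper81.Det
import Cfsg.Agent.S0864
import Cfsg.Agent.S0866

set_option autoImplicit false
open Cfsg

namespace Cfsg.Agent.S4456

open Cfsg.Agent.Lib.Lead Cfsg.Agent.Lib.Helper15 Cfsg.Agent.Lib.Helper80 Cfsg.Agent.Lib.Helper81

/-- Homomorphisms from `O^p(G)` to abelian groups have `p'`-exponent. -/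
theorem hom_pow_eq_one {G : Type*} [Group G] {p : ℕ} {A : Type*} [CommGroup A]
    (φ : ↥(pResidual p G) →* A) (m : ℕ) (hm : ∀ g : G, (orderOf g).Coprime p → g ^ m = 1)
    (n : pResidual p G) : φ n ^ m = 1 := by
  let ψ : ↥(pResidual p G) →* A := (powMonoidHom m).comp φ
  have h : Subgroup.closure {g : G | Nat.Coprime (orderOf g) p} ≤
      ψ.ker.map (pResidual p G).subtype := by
    rw [Subgroup.closure_le]
    intro x hx
    refine ⟨⟨x, mem_pResidual_of_coprime hx⟩, ?_, rfl⟩
    show φ _ ^ m = 1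
    rw [← map_pow]
    have : (⟨x, mem_pResidual_of_coprime hx⟩ : pResidual p G) ^ m = 1 := Subtype.ext (hm x hx)
    rw [this, map_one]
  obtain ⟨y, hy, hyn⟩ := h n.2
  have hyn' : y = n := Subtype.ext hyn
  rw [← hyn']
  exact hy

/-- The `p'`-part of the order kills all `p'`-elements. -/
theorem pow_ordCompl_eq_one {G : Type*} [Group G] [Finite G] (p : ℕ) [Fact p.Prime] (g : G)
    (hg : (orderOf g).Coprime p) : g ^ (ordCompl[p] (Nat.card G)) = 1 := by
  rw [← orderOf_dvd_iff_pow_eq_one]
  have h1 : orderOf g ∣ p ^ (Nat.card G).factorization p * ordCompl[p] (Nat.card G) := by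
    rw [Nat.ordProj_mul_ordCompl_eq_self]
    exact orderOf_dvd_natCard g
  exact (Nat.Coprime.pow_right _ hg).dvd_of_dvd_mul_left h1

/-- An invariant irreducible character of `p'`-degree of `O^p(G)` extends to `G`. -/
theorem exists_extension {G : Type*} [Group G] [Finite G] (p : ℕ) [Fact p.Prime]
    (θ : ↥(pResidual p G) → ℂ) (hθ : IsIrrCharacter _ θ)
    (hinv : ∀ (g : G) (n : pResidual p G),
      θ ⟨g * n * g⁻¹, (pResidual_normal p G).conj_mem (n : G) n.2 g⟩ = θ n)
    (hdeg : ¬ p ∣ charDegree θ) :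
    ∃ χ : G → ℂ, IsIrrCharacter G χ ∧ ∀ n : pResidual p G, χ n = θ n := by
  have hp : p.Prime := Fact.out
  have hc : IsCharacter _ θ := isCharacter_of_irr hθ
  obtain ⟨k, hk⟩ := index_pResidual (p := p) (G := G)
  have hcop : Nat.Coprime (pResidual p G).index (charDegree θ) := by
    rw [hk]
    exact Nat.Coprime.pow_left _ ((Nat.Prime.coprime_iff_not_dvd hp).mpr hdeg)
  apply (Cfsg.Agent.S0866.result (pResidual p G) θ hθ hinv (charDegree θ)
    (char_one_eq_charDegree hc) hcop).mpr
  obtain ⟨f, hf⟩ := exists_detHom hc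
  apply Cfsg.Agent.S0864.result (pResidual p G) (detChar θ) (detChar_isCharacter hc)
  · intro g n
    have h1 := detChar_comp (MulAut.conjNormal g : pResidual p G ≃* pResidual p G).toMonoidHom hc n
    have h2 : (fun y : pResidual p G =>
        θ ((MulAut.conjNormal g : pResidual p G ≃* pResidual p G).toMonoidHom y)) = θ := by
      funext y
      exact hinv g y
    rw [h2] at h1
    exact h1.symm
  · intro q hq hqd
    have hm : detChar θ ^ (ordCompl[p] (Nat.card G)) = 1 := by
      funext n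
      rw [hf, Pi.pow_apply, toFn_apply, Pi.one_apply, ← Units.val_pow_eq_pow_val,
        hom_pow_eq_one f _ (pow_ordCompl_eq_one p) n, Units.val_one]
    have hqm : q ∣ ordCompl[p] (Nat.card G) := hqd.trans (orderOf_dvd_of_pow_eq_one hm)
    have hqp : q ≠ p := by
      rintro rfl
      exact Nat.not_dvd_ordCompl hp Nat.card_pos.ne' hqm
    refine ⟨pResidual p G, le_rfl, detChar θ, ?_, ⟨0, ?_⟩, (detChar_isCharacter hc).1,
      (detChar_isCharacter hc).2, fun n => rfl⟩
    · rw [hk]
      exact Nat.Coprime.pow_left _ ((Nat.coprime_primes hp hq).mpr hqp.symm)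
    · rw [Subgroup.relIndex_self, pow_zero]

/-- `O^p(G)` has no abelian quotient of order divisible by `p`. -/
theorem not_dvd_index_commutator {G : Type*} [Group G] [Finite G] (p : ℕ) [Fact p.Prime] :
    ¬ p ∣ (commutator (pResidual p G)).index := by
  intro hd
  have hp : p.Prime := Fact.out
  obtain ⟨a, ha⟩ := exists_prime_orderOf_dvd_card' (G := Abelianization (pResidual p G)) p hd
  obtain ⟨n, rfl⟩ := QuotientGroup.mk'_surjective _ a
  have h1 := hom_pow_eq_one (Abelianization.of (G := pResidual p G)) _ (pow_ordCompl_eq_one p) n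
  have h2 : p ∣ ordCompl[p] (Nat.card G) := by
    have h3 := orderOf_dvd_of_pow_eq_one h1
    have h4 : orderOf (Abelianization.of n) = p := ha
    rwa [h4] at h3
  exact Nat.not_dvd_ordCompl hp Nat.card_pos.ne' h2

/-- Let p be a prime and G a finite group such that p divides the degree of every irreducible character of G of degree greater than one. Then G has a normal p-complement: a normal subgroup of order prime to p whose index is a power of p. -/
theorem result {G : Type*} [Group G] [Finite G] (p : ℕ) (hp : p.Prime) (hdeg : ∀ χ : Cfsg.IrrCharacter G, Cfsg.charDegree (χ : G → ℂ) ≠ 1 → p ∣ Cfsg.charDegree (χ : G → ℂ)) : ∃ N : Subgroup G, N.Normal ∧ (Nat.card N).Coprime p ∧ ∃ k : ℕ, N.index = p ^ k := by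
  have : Fact p.Prime := ⟨hp⟩
  classical
  refine ⟨pResidual p G, inferInstance, ?_, index_pResidual⟩
  set N := pResidual p G with hN
  let P : Sylow p G := default
  have hsup : N ⊔ (P : Subgroup G) = ⊤ := by
    rw [← Subgroup.index_eq_one]
    obtain ⟨k, hk⟩ := index_pResidual (p := p) (G := G)
    have h1 : (N ⊔ (P : Subgroup G)).index ∣ p ^ k := hk ▸ Subgroup.index_dvd_of_le le_sup_left
    have h2 : (N ⊔ (P : Subgroup G)).index ∣ (P : Subgroup G).index :=
      Subgroup.index_dvd_of_le le_sup_right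
    have h3 : (p ^ k).Coprime (P : Subgroup G).index :=
      Nat.Coprime.pow_left _ ((Nat.Prime.coprime_iff_not_dvd hp).mpr P.not_dvd_index)
    exact Nat.eq_one_of_dvd_coprimes h3 h1 h2
  let act : MulAction P (IrrCharacter N) :=
    { smul := fun g θ => ⟨cj N (g : G)⁻¹ θ.1, irr_cj N _ θ.2⟩
      one_smul := by
        intro θ
        apply Subtype.ext
        show cj N ((1 : P) : G)⁻¹ θ.1 = θ.1
        rw [Subgroup.coe_one, inv_one, cj_one]
      mul_smul := by
        intro g h θ
        apply Subtype.ext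
        show cj N ((g * h : P) : G)⁻¹ θ.1 = cj N (g : G)⁻¹ (cj N (h : G)⁻¹ θ.1)
        rw [cj_cj, Subgroup.coe_mul, mul_inv_rev] }
  have hdegsmul : ∀ (g : P) (θ : IrrCharacter N),
      charDegree ((g • θ : IrrCharacter N) : N → ℂ) = charDegree (θ : N → ℂ) := by
    intro g θ
    unfold charDegree
    show ⌊(cj N (g : G)⁻¹ θ.1 1).re⌋₊ = _
    rw [cj_apply_one]
  have hfix : ∀ θ : IrrCharacter N, θ ∈ MulAction.fixedPoints P (IrrCharacter N) →
      ∀ g : G, cj N g θ.1 = θ.1 := by
    intro θ hθ g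
    have h1 : (P : Subgroup G) ≤ inertia N θ.1 := by
      intro x hx
      have h2 := hθ (⟨x, hx⟩ : P)⁻¹
      have h3 : cj N (((⟨x, hx⟩ : P)⁻¹ : P) : G)⁻¹ θ.1 = θ.1 := congrArg Subtype.val h2
      rw [mem_inertia]
      simpa using h3
    have h2 : N ≤ inertia N θ.1 := le_inertia N (isClassFunction_of_char (isCharacter_of_irr θ.2))
    have h3 : g ∈ inertia N θ.1 := (sup_le h2 h1) (hsup ▸ Subgroup.mem_top g)
    exact h3
  have hA : ∀ a : ZMod p, p • a = 0 := by
    intro a
    rw [nsmul_eq_mul, ZMod.natCast_self, zero_mul]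
  have e1 := Cfsg.Agent.Lib.Helper16.sum_eq_sum_fixedPoints (Γ := P) (X := IrrCharacter N) p P.2 hA
    (fun θ => ((charDegree (θ : N → ℂ) ^ 2 : ℕ) : ZMod p)) (by intro g θ; simp only [hdegsmul])
  have e2 := Cfsg.Agent.Lib.Helper16.sum_eq_sum_fixedPoints (Γ := P) (X := IrrCharacter N) p P.2 hA
    (fun θ => if charDegree (θ : N → ℂ) = 1 then (1 : ZMod p) else 0)
    (by intro g θ; simp only [hdegsmul])
  have e3 : ∀ θ ∈ Finset.univ.filter (fun θ : IrrCharacter N =>
      θ ∈ MulAction.fixedPoints P (IrrCharacter N)),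
      ((charDegree (θ : N → ℂ) ^ 2 : ℕ) : ZMod p) =
        if charDegree (θ : N → ℂ) = 1 then (1 : ZMod p) else 0 := by
    intro θ hθ
    rw [Finset.mem_filter] at hθ
    by_cases hd : p ∣ charDegree (θ : N → ℂ)
    · have h1 : charDegree (θ : N → ℂ) ≠ 1 := by
        intro h
        rw [h] at hd
        exact hp.one_lt.ne' (Nat.dvd_one.mp hd)
      rw [if_neg h1, Nat.cast_pow, (ZMod.natCast_eq_zero_iff _ _).mpr hd]
      simp
    · obtain ⟨χ, hχ, hχθ⟩ := exists_extension p θ.1 θ.2
        (fun g n => congrFun (hfix θ hθ.2 g) n) hd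
      have h1 : charDegree χ = charDegree (θ : N → ℂ) := by
        unfold charDegree
        rw [← hχθ 1]
        rfl
      have h2 : charDegree (θ : N → ℂ) = 1 := by
        by_contra hne
        exact hd (h1 ▸ hdeg ⟨χ, hχ⟩ (h1 ▸ hne))
      rw [if_pos h2, h2]
      simp
  rw [Finset.sum_congr rfl e3, ← e2, ← Nat.cast_sum, sum_sq_charDegree, Finset.sum_boole] at e1
  have e4 : (Finset.univ.filter (fun θ : IrrCharacter N => charDegree (θ : N → ℂ) = 1)).card =
      (commutator N).index := by
    rw [← card_linear, Nat.card_eq_fintype_card, Fintype.card_subtype]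
    congr 1
    ext θ
    simp only [Finset.mem_filter, Finset.mem_univ, true_and]
    rw [char_one_eq_charDegree (isCharacter_of_irr θ.2)]
    norm_cast
  rw [e4] at e1
  apply Nat.Coprime.symm
  rw [Nat.Prime.coprime_iff_not_dvd hp]
  intro hd
  rw [(ZMod.natCast_eq_zero_iff _ _).mpr hd] at e1
  exact not_dvd_index_commutator p ((ZMod.natCast_eq_zero_iff _ _).mp e1.symm)

end Cfsg.Agent.S4456
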