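import Cfsg.Statements.S4457
import Mathlib
import Cfsg.Agent.Lib.Helper15.Relative
import Cfsg.Agent.Lib.Helper15.LinearHom
import Cfsg.Agent.Lib.Helper80.Inflation
import Cfsg.Agent.Lib.Helper80.Induced
import Cfsg.Agent.Lib.Helper80.CoreDvd
import Cfsg.Agent.Lib.Helper61.SylowCount
import Cfsg.Agent.Lib.Lead.Residual
import Cfsg.Agent.S0865
import Cfsg.Agent.S4456
import Cfsg.Agent.S0178
import Cfsg.Agent.S0187
import Cfsg.Agent.S0136

set_option autoImplicit false
open Cfsg
open Cfsg.Agent.Lib Cfsg.Agent.Lib.Helper15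
open scoped ComplexConjugate

namespace Cfsg.Agent.S4457

/-- Lemma E: degrees `|G:T| β(1)` -/
theorem lemE {G : Type*} [Group G] [Finite G] (N : Subgroup G) [hN : N.Normal]
    (hcop : Nat.Coprime N.index (Nat.card N)) (f : N →* ℂˣ) (T : Subgroup G)
    (hT : ∀ g : G, g ∈ T ↔ cj N g (toFn f) = toFn f)
    (β : T ⧸ (N.subgroupOf T) → ℂ)
    (hβ : IsIrrCharacter _ β) :
    ∃ χ : G → ℂ, IsIrrCharacter G χ ∧ χ 1 = (T.index : ℂ) * β 1 := by
  classical
  have := Fintype.ofFinite G
  set lam := toFn f with hlam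
  have hlamirr : IsIrrCharacter N lam := irr_of_linear (char_toFn f) (toFn_one' f)
  have hNT : N ≤ T := fun g hg => (hT g).2 (cj_of_mem N hg (char_cf (char_toFn f)))
  have hord : orderOf (downFun N T lam) ∣ Nat.card N := by
    apply orderOf_dvd_of_pow_eq_one
    funext x
    show (toFn f _) ^ (Nat.card N) = 1
    rw [toFn_apply, ← Units.val_pow_eq_pow_val, ← map_pow, pow_card_eq_one', map_one, Units.val_one]
  have hidx : (N.subgroupOf T).index ∣ N.index := by
    have := Subgroup.relIndex_mul_index hNT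
    exact Dvd.intro _ this
  obtain ⟨μ, ⟨hμc, hμ1, hμN, -⟩, -⟩ := S0865.result (N.subgroupOf T) (downFun N T lam)
    ⟨irr_char (irr_downFun hNT hlamirr), toFn_one' f⟩
    (by
      intro g n
      have h1 := congrFun ((hT g).1 g.2) ⟨((n : T) : G), Subgroup.mem_subgroupOf.mp n.2⟩
      exact h1)
    (Nat.Coprime.coprime_dvd_left hidx (Nat.Coprime.coprime_dvd_right hord hcop))
  have hβ' : IsIrrCharacter T (fun t => β (t : T ⧸ N.subgroupOf T)) := Helper80.isIrrCharacter_inflate (N.subgroupOf T) hβ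
  have hψ : IsIrrCharacter T (μ * fun t : T => β (t : T ⧸ N.subgroupOf T)) := irr_linear_mul hμc hμ1 hβ'
  have hres : resFun hNT (μ * fun t : T => β (t : T ⧸ N.subgroupOf T)) = (β 1) • lam := by
    funext x
    have h1 := hμN ⟨⟨(x : G), hNT x.2⟩, Subgroup.mem_subgroupOf.2 x.2⟩
    show μ ⟨(x : G), hNT x.2⟩ * β ((⟨(x : G), hNT x.2⟩ : T) : T ⧸ N.subgroupOf T) = β 1 * lam x
    have h2 : ((⟨(x : G), hNT x.2⟩ : T) : T ⧸ N.subgroupOf T) = 1 :=
      (QuotientGroup.eq_one_iff _).2 (Subgroup.mem_subgroupOf.2 x.2)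
    rw [h2, mul_comm]
    congr 1
  have hcc := (clifford_correspondence N hlamirr T hT hNT).1 _ hψ
    (by
      rw [hres, classInner_smul_left, irr_inner_self hlamirr, mul_one]
      exact irr_one_ne_zero hβ)
  refine ⟨_, hcc, ?_⟩
  rw [indFun_one]
  congr 1
  show μ 1 * β ((1 : T) : T ⧸ N.subgroupOf T) = β 1
  rw [hμ1, one_mul]; rfl

theorem lemE2 {G : Type*} [Group G] [Finite G] (m : ℕ)
    (hcd : ∀ χ : G → ℂ, IsIrrCharacter G χ → χ 1 = 1 ∨ χ 1 = (m : ℂ))
    (N : Subgroup G) [hN : N.Normal]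
    (hcop : Nat.Coprime N.index (Nat.card N)) (f : N →* ℂˣ) (T : Subgroup G)
    (hT : ∀ g : G, g ∈ T ↔ cj N g (toFn f) = toFn f) (hne : T ≠ ⊤) :
    T.index = m ∧ ∀ a ∈ T, ∀ b ∈ T, a * b * a⁻¹ * b⁻¹ ∈ N := by
  have hidx1 : T.index ≠ 1 := fun h => hne (Subgroup.index_eq_one.1 h)
  have hidx : T.index = m := by
    obtain ⟨χ, hχ, h1⟩ := lemE N hcop f T hT (fun _ => 1) irr_one
    rw [mul_one] at h1
    rcases hcd χ hχ with h | h
    · rw [h] at h1
      exact absurd (by exact_mod_cast h1.symm) hidx1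
    · rw [h] at h1
      exact_mod_cast h1.symm
  refine ⟨hidx, ?_⟩
  have hm0 : m ≠ 0 := by rw [← hidx]; exact Subgroup.index_ne_zero_of_finite
  have hlin : ∀ β : IrrCharacter (T ⧸ N.subgroupOf T), (β : T ⧸ N.subgroupOf T → ℂ) 1 = 1 := by
    intro β
    obtain ⟨χ, hχ, h1⟩ := lemE N hcop f T hT β β.2
    obtain ⟨n, hn⟩ := char_one_nat (irr_char β.2)
    rw [hn, hidx] at h1
    rw [hn]
    rcases hcd χ hχ with h | h
    · rw [h] at h1
      have h2 : 1 = m * n := by exact_mod_cast h1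
      have : n = 1 := Nat.eq_one_of_mul_eq_one_left h2.symm
      rw [this]; simp
    · rw [h] at h1
      have h2 : m = m * n := by exact_mod_cast h1
      have : n = 1 := by
        have h3 : m * 1 = m * n := by rw [mul_one]; exact h2
        exact (Nat.eq_of_mul_eq_mul_left (Nat.pos_of_ne_zero hm0) h3).symm
      rw [this]; simp
  have hcomm := (S0187.result (G := T ⧸ N.subgroupOf T)).2 hlin
  intro a ha b hb
  have h1 := hcomm ((⟨a, ha⟩ : T) : T ⧸ N.subgroupOf T) ((⟨b, hb⟩ : T) : T ⧸ N.subgroupOf T)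
  have h2 : (((⟨a, ha⟩ : T) * ⟨b, hb⟩ * (⟨a, ha⟩ : T)⁻¹ * (⟨b, hb⟩ : T)⁻¹ : T) : T ⧸ N.subgroupOf T) = 1 := by
    rw [QuotientGroup.mk_mul, QuotientGroup.mk_mul, QuotientGroup.mk_mul, h1, QuotientGroup.mk_inv,
      QuotientGroup.mk_inv]
    group
  have h3 := (QuotientGroup.eq_one_iff _).1 h2
  exact Subgroup.mem_subgroupOf.1 h3

section act
variable {G : Type*} [Group G] (N : Subgroup G) [hN : N.Normal]

/-- the (right) action of `G` on the dual of `N` -/
def act (g : G) : (N →* ℂˣ) →* (N →* ℂˣ) where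
  toFun f := f.comp (MulAut.conjNormal g : N ≃* N).toMonoidHom
  map_one' := rfl
  map_mul' _ _ := rfl

theorem toFn_act (g : G) (f : N →* ℂˣ) : toFn (act N g f) = cj N g (toFn f) := by
  rw [cj_eq_comp]; rfl

theorem act_act (g h : G) (f : N →* ℂˣ) : act N g (act N h f) = act N (h * g) f := by
  apply toFn_injective
  rw [toFn_act, toFn_act, toFn_act, cj_cj]

theorem act_eq_iff (g : G) (f : N →* ℂˣ) : act N g f = f ↔ cj N g (toFn f) = toFn f := by
  rw [← toFn_act]
  exact ⟨fun h => by rw [h], fun h => toFn_injective h⟩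

theorem act_of_mem_centralizer {g : G} (hg : g ∈ Subgroup.centralizer (N : Set G)) (f : N →* ℂˣ) :
    act N g f = f := by
  ext n
  show ((f ((MulAut.conjNormal g : N ≃* N) n) : ℂˣ) : ℂ) = f n
  congr 2
  apply Subtype.ext
  rw [MulAut.conjNormal_apply]
  have := Subgroup.mem_centralizer_iff.1 hg n n.2
  rw [← this]; group

theorem sep [Finite G] (hab : ∀ a b : N, a * b = b * a) (x y : N)
    (h : ∀ f : N →* ℂˣ, f x = f y) : x = y := by
  have h1 : IsConj x y := (S0136.result x y).2 (fun χ => by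
    obtain ⟨f, hf⟩ := exists_toFn (irr_char χ.2) ((S0187.result).1 hab χ)
    rw [hf, toFn_apply, toFn_apply, h f])
  obtain ⟨c, hc⟩ := isConj_iff.1 h1
  rw [← hc, hab c x]; group

theorem mem_centralizer_of_act [Finite G] (hab : ∀ a b : N, a * b = b * a) {g : G}
    (h : ∀ f : N →* ℂˣ, act N g f = f) : g ∈ Subgroup.centralizer (N : Set G) := by
  rw [Subgroup.mem_centralizer_iff]
  intro n hn
  have h1 : (MulAut.conjNormal g : N ≃* N) ⟨n, hn⟩ = ⟨n, hn⟩ := by
    apply sep N hab
    intro f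
    exact DFunLike.congr_fun (h f) ⟨n, hn⟩
  have h2 := congrArg Subtype.val h1
  rw [MulAut.conjNormal_apply] at h2
  simp only at h2
  calc n * g = g * n * g⁻¹ * g := by rw [h2]
    _ = g * n := by group

theorem act_apply (g : G) (f : N →* ℂˣ) (n : N) :
    act N g f n = f ((MulAut.conjNormal g : N ≃* N) n) := rfl

theorem fz [Finite G] (hcop : Nat.Coprime N.index (Nat.card N))
    (hab : ∀ a b : N, a * b = b * a) (z : G) (ν c : N →* ℂˣ)
    (hc : act N z ν = ν * c) (hzc : act N z c = c) : c = 1 := by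
  have hpow : ∀ (i : ℕ) (n : N), act N (z ^ i) ν n = ν n * (c n) ^ i := by
    intro i
    induction i with
    | zero =>
      intro n
      rw [pow_zero, pow_zero, mul_one, act_of_mem_centralizer N (Subgroup.one_mem _) ν]
    | succ i ih =>
      intro n
      rw [pow_succ, ← act_act, act_apply, ih, ← act_apply, ← act_apply, hc, hzc, pow_succ,
        MonoidHom.mul_apply, mul_assoc, mul_comm (c n)]
  have h1 : act N (z ^ N.index) ν = ν := by
    apply act_of_mem_centralizer
    have hz : z ^ N.index ∈ N := Subgroup.pow_index_mem N z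
    rw [Subgroup.mem_centralizer_iff]
    intro n hn
    exact congrArg Subtype.val (hab ⟨n, hn⟩ ⟨_, hz⟩)
  ext n
  have h2 : (c n) ^ N.index = 1 := by
    have := hpow N.index n
    rw [h1] at this
    exact (mul_eq_left.1 this.symm)
  have h3 : (c n) ^ Nat.card N = 1 := by
    rw [← map_pow, pow_card_eq_one', map_one]
  have h4 := pow_gcd_eq_one.2 ⟨h2, h3⟩
  rw [Nat.Coprime.gcd_eq_one hcop, pow_one] at h4
  rw [h4]; rfl

end act

theorem add_id {V : Type*} [AddCommGroup V] (a b c d : V) :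
    a + -c = b + -d + (a + -b + -(c + -d)) := by abel

theorem mul_id {V : Type*} [CommGroup V] (a b c d : V) :
    a * c⁻¹ = b * d⁻¹ * (a * b⁻¹ * (c * d⁻¹)⁻¹) :=
  add_id (V := Additive V) a b c d

theorem eq_of_le_of_index_eq {G : Type*} [Group G] [Finite G] {H K : Subgroup G} (h : H ≤ K)
    (hi : H.index = K.index) : H = K := by
  have h1 := Subgroup.relIndex_mul_index h
  rw [hi] at h1
  have h2 : H.relIndex K = 1 := by
    have hK : 0 < K.index := Nat.pos_of_ne_zero Subgroup.index_ne_zero_of_finite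
    exact Nat.eq_of_mul_eq_mul_right hK (by rw [h1, one_mul])
  exact le_antisymm h (Subgroup.relIndex_eq_one.1 h2)

theorem abs_all {V ι : Type*} [CommGroup V] (A : ι → V →* V) (z : ι)
    (hcomm : ∀ g ν, A z (A g ν) = A g (A z ν))
    (hfz : ∀ ν c, A z ν = ν * c → A z c = c → c = 1) (lam μ : V) (hzl : A z lam = lam)
    (hμ : A z μ ≠ μ) :
    ∃ b c, A z b ≠ b ∧ ∀ g, A g c = c → A g lam = lam ∧ A g b = b := by
  refine ⟨A z μ * μ⁻¹, lam * (A z μ * μ⁻¹), ?_, ?_⟩
  · intro h
    have := hfz μ (A z μ * μ⁻¹) (by rw [mul_comm μ, inv_mul_cancel_right]) h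
    exact hμ (mul_inv_eq_one.1 this)
  · intro g hg
    set b := A z μ * μ⁻¹ with hb
    rw [map_mul] at hg
    have hd2 : A g lam * lam⁻¹ = b * (A g b)⁻¹ := by
      rw [mul_inv_eq_iff_eq_mul, mul_assoc, mul_comm _ lam, ← mul_assoc, eq_mul_inv_iff_mul_eq, hg,
        mul_comm]
    have hzd : A z (A g lam * lam⁻¹) = A g lam * lam⁻¹ := by
      rw [map_mul, map_inv, hcomm, hzl]
    have hd1 : A g lam * lam⁻¹ = 1 := by
      apply hfz (μ * (A g μ)⁻¹) _ _ hzd
      rw [hd2, hb, map_mul, map_inv, map_mul, map_inv, hcomm]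
      exact mul_id _ _ _ _
    have h1 : A g lam = lam := mul_inv_eq_one.1 hd1
    refine ⟨h1, ?_⟩
    rw [h1] at hg
    exact mul_left_cancel hg

theorem keyclaim {G : Type*} [Group G] [Finite G] (m : ℕ)
    (hcd : ∀ χ : G → ℂ, IsIrrCharacter G χ → χ 1 = 1 ∨ χ 1 = (m : ℂ))
    (N : Subgroup G) [hN : N.Normal]
    (hcop : Nat.Coprime N.index (Nat.card N)) (hab : ∀ a b : N, a * b = b * a)
    (z : G) (hz : z ∉ Subgroup.centralizer (N : Set G))
    (hzc : ∀ g : G, (z * g)⁻¹ * (g * z) ∈ Subgroup.centralizer (N : Set G))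
    (lam : N →* ℂˣ) (hlam : ∃ g, act N g lam ≠ lam) : act N z lam ≠ lam := by
  intro hzl
  have hcomm : ∀ g ν, act N z (act N g ν) = act N g (act N z ν) := by
    intro g ν
    rw [act_act, act_act]
    have : g * z = (z * g) * ((z * g)⁻¹ * (g * z)) := by group
    rw [this, ← act_act, act_of_mem_centralizer N (hzc g)]
  obtain ⟨μ, hμ⟩ : ∃ μ, act N z μ ≠ μ := by
    by_contra hcon
    push Not at hcon
    exact hz (mem_centralizer_of_act N hab hcon)
  obtain ⟨b, c, hzb, hsplit⟩ := abs_all (act N) z hcomm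
    (fun ν c h1 h2 => fz N hcop hab z ν c h1 h2) lam μ hzl hμ
  -- inertia groups
  have hT : ∀ f : N →* ℂˣ, ∀ g : G, g ∈ inertia N (toFn f) ↔ cj N g (toFn f) = toFn f :=
    fun f g => mem_inertia N _ g
  have hT' : ∀ f : N →* ℂˣ, ∀ g : G, g ∈ inertia N (toFn f) ↔ act N g f = f :=
    fun f g => by rw [hT, act_eq_iff]
  have hne : ∀ f : N →* ℂˣ, (∃ g, act N g f ≠ f) → (inertia N (toFn f)).index = m := by
    intro f ⟨g, hg⟩
    refine (lemE2 m hcd N hcop f _ (hT f) ?_).1
    intro htop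
    apply hg
    rw [← hT', htop]; trivial
  have hle1 : inertia N (toFn c) ≤ inertia N (toFn lam) := by
    intro g hg
    rw [hT'] at hg ⊢
    exact (hsplit g hg).1
  have hle2 : inertia N (toFn c) ≤ inertia N (toFn b) := by
    intro g hg
    rw [hT'] at hg ⊢
    exact (hsplit g hg).2
  have hi1 := hne lam hlam
  have hi2 := hne b ⟨z, hzb⟩
  have hi3 := hne c (by
    obtain ⟨g, hg⟩ := hlam
    exact ⟨g, fun h => hg (hsplit g h).1⟩)
  have e1 := eq_of_le_of_index_eq hle1 (by rw [hi1, hi3])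
  have e2 := eq_of_le_of_index_eq hle2 (by rw [hi2, hi3])
  have : z ∈ inertia N (toFn b) := by
    rw [← e2, e1, hT']; exact hzl
  rw [hT'] at this
  exact hzb this

theorem coprime_trick {G : Type*} [Group G] [Finite G] (N : Subgroup G) [hN : N.Normal]
    (hcop : Nat.Coprime N.index (Nat.card N)) (a b : G)
    (hc : a * b * a⁻¹ * b⁻¹ ∈ N)
    (hca : ∀ n ∈ N, n * a = a * n) (hcb : ∀ n ∈ N, n * b = b * n) : a * b = b * a := by
  set c := a * b * a⁻¹ * b⁻¹ with hcdef
  have hab : a * b = c * b * a := by rw [hcdef]; group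
  have hpow : ∀ i : ℕ, a ^ i * b = c ^ i * b * a ^ i := by
    intro i
    induction i with
    | zero => simp
    | succ i ih =>
      have h1 : c ^ i * a = a * c ^ i := hca _ (N.pow_mem hc i)
      calc a ^ (i + 1) * b = a * (a ^ i * b) := by rw [pow_succ']; group
        _ = a * (c ^ i * b * a ^ i) := by rw [ih]
        _ = (a * c ^ i) * b * a ^ i := by group
        _ = c ^ i * (a * b) * a ^ i := by rw [← h1]; group
        _ = c ^ i * (c * b * a) * a ^ i := by rw [hab]
        _ = c ^ (i + 1) * b * a ^ (i + 1) := by rw [pow_succ, pow_succ']; group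
  have h1 := hpow N.index
  have h2 : a ^ N.index * b = b * a ^ N.index := hcb _ (Subgroup.pow_index_mem N a)
  rw [h2] at h1
  have h3 : c ^ N.index = 1 := by
    have : b * a ^ N.index = c ^ N.index * (b * a ^ N.index) := by rw [← mul_assoc]; exact h1
    exact (mul_eq_right.1 this.symm)
  have h4 : c ^ Nat.card N = 1 := by
    have := pow_card_eq_one' (G := N) (x := ⟨c, hc⟩)
    exact congrArg Subtype.val this
  have h5 := pow_gcd_eq_one.2 ⟨h3, h4⟩
  rw [Nat.Coprime.gcd_eq_one hcop, pow_one] at h5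
  rw [hab, h5, one_mul]

theorem core {G : Type*} [Group G] [Finite G] (m : ℕ)
    (hcd : ∀ χ : G → ℂ, IsIrrCharacter G χ → χ 1 = 1 ∨ χ 1 = (m : ℂ))
    (N : Subgroup G) [hN : N.Normal]
    (hcop : Nat.Coprime N.index (Nat.card N)) (hab : ∀ a b : N, a * b = b * a)
    (hnil : Group.IsNilpotent (G ⧸ N))
    (hA : Subgroup.centralizer (N : Set G) ≠ ⊤) :
    ∃ A : Subgroup G, A.Normal ∧ (∀ a ∈ A, ∀ b ∈ A, a * b = b * a) ∧ A.index = m := by
  classical
  set A := Subgroup.centralizer (N : Set G) with hAdef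
  have hAn : A.Normal := Subgroup.normal_centralizer
  have hNA : N ≤ A := by
    intro n hn
    rw [hAdef, Subgroup.mem_centralizer_iff]
    intro x hx
    exact congrArg Subtype.val (hab ⟨x, hx⟩ ⟨n, hn⟩)
  have hnilA : Group.IsNilpotent (G ⧸ A) :=
    Group.nilpotent_of_surjective (QuotientGroup.map N A (MonoidHom.id G) hNA) (by
      intro x
      obtain ⟨g, rfl⟩ := QuotientGroup.mk_surjective x
      exact ⟨(g : G ⧸ N), rfl⟩)
  have hnt : Nontrivial (G ⧸ A) := QuotientGroup.nontrivial_iff.2 hA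
  obtain ⟨zb, hzb, hzb1⟩ : ∃ zb ∈ Subgroup.center (G ⧸ A), zb ≠ 1 := by
    have := Group.IsNilpotent.center_ne_bot (G := G ⧸ A)
    exact (Subgroup.ne_bot_iff_exists_ne_one.1 this).elim (fun x hx => ⟨x, x.2, fun h => hx (Subtype.ext h)⟩)
  obtain ⟨z, rfl⟩ := QuotientGroup.mk_surjective zb
  have hzA : z ∉ A := fun h => hzb1 ((QuotientGroup.eq_one_iff z).2 h)
  have hcen : ∀ t : G, (t : G ⧸ A) ∈ Subgroup.center (G ⧸ A) → ∀ g, (t * g)⁻¹ * (g * t) ∈ A := by
    intro t ht g
    rw [← QuotientGroup.eq, QuotientGroup.mk_mul, QuotientGroup.mk_mul]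
    exact (Subgroup.mem_center_iff.1 ht g).symm
  obtain ⟨lam, g0, hg0⟩ : ∃ lam, ∃ g, act N g lam ≠ lam := by
    by_contra hcon
    push Not at hcon
    apply hA
    rw [eq_top_iff]
    intro g _
    exact mem_centralizer_of_act N hab (fun f => hcon f g)
  set T := inertia N (toFn lam) with hTdef
  have hT' : ∀ g, g ∈ T ↔ act N g lam = lam := fun g => by rw [hTdef, mem_inertia, act_eq_iff]
  have hTne : T ≠ ⊤ := by
    intro h
    apply hg0
    rw [← hT', h]; trivial
  obtain ⟨hTi, hTc⟩ := lemE2 m hcd N hcop lam T (fun g => mem_inertia N _ g) hTne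
  have hAT : A ≤ T := fun a ha => (hT' a).2 (act_of_mem_centralizer N ha lam)
  have key : ∀ t ∈ T, (t : G ⧸ A) ∈ Subgroup.center (G ⧸ A) → t ∈ A := by
    intro t ht hc
    by_contra hn
    exact keyclaim m hcd N hcop hab t hn (hcen t hc) lam ⟨g0, hg0⟩ ((hT' t).1 ht)
  set Tb := T.map (QuotientGroup.mk' A) with hTb
  have hTbab : ∀ x ∈ Tb, ∀ y ∈ Tb, x * y = y * x := by
    rintro _ ⟨t, ht, rfl⟩ _ ⟨s, hs, rfl⟩
    have h1 := hNA (hTc t ht s hs)
    have h2 := (QuotientGroup.eq_one_iff _).2 h1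
    show (t : G ⧸ A) * (s : G ⧸ A) = (s : G ⧸ A) * (t : G ⧸ A)
    rw [QuotientGroup.mk_mul, QuotientGroup.mk_mul, QuotientGroup.mk_mul, QuotientGroup.mk_inv,
      QuotientGroup.mk_inv] at h2
    calc (t : G ⧸ A) * (s : G ⧸ A) = ((t : G ⧸ A) * s * (t : G ⧸ A)⁻¹ * (s : G ⧸ A)⁻¹) * (s * t) := by group
      _ = s * t := by rw [h2, one_mul]
  set B := Tb ⊔ Subgroup.center (G ⧸ A) with hB
  have hBab : ∀ a b : B, a * b = b * a := by
    have hmem : ∀ x ∈ B, ∃ t ∈ Tb, ∃ c ∈ Subgroup.center (G ⧸ A), t * c = x := by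
      intro x hx
      have : x ∈ ((Tb ⊔ Subgroup.center (G ⧸ A) : Subgroup (G ⧸ A)) : Set (G ⧸ A)) := hx
      rw [Subgroup.mul_normal] at this
      obtain ⟨t, ht, c, hc, h⟩ := Set.mem_mul.1 this
      exact ⟨t, ht, c, hc, h⟩
    rintro ⟨a, ha⟩ ⟨b, hb⟩
    apply Subtype.ext
    obtain ⟨t, ht, c, hc, rfl⟩ := hmem a ha
    obtain ⟨s, hs, d, hd, rfl⟩ := hmem b hb
    show t * c * (s * d) = s * d * (t * c)
    have hc' := Subgroup.mem_center_iff.1 hc
    have hd' := Subgroup.mem_center_iff.1 hd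
    calc t * c * (s * d) = t * (c * s) * d := by group
      _ = t * (s * c) * d := by rw [hc' s]
      _ = (t * s) * (c * d) := by group
      _ = (s * t) * (d * c) := by rw [hTbab t ht s hs, hc' d]
      _ = s * (t * d) * c := by group
      _ = s * (d * t) * c := by rw [hd' t]
      _ = s * d * (t * c) := by group
  have hBi : B.index < m := by
    have h1 : Tb.index = m := by
      rw [hTb, Subgroup.index_map_eq _ (QuotientGroup.mk'_surjective A) (by rw [QuotientGroup.ker_mk']; exact hAT), hTi]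
    rw [← h1]
    apply Subgroup.index_strictAnti
    refine lt_of_le_of_ne le_sup_left ?_
    intro heq
    have h2 : (z : G ⧸ A) ∈ Tb := by
      rw [heq]; exact (le_sup_right : _ ≤ B) hzb
    obtain ⟨t, ht, hte⟩ := h2
    have h3 : t⁻¹ * z ∈ A := QuotientGroup.eq.1 hte
    have h4 : z ∈ T := by
      have := T.mul_mem ht (hAT h3)
      rwa [mul_inv_cancel_left] at this
    exact hzA (key z h4 hzb)
  have hlin : ∀ ψ : IrrCharacter (G ⧸ A), (ψ : G ⧸ A → ℂ) 1 = 1 := by
    intro ψ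
    have := Fintype.ofFinite (G ⧸ A)
    have h1 := Helper80.charDegree_le_index_of_comm ψ B hBab
    have h2 := hcd _ (Helper80.isIrrCharacter_inflate A ψ.2)
    rcases h2 with h2 | h2
    · exact h2
    · exfalso
      have h3 : (ψ : G ⧸ A → ℂ) 1 = (m : ℂ) := h2
      rw [Helper80.char_one_eq_charDegree (irr_char ψ.2)] at h3
      have h4 : charDegree (ψ : G ⧸ A → ℂ) = m := by exact_mod_cast h3
      omega
  have hGAab := (S0187.result (G := G ⧸ A)).2 hlin
  have hTA : T ≤ A := fun t ht => key t ht (Subgroup.mem_center_iff.2 (fun g => hGAab g t))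
  have hTeq : A = T := le_antisymm hAT hTA
  refine ⟨A, hAn, ?_, by rw [hTeq]; exact hTi⟩
  intro a ha b hb
  apply coprime_trick N hcop a b (hTc a (hAT ha) b (hAT hb))
  · intro n hn
    exact Subgroup.mem_centralizer_iff.1 ha n hn
  · intro n hn
    exact Subgroup.mem_centralizer_iff.1 hb n hn

/-- the degree of an irreducible character of a normal subgroup divides the degree of some
irreducible character of `G` -/
theorem exists_over {G : Type*} [Group G] [Finite G] (N : Subgroup G) [hN : N.Normal]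
    (θ : IrrCharacter N) :
    ∃ χ : IrrCharacter G, charDegree (θ : N → ℂ) ∣ charDegree (χ : G → ℂ) := by
  classical
  have := Fintype.ofFinite G
  obtain ⟨χ, hχ, h0⟩ := exists_constituent (char_indFun N (irr_char θ.2))
    (indFun_ne_zero_of_irr N θ.2)
  have h0' : classInner (fun n : N => χ n) (θ : N → ℂ) ≠ 0 :=
    (Helper80.classInner_indFun_ne_zero_iff N _ (irr_cf hχ)).1 h0
  refine ⟨⟨χ, hχ⟩, ?_⟩
  obtain ⟨e, he⟩ := inner_nat (char_restrict (irr_char hχ) N) (irr_char θ.2)
  have h1 := congrFun (clifford_theorem N hχ θ.2 h0') 1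
  simp only [Pi.smul_apply, Finset.sum_apply, smul_eq_mul, OneMemClass.coe_one] at h1
  have h2 : ∑ φ ∈ Finset.univ.image (fun g : G => cj N g (θ : N → ℂ)), φ 1
      = ((Finset.univ.image (fun g : G => cj N g (θ : N → ℂ))).card : ℂ) *
        (charDegree (θ : N → ℂ) : ℂ) := by
    rw [Finset.sum_congr rfl (g := fun _ => (charDegree (θ : N → ℂ) : ℂ)), Finset.sum_const,
      nsmul_eq_mul]
    intro φ hφ
    obtain ⟨g, -, rfl⟩ := Finset.mem_image.1 hφ
    rw [cj_apply_one, Helper80.char_one_eq_charDegree (irr_char θ.2)]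
  rw [h2, he, Helper80.char_one_eq_charDegree (irr_char hχ)] at h1
  have h3 : charDegree χ = e * ((Finset.univ.image (fun g : G => cj N g (θ : N → ℂ))).card *
      charDegree (θ : N → ℂ)) := by exact_mod_cast h1
  show _ ∣ charDegree χ
  rw [h3]
  exact ⟨e * (Finset.univ.image (fun g : G => cj N g (θ : N → ℂ))).card, by ring⟩

theorem exists_N0 {G : Type*} [Group G] [Finite G] (m : ℕ) (hm0 : m ≠ 0)
    (hcd : ∀ χ : IrrCharacter G, charDegree (χ : G → ℂ) = 1 ∨ charDegree (χ : G → ℂ) = m) :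
    ∃ (N : Subgroup G) (_ : N.Normal), (Nat.card N).Coprime m ∧
      (∀ r : ℕ, r.Prime → r ∣ N.index → r ∣ m) ∧
      Group.IsNilpotent (G ⧸ N) ∧ (∀ a b : N, a * b = b * a) ∧
      ((¬ ∃ p e : ℕ, p.Prime ∧ m = p ^ e) → ∀ a b : G, a * b * a⁻¹ * b⁻¹ ∈ N) := by
  classical
  have hpr : ∀ p : m.primeFactors, (p : ℕ).Prime := fun p => Nat.prime_of_mem_primeFactors p.2
  have hdv : ∀ p : m.primeFactors, (p : ℕ) ∣ m := fun p => Nat.dvd_of_mem_primeFactors p.2
  have hex : ∀ p : m.primeFactors, ∃ Np : Subgroup G, Np.Normal ∧ (Nat.card Np).Coprime p ∧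
      ∃ k : ℕ, Np.index = (p : ℕ) ^ k := fun p => S4456.result p (hpr p) (fun χ hne => by
    rcases hcd χ with h | h
    · exact absurd h hne
    · rw [h]; exact hdv p)
  choose Np hNn hNc hNi using hex
  have hN : (⨅ p, Np p).Normal := Subgroup.normal_iInf_normal hNn
  have hcopm : (Nat.card (⨅ p, Np p : Subgroup G)).Coprime m := by
    by_contra h
    obtain ⟨p, hp, h1, h2⟩ := Nat.Prime.not_coprime_iff_dvd.1 h
    have hpm : p ∈ m.primeFactors := Nat.mem_primeFactors.2 ⟨hp, h2, hm0⟩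
    have h3 : p ∣ Nat.card (Np ⟨p, hpm⟩) :=
      h1.trans (Subgroup.card_dvd_of_le (iInf_le Np ⟨p, hpm⟩))
    exact (Nat.Prime.coprime_iff_not_dvd hp).1 (hNc ⟨p, hpm⟩).symm h3
  refine ⟨⨅ p, Np p, hN, hcopm, ?_, ?_, ?_, ?_⟩
  · intro r hr hri
    by_contra hrm
    have : Fact r.Prime := ⟨hr⟩
    let R : Sylow r G := default
    have hR : (R : Subgroup G) ≤ ⨅ p, Np p := by
      apply le_iInf
      intro p
      have := hNn p
      apply Helper61.sylow_le_of_normal_of_coprime_index (Np p) _ R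
      obtain ⟨k, hk⟩ := hNi p
      rw [hk]
      apply Nat.Coprime.pow_left
      rw [Nat.coprime_primes (hpr p) hr]
      intro h
      exact hrm (h ▸ hdv p)
    exact R.not_dvd_index (hri.trans (Subgroup.index_dvd_of_le hR))
  · let φ : G →* ∀ p : m.primeFactors, G ⧸ Np p :=
      MonoidHom.pi (fun p => QuotientGroup.mk' (Np p))
    have hker : φ.ker = ⨅ p, Np p := by
      ext g
      rw [MonoidHom.mem_ker, Subgroup.mem_iInf]
      constructor
      · intro h p
        have := congrFun h p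
        exact (QuotientGroup.eq_one_iff g).1 this
      · intro h
        funext p
        exact (QuotientGroup.eq_one_iff g).2 (h p)
    have hnp : ∀ p : m.primeFactors, Group.IsNilpotent (G ⧸ Np p) := by
      intro p
      have : Fact (p : ℕ).Prime := ⟨hpr p⟩
      obtain ⟨k, hk⟩ := hNi p
      exact IsPGroup.isNilpotent (p := p) (IsPGroup.of_card (n := k) (by rw [← hk]; rfl))
    have h1 : Group.IsNilpotent φ.range := inferInstance
    have h2 : Group.IsNilpotent (G ⧸ φ.ker) :=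
      Group.nilpotent_of_mulEquiv (QuotientGroup.quotientKerEquivRange φ).symm
    exact Group.nilpotent_of_mulEquiv (QuotientGroup.quotientMulEquivOfEq hker)
  · apply (S0187.result).2
    intro θ
    obtain ⟨χ, hχ⟩ := exists_over (⨅ p, Np p) θ
    have h1 := Helper80.charDegree_dvd_card θ
    have h2 : charDegree (θ : (⨅ p, Np p : Subgroup G) → ℂ) ∣ m := by
      rcases hcd χ with h | h
      · rw [h] at hχ; exact hχ.trans (one_dvd m)
      · rwa [h] at hχ
    have h3 : charDegree (θ : (⨅ p, Np p : Subgroup G) → ℂ) = 1 :=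
      Nat.Coprime.eq_one_of_dvd (Nat.Coprime.coprime_dvd_left h1 hcopm) h2
    rw [Helper80.char_one_eq_charDegree (irr_char θ.2), h3]; simp
  · intro hpp a b
    rw [Subgroup.mem_iInf]
    intro p
    have := hNn p
    have hlin : ∀ ψ : IrrCharacter (G ⧸ Np p), (ψ : G ⧸ Np p → ℂ) 1 = 1 := by
      intro ψ
      have h1 := Helper80.charDegree_dvd_card ψ
      obtain ⟨k, hk⟩ := hNi p
      have hc : Nat.card (G ⧸ Np p) = (p : ℕ) ^ k := by rw [← hk]; rfl
      rw [hc] at h1
      have hinf := Helper80.isIrrCharacter_inflate (Np p) ψ.2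
      have h2 := hcd ⟨_, hinf⟩
      have h3 : charDegree (fun g : G => (ψ : G ⧸ Np p → ℂ) (g : G ⧸ Np p))
          = charDegree (ψ : G ⧸ Np p → ℂ) := by
        have e1 := Helper80.char_one_eq_charDegree (irr_char hinf)
        have e2 := Helper80.char_one_eq_charDegree (irr_char ψ.2)
        have e3 : ((charDegree (fun g : G => (ψ : G ⧸ Np p → ℂ) (g : G ⧸ Np p)) : ℕ) : ℂ)
            = (charDegree (ψ : G ⧸ Np p → ℂ) : ℂ) := by
          rw [← e1, ← e2]; rfl
        exact_mod_cast e3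
      simp only [h3] at h2
      rcases h2 with h2 | h2
      · rw [Helper80.char_one_eq_charDegree (irr_char ψ.2), h2]; simp
      · exfalso
        rw [h2] at h1
        obtain ⟨j, -, hj⟩ := (Nat.dvd_prime_pow (hpr p)).1 h1
        exact hpp ⟨p, j, hpr p, hj⟩
    have hcomm := (S0187.result (G := G ⧸ Np p)).2 hlin
    rw [← QuotientGroup.eq_one_iff, QuotientGroup.mk_mul, QuotientGroup.mk_mul, QuotientGroup.mk_mul,
      hcomm a b, QuotientGroup.mk_inv, QuotientGroup.mk_inv]
    group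

/-- Let G be a finite group whose irreducible character degrees are exactly 1 and m (m ≠ 1). Then either G has an abelian normal subgroup of index m, or m is a power of a prime p and G is the direct product of a p-group and an abelian group: there are normal subgroups P and A with P a p-group, A abelian, P ⊓ A = 1 and P ⊔ A = G. -/
theorem result {G : Type*} [Group G] [Finite G] (m : ℕ) (hcd : ∀ χ : Cfsg.IrrCharacter G, Cfsg.charDegree (χ : G → ℂ) = 1 ∨ Cfsg.charDegree (χ : G → ℂ) = m) (hm : ∃ χ : Cfsg.IrrCharacter G, Cfsg.charDegree (χ : G → ℂ) = m) (hm1 : m ≠ 1) : (∃ A : Subgroup G, A.Normal ∧ (∀ a ∈ A, ∀ b ∈ A, a * b = b * a) ∧ A.index = m) ∨ ∃ p e : ℕ, p.Prime ∧ m = p ^ e ∧ ∃ P A : Subgroup G, P.Normal ∧ A.Normal ∧ IsPGroup p P ∧ (∀ a ∈ A, ∀ b ∈ A, a * b = b * a) ∧ P ⊓ A = ⊥ ∧ P ⊔ A = ⊤ := by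
  classical
  have hm0 : m ≠ 0 := by
    obtain ⟨χ, hχ⟩ := hm
    rw [← hχ]
    exact (Helper80.charDegree_pos_of_irr χ.2).ne'
  have hcd' : ∀ χ : G → ℂ, IsIrrCharacter G χ → χ 1 = 1 ∨ χ 1 = (m : ℂ) := by
    intro χ hχ
    rw [Helper80.char_one_eq_charDegree (irr_char hχ)]
    rcases hcd ⟨χ, hχ⟩ with h | h
    · left; simp only at h; rw [h]; simp
    · right; simp only at h; rw [h]
  obtain ⟨N, hN, hcopm, hidx, hnil, hab, hcomm⟩ := exists_N0 m hm0 hcd
  have hcop : Nat.Coprime N.index (Nat.card N) := by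
    by_contra h
    obtain ⟨r, hr, h1, h2⟩ := Nat.Prime.not_coprime_iff_dvd.1 h
    have h3 := hidx r hr h1
    exact (Nat.Prime.not_coprime_iff_dvd.2 ⟨r, hr, h2, h3⟩) hcopm
  by_cases hA : Subgroup.centralizer (N : Set G) = ⊤
  · have hcen : ∀ g : G, ∀ n ∈ N, n * g = g * n := by
      intro g n hn
      have : g ∈ Subgroup.centralizer (N : Set G) := by rw [hA]; trivial
      exact Subgroup.mem_centralizer_iff.1 this n hn
    by_cases hpp : ∃ p e : ℕ, p.Prime ∧ m = p ^ e
    · right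
      obtain ⟨p, e, hp, rfl⟩ := hpp
      have : Fact p.Prime := ⟨hp⟩
      have he : e ≠ 0 := by
        rintro rfl
        exact hm1 (pow_zero p)
      have hNp : (Nat.card N).Coprime p :=
        Nat.Coprime.coprime_dvd_right (dvd_pow_self p he) hcopm
      have hNi : N.index = p ^ N.index.primeFactorsList.length := by
        apply Nat.eq_prime_pow_of_unique_prime_dvd Subgroup.index_ne_zero_of_finite
        intro d hd hdi
        exact (Nat.prime_dvd_prime_iff_eq hd hp).1 (hd.dvd_of_dvd_pow (hidx d hd hdi))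
      let P : Sylow p G := default
      have hcompl := Lead.isComplement'_sylow_of_coprime_of_index hNp hNi P
      have hsup : N ⊔ (P : Subgroup G) = ⊤ := hcompl.sup_eq_top
      have hdisj : N ⊓ (P : Subgroup G) = ⊥ := hcompl.disjoint.eq_bot
      refine ⟨p, e, hp, rfl, P, N, ?_, hN, P.2, ?_, by rw [inf_comm]; exact hdisj,
        by rw [sup_comm]; exact hsup⟩
      · constructor
        intro y hy g
        have hg : g ∈ ((N ⊔ (P : Subgroup G) : Subgroup G) : Set G) := by rw [hsup]; trivial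
        rw [Subgroup.normal_mul] at hg
        obtain ⟨n, hn, x, hx, rfl⟩ := Set.mem_mul.1 hg
        have h1 : n * x * y * (n * x)⁻¹ = x * y * x⁻¹ := by
          have h2 := hcen (x * y * x⁻¹) n hn
          calc n * x * y * (n * x)⁻¹ = (n * (x * y * x⁻¹)) * n⁻¹ := by group
            _ = x * y * x⁻¹ := by rw [h2]; group
        rw [h1]
        exact (P : Subgroup G).mul_mem ((P : Subgroup G).mul_mem hx hy) ((P : Subgroup G).inv_mem hx)
      · intro a ha b hb
        exact congrArg Subtype.val (hab ⟨a, ha⟩ ⟨b, hb⟩)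
    · exfalso
      have hGab : ∀ a b : G, a * b = b * a := by
        intro a b
        exact coprime_trick N hcop a b (hcomm hpp a b) (hcen a) (hcen b)
      obtain ⟨χ, hχ⟩ := hm
      have h1 := (S0187.result).1 hGab χ
      rw [Helper80.char_one_eq_charDegree (irr_char χ.2), hχ] at h1
      exact hm1 (by exact_mod_cast h1)
  · left
    exact core m hcd' N hcop hab hnil hA

end Cfsg.Agent.S4457
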