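import Cfsg.Statements.S4458
import Mathlib
import Cfsg.Agent.S4457
import Cfsg.Agent.S0176
import Cfsg.Agent.Lib.Helper15.PermChar
import Cfsg.Agent.Lib.Helper91.Fitting
import Cfsg.Agent.Lib.Helper80.Constituent

set_option autoImplicit false
open Cfsg
open Cfsg.Agent.Lib Cfsg.Agent.Lib.Helper15
open scoped ComplexConjugate

namespace Cfsg.Agent.S4458

theorem linear_comm {G : Type*} [Group G] [Finite G] {ψ : G → ℂ} (hψ : IsCharacter G ψ)
    (h1 : ψ 1 = 1) (a b : G) : ψ (a * b * a⁻¹ * b⁻¹) = 1 := by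
  rw [linear_mul hψ h1, linear_mul hψ h1, linear_mul hψ h1]
  have ha : ψ a * ψ a⁻¹ = 1 := by rw [← linear_mul hψ h1, mul_inv_cancel, h1]
  have hb : ψ b * ψ b⁻¹ = 1 := by rw [← linear_mul hψ h1, mul_inv_cancel, h1]
  calc ψ a * ψ b * ψ a⁻¹ * ψ b⁻¹ = (ψ a * ψ a⁻¹) * (ψ b * ψ b⁻¹) := by ring
    _ = 1 := by rw [ha, hb, one_mul]

/-- Taketa's step -/
theorem comm_mem_of_index {G : Type*} [Group G] [Fintype G] (m : ℕ)
    (hcd : ∀ χ : G → ℂ, IsIrrCharacter G χ → χ 1 = 1 ∨ χ 1 = (m : ℂ))
    (H : Subgroup G) (hH : H.index = m) (a b : G) : a * b * a⁻¹ * b⁻¹ ∈ H := by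
  classical
  have := Fintype.ofFinite (IrrCharacter G)
  set π : G → ℂ := indFun H (fun _ => 1) with hπ
  have hπc : IsCharacter G π := char_indFun H (irr_char irr_one)
  have hπ1 : π 1 = (m : ℂ) := by rw [hπ, indFun_one, hH, mul_one]
  have h1G : IsIrrCharacter G (fun _ => (1 : ℂ)) := irr_one
  have hin : classInner π (fun _ => (1 : ℂ)) = 1 := by
    rw [hπ, classInner_indFun_left H _ _ (irr_cf h1G)]
    exact irr_inner_self (irr_one (G := H))
  have hπ' : IsCharacter G (π - fun _ => (1 : ℂ)) := char_sub_irr hπc h1G (by rw [hin]; exact one_ne_zero)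
  have hdeg' : charDegree (π - fun _ => (1 : ℂ)) + 1 = m := by
    have h := Helper80.char_one_eq_charDegree hπ'
    rw [Pi.sub_apply, hπ1] at h
    have h2 : ((charDegree (π - fun _ => (1 : ℂ)) + 1 : ℕ) : ℂ) = (m : ℂ) := by
      push_cast; rw [← h]; ring
    exact_mod_cast h2
  have hlin : ∀ ψ : G → ℂ, IsIrrCharacter G ψ → classInner π ψ ≠ 0 → ψ 1 = 1 := by
    intro ψ hψ h0
    by_cases he : (fun _ => (1 : ℂ)) = ψ
    · rw [← he]
    · have h2 : classInner (π - fun _ => (1 : ℂ)) ψ ≠ 0 := by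
        rw [classInner_sub_left, irr_inner_ne h1G hψ he, sub_zero]; exact h0
      have h3 := Helper80.charDegree_le_of_constituent hπ' ⟨ψ, hψ⟩ h2
      rcases hcd ψ hψ with h | h
      · exact h
      · exfalso
        rw [Helper80.char_one_eq_charDegree (irr_char hψ)] at h
        have h4 : charDegree ψ = m := by exact_mod_cast h
        simp only at h3
        omega
  have hval : π (a * b * a⁻¹ * b⁻¹) = π 1 := by
    have hexp := cf_expansion (char_cf hπc)
    rw [hexp]
    simp only [Finset.sum_apply, Pi.smul_apply, smul_eq_mul]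
    apply Finset.sum_congr rfl
    intro ψ _
    by_cases h0 : classInner π (ψ : G → ℂ) = 0
    · rw [h0, zero_mul, zero_mul]
    · have h1 := hlin ψ ψ.2 h0
      rw [linear_comm (irr_char ψ.2) h1, h1]
  rw [hπ1, hπ, indFun_one_eq_card_fixedBy, ← hH] at hval
  have hcard : Nat.card (MulAction.fixedBy (G ⧸ H) (a * b * a⁻¹ * b⁻¹)) = Nat.card (G ⧸ H) := by
    exact_mod_cast hval
  rw [Nat.card_coe_set_eq] at hcard
  have huniv := (Set.eq_univ_iff_ncard _).2 hcard
  have hmem : ((1 : G) : G ⧸ H) ∈ MulAction.fixedBy (G ⧸ H) (a * b * a⁻¹ * b⁻¹) := by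
    rw [huniv]; trivial
  rw [MulAction.mem_fixedBy] at hmem
  have h5 : ((a * b * a⁻¹ * b⁻¹ * 1 : G) : G ⧸ H) = ((1 : G) : G ⧸ H) := hmem
  rw [mul_one] at h5
  have h6 := QuotientGroup.eq.1 h5
  have h7 := H.inv_mem h6
  simpa using h7

theorem commutator_le_of {G : Type*} [Group G] (H : Subgroup G)
    (h : ∀ a b : G, a * b * a⁻¹ * b⁻¹ ∈ H) : commutator G ≤ H := by
  rw [commutator_eq_closure, Subgroup.closure_le]
  rintro _ ⟨a, b, rfl⟩
  exact h a b

theorem ind_comm {G : Type*} [Group G] [Fintype G] (H : Subgroup G) (lam : H →* ℂˣ)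
    (hH : commutator G ≤ H) (a b : G) (ha : a ∈ commutator G) (hb : b ∈ commutator G) :
    indFun H (fun h => (lam h : ℂ)) (a * b * a⁻¹ * b⁻¹) = indFun H (fun h => (lam h : ℂ)) 1 := by
  rw [indFun_apply, indFun_apply]
  congr 1
  apply Finset.sum_congr rfl
  intro y _
  have hn : (commutator G).Normal := inferInstance
  have ha' : y⁻¹ * a * y ∈ H := hH (by simpa using hn.conj_mem a ha y⁻¹)
  have hb' : y⁻¹ * b * y ∈ H := hH (by simpa using hn.conj_mem b hb y⁻¹)
  have e1 : y⁻¹ * (a * b * a⁻¹ * b⁻¹) * y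
      = (((⟨_, ha'⟩ : H) * ⟨_, hb'⟩ * (⟨_, ha'⟩ : H)⁻¹ * (⟨_, hb'⟩ : H)⁻¹ : H) : G) := by
    simp only [Subgroup.coe_mul, Subgroup.coe_inv]
    group
  have e2 : y⁻¹ * 1 * y = ((1 : H) : G) := by simp
  rw [e1, e2, extendByZero_coe, extendByZero_coe, map_mul, map_mul, map_mul, map_inv, map_inv, map_one]
  congr 1
  rw [mul_comm (lam _) (lam _), mul_inv_cancel_right, mul_inv_cancel]

/-- If a finite group has exactly two irreducible character degrees, 1 and m with m ≠ 1, then its commutator subgroup is abelian. -/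
theorem result {G : Type*} [Group G] [Finite G] (m : ℕ) (hcd : ∀ χ : Cfsg.IrrCharacter G, Cfsg.charDegree (χ : G → ℂ) = 1 ∨ Cfsg.charDegree (χ : G → ℂ) = m) (hm : ∃ χ : Cfsg.IrrCharacter G, Cfsg.charDegree (χ : G → ℂ) = m) (hm1 : m ≠ 1) : ∀ a ∈ commutator G, ∀ b ∈ commutator G, a * b = b * a := by
  classical
  have := Fintype.ofFinite G
  have hcd' : ∀ χ : G → ℂ, IsIrrCharacter G χ → χ 1 = 1 ∨ χ 1 = (m : ℂ) := by
    intro χ hχ
    rw [Helper80.char_one_eq_charDegree (irr_char hχ)]
    rcases hcd ⟨χ, hχ⟩ with h | h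
    · left; simp only at h; rw [h]; simp
    · right; simp only at h; rw [h]
  rcases S4457.result m hcd hm hm1 with ⟨A, hAn, hAab, hAi⟩ |
    ⟨p, e, hp, rfl, P, A, hPn, hAn, hP, hAab, hinf, hsup⟩
  · -- G/A is abelian
    have hnt : Nontrivial (G ⧸ A) := by
      rw [QuotientGroup.nontrivial_iff]
      intro h
      rw [h, Subgroup.index_top] at hAi
      exact hm1 hAi.symm
    obtain ⟨x, hx⟩ := exists_ne (1 : G ⧸ A)
    have hBi : (Subgroup.zpowers x).index < m := by
      have h1 : (⊥ : Subgroup (G ⧸ A)).index = m := by rw [Subgroup.index_bot, ← hAi]; rfl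
      rw [← h1]
      apply Subgroup.index_strictAnti
      rw [bot_lt_iff_ne_bot]
      intro h
      exact hx (Subgroup.zpowers_eq_bot.1 h)
    have hlin : ∀ ψ : IrrCharacter (G ⧸ A), (ψ : G ⧸ A → ℂ) 1 = 1 := by
      intro ψ
      have := Fintype.ofFinite (G ⧸ A)
      have h1 := Helper80.charDegree_le_index_of_comm ψ (Subgroup.zpowers x) (by
        rintro ⟨_, i, rfl⟩ ⟨_, j, rfl⟩
        exact Subtype.ext (zpow_mul_comm x i j))
      rcases hcd' _ (Helper80.isIrrCharacter_inflate A ψ.2) with h2 | h2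
      · exact h2
      · exfalso
        have h3 : (ψ : G ⧸ A → ℂ) 1 = (m : ℂ) := h2
        rw [Helper80.char_one_eq_charDegree (irr_char ψ.2)] at h3
        have h4 : charDegree (ψ : G ⧸ A → ℂ) = m := by exact_mod_cast h3
        omega
    have hcomm := (S0187.result (G := G ⧸ A)).2 hlin
    have hle : commutator G ≤ A := by
      apply commutator_le_of
      intro a b
      rw [← QuotientGroup.eq_one_iff, QuotientGroup.mk_mul, QuotientGroup.mk_mul,
        QuotientGroup.mk_mul, hcomm a b, QuotientGroup.mk_inv, QuotientGroup.mk_inv]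
      group
    intro a ha b hb
    exact hAab a (hle ha) b (hle hb)
  · have : Fact p.Prime := ⟨hp⟩
    have hPnil : Group.IsNilpotent P := IsPGroup.isNilpotent hP
    have hAnil : Group.IsNilpotent A := by
      letI : CommGroup A := { (inferInstance : Group A) with
        mul_comm := fun a b => Subtype.ext (hAab a a.2 b b.2) }
      exact CommGroup.isNilpotent
    have hnil0 := Helper91.isNilpotent_sup P A hPnil hAnil
    rw [hsup] at hnil0
    have hnil : Group.IsNilpotent G := Group.nilpotent_of_mulEquiv Subgroup.topEquiv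
    intro a ha b hb
    have hconj : IsConj (a * b * a⁻¹ * b⁻¹) 1 := by
      rw [S0136.result]
      intro χ
      rcases hcd' χ χ.2 with h1 | h1
      · rw [linear_comm (irr_char χ.2) h1, h1]
      · obtain ⟨H, lam, hχ⟩ := S0176.result (χ : G → ℂ) χ.2
        have hHi : H.index = p ^ e := by
          rw [hχ, indFun_one, map_one, Units.val_one, mul_one] at h1
          exact_mod_cast h1
        have hle : commutator G ≤ H := commutator_le_of H (comm_mem_of_index _ hcd' H hHi)
        rw [hχ]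
        exact ind_comm H lam hle a b ha hb
    have h1 : a * b * a⁻¹ * b⁻¹ = 1 := by
      rw [isConj_comm, isConj_one_right] at hconj
      exact hconj
    calc a * b = (a * b * a⁻¹ * b⁻¹) * (b * a) := by group
      _ = b * a := by rw [h1, one_mul]

end Cfsg.Agent.S4458
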