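import Cfsg.Statements.S4466
import Cfsg.Agent.S0142
import Cfsg.Agent.S0143
import Cfsg.Agent.S4465
import Cfsg.Agent.S4458
import Cfsg.Agent.Lib.Helper76.ItoDeg
import Cfsg.Agent.Lib.Helper80.Core
import Cfsg.Agent.Lib.Helper80.CoreDvd
import Cfsg.Agent.Lib.Helper80.Linear
import Cfsg.Agent.Lib.Helper81.Det

set_option autoImplicit false
open Cfsg

namespace Cfsg.Agent.S4466

open Cfsg.Agent.Lib Cfsg.Agent.Lib.Helper80 Module
open scoped ComplexConjugate

universe u

/-- In a simple group, a nonidentity element acting as a scalar in a representation with proper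
kernel forces commutativity. -/
theorem comm_of_scalar {G : Type*} [Group G] [IsSimpleGroup G] {V : Type*} [AddCommGroup V]
    [Module ℂ V] (ρ : Representation ℂ G V) (hker : MonoidHom.ker ρ ≠ ⊤) (g : G) (hg : g ≠ 1)
    (c : ℂ) (hc : ρ g = c • LinearMap.id) : ∀ a b : G, a * b = b * a := by
  have hinj : Function.Injective ρ :=
    (MonoidHom.ker_eq_bot_iff ρ).mp ((MonoidHom.normal_ker ρ).eq_bot_or_eq_top.resolve_right hker)
  have hgc : g ∈ Subgroup.center G := by
    rw [Subgroup.mem_center_iff]
    intro a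
    apply hinj
    rw [map_mul, map_mul, hc]
    ext v
    simp
  have htop : Subgroup.center G = ⊤ := by
    rcases (inferInstance : (Subgroup.center G).Normal).eq_bot_or_eq_top with h | h
    · rw [h, Subgroup.mem_bot] at hgc
      exact absurd hgc hg
    · exact h
  intro a b
  have hb : b ∈ Subgroup.center G := by rw [htop]; trivial
  exact (Subgroup.mem_center_iff.mp hb a)

/-- nonlinear irreducible characters of a simple group are faithful -/
theorem faithful_of_simple {G : Type*} [Group G] [Finite G] [IsSimpleGroup G] (χ : IrrCharacter G)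
    (h1 : charDegree (χ : G → ℂ) ≠ 1) : ∀ g : G, (χ : G → ℂ) g = (χ : G → ℂ) 1 → g = 1 := by
  have hc := isCharacter_of_irr χ.2
  rcases (charKer_normal hc).eq_bot_or_eq_top with h | h
  · intro g hg
    have : g ∈ charKer _ hc := hg
    rwa [h, Subgroup.mem_bot] at this
  · exfalso
    apply h1
    have h2 : (χ : G → ℂ) 1 = 1 := by
      rw [char_one_eq_one_iff]
      intro n _
      have : n ∈ charKer _ hc := by rw [h]; trivial
      exact this
    rw [char_one_eq_charDegree hc] at h2
    exact_mod_cast h2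

/-- Burnside's vanishing lemma in a nonabelian simple group -/
theorem vanish_of_coprime {G : Type*} [Group G] [Finite G] [IsSimpleGroup G]
    (hnc : ¬ ∀ a b : G, a * b = b * a) (χ : IrrCharacter G)
    (h1 : charDegree (χ : G → ℂ) ≠ 1) (g : G) (hg : g ≠ 1)
    (hcop : Nat.Coprime (charDegree (χ : G → ℂ)) (Subgroup.centralizer ({g} : Set G)).index) :
    (χ : G → ℂ) g = 0 := by
  have hf := faithful_of_simple χ h1
  obtain ⟨χ, n, ρ, hirr, rfl⟩ := χ
  change Nat.Coprime (charDegree ρ.character) _ at hcop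
  change ∀ g : G, ρ.character g = ρ.character 1 → g = 1 at hf
  change ρ.character g = 0
  rw [charDegree_of_rep] at hcop
  have hcop' : Nat.Coprime (finrank ℂ (Fin n → ℂ)) (Subgroup.centralizer ({g} : Set G)).index := by
    simpa using hcop
  rcases Cfsg.Agent.S0142.result ρ g hcop' with h | h
  · exact h
  · exfalso
    obtain ⟨ω, hω⟩ := (Helper3.norm_char_eq_finrank_iff ρ g).mp h
    refine hnc (comm_of_scalar ρ ?_ g hg ω hω)
    intro htop
    apply hg
    apply hf
    rw [char_eq_one_iff_rep, htop]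
    trivial

/-- For `g ≠ 1` and a prime `p` some nonprincipal irreducible character of degree prime to `p`
does not vanish at `g`. -/
theorem exists_irr_not_dvd {G : Type*} [Group G] [Finite G] (p : ℕ) (hp : p.Prime) (g : G)
    (hg : g ≠ 1) : ∃ χ : IrrCharacter G, (χ : G → ℂ) ≠ (fun _ => 1) ∧
      ¬ p ∣ charDegree (χ : G → ℂ) ∧ (χ : G → ℂ) g ≠ 0 := by
  classical
  let one : IrrCharacter G := ⟨fun _ => 1, Cfsg.Agent.S0143.isIrrCharacter_one'⟩
  have hp0 : (p : ℂ) ≠ 0 := by exact_mod_cast hp.ne_zero
  by_contra hcon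
  push Not at hcon
  have hcol := col_orth g 1
  rw [if_neg (by rw [isConj_one_left]; exact hg)] at hcol
  rw [← Finset.add_sum_erase _ _ (Finset.mem_univ one)] at hcol
  have hint : IsIntegral ℤ (∑ χ ∈ Finset.univ.erase one,
      (χ : G → ℂ) g * conj ((χ : G → ℂ) 1) / (p : ℂ)) := by
    refine IsIntegral.sum _ fun χ hχ => ?_
    have hne : χ ≠ one := (Finset.mem_erase.mp hχ).1
    have hne' : (χ : G → ℂ) ≠ (fun _ => 1) := fun h => hne (Subtype.ext h)
    by_cases h0 : (χ : G → ℂ) g = 0
    · rw [h0]; simpa using isIntegral_zero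
    · have hdvd : p ∣ charDegree (χ : G → ℂ) := by
        by_contra hnd
        exact h0 (hcon χ hne' hnd)
      obtain ⟨m, hm⟩ := hdvd
      rw [char_one_eq_charDegree (isCharacter_of_irr χ.2), hm, Complex.conj_natCast]
      have : (χ : G → ℂ) g * ((p * m : ℕ) : ℂ) / (p : ℂ) = (χ : G → ℂ) g * (m : ℂ) := by
        push_cast; field_simp
      rw [this]
      exact (Helper3.IsCharacter.isIntegral (isCharacter_of_irr χ.2) g).mul (isIntegral_natCast m)
  have h1 : (1 : ℂ) / (p : ℂ) = - ∑ χ ∈ Finset.univ.erase one,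
      (χ : G → ℂ) g * conj ((χ : G → ℂ) 1) / (p : ℂ) := by
    rw [← Finset.sum_div]
    have h2 : ∑ χ ∈ Finset.univ.erase one, (χ : G → ℂ) g * conj ((χ : G → ℂ) 1) = -1 := by
      have : (one : G → ℂ) g * conj ((one : G → ℂ) 1) = 1 := by simp [one]
      rw [this] at hcol
      linear_combination hcol
    rw [h2]; ring
  have h3 : IsIntegral ℤ (((1 : ℕ) : ℂ) / (p : ℂ)) := by
    rw [Nat.cast_one, h1]; exact hint.neg
  have := Helper3.nat_dvd_of_isIntegral_div hp.ne_zero h3
  exact hp.one_lt.ne' (Nat.dvd_one.mp this)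

theorem scalar_of_sq_det (M : Matrix (Fin 2) (Fin 2) ℂ) (h1 : M * M = 1) (h2 : M.det = 1) :
    M = (M 0 0) • (1 : Matrix (Fin 2) (Fin 2) ℂ) := by
  have e00 := congrFun (congrFun h1 0) 0
  have e01 := congrFun (congrFun h1 0) 1
  have e10 := congrFun (congrFun h1 1) 0
  have e11 := congrFun (congrFun h1 1) 1
  simp only [Matrix.mul_apply, Fin.sum_univ_two, Matrix.one_apply_eq, Matrix.one_apply_ne,
    ne_eq, zero_ne_one, one_ne_zero, not_false_eq_true] at e00 e01 e10 e11
  rw [Matrix.det_fin_two] at h2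
  have hs : M 0 0 * (M 0 0 + M 1 1) = 2 := by linear_combination e00 + h2
  have hs0 : M 0 0 + M 1 1 ≠ 0 := by
    intro h
    rw [h, mul_zero] at hs
    norm_num at hs
  have hb : M 0 1 = 0 := by
    have : M 0 1 * (M 0 0 + M 1 1) = 0 := by linear_combination e01
    exact (mul_eq_zero.mp this).resolve_right hs0
  have hc : M 1 0 = 0 := by
    have : M 1 0 * (M 0 0 + M 1 1) = 0 := by linear_combination e10
    exact (mul_eq_zero.mp this).resolve_right hs0
  have ha0 : M 0 0 ≠ 0 := by
    intro h
    rw [h, zero_mul] at hs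
    norm_num at hs
  have hd : M 1 1 = M 0 0 := by
    have : M 0 0 * (M 1 1 - M 0 0) = 0 := by
      rw [hb] at e00 h2
      linear_combination h2 - e00
    have := (mul_eq_zero.mp this).resolve_left ha0
    linear_combination this
  ext i j
  fin_cases i <;> fin_cases j <;> simp [hb, hc, hd]

/-- A nonabelian simple group has no irreducible character of degree two. -/
theorem no_degree_two {G : Type*} [Group G] [Finite G] [IsSimpleGroup G]
    (hnc : ¬ ∀ a b : G, a * b = b * a) (χ : IrrCharacter G) : charDegree (χ : G → ℂ) ≠ 2 := by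
  intro h2
  have hf := faithful_of_simple χ (by rw [h2]; norm_num)
  have hdvd : 2 ∣ Nat.card G := h2 ▸ charDegree_dvd_card χ
  obtain ⟨t, ht⟩ := exists_prime_orderOf_dvd_card' 2 hdvd
  have ht1 : t ≠ 1 := by
    rintro rfl
    rw [orderOf_one] at ht
    norm_num at ht
  have htt : t * t = 1 := by
    rw [← pow_two, ← ht]
    exact pow_orderOf_eq_one t
  obtain ⟨χ, n, ρ, hirr, rfl⟩ := χ
  change charDegree ρ.character = 2 at h2
  change ∀ g : G, ρ.character g = ρ.character 1 → g = 1 at hf
  rw [charDegree_of_rep] at h2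
  subst h2
  have hker : MonoidHom.ker ρ ≠ ⊤ := by
    intro htop
    apply ht1
    apply hf
    rw [char_eq_one_iff_rep, htop]
    trivial
  have hdet : LinearMap.det (ρ t) = 1 := by
    rcases (MonoidHom.normal_ker (Helper81.detHom ρ)).eq_bot_or_eq_top with h | h
    · exfalso
      apply hnc
      intro a b
      apply (MonoidHom.ker_eq_bot_iff _).mp h
      rw [map_mul, map_mul, mul_comm]
    · have : t ∈ MonoidHom.ker (Helper81.detHom ρ) := by rw [h]; trivial
      rw [MonoidHom.mem_ker] at this
      rw [← Helper81.detHom_apply, this]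
      rfl
  have hsq : ρ t * ρ t = 1 := by rw [← map_mul, htt, map_one]
  have hM := scalar_of_sq_det (LinearMap.toMatrix' (ρ t))
    (by rw [← LinearMap.toMatrix'_mul, hsq, LinearMap.toMatrix'_one])
    (by rw [LinearMap.det_toMatrix', hdet])
  refine hnc (comm_of_scalar ρ hker t ht1 (LinearMap.toMatrix' (ρ t) 0 0) ?_)
  apply LinearMap.toMatrix'.injective
  rw [hM]
  simp [LinearMap.toMatrix'_id]

theorem commutator_eq_top_of_simple {G : Type*} [Group G] [IsSimpleGroup G]
    (hnc : ¬ ∀ a b : G, a * b = b * a) : commutator G = ⊤ := by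
  rcases (inferInstance : (commutator G).Normal).eq_bot_or_eq_top with h | h
  · exfalso
    apply hnc
    intro a b
    have h1 := Subgroup.commutator_mem_commutator (Subgroup.mem_top a) (Subgroup.mem_top b)
    change _ ∈ commutator G at h1
    rw [h, Subgroup.mem_bot, commutatorElement_eq_one_iff_mul_comm] at h1
    exact h1
  · exact h

/-- A simple group all of whose nonlinear irreducible characters have prime degree is abelian. -/
theorem comm_of_simple {G : Type*} [Group G] [Finite G] [IsSimpleGroup G]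
    (h : ∀ χ : IrrCharacter G, charDegree (χ : G → ℂ) ≠ 1 → (charDegree (χ : G → ℂ)).Prime) :
    ∀ a b : G, a * b = b * a := by
  classical
  by_contra hnc
  have hperf := commutator_eq_top_of_simple hnc
  have hex : ∃ d : ℕ, ∃ χ : IrrCharacter G, charDegree (χ : G → ℂ) = d ∧ d ≠ 1 := by
    have h1 := hnc
    rw [comm_iff_all_linear] at h1
    push Not at h1
    obtain ⟨χ, hχ⟩ := h1
    refine ⟨_, χ, rfl, fun h2 => hχ ?_⟩
    rw [char_one_eq_charDegree (isCharacter_of_irr χ.2), h2]
    simp
  obtain ⟨χ₀, hχ₀, hp1⟩ := Nat.find_spec hex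
  have hmin : ∀ ψ : IrrCharacter G, charDegree (ψ : G → ℂ) ≠ 1 →
      Nat.find hex ≤ charDegree (ψ : G → ℂ) := fun ψ hψ => Nat.find_min' hex ⟨ψ, rfl, hψ⟩
  set p := Nat.find hex with hpdef
  have hp : p.Prime := hχ₀ ▸ h χ₀ (hχ₀ ▸ hp1)
  have hp2 : p ≠ 2 := hχ₀ ▸ no_degree_two hnc χ₀
  have hodd : Odd p := hp.eq_two_or_odd'.resolve_left hp2
  have key : ∀ ψ : IrrCharacter G, charDegree (ψ : G → ℂ) ≠ 1 →
      charDegree (ψ : G → ℂ) = p ∨ p + 1 < charDegree (ψ : G → ℂ) := by
    intro ψ hψ
    have h1 := hmin ψ hψ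
    have h2 := h ψ hψ
    have h3 : charDegree (ψ : G → ℂ) ≠ p + 1 := by
      intro h4
      rw [h4] at h2
      rcases h2.eq_two_or_odd' with h5 | h5
      · have := hp.two_le
        omega
      · exact (Nat.not_odd_iff_even.mpr hodd.add_one) h5
    omega
  obtain ⟨A, hAab, hAp, hAi⟩ := Cfsg.Agent.S4465.result (χ₀ : G → ℂ) (isCharacter_of_irr χ₀.2)
    (faithful_of_simple χ₀ (hχ₀ ▸ hp1)) p hχ₀
  by_cases hA : A = ⊥
  · -- all degrees are `1` or `p`
    have hcd : ∀ χ : IrrCharacter G, charDegree (χ : G → ℂ) = 1 ∨ charDegree (χ : G → ℂ) = p := by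
      intro ψ
      by_cases hψ : charDegree (ψ : G → ℂ) = 1
      · exact Or.inl hψ
      · right
        rcases key ψ hψ with h1 | h1
        · exact h1
        · exfalso
          have h2 := hAi _ (h ψ hψ) (by
            rw [hA, Subgroup.index_bot]
            exact charDegree_dvd_card ψ)
          omega
    have hab := Cfsg.Agent.S4458.result p hcd ⟨χ₀, hχ₀⟩ hp1
    apply hnc
    intro a b
    exact hab a (by rw [hperf]; trivial) b (by rw [hperf]; trivial)
  · obtain ⟨x, hxA, hx1⟩ := (Subgroup.ne_bot_iff_exists_ne_one.mp hA : ∃ a : A, a ≠ 1) |>.elim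
      (fun a ha => (⟨a.1, a.2, fun h => ha (Subtype.ext h)⟩ : ∃ x : G, x ∈ A ∧ x ≠ 1))
    obtain ⟨ψ, hψ1, hψp, hψx⟩ := exists_irr_not_dvd p hp x hx1
    have hψd : charDegree (ψ : G → ℂ) ≠ 1 := by
      intro h1
      apply hψ1
      have h2 : (ψ : G → ℂ) 1 = 1 := by
        rw [char_one_eq_charDegree (isCharacter_of_irr ψ.2), h1]; simp
      funext g
      rw [(char_one_eq_one_iff ψ).mp h2 g (by rw [hperf]; trivial), h2]
    have hlt : p + 1 < charDegree (ψ : G → ℂ) := by
      rcases key ψ hψd with h1 | h1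
      · exact absurd (h1 ▸ dvd_rfl) hψp
      · exact h1
    apply hψx
    apply vanish_of_coprime hnc ψ hψd x hx1
    rw [Nat.Prime.coprime_iff_not_dvd (h ψ hψd)]
    intro hdvd
    have hle : A ≤ Subgroup.centralizer ({x} : Set G) := by
      intro a ha
      rw [Subgroup.mem_centralizer_singleton_iff]
      exact hAab a ha x hxA
    have := hAi _ (h ψ hψd) (hdvd.trans (Subgroup.index_dvd_of_le hle))
    omega

theorem aux (n : ℕ) : ∀ (G : Type u) [Group G] [Finite G], Nat.card G = n →
    (∀ χ : IrrCharacter G, charDegree (χ : G → ℂ) ≠ 1 → (charDegree (χ : G → ℂ)).Prime) →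
      Group.IsSolvable G := by
  induction n using Nat.strong_induction_on with
  | _ n ih =>
    intro G _ _ hcard h
    by_cases hnormal : ∃ N : Subgroup G, N.Normal ∧ N ≠ ⊥ ∧ N ≠ ⊤
    · obtain ⟨N, hN, hbot, htop⟩ := hnormal
      have hmul := N.card_mul_index
      have hNpos : 0 < Nat.card N := Nat.card_pos
      have hidx_pos : 0 < N.index := Nat.pos_of_ne_zero N.index_ne_zero_of_finite
      have h1 : Nat.card N ≠ 1 := fun h => hbot (Subgroup.card_eq_one.mp h)
      have h2 : N.index ≠ 1 := fun h => htop (Subgroup.index_eq_one.mp h)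
      have hlt1 : Nat.card N < n := by
        rw [← hcard, ← hmul]
        have : 2 ≤ N.index := by omega
        nlinarith
      have hlt2 : Nat.card (G ⧸ N) < n := by
        have : Nat.card (G ⧸ N) = N.index := rfl
        rw [this, ← hcard, ← hmul]
        have : 2 ≤ Nat.card N := by omega
        nlinarith
      have hs1 : Group.IsSolvable N := by
        refine ih _ hlt1 N rfl fun θ hθ => ?_
        obtain ⟨χ, hdvd, -, -⟩ := Helper76.exists_irr_over N θ
        have hχ1 : charDegree (χ : G → ℂ) ≠ 1 := by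
          intro h3
          rw [h3, Nat.dvd_one] at hdvd
          exact hθ hdvd
        have hpr := h χ hχ1
        rcases (Nat.dvd_prime hpr).mp hdvd with h3 | h3
        · exact absurd h3 hθ
        · rw [h3]; exact hpr
      have hs2 : Group.IsSolvable (G ⧸ N) := by
        refine ih _ hlt2 (G ⧸ N) rfl fun ψ hψ => ?_
        rw [← charDegree_inflate N ψ] at hψ ⊢
        exact h _ hψ
      exact (Group.isSolvable_iff_subgroup_quotient N).mpr ⟨hs1, hs2⟩
    · push Not at hnormal
      by_cases hsub : Subsingleton G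
      · infer_instance
      rw [not_subsingleton_iff_nontrivial] at hsub
      have hsimple : IsSimpleGroup G := ⟨fun N hN => by
        by_cases h : N = ⊥
        · exact Or.inl h
        · exact Or.inr (hnormal N hN h)⟩
      exact Group.isSolvable_of_comm (comm_of_simple h)

/-- If every irreducible character of the finite group G of degree greater than one has prime degree, then G is solvable. -/
theorem result {G : Type*} [Group G] [Finite G] (h : ∀ χ : Cfsg.IrrCharacter G, Cfsg.charDegree (χ : G → ℂ) ≠ 1 → (Cfsg.charDegree (χ : G → ℂ)).Prime) : Group.IsSolvable G := by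
  exact aux _ G rfl h

end Cfsg.Agent.S4466
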