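import Cfsg.Statements.S4474
import Cfsg.Agent.S4475
import Cfsg.Agent.S0158
import Cfsg.Agent.Lib.Helper74.CharMore
set_option autoImplicit false
set_option linter.style.haveILetI false
open scoped ComplexConjugate ComplexOrder
open Matrix Cfsg

namespace Cfsg.Agent.S4474

open Cfsg.Agent.Lib.Helper74 Cfsg.Agent.Lib.Helper81 Representation

variable {n : ℕ}

/-- entrywise complex conjugate -/
noncomputable def cj (B : Matrix (Fin n) (Fin n) ℂ) : Matrix (Fin n) (Fin n) ℂ :=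
  B.map (starRingEnd ℂ)

theorem cj_mul (A B : Matrix (Fin n) (Fin n) ℂ) : cj (A * B) = cj A * cj B := by
  simp [cj, Matrix.map_mul]

theorem cj_cj (A : Matrix (Fin n) (Fin n) ℂ) : cj (cj A) = A := by
  ext i j; simp [cj]

theorem cj_one : cj (1 : Matrix (Fin n) (Fin n) ℂ) = 1 := by
  simp [cj]

theorem cj_add (A B : Matrix (Fin n) (Fin n) ℂ) : cj (A + B) = cj A + cj B := by
  ext i j; simp [cj]

theorem cj_smul (c : ℂ) (A : Matrix (Fin n) (Fin n) ℂ) : cj (c • A) = conj c • cj A := by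
  ext i j; simp [cj]

theorem cj_transpose (A : Matrix (Fin n) (Fin n) ℂ) : cj Aᵀ = Aᴴ := by
  ext i j; simp [cj, Matrix.conjTranspose_apply]

theorem conjTranspose_cj (A : Matrix (Fin n) (Fin n) ℂ) : (cj A)ᴴ = Aᵀ := by
  ext i j; simp [cj, Matrix.conjTranspose_apply]

theorem cj_eq_transpose_of_isHermitian {P : Matrix (Fin n) (Fin n) ℂ} (h : P.IsHermitian) :
    cj P = Pᵀ := by
  have : Pᴴ = P := h
  rw [← cj_transpose] at this
  have h2 := congrArg cj this
  rw [cj_cj] at h2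
  exact h2.symm

/-- there is `z ≠ 0` with `z T + conj z` invertible -/
theorem exists_isUnit_combo (T : Matrix (Fin n) (Fin n) ℂ) :
    ∃ z : ℂ, IsUnit (z • T + conj z • (1 : Matrix (Fin n) (Fin n) ℂ)) := by
  classical
  let f : ℕ → ℂ := fun k => -(conj (1 + (k : ℂ) * Complex.I) / (1 + (k : ℂ) * Complex.I))
  have hz : ∀ k : ℕ, (1 + (k : ℂ) * Complex.I) ≠ 0 := by
    intro k h
    have := congrArg Complex.re h
    simp at this
  have hf : Function.Injective f := by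
    intro k l hkl
    simp only [f, neg_inj] at hkl
    rw [div_eq_div_iff (hz k) (hz l)] at hkl
    simp only [map_add, map_one, map_mul, Complex.conj_natCast, Complex.conj_I] at hkl
    have h2 : ((l : ℂ) - k) * (2 * Complex.I) = 0 := by linear_combination hkl
    rcases mul_eq_zero.mp h2 with h3 | h3
    · have : (l : ℂ) = k := sub_eq_zero.mp h3
      exact_mod_cast this.symm
    · simp at h3
  obtain ⟨t, ⟨k, rfl⟩, hk⟩ :=
    (Set.infinite_range_of_injective hf).exists_notMem_finset T.charpoly.roots.toFinset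
  refine ⟨1 + (k : ℂ) * Complex.I, ?_⟩
  set z : ℂ := 1 + (k : ℂ) * Complex.I with hzdef
  have hroot : ¬ T.charpoly.IsRoot (f k) := by
    intro h
    apply hk
    rw [Multiset.mem_toFinset, Polynomial.mem_roots (Matrix.charpoly_monic T).ne_zero]
    exact h
  rw [Polynomial.IsRoot, Matrix.eval_charpoly] at hroot
  have e : z • T + conj z • (1 : Matrix (Fin n) (Fin n) ℂ)
      = (-z) • (Matrix.scalar (Fin n) (f k) - T) := by
    ext i j
    simp only [f, Matrix.add_apply, Matrix.smul_apply, Matrix.sub_apply, Matrix.scalar_apply,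
      Matrix.diagonal_apply, Matrix.one_apply, smul_eq_mul]
    split_ifs with hij
    · field_simp [hz k]
      ring
    · ring
  rw [e, Matrix.isUnit_iff_isUnit_det, Matrix.det_smul]
  exact IsUnit.mk0 _ (mul_ne_zero (pow_ne_zero _ (neg_ne_zero.mpr (hz k))) hroot)

/-- The real form: from an invariant positive definite hermitian form and an invariant symmetric
nondegenerate bilinear form. -/
theorem real_form {G : Type*} [Group G] (hn : 0 < n) (X : G →* Matrix (Fin n) (Fin n) ℂ)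
    (hschur : ∀ C : Matrix (Fin n) (Fin n) ℂ, (∀ g, C * X g = X g * C) → ∃ c : ℂ, C = c • 1)
    (P : Matrix (Fin n) (Fin n) ℂ) (hP : P.PosDef) (hPinv : ∀ g, (X g)ᴴ * P * X g = P)
    (M : Matrix (Fin n) (Fin n) ℂ) (hMu : IsUnit M) (hMs : Mᵀ = M)
    (hMinv : ∀ g, (X g)ᵀ * M * X g = M) :
    ∃ S Sinv : Matrix (Fin n) (Fin n) ℂ, S * Sinv = 1 ∧ Sinv * S = 1 ∧
      ∀ g, cj (Sinv * X g * S) = Sinv * X g * S := by
  classical
  haveI : Nonempty (Fin n) := ⟨⟨0, hn⟩⟩
  obtain ⟨Pu, hPu⟩ := hP.isUnit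
  obtain ⟨Pi, hPi⟩ : ∃ Pi : Matrix (Fin n) (Fin n) ℂ, Pi = (↑Pu⁻¹ : Matrix (Fin n) (Fin n) ℂ) :=
    ⟨_, rfl⟩
  have hPPi : P * Pi = 1 := by rw [← hPu, hPi, Units.mul_inv]
  have hPiP : Pi * P = 1 := by rw [← hPu, hPi, Units.inv_mul]
  have hPh : Pᴴ = P := hP.isHermitian
  have hPih : Piᴴ = Pi := by
    -- the inverse of a hermitian matrix is hermitian
    have h1 : Piᴴ * P = 1 := by
      have := congrArg Matrix.conjTranspose hPPi
      rwa [Matrix.conjTranspose_mul, hPh, Matrix.conjTranspose_one] at this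
    calc Piᴴ = Piᴴ * (P * Pi) := by rw [hPPi, Matrix.mul_one]
      _ = (Piᴴ * P) * Pi := by rw [Matrix.mul_assoc]
      _ = Pi := by rw [h1, Matrix.one_mul]
  obtain ⟨A, hA⟩ : ∃ A : Matrix (Fin n) (Fin n) ℂ, A = Pi * cj M := ⟨_, rfl⟩
  have hXX : ∀ g, (X g⁻¹)ᴴ * (X g)ᴴ = 1 := by
    intro g
    rw [← Matrix.conjTranspose_mul, ← map_mul, mul_inv_cancel, map_one, Matrix.conjTranspose_one]
  -- (a)
  have e1 : ∀ g, cj M * cj (X g) = (X g⁻¹)ᴴ * cj M := by
    intro g
    have h := congrArg cj (hMinv g)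
    rw [cj_mul, cj_mul, cj_transpose] at h
    calc cj M * cj (X g) = ((X g⁻¹)ᴴ * (X g)ᴴ) * (cj M * cj (X g)) := by
          rw [hXX, Matrix.one_mul]
      _ = (X g⁻¹)ᴴ * ((X g)ᴴ * cj M * cj (X g)) := by simp only [Matrix.mul_assoc]
      _ = (X g⁻¹)ᴴ * cj M := by rw [h]
  have e2 : ∀ g, P * X g = (X g⁻¹)ᴴ * P := by
    intro g
    calc P * X g = ((X g⁻¹)ᴴ * (X g)ᴴ) * (P * X g) := by rw [hXX, Matrix.one_mul]
      _ = (X g⁻¹)ᴴ * ((X g)ᴴ * P * X g) := by simp only [Matrix.mul_assoc]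
      _ = (X g⁻¹)ᴴ * P := by rw [hPinv g]
  have e3 : ∀ g, Pi * (X g⁻¹)ᴴ = X g * Pi := by
    intro g
    calc Pi * (X g⁻¹)ᴴ = Pi * ((X g⁻¹)ᴴ * P) * Pi := by
          rw [Matrix.mul_assoc, Matrix.mul_assoc, hPPi, Matrix.mul_one]
      _ = Pi * (P * X g) * Pi := by rw [e2]
      _ = X g * Pi := by rw [← Matrix.mul_assoc, hPiP, Matrix.one_mul]
  have ha : ∀ g, A * cj (X g) = X g * A := by
    intro g
    rw [hA, Matrix.mul_assoc, e1, ← Matrix.mul_assoc, e3, Matrix.mul_assoc]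
  have hb : ∀ g, cj A * X g = cj (X g) * cj A := by
    intro g
    have := congrArg cj (ha g)
    rwa [cj_mul, cj_mul, cj_cj] at this
  obtain ⟨c, hc⟩ := hschur (A * cj A) (by
    intro g
    rw [Matrix.mul_assoc, hb, ← Matrix.mul_assoc, ha, Matrix.mul_assoc])
  -- A is invertible
  have hAu : IsUnit A := by
    obtain ⟨Mu, hMu'⟩ := hMu
    have hcjM : IsUnit (cj M) := by
      refine ⟨⟨cj M, cj (↑Mu⁻¹ : Matrix (Fin n) (Fin n) ℂ), ?_, ?_⟩, rfl⟩
      · rw [← cj_mul, ← hMu', Units.mul_inv, cj_one]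
      · rw [← cj_mul, ← hMu', Units.inv_mul, cj_one]
    rw [hA, hPi]
    exact (Pu⁻¹).isUnit.mul hcjM
  -- (d)
  have hAh : Aᴴ = M * Pi := by
    rw [hA, Matrix.conjTranspose_mul, conjTranspose_cj, hMs, hPih]
  have hd1 : Aᴴ * P * A = M * Pi * cj M := by
    rw [hAh, hA, Matrix.mul_assoc (M * Pi), ← Matrix.mul_assoc P, hPPi, Matrix.one_mul]
  have hd2 : cj Pi * (M * Pi * cj M) = conj c • 1 := by
    have := congrArg cj hc
    rw [cj_mul, cj_cj, cj_smul, cj_one, hA, cj_mul, cj_cj] at this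
    rw [← this]
    simp only [Matrix.mul_assoc]
  have hd3 : Aᴴ * P * A = conj c • cj P := by
    have h4 : cj P * cj Pi = 1 := by rw [← cj_mul, hPPi, cj_one]
    calc Aᴴ * P * A = (cj P * cj Pi) * (M * Pi * cj M) := by rw [h4, Matrix.one_mul, hd1]
      _ = cj P * (cj Pi * (M * Pi * cj M)) := by rw [Matrix.mul_assoc]
      _ = conj c • cj P := by rw [hd2]; simp
  have hpd1 : (Aᴴ * P * A).PosDef := by
    apply hP.conjTranspose_mul_mul_same
    exact Matrix.mulVec_injective_of_isUnit hAu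
  have hpd2 : (cj P).PosDef := by
    rw [cj_eq_transpose_of_isHermitian hP.isHermitian]
    exact hP.transpose
  have ht1 : 0 < (Aᴴ * P * A).trace := hpd1.trace_pos
  have ht2 : 0 < (cj P).trace := hpd2.trace_pos
  rw [hd3, Matrix.trace_smul, smul_eq_mul] at ht1
  have hcpos : 0 < conj c := (pos_iff_pos_of_mul_pos ht1).mpr ht2
  rw [Complex.lt_def] at hcpos
  simp only [Complex.zero_re, Complex.conj_re, Complex.zero_im, Complex.conj_im] at hcpos
  obtain ⟨hcre, hcim⟩ := hcpos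
  have hcim' : c.im = 0 := by linarith
  have hcr : c = (c.re : ℂ) := by
    apply Complex.ext <;> simp [hcim']
  obtain ⟨s, hs⟩ : ∃ s : ℝ, s = Real.sqrt c.re := ⟨_, rfl⟩
  have hspos : 0 < s := by rw [hs]; exact Real.sqrt_pos.mpr hcre
  have hss : s * s = c.re := by rw [hs]; exact Real.mul_self_sqrt hcre.le
  obtain ⟨B, hB⟩ : ∃ B : Matrix (Fin n) (Fin n) ℂ, B = ((s : ℂ)⁻¹) • A := ⟨_, rfl⟩
  have hsne : (s : ℂ) ≠ 0 := by exact_mod_cast hspos.ne'
  have hBB : B * cj B = 1 := by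
    rw [hB, cj_smul, Matrix.smul_mul, Matrix.mul_smul, hc, smul_smul, smul_smul, hcr, ← hss]
    have : (starRingEnd ℂ) ((s : ℂ)⁻¹) = (s : ℂ)⁻¹ := by
      rw [map_inv₀, Complex.conj_ofReal]
    rw [this]
    push_cast
    have : (s : ℂ)⁻¹ * (s : ℂ)⁻¹ * ((s : ℂ) * (s : ℂ)) = 1 := by field_simp
    rw [this, one_smul]
  have hBB' : cj B * B = 1 := mul_eq_one_comm.mp hBB
  have hBa : ∀ g, B * cj (X g) = X g * B := by
    intro g
    rw [hB, Matrix.smul_mul, ha, Matrix.mul_smul]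
  have hBb : ∀ g, cj B * X g = cj (X g) * cj B := by
    intro g
    have := congrArg cj (hBa g)
    rwa [cj_mul, cj_mul, cj_cj] at this
  obtain ⟨z, hz⟩ := exists_isUnit_combo B
  obtain ⟨Su, hSu⟩ := hz
  obtain ⟨S, hS⟩ : ∃ S : Matrix (Fin n) (Fin n) ℂ, S = z • B + conj z • 1 := ⟨_, rfl⟩
  obtain ⟨Si, hSi⟩ : ∃ Si : Matrix (Fin n) (Fin n) ℂ, Si = (↑Su⁻¹ : Matrix (Fin n) (Fin n) ℂ) :=
    ⟨_, rfl⟩
  have hSSi : S * Si = 1 := by rw [hS, ← hSu, hSi, Units.mul_inv]
  have hSiS : Si * S = 1 := by rw [hS, ← hSu, hSi, Units.inv_mul]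
  have hBS : B * cj S = S := by
    rw [hS, cj_add, cj_smul, cj_smul, cj_one, Complex.conj_conj, Matrix.mul_add, Matrix.mul_smul,
      Matrix.mul_smul, hBB, Matrix.mul_one, add_comm]
  have hcjS : cj S = cj B * S := by
    calc cj S = (cj B * B) * cj S := by rw [hBB', Matrix.one_mul]
      _ = cj B * (B * cj S) := by rw [Matrix.mul_assoc]
      _ = cj B * S := by rw [hBS]
  have hcjSi : cj Si = Si * B := by
    have h5 : cj S * cj Si = 1 := by rw [← cj_mul, hSSi, cj_one]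
    calc cj Si = (Si * (B * cj S)) * cj Si := by rw [hBS, hSiS, Matrix.one_mul]
      _ = Si * B * (cj S * cj Si) := by simp only [Matrix.mul_assoc]
      _ = Si * B := by rw [h5, Matrix.mul_one]
  refine ⟨S, Si, hSSi, hSiS, fun g => ?_⟩
  rw [cj_mul, cj_mul, hcjSi, hcjS]
  calc Si * B * cj (X g) * (cj B * S) = Si * (B * (cj (X g) * cj B)) * S := by
        simp only [Matrix.mul_assoc]
    _ = Si * (B * (cj B * X g)) * S := by rw [hBb]
    _ = Si * ((B * cj B) * X g) * S := by simp only [Matrix.mul_assoc]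
    _ = Si * X g * S := by rw [hBB, Matrix.one_mul]

theorem forward {G : Type*} [Group G] [Fintype G] (n : ℕ) (ρ : Representation ℂ G (Fin n → ℂ))
    (hρ : ρ.IsIrreducible)
    (hν : ((Nat.card G : ℂ)⁻¹ * ∑ s : G, ρ.character (s * s)) = 1) :
    ∃ (m : ℕ) (σ : Representation ℝ G (Fin m → ℝ)),
      ∀ g : G, ((LinearMap.trace ℝ (Fin m → ℝ) (σ g) : ℝ) : ℂ) = ρ.character g := by
  classical
  haveI := hρ
  have hn : 0 < n := by
    have := finrank_pos_of_irreducible ρ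
    rwa [Module.finrank_fin_fun] at this
  have hreal : ∀ g : G, (ρ.character g).im = 0 := by
    intro g
    by_contra hg
    have := (Cfsg.Agent.S0158.result ρ).2.mpr ⟨g, hg⟩
    rw [hν] at this
    exact one_ne_zero this
  obtain ⟨⟨M, hM0, hMinv⟩, hall⟩ := Cfsg.Agent.S4475.result n ρ hρ hreal
  have hMs : Mᵀ = M := by
    rw [hall M hMinv, hν, one_smul]
  set X : G →* Matrix (Fin n) (Fin n) ℂ := matRep ρ (Pi.basisFun ℂ (Fin n)) with hX
  have hXe : ∀ g, LinearMap.toMatrix' (ρ g) = X g := fun g => rfl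
  simp only [hXe] at hMinv
  have hMu : IsUnit M := by
    refine Cfsg.Agent.S4475.isUnit_of_intertwine_right ρ M (fun g => (X g⁻¹)ᵀ) ?_ hM0
    intro g
    rw [hXe]
    have hRR : X g * X g⁻¹ = 1 := matRep_mul_inv ρ _ g
    calc M * X g = ((X g⁻¹)ᵀ * (X g)ᵀ) * (M * X g) := by
          rw [← Matrix.transpose_mul, hRR, Matrix.transpose_one, Matrix.one_mul]
      _ = (X g⁻¹)ᵀ * ((X g)ᵀ * M * X g) := by simp only [Matrix.mul_assoc]
      _ = (X g⁻¹)ᵀ * M := by rw [hMinv g]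
  obtain ⟨P, hP, hPinv⟩ := exists_posDef_invariant X
  obtain ⟨S, Si, hSSi, hSiS, hY⟩ := real_form hn X
    (fun C hC => matRep_schur ρ (Pi.basisFun ℂ (Fin n)) C hC) P hP hPinv M hMu hMs hMinv
  let Yr : G → Matrix (Fin n) (Fin n) ℝ := fun g => (Si * X g * S).map Complex.re
  have hYr : ∀ g, (Yr g).map Complex.ofRealHom = Si * X g * S := by
    intro g
    ext i j
    have := congrFun (congrFun (hY g) i) j
    simp only [cj, Matrix.map_apply] at this
    simp only [Yr, Matrix.map_apply, Complex.ofRealHom_eq_coe]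
    exact Complex.conj_eq_iff_re.mp this
  have hinj : Function.Injective
      (fun B : Matrix (Fin n) (Fin n) ℝ => B.map Complex.ofRealHom) :=
    Matrix.map_injective Complex.ofReal_injective
  have hYr1 : Yr 1 = 1 := by
    apply hinj
    simp only [hYr, map_one, Matrix.mul_one, hSiS]
    rw [Matrix.map_one _ (map_zero _) (map_one _)]
  have hYrmul : ∀ g h, Yr (g * h) = Yr g * Yr h := by
    intro g h
    apply hinj
    simp only
    rw [Matrix.map_mul, hYr, hYr, hYr, map_mul]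
    calc Si * (X g * X h) * S = Si * X g * 1 * (X h * S) := by simp only [Matrix.mul_assoc, Matrix.one_mul]
      _ = Si * X g * (S * Si) * (X h * S) := by rw [hSSi]
      _ = _ := by simp only [Matrix.mul_assoc]
  let σ : Representation ℝ G (Fin n → ℝ) :=
    { toFun := fun g => Matrix.toLin' (Yr g)
      map_one' := by rw [hYr1, Matrix.toLin'_one]; rfl
      map_mul' := fun g h => by rw [hYrmul, Matrix.toLin'_mul]; rfl }
  refine ⟨n, σ, fun g => ?_⟩
  have h1 : LinearMap.trace ℝ (Fin n → ℝ) (σ g) = (Yr g).trace := by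
    rw [LinearMap.trace_eq_matrix_trace ℝ (Pi.basisFun ℝ (Fin n)), LinearMap.toMatrix_eq_toMatrix']
    change (LinearMap.toMatrix' (Matrix.toLin' (Yr g))).trace = _
    rw [LinearMap.toMatrix'_toLin']
  rw [h1]
  have h2 : (((Yr g).trace : ℝ) : ℂ) = ((Yr g).map Complex.ofRealHom).trace := by
    simp [Matrix.trace]
  rw [h2, hYr, Matrix.trace_mul_comm, ← Matrix.mul_assoc, hSSi, Matrix.one_mul, hX, trace_matRep]

theorem backward {G : Type*} [Group G] [Fintype G] (χ : G → ℂ) (hχ : IsIrrCharacter G χ)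
    (m : ℕ) (σ : Representation ℝ G (Fin m → ℝ))
    (hσ : ∀ g : G, ((LinearMap.trace ℝ (Fin m → ℝ) (σ g) : ℝ) : ℂ) = χ g) :
    ((Nat.card G : ℂ)⁻¹ * ∑ s : G, χ (s * s)) = 1 := by
  classical
  let Xr : G → Matrix (Fin m) (Fin m) ℝ := fun g => LinearMap.toMatrix' (σ g)
  have hXr1 : Xr 1 = 1 := by simp [Xr]
  have hXrmul : ∀ g h, Xr (g * h) = Xr g * Xr h := fun g h => by
    simp only [Xr, map_mul]
    exact LinearMap.toMatrix'_mul _ _
  let X : G → Matrix (Fin m) (Fin m) ℂ := fun g => (Xr g).map Complex.ofRealHom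
  have hX1 : X 1 = 1 := by
    simp only [X, hXr1]
    rw [Matrix.map_one _ (map_zero _) (map_one _)]
  have hXmul : ∀ g h, X (g * h) = X g * X h := fun g h => by
    simp only [X, hXrmul, Matrix.map_mul]
  let ρ : Representation ℂ G (Fin m → ℂ) :=
    { toFun := fun g => Matrix.toLin' (X g)
      map_one' := by rw [hX1, Matrix.toLin'_one]; rfl
      map_mul' := fun g h => by rw [hXmul, Matrix.toLin'_mul]; rfl }
  have hρX : ∀ g, LinearMap.toMatrix' (ρ g) = X g := fun g => by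
    change LinearMap.toMatrix' (Matrix.toLin' (X g)) = _
    rw [LinearMap.toMatrix'_toLin']
  have hchar : ρ.character = χ := by
    ext g
    rw [← hσ g, character, LinearMap.trace_eq_matrix_trace ℂ (Pi.basisFun ℂ (Fin m)),
      LinearMap.toMatrix_eq_toMatrix', hρX,
      LinearMap.trace_eq_matrix_trace ℝ (Pi.basisFun ℝ (Fin m)), LinearMap.toMatrix_eq_toMatrix']
    simp [Matrix.trace, X, Xr]
  have hirr : ρ.IsIrreducible := isIrreducible_of_isIrrCharacter ρ (hchar ▸ hχ)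
  have hreal : ∀ g : G, (ρ.character g).im = 0 := by
    intro g
    rw [hchar, ← hσ g, Complex.ofReal_im]
  obtain ⟨_, hall⟩ := Cfsg.Agent.S4475.result m ρ hirr hreal
  let Pr : Matrix (Fin m) (Fin m) ℝ := ∑ g, (Xr g)ᵀ * Xr g
  let P : Matrix (Fin m) (Fin m) ℂ := Pr.map Complex.ofRealHom
  have hPrinv : ∀ h, (Xr h)ᵀ * Pr * Xr h = Pr := by
    intro h
    simp only [Pr, Finset.mul_sum, Finset.sum_mul]
    refine Fintype.sum_equiv (Equiv.mulRight h) _ _ fun g => ?_
    simp only [Equiv.coe_mulRight, hXrmul, Matrix.transpose_mul, Matrix.mul_assoc]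
  have hPinv : ∀ g : G, (LinearMap.toMatrix' (ρ g)).transpose * P * LinearMap.toMatrix' (ρ g) = P := by
    intro g
    rw [hρX]
    simp only [P, X]
    rw [← Matrix.transpose_map, ← Matrix.map_mul, ← Matrix.map_mul, hPrinv]
  have hPs : Pᵀ = P := by
    simp only [P]
    rw [← Matrix.transpose_map]
    congr 1
    simp only [Pr, Matrix.transpose_sum, Matrix.transpose_mul, Matrix.transpose_transpose]
  have hm : 0 < m := by
    haveI := hirr
    have := finrank_pos_of_irreducible ρ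
    rwa [Module.finrank_fin_fun] at this
  have hP0 : P ≠ 0 := by
    intro h0
    have h1 : Pr ⟨0, hm⟩ ⟨0, hm⟩ = 0 := by
      have := congrFun (congrFun h0 ⟨0, hm⟩) ⟨0, hm⟩
      simpa [P] using this
    have h2 : (1 : ℝ) ≤ Pr ⟨0, hm⟩ ⟨0, hm⟩ := by
      simp only [Pr, Matrix.sum_apply, Matrix.mul_apply, Matrix.transpose_apply]
      calc (1 : ℝ) = ∑ k, Xr 1 k ⟨0, hm⟩ * Xr 1 k ⟨0, hm⟩ := by
            rw [hXr1]; simp [Matrix.one_apply]
        _ ≤ ∑ g, ∑ k, Xr g k ⟨0, hm⟩ * Xr g k ⟨0, hm⟩ :=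
            Finset.single_le_sum (f := fun g => ∑ k, Xr g k ⟨0, hm⟩ * Xr g k ⟨0, hm⟩)
              (fun g _ => Finset.sum_nonneg fun k _ => mul_self_nonneg _) (Finset.mem_univ 1)
    linarith
  have h3 := hall P hPinv
  rw [hPs, hchar] at h3
  by_contra hne
  apply hP0
  have h4 : (1 - ((Nat.card G : ℂ)⁻¹ * ∑ s : G, χ (s * s))) • P = 0 := by
    rw [sub_smul, one_smul, ← h3, sub_self]
  rcases smul_eq_zero.mp h4 with h5 | h5
  · exact absurd (sub_eq_zero.mp h5).symm hne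
  · exact h5

theorem result {G : Type*} [Group G] [Fintype G] (χ : Cfsg.IrrCharacter G) : ((Nat.card G : ℂ)⁻¹ * ∑ s : G, (χ : G → ℂ) (s * s)) = 1 ↔ ∃ (n : ℕ) (ρ : Representation ℝ G (Fin n → ℝ)), ∀ g : G, ((LinearMap.trace ℝ (Fin n → ℝ) (ρ g) : ℝ) : ℂ) = (χ : G → ℂ) g := by
  constructor
  · intro h
    obtain ⟨χ, n, ρ, hρ, rfl⟩ := χ
    exact forward n ρ hρ h
  · rintro ⟨m, σ, hσ⟩
    exact backward χ.1 χ.2 m σ hσ

end Cfsg.Agent.S4474
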