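import Cfsg.Statements.S4483
import Cfsg.Agent.S0872
import Cfsg.Agent.Lib.Helper15.Ind
import Cfsg.Agent.Lib.Helper3.Table
import Cfsg.Agent.Lib.Helper3.Integral
import Cfsg.Agent.Lib.Helper74.CharMore
import Cfsg.Agent.Lib.Helper78.WeakOrth
import Cfsg.Agent.Lib.Helper78.DefectZero
import Cfsg.Agent.Lib.Helper81.BrauerPerm

set_option autoImplicit false
set_option linter.style.haveILetI false
open Cfsg

namespace Cfsg.Agent.S4483

open Cfsg.Agent.Lib.Helper74 Cfsg.Agent.Lib.Helper78
open scoped ComplexConjugate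




/-- Summing a function invariant under a fixed-point-free involution gives twice something. -/
theorem sum_pairs {α : Type*} [DecidableEq α] (σ : α → α) (hσ : ∀ a, σ (σ a) = a) (F : α → ℂ)
    (hF : ∀ a, F (σ a) = F a) (P : ℂ → Prop) (h0 : P 0) (hadd : ∀ x y, P x → P y → P (x + y))
    (hP : ∀ a, P (F a)) :
    ∀ (n : ℕ) (s : Finset α), s.card = n → (∀ a ∈ s, σ a ∈ s) → (∀ a ∈ s, σ a ≠ a) →
      ∃ r, P r ∧ ∑ a ∈ s, F a = 2 * r := by
  intro n
  induction n using Nat.strong_induction_on with
  | _ n ih =>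
    intro s hs hcl hfix
    rcases s.eq_empty_or_nonempty with rfl | ⟨a, ha⟩
    · exact ⟨0, h0, by simp⟩
    · have ha' : σ a ∈ s.erase a := Finset.mem_erase.2 ⟨hfix a ha, hcl a ha⟩
      obtain ⟨r, hr, hsum⟩ := ih ((s.erase a).erase (σ a)).card (by
          rw [Finset.card_erase_of_mem ha', Finset.card_erase_of_mem ha]
          have : 0 < s.card := Finset.card_pos.2 ⟨a, ha⟩
          omega) ((s.erase a).erase (σ a)) rfl (by
          intro b hb
          rw [Finset.mem_erase, Finset.mem_erase] at hb ⊢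
          refine ⟨?_, ?_, hcl b hb.2.2⟩
          · intro h
            apply hb.2.1
            have := congrArg σ h
            rwa [hσ, hσ] at this
          · intro h
            apply hb.1
            have := congrArg σ h
            rwa [hσ] at this) (by
          intro b hb
          rw [Finset.mem_erase, Finset.mem_erase] at hb
          exact hfix b hb.2.2)
      refine ⟨F a + r, hadd _ _ (hP a) hr, ?_⟩
      rw [← Finset.add_sum_erase s F ha, ← Finset.add_sum_erase (s.erase a) F ha', hsum, hF]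
      ring

/-- For an inversion-invariant function vanishing on involutions, the total sum is the value at `1`
plus twice something. -/
theorem sum_inv_invariant {G : Type*} [Group G] [Fintype G] (F : G → ℂ)
    (hF : ∀ g, F g⁻¹ = F g) (P : ℂ → Prop) (h0 : P 0) (hadd : ∀ x y, P x → P y → P (x + y))
    (hP : ∀ a, P (F a)) (hinv : ∀ g : G, 2 ∣ orderOf g → F g = 0) :
    ∃ r, P r ∧ ∑ g : G, F g = F 1 + 2 * r := by
  classical
  obtain ⟨r, hr, hsum⟩ := sum_pairs (fun g : G => g⁻¹) inv_inv F hF P h0 hadd hP _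
    (Finset.univ.filter fun g : G => ¬ g⁻¹ = g) rfl (by
      intro a ha
      simp only [Finset.mem_filter, Finset.mem_univ, true_and, inv_inv] at ha ⊢
      exact fun h => ha h.symm) (by
      intro a ha
      simpa using ha)
  refine ⟨r, hr, ?_⟩
  rw [← Finset.sum_filter_add_sum_filter_not Finset.univ (fun g : G => g⁻¹ = g), hsum]
  congr 1
  rw [Finset.sum_eq_single 1]
  · intro b hb hb1
    apply hinv
    simp only [Finset.mem_filter, Finset.mem_univ, true_and] at hb
    have h2 : b ^ 2 = 1 := by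
      rw [pow_two]
      nth_rewrite 1 [← hb]
      exact inv_mul_cancel b
    rw [orderOf_eq_prime h2 hb1]
  · intro h
    simp at h


/-- Complex conjugation on irreducible characters. -/
noncomputable def starIrr {G : Type*} [Group G] [Finite G] (χ : IrrCharacter G) : IrrCharacter G :=
  ⟨fun g => conj ((χ : G → ℂ) g), Cfsg.Agent.Lib.Helper81.IsIrrCharacter.star χ.2⟩

theorem starIrr_starIrr {G : Type*} [Group G] [Finite G] (χ : IrrCharacter G) :
    starIrr (starIrr χ) = χ := by
  apply Subtype.ext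
  ext g
  simp [starIrr]

theorem centralizer_inv {G : Type*} [Group G] (g : G) :
    Subgroup.centralizer ({g⁻¹} : Set G) = Subgroup.centralizer ({g} : Set G) := by
  ext x
  simp only [Subgroup.mem_centralizer_singleton_iff]
  constructor
  · intro h
    have := congrArg (fun y => g * y * g) h
    simp only [mul_assoc, inv_mul_cancel, mul_one] at this
    simpa [mul_assoc] using this.symm
  · intro h
    have := congrArg (fun y => g⁻¹ * y * g⁻¹) h
    simp only [mul_assoc, mul_inv_cancel, mul_one] at this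
    simpa [mul_assoc] using this.symm

theorem centralChar_starIrr {G : Type*} [Group G] [Finite G] (χ : IrrCharacter G) (g : G) :
    centralChar (starIrr χ : G → ℂ) g = centralChar (χ : G → ℂ) g⁻¹ := by
  unfold centralChar
  rw [centralizer_inv]
  simp only [starIrr]
  rw [irr_conj_one, irr_inv]

theorem starIrr_mem_principalBlock {G : Type*} [Group G] [Finite G] {M : Ideal AlgInt}
    {χ : IrrCharacter G} (h : χ ∈ principalBlock M G) : starIrr χ ∈ principalBlock M G := by
  intro g
  have := h g⁻¹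
  rw [centralChar_starIrr]
  unfold centralChar at this ⊢
  rw [centralizer_inv] at this ⊢
  exact this

theorem starIrr_mem_principalBlock_iff {G : Type*} [Group G] [Finite G] {M : Ideal AlgInt}
    {χ : IrrCharacter G} : starIrr χ ∈ principalBlock M G ↔ χ ∈ principalBlock M G := by
  constructor
  · intro h
    have := starIrr_mem_principalBlock h
    rwa [starIrr_starIrr] at this
  · exact starIrr_mem_principalBlock

theorem blockCoeff_principal_inv {G : Type*} [Group G] [Fintype G] (M : Ideal AlgInt) (g : G) :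
    blockCoeff (principalBlock M G) g⁻¹ = blockCoeff (principalBlock M G) g := by
  classical
  rw [blockCoeff_eq_sum, blockCoeff_eq_sum]
  congr 1
  let e : IrrCharacter G ≃ IrrCharacter G := ⟨starIrr, starIrr, starIrr_starIrr, starIrr_starIrr⟩
  rw [← Equiv.sum_comp e]
  refine Finset.sum_congr rfl fun χ _ => ?_
  change (if starIrr χ ∈ principalBlock M G then (1 : ℂ) else 0) *
    ((starIrr χ : G → ℂ) 1 * conj ((starIrr χ : G → ℂ) g⁻¹)) = _
  simp only [starIrr_mem_principalBlock_iff]
  congr 1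
  simp only [starIrr]
  rw [irr_conj_one, irr_inv, Complex.conj_conj]

theorem part1 {G : Type*} [Group G] [Finite G] (M : Ideal Cfsg.AlgInt) (hM : Cfsg.IsPModular 2 M)
    (χ : Cfsg.IrrCharacter G) (hreal : ∀ g : G, ((χ : G → ℂ) g).im = 0)
    (hodd : Odd (Cfsg.charDegree (χ : G → ℂ))) : χ ∈ Cfsg.principalBlock M G := by
  classical
  haveI := Fintype.ofFinite G
  have hP := pmod_isPrime hM
  set e := blockCoeff (principalBlock M G) with he
  have heR : ∀ g, MemLocalRing M (e g) := memLocalRing_blockCoeff hP isPBlock_principalBlock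
  have key : ∀ ψ : IrrCharacter G, (∀ g : G, ((ψ : G → ℂ) g).im = 0) →
      ∃ r, MemLocalRing M r ∧ ∑ g : G, e g * (ψ : G → ℂ) g = e 1 * (ψ : G → ℂ) 1 + 2 * r := by
    intro ψ hψ
    refine sum_inv_invariant (fun g => e g * (ψ : G → ℂ) g) ?_ (MemLocalRing M)
      (memLocalRing_zero hP) (fun x y hx hy => MemLocalRing.add hP hx hy) ?_ ?_
    · intro g
      simp only [he]
      rw [blockCoeff_principal_inv, irr_inv, Complex.conj_eq_iff_im.2 (hψ g)]
    · intro g
      refine MemLocalRing.mul hP (heR g) (memLocalRing_of_isIntegral hP (irr_isIntegral ψ g))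
    · intro g hg
      simp only [he]
      rw [blockCoeff_eq_zero_of_singular hM isPBlock_principalBlock g hg, zero_mul]
  obtain ⟨r₁, hr₁, h₁⟩ := key (trivIrr G) (fun g => by simp [trivIrr])
  obtain ⟨r₂, hr₂, h₂⟩ := key χ hreal
  have hw₁ := omega_blockCoeff (principalBlock M G) (trivIrr G)
  rw [if_pos (trivIrr_mem_principalBlock hP)] at hw₁
  have hw₂ := omega_blockCoeff (principalBlock M G) χ
  by_contra hcon
  rw [if_neg hcon] at hw₂
  unfold omega at hw₁ hw₂
  rw [← he, h₁] at hw₁
  rw [← he, h₂, div_eq_zero_iff, or_iff_left (irr_one_ne_zero χ)] at hw₂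
  have h3 : e 1 = 1 - 2 * r₁ := by
    simp only [trivIrr, mul_one, div_one] at hw₁
    linear_combination hw₁
  rw [h3] at hw₂
  have h4 : (χ : G → ℂ) 1 = 2 * (r₁ * (χ : G → ℂ) 1 - r₂) := by linear_combination hw₂
  have h5 : MemLocalIdeal M ((charDegree (χ : G → ℂ) : ℕ) : ℂ) := by
    rw [← irr_one_eq, h4]
    refine MemLocalIdeal.mul_right hP (by simpa using memLocalIdeal_p hM) ?_
    refine MemLocalRing.sub hP (MemLocalRing.mul hP hr₁ ?_) hr₂
    rw [irr_one_eq]
    exact memLocalRing_natCast hP _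
  rw [memLocalIdeal_natCast_iff hM] at h5
  exact (Nat.not_even_iff_odd.2 hodd) (even_iff_two_dvd.2 h5)



/-- number theory: `2^r ∣ m^N - 1` with `N` odd forces `2^r ∣ m - 1`. -/
theorem two_pow_dvd_sub_one (r N : ℕ) (m : ℤ) (hN : Odd N) (h : (2 : ℤ) ^ r ∣ m ^ N - 1) :
    (2 : ℤ) ^ r ∣ m - 1 := by
  rcases Nat.eq_zero_or_pos r with rfl | hr
  · simp
  have h2 : (2 : ℤ) ∣ m ^ N - 1 := (dvd_pow_self 2 hr.ne').trans h
  have hm : Odd m := by
    by_contra hcon
    rw [Int.not_odd_iff_even] at hcon
    have h3 : Even (m ^ N) := hcon.pow_of_ne_zero (by rintro rfl; simp at hN)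
    have h4 : Even (m ^ N - 1) := even_iff_two_dvd.2 h2
    have h5 : Even (1 : ℤ) := by
      have := h3.sub h4
      simp at this
    simp at h5
  rw [← geom_sum_mul] at h
  rw [mul_comm] at h
  refine Prime.pow_dvd_of_dvd_mul_right Int.prime_two r ?_ h
  rw [← even_iff_two_dvd, Int.not_even_iff_odd]
  have key : ∀ k : ℕ, Odd (∑ i ∈ Finset.range k, m ^ i) ↔ Odd k := by
    intro k
    induction k with
    | zero => simp
    | succ k ih =>
      have h6 : ¬ Even (m ^ k) := Int.not_even_iff_odd.2 hm.pow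
      rw [Finset.sum_range_succ, Int.odd_add, Nat.odd_add_one, ih]
      simp [h6]
  exact (key N).2 hN

/-- membership in a normal subgroup of odd order and `2`-power index. -/
theorem mem_iff_odd_orderOf {H : Type*} [Group H] [Finite H] (K : Subgroup H) [K.Normal]
    (hK : Odd (Nat.card K)) (j : ℕ) (hj : K.index = 2 ^ j) (h : H) :
    h ∈ K ↔ Odd (orderOf h) := by
  constructor
  · intro hh
    have h1 : orderOf (⟨h, hh⟩ : K) ∣ Nat.card K := orderOf_dvd_natCard _
    rw [Subgroup.orderOf_mk] at h1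
    exact Odd.of_dvd_nat hK h1
  · intro hh
    rw [← QuotientGroup.eq_one_iff, ← orderOf_eq_one_iff]
    have h1 : orderOf (h : H ⧸ K) ∣ orderOf h := orderOf_map_dvd (QuotientGroup.mk' K) h
    have h2 : orderOf (h : H ⧸ K) ∣ 2 ^ j := by
      rw [← hj, Subgroup.index_eq_card]
      exact orderOf_dvd_natCard _
    have h3 : Nat.Coprime (orderOf h) (2 ^ j) :=
      Nat.Coprime.pow_right j (Nat.coprime_two_right.2 hh)
    exact Nat.eq_one_of_dvd_coprimes h3 h1 h2

theorem central_of_two_power {H : Type*} [Group H] [Finite H] (C : Subgroup H) [hC : C.Normal]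
    [hcyc : IsCyclic C] (N : ℕ) (hN : Odd N) (hidx : C.index = N) (x : H) (r : ℕ)
    (hx : orderOf x = 2 ^ r) (h : H) : h * x * h⁻¹ = x := by
  -- x ∈ C
  have hxC : x ∈ C := by
    rw [← QuotientGroup.eq_one_iff, ← orderOf_eq_one_iff]
    have h1 : orderOf (x : H ⧸ C) ∣ orderOf x := orderOf_map_dvd (QuotientGroup.mk' C) x
    have h2 : orderOf (x : H ⧸ C) ∣ N := by
      rw [← hidx, Subgroup.index_eq_card]
      exact orderOf_dvd_natCard _
    rw [hx] at h1
    have h3 : Nat.Coprime (2 ^ r) N := Nat.Coprime.pow_left r (Nat.coprime_two_left.2 hN)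
    exact Nat.eq_one_of_dvd_coprimes h3 h1 h2
  let σ : C →* C := (MulAut.conjNormal h : MulAut C).toMonoidHom
  have hσ : ∀ c : C, ((σ c : C) : H) = h * c * h⁻¹ := fun c => MulAut.conjNormal_apply h c
  obtain ⟨m, hm⟩ := MonoidHom.map_cyclic σ
  have hit : ∀ (i : ℕ) (c : C), ((σ^[i] c : C) : H) = h ^ i * c * (h ^ i)⁻¹ := by
    intro i
    induction i with
    | zero => intro c; simp
    | succ i ih =>
      intro c
      rw [Function.iterate_succ_apply', hσ, ih]
      group
  have hit2 : ∀ (i : ℕ) (c : C), σ^[i] c = c ^ (m ^ i) := by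
    intro i
    induction i with
    | zero => intro c; simp
    | succ i ih =>
      intro c
      rw [Function.iterate_succ_apply', hm, ih, ← zpow_mul, pow_succ]
  have hhN : h ^ N ∈ C := by
    rw [← QuotientGroup.eq_one_iff, QuotientGroup.mk_pow, ← hidx, Subgroup.index_eq_card]
    exact pow_card_eq_one'
  have hcomm : h ^ N * x * (h ^ N)⁻¹ = x := by
    have hab : ∀ a b : C, a * b = b * a := by
      intro a b
      exact (IsCyclic.isMulCommutative (α := C)).is_comm.comm a b
    have := congrArg (Subtype.val) (hab ⟨h ^ N, hhN⟩ ⟨x, hxC⟩)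
    simp only [Subgroup.coe_mul] at this
    rw [this]
    group
  have h1 : x ^ (m ^ N) = x := by
    have h2 := hit N ⟨x, hxC⟩
    rw [hit2] at h2
    simp only [Subgroup.coe_zpow] at h2
    rw [h2, hcomm]
  have h2 : x ^ (m ^ N - 1) = 1 := by
    rw [zpow_sub, h1, zpow_one, mul_inv_cancel]
  have h3 : ((2 : ℤ) ^ r) ∣ m ^ N - 1 := by
    have := orderOf_dvd_iff_zpow_eq_one.2 h2
    rw [hx] at this
    exact_mod_cast this
  have h4 := two_pow_dvd_sub_one r N m hN h3
  have h5 : x ^ (m - 1) = 1 := by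
    apply orderOf_dvd_iff_zpow_eq_one.1
    rw [hx]
    exact_mod_cast h4
  have h6 := hσ ⟨x, hxC⟩
  rw [hm] at h6
  simp only [Subgroup.coe_zpow] at h6
  rw [← h6]
  rw [zpow_sub, zpow_one, mul_inv_eq_one] at h5
  exact h5


/-- A group with a cyclic normal subgroup of order prime to `ℓ` and `ℓ`-power index has a subgroup
consisting exactly of the elements of odd order, of `2`-power index. -/
theorem exists_odd_part {H : Type*} [Group H] [Finite H] (C : Subgroup H) [hC : C.Normal]
    [hcyc : IsCyclic C] (l : ℕ) (hl : l.Prime) (hcop : Nat.Coprime (Nat.card C) l) (k : ℕ)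
    (hidx : C.index = l ^ k) :
    ∃ K : Subgroup H, (∀ h : H, h ∈ K ↔ Odd (orderOf h)) ∧ ∃ j, Nat.card H = 2 ^ j * Nat.card K := by
  rcases hl.eq_two_or_odd' with rfl | hodd
  · refine ⟨C, fun h => mem_iff_odd_orderOf C (Nat.coprime_two_right.1 hcop) k hidx h, k, ?_⟩
    rw [← hidx, mul_comm, Subgroup.card_mul_index]
  · haveI : Fact (Nat.Prime 2) := ⟨Nat.prime_two⟩
    let P : Sylow 2 H := default
    have hP : Subgroup.normalizer (P : Set H) ≤ Subgroup.centralizer (P : Set H) := by
      intro h _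
      rw [Subgroup.mem_centralizer_iff]
      intro x hx
      obtain ⟨r, hr⟩ := (IsPGroup.iff_orderOf.1 P.2) ⟨x, hx⟩
      rw [Subgroup.orderOf_mk] at hr
      have := central_of_two_power C (l ^ k) hodd.pow hidx x r hr h
      rw [mul_inv_eq_iff_eq_mul] at this
      exact this.symm
    have hcompl := MonoidHom.ker_transferSylow_isComplement' P hP
    have hnd := MonoidHom.not_dvd_card_ker_transferSylow P hP
    obtain ⟨j, hj⟩ := (IsPGroup.iff_card.1 P.2)
    refine ⟨(MonoidHom.transferSylow P hP).ker, fun h => mem_iff_odd_orderOf _ ?_ j ?_ h, j, ?_⟩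
    · rw [← Nat.not_even_iff_odd, even_iff_two_dvd]
      exact hnd
    · rw [hcompl.symm.index_eq_card]
      exact hj
    · rw [← hcompl.card_mul_card, mul_comm]
      congr 1




/-- A complex number that becomes an integer after multiplication by integers prime to any given
prime is an integer. -/
theorem int_of_local (c : ℂ)
    (h : ∀ l : ℕ, l.Prime → ∃ m z : ℤ, ¬ (l : ℤ) ∣ m ∧ (m : ℂ) * c = z) : ∃ z : ℤ, c = z := by
  obtain ⟨m₂, z₂, hm₂, h₂⟩ := h 2 Nat.prime_two
  have hm0 : m₂ ≠ 0 := by rintro rfl; simp at hm₂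
  have hm0' : (m₂ : ℂ) ≠ 0 := by exact_mod_cast hm0
  let q : ℚ := (z₂ : ℚ) / m₂
  have hq : c = (q : ℂ) := by
    simp only [q]
    push_cast
    field_simp
    linear_combination h₂
  by_cases hden : q.den = 1
  · refine ⟨q.num, ?_⟩
    rw [hq]
    have : q = (q.num : ℚ) := ((Rat.den_eq_one_iff q).1 hden).symm
    conv_lhs => rw [this]
    simp
  · exfalso
    obtain ⟨l, hl, hld⟩ := Nat.exists_prime_and_dvd hden
    obtain ⟨m, z, hm, hz⟩ := h l hl
    have hm0 : m ≠ 0 := by rintro rfl; simp at hm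
    rw [hq] at hz
    have hz' : (m : ℚ) * q = z := by exact_mod_cast hz
    have hq2 : q = (z : ℚ) / m := by
      have : (m : ℚ) ≠ 0 := by exact_mod_cast hm0
      field_simp
      linear_combination hz'
    have h3 : (q.den : ℤ) ∣ m := by
      rw [hq2, ← Rat.divInt_eq_div]
      exact Rat.den_dvd z m
    exact hm ((Int.natCast_dvd_natCast.2 hld).trans h3)

/-- indicator function of the elements of odd order -/
noncomputable def oddInd (G : Type*) [Group G] : G → ℂ := fun g => if Odd (orderOf g) then 1 else 0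

theorem oddInd_isClassFunction (G : Type*) [Group G] : IsClassFunction G (oddInd G) := by
  intro g h
  unfold oddInd
  have : orderOf (h * g * h⁻¹) = orderOf g := by
    have := orderOf_injective (MulAut.conj h).toMonoidHom (MulAut.conj h).injective g
    simpa using this
  rw [this]

/-- local integrality on a quasi-elementary subgroup -/
theorem int_on_quasiElementary {G : Type*} [Group G] [Fintype G] (ψ : G → ℂ) (hψ : IsCharacter G ψ)
    (l : ℕ) (hl : l.Prime) (H C : Subgroup G) [Fintype H] (hCH : C ≤ H) (hHC : H ≤ Subgroup.normalizer (C : Set G))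
    (hcyc : IsCyclic C) (hcop : Nat.Coprime (Nat.card C) l) (k : ℕ) (hidx : C.relIndex H = l ^ k) :
    ∃ z : ℤ, (2 : ℂ) ^ ((Nat.card G).factorization 2) *
      classInner (fun _ : H => (1 : ℂ)) (fun h : H => oddInd G h * ψ h) = z := by
  classical
  haveI : (C.subgroupOf H).Normal := (Subgroup.normal_subgroupOf_iff_le_normalizer hCH).2 hHC
  haveI : IsCyclic (C.subgroupOf H) :=
    isCyclic_of_surjective (Subgroup.subgroupOfEquivOfLe hCH).symm
      (Subgroup.subgroupOfEquivOfLe hCH).symm.surjective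
  obtain ⟨K, hK, j, hj⟩ := exists_odd_part (C.subgroupOf H) l hl (by
    rw [Nat.card_congr (Subgroup.subgroupOfEquivOfLe hCH).toEquiv]; exact hcop) k hidx
  -- the restriction of ψ to K
  have hψK : IsCharacter K (fun x : K => ψ ((x : H) : G)) :=
    IsCharacter.comp hψ (H.subtype.comp K.subtype)
  obtain ⟨N, hN⟩ := Cfsg.Agent.Lib.Helper3.IsCharacter.classInner_eq_natCast
    (IsIrrCharacter.isCharacter (isIrrCharacter_one (G := K))) hψK
  have hjn : j ≤ (Nat.card G).factorization 2 := by
    have h1 : 2 ^ j ∣ Nat.card G := (Dvd.intro _ hj.symm).trans (Subgroup.card_subgroup_dvd_card H)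
    exact (Nat.Prime.pow_dvd_iff_le_factorization Nat.prime_two Nat.card_pos.ne').1 h1
  refine ⟨2 ^ ((Nat.card G).factorization 2 - j) * N, ?_⟩
  have hsum : ∑ h : H, (1 : ℂ) * conj (oddInd G h * ψ h) = ∑ x : K, (1 : ℂ) * conj (ψ ((x : H) : G)) := by
    rw [← Finset.sum_subtype (Finset.univ.filter (fun h : H => h ∈ K)) (by simp)
      (fun h : H => (1 : ℂ) * conj (ψ (h : G)))]
    rw [Finset.sum_filter]
    refine Finset.sum_congr rfl fun h _ => ?_
    unfold oddInd
    rw [hK, Subgroup.orderOf_coe]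
    split_ifs <;> simp
  unfold classInner at hN ⊢
  rw [hsum, hj]
  have hK0 : (Nat.card K : ℂ) ≠ 0 := by exact_mod_cast Nat.card_pos.ne'
  have h2 : ∑ x : K, (1 : ℂ) * conj (ψ ((x : H) : G)) = (Nat.card K : ℂ) * N := by
    rw [← hN]
    field_simp
  rw [h2]
  obtain ⟨i, hi⟩ := Nat.exists_eq_add_of_le hjn
  rw [hi]
  push_cast
  rw [Nat.add_sub_cancel_left, pow_add]
  field_simp


theorem int_coeff {G : Type*} [Group G] [Fintype G] (ψ : G → ℂ) (hψ : IsCharacter G ψ) :
    ∃ z : ℤ, (2 : ℂ) ^ ((Nat.card G).factorization 2) * classInner (oddInd G) ψ = z := by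
  classical
  apply int_of_local
  intro l hl
  obtain ⟨m, a, hm, ha, hsum⟩ := Cfsg.Agent.S0872.result (G := G) l hl
  have hz : ∀ H : Subgroup G, ∃ z : ℤ, (a H : ℂ) * ((2 : ℂ) ^ ((Nat.card G).factorization 2) *
      classInner (fun _ : H => (1 : ℂ)) (fun h : H => oddInd G h * ψ h)) = z := by
    intro H
    by_cases h0 : a H = 0
    · exact ⟨0, by simp [h0]⟩
    · obtain ⟨C, h1, h2, h3, h4, k, h5⟩ := ha H h0
      obtain ⟨z, hz⟩ := int_on_quasiElementary ψ hψ l hl H C h1 h2 h3 h4 k h5
      exact ⟨a H * z, by rw [hz]; push_cast; ring⟩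
  choose z hz using hz
  refine ⟨m, ∑ H, z H, hm, ?_⟩
  have hcl : IsClassFunction G (fun g => oddInd G g * ψ g) := by
    intro g h
    simp only
    rw [oddInd_isClassFunction G g h, IsCharacter.isClassFunction hψ g h]
  have h1 : (m : ℂ) * classInner (oddInd G) ψ
      = classInner (fun _ : G => (m : ℂ)) (fun g => oddInd G g * ψ g) := by
    unfold classInner
    rw [mul_left_comm, Finset.mul_sum]
    congr 1
    refine Finset.sum_congr rfl fun g _ => ?_
    unfold oddInd
    by_cases ho : Odd (orderOf g) <;> simp [ho]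
  rw [mul_left_comm, h1, hsum, Cfsg.Agent.Lib.Helper15.classInner_sum_left, Finset.mul_sum]
  push_cast
  refine Finset.sum_congr rfl fun H _ => ?_
  rw [Cfsg.Agent.Lib.Helper15.classInner_smul_left,
    Cfsg.Agent.Lib.Helper15.classInner_indFun_left H _ _ hcl, ← hz H]
  ring

theorem coeff_ne_zero {G : Type*} [Group G] [Fintype G] (ψ : IrrCharacter G)
    (hreal : ∀ g : G, ((ψ : G → ℂ) g).im = 0) (hodd : Odd (Cfsg.charDegree (ψ : G → ℂ))) :
    classInner (oddInd G) (ψ : G → ℂ) ≠ 0 := by
  intro h0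
  obtain ⟨r, hr, hsum⟩ := sum_inv_invariant (fun g : G => oddInd G g * conj ((ψ : G → ℂ) g)) (by
      intro g
      simp only [oddInd, orderOf_inv]
      rw [irr_inv, Complex.conj_eq_iff_im.2 (hreal g), Complex.conj_eq_iff_im.2 (hreal g)]) (IsIntegral ℤ) isIntegral_zero
      (fun x y hx hy => hx.add hy) (by
      intro g
      rw [Complex.conj_eq_iff_im.2 (hreal g)]
      refine IsIntegral.mul ?_ (irr_isIntegral ψ g)
      unfold oddInd
      split_ifs
      · exact isIntegral_one
      · exact isIntegral_zero) (by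
      intro g hg
      have : ¬ Odd (orderOf g) := by
        rw [Nat.not_odd_iff_even, even_iff_two_dvd]; exact hg
      simp [oddInd, this])
  unfold classInner at h0
  rw [hsum] at h0
  have hG : (Nat.card G : ℂ)⁻¹ ≠ 0 := by
    apply inv_ne_zero
    exact_mod_cast Nat.card_pos.ne'
  rw [mul_eq_zero, or_iff_right hG] at h0
  simp only [oddInd, orderOf_one, odd_one, if_true, one_mul] at h0
  rw [irr_conj_one, irr_one_eq] at h0
  have h1 : IsIntegral ℤ (((charDegree (ψ : G → ℂ) : ℕ) : ℂ) / ((2 : ℕ) : ℂ)) := by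
    have : ((charDegree (ψ : G → ℂ) : ℕ) : ℂ) / ((2 : ℕ) : ℂ) = -r := by
      push_cast
      linear_combination h0 / 2
    rw [this]
    exact hr.neg
  have h2 := Cfsg.Agent.Lib.Helper3.nat_dvd_of_isIntegral_div (by norm_num) h1
  exact (Nat.not_even_iff_odd.2 hodd) (even_iff_two_dvd.2 h2)

theorem part2 {G : Type*} [Group G] [Finite G] :
    Nat.card {χ : Cfsg.IrrCharacter G // (∀ g : G, ((χ : G → ℂ) g).im = 0) ∧
      Odd (Cfsg.charDegree (χ : G → ℂ))} ≤ 2 ^ (2 * (Nat.card G).factorization 2) := by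
  classical
  haveI := Fintype.ofFinite G
  set n := (Nat.card G).factorization 2 with hn
  have hz : ∀ χ : IrrCharacter G, ∃ z : ℤ, (2 : ℂ) ^ n * classInner (oddInd G) (χ : G → ℂ) = z :=
    fun χ => int_coeff _ (IsIrrCharacter.isCharacter χ.2)
  choose z hz using hz
  -- Parseval
  have hpars := Cfsg.Agent.Lib.Helper3.classInner_eq_sum_coeff (b := oddInd G)
    (oddInd_isClassFunction G)
  have h2n : (2 : ℂ) ^ n ≠ 0 := pow_ne_zero _ two_ne_zero
  have hcoef : ∀ χ : IrrCharacter G, classInner (oddInd G) (χ : G → ℂ) = (z χ : ℂ) / 2 ^ n := by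
    intro χ
    rw [← hz χ]
    field_simp
  have hcoef' : ∀ χ : IrrCharacter G, classInner (χ : G → ℂ) (oddInd G) = (z χ : ℂ) / 2 ^ n := by
    intro χ
    rw [← classInner_conj_symm, hcoef]
    simp [map_ofNat]
  simp only [hcoef, hcoef'] at hpars
  -- the left-hand side
  set t := (Finset.univ.filter fun g : G => Odd (orderOf g)).card with ht
  have hlhs : classInner (oddInd G) (oddInd G) = (t : ℂ) / (Nat.card G : ℂ) := by
    unfold classInner
    have : ∑ g : G, oddInd G g * conj (oddInd G g) = (t : ℂ) := by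
      rw [ht, Finset.card_filter]
      push_cast
      refine Finset.sum_congr rfl fun g _ => ?_
      unfold oddInd
      split_ifs <;> simp
    rw [this]
    field_simp
  rw [hlhs] at hpars
  have hG0 : (Nat.card G : ℂ) ≠ 0 := by exact_mod_cast Nat.card_pos.ne'
  have hint : ((∑ χ : IrrCharacter G, z χ ^ 2) * (Nat.card G : ℤ) : ℤ) = (4 : ℤ) ^ n * t := by
    have : ((∑ χ : IrrCharacter G, (z χ : ℂ) ^ 2) * (Nat.card G : ℂ)) = (4 : ℂ) ^ n * t := by
      have h4 : (4 : ℂ) ^ n = 2 ^ n * 2 ^ n := by rw [← mul_pow]; norm_num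
      have h5 : ∑ χ : IrrCharacter G, (z χ : ℂ) / 2 ^ n * ((z χ : ℂ) / 2 ^ n)
          = (∑ χ : IrrCharacter G, (z χ : ℂ) ^ 2) / (2 ^ n * 2 ^ n) := by
        rw [Finset.sum_div]
        refine Finset.sum_congr rfl fun χ _ => ?_
        field_simp
      rw [h5] at hpars
      rw [h4]
      field_simp at hpars
      linear_combination -hpars
    exact_mod_cast this
  have htle : t ≤ Nat.card G := by
    rw [ht, Nat.card_eq_fintype_card]
    exact Finset.card_le_univ _
  have hle : (∑ χ : IrrCharacter G, z χ ^ 2) ≤ (4 : ℤ) ^ n := by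
    have hGpos : (0 : ℤ) < (Nat.card G : ℤ) := by exact_mod_cast Nat.card_pos
    have : (∑ χ : IrrCharacter G, z χ ^ 2) * (Nat.card G : ℤ) ≤ (4 : ℤ) ^ n * (Nat.card G : ℤ) := by
      rw [hint]
      have : (t : ℤ) ≤ (Nat.card G : ℤ) := by exact_mod_cast htle
      exact mul_le_mul_of_nonneg_left this (by positivity)
    exact le_of_mul_le_mul_right this hGpos
  rw [Nat.card_eq_fintype_card, Fintype.card_subtype]
  have hcount : (((Finset.univ.filter fun χ : IrrCharacter G => (∀ g : G, ((χ : G → ℂ) g).im = 0) ∧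
      Odd (Cfsg.charDegree (χ : G → ℂ))).card : ℕ) : ℤ) ≤ ∑ χ : IrrCharacter G, z χ ^ 2 := by
    rw [Finset.card_filter]
    push_cast
    refine Finset.sum_le_sum fun χ _ => ?_
    split_ifs with h
    · have hz0 : z χ ≠ 0 := by
        intro h0
        have := hz χ
        rw [h0, Int.cast_zero, mul_eq_zero, or_iff_right h2n] at this
        exact coeff_ne_zero χ h.1 h.2 this
      have : 0 < z χ ^ 2 := by positivity
      omega
    · positivity
  have hfin := hcount.trans hle
  have h4 : (4 : ℤ) ^ n = ((2 ^ (2 * n) : ℕ) : ℤ) := by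
    push_cast
    rw [pow_mul]
    norm_num
  rw [h4] at hfin
  exact_mod_cast hfin

/-- Let G be a finite group of order 2^n·g₀ with g₀ odd, and M a maximal ideal of the algebraic integers containing 2. Every real-valued irreducible character of G of odd degree lies in the principal 2-block; consequently G has at most 2^(2n) real-valued irreducible characters of odd degree. -/
theorem result {G : Type*} [Group G] [Finite G] (M : Ideal Cfsg.AlgInt) (hM : Cfsg.IsPModular 2 M) : (∀ χ : Cfsg.IrrCharacter G, (∀ g : G, ((χ : G → ℂ) g).im = 0) → Odd (Cfsg.charDegree (χ : G → ℂ)) → χ ∈ Cfsg.principalBlock M G) ∧ Nat.card {χ : Cfsg.IrrCharacter G // (∀ g : G, ((χ : G → ℂ) g).im = 0) ∧ Odd (Cfsg.charDegree (χ : G → ℂ))} ≤ 2 ^ (2 * (Nat.card G).factorization 2) := by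
  exact ⟨fun χ h1 h2 => part1 M hM χ h1 h2, part2⟩

end Cfsg.Agent.S4483
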