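import Cfsg.Statements.S4517
import Cfsg.Agent.S0907
import Cfsg.Agent.S0913
import Cfsg.Agent.S0135
import Cfsg.Agent.Lib.Helper75.BlockCoeff
import Cfsg.Agent.Lib.Helper75.ClassSum

set_option autoImplicit false
open Cfsg

namespace Cfsg.Agent.S4517

open Cfsg.Agent.Lib.Helper74 Cfsg.Agent.Lib.Helper78 Cfsg.Agent.Lib.Helper75
open scoped ComplexConjugate

theorem orderOf_conj' {G : Type*} [Group G] (x g : G) : orderOf (x * g * x⁻¹) = orderOf g := by
  have := orderOf_injective (MulAut.conj x).toMonoidHom (MulAut.conj x).injective g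
  simpa using this

theorem index_centralizer_conj {G : Type*} [Group G] [Finite G] (x g : G) :
    (Subgroup.centralizer ({x * g * x⁻¹} : Set G)).index = (Subgroup.centralizer ({g} : Set G)).index := by
  classical
  have := Fintype.ofFinite G
  rw [index_centralizer_eq_card, index_centralizer_eq_card]
  congr 1
  ext y
  simp only [Finset.mem_filter, Finset.mem_univ, true_and]
  have h : IsConj g (x * g * x⁻¹) := isConj_iff.2 ⟨x, rfl⟩
  exact ⟨fun h' => h.trans h', fun h' => h.symm.trans h'⟩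

theorem centralizer_inv {G : Type*} [Group G] (g : G) :
    Subgroup.centralizer ({g⁻¹} : Set G) = Subgroup.centralizer ({g} : Set G) := by
  ext x
  rw [Subgroup.mem_centralizer_singleton_iff, Subgroup.mem_centralizer_singleton_iff]
  constructor
  · intro h
    have : g * (x * g⁻¹) * g = g * (g⁻¹ * x) * g := by rw [h]
    simpa [mul_assoc] using this.symm
  · intro h
    have : g⁻¹ * (x * g) * g⁻¹ = g⁻¹ * (g * x) * g⁻¹ := by rw [h]
    simpa [mul_assoc] using this.symm

theorem sum_split {G : Type*} [Group G] [Fintype G] [DecidableEq G] (F : G → ℂ)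
    (hF : ∀ y, 2 ∣ orderOf y → F y = 0) :
    ∑ g, F g = F 1 + ∑ g ∈ Finset.univ.filter (fun g : G => g ≠ 1 ∧ ¬ 2 ∣ orderOf g), F g := by
  have h : ∀ g : G, F g = (if g = 1 then F 1 else 0) + (if g ≠ 1 ∧ ¬ 2 ∣ orderOf g then F g else 0) := by
    intro g
    by_cases h1 : g = 1
    · subst h1; simp
    · by_cases h2 : 2 ∣ orderOf g
      · simp [h1, h2, hF g h2]
      · simp [h1, h2]
  rw [Finset.sum_congr rfl (fun g _ => h g), Finset.sum_add_distrib, Finset.sum_ite_eq' , Finset.sum_filter]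
  simp

theorem inv_ne_self_of_odd {G : Type*} [Group G] {g : G} (h1 : g ≠ 1) (h2 : ¬ 2 ∣ orderOf g) : g⁻¹ ≠ g := by
  intro h
  have h3 : g ^ 2 = 1 := by
    rw [pow_two]
    nth_rewrite 1 [← h]
    exact inv_mul_cancel g
  have h4 := orderOf_dvd_of_pow_eq_one h3
  rcases (Nat.dvd_prime Nat.prime_two).1 h4 with h5 | h5
  · exact h1 (orderOf_eq_one_iff.1 h5)
  · exact h2 (by rw [h5])

/-- Let G be a finite group, M a maximal ideal of the algebraic integers containing 2, and k a natural number coprime to the order of G with g ^ k = g⁻¹ for every element g of odd order (so that g ↦ g ^ k induces a field automorphism of the character values inverting the roots of unity of odd order). If B is a 2-block of full defect (its defect equals the exponent of 2 in the order of G) that is stable under χ ↦ χ ∘ (· ^ k), then B is the principal 2-block. -/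
theorem result {G : Type*} [Group G] [Finite G] (M : Ideal Cfsg.AlgInt) (hM : Cfsg.IsPModular 2 M) (k : ℕ) (hk : Nat.Coprime k (Nat.card G)) (hk₂ : ∀ g : G, Odd (orderOf g) → g ^ k = g⁻¹) (B : Set (Cfsg.IrrCharacter G)) (hB : Cfsg.IsPBlock M B) (hdef : Cfsg.blockDefect 2 B = (Nat.card G).factorization 2) (hstab : ∀ χ ∈ B, ∃ ψ ∈ B, ∀ g : G, (ψ : G → ℂ) g = (χ : G → ℂ) (g ^ k)) : B = Cfsg.principalBlock M G := by
  classical
  have := Fintype.ofFinite G
  have hMp := pmod_isPrime hM
  have : Fact (Nat.Prime 2) := ⟨Nat.prime_two⟩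
  have h2I : MemLocalIdeal M (2 : ℂ) := by
    have := memLocalIdeal_p hM
    simpa using this
  set a : G → ℂ := blockCoeff B with ha
  have haR : ∀ g, MemLocalRing M (a g) := fun g => Cfsg.Agent.S0913.result 2 M hM B hB g
  have ha0 : ∀ y, 2 ∣ orderOf y → a y = 0 := by
    intro y hy
    have h := Cfsg.Agent.S0907.result 2 M hM B hB 1 y (by simp) hy
    show blockCoeff B y = 0
    unfold blockCoeff
    rw [h, mul_zero]
  have hodd : ∀ g : G, ¬ 2 ∣ orderOf g → g ^ k = g⁻¹ := by
    intro g hg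
    apply hk₂
    rw [← Nat.not_even_iff_odd, even_iff_two_dvd]
    exact hg
  -- the map τ
  choose! τ hτ using hstab
  have hτB : ∀ χ ∈ B, τ χ ∈ B := fun χ hχ => (hτ χ hχ).1
  have hτv : ∀ χ ∈ B, ∀ g : G, (τ χ : G → ℂ) g = (χ : G → ℂ) (g ^ k) := fun χ hχ => (hτ χ hχ).2
  have hsurj : ∀ g : G, ∃ h : G, h ^ k = g := by
    intro g
    exact (powCoprime (G := G) (n := k) hk.symm).surjective g
  set Bf : Finset (IrrCharacter G) := Finset.univ.filter (· ∈ B) with hBf
  have hmemBf : ∀ χ, χ ∈ Bf ↔ χ ∈ B := by intro χ; simp [hBf]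
  have hinj : Set.InjOn τ (Bf : Set (IrrCharacter G)) := by
    intro χ hχ χ' hχ' h
    have hχB : χ ∈ B := (hmemBf χ).1 hχ
    have hχB' : χ' ∈ B := (hmemBf χ').1 hχ'
    apply Subtype.ext
    funext g
    obtain ⟨h', rfl⟩ := hsurj g
    rw [← hτv χ hχB, ← hτv χ' hχB', h]
  have hmaps : Set.MapsTo τ (Bf : Set (IrrCharacter G)) (Bf : Set (IrrCharacter G)) := by
    intro χ hχ
    exact (hmemBf _).2 (hτB χ ((hmemBf χ).1 hχ))
  have hsurjOn := Finset.surjOn_of_injOn_of_card_le τ hmaps hinj le_rfl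
  have hainv : ∀ g : G, ¬ 2 ∣ orderOf g → a g⁻¹ = a g := by
    intro g hg
    show blockCoeff B g⁻¹ = blockCoeff B g
    rw [Cfsg.Agent.Lib.Helper75.blockCoeff_eq_sum, Cfsg.Agent.Lib.Helper75.blockCoeff_eq_sum]
    congr 1
    apply Finset.sum_nbij τ (fun χ hχ => hmaps hχ) hinj hsurjOn
    intro χ hχ
    have hχB : χ ∈ B := (hmemBf χ).1 hχ
    rw [hτv χ hχB, hτv χ hχB, one_pow, hodd g hg]
  -- a character of odd degree in B
  obtain ⟨χ0, hχ0B, hχ0odd⟩ : ∃ χ0 ∈ B, ¬ 2 ∣ charDegree (χ0 : G → ℂ) := by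
    have hne : ((fun χ : IrrCharacter G => (charDegree (χ : G → ℂ)).factorization 2) '' B).Nonempty :=
      (Cfsg.Agent.Lib.Helper75.IsPBlock.nonempty hMp hB).image _
    obtain ⟨χ0, hχ0B, hχ0⟩ := Nat.sInf_mem hne
    refine ⟨χ0, hχ0B, ?_⟩
    have hpos : 0 < charDegree (χ0 : G → ℂ) := irr_charDegree_pos χ0
    have hdvd : charDegree (χ0 : G → ℂ) ∣ Nat.card G := by
      obtain ⟨χ, n, ρ, hρ, rfl⟩ := χ0
      have := hρ
      have h := Cfsg.Agent.S0135.result ρ
      simp only [charDegree_rep]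
      simpa using h
    have hle : (charDegree (χ0 : G → ℂ)).factorization 2 ≤ (Nat.card G).factorization 2 :=
      (Nat.factorization_le_iff_dvd hpos.ne' Nat.card_pos.ne').2 hdvd 2
    unfold blockDefect at hdef
    simp only at hχ0
    rw [← hχ0] at hdef
    have h0 : (charDegree (χ0 : G → ℂ)).factorization 2 = 0 := by omega
    rcases (Nat.factorization_eq_zero_iff _ _).1 h0 with h | h | h
    · exact absurd Nat.prime_two h
    · exact h
    · omega
  have hχ0unit : ¬ MemLocalIdeal M ((χ0 : G → ℂ) 1) := by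
    rw [irr_one_eq, memLocalIdeal_natCast_iff hM]
    exact hχ0odd
  set O : Finset G := Finset.univ.filter (fun g : G => g ≠ 1 ∧ ¬ 2 ∣ orderOf g) with hO
  have hmemO : ∀ g, g ∈ O ↔ (g ≠ 1 ∧ ¬ 2 ∣ orderOf g) := by intro g; simp [hO]
  -- Claim A
  have hA : MemLocalIdeal M (∑ g ∈ O, a g) := by
    apply sum_mem_of_involution (localIdealAdd M hMp) O a (fun g => g⁻¹)
    · intro g hg
      rw [hmemO] at hg ⊢
      exact ⟨inv_ne_one.2 hg.1, by rw [orderOf_inv]; exact hg.2⟩
    · intro g _; exact inv_inv g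
    · intro g hg
      rw [hmemO] at hg
      exact inv_ne_self_of_odd hg.1 hg.2
    · intro g hg
      rw [hmemO] at hg
      show MemLocalIdeal M (a g + a g⁻¹)
      rw [hainv g hg.2, ← two_mul]
      exact MemLocalIdeal.mul_right hMp h2I (haR g)
  -- Claim B
  have hBodd : MemLocalIdeal M (∑ g ∈ O.filter (fun g => ¬ 2 ∣ (Subgroup.centralizer ({g} : Set G)).index),
      a g * (χ0 : G → ℂ) g) := by
    apply sum_mem_of_involution (localIdealAdd M hMp) _ (fun g => a g * (χ0 : G → ℂ) g) (fun g => g⁻¹)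
    · intro g hg
      rw [Finset.mem_filter, hmemO] at hg ⊢
      exact ⟨⟨inv_ne_one.2 hg.1.1, by rw [orderOf_inv]; exact hg.1.2⟩, by rw [centralizer_inv]; exact hg.2⟩
    · intro g _; exact inv_inv g
    · intro g hg
      rw [Finset.mem_filter, hmemO] at hg
      exact inv_ne_self_of_odd hg.1.1 hg.1.2
    · intro g hg
      rw [Finset.mem_filter, hmemO] at hg
      show MemLocalIdeal M (a g * (χ0 : G → ℂ) g + a g⁻¹ * (χ0 : G → ℂ) g⁻¹)
      rw [hainv g hg.1.2, ← mul_add]
      apply MemLocalIdeal.mul_left hMp (haR g)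
      have hD := sameBlock_of_mem hMp hB hχ0B (hτB χ0 hχ0B) g
      unfold centralChar at hD
      rw [hτv χ0 hχ0B, hτv χ0 hχ0B, one_pow, hodd g hg.1.2] at hD
      set idx := (Subgroup.centralizer ({g} : Set G)).index with hidx
      have hidx0 : (idx : ℂ) ≠ 0 := by
        intro h0
        have : idx = 0 := by exact_mod_cast h0
        exact hg.2 (by rw [this]; exact dvd_zero 2)
      have h1 : (χ0 : G → ℂ) 1 ≠ 0 := irr_one_ne_zero χ0
      have hδ : MemLocalIdeal M ((χ0 : G → ℂ) g - (χ0 : G → ℂ) g⁻¹) := by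
        have h3 := MemLocalIdeal.mul_right hMp (MemLocalIdeal.mul_right hMp hD (irr_memLocalRing hMp χ0 1))
          (memLocalRing_inv_natCast hM hg.2)
        have h4 : ((idx : ℂ) * (χ0 : G → ℂ) g / (χ0 : G → ℂ) 1 - (idx : ℂ) * (χ0 : G → ℂ) g⁻¹ / (χ0 : G → ℂ) 1) *
            (χ0 : G → ℂ) 1 * (idx : ℂ)⁻¹ = (χ0 : G → ℂ) g - (χ0 : G → ℂ) g⁻¹ := by
          field_simp
        rwa [h4] at h3
      have h5 : (χ0 : G → ℂ) g + (χ0 : G → ℂ) g⁻¹ = 2 * (χ0 : G → ℂ) g - ((χ0 : G → ℂ) g - (χ0 : G → ℂ) g⁻¹) := by ring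
      rw [h5]
      exact MemLocalIdeal.sub hMp (MemLocalIdeal.mul_right hMp h2I (irr_memLocalRing hMp χ0 g)) hδ
  have hBeven : MemLocalIdeal M (∑ g ∈ O.filter (fun g => 2 ∣ (Subgroup.centralizer ({g} : Set G)).index),
      a g * (χ0 : G → ℂ) g) := by
    let f : G → localRing M hMp := fun g =>
      if g ∈ O.filter (fun g => 2 ∣ (Subgroup.centralizer ({g} : Set G)).index) then
        ⟨a g * (χ0 : G → ℂ) g, MemLocalRing.mul hMp (haR g) (irr_memLocalRing hMp χ0 g)⟩ else 0
    have hmem : ∀ x g : G, (x * g * x⁻¹ ∈ O.filter (fun g => 2 ∣ (Subgroup.centralizer ({g} : Set G)).index)) ↔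
        g ∈ O.filter (fun g => 2 ∣ (Subgroup.centralizer ({g} : Set G)).index) := by
      intro x g
      have e1 : ∀ y : G, (y ∈ O.filter (fun g => 2 ∣ (Subgroup.centralizer ({g} : Set G)).index)) ↔
          ((y ≠ 1 ∧ ¬ 2 ∣ orderOf y) ∧ 2 ∣ (Subgroup.centralizer ({y} : Set G)).index) := by
        intro y
        constructor
        · intro hy
          have := Finset.mem_filter.1 hy
          exact ⟨(hmemO y).1 this.1, this.2⟩
        · intro hy
          exact Finset.mem_filter.2 ⟨(hmemO y).2 hy.1, hy.2⟩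
      rw [e1, e1, orderOf_conj', index_centralizer_conj, ne_eq, conj_eq_one_iff]
    have hdvd := class_sum_dvd f (by
      intro x g
      simp only [f, hmem]
      have h1 : a (x * g * x⁻¹) = a g := blockCoeff_conj B x g
      have h2 : (χ0 : G → ℂ) (x * g * x⁻¹) = (χ0 : G → ℂ) g := irr_isClassFunction χ0 g x
      simp only [h1, h2]) 2 (by
      intro g
      by_cases hg : g ∈ O.filter (fun g => 2 ∣ (Subgroup.centralizer ({g} : Set G)).index)
      · right; exact (Finset.mem_filter.1 hg).2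
      · left; simp only [f]; rw [if_neg hg])
    obtain ⟨s, hs⟩ := hdvd
    have hs' := congrArg (localRing M hMp).subtype hs
    rw [map_sum] at hs'
    have h3 : ∑ g, (localRing M hMp).subtype (f g) =
        ∑ g ∈ O.filter (fun g => 2 ∣ (Subgroup.centralizer ({g} : Set G)).index), a g * (χ0 : G → ℂ) g := by
      rw [Finset.sum_filter (s := O), Finset.sum_filter]
      apply Finset.sum_congr rfl
      intro g _
      by_cases h1 : g ≠ 1 ∧ ¬ 2 ∣ orderOf g
      · by_cases h2 : 2 ∣ (Subgroup.centralizer ({g} : Set G)).index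
        · have hg : g ∈ O.filter (fun g => 2 ∣ (Subgroup.centralizer ({g} : Set G)).index) :=
            Finset.mem_filter.2 ⟨(hmemO g).2 h1, h2⟩
          simp only [f]
          rw [if_pos hg, if_pos h1, if_pos h2]
          rfl
        · have hg : g ∉ O.filter (fun g => 2 ∣ (Subgroup.centralizer ({g} : Set G)).index) :=
            fun h => h2 (Finset.mem_filter.1 h).2
          simp only [f]
          rw [if_neg hg, if_pos h1, if_neg h2]
          rfl
      · have hg : g ∉ O.filter (fun g => 2 ∣ (Subgroup.centralizer ({g} : Set G)).index) :=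
          fun h => h1 ((hmemO g).1 (Finset.mem_filter.1 h).1)
        simp only [f]
        rw [if_neg hg, if_neg h1]
        rfl
    rw [← h3, hs']
    simp only [map_mul, map_natCast, Subring.subtype_apply]
    exact MemLocalIdeal.mul_right hMp (by simpa using h2I) s.2
  have hBsum : MemLocalIdeal M (∑ g ∈ O, a g * (χ0 : G → ℂ) g) := by
    rw [← Finset.sum_filter_add_sum_filter_not O (fun g => 2 ∣ (Subgroup.centralizer ({g} : Set G)).index)]
    exact MemLocalIdeal.add hMp hBeven hBodd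
  -- conclusion
  have h1 := sum_blockCoeff_mul B χ0
  rw [if_pos hχ0B, sum_split _ (by intro y hy; show a y * _ = 0; rw [ha0 y hy, zero_mul])] at h1
  have ha1 : MemLocalIdeal M (a 1 - 1) := by
    have h2 : (a 1 - 1) * (χ0 : G → ℂ) 1 = - ∑ g ∈ O, a g * (χ0 : G → ℂ) g := by
      have : a 1 * (χ0 : G → ℂ) 1 + ∑ g ∈ O, a g * (χ0 : G → ℂ) g = (χ0 : G → ℂ) 1 := h1
      linear_combination this
    have h3 : MemLocalIdeal M ((a 1 - 1) * (χ0 : G → ℂ) 1) := by
      rw [h2]; exact MemLocalIdeal.neg hBsum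
    rcases (memLocalIdeal_mul_iff hMp (MemLocalRing.sub hMp (haR 1) (memLocalRing_one hMp))
      (irr_memLocalRing hMp χ0 1)).1 h3 with h | h
    · exact h
    · exact absurd h hχ0unit
  apply eq_principalBlock_of_one_mem hMp hB
  by_contra hone
  have h2 := sum_blockCoeff_mul B (oneIrr G)
  rw [if_neg hone, sum_split _ (by intro y hy; show a y * _ = 0; rw [ha0 y hy, zero_mul])] at h2
  have h3 : a 1 + ∑ g ∈ O, a g = 0 := by
    have : a 1 * ((oneIrr G : IrrCharacter G) : G → ℂ) 1 + ∑ g ∈ O, a g * ((oneIrr G : IrrCharacter G) : G → ℂ) g = 0 := h2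
    simpa [oneIrr] using this
  have h4 : MemLocalIdeal M (a 1) := by
    have : a 1 = - ∑ g ∈ O, a g := by linear_combination h3
    rw [this]; exact MemLocalIdeal.neg hA
  have h5 : MemLocalIdeal M (1 : ℂ) := by
    have := MemLocalIdeal.sub hMp h4 ha1
    simpa using this
  exact not_memLocalIdeal_one hMp h5

end Cfsg.Agent.S4517
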