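import Cfsg.Statements.S4490
import Cfsg.Agent.S0908
import Cfsg.Agent.S4517
import Cfsg.Agent.Lib.Helper81.BrauerPerm

set_option autoImplicit false
open Cfsg

namespace Cfsg.Agent.S4490

open Cfsg.Agent.Lib.Helper74 Cfsg.Agent.Lib.Helper78

/-- Let G be a finite group and M a maximal ideal of the algebraic integers containing 2. Every 2-block B of G whose defect groups are the Sylow 2-subgroups of G (a block of full defect) and which is not the principal block is different from its complex-conjugate block, the block formed by the complex conjugates of the members of B. -/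
theorem result {G : Type*} [Group G] [Finite G] (M : Ideal Cfsg.AlgInt) (hM : Cfsg.IsPModular 2 M) (B : Set (Cfsg.IrrCharacter G)) (hB : Cfsg.IsPBlock M B) (P : Sylow 2 G) (hfull : Cfsg.IsDefectGroup 2 M B (P : Subgroup G)) (hnp : B ≠ Cfsg.principalBlock M G) : {ψ : Cfsg.IrrCharacter G | ∃ χ ∈ B, (ψ : G → ℂ) = fun g => (starRingEnd ℂ) ((χ : G → ℂ) g)} ≠ B := by
  intro hconj
  apply hnp
  have : Fact (Nat.Prime 2) := ⟨Nat.prime_two⟩
  have hcard := Cfsg.Agent.S0908.result 2 M hM B hB (P : Subgroup G) hfull
  have hP : Nat.card (P : Subgroup G) = 2 ^ (Nat.card G).factorization 2 := Sylow.card_eq_multiplicity P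
  have hdef : Cfsg.blockDefect 2 B = (Nat.card G).factorization 2 := by
    rw [hP] at hcard
    exact (Nat.pow_right_injective (le_refl 2) hcard).symm
  have hpos : 0 < Nat.card G := Nat.card_pos
  have hpow : ∀ g : G, g ^ (Nat.card G - 1) = g⁻¹ := by
    intro g
    have h1 : g ^ (Nat.card G - 1) * g = 1 := by
      rw [← pow_succ, Nat.sub_add_cancel hpos, pow_card_eq_one']
    exact eq_inv_of_mul_eq_one_left h1
  apply Cfsg.Agent.S4517.result M hM (Nat.card G - 1) _ (fun g _ => hpow g) B hB hdef
  · intro χ hχ
    -- the conjugate character lies in B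
    have hχbar : IsIrrCharacter G (fun g => (starRingEnd ℂ) ((χ : G → ℂ) g)) :=
      Cfsg.Agent.Lib.Helper81.IsIrrCharacter.star χ.2
    refine ⟨⟨_, hχbar⟩, ?_, ?_⟩
    · rw [← hconj]
      exact ⟨χ, hχ, rfl⟩
    · intro g
      rw [hpow, irr_inv]
  · have h := Nat.coprime_self_sub_right (n := Nat.card G) (m := 1) hpos
    exact (by simpa using h : (Nat.card G).Coprime (Nat.card G - 1)).symm

end Cfsg.Agent.S4490
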