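import Cfsg.Statements.S4518
import Cfsg.Agent.Lib.Helper80.Inflation
import Cfsg.Agent.Lib.Helper76.GaloisChar
import Cfsg.Agent.Lib.Helper15.Clifford2

set_option autoImplicit false
open Cfsg

namespace Cfsg.Agent.S4518

open Cfsg.Agent.Lib.Helper80 Cfsg.Agent.Lib.Helper15 Cfsg.Agent.Lib.Helper76

section
variable {G : Type*} [Group G] (N : Subgroup G) [hN : N.Normal]

/-- The left action of `G` on functions on the normal subgroup `N`. -/
@[reducible] def cjAction : MulAction G (N → ℂ) where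
  smul g θ := cj N g⁻¹ θ
  one_smul θ := by
    change cj N (1 : G)⁻¹ θ = θ
    rw [inv_one, cj_one]
  mul_smul g h θ := by
    change cj N (g * h)⁻¹ θ = cj N g⁻¹ (cj N h⁻¹ θ)
    rw [cj_cj, mul_inv_rev]

/-- The `k`-th power twist. -/
def tw (k : ℕ) (φ : N → ℂ) : N → ℂ := fun n => φ (n ^ k)

theorem tw_cj (k : ℕ) (g : G) (φ : N → ℂ) : tw N k (cj N g φ) = cj N g (tw N k φ) := by
  funext n
  simp only [tw, cj_apply]
  congr 1
  apply Subtype.ext
  simp [conj_pow]

omit hN in
theorem tw_iterate (k m : ℕ) (φ : N → ℂ) : (tw N k)^[m] φ = tw N (k ^ m) φ := by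
  induction m generalizing φ with
  | zero => funext n; simp [tw]
  | succ m ih =>
    rw [Function.iterate_succ_apply, ih]
    funext n
    simp only [tw]
    rw [← pow_mul, pow_succ, mul_comm]

end

/-- Let N be a normal subgroup of the finite group G whose index is not divisible by the prime p, and let k be coprime to the order of G with k ^ (p ^ e) ≡ 1 modulo the order of G for some e (so g ↦ g ^ k induces a field automorphism of p-power order on character values). If an irreducible character χ of G satisfies χ (g ^ k) = χ g for all g, then every irreducible constituent θ of the restriction of χ to N satisfies θ (n ^ k) = θ n for all n. -/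
theorem result {G : Type*} [Group G] [Fintype G] (p : ℕ) [Fact p.Prime] (N : Subgroup G) [N.Normal] [Fintype N] (hidx : ¬ p ∣ N.index) (k e : ℕ) (hk : Nat.Coprime k (Nat.card G)) (hke : k ^ (p ^ e) ≡ 1 [MOD Nat.card G]) (χ : Cfsg.IrrCharacter G) (hχ : ∀ g : G, (χ : G → ℂ) (g ^ k) = (χ : G → ℂ) g) (θ : Cfsg.IrrCharacter N) (hθ : Cfsg.classInner (fun n : N => (χ : G → ℂ) n) (θ : N → ℂ) ≠ 0) : ∀ n : N, (θ : N → ℂ) (n ^ k) = (θ : N → ℂ) n := by
  classical
  let _ := cjAction N
  have hkN : k.Coprime (Nat.card N) := Nat.Coprime.coprime_dvd_right (Subgroup.card_subgroup_dvd_card N) hk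
  -- the twist of θ is an irreducible constituent
  have h1 : IsIrrCharacter N (tw N k (θ : N → ℂ)) := isIrrCharacter_pow_coprime θ.2 hkN
  have h2 : classInner (fun n : N => (χ : G → ℂ) n) (tw N k (θ : N → ℂ)) ≠ 0 := by
    have h3 : classInner (fun n : N => (χ : G → ℂ) n) (tw N k (θ : N → ℂ)) =
        classInner (fun n : N => (χ : G → ℂ) n) (θ : N → ℂ) := by
      unfold classInner
      congr 1
      have h4 := Equiv.sum_comp (powCoprime hkN.symm)
        (fun n : N => (χ : G → ℂ) n * (starRingEnd ℂ) ((θ : N → ℂ) n))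
      rw [← h4]
      apply Finset.sum_congr rfl
      intro n _
      simp only [tw, powCoprime_apply, Subgroup.coe_pow, hχ]
    rw [h3]
    exact hθ
  obtain ⟨g₀, hg₀⟩ := clifford_conj N χ.2 θ.2 h1 hθ h2
  -- the orbit
  have hfin : Finite (MulAction.orbit G (θ : N → ℂ)) := Set.finite_range _
  have := Fintype.ofFinite (MulAction.orbit G (θ : N → ℂ))
  have hmap : ∀ φ : MulAction.orbit G (θ : N → ℂ), tw N k φ.1 ∈ MulAction.orbit G (θ : N → ℂ) := by
    rintro ⟨_, h, rfl⟩
    refine ⟨h * g₀⁻¹, ?_⟩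
    change cj N (h * g₀⁻¹)⁻¹ (θ : N → ℂ) = tw N k (cj N h⁻¹ (θ : N → ℂ))
    rw [tw_cj, hg₀, cj_cj]
    simp
  let f : Function.End (MulAction.orbit G (θ : N → ℂ)) := fun φ => ⟨tw N k φ.1, hmap φ⟩
  have hfiter : ∀ (m : ℕ) (φ : MulAction.orbit G (θ : N → ℂ)), ((f ^ m) φ).1 = (tw N k)^[m] φ.1 := by
    intro m
    induction m with
    | zero => intro φ; rfl
    | succ m ih =>
      intro φ
      have h6 : (f ^ (m + 1)) φ = (f ^ m) (f φ) := by rw [pow_succ]; rfl
      rw [h6, ih, Function.iterate_succ_apply]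
  have hf : f ^ p ^ e = 1 := by
    funext φ
    apply Subtype.ext
    rw [hfiter, tw_iterate]
    funext n
    have h5 : n ^ (k ^ p ^ e) = n ^ 1 := by
      apply pow_eq_pow_iff_modEq.2
      exact hke.of_dvd ((orderOf_dvd_natCard n).trans (Subgroup.card_subgroup_dvd_card N))
    simp only [tw, Function.End.one_def, id]
    rw [h5, pow_one]
  have hmod := Equiv.Perm.card_fixedPoints_modEq hf
  have hcard : ¬ p ∣ Fintype.card (MulAction.orbit G (θ : N → ℂ)) := by
    intro hdvd
    apply hidx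
    refine hdvd.trans ?_
    rw [← Nat.card_eq_fintype_card, Nat.card_coe_set_eq, ← MulAction.index_stabilizer]
    apply Subgroup.index_dvd_of_le
    intro g hg
    rw [MulAction.mem_stabilizer_iff]
    exact cj_of_mem N (N.inv_mem hg) (isClassFunction_of_char (isCharacter_of_irr θ.2))
  have hne : Fintype.card (Function.fixedPoints f) ≠ 0 := by
    intro h0
    rw [h0] at hmod
    exact hcard (Nat.modEq_zero_iff_dvd.1 hmod)
  obtain ⟨⟨⟨_, h, rfl⟩, hφ⟩⟩ := Fintype.card_pos_iff.1 (Nat.pos_of_ne_zero hne)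
  have h7 : tw N k (cj N h⁻¹ (θ : N → ℂ)) = cj N h⁻¹ (θ : N → ℂ) := congrArg Subtype.val hφ
  rw [tw_cj] at h7
  have h8 := congrArg (cj N h⁻¹⁻¹) h7
  rw [cj_inv_cj, cj_inv_cj] at h8
  intro n
  exact congrFun h8 n

end Cfsg.Agent.S4518
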