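import Cfsg.Statements.S4521
import Cfsg.Agent.S0174
import Cfsg.Agent.Lib.Helper75.RegularBlock
import Cfsg.Agent.Lib.Helper81.Schur
import Cfsg.Agent.Lib.Helper75.IdemTrace

set_option autoImplicit false
open Cfsg

namespace Cfsg.Agent.S4521

open Cfsg.Agent.Lib.Helper74 Cfsg.Agent.Lib.Helper78
open scoped ComplexConjugate

section

variable {G : Type*} [Group G] {U V : Subgroup G}

theorem exists_mul (hcomm : ∀ u ∈ U, ∀ v ∈ V, u * v = v * u) (hgen : U ⊔ V = ⊤) (z : G) :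
    ∃ a ∈ U, ∃ t ∈ V, a * t = z := by
  have hc : ∀ (a : U) (t : V), Commute (U.subtype a) (V.subtype t) := fun a t => hcomm a a.2 t t.2
  have hr := MonoidHom.noncommCoprod_range U.subtype V.subtype hc
  rw [Subgroup.range_subtype, Subgroup.range_subtype, hgen] at hr
  have hz : z ∈ (MonoidHom.noncommCoprod U.subtype V.subtype hc).range := by rw [hr]; trivial
  obtain ⟨⟨a, t⟩, rfl⟩ := hz
  exact ⟨a, a.2, t, t.2, rfl⟩

theorem conj_eq (hcomm : ∀ u ∈ U, ∀ v ∈ V, u * v = v * u) (hgen : U ⊔ V = ⊤) (t : G) {u : G}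
    (hu : u ∈ U) : ∃ a ∈ U, t * u * t⁻¹ = a * u * a⁻¹ := by
  obtain ⟨a, ha, b, hb, rfl⟩ := exists_mul hcomm hgen t
  refine ⟨a, ha, ?_⟩
  have h1 : b * u * b⁻¹ = u := by
    rw [← hcomm u hu b hb]; group
  calc a * b * u * (a * b)⁻¹ = a * (b * u * b⁻¹) * a⁻¹ := by group
    _ = a * u * a⁻¹ := by rw [h1]

theorem normal_left (hcomm : ∀ u ∈ U, ∀ v ∈ V, u * v = v * u) (hgen : U ⊔ V = ⊤) : U.Normal := by
  constructor
  intro u hu t
  obtain ⟨a, ha, h⟩ := conj_eq hcomm hgen t hu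
  rw [h]
  exact U.mul_mem (U.mul_mem ha hu) (U.inv_mem ha)

theorem index_eq [Finite G] (hcomm : ∀ u ∈ U, ∀ v ∈ V, u * v = v * u) (hgen : U ⊔ V = ⊤) (u : U) :
    (Subgroup.centralizer ({(u : G)} : Set G)).index = (Subgroup.centralizer ({u} : Set U)).index := by
  classical
  have := Fintype.ofFinite G
  have := Fintype.ofFinite U
  rw [index_centralizer_eq_card, index_centralizer_eq_card]
  symm
  apply Finset.card_bij (fun (x : U) _ => (x : G))
  · intro x hx
    simp only [Finset.mem_filter, Finset.mem_univ, true_and] at hx ⊢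
    obtain ⟨c, hc⟩ := isConj_iff.1 hx
    exact isConj_iff.2 ⟨c, by rw [← hc]; simp⟩
  · intro x _ y _ h
    exact Subtype.ext h
  · intro y hy
    simp only [Finset.mem_filter, Finset.mem_univ, true_and] at hy
    obtain ⟨c, hc⟩ := isConj_iff.1 hy
    obtain ⟨a, ha, h⟩ := conj_eq hcomm hgen c u.2
    refine ⟨⟨a, ha⟩ * u * ⟨a, ha⟩⁻¹, ?_, ?_⟩
    · simp only [Finset.mem_filter, Finset.mem_univ, true_and]
      exact isConj_iff.2 ⟨⟨a, ha⟩, rfl⟩
    · rw [← hc, h]; simp

/-- the restriction of `χ` to `U` is a multiple of `ψ` -/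
theorem restrict_eq [Fintype G] [Fintype U] (hcomm : ∀ u ∈ U, ∀ v ∈ V, u * v = v * u)
    (hgen : U ⊔ V = ⊤) (χ : IrrCharacter G) (ψ : IrrCharacter U)
    (h : classInner (fun u : U => (χ : G → ℂ) u) (ψ : U → ℂ) ≠ 0) (u : U) :
    (χ : G → ℂ) u / (χ : G → ℂ) 1 = (ψ : U → ℂ) u / (ψ : U → ℂ) 1 := by
  have hN := normal_left hcomm hgen
  have hcl := Cfsg.Agent.S0174.result U hN (χ : G → ℂ) χ.2 (ψ : U → ℂ) ψ.2 h
  have hset : {ψ' : U → ℂ | ∃ g : G, ψ' = fun n : U => (ψ : U → ℂ) ⟨g * n * g⁻¹, hN.conj_mem n n.2 g⟩}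
      = {(ψ : U → ℂ)} := by
    ext ψ'
    simp only [Set.mem_ofPred_eq, Set.mem_singleton_iff]
    have key : ∀ g : G, (fun n : U => (ψ : U → ℂ) ⟨g * n * g⁻¹, hN.conj_mem n n.2 g⟩) = (ψ : U → ℂ) := by
      intro g
      funext n
      obtain ⟨a, ha, h'⟩ := conj_eq hcomm hgen g n.2
      have : (⟨g * n * g⁻¹, hN.conj_mem n n.2 g⟩ : U) = ⟨a, ha⟩ * n * ⟨a, ha⟩⁻¹ := by
        apply Subtype.ext; simp [h']
      rw [this]
      exact irr_isClassFunction ψ n ⟨a, ha⟩
    constructor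
    · rintro ⟨g, rfl⟩; exact key g
    · rintro rfl; exact ⟨1, (key 1).symm⟩
  rw [hset, finsum_mem_singleton] at hcl
  set c := classInner (fun u : U => (χ : G → ℂ) u) (ψ : U → ℂ) with hc
  have h1 : (χ : G → ℂ) u = c * (ψ : U → ℂ) u := by
    have := congrFun hcl u
    simpa using this
  have h2 : (χ : G → ℂ) 1 = c * (ψ : U → ℂ) 1 := by
    have := congrFun hcl 1
    simpa using this
  have h3 : (ψ : U → ℂ) 1 ≠ 0 := irr_one_ne_zero ψ
  rw [h1, h2]
  field_simp

theorem centralChar_eq [Fintype G] [Fintype U] (hcomm : ∀ u ∈ U, ∀ v ∈ V, u * v = v * u)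
    (hgen : U ⊔ V = ⊤) (χ : IrrCharacter G) (ψ : IrrCharacter U)
    (h : classInner (fun u : U => (χ : G → ℂ) u) (ψ : U → ℂ) ≠ 0) (u : U) :
    centralChar (χ : G → ℂ) (u : G) = centralChar (ψ : U → ℂ) u := by
  unfold centralChar
  rw [index_eq hcomm hgen u, mul_div_assoc, restrict_eq hcomm hgen χ ψ h u, mul_div_assoc]

/-- multiplicativity of `χ / χ 1` on products -/
theorem char_mul [Fintype G] (hcomm : ∀ u ∈ U, ∀ v ∈ V, u * v = v * u)
    (hgen : U ⊔ V = ⊤) (χ : IrrCharacter G) {u v : G} (hu : u ∈ U) (hv : v ∈ V) :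
    (χ : G → ℂ) (u * v) / (χ : G → ℂ) 1 = ((χ : G → ℂ) u / (χ : G → ℂ) 1) * ((χ : G → ℂ) v / (χ : G → ℂ) 1) := by
  have h := Cfsg.Agent.Lib.Helper81.IsIrrCharacter.sum_mul_conj χ.2 u v
  have hconst : ∀ y : G, (χ : G → ℂ) (u * (y * v * y⁻¹)) = (χ : G → ℂ) (u * v) := by
    intro y
    have hcomm' : ∀ u ∈ V, ∀ v ∈ U, u * v = v * u := fun a ha b hb => (hcomm b hb a ha).symm
    obtain ⟨b, hb, h'⟩ := conj_eq hcomm' (by rw [sup_comm]; exact hgen) y hv
    rw [h']
    have : u * (b * v * b⁻¹) = b * (u * v) * b⁻¹ := by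
      have h1 : u * b = b * u := hcomm u hu b hb
      calc u * (b * v * b⁻¹) = (u * b) * v * b⁻¹ := by group
        _ = (b * u) * v * b⁻¹ := by rw [h1]
        _ = b * (u * v) * b⁻¹ := by group
    rw [this]
    exact irr_isClassFunction χ _ _
  simp only [hconst, Finset.sum_const, Finset.card_univ, nsmul_eq_mul] at h
  have h1 : (χ : G → ℂ) 1 ≠ 0 := irr_one_ne_zero χ
  have h2 : (Fintype.card G : ℂ) ≠ 0 := by exact_mod_cast Fintype.card_ne_zero
  have h3 : (χ : G → ℂ) (u * v) = (χ : G → ℂ) u * (χ : G → ℂ) v / (χ : G → ℂ) 1 := by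
    apply mul_left_cancel₀ h2
    rw [h]; ring
  rw [h3]
  field_simp

theorem orderOf_of_isConj {a b : G} (h : IsConj a b) : orderOf b = orderOf a := by
  obtain ⟨c, hc⟩ := isConj_iff.1 h
  rw [← hc]
  have := orderOf_injective (MulAut.conj c).toMonoidHom (MulAut.conj c).injective a
  simpa using this

theorem mem_of_isConj (hcomm : ∀ u ∈ U, ∀ v ∈ V, u * v = v * u) (hgen : U ⊔ V = ⊤) {u x : G}
    (hu : u ∈ U) (h : IsConj u x) : x ∈ U := by
  obtain ⟨c, hc⟩ := isConj_iff.1 h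
  rw [← hc]
  exact (normal_left hcomm hgen).conj_mem u hu c

/-- class sizes multiply for `p`-regular elements -/
theorem index_mul [Finite G] (p : ℕ) (hp : p.Prime) (hcomm : ∀ u ∈ U, ∀ v ∈ V, u * v = v * u) (hgen : U ⊔ V = ⊤)
    (hZ : IsPGroup p ↥(U ⊓ V)) {u v : G} (hu : u ∈ U) (hv : v ∈ V) (hup : ¬ p ∣ orderOf u) :
    (Subgroup.centralizer ({u * v} : Set G)).index =
      (Subgroup.centralizer ({u} : Set G)).index * (Subgroup.centralizer ({v} : Set G)).index := by
  classical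
  have := Fintype.ofFinite G
  have hcomm' : ∀ u ∈ V, ∀ v ∈ U, u * v = v * u := fun a ha b hb => (hcomm b hb a ha).symm
  have hgen' : V ⊔ U = ⊤ := by rw [sup_comm]; exact hgen
  rw [index_centralizer_eq_card, index_centralizer_eq_card, index_centralizer_eq_card,
    ← Finset.card_product]
  symm
  apply Finset.card_bij (fun (x : G × G) _ => x.1 * x.2)
  · rintro ⟨x, x'⟩ hx
    simp only [Finset.mem_product, Finset.mem_filter, Finset.mem_univ, true_and] at hx ⊢
    obtain ⟨c, hc⟩ := isConj_iff.1 hx.1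
    obtain ⟨c', hc'⟩ := isConj_iff.1 hx.2
    obtain ⟨a, ha, h1⟩ := conj_eq hcomm hgen c hu
    obtain ⟨b, hb, h2⟩ := conj_eq hcomm' hgen' c' hv
    rw [← hc, ← hc', h1, h2]
    apply isConj_iff.2
    refine ⟨a * b, ?_⟩
    have e1 : b * u = u * b := (hcomm u hu b hb).symm
    have e2 : a⁻¹ * (b * v * b⁻¹) = (b * v * b⁻¹) * a⁻¹ :=
      hcomm a⁻¹ (U.inv_mem ha) _ (V.mul_mem (V.mul_mem hb hv) (V.inv_mem hb))
    calc a * b * (u * v) * (a * b)⁻¹ = a * (b * u) * v * b⁻¹ * a⁻¹ := by group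
      _ = a * (u * b) * v * b⁻¹ * a⁻¹ := by rw [e1]
      _ = a * u * ((b * v * b⁻¹) * a⁻¹) := by group
      _ = a * u * (a⁻¹ * (b * v * b⁻¹)) := by rw [e2]
      _ = a * u * a⁻¹ * (b * v * b⁻¹) := by group
  · rintro ⟨x, x'⟩ hx ⟨y, y'⟩ hy h
    simp only [Finset.mem_product, Finset.mem_filter, Finset.mem_univ, true_and] at hx hy h
    have hxU := mem_of_isConj hcomm hgen hu hx.1
    have hyU := mem_of_isConj hcomm hgen hu hy.1
    have hxV := mem_of_isConj hcomm' hgen' hv hx.2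
    have hyV := mem_of_isConj hcomm' hgen' hv hy.2
    set z := y⁻¹ * x with hz
    have hz' : z = y' * x'⁻¹ := by
      rw [hz]
      have : y⁻¹ * (x * x') * x'⁻¹ = y⁻¹ * (y * y') * x'⁻¹ := by rw [h]
      simpa [mul_assoc] using this
    have hzU : z ∈ U := U.mul_mem (U.inv_mem hyU) hxU
    have hzV : z ∈ V := by rw [hz']; exact V.mul_mem hyV (V.inv_mem hxV)
    have hxyz : x = y * z := by rw [hz]; group
    have hcyz : Commute y z := hcomm y hyU z hzV
    have hzn : z ^ orderOf u = 1 := by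
      have h1 : x ^ orderOf u = 1 := by rw [← orderOf_of_isConj hx.1]; exact pow_orderOf_eq_one x
      have h2 : y ^ orderOf u = 1 := by rw [← orderOf_of_isConj hy.1]; exact pow_orderOf_eq_one y
      rw [hxyz, hcyz.mul_pow, h2, one_mul] at h1
      exact h1
    have hz1 : z = 1 := by
      obtain ⟨k, hk⟩ := hZ ⟨z, hzU, hzV⟩
      have hk' : z ^ p ^ k = 1 := by
        have := congrArg Subtype.val hk
        simpa using this
      have hd1 := orderOf_dvd_of_pow_eq_one hzn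
      have hd2 := orderOf_dvd_of_pow_eq_one hk'
      have hcop : Nat.Coprime (orderOf u) (p ^ k) :=
        Nat.Coprime.pow_right k ((Nat.Prime.coprime_iff_not_dvd hp).2 hup).symm
      have := Nat.eq_one_of_dvd_coprimes hcop hd1 hd2
      exact orderOf_eq_one_iff.1 this
    have hxy : x = y := by rw [hxyz, hz1, mul_one]
    subst hxy
    have : x' = y' := mul_left_cancel h
    rw [this]
  · intro y hy
    simp only [Finset.mem_filter, Finset.mem_univ, true_and] at hy
    obtain ⟨c, hc⟩ := isConj_iff.1 hy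
    refine ⟨(c * u * c⁻¹, c * v * c⁻¹), ?_, ?_⟩
    · simp only [Finset.mem_product, Finset.mem_filter, Finset.mem_univ, true_and]
      exact ⟨isConj_iff.2 ⟨c, rfl⟩, isConj_iff.2 ⟨c, rfl⟩⟩
    · rw [← hc]; group

/-- a `p`-regular element is a product of `p`-regular elements of `U` and `V` -/
theorem exists_regular_mul [Finite G] (p : ℕ) (hp : p.Prime) (hcomm : ∀ u ∈ U, ∀ v ∈ V, u * v = v * u)
    (hgen : U ⊔ V = ⊤) (g : G) (hg : ¬ p ∣ orderOf g) :
    ∃ u ∈ U, ∃ v ∈ V, u * v = g ∧ ¬ p ∣ orderOf u ∧ ¬ p ∣ orderOf v := by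
  classical
  have := Fintype.ofFinite G
  obtain ⟨a, ha, b, hb, hab⟩ := exists_mul hcomm hgen g
  set e := (Nat.card G).factorization p with he
  set n := orderOf g with hn
  have hnpos : 0 < n := orderOf_pos g
  have hcop : Nat.Coprime (p ^ e) n :=
    Nat.Coprime.pow_left e ((Nat.Prime.coprime_iff_not_dvd hp).2 hg)
  have hmod : (p ^ e) ^ Nat.totient n ≡ 1 [MOD n] := Nat.ModEq.pow_totient hcop
  have hφ : 0 < Nat.totient n := Nat.totient_pos.2 hnpos
  obtain ⟨j, hj⟩ : ∃ j, Nat.totient n = j + 1 := ⟨Nat.totient n - 1, by omega⟩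
  set m := (p ^ e) ^ Nat.totient n with hm
  have hm' : m = (p ^ e) ^ j * p ^ e := by rw [hm, hj, pow_succ]
  have hgm : g ^ m = g := by
    have : g ^ m = g ^ 1 := pow_eq_pow_iff_modEq.2 hmod
    simpa using this
  refine ⟨a ^ m, U.pow_mem ha m, b ^ m, V.pow_mem hb m, ?_, ?_, ?_⟩
  · rw [← (show Commute a b from hcomm a ha b hb).mul_pow, hab, hgm]
  · rw [hm', pow_mul]
    exact Cfsg.Agent.Lib.Helper75.pow_card_factorization_regular hp _
  · rw [hm', pow_mul]
    exact Cfsg.Agent.Lib.Helper75.pow_card_factorization_regular hp _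

theorem centralChar_one_fun (g : G) :
    centralChar (fun _ : G => (1 : ℂ)) g = ((Subgroup.centralizer ({g} : Set G)).index : ℂ) := by
  unfold centralChar; simp

end

/-- Let the finite group G be generated by subgroups U₁ and U₂ that commute elementwise and whose intersection is a p-group, and let M be a maximal ideal of the algebraic integers containing the prime p. If the irreducible character χ of G has the irreducible constituents ψ₁ on U₁ and ψ₂ on U₂, then χ lies in the principal block of G if and only if ψ₁ and ψ₂ lie in the principal blocks of U₁ and U₂. -/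
theorem result {G : Type*} [Group G] [Fintype G] (p : ℕ) [Fact p.Prime] (M : Ideal Cfsg.AlgInt) (hM : Cfsg.IsPModular p M) (U₁ U₂ : Subgroup G) [Fintype U₁] [Fintype U₂] (hcomm : ∀ u ∈ U₁, ∀ v ∈ U₂, u * v = v * u) (hgen : U₁ ⊔ U₂ = ⊤) (hZ : IsPGroup p ↥(U₁ ⊓ U₂)) (χ : Cfsg.IrrCharacter G) (ψ₁ : Cfsg.IrrCharacter U₁) (ψ₂ : Cfsg.IrrCharacter U₂) (h₁ : Cfsg.classInner (fun u : U₁ => (χ : G → ℂ) u) (ψ₁ : U₁ → ℂ) ≠ 0) (h₂ : Cfsg.classInner (fun u : U₂ => (χ : G → ℂ) u) (ψ₂ : U₂ → ℂ) ≠ 0) : χ ∈ Cfsg.principalBlock M G ↔ (ψ₁ ∈ Cfsg.principalBlock M U₁ ∧ ψ₂ ∈ Cfsg.principalBlock M U₂) := by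
  have hMp := pmod_isPrime hM
  have hcomm' : ∀ u ∈ U₂, ∀ v ∈ U₁, u * v = v * u := fun a ha b hb => (hcomm b hb a ha).symm
  have hgen' : U₂ ⊔ U₁ = ⊤ := by rw [sup_comm]; exact hgen
  constructor
  · intro h
    constructor
    · intro u
      have := h (u : G)
      rw [centralChar_one_fun, centralChar_eq hcomm hgen χ ψ₁ h₁ u, index_eq hcomm hgen u] at this
      rw [centralChar_one_fun]
      exact this
    · intro u
      have := h (u : G)
      rw [centralChar_one_fun, centralChar_eq hcomm' hgen' χ ψ₂ h₂ u, index_eq hcomm' hgen' u] at this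
      rw [centralChar_one_fun]
      exact this
  · rintro ⟨hb₁, hb₂⟩
    have key := Cfsg.Agent.Lib.Helper75.sameBlock_of_regular hM (trivIrr G) χ (by
      intro g hg
      obtain ⟨u, hu, v, hv, rfl, hup, hvp⟩ := exists_regular_mul p hM.1 hcomm hgen g hg
      have e1 := hb₁ ⟨u, hu⟩
      have e2 := hb₂ ⟨v, hv⟩
      rw [centralChar_one_fun, ← centralChar_eq hcomm hgen χ ψ₁ h₁ ⟨u, hu⟩,
        ← index_eq hcomm hgen ⟨u, hu⟩] at e1
      rw [centralChar_one_fun, ← centralChar_eq hcomm' hgen' χ ψ₂ h₂ ⟨v, hv⟩,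
        ← index_eq hcomm' hgen' ⟨v, hv⟩] at e2
      simp only at e1 e2
      have e3 : centralChar ((trivIrr G : IrrCharacter G) : G → ℂ) (u * v) =
          ((Subgroup.centralizer ({u * v} : Set G)).index : ℂ) := centralChar_one_fun (u * v)
      rw [e3, index_mul p hM.1 hcomm hgen hZ hu hv hup]
      have e4 : centralChar (χ : G → ℂ) (u * v) =
          centralChar (χ : G → ℂ) u * centralChar (χ : G → ℂ) v := by
        unfold centralChar
        rw [index_mul p hM.1 hcomm hgen hZ hu hv hup, mul_div_assoc, char_mul hcomm hgen χ hu hv]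
        push_cast
        ring
      rw [e4]
      set i₁ := ((Subgroup.centralizer ({u} : Set G)).index : ℂ) with hi₁
      set i₂ := ((Subgroup.centralizer ({v} : Set G)).index : ℂ) with hi₂
      have e5 : ((((Subgroup.centralizer ({u} : Set G)).index * (Subgroup.centralizer ({v} : Set G)).index : ℕ) : ℂ))
          - centralChar (χ : G → ℂ) u * centralChar (χ : G → ℂ) v =
          i₁ * (i₂ - centralChar (χ : G → ℂ) v) + (i₁ - centralChar (χ : G → ℂ) u) * centralChar (χ : G → ℂ) v := by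
        push_cast; ring
      rw [e5]
      exact MemLocalIdeal.add hMp (MemLocalIdeal.mul_left hMp (memLocalRing_natCast hMp _) e2)
        (MemLocalIdeal.mul_right hMp e1 (memLocalRing_centralChar hMp χ v)))
    exact key

end Cfsg.Agent.S4521
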