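import Cfsg.Statements.S4539
import Cfsg.Agent.Lib.Helper78.SubsecMajor2

set_option autoImplicit false
open Cfsg

namespace Cfsg.Agent.S4539

open Cfsg.Agent.Lib.Helper78 Cfsg.Agent.Lib.Helper16 Cfsg.Agent.Lib.Helper4

/-- Let B be a p-block of the finite group G (relative to a maximal ideal M of the algebraic integers containing p) of defect d with defect group D. Let z be an element of D commuting with every element of D, and let b be a block of the centralizer C of z with defect group D that induces B (a major subsection (z, b)). If b has p-regular rank at most two, then B contains at most p ^ d irreducible characters. -/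
theorem result {G : Type*} [Group G] [Finite G] (p : ℕ) [Fact p.Prime] (M : Ideal Cfsg.AlgInt) (hM : Cfsg.IsPModular p M) (B : Set (Cfsg.IrrCharacter G)) (hB : Cfsg.IsPBlock M B) (D : Subgroup G) (hD : Cfsg.IsDefectGroup p M B D) (z : G) (hzD : z ∈ D) (hzc : ∀ d ∈ D, d * z = z * d) (b : Set (Cfsg.IrrCharacter ↥(Subgroup.centralizer ({z} : Set G)))) (hb : Cfsg.IsInducedBlock M (Subgroup.centralizer ({z} : Set G)) b B) (hbD : Cfsg.IsDefectGroup p M b (D.subgroupOf (Subgroup.centralizer ({z} : Set G)))) (hl : Cfsg.blockRank p b ≤ 2) : Nat.card B ≤ p ^ Cfsg.blockDefect p B := by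
  classical
  have : Fintype G := Fintype.ofFinite G
  have hp : p.Prime := hM.1
  have hcD := card_of_isDefectGroup hM hB hD
  have hcb := card_of_isDefectGroup hM hb.1 hbD
  have hle : D ≤ Subgroup.centralizer ({z} : Set G) := fun d hd =>
    Subgroup.mem_centralizer_singleton_iff.2 (hzc d hd)
  have hcard : Nat.card (D.subgroupOf (Subgroup.centralizer ({z} : Set G))) = Nat.card D :=
    Nat.card_congr (Subgroup.subgroupOfEquivOfLe hle).toEquiv
  have hdef : blockDefect p b = blockDefect p B := by
    rw [hcard, hcD] at hcb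
    exact (Nat.pow_right_injective hp.two_le hcb).symm
  have hz : ∃ k : ℕ, orderOf z = p ^ k := by
    have h1 : orderOf (⟨z, hzD⟩ : D) ∣ Nat.card D := orderOf_dvd_natCard _
    rw [hcD, Subgroup.orderOf_mk] at h1
    obtain ⟨k, -, hk⟩ := (Nat.dvd_prime_pow hp).1 h1
    exact ⟨k, hk⟩
  obtain ⟨k, hk⟩ := hz
  have h1 := card_le_of_major hM z hk hb hdef hl
  have h2 : (Finset.univ.filter (· ∈ B)).card = Nat.card B := by
    rw [Nat.card_eq_fintype_card, Fintype.card_subtype]
  rw [h2] at h1
  exact h1

end Cfsg.Agent.S4539
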