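import Cfsg.Statements.S4541
import Cfsg.Agent.Lib.Helper78.SubsecTwo

set_option autoImplicit false
open Cfsg

namespace Cfsg.Agent.S4541

open Cfsg.Agent.Lib.Helper78 Cfsg.Agent.Lib.Helper16 Cfsg.Agent.Lib.Helper4
open scoped ComplexConjugate

/-- Let B be a 2-block of the finite group G (relative to a maximal ideal M of the algebraic integers containing 2), u a 2-element, and b a block of the centralizer of u inducing B (a subsection (u, b)), of defect q and 2-regular rank l; write s for the integer square root of l and k₀(B) for the number of members of B of height zero. If s is odd then k₀(B) ≤ s·2 ^ q, and otherwise (s + 1)·k₀(B) ≤ l·2 ^ q; in particular k₀(B) ≤ 2 ^ q when l ≤ 3. -/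
theorem result {G : Type*} [Group G] [Finite G] (M : Ideal Cfsg.AlgInt) (hM : Cfsg.IsPModular 2 M) (B : Set (Cfsg.IrrCharacter G)) (hB : Cfsg.IsPBlock M B) (u : G) (hu : ∃ j : ℕ, orderOf u = 2 ^ j) (b : Set (Cfsg.IrrCharacter ↥(Subgroup.centralizer ({u} : Set G)))) (hb : Cfsg.IsInducedBlock M (Subgroup.centralizer ({u} : Set G)) b B) : (Odd (Nat.sqrt (Cfsg.blockRank 2 b)) → Nat.card {χ : Cfsg.IrrCharacter G // χ ∈ B ∧ Cfsg.blockHeight 2 B (χ : G → ℂ) = 0} ≤ Nat.sqrt (Cfsg.blockRank 2 b) * 2 ^ Cfsg.blockDefect 2 b) ∧ (¬ Odd (Nat.sqrt (Cfsg.blockRank 2 b)) → (Nat.sqrt (Cfsg.blockRank 2 b) + 1) * Nat.card {χ : Cfsg.IrrCharacter G // χ ∈ B ∧ Cfsg.blockHeight 2 B (χ : G → ℂ) = 0} ≤ Cfsg.blockRank 2 b * 2 ^ Cfsg.blockDefect 2 b) ∧ (Cfsg.blockRank 2 b ≤ 3 → Nat.card {χ : Cfsg.IrrCharacter G // χ ∈ B ∧ Cfsg.blockHeight 2 B (χ : G → ℂ) = 0} ≤ 2 ^ Cfsg.blockDefect 2 b) := by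
  classical
  have : Fintype G := Fintype.ofFinite G
  have hcard : Nat.card {χ : Cfsg.IrrCharacter G // χ ∈ B ∧ Cfsg.blockHeight 2 B (χ : G → ℂ) = 0}
      = ((Finset.univ.filter (· ∈ B)).filter
      (fun χ : IrrCharacter G => blockHeight 2 B (χ : G → ℂ) = 0)).card := by
    rw [Nat.card_eq_fintype_card, Fintype.card_subtype, Finset.filter_filter]
  rw [hcard]
  by_cases hne : ((Finset.univ.filter (· ∈ B)).filter
      (fun χ : IrrCharacter G => blockHeight 2 B (χ : G → ℂ) = 0)).Nonempty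
  · obtain ⟨z, hz, h1, h2⟩ := exists_odd_bound hM u hu hb hne
    have h3 := numeric_two _ _ ((blockRank 2 b : ℕ) : ℤ) ((Nat.sqrt (blockRank 2 b) : ℕ) : ℤ) z
      (Int.natCast_nonneg _) (Int.natCast_nonneg _) (Int.natCast_nonneg _) hz h1 h2
      (by exact_mod_cast Nat.sqrt_le (blockRank 2 b))
      (by exact_mod_cast Nat.lt_succ_sqrt (blockRank 2 b))
    refine ⟨fun ho => ?_, fun ho => ?_, fun hl => ?_⟩
    · have := h3.1 (by exact_mod_cast ho)
      exact_mod_cast this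
    · have := h3.2.1 (by rw [Int.odd_coe_nat]; exact ho)
      exact_mod_cast this
    · have := h3.2.2 (by exact_mod_cast hl)
      exact_mod_cast this
  · rw [Finset.not_nonempty_iff_eq_empty] at hne
    rw [hne]
    simp

end Cfsg.Agent.S4541
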