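import Cfsg.Statements.S4549
import Mathlib
import Cfsg.Agent.Lib.Helper82.IsaacsSmith
import Cfsg.Agent.S4550

set_option autoImplicit false
open Cfsg

namespace Cfsg.Agent.S4549

/-- Let G be a finite group and M a maximal ideal of the algebraic integers containing 2. Let k be a natural number with g ^ k = g ^ 3 for every 2-element g and g ^ k = g for every element g of odd order (such k exist); an irreducible character χ is unchanged by g ↦ g ^ k exactly when it is fixed by the field automorphism that cubes the 2-power roots of unity and fixes the roots of unity of odd order. Then G has a normal 2-complement if and only if every member χ of the principal 2-block of odd degree with χ (g ^ k) = χ g for all g has degree one. -/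
theorem result {G : Type*} [Group G] [Finite G] (M : Ideal Cfsg.AlgInt) (hM : Cfsg.IsPModular 2 M) (k : ℕ) (hk₁ : ∀ g : G, (∃ j : ℕ, orderOf g = 2 ^ j) → g ^ k = g ^ 3) (hk₂ : ∀ g : G, Odd (orderOf g) → g ^ k = g) : Cfsg.HasNormalPComplement 2 G ↔ ∀ χ ∈ Cfsg.principalBlock M G, Odd (Cfsg.charDegree (χ : G → ℂ)) → (∀ g : G, (χ : G → ℂ) (g ^ k) = (χ : G → ℂ) g) → Cfsg.charDegree (χ : G → ℂ) = 1 := by
  classical
  have : Fact (Nat.Prime 2) := ⟨Nat.prime_two⟩
  constructor
  · intro h χ hχ hodd _
    exact Cfsg.Agent.Lib.Helper82.charDegree_eq_one_of_hasNormalPComplement hM h hχ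
      (fun hd => (Nat.not_even_iff_odd.2 hodd) (even_iff_two_dvd.2 hd))
  · intro h
    have hk := Cfsg.Agent.S4550.coprime_k k hk₁ hk₂
    obtain ⟨P⟩ : Nonempty (Sylow 2 G) := inferInstance
    apply Cfsg.Agent.Lib.Helper82.hasNormalPComplement_of_extend P
    intro μ hμ
    obtain ⟨m, hm, hnd⟩ := Cfsg.Agent.Lib.Helper82.exists_mult_principalBlock hM P μ
    rw [Cfsg.Agent.Lib.Helper78.finsum_mem_irr] at hnd
    let T : IrrCharacter G → IrrCharacter G :=
      fun χ => ⟨fun g => (χ : G → ℂ) (g ^ k),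
        Cfsg.Agent.Lib.Helper76.isIrrCharacter_pow_coprime χ.2 hk⟩
    have hdT : ∀ χ, charDegree ((T χ : IrrCharacter G) : G → ℂ) = charDegree (χ : G → ℂ) := by
      intro χ
      unfold charDegree
      simp [T]
    have hP0 : (Nat.card (P : Subgroup G) : ℂ) ≠ 0 := Nat.cast_ne_zero.2 Nat.card_pos.ne'
    have hcop3 : Nat.Coprime (Nat.card (P : Subgroup G)) 3 := by
      obtain ⟨n, hn⟩ := P.2.exists_card_eq
      rw [hn]
      exact Nat.Coprime.pow_left n (by norm_num)
    have hmT : ∀ χ, m (T χ) = m χ := by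
      intro χ
      have h1 := hm (T χ)
      have h2 := hm χ
      have h3 : ∑ᶠ y : (P : Subgroup G), ((T χ : IrrCharacter G) : G → ℂ) y *
          (starRingEnd ℂ) ((μ y : ℂˣ) : ℂ) =
          ∑ᶠ y : (P : Subgroup G), (χ : G → ℂ) y * (starRingEnd ℂ) ((μ y : ℂˣ) : ℂ) := by
        refine Eq.trans ?_ (finsum_comp_equiv (powCoprime hcop3))
        apply finsum_congr
        intro y
        have hy : ((y : G)) ^ k = (y : G) ^ 3 := by
          apply hk₁
          obtain ⟨j, hj⟩ := (IsPGroup.iff_orderOf.1 P.2) y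
          exact ⟨j, by rw [Subgroup.orderOf_coe, hj]⟩
        have hμy : μ (y ^ 3) = μ y := by
          rw [map_pow, pow_succ, hμ y, one_mul]
        show (χ : G → ℂ) ((y : G) ^ k) * _ = (χ : G → ℂ) ((y ^ 3 : (P : Subgroup G)) : G) *
          (starRingEnd ℂ) ((μ (y ^ 3) : ℂˣ) : ℂ)
        rw [hy, hμy]
        rfl
      rw [h3, h2] at h1
      exact_mod_cast (mul_left_cancel₀ hP0 h1).symm
    let X := {χ : IrrCharacter G // χ ∈ principalBlock M G ∧ Odd (charDegree (χ : G → ℂ) * m χ)}
    let f : Function.End X := fun χ => ⟨T χ.1,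
      Cfsg.Agent.S4550.mem_principalBlock_pow hk χ.1 (T χ.1) (fun g => rfl) χ.2.1, by
        rw [hdT, hmT]; exact χ.2.2⟩
    have hf : ∀ (j : ℕ) (χ : X) (g : G),
        (((f ^ j) χ).1 : G → ℂ) g = (χ.1 : G → ℂ) (g ^ (k ^ j)) := by
      intro j
      induction j with
      | zero =>
        intro χ g
        rw [pow_zero, pow_zero, pow_one]
        rfl
      | succ j ih =>
        intro χ g
        rw [pow_succ]
        show (((f ^ j) (f χ)).1 : G → ℂ) g = _
        rw [ih]
        show (χ.1 : G → ℂ) ((g ^ (k ^ j)) ^ k) = _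
        rw [← pow_mul, ← pow_succ]
    have hf1 : f ^ 2 ^ (Nat.card G) = 1 := by
      funext χ
      apply Subtype.ext
      apply Subtype.ext
      funext g
      rw [hf, Cfsg.Agent.S4550.pow_pow_eq_self k hk₁ hk₂]
      rfl
    let _ : Fintype X := Fintype.ofFinite X
    have h1 := Equiv.Perm.card_fixedPoints_modEq hf1
    have h2 : Odd (Fintype.card X) := by
      have h3 : Odd (∑ χ : IrrCharacter G,
          if χ ∈ principalBlock M G then charDegree (χ : G → ℂ) * m χ else 0) := by
        rw [← Nat.not_even_iff_odd, even_iff_two_dvd]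
        exact hnd
      rw [Finset.odd_sum_iff_odd_card_odd] at h3
      have h4 : Fintype.card X = (Finset.univ.filter (fun χ : IrrCharacter G =>
          Odd (if χ ∈ principalBlock M G then charDegree (χ : G → ℂ) * m χ else 0))).card := by
        rw [← Nat.card_eq_fintype_card, Nat.card_eq_fintype_card, Fintype.card_subtype]
        congr 1
        ext χ
        simp only [Finset.mem_filter, Finset.mem_univ, true_and]
        split_ifs with hχ
        · simp [hχ]
        · simp [hχ]
      rw [h4]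
      exact h3
    have h3 : Fintype.card (Function.fixedPoints f) ≠ 0 := by
      intro h0
      have h4 : Fintype.card X % 2 = Fintype.card (Function.fixedPoints f) % 2 := h1
      rw [h0] at h4
      rw [Nat.odd_iff] at h2
      omega
    obtain ⟨⟨⟨χ, hχB, hχodd⟩, hfix⟩⟩ := Fintype.card_pos_iff.1 (Nat.pos_of_ne_zero h3)
    have hfix' : ∀ g : G, (χ : G → ℂ) (g ^ k) = (χ : G → ℂ) g := by
      intro g
      have h' : ((f ⟨χ, hχB, hχodd⟩).1 : G → ℂ) g = (χ : G → ℂ) g := by rw [hfix]
      exact h'
    have hodd1 : Odd (charDegree (χ : G → ℂ)) := (Nat.odd_mul.1 hχodd).1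
    have hm0 : m χ ≠ 0 := by
      intro h0
      rw [h0, mul_zero] at hχodd
      exact (Nat.not_odd_iff_even.2 Even.zero) hχodd
    have hdeg := h χ hχB hodd1 hfix'
    have h4 : (χ : G → ℂ) 1 = 1 := by
      rw [← Cfsg.Agent.Lib.Helper74.IsCharacter.charDegree_eq
        (Cfsg.Agent.Lib.Helper74.IrrCharacter.isCharacter χ), hdeg, Nat.cast_one]
    obtain ⟨l, hl⟩ := Cfsg.Agent.Lib.Helper80.exists_hom_of_degree_one
      (Cfsg.Agent.Lib.Helper74.IrrCharacter.isCharacter χ) h4
    refine ⟨l, Cfsg.Agent.Lib.Helper82.eq_of_sum_ne_zero (P : Subgroup G) l μ ?_⟩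
    have h5 := hm χ
    simp only [hl] at h5
    rw [h5]
    exact mul_ne_zero hP0 (Nat.cast_ne_zero.2 hm0)

end Cfsg.Agent.S4549
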