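import Cfsg.Statements.S4553
import Cfsg.Agent.S0867
import Cfsg.Agent.S0886
import Cfsg.Agent.S0887
import Cfsg.Agent.Lib.Helper15.Gallagher
import Cfsg.Agent.Lib.Helper15.CyclicGl
import Cfsg.Agent.Lib.Helper76.AlperinDade
import Cfsg.Agent.Lib.Helper76.CoverP
import Cfsg.Agent.Lib.Helper80.Linear
import Cfsg.Agent.Lib.Helper80.Constituent
import Cfsg.Agent.Lib.Lead.Residual
import Cfsg.Agent.Lib.Helper2.PComplement

set_option autoImplicit false
open Cfsg

namespace Cfsg.Agent.S4553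

open Cfsg.Agent.Lib

theorem coprime_k {G : Type*} [Group G] [Finite G] (p : ℕ) [Fact p.Prime] (k : ℕ)
    (hk₁ : ∀ g : G, (∃ j : ℕ, orderOf g = p ^ j) → g ^ k = g ^ (1 + p))
    (hk₂ : ∀ g : G, Nat.Coprime (orderOf g) p → g ^ k = g) : k.Coprime (Nat.card G) := by
  have hp : p.Prime := Fact.out
  apply Nat.Coprime.symm
  apply Nat.coprime_of_dvd
  intro q hq hqG hqk
  have := Fact.mk hq
  obtain ⟨g, hg⟩ := exists_prime_orderOf_dvd_card' q hqG
  have h1 : g ^ k = 1 := by
    rw [← orderOf_dvd_iff_pow_eq_one, hg]; exact hqk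
  have hne : g ≠ 1 := by
    rintro rfl
    rw [orderOf_one] at hg
    exact hq.one_lt.ne hg
  by_cases hqp : q = p
  · subst hqp
    have h2 := hk₁ g ⟨1, by rw [hg, pow_one]⟩
    rw [h1, pow_add, pow_one, ← hg, pow_orderOf_eq_one, mul_one] at h2
    exact hne h2.symm
  · have h2 := hk₂ g (by rw [hg]; exact (Nat.coprime_primes hq hp).2 hqp)
    rw [h1] at h2
    exact hne h2.symm

theorem detOrder_coprime {G : Type*} [Group G] [Finite G] (p : ℕ) [Fact p.Prime]
    (N : Subgroup G) (hNres : N = Cfsg.pResidual p G) (θ : N → ℂ) (hθ : IsCharacter N θ) :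
    (detOrder θ).Coprime p := by
  have hp : p.Prime := Fact.out
  obtain ⟨f, hf⟩ := Helper81.exists_detHom hθ
  unfold detOrder
  rw [hf, Helper15.orderOf_toFn]
  set m := ordCompl[p] (Nat.card G) with hm
  have hmcop : m.Coprime p := (Nat.coprime_ordCompl hp Nat.card_pos.ne').symm
  have hle : N ≤ ((f ^ m).ker).map N.subtype := by
    conv_lhs => rw [hNres]
    unfold pResidual
    rw [Subgroup.closure_le]
    intro g hg
    have hgN : g ∈ N := by rw [hNres]; exact Subgroup.subset_closure hg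
    refine ⟨⟨g, hgN⟩, ?_, rfl⟩
    have h1 : orderOf g ∣ m := by
      have h2 : orderOf g ∣ p ^ (Nat.card G).factorization p * m := by
        rw [hm, Nat.ordProj_mul_ordCompl_eq_self]
        exact orderOf_dvd_natCard g
      exact (Nat.Coprime.pow_right _ hg).dvd_of_dvd_mul_left h2
    show (f ^ m) ⟨g, hgN⟩ = 1
    rw [MonoidHom.pow_apply, ← map_pow]
    have h3 : (⟨g, hgN⟩ : N) ^ m = 1 := by
      apply Subtype.ext
      simpa using orderOf_dvd_iff_pow_eq_one.1 h1
    rw [h3, map_one]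
  have h1 : f ^ m = 1 := by
    ext x
    obtain ⟨y, hy, hyx⟩ := hle x.2
    have : y = x := Subtype.ext hyx
    subst this
    have : (f ^ m) y = 1 := hy
    rw [this]; rfl
  exact Nat.Coprime.coprime_dvd_left (orderOf_dvd_of_pow_eq_one h1) hmcop

theorem card_hom_pow_eq_one {C : Type*} [CommGroup C] [Finite C] [IsCyclic C] (p : ℕ)
    (hp : p ∣ Nat.card C) : Nat.card {l : C →* ℂˣ // ∀ x, l x ^ p = 1} = p := by
  obtain ⟨e⟩ := CommGroup.monoidHom_mulEquiv_of_hasEnoughRootsOfUnity C ℂ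
  have h1 := IsCyclic.card_powMonoidHom_ker C p
  rw [Nat.gcd_eq_right hp] at h1
  refine Eq.trans ?_ h1
  apply Nat.card_congr
  refine e.toEquiv.subtypeEquiv ?_
  intro l
  show _ ↔ (e l) ^ p = 1
  rw [← map_pow, e.map_eq_one_iff]
  constructor
  · intro h; ext x; simpa using congrArg Units.val (h x)
  · intro h x
    have := DFunLike.congr_fun h x
    simpa using this


theorem restrict_irr {G : Type*} [Group G] [Finite G] (p : ℕ) [Fact p.Prime] (N : Subgroup G)
    [N.Normal] {a : ℕ} (hidx : N.index = p ^ a) (χ : IrrCharacter G)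
    (hdeg : ¬ p ∣ charDegree (χ : G → ℂ)) : IsIrrCharacter N (fun n : N => (χ : G → ℂ) n) := by
  classical
  have hp : p.Prime := Fact.out
  let _ : Fintype G := Fintype.ofFinite G
  let _ : Fintype N := Fintype.ofFinite N
  have hχc : IsCharacter G (χ : G → ℂ) := Helper15.irr_char χ.2
  have hc : IsCharacter N (fun n : N => (χ : G → ℂ) n) := Helper3.IsCharacter.restrict hχc N
  have hpos := Helper80.charDegree_pos_of_irr χ.2
  have hne : (fun n : N => (χ : G → ℂ) n) ≠ 0 := by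
    intro h
    have h1 := congrFun h 1
    simp only [Subgroup.coe_one, Pi.zero_apply] at h1
    rw [Helper80.char_one_eq_charDegree hχc] at h1
    have : charDegree (χ : G → ℂ) = 0 := by exact_mod_cast h1
    omega
  obtain ⟨ϑ, hϑ⟩ := Helper80.exists_constituent hc hne
  obtain ⟨h1, h2⟩ := Cfsg.Agent.S0887.result N χ χ.2 ϑ ϑ.2 hϑ _ _
    (Helper80.char_one_eq_charDegree hχc) (Helper80.char_one_eq_charDegree (Helper15.irr_char ϑ.2))
  rw [hidx] at h2
  obtain ⟨i, -, hi⟩ := (Nat.dvd_prime_pow hp).1 h2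
  have hi0 : i = 0 := by
    by_contra h0
    apply hdeg
    have h3 : p ∣ charDegree (χ : G → ℂ) / charDegree (ϑ : N → ℂ) := by
      rw [hi]; exact dvd_pow_self p h0
    exact h3.trans (Nat.div_dvd_of_dvd h1)
  rw [hi0, pow_zero] at hi
  have h4 : charDegree (χ : G → ℂ) = charDegree (ϑ : N → ℂ) := by
    have := Nat.div_mul_cancel h1
    rw [hi, one_mul] at this
    exact this.symm
  have h5 := Helper80.eq_of_constituent_of_degree hc ϑ hϑ h4
  rw [h5]
  exact ϑ.2


theorem fiber_card {G : Type*} [Group G] [Finite G] (p : ℕ) [Fact p.Prime] (P : Sylow p G)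
    (N : Subgroup G) [hN : N.Normal] (hNres : N = Cfsg.pResidual p G) (hcyc : IsCyclic (G ⧸ N))
    (hnt : N ≠ ⊤) (k : ℕ)
    (hk₁ : ∀ g : G, (∃ j : ℕ, orderOf g = p ^ j) → g ^ k = g ^ (1 + p))
    (hk₂ : ∀ g : G, Nat.Coprime (orderOf g) p → g ^ k = g)
    (θ : N → ℂ) (hθ : IsIrrCharacter N θ) (hdeg : ¬ p ∣ charDegree θ)
    (hinv : ∀ (g : G) (n : N), θ ⟨g * n * g⁻¹, hN.conj_mem (n : G) n.2 g⟩ = θ n)
    (hσ : ∀ n : N, θ (n ^ k) = θ n) :
    Nat.card {ψ : G → ℂ // IsIrrCharacter G ψ ∧ (∀ n : N, ψ n = θ n) ∧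
      ∀ g, ψ (g ^ k) = ψ g} = p := by
  classical
  have hp : p.Prime := Fact.out
  let _ : Fintype G := Fintype.ofFinite G
  let _ : Fintype N := Fintype.ofFinite N
  have hkc := coprime_k p k hk₁ hk₂
  obtain ⟨a, ha⟩ : ∃ a, N.index = p ^ a := by rw [hNres]; exact Lead.index_pResidual
  have hsup : N ⊔ (P : Subgroup G) = ⊤ := by rw [hNres]; exact Helper2.pResidual_sup_sylow P
  have hdecomp : ∀ g : G, ∃ n ∈ N, ∃ x ∈ (P : Subgroup G), g = n * x := by
    intro g
    have : g ∈ N ⊔ (P : Subgroup G) := by rw [hsup]; trivial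
    rw [← SetLike.mem_coe, Subgroup.normal_mul] at this
    obtain ⟨n, hn, x, hx, rfl⟩ := Set.mem_mul.1 this
    exact ⟨n, hn, x, hx, rfl⟩
  have ha0 : a ≠ 0 := by
    rintro rfl
    rw [pow_zero, Subgroup.index_eq_one] at ha
    exact hnt ha
  have hpa : p ∣ Nat.card (G ⧸ N) := by
    rw [← Subgroup.index_eq_card, ha]; exact dvd_pow_self p ha0
  have hlin : ∀ f : G →* ℂˣ, N ≤ f.ker → ∀ g, f g ^ k = f g ^ (1 + p) := by
    intro f hf g
    obtain ⟨n, hn, x, hx, rfl⟩ := hdecomp g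
    have h1 : f (n * x) = f x := by rw [map_mul, MonoidHom.mem_ker.1 (hf hn), one_mul]
    rw [h1, ← map_pow, ← map_pow, hk₁ x ?_]
    obtain ⟨j, hj⟩ := IsPGroup.iff_orderOf.1 P.2 ⟨x, hx⟩
    exact ⟨j, by rw [← hj, Subgroup.orderOf_mk]⟩
  have hθc := Helper15.irr_char hθ
  have hcop : Nat.Coprime N.index (detOrder θ * charDegree θ) := by
    rw [ha]
    apply Nat.Coprime.pow_left
    apply Nat.Coprime.mul_right
    · exact (detOrder_coprime p N hNres θ hθc).symm
    · exact (Nat.Prime.coprime_iff_not_dvd hp).2 hdeg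
  obtain ⟨χ₀, ⟨h01, h02, h03⟩, huniq⟩ := Cfsg.Agent.S0867.result N θ hθ hinv _
    (Helper80.char_one_eq_charDegree hθc) hcop
  obtain ⟨τ, hτ⟩ := Helper76.exists_ringAut_complex (Nat.card G) Nat.card_pos k hkc
  have h0c := Helper15.irr_char h01
  have hτχ : ∀ {ψ : G → ℂ}, IsCharacter G ψ → (fun g => τ (ψ g)) = fun g => ψ (g ^ k) := by
    intro ψ hψ; funext g
    exact Helper76.IsCharacter.map_ringHom_apply hψ τ.toRingHom k hτ g
  have h0σ : ∀ g, χ₀ (g ^ k) = χ₀ g := by
    have h1 : (fun g => χ₀ (g ^ k)) = χ₀ := by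
      apply huniq
      · exact Helper76.isIrrCharacter_pow_coprime h01 hkc
      · intro n
        have := h02 (n ^ k)
        rw [hσ] at this
        simpa using this
      · rw [← hτχ h0c, Helper15.detOrder_map_ringEquiv h0c τ, h03]
        exact Nat.Coprime.coprime_mul_right_right hcop
    exact fun g => congrFun h1 g
  have h0N : IsIrrCharacter N (fun n : N => χ₀ n) := by
    have : (fun n : N => χ₀ n) = θ := funext h02
    rw [this]; exact hθ
  have hgal := Helper15.gallagher N h01 h0N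
  have hD : ∀ f : G →* ℂˣ, N ≤ f.ker → Helper15.toFn f ∈
      {β : G → ℂ | IsIrrCharacter G β ∧ classInner (fun n : N => β n) (fun _ => 1) ≠ 0} := by
    intro f hf
    refine ⟨Helper74.isIrrCharacter_of_hom f, ?_⟩
    have : (fun n : N => Helper15.toFn f n) = fun _ => 1 := by
      funext n
      rw [Helper15.toFn_apply, MonoidHom.mem_ker.1 (hf n.2)]; rfl
    rw [this, (Helper15.isIrr_iff.1 Helper15.irr_one).2]; exact one_ne_zero
  have hker : ∀ l : (G ⧸ N) →* ℂˣ, N ≤ (l.comp (QuotientGroup.mk' N)).ker := by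
    intro l n hn
    have h1 : QuotientGroup.mk' N n = 1 := (QuotientGroup.eq_one_iff n).2 hn
    rw [MonoidHom.mem_ker, MonoidHom.comp_apply, h1, map_one]
  let Φ : {l : (G ⧸ N) →* ℂˣ // ∀ x, l x ^ p = 1} →
      {ψ : G → ℂ // IsIrrCharacter G ψ ∧ (∀ n : N, ψ n = θ n) ∧ ∀ g, ψ (g ^ k) = ψ g} :=
    fun l => ⟨Helper15.toFn (l.1.comp (QuotientGroup.mk' N)) * χ₀,
      (hgal.mapsTo (hD _ (hker l.1))).1, by
        intro n
        rw [Pi.mul_apply, Helper15.toFn_apply, MonoidHom.mem_ker.1 (hker l.1 n.2), h02]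
        simp, by
        intro g
        rw [Pi.mul_apply, Pi.mul_apply, h0σ, Helper15.toFn_apply, Helper15.toFn_apply, map_pow,
          hlin _ (hker l.1), pow_add, pow_one]
        have := l.2 (QuotientGroup.mk' N g)
        rw [MonoidHom.comp_apply, this, mul_one]⟩
  have hΦ : Function.Bijective Φ := by
    constructor
    · intro l l' hll
      have h1 := congrArg Subtype.val hll
      have h2 := hgal.injOn (hD _ (hker l.1)) (hD _ (hker l'.1)) h1
      have h3 := Helper15.toFn_injective h2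
      apply Subtype.ext
      ext x
      exact congrArg Units.val (DFunLike.congr_fun h3 x)
    · rintro ⟨ψ, hψ1, hψ2, hψ3⟩
      have hmem : ψ ∈ {ψ : G → ℂ | IsIrrCharacter G ψ ∧
          classInner (fun n : N => ψ n) (fun n : N => χ₀ n) ≠ 0} := by
        refine ⟨hψ1, ?_⟩
        have h1 : (fun n : N => ψ n) = fun n : N => χ₀ n := by
          funext n; rw [hψ2, h02]
        rw [h1, (Helper15.isIrr_iff.1 h0N).2]; exact one_ne_zero
      obtain ⟨β, ⟨hβ1, hβ2⟩, hβψ⟩ := hgal.surjOn hmem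
      have hβψ' : β * χ₀ = ψ := hβψ
      obtain ⟨-, hβ3⟩ := Helper15.restrict_eq_of_inner_one_ne_zero N hβ1 hβ2
      have h0ne : χ₀ 1 ≠ 0 := by
        rw [Helper80.char_one_eq_charDegree h0c]
        exact_mod_cast (Helper80.charDegree_pos_of_irr h01).ne'
      have hβ1' : β 1 = 1 := by
        have h1 := congrFun hβψ' 1
        have h2 := hψ2 1
        have h3 := h02 1
        simp only [Subgroup.coe_one] at h2 h3
        rw [Pi.mul_apply, h2, ← h3] at h1
        exact mul_right_cancel₀ h0ne (h1.trans (one_mul _).symm)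
      obtain ⟨f, rfl⟩ := Helper15.exists_toFn (Helper15.irr_char hβ1) hβ1'
      have hfk : N ≤ f.ker := by
        intro n hn
        rw [MonoidHom.mem_ker]
        apply Units.ext
        have := hβ3 ⟨n, hn⟩
        rw [hβ1'] at this
        exact this
      have hfp : ∀ g, f g ^ p = 1 := by
        have h1 : Helper15.toFn (f ^ k) * χ₀ = Helper15.toFn f * χ₀ := by
          funext g
          have h2 := hψ3 g
          rw [← hβψ', Pi.mul_apply, Pi.mul_apply, h0σ, Helper15.toFn_apply, map_pow] at h2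
          rw [Pi.mul_apply, Pi.mul_apply, Helper15.toFn_apply, MonoidHom.pow_apply]
          exact h2
        have hfk' : N ≤ (f ^ k).ker := by
          intro n hn
          rw [MonoidHom.mem_ker, MonoidHom.pow_apply, MonoidHom.mem_ker.1 (hfk hn), one_pow]
        have h2 := Helper15.toFn_injective (hgal.injOn (hD _ hfk') (hD _ hfk) h1)
        intro g
        have h3 := DFunLike.congr_fun h2 g
        rw [MonoidHom.pow_apply, hlin f hfk, pow_add, pow_one] at h3
        exact mul_left_cancel (h3.trans (mul_one _).symm)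
      refine ⟨⟨QuotientGroup.lift N f hfk, ?_⟩, ?_⟩
      · intro x
        obtain ⟨g, rfl⟩ := QuotientGroup.mk'_surjective N x
        exact hfp g
      · apply Subtype.ext
        show Helper15.toFn ((QuotientGroup.lift N f hfk).comp (QuotientGroup.mk' N)) * χ₀ = ψ
        rw [← hβψ']
        congr 2
  rw [← Nat.card_congr (Equiv.ofBijective Φ hΦ)]
  let _ : CommGroup (G ⧸ N) := IsCyclic.commGroup
  exact card_hom_pow_eq_one p hpa


/-- Let G be a finite group, p a prime, P a Sylow p-subgroup, N the p-residual of G (the subgroup generated by the elements of order prime to p, the smallest normal subgroup with G/N a p-group), and M a maximal ideal of the algebraic integers containing p; suppose G/N is cyclic and nontrivial. Let k be a natural number with g ^ k = g ^ (1 + p) for every p-element g and g ^ k = g for every element g of order prime to p (so that χ (g ^ k) is the image of χ g under the field automorphism that raises p-power roots of unity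 to the power 1 + p and fixes the roots of unity of order prime to p). Then the number of members χ of the principal block of G of degree prime to p with χ (g ^ k) = χ g for all g equals p times the number of members θ of the principal block of N of degree prime to p that are invariant under conjugation by P and satisfy θ (n ^ k) = θ n for all n. -/
theorem result {G : Type*} [Group G] [Finite G] (p : ℕ) [Fact p.Prime] (M : Ideal Cfsg.AlgInt) (hM : Cfsg.IsPModular p M) (P : Sylow p G) (N : Subgroup G) [hN : N.Normal] (hNres : N = Cfsg.pResidual p G) (hcyc : IsCyclic (G ⧸ N)) (hnt : N ≠ ⊤) (k : ℕ) (hk₁ : ∀ g : G, (∃ j : ℕ, orderOf g = p ^ j) → g ^ k = g ^ (1 + p)) (hk₂ : ∀ g : G, Nat.Coprime (orderOf g) p → g ^ k = g) : Nat.card {χ : Cfsg.IrrCharacter G // χ ∈ Cfsg.principalBlock M G ∧ ¬ p ∣ Cfsg.charDegree (χ : G → ℂ) ∧ ∀ g : G, (χ : G → ℂ) (g ^ k) = (χ : G → ℂ) g} = p * Nat.card {θ : Cfsg.IrrCharacter ↥N // θ ∈ Cfsg.principalBlock M ↥N ∧ ¬ p ∣ Cfsg.charDegree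 (θ : ↥N → ℂ) ∧ (∀ x ∈ (P : Subgroup G), ∀ n : ↥N, (θ : ↥N → ℂ) ⟨x * n * x⁻¹, hN.conj_mem n n.2 x⟩ = (θ : ↥N → ℂ) n) ∧ ∀ n : ↥N, (θ : ↥N → ℂ) (n ^ k) = (θ : ↥N → ℂ) n} := by
  classical
  have hp : p.Prime := Fact.out
  let _ : Fintype G := Fintype.ofFinite G
  let _ : Fintype N := Fintype.ofFinite N
  obtain ⟨a, ha⟩ : ∃ a, N.index = p ^ a := by rw [hNres]; exact Lead.index_pResidual
  have hsup : N ⊔ (P : Subgroup G) = ⊤ := by rw [hNres]; exact Helper2.pResidual_sup_sylow P
  have hdecomp : ∀ g : G, ∃ n ∈ N, ∃ x ∈ (P : Subgroup G), g = n * x := by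
    intro g
    have : g ∈ N ⊔ (P : Subgroup G) := by rw [hsup]; trivial
    rw [← SetLike.mem_coe, Subgroup.normal_mul] at this
    obtain ⟨n, hn, x, hx, rfl⟩ := Set.mem_mul.1 this
    exact ⟨n, hn, x, hx, rfl⟩
  have hreg : ∀ g : G, ¬ p ∣ orderOf g → g ∈ N := by
    intro g hg
    rw [hNres]
    exact Lead.mem_pResidual_of_coprime ((Nat.Prime.coprime_iff_not_dvd hp).2 hg).symm
  let res : {χ : Cfsg.IrrCharacter G // χ ∈ Cfsg.principalBlock M G ∧
      ¬ p ∣ Cfsg.charDegree (χ : G → ℂ) ∧ ∀ g : G, (χ : G → ℂ) (g ^ k) = (χ : G → ℂ) g} →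
      {θ : Cfsg.IrrCharacter ↥N // θ ∈ Cfsg.principalBlock M ↥N ∧
        ¬ p ∣ Cfsg.charDegree (θ : ↥N → ℂ) ∧
        (∀ x ∈ (P : Subgroup G), ∀ n : ↥N,
          (θ : ↥N → ℂ) ⟨x * n * x⁻¹, hN.conj_mem n n.2 x⟩ = (θ : ↥N → ℂ) n) ∧
        ∀ n : ↥N, (θ : ↥N → ℂ) (n ^ k) = (θ : ↥N → ℂ) n} :=
    fun χ => ⟨⟨fun n : N => (χ.1 : G → ℂ) n, restrict_irr p N ha χ.1 χ.2.2.1⟩, by
      apply Helper76.mem_principalBlock_of_constituent N hM χ.2.1
      rw [(Helper15.isIrr_iff.1 (restrict_irr p N ha χ.1 χ.2.2.1)).2]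
      exact one_ne_zero, χ.2.2.1, by
      intro x _ n
      exact Helper15.irr_cf χ.1.2 _ _, by
      intro n
      exact χ.2.2.2 n⟩
  have hfib : ∀ θ, Nat.card {χ // res χ = θ} = p := by
    intro θ
    have hinv : ∀ (g : G) (n : N),
        (θ.1 : N → ℂ) ⟨g * n * g⁻¹, hN.conj_mem (n : G) n.2 g⟩ = (θ.1 : N → ℂ) n := by
      intro g n
      obtain ⟨m, hm, x, hx, rfl⟩ := hdecomp g
      rw [← θ.2.2.2.1 x hx n]
      have h1 := Helper15.irr_cf θ.1.2 ⟨x * n * x⁻¹, hN.conj_mem n n.2 x⟩ ⟨m, hm⟩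
      rw [← h1]
      apply congrArg
      apply Subtype.ext
      simp [mul_assoc]
    refine Eq.trans ?_ (fiber_card p P N hNres hcyc hnt k hk₁ hk₂ θ.1 θ.1.2 θ.2.2.1 hinv θ.2.2.2.2)
    apply Nat.card_congr
    refine ⟨fun χ => ⟨χ.1.1.1, χ.1.1.2, fun n => congrFun (congrArg (fun t => t.1.1) χ.2) n,
      χ.1.2.2.2⟩, fun ψ => ⟨⟨⟨ψ.1, ψ.2.1⟩, ?_, ?_, ψ.2.2.2⟩, ?_⟩, ?_, ?_⟩
    · exact Helper76.sameBlock_of_restrict hM N hreg (Helper78.trivIrr G) ⟨ψ.1, ψ.2.1⟩
        (Helper78.trivIrr N) θ.1 (fun _ => rfl) ψ.2.2.1 θ.2.1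
    · have h1 : charDegree ψ.1 = charDegree (θ.1 : N → ℂ) := by
        unfold charDegree
        rw [← ψ.2.2.1 1]; rfl
      show ¬ p ∣ charDegree ψ.1
      rw [h1]; exact θ.2.2.1
    · exact Subtype.ext (Subtype.ext (funext ψ.2.2.1))
    · intro χ; rfl
    · intro ψ; rfl
  rw [Nat.card_congr (Equiv.sigmaFiberEquiv res).symm, Nat.card_sigma]
  simp only [hfib, Finset.sum_const, Finset.card_univ, smul_eq_mul]
  rw [mul_comm, Nat.card_eq_fintype_card]

end Cfsg.Agent.S4553
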