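import Cfsg.Statements.S4558
import Cfsg.Agent.Lib.Helper76.Eigen
import Cfsg.Agent.Lib.Helper76.RootsSum

set_option autoImplicit false
open Cfsg

namespace Cfsg.Agent.S4558

/-- Let χ be a character of the finite group G and g an element of p-power order for the prime p. If χ g = 0, then p divides the degree of χ. -/
theorem result {G : Type*} [Group G] [Finite G] (p : ℕ) [Fact p.Prime] (χ : G → ℂ) (hχ : Cfsg.IsCharacter G χ) (g : G) (hg : ∃ j : ℕ, orderOf g = p ^ j) (h0 : χ g = 0) : p ∣ Cfsg.charDegree χ := by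
  obtain ⟨n, ρ, rfl⟩ := hχ
  obtain ⟨j, hj⟩ := hg
  have hpos : 0 < p ^ j := pow_pos (Fact.out : p.Prime).pos _
  obtain ⟨μ, h1, h2⟩ := Cfsg.Agent.Lib.Helper76.exists_char_eigenvalues ρ g (p ^ j) hpos
    (by rw [← hj, pow_orderOf_eq_one])
  have h3 := h2 1
  simp only [pow_one] at h3
  rw [h0] at h3
  have h4 := Cfsg.Agent.Lib.Helper76.dvd_of_sum_roots_eq_zero p j _ μ h1 h3.symm
  have h5 : Cfsg.charDegree ρ.character = Module.finrank ℂ (Fin n → ℂ) := by
    unfold Cfsg.charDegree
    rw [Representation.char_one]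
    simp
  rw [h5]
  exact h4

end Cfsg.Agent.S4558
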