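import Cfsg.Statements.S4566
import Cfsg.Agent.Lib.Helper76.CharIrr

set_option autoImplicit false
open Cfsg

namespace Cfsg.Agent.S4566

open Cfsg.Agent.Lib.Helper76

/-- Let N be a central subgroup of the finite group G, ψ a faithful irreducible (hence degree-one) character of N, and χ an irreducible character of G whose restriction to N contains ψ. If g ∈ G and some x ∈ G has commutator x⁻¹ g⁻¹ x g in N but different from 1, then χ g = 0. -/
theorem result {G : Type*} [Group G] [Fintype G] (N : Subgroup G) [Fintype N] (hN : N ≤ Subgroup.center G) (ψ : Cfsg.IrrCharacter ↥N) (hfaith : ∀ n : ↥N, (ψ : ↥N → ℂ) n = (ψ : ↥N → ℂ) 1 → n = 1) (χ : Cfsg.IrrCharacter G) (hover : Cfsg.classInner (fun n : ↥N => (χ : G → ℂ) n) (ψ : ↥N → ℂ) ≠ 0) (g x : G) (hcomm : x⁻¹ * g⁻¹ * x * g ∈ N) (hne : x⁻¹ * g⁻¹ * x * g ≠ 1) : (χ : G → ℂ) g = 0 := by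
  obtain ⟨ω, hω⟩ := irr_central_char χ.2
  let lam : N →* ℂˣ := ω.comp (Subgroup.inclusion hN)
  have hres : (fun n : ↥N => (χ : G → ℂ) n) = fun n => (χ : G → ℂ) 1 * (lam n : ℂ) := by
    ext n
    have := hω (Subgroup.inclusion hN n) 1
    simp only [mul_one, Subgroup.coe_inclusion] at this
    rw [this, mul_comm]
    rfl
  have hinner : Cfsg.classInner (fun n : ↥N => (χ : G → ℂ) n) (ψ : ↥N → ℂ) =
      (χ : G → ℂ) 1 * Cfsg.classInner (fun n : ↥N => (lam n : ℂ)) (ψ : ↥N → ℂ) := by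
    rw [hres]
    unfold Cfsg.classInner
    rw [mul_left_comm]
    congr 1
    rw [Finset.mul_sum]
    apply Finset.sum_congr rfl
    intro n _
    ring
  have hlam : (fun n : ↥N => (lam n : ℂ)) = (ψ : ↥N → ℂ) := by
    by_contra hcon
    apply hover
    rw [hinner, irr_orthogonality (isIrrCharacter_of_hom lam) ψ.2, if_neg hcon, mul_zero]
  set z : G := x⁻¹ * g⁻¹ * x * g with hz
  by_contra hg
  have h1 : x⁻¹ * g * x = z⁻¹ * g := by
    have hzc : z ∈ Subgroup.center G := hN hcomm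
    have hzc' : z⁻¹ ∈ Subgroup.center G := inv_mem hzc
    rw [← Subgroup.mem_center_iff.mp hzc' g, hz]
    group
  have h2 : (χ : G → ℂ) g = (ω ⟨z⁻¹, inv_mem (hN hcomm)⟩ : ℂ) * (χ : G → ℂ) g := by
    rw [← hω, ← h1]
    exact (char_conj_eq' (isCharacter_of_irr χ.2) g x).symm
  have h3 : (ω ⟨z⁻¹, inv_mem (hN hcomm)⟩ : ℂ) = 1 := by
    have : ((ω ⟨z⁻¹, inv_mem (hN hcomm)⟩ : ℂ) - 1) * (χ : G → ℂ) g = 0 := by
      rw [sub_mul, ← h2, one_mul, sub_self]
    rcases mul_eq_zero.mp this with h | h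
    · exact sub_eq_zero.mp h
    · exact absurd h hg
  have h4 : (⟨z⁻¹, inv_mem hcomm⟩ : N) = 1 := by
    apply hfaith
    rw [← hlam]
    simp only [map_one, Units.val_one]
    exact h3
  apply hne
  have := congrArg Subtype.val h4
  simpa using this

end Cfsg.Agent.S4566
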