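import Cfsg.Statements.S4567
import Cfsg.Agent.Lib.Helper76.ClassCount
import Cfsg.Agent.Lib.Helper76.CharIrr
import Cfsg.Agent.Lib.Lead.Cores

set_option autoImplicit false
open Cfsg

namespace Cfsg.Agent.S4567

open scoped ComplexConjugate
open Cfsg.Agent.Lib.Helper76 Cfsg.Agent.Lib.Helper3

variable {G : Type*} [Group G]

/-- The special elements. -/
def Good (N : Subgroup G) (g : G) : Prop := ∀ x : G, x⁻¹ * g⁻¹ * x * g ∈ N → x * g = g * x

theorem Good.conj {N : Subgroup G} [hn : N.Normal] {g : G} (h : Good N g) (c : G) :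
    Good N (c * g * c⁻¹) := by
  intro x hx
  have h1 : (c⁻¹ * x * c)⁻¹ * g⁻¹ * (c⁻¹ * x * c) * g ∈ N := by
    have := hn.conj_mem _ hx c⁻¹
    convert this using 1
    group
  have h2 := h _ h1
  calc x * (c * g * c⁻¹) = c * ((c⁻¹ * x * c) * g) * c⁻¹ := by group
    _ = c * (g * (c⁻¹ * x * c)) * c⁻¹ := by rw [h2]
    _ = c * g * c⁻¹ * x := by group

theorem Good.mul_central {N : Subgroup G} (hN : N ≤ Subgroup.center G) {g : G} (h : Good N g)
    {n : G} (hn : n ∈ N) : Good N (g * n) := by
  intro x hx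
  have hc : ∀ y, n * y = y * n := fun y => (Subgroup.mem_center_iff.mp (hN hn) y).symm
  have h1 : x⁻¹ * g⁻¹ * x * g ∈ N := by
    have e : x⁻¹ * (g * n)⁻¹ * x * (g * n) = x⁻¹ * g⁻¹ * x * g := by
      calc x⁻¹ * (g * n)⁻¹ * x * (g * n) = x⁻¹ * (g * n)⁻¹ * (x * g * n) := by group
        _ = x⁻¹ * (n * g)⁻¹ * (n * (x * g)) := by rw [← hc g, ← hc (x * g)]
        _ = x⁻¹ * g⁻¹ * x * g := by group
    rw [← e]; exact hx
  have h2 := h x h1
  calc x * (g * n) = (x * g) * n := by group
    _ = g * (x * n) := by rw [h2]; group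
    _ = g * (n * x) := by rw [hc x]
    _ = g * n * x := by group

/-- The inner sum over `N`. -/
theorem inner_sum [Fintype G] (N : Subgroup G) [Fintype N] (hN : N ≤ Subgroup.center G)
    (μ : N →* ℂˣ) (hμ : ∀ n : N, μ n = 1 → n = 1) (g : G)
    [DecidableRel (IsConj : G → G → Prop)] [Decidable (Good N g)] :
    ∑ n : N, conj (μ n : ℂ) * (if IsConj ((n : G) * g) g then (1 : ℂ) else 0) =
      if Good N g then 1 else 0 := by
  classical
  have hc : ∀ (n : N) (y : G), (n : G) * y = y * n :=
    fun n y => (Subgroup.mem_center_iff.mp (hN n.2) y).symm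
  by_cases hg : Good N g
  · rw [if_pos hg, Finset.sum_eq_single 1]
    · have : IsConj (((1 : N) : G) * g) g := by rw [Subgroup.coe_one, one_mul]
      rw [if_pos this]; simp
    · intro n _ hn1
      rw [if_neg, mul_zero]
      intro hconj
      apply hn1
      obtain ⟨c, hcg⟩ := isConj_iff.mp hconj
      have h1 : c * g * c⁻¹ = (n : G)⁻¹ * g := by
        have : c * ((n : G) * g) * c⁻¹ = (n : G) * (c * g * c⁻¹) := by
          rw [← mul_assoc c, ← hc n c]; group
        rw [this] at hcg
        calc c * g * c⁻¹ = (n : G)⁻¹ * ((n : G) * (c * g * c⁻¹)) := by group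
          _ = (n : G)⁻¹ * g := by rw [hcg]
      have h2 : (c⁻¹)⁻¹ * g⁻¹ * c⁻¹ * g = n := by
        calc (c⁻¹)⁻¹ * g⁻¹ * c⁻¹ * g = (c * g * c⁻¹)⁻¹ * g := by group
          _ = g⁻¹ * ((n : G) * g) := by rw [h1]; group
          _ = n := by rw [hc n g]; group
      have h3 := hg c⁻¹ (by rw [h2]; exact n.2)
      have h4 : c * g * c⁻¹ = g := by
        calc c * g * c⁻¹ = c * (g * c⁻¹) := by group
          _ = c * (c⁻¹ * g) := by rw [h3]
          _ = g := by group
      rw [h4] at h1
      have h5 : (n : G) = 1 := by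
        have := congrArg (fun t => (n : G) * t * g⁻¹) h1
        simpa using this
      exact Subtype.ext h5
    · intro h; exact absurd (Finset.mem_univ _) h
  · rw [if_neg hg]
    unfold Good at hg
    push Not at hg
    obtain ⟨x, hxN, hxg⟩ := hg
    set t : N := ⟨_, hxN⟩ with ht
    have ht1 : t ≠ 1 := by
      intro h
      apply hxg
      have h1 : x⁻¹ * g⁻¹ * x * g = 1 := congrArg Subtype.val h
      calc x * g = g * x * (x⁻¹ * g⁻¹ * x * g) := by group
        _ = g * x := by rw [h1, mul_one]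
    have htg : (t : G) * g = x * g * x⁻¹ := by
      have h1 : x * (t : G) * x⁻¹ = t := by rw [← hc t x]; group
      calc (t : G) * g = g * t := hc t g
        _ = g * (x * (t : G) * x⁻¹) := by rw [h1]
        _ = g * (x * (x⁻¹ * g⁻¹ * x * g) * x⁻¹) := rfl
        _ = x * g * x⁻¹ := by group
    have hiff : ∀ n : N, IsConj (((t * n : N) : G) * g) g ↔ IsConj ((n : G) * g) g := by
      intro n
      have h1 : ((t * n : N) : G) * g = x * ((n : G) * g) * x⁻¹ := by
        calc ((t * n : N) : G) * g = (t : G) * ((n : G) * g) := by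
              rw [Subgroup.coe_mul]; group
          _ = (t : G) * (g * n) := by rw [hc n g]
          _ = (x * g * x⁻¹) * n := by rw [← htg]; group
          _ = n * (x * g * x⁻¹) := (hc n _).symm
          _ = x * (n * g) * x⁻¹ := by rw [← mul_assoc x, ← hc n x]; group
      have h2 : IsConj ((n : G) * g) (((t * n : N) : G) * g) := isConj_iff.mpr ⟨x, h1.symm⟩
      exact ⟨fun h => h2.trans h, fun h => h2.symm.trans h⟩
    set B := ∑ n : N, conj (μ n : ℂ) * (if IsConj ((n : G) * g) g then (1 : ℂ) else 0) with hB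
    have h1 : B = conj (μ t : ℂ) * B := by
      rw [hB, Finset.mul_sum]
      rw [← Fintype.sum_equiv (Equiv.mulLeft t) (fun n : N => conj (μ (t * n) : ℂ) *
        (if IsConj (((t * n : N) : G) * g) g then (1 : ℂ) else 0)) _ (fun n => rfl)]
      apply Finset.sum_congr rfl
      intro n _
      simp only [hiff n, map_mul, Units.val_mul]
      ring
    have h2 : conj (μ t : ℂ) ≠ 1 := by
      intro h
      apply ht1
      apply hμ
      have : (μ t : ℂ) = 1 := by
        have := congrArg conj h
        simpa using this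
      exact Units.ext this
    have h3 : (1 - conj (μ t : ℂ)) * B = 0 := by
      rw [sub_mul, one_mul, ← h1, sub_self]
    rcases mul_eq_zero.mp h3 with h4 | h4
    · exact absurd (sub_eq_zero.mp h4).symm h2
    · exact h4

/-- An irreducible character of a central subgroup is a multiple of a homomorphism. -/
theorem exists_hom_of_central (N : Subgroup G) (hN : N ≤ Subgroup.center G) {ψ : N → ℂ}
    (hψ : IsIrrCharacter N ψ) : ∃ μ : N →* ℂˣ, ∀ n : N, ψ n = (μ n : ℂ) * ψ 1 := by
  obtain ⟨ω, hω⟩ := irr_central_char hψ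
  have hcen : ∀ n : N, n ∈ Subgroup.center N := by
    intro n
    rw [Subgroup.mem_center_iff]
    intro m
    apply Subtype.ext
    exact Subgroup.mem_center_iff.mp (hN n.2) m
  refine ⟨ω.comp ((MonoidHom.id N).codRestrict (Subgroup.center N) hcen), fun n => ?_⟩
  have := hω ⟨n, hcen n⟩ 1
  simpa using this

theorem lemmaA [Fintype G] (N : Subgroup G) [Fintype N] (hN : N ≤ Subgroup.center G)
    (μ : N →* ℂˣ) (ψ : N → ℂ) (d : ℂ) (hd : d ≠ 0) (hψ : ∀ n, ψ n = (μ n : ℂ) * d) {χ : G → ℂ}
    (hχ : IsIrrCharacter G χ) [Decidable (classInner (fun n : N => χ n) ψ ≠ 0)] (g : G) :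
    ∑ n : N, conj (μ n : ℂ) * χ ((n : G) * g) =
      (Nat.card N : ℂ) * (if classInner (fun n : N => χ n) ψ ≠ 0 then 1 else 0) * χ g := by
  classical
  obtain ⟨ω, hω⟩ := irr_central_char hχ
  let lam : N →* ℂˣ := ω.comp (Subgroup.inclusion hN)
  have hlam : ∀ (n : N) (g : G), χ ((n : G) * g) = (lam n : ℂ) * χ g :=
    fun n g => hω (Subgroup.inclusion hN n) g
  have horth := irr_orthogonality (isIrrCharacter_of_hom lam) (isIrrCharacter_of_hom μ)
  have hne : (Nat.card N : ℂ) ≠ 0 := by exact_mod_cast Nat.card_pos.ne'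
  have h1 : classInner (fun n : N => χ n) ψ =
      χ 1 * conj d * classInner (fun n => (lam n : ℂ)) (fun n => (μ n : ℂ)) := by
    simp only [classInner]
    rw [mul_left_comm (χ 1 * conj d), Finset.mul_sum (a := χ 1 * conj d)]
    congr 1
    apply Finset.sum_congr rfl
    intro n _
    have := hlam n 1
    rw [mul_one] at this
    rw [this, hψ n, map_mul]
    ring
  have hsum : ∑ n : N, conj (μ n : ℂ) * χ ((n : G) * g) =
      (Nat.card N : ℂ) * classInner (fun n => (lam n : ℂ)) (fun n => (μ n : ℂ)) * χ g := by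
    simp only [classInner]
    rw [← mul_assoc, mul_inv_cancel₀ hne, one_mul, Finset.sum_mul]
    apply Finset.sum_congr rfl
    intro n _
    rw [hlam]
    ring
  have hχ1 : χ 1 ≠ 0 := IsIrrCharacter.apply_one_ne_zero hχ
  have hd' : conj d ≠ 0 := by simpa using hd
  rw [hsum]
  rw [horth] at h1 ⊢
  by_cases heq : (fun n => (lam n : ℂ)) = (fun n => (μ n : ℂ))
  · rw [if_pos heq] at h1 ⊢
    rw [if_pos]
    rw [h1]
    simpa using ⟨hχ1, hd⟩
  · rw [if_neg heq] at h1 ⊢
    rw [if_neg]
    rw [h1]
    simp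

/-- Let N be a central subgroup of the finite group G and ψ a faithful irreducible (hence degree-one) character of N. Call a coset g N special when every x ∈ G whose commutator x⁻¹ g⁻¹ x g lies in N actually commutes with g (this depends only on the coset). Then the number of irreducible characters of G whose restriction to N contains ψ equals the number of conjugacy classes of G/N consisting of special cosets. -/
theorem result {G : Type*} [Group G] [Fintype G] (N : Subgroup G) [N.Normal] [Fintype N] (hN : N ≤ Subgroup.center G) (ψ : Cfsg.IrrCharacter ↥N) (hfaith : ∀ n : ↥N, (ψ : ↥N → ℂ) n = (ψ : ↥N → ℂ) 1 → n = 1) : Nat.card {χ : Cfsg.IrrCharacter G // Cfsg.classInner (fun n : ↥N => (χ : G → ℂ) n) (ψ : ↥N → ℂ) ≠ 0} = Nat.card {C : ConjClasses (G ⧸ N) // ∃ g : G, ConjClasses.mk (g : G ⧸ N) = C ∧ ∀ x : G, x⁻¹ * g⁻¹ * x * g ∈ N → x * g = g * x} := by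
  classical
  obtain ⟨μ, hμ⟩ := exists_hom_of_central N hN ψ.2
  have hd : (ψ : N → ℂ) 1 ≠ 0 := IsIrrCharacter.apply_one_ne_zero ψ.2
  have hμf : ∀ n : N, μ n = 1 → n = 1 := by
    intro n hn
    apply hfaith
    rw [hμ n, hn]
    simp
  have hGne : (Nat.card G : ℂ) ≠ 0 := by exact_mod_cast Nat.card_pos.ne'
  have hNne : (Nat.card N : ℂ) ≠ 0 := by exact_mod_cast Nat.card_pos.ne'
  let _ : Fintype (IrrCharacter G) := Fintype.ofFinite _
  set a : IrrCharacter G → ℂ :=
    fun χ => if classInner (fun n : N => (χ : G → ℂ) n) (ψ : N → ℂ) ≠ 0 then 1 else 0 with ha_def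
  have hL : (Nat.card {χ : IrrCharacter G //
      classInner (fun n : N => (χ : G → ℂ) n) (ψ : N → ℂ) ≠ 0} : ℂ) = ∑ χ, a χ := by
    rw [Nat.card_eq_fintype_card, Fintype.card_subtype, Finset.sum_boole]
  have ha : ∀ χ : IrrCharacter G, (Nat.card G : ℂ) * (Nat.card N : ℂ) * a χ =
      ∑ g : G, ∑ n : N, conj (μ n : ℂ) * ((χ : G → ℂ) ((n : G) * g) * conj ((χ : G → ℂ) g)) := by
    intro χ
    have h1 : ∀ g : G, ∑ n : N, conj (μ n : ℂ) * ((χ : G → ℂ) ((n : G) * g) * conj ((χ : G → ℂ) g)) =
        (Nat.card N : ℂ) * a χ * ((χ : G → ℂ) g * conj ((χ : G → ℂ) g)) := by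
      intro g
      have := lemmaA N hN μ ψ _ hd hμ χ.2 g
      calc _ = (∑ n : N, conj (μ n : ℂ) * (χ : G → ℂ) ((n : G) * g)) * conj ((χ : G → ℂ) g) := by
            rw [Finset.sum_mul]
            apply Finset.sum_congr rfl
            intro n _
            ring
        _ = _ := by rw [this]; ring
    rw [Finset.sum_congr rfl (fun g _ => h1 g), ← Finset.mul_sum]
    have h2 : ∑ g : G, (χ : G → ℂ) g * conj ((χ : G → ℂ) g) = (Nat.card G : ℂ) := by
      have := classInner_irr_self χ.2
      unfold classInner at this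
      field_simp at this
      exact this
    rw [h2]
    ring
  have hsum : (Nat.card G : ℂ) * (Nat.card N : ℂ) * ∑ χ, a χ =
      ∑ g : G, if Good N g then (Nat.card (Subgroup.centralizer ({g} : Set G)) : ℂ) else 0 := by
    rw [Finset.mul_sum, Finset.sum_congr rfl (fun χ _ => ha χ), Finset.sum_comm]
    apply Finset.sum_congr rfl
    intro g _
    rw [Finset.sum_comm]
    have h1 : ∀ n : N, ∑ χ : IrrCharacter G,
        conj (μ n : ℂ) * ((χ : G → ℂ) ((n : G) * g) * conj ((χ : G → ℂ) g)) =
        (Nat.card (Subgroup.centralizer ({g} : Set G)) : ℂ) *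
          (conj (μ n : ℂ) * if IsConj ((n : G) * g) g then 1 else 0) := by
      intro n
      rw [← Finset.mul_sum, column_orthogonality]
      have hcen : Subgroup.centralizer ({(n : G) * g} : Set G) = Subgroup.centralizer ({g} : Set G) := by
        ext x
        have hc : ∀ y : G, (n : G) * y = y * n :=
          fun y => (Subgroup.mem_center_iff.mp (hN n.2) y).symm
        rw [Subgroup.mem_centralizer_singleton_iff, Subgroup.mem_centralizer_singleton_iff]
        constructor
        · intro h
          have h' : (n : G) * (x * g) = (n : G) * (g * x) := by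
            calc (n : G) * (x * g) = x * ((n : G) * g) := by rw [← mul_assoc, hc x]; group
              _ = (n : G) * g * x := h
              _ = (n : G) * (g * x) := by group
          exact mul_left_cancel h'
        · intro h
          calc x * ((n : G) * g) = (n : G) * (x * g) := by rw [← mul_assoc, ← hc x]; group
            _ = (n : G) * (g * x) := by rw [h]
            _ = (n : G) * g * x := by group
      rw [hcen]
      split_ifs <;> ring
    rw [Finset.sum_congr rfl (fun n _ => h1 n), ← Finset.mul_sum, inner_sum N hN μ hμf g]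
    split_ifs <;> simp
  set P : ConjClasses (G ⧸ N) → Prop := fun C => ∃ g : G, ConjClasses.mk (g : G ⧸ N) = C ∧
    ∀ x : G, x⁻¹ * g⁻¹ * x * g ∈ N → x * g = g * x with hPdef
  have hP : ∀ g : G, P (ConjClasses.mk (g : G ⧸ N)) ↔ Good N g := by
    intro g
    constructor
    · rintro ⟨g', hg', hgood⟩
      obtain ⟨c, hc⟩ := isConj_iff.mp (ConjClasses.mk_eq_mk_iff_isConj.mp hg')
      obtain ⟨c, rfl⟩ := QuotientGroup.mk_surjective c
      have h1 : ((c * g' * c⁻¹ : G) : G ⧸ N) = g := by simpa using hc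
      rw [QuotientGroup.eq] at h1
      have h2 := (Good.conj (N := N) hgood c).mul_central hN h1
      convert h2 using 1
      group
    · intro h
      exact ⟨g, rfl, h⟩
  have hcard : ∀ g, Good N g → (Nat.card (Subgroup.centralizer ({g} : Set G)) : ℂ) =
      (Nat.card N : ℂ) * (Nat.card (Subgroup.centralizer ({(g : G ⧸ N)} : Set (G ⧸ N))) : ℂ) := by
    intro g hg
    have h1 : Subgroup.centralizer ({g} : Set G) =
        (Subgroup.centralizer ({(g : G ⧸ N)} : Set (G ⧸ N))).comap (QuotientGroup.mk' N) := by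
      ext x
      rw [Subgroup.mem_comap, Subgroup.mem_centralizer_singleton_iff,
        Subgroup.mem_centralizer_singleton_iff]
      constructor
      · intro h
        show ((x : G ⧸ N)) * (g : G ⧸ N) = (g : G ⧸ N) * (x : G ⧸ N)
        rw [← QuotientGroup.mk_mul, ← QuotientGroup.mk_mul, h]
      · intro h
        apply hg
        have h' : ((x : G ⧸ N)) * (g : G ⧸ N) = (g : G ⧸ N) * (x : G ⧸ N) := h
        rw [← QuotientGroup.eq_one_iff]
        simp only [QuotientGroup.mk_mul, QuotientGroup.mk_inv]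
        rw [mul_assoc, h']
        group
    rw [h1, Cfsg.Agent.Lib.Lead.card_comap_mk']
    push_cast
    rfl
  have hR : ∑ g : G, (if Good N g then (Nat.card (Subgroup.centralizer ({g} : Set G)) : ℂ) else 0) =
      (Nat.card N : ℂ) * ((Nat.card N : ℂ) * ((Nat.card (G ⧸ N) : ℂ) * (Nat.card {C // P C} : ℂ))) := by
    rw [← sum_card_centralizer_of_class_pred P, ← sum_comp_mk N (fun q => if P (ConjClasses.mk q) then
      (Nat.card (Subgroup.centralizer ({q} : Set (G ⧸ N))) : ℂ) else 0), Finset.mul_sum]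
    apply Finset.sum_congr rfl
    intro g _
    by_cases hg : Good N g
    · rw [if_pos hg, if_pos ((hP g).mpr hg), hcard g hg]
    · rw [if_neg hg, if_neg (mt (hP g).mp hg), mul_zero]
  have hGN : (Nat.card G : ℂ) = (Nat.card N : ℂ) * (Nat.card (G ⧸ N) : ℂ) := by
    rw [Subgroup.card_eq_card_quotient_mul_card_subgroup N]
    push_cast
    ring
  have hfin : (Nat.card {χ : IrrCharacter G //
      classInner (fun n : N => (χ : G → ℂ) n) (ψ : N → ℂ) ≠ 0} : ℂ) = (Nat.card {C // P C} : ℂ) := by
    rw [hL]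
    apply mul_left_cancel₀ (mul_ne_zero hGne hNne)
    rw [hsum, hR, hGN]
    ring
  exact_mod_cast hfin

end Cfsg.Agent.S4567
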