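import Cfsg.Statements.S4571
import Mathlib
import Cfsg.Agent.S4667
import Cfsg.Agent.S0941
import Cfsg.Agent.S0907
import Cfsg.Agent.Lib.Helper80.Quot
import Cfsg.Agent.Lib.Helper82.QuotBlock

set_option autoImplicit false
open Cfsg

namespace Cfsg.Agent.S4571

open Cfsg.Agent.Lib.Helper78 Cfsg.Agent.Lib.Helper80 Cfsg.Agent.Lib.Helper74
open scoped ComplexConjugate

section
variable {G : Type*} [Group G] [Finite G] (p : ℕ) [Fact p.Prime]

/-- the order of `x * q` is divisible by `p` when `x` commutes with the nontrivial `p`-element `q`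
and `x` is `p`-regular. -/
theorem dvd_orderOf_mul {x q : G} (hx : ¬ p ∣ orderOf x) (hc : Commute x q) (k : ℕ)
    (hq : q ^ p ^ k = 1) (hq1 : q ≠ 1) : p ∣ orderOf (x * q) := by
  have hp : p.Prime := Fact.out
  have hqo : orderOf q ∣ p ^ k := orderOf_dvd_of_pow_eq_one hq
  obtain ⟨j, -, hj⟩ := (Nat.dvd_prime_pow hp).1 hqo
  have hj0 : j ≠ 0 := by
    rintro rfl
    rw [pow_zero, orderOf_eq_one_iff] at hj
    exact hq1 hj
  have hcop : Nat.Coprime (orderOf x) (orderOf q) := by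
    rw [hj]
    exact Nat.Coprime.pow_right j ((Nat.Prime.coprime_iff_not_dvd hp).2 hx).symm
  rw [hc.orderOf_mul_eq_mul_orderOf_of_coprime hcop, hj]
  exact Dvd.dvd.mul_left (dvd_pow_self p hj0) _

/-- block column sums over a normal `p`-subgroup centralized by the `p`-regular element `x`. -/
theorem sum_block_eq {M : Ideal AlgInt} (hM : IsPModular p M) (Q : Subgroup G) [Q.Normal]
    (hQ : IsPGroup p Q) (B : Set (IrrCharacter G)) (hB : IsPBlock M B) (x : G)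
    (hx : ¬ p ∣ orderOf x) (hxQ : x ∈ Subgroup.centralizer (Q : Set G)) :
    ∑ᶠ χ ∈ B, (χ : G → ℂ) x * conj ((χ : G → ℂ) x) = (Nat.card Q : ℂ) *
      ∑ᶠ χ ∈ B ∩ {χ : IrrCharacter G | ∀ n ∈ Q, (χ : G → ℂ) n = (χ : G → ℂ) 1},
        (χ : G → ℂ) x * conj ((χ : G → ℂ) x) := by
  classical
  have := Fintype.ofFinite G
  have h1 : ∀ q : Q, ∑ᶠ χ ∈ B, (χ : G → ℂ) x * conj ((χ : G → ℂ) (x * q)) =
      if q = 1 then ∑ᶠ χ ∈ B, (χ : G → ℂ) x * conj ((χ : G → ℂ) x) else 0 := by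
    intro q
    split_ifs with hq
    · rw [hq]; simp
    · obtain ⟨k, hk⟩ := hQ q
      have hk' : (q : G) ^ p ^ k = 1 := by
        have := congrArg Subtype.val hk
        simpa using this
      have hq1 : (q : G) ≠ 1 := fun h => hq (Subtype.ext h)
      have hc : Commute x (q : G) := (Subgroup.mem_centralizer_iff.1 hxQ q q.2).symm
      exact Cfsg.Agent.S0907.result p M hM B hB x (x * q) hx (dvd_orderOf_mul p hx hc k hk' hq1)
  have h2 : ∑ q : Q, ∑ᶠ χ ∈ B, (χ : G → ℂ) x * conj ((χ : G → ℂ) (x * q)) =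
      ∑ᶠ χ ∈ B, (χ : G → ℂ) x * conj ((χ : G → ℂ) x) := by
    rw [Finset.sum_congr rfl (fun q _ => h1 q)]
    simp
  rw [← h2]
  simp_rw [finsum_mem_irr]
  rw [Finset.sum_comm, Finset.mul_sum]
  apply Finset.sum_congr rfl
  intro χ _
  by_cases hχ : χ ∈ B
  · by_cases hker : ∀ n ∈ Q, (χ : G → ℂ) n = (χ : G → ℂ) 1
    · have hmem : χ ∈ B ∩ {χ : IrrCharacter G | ∀ n ∈ Q, (χ : G → ℂ) n = (χ : G → ℂ) 1} := ⟨hχ, hker⟩
      simp only [hχ, hmem, if_true]
      have : ∀ q : Q, (χ : G → ℂ) (x * q) = (χ : G → ℂ) x := fun q =>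
        char_mul_of_mem_ker (isCharacter_of_irr χ.2) (hker q q.2) x
      simp only [this, Finset.sum_const, Finset.card_univ, nsmul_eq_mul, Nat.card_eq_fintype_card]
    · have hmem : χ ∉ B ∩ {χ : IrrCharacter G | ∀ n ∈ Q, (χ : G → ℂ) n = (χ : G → ℂ) 1} :=
        fun h => hker h.2
      simp only [hχ, hmem, if_true, if_false, mul_zero]
      push Not at hker
      obtain ⟨n, hn, hne⟩ := hker
      have := sum_coset_eq_zero χ.2 Q ⟨n, hn, hne⟩ x
      rw [← Finset.mul_sum, ← map_sum, this]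
      simp
  · have hmem : χ ∉ B ∩ {χ : IrrCharacter G | ∀ n ∈ Q, (χ : G → ℂ) n = (χ : G → ℂ) 1} :=
      fun h => hχ h.1
    simp [hχ, hmem]

end

/-- Let Q be a normal p-subgroup of the finite group G with G = Q·C_G(Q), and M a maximal ideal of the algebraic integers containing p. Then the principal p-blocks of G and of G/Q have the same p-regular rank (the same number of irreducible Brauer characters). -/
theorem result {G : Type*} [Group G] [Finite G] (p : ℕ) [Fact p.Prime] (M : Ideal Cfsg.AlgInt) (hM : Cfsg.IsPModular p M) (Q : Subgroup G) [Q.Normal] (hQ : IsPGroup p Q) (hsup : Q ⊔ Subgroup.centralizer (Q : Set G) = ⊤) : Cfsg.blockRank p (Cfsg.principalBlock M G) = Cfsg.blockRank p (Cfsg.principalBlock M (G ⧸ Q)) := by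
  classical
  have := Fintype.ofFinite G
  have : Fintype (G ⧸ Q) := Fintype.ofFinite _
  have hMp := pmod_isPrime hM
  have hp : p.Prime := Fact.out
  have hC : ∃ k : ℕ, (Subgroup.centralizer (Q : Set G)).index = p ^ k := by
    have h1 : (Subgroup.centralizer (Q : Set G)).index =
        (Subgroup.centralizer (Q : Set G)).relIndex Q := by
      rw [← Subgroup.relIndex_top_right, ← hsup, Subgroup.relIndex_sup_right]
    obtain ⟨n, hn⟩ := IsPGroup.iff_card.mp hQ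
    have h2 : (Subgroup.centralizer (Q : Set G)).relIndex Q ∣ p ^ n :=
      hn ▸ Subgroup.relIndex_dvd_card _ _
    obtain ⟨k, -, hk⟩ := (Nat.dvd_prime_pow hp).1 h2
    exact ⟨k, h1.trans hk⟩
  have hreg : ∀ g : G, ¬ p ∣ orderOf g → g ∈ Subgroup.centralizer (Q : Set G) := by
    intro g hg
    obtain ⟨k, hk⟩ := hC
    have h1 : g ^ (p ^ k) ∈ Subgroup.centralizer (Q : Set G) := hk ▸ Subgroup.pow_index_mem _ g
    have hcop : Nat.Coprime (p ^ k) (orderOf g) :=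
      Nat.Coprime.pow_left k ((Nat.Prime.coprime_iff_not_dvd hp).2 hg)
    obtain ⟨u, hu⟩ := exists_pow_eq_self_of_coprime hcop
    rw [← hu]
    exact Subgroup.pow_mem _ h1 u
  have h941 := (Cfsg.Agent.S0941.result p M hM Q hQ hC).1
  set B := Cfsg.principalBlock M G with hBdef
  set Bq := Cfsg.principalBlock M (G ⧸ Q) with hBqdef
  have hB : IsPBlock M B := isPBlock_principalBlock
  have hBq : IsPBlock M Bq := isPBlock_principalBlock
  have e1 := Cfsg.Agent.S4667.result p M hM B hB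
  have e2 := Cfsg.Agent.S4667.result p M hM Bq hBq
  have hmemB : ∀ ψ : IrrCharacter (G ⧸ Q), (inflateEquiv Q ψ).1 ∈ B ↔ ψ ∈ Bq := by
    intro ψ
    exact (h941 (trivIrr (G ⧸ Q)) ψ).symm
  -- the inner sums at `p`-regular elements
  have hS : ∀ x : G, ¬ p ∣ orderOf x →
      ∑ᶠ χ ∈ B, Cfsg.pRegularPart p (χ : G → ℂ) x * (χ : G → ℂ) x⁻¹ = (Nat.card Q : ℂ) *
        ∑ᶠ ψ ∈ Bq, Cfsg.pRegularPart p (ψ : G ⧸ Q → ℂ) (x : G ⧸ Q) *
          (ψ : G ⧸ Q → ℂ) (x : G ⧸ Q)⁻¹ := by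
    intro x hx
    have hxq : ¬ p ∣ orderOf (x : G ⧸ Q) := fun h =>
      hx (h.trans (orderOf_map_dvd (QuotientGroup.mk' Q) x))
    have hl : ∑ᶠ χ ∈ B, Cfsg.pRegularPart p (χ : G → ℂ) x * (χ : G → ℂ) x⁻¹ =
        ∑ᶠ χ ∈ B, (χ : G → ℂ) x * conj ((χ : G → ℂ) x) := by
      apply finsum_congr; intro χ
      apply finsum_congr; intro _
      rw [IsCharacter.inv (IrrCharacter.isCharacter χ)]
      congr 1
      unfold Cfsg.pRegularPart
      exact if_pos hx
    have hr : ∑ᶠ ψ ∈ Bq, Cfsg.pRegularPart p (ψ : G ⧸ Q → ℂ) (x : G ⧸ Q) *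
          (ψ : G ⧸ Q → ℂ) (x : G ⧸ Q)⁻¹ =
        ∑ᶠ ψ ∈ Bq, (ψ : G ⧸ Q → ℂ) (x : G ⧸ Q) * conj ((ψ : G ⧸ Q → ℂ) (x : G ⧸ Q)) := by
      apply finsum_congr; intro ψ
      apply finsum_congr; intro _
      rw [IsCharacter.inv (IrrCharacter.isCharacter ψ)]
      congr 1
      unfold Cfsg.pRegularPart
      exact if_pos hxq
    rw [hl, hr, sum_block_eq p hM Q hQ B hB x hx (hreg x hx)]
    congr 1
    symm
    apply finsum_mem_eq_of_bijOn (fun ψ : IrrCharacter (G ⧸ Q) => (inflateEquiv Q ψ).1)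
    · refine ⟨?_, ?_, ?_⟩
      · intro ψ hψ
        exact ⟨(hmemB ψ).2 hψ, (inflateEquiv Q ψ).2⟩
      · intro ψ₁ _ ψ₂ _ h
        exact (inflateEquiv Q).injective (Subtype.ext h)
      · rintro χ ⟨hχB, hχk⟩
        obtain ⟨ψ, hψ⟩ := (inflateEquiv Q).surjective ⟨χ, hχk⟩
        have hψ' : (inflateEquiv Q ψ).1 = χ := by rw [hψ]
        exact ⟨ψ, (hmemB ψ).1 (hψ' ▸ hχB), hψ'⟩
    · intro ψ _
      simp only [inflateEquiv_apply]
  -- sums over the groups
  have hzero : ∀ (H : Type _) [Group H] (A : Set (IrrCharacter H)) (y : H), p ∣ orderOf y →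
      ∑ᶠ χ ∈ A, Cfsg.pRegularPart p (χ : H → ℂ) y * (χ : H → ℂ) y⁻¹ = 0 := by
    intro H _ A y hy
    have : ∀ χ : IrrCharacter H, Cfsg.pRegularPart p (χ : H → ℂ) y = 0 := by
      intro χ
      unfold Cfsg.pRegularPart
      exact if_neg (fun h => h hy)
    simp only [this, zero_mul, finsum_zero]
  set SG : G → ℂ := fun x => ∑ᶠ χ ∈ B, Cfsg.pRegularPart p (χ : G → ℂ) x * (χ : G → ℂ) x⁻¹ with hSG
  set SQ : G ⧸ Q → ℂ := fun y => ∑ᶠ ψ ∈ Bq, Cfsg.pRegularPart p (ψ : G ⧸ Q → ℂ) y *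
          (ψ : G ⧸ Q → ℂ) y⁻¹ with hSQ
  have hsumG : ∑ x : G, SG x = ∑ x ∈ Finset.univ.filter (fun x : G => ¬ p ∣ orderOf x), SG x := by
    rw [Finset.sum_filter]
    apply Finset.sum_congr rfl
    intro x _
    by_cases h : p ∣ orderOf x
    · rw [if_neg (not_not.2 h)]
      exact hzero G B x h
    · rw [if_pos h]
  have hsumQ : ∑ y : G ⧸ Q, SQ y =
      ∑ y ∈ Finset.univ.filter (fun y : G ⧸ Q => ¬ p ∣ orderOf y), SQ y := by
    rw [Finset.sum_filter]
    apply Finset.sum_congr rfl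
    intro x _
    by_cases h : p ∣ orderOf x
    · rw [if_neg (not_not.2 h)]
      exact hzero (G ⧸ Q) Bq x h
    · rw [if_pos h]
  have hbij : ∑ x ∈ Finset.univ.filter (fun x : G => ¬ p ∣ orderOf x), SQ (x : G ⧸ Q) =
      ∑ y ∈ Finset.univ.filter (fun y : G ⧸ Q => ¬ p ∣ orderOf y), SQ y := by
    apply Finset.sum_bij (fun (x : G) _ => (x : G ⧸ Q))
    · intro x hx
      simp only [Finset.mem_filter, Finset.mem_univ, true_and] at hx ⊢
      exact fun h => hx (h.trans (orderOf_map_dvd (QuotientGroup.mk' Q) x))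
    · intro x hx y hy hxy
      simp only [Finset.mem_filter, Finset.mem_univ, true_and] at hx hy
      have hq : x⁻¹ * y ∈ Q := QuotientGroup.eq.1 hxy
      by_contra hne
      obtain ⟨k, hk⟩ := hQ ⟨x⁻¹ * y, hq⟩
      have hk' : (x⁻¹ * y) ^ p ^ k = 1 := by
        have := congrArg Subtype.val hk
        simpa using this
      have hq1 : x⁻¹ * y ≠ 1 := fun h => hne (inv_mul_eq_one.1 h)
      have hc : Commute x (x⁻¹ * y) := (Subgroup.mem_centralizer_iff.1 (hreg x hx) _ hq).symm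
      have := dvd_orderOf_mul p hx hc k hk' hq1
      rw [mul_inv_cancel_left] at this
      exact hy this
    · intro y hy
      simp only [Finset.mem_filter, Finset.mem_univ, true_and] at hy
      obtain ⟨g, hg, hgy⟩ := Cfsg.Agent.Lib.Helper82.exists_regular_lift p Q hQ y hy
      exact ⟨g, by simpa using hg, hgy⟩
    · intro x _
      rfl
  have hfin : ∑ x : G, SG x = (Nat.card Q : ℂ) * ∑ y : G ⧸ Q, SQ y := by
    rw [hsumG, hsumQ, ← hbij, Finset.mul_sum]
    apply Finset.sum_congr rfl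
    intro x hx
    simp only [Finset.mem_filter, Finset.mem_univ, true_and] at hx
    exact hS x hx
  have hcard : (Nat.card G : ℂ) = (Nat.card Q : ℂ) * (Nat.card (G ⧸ Q) : ℂ) := by
    rw [← Nat.cast_mul, mul_comm, ← Subgroup.card_eq_card_quotient_mul_card_subgroup]
  have hQ0 : (Nat.card Q : ℂ) ≠ 0 := Nat.cast_ne_zero.2 Nat.card_pos.ne'
  have hGQ0 : (Nat.card (G ⧸ Q) : ℂ) ≠ 0 := Nat.cast_ne_zero.2 Nat.card_pos.ne'
  have hmain : (Nat.card G : ℂ) * (Cfsg.blockRank p B : ℂ) =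
      (Nat.card G : ℂ) * (Cfsg.blockRank p Bq : ℂ) := by
    rw [e1]
    rw [show (∑ x : G, ∑ᶠ χ ∈ B, Cfsg.pRegularPart p (χ : G → ℂ) x * (χ : G → ℂ) x⁻¹) =
      ∑ x : G, SG x from rfl, hfin, hcard, mul_assoc, e2]
  have hG0 : (Nat.card G : ℂ) ≠ 0 := Nat.cast_ne_zero.2 Nat.card_pos.ne'
  exact_mod_cast mul_left_cancel₀ hG0 hmain

end Cfsg.Agent.S4571
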