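import Cfsg.Statements.S4574
import Cfsg.Agent.Lib.Helper76.Zeros

set_option autoImplicit false
open Cfsg

namespace Cfsg.Agent.S4574

open Cfsg.Agent.Lib.Helper76

/-- Let χ be an irreducible character of the finite group G, of degree d, and let Z(χ) be the set of elements g with |χ g| = d (the centre of χ). Then χ vanishes on at least (d ^ 2 - 1) · |Z(χ)| elements of G, with equality when every value |χ g| is 0, 1 or d. -/
theorem result {G : Type*} [Group G] [Fintype G] [DecidableEq G] (χ : G → ℂ) (hχ : Cfsg.IsIrrCharacter G χ) : (Cfsg.charDegree χ ^ 2 - 1) * (Finset.univ.filter (fun g : G => ‖χ g‖ = (Cfsg.charDegree χ : ℝ))).card ≤ (Finset.univ.filter (fun g : G => χ g = 0)).card ∧ ((∀ g : G, ‖χ g‖ = 0 ∨ ‖χ g‖ = 1 ∨ ‖χ g‖ = (Cfsg.charDegree χ : ℝ)) → (Cfsg.charDegree χ ^ 2 - 1) * (Finset.univ.filter (fun g : G => ‖χ g‖ = (Cfsg.charDegree χ : ℝ))).card = (Finset.univ.filter (fun g : G => χ g = 0)).card) := by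
  obtain ⟨n, ρ, hρ, rfl⟩ := hχ
  have hfr : Module.finrank ℂ (Fin n → ℂ) = n := by simp
  have hpos : 0 < n := by
    have := finrank_pos_of_irr ρ hρ
    rwa [hfr] at this
  rw [charDegree_rep]
  have hcast : ((n ^ 2 - 1 : ℕ) : ℝ) = (n : ℝ) ^ 2 - 1 := by
    have : 1 ≤ n ^ 2 := Nat.one_le_pow _ _ hpos
    push_cast [Nat.cast_sub this]
    ring
  constructor
  · have h := zeros_bound ρ hρ
    rw [hfr, ← hcast] at h
    exact_mod_cast h
  · intro hval
    have h := zeros_eq ρ hρ (by rw [hfr]; exact hval)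
    rw [hfr, ← hcast] at h
    exact_mod_cast h

end Cfsg.Agent.S4574
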