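import Cfsg.Statements.S4575
import Cfsg.Agent.Lib.Helper97.TwoSubsec
import Cfsg.Agent.Lib.Helper78.SubsecMajor2
import Cfsg.Agent.S4494
import Cfsg.Agent.S4710

set_option autoImplicit false
open Cfsg

namespace Cfsg.Agent.S4575

open Cfsg.Agent.Lib.Helper78 Cfsg.Agent.Lib.Helper16 Cfsg.Agent.Lib.Helper4 Cfsg.Agent.Lib.Helper97

/-- Let B be a 2-block of the finite group G (relative to a maximal ideal M of the algebraic integers containing 2) of defect d with defect group D. Let z be an element of D commuting with every element of D, and let b be a block of the centralizer of z with defect group D that induces B (a major subsection (z, b)). If the number of irreducible characters in B exceeds the 2-regular rank of b by at most three, then B contains at most 2 ^ d irreducible characters. -/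
theorem result {G : Type*} [Group G] [Finite G] (M : Ideal Cfsg.AlgInt) (hM : Cfsg.IsPModular 2 M) (B : Set (Cfsg.IrrCharacter G)) (hB : Cfsg.IsPBlock M B) (D : Subgroup G) (hD : Cfsg.IsDefectGroup 2 M B D) (z : G) (hzD : z ∈ D) (hzc : ∀ d ∈ D, d * z = z * d) (b : Set (Cfsg.IrrCharacter ↥(Subgroup.centralizer ({z} : Set G)))) (hb : Cfsg.IsInducedBlock M (Subgroup.centralizer ({z} : Set G)) b B) (hbD : Cfsg.IsDefectGroup 2 M b (D.subgroupOf (Subgroup.centralizer ({z} : Set G)))) (h : Nat.card B ≤ Cfsg.blockRank 2 b + 3) : Nat.card B ≤ 2 ^ Cfsg.blockDefect 2 B := by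
  classical
  have : Fintype G := Fintype.ofFinite G
  have : Fact (Nat.Prime 2) := ⟨Nat.prime_two⟩
  have hp : (2 : ℕ).Prime := hM.1
  have hcD := card_of_isDefectGroup hM hB hD
  have hcb := card_of_isDefectGroup hM hb.1 hbD
  have hle : D ≤ Subgroup.centralizer ({z} : Set G) := fun d hd =>
    Subgroup.mem_centralizer_singleton_iff.2 (hzc d hd)
  have hcard : Nat.card (D.subgroupOf (Subgroup.centralizer ({z} : Set G))) = Nat.card D :=
    Nat.card_congr (Subgroup.subgroupOfEquivOfLe hle).toEquiv
  have hdef : blockDefect 2 b = blockDefect 2 B := by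
    rw [hcard, hcD] at hcb
    exact (Nat.pow_right_injective hp.two_le hcb).symm
  have hz : ∃ k : ℕ, orderOf z = 2 ^ k := by
    have h1 : orderOf (⟨z, hzD⟩ : D) ∣ Nat.card D := orderOf_dvd_natCard _
    rw [hcD, Subgroup.orderOf_mk] at h1
    obtain ⟨k, -, hk⟩ := (Nat.dvd_prime_pow hp).1 h1
    exact ⟨k, hk⟩
  obtain ⟨k, hk⟩ := hz
  have h2 : (Finset.univ.filter (· ∈ B)).card = Nat.card B := by
    rw [Nat.card_eq_fintype_card, Fintype.card_subtype]
  rcases Nat.eq_zero_or_pos (blockDefect 2 B) with hd0 | hd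
  · have h4 := Cfsg.Agent.S4494.result 2 M hM B hB
    rw [hd0] at h4 ⊢
    simp only [mul_zero, pow_zero] at h4 ⊢
    omega
  · have hht : ∀ χ ∈ B, blockHeight 2 B (χ : G → ℂ) < blockDefect 2 B := by
      intro χ hχ
      have h5 := (Cfsg.Agent.S4710.result 2 M hM B hB _ rfl).2 χ hχ
      by_cases hd1 : blockDefect 2 B ≤ 1
      · rw [h5.1 hd1]; exact hd
      · have := h5.2 (by omega)
        omega
    have h1 := two_major_bound_compl hM z hk hb hdef hd hht (by rw [h2]; exact h)
    have h3 := three_mul_card_le_weight B (fun χ => blockHeight 2 B (χ : G → ℂ))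
    rw [h2] at h3
    have h6 := h3.trans h1
    omega

end Cfsg.Agent.S4575
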