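import Cfsg.Statements.S4580
import Cfsg.Agent.Lib.Helper76.CoverP
import Cfsg.Agent.Lib.Helper76.GaloisChar
import Cfsg.Agent.Lib.Helper76.HeightZeroLin
import Cfsg.Agent.Lib.Helper15.Gallagher
import Cfsg.Agent.Lib.Helper15.LinearHom
import Cfsg.Agent.Lib.Helper15.LinearMul
import Cfsg.Agent.S4483

set_option autoImplicit false
open Cfsg Cfsg.Agent.Lib.Helper76 Cfsg.Agent.Lib.Helper80
open scoped ComplexConjugate

namespace Cfsg.Agent.S4580

/-- Let N be a normal subgroup of the finite group G, M a maximal ideal of the algebraic integers containing 2, and θ a real-valued irreducible character of N of odd degree that extends to G (some irreducible character of G restricts to θ). Then θ has an extension to G lying in the principal 2-block of G. -/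
theorem result {G : Type*} [Group G] [Finite G] (N : Subgroup G) [N.Normal] (M : Ideal Cfsg.AlgInt) (hM : Cfsg.IsPModular 2 M) (θ : Cfsg.IrrCharacter N) (hreal : ∀ n : N, ((θ : N → ℂ) n).im = 0) (hodd : Odd (Cfsg.charDegree (θ : N → ℂ))) (hext : ∃ η : Cfsg.IrrCharacter G, ∀ n : N, (η : G → ℂ) n = (θ : N → ℂ) n) :
    ∃ η : Cfsg.IrrCharacter G, (∀ n : N, (η : G → ℂ) n = (θ : N → ℂ) n) ∧ η ∈ Cfsg.principalBlock M G := by
  classical
  let _ : Fintype G := Fintype.ofFinite G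
  let _ : Fintype N := Fintype.ofFinite N
  have hMp := Cfsg.Agent.Lib.Helper78.pmod_isPrime hM
  obtain ⟨η, hη⟩ := hext
  have hηN : (fun n : N => (η : G → ℂ) n) = (θ : N → ℂ) := funext hη
  have hηNirr : IsIrrCharacter N (fun n : N => (η : G → ℂ) n) := by rw [hηN]; exact θ.2
  have hθreal : ∀ n : N, conj ((θ : N → ℂ) n) = (θ : N → ℂ) n := fun n =>
    Complex.conj_eq_iff_im.mpr (hreal n)
  -- Gallagher: the conjugate of `η` is `β η`
  have hbar : IsIrrCharacter G (fun g => conj ((η : G → ℂ) g)) :=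
    IsIrrCharacter.map_ringHom η.2 (starRingEnd ℂ)
  have hmem : (fun g => conj ((η : G → ℂ) g)) ∈ {ψ : G → ℂ | IsIrrCharacter G ψ ∧
      classInner (fun n : N => ψ n) (fun n : N => (η : G → ℂ) n) ≠ 0} := by
    refine ⟨hbar, ?_⟩
    have e : (fun n : N => conj ((η : G → ℂ) n)) = (θ : N → ℂ) := by
      funext n
      rw [hη n, hθreal n]
    rw [e, hηN, Cfsg.Agent.Lib.Helper15.irr_inner_self θ.2]
    exact one_ne_zero
  obtain ⟨β, ⟨hβirr, hβ1⟩, hβ⟩ := (Cfsg.Agent.Lib.Helper15.gallagher N η.2 hηNirr).surjOn hmem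
  have hβ' : ∀ g, β g * (η : G → ℂ) g = conj ((η : G → ℂ) g) := fun g => congrFun hβ g
  have hη1 : (η : G → ℂ) 1 ≠ 0 := char_one_ne_zero_of_irr η.2
  have hβone : β 1 = 1 := by
    have h1 := hβ' 1
    rw [char_one_eq_charDegree (Cfsg.Agent.Lib.Helper80.isCharacter_of_irr η.2), Complex.conj_natCast] at h1
    rw [char_one_eq_charDegree (Cfsg.Agent.Lib.Helper80.isCharacter_of_irr η.2)] at hη1
    exact mul_right_cancel₀ hη1 (h1.trans (one_mul _).symm)
  have hβN : ∀ n : N, β n = 1 := fun n => by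
    rw [(Cfsg.Agent.Lib.Helper15.restrict_eq_of_inner_one_ne_zero N hβirr hβ1).2 n, hβone]
  obtain ⟨f, rfl⟩ := Cfsg.Agent.Lib.Helper15.exists_toFn
    (Cfsg.Agent.Lib.Helper80.isCharacter_of_irr hβirr) hβone
  simp only [Cfsg.Agent.Lib.Helper15.toFn_apply] at hβ' hβN
  -- the odd part of the group order
  set m := ordCompl[2] (Nat.card G) with hm
  have hmodd : ¬ 2 ∣ m := Nat.not_dvd_ordCompl Nat.prime_two Nat.card_pos.ne'
  obtain ⟨k, hk⟩ : ∃ k, 2 * k = m + 1 := by
    have : m % 2 = 1 := by omega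
    exact ⟨(m + 1) / 2, by omega⟩
  have hcard : 2 ^ (Nat.card G).factorization 2 * m = Nat.card G :=
    Nat.ordProj_mul_ordCompl_eq_self _ _
  let η' : IrrCharacter G := ⟨Cfsg.Agent.Lib.Helper15.toFn (f ^ k) * (η : G → ℂ),
    Cfsg.Agent.Lib.Helper15.irr_linear_mul (Cfsg.Agent.Lib.Helper15.char_toFn _)
      (Cfsg.Agent.Lib.Helper15.toFn_one' _) η.2⟩
  have hη' : ∀ g, (η' : G → ℂ) g = ((f g : ℂˣ) : ℂ) ^ k * (η : G → ℂ) g := by
    intro g
    show Cfsg.Agent.Lib.Helper15.toFn (f ^ k) g * (η : G → ℂ) g = _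
    rw [Cfsg.Agent.Lib.Helper15.toFn_apply, MonoidHom.pow_apply, Units.val_pow_eq_pow_val]
  have hη'N : ∀ n : N, (η' : G → ℂ) n = (θ : N → ℂ) n := by
    intro n
    rw [hη', hβN n, one_pow, one_mul, hη n]
  refine ⟨η', hη'N, ?_⟩
  -- the kernel of `f ^ m`
  let L : Subgroup G := (f ^ m).ker
  have hLmem : ∀ x : G, x ∈ L ↔ ((f x : ℂˣ) : ℂ) ^ m = 1 := by
    intro x
    show (f ^ m) x = 1 ↔ _
    rw [MonoidHom.pow_apply, ← Units.val_pow_eq_pow_val, Units.val_eq_one]
  have hNL : N ≤ L := by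
    intro n hn
    rw [hLmem, hβN ⟨n, hn⟩, one_pow]
  have hLreg : ∀ g : G, ¬ 2 ∣ orderOf g → g ∈ L := by
    intro g hg
    show (f ^ m) g = 1
    rw [MonoidHom.pow_apply, ← orderOf_eq_one_iff]
    have h1 : orderOf (f g ^ m) ∣ 2 ^ (Nat.card G).factorization 2 := by
      apply orderOf_dvd_of_pow_eq_one
      rw [← pow_mul, mul_comm, hcard, ← map_pow, pow_card_eq_one', map_one]
    have h2 : orderOf (f g ^ m) ∣ orderOf g := by
      apply orderOf_dvd_of_pow_eq_one
      rw [← pow_mul, mul_comm, pow_mul, ← map_pow, pow_orderOf_eq_one, map_one, one_pow]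
    exact Nat.eq_one_of_dvd_coprimes
      (Nat.Coprime.pow_left _ ((Nat.Prime.coprime_iff_not_dvd Nat.prime_two).mpr hg)) h1 h2
  let ψ : IrrCharacter L := ⟨fun x : L => (η' : G → ℂ) x,
    isIrrCharacter_restrict_of_le hNL (Cfsg.Agent.Lib.Helper80.isCharacter_of_irr η'.2) (by
      have : (fun n : N => (η' : G → ℂ) n) = (θ : N → ℂ) := funext hη'N
      rw [this]; exact θ.2)⟩
  have hψreal : ∀ x : L, ((ψ : L → ℂ) x).im = 0 := by
    intro x
    rw [← Complex.conj_eq_iff_im]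
    show conj ((η' : G → ℂ) x) = (η' : G → ℂ) x
    rw [hη', map_mul, map_pow, ← hβ' x, ← mul_assoc]
    congr 1
    set u : ℂ := ((f (x : G) : ℂˣ) : ℂ) with hu
    have hu1 : u * conj u = 1 := hom_mul_conj_eq_one f x
    have hum : u ^ m = 1 := (hLmem x).mp x.2
    have hu0 : u ^ k ≠ 0 := pow_ne_zero _ (Units.ne_zero _)
    apply mul_right_cancel₀ hu0
    calc conj u ^ k * u * u ^ k = (u * conj u) ^ k * u := by rw [mul_pow]; ring
      _ = u ^ m * u := by rw [hu1, one_pow, hum]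
      _ = u ^ k * u ^ k := by rw [← pow_succ, ← hk, two_mul, pow_add]
  have hψodd : Odd (charDegree (ψ : L → ℂ)) := by
    have : charDegree (ψ : L → ℂ) = charDegree (θ : N → ℂ) := by
      unfold charDegree
      congr 2
      exact hη'N 1
    rw [this]; exact hodd
  have hψB := (Cfsg.Agent.S4483.result (G := L) M hM).1 ψ hψreal hψodd
  exact sameBlock_of_restrict hM L hLreg (Cfsg.Agent.Lib.Helper78.trivIrr G) η'
    (Cfsg.Agent.Lib.Helper78.trivIrr L) ψ (fun _ => rfl) (fun _ => rfl) hψB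

end Cfsg.Agent.S4580
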