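import Mathlib
import Cfsg.Statements.S4582

set_option autoImplicit false
open Cfsg

namespace Cfsg.Agent.S4582

open Subgroup MulAction
open scoped commutatorElement

theorem conj_sq {L : Type*} [Group L] (H : Subgroup L) {A : Type*} [CommGroup A] (ϕ : H →* A)
    (N : Subgroup L) [N.Normal] (hsup : ∀ t : L, ∃ m ∈ N, ∃ h ∈ H, t = m * h)
    (hq : ∀ q : H, (q : L) ∈ N → ϕ q ^ 2 = 1) (z : L) (hz : z ∈ H) (t : L) (ht : t⁻¹ * z * t ∈ H) :
    ϕ ⟨t⁻¹ * z * t, ht⟩ ^ 2 = ϕ ⟨z, hz⟩ ^ 2 := by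
  obtain ⟨m, hm, h, hh, rfl⟩ := hsup t
  have hw : m⁻¹ * z * m ∈ H := by
    have : m⁻¹ * z * m = h * ((m * h)⁻¹ * z * (m * h)) * h⁻¹ := by group
    rw [this]
    exact H.mul_mem (H.mul_mem hh ht) (H.inv_mem hh)
  have e1 : (⟨(m * h)⁻¹ * z * (m * h), ht⟩ : H) = (⟨h, hh⟩ : H)⁻¹ * ⟨m⁻¹ * z * m, hw⟩ * ⟨h, hh⟩ := by
    apply Subtype.ext
    simp only [Subgroup.coe_mul, Subgroup.coe_inv]
    group
  have hu : z⁻¹ * (m⁻¹ * z * m) ∈ H := H.mul_mem (H.inv_mem hz) hw
  have huN : z⁻¹ * (m⁻¹ * z * m) ∈ N := by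
    have : z⁻¹ * (m⁻¹ * z * m) = (z⁻¹ * m⁻¹ * z⁻¹⁻¹) * m := by group
    rw [this]
    exact N.mul_mem (Normal.conj_mem inferInstance _ (N.inv_mem hm) _) hm
  have e2 : (⟨m⁻¹ * z * m, hw⟩ : H) = ⟨z, hz⟩ * ⟨z⁻¹ * (m⁻¹ * z * m), hu⟩ := by
    apply Subtype.ext
    simp only [Subgroup.coe_mul]
    group
  have h3 := hq ⟨z⁻¹ * (m⁻¹ * z * m), hu⟩ huN
  rw [e1, map_mul, map_mul, map_inv, mul_comm, mul_inv_cancel_left, e2, map_mul, mul_pow, h3, mul_one]

theorem transfer_sq {L : Type*} [Group L] (H : Subgroup L) [H.FiniteIndex] {A : Type*} [CommGroup A]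
    (ϕ : H →* A)
    (N : Subgroup L) [N.Normal] (hsup : ∀ t : L, ∃ m ∈ N, ∃ h ∈ H, t = m * h)
    (hq : ∀ q : H, (q : L) ∈ N → ϕ q ^ 2 = 1) (x : H) :
    (MonoidHom.transfer ϕ (x : L)) ^ 2 = (ϕ x ^ 2) ^ H.index := by
  have : Fintype (Quotient (MulAction.orbitRel (zpowers (x : L)) (L ⧸ H))) :=
    Fintype.ofFinite _
  rw [index_eq_sum_minimalPeriod H (x : L), ← Finset.prod_pow_eq_pow_sum,
    MonoidHom.transfer_eq_prod_quotient_orbitRel_zpowers_quot, ← Finset.prod_pow]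
  apply Finset.prod_congr rfl
  intro q _
  rw [conj_sq H ϕ N hsup hq _ (H.pow_mem x.2 _)]
  rw [← pow_mul, mul_comm, pow_mul]
  congr 1
  rw [← map_pow]
  congr 1

theorem eq_one_of_two_group {A : Type*} [Group A] (hA : IsPGroup 2 A) (a : A) (n : ℕ) (hn : Odd n)
    (h : a ^ n = 1) : a = 1 := by
  obtain ⟨k, hk⟩ := hA a
  have h1 : orderOf a ∣ n := orderOf_dvd_of_pow_eq_one h
  have h2 : orderOf a ∣ 2 ^ k := orderOf_dvd_of_pow_eq_one hk
  have hc : Nat.Coprime n (2 ^ k) := by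
    apply Nat.Coprime.pow_right
    exact Nat.Coprime.symm (Nat.coprime_two_left.mpr hn)
  have : orderOf a = 1 := Nat.eq_one_of_dvd_coprimes hc h1 h2
  exact orderOf_eq_one_iff.mp this

/-- Let N be a normal subgroup of the finite group G, P a Sylow 2-subgroup of G and Q = P ∩ N. Suppose that P/QP' and Q/Q' are elementary abelian (every square of an element of P lies in the subgroup generated by Q and the derived subgroup of P, and every square of an element of Q lies in the derived subgroup of Q), and that the commutator factor group N/N' has odd order. Then P/P' is elementary abelian. -/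
theorem result {G : Type*} [Group G] [Finite G] (N : Subgroup G) [N.Normal] (P : Sylow 2 G)
    (hP : ∀ x ∈ (P : Subgroup G), x ^ 2 ∈ ((P : Subgroup G) ⊓ N) ⊔ ⁅(P : Subgroup G), (P : Subgroup G)⁆)
    (hQ : ∀ x ∈ (P : Subgroup G) ⊓ N, x ^ 2 ∈ ⁅(P : Subgroup G) ⊓ N, (P : Subgroup G) ⊓ N⁆)
    (hodd : Odd (Nat.card (Abelianization N))) :
    ∀ x ∈ (P : Subgroup G), x ^ 2 ∈ ⁅(P : Subgroup G), (P : Subgroup G)⁆ := by
  intro x hx
  let L : Subgroup G := N ⊔ (P : Subgroup G)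
  have hPL : (P : Subgroup G) ≤ L := le_sup_right
  have hNL : N ≤ L := le_sup_left
  let H : Subgroup L := (P : Subgroup G).subgroupOf L
  let N' : Subgroup L := N.subgroupOf L
  let e : H ≃* (P : Subgroup G) := Subgroup.subgroupOfEquivOfLe hPL
  let ϕ : H →* Abelianization (P : Subgroup G) := Abelianization.of.comp e.toMonoidHom
  have hA : IsPGroup 2 (Abelianization (P : Subgroup G)) := P.2.to_quotient _
  -- criterion for ϕ y = 1
  have hϕ1 : ∀ y : H, ((y : L) : G) ∈ ⁅(P : Subgroup G), (P : Subgroup G)⁆ → ϕ y = 1 := by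
    intro y hy
    rw [← Subgroup.map_subtype_commutator] at hy
    obtain ⟨y', hy', hyy⟩ := hy
    have : e y = y' := by
      apply Subtype.ext
      exact hyy.symm
    change Abelianization.of (e y) = 1
    rw [this]
    exact (QuotientGroup.eq_one_iff y').mpr hy'
  have hϕ2 : ∀ y : H, ϕ y = 1 → ((y : L) : G) ∈ ⁅(P : Subgroup G), (P : Subgroup G)⁆ := by
    intro y hy
    have h1 : e y ∈ commutator (P : Subgroup G) := (QuotientGroup.eq_one_iff (e y)).mp hy
    rw [← Subgroup.map_subtype_commutator]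
    exact ⟨e y, h1, rfl⟩
  have hsup : ∀ t : L, ∃ m ∈ N', ∃ h ∈ H, t = m * h := by
    intro t
    have ht : (t : G) ∈ ((N ⊔ (P : Subgroup G) : Subgroup G) : Set G) := t.2
    rw [Subgroup.normal_mul] at ht
    obtain ⟨m, hm, h, hh, hmh⟩ := Set.mem_mul.mp ht
    refine ⟨⟨m, hNL hm⟩, hm, ⟨h, hPL hh⟩, hh, ?_⟩
    apply Subtype.ext
    exact hmh.symm
  have hq : ∀ q : H, (q : L) ∈ N' → ϕ q ^ 2 = 1 := by
    intro q hqN
    rw [← map_pow]
    apply hϕ1
    have h1 : ((q : L) : G) ∈ (P : Subgroup G) ⊓ N := ⟨q.2, hqN⟩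
    have h2 := hQ _ h1
    exact Subgroup.commutator_mono inf_le_left inf_le_left h2
  let V : L →* Abelianization (P : Subgroup G) := MonoidHom.transfer ϕ
  have hVN : ∀ m : N, V (Subgroup.inclusion hNL m) = 1 := by
    intro m
    let f : N →* Abelianization (P : Subgroup G) := V.comp (Subgroup.inclusion hNL)
    have h1 : f m = Abelianization.lift f (Abelianization.of m) := by simp
    apply eq_one_of_two_group hA _ _ hodd
    change f m ^ _ = 1
    rw [h1, ← map_pow, pow_card_eq_one', map_one]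
  have hker : ((P : Subgroup G) ⊓ N) ⊔ ⁅(P : Subgroup G), (P : Subgroup G)⁆ ≤ V.ker.map L.subtype := by
    apply sup_le
    · intro y hy
      exact ⟨Subgroup.inclusion hNL ⟨y, hy.2⟩, hVN _, rfl⟩
    · rw [Subgroup.commutator_le]
      intro a ha b hb
      refine ⟨⁅(⟨a, hPL ha⟩ : L), ⟨b, hPL hb⟩⁆, ?_, rfl⟩
      rw [SetLike.mem_coe, MonoidHom.mem_ker, map_commutatorElement]
      exact commutatorElement_eq_one_iff_commute.mpr (Commute.all _ _)
  let x' : H := ⟨⟨x, hPL hx⟩, hx⟩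
  have hVx : V (x' : L) ^ 2 = 1 := by
    obtain ⟨y, hy, hyx⟩ := hker (hP x hx)
    rw [← map_pow]
    have : (x' : L) ^ 2 = y := by
      apply Subtype.ext
      exact hyx.symm
    rw [this]
    exact hy
  have hkey := transfer_sq H ϕ N' hsup hq x'
  have hidx : Odd H.index := by
    have h1 : H.index ∣ (P : Subgroup G).index := Subgroup.relIndex_dvd_index_of_le hPL
    have h2 : ¬ 2 ∣ (P : Subgroup G).index := P.not_dvd_index
    rw [← Nat.not_even_iff_odd, even_iff_two_dvd]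
    exact fun h => h2 (h.trans h1)
  have h5 : ϕ x' ^ 2 = 1 := by
    apply eq_one_of_two_group hA _ _ hidx
    rw [← hkey]
    exact hVx
  rw [← map_pow] at h5
  exact hϕ2 _ h5

end Cfsg.Agent.S4582
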