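import Cfsg.Statements.S4583
import Cfsg.Agent.Lib.Helper16.IndUnit
import Cfsg.Agent.Lib.Helper16.PrincipalOver
import Cfsg.Agent.Lib.Helper16.Transport
import Cfsg.Agent.Lib.Helper76.CoverP
import Cfsg.Agent.Lib.Helper35.BlockNormal2
import Cfsg.Agent.Lib.Helper15.Clifford2
-- import your own Cfsg.Agent.* helpers here

set_option autoImplicit false
open Cfsg Cfsg.Agent.Lib.Helper78 Cfsg.Agent.Lib.Helper16 Cfsg.Agent.Lib

namespace Cfsg.Agent.S4583

theorem aux {G : Type*} [Group G] [Fintype G] (N : Subgroup G) [N.Normal] [Fintype N] (p : ℕ) [Fact p.Prime]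
    (M : Ideal Cfsg.AlgInt) (hM : Cfsg.IsPModular p M) (P : Sylow p G)
    (θ : Cfsg.IrrCharacter N) (hθ : θ ∈ Cfsg.principalBlock M N)
    (hdeg : ¬ p ∣ Cfsg.charDegree (θ : N → ℂ)) (H : Subgroup G) (hNH : N ≤ H)
    (hPH : (P : Subgroup G) ≤ H) (hidx : ∃ k : ℕ, (N.subgroupOf H).index = p ^ k)
    (η : Cfsg.IrrCharacter H) (hη : ∀ n : N, (η : H → ℂ) (Subgroup.inclusion hNH n) = (θ : N → ℂ) n) :
    ∃ χ : Cfsg.IrrCharacter G, χ ∈ Cfsg.principalBlock M G ∧ ¬ p ∣ Cfsg.charDegree (χ : G → ℂ) ∧
      Cfsg.classInner (fun n : N => (χ : G → ℂ) n) (θ : N → ℂ) ≠ 0 := by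
  classical
  haveI : M.IsMaximal := hM.2.1
  haveI : CharP (FM M) p := charP_FM hM
  have hMp := pmod_isPrime hM
  have hp := hM.1
  have hsame : SameBlock M ((trivIrr H : IrrCharacter H) : H → ℂ) (η : H → ℂ) := by
    refine Helper76.sameBlock_of_restrict hM (N.subgroupOf H)
      (fun g hg => Helper35.mem_of_regular_of_index (N.subgroupOf H) hp hidx hg)
      (trivIrr H) η (downIrr hNH (trivIrr N)) (downIrr hNH θ) (fun x => rfl) ?_ ?_
    · intro x
      rw [downIrr_apply, ← hη]
      rfl
    · rw [sameBlock_downIrr_iff]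
      exact hθ
  -- the unit
  have hcl := blockCoeff_isClassFunction (principalBlock M G)
  have hR := memLocalRing_blockCoeff hMp (isPBlock_principalBlock (M := M) (G := G))
  have huU : ¬ MemLocalIdeal M (omega (η : H → ℂ)
      (fun x : H => blockCoeff (principalBlock M G) x)) := by
    have h1 := memLocalIdeal_omega_sub hMp hsame
      (a := fun x : H => blockCoeff (principalBlock M G) x) (fun g x => hcl g x) (fun x => hR x)
    rw [← MemLocalIdeal.congr hMp h1]
    have h2 : omega ((trivIrr H : IrrCharacter H) : H → ℂ)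
        (fun x : H => blockCoeff (principalBlock M G) x) =
        ∑ h : H, blockCoeff (principalBlock M G) h := by
      unfold omega
      simp [trivIrr]
    rw [h2, ← redC_eq_zero_iff (MemLocalRing.sum hMp _ _ fun (h : H) _ => hR h),
      redC_sum _ _ (fun (h : H) _ => hR h)]
    exact sum_eB_principal_coeff_ne_zero M p hM P H hPH
  have hdegη : charDegree (η : H → ℂ) = charDegree (θ : N → ℂ) := by
    have e1 := irr_one_eq η
    have e2 := irr_one_eq θ
    have e3 := hη 1
    rw [map_one, e1, e2] at e3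
    exact_mod_cast e3
  have hdeg' : ¬ p ∣ H.index * charDegree (η : H → ℂ) := by
    rw [hdegη, hp.dvd_mul]
    rintro (h | h)
    · exact P.not_dvd_index (h.trans (Subgroup.index_dvd_of_le hPH))
    · exact hdeg h
  obtain ⟨χ, hχB, hχdeg, hχη⟩ := exists_constituent_of_unit hM H isPBlock_principalBlock η huU hdeg'
  refine ⟨χ, hχB, hχdeg, ?_⟩
  rw [Helper15.classInner_indFun_left H _ _ (irr_isClassFunction χ)] at hχη
  have hχH : IsCharacter H (fun h : H => (χ : G → ℂ) h) :=
    Helper74.IsCharacter.restrict (Helper74.IrrCharacter.isCharacter χ) H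
  rw [Helper15.inner_comm_of_char (Helper74.IrrCharacter.isCharacter η) hχH] at hχη
  let R : (H → ℂ) →ₗ[ℂ] (N → ℂ) :=
    { toFun := fun f n => f (Subgroup.inclusion hNH n)
      map_add' := fun _ _ => rfl
      map_smul' := fun _ _ => rfl }
  have hRη : R (η : H → ℂ) = (θ : N → ℂ) := funext hη
  exact Helper15.inner_ne_zero_of_constituent R
    (fun γ hγ => Helper74.IsCharacter.comp hγ (Subgroup.inclusion hNH)) hχH η.2 hχη
    (Helper74.IrrCharacter.isCharacter θ) (by
      rw [hRη, Helper74.classInner_irr_self]; exact one_ne_zero)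

/-- Let N be a normal subgroup of the finite group G, p a prime, M a maximal ideal of the algebraic integers containing p, and P a Sylow p-subgroup of G. Let θ be an irreducible character of N of degree prime to p lying in the principal p-block of N, and suppose θ extends to the subgroup NP (some irreducible character of NP restricts to θ). Then some irreducible character χ of G of degree prime to p in the principal p-block of G lies over θ (θ is a constituent of the restriction of χ to N). -/
theorem result {G : Type*} [Group G] [Finite G] (N : Subgroup G) [N.Normal] (p : ℕ) [Fact p.Prime] (M : Ideal Cfsg.AlgInt) (hM : Cfsg.IsPModular p M) (P : Sylow p G)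
    (θ : Cfsg.IrrCharacter N) (hθ : θ ∈ Cfsg.principalBlock M N) (hdeg : ¬ p ∣ Cfsg.charDegree (θ : N → ℂ))
    (hext : ∃ η : Cfsg.IrrCharacter ↥(N ⊔ (P : Subgroup G)), ∀ n : N, (η : ↥(N ⊔ (P : Subgroup G)) → ℂ) (Subgroup.inclusion le_sup_left n) = (θ : N → ℂ) n) :
    ∃ χ : Cfsg.IrrCharacter G, χ ∈ Cfsg.principalBlock M G ∧ ¬ p ∣ Cfsg.charDegree (χ : G → ℂ) ∧
      haveI := Fintype.ofFinite N; Cfsg.classInner (fun n : N => (χ : G → ℂ) n) (θ : N → ℂ) ≠ 0 := by
  classical
  cases nonempty_fintype G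
  obtain ⟨η, hη⟩ := hext
  have hidx : ∃ k : ℕ, (N.subgroupOf (N ⊔ (P : Subgroup G))).index = p ^ k := by
    have h1 : (N.subgroupOf (N ⊔ (P : Subgroup G))).index =
        (N.subgroupOf (P : Subgroup G)).index := by
      show N.relIndex (N ⊔ (P : Subgroup G)) = N.relIndex (P : Subgroup G)
      rw [Subgroup.relIndex_sup_left]
    rw [h1]
    exact IsPGroup.index P.isPGroup' _
  obtain ⟨χ, h1, h2, h3⟩ := aux N p M hM P θ hθ hdeg _ le_sup_left le_sup_right hidx η hη
  refine ⟨χ, h1, h2, ?_⟩
  convert h3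

end Cfsg.Agent.S4583
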