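import Cfsg.Statements.S4584
import Mathlib

set_option autoImplicit false

open Cfsg

namespace Cfsg.Agent.S4584

open scoped commutatorElement
open Subgroup

/-- in a finite `p`-group a proper inclusion multiplies the order by at least `p` -/
theorem card_mul_le_of_lt {p : ℕ} [Fact p.Prime] {P : Type*} [Group P] [Finite P]
    (hP : IsPGroup p P) {H K : Subgroup P} (h : H < K) : p * Nat.card H ≤ Nat.card K := by
  obtain ⟨a, ha⟩ := (hP.to_subgroup H).exists_card_eq
  obtain ⟨b, hb⟩ := (hP.to_subgroup K).exists_card_eq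
  have hp : 1 < p := (Fact.out : p.Prime).one_lt
  have hlt : Nat.card H < Nat.card K := by
    by_contra hcon
    exact h.ne (Subgroup.eq_of_le_of_card_ge h.le (not_lt.1 hcon))
  rw [ha, hb] at hlt ⊢
  have hab : a < b := (Nat.pow_lt_pow_iff_right hp).1 hlt
  calc p * p ^ a = p ^ (a + 1) := by ring
    _ ≤ p ^ b := Nat.pow_le_pow_right hp.le hab

/-- the class of `x` has at most `|G'|` elements -/
theorem index_centralizer_le {P : Type*} [Group P] [Finite P] (x : P) :
    (centralizer ({x} : Set P)).index ≤ Nat.card (commutator P) := by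
  rw [Subgroup.index_eq_card]
  let f : P ⧸ centralizer ({x} : Set P) → commutator P := fun q =>
    ⟨⁅q.out, x⁆, Subgroup.commutator_mem_commutator (mem_top _) (mem_top _)⟩
  refine Nat.card_le_card_of_injective f ?_
  intro q q' h
  have h1 : ⁅q.out, x⁆ = ⁅q'.out, x⁆ := congrArg Subtype.val h
  rw [← QuotientGroup.out_eq' q, ← QuotientGroup.out_eq' q', QuotientGroup.eq,
    mem_centralizer_singleton_iff]
  rw [commutatorElement_def, commutatorElement_def] at h1
  have h2 : q.out * x * q.out⁻¹ = q'.out * x * q'.out⁻¹ := mul_right_cancel h1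
  calc q.out⁻¹ * q'.out * x = q.out⁻¹ * (q'.out * x * q'.out⁻¹) * q'.out := by group
    _ = q.out⁻¹ * (q.out * x * q.out⁻¹) * q'.out := by rw [h2]
    _ = _ := by group

/-- a non-abelian finite `p`-group has centre of index at least `p ^ 2` -/
theorem sq_le_index_center {p : ℕ} [Fact p.Prime] {P : Type*} [Group P] [Finite P]
    (hP : IsPGroup p P) (hna : ¬ IsMulCommutative P) : p ^ 2 ≤ (center P).index := by
  obtain ⟨k, hk⟩ := hP.index (center P)
  have hp : 1 < p := (Fact.out : p.Prime).one_lt
  rw [hk]
  refine Nat.pow_le_pow_right hp.le ?_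
  by_contra hlt
  have hk' : k = 0 ∨ k = 1 := by omega
  rcases hk' with rfl | rfl
  · rw [pow_zero, Subgroup.index_eq_one, center_eq_top_iff] at hk
    exact hna hk
  · rw [pow_one, Subgroup.index_eq_card] at hk
    have hcyc : IsCyclic (P ⧸ center P) := isCyclic_of_prime_card hk
    exact hna ((QuotientGroup.mk' (center P)).isMulCommutative_of_isCyclic_of_ker_le_center (by simp))

/-- in class two, `g ↦ [g, a]` is a homomorphism -/
noncomputable def commHom {P : Type*} [Group P] (hZ : commutator P ≤ center P) (a : P) : P →* P where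
  toFun g := ⁅g, a⁆
  map_one' := by simp
  map_mul' g h := by
    have h1 : ⁅h, a⁆ ∈ center P := hZ (Subgroup.commutator_mem_commutator (mem_top _) (mem_top _))
    rw [mem_center_iff] at h1
    have h2 := h1 g
    rw [commutatorElement_def] at h2
    rw [commutatorElement_def, commutatorElement_def, commutatorElement_def]
    calc g * h * a * (g * h)⁻¹ * a⁻¹ = (g * (h * a * h⁻¹ * a⁻¹)) * a * g⁻¹ * a⁻¹ := by group
      _ = ((h * a * h⁻¹ * a⁻¹) * g) * a * g⁻¹ * a⁻¹ := by rw [h2]
      _ = (h * a * h⁻¹ * a⁻¹) * (g * a * g⁻¹ * a⁻¹) := by group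
      _ = _ := (h1 _).symm

theorem commHom_apply {P : Type*} [Group P] (hZ : commutator P ≤ center P) (a g : P) :
    commHom hZ a g = ⁅g, a⁆ := rfl

theorem forward {P : Type*} [Group P] [Finite P] (p : ℕ) [Fact p.Prime] (hP : Nat.card P = p ^ 4)
    (h : Nat.card (commutator P) = p) : (Subgroup.center P).index = p ^ 2 := by
  have hp : 1 < p := (Fact.out : p.Prime).one_lt
  have hp0 : 0 < p := by omega
  have hPG : IsPGroup p P := IsPGroup.of_card hP
  have hna : ¬ IsMulCommutative P := by
    intro hc
    rw [(commutator_eq_bot_iff P).2 hc, Subgroup.card_bot] at h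
    omega
  have hge := sq_le_index_center hPG hna
  have htop : Nat.card (⊤ : Subgroup P) = p ^ 4 := by rw [Subgroup.card_top, hP]
  -- centralizers have order at least p^3
  have hcen : ∀ x : P, p ^ 3 ≤ Nat.card (centralizer ({x} : Set P)) := by
    intro x
    have h1 := index_centralizer_le x
    rw [h] at h1
    have h2 := Subgroup.card_mul_index (centralizer ({x} : Set P))
    rw [hP] at h2
    by_contra hlt
    have : Nat.card (centralizer ({x} : Set P)) * (centralizer ({x} : Set P)).index < p ^ 3 * p :=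
      Nat.mul_lt_mul_of_lt_of_le (not_le.1 hlt) h1 hp0
    rw [h2] at this
    have e : p ^ 3 * p = p ^ 4 := by ring
    omega
  obtain ⟨x, hx⟩ : ∃ x : P, x ∉ center P := by
    by_contra hcon
    push Not at hcon
    exact hna (center_eq_top_iff.1 (eq_top_iff.2 fun g _ => hcon g))
  set Cx := centralizer ({x} : Set P) with hCx
  obtain ⟨y, hy⟩ : ∃ y : P, y ∉ Cx := by
    by_contra hcon
    push Not at hcon
    apply hx
    rw [mem_center_iff]
    intro g
    exact (mem_centralizer_singleton_iff.1 (hcon g))
  set Cy := centralizer ({y} : Set P) with hCy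
  have hCxlt : Cx < ⊤ := lt_top_iff_ne_top.2 fun e => hy (e ▸ mem_top y)
  have hCx3 : Nat.card Cx = p ^ 3 := by
    have h1 := card_mul_le_of_lt hPG hCxlt
    rw [htop] at h1
    have h2 : Nat.card Cx ≤ p ^ 3 := by
      have e : p ^ 4 = p * p ^ 3 := by ring
      rw [e] at h1
      exact Nat.le_of_mul_le_mul_left h1 hp0
    exact le_antisymm h2 (hcen x)
  set D := Cx ⊓ Cy with hD
  have hxCx : x ∈ Cx := mem_centralizer_singleton_iff.2 rfl
  have hyCy : y ∈ Cy := mem_centralizer_singleton_iff.2 rfl
  have hxCy : x ∉ Cy := by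
    intro hxy
    apply hy
    rw [hCx, mem_centralizer_singleton_iff]
    exact (mem_centralizer_singleton_iff.1 hxy).symm
  have hDlt : D < Cx := lt_of_le_of_ne inf_le_left fun e => hxCy ((e ▸ hxCx : x ∈ D).2)
  have hD2 : Nat.card D = p ^ 2 := by
    have h1 := card_mul_le_of_lt hPG hDlt
    rw [hCx3] at h1
    have h2 : Nat.card D ≤ p ^ 2 := by
      have e : p ^ 3 = p * p ^ 2 := by ring
      rw [e] at h1
      exact Nat.le_of_mul_le_mul_left h1 hp0
    refine le_antisymm h2 ?_
    have h3 : D.index ≤ p * p := by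
      refine (Subgroup.index_inf_le (H := Cx) (K := Cy)).trans ?_
      have i1 := index_centralizer_le x
      have i2 := index_centralizer_le y
      rw [h] at i1 i2
      exact Nat.mul_le_mul i1 i2
    have h4 := Subgroup.card_mul_index D
    rw [hP] at h4
    by_contra hlt
    have : Nat.card D * D.index < p ^ 2 * (p * p) :=
      Nat.mul_lt_mul_of_lt_of_le (not_le.1 hlt) h3 (by positivity)
    rw [h4] at this
    have e : p ^ 2 * (p * p) = p ^ 4 := by ring
    omega
  have hDc : IsMulCommutative D := IsPGroup.isMulCommutative_of_card_eq_prime_sq hD2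
  have hDZ : D ≤ center P := by
    intro d hd
    set H := centralizer ({d} : Set P) with hH
    have hDH : D ≤ H := by
      intro e he
      rw [hH, mem_centralizer_singleton_iff]
      exact congrArg Subtype.val (mul_comm' (⟨e, he⟩ : D) ⟨d, hd⟩)
    have hxH : x ∈ H := by
      rw [hH, mem_centralizer_singleton_iff]
      exact (mem_centralizer_singleton_iff.1 hd.1).symm
    have hyH : y ∈ H := by
      rw [hH, mem_centralizer_singleton_iff]
      exact (mem_centralizer_singleton_iff.1 hd.2).symm
    have h1 : D < H ⊓ Cx :=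
      lt_of_le_of_ne (le_inf hDH inf_le_left) fun e =>
        hxCy ((e ▸ (⟨hxH, hxCx⟩ : x ∈ H ⊓ Cx) : x ∈ D).2)
    have h2 := card_mul_le_of_lt hPG h1
    rw [hD2] at h2
    have h3 : H ⊓ Cx = Cx := by
      refine Subgroup.eq_of_le_of_card_ge inf_le_right ?_
      rw [hCx3]
      calc p ^ 3 = p * p ^ 2 := by ring
        _ ≤ _ := h2
    have h4 : Cx < H := lt_of_le_of_ne (h3 ▸ inf_le_left) fun e => hy (e ▸ hyH)
    have h5 := card_mul_le_of_lt hPG h4
    rw [hCx3] at h5
    have h6 : H = ⊤ := by
      refine Subgroup.eq_of_le_of_card_ge le_top ?_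
      rw [htop]
      calc p ^ 4 = p * p ^ 3 := by ring
        _ ≤ _ := h5
    rw [mem_center_iff]
    intro g
    have : g ∈ H := h6 ▸ mem_top g
    exact mem_centralizer_singleton_iff.1 this
  have hZ2 : p ^ 2 ≤ Nat.card (center P) := hD2 ▸ Subgroup.card_le_of_le hDZ
  have h7 := Subgroup.card_mul_index (center P)
  rw [hP] at h7
  refine le_antisymm ?_ hge
  by_contra hlt
  have : p ^ 2 * p ^ 2 < Nat.card (center P) * (center P).index :=
    Nat.mul_lt_mul_of_le_of_lt hZ2 (not_le.1 hlt) Nat.card_pos
  rw [h7] at this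
  have e : p ^ 2 * p ^ 2 = p ^ 4 := by ring
  omega

theorem backward {P : Type*} [Group P] [Finite P] (p : ℕ) [Fact p.Prime] (hP : Nat.card P = p ^ 4)
    (h : (Subgroup.center P).index = p ^ 2) : Nat.card (commutator P) = p := by
  have hpp : p.Prime := Fact.out
  have hp : 1 < p := hpp.one_lt
  have hp0 : 0 < p := by omega
  have hPG : IsPGroup p P := IsPGroup.of_card hP
  have htop : Nat.card (⊤ : Subgroup P) = p ^ 4 := by rw [Subgroup.card_top, hP]
  have hZ2 : Nat.card (center P) = p ^ 2 := by
    have h7 := Subgroup.card_mul_index (center P)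
    rw [hP, h] at h7
    have e : p ^ 4 = p ^ 2 * p ^ 2 := by ring
    rw [e] at h7
    exact Nat.eq_of_mul_eq_mul_right (by positivity) h7
  have hna : ¬ IsMulCommutative P := by
    intro hc
    rw [center_eq_top_iff.2 hc, Subgroup.index_top] at h
    have : 1 < p ^ 2 := Nat.one_lt_pow (by omega) hp
    omega
  have hQc : IsMulCommutative (P ⧸ center P) :=
    IsPGroup.isMulCommutative_of_card_eq_prime_sq (p := p) (by rw [← Subgroup.index_eq_card, h])
  have hZ : commutator P ≤ center P := by
    rw [commutator_def, Subgroup.commutator_le]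
    intro a _ b _
    rw [← QuotientGroup.eq_one_iff, ← QuotientGroup.mk'_apply, map_commutatorElement,
      commutatorElement_eq_one_iff_mul_comm]
    exact mul_comm' _ _
  obtain ⟨a, ha⟩ : ∃ x : P, x ∉ center P := by
    by_contra hcon
    push Not at hcon
    exact hna (center_eq_top_iff.1 (eq_top_iff.2 fun g _ => hcon g))
  set Ca := centralizer ({a} : Set P) with hCa
  obtain ⟨b, hb⟩ : ∃ y : P, y ∉ Ca := by
    by_contra hcon
    push Not at hcon
    apply ha
    rw [mem_center_iff]
    intro g
    exact (mem_centralizer_singleton_iff.1 (hcon g))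
  have haCa : a ∈ Ca := mem_centralizer_singleton_iff.2 rfl
  have hZCa : center P ≤ Ca := Subgroup.center_le_centralizer _
  -- any subgroup containing Z, a, b is everything
  have hCa3 : Nat.card Ca = p ^ 3 := by
    have hCalt : Ca < ⊤ := lt_top_iff_ne_top.2 fun e => hb (e ▸ mem_top b)
    have h1 := card_mul_le_of_lt hPG hCalt
    rw [htop] at h1
    have h2 : Nat.card Ca ≤ p ^ 3 := by
      have e : p ^ 4 = p * p ^ 3 := by ring
      rw [e] at h1
      exact Nat.le_of_mul_le_mul_left h1 hp0
    refine le_antisymm h2 ?_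
    have h3 : center P < Ca := lt_of_le_of_ne hZCa fun e => ha (e ▸ haCa)
    have h4 := card_mul_le_of_lt hPG h3
    rw [hZ2] at h4
    calc p ^ 3 = p * p ^ 2 := by ring
      _ ≤ _ := h4
  have hgen : ∀ K : Subgroup P, center P ≤ K → a ∈ K → b ∈ K → K = ⊤ := by
    intro K hZK haK hbK
    have h1 : center P < K ⊓ Ca :=
      lt_of_le_of_ne (le_inf hZK hZCa) fun e => ha (e ▸ (⟨haK, haCa⟩ : a ∈ K ⊓ Ca))
    have h2 := card_mul_le_of_lt hPG h1
    rw [hZ2] at h2
    have h3 : K ⊓ Ca = Ca := by
      refine Subgroup.eq_of_le_of_card_ge inf_le_right ?_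
      rw [hCa3]
      calc p ^ 3 = p * p ^ 2 := by ring
        _ ≤ _ := h2
    have h4 : Ca < K := lt_of_le_of_ne (h3 ▸ inf_le_left) fun e => hb (e ▸ hbK)
    have h5 := card_mul_le_of_lt hPG h4
    rw [hCa3] at h5
    refine Subgroup.eq_of_le_of_card_ge le_top ?_
    rw [htop]
    calc p ^ 4 = p * p ^ 3 := by ring
      _ ≤ _ := h5
  set R := (commHom hZ a).range with hR
  have hker : (commHom hZ a).ker = Ca := by
    ext g
    rw [MonoidHom.mem_ker, commHom_apply, commutatorElement_eq_one_iff_mul_comm, hCa,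
      mem_centralizer_singleton_iff]
  have hRcard : Nat.card R = p := by
    rw [hR, ← Subgroup.index_ker, hker]
    have h7 := Subgroup.card_mul_index Ca
    rw [hP, hCa3] at h7
    have e : p ^ 4 = p ^ 3 * p := by ring
    rw [e] at h7
    exact Nat.eq_of_mul_eq_mul_left (by positivity) h7
  have hswap : ∀ u v : P, ⁅u, v⁆ ∈ R → ⁅v, u⁆ ∈ R := by
    intro u v huv
    rw [← commutatorElement_inv]
    exact inv_mem huv
  have hcz : ∀ v : P, center P ≤ R.comap (commHom hZ v) := by
    intro v z hz
    rw [mem_comap, commHom_apply]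
    have : ⁅z, v⁆ = 1 := by
      rw [commutatorElement_eq_one_iff_mul_comm]
      exact ((mem_center_iff.1 hz) v).symm
    rw [this]; exact one_mem _
  have hKa : ∀ g : P, ⁅g, a⁆ ∈ R := fun g => ⟨g, rfl⟩
  have hKb : ∀ g : P, ⁅g, b⁆ ∈ R := by
    have : R.comap (commHom hZ b) = ⊤ := by
      refine hgen _ (hcz b) ?_ ?_
      · rw [mem_comap, commHom_apply]; exact hswap _ _ (hKa b)
      · rw [mem_comap, commHom_apply, commutatorElement_self]; exact one_mem _
    intro g
    have hg : g ∈ R.comap (commHom hZ b) := this ▸ mem_top g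
    exact hg
  have hle : commutator P ≤ R := by
    rw [commutator_def, Subgroup.commutator_le]
    intro u _ v _
    have : R.comap (commHom hZ v) = ⊤ := by
      refine hgen _ (hcz v) ?_ ?_
      · rw [mem_comap, commHom_apply]; exact hswap _ _ (hKa v)
      · rw [mem_comap, commHom_apply]; exact hswap _ _ (hKb v)
    have hg : u ∈ R.comap (commHom hZ v) := this ▸ mem_top u
    exact hg
  have hdvd := Subgroup.card_dvd_of_le hle
  rw [hRcard] at hdvd
  rcases (Nat.dvd_prime hpp).1 hdvd with h1 | h1
  · exfalso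
    rw [Subgroup.card_eq_one, commutator_eq_bot_iff] at h1
    exact hna h1
  · exact h1

/-- Let p be a prime and P a group of order p^4. Then the derived subgroup P' has order p if and only if the centre Z(P) has index p^2 in P. -/
theorem result {P : Type*} [Group P] [Finite P] (p : ℕ) [Fact p.Prime] (hP : Nat.card P = p ^ 4) :
    Nat.card (commutator P) = p ↔ (Subgroup.center P).index = p ^ 2 := by
  exact ⟨forward p hP, backward p hP⟩

end Cfsg.Agent.S4584
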