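import Cfsg.Statements.S4585
import Cfsg.Agent.S4584
import Mathlib

set_option autoImplicit false

open Cfsg

namespace Cfsg.Agent.S4585

open scoped commutatorElement
open Subgroup

theorem comm_top_ne {G : Type*} [Group G] [Group.IsNilpotent G] {H : Subgroup G} (hH : H ≠ ⊥) :
    ⁅H, (⊤ : Subgroup G)⁆ ≠ H := by
  intro h
  have key : ∀ n, H ≤ (⊤ : Subgroup G).lowerCentralSeries n := by
    intro n
    induction n with
    | zero => exact le_top
    | succ n ih =>
      rw [Subgroup.lowerCentralSeries_succ]
      calc H = ⁅H, ⊤⁆ := h.symm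
        _ ≤ _ := commutator_mono ih le_rfl
  apply hH
  rw [eq_bot_iff, ← Subgroup.lowerCentralSeries_nilpotencyClass (G := G)]
  exact key _

theorem comm_top_lt {G : Type*} [Group G] [Group.IsNilpotent G] {H : Subgroup G} [H.Normal]
    (hH : H ≠ ⊥) : ⁅H, (⊤ : Subgroup G)⁆ < H :=
  lt_of_le_of_ne (Subgroup.commutator_le_left H ⊤) (comm_top_ne hH)

theorem commutator_sup_le {P : Type*} [Group P] {E : Subgroup P} (hE : IsMulCommutative ↥E) :
    ⁅E ⊔ commutator P, E ⊔ commutator P⁆ ≤ ⁅commutator P, (⊤ : Subgroup P)⁆ := by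
  set D : Subgroup P := commutator P with hD
  set T : Subgroup P := ⁅D, (⊤ : Subgroup P)⁆ with hT
  have hDn : D.Normal := by rw [hD]; infer_instance
  have hTn : T.Normal := by rw [hT]; infer_instance
  have hcen : ∀ d ∈ D, ∀ g : P, Commute (QuotientGroup.mk' T d) (QuotientGroup.mk' T g) := by
    intro d hd g
    have h1 : ⁅d, g⁆ ∈ T := Subgroup.commutator_mem_commutator hd (mem_top g)
    have h2 : QuotientGroup.mk' T ⁅d, g⁆ = 1 := (QuotientGroup.eq_one_iff _).2 h1
    rw [map_commutatorElement, commutatorElement_eq_one_iff_commute] at h2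
    exact h2
  have hEE : ∀ a ∈ E, ∀ b ∈ E, Commute (QuotientGroup.mk' T a) (QuotientGroup.mk' T b) := by
    intro a ha b hb
    have h1 : a * b = b * a := by
      have := mul_comm' (⟨a, ha⟩ : E) ⟨b, hb⟩
      exact congrArg Subtype.val this
    have : Commute a b := h1
    exact this.map (QuotientGroup.mk' T)
  rw [Subgroup.commutator_le]
  intro a ha b hb
  obtain ⟨e1, he1, d1, hd1, rfl⟩ := Subgroup.mem_sup_of_normal_right.1 ha
  obtain ⟨e2, he2, d2, hd2, rfl⟩ := Subgroup.mem_sup_of_normal_right.1 hb
  rw [← QuotientGroup.eq_one_iff, ← QuotientGroup.mk'_apply, map_commutatorElement,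
    commutatorElement_eq_one_iff_commute, map_mul, map_mul]
  refine Commute.mul_left (Commute.mul_right (hEE _ he1 _ he2) (hcen _ hd2 _).symm) ?_
  rw [← map_mul]
  exact hcen _ hd1 _

/-- a non-abelian finite `p`-group has derived subgroup of index at least `p ^ 2` -/
theorem sq_le_index_commutator {p : ℕ} [Fact p.Prime] {P : Type*} [Group P] [Finite P]
    (hP : IsPGroup p P) (hna : ¬ IsMulCommutative P) : p ^ 2 ≤ (commutator P).index := by
  haveI : Group.IsNilpotent P := hP.isNilpotent
  obtain ⟨k, hk⟩ := hP.index (commutator P)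
  have hp : 1 < p := (Fact.out : p.Prime).one_lt
  have hD : commutator P ≠ ⊥ := fun h => hna ((commutator_eq_bot_iff P).1 h)
  rw [hk]
  refine Nat.pow_le_pow_right hp.le ?_
  by_contra hlt
  have hcyc : IsCyclic (P ⧸ commutator P) := by
    have hk' : k = 0 ∨ k = 1 := by omega
    rcases hk' with rfl | rfl
    · rw [pow_zero, Subgroup.index_eq_card] at hk
      haveI : Subsingleton (P ⧸ commutator P) := (Nat.card_eq_one_iff_unique.1 hk).1
      infer_instance
    · rw [pow_one, Subgroup.index_eq_card] at hk
      exact isCyclic_of_prime_card hk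
  obtain ⟨q, hq⟩ := IsCyclic.exists_generator (α := P ⧸ commutator P)
  obtain ⟨g, rfl⟩ := QuotientGroup.mk_surjective q
  have htop : zpowers g ⊔ commutator P = ⊤ := by
    rw [eq_top_iff]
    intro y _
    obtain ⟨n, hn⟩ := Subgroup.mem_zpowers_iff.1 (hq (y : P ⧸ commutator P))
    rw [← QuotientGroup.mk_zpow, QuotientGroup.eq] at hn
    have : y = g ^ n * ((g ^ n)⁻¹ * y) := by group
    rw [this]
    exact mul_mem (mem_sup_left (zpow_mem (mem_zpowers g) n)) (mem_sup_right hn)
  have h1 := commutator_sup_le (P := P) (E := zpowers g) inferInstance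
  rw [htop] at h1
  exact (comm_top_lt hD).not_ge h1

/-- Let p be a prime and P a group of order p^4. Then P' has index p^2 in P if and only if P has maximal nilpotency class, that is, nilpotency class exactly 3. -/
theorem result {P : Type*} [Group P] [Finite P] (p : ℕ) [Fact p.Prime] (hP : Nat.card P = p ^ 4) :
    (commutator P).index = p ^ 2 ↔ Group.nilpotencyClass P = 3 := by
  have hpp : p.Prime := Fact.out
  have hp : 1 < p := hpp.one_lt
  have hp0 : 0 < p := by omega
  have hPG : IsPGroup p P := IsPGroup.of_card hP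
  haveI : Group.IsNilpotent P := hPG.isNilpotent
  have hci := Subgroup.card_mul_index (commutator P)
  rw [hP] at hci
  set D := commutator P with hD
  set T : Subgroup P := ⁅D, (⊤ : Subgroup P)⁆ with hT
  have hl2 : (⊤ : Subgroup P).lowerCentralSeries 2 = T := rfl
  have hl3 : (⊤ : Subgroup P).lowerCentralSeries 3 = ⁅T, (⊤ : Subgroup P)⁆ := rfl
  haveI hDn : D.Normal := by rw [hD]; infer_instance
  haveI hTn : T.Normal := by rw [hT]; infer_instance
  constructor
  · intro h
    have hD2 : Nat.card D = p ^ 2 := by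
      rw [h] at hci
      have e : p ^ 4 = p ^ 2 * p ^ 2 := by ring
      rw [e] at hci
      exact Nat.eq_of_mul_eq_mul_right (by positivity) hci
    have hDne : D ≠ ⊥ := by
      intro e
      rw [e, Subgroup.card_bot] at hD2
      have : 1 < p ^ 2 := Nat.one_lt_pow (by omega) hp
      omega
    have hna : ¬ IsMulCommutative P := fun hc => hDne ((commutator_eq_bot_iff P).2 hc)
    have hTne : T ≠ ⊥ := by
      intro e
      rw [hT, Subgroup.commutator_eq_bot_iff_le_centralizer, Subgroup.coe_top,
        Subgroup.centralizer_univ] at e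
      have h1 : p ^ 2 ≤ Nat.card (center P) := hD2 ▸ Subgroup.card_le_of_le e
      have h2 := S4584.sq_le_index_center hPG hna
      have h7 := Subgroup.card_mul_index (center P)
      rw [hP] at h7
      have h3 : (center P).index = p ^ 2 := by
        refine le_antisymm ?_ h2
        by_contra hlt
        have : p ^ 2 * p ^ 2 < Nat.card (center P) * (center P).index :=
          Nat.mul_lt_mul_of_le_of_lt h1 (not_le.1 hlt) Nat.card_pos
        rw [h7] at this
        have e : p ^ 2 * p ^ 2 = p ^ 4 := by ring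
        omega
      have h4 := S4584.backward p hP h3
      rw [← hD, hD2] at h4
      have : p < p ^ 2 := by nlinarith
      omega
    have hT1 : Nat.card T ≤ p := by
      have h1 := S4584.card_mul_le_of_lt hPG (comm_top_lt hDne)
      rw [hD2, ← hT] at h1
      have e : p ^ 2 = p * p := by ring
      rw [e] at h1
      exact Nat.le_of_mul_le_mul_left h1 hp0
    have hU : ⁅T, (⊤ : Subgroup P)⁆ = ⊥ := by
      have h1 := S4584.card_mul_le_of_lt hPG (comm_top_lt hTne)
      have h2 : p * Nat.card ↥⁅T, (⊤ : Subgroup P)⁆ ≤ p * 1 := by omega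
      have h3 := Nat.le_of_mul_le_mul_left h2 hp0
      have h4 : 0 < Nat.card ↥⁅T, (⊤ : Subgroup P)⁆ := Nat.card_pos
      exact Subgroup.card_eq_one.1 (by omega)
    have hle : Group.nilpotencyClass P ≤ 3 := by
      rw [← Subgroup.lowerCentralSeries_eq_bot_iff_nilpotencyClass_le, hl3, hU]
    have hge : ¬ Group.nilpotencyClass P ≤ 2 := by
      rw [← Subgroup.lowerCentralSeries_eq_bot_iff_nilpotencyClass_le, hl2]
      exact hTne
    omega
  · intro h
    have hTne : T ≠ ⊥ := by
      rw [← hl2, Ne, Subgroup.lowerCentralSeries_eq_bot_iff_nilpotencyClass_le]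
      omega
    have hna : ¬ IsMulCommutative P := by
      rw [← Group.IsNilpotent.nilpotencyClass_le_one_iff]
      omega
    have hDne : D ≠ ⊥ := fun e => hna ((commutator_eq_bot_iff P).1 e)
    have h1 := S4584.card_mul_le_of_lt hPG (bot_lt_iff_ne_bot.2 hTne)
    rw [Subgroup.card_bot] at h1
    have h2 := S4584.card_mul_le_of_lt hPG (comm_top_lt hDne)
    rw [← hT] at h2
    have h3 : p ^ 2 ≤ Nat.card D := by nlinarith
    refine le_antisymm ?_ (sq_le_index_commutator hPG hna)
    by_contra hlt
    have : p ^ 2 * p ^ 2 < Nat.card D * D.index :=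
      Nat.mul_lt_mul_of_le_of_lt h3 (not_le.1 hlt) Nat.card_pos
    rw [hci] at this
    have e : p ^ 2 * p ^ 2 = p ^ 4 := by ring
    omega

end Cfsg.Agent.S4585
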