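import Cfsg.Statements.S4586
import Mathlib

set_option autoImplicit false

open Cfsg

namespace Cfsg.Agent.S4586

open scoped commutatorElement
open Subgroup

section L1

variable {Q : Type*} [Group Q] (B : Subgroup Q) [hBn : B.Normal]
  (hB : ∀ a ∈ B, ∀ b ∈ B, a * b = b * a) (y : Q)

include hBn in
theorem comm_mem (b : Q) (hb : b ∈ B) : ⁅y, b⁆ ∈ B := by
  rw [commutatorElement_def]
  exact mul_mem (hBn.conj_mem b hb y) (inv_mem hb)

/-- `b ↦ [y, b]` on an abelian normal subgroup -/
noncomputable def commB : B →* Q where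
  toFun b := ⁅y, (b : Q)⁆
  map_one' := by simp
  map_mul' a b := by
    have h1 := hB _ (comm_mem B y b b.2) _ (inv_mem a.2)
    rw [commutatorElement_def] at h1
    rw [commutatorElement_def, commutatorElement_def, commutatorElement_def]
    push_cast
    calc y * ((a : Q) * b) * y⁻¹ * ((a : Q) * b)⁻¹
        = y * a * y⁻¹ * ((y * b * y⁻¹ * (b : Q)⁻¹) * (a : Q)⁻¹) := by group
      _ = y * a * y⁻¹ * ((a : Q)⁻¹ * (y * b * y⁻¹ * (b : Q)⁻¹)) := by rw [h1]
      _ = _ := by group

theorem commB_apply (b : B) : commB B hB y b = ⁅y, (b : Q)⁆ := rfl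

theorem range_le : (commB B hB y).range ≤ B := by
  rintro _ ⟨b, rfl⟩
  exact comm_mem B y b b.2

theorem range_normal (htop : B ⊔ zpowers y = ⊤) : (commB B hB y).range.Normal := by
  set R := (commB B hB y).range with hR
  have hRB : R ≤ B := range_le B hB y
  have h1 : B ≤ normalizer (R : Set Q) := by
    intro b hb
    rw [mem_normalizer_iff]
    intro h
    constructor
    · intro hh
      have : b * h * b⁻¹ = h := by rw [hB b hb h (hRB hh)]; group
      rwa [this]
    · intro hh
      have hhB : h ∈ B := by
        have := hBn.conj_mem _ (hRB hh) b⁻¹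
        have e : b⁻¹ * (b * h * b⁻¹) * b⁻¹⁻¹ = h := by group
        rwa [e] at this
      have : b * h * b⁻¹ = h := by rw [hB b hb h hhB]; group
      rwa [this] at hh
  have h2 : y ∈ normalizer (R : Set Q) := by
    rw [mem_normalizer_iff]
    intro h
    constructor
    · rintro ⟨b, rfl⟩
      refine ⟨⟨y * b * y⁻¹, hBn.conj_mem b b.2 y⟩, ?_⟩
      rw [commB_apply, commB_apply, commutatorElement_def, commutatorElement_def]
      group
    · rintro ⟨b, hb⟩
      refine ⟨⟨y⁻¹ * b * y, by simpa using hBn.conj_mem b b.2 y⁻¹⟩, ?_⟩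
      rw [commB_apply] at hb ⊢
      have e : h = y⁻¹ * (y * h * y⁻¹) * y := by group
      rw [e, ← hb, commutatorElement_def, commutatorElement_def]
      group
  have h3 : normalizer (R : Set Q) = ⊤ := by
    rw [eq_top_iff, ← htop]
    exact sup_le h1 ((zpowers_le).2 h2)
  exact normalizer_eq_top_iff.1 h3

theorem commutator_eq_range (htop : B ⊔ zpowers y = ⊤) :
    commutator Q = (commB B hB y).range := by
  set R := (commB B hB y).range with hR
  haveI hRn : R.Normal := range_normal B hB y htop
  apply le_antisymm
  · set π := QuotientGroup.mk' R with hπ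
    have hyb : ∀ b ∈ B, π y * π b = π b * π y := by
      intro b hb
      rw [← commutatorElement_eq_one_iff_mul_comm, ← map_commutatorElement, hπ,
        QuotientGroup.mk'_apply, QuotientGroup.eq_one_iff]
      exact ⟨⟨b, hb⟩, rfl⟩
    have h1 : π y ∈ center (Q ⧸ R) := by
      have : (centralizer ({π y} : Set (Q ⧸ R))).comap π = ⊤ := by
        rw [eq_top_iff, ← htop]
        refine sup_le ?_ ((zpowers_le).2 ?_)
        · intro b hb
          rw [mem_comap, mem_centralizer_singleton_iff]
          exact (hyb b hb).symm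
        · rw [mem_comap, mem_centralizer_singleton_iff]
      rw [mem_center_iff]
      intro q
      obtain ⟨g, rfl⟩ := QuotientGroup.mk'_surjective R q
      have hg : g ∈ (centralizer ({π y} : Set (Q ⧸ R))).comap π := this ▸ mem_top g
      rw [mem_comap, mem_centralizer_singleton_iff] at hg
      exact hg
    have h2 : ∀ b ∈ B, π b ∈ center (Q ⧸ R) := by
      intro b hb
      have : (centralizer ({π b} : Set (Q ⧸ R))).comap π = ⊤ := by
        rw [eq_top_iff, ← htop]
        refine sup_le ?_ ((zpowers_le).2 ?_)
        · intro b' hb'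
          rw [mem_comap, mem_centralizer_singleton_iff, ← map_mul, ← map_mul, hB b' hb' b hb]
        · rw [mem_comap, mem_centralizer_singleton_iff]
          exact hyb b hb
      rw [mem_center_iff]
      intro q
      obtain ⟨g, rfl⟩ := QuotientGroup.mk'_surjective R q
      have hg : g ∈ (centralizer ({π b} : Set (Q ⧸ R))).comap π := this ▸ mem_top g
      rw [mem_comap, mem_centralizer_singleton_iff] at hg
      exact hg
    have h3 : (center (Q ⧸ R)).comap π = ⊤ := by
      rw [eq_top_iff, ← htop]
      exact sup_le (fun b hb => h2 b hb) ((zpowers_le).2 h1)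
    rw [commutator_def, Subgroup.commutator_le]
    intro g _ h _
    rw [← QuotientGroup.eq_one_iff, ← QuotientGroup.mk'_apply, map_commutatorElement,
      commutatorElement_eq_one_iff_mul_comm]
    have hg : g ∈ (center (Q ⧸ R)).comap π := h3 ▸ mem_top g
    rw [mem_comap, mem_center_iff] at hg
    exact (hg _).symm
  · rintro _ ⟨b, rfl⟩
    exact Subgroup.commutator_mem_commutator (mem_top _) (mem_top _)

end L1

theorem key {P : Type*} [Group P] [Finite P] (p : ℕ) [Fact p.Prime]
    (N : Subgroup P) [hNn : N.Normal] (hN : N.index = p) (x : P) (hx : x ∉ N) :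
    (commutator P).index * Nat.card (commutator N) = p *
      Nat.card {n : N // x * n * x⁻¹ * (n : P)⁻¹ ∈ (commutator N).map N.subtype} := by
  have hpp : p.Prime := Fact.out
  have hMeq : (commutator N).map N.subtype = ⁅N, N⁆ := map_subtype_commutator N
  have hMcard : Nat.card (commutator N) = Nat.card ↥⁅N, N⁆ := by
    rw [← hMeq, Subgroup.card_map_of_injective N.subtype_injective]
  rw [hMeq, hMcard]
  set M : Subgroup P := ⁅N, N⁆ with hM
  haveI hMn : M.Normal := by rw [hM]; infer_instance
  set π := QuotientGroup.mk' M with hπ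
  have hπs : Function.Surjective π := QuotientGroup.mk'_surjective M
  set B := N.map π with hBdef
  haveI hBn : B.Normal := hNn.map π hπs
  have hB : ∀ a ∈ B, ∀ b ∈ B, a * b = b * a := by
    rintro _ ⟨a, ha, rfl⟩ _ ⟨b, hb, rfl⟩
    rw [← commutatorElement_eq_one_iff_mul_comm, ← map_commutatorElement, hπ,
      QuotientGroup.mk'_apply, QuotientGroup.eq_one_iff]
    exact Subgroup.commutator_mem_commutator ha hb
  have htopP : N ⊔ zpowers x = ⊤ := by
    have h1 := Subgroup.index_dvd_of_le (le_sup_left : N ≤ N ⊔ zpowers x)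
    rw [hN] at h1
    rcases (Nat.dvd_prime hpp).1 h1 with h2 | h2
    · exact Subgroup.index_eq_one.1 h2
    · exfalso
      have h3 := Subgroup.relIndex_mul_index (le_sup_left : N ≤ N ⊔ zpowers x)
      rw [h2, hN] at h3
      have h4 : N.relIndex (N ⊔ zpowers x) = 1 := by
        have : N.relIndex (N ⊔ zpowers x) * p = 1 * p := by rw [h3, one_mul]
        exact Nat.eq_of_mul_eq_mul_right hpp.pos this
      rw [Subgroup.relIndex_eq_one] at h4
      exact hx (h4 (mem_sup_right (mem_zpowers x)))
  have htop : B ⊔ zpowers (π x) = ⊤ := by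
    rw [hBdef, ← MonoidHom.map_zpowers, ← Subgroup.map_sup, htopP,
      Subgroup.map_top_of_surjective π hπs]
  set ψ : N →* (P ⧸ M) := (commB B hB (π x)).comp (π.subgroupMap N) with hψ
  have hψa : ∀ n : N, ψ n = π ⁅x, (n : P)⁆ := by
    intro n
    rw [map_commutatorElement]
    rfl
  have hrange : ψ.range = commutator (P ⧸ M) := by
    rw [commutator_eq_range B hB (π x) htop, hψ, MonoidHom.range_comp,
      MonoidHom.range_eq_top.2 (π.subgroupMap_surjective N), ← MonoidHom.range_eq_map]
  have hker : Nat.card {n : N // x * n * x⁻¹ * (n : P)⁻¹ ∈ M} = Nat.card ψ.ker := by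
    refine Nat.card_congr (Equiv.subtypeEquivRight ?_)
    intro n
    rw [MonoidHom.mem_ker, hψa, hπ, QuotientGroup.mk'_apply, QuotientGroup.eq_one_iff,
      commutatorElement_def]
  have hcQ : commutator (P ⧸ M) = (commutator P).map π := by
    rw [commutator_def, commutator_def, Subgroup.map_commutator,
      Subgroup.map_top_of_surjective π hπs]
  have hMle : M ≤ commutator P := by
    rw [commutator_def]; exact commutator_mono le_top le_top
  have hidx : (commutator (P ⧸ M)).index = (commutator P).index := by
    rw [hcQ]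
    exact Subgroup.index_map_eq _ hπs (by rw [hπ, QuotientGroup.ker_mk']; exact hMle)
  -- counting
  have e1 := Subgroup.card_mul_index ψ.ker
  rw [Subgroup.index_ker, hrange] at e1
  have e2 := Subgroup.card_mul_index (commutator (P ⧸ M))
  rw [hidx] at e2
  have e3 := Subgroup.card_mul_index M
  rw [Subgroup.index_eq_card] at e3
  have e4 := Subgroup.card_mul_index N
  rw [hN] at e4
  rw [hker]
  set c := Nat.card ψ.ker
  set d := Nat.card (commutator (P ⧸ M))
  set i := (commutator P).index
  set m := Nat.card M
  have hd : 0 < d := Nat.card_pos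
  -- c * d = |N|, d * i = |Q|, m * |Q| = |P|, |N| * p = |P|
  have : d * (i * m) = d * (p * c) := by
    calc d * (i * m) = m * (d * i) := by ring
      _ = Nat.card P := by rw [e2, e3]
      _ = (c * d) * p := by rw [e1, e4]
      _ = d * (p * c) := by ring
  exact Nat.eq_of_mul_eq_mul_left hd this

/-- Let p be a prime, P a finite p-group and N a normal subgroup of P of index p. For x ∈ P write c(x) for the number of elements n of N whose commutator x n x⁻¹ n⁻¹ lies in the derived subgroup N' (so c(x)/#N' is the order of the centralizer of x acting on N/N'). Then [P : P'] = p² if and only if c(x) = p·#N' for every x ∈ P outside N, and also if and only if c(x) = p·#N' for some x ∈ P outside N. -/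
theorem result {P : Type*} [Group P] [Finite P] (p : ℕ) [Fact p.Prime] (hP : IsPGroup p P) (N : Subgroup P) [N.Normal] (hN : N.index = p) :
    ((commutator P).index = p ^ 2 ↔ ∀ x : P, x ∉ N →
        Nat.card {n : N // x * n * x⁻¹ * (n : P)⁻¹ ∈ (commutator N).map N.subtype} = p * Nat.card (commutator N)) ∧
    ((commutator P).index = p ^ 2 ↔ ∃ x : P, x ∉ N ∧
        Nat.card {n : N // x * n * x⁻¹ * (n : P)⁻¹ ∈ (commutator N).map N.subtype} = p * Nat.card (commutator N)) := by
  have hpp : p.Prime := Fact.out
  have hm : 0 < Nat.card (commutator N) := Nat.card_pos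
  have hiff : ∀ x : P, x ∉ N → ((commutator P).index = p ^ 2 ↔
      Nat.card {n : N // x * n * x⁻¹ * (n : P)⁻¹ ∈ (commutator N).map N.subtype}
        = p * Nat.card (commutator N)) := by
    intro x hx
    have hk := key p N hN x hx
    constructor
    · intro h
      rw [h] at hk
      have : p * (p * Nat.card (commutator N)) = p *
          Nat.card {n : N // x * n * x⁻¹ * (n : P)⁻¹ ∈ (commutator N).map N.subtype} := by
        rw [← hk]; ring
      exact (Nat.eq_of_mul_eq_mul_left hpp.pos this).symm
    · intro h
      rw [h] at hk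
      have : (commutator P).index * Nat.card (commutator N) = p ^ 2 * Nat.card (commutator N) := by
        rw [hk]; ring
      exact Nat.eq_of_mul_eq_mul_right hm this
  obtain ⟨x0, hx0⟩ : ∃ x : P, x ∉ N := by
    by_contra hcon
    push Not at hcon
    have : N = ⊤ := eq_top_iff.2 fun g _ => hcon g
    rw [this, Subgroup.index_top] at hN
    exact hpp.one_lt.ne hN
  refine ⟨⟨fun h x hx => (hiff x hx).1 h, fun h => (hiff x0 hx0).2 (h x0 hx0)⟩,
    ⟨fun h => ⟨x0, hx0, (hiff x0 hx0).1 h⟩, fun ⟨x, hx, h⟩ => (hiff x hx).2 h⟩⟩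

end Cfsg.Agent.S4586
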