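import Cfsg.Statements.S4602
import Cfsg.Agent.Lib.Helper76.PSolvable
import Cfsg.Agent.Lib.Helper22.CoprimeP

set_option autoImplicit false
open Cfsg

namespace Cfsg.Agent.S4602

open Cfsg.Agent.Lib.Helper76 Cfsg.Agent.Lib.Lead Cfsg.Agent.Lib.Helper32 Cfsg.Agent.Lib.Helper22

/-- An element which is both a `p`-element and a `q`-element is trivial. -/
theorem eq_one_of_two_primes {X : Type*} [Group X] {p q : ℕ} [Fact p.Prime] [Fact q.Prime]
    (hpq : p ≠ q) (x : X) (a b : ℕ) (ha : x ^ (p ^ a) = 1) (hb : x ^ (q ^ b) = 1) : x = 1 :=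
  eq_one_of_pow_eq_one_coprime
    (Nat.Coprime.pow a b ((Nat.coprime_primes Fact.out Fact.out).mpr hpq)) ha hb

/-- If a Sylow `p`-subgroup normalizes the `q`-subgroup `Q` of a `p`-solvable group, `Q ≤ O_{p'}(G)`. -/
theorem le_pPrimeCore_of_normalized {G : Type*} [Group G] [Finite G] (p q : ℕ) [Fact p.Prime]
    [Fact q.Prime] (hpq : p ≠ q) (hsolv : Cfsg.IsPSolvable p G) (P : Sylow p G) (Q : Subgroup G)
    (hQ : IsPGroup q Q) (hPQ : (P : Subgroup G) ≤ Subgroup.normalizer (Q : Set G)) :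
    Q ≤ Cfsg.pPrimeCore p G := by
  set K := Cfsg.pPrimeCore p G with hK
  let π := QuotientGroup.mk' K
  have hπ : Function.Surjective π := QuotientGroup.mk'_surjective K
  have hHH := centralizer_pCore_le (isPSolvable_quotient K hsolv) (pPrimeCore_quotient_pPrimeCore p G)
  have hRp : IsPGroup p (Cfsg.pCore p (G ⧸ K)) := pCore_isPGroup p _
  have hRle : Cfsg.pCore p (G ⧸ K) ≤ (P.mapSurjective hπ : Sylow p (G ⧸ K)) := pCore_le_sylow _
  intro x hx
  obtain ⟨b, hb⟩ := hQ ⟨x, hx⟩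
  have hb' : x ^ (q ^ b) = 1 := by simpa using congrArg Subtype.val hb
  have h1 : π x ∈ Subgroup.centralizer (Cfsg.pCore p (G ⧸ K) : Set (G ⧸ K)) := by
    rw [Subgroup.mem_centralizer_iff]
    intro r hr
    obtain ⟨u, hu, rfl⟩ := hRle hr
    -- the commutator
    have hc1 : u * x * u⁻¹ * x⁻¹ ∈ Q :=
      Q.mul_mem ((Subgroup.mem_normalizer_iff.mp (hPQ hu) x).mp hx) (Q.inv_mem hx)
    have hc2 : π (u * x * u⁻¹ * x⁻¹) ∈ Cfsg.pCore p (G ⧸ K) := by
      have e : π (u * x * u⁻¹ * x⁻¹) = π u * (π x * (π u)⁻¹ * (π x)⁻¹) := by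
        simp only [map_mul, map_inv]
        group
      rw [e]
      exact Subgroup.mul_mem _ hr
        (Subgroup.Normal.conj_mem inferInstance _ (Subgroup.inv_mem _ hr) _)
    obtain ⟨a, ha⟩ := hRp ⟨_, hc2⟩
    have ha' : π (u * x * u⁻¹ * x⁻¹) ^ (p ^ a) = 1 := by simpa using congrArg Subtype.val ha
    obtain ⟨c, hc⟩ := hQ ⟨_, hc1⟩
    have hc' : (u * x * u⁻¹ * x⁻¹) ^ (q ^ c) = 1 := by simpa using congrArg Subtype.val hc
    have h2 : π (u * x * u⁻¹ * x⁻¹) = 1 :=
      eq_one_of_two_primes hpq _ a c ha' (by rw [← map_pow, hc', map_one])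
    simp only [map_mul, map_inv] at h2
    calc π u * π x = (π u * π x * (π u)⁻¹ * (π x)⁻¹) * (π x * π u) := by group
      _ = π x * π u := by rw [h2, one_mul]
  have h2 : π x ∈ Cfsg.pCore p (G ⧸ K) := hHH h1
  obtain ⟨a, ha⟩ := hRp ⟨_, h2⟩
  have ha' : π x ^ (p ^ a) = 1 := by simpa using congrArg Subtype.val ha
  have h3 : π x = 1 := eq_one_of_two_primes hpq _ a b ha' (by rw [← map_pow, hb', map_one])
  exact (QuotientGroup.eq_one_iff x).mp h3

/-- Let G be a finite p-solvable group and q a prime different from p. Some Sylow p-subgroup of G normalizes some Sylow q-subgroup of G if and only if q does not divide the order of G/O_{p'}(G), the quotient by the largest normal subgroup of order prime to p. -/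
theorem result {G : Type*} [Group G] [Finite G] (p q : ℕ) [Fact p.Prime] [Fact q.Prime] (hpq : p ≠ q) (hsolv : Cfsg.IsPSolvable p G) :
    (∃ (P : Sylow p G) (Q : Sylow q G), (P : Subgroup G) ≤ Subgroup.normalizer ((Q : Subgroup G) : Set G)) ↔ ¬ q ∣ (Cfsg.pPrimeCore p G).index := by
  constructor
  · rintro ⟨P, Q, hPQ⟩ hdvd
    have h1 := le_pPrimeCore_of_normalized p q hpq hsolv P Q Q.2 hPQ
    exact Q.not_dvd_index (hdvd.trans (Subgroup.index_dvd_of_le h1))
  · intro hq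
    let P : Sylow p G := default
    have hK : ¬ p ∣ Nat.card (Cfsg.pPrimeCore p G) :=
      (Nat.Prime.coprime_iff_not_dvd Fact.out).mp (card_pPrimeCore_coprime p).symm
    obtain ⟨Q₀, hQ₀, hPQ₀⟩ := exists_invariant_isSylowIn (P : Subgroup G) (Cfsg.pPrimeCore p G) P.2 hK
      (by rw [Subgroup.normalizer_eq_top]; exact le_top) q
    refine ⟨P, ⟨Q₀, hQ₀.isPGroup, ?_⟩, hPQ₀⟩
    intro R hR hle
    exact hQ₀.eq_of_le hR (le_of_isPGroup_of_not_dvd_index _ hq R hR) hle

end Cfsg.Agent.S4602
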