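import Cfsg.Statements.S4601
import Cfsg.Agent.S4602
import Cfsg.Agent.Lib.Helper76.SylowAux

set_option autoImplicit false
open Cfsg

namespace Cfsg.Agent.S4601

open Cfsg.Agent.Lib.Helper76 Cfsg.Agent.Lib.Lead Cfsg.Agent.Lib.Helper32 Cfsg.Agent.Lib.Helper22

/-- The class-size hypothesis. -/
def Hyp (p q : ℕ) (G : Type*) [Group G] : Prop :=
  ∀ y : G, (∃ k : ℕ, orderOf y = q ^ k) → ¬ p ∣ (Subgroup.centralizer ({y} : Set G)).index

/-- The hypothesis passes to quotients. -/
theorem Hyp.quotient {G : Type*} [Group G] [Finite G] {p q : ℕ} [Fact q.Prime]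
    (h : Hyp p q G) (N : Subgroup G) [N.Normal] : Hyp p q (G ⧸ N) := by
  intro y ⟨k, hk⟩ hdvd
  have hπ : Function.Surjective (QuotientGroup.mk' N) := QuotientGroup.mk'_surjective N
  obtain ⟨S, hS⟩ := (isPGroup_zpowers_of_orderOf hk).exists_le_sylow
  obtain ⟨Q, rfl⟩ := Sylow.mapSurjective_surjective hπ q S
  obtain ⟨x, hx, rfl⟩ := hS (Subgroup.mem_zpowers y)
  apply h x (exists_orderOf_eq_of_mem Q.2 hx)
  have h1 : (Subgroup.centralizer ({x} : Set G)).map (QuotientGroup.mk' N) ≤
      Subgroup.centralizer ({QuotientGroup.mk' N x} : Set (G ⧸ N)) := by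
    rintro _ ⟨c, hc, rfl⟩
    have hc' := Subgroup.mem_centralizer_singleton_iff.mp hc
    rw [Subgroup.mem_centralizer_singleton_iff, ← map_mul, ← map_mul, hc']
  exact (hdvd.trans (Subgroup.index_dvd_of_le h1)).trans (Subgroup.index_map_dvd _ hπ)

/-- Pulling back along a quotient by a normal `q`-subgroup. -/
theorem pull_back_q {G : Type*} [Group G] [Finite G] (p q : ℕ) [Fact p.Prime] [Fact q.Prime]
    (S : Subgroup G) [S.Normal] (hS : IsPGroup q S)
    (h : ∃ (P : Sylow p (G ⧸ S)) (Q : Sylow q (G ⧸ S)),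
      (P : Subgroup (G ⧸ S)) ≤ Subgroup.normalizer ((Q : Subgroup (G ⧸ S)) : Set (G ⧸ S))) :
    ∃ (P : Sylow p G) (Q : Sylow q G),
      (P : Subgroup G) ≤ Subgroup.normalizer ((Q : Subgroup G) : Set G) := by
  have hπ : Function.Surjective (QuotientGroup.mk' S) := QuotientGroup.mk'_surjective S
  obtain ⟨P', Q', hPQ⟩ := h
  obtain ⟨P, rfl⟩ := Sylow.mapSurjective_surjective hπ p P'
  obtain ⟨Q, rfl⟩ := Sylow.mapSurjective_surjective hπ q Q'
  have hSQ : S ≤ Q := (le_pCore inferInstance hS).trans (pCore_le_sylow Q)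
  refine ⟨P, Q, ?_⟩
  rw [Subgroup.le_normalizer_iff]
  intro u hu x hx
  have h1 : QuotientGroup.mk' S u ∈ (P.mapSurjective hπ : Subgroup (G ⧸ S)) := ⟨u, hu, rfl⟩
  have h2 : QuotientGroup.mk' S x ∈ (Q.mapSurjective hπ : Subgroup (G ⧸ S)) := ⟨x, hx, rfl⟩
  obtain ⟨z, hz, hzz⟩ := (Subgroup.mem_normalizer_iff.mp (hPQ h1) _).mp h2
  have h3 : z⁻¹ * (u * x * u⁻¹) ∈ S := by
    rw [← QuotientGroup.eq_one_iff]
    show QuotientGroup.mk' S (z⁻¹ * (u * x * u⁻¹)) = 1
    simp only [map_mul, map_inv, hzz]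
    group
  have : u * x * u⁻¹ = z * (z⁻¹ * (u * x * u⁻¹)) := by group
  rw [this]
  exact Subgroup.mul_mem _ hz (hSQ h3)

/-- Pulling back along a quotient by a normal `q'`-subgroup, using the hypothesis. -/
theorem pull_back_q' {G : Type*} [Group G] [Finite G] (p q : ℕ) [Fact p.Prime] [Fact q.Prime]
    (hH : Hyp p q G)
    (K : Subgroup G) [K.Normal] (hK : ¬ q ∣ Nat.card K)
    (h : ∃ (P : Sylow p (G ⧸ K)) (Q : Sylow q (G ⧸ K)),
      (P : Subgroup (G ⧸ K)) ≤ Subgroup.normalizer ((Q : Subgroup (G ⧸ K)) : Set (G ⧸ K))) :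
    ∃ (P : Sylow p G) (Q : Sylow q G),
      (P : Subgroup G) ≤ Subgroup.normalizer ((Q : Subgroup G) : Set G) := by
  have hπ : Function.Surjective (QuotientGroup.mk' K) := QuotientGroup.mk'_surjective K
  obtain ⟨P', Q', hPQ⟩ := h
  obtain ⟨P, rfl⟩ := Sylow.mapSurjective_surjective hπ p P'
  obtain ⟨Q, rfl⟩ := Sylow.mapSurjective_surjective hπ q Q'
  have hnK : ∀ A : Subgroup G, A ≤ Subgroup.normalizer (K : Set G) := by
    intro A
    rw [Subgroup.normalizer_eq_top]
    exact le_top
  obtain ⟨P₀, hP₀, hQP₀⟩ := exists_invariant_isSylowIn (Q : Subgroup G) K Q.2 hK (hnK _) p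
  -- every element of `Q` centralizes `P₀`
  have hcent : P₀ ≤ Subgroup.centralizer ((Q : Subgroup G) : Set G) := by
    intro w hw
    rw [Subgroup.mem_centralizer_iff]
    intro y hy
    obtain ⟨Py, hPy⟩ := exists_sylow_le_of_not_dvd_index _ (hH y (exists_orderOf_eq_of_mem Q.2 hy))
    have hA : IsPGroup q (Subgroup.zpowers y) := Q.2.to_le (Subgroup.zpowers_le.mpr hy)
    have hA1 : Subgroup.zpowers y ≤ Subgroup.normalizer (((Py : Subgroup G) ⊓ K : Subgroup G) : Set G) := by
      rw [Subgroup.zpowers_le, Subgroup.mem_normalizer_iff]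
      intro v
      have key : ∀ v ∈ ((Py : Subgroup G) ⊓ K : Subgroup G), y * v * y⁻¹ = v := by
        intro v hv
        have := Subgroup.mem_centralizer_singleton_iff.mp (hPy hv.1)
        rw [← this]; group
      constructor
      · intro hv
        rw [key v hv]; exact hv
      · intro hv
        have h2 := key _ hv
        have h3 : y * v * y⁻¹ = v := by
          have : y * (y * v * y⁻¹) * y⁻¹ = y * v * y⁻¹ := h2
          have h4 := congrArg (fun t => y⁻¹ * t * y) this
          simpa [mul_assoc] using h4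
        rw [← h3]; exact hv
    have hA2 : Subgroup.zpowers y ≤ Subgroup.normalizer (P₀ : Set G) :=
      (Subgroup.zpowers_le.mpr hy).trans hQP₀
    obtain ⟨c, hc, hcc⟩ := IsSylowIn.exists_conj_centralizer hA hK (hnK _)
      (isSylowIn_inf_normal Py K) hP₀ hA1 hA2
    rw [← hcc, mem_conjS] at hw
    have hcy : y * c = c * y :=
      (Subgroup.mem_centralizer_iff.mp hc.2 y (Subgroup.mem_zpowers y))
    have hwy := Subgroup.mem_centralizer_singleton_iff.mp (hPy hw.1)
    -- `hwy : (c⁻¹ w c) y = y (c⁻¹ w c)`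
    have hcy' : c⁻¹ * y = y * c⁻¹ := by
      calc c⁻¹ * y = c⁻¹ * (y * c) * c⁻¹ := by group
        _ = c⁻¹ * (c * y) * c⁻¹ := by rw [hcy]
        _ = y * c⁻¹ := by group
    calc y * w = c * (y * (c⁻¹ * w * c)) * c⁻¹ := by
          rw [← mul_assoc c y, ← hcy]; group
      _ = c * ((c⁻¹ * w * c) * y) * c⁻¹ := by rw [hwy]
      _ = w * (c * y) * c⁻¹ := by group
      _ = w * (y * c) * c⁻¹ := by rw [hcy]
      _ = w * y := by group
  set N := Subgroup.normalizer ((Q : Subgroup G) : Set G) with hN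
  have hP₀N : P₀ ≤ N := hcent.trans (Subgroup.centralizer_le_normalizer _)
  have h1 : ¬ p ∣ N.relIndex K := by
    intro hd
    apply IsSylowIn.not_dvd_relIndex hP₀
    exact hd.trans (Subgroup.relIndex_dvd_of_le_left K hP₀N)
  -- Frattini
  set L := (Q.mapSurjective hπ : Subgroup (G ⧸ K)).comap (QuotientGroup.mk' K) with hL
  have hQL : (Q : Subgroup G) ≤ L := fun x hx => ⟨x, hx, rfl⟩
  have hLle : L ≤ N ⊔ K := by
    intro l hl
    obtain ⟨x, hx, hxl⟩ := hl
    have h3 : x⁻¹ * l ∈ K := by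
      rw [← QuotientGroup.eq_one_iff]
      show QuotientGroup.mk' K (x⁻¹ * l) = 1
      rw [map_mul, map_inv, hxl]; group
    have : l = x * (x⁻¹ * l) := by group
    rw [this]
    exact Subgroup.mul_mem _ (Subgroup.mem_sup_left (Subgroup.le_normalizer hx))
      (Subgroup.mem_sup_right h3)
  have hQsyl : IsSylowIn q (Q : Subgroup G) L :=
    isSylowIn_of_not_dvd_relIndex _ _ hQL Q.2
      (fun hd => Q.not_dvd_index (hd.trans (Subgroup.relIndex_dvd_index_of_le hQL)))
  have hPle : (P : Subgroup G) ≤ N ⊔ K := by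
    intro u hu
    have hu1 : QuotientGroup.mk' K u ∈ (P.mapSurjective hπ : Subgroup (G ⧸ K)) := ⟨u, hu, rfl⟩
    have hu2 := hPQ hu1
    have hle : conjS u (Q : Subgroup G) ≤ L := by
      rintro _ ⟨x, hx, rfl⟩
      show QuotientGroup.mk' K (u * x * u⁻¹) ∈ (Q.mapSurjective hπ : Subgroup (G ⧸ K))
      rw [map_mul, map_mul, map_inv]
      exact (Subgroup.mem_normalizer_iff.mp hu2 _).mp ⟨x, hx, rfl⟩
    have hsyl : IsSylowIn q (conjS u (Q : Subgroup G)) L := by
      apply isSylowIn_of_not_dvd_relIndex _ _ hle (Q.2.map _)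
      intro hd
      have h5 := hd.trans (Subgroup.relIndex_dvd_index_of_le hle)
      have h6 : (conjS u (Q : Subgroup G)).index = (Q : Subgroup G).index :=
        Subgroup.index_map_of_bijective (MulAut.conj u).bijective _
      rw [h6] at h5
      exact Q.not_dvd_index h5
    obtain ⟨l, hl, hlu⟩ := hsyl.exists_conj hQsyl
    rw [← conjS_mul] at hlu
    have h7 : l * u ∈ N := Subgroup.mem_normalizer_iff_map_conj_eq.mpr hlu
    have : u = l⁻¹ * (l * u) := by group
    rw [this]
    exact Subgroup.mul_mem _ (Subgroup.inv_mem _ (hLle hl)) (Subgroup.mem_sup_left h7)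
  have h2 : ¬ p ∣ (N ⊔ K).index := fun hd => P.not_dvd_index (hd.trans (Subgroup.index_dvd_of_le hPle))
  obtain ⟨P₁, hP₁⟩ := exists_sylow_le_of_not_dvd_index N (not_dvd_index_of_sup N K h2 h1)
  exact ⟨P₁, Q, hP₁⟩

/-- The `q`-solvable case, by induction on the order. -/
theorem q_solvable_case (p q : ℕ) [Fact p.Prime] [Fact q.Prime] (n : ℕ) :
    ∀ (G : Type*) [Group G] [Finite G], Nat.card G = n → Cfsg.IsPSolvable q G → Hyp p q G →
    ∃ (P : Sylow p G) (Q : Sylow q G),
      (P : Subgroup G) ≤ Subgroup.normalizer ((Q : Subgroup G) : Set G) := by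
  induction n using Nat.strong_induction_on with
  | _ n ih =>
    intro G _ _ hn hsol hH
    have hlt : ∀ (M : Subgroup G) [M.Normal], M ≠ ⊥ → Nat.card (G ⧸ M) < n := by
      intro M _ hM
      rw [← hn, ← Subgroup.index_eq_card, ← Subgroup.index_mul_card M]
      have h1 : 1 < Nat.card M := by
        rw [Finite.one_lt_card_iff_nontrivial]
        exact (Subgroup.nontrivial_iff_ne_bot M).mpr hM
      have h2 : 0 < M.index := Nat.pos_of_ne_zero (Subgroup.index_ne_zero_of_finite)
      nlinarith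
    by_cases hK : Cfsg.pPrimeCore q G = ⊥
    · by_cases hS : Cfsg.pCore q G = ⊥
      · have h1 := centralizer_pCore_le hsol hK
        rw [hS] at h1
        have h2 : ∀ x : G, x = 1 := by
          intro x
          have : x ∈ Subgroup.centralizer (((⊥ : Subgroup G) : Subgroup G) : Set G) := by
            rw [Subgroup.mem_centralizer_iff]
            intro y hy
            rw [Subgroup.mem_bot.mp hy]; simp
          exact Subgroup.mem_bot.mp (h1 this)
        refine ⟨default, default, ?_⟩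
        intro x _
        rw [h2 x]
        exact Subgroup.one_mem _
      · exact pull_back_q p q (Cfsg.pCore q G) (pCore_isPGroup q G)
          (ih _ (hlt _ hS) (G ⧸ Cfsg.pCore q G) rfl (isPSolvable_quotient _ hsol) (hH.quotient _))
    · have hK' : ¬ q ∣ Nat.card (Cfsg.pPrimeCore q G) :=
        (Nat.Prime.coprime_iff_not_dvd Fact.out).mp (card_pPrimeCore_coprime q).symm
      exact pull_back_q' p q hH (Cfsg.pPrimeCore q G) hK'
          (ih _ (hlt _ hK) (G ⧸ Cfsg.pPrimeCore q G) rfl (isPSolvable_quotient _ hsol) (hH.quotient _))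

/-- Let p and q be primes and G a finite group that is p-solvable or q-solvable, in which no q-element has conjugacy class size divisible by p. Then some Sylow p-subgroup of G normalizes some Sylow q-subgroup of G. -/
theorem result {G : Type*} [Group G] [Finite G] (p q : ℕ) [Fact p.Prime] [Fact q.Prime] (hsolv : Cfsg.IsPSolvable p G ∨ Cfsg.IsPSolvable q G)
    (h : ∀ y : G, (∃ k : ℕ, orderOf y = q ^ k) → ¬ p ∣ (Subgroup.centralizer ({y} : Set G)).index) :
    ∃ (P : Sylow p G) (Q : Sylow q G), (P : Subgroup G) ≤ Subgroup.normalizer ((Q : Subgroup G) : Set G) := by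
  rcases hsolv with hsolv | hsolv
  · by_cases hpq : p = q
    · subst hpq
      exact ⟨default, default, Subgroup.le_normalizer⟩
    · rw [Cfsg.Agent.S4602.result p q hpq hsolv]
      have hle : ((default : Sylow q G) : Subgroup G) ≤ Cfsg.pPrimeCore p G := by
        intro y hy
        obtain ⟨k, hk⟩ := exists_orderOf_eq_of_mem (default : Sylow q G).2 hy
        obtain ⟨P, hP⟩ := exists_sylow_le_of_not_dvd_index _ (h y ⟨k, hk⟩)
        apply Cfsg.Agent.S4602.le_pPrimeCore_of_normalized p q hpq hsolv P (Subgroup.zpowers y)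
          (isPGroup_zpowers_of_orderOf hk) _ (Subgroup.mem_zpowers y)
        refine le_trans ?_ (Subgroup.centralizer_le_normalizer _)
        rw [centralizer_zpowers]
        exact hP
      exact fun hd => (default : Sylow q G).not_dvd_index (hd.trans (Subgroup.index_dvd_of_le hle))
  · exact q_solvable_case p q _ G rfl hsolv h

end Cfsg.Agent.S4601
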