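import Cfsg.Statements.S4607
import Cfsg.Agent.Lib.Helper74.BlockTwo
import Cfsg.Agent.Lib.Helper78.DefectOneTwo
import Cfsg.Agent.Lib.Helper78.DefectCard
import Cfsg.Agent.Lib.Helper77.Count
import Cfsg.Agent.S4675
import Cfsg.Agent.S4733

set_option autoImplicit false
open Cfsg

namespace Cfsg.Agent.S4607

open Cfsg.Agent.Lib.Helper78

/-- arithmetic: `2 n² = p^d m²` is impossible for odd `p` and `m ≠ 0` -/
theorem arith_odd {p d n m : ℕ} (hp : p.Prime) (hp2 : p ≠ 2) (hm : m ≠ 0)
    (h : 2 * n ^ 2 = p ^ d * m ^ 2) : False := by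
  have hn : n ≠ 0 := by
    rintro rfl
    have : p ^ d * m ^ 2 ≠ 0 := mul_ne_zero (pow_ne_zero _ hp.ne_zero) (pow_ne_zero _ hm)
    exact this (by rw [← h]; simp)
  have h1 : (2 * n ^ 2).factorization 2 = (p ^ d * m ^ 2).factorization 2 := by rw [h]
  rw [Nat.factorization_mul (by norm_num) (pow_ne_zero _ hn),
    Nat.factorization_mul (pow_ne_zero _ hp.ne_zero) (pow_ne_zero _ hm),
    Nat.factorization_pow, Nat.factorization_pow, Nat.factorization_pow,
    Nat.Prime.factorization Nat.prime_two, Nat.Prime.factorization hp] at h1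
  simp only [Finsupp.coe_add, Finsupp.coe_smul, Pi.add_apply, Pi.smul_apply, smul_eq_mul,
    Finsupp.single_eq_same] at h1
  rw [Finsupp.single_eq_of_ne (by exact fun h => hp2 h.symm)] at h1
  omega

/-- arithmetic: coprime `a, b` with `a² + b² = 2^d`, `d ≥ 1` force `d = 1` -/
theorem arith_two {a b d : ℕ} {u v : ℤ} (hd : 0 < d) (huv : u * a + v * b = 1)
    (h : a ^ 2 + b ^ 2 = 2 ^ d) : d = 1 := by
  by_contra hne
  obtain ⟨k, rfl⟩ : ∃ k, d = k + 2 := ⟨d - 2, by omega⟩
  have h4 : (a ^ 2 + b ^ 2) % 4 = 0 := by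
    rw [h, pow_add]; omega
  have ha : a % 2 = 0 ∨ a % 2 = 1 := by omega
  have hb : b % 2 = 0 ∨ b % 2 = 1 := by omega
  have sq0 : ∀ x : ℕ, x % 2 = 0 → x ^ 2 % 4 = 0 := by
    intro x hx
    obtain ⟨y, rfl⟩ : ∃ y, x = 2 * y := ⟨x / 2, by omega⟩
    have : (2 * y) ^ 2 = 4 * y ^ 2 := by ring
    omega
  have sq1 : ∀ x : ℕ, x % 2 = 1 → x ^ 2 % 4 = 1 := by
    intro x hx
    obtain ⟨y, rfl⟩ : ∃ y, x = 2 * y + 1 := ⟨x / 2, by omega⟩
    have : (2 * y + 1) ^ 2 = 4 * (y ^ 2 + y) + 1 := by ring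
    omega
  rcases ha with ha | ha <;> rcases hb with hb | hb
  · obtain ⟨x, rfl⟩ : ∃ y, a = 2 * y := ⟨a / 2, by omega⟩
    obtain ⟨y, rfl⟩ : ∃ y, b = 2 * y := ⟨b / 2, by omega⟩
    push_cast at huv
    have : (2 : ℤ) * (u * x + v * y) = 1 := by linarith
    omega
  · have := sq0 a ha; have := sq1 b hb; omega
  · have := sq1 a ha; have := sq0 b hb; omega
  · have := sq1 a ha; have := sq1 b hb; omega

/-- Let G be a finite group, p a prime, M a maximal ideal of the algebraic integers containing p, and B a p-block of G with defect group D. Then B contains exactly two irreducible characters if and only if D has order 2. -/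
theorem result {G : Type*} [Group G] [Finite G] (p : ℕ) [Fact p.Prime] (M : Ideal Cfsg.AlgInt) (hM : Cfsg.IsPModular p M) (B : Set (Cfsg.IrrCharacter G)) (hB : Cfsg.IsPBlock M B) (D : Subgroup G) (hD : Cfsg.IsDefectGroup p M B D) : Nat.card B = 2 ↔ Nat.card D = 2 := by
  classical
  cases nonempty_fintype G
  have hMp := pmod_isPrime hM
  have hp : p.Prime := Fact.out
  have hcardD := card_of_isDefectGroup hM hB hD
  constructor
  · intro hk
    obtain ⟨h1, h2, h3⟩ := Cfsg.Agent.S4733.result p M hM B hB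
    have hpos : 0 < blockRank p B :=
      Cfsg.Agent.Lib.Helper77b.blockRank_pos' (IsPBlock.nonempty hMp hB)
    have hd : 0 < blockDefect p B := by
      rcases Nat.eq_zero_or_pos (blockDefect p B) with h | h
      · have := (h2.1 h).1
        omega
      · exact h
    have hl : blockRank p B = 1 := by
      have : Nat.card B ≠ blockRank p B := fun h => by
        have := h3.2 h
        omega
      omega
    obtain ⟨φ, d, ⟨n, hn⟩, hχ, hsum⟩ := Cfsg.Agent.S4675.result p M hM B hB D hD hl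
    obtain ⟨N, hN⟩ := Cfsg.Agent.Lib.Helper74.BlockTwo.sum_sq_eq_two_mul_sq M hM hB hk hd
    rw [Nat.card_coe_set_eq] at hk
    obtain ⟨χ₁, χ₂, hne, hBeq⟩ := Set.ncard_eq_two.1 hk
    have hreg : IsPRegular p (1 : G) := by
      unfold IsPRegular
      rw [orderOf_one]
      exact hp.one_lt.ne' ∘ Nat.dvd_one.1
    have hm1 : χ₁ ∈ B := by rw [hBeq]; simp
    have hm2 : χ₂ ∈ B := by rw [hBeq]; simp
    have hs : ∀ {A : Type} [AddCommMonoid A] (f : IrrCharacter G → A),
        ∑ᶠ χ ∈ B, f χ = f χ₁ + f χ₂ := by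
      intro A _ f
      rw [hBeq]
      exact finsum_mem_pair hne
    rw [hs] at hsum hN
    have e1 := hχ χ₁ hm1 1 hreg
    have e2 := hχ χ₂ hm2 1 hreg
    have e3 := hn 1 hreg
    rw [hs] at e3
    rw [irr_one_eq] at e1 e2
    rw [irr_one_eq, irr_one_eq] at e3
    set c₁ := charDegree (χ₁ : G → ℂ) with hc₁
    set c₂ := charDegree (χ₂ : G → ℂ) with hc₂
    have hc₁pos : 0 < c₁ := irr_charDegree_pos χ₁
    -- `φ 1` is an integer `m`
    set m : ℤ := n χ₁ * c₁ + n χ₂ * c₂ with hm
    have hφ : φ 1 = (m : ℂ) := by rw [e3, hm]; push_cast; ring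
    rw [hφ] at e1 e2
    have f1 : (c₁ : ℤ) = d χ₁ * m := by exact_mod_cast e1
    have f2 : (c₂ : ℤ) = d χ₂ * m := by exact_mod_cast e2
    have hm0 : m ≠ 0 := by
      rintro h
      rw [h, mul_zero] at f1
      omega
    have hbez : n χ₁ * (d χ₁ : ℤ) + n χ₂ * (d χ₂ : ℤ) = 1 := by
      have : m * (n χ₁ * (d χ₁ : ℤ) + n χ₂ * (d χ₂ : ℤ)) = m * 1 := by
        rw [mul_one]
        conv_rhs => rw [hm, f1, f2]
        ring
      exact mul_left_cancel₀ hm0 this
    by_cases hp2 : p = 2
    · subst hp2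
      have := arith_two hd hbez (by rw [hsum, hcardD])
      rw [hcardD, this, pow_one]
    · exfalso
      have g1 : c₁ = d χ₁ * m.natAbs := by
        have := congrArg Int.natAbs f1
        rwa [Int.natAbs_natCast, Int.natAbs_mul, Int.natAbs_natCast] at this
      have g2 : c₂ = d χ₂ * m.natAbs := by
        have := congrArg Int.natAbs f2
        rwa [Int.natAbs_natCast, Int.natAbs_mul, Int.natAbs_natCast] at this
      apply arith_odd hp hp2 (Int.natAbs_ne_zero.2 hm0) (d := blockDefect p B) (n := N)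
      rw [← hN, ← hcardD, ← hsum, g1, g2]
      ring
  · intro hk
    rw [hcardD] at hk
    have hp2 : p = 2 := by
      have : p ∣ 2 := by
        rw [← hk]
        apply dvd_pow_self
        rintro h
        rw [h, pow_zero] at hk
        omega
      exact (Nat.prime_dvd_prime_iff_eq hp Nat.prime_two).1 this
    subst hp2
    have hd : blockDefect 2 B = 1 := by
      have : 2 ^ blockDefect 2 B = 2 ^ 1 := by rw [hk, pow_one]
      exact Nat.pow_right_injective le_rfl this
    obtain ⟨χ₁, χ₂, hne, hBeq⟩ := exists_pair_of_defect_one hM hB hd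
    rw [Nat.card_coe_set_eq, hBeq]
    exact Set.ncard_pair hne

end Cfsg.Agent.S4607
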