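import Cfsg.Statements.S4611
import Mathlib
import Cfsg.Agent.Lib.Helper82.PrincipalBlock
import Cfsg.Agent.Lib.Helper80.Quot

set_option autoImplicit false
open Cfsg

namespace Cfsg.Agent.S4611

/-- Let G be a finite solvable group and π a nonempty set of primes, each dividing the order of G; fix for each p in π a maximal ideal M p of the algebraic integers containing p. Then the only irreducible character lying in the principal p-block for every p in π is the principal character if and only if G is generated by the subgroups O_{p'}(G), p in π (the largest normal subgroups of order prime to p). -/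
theorem result {G : Type*} [Group G] [Finite G] [Group.IsSolvable G] (π : Set ℕ) (hπ : ∀ p ∈ π, p.Prime ∧ p ∣ Nat.card G) (hne : π.Nonempty) (M : ℕ → Ideal Cfsg.AlgInt) (hM : ∀ p ∈ π, Cfsg.IsPModular p (M p)) :
    (∀ χ : Cfsg.IrrCharacter G, (∀ p ∈ π, χ ∈ Cfsg.principalBlock (M p) G) → (χ : G → ℂ) = fun _ => 1) ↔
      ⨆ p ∈ π, Cfsg.pPrimeCore p G = ⊤ := by
  classical
  have := Fintype.ofFinite G
  set K : Subgroup G := ⨆ p ∈ π, Cfsg.pPrimeCore p G with hK
  have hKn : K.Normal := by
    rw [hK]
    exact Subgroup.biSup_normal π (fun p => Cfsg.pPrimeCore p G) (fun p _ => inferInstance)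
  have hle : ∀ p ∈ π, Cfsg.pPrimeCore p G ≤ K := fun p hp =>
    le_iSup₂ (f := fun p (_ : p ∈ π) => Cfsg.pPrimeCore p G) p hp
  constructor
  · intro h
    by_contra hne
    obtain ⟨g, hg⟩ : ∃ g : G, g ∉ K := by
      by_contra hcon
      push Not at hcon
      exact hne (eq_top_iff.2 fun x _ => hcon x)
    obtain ⟨χ, hχK, hχg⟩ := Cfsg.Agent.Lib.Helper80.exists_irr_ker_ne K hg
    have h1 := h χ (fun p hp => by
      have : Fact p.Prime := ⟨(hπ p hp).1⟩
      rw [Cfsg.Agent.Lib.Helper82.mem_principalBlock_iff_of_isSolvable p (hM p hp)]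
      exact fun n hn => hχK n (hle p hp hn))
    apply hχg
    rw [h1]
  · intro htop χ hχ
    -- the kernel of `χ` contains all `O_{p'}(G)`
    have hker : K ≤ Cfsg.Agent.Lib.Helper80.charKer (χ : G → ℂ)
        (Cfsg.Agent.Lib.Helper80.isCharacter_of_irr χ.2) := by
      rw [hK]
      refine iSup₂_le fun p hp => ?_
      have : Fact p.Prime := ⟨(hπ p hp).1⟩
      intro n hn
      exact Cfsg.Agent.Lib.Helper82.ker_of_mem_principalBlock p (hM p hp) (hχ p hp) n hn
    have hconst : ∀ g : G, (χ : G → ℂ) g = (χ : G → ℂ) 1 := by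
      intro g
      have : g ∈ K := by rw [htop]; trivial
      exact hker this
    have h1 := Cfsg.Agent.Lib.Helper74.classInner_irr_self χ
    have hc : (Nat.card G : ℂ) ≠ 0 := by exact_mod_cast Nat.card_pos.ne'
    have hdeg := Cfsg.Agent.Lib.Helper80.char_one_eq_charDegree
      (Cfsg.Agent.Lib.Helper80.isCharacter_of_irr χ.2)
    simp only [Cfsg.classInner, hconst, hdeg, Finset.sum_const, Finset.card_univ,
      nsmul_eq_mul, Complex.conj_natCast] at h1
    rw [← Nat.card_eq_fintype_card (α := G), inv_mul_cancel_left₀ hc] at h1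
    have h2 : Cfsg.charDegree (χ : G → ℂ) * Cfsg.charDegree (χ : G → ℂ) = 1 := by exact_mod_cast h1
    have h3 : Cfsg.charDegree (χ : G → ℂ) = 1 := Nat.eq_one_of_mul_eq_one_right h2
    funext g
    rw [hconst, hdeg, h3]; simp

end Cfsg.Agent.S4611
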