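import Cfsg.Statements.S4620
import Cfsg.Agent.Lib.Helper77.TISylow

set_option autoImplicit false
open Cfsg Cfsg.Agent.Lib.Helper77
open scoped Pointwise
open Cfsg

namespace Cfsg.Agent.S4620

/-- Let H be a finite group with no nontrivial normal p-subgroup and no nontrivial normal subgroup of order prime to p, whose Sylow p-subgroup P is nontrivial and a trivial-intersection set (P meets its conjugates by elements outside N_H(P) trivially). Then H has a unique minimal normal subgroup N; N is non-abelian simple with trivial centralizer in H (so H embeds in Aut(N)), and a Sylow p-subgroup of N is again a nontrivial trivial-intersection set in N. -/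
theorem result {H : Type*} [Group H] [Finite H] (p : ℕ) [Fact p.Prime] (hOp : Cfsg.pCore p H = ⊥) (hOp' : Cfsg.pPrimeCore p H = ⊥) (P : Sylow p H) (hP1 : (P : Subgroup H) ≠ ⊥)
    (hTI : ∀ g : H, g ∉ Subgroup.normalizer ((P : Subgroup H) : Set H) → (P : Subgroup H) ⊓ (MulAut.conj g • (P : Subgroup H)) = ⊥) :
    ∃ N : Subgroup H, N.Normal ∧ N ≠ ⊥ ∧ (∀ K : Subgroup H, K.Normal → K ≠ ⊥ → N ≤ K) ∧
      IsSimpleGroup N ∧ ¬ IsMulCommutative N ∧ Subgroup.centralizer (N : Set H) = ⊥ ∧
      ∀ Q : Sylow p N, (Q : Subgroup N) ≠ ⊥ ∧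
        ∀ n : N, n ∉ Subgroup.normalizer ((Q : Subgroup N) : Set N) → (Q : Subgroup N) ⊓ (MulAut.conj n • (Q : Subgroup N)) = ⊥ := by
  classical
  have hp : p.Prime := Fact.out
  have hTI' : SylTI P := hTI
  obtain ⟨N, hNn, hN1, hNmin, hNcen⟩ := exists_min_normal_of_sylTI hOp hOp' hP1 hTI'
  haveI := hNn
  have hdvd : p ∣ Nat.card N := dvd_card_of_normal_ne_bot hOp' N hN1
  -- the hypotheses pass to `N`
  have hOpN : pCore p N = ⊥ := by
    have h1 := Cfsg.Agent.Lib.Lead.pCore_normal_subgroup_le (p := p) N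
    rw [hOp, le_bot_iff] at h1
    exact (Subgroup.map_eq_bot_iff_of_injective _ N.subtype_injective).1 h1
  have hOpN' : pPrimeCore p N = ⊥ := by
    have h1 := Cfsg.Agent.Lib.Lead.pPrimeCore_normal_subgroup_le (p := p) N
    rw [hOp', le_bot_iff] at h1
    exact (Subgroup.map_eq_bot_iff_of_injective _ N.subtype_injective).1 h1
  have hQ : ∀ Q : Sylow p N, (Q : Subgroup N) ≠ ⊥ ∧ SylTI Q := by
    intro Q
    refine ⟨Q.ne_bot_of_dvd_card hdvd, ?_⟩
    obtain ⟨P1, hP1'⟩ := (Q.2.map N.subtype).exists_le_sylow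
    have hTI1 : SylTI P1 := hTI'.all P1
    have hQeq : (P1 : Subgroup H).subgroupOf N = (Q : Subgroup N) := by
      apply Q.is_maximal'
      · exact P1.2.comap_of_injective _ N.subtype_injective
      · intro z hz
        rw [Subgroup.mem_subgroupOf]
        exact hP1' ⟨z, hz, rfl⟩
    intro n hn
    rw [eq_bot_iff]
    intro z hz
    rw [Subgroup.mem_bot]
    by_contra hz1
    apply hn
    obtain ⟨hz2, hz3⟩ := Subgroup.mem_inf.1 hz
    rw [Subgroup.mem_pointwise_smul_iff_inv_smul_mem] at hz3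
    have hz3' : n⁻¹ * z * n ∈ (Q : Subgroup N) := by
      simpa [MulAut.smul_def, MulAut.conj_apply] using hz3
    rw [← hQeq, Subgroup.mem_subgroupOf] at hz2 hz3'
    have h5 : (n : H) ∈ Subgroup.normalizer ((P1 : Subgroup H) : Set H) := by
      refine hTI1.mem_normalizer hz2 (by simpa using hz3') ?_
      intro h
      exact hz1 (Subtype.ext h)
    rw [Subgroup.mem_normalizer_iff] at h5 ⊢
    intro w
    rw [← hQeq, Subgroup.mem_subgroupOf, Subgroup.mem_subgroupOf]
    simpa using h5 (w : H)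
  obtain ⟨Q0⟩ : Nonempty (Sylow p N) := inferInstance
  obtain ⟨N1, hN1n, hN11, hN1min, -⟩ :=
    exists_min_normal_of_sylTI hOpN hOpN' (hQ Q0).1 (hQ Q0).2
  have hchar : N1.Characteristic := by
    rw [Subgroup.characteristic_iff_le_map]
    intro φ
    apply hN1min
    · exact hN1n.map _ φ.surjective
    · intro h
      exact hN11 ((Subgroup.map_eq_bot_iff_of_injective _ φ.injective).1 h)
  have hN1top : N1 = ⊤ := by
    have h1 : (N1.map N.subtype).Normal :=
      Cfsg.Agent.Lib.Lead.normal_map_subtype_of_characteristic N N1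
    have h2 : N1.map N.subtype ≠ ⊥ := by
      intro h
      exact hN11 ((Subgroup.map_eq_bot_iff_of_injective _ N.subtype_injective).1 h)
    have h3 := hNmin _ h1 h2
    rw [eq_top_iff]
    intro x _
    obtain ⟨y, hy, hyx⟩ := h3 x.2
    have : y = x := Subtype.ext hyx
    rwa [← this]
  refine ⟨N, hNn, hN1, hNmin, ?_, ?_, hNcen, fun Q => ⟨(hQ Q).1, (hQ Q).2⟩⟩
  · haveI : Nontrivial N := (Subgroup.nontrivial_iff_ne_bot N).2 hN1
    refine ⟨fun K hK => ?_⟩
    by_cases hK1 : K = ⊥
    · exact Or.inl hK1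
    · right
      rw [eq_top_iff, ← hN1top]
      exact hN1min K hK hK1
  · intro hcomm
    apply hN1
    rw [eq_bot_iff, ← hNcen]
    intro x hx
    rw [Subgroup.mem_centralizer_iff]
    intro y hy
    have := hcomm.is_comm.comm (⟨y, hy⟩ : N) ⟨x, hx⟩
    exact congrArg Subtype.val this

end Cfsg.Agent.S4620
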