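import Cfsg.Statements.S4640
import Mathlib
import Cfsg.Agent.S0927
import Cfsg.Agent.Lib.Helper82.AbelQuot
import Cfsg.Agent.Lib.Helper16.CoverTools
import Cfsg.Agent.Lib.Helper35.BlockCover
import Cfsg.Agent.Lib.Helper35.BlockFong
import Cfsg.Agent.Lib.Helper78.HeightZero

set_option autoImplicit false
open Cfsg

namespace Cfsg.Agent.S4640

open Cfsg.Agent.Lib.Helper78 Cfsg.Agent.Lib.Helper35 Cfsg.Agent.Lib.Helper15 Cfsg.Agent.Lib.Helper82

/-- Let N be a normal subgroup of the finite group G of index a power of the prime p, M a maximal ideal of the algebraic integers containing p, b a block of N stabilized by every element of G, and B a block of G covering b (some member of B has a member of b as a constituent of its restriction to N). Suppose that B has a commutative defect group P. Then G = NP and P ∩ N is a defect group of b; every member of B restricts to a member of b; every member of b is the restriction of exactly [G : N] members of B; B contains exactly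 [G : N] times as many irreducible characters as b; and B and b have the same p-regular rank. -/
theorem result {G : Type*} [Group G] [Fintype G] (p : ℕ) [Fact p.Prime] (M : Ideal Cfsg.AlgInt) (hM : Cfsg.IsPModular p M) (N : Subgroup G) [N.Normal] [Fintype N] (hNi : ∃ k : ℕ, N.index = p ^ k) (b : Set (Cfsg.IrrCharacter N)) (hb : Cfsg.IsPBlock M b) (hstab : ∀ g : G, Cfsg.StabilizesBlock N b g) (B : Set (Cfsg.IrrCharacter G)) (hB : Cfsg.IsPBlock M B) (hcov : ∃ χ ∈ B, ∃ θ ∈ b, Cfsg.classInner (fun n : N => (χ : G → ℂ) n) (θ : N → ℂ) ≠ 0) (P : Subgroup G) (hPD : Cfsg.IsDefectGroup p M B P) (hPab : ∀ x ∈ P, ∀ y ∈ P, x * y = y * x) : N ⊔ P = ⊤ ∧ Cfsg.IsDefectGroup p M b ((P ⊓ N).subgroupOf N) ∧ (∀ χ ∈ B, ∃ θ ∈ b, ∀ n : N, (χ : G → ℂ) n = (θ : N → ℂ) n) ∧ (∀ θ ∈ b, Nat.card {χ : Cfsg.IrrCharacter G // χ ∈ B ∧ ∀ n : N, (χ : G → ℂ) n = (θ : N → ℂ) n} = N.index) ∧ Nat.card B = N.index * Nat.card b ∧ Cfsg.blockRank p B = Cfsg.blockRank p b := by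
  classical
  have hMp := pmod_isPrime hM
  have hp : p.Prime := hM.1
  have hc : Covers N B b := hcov
  have hinv : ∀ g : G, ∀ θ ∈ b, cjIrr N g θ ∈ b :=
    fun g θ hθ => Cfsg.Agent.Lib.Helper16.cjIrr_mem_of_stabilizes N hstab g hθ
  have huniq : ∀ B' : Set (IrrCharacter G), IsPBlock M B' → Covers N B' b → B' = B :=
    fun B' hB' hc' => eq_of_covers_of_index N hM hNi hb hB' hB hc' hc
  obtain ⟨h1, h2, -⟩ := fong N hM hb hinv hB hc
    (fun B' hB' hc' => by rw [huniq B' hB' hc']) hPD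
  have htop' : P ⊔ N = ⊤ := by
    obtain ⟨k, hk⟩ := hNi
    have hd : (P ⊔ N).index ∣ p ^ k := hk ▸ Subgroup.index_dvd_of_le le_sup_right
    obtain ⟨j, -, hj⟩ := (Nat.dvd_prime_pow hp).1 hd
    have hj0 : j = 0 := by
      by_contra hj0
      apply h1
      rw [hj]
      exact dvd_pow_self p hj0
    rw [hj0, pow_zero] at hj
    exact Subgroup.index_eq_one.1 hj
  have hdecomp : ∀ g : G, ∃ u ∈ P, ∃ n ∈ N, g = u * n := by
    intro g
    have hg : g ∈ ((P ⊔ N : Subgroup G) : Set G) := by rw [htop']; exact Set.mem_univ g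
    rw [Subgroup.mul_normal, Set.mem_mul] at hg
    obtain ⟨u, hu, n, hn, rfl⟩ := hg
    exact ⟨u, hu, n, hn, rfl⟩
  have hab : ∀ a b : G ⧸ N, a * b = b * a := by
    intro a b
    obtain ⟨x, rfl⟩ := QuotientGroup.mk_surjective a
    obtain ⟨y, rfl⟩ := QuotientGroup.mk_surjective b
    obtain ⟨u, hu, n, hn, rfl⟩ := hdecomp x
    obtain ⟨v, hv, m, hm, rfl⟩ := hdecomp y
    simp only [QuotientGroup.mk_mul, (QuotientGroup.eq_one_iff n).2 hn,
      (QuotientGroup.eq_one_iff m).2 hm, mul_one]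
    rw [← QuotientGroup.mk_mul, ← QuotientGroup.mk_mul, hPab u hu v hv]
  have hnv : ∀ χ ∈ B, ∀ g : G, ∃ n ∈ N, (χ : G → ℂ) (g * n) ≠ 0 := by
    intro χ hχ g
    obtain ⟨y, hy, S, hS⟩ := hPD
    obtain ⟨u, hu, n, hn, rfl⟩ := hdecomp g
    have hyN : y ∈ N := mem_of_regular_of_index N hp hNi (isDefectClass_regular hM hB hy)
    rw [hS] at hu
    obtain ⟨x, hx, rfl⟩ := hu
    refine ⟨n⁻¹ * y, N.mul_mem (N.inv_mem hn) hyN, ?_⟩
    have h3 := (Cfsg.Agent.S0927.result p M hM B hB y hy S x hx).2 (by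
      intro w hw
      apply Subtype.ext
      apply hPab
      · rw [hS]; exact ⟨x, hx, rfl⟩
      · rw [hS]; exact ⟨w, hw, rfl⟩) χ hχ
    intro h0
    apply h3
    rw [centralChar_eq]
    have e : (Subgroup.centralizer ({y} : Set G)).subtype x * n * (n⁻¹ * y) = (x : G) * y := by
      simp [mul_assoc]
    rw [e] at h0
    rw [h0, mul_zero]
    exact memLocalIdeal_zero hMp
  have hirr : ∀ χ ∈ B, IsIrrCharacter N (fun n : N => (χ : G → ℂ) n) :=
    fun χ hχ => irr_restrict_of_nonvanishing N hab χ (hnv χ hχ)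
  have hmem : ∀ χ (hχ : χ ∈ B), (⟨fun n : N => (χ : G → ℂ) n, hirr χ hχ⟩ : IrrCharacter N) ∈ b := by
    intro χ hχ
    set θ : IrrCharacter N := ⟨fun n : N => (χ : G → ℂ) n, hirr χ hχ⟩ with hθ
    have h4 : classInner (fun n : N => (χ : G → ℂ) n) (θ : N → ℂ) ≠ 0 := by
      have : classInner (θ : N → ℂ) (θ : N → ℂ) = 1 := irr_inner_self θ.2
      rw [show (fun n : N => (χ : G → ℂ) n) = (θ : N → ℂ) from rfl, this]
      exact one_ne_zero
    obtain ⟨g, hg⟩ := exists_cjIrr_mem_of_covers N hMp hB hb (Covers.memLocalIdeal N hMp hB hb hc)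
      hχ h4
    have h5 : cjIrr N g θ = θ := Subtype.ext (cj_restrict N g (irr_cf χ.2))
    rwa [h5] at hg
  have hover : ∀ θ ∈ b, ∀ χ : IrrCharacter G,
      classInner (fun n : N => (χ : G → ℂ) n) (θ : N → ℂ) ≠ 0 → χ ∈ B := by
    intro θ hθ χ h
    rw [← huniq _ ⟨χ, rfl⟩ ⟨χ, mem_blockOf_self hMp χ, θ, hθ, h⟩]
    exact mem_blockOf_self hMp χ
  have hfib : ∀ θ ∈ b, Nat.card {χ : Cfsg.IrrCharacter G //
      χ ∈ B ∧ ∀ n : N, (χ : G → ℂ) n = (θ : N → ℂ) n} = N.index := by
    intro θ hθ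
    rw [← card_extensions N θ (fun χ h n =>
      congrFun (irr_eq_of_inner_ne_zero (hirr χ (hover θ hθ χ h)) θ.2 h) n)]
    apply Nat.card_congr
    apply Equiv.subtypeEquivRight
    intro χ
    constructor
    · exact fun h => h.2
    · intro h
      refine ⟨hover θ hθ χ ?_, h⟩
      rw [show (fun n : N => (χ : G → ℂ) n) = (θ : N → ℂ) from funext h, irr_inner_self θ.2]
      exact one_ne_zero
  refine ⟨by rw [sup_comm]; exact htop', h2, fun χ hχ => ⟨_, hmem χ hχ, fun n => rfl⟩, hfib, ?_, ?_⟩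
  · have : Fintype (IrrCharacter N) := Fintype.ofFinite _
    have : Finite (IrrCharacter G) := inferInstance
    let f : B → b := fun χ => ⟨⟨fun n : N => ((χ : IrrCharacter G) : G → ℂ) n, hirr χ χ.2⟩,
      hmem χ χ.2⟩
    rw [Nat.card_congr (Equiv.sigmaFiberEquiv f).symm, Nat.card_sigma]
    have h6 : ∀ θ : b, Nat.card {χ : B // f χ = θ} = N.index := by
      intro θ
      rw [← hfib θ θ.2]
      apply Nat.card_congr
      refine ⟨fun χ => ⟨χ.1.1, χ.1.2, fun n => ?_⟩, fun χ => ⟨⟨χ.1, χ.2.1⟩, ?_⟩,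
        fun χ => rfl, fun χ => rfl⟩
      · have := congrArg (fun t : b => ((t : IrrCharacter N) : N → ℂ) n) χ.2
        exact this
      · apply Subtype.ext
        apply Subtype.ext
        funext n
        exact χ.2.2 n
    simp_rw [h6]
    rw [Finset.sum_const, Finset.card_univ, smul_eq_mul, mul_comm, Nat.card_eq_fintype_card]
  · let E : (N → ℂ) →ₗ[ℂ] (G → ℂ) :=
      { toFun := extendByZero N
        map_add' := extendByZero_add N
        map_smul' := extendByZero_smul N }
    have hE : Function.Injective E := by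
      intro φ ψ h
      funext n
      have := congrFun h (n : G)
      simpa [E, extendByZero_coe] using this
    have hEreg : ∀ (χ : IrrCharacter G) (θ : IrrCharacter N),
        (∀ n : N, (χ : G → ℂ) n = (θ : N → ℂ) n) →
        E (pRegularPart p (θ : N → ℂ)) = pRegularPart p (χ : G → ℂ) := by
      intro χ θ h
      funext g
      show extendByZero N (pRegularPart p (θ : N → ℂ)) g = _
      by_cases hg : g ∈ N
      · rw [extendByZero_mem N _ hg]
        unfold pRegularPart IsPRegular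
        rw [← h ⟨g, hg⟩, Subgroup.orderOf_mk]
      · rw [extendByZero_not_mem N _ hg]
        unfold pRegularPart
        rw [if_neg]
        intro hr
        exact hg (mem_of_regular_of_index N hp hNi hr)
    have himg : (fun χ : IrrCharacter G => pRegularPart p (χ : G → ℂ)) '' B
        = E '' ((fun θ : IrrCharacter N => pRegularPart p (θ : N → ℂ)) '' b) := by
      ext φ
      constructor
      · rintro ⟨χ, hχ, rfl⟩
        exact ⟨_, ⟨_, hmem χ hχ, rfl⟩, hEreg χ _ (fun n => rfl)⟩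
      · rintro ⟨_, ⟨θ, hθ, rfl⟩, rfl⟩
        obtain ⟨χ, hχ, hχθ⟩ := exists_over_of_covers N hMp hB hb hc hθ
        refine ⟨χ, hχ, (hEreg χ θ fun n => ?_).symm⟩
        exact congrFun (irr_eq_of_inner_ne_zero (hirr χ hχ) θ.2 hχθ) n
    unfold blockRank
    rw [himg, Submodule.span_image]
    exact (Submodule.equivMapOfInjective E hE _).finrank_eq.symm

end Cfsg.Agent.S4640
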