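import Cfsg.Statements.S4648
import Cfsg.Agent.Lib.Helper74.BlockOneMain
import Cfsg.Agent.Lib.Helper78.SymAlgR8
import Cfsg.Agent.Lib.Helper78.RankOne
import Cfsg.Agent.Lib.Helper78.DefectCard

set_option autoImplicit false
open Cfsg

namespace Cfsg.Agent.S4648

open Cfsg.Agent.Lib.Helper78

/-- arithmetic core: `k n² = g² p^d`, `p^a ∣ k n`, `ν_p(g) + d ≤ a` force `p^d ∣ k` -/
theorem arith {p k n g d a : ℕ} (hp : p.Prime) (hk : k ≠ 0) (hn : n ≠ 0) (hg : g ≠ 0)
    (h1 : k * n ^ 2 = g ^ 2 * p ^ d) (h2 : p ^ a ∣ k * n) (h3 : g.factorization p + d ≤ a) :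
    p ^ d ∣ k := by
  have e1 : (k * n ^ 2).factorization p = (g ^ 2 * p ^ d).factorization p := by rw [h1]
  rw [Nat.factorization_mul hk (pow_ne_zero _ hn),
    Nat.factorization_mul (pow_ne_zero _ hg) (pow_ne_zero _ hp.ne_zero),
    Nat.factorization_pow, Nat.factorization_pow, Nat.factorization_pow,
    Nat.Prime.factorization hp] at e1
  simp only [Finsupp.coe_add, Finsupp.coe_smul, Pi.add_apply, Pi.smul_apply, smul_eq_mul,
    Finsupp.single_eq_same, mul_one] at e1
  have e2 := (hp.pow_dvd_iff_le_factorization (mul_ne_zero hk hn)).1 h2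
  rw [Nat.factorization_mul hk hn] at e2
  simp only [Finsupp.coe_add, Pi.add_apply] at e2
  rw [hp.pow_dvd_iff_le_factorization hk]
  omega

/-- Let B be a block of the finite group G relative to a maximal ideal M of the algebraic integers containing the prime p, with a nontrivial defect group D. If B has p-regular rank 1 and at most four irreducible characters, then B is nilpotent, D has exactly as many elements as B has irreducible characters, and p is 2 or 3. -/
theorem result {G : Type*} [Group G] [Finite G] (p : ℕ) [Fact p.Prime] (M : Ideal Cfsg.AlgInt) (hM : Cfsg.IsPModular p M) (B : Set (Cfsg.IrrCharacter G)) (hB : Cfsg.IsPBlock M B) (D : Subgroup G) (hD : Cfsg.IsDefectGroup p M B D) (hD1 : D ≠ ⊥) (hl : Cfsg.blockRank p B = 1) (hk : Nat.card B ≤ 4) : Cfsg.IsNilpotentBlock p M B ∧ Nat.card D = Nat.card B ∧ (p = 2 ∨ p = 3) := by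
  classical
  cases nonempty_fintype G
  have hMp := pmod_isPrime hM
  have hp : p.Prime := Fact.out
  have hne : B.Nonempty := IsPBlock.nonempty hMp hB
  have hcardD := card_of_isDefectGroup hM hB hD
  obtain ⟨N, hN, hsq, hdvd⟩ := Cfsg.Agent.Lib.Helper74.BlockOne.dims M hM hB hl hk
  obtain ⟨n, d, g, hg, hdeg, hnd, hval⟩ := rankOne_structure hp hne hl
  have hcart := rankOne_cartan hM hB n d g hg hdeg hnd hval hl
  have hkpos : 0 < Nat.card B := by
    have : Nonempty B := hne.to_subtype
    exact Nat.card_pos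
  -- `∑ χ(1)² = g² p^d`
  have hsq2 : ∑ᶠ χ ∈ B, charDegree (χ : G → ℂ) ^ 2 = g ^ 2 * p ^ blockDefect p B := by
    rw [← hcart, finsum_mem_irr, finsum_mem_irr, Finset.mul_sum]
    refine Finset.sum_congr rfl fun χ _ => ?_
    split_ifs with h
    · rw [hdeg χ h]; ring
    · simp
  -- `ν_p(g) + d ≤ a`
  have hval3 : g.factorization p + blockDefect p B ≤ (Nat.card G).factorization p := by
    obtain ⟨χ, hχ, hmin⟩ := exists_minDeg (p := p) hne
    have h1 : g.factorization p ≤ minDeg p B := by
      rw [← hmin, hdeg χ hχ]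
      have hd0 : d χ ≠ 0 := by
        rintro h0
        have := irr_charDegree_pos χ
        rw [hdeg χ hχ, h0, zero_mul] at this
        omega
      rw [Nat.factorization_mul hd0 hg.ne']
      simp
    have h2 := minDeg_le_card (p := p) hne
    rw [blockDefect_eq]
    omega
  have hdk : p ^ blockDefect p B ∣ Nat.card B :=
    arith hp hkpos.ne' hN.ne' hg.ne' (hsq.symm.trans hsq2) hdvd hval3
  -- `k ≤ ∑ d² = p^d`
  have hle : Nat.card B ≤ p ^ blockDefect p B := by
    rw [← hcart, finsum_mem_irr, Nat.card_eq_fintype_card, Fintype.card_subtype,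
      Finset.card_eq_sum_ones, Finset.sum_filter]
    refine Finset.sum_le_sum fun χ _ => ?_
    split_ifs with h
    · have hd0 : d χ ≠ 0 := by
        rintro h0
        have := irr_charDegree_pos χ
        rw [hdeg χ h, h0, zero_mul] at this
        omega
      exact Nat.one_le_iff_ne_zero.2 (pow_ne_zero _ hd0)
    · exact le_rfl
  have heq : Nat.card D = Nat.card B := by
    rw [hcardD]
    exact le_antisymm (Nat.le_of_dvd hkpos hdk) hle
  refine ⟨Cfsg.Agent.Lib.Helper78.SymAlgR8.R8 p M hM B hB D hD hl heq (heq ▸ hk), heq, ?_⟩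
  have hd0 : blockDefect p B ≠ 0 := by
    intro h0
    rw [h0, pow_zero] at hcardD
    exact hD1 (Subgroup.card_eq_one.1 hcardD)
  have hpk : p ∣ Nat.card B := by
    rw [← heq, hcardD]
    exact dvd_pow_self p hd0
  have hp4 : p ≤ 4 := (Nat.le_of_dvd hkpos hpk).trans hk
  have hp2 := hp.two_le
  interval_cases p
  · left; rfl
  · right; rfl
  · exact absurd hp (by norm_num)

end Cfsg.Agent.S4648
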