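import Cfsg.Statements.S4657
import Cfsg.Agent.Lib.Helper77.Dict5

set_option autoImplicit false
open Cfsg Cfsg.Agent.Lib.Helper77

namespace Cfsg.Agent.S4657

/-- Fix a prime p and a maximal ideal M of the algebraic integers containing p. Every Brauer pair (P, e) of the finite group G is a Brauer pair of exactly one p-block B of G. -/
theorem result {G : Type*} [Group G] [Fintype G] (p : ℕ) [Fact p.Prime] (M : Ideal Cfsg.AlgInt) (hM : Cfsg.IsPModular p M) (P : Subgroup G) (e : Set (Cfsg.IrrCharacter (Subgroup.centralizer (P : Set G)))) (hPe : Cfsg.IsBrauerPair p M P e) : ∃! B : Set (Cfsg.IrrCharacter G), Cfsg.IsBrauerPairOf p M B P e := by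
  have hPr : M.IsPrime := hM.2.1.isPrime
  have := resF_charP hM
  have hdec := hasBlockDecomp (G := G) M
  have hy := isAPair_toA (p := p) M hPe
  obtain ⟨b, hb, huniq⟩ := existsUnique_block hdec hy
  obtain ⟨B, hB, rfl⟩ := (isPrimIdem_top_iff M).1 hb.1
  refine ⟨B, (isBrauerPairOf_iff M hM B P e).2 ⟨hPe, hB, hb⟩, ?_⟩
  intro B' hB'
  obtain ⟨-, h2, h3⟩ := (isBrauerPairOf_iff M hM B' P e).1 hB'
  exact ebar_injective M h2 hB (huniq _ h3)

end Cfsg.Agent.S4657
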