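import Cfsg.Statements.S4741
import Cfsg.Agent.Lib.Helper79.ClassCountP
import Cfsg.Agent.Lib.Helper16.DefectAPI
import Cfsg.Agent.Lib.Helper78.DefectCard
import Cfsg.Agent.Lib.Helper78.DefectZero

set_option autoImplicit false
open Cfsg

namespace Cfsg.Agent.S4741

open Cfsg.Agent.Lib.Helper78 Cfsg.Agent.Lib.Helper16
open scoped ComplexConjugate Pointwise

section aux
variable {G : Type*} [Group G] [Finite G]

theorem exists_cj_eq_of_card {p : ℕ} [Fact p.Prime] (K A A' : Subgroup G)
    (hA : A ≤ K) (hA' : A' ≤ K) (hc : Nat.card A = p ^ (Nat.card K).factorization p)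
    (hc' : Nat.card A' = p ^ (Nat.card K).factorization p) : ∃ c : G, A' = cj c A := by
  obtain ⟨P1, hP1⟩ := (sylow_image_iff K A).2 ⟨hA, hc⟩
  obtain ⟨P2, hP2⟩ := (sylow_image_iff K A').2 ⟨hA', hc'⟩
  obtain ⟨c, hc⟩ := MulAction.exists_smul_eq K P1 P2
  refine ⟨c, ?_⟩
  rw [hP1, hP2, ← hc]
  ext z
  rw [mem_cj, Sylow.coe_subgroup_smul]
  constructor
  · rintro ⟨w, hw, rfl⟩
    have hw' : w ∈ MulAut.conj c • (P1 : Subgroup K) := hw
    rw [Subgroup.mem_pointwise_smul_iff_inv_smul_mem] at hw'
    refine ⟨_, hw', ?_⟩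
    simp [MulAut.smul_def, mul_assoc]
  · rintro ⟨w, hw, hwz⟩
    refine ⟨c * w * c⁻¹, ?_, ?_⟩
    · change c * w * c⁻¹ ∈ MulAut.conj c • (P1 : Subgroup K)
      rw [Subgroup.mem_pointwise_smul_iff_inv_smul_mem]
      have : (MulAut.conj c)⁻¹ • (c * w * c⁻¹) = w := by
        simp [MulAut.smul_def, mul_assoc]
      rw [this]; exact hw
    · simp only [Subgroup.subtype_apply, Subgroup.coe_mul, Subgroup.coe_inv] at hwz ⊢
      rw [hwz]; group

theorem factorization_index_add (p : ℕ) (H : Subgroup G) :
    H.index.factorization p + (Nat.card H).factorization p = (Nat.card G).factorization p := by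
  rw [← H.card_mul_index, Nat.factorization_mul Nat.card_pos.ne' Subgroup.index_ne_zero_of_finite]
  simp [add_comm]

omit [Finite G] in
theorem sub_blockDefect_le (p : ℕ) {B : Set (IrrCharacter G)} {χ : IrrCharacter G} (hχ : χ ∈ B) :
    (Nat.card G).factorization p - blockDefect p B ≤ (charDegree (χ : G → ℂ)).factorization p := by
  unfold blockDefect
  have h : sInf ((fun χ : IrrCharacter G => (charDegree (χ : G → ℂ)).factorization p) '' B)
      ≤ (charDegree (χ : G → ℂ)).factorization p := Nat.sInf_le ⟨χ, hχ, rfl⟩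
  omega

theorem factorization_add_blockDefect {p : ℕ} {B : Set (IrrCharacter G)}
    {χ : IrrCharacter G} (hχ : χ ∈ B) (hh : blockHeight p B (χ : G → ℂ) = 0) :
    (charDegree (χ : G → ℂ)).factorization p + blockDefect p B = (Nat.card G).factorization p := by
  unfold blockDefect
  unfold blockHeight at hh
  have h : sInf ((fun χ : IrrCharacter G => (charDegree (χ : G → ℂ)).factorization p) '' B)
      ≤ (charDegree (χ : G → ℂ)).factorization p := Nat.sInf_le ⟨χ, hχ, rfl⟩
  have h2 : (charDegree (χ : G → ℂ)).factorization p ≤ (Nat.card G).factorization p :=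
    (Nat.factorization_le_iff_dvd (irr_charDegree_pos χ).ne' Nat.card_pos.ne').2
      (irr_charDegree_dvd_card χ) p
  omega

end aux

/-- Let p be a prime, M a maximal ideal of the algebraic integers containing p, and D a subgroup of the finite group G. Let x₁, …, x_r be pairwise non-conjugate elements of G such that D is a Sylow p-subgroup of the centralizer of each xᵢ, and such that for any conjugates g of some xᵢ and h of some xⱼ the element g h⁻¹ is never a non-identity p-element. Then there are r distinct p-blocks B₁, …, B_r of G, each having D as a defect group, such that for every choice of characters χᵢ ∈ Bᵢ of height zero the determinant of the r × r matrix (χᵢ(xⱼ)) does not lie in the local ideal at M. -/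
theorem result {G : Type*} [Group G] [Finite G] (p : ℕ) [Fact p.Prime] (M : Ideal Cfsg.AlgInt) (hM : Cfsg.IsPModular p M) (D : Subgroup G) {r : ℕ} (x : Fin r → G) (hx : ∀ i j : Fin r, IsConj (x i) (x j) → i = j) (hD : ∀ i : Fin r, ∃ S : Sylow p ↥(Subgroup.centralizer ({x i} : Set G)), (S : Subgroup ↥(Subgroup.centralizer ({x i} : Set G))).map (Subgroup.centralizer ({x i} : Set G)).subtype = D) (hsep : ∀ i j : Fin r, ∀ g h : G, IsConj (x i) g → IsConj (x j) h → ∀ k : ℕ, 0 < k → orderOf (g * h⁻¹) ≠ p ^ k) : ∃ B : Fin r → Set (Cfsg.IrrCharacter G), Function.Injective B ∧ (∀ i : Fin r, Cfsg.IsPBlock M (B i) ∧ Cfsg.IsDefectGroup p M (B i) D) ∧ ∀ χ : Fin r → Cfsg.IrrCharacter G, (∀ i : Fin r, χ i ∈ B i ∧ Cfsg.blockHeight p (B i) (χ i : G → ℂ) = 0) → ¬ Cfsg.MemLocalIdeal M (Matrix.det (Matrix.of fun i j : Fin r => (χ i : G → ℂ) (x j))) := by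
  classical
  have := Fintype.ofFinite G
  have hp : p.Prime := Fact.out
  have hMp := pmod_isPrime hM
  have hmax : M.IsMaximal := hM.2.1
  obtain ⟨P⟩ : Nonempty (Sylow p G) := inferInstance
  set a := (Nat.card G).factorization p with ha
  -- data on `D`
  have hD' : ∀ i, D ≤ Subgroup.centralizer ({x i} : Set G) ∧
      Nat.card D = p ^ (Nat.card (Subgroup.centralizer ({x i} : Set G))).factorization p := by
    intro i
    obtain ⟨S, hS⟩ := hD i
    exact (sylow_image_iff _ D).1 ⟨S, hS.symm⟩
  -- multiplicities
  choose m hm using fun χ : IrrCharacter G =>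
    Cfsg.Agent.Lib.Helper79.exists_sum_conj_subgroup_eq
      (Cfsg.Agent.Lib.Helper74.IrrCharacter.isCharacter χ) (P : Subgroup G)
  -- the basic identity
  have hid : ∀ i j : Fin r, (((P : Subgroup G).index : ℕ) : ℂ) * (if i = j then 1 else 0)
      = ∑ χ : IrrCharacter G,
          centralChar (χ : G → ℂ) (x i) * (conj ((χ : G → ℂ) (x j)) * (m χ : ℂ)) := by
    intro i j
    have h1 := Cfsg.Agent.Lib.Helper79.card_centralizer_mul_sum_conv (P : Subgroup G) (x i) (x j) m hm
    rw [Cfsg.Agent.Lib.Helper79.sum_conv_eq_of_sep (P : Subgroup G) (x i) (x j)] at h1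
    · have hPc : (Nat.card P : ℂ) ≠ 0 := by exact_mod_cast Nat.card_pos.ne'
      have h2 : (Nat.card P : ℂ) * (((P : Subgroup G).index : ℕ) : ℂ) = (Nat.card G : ℂ) := by
        exact_mod_cast (P : Subgroup G).card_mul_index
      apply mul_left_cancel₀ hPc
      simp_rw [← mul_assoc (centralChar _ _)]
      rw [← h1, ← mul_assoc, h2]
      by_cases hij : i = j
      · subst hij
        rw [if_pos rfl, if_pos (IsConj.refl _), mul_one]
        exact_mod_cast (Subgroup.centralizer ({x i} : Set G)).card_mul_index.symm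
      · rw [if_neg hij, if_neg (fun h => hij (hx i j h)), mul_zero, mul_zero]
    · intro g h hg hh hmem
      obtain ⟨k, hk⟩ := (IsPGroup.iff_orderOf.1 P.2) ⟨g * h⁻¹, hmem⟩
      rw [Subgroup.orderOf_mk] at hk
      rcases Nat.eq_zero_or_pos k with rfl | hk0
      · rw [pow_zero, orderOf_eq_one_iff] at hk
        exact mul_inv_eq_one.1 hk
      · exact absurd hk (hsep i j g h hg hh k hk0)
  -- algebraic integers and the residue field
  let _ : Field (AlgInt ⧸ M) := Ideal.Quotient.field M
  let π : AlgInt →+* (AlgInt ⧸ M) := Ideal.Quotient.mk M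
  let W : IrrCharacter G → Fin r → AlgInt := fun χ i =>
    ⟨centralChar (χ : G → ℂ) (x i), isIntegral_centralChar χ.2 (x i)⟩
  let V : IrrCharacter G → Fin r → AlgInt := fun χ j =>
    ⟨conj ((χ : G → ℂ) (x j)) * (m χ : ℂ), by
      rw [← irr_inv]
      exact (irr_isIntegral χ _).mul (isIntegral_natCast _)⟩
  let w : IrrCharacter G → Fin r → (AlgInt ⧸ M) := fun χ i => π (W χ i)
  have hidA : ∀ i j : Fin r, (((P : Subgroup G).index : ℕ) : AlgInt) * (if i = j then 1 else 0)
      = ∑ χ : IrrCharacter G, W χ i * V χ j := by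
    intro i j
    apply Subtype.ext
    have h1 := hid i j
    push_cast
    rw [← h1]
    split_ifs <;> simp
  let S : Set (IrrCharacter G) := {χ | IsDefectGroup p M (blockOf M (χ : G → ℂ)) D}
  have hw_eq : ∀ χ ψ : IrrCharacter G, SameBlock M (χ : G → ℂ) (ψ : G → ℂ) → w χ = w ψ := by
    intro χ ψ h
    funext i
    change π (W χ i) = π (W ψ i)
    rw [Ideal.Quotient.eq, ← memLocalIdeal_algInt_iff hMp]
    exact h (x i)
  -- characters outside `S` do not contribute
  have hout : ∀ χ : IrrCharacter G, χ ∉ S → ∀ i j : Fin r, W χ i * V χ j ∈ M := by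
    intro χ hχ i j
    by_cases hW : W χ i ∈ M
    · exact M.mul_mem_right _ hW
    apply M.mul_mem_left
    have hB := isPBlock_blockOf (M := M) χ
    have hχB := mem_blockOf_self hMp χ
    obtain ⟨E, hE⟩ := exists_isDefectGroup hM hB
    have hEcard := card_of_isDefectGroup hM hB hE
    have hW' : ¬ MemLocalIdeal M (centralChar (χ : G → ℂ) (x i)) := by
      intro h
      exact hW ((memLocalIdeal_algInt_iff hMp (W χ i)).1 h)
    obtain ⟨y, hy⟩ := minmax_b hM hB hE hχB hW'
    have hle : blockDefect p (blockOf M (χ : G → ℂ)) ≤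
        (Nat.card (Subgroup.centralizer ({x i} : Set G))).factorization p := by
      have h1 : p ^ blockDefect p (blockOf M (χ : G → ℂ)) ∣
          Nat.card (Subgroup.centralizer ({x i} : Set G)) := by
        rw [← hEcard, ← card_cj y E]
        exact Subgroup.card_dvd_of_le hy
      exact (hp.pow_dvd_iff_le_factorization Nat.card_pos.ne').1 h1
    rcases hle.eq_or_lt with heq | hlt
    · exfalso
      apply hχ
      obtain ⟨c, hc⟩ := exists_cj_eq_of_card (p := p) (Subgroup.centralizer ({x i} : Set G))
        (cj y E) D hy (hD' i).1 (by rw [card_cj, hEcard, heq]) (hD' i).2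
      change IsDefectGroup p M (blockOf M (χ : G → ℂ)) D
      rw [hc]
      exact IsDefectGroup.conj (IsDefectGroup.conj hE y) c
    · -- the value at `x j` lies in the ideal
      have hdd : (Nat.card (Subgroup.centralizer ({x i} : Set G))).factorization p
          = (Nat.card (Subgroup.centralizer ({x j} : Set G))).factorization p :=
        Nat.pow_right_injective hp.two_le ((hD' i).2.symm.trans (hD' j).2)
      have h1 := factorization_index_add p (Subgroup.centralizer ({x j} : Set G))
      have h2 := sub_blockDefect_le p hχB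
      have h3 : MemLocalIdeal M (((charDegree (χ : G → ℂ) : ℕ) : ℂ) /
          (((Subgroup.centralizer ({x j} : Set G)).index : ℕ) : ℂ)) := by
        apply memLocalIdeal_natCast_div hM Subgroup.index_ne_zero_of_finite
        omega
      rw [← memLocalIdeal_algInt_iff hMp]
      change MemLocalIdeal M (conj ((χ : G → ℂ) (x j)) * (m χ : ℂ))
      apply MemLocalIdeal.mul_right hMp _ (memLocalRing_natCast hMp _)
      have h4 : conj ((χ : G → ℂ) (x j)) = centralChar (χ : G → ℂ) (x j)⁻¹ *
          (((charDegree (χ : G → ℂ) : ℕ) : ℂ) /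
          (((Subgroup.centralizer ({x j} : Set G)).index : ℕ) : ℂ)) := by
        unfold centralChar
        rw [Cfsg.Agent.Lib.Helper79.centralizer_inv_singleton, irr_inv, ← irr_one_eq]
        have h5 := irr_one_ne_zero χ
        have h6 : (((Subgroup.centralizer ({x j} : Set G)).index : ℕ) : ℂ) ≠ 0 := by
          have : (Subgroup.centralizer ({x j} : Set G)).index ≠ 0 :=
            Subgroup.index_ne_zero_of_finite
          exact_mod_cast this
        field_simp
      rw [h4]
      exact MemLocalIdeal.mul_left hMp (memLocalRing_centralChar hMp χ _) h3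
  -- the vectors `w χ`, `χ ∈ S`, span
  have hidx : π (((P : Subgroup G).index : ℕ) : AlgInt) ≠ 0 := by
    intro h
    rw [Ideal.Quotient.eq_zero_iff_mem, ← memLocalIdeal_algInt_iff hMp] at h
    have h2 : MemLocalIdeal M (((P : Subgroup G).index : ℕ) : ℂ) := by simpa using h
    exact P.not_dvd_index ((memLocalIdeal_natCast_iff hM _).1 h2)
  have hspan : Submodule.span (AlgInt ⧸ M) (w '' S) = ⊤ := by
    rw [eq_top_iff, ← (Pi.basisFun (AlgInt ⧸ M) (Fin r)).span_eq, Submodule.span_le]
    rintro _ ⟨j, rfl⟩
    rw [Pi.basisFun_apply]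
    have h1 : (Pi.single j 1 : Fin r → AlgInt ⧸ M)
        = (π (((P : Subgroup G).index : ℕ) : AlgInt))⁻¹ •
          ∑ χ : IrrCharacter G, (if χ ∈ S then π (V χ j) • w χ else 0) := by
      funext i
      have h2 := congrArg π (hidA i j)
      rw [map_mul, map_sum] at h2
      rw [Pi.smul_apply, Finset.sum_apply, smul_eq_mul, eq_inv_mul_iff_mul_eq₀ hidx]
      have h3 : π (if i = j then 1 else 0) = (Pi.single j 1 : Fin r → AlgInt ⧸ M) i := by
        by_cases hij : i = j
        · subst hij; simp
        · rw [if_neg hij, Pi.single_eq_of_ne hij, map_zero]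
      rw [← h3, h2]
      refine Finset.sum_congr rfl fun χ _ => ?_
      by_cases hχ : χ ∈ S
      · rw [if_pos hχ, Pi.smul_apply, smul_eq_mul, map_mul, mul_comm]
      · rw [if_neg hχ, Pi.zero_apply]
        exact Ideal.Quotient.eq_zero_iff_mem.2 (hout χ hχ i j)
    rw [h1]
    apply Submodule.smul_mem
    apply Submodule.sum_mem
    intro χ _
    split_ifs with hχ
    · exact Submodule.smul_mem _ _ (Submodule.subset_span ⟨χ, hχ, rfl⟩)
    · exact Submodule.zero_mem _
  have hfr : Module.finrank (AlgInt ⧸ M) (Submodule.span (AlgInt ⧸ M) (w '' S)) = r := by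
    rw [hspan, finrank_top, Module.finrank_fin_fun]
  obtain ⟨f, hf1, -, hf3⟩ := Submodule.exists_fun_fin_finrank_span_eq (AlgInt ⧸ M) (w '' S)
  have hf1' : ∀ k : Fin r, ∃ χ : IrrCharacter G, χ ∈ S ∧ w χ = f (Fin.cast hfr.symm k) :=
    fun k => hf1 _
  choose χ0 hχ0S hχ0w using hf1'
  have hLI : LinearIndependent (AlgInt ⧸ M) (fun k : Fin r => w (χ0 k)) := by
    have e : (fun k : Fin r => w (χ0 k)) = f ∘ Fin.cast hfr.symm := funext hχ0w
    rw [e]
    exact hf3.comp (Fin.cast hfr.symm) (Fin.cast_injective _)
  refine ⟨fun k => blockOf M (χ0 k : G → ℂ), ?_, fun k => ⟨isPBlock_blockOf _, hχ0S k⟩, ?_⟩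
  · intro k l hkl
    apply hLI.injective
    apply hw_eq
    have : χ0 l ∈ blockOf M (χ0 k : G → ℂ) := by
      have h2 : blockOf M (χ0 k : G → ℂ) = blockOf M (χ0 l : G → ℂ) := hkl
      rw [h2]; exact mem_blockOf_self hMp _
    exact this
  · intro χ hχ
    -- the matrix of central characters
    have hdetW : (Matrix.det (Matrix.of fun k j : Fin r => W (χ k) j)) ∉ M := by
      intro hmem
      have h1 : π (Matrix.det (Matrix.of fun k j : Fin r => W (χ k) j)) = 0 :=
        Ideal.Quotient.eq_zero_iff_mem.2 hmem
      rw [RingHom.map_det] at h1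
      have h2 : π.mapMatrix (Matrix.of fun k j : Fin r => W (χ k) j)
          = Matrix.of (fun k : Fin r => w (χ0 k)) := by
        ext k j
        have := congrFun (hw_eq (χ0 k) (χ k) (hχ k).1) j
        exact this.symm
      rw [h2] at h1
      have h3 : IsUnit (Matrix.of (fun k : Fin r => w (χ0 k))) :=
        Matrix.linearIndependent_rows_iff_isUnit.1 hLI
      rw [Matrix.isUnit_iff_isUnit_det, h1] at h3
      exact not_isUnit_zero h3
    have hdetC : ((Matrix.det (Matrix.of fun k j : Fin r => W (χ k) j) : AlgInt) : ℂ)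
        = Matrix.det (Matrix.of fun k j : Fin r => centralChar (χ k : G → ℂ) (x j)) := by
      have := AlgHom.map_det (AlgInt.val) (Matrix.of fun k j : Fin r => W (χ k) j)
      exact this
    have hdet : Matrix.det (Matrix.of fun i j : Fin r => (χ i : G → ℂ) (x j))
        = (∏ k : Fin r, (((charDegree (χ k : G → ℂ) : ℕ) : ℂ) /
            (((Subgroup.centralizer ({x k} : Set G)).index : ℕ) : ℂ))) *
          Matrix.det (Matrix.of fun k j : Fin r => centralChar (χ k : G → ℂ) (x j)) := by
      have h1 : (Matrix.of fun i j : Fin r => (χ i : G → ℂ) (x j))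
          = Matrix.of fun i j : Fin r => ((charDegree (χ i : G → ℂ) : ℕ) : ℂ) *
            (Matrix.of fun i j : Fin r =>
              ((((Subgroup.centralizer ({x j} : Set G)).index : ℕ) : ℂ))⁻¹ *
              (Matrix.of fun k j : Fin r => centralChar (χ k : G → ℂ) (x j)) i j) i j := by
        ext i j
        simp only [Matrix.of_apply]
        unfold centralChar
        rw [← irr_one_eq]
        have h5 := irr_one_ne_zero (χ i)
        have h6 : (((Subgroup.centralizer ({x j} : Set G)).index : ℕ) : ℂ) ≠ 0 := by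
          have : (Subgroup.centralizer ({x j} : Set G)).index ≠ 0 :=
            Subgroup.index_ne_zero_of_finite
          exact_mod_cast this
        field_simp
      rw [h1, Matrix.det_mul_column, Matrix.det_mul_row, ← mul_assoc, ← Finset.prod_mul_distrib]
      rfl
    rw [hdet, ← hdetC]
    have hval : ∀ k : Fin r, (Subgroup.centralizer ({x k} : Set G)).index.factorization p
        = (charDegree (χ k : G → ℂ)).factorization p := by
      intro k
      have h1 := factorization_index_add p (Subgroup.centralizer ({x k} : Set G))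
      have h2 : (charDegree (χ k : G → ℂ)).factorization p +
          blockDefect p (blockOf M (χ0 k : G → ℂ)) = (Nat.card G).factorization p :=
        factorization_add_blockDefect (p := p) (hχ k).1 (hχ k).2
      have h3 := card_of_isDefectGroup hM (isPBlock_blockOf (M := M) (χ0 k)) (hχ0S k)
      have h4 : (Nat.card (Subgroup.centralizer ({x k} : Set G))).factorization p
          = blockDefect p (blockOf M (χ0 k : G → ℂ)) :=
        Nat.pow_right_injective hp.two_le ((hD' k).2.symm.trans h3)
      omega
    rw [memLocalIdeal_mul_iff hMp _ (memLocalRing_algInt hMp _)]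
    · rintro (h | h)
      · rw [memLocalIdeal_prod_iff hMp] at h
        · obtain ⟨k, _, hk⟩ := h
          exact not_memLocalIdeal_natCast_div hM (irr_charDegree_pos (χ k)).ne'
            Subgroup.index_ne_zero_of_finite (hval k) hk
        · intro k _
          exact memLocalRing_natCast_div hM Subgroup.index_ne_zero_of_finite (hval k).le
      · exact hdetW ((memLocalIdeal_algInt_iff hMp _).1 h)
    · apply MemLocalRing.prod hMp
      intro k _
      exact memLocalRing_natCast_div hM Subgroup.index_ne_zero_of_finite (hval k).le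

end Cfsg.Agent.S4741
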