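import Cfsg.Statements.S4742
import Cfsg.Agent.Lib.Helper79.DefectCount
import Cfsg.Agent.S0135

set_option autoImplicit false
open Cfsg

namespace Cfsg.Agent.S4742

/-- The degree of an irreducible character divides the group order. -/
theorem charDegree_dvd_card {G : Type*} [Group G] [Finite G] (χ : Cfsg.IrrCharacter G) :
    Cfsg.charDegree (χ : G → ℂ) ∣ Nat.card G := by
  obtain ⟨χ, n, ρ, hρ, rfl⟩ := χ
  have := hρ
  have h := Cfsg.Agent.S0135.result ρ
  simp only [Cfsg.Agent.Lib.Helper74.charDegree_rep]
  simpa using h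

/-- Let p ≠ q be primes dividing the order of the finite group G, and suppose the centralizer of every non-identity p-element of G has order prime to q. Then either G has an irreducible character of p-defect zero, or for every non-identity q-element z of G there are conjugates g, h of z such that g h⁻¹ is a non-identity p-element. -/
theorem result {G : Type*} [Group G] [Finite G] (p q : ℕ) [Fact p.Prime] [Fact q.Prime] (hppq : p ≠ q) (hpG : p ∣ Nat.card G) (hqG : q ∣ Nat.card G) (hC : ∀ g : G, g ≠ 1 → (∃ k : ℕ, orderOf g = p ^ k) → ¬ q ∣ Nat.card ↥(Subgroup.centralizer ({g} : Set G))) : (∃ χ : Cfsg.IrrCharacter G, (Cfsg.charDegree (χ : G → ℂ)).factorization p = (Nat.card G).factorization p) ∨ ∀ z : G, z ≠ 1 → (∃ k : ℕ, orderOf z = q ^ k) → ∃ g h : G, IsConj z g ∧ IsConj z h ∧ g * h⁻¹ ≠ 1 ∧ ∃ k : ℕ, orderOf (g * h⁻¹) = p ^ k := by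
  have hp : p.Prime := Fact.out
  have hq : q.Prime := Fact.out
  by_contra hcon
  push Not at hcon
  obtain ⟨hno, z, hz1, ⟨kz, hkz⟩, hz⟩ := hcon
  obtain ⟨P⟩ : Nonempty (Sylow p G) := inferInstance
  have hPcard : Nat.card (P : Subgroup G) = p ^ (Nat.card G).factorization p := P.card_eq_multiplicity
  -- the centralizer of z has order prime to p
  have hCz : (Nat.card (Subgroup.centralizer ({z} : Set G))).factorization p = 0 := by
    apply Nat.factorization_eq_zero_of_not_dvd
    intro hdvd
    obtain ⟨u, hu⟩ := exists_prime_orderOf_dvd_card' p hdvd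
    have hu1 : (u : G) ≠ 1 := by
      intro h1
      have : u = 1 := Subtype.ext h1
      rw [this, orderOf_one] at hu
      exact hp.one_lt.ne hu
    have huord : orderOf (u : G) = p ^ 1 := by
      rw [Subgroup.orderOf_coe, hu, pow_one]
    apply hC (u : G) hu1 ⟨1, huord⟩
    -- z lies in the centralizer of u and has order a positive power of q
    have hzmem : z ∈ Subgroup.centralizer ({(u : G)} : Set G) := by
      rw [Subgroup.mem_centralizer_iff]
      intro y hy
      rw [Set.mem_singleton_iff] at hy
      subst hy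
      have := u.2
      rw [Subgroup.mem_centralizer_iff] at this
      exact (this z rfl).symm
    have hkz0 : kz ≠ 0 := by
      rintro rfl
      rw [pow_zero, orderOf_eq_one_iff] at hkz
      exact hz1 hkz
    have h1 : orderOf z ∣ Nat.card (Subgroup.centralizer ({(u : G)} : Set G)) := by
      have := orderOf_dvd_natCard (⟨z, hzmem⟩ : Subgroup.centralizer ({(u : G)} : Set G))
      rwa [← Subgroup.orderOf_coe] at this
    exact (dvd_pow_self q hkz0).trans (hkz ▸ h1)
  obtain ⟨χ, hχ⟩ := Cfsg.Agent.Lib.Helper79.exists_irr_pow_dvd_charDegree hp z (P : Subgroup G)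
    _ hPcard (by
      intro g k hg hk hgk
      by_contra hne
      have hk' : IsConj z k⁻¹ := by
        obtain ⟨t, ht⟩ := isConj_iff.1 hk
        exact isConj_iff.2 ⟨t, by rw [← ht]; group⟩
      have h1 := hz g k⁻¹ hg hk' (by rwa [inv_inv])
      rw [inv_inv] at h1
      obtain ⟨j, hj⟩ := (IsPGroup.iff_orderOf.1 P.2) ⟨g * k, hgk⟩
      apply h1 j
      rw [← hj, ← Subgroup.orderOf_coe])
  rw [hCz, Nat.sub_zero] at hχ
  apply hno χ
  have hpos := (Cfsg.Agent.Lib.Helper78.irr_charDegree_pos χ).ne'
  apply le_antisymm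
  · exact (Nat.factorization_le_iff_dvd hpos Nat.card_pos.ne').2 (charDegree_dvd_card χ) p
  · exact (hp.pow_dvd_iff_le_factorization hpos).1 hχ

end Cfsg.Agent.S4742
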