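import Cfsg.Statements.S4743
import Cfsg.Agent.S4742

set_option autoImplicit false
open Cfsg

namespace Cfsg.Agent.S4743

section aux
variable {G : Type*} [Group G] [Finite G]

/-- the hypothesis is symmetric in the two primes -/
theorem symm_hyp (p q : ℕ) [Fact p.Prime] [Fact q.Prime]
    (hC : ∀ g : G, g ≠ 1 → (∃ k : ℕ, orderOf g = p ^ k) →
      ¬ q ∣ Nat.card ↥(Subgroup.centralizer ({g} : Set G))) :
    ∀ g : G, g ≠ 1 → (∃ k : ℕ, orderOf g = q ^ k) →
      ¬ p ∣ Nat.card ↥(Subgroup.centralizer ({g} : Set G)) := by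
  rintro g hg ⟨k, hk⟩ hdvd
  obtain ⟨u, hu⟩ := exists_prime_orderOf_dvd_card' p hdvd
  have huo : orderOf (u : G) = p := by rw [Subgroup.orderOf_coe, hu]
  have hu1 : (u : G) ≠ 1 := by
    intro h
    rw [h, orderOf_one] at huo
    exact (Fact.out : p.Prime).one_lt.ne huo
  apply hC (u : G) hu1 ⟨1, by rw [huo, pow_one]⟩
  have hmem : g ∈ Subgroup.centralizer ({(u : G)} : Set G) := by
    rw [Subgroup.mem_centralizer_singleton_iff]
    exact (Subgroup.mem_centralizer_singleton_iff.1 u.2).symm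
  have hk0 : k ≠ 0 := by
    rintro rfl
    rw [pow_zero, orderOf_eq_one_iff] at hk
    exact hg hk
  have h1 : q ∣ orderOf g := by rw [hk]; exact dvd_pow_self q hk0
  have h2 := orderOf_dvd_natCard (⟨g, hmem⟩ : Subgroup.centralizer ({(u : G)} : Set G))
  rw [Subgroup.orderOf_mk] at h2
  exact h1.trans h2

/-- A normal `p'`-subgroup of order divisible by `q` forces a character of `p`-defect zero. -/
theorem defect_zero_of_normal (p q : ℕ) [Fact p.Prime] [Fact q.Prime] (hppq : p ≠ q)
    (hpG : p ∣ Nat.card G) (hqG : q ∣ Nat.card G)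
    (hC : ∀ g : G, g ≠ 1 → (∃ k : ℕ, orderOf g = p ^ k) →
      ¬ q ∣ Nat.card ↥(Subgroup.centralizer ({g} : Set G)))
    (L : Subgroup G) (hL : L.Normal) (hLp : ¬ p ∣ Nat.card L) (hLq : q ∣ Nat.card L) :
    ∃ χ : Cfsg.IrrCharacter G,
      (Cfsg.charDegree (χ : G → ℂ)).factorization p = (Nat.card G).factorization p := by
  rcases Cfsg.Agent.S4742.result p q hppq hpG hqG hC with h | h
  · exact h
  · exfalso
    obtain ⟨z, hz⟩ := exists_prime_orderOf_dvd_card' q hLq
    have hzo : orderOf (z : G) = q := by rw [Subgroup.orderOf_coe, hz]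
    have hz1 : (z : G) ≠ 1 := by
      intro h
      rw [h, orderOf_one] at hzo
      exact (Fact.out : q.Prime).one_lt.ne hzo
    obtain ⟨g, h', hg, hh, hne, k, hk⟩ := h (z : G) hz1 ⟨1, by rw [hzo, pow_one]⟩
    have hgL : g ∈ L := by
      obtain ⟨c, rfl⟩ := isConj_iff.1 hg
      exact hL.conj_mem _ z.2 c
    have hhL : h' ∈ L := by
      obtain ⟨c, rfl⟩ := isConj_iff.1 hh
      exact hL.conj_mem _ z.2 c
    have hmem : g * h'⁻¹ ∈ L := L.mul_mem hgL (L.inv_mem hhL)
    have hk0 : k ≠ 0 := by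
      rintro rfl
      rw [pow_zero, orderOf_eq_one_iff] at hk
      exact hne hk
    have h2 := orderOf_dvd_natCard (⟨g * h'⁻¹, hmem⟩ : L)
    rw [Subgroup.orderOf_mk, hk] at h2
    exact hLp ((dvd_pow_self p hk0).trans h2)

theorem main (p q : ℕ) [Fact p.Prime] [Fact q.Prime] (hppq : p ≠ q)
    (hpG : p ∣ Nat.card G) (hqG : q ∣ Nat.card G)
    (hC : ∀ g : G, g ≠ 1 → (∃ k : ℕ, orderOf g = p ^ k) →
      ¬ q ∣ Nat.card ↥(Subgroup.centralizer ({g} : Set G)))
    (hsolv : Cfsg.IsPSolvable p G) :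
    (∃ χ : Cfsg.IrrCharacter G,
      (Cfsg.charDegree (χ : G → ℂ)).factorization p = (Nat.card G).factorization p) ∨
    (∃ χ : Cfsg.IrrCharacter G,
      (Cfsg.charDegree (χ : G → ℂ)).factorization q = (Nat.card G).factorization q) := by
  have hp : p.Prime := Fact.out
  have hq : q.Prime := Fact.out
  obtain ⟨n, H, h0, hlast, hmono, hnorm, hstep⟩ := hsolv
  -- first index where `p` or `q` divides the order
  have key : ∃ i : Fin n, (¬ p ∣ Nat.card (H i.castSucc) ∧ ¬ q ∣ Nat.card (H i.castSucc)) ∧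
      ¬ (¬ p ∣ Nat.card (H i.succ) ∧ ¬ q ∣ Nat.card (H i.succ)) := by
    by_contra hcon
    push Not at hcon
    have hall : ∀ i : Fin (n + 1), ¬ p ∣ Nat.card (H i) ∧ ¬ q ∣ Nat.card (H i) := by
      intro i
      induction i using Fin.induction with
      | zero =>
        rw [h0, Subgroup.card_bot]
        exact ⟨hp.one_lt.ne' ∘ Nat.dvd_one.1, hq.one_lt.ne' ∘ Nat.dvd_one.1⟩
      | succ i ih =>
        exact hcon i ih
    have := (hall (Fin.last n)).1
    rw [hlast, Subgroup.card_top] at this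
    exact this hpG
  obtain ⟨i, ⟨hi1, hi2⟩, hi3⟩ := key
  have hle : H i.castSucc ≤ H i.succ := hmono (Fin.castSucc_lt_succ).le
  have hcard : (H i.castSucc).relIndex (H i.succ) * Nat.card (H i.castSucc) = Nat.card (H i.succ) :=
    by
      have := Subgroup.relIndex_mul_relIndex ⊥ (H i.castSucc) (H i.succ) bot_le hle
      rw [Subgroup.relIndex_bot_left, Subgroup.relIndex_bot_left] at this
      rw [mul_comm]; exact this
  rcases hstep i with ⟨m, hm⟩ | hcop
  · -- a `q'`-group of order divisible by `p`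
    right
    have hq' : ¬ q ∣ Nat.card (H i.succ) := by
      rw [← hcard, hm]
      intro h
      rcases (Nat.Prime.dvd_mul hq).1 h with h | h
      · exact hppq ((Nat.prime_dvd_prime_iff_eq hq hp).1 (hq.dvd_of_dvd_pow h)).symm
      · exact hi2 h
    have hp' : p ∣ Nat.card (H i.succ) := by
      by_contra h
      exact hi3 ⟨h, hq'⟩
    exact defect_zero_of_normal q p hppq.symm hqG hpG (symm_hyp p q hC) (H i.succ) (hnorm _) hq' hp'
  · left
    have hp' : ¬ p ∣ Nat.card (H i.succ) := by
      rw [← hcard]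
      intro h
      rcases (Nat.Prime.dvd_mul hp).1 h with h | h
      · exact (Nat.Prime.coprime_iff_not_dvd hp).1 hcop.symm h
      · exact hi1 h
    have hq' : q ∣ Nat.card (H i.succ) := by
      by_contra h
      exact hi3 ⟨hp', h⟩
    exact defect_zero_of_normal p q hppq hpG hqG hC (H i.succ) (hnorm _) hp' hq'

end aux

/-- Let p ≠ q be primes dividing the order of the finite group G, suppose the centralizer of every non-identity p-element has order prime to q, and suppose G is p-solvable or q-solvable. Then G has an irreducible character of p-defect zero or an irreducible character of q-defect zero. -/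
theorem result {G : Type*} [Group G] [Finite G] (p q : ℕ) [Fact p.Prime] [Fact q.Prime] (hppq : p ≠ q) (hpG : p ∣ Nat.card G) (hqG : q ∣ Nat.card G) (hC : ∀ g : G, g ≠ 1 → (∃ k : ℕ, orderOf g = p ^ k) → ¬ q ∣ Nat.card ↥(Subgroup.centralizer ({g} : Set G))) (hsolv : Cfsg.IsPSolvable p G ∨ Cfsg.IsPSolvable q G) : (∃ χ : Cfsg.IrrCharacter G, (Cfsg.charDegree (χ : G → ℂ)).factorization p = (Nat.card G).factorization p) ∨ (∃ χ : Cfsg.IrrCharacter G, (Cfsg.charDegree (χ : G → ℂ)).factorization q = (Nat.card G).factorization q) := by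
  rcases hsolv with h | h
  · exact main p q hppq hpG hqG hC h
  · exact (main q p hppq.symm hqG hpG (symm_hyp p q hC) h).symm

end Cfsg.Agent.S4743
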