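import Cfsg.Statements.S4744
import Cfsg.Agent.Lib.Helper79.DefectZeroInvolution

set_option autoImplicit false
open Cfsg

namespace Cfsg.Agent.S4744

open Cfsg.Agent.Lib.Helper79

/-- Let p be an odd prime and G a finite group of even order divisible by p in which the centralizer of every non-identity p-element has odd order. Then either G has an irreducible character of p-defect zero, or the normalizer of every Sylow p-subgroup P of G has even order and P is abelian. -/
theorem result {G : Type*} [Group G] [Finite G] (p : ℕ) [Fact p.Prime] (hp2 : p ≠ 2) (hpG : p ∣ Nat.card G) (h2G : 2 ∣ Nat.card G) (hC : ∀ g : G, g ≠ 1 → (∃ k : ℕ, orderOf g = p ^ k) → Odd (Nat.card ↥(Subgroup.centralizer ({g} : Set G)))) : (∃ χ : Cfsg.IrrCharacter G, (Cfsg.charDegree (χ : G → ℂ)).factorization p = (Nat.card G).factorization p) ∨ ∀ P : Sylow p G, Even (Nat.card ↥(Subgroup.normalizer ((P : Subgroup G) : Set G))) ∧ IsMulCommutative ↥(P : Subgroup G) := by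
  by_cases hno : ∃ χ : Cfsg.IrrCharacter G,
      (Cfsg.charDegree (χ : G → ℂ)).factorization p = (Nat.card G).factorization p
  · exact Or.inl hno
  · right
    intro P
    obtain ⟨x, hx⟩ := exists_prime_orderOf_dvd_card' 2 h2G
    obtain ⟨t, ht, hP⟩ := exists_conj_inverting_given_sylow p hC hno x hx P
    have hx2 : x * x = 1 := by
      have := pow_orderOf_eq_one x
      rwa [hx, sq] at this
    have ht2 := mul_self_eq_one_of_isConj hx2 ht
    have htord : orderOf t = 2 := by
      obtain ⟨c, hc⟩ := isConj_iff.1 ht
      rw [← hc, ← hx]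
      exact orderOf_injective (MulAut.conj c).toMonoidHom (MulAut.conj c).injective x
    refine ⟨?_, isMulCommutative_of_inverted _ t hP⟩
    have hmem : t ∈ Subgroup.normalizer ((P : Subgroup G) : Set G) := by
      rw [Subgroup.mem_set_normalizer_iff]
      intro h
      constructor
      · intro hh
        have : t * h * t⁻¹ = h⁻¹ := hP h hh
        rw [this]
        exact (P : Subgroup G).inv_mem hh
      · intro hh
        have h1 : t * (t * h * t⁻¹) * t⁻¹ = (t * h * t⁻¹)⁻¹ := hP _ hh
        have htinv : t⁻¹ = t := inv_eq_of_mul_eq_one_left ht2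
        have h2 : t * (t * h * t⁻¹) * t⁻¹ = h := by
          rw [htinv]
          calc t * (t * h * t) * t = (t * t) * h * (t * t) := by group
            _ = h := by rw [ht2]; simp
        rw [h2] at h1
        rw [h1]
        exact (P : Subgroup G).inv_mem hh
    rw [even_iff_two_dvd, ← htord]
    have := orderOf_dvd_natCard (⟨t, hmem⟩ : Subgroup.normalizer ((P : Subgroup G) : Set G))
    rwa [← Subgroup.orderOf_coe] at this

end Cfsg.Agent.S4744
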