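import Cfsg.Statements.S4746
import Cfsg.Agent.Lib.Helper79.DefectZeroInvolution
import Cfsg.Agent.Lib.Helper79.EvenDegree

set_option autoImplicit false
open Cfsg

namespace Cfsg.Agent.S4746

open Cfsg.Agent.Lib.Helper79

/-- Let p be an odd prime and G a finite group of even order divisible by p in which the centralizer of every non-identity p-element has odd order. Then G has an irreducible character of p-defect zero or an irreducible character of even degree. -/
theorem result {G : Type*} [Group G] [Finite G] (p : ℕ) [Fact p.Prime] (hp2 : p ≠ 2) (hpG : p ∣ Nat.card G) (h2G : 2 ∣ Nat.card G) (hC : ∀ g : G, g ≠ 1 → (∃ k : ℕ, orderOf g = p ^ k) → Odd (Nat.card ↥(Subgroup.centralizer ({g} : Set G)))) : (∃ χ : Cfsg.IrrCharacter G, (Cfsg.charDegree (χ : G → ℂ)).factorization p = (Nat.card G).factorization p) ∨ ∃ χ : Cfsg.IrrCharacter G, Even (Cfsg.charDegree (χ : G → ℂ)) := by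
  by_cases hno : ∃ χ : Cfsg.IrrCharacter G,
      (Cfsg.charDegree (χ : G → ℂ)).factorization p = (Nat.card G).factorization p
  · exact Or.inl hno
  · right
    obtain ⟨x, hx⟩ := exists_prime_orderOf_dvd_card' 2 h2G
    obtain ⟨u, hu⟩ := exists_prime_orderOf_dvd_card' p hpG
    have hpg : IsPGroup p (Subgroup.zpowers u) :=
      IsPGroup.of_card (n := 1) (by rw [Nat.card_zpowers, hu, pow_one])
    obtain ⟨P, hP⟩ := hpg.exists_le_sylow
    obtain ⟨t, _, htP⟩ := exists_conj_inverting_given_sylow p hC hno x hx P
    have hu1 : u ≠ 1 := by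
      rintro rfl
      rw [orderOf_one] at hu
      exact (Fact.out : p.Prime).one_lt.ne hu
    apply exists_even_charDegree_of_real u hu1
    · exact isConj_iff.2 ⟨t, htP u (hP (Subgroup.mem_zpowers u))⟩
    · have := hC u hu1 ⟨1, by rw [hu, pow_one]⟩
      rw [← Nat.not_even_iff_odd, even_iff_two_dvd] at this
      exact this

end Cfsg.Agent.S4746
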