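import Cfsg.Statements.S4748
import Cfsg.Agent.Lib.Helper76.TIFaithA
import Cfsg.Agent.Lib.Helper76.TIFaithB
import Cfsg.Agent.Lib.Helper76.TIFaithC
import Cfsg.Agent.Lib.Helper76.TIFaithG

set_option autoImplicit false
open scoped Pointwise
open Cfsg

namespace Cfsg.Agent.S4748

open Cfsg.Agent.Lib.Helper76 Cfsg.Agent.Lib.Helper15 Cfsg.Agent.Lib.Helper74 Cfsg.Agent.Lib.Lead

/-- Let G be a finite p-solvable group whose Sylow p-subgroup P meets each conjugate g P g⁻¹ with g outside N_G(P) trivially, and let χ be a faithful character of G (χ g = χ 1 only for g = 1) whose degree d satisfies d² ≤ |P|. Then P is normal in G. -/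
theorem result {G : Type*} [Group G] [Finite G] (p : ℕ) [Fact p.Prime] (hsolv : Cfsg.IsPSolvable p G) (P : Sylow p G) (hTI : ∀ g : G, g ∉ Subgroup.normalizer ((P : Subgroup G) : Set G) → (P : Subgroup G) ⊓ (MulAut.conj g • (P : Subgroup G)) = ⊥) (χ : G → ℂ) (hχ : Cfsg.IsCharacter G χ) (hfaith : ∀ g : G, χ g = χ 1 → g = 1) (hdeg : Cfsg.charDegree χ ^ 2 ≤ Nat.card ↥(P : Subgroup G)) : (P : Subgroup G).Normal := by
  classical
  by_contra hN
  set K := pPrimeCore p G with hK
  have hKn : K.Normal := inferInstance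
  let _ : Fintype K := Fintype.ofFinite _
  have hnc := ti_not_centralizes P hsolv hTI hN
  obtain ⟨z, hzP, hz1, hzmin⟩ := ti_exists_min P hTI hnc
  have hzK : ∃ k0 ∈ K, z * k0 * z⁻¹ * k0⁻¹ ≠ 1 := by
    by_contra h
    push Not at h
    apply hnc
    intro y hy k hk
    have h1 : k * z = z * k := by
      have := congrArg (fun t => t * k * z) (h k hk)
      simpa [mul_assoc] using this.symm
    exact ti_centralizes P hTI hzP hz1 hk h1 y hy
  obtain ⟨k0, hk0, hw⟩ := hzK
  have hwK : z * k0 * z⁻¹ * k0⁻¹ ∈ K := K.mul_mem (hKn.conj_mem _ hk0 z) (K.inv_mem hk0)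
  have hχw : χ (z * k0 * z⁻¹ * k0⁻¹) ≠ χ 1 := fun h => hw (hfaith _ h)
  obtain ⟨θ, h0, hθw⟩ : ∃ θ : IrrCharacter K, classInner (fun k : K => χ k) (θ : K → ℂ) ≠ 0 ∧
      (θ : K → ℂ) ⟨_, hwK⟩ ≠ (θ : K → ℂ) 1 := by
    by_contra h
    push Not at h
    apply hχw
    have e := IsCharacter.eq_sum_classInner (IsCharacter.restrict hχ K)
    have e1 := congrFun e ⟨_, hwK⟩
    have e2 := congrFun e 1
    simp only [Finset.sum_apply, Pi.smul_apply, smul_eq_mul] at e1 e2
    have e1' : χ (z * k0 * z⁻¹ * k0⁻¹) = _ := e1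
    have e2' : χ 1 = _ := e2
    rw [e1', e2']
    apply Finset.sum_congr rfl
    intro θ _
    by_cases h1 : classInner (fun k : K => χ k) (θ : K → ℂ) = 0
    · have h1' : classInner (fun h : K => χ (h : G)) (θ : K → ℂ) = 0 := h1
      rw [h1', zero_mul, zero_mul]
    · rw [h θ h1]
  let T : Subgroup G :=
    { carrier := {x | x ∈ (P : Subgroup G) ∧ cj K x (θ : K → ℂ) = θ}
      mul_mem' := by
        rintro a b ⟨ha, ha'⟩ ⟨hb, hb'⟩
        exact ⟨mul_mem ha hb, by rw [← cj_cj, ha', hb']⟩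
      one_mem' := ⟨one_mem _, cj_one K _⟩
      inv_mem' := by
        rintro a ⟨ha, ha'⟩
        refine ⟨inv_mem ha, ?_⟩
        conv_lhs => rw [← ha']
        exact cj_inv_cj K a _ }
  have hTP : T ≤ P := fun x hx => hx.1
  have hB := card_mul_degree_le K hχ θ.2 h0 P T (fun x => Iff.rfl)
  have hdθ : 0 < charDegree (θ : K → ℂ) := by
    rw [Nat.pos_iff_ne_zero]
    intro h
    have h1 := IsCharacter.charDegree_eq (IrrCharacter.isCharacter θ)
    rw [h] at h1
    exact irr_one_ne_zero θ.2 (by simpa using h1.symm)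
  have hPpos : 0 < Nat.card (P : Subgroup G) := Nat.card_pos
  have hTcard : Nat.card T ≤ Nat.card (P : Subgroup G) := Subgroup.card_le_of_le hTP
  have hPne : (P : Subgroup G) ≠ ⊥ := by
    intro h
    apply hN
    rw [h]
    infer_instance
  have hP1 : 1 < Nat.card (P : Subgroup G) := by
    rcases Nat.lt_or_ge 1 (Nat.card (P : Subgroup G)) with h | h
    · exact h
    · exact absurd (Subgroup.card_eq_one.mp (le_antisymm h hPpos)) hPne
  by_cases hTb : T = ⊥
  · rw [hTb, Subgroup.card_bot, one_mul] at hB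
    have h1 : Nat.card (P : Subgroup G) ≤ charDegree χ :=
      le_trans (Nat.le_mul_of_pos_right _ hdθ) hB
    have h2 : Nat.card (P : Subgroup G) ^ 2 ≤ Nat.card (P : Subgroup G) :=
      le_trans (Nat.pow_le_pow_left h1 2) hdeg
    nlinarith
  have hzT : z ∈ T := hzmin T hTP hTb
  set C : Subgroup K := (Subgroup.centralizer ((P : Subgroup G) : Set G)).subgroupOf K with hC
  let _ : Fintype C := Fintype.ofFinite _
  let act : MulAction T K :=
    MulAction.compHom K ((MulAut.conjNormal (H := K)).comp T.subtype)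
  have hsmul : ∀ (t : T) (k : K), ((t • k : K) : G) = (t : G) * k * (t : G)⁻¹ := by
    intro t k
    rfl
  have hfix : ∀ (t : T), ∀ c ∈ C, t • c = c := by
    intro t c hc
    apply Subtype.ext
    rw [hsmul]
    have h1 : (c : G) ∈ Subgroup.centralizer ((P : Subgroup G) : Set G) := hc
    have h2 := Subgroup.mem_centralizer_iff.mp h1 (t : G) (hTP t.2)
    rw [h2, mul_inv_cancel_right]
  have hreg : ∀ (t : T) (k : K), t • k = k → t ≠ 1 → k ∈ C := by
    intro t k htk ht1
    have h1 : (t : G) * k * (t : G)⁻¹ = k := by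
      rw [← hsmul, htk]
    have h2 : (k : G) * (t : G) = (t : G) * k := by
      have := congrArg (fun x => x * (t : G)) h1
      simpa using this.symm
    have h3 := ti_centralizes P hTI (hTP t.2) (fun h => ht1 (Subtype.ext h)) k.2 h2
    change (k : G) ∈ Subgroup.centralizer ((P : Subgroup G) : Set G)
    rw [Subgroup.mem_centralizer_iff]
    intro y hy
    exact (h3 y hy).symm
  have hinv : ∀ (t : T) (k : K), (θ : K → ℂ) (t • k) = (θ : K → ℂ) k := by
    intro t k
    exact congrFun t.2.2 k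
  obtain ⟨n, hn⟩ := inner_nat (char_restrict (irr_char θ.2) C) (char_restrict (irr_char θ.2) C)
  have d1 := dvd_norm_sub_of_semiregular (T := T) C hfix hreg (irr_char θ.2) hinv 1 n
    (by rw [irr_inner_self θ.2]; simp) hn
  have d2 := dvd_norm_sub_of_semiregular (T := T) C hfix hreg
    (irr_char (isIrrCharacter_one (G := K))) (fun _ _ => rfl) 1 1
    (by rw [irr_inner_self isIrrCharacter_one]; simp)
    (by rw [irr_inner_self (isIrrCharacter_one (G := C))]; simp)
  have d3 : (Nat.card T : ℤ) ∣ (Nat.card C : ℤ) * ((n : ℤ) - 1) := by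
    have := dvd_sub d2 d1
    have e : (Nat.card K : ℤ) * ((1 : ℕ) : ℤ) - (Nat.card C : ℤ) * ((1 : ℕ) : ℤ) -
        ((Nat.card K : ℤ) * ((1 : ℕ) : ℤ) - (Nat.card C : ℤ) * (n : ℤ)) =
        (Nat.card C : ℤ) * ((n : ℤ) - 1) := by
      push_cast
      ring
    rwa [e] at this
  have hcop : IsCoprime (Nat.card T : ℤ) (Nat.card C : ℤ) := by
    rw [Nat.isCoprime_iff_coprime]
    obtain ⟨m, hm⟩ := (IsPGroup.iff_card.mp (P.2.to_le hTP))
    rw [hm]
    apply Nat.Coprime.pow_left
    have h1 : (Nat.card K).Coprime p := card_pPrimeCore_coprime p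
    exact (Nat.Coprime.of_dvd_left (Subgroup.card_subgroup_dvd_card C) h1).symm
  have d4 : (Nat.card T : ℤ) ∣ (n : ℤ) - 1 := hcop.dvd_of_dvd_mul_left d3
  have hT1 : 1 < Nat.card T := by
    rcases Nat.lt_or_ge 1 (Nat.card T) with h | h
    · exact h
    · exact absurd (Subgroup.card_eq_one.mp (le_antisymm h Nat.card_pos)) hTb
  have hnle := norm_restrict_le (irr_char θ.2) C n hn
  have hn1 : n ≠ 1 := by
    rintro rfl
    apply hθw
    have h1 := char_comm_eq_of_restrict_norm_one θ.2 (MulAut.conjNormal z : K ≃* K)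
      (fun k => congrFun hzT.2 k) C (fun c hc => hfix ⟨z, hzT⟩ c hc) (by simpa using hn)
      ⟨k0, hk0⟩
    exact h1
  have hn0 : n ≠ 0 := by
    rintro rfl
    have h1 : (Nat.card T : ℤ) ∣ 1 := by
      have := (dvd_neg.mpr d4)
      simpa using this
    have h2 : Nat.card T ∣ 1 := by exact_mod_cast h1
    have h3 := Nat.le_of_dvd one_pos h2
    omega
  have hTn : Nat.card T < n := by
    have h1 : (0 : ℤ) < (n : ℤ) - 1 := by
      have : 2 ≤ n := by omega
      have : (2 : ℤ) ≤ (n : ℤ) := by exact_mod_cast this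
      linarith
    have h2 := Int.le_of_dvd h1 d4
    have h3 : (Nat.card T : ℤ) < (n : ℤ) := by linarith
    exact_mod_cast h3
  have hTd : Nat.card T + 1 ≤ charDegree (θ : K → ℂ) ^ 2 := le_trans hTn hnle
  have h5 : (Nat.card (P : Subgroup G) * charDegree (θ : K → ℂ)) ^ 2 ≤
      (Nat.card T * charDegree χ) ^ 2 := Nat.pow_le_pow_left hB 2
  have h6 : Nat.card (P : Subgroup G) * (Nat.card (P : Subgroup G) * (Nat.card T + 1)) ≤
      Nat.card (P : Subgroup G) * (Nat.card T ^ 2) := by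
    calc Nat.card (P : Subgroup G) * (Nat.card (P : Subgroup G) * (Nat.card T + 1))
        ≤ Nat.card (P : Subgroup G) * (Nat.card (P : Subgroup G) *
            charDegree (θ : K → ℂ) ^ 2) :=
          Nat.mul_le_mul_left _ (Nat.mul_le_mul_left _ hTd)
      _ = (Nat.card (P : Subgroup G) * charDegree (θ : K → ℂ)) ^ 2 := by ring
      _ ≤ (Nat.card T * charDegree χ) ^ 2 := h5
      _ = Nat.card T ^ 2 * charDegree χ ^ 2 := by ring
      _ ≤ Nat.card T ^ 2 * Nat.card (P : Subgroup G) := Nat.mul_le_mul_left _ hdeg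
      _ = Nat.card (P : Subgroup G) * (Nat.card T ^ 2) := by ring
  have h7 : Nat.card (P : Subgroup G) * (Nat.card T + 1) ≤ Nat.card T ^ 2 :=
    Nat.le_of_mul_le_mul_left h6 hPpos
  nlinarith

end Cfsg.Agent.S4748
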