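import Cfsg.Statements.S4750
import Cfsg.Agent.Lib.Helper3.TILattice
import Cfsg.Agent.Lib.Helper3.Eigen

set_option autoImplicit false
open scoped Pointwise
open Cfsg

namespace Cfsg.Agent.S4750

open Cfsg.Agent.Lib.Helper3
open scoped ComplexConjugate

/-- the norm of the restriction of a character to a subgroup, as a dimension of invariants -/
theorem classInner_restrict_eq {G : Type*} [Group G] [Finite G] {n : ℕ}
    (ρ : Representation ℂ G (Fin n → ℂ)) (H : Subgroup G) [Fintype H] :
    Cfsg.classInner (fun h : H => ρ.character h) (fun h : H => ρ.character h) =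
      (Module.finrank ℂ (Representation.invariants
        ((Representation.linHom ρ ρ).comp H.subtype :
          Representation ℂ H ((Fin n → ℂ) →ₗ[ℂ] (Fin n → ℂ)))) : ℂ) := by
  have hinv : Invertible ((Nat.card H : ℕ) : ℂ) :=
    invertibleOfNonzero (by exact_mod_cast Nat.card_pos.ne')
  rw [← Representation.card_inv_mul_sum_char_eq_finrank]
  unfold Cfsg.classInner
  congr 1
  apply Finset.sum_congr rfl
  intro h _
  have h1 : Representation.character ((Representation.linHom ρ ρ).comp H.subtype :
      Representation ℂ H ((Fin n → ℂ) →ₗ[ℂ] (Fin n → ℂ))) h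
      = (Representation.linHom ρ ρ).character (h : G) := rfl
  rw [h1, Representation.char_linHom, char_inv_eq_conj, mul_comm]

/-- Let P be a Sylow p-subgroup of the finite group G that meets each conjugate g P g⁻¹ with g outside N_G(P) trivially, χ a character of G with χ(1)² ≤ |P|, and H a subgroup of G containing N_G(P). Then the inner product of χ with itself over G equals the inner product over H of the restriction of χ to H. -/
theorem result {G : Type*} [Group G] [Fintype G] [DecidableEq G] (p : ℕ) [Fact p.Prime] (P : Sylow p G) (hTI : ∀ g : G, g ∉ Subgroup.normalizer ((P : Subgroup G) : Set G) → (P : Subgroup G) ⊓ (MulAut.conj g • (P : Subgroup G)) = ⊥) (χ : G → ℂ) (hχ : Cfsg.IsCharacter G χ) (hdeg : Cfsg.charDegree χ ^ 2 ≤ Nat.card ↥(P : Subgroup G)) (H : Subgroup G) [Fintype ↥H] (hH : Subgroup.normalizer ((P : Subgroup G) : Set G) ≤ H) : Cfsg.classInner χ χ = Cfsg.classInner (fun h : ↥H => χ h) (fun h : ↥H => χ h) := by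
  obtain ⟨n, ρ, rfl⟩ := hχ
  have hdegn : Cfsg.charDegree ρ.character = n := by
    unfold Cfsg.charDegree
    rw [Representation.char_one]
    simp
  rw [hdegn] at hdeg
  let τ : Representation ℂ G ((Fin n → ℂ) →ₗ[ℂ] (Fin n → ℂ)) := Representation.linHom ρ ρ
  have hG : Cfsg.classInner ρ.character ρ.character =
      (Module.finrank ℂ (Representation.invariants τ) : ℂ) := by
    have hinv : Invertible ((Nat.card G : ℕ) : ℂ) :=
      invertibleOfNonzero (by exact_mod_cast Nat.card_pos.ne')
    rw [← Representation.card_inv_mul_sum_char_eq_finrank]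
    unfold Cfsg.classInner
    congr 1
    apply Finset.sum_congr rfl
    intro g _
    rw [Representation.char_linHom, char_inv_eq_conj, mul_comm]
  rw [hG, classInner_restrict_eq ρ H]
  have heq : Representation.invariants τ = Representation.invariants
      (τ.comp H.subtype : Representation ℂ H ((Fin n → ℂ) →ₗ[ℂ] (Fin n → ℂ))) := by
    apply le_antisymm
    · intro w hw h
      exact hw (h : G)
    · intro w hw g
      rcases Nat.eq_zero_or_pos n with rfl | hn
      · apply LinearMap.ext
        intro v
        exact Subsingleton.elim _ _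
      · have hdim : Module.finrank ℂ ((Fin n → ℂ) →ₗ[ℂ] (Fin n → ℂ)) ≤ Nat.card (P : Subgroup G) := by
          rw [Module.finrank_linearMap, Module.finrank_fin_fun]
          rwa [sq] at hdeg
        have hne : (LinearMap.id : (Fin n → ℂ) →ₗ[ℂ] (Fin n → ℂ)) ≠ 0 := by
          intro h0
          have h1 := congrFun (LinearMap.congr_fun h0 (fun _ => 1)) ⟨0, hn⟩
          simp at h1
        refine invariant_of_TI P hTI H hH τ hdim LinearMap.id hne ?_ w (fun h hh => hw ⟨h, hh⟩) g
        intro s
        show Representation.linHom ρ ρ s LinearMap.id = LinearMap.id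
        rw [Representation.linHom_apply]
        apply LinearMap.ext
        intro v
        show ρ s (ρ s⁻¹ v) = v
        rw [← Module.End.mul_apply, ← map_mul, mul_inv_cancel, map_one, Module.End.one_apply]
  rw [heq]

end Cfsg.Agent.S4750
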