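import Cfsg.Statements.S4754
import Cfsg.Agent.Lib.Helper78.ClassAlg
import Cfsg.Agent.S0136

set_option autoImplicit false
open Cfsg

namespace Cfsg.Agent.S4754

open Cfsg.Agent.Lib.Helper78

/-- For elements x, y of a finite group G, the conjugacy class of x y equals the set of all products of a conjugate of x with a conjugate of y if and only if χ(1) χ(a x a⁻¹ b y b⁻¹) = χ(x) χ(y) for all a, b ∈ G and every irreducible character χ. -/
theorem result {G : Type*} [Group G] [Finite G] (x y : G) : (∀ z : G, IsConj (x * y) z ↔ ∃ a b : G, z = a * x * a⁻¹ * (b * y * b⁻¹)) ↔ ∀ (a b : G) (χ : Cfsg.IrrCharacter G), (χ : G → ℂ) 1 * (χ : G → ℂ) (a * x * a⁻¹ * (b * y * b⁻¹)) = (χ : G → ℂ) x * (χ : G → ℂ) y := by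
  classical
  have := Fintype.ofFinite G
  have hcard : (Fintype.card G : ℂ) ≠ 0 := by
    exact_mod_cast Fintype.card_ne_zero
  constructor
  · intro h a b χ
    have hcl := irr_isClassFunction χ
    have hconst : ∀ a b : G, (χ : G → ℂ) (a * x * a⁻¹ * (b * y * b⁻¹)) = (χ : G → ℂ) (x * y) := by
      intro a b
      exact ((isClassFunction_iff_isConj.1 hcl) _ _ ((h _).2 ⟨a, b, rfl⟩)).symm
    have h1 := Cfsg.Agent.Lib.Helper81.IsIrrCharacter.sum_mul_conj χ.2 (1 * x * 1⁻¹) y
    simp_rw [hconst] at h1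
    rw [hconst]
    have h0 := irr_one_ne_zero χ
    simp only [Finset.sum_const, Finset.card_univ, nsmul_eq_mul, one_mul, inv_one, mul_one] at h1
    field_simp at h1
    linear_combination h1
  · intro h z
    constructor
    · intro hz
      obtain ⟨c, hc⟩ := isConj_iff.1 hz
      exact ⟨c, c, by rw [← hc]; group⟩
    · rintro ⟨a, b, rfl⟩
      rw [Cfsg.Agent.S0136.result]
      intro χ
      have h1 := h a b χ
      have h2 := h 1 1 χ
      simp only [one_mul, inv_one, mul_one] at h2
      exact mul_left_cancel₀ (irr_one_ne_zero χ) (h2.trans h1.symm)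

end Cfsg.Agent.S4754
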