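import Cfsg.Statements.S4755
import Cfsg.Agent.Lib.Helper78.ClassAlg
import Cfsg.Agent.Lib.Helper80.Linear
import Cfsg.Agent.S0136
import Cfsg.Agent.S0145
import Cfsg.Agent.S0154

set_option autoImplicit false
open Cfsg
open scoped ComplexConjugate commutatorElement

namespace Cfsg.Agent.S4755

open Cfsg.Agent.Lib.Helper78

/-- Let x, y be non-identity elements of the finite group G such that χ(x' y') = χ(x') χ(y') for all conjugates x' of x, y' of y and every irreducible character χ. Then the conjugacy class of x y is the set of all products of a conjugate of x with a conjugate of y; every irreducible character of degree greater than 1 vanishes at x y; and the conjugacy class of x y is the coset of the commutator subgroup containing x y. -/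
theorem result {G : Type*} [Group G] [Finite G] (x y : G) (hx : x ≠ 1) (hy : y ≠ 1) (h : ∀ (a b : G) (χ : Cfsg.IrrCharacter G), (χ : G → ℂ) (a * x * a⁻¹ * (b * y * b⁻¹)) = (χ : G → ℂ) (a * x * a⁻¹) * (χ : G → ℂ) (b * y * b⁻¹)) : (∀ z : G, IsConj (x * y) z ↔ ∃ a b : G, z = a * x * a⁻¹ * (b * y * b⁻¹)) ∧ (∀ χ : Cfsg.IrrCharacter G, (χ : G → ℂ) 1 ≠ 1 → (χ : G → ℂ) (x * y) = 0) ∧ (∀ z : G, IsConj (x * y) z ↔ (x * y)⁻¹ * z ∈ commutator G) := by
  classical
  have := Fintype.ofFinite G
  have hcard : (Fintype.card G : ℂ) ≠ 0 := by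
    exact_mod_cast Fintype.card_ne_zero
  have h' : ∀ (a b : G) (χ : Cfsg.IrrCharacter G),
      (χ : G → ℂ) (a * x * a⁻¹ * (b * y * b⁻¹)) = (χ : G → ℂ) x * (χ : G → ℂ) y := by
    intro a b χ
    rw [h, irr_isClassFunction χ, irr_isClassFunction χ]
  have hxy : ∀ χ : Cfsg.IrrCharacter G, (χ : G → ℂ) (x * y) = (χ : G → ℂ) x * (χ : G → ℂ) y := by
    intro χ
    have := h' 1 1 χ
    simpa using this
  have hvan : ∀ χ : Cfsg.IrrCharacter G, (χ : G → ℂ) 1 ≠ 1 → (χ : G → ℂ) (x * y) = 0 := by
    intro χ hχ
    have h1 := Cfsg.Agent.Lib.Helper81.IsIrrCharacter.sum_mul_conj χ.2 (1 * x * 1⁻¹) y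
    simp_rw [h'] at h1
    have h0 := irr_one_ne_zero χ
    simp only [Finset.sum_const, Finset.card_univ, nsmul_eq_mul, one_mul, inv_one, mul_one] at h1
    rw [hxy]
    have h2 : (χ : G → ℂ) x * (χ : G → ℂ) y * ((χ : G → ℂ) 1 - 1) = 0 := by
      field_simp at h1
      linear_combination h1
    exact (mul_eq_zero.1 h2).resolve_right (sub_ne_zero.2 hχ)
  refine ⟨?_, hvan, ?_⟩
  · intro z
    constructor
    · intro hz
      obtain ⟨c, hc⟩ := isConj_iff.1 hz
      exact ⟨c, c, by rw [← hc]; group⟩
    · rintro ⟨a, b, rfl⟩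
      rw [Cfsg.Agent.S0136.result]
      intro χ
      rw [h', hxy]
  · set w := x * y with hw
    -- the centralizer of w has order |G : G'|
    have hC : Nat.card (Subgroup.centralizer ({w} : Set G)) = (commutator G).index := by
      have h1 := (Cfsg.Agent.S0145.result w w).1 (IsConj.refl w)
      rw [finsum_eq_sum_of_fintype] at h1
      have h2 : ∀ χ : Cfsg.IrrCharacter G, (χ : G → ℂ) w * conj ((χ : G → ℂ) w)
          = if (χ : G → ℂ) 1 = 1 then 1 else 0 := by
        intro χ
        by_cases hχ : (χ : G → ℂ) 1 = 1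
        · rw [if_pos hχ, ← irr_inv, ← Cfsg.Agent.Lib.Helper80.char_mul_of_degree_one
            (Cfsg.Agent.Lib.Helper80.isCharacter_of_irr χ.2) hχ, mul_inv_cancel, hχ]
        · rw [if_neg hχ, hvan χ hχ, zero_mul]
      rw [Finset.sum_congr rfl fun χ _ => h2 χ, Finset.sum_boole] at h1
      have h3 : Nat.card {χ : Cfsg.IrrCharacter G // (χ : G → ℂ) 1 = 1}
          = (Finset.univ.filter fun χ : Cfsg.IrrCharacter G => (χ : G → ℂ) 1 = 1).card := by
        rw [Nat.card_eq_fintype_card, Fintype.card_subtype]
      rw [← Cfsg.Agent.S0154.result, h3]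
      exact_mod_cast h1.symm
    have hidx : (Subgroup.centralizer ({w} : Set G)).index = Nat.card (commutator G) := by
      have e1 := (Subgroup.centralizer ({w} : Set G)).card_mul_index
      have e2 := (commutator G).card_mul_index
      rw [hC] at e1
      have hpos : 0 < (commutator G).index := Nat.pos_of_ne_zero (Subgroup.index_ne_zero_of_finite)
      have : (commutator G).index * (Subgroup.centralizer ({w} : Set G)).index
          = (commutator G).index * Nat.card (commutator G) := by
        rw [e1, ← e2, mul_comm]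
      exact Nat.eq_of_mul_eq_mul_left hpos this
    have hsub : (Finset.univ.filter fun z => IsConj w z)
        ⊆ (Finset.univ.filter fun z => w⁻¹ * z ∈ commutator G) := by
      intro z hz
      simp only [Finset.mem_filter, Finset.mem_univ, true_and] at hz ⊢
      obtain ⟨c, hc⟩ := isConj_iff.1 hz
      rw [← hc]
      have : w⁻¹ * (c * w * c⁻¹) = ⁅w⁻¹, c⁆ := by
        rw [commutatorElement_def]; group
      rw [this, commutator_def]
      exact Subgroup.commutator_mem_commutator (Subgroup.mem_top _) (Subgroup.mem_top _)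
    have hcardB : (Finset.univ.filter fun z => w⁻¹ * z ∈ commutator G).card
        = Nat.card (commutator G) := by
      rw [Nat.card_eq_fintype_card, Fintype.card_subtype]
      apply Finset.card_bij (fun z _ => w⁻¹ * z)
      · intro z hz
        simpa using hz
      · intro a _ b _ hab
        exact mul_left_cancel hab
      · intro b hb
        refine ⟨w * b, ?_, by simp⟩
        simpa using hb
    have heq := Finset.eq_of_subset_of_card_le hsub
      (by rw [hcardB, ← hidx, index_centralizer_eq_card])
    intro z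
    have := Finset.ext_iff.1 heq z
    simpa using this

end Cfsg.Agent.S4755
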