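import Cfsg.Statements.S4756
import Cfsg.Agent.Lib.Helper71.MulChar.F
import Cfsg.Agent.Lib.Helper71.MulChar.S
import Cfsg.Agent.Lib.Helper71.MulChar.B
import Cfsg.Agent.Lib.Helper71.MulChar.B0

set_option autoImplicit false
open Cfsg

namespace Cfsg.Agent.S4756
open Cfsg.Agent.Lib.Helper71.MulChar

theorem result {G : Type*} [Group G] [Finite G] : (∀ (x y : G) (χ : Cfsg.IrrCharacter G), x ≠ 1 → y ≠ 1 → (∃ p q a b : ℕ, p.Prime ∧ q.Prime ∧ p ≠ q ∧ orderOf x = p ^ a ∧ orderOf y = q ^ b) → (χ : G → ℂ) (x * y) = (χ : G → ℂ) x * (χ : G → ℂ) y) ↔ ((∃ p : ℕ, p.Prime ∧ IsPGroup p G) ∨ IsMulCommutative G ∨ ∃ (p : ℕ) (_ : Fact p.Prime) (P : Sylow p G) (A : Subgroup G), (P : Subgroup G).Normal ∧ IsCyclic ↥A ∧ A ≠ ⊥ ∧ (Nat.card ↥A).Coprime p ∧ A ⊔ (P : Subgroup G) = ⊤ ∧ IsMulCommutative ↥((P : Subgroup G) ⊓ Subgroup.centralizer (A : Set G)) ∧ (⁅A, (P : Subgroup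 G)⁆).Normal ∧ ((P : Subgroup G) ⊓ Subgroup.centralizer (A : Set G)) ⊔ ⁅A, (P : Subgroup G)⁆ = (P : Subgroup G) ∧ ((P : Subgroup G) ⊓ Subgroup.centralizer (A : Set G)) ⊓ ⁅A, (P : Subgroup G)⁆ = ⊥ ∧ ∀ a ∈ A, a ≠ 1 → ∀ d ∈ ⁅A, (P : Subgroup G)⁆, a * d = d * a → d = 1) := by
  constructor
  · intro h
    by_cases hp : ∃ p : ℕ, p.Prime ∧ IsPGroup p G
    · exact Or.inl hp
    by_cases hab : IsMulCommutative G
    · exact Or.inr (Or.inl hab)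
    obtain ⟨p, hpp, hD, hC⟩ := pieceF (G := G) h hp hab
    exact Or.inr (Or.inr (pieceS p hpp hp hab hD hC))
  · rintro (h | h | h)
    · exact pieceB0 (Or.inl h)
    · exact pieceB0 (Or.inr h)
    · exact pieceB (G := G) h

end Cfsg.Agent.S4756
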