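import Cfsg.Statements.S4757
import Cfsg.Agent.Lib.Helper80.Linear
import Cfsg.Agent.Lib.Helper80.Core
import Cfsg.Agent.Lib.Lead.Cores

set_option autoImplicit false
open Cfsg

namespace Cfsg.Agent.S4757

open Cfsg.Agent.Lib.Helper74 Cfsg.Agent.Lib.Helper80
open scoped ComplexConjugate

set_option linter.unusedSectionVars false

section aux
variable {G : Type*} [Group G] [Finite G]

/-- the principal character -/
def triv (G : Type*) [Group G] : IrrCharacter G := ⟨fun _ => 1, isIrrCharacter_one⟩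

theorem irr_one (χ : IrrCharacter G) : (χ : G → ℂ) 1 = (charDegree (χ : G → ℂ) : ℂ) :=
  char_one_eq_charDegree (isCharacter_of_irr χ.2)

theorem deg_pos (χ : IrrCharacter G) : 0 < charDegree (χ : G → ℂ) :=
  charDegree_pos_of_irr χ.2

theorem ne_triv_iff (χ : IrrCharacter G) : χ ≠ triv G ↔ (χ : G → ℂ) ≠ (fun _ => (1 : ℂ)) := by
  rw [Ne, Subtype.ext_iff]; rfl

theorem sum_re_eq_zero (u : G) (hu : u ≠ 1) :
    ∑ χ : IrrCharacter G, ((χ : G → ℂ) u).re * (charDegree (χ : G → ℂ) : ℝ) = 0 := by
  have h := col_orth u 1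
  rw [if_neg (by rw [isConj_one_left]; exact hu)] at h
  have h2 := congrArg Complex.re h
  rw [Complex.re_sum] at h2
  rw [← h2.trans Complex.zero_re]
  refine Finset.sum_congr rfl fun χ _ => ?_
  rw [irr_one, Complex.conj_natCast]
  simp [Complex.mul_re]

theorem false_of_nonneg (u : G) (hu : u ≠ 1)
    (h : ∀ χ : IrrCharacter G, χ ≠ triv G → 0 ≤ ((χ : G → ℂ) u).re * (charDegree (χ : G → ℂ) : ℝ)) :
    False := by
  have h0 := sum_re_eq_zero u hu
  have h1 : ((triv G : G → ℂ) u).re * (charDegree (triv G : G → ℂ) : ℝ) > 0 := by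
    have : (0:ℝ) < (charDegree (triv G : G → ℂ) : ℝ) := by exact_mod_cast deg_pos (triv G)
    have h3 : ((triv G : G → ℂ) u).re = 1 := by simp [triv]
    rw [h3]; linarith
  have h2 : ∀ χ ∈ (Finset.univ : Finset (IrrCharacter G)),
      0 ≤ ((χ : G → ℂ) u).re * (charDegree (χ : G → ℂ) : ℝ) := by
    intro χ _
    by_cases hχ : χ = triv G
    · rw [hχ]; exact h1.le
    · exact h χ hχ
  have := (Finset.sum_eq_zero_iff_of_nonneg h2).1 h0 (triv G) (Finset.mem_univ _)
  linarith

/-- the irreducible character of a homomorphism -/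
def ofHom (f : G →* ℂˣ) : IrrCharacter G := ⟨fun g => (f g : ℂ), isIrrCharacter_of_hom f⟩

theorem ofHom_ne_triv {f : G →* ℂˣ} (hf : f ≠ 1) : ofHom f ≠ triv G := by
  intro h
  apply hf
  ext g
  have := congrFun (congrArg Subtype.val h) g
  simpa [ofHom, triv] using this

theorem exists_hom (χ : IrrCharacter G) (h1 : (χ : G → ℂ) 1 = 1) : ∃ f : G →* ℂˣ, χ = ofHom f := by
  obtain ⟨f, hf⟩ := exists_hom_of_degree_one (isCharacter_of_irr χ.2) h1
  exact ⟨f, Subtype.ext (funext hf)⟩

theorem exists_hom_ne_one (h : commutator G ≠ ⊤) : ∃ f : G →* ℂˣ, f ≠ 1 := by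
  by_contra hcon
  push Not at hcon
  apply h
  rw [← Subgroup.index_eq_one, ← card_linear]
  have : Subsingleton {χ : IrrCharacter G // (χ : G → ℂ) 1 = 1} := by
    constructor
    rintro ⟨a, ha⟩ ⟨b, hb⟩
    obtain ⟨f, rfl⟩ := exists_hom a ha
    obtain ⟨g, rfl⟩ := exists_hom b hb
    rw [Subtype.mk.injEq, hcon f, hcon g]
  have : Nonempty {χ : IrrCharacter G // (χ : G → ℂ) 1 = 1} := ⟨⟨triv G, rfl⟩⟩
  exact Nat.card_unique

theorem hom_eq_one_of_perfect (h : commutator G = ⊤) (f : G →* ℂˣ) : f = 1 := by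
  ext g
  have : g ∈ f.ker := Abelianization.commutator_subset_ker f (h ▸ Subgroup.mem_top g)
  rw [MonoidHom.mem_ker.1 this]; rfl

theorem group_part (u : G) (hu : u ≠ 1)
    (hC : Nat.card (Subgroup.centralizer ({u} : Set G)) = 2) (hidx : (commutator G).index = 2)
    (hun : u ∉ commutator G) :
    orderOf u = 2 ∧ Subgroup.zpowers u ⊔ Cfsg.oddCore G = ⊤ ∧
      Subgroup.centralizer ({u} : Set G) = Subgroup.zpowers u := by
  have hle : Subgroup.zpowers u ≤ Subgroup.centralizer ({u} : Set G) := by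
    rw [Subgroup.zpowers_le]; exact Subgroup.mem_centralizer_singleton_iff.2 rfl
  have hord : orderOf u = 2 := by
    have h1 : orderOf u ∣ 2 := by
      rw [← Nat.card_zpowers, ← hC]; exact Subgroup.card_dvd_of_le hle
    rcases (Nat.Prime.eq_one_or_self_of_dvd Nat.prime_two _ h1) with h | h
    · exact absurd (orderOf_eq_one_iff.1 h) hu
    · exact h
  have heq : Subgroup.centralizer ({u} : Set G) = Subgroup.zpowers u :=
    (Subgroup.eq_of_le_of_card_ge hle (by rw [hC, Nat.card_zpowers, hord])).symm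
  refine ⟨hord, ?_, heq⟩
  have : Fact (Nat.Prime 2) := ⟨Nat.prime_two⟩
  have hpg : IsPGroup 2 (Subgroup.zpowers u) :=
    IsPGroup.of_card (n := 1) (by rw [Nat.card_zpowers, hord]; rfl)
  obtain ⟨P, hP⟩ := hpg.exists_le_sylow
  have huP : u ∈ P := hP (Subgroup.mem_zpowers u)
  have : Nontrivial P := ⟨⟨⟨u, huP⟩, 1, fun h => hu (congrArg Subtype.val h)⟩⟩
  have := P.2.center_nontrivial
  obtain ⟨z, hz⟩ := exists_ne (1 : Subgroup.center P)
  have hzu : ((z : P) : G) = u := by
    have h1 : ((z : P) : G) ∈ Subgroup.centralizer ({u} : Set G) := by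
      rw [Subgroup.mem_centralizer_singleton_iff]
      have := Subgroup.mem_center_iff.1 z.2 ⟨u, huP⟩
      exact (congrArg Subtype.val this).symm
    rw [heq] at h1
    obtain ⟨k, hk⟩ := Subgroup.mem_zpowers_iff.1 h1
    rw [← zpow_mod_orderOf, hord] at hk
    have h2 : k % ((2 : ℕ) : ℤ) = 0 ∨ k % ((2 : ℕ) : ℤ) = 1 := by omega
    rcases h2 with h2 | h2
    · rw [h2, zpow_zero] at hk
      exfalso; apply hz
      ext; exact hk.symm
    · rw [h2, zpow_one] at hk
      exact hk.symm
  have hPle : (P : Subgroup G) ≤ Subgroup.centralizer ({u} : Set G) := by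
    intro x hx
    rw [Subgroup.mem_centralizer_singleton_iff]
    have := Subgroup.mem_center_iff.1 z.2 ⟨x, hx⟩
    have h3 := congrArg Subtype.val this
    simp only [Subgroup.coe_mul, hzu] at h3
    exact h3
  have hPcard : Nat.card P ≤ 2 := by
    exact (Nat.le_of_dvd Nat.card_pos (Subgroup.card_dvd_of_le hPle)).trans hC.le
  have hcop : (Nat.card (commutator G)).Coprime 2 := by
    rw [Nat.coprime_comm, Nat.Prime.coprime_iff_not_dvd Nat.prime_two]
    intro hdvd
    have h4 : 2 ^ 2 ∣ Nat.card G := by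
      rw [← Subgroup.card_mul_index (commutator G), hidx]
      obtain ⟨m, hm⟩ := hdvd
      exact ⟨m, by rw [hm]; ring⟩
    have h5 := (Nat.Prime.pow_dvd_iff_le_factorization Nat.prime_two Nat.card_pos.ne').1 h4
    have h6 := P.card_eq_multiplicity
    have h7 : 2 ^ 2 ≤ 2 ^ (Nat.card G).factorization 2 := Nat.pow_le_pow_right (by norm_num) h5
    rw [← h6] at h7
    omega
  have hle' : commutator G ≤ Cfsg.oddCore G :=
    Cfsg.Agent.Lib.Lead.le_pPrimeCore inferInstance hcop
  rw [eq_top_iff]
  intro g _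
  by_cases hg : g ∈ commutator G
  · exact Subgroup.mem_sup_right (hle' hg)
  · have h8 : u * g ∈ commutator G := by
      rw [Subgroup.mul_mem_iff_of_index_two hidx]
      exact ⟨fun h => absurd h hun, fun h => absurd h hg⟩
    have h9 : g = u⁻¹ * (u * g) := by group
    rw [h9]
    exact Subgroup.mul_mem _ (Subgroup.mem_sup_left (Subgroup.inv_mem _ (Subgroup.mem_zpowers u)))
      (Subgroup.mem_sup_right (hle' h8))

theorem not_perfect_of (u : G) (hord : orderOf u = 2)
    (htop : Subgroup.zpowers u ⊔ Cfsg.oddCore G = ⊤) : commutator G ≠ ⊤ := by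
  intro hperf
  have hle : commutator G ≤ Cfsg.oddCore G := by
    rw [commutator_def, Subgroup.commutator_le]
    intro a _ b _
    have key : ∀ x : G, ∃ k : ℤ, (QuotientGroup.mk x : G ⧸ Cfsg.oddCore G)
        = (QuotientGroup.mk u : G ⧸ Cfsg.oddCore G) ^ k := by
      intro x
      have hx : x ∈ Subgroup.zpowers u ⊔ Cfsg.oddCore G := htop ▸ Subgroup.mem_top x
      rw [Subgroup.mem_sup_of_normal_right] at hx
      obtain ⟨y, hy, n, hn, rfl⟩ := hx
      obtain ⟨k, rfl⟩ := Subgroup.mem_zpowers_iff.1 hy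
      refine ⟨k, ?_⟩
      rw [QuotientGroup.mk_mul, (QuotientGroup.eq_one_iff n).2 hn, mul_one, QuotientGroup.mk_zpow]
    obtain ⟨i, hi⟩ := key a
    obtain ⟨j, hj⟩ := key b
    rw [← QuotientGroup.eq_one_iff, commutatorElement_def]
    simp only [QuotientGroup.mk_mul, QuotientGroup.mk_inv, hi, hj]
    rw [← zpow_add, ← zpow_neg, ← zpow_neg, ← zpow_add, ← zpow_add]
    have : i + j + -i + -j = 0 := by ring
    rw [this, zpow_zero]
  have h1 : Cfsg.oddCore G = ⊤ := by rw [eq_top_iff, ← hperf]; exact hle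
  have h2 : (Nat.card (Cfsg.oddCore G)).Coprime 2 := Cfsg.Agent.Lib.Lead.card_pPrimeCore_coprime 2
  rw [h1, Subgroup.card_top, Nat.coprime_comm, Nat.Prime.coprime_iff_not_dvd Nat.prime_two] at h2
  exact h2 (hord ▸ orderOf_dvd_natCard u)

theorem ofHom_one : ofHom (1 : G →* ℂˣ) = triv G := by
  apply Subtype.ext; funext g; simp [ofHom, triv]

end aux

/-- Let u ≠ 1 be an element of the finite group G and c a complex number such that every non-principal irreducible character χ satisfies χ(1) − χ(u) = c or χ(u) = 0. Then the following are equivalent: (a) u has order 2, G is generated by u together with O(G), the largest normal subgroup of G of odd order, and the centralizer of u is {1, u}; (b) G is not perfect; (c) c = 2. -/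
theorem result {G : Type*} [Group G] [Finite G] (u : G) (hu : u ≠ 1) (c : ℂ) (hyp : ∀ χ : Cfsg.IrrCharacter G, (χ : G → ℂ) ≠ (fun _ => (1 : ℂ)) → ((χ : G → ℂ) 1 - (χ : G → ℂ) u = c ∨ (χ : G → ℂ) u = 0)) : ((orderOf u = 2 ∧ Subgroup.zpowers u ⊔ Cfsg.oddCore G = ⊤ ∧ Subgroup.centralizer ({u} : Set G) = Subgroup.zpowers u) ↔ commutator G ≠ ⊤) ∧ (commutator G ≠ ⊤ ↔ c = 2) := by
  classical
  have hyp' : ∀ χ : IrrCharacter G, χ ≠ triv G →
      ((χ : G → ℂ) u = (charDegree (χ : G → ℂ) : ℂ) - c ∨ (χ : G → ℂ) u = 0) := by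
    intro χ h
    rcases hyp χ ((ne_triv_iff χ).1 h) with h1 | h1
    · left; rw [← irr_one]; linear_combination -h1
    · right; exact h1
  have hc0 : c ≠ 0 := by
    intro hc
    apply false_of_nonneg u hu
    intro χ hχ
    rcases hyp' χ hχ with h | h
    · rw [h, hc]; simp; positivity
    · rw [h]; simp
  have hhom : ∀ f : G →* ℂˣ, f ≠ 1 → (f u : ℂ) = 1 - c := by
    intro f hf
    rcases hyp (ofHom f) ((ne_triv_iff _).1 (ofHom_ne_triv hf)) with h | h
    · simp only [ofHom, map_one, Units.val_one] at h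
      linear_combination -h
    · exact absurd h (Units.ne_zero _)
  have hhom2 : ∀ f : G →* ℂˣ, f ≠ 1 → c = 2 ∧ f * f = 1 := by
    intro f hf
    have h1 := hhom f hf
    by_cases hff : f * f = 1
    · have h2 : (f u : ℂ) * (f u : ℂ) = 1 := by
        have := congrArg (fun φ : G →* ℂˣ => ((φ u : ℂˣ) : ℂ)) hff
        simpa using this
      rw [h1] at h2
      have h3 : c * (c - 2) = 0 := by linear_combination h2
      rcases mul_eq_zero.1 h3 with h | h
      · exact absurd h hc0
      · exact ⟨by linear_combination h, hff⟩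
    · have h2 := hhom (f * f) hff
      simp only [MonoidHom.mul_apply, Units.val_mul] at h2
      rw [h1] at h2
      have h3 : (1 - c) * c = 0 := by linear_combination -h2
      rcases mul_eq_zero.1 h3 with h | h
      · exact absurd (h1.trans h) (Units.ne_zero _)
      · exact absurd h hc0
  have hbc : commutator G ≠ ⊤ ↔ c = 2 := by
    constructor
    · intro h
      obtain ⟨f, hf⟩ := exists_hom_ne_one h
      exact (hhom2 f hf).1
    · intro hc hperf
      apply false_of_nonneg u hu
      intro χ hχ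
      have hd : 2 ≤ charDegree (χ : G → ℂ) := by
        by_contra hlt
        have h1 : charDegree (χ : G → ℂ) = 1 := by have := deg_pos χ; omega
        have h2 : (χ : G → ℂ) 1 = 1 := by rw [irr_one, h1]; simp
        obtain ⟨f, rfl⟩ := exists_hom χ h2
        rw [hom_eq_one_of_perfect hperf f] at hχ
        exact hχ ofHom_one
      rcases hyp' χ hχ with h | h
      · rw [h, hc]
        have h3 : (2:ℝ) ≤ (charDegree (χ : G → ℂ) : ℝ) := by exact_mod_cast hd
        simp only [Complex.sub_re, Complex.natCast_re, Complex.re_ofNat]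
        apply mul_nonneg <;> linarith
      · rw [h]; simp
  refine ⟨⟨fun h => not_perfect_of u h.1 h.2.1, fun hb => ?_⟩, hbc⟩
  have hc := hbc.1 hb
  obtain ⟨f, hf⟩ := exists_hom_ne_one hb
  have hfu : (f u : ℂ) = -1 := by rw [hhom f hf, hc]; norm_num
  have hff := (hhom2 f hf).2
  have huniq : ∀ g : G →* ℂˣ, g ≠ 1 → g = f := by
    intro g hg
    have hgu : (g u : ℂ) = -1 := by rw [hhom g hg, hc]; norm_num
    have hgf : g * f = 1 := by
      by_contra hne
      have h1 := hhom (g * f) hne
      simp only [MonoidHom.mul_apply, Units.val_mul] at h1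
      rw [hgu, hfu, hc] at h1
      norm_num at h1
    apply MonoidHom.ext
    intro x
    have h1 : g x * f x = 1 := DFunLike.congr_fun hgf x
    have h2 : f x * f x = 1 := DFunLike.congr_fun hff x
    exact mul_right_cancel (h1.trans h2.symm)
  have hlin : ∀ χ : IrrCharacter G, (χ : G → ℂ) 1 = 1 → χ = triv G ∨ χ = ofHom f := by
    intro χ h1
    obtain ⟨g, rfl⟩ := exists_hom χ h1
    by_cases hg : g = 1
    · left; rw [hg, ofHom_one]
    · right; rw [huniq g hg]
  have hun : u ∉ commutator G := by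
    intro hmem
    have : u ∈ f.ker := Abelianization.commutator_subset_ker f hmem
    rw [MonoidHom.mem_ker.1 this] at hfu
    norm_num at hfu
  have hidx : (commutator G).index = 2 := by
    have h1 : (commutator G).index ≠ 1 := by rwa [Ne, Subgroup.index_eq_one]
    have h0 : (commutator G).index ≠ 0 := Subgroup.index_ne_zero_of_finite
    have h2 : (commutator G).index ≤ 2 := by
      rw [← card_linear, ← Nat.card_eq_two_iff' true |>.2 ⟨false, by simp, by simp⟩]
      apply Nat.card_le_card_of_injective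
        (fun χ : {χ : IrrCharacter G // (χ : G → ℂ) 1 = 1} => decide (χ.1 = triv G))
      rintro ⟨a, ha⟩ ⟨b, hb⟩ hab
      simp only [decide_eq_decide] at hab
      rw [Subtype.mk.injEq]
      rcases hlin a ha with h | h <;> rcases hlin b hb with h' | h'
      · rw [h, h']
      · exact absurd (hab.1 h) (h' ▸ ofHom_ne_triv hf)
      · exact absurd (hab.2 h') (h ▸ ofHom_ne_triv hf)
      · rw [h, h']
    omega
  have hne : triv G ≠ ofHom f := (ofHom_ne_triv hf).symm
  have hdeg : ∀ χ : IrrCharacter G, χ ≠ triv G → χ ≠ ofHom f → 2 ≤ charDegree (χ : G → ℂ) := by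
    intro χ h1 h2
    by_contra hlt
    have h3 : charDegree (χ : G → ℂ) = 1 := by have := deg_pos χ; omega
    have h4 : (χ : G → ℂ) 1 = 1 := by rw [irr_one, h3]; simp
    rcases hlin χ h4 with h | h
    · exact h1 h
    · exact h2 h
  have hval : ∀ χ : IrrCharacter G, χ ≠ triv G → χ ≠ ofHom f → (χ : G → ℂ) u = 0 := by
    have hsum := sum_re_eq_zero u hu
    rw [← Finset.sum_add_sum_compl ({triv G, ofHom f} : Finset (IrrCharacter G)),
      Finset.sum_pair hne] at hsum
    have e1 : ((triv G : G → ℂ) u).re * (charDegree (triv G : G → ℂ) : ℝ) = 1 := by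
      have : ((charDegree (triv G : G → ℂ) : ℕ) : ℂ) = 1 := by rw [← irr_one]; rfl
      have h2 : charDegree (triv G : G → ℂ) = 1 := by exact_mod_cast this
      rw [h2]; simp [triv]
    have e2 : ((ofHom f : G → ℂ) u).re * (charDegree (ofHom f : G → ℂ) : ℝ) = -1 := by
      have : ((charDegree (ofHom f : G → ℂ) : ℕ) : ℂ) = 1 := by rw [← irr_one]; simp [ofHom]
      have h2 : charDegree (ofHom f : G → ℂ) = 1 := by exact_mod_cast this
      have h3 : (ofHom f : G → ℂ) u = -1 := hfu
      rw [h2, h3]; simp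
    rw [e1, e2] at hsum
    have hsum' : ∑ χ ∈ ({triv G, ofHom f} : Finset (IrrCharacter G))ᶜ,
        ((χ : G → ℂ) u).re * (charDegree (χ : G → ℂ) : ℝ) = 0 := by linarith
    have hnn : ∀ χ ∈ ({triv G, ofHom f} : Finset (IrrCharacter G))ᶜ,
        0 ≤ ((χ : G → ℂ) u).re * (charDegree (χ : G → ℂ) : ℝ) := by
      intro χ hχ
      simp only [Finset.mem_compl, Finset.mem_insert, Finset.mem_singleton, not_or] at hχ
      have h3 : (2:ℝ) ≤ (charDegree (χ : G → ℂ) : ℝ) := by exact_mod_cast hdeg χ hχ.1 hχ.2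
      rcases hyp' χ hχ.1 with h | h
      · rw [h, hc]
        simp only [Complex.sub_re, Complex.natCast_re, Complex.re_ofNat]
        apply mul_nonneg <;> linarith
      · rw [h]; simp
    intro χ h1 h2
    have hmem : χ ∈ ({triv G, ofHom f} : Finset (IrrCharacter G))ᶜ := by
      simp only [Finset.mem_compl, Finset.mem_insert, Finset.mem_singleton, not_or]
      exact ⟨h1, h2⟩
    have h0 := (Finset.sum_eq_zero_iff_of_nonneg hnn).1 hsum' χ hmem
    have h3 : (2:ℝ) ≤ (charDegree (χ : G → ℂ) : ℝ) := by exact_mod_cast hdeg χ h1 h2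
    rcases hyp' χ h1 with h | h
    · rw [h, hc] at h0
      simp only [Complex.sub_re, Complex.natCast_re, Complex.re_ofNat] at h0
      rcases mul_eq_zero.1 h0 with h4 | h4
      · rw [h, hc]
        have : ((charDegree (χ : G → ℂ) : ℝ) : ℂ) = 2 := by
          have : (charDegree (χ : G → ℂ) : ℝ) = 2 := by linarith
          rw [this]; norm_num
        have h5 : ((charDegree (χ : G → ℂ) : ℕ) : ℂ) = 2 := by exact_mod_cast this
        rw [h5]; ring
      · linarith
    · exact h
  have hC : Nat.card (Subgroup.centralizer ({u} : Set G)) = 2 := by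
    have h := col_orth u u
    rw [if_pos (IsConj.refl u),
      ← Finset.sum_subset (Finset.subset_univ ({triv G, ofHom f} : Finset (IrrCharacter G)))
        (by
          intro χ _ hχ
          simp only [Finset.mem_insert, Finset.mem_singleton, not_or] at hχ
          rw [hval χ hχ.1 hχ.2, zero_mul]),
      Finset.sum_pair hne] at h
    have h3 : (ofHom f : G → ℂ) u = -1 := hfu
    have h4 : (triv G : G → ℂ) u = 1 := rfl
    rw [h3, h4] at h
    simp only [map_one, map_neg] at h
    have h5 : ((Nat.card (Subgroup.centralizer ({u} : Set G)) : ℕ) : ℂ) = ((2 : ℕ) : ℂ) := by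
      rw [← h]; norm_num
    exact_mod_cast h5
  exact group_part u hu hC hidx hun

end Cfsg.Agent.S4757
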