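import Mathlib
import Cfsg.Agent.Lib.Helper4.OneSing
import Cfsg.Agent.S0095
import Cfsg.Agent.S0894
import Cfsg.Statements.S4762

set_option autoImplicit false
open Cfsg

namespace Cfsg.Agent.S4762

/-- Let p be a prime and G a finite nilpotent group. Then G has exactly one irreducible complex character of degree divisible by p if and only if p = 2 and G is an extraspecial 2-group. -/
theorem result {G : Type*} [Group G] [Finite G] [Group.IsNilpotent G] (p : ℕ) [Fact p.Prime] : Nat.card {χ : Cfsg.IrrCharacter G // p ∣ Cfsg.charDegree (χ : G → ℂ)} = 1 ↔ (p = 2 ∧ Cfsg.IsExtraspecial 2 G) := by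
  classical
  constructor
  · intro h
    obtain ⟨hsub, ⟨χ₀⟩⟩ := Nat.card_eq_one_iff_unique.1 h
    have huniq : ∀ χ : Cfsg.IrrCharacter G, p ∣ Cfsg.charDegree (χ : G → ℂ) → χ = χ₀.1 := fun χ hχ =>
      congrArg Subtype.val (hsub.elim ⟨χ, hχ⟩ χ₀)
    have hG := Cfsg.Agent.Lib.Helper4.OneSing.isPGroup_of_unique χ₀.1 χ₀.2 huniq
    exact Cfsg.Agent.Lib.Helper4.OneSing.extraspecial_of_unique hG χ₀.1 χ₀.2 huniq
  · rintro ⟨rfl, hP⟩
    obtain ⟨n, hn1, hcard⟩ := Cfsg.Agent.S0095.result hP
    obtain ⟨hdeg, hcnt⟩ := Cfsg.Agent.S0894.result 2 n hP hcard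
    rw [show (1 : ℕ) = 2 - 1 from rfl, ← hcnt]
    apply Nat.card_congr
    apply Equiv.subtypeEquivRight
    intro χ
    have h1 := Cfsg.Agent.Lib.Helper80.char_one_eq_charDegree
      (Cfsg.Agent.Lib.Helper80.isCharacter_of_irr χ.2)
    constructor
    · intro h2
      rcases hdeg χ with h | h
      · exfalso
        rw [h1] at h
        have : Cfsg.charDegree (χ : G → ℂ) = 1 := by exact_mod_cast h
        rw [this] at h2
        omega
      · exact h
    · intro h
      rw [h1] at h
      have : Cfsg.charDegree (χ : G → ℂ) = 2 ^ n := by exact_mod_cast h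
      rw [this]
      exact dvd_pow_self 2 (by omega)

end Cfsg.Agent.S4762
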