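import Cfsg.Statements.S4763
import Cfsg.Agent.S4452
import Cfsg.Agent.Lib.Helper15.CoprimeCount
import Cfsg.Agent.Lib.Helper15.Gallagher
import Cfsg.Agent.Lib.Helper76.ItoDeg
import Cfsg.Agent.Lib.Helper80.Quot
import Cfsg.Agent.Lib.Helper80.Linear
import Cfsg.Agent.Lib.Helper80.ClassSize

set_option autoImplicit false
open Cfsg

namespace Cfsg.Agent.S4763

open Cfsg.Agent.Lib.Helper80

variable {G : Type*} [Group G] [Finite G]

theorem card_carrier_eq_index (g : G) :
    Nat.card (ConjClasses.mk g).carrier = (Subgroup.centralizer ({g} : Set G)).index := by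
  have h1 := card_conj_mul_card_centralizer g
  have h2 := (Subgroup.centralizer ({g} : Set G)).card_mul_index
  have h3 : Nat.card (ConjClasses.mk g).carrier = Nat.card {x : G // IsConj g x} := rfl
  rw [h3]
  have hpos : 0 < Nat.card (Subgroup.centralizer ({g} : Set G)) := Nat.card_pos
  have : Nat.card (Subgroup.centralizer ({g} : Set G)) * Nat.card {x : G // IsConj g x} =
      Nat.card (Subgroup.centralizer ({g} : Set G)) * (Subgroup.centralizer ({g} : Set G)).index := by
    rw [h2, mul_comm, h1]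
  exact Nat.eq_of_mul_eq_mul_left hpos this

/-- Burnside fusion count: if `N_G(P) = C_G(P)` the classes of `G` of size prime to `p` are in
bijection with the classes of `N_G(P)`. -/
theorem card_classes_normalizer (p : ℕ) [Fact p.Prime] (P : Sylow p G)
    (hNC : Subgroup.normalizer ((P : Subgroup G) : Set G) ≤
      Subgroup.centralizer ((P : Subgroup G) : Set G)) :
    Nat.card (ConjClasses (Subgroup.normalizer ((P : Subgroup G) : Set G))) =
      Nat.card {C : ConjClasses G // ¬ p ∣ Nat.card C.carrier} := by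
  set Nn := Subgroup.normalizer ((P : Subgroup G) : Set G) with hNn
  have hle : ∀ n : G, n ∈ Nn → (P : Subgroup G) ≤ Subgroup.centralizer ({n} : Set G) := by
    intro n hn x hx
    rw [Subgroup.mem_centralizer_singleton_iff]
    have := (Subgroup.mem_centralizer_iff.1 (hNC hn)) x hx
    exact this
  have hwd : ∀ c : ConjClasses Nn, ¬ p ∣ Nat.card (ConjClasses.map Nn.subtype c).carrier := by
    intro c
    obtain ⟨n, rfl⟩ := ConjClasses.exists_rep c
    intro hdvd
    have : ConjClasses.map Nn.subtype (ConjClasses.mk n) = ConjClasses.mk (n : G) := rfl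
    rw [this, card_carrier_eq_index] at hdvd
    exact P.not_dvd_index (hdvd.trans (Subgroup.index_dvd_of_le (hle n n.2)))
  apply Nat.card_congr
  refine Equiv.ofBijective (fun c => ⟨ConjClasses.map Nn.subtype c, hwd c⟩) ⟨?_, ?_⟩
  · intro c c' hcc
    obtain ⟨n, rfl⟩ := ConjClasses.exists_rep c
    obtain ⟨n', rfl⟩ := ConjClasses.exists_rep c'
    have h1 : ConjClasses.mk (n : G) = ConjClasses.mk (n' : G) := congrArg Subtype.val hcc
    rw [ConjClasses.mk_eq_mk_iff_isConj, isConj_iff] at h1
    obtain ⟨g, hg⟩ := h1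
    -- `P` and `g • P` lie in `C(n')`
    set H := Subgroup.centralizer ({(n' : G)} : Set G) with hH
    have hP1 : (P : Subgroup G) ≤ H := hle n' n'.2
    have hP2 : ((g • P : Sylow p G) : Subgroup G) ≤ H := by
      intro x hx
      rw [Sylow.coe_subgroup_smul, Subgroup.mem_pointwise_smul_iff_inv_smul_mem] at hx
      rw [hH, Subgroup.mem_centralizer_singleton_iff]
      have h2 := hle n n.2 hx
      rw [Subgroup.mem_centralizer_singleton_iff] at h2
      simp only [MulAut.smul_def, MulAut.conj_inv_apply] at h2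
      rw [← hg]
      have h3 : x = g * (g⁻¹ * x * g) * g⁻¹ := by group
      rw [h3]
      calc g * (g⁻¹ * x * g) * g⁻¹ * (g * ↑n * g⁻¹) = g * ((g⁻¹ * x * g) * n) * g⁻¹ := by group
        _ = g * (n * (g⁻¹ * x * g)) * g⁻¹ := by rw [h2]
        _ = _ := by group
    obtain ⟨u, hu⟩ := MulAction.exists_smul_eq H (P.subtype hP1) ((g • P).subtype hP2)
    rw [Sylow.smul_subtype] at hu
    have hu2 : (u : G) • P = g • P := Sylow.subtype_injective hu
    have hu3 : ((u : G)⁻¹ * g) • P = P := by
      rw [mul_smul, ← hu2, inv_smul_smul]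
    rw [Sylow.smul_eq_iff_mem_normalizer] at hu3
    rw [ConjClasses.mk_eq_mk_iff_isConj, isConj_iff]
    refine ⟨⟨(u : G)⁻¹ * g, hu3⟩, ?_⟩
    apply Subtype.ext
    have hu4 : (u : G) * n' = n' * u := Subgroup.mem_centralizer_singleton_iff.1 u.2
    show (u : G)⁻¹ * g * n * ((u : G)⁻¹ * g)⁻¹ = n'
    calc (u : G)⁻¹ * g * n * ((u : G)⁻¹ * g)⁻¹ = (u : G)⁻¹ * (g * n * g⁻¹) * u := by group
      _ = (u : G)⁻¹ * (n' * u) := by rw [hg]; group
      _ = (u : G)⁻¹ * (u * n') := by rw [hu4]
      _ = n' := by group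
  · rintro ⟨C, hC⟩
    obtain ⟨g, rfl⟩ := ConjClasses.exists_rep C
    rw [card_carrier_eq_index] at hC
    set H := Subgroup.centralizer ({g} : Set G) with hH
    have hfix := P.2.nonempty_fixed_point_of_prime_not_dvd_card (G ⧸ H) hC
    obtain ⟨q, hq⟩ := hfix
    induction q using QuotientGroup.induction_on with
    | H a =>
    have h1 : ∀ x ∈ (P : Subgroup G), a⁻¹ * x * a ∈ H := by
      intro x hx
      have := hq ⟨x, hx⟩
      have h2 : ((x * a : G) : G ⧸ H) = (a : G ⧸ H) := this
      rw [QuotientGroup.eq] at h2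
      have h3 := H.inv_mem h2
      have h4 : ((x * a)⁻¹ * a)⁻¹ = a⁻¹ * x * a := by group
      rwa [h4] at h3
    have h2 : a * g * a⁻¹ ∈ Subgroup.centralizer ((P : Subgroup G) : Set G) := by
      rw [Subgroup.mem_centralizer_iff]
      intro x hx
      have h3 := h1 x hx
      rw [hH, Subgroup.mem_centralizer_singleton_iff] at h3
      calc x * (a * g * a⁻¹) = a * ((a⁻¹ * x * a) * g) * a⁻¹ := by group
        _ = a * (g * (a⁻¹ * x * a)) * a⁻¹ := by rw [h3]
        _ = _ := by group
    have h3 : a * g * a⁻¹ ∈ Nn := Subgroup.centralizer_le_normalizer _ h2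
    refine ⟨ConjClasses.mk ⟨a * g * a⁻¹, h3⟩, ?_⟩
    apply Subtype.ext
    show ConjClasses.mk (a * g * a⁻¹) = ConjClasses.mk g
    rw [ConjClasses.mk_eq_mk_iff_isConj, isConj_comm, isConj_iff]
    exact ⟨a, rfl⟩


/-- the quotient by the normal `p`-complement is abelian. -/
theorem quotient_comm (p : ℕ) [Fact p.Prime] (hnil : ¬ Group.IsNilpotent G) (N : Subgroup G)
    [N.Normal] (k : ℕ) (hk : N.index = p ^ k)
    (hone : Nat.card {χ : Cfsg.IrrCharacter G // p ∣ Cfsg.charDegree (χ : G → ℂ)} = 1) :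
    ∀ a b : G ⧸ N, a * b = b * a := by
  classical
  have hp : p.Prime := Fact.out
  have := Fintype.ofFinite G
  have := Fintype.ofFinite N
  obtain ⟨hsub, -⟩ := (Nat.card_eq_one_iff_unique).1 hone
  rw [comm_iff_all_linear]
  by_contra hcon
  push Not at hcon
  obtain ⟨β, hβ⟩ := hcon
  have hβd : charDegree (β : G ⧸ N → ℂ) ∣ p ^ k := by
    rw [← hk]
    exact Cfsg.Agent.Lib.Helper78.irr_charDegree_dvd_card β
  have hβ1 : charDegree (β : G ⧸ N → ℂ) ≠ 1 := by
    intro h
    apply hβ
    rw [char_one_eq_charDegree (isCharacter_of_irr β.2), h, Nat.cast_one]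
  have hβp : p ∣ charDegree (β : G ⧸ N → ℂ) := by
    obtain ⟨j, -, hj⟩ := (Nat.dvd_prime_pow hp).1 hβd
    rw [hj] at hβ1 ⊢
    rcases Nat.eq_zero_or_pos j with rfl | hj0
    · simp at hβ1
    · exact dvd_pow_self p hj0.ne'
  set B : G → ℂ := (β : G ⧸ N → ℂ) ∘ (QuotientGroup.mk' N) with hB
  have hBirr : IsIrrCharacter G B :=
    isIrrCharacter_comp (QuotientGroup.mk' N) (QuotientGroup.mk'_surjective N) β.2
  have hB1 : B 1 = (β : G ⧸ N → ℂ) 1 := by simp [hB]
  have hBN : ∀ n ∈ N, B n = B 1 := by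
    intro n hn
    simp only [hB, Function.comp_apply, QuotientGroup.mk'_apply, QuotientGroup.mk_one]
    rw [(QuotientGroup.eq_one_iff n).2 hn]
  have hBdeg : charDegree B = charDegree (β : G ⧸ N → ℂ) := by
    unfold charDegree
    rw [hB1]
  -- `N` is nontrivial
  have hNne : N ≠ ⊥ := by
    rintro rfl
    apply hnil
    have : IsPGroup p G := by
      apply IsPGroup.of_card (n := k)
      rw [← hk, Subgroup.index_bot]
    exact this.isNilpotent
  obtain ⟨x', hx'⟩ := Subgroup.ne_bot_iff_exists_ne_one.1 hNne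
  obtain ⟨x, hxN, hx1⟩ : ∃ x : G, x ∈ N ∧ x ≠ 1 :=
    ⟨(x' : G), x'.2, fun h => hx' (Subtype.ext h)⟩
  obtain ⟨χ, -, hχx⟩ := exists_irr_ker_ne (⊥ : Subgroup G) (g := x) (by simpa using hx1)
  have hχB : (χ : G → ℂ) ≠ B := by
    intro h
    apply hχx
    rw [h]
    exact hBN x hxN
  have hχp : ¬ p ∣ charDegree (χ : G → ℂ) := by
    intro h
    have := hsub.elim (⟨χ, h⟩ : {χ : Cfsg.IrrCharacter G // p ∣ Cfsg.charDegree (χ : G → ℂ)})
      ⟨⟨B, hBirr⟩, hBdeg ▸ hβp⟩
    exact hχB (congrArg (fun z => (z.1 : G → ℂ)) this)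
  have hcop : (charDegree (χ : G → ℂ)).Coprime N.index := by
    rw [hk]
    exact Nat.Coprime.pow_right k ((Nat.Prime.coprime_iff_not_dvd hp).2 hχp).symm
  have hχN := Cfsg.Agent.Lib.Helper15.restrict_irr_of_coprime N χ.2 hcop
  have hgal := (Cfsg.Agent.Lib.Helper15.gallagher N χ.2 hχN).mapsTo
  have hB0 : B 1 ≠ 0 := char_one_ne_zero_of_irr hBirr
  have hBmem : B ∈ {β : G → ℂ | IsIrrCharacter G β ∧
      classInner (fun n : N => β n) (fun _ => 1) ≠ 0} := by
    refine ⟨hBirr, ?_⟩
    have : (fun n : N => B n) = fun _ => B 1 := by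
      funext n
      exact hBN n n.2
    rw [this]
    unfold classInner
    simp only [map_one, mul_one, Finset.sum_const, Finset.card_univ, nsmul_eq_mul]
    rw [← Nat.card_eq_fintype_card, ← mul_assoc,
      inv_mul_cancel₀ (Cfsg.Agent.Lib.Helper15.card_ne_zero N), one_mul]
    exact hB0
  have hψ : IsIrrCharacter G (B * (χ : G → ℂ)) := (hgal hBmem).1
  have hψdeg : charDegree (B * (χ : G → ℂ)) = charDegree B * charDegree (χ : G → ℂ) := by
    have h1 := char_one_eq_charDegree (isCharacter_of_irr hψ)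
    rw [Pi.mul_apply, char_one_eq_charDegree (isCharacter_of_irr hBirr),
      char_one_eq_charDegree (isCharacter_of_irr χ.2)] at h1
    exact_mod_cast h1.symm
  have := hsub.elim (⟨⟨B * (χ : G → ℂ), hψ⟩, by
      show p ∣ charDegree (B * (χ : G → ℂ))
      rw [hψdeg, hBdeg]
      exact Dvd.dvd.mul_right hβp _⟩ :
        {χ : Cfsg.IrrCharacter G // p ∣ Cfsg.charDegree (χ : G → ℂ)})
      ⟨⟨B, hBirr⟩, hBdeg ▸ hβp⟩
  have h2 : B * (χ : G → ℂ) = B := congrArg (fun z => (z.1 : G → ℂ)) this
  have h3 := congrFun h2 x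
  have h4 := congrFun h2 1
  rw [Pi.mul_apply] at h3 h4
  rw [hBN x hxN] at h3
  have h5 : (χ : G → ℂ) x = 1 := by
    have := mul_left_cancel₀ hB0 (h3.trans (mul_one _).symm)
    exact this
  have h6 : (χ : G → ℂ) 1 = 1 := by
    have := mul_left_cancel₀ hB0 (h4.trans (mul_one _).symm)
    exact this
  exact hχx (h5.trans h6.symm)


/-- Let p be a prime and G a finite group that is not nilpotent and has a normal p-complement (a normal subgroup of order prime to p and index a power of p). If G has exactly one irreducible complex character of degree divisible by p, then G has exactly one conjugacy class whose size is divisible by p. -/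
theorem result {G : Type*} [Group G] [Finite G] (p : ℕ) [Fact p.Prime] (hnil : ¬ Group.IsNilpotent G) (N : Subgroup G) [N.Normal] (hN : (Nat.card N).Coprime p) (hidx : ∃ k : ℕ, N.index = p ^ k) (hone : Nat.card {χ : Cfsg.IrrCharacter G // p ∣ Cfsg.charDegree (χ : G → ℂ)} = 1) : Nat.card {C : ConjClasses G // p ∣ Nat.card C.carrier} = 1 := by
  classical
  have hp : p.Prime := Fact.out
  obtain ⟨k, hk⟩ := hidx
  have hcomm := quotient_comm p hnil N k hk hone
  obtain ⟨-, ⟨χ₀, hχ₀⟩⟩ := (Nat.card_eq_one_iff_unique).1 hone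
  have hcardG : Nat.card G = Nat.card N * p ^ k := by rw [← hk, N.card_mul_index]
  have hNp : ¬ p ∣ Nat.card N := fun h => by
    have := Nat.Coprime.eq_one_of_dvd hN.symm h
    exact hp.one_lt.ne' this
  have hk0 : 0 < k := by
    rcases Nat.eq_zero_or_pos k with rfl | h
    · exfalso
      have h1 : p ∣ Nat.card G := hχ₀.trans (Cfsg.Agent.Lib.Helper78.irr_charDegree_dvd_card χ₀)
      rw [hcardG, pow_zero, mul_one] at h1
      exact hNp h1
    · exact h
  let P : Sylow p G := default
  have hPcard : Nat.card P = p ^ k := by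
    rw [Sylow.card_eq_multiplicity, hcardG,
      Nat.factorization_mul Nat.card_pos.ne' (pow_pos hp.pos k).ne', Finsupp.add_apply,
      Nat.factorization_eq_zero_of_not_dvd hNp, zero_add, hp.factorization_pow,
      Finsupp.single_eq_same]
  have hcop : (Nat.card N).Coprime (Nat.card (P : Subgroup G)) := by
    rw [hPcard]
    exact Nat.Coprime.pow_right k hN
  have hcompl : Subgroup.IsComplement' N (P : Subgroup G) :=
    Subgroup.isComplement'_of_coprime (by rw [hPcard, hcardG]) hcop
  have hsup : N ⊔ (P : Subgroup G) = ⊤ := hcompl.sup_eq_top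
  have hdisj : N ⊓ (P : Subgroup G) = ⊥ := hcompl.disjoint.eq_bot
  have hcommN : ∀ a b : G, a * b * a⁻¹ * b⁻¹ ∈ N := by
    intro a b
    rw [← QuotientGroup.eq_one_iff]
    rw [QuotientGroup.mk_mul, QuotientGroup.mk_mul, QuotientGroup.mk_mul, QuotientGroup.mk_inv,
      QuotientGroup.mk_inv, hcomm (a : G ⧸ N) (b : G ⧸ N)]
    group
  have hNC : Subgroup.normalizer ((P : Subgroup G) : Set G) ≤
      Subgroup.centralizer ((P : Subgroup G) : Set G) := by
    intro n hn
    rw [Subgroup.mem_centralizer_iff]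
    intro x hx
    have h1 : n * x * n⁻¹ * x⁻¹ ∈ N := hcommN n x
    have h2 : n * x * n⁻¹ * x⁻¹ ∈ (P : Subgroup G) :=
      (P : Subgroup G).mul_mem ((Subgroup.mem_normalizer_iff.1 hn x).1 hx)
        ((P : Subgroup G).inv_mem hx)
    have h3 : n * x * n⁻¹ * x⁻¹ ∈ N ⊓ (P : Subgroup G) := ⟨h1, h2⟩
    rw [hdisj, Subgroup.mem_bot] at h3
    calc x * n = (n * x * n⁻¹ * x⁻¹)⁻¹ * (n * x) := by group
      _ = n * x := by rw [h3]; simp
  have hPab : ∀ a ∈ (P : Subgroup G), ∀ b ∈ (P : Subgroup G), a * b = b * a := by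
    intro a ha b hb
    have := Subgroup.mem_centralizer_iff.1 (hNC (Subgroup.le_normalizer ha)) b hb
    exact this.symm
  have hsolv : Group.IsSolvable (P : Subgroup G) := by
    have := P.2.isNilpotent
    infer_instance
  have key := Cfsg.Agent.S4452.result N (P : Subgroup G) hsup hcop hsolv
  have hiff : ∀ d : ℕ, d.Coprime (Nat.card (P : Subgroup G)) ↔ ¬ p ∣ d := by
    intro d
    rw [hPcard, Nat.coprime_pow_right_iff hk0, Nat.coprime_comm, hp.coprime_iff_not_dvd]
  -- left-hand side
  have hL : Nat.card {χ : Cfsg.IrrCharacter G //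
      (Cfsg.charDegree (χ : G → ℂ)).Coprime (Nat.card (P : Subgroup G))} =
      Nat.card {χ : Cfsg.IrrCharacter G // ¬ p ∣ Cfsg.charDegree (χ : G → ℂ)} :=
    Nat.card_congr (Equiv.subtypeEquivRight fun χ => hiff _)
  -- right-hand side
  have hR : Nat.card {η : Cfsg.IrrCharacter (Subgroup.normalizer ((P : Subgroup G) : Set G)) //
      (Cfsg.charDegree (η : Subgroup.normalizer ((P : Subgroup G) : Set G) → ℂ)).Coprime
        (Nat.card (P : Subgroup G))} =
      Nat.card (Cfsg.IrrCharacter (Subgroup.normalizer ((P : Subgroup G) : Set G))) := by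
    apply Nat.card_congr
    apply Equiv.subtypeUnivEquiv
    intro η
    rw [hiff]
    intro hdvd
    have h1 := Cfsg.Agent.Lib.Helper76.charDegree_dvd_index_of_comm
      ((P : Subgroup G).subgroupOf (Subgroup.normalizer ((P : Subgroup G) : Set G)))
      (by
        intro a ha b hb
        apply Subtype.ext
        exact hPab a ha b hb) η
    have h2 : ((P : Subgroup G).subgroupOf
        (Subgroup.normalizer ((P : Subgroup G) : Set G))).index ∣ (P : Subgroup G).index := by
      have := Subgroup.relIndex_mul_index (Subgroup.le_normalizer (H := (P : Subgroup G)))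
      exact Dvd.intro _ this
    exact P.not_dvd_index (hdvd.trans (h1.trans h2))
  have hfus := card_classes_normalizer p P hNC
  have hI := Cfsg.Agent.Lib.Helper3.card_irrCharacter (G := G)
  have hIN := Cfsg.Agent.Lib.Helper3.card_irrCharacter
    (G := Subgroup.normalizer ((P : Subgroup G) : Set G))
  have hsplit1 : Nat.card (Cfsg.IrrCharacter G) =
      Nat.card {χ : Cfsg.IrrCharacter G // p ∣ Cfsg.charDegree (χ : G → ℂ)} +
      Nat.card {χ : Cfsg.IrrCharacter G // ¬ p ∣ Cfsg.charDegree (χ : G → ℂ)} := by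
    rw [← Nat.card_sum]
    exact Nat.card_congr (Equiv.sumCompl _).symm
  have hsplit2 : Nat.card (ConjClasses G) =
      Nat.card {C : ConjClasses G // p ∣ Nat.card C.carrier} +
      Nat.card {C : ConjClasses G // ¬ p ∣ Nat.card C.carrier} := by
    rw [← Nat.card_sum]
    exact Nat.card_congr (Equiv.sumCompl _).symm
  omega

end Cfsg.Agent.S4763
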