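import Cfsg.Statements.S4784
import Cfsg.Agent.Lib.Helper80.Constituent
import Cfsg.Agent.Lib.Helper80.Induced
import Cfsg.Agent.Lib.Helper80.Eigen
import Cfsg.Agent.Lib.Helper81.FSChar
import Cfsg.Agent.S0161

set_option autoImplicit false
open Cfsg

namespace Cfsg.Agent.S4784

open Cfsg.Agent.Lib.Helper74 Cfsg.Agent.Lib.Helper80
open scoped ComplexConjugate

section aux
variable {G : Type*} [Group G] [Fintype G]

theorem re_le_of_char {ψ : G → ℂ} (h : IsCharacter G ψ) (k : G) :
    ‖ψ k‖ ≤ (ψ 1).re := by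
  obtain ⟨n, ρ, rfl⟩ := h
  have := norm_char_le ρ k
  rw [Representation.char_one]
  simpa using this

/-- The kernel of a character is contained in the kernel of each of its constituents. -/
theorem ker_of_constituent {Φ : G → ℂ} (hΦ : IsCharacter G Φ) (χ : IrrCharacter G)
    (h : classInner Φ (χ : G → ℂ) ≠ 0) (k : G) (hk : Φ k = Φ 1) :
    (χ : G → ℂ) k = (χ : G → ℂ) 1 := by
  obtain ⟨Φ', hΦ', rfl⟩ := exists_add_of_constituent hΦ χ h
  have h1 := re_le_of_char (isCharacter_of_irr χ.2) k
  have h2 := re_le_of_char hΦ' k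
  have h3 := congrArg Complex.re hk
  simp only [Pi.add_apply, Complex.add_re] at h3
  have h4 := Complex.re_le_norm ((χ : G → ℂ) k)
  have h5 := Complex.re_le_norm (Φ' k)
  have h6 : ((χ : G → ℂ) k).re = ((χ : G → ℂ) 1).re := by linarith
  have h7 : ((χ : G → ℂ) 1).im = 0 := by
    rw [char_one_eq_charDegree (isCharacter_of_irr χ.2)]; simp
  have h8 : ((χ : G → ℂ) k).im = 0 := by
    have h9 := Complex.sq_norm ((χ : G → ℂ) k)
    rw [Complex.normSq_apply] at h9
    have h10 : ‖(χ : G → ℂ) k‖ ^ 2 ≤ (((χ : G → ℂ) 1).re) ^ 2 :=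
      pow_le_pow_left₀ (norm_nonneg _) h1 2
    rw [h6] at h9
    have h11 : ((χ : G → ℂ) k).im * ((χ : G → ℂ) k).im ≤ 0 := by nlinarith
    have h12 := mul_self_nonneg ((χ : G → ℂ) k).im
    exact mul_self_eq_zero.1 (le_antisymm h11 h12)
  exact Complex.ext h6 (by rw [h7, h8])

end aux

/-- Let H be a subgroup of the finite group G and consider the permutation character of G on the cosets of H (the function induced from the principal character of H). Then exactly one irreducible constituent of it is real-valued with Frobenius–Schur indicator +1 (namely the principal character) if and only if the normal core of H has odd index in G. -/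
theorem result {G : Type*} [Group G] [Fintype G] (H : Subgroup G) : Nat.card {χ : Cfsg.IrrCharacter G // Cfsg.classInner (Cfsg.indFun H (fun _ : H => (1 : ℂ))) (χ : G → ℂ) ≠ 0 ∧ (∀ g : G, (starRingEnd ℂ) ((χ : G → ℂ) g) = (χ : G → ℂ) g) ∧ (Nat.card G : ℂ)⁻¹ * ∑ g : G, (χ : G → ℂ) (g * g) = 1} = 1 ↔ Odd H.normalCore.index := by
  classical
  have : Fintype H := Fintype.ofFinite H
  set π : G → ℂ := Cfsg.indFun H (fun _ : H => (1 : ℂ)) with hπdef
  have hπ : IsCharacter G π :=
    Cfsg.Agent.Lib.Helper3.isCharacter_indFun H (isCharacter_of_irr isIrrCharacter_one)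
  obtain ⟨m, hm, hπm, -⟩ := exists_mult_spec hπ
  let triv : IrrCharacter G := ⟨fun _ => 1, isIrrCharacter_one⟩
  have hGc : (Nat.card G : ℂ) ≠ 0 := by exact_mod_cast Nat.card_pos.ne'
  have hHc : (Nat.card H : ℂ) ≠ 0 := by exact_mod_cast Nat.card_pos.ne'
  let c : G → ℕ := fun g => (Finset.univ.filter fun x : G => x⁻¹ * g * x ∈ H).card
  have hπval : ∀ g, π g = (Nat.card H : ℂ)⁻¹ * (c g : ℂ) := by
    intro g
    rw [hπdef, Cfsg.Agent.Lib.Helper3.indFun_apply]
    congr 1
    change _ = (((Finset.univ.filter fun x : G => x⁻¹ * g * x ∈ H).card : ℕ) : ℂ)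
    rw [Finset.card_filter]
    push_cast
    refine Finset.sum_congr rfl fun x _ => ?_
    by_cases hx : x⁻¹ * g * x ∈ H
    · rw [if_pos hx, Cfsg.Agent.Lib.Helper3.extendByZero_apply_mem H _ hx]
    · rw [if_neg hx, Cfsg.Agent.Lib.Helper3.extendByZero_apply_not_mem H _ hx]
  have htriv1 : classInner π (triv : G → ℂ) = 1 := by
    rw [hπdef, Cfsg.Agent.Lib.Helper3.frobenius_reciprocity H _
      (isClassFunction_of_char (isCharacter_of_irr triv.2))]
    unfold classInner
    simp only [triv, map_one, mul_one, Finset.sum_const, Finset.card_univ, nsmul_eq_mul]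
    rw [← Nat.card_eq_fintype_card, inv_mul_cancel₀ hHc]
  have hPtriv : Cfsg.classInner π (triv : G → ℂ) ≠ 0 ∧
      (∀ g : G, (starRingEnd ℂ) ((triv : G → ℂ) g) = (triv : G → ℂ) g) ∧
      (Nat.card G : ℂ)⁻¹ * ∑ g : G, (triv : G → ℂ) (g * g) = 1 := by
    refine ⟨by rw [htriv1]; exact one_ne_zero, fun g => by simp [triv], ?_⟩
    simp only [triv, Finset.sum_const, Finset.card_univ, nsmul_eq_mul, mul_one]
    rw [← Nat.card_eq_fintype_card, inv_mul_cancel₀ hGc]
  constructor
  · intro hcard
    by_contra hodd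
    rw [Nat.not_odd_iff_even, even_iff_two_dvd] at hodd
    obtain ⟨hsub, -⟩ := Nat.card_eq_one_iff_unique.1 hcard
    -- an element of order two modulo the core
    have : Fact (Nat.Prime 2) := ⟨Nat.prime_two⟩
    obtain ⟨q, hq⟩ := exists_prime_orderOf_dvd_card' (G := G ⧸ H.normalCore) 2 hodd
    obtain ⟨t, rfl⟩ := QuotientGroup.mk_surjective q
    have ht1 : t ∉ H.normalCore := by
      intro h
      rw [(QuotientGroup.eq_one_iff t).2 h, orderOf_one] at hq
      norm_num at hq
    have ht2 : t * t ∈ H.normalCore := by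
      rw [← QuotientGroup.eq_one_iff, QuotientGroup.mk_mul, ← pow_two, ← hq]
      exact pow_orderOf_eq_one _
    -- Frobenius-Schur signs
    have hFS : ∀ χ : IrrCharacter G, ∃ ε : ℤ, (ε = 0 ∨ ε = 1 ∨ ε = -1) ∧
        ∑ s : G, (χ : G → ℂ) (s * s) = (ε : ℂ) * (Nat.card G : ℂ) ∧
        (ε ≠ 0 → ∀ s : G, ((χ : G → ℂ) s).im = 0) := by
      intro χ
      rw [Nat.card_eq_fintype_card]
      rcases Cfsg.Agent.Lib.Helper81.IsIrrCharacter.frobSchur χ.2 with ⟨h0, _⟩ | ⟨h1 | h1, hr⟩
      · exact ⟨0, Or.inl rfl, by rw [h0]; simp, fun h => absurd rfl h⟩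
      · exact ⟨1, Or.inr (Or.inl rfl), by rw [h1]; simp, fun _ => hr⟩
      · exact ⟨-1, Or.inr (Or.inr rfl), by rw [h1]; simp, fun _ => hr⟩
    choose ε hε1 hε2 hε3 using hFS
    have hsum2 : ((∑ g : G, c (g * g) : ℕ) : ℂ)
        = (Nat.card H : ℂ) * (Nat.card G : ℂ) * ((∑ χ : IrrCharacter G, (m χ : ℤ) * ε χ : ℤ) : ℂ) := by
      have h1 : ∑ g : G, π (g * g) = (Nat.card G : ℂ) *
          ((∑ χ : IrrCharacter G, (m χ : ℤ) * ε χ : ℤ) : ℂ) := by
        have h2 : ∀ g : G, π (g * g) = ∑ χ : IrrCharacter G, (m χ : ℂ) * (χ : G → ℂ) (g * g) := by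
          intro g
          conv_lhs => rw [hπm]
          simp [Finset.sum_apply]
        simp_rw [h2]
        rw [Finset.sum_comm]
        push_cast
        rw [Finset.mul_sum]
        refine Finset.sum_congr rfl fun χ _ => ?_
        rw [← Finset.mul_sum, hε2]
        ring
      simp_rw [hπval] at h1
      rw [← Finset.mul_sum] at h1
      push_cast at h1 ⊢
      rw [mul_assoc, ← h1, mul_inv_cancel_left₀ hHc]
    have hsum1 : ((∑ g : G, c g : ℕ) : ℂ) = (Nat.card H : ℂ) * (Nat.card G : ℂ) := by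
      have h1 := htriv1
      unfold classInner at h1
      simp only [triv, map_one, mul_one] at h1
      simp_rw [hπval] at h1
      rw [← Finset.mul_sum] at h1
      push_cast
      have h2 : (Nat.card H : ℂ) * (Nat.card G : ℂ) * ((Nat.card G : ℂ)⁻¹ *
          ((Nat.card H : ℂ)⁻¹ * ∑ g : G, (c g : ℂ))) = ∑ g : G, (c g : ℂ) := by
        field_simp
      rw [← h2, h1, mul_one]
    have hlt : ∑ g : G, c g < ∑ g : G, c (g * g) := by
      apply Finset.sum_lt_sum
      · intro g _
        apply Finset.card_le_card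
        intro x hx
        rw [Finset.mem_filter] at hx ⊢
        refine ⟨hx.1, ?_⟩
        have : x⁻¹ * (g * g) * x = (x⁻¹ * g * x) * (x⁻¹ * g * x) := by group
        rw [this]
        exact H.mul_mem hx.2 hx.2
      · refine ⟨t, Finset.mem_univ _, ?_⟩
        apply Finset.card_lt_card
        rw [Finset.ssubset_iff_of_subset]
        · have : ∃ b : G, b * t * b⁻¹ ∉ H := by
            by_contra hcon
            push Not at hcon
            exact ht1 hcon
          obtain ⟨b, hb⟩ := this
          refine ⟨b⁻¹, ?_, ?_⟩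
          · rw [Finset.mem_filter]
            refine ⟨Finset.mem_univ _, ?_⟩
            apply H.normalCore_le
            have := (H.normalCore_normal).conj_mem _ ht2 b
            simpa using this
          · rw [Finset.mem_filter]
            simpa using hb
        · intro x hx
          rw [Finset.mem_filter] at hx ⊢
          refine ⟨hx.1, ?_⟩
          have : x⁻¹ * (t * t) * x = (x⁻¹ * t * x) * (x⁻¹ * t * x) := by group
          rw [this]
          exact H.mul_mem hx.2 hx.2
    have hZ2 : ((∑ g : G, c (g * g) : ℕ) : ℤ)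
        = (Nat.card H : ℤ) * (Nat.card G : ℤ) * (∑ χ : IrrCharacter G, (m χ : ℤ) * ε χ) := by
      exact_mod_cast hsum2
    have hZ1 : ((∑ g : G, c g : ℕ) : ℤ) = (Nat.card H : ℤ) * (Nat.card G : ℤ) := by
      exact_mod_cast hsum1
    have hpos : (0 : ℤ) < (Nat.card H : ℤ) * (Nat.card G : ℤ) := by
      have h1 : 0 < Nat.card H := Nat.card_pos
      have h2 : 0 < Nat.card G := Nat.card_pos
      positivity
    have hgt : 1 < ∑ χ : IrrCharacter G, (m χ : ℤ) * ε χ := by
      have h1 : ((∑ g : G, c g : ℕ) : ℤ) < ((∑ g : G, c (g * g) : ℕ) : ℤ) := by exact_mod_cast hlt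
      rw [hZ1, hZ2] at h1
      by_contra hle
      push Not at hle
      nlinarith
    have hmtriv : m triv = 1 := by
      have := hm triv
      rw [htriv1] at this
      exact_mod_cast this.symm
    have hεtriv : ε triv = 1 := by
      have h1 := hε2 triv
      simp only [triv, Finset.sum_const, Finset.card_univ, nsmul_eq_mul, mul_one] at h1
      rw [← Nat.card_eq_fintype_card] at h1
      have h2 : ((ε triv : ℤ) : ℂ) = 1 := by
        have := mul_right_cancel₀ hGc (h1.symm.trans (one_mul _).symm)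
        exact this
      exact_mod_cast h2
    rw [← Finset.add_sum_erase _ _ (Finset.mem_univ triv), hmtriv, hεtriv] at hgt
    have hpos2 : 0 < ∑ χ ∈ (Finset.univ : Finset (IrrCharacter G)).erase triv, (m χ : ℤ) * ε χ := by
      push_cast at hgt
      linarith
    obtain ⟨χ, hχmem, hχpos⟩ := Finset.exists_lt_of_sum_lt (s := Finset.univ.erase triv)
      (f := fun _ => (0 : ℤ)) (g := fun χ : IrrCharacter G => (m χ : ℤ) * ε χ)
      (by simpa using hpos2)
    have hχne : χ ≠ triv := (Finset.mem_erase.1 hχmem).1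
    have hmpos : m χ ≠ 0 := by
      intro h0
      rw [h0] at hχpos
      simp at hχpos
    have hε : ε χ = 1 := by
      have hm0 : (0 : ℤ) ≤ (m χ : ℤ) := Int.natCast_nonneg _
      rcases hε1 χ with h | h | h
      · rw [h] at hχpos; simp at hχpos
      · exact h
      · rw [h] at hχpos; simp at hχpos; omega
    have hPχ : Cfsg.classInner π (χ : G → ℂ) ≠ 0 ∧
        (∀ g : G, (starRingEnd ℂ) ((χ : G → ℂ) g) = (χ : G → ℂ) g) ∧
        (Nat.card G : ℂ)⁻¹ * ∑ g : G, (χ : G → ℂ) (g * g) = 1 := by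
      refine ⟨?_, ?_, ?_⟩
      · rw [hm]; exact_mod_cast hmpos
      · intro g
        rw [Complex.conj_eq_iff_im]
        exact hε3 χ (by rw [hε]; norm_num) g
      · rw [hε2, hε]
        push_cast
        rw [one_mul, inv_mul_cancel₀ hGc]
    have := hsub.elim (⟨χ, hPχ⟩ : {χ : Cfsg.IrrCharacter G // Cfsg.classInner π (χ : G → ℂ) ≠ 0 ∧
      (∀ g : G, (starRingEnd ℂ) ((χ : G → ℂ) g) = (χ : G → ℂ) g) ∧
      (Nat.card G : ℂ)⁻¹ * ∑ g : G, (χ : G → ℂ) (g * g) = 1}) ⟨triv, hPtriv⟩
    exact hχne (congrArg Subtype.val this)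
  · intro hodd
    rw [Nat.card_eq_one_iff_unique]
    refine ⟨⟨?_⟩, ⟨⟨triv, hPtriv⟩⟩⟩
    have key : ∀ χ : IrrCharacter G, Cfsg.classInner π (χ : G → ℂ) ≠ 0 →
        (∀ g : G, (starRingEnd ℂ) ((χ : G → ℂ) g) = (χ : G → ℂ) g) → χ = triv := by
      intro χ h1 h2
      have hker : ∀ k ∈ H.normalCore, (χ : G → ℂ) k = (χ : G → ℂ) 1 := by
        intro k hk
        apply ker_of_constituent hπ χ h1
        rw [hπval, hπval]
        congr 2
        change (Finset.univ.filter fun x : G => x⁻¹ * k * x ∈ H).card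
          = (Finset.univ.filter fun x : G => x⁻¹ * 1 * x ∈ H).card
        congr 1
        ext x
        simp only [Finset.mem_filter, Finset.mem_univ, true_and, mul_one, inv_mul_cancel,
          H.one_mem, iff_true]
        apply H.normalCore_le
        have := (H.normalCore_normal).conj_mem _ hk x⁻¹
        simpa using this
      obtain ⟨ψ, hψ, hψχ⟩ := exists_deflate_irr H.normalCore χ.2 hker
      have h3 := Cfsg.Agent.S0161.result (G := G ⧸ H.normalCore) hodd ⟨ψ, hψ⟩ (by
        intro q
        obtain ⟨g, rfl⟩ := QuotientGroup.mk_surjective q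
        change (ψ (g : G ⧸ H.normalCore)).im = 0
        rw [hψχ, ← Complex.conj_eq_iff_im]
        exact h2 g)
      apply Subtype.ext
      funext g
      rw [← hψχ]
      exact congrFun h3 _
    rintro ⟨a, ha⟩ ⟨b, hb⟩
    rw [Subtype.mk.injEq, key a ha.1 ha.2.1, key b hb.1 hb.2.1]

end Cfsg.Agent.S4784
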