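import Cfsg.Statements.S4796
import Cfsg.Agent.Lib.Helper80.Induced
import Cfsg.Agent.Lib.Helper80.Gagola
import Cfsg.Agent.Lib.Helper68.Frobenius

set_option autoImplicit false
open Cfsg

namespace Cfsg.Agent.S4796

open Cfsg.Agent.Lib.Helper80 Cfsg.Agent.Lib.Helper74

/-- The group-theoretic core: `|G| = p d` with `d < p`; there is a normal Sylow `p`-subgroup `P`
of order `p`, and if moreover every abelian subgroup has index at least `d` then `P` is
self-centralizing (elementwise). -/
theorem core {G : Type*} [Group G] [Finite G] (p d : ℕ) [Fact p.Prime] (hd0 : 0 < d) (hdp : d < p)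
    (hcard : Nat.card G = p * d)
    (hab : ∀ A : Subgroup G, (∀ a b : A, a * b = b * a) → d ≤ A.index) :
    ∃ P : Subgroup G, P.Normal ∧ Nat.card P = p ∧ P.index = d ∧
      ∀ x ∈ P, x ≠ 1 → ∀ g : G, g * x = x * g → g ∈ P := by
  have hp : p.Prime := Fact.out
  have hpd : ¬ p ∣ d := Nat.not_dvd_of_pos_of_lt hd0 hdp
  obtain ⟨P⟩ : Nonempty (Sylow p G) := inferInstance
  have hPcard : Nat.card (P : Subgroup G) = p := by
    rw [P.card_eq_multiplicity, hcard, Nat.factorization_mul hp.ne_zero hd0.ne']
    simp [hp.factorization_self, Nat.factorization_eq_zero_of_not_dvd hpd]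
  have hPidx : (P : Subgroup G).index = d := by
    have := Subgroup.card_mul_index (P : Subgroup G)
    rw [hPcard, hcard] at this
    exact Nat.eq_of_mul_eq_mul_left hp.pos this
  have hn1 : Nat.card (Sylow p G) = 1 := by
    have h1 : Nat.card (Sylow p G) ∣ d := hPidx ▸ P.card_dvd_index
    have h2 := card_sylow_modEq_one p G
    have h3 : Nat.card (Sylow p G) < p := lt_of_le_of_lt (Nat.le_of_dvd hd0 h1) hdp
    exact Nat.ModEq.eq_of_lt_of_lt h2 h3 hp.one_lt
  have hsub : Subsingleton (Sylow p G) := (Nat.card_eq_one_iff_unique.1 hn1).1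
  have hPn : (P : Subgroup G).Normal := P.normal_of_subsingleton
  refine ⟨P, hPn, hPcard, hPidx, fun x hx hx1 g hg => ?_⟩
  have hz : Subgroup.zpowers x = (P : Subgroup G) := by
    apply Subgroup.eq_of_le_of_card_ge ((Subgroup.zpowers_le).2 hx)
    rw [hPcard, Nat.card_zpowers]
    have h1 : orderOf x ∣ p := by
      have := orderOf_dvd_natCard (⟨x, hx⟩ : (P : Subgroup G))
      rw [hPcard] at this
      rwa [← Subgroup.orderOf_mk x hx]
    rcases (Nat.dvd_prime hp).1 h1 with h | h
    · exact absurd (orderOf_eq_one_iff.1 h) hx1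
    · exact h.ge
  set A := Subgroup.closure ({x, g} : Set G) with hA
  have hAc : IsMulCommutative A := by
    apply Subgroup.isMulCommutative_closure
    intro a ha b hb
    simp only [Set.mem_insert_iff, Set.mem_singleton_iff] at ha hb
    rcases ha with rfl | rfl <;> rcases hb with rfl | rfl <;> simp [hg]
  have hPA : (P : Subgroup G) ≤ A := by
    rw [← hz, Subgroup.zpowers_le]
    exact Subgroup.subset_closure (by simp)
  have hidx := hab A (isMulCommutative_iff.1 hAc)
  have hAcard : Nat.card A ≤ Nat.card (P : Subgroup G) := by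
    have h1 := Subgroup.card_mul_index A
    rw [hcard] at h1
    rw [hPcard]
    by_contra hlt
    push Not at hlt
    have : p * d < Nat.card A * A.index :=
      calc p * d < Nat.card A * d := Nat.mul_lt_mul_of_pos_right hlt hd0
        _ ≤ Nat.card A * A.index := Nat.mul_le_mul_left _ hidx
    omega
  have hAP := Subgroup.eq_of_le_of_card_ge hPA hAcard
  rw [hAP]
  exact Subgroup.subset_closure (by simp)

theorem result {G : Type*} [Group G] [Finite G] (χ : Cfsg.IrrCharacter G) (hfaith : ∀ g : G, (χ : G → ℂ) g = (χ : G → ℂ) 1 → g = 1) (p : ℕ) (hp : p.Prime) (hcod : Nat.card G = p * Cfsg.charDegree (χ : G → ℂ)) : (IsCyclic G ∧ Nat.card G = p) ∨ ∃ H : Subgroup G, Cfsg.IsFrobeniusComplement H ∧ Nat.card ↥(Cfsg.frobeniusKernel H) = p := by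
  classical
  have : Fact p.Prime := ⟨hp⟩
  have : Fintype G := Fintype.ofFinite G
  set d := charDegree (χ : G → ℂ) with hd
  have hdpos : 0 < d := charDegree_pos_of_irr χ.2
  by_cases hd1 : d = 1
  · left
    rw [hd1, mul_one] at hcod
    exact ⟨isCyclic_of_prime_card hcod, hcod⟩
  right
  have hlt : d < p := by
    have hne : trivIrr G ≠ χ := by
      intro h
      apply hd1
      rw [hd, ← h]
      simp [trivIrr, charDegree]
    have h1 := sum_sq_charDegree (G := G)
    rw [← Finset.add_sum_erase _ _ (Finset.mem_univ χ),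
      ← Finset.add_sum_erase _ _ (Finset.mem_erase.2 ⟨hne, Finset.mem_univ _⟩)] at h1
    have h2 : charDegree ((trivIrr G : IrrCharacter G) : G → ℂ) = 1 := by
      simp [trivIrr, charDegree]
    rw [h2, hcod, ← hd] at h1
    have h3 : d ^ 2 < p * d := by omega
    rw [sq] at h3
    exact Nat.lt_of_mul_lt_mul_right h3
  obtain ⟨P, hPn, hPcard, hPidx, hcent⟩ := core p d hdpos hlt hcod
    (fun A hA => charDegree_le_index_of_comm χ A hA)
  have hcop : Nat.Coprime (Nat.card P) P.index := by
    rw [hPcard, hPidx]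
    exact (Nat.Prime.coprime_iff_not_dvd hp).2 (Nat.not_dvd_of_pos_of_lt hdpos hlt)
  obtain ⟨H, hH⟩ := Subgroup.exists_right_complement'_of_coprime hcop
  have hHcard : Nat.card H = d := by
    have := hH.card_mul_card
    rw [hPcard, hcod] at this
    exact Nat.eq_of_mul_eq_mul_left hp.pos this
  have hP1 : P ≠ ⊥ := by
    rintro rfl
    rw [Subgroup.card_bot] at hPcard
    exact hp.one_lt.ne hPcard
  have hH1 : H ≠ ⊥ := by
    rintro rfl
    rw [Subgroup.card_bot] at hHcard
    exact hd1 hHcard.symm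
  have hinf : P ⊓ H = ⊥ := hH.disjoint.eq_bot
  obtain ⟨hF, hK⟩ := Cfsg.Agent.Lib.Helper68.isFrobeniusComplement_of_fpf P H hP1 hH1
    hH.sup_eq_top hinf (by
      intro h hh hh1 n hn hnh
      by_contra hn1
      have h1 : h * n = n * h := by
        calc h * n = (n * h * n⁻¹) * n := by rw [hnh]
          _ = n * h := by group
      have h2 : h ∈ P ⊓ H := ⟨hcent n hn hn1 h h1, hh⟩
      rw [hinf, Subgroup.mem_bot] at h2
      exact hh1 h2)
  refine ⟨H, hF, ?_⟩
  rw [hK]
  exact hPcard

end Cfsg.Agent.S4796
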