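import Cfsg.Statements.S4797
import Cfsg.Agent.Lib.Helper80.Codegree
import Cfsg.Agent.S4796

set_option autoImplicit false
open Cfsg

namespace Cfsg.Agent.S4797

open Cfsg.Agent.Lib.Helper80 Cfsg.Agent.Lib.Helper74
open scoped commutatorElement

/-- A normal maximal subgroup has prime index. -/
theorem index_prime_of_isCoatom {G : Type*} [Group G] [Finite G] (M : Subgroup G) [M.Normal]
    (hM : IsCoatom M) : M.index.Prime := by
  have hne : M.index ≠ 1 := by
    rw [Ne, Subgroup.index_eq_one]; exact hM.1
  obtain ⟨q, hq, hqd⟩ := Nat.exists_prime_and_dvd hne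
  have : Fact q.Prime := ⟨hq⟩
  obtain ⟨x, hx⟩ := exists_prime_orderOf_dvd_card' (G := G ⧸ M) q hqd
  obtain ⟨g, rfl⟩ := QuotientGroup.mk_surjective x
  set C := (Subgroup.zpowers (g : G ⧸ M)).comap (QuotientGroup.mk' M) with hC
  have hMC : M ≤ C := by
    intro m hm
    rw [hC, Subgroup.mem_comap]
    have : (QuotientGroup.mk' M) m = 1 := (QuotientGroup.eq_one_iff m).2 hm
    rw [this]; exact one_mem _
  have hgC : g ∈ C := by
    rw [hC, Subgroup.mem_comap]; exact Subgroup.mem_zpowers _
  have hgM : g ∉ M := by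
    intro h
    have h1 : (g : G ⧸ M) = 1 := (QuotientGroup.eq_one_iff g).2 h
    rw [h1, orderOf_one] at hx
    exact hq.one_lt.ne hx
  have hlt : M < C := lt_of_le_of_ne hMC (fun h => hgM (h ▸ hgC))
  have htop : C = ⊤ := hM.2 C hlt
  have hz : Subgroup.zpowers (g : G ⧸ M) = ⊤ := by
    rw [Subgroup.eq_top_iff']
    intro y
    obtain ⟨a, rfl⟩ := QuotientGroup.mk_surjective y
    have : a ∈ C := htop ▸ Subgroup.mem_top a
    exact this
  have : M.index = q := by
    rw [Subgroup.index, ← Subgroup.card_top (G := G ⧸ M), ← hz, Nat.card_zpowers, hx]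
  rw [this]; exact hq

theorem normal_of_commutator_le {G : Type*} [Group G] (M : Subgroup G) (h : commutator G ≤ M) :
    M.Normal := by
  constructor
  intro n hn g
  have h1 : ⁅g, n⁆ ∈ M := h (Subgroup.commutator_mem_commutator (Subgroup.mem_top g) (Subgroup.mem_top n))
  have h2 : g * n * g⁻¹ = ⁅g, n⁆ * n := by
    rw [commutatorElement_def]; group
  rw [h2]
  exact M.mul_mem h1 hn

/-- A group of order `q χ(1)` (with `q` prime, `χ` irreducible) is not perfect. -/
theorem not_perfect {H : Type*} [Group H] [Finite H] (ψ : IrrCharacter H) (q : ℕ) (hq : q.Prime)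
    (hcard : Nat.card H = q * charDegree (ψ : H → ℂ)) : commutator H ≠ ⊤ := by
  classical
  have : Fact q.Prime := ⟨hq⟩
  have : Fintype H := Fintype.ofFinite H
  intro hperf
  set d := charDegree (ψ : H → ℂ) with hd
  have hdpos : 0 < d := charDegree_pos_of_irr ψ.2
  by_cases hd1 : d = 1
  · rw [hd1, mul_one] at hcard
    have hcyc : IsCyclic H := isCyclic_of_prime_card hcard
    have hcomm : commutator H = ⊥ := by
      rw [commutator_eq_bot_iff_center_eq_top, Subgroup.eq_top_iff']
      intro x
      rw [Subgroup.mem_center_iff]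
      intro y
      exact (isMulCommutative_iff.1 (IsCyclic.isMulCommutative)) y x
    rw [hcomm] at hperf
    have h1 : Nat.card (⊥ : Subgroup H) = Nat.card (⊤ : Subgroup H) := by rw [hperf]
    rw [Subgroup.card_bot, Subgroup.card_top, hcard] at h1
    exact hq.one_lt.ne h1
  have hlt : d < q := by
    have hne : trivIrr H ≠ ψ := by
      intro h
      apply hd1
      rw [hd, ← h]
      simp [trivIrr, charDegree]
    have h1 := sum_sq_charDegree (G := H)
    rw [← Finset.add_sum_erase _ _ (Finset.mem_univ ψ),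
      ← Finset.add_sum_erase _ _ (Finset.mem_erase.2 ⟨hne, Finset.mem_univ _⟩)] at h1
    have h2 : charDegree ((trivIrr H : IrrCharacter H) : H → ℂ) = 1 := by
      simp [trivIrr, charDegree]
    rw [h2, hcard, ← hd] at h1
    have h3 : d ^ 2 < q * d := by omega
    rw [sq] at h3
    exact Nat.lt_of_mul_lt_mul_right h3
  obtain ⟨P, hPn, hPcard, hPidx, hcent⟩ := Cfsg.Agent.S4796.core q d hdpos hlt hcard
    (fun A hA => charDegree_le_index_of_comm ψ A hA)
  have hPcyc : IsCyclic P := isCyclic_of_prime_card hPcard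
  let Φ : H →* (ZMod (Nat.card P))ˣ :=
    (IsCyclic.mulAutMulEquiv P).toMonoidHom.comp (MulAut.conjNormal : H →* MulAut P)
  have hker : commutator H ≤ Φ.ker := Abelianization.commutator_subset_ker Φ
  rw [hperf] at hker
  have hP1 : ∃ x ∈ P, x ≠ 1 := by
    by_contra hcon
    push Not at hcon
    have : P = ⊥ := (Subgroup.eq_bot_iff_forall P).2 hcon
    rw [this, Subgroup.card_bot] at hPcard
    exact hq.one_lt.ne hPcard
  obtain ⟨x, hx, hx1⟩ := hP1
  have htop : P = ⊤ := by
    rw [Subgroup.eq_top_iff']
    intro g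
    have h1 : Φ g = 1 := hker (Subgroup.mem_top g)
    have h2 : (MulAut.conjNormal g : MulAut P) = 1 := by
      apply (IsCyclic.mulAutMulEquiv P).injective
      rw [map_one]; exact h1
    have h3 : (MulAut.conjNormal g : MulAut P) ⟨x, hx⟩ = ⟨x, hx⟩ := by rw [h2]; rfl
    have h4 : g * x * g⁻¹ = x := by
      have := congrArg Subtype.val h3
      simpa [MulAut.conjNormal_apply] using this
    apply hcent x hx hx1 g
    calc g * x = (g * x * g⁻¹) * g := by group
      _ = x * g := by rw [h4]
  rw [htop, Subgroup.index_top] at hPidx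
  exact hd1 hPidx.symm

theorem result {G : Type*} [Group G] [Finite G] [Nontrivial G] : commutator G = ⊤ ↔ ∀ χ : Cfsg.IrrCharacter G, ¬ ((Nat.card G / (Nat.card {g : G // (χ : G → ℂ) g = (χ : G → ℂ) 1} * Cfsg.charDegree (χ : G → ℂ)))).Prime := by
  classical
  constructor
  · intro hperf χ hprime
    have hc := isCharacter_of_irr χ.2
    have hKn := charKer_normal hc
    set K := charKer _ hc with hK
    obtain ⟨ψ, hψ⟩ := (inflateEquiv K).surjective ⟨χ, fun n hn => hn⟩
    have hdeg : charDegree (χ : G → ℂ) = charDegree (ψ : G ⧸ K → ℂ) := by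
      rw [← charDegree_inflate, hψ]
    have h1 := cod_mul_charDegree χ
    have hcard : Nat.card (G ⧸ K) = cod (χ : G → ℂ) * charDegree (ψ : G ⧸ K → ℂ) := by
      rw [← hdeg, h1]; rfl
    apply not_perfect ψ _ hprime hcard
    have h2 := Subgroup.map_commutator (⊤ : Subgroup G) ⊤ (QuotientGroup.mk' K)
    rw [Subgroup.map_top_of_surjective _ (QuotientGroup.mk'_surjective K)] at h2
    rw [commutator_def, ← h2, ← commutator_def, hperf,
      Subgroup.map_top_of_surjective _ (QuotientGroup.mk'_surjective K)]
  · intro h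
    by_contra hne
    obtain ⟨M, hM, hle⟩ := (eq_top_or_exists_le_coatom (commutator G)).resolve_left hne
    have hMn := normal_of_commutator_le M hle
    have hprime := index_prime_of_isCoatom M hM
    obtain ⟨g, hg⟩ : ∃ g, g ∉ M := by
      by_contra hcon
      push Not at hcon
      exact hM.1 ((Subgroup.eq_top_iff' M).2 hcon)
    obtain ⟨χ, hχM, hχg⟩ := exists_irr_ker_ne M hg
    have hc := isCharacter_of_irr χ.2
    have hker : charKer _ hc = M := by
      by_contra hne'
      have hlt : M < charKer _ hc := lt_of_le_of_ne (fun m hm => hχM m hm) (Ne.symm hne')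
      have htop := hM.2 _ hlt
      have : g ∈ charKer _ hc := htop ▸ Subgroup.mem_top g
      exact hχg this
    have hd1 : charDegree (χ : G → ℂ) = 1 := by
      have h1 := (char_one_eq_one_iff χ).2 (fun n hn => hχM n (hle hn))
      rw [char_one_eq_charDegree hc] at h1
      exact_mod_cast h1
    have h2 := cod_mul_charDegree χ
    rw [hd1, mul_one, hker] at h2
    apply h χ
    have : cod (χ : G → ℂ) = M.index := h2
    unfold cod at this
    rw [this]
    exact hprime

end Cfsg.Agent.S4797
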