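import Cfsg.Statements.S4798
import Cfsg.Agent.Lib.Helper80.CoreDvd
import Cfsg.Agent.Lib.Helper80.Constituent
import Cfsg.Agent.Lib.Helper3.Induction

set_option autoImplicit false
open Cfsg

namespace Cfsg.Agent.S4798

open Cfsg.Agent.Lib.Helper80 Cfsg.Agent.Lib.Helper74
open scoped ComplexConjugate

theorem charDegree_indFun {G : Type*} [Group G] [Fintype G] (H : Subgroup G) {θ : H → ℂ}
    (hθ : IsCharacter H θ) : charDegree (indFun H θ) = H.index * charDegree θ := by
  have h1 := Cfsg.Agent.Lib.Helper3.indFun_one H θ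
  have h2 := Cfsg.Agent.Lib.Helper3.isCharacter_indFun H hθ
  rw [char_one_eq_charDegree h2, char_one_eq_charDegree hθ] at h1
  exact_mod_cast h1

theorem result {G : Type*} [Group G] [Fintype G] (p : ℕ) [Fact p.Prime] (χ : Cfsg.IrrCharacter G) (hfaith : ∀ g : G, (χ : G → ℂ) g = (χ : G → ℂ) 1 → g = 1) : (∃ k : ℕ, Nat.card G = p ^ k * Cfsg.charDegree (χ : G → ℂ)) ↔ ∃ (P : Sylow p G) (θ : ↥(P : Subgroup G) → ℂ), Cfsg.IsCharacter ↥(P : Subgroup G) θ ∧ (χ : G → ℂ) = Cfsg.indFun (P : Subgroup G) θ := by
  classical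
  have hp : p.Prime := Fact.out
  have hχc := isCharacter_of_irr χ.2
  have hdpos := charDegree_pos_of_irr χ.2
  constructor
  · rintro ⟨k, hk⟩
    obtain ⟨P⟩ : Nonempty (Sylow p G) := inferInstance
    have : Fintype (P : Subgroup G) := Fintype.ofFinite _
    set I := (P : Subgroup G).index with hI
    have hIp : ¬ p ∣ I := P.not_dvd_index
    set n := (Nat.card G).factorization p with hn
    have hPn : Nat.card (P : Subgroup G) = p ^ n := P.card_eq_multiplicity
    have hcard : p ^ n * I = p ^ k * charDegree (χ : G → ℂ) := by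
      rw [← hPn, ← hk]; exact Subgroup.card_mul_index _
    have hkn : k ≤ n := by
      by_contra hlt
      push Not at hlt
      obtain ⟨j, rfl⟩ := Nat.exists_eq_add_of_lt hlt
      apply hIp
      have : p ^ n * I = p ^ n * (p ^ (j + 1) * charDegree (χ : G → ℂ)) := by
        rw [hcard]; ring
      have h2 := Nat.eq_of_mul_eq_mul_left (pow_pos hp.pos n) this
      rw [h2]
      exact Dvd.dvd.mul_right (dvd_pow_self p (by omega)) _
    have hd : charDegree (χ : G → ℂ) = p ^ (n - k) * I := by
      have : p ^ k * (p ^ (n - k) * I) = p ^ k * charDegree (χ : G → ℂ) := by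
        rw [← hcard, ← mul_assoc, ← pow_add, Nat.add_sub_cancel' hkn]
      exact (Nat.eq_of_mul_eq_mul_left (pow_pos hp.pos k) this).symm
    have hRc : IsCharacter (P : Subgroup G) (fun x : (P : Subgroup G) => (χ : G → ℂ) x) :=
      IsCharacter.restrict hχc _
    obtain ⟨m, hm, -, hdeg⟩ := exists_mult_spec hRc
    have hdegR : charDegree (fun x : (P : Subgroup G) => (χ : G → ℂ) x) = charDegree (χ : G → ℂ) :=
      rfl
    rw [hdegR] at hdeg
    -- Frobenius reciprocity
    have hfrob : ∀ η : IrrCharacter (P : Subgroup G), m η ≠ 0 →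
        classInner (indFun (P : Subgroup G) (η : ↥(P : Subgroup G) → ℂ)) (χ : G → ℂ) ≠ 0 := by
      intro η hη
      rw [Cfsg.Agent.Lib.Helper3.frobenius_reciprocity _ _ (isClassFunction_of_char hχc),
        ← classInner_conj_symm, hm η]
      simpa using hη
    have hle : ∀ η : IrrCharacter (P : Subgroup G), m η ≠ 0 →
        charDegree (χ : G → ℂ) ≤ I * charDegree (η : ↥(P : Subgroup G) → ℂ) := by
      intro η hη
      rw [← charDegree_indFun _ (isCharacter_of_irr η.2)]
      exact charDegree_le_of_constituent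
        (Cfsg.Agent.Lib.Helper3.isCharacter_indFun _ (isCharacter_of_irr η.2)) χ (hfrob η hη)
    have hex : ∃ η : IrrCharacter (P : Subgroup G), m η ≠ 0 ∧
        charDegree (η : ↥(P : Subgroup G) → ℂ) = p ^ (n - k) := by
      by_contra hcon
      push Not at hcon
      apply hIp
      have hdvd : p ^ (n - k + 1) ∣ charDegree (χ : G → ℂ) := by
        rw [hdeg]
        apply Finset.dvd_sum
        intro η _
        by_cases hη : m η = 0
        · rw [hη, zero_mul]; exact dvd_zero _
        · apply Dvd.dvd.mul_left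
          have h1 := charDegree_dvd_card η
          rw [hPn] at h1
          obtain ⟨a, -, ha⟩ := (Nat.dvd_prime_pow hp).1 h1
          have h2 := hle η hη
          rw [hd, ha, mul_comm] at h2
          have hIpos : 0 < I := Nat.pos_of_ne_zero (fun h0 => hIp (h0 ▸ dvd_zero p))
          have h3 : p ^ (n - k) ≤ p ^ a := Nat.le_of_mul_le_mul_left h2 hIpos
          have h4 : n - k ≤ a := (Nat.pow_le_pow_iff_right hp.one_lt).1 h3
          have h5 : a ≠ n - k := by
            intro h; exact hcon η hη (by rw [ha, h])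
          rw [ha]
          exact pow_dvd_pow p (by omega)
      rw [hd, pow_succ] at hdvd
      exact Nat.dvd_of_mul_dvd_mul_left (pow_pos hp.pos _) hdvd
    obtain ⟨η, hη, hηd⟩ := hex
    refine ⟨P, η, isCharacter_of_irr η.2, ?_⟩
    symm
    apply eq_of_constituent_of_degree
      (Cfsg.Agent.Lib.Helper3.isCharacter_indFun _ (isCharacter_of_irr η.2)) χ (hfrob η hη)
    rw [charDegree_indFun _ (isCharacter_of_irr η.2), hηd, hd, mul_comm]
  · rintro ⟨P, θ, hθ, hχθ⟩
    have : Fintype (P : Subgroup G) := Fintype.ofFinite _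
    have hθ0 : θ ≠ 0 := by
      rintro rfl
      rw [Cfsg.Agent.Lib.Helper3.indFun_zero] at hχθ
      exact char_one_ne_zero_of_irr χ.2 (by rw [hχθ]; rfl)
    obtain ⟨η, hη⟩ := exists_constituent hθ hθ0
    obtain ⟨θ', hθ', hsum⟩ := exists_add_of_constituent hθ η hη
    have hηc := isCharacter_of_irr η.2
    rw [hsum, Cfsg.Agent.Lib.Helper3.indFun_add] at hχθ
    have hIpos : 0 < (P : Subgroup G).index := Nat.pos_of_ne_zero Subgroup.index_ne_zero_of_finite
    have hθ'0 : charDegree θ' = 0 := by
      rcases eq_zero_or_eq_zero_of_irr_eq_add χ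
        (Cfsg.Agent.Lib.Helper3.isCharacter_indFun _ hηc)
        (Cfsg.Agent.Lib.Helper3.isCharacter_indFun _ hθ') hχθ with h | h
      · exfalso
        have h1 := charDegree_indFun (P : Subgroup G) hηc
        rw [h] at h1
        have h2 : charDegree (0 : G → ℂ) = 0 := by simp [charDegree]
        rw [h2] at h1
        have := charDegree_pos_of_irr η.2
        have h3 := Nat.mul_pos hIpos this
        omega
      · have h1 := charDegree_indFun (P : Subgroup G) hθ'
        rw [h] at h1
        have h2 : charDegree (0 : G → ℂ) = 0 := by simp [charDegree]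
        rw [h2] at h1
        rcases Nat.mul_eq_zero.1 h1.symm with h | h
        · omega
        · exact h
    have hθ'z : θ' = 0 := by
      apply eq_zero_of_char_one_eq_zero hθ'
      rw [char_one_eq_charDegree hθ', hθ'0]; simp
    rw [hθ'z, Cfsg.Agent.Lib.Helper3.indFun_zero, add_zero] at hχθ
    have hd : charDegree (χ : G → ℂ) = (P : Subgroup G).index * charDegree (η : ↥(P : Subgroup G) → ℂ) := by
      rw [hχθ]; exact charDegree_indFun _ hηc
    obtain ⟨n, hPn⟩ : ∃ n, Nat.card (P : Subgroup G) = p ^ n := ⟨_, P.card_eq_multiplicity⟩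
    have h1 := charDegree_dvd_card η
    rw [hPn] at h1
    obtain ⟨a, ha, hηa⟩ := (Nat.dvd_prime_pow hp).1 h1
    refine ⟨n - a, ?_⟩
    rw [hd, hηa, ← Subgroup.card_mul_index (P : Subgroup G), hPn]
    calc p ^ n * (P : Subgroup G).index
        = p ^ (n - a + a) * (P : Subgroup G).index := by rw [Nat.sub_add_cancel ha]
      _ = _ := by rw [pow_add]; ring

end Cfsg.Agent.S4798
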