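import Cfsg.Statements.S4801
import Cfsg.Agent.Lib.Helper80.Codegree

set_option autoImplicit false
open Cfsg

namespace Cfsg.Agent.S4801

open Cfsg.Agent.Lib.Helper80 Cfsg.Agent.Lib.Helper74

theorem result {S : Type*} [Group S] [Finite S] (hS : IsSimpleGroup S) {G : Type*} [Group G] [Finite G] (hsub : ∀ χ : Cfsg.IrrCharacter S, ∃ ψ : Cfsg.IrrCharacter G, (Nat.card S / (Nat.card {g : S // (χ : S → ℂ) g = (χ : S → ℂ) 1} * Cfsg.charDegree (χ : S → ℂ))) = (Nat.card G / (Nat.card {g : G // (ψ : G → ℂ) g = (ψ : G → ℂ) 1} * Cfsg.charDegree (ψ : G → ℂ)))) : Nat.card S ∣ Nat.card G := by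
  classical
  rw [Nat.dvd_iff_prime_pow_dvd_dvd]
  intro p k hp hpk
  rcases Nat.eq_zero_or_pos k with rfl | hk
  · simp
  have hpS : p ∣ Nat.card S := (dvd_pow_self p hk.ne').trans hpk
  -- a character with nontrivial... not containing `⊤` in its kernel and of degree prime to `p`
  have hex : ∃ χ : IrrCharacter S, (¬ ∀ n ∈ (⊤ : Subgroup S), (χ : S → ℂ) n = (χ : S → ℂ) 1) ∧
      ¬ p ∣ charDegree (χ : S → ℂ) := by
    by_contra hcon
    push Not at hcon
    have h1 := sum_sq_charDegree (G := S)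
    have h2 := sum_sq_charDegree_quot (⊤ : Subgroup S)
    rw [← Finset.sum_filter_add_sum_filter_not Finset.univ
      (fun χ : IrrCharacter S => ∀ n ∈ (⊤ : Subgroup S), (χ : S → ℂ) n = (χ : S → ℂ) 1), h2] at h1
    have h3 : p ∣ ∑ χ ∈ Finset.univ.filter
        (fun χ : IrrCharacter S => ¬ ∀ n ∈ (⊤ : Subgroup S), (χ : S → ℂ) n = (χ : S → ℂ) 1),
        (charDegree (χ : S → ℂ)) ^ 2 := by
      apply Finset.dvd_sum
      intro χ hχ
      have hχ' := (Finset.mem_filter.1 hχ).2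
      exact dvd_pow (hcon χ (by simpa using hχ')) two_ne_zero
    have h4 : p ∣ (⊤ : Subgroup S).index := (Nat.dvd_add_left h3).1 (h1 ▸ hpS)
    rw [Subgroup.index_top] at h4
    exact hp.one_lt.ne' (Nat.dvd_one.1 h4)
  obtain ⟨χ, hχ1, hχp⟩ := hex
  have hc := isCharacter_of_irr χ.2
  have hker : charKer _ hc = ⊥ := by
    rcases (charKer_normal hc).eq_bot_or_eq_top with h | h
    · exact h
    · exfalso
      apply hχ1
      intro n _
      have : n ∈ charKer _ hc := h ▸ Subgroup.mem_top n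
      exact this
  have h5 := cod_mul_charDegree χ
  rw [hker, Subgroup.index_bot] at h5
  have h6 : p ^ k ∣ cod (χ : S → ℂ) := by
    apply Nat.Coprime.dvd_of_dvd_mul_right _ (h5 ▸ hpk)
    exact Nat.Coprime.pow_left k ((Nat.Prime.coprime_iff_not_dvd hp).2 hχp)
  obtain ⟨ψ, hψ⟩ := hsub χ
  have h7 : cod (χ : S → ℂ) = cod (ψ : G → ℂ) := hψ
  rw [h7] at h6
  exact h6.trans (cod_dvd_card ψ)

end Cfsg.Agent.S4801
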