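import Cfsg.Statements.S4802
import Cfsg.Agent.Lib.Helper80.Quot
import Cfsg.Agent.Lib.Helper80.Coset

set_option autoImplicit false
open Cfsg

namespace Cfsg.Agent.S4802

open Cfsg.Agent.Lib.Helper80 Cfsg.Agent.Lib.Helper74
open scoped ComplexConjugate

theorem char_eq_of_isConj {G : Type*} [Group G] {χ : G → ℂ} (h : IsCharacter G χ) {a b : G}
    (hab : IsConj a b) : χ a = χ b := by
  obtain ⟨c, hc⟩ := isConj_iff.1 hab
  rw [← hc, isClassFunction_of_char h]

theorem result {G : Type*} [Group G] [Finite G] (N M : Subgroup G) [N.Normal] [M.Normal] (hNM : N < M) (g : G) (hgM : g ∈ M) (hgN : g ∉ N) : {h : G | IsConj g h} = (M : Set G) \ (N : Set G) ↔ ((∀ χ : Cfsg.IrrCharacter G, (∀ x ∈ N, (χ : G → ℂ) x = (χ : G → ℂ) 1) → ∀ x ∈ M, x ∉ N → ∀ y ∈ M, y ∉ N → (χ : G → ℂ) x = (χ : G → ℂ) y) ∧ (∀ χ : Cfsg.IrrCharacter G, (∃ x ∈ N, (χ : G → ℂ) x ≠ (χ : G → ℂ) 1) → (χ : G → ℂ) g = 0)) := by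
  classical
  constructor
  · intro hcl
    have hconj : ∀ x ∈ M, x ∉ N → IsConj g x := by
      intro x hx hxN
      have : x ∈ (M : Set G) \ (N : Set G) := ⟨hx, hxN⟩
      rw [← hcl] at this
      exact this
    refine ⟨fun χ _ x hx hxN y hy hyN => ?_, fun χ hχ => ?_⟩
    · have hc := isCharacter_of_irr χ.2
      rw [← char_eq_of_isConj hc (hconj x hx hxN), ← char_eq_of_isConj hc (hconj y hy hyN)]
    · have hc := isCharacter_of_irr χ.2
      haveI : Fintype N := Fintype.ofFinite N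
      have h0 := sum_coset_eq_zero χ.2 N hχ g
      have h1 : ∀ n : N, (χ : G → ℂ) (g * n) = (χ : G → ℂ) g := by
        intro n
        refine (char_eq_of_isConj hc (hconj _ (M.mul_mem hgM (hNM.le n.2)) ?_)).symm
        intro hmem
        exact hgN ((Subgroup.mul_mem_cancel_right N n.2).1 hmem)
      simp only [h1, Finset.sum_const, Finset.card_univ, nsmul_eq_mul] at h0
      rcases mul_eq_zero.1 h0 with h | h
      · exfalso
        have : Fintype.card N ≠ 0 := Fintype.card_ne_zero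
        exact this (by exact_mod_cast h)
      · exact h
  · rintro ⟨h1, h2⟩
    ext h
    simp only [Set.mem_ofPred_eq, Set.mem_sdiff, SetLike.mem_coe]
    constructor
    · intro hc
      obtain ⟨c, rfl⟩ := isConj_iff.1 hc
      refine ⟨‹M.Normal›.conj_mem g hgM c, fun hmem => hgN ?_⟩
      have := ‹N.Normal›.conj_mem _ hmem c⁻¹
      simpa [mul_assoc] using this
    · rintro ⟨hM, hN⟩
      by_contra hnc
      have e1 := col_orth g h
      rw [if_neg hnc] at e1
      rw [← Finset.sum_filter_add_sum_filter_not Finset.univ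
        (fun χ : IrrCharacter G => ∀ n ∈ N, (χ : G → ℂ) n = (χ : G → ℂ) 1)] at e1
      have e2 : ∑ χ ∈ Finset.univ.filter
          (fun χ : IrrCharacter G => ¬ ∀ n ∈ N, (χ : G → ℂ) n = (χ : G → ℂ) 1),
          (χ : G → ℂ) g * conj ((χ : G → ℂ) h) = 0 := by
        apply Finset.sum_eq_zero
        intro χ hχ
        have hχ' := (Finset.mem_filter.1 hχ).2
        push Not at hχ'
        rw [h2 χ hχ', zero_mul]
      have e3 : ∑ χ ∈ Finset.univ.filter
          (fun χ : IrrCharacter G => ∀ n ∈ N, (χ : G → ℂ) n = (χ : G → ℂ) 1),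
          (χ : G → ℂ) g * conj ((χ : G → ℂ) h) = ∑ χ ∈ Finset.univ.filter
          (fun χ : IrrCharacter G => ∀ n ∈ N, (χ : G → ℂ) n = (χ : G → ℂ) 1),
          (χ : G → ℂ) g * conj ((χ : G → ℂ) g) := by
        apply Finset.sum_congr rfl
        intro χ hχ
        rw [h1 χ (Finset.mem_filter.1 hχ).2 h hM hN g hgM hgN]
      rw [e2, add_zero, e3, col_orth_quot N g g, if_pos (IsConj.refl _)] at e1
      have : Nat.card (Subgroup.centralizer ({(g : G ⧸ N)} : Set (G ⧸ N))) ≠ 0 :=
        Nat.card_pos.ne'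
      exact this (by exact_mod_cast e1)

end Cfsg.Agent.S4802
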