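import Cfsg.Statements.S4808
import Cfsg.Agent.Lib.Helper80.Codegree

set_option autoImplicit false
open Cfsg

namespace Cfsg.Agent.S4808

open Cfsg.Agent.Lib.Helper80 Cfsg.Agent.Lib.Helper74

/-- There is a smallest normal subgroup of index prime to `p`. -/
theorem exists_min_normal {G : Type*} [Group G] [Finite G] (p : ℕ) (hp : p.Prime) :
    ∃ K₀ : Subgroup G, K₀.Normal ∧ ¬ p ∣ K₀.index ∧
      ∀ K : Subgroup G, K.Normal → ¬ p ∣ K.index → K₀ ≤ K := by
  classical
  have hne : {K : Subgroup G | K.Normal ∧ ¬ p ∣ K.index}.Nonempty :=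
    ⟨⊤, inferInstance, by simpa using hp.one_lt.ne'⟩
  obtain ⟨K₀, hK₀⟩ := (Set.toFinite {K : Subgroup G | K.Normal ∧ ¬ p ∣ K.index}).exists_minimal hne
  refine ⟨K₀, hK₀.prop.1, hK₀.prop.2, fun K hK hpK => ?_⟩
  have hK₀n := hK₀.prop.1
  have hmem : (K₀ ⊓ K) ∈ {K : Subgroup G | K.Normal ∧ ¬ p ∣ K.index} := by
    refine ⟨inferInstance, ?_⟩
    rw [← Subgroup.relIndex_mul_index (inf_le_left : K₀ ⊓ K ≤ K₀), Subgroup.inf_relIndex_left]
    intro h
    rcases (Nat.Prime.dvd_mul hp).1 h with h | h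
    · exact hpK (h.trans (Subgroup.relIndex_dvd_index_of_normal K K₀))
    · exact hK₀.prop.2 h
  have := hK₀.le_of_le hmem inf_le_left
  exact (le_inf_iff.1 this).2

theorem result {G : Type*} [Group G] [Finite G] (p : ℕ) (hp : p.Prime) : p ∣ Nat.card G ↔ ∃ χ : Cfsg.IrrCharacter G, p ∣ (Nat.card G / (Nat.card {g : G // (χ : G → ℂ) g = (χ : G → ℂ) 1} * Cfsg.charDegree (χ : G → ℂ))) := by
  classical
  constructor
  · intro hpG
    by_contra hcon
    push Not at hcon
    obtain ⟨K₀, hK₀n, hK₀p, hK₀min⟩ := exists_min_normal (G := G) p hp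
    have h1 := sum_sq_charDegree (G := G)
    have h2 := sum_sq_charDegree_quot K₀
    rw [← Finset.sum_filter_add_sum_filter_not Finset.univ
      (fun χ : IrrCharacter G => ∀ n ∈ K₀, (χ : G → ℂ) n = (χ : G → ℂ) 1), h2] at h1
    have h3 : p ∣ ∑ χ ∈ Finset.univ.filter
        (fun χ : IrrCharacter G => ¬ ∀ n ∈ K₀, (χ : G → ℂ) n = (χ : G → ℂ) 1),
        (charDegree (χ : G → ℂ)) ^ 2 := by
      apply Finset.dvd_sum
      intro χ hχ
      have hχ' := (Finset.mem_filter.1 hχ).2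
      have hc := isCharacter_of_irr χ.2
      have hker : p ∣ (charKer _ hc).index := by
        by_contra hnd
        exact hχ' (fun n hn => hK₀min _ (charKer_normal hc) hnd hn)
      rw [← cod_mul_charDegree χ] at hker
      rcases (Nat.Prime.dvd_mul hp).1 hker with h | h
      · exact absurd h (hcon χ)
      · exact dvd_pow h two_ne_zero
    exact hK₀p ((Nat.dvd_add_left h3).1 (h1 ▸ hpG))
  · rintro ⟨χ, hχ⟩
    exact hχ.trans (cod_dvd_card χ)

end Cfsg.Agent.S4808
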