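import Cfsg.Statements.S4825
import Cfsg.Agent.Lib.Helper76.RelBlockCount
import Cfsg.Agent.Lib.Helper76.PSolvable

set_option autoImplicit false
open Cfsg Cfsg.Agent.Lib.Helper76 Cfsg.Agent.Lib.Helper78 Cfsg.Agent.Lib.Helper74

namespace Cfsg.Agent.S4825


theorem zmod2_sq' : ∀ x : ZMod 2, x ≠ 0 → x * x = 1 := by decide

theorem zmod3_sq' : ∀ x : ZMod 3, x ≠ 0 → x * x = 1 := by decide

/-- Let p be a prime, G a finite group with Sylow p-subgroup P, M a maximal ideal of the algebraic integers containing p, and B a p-block of G with defect group P. Let N be a normal subgroup of G not containing P and θ an irreducible character of N. Then the number of irreducible characters in B of degree prime to p lying over θ (having θ as a constituent on restriction to N) is either 0 or at least 2, and when p ≤ 3 it is divisible by p. -/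
theorem result {G : Type*} [Group G] [Fintype G] (p : ℕ) [Fact p.Prime] (P : Sylow p G) (M : Ideal Cfsg.AlgInt) (hM : Cfsg.IsPModular p M) (B : Set (Cfsg.IrrCharacter G)) (hB : Cfsg.IsPBlock M B) (hBP : Cfsg.IsDefectGroup p M B P) (N : Subgroup G) [N.Normal] [Fintype N] (hPN : ¬ (P : Subgroup G) ≤ N) (θ : Cfsg.IrrCharacter N) :
    (Nat.card {χ : Cfsg.IrrCharacter G // χ ∈ B ∧ ¬ p ∣ Cfsg.charDegree (χ : G → ℂ) ∧ Cfsg.classInner (fun n : N => (χ : G → ℂ) n) (θ : N → ℂ) ≠ 0} = 0 ∨
      2 ≤ Nat.card {χ : Cfsg.IrrCharacter G // χ ∈ B ∧ ¬ p ∣ Cfsg.charDegree (χ : G → ℂ) ∧ Cfsg.classInner (fun n : N => (χ : G → ℂ) n) (θ : N → ℂ) ≠ 0}) ∧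
    (p ≤ 3 → p ∣ Nat.card {χ : Cfsg.IrrCharacter G // χ ∈ B ∧ ¬ p ∣ Cfsg.charDegree (χ : G → ℂ) ∧ Cfsg.classInner (fun n : N => (χ : G → ℂ) n) (θ : N → ℂ) ≠ 0}) := by
  classical
  have hpp : p.Prime := Fact.out
  have hMp := pmod_isPrime hM
  -- p divides the index
  have hidx : p ∣ N.index := by
    by_contra hnd
    apply hPN
    exact Cfsg.Agent.Lib.Helper76.le_of_isPGroup_of_not_dvd_index N hnd (P : Subgroup G) P.2
  have hmex : ∀ χ : IrrCharacter G, ∃ m : ℕ,
      classInner (fun n : N => (χ : G → ℂ) n) (θ : N → ℂ) = m := fun χ =>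
    Cfsg.Agent.Lib.Helper15.inner_nat
      (Cfsg.Agent.Lib.Helper15.char_restrict (Cfsg.Agent.Lib.Helper15.irr_char χ.2) N)
      (Cfsg.Agent.Lib.Helper15.irr_char θ.2)
  choose m hm using hmex
  have hdvd := dvd_sum_block_over hM hB N θ hidx m hm
  obtain ⟨U, hU⟩ := exists_clifford_degree N θ
  set S : Finset (IrrCharacter G) := Finset.univ.filter (fun χ => χ ∈ B ∧
    ¬ p ∣ charDegree (χ : G → ℂ) ∧ classInner (fun n : N => (χ : G → ℂ) n) (θ : N → ℂ) ≠ 0) with hS
  have hcard : Nat.card {χ : IrrCharacter G // χ ∈ B ∧ ¬ p ∣ charDegree (χ : G → ℂ) ∧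
      classInner (fun n : N => (χ : G → ℂ) n) (θ : N → ℂ) ≠ 0} = S.card := by
    rw [Nat.card_eq_fintype_card, Fintype.card_subtype]
  rw [hcard]
  have hm0 : ∀ χ ∈ S, m χ ≠ 0 := by
    intro χ hχ h0
    have := (Finset.mem_filter.mp hχ).2.2.2
    rw [hm, h0] at this
    exact this (by simp)
  have hdeg : ∀ χ ∈ S, charDegree (χ : G → ℂ) = m χ * U := fun χ hχ =>
    hU χ (m χ) (hm χ) (hm0 χ hχ)
  have hmp : ∀ χ ∈ S, ¬ p ∣ m χ := by
    intro χ hχ hd
    apply (Finset.mem_filter.mp hχ).2.2.1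
    rw [hdeg χ hχ]
    exact Dvd.dvd.mul_right hd _
  -- the congruence
  have hsum : p ∣ (∑ χ ∈ S, m χ * m χ) * U := by
    have h1 : (∑ χ : IrrCharacter G, if χ ∈ B then m χ * charDegree (χ : G → ℂ) else 0) =
        (∑ χ ∈ S, m χ * m χ) * U + ∑ χ ∈ Finset.univ.filter (fun χ => χ ∉ S),
          (if χ ∈ B then m χ * charDegree (χ : G → ℂ) else 0) := by
      rw [← Finset.sum_filter_add_sum_filter_not Finset.univ (fun χ => χ ∈ S)]
      congr 1
      rw [Finset.sum_mul, Finset.filter_mem_eq_inter, Finset.univ_inter]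
      refine Finset.sum_congr rfl fun χ hχ => ?_
      rw [if_pos (Finset.mem_filter.mp hχ).2.1, hdeg χ hχ, mul_assoc]
    have h2 : p ∣ ∑ χ ∈ Finset.univ.filter (fun χ => χ ∉ S),
          (if χ ∈ B then m χ * charDegree (χ : G → ℂ) else 0) := by
      apply Finset.dvd_sum
      intro χ hχ
      have hχS := (Finset.mem_filter.mp hχ).2
      split_ifs with hχB
      · by_cases hd : p ∣ charDegree (χ : G → ℂ)
        · exact Dvd.dvd.mul_left hd _
        · have : m χ = 0 := by
            by_contra h0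
            apply hχS
            refine Finset.mem_filter.mpr ⟨Finset.mem_univ _, hχB, hd, ?_⟩
            rw [hm]
            exact_mod_cast h0
          rw [this, zero_mul]
          exact dvd_zero _
      · exact dvd_zero _
    rw [h1] at hdvd
    exact (Nat.dvd_add_left h2).mp hdvd
  by_cases hSe : S = ∅
  · rw [hSe]
    simp
  obtain ⟨χ₀, hχ₀⟩ := Finset.nonempty_iff_ne_empty.mpr hSe
  have hUp : ¬ p ∣ U := by
    intro hd
    apply (Finset.mem_filter.mp hχ₀).2.2.1
    rw [hdeg χ₀ hχ₀]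
    exact Dvd.dvd.mul_left hd _
  have hsum' : p ∣ ∑ χ ∈ S, m χ * m χ := (hpp.dvd_mul.mp hsum).resolve_right hUp
  constructor
  · right
    by_contra hlt
    have h1 : S.card = 1 := by
      have := Finset.card_pos.mpr ⟨χ₀, hχ₀⟩
      omega
    obtain ⟨χ, hχ⟩ := Finset.card_eq_one.mp h1
    rw [hχ, Finset.sum_singleton] at hsum'
    have hχS : χ ∈ S := by rw [hχ]; exact Finset.mem_singleton_self _
    rcases hpp.dvd_mul.mp hsum' with h | h <;> exact hmp χ hχS h
  · intro hp3
    have hp2 := hpp.two_le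
    have hcases : p = 2 ∨ p = 3 := by omega
    rw [← ZMod.natCast_eq_zero_iff] at hsum' ⊢
    push_cast at hsum'
    have hone : ∀ χ ∈ S, ((m χ : ZMod p)) * (m χ : ZMod p) = 1 := by
      intro χ hχ
      have hne : (m χ : ZMod p) ≠ 0 := by
        rw [Ne, ZMod.natCast_eq_zero_iff]
        exact hmp χ hχ
      rcases hcases with rfl | rfl
      · exact zmod2_sq' _ hne
      · exact zmod3_sq' _ hne
    rw [Finset.sum_congr rfl hone, Finset.sum_const, nsmul_eq_mul, mul_one] at hsum'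
    exact hsum'

end Cfsg.Agent.S4825
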