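import Cfsg.Statements.S4828
import Cfsg.Agent.Lib.Helper77.MaxChar
import Cfsg.Agent.S0968
import Cfsg.Agent.S0969
import Cfsg.Agent.S4657

set_option autoImplicit false
open Cfsg Cfsg.Agent.Lib.Helper77
open Cfsg

namespace Cfsg.Agent.S4828

/-- Let p be a prime, M a maximal ideal of the algebraic integers containing p, and (Q, e) a Brauer pair of the finite group G (Q a p-subgroup, e a block of C_G(Q)). Then (Q, e) is a maximal Brauer pair of some block of G if and only if e contains an irreducible character θ such that θ takes the value θ(1) at every element of Z(Q) = Q ∩ C_G(Q), the p-part of θ(1) times the p-part of the order of Z(Q) equals the p-part of the order of C_G(Q) (θ has defect zero as a character of C_G(Q)/Z(Q)), and every element of N_G(Q) of p-power order that stabilizes e lies in Q·C_G(Q) (the stabilizer of e in N_G(Q) has index prime to p over Q·C_G(Q)). -/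
theorem result {G : Type*} [Group G] [Finite G] (p : ℕ) [Fact p.Prime] (M : Ideal Cfsg.AlgInt) (hM : Cfsg.IsPModular p M) (Q : Subgroup G) (e : Set (Cfsg.IrrCharacter (Subgroup.centralizer (Q : Set G)))) (he : Cfsg.IsBrauerPair p M Q e) :
    (∃ B : Set (Cfsg.IrrCharacter G), Cfsg.IsMaximalBrauerPair p M B Q e) ↔
      ∃ θ ∈ e, (∀ z : Subgroup.centralizer (Q : Set G), (z : G) ∈ Q → (θ : Subgroup.centralizer (Q : Set G) → ℂ) z = (θ : Subgroup.centralizer (Q : Set G) → ℂ) 1) ∧
        (Cfsg.charDegree (θ : Subgroup.centralizer (Q : Set G) → ℂ)).factorization p + (Nat.card ↥(Q ⊓ Subgroup.centralizer (Q : Set G))).factorization p = (Nat.card (Subgroup.centralizer (Q : Set G))).factorization p ∧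
        (∀ g : G, g ∈ Subgroup.normalizer (Q : Set G) → Cfsg.StabilizesBlock (Subgroup.centralizer (Q : Set G)) e g → (∃ k : ℕ, orderOf g = p ^ k) → g ∈ Q ⊔ Subgroup.centralizer (Q : Set G)) := by
  classical
  haveI := Fintype.ofFinite G
  haveI : M.IsPrime := Cfsg.Agent.Lib.Helper78.pmod_isPrime hM
  have hMp : M.IsPrime := Cfsg.Agent.Lib.Helper78.pmod_isPrime hM
  have hp : p.Prime := hM.1
  set Z : Subgroup (Subgroup.centralizer (Q : Set G)) :=
    (Q ⊓ Subgroup.centralizer (Q : Set G)).subgroupOf (Subgroup.centralizer (Q : Set G)) with hZ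
  have hZmem : ∀ z : Subgroup.centralizer (Q : Set G), z ∈ Z ↔ (z : G) ∈ Q := by
    intro z
    rw [hZ, Subgroup.mem_subgroupOf, Subgroup.mem_inf]
    exact ⟨fun h => h.1, fun h => ⟨h, z.2⟩⟩
  have hZp : IsPGroup p Z := by
    have h1 : IsPGroup p ↥(Q ⊓ Subgroup.centralizer (Q : Set G)) := he.1.to_le inf_le_left
    exact h1.comap_subtype
  have hZc : Z ≤ Subgroup.center (Subgroup.centralizer (Q : Set G)) := by
    intro z hz
    rw [Subgroup.mem_center_iff]
    intro c
    apply Subtype.ext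
    exact ((Subgroup.mem_centralizer_iff.1 c.2) z ((hZmem z).1 hz)).symm
  have hZcard : Nat.card Z = Nat.card ↥(Q ⊓ Subgroup.centralizer (Q : Set G)) :=
    Cfsg.Agent.Lib.Helper85.card_subgroupOf_of_le inf_le_right
  have hfac : (Nat.card (Subgroup.centralizer (Q : Set G))).factorization p =
      (Nat.card ↥(Q ⊓ Subgroup.centralizer (Q : Set G))).factorization p +
        Z.index.factorization p := by
    rw [← Z.card_mul_index, Nat.factorization_mul Nat.card_pos.ne'
      Subgroup.index_ne_zero_of_finite, hZcard]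
    rfl
  have hpair : IsAPair p (toA M ⟨Q, e⟩) := isAPair_toA M he
  have hchar := isAMax_iff M hM hpair
  have hdefiff : Cfsg.IsDefectGroup p M e Z ↔
      IsDef p (Cen Q) (idem M (Cen Q) e) (Q ⊓ Cen Q) :=
    isDefectGroup_subgroupOf_iff M hM he.2 inf_le_right
  constructor
  · rintro ⟨B, hB⟩
    obtain ⟨-, hmx⟩ := (isMaximalBrauerPair_iff M hM B Q e).1 hB
    obtain ⟨hdef, hpel⟩ := hchar.1 hmx
    have hD : Cfsg.IsDefectGroup p M e Z := hdefiff.2 hdef
    have hcenZ : Subgroup.centralizer (Z : Set (Subgroup.centralizer (Q : Set G))) = ⊤ := by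
      rw [eq_top_iff]
      intro g _
      rw [Subgroup.mem_centralizer_iff]
      intro u hu
      exact (Subgroup.mem_center_iff.1 (hZc hu) g).symm
    obtain ⟨⟨θ, ⟨hθ, hθZ⟩, -⟩, hdeg, -⟩ :=
      Cfsg.Agent.S0968.result p M hM Z hZp (by rw [hcenZ, sup_top_eq]) e he.2 hD
    refine ⟨θ, hθ, fun z hz => hθZ z ((hZmem z).2 hz), ?_, ?_⟩
    · rw [hdeg θ hθ hθZ, hfac, add_comm]
    · intro g hgN hgst hgp
      exact hpel g ((mem_stabP_toA_iff M he.2).2 ⟨hgN, hgst⟩) hgp
  · rintro ⟨θ, hθ, -, hdeg, hpel⟩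
    obtain ⟨B, hB, -⟩ := Cfsg.Agent.S4657.result p M hM Q e he
    refine ⟨B, (isMaximalBrauerPair_iff M hM B Q e).2 ⟨hB, hchar.2 ⟨?_, ?_⟩⟩⟩
    · apply hdefiff.1
      have h1 := (Cfsg.Agent.S0969.result p M hM Z hZp hZc θ (by omega)).1
      rwa [← Cfsg.Agent.Lib.Helper78.IsPBlock.eq_blockOf hMp he.2 hθ] at h1
    · intro g hg hgp
      obtain ⟨h1, h2⟩ := (mem_stabP_toA_iff M he.2).1 hg
      exact hpel g h1 h2 hgp

end Cfsg.Agent.S4828
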