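import Cfsg.Statements.S4835
import Cfsg.Agent.Lib.Helper80.Gagola

set_option autoImplicit false
open Cfsg

namespace Cfsg.Agent.S4835

open Cfsg.Agent.Lib.Helper80

theorem result {G : Type*} [Group G] [Finite G] (hG : 2 < Nat.card G) (χ : Cfsg.IrrCharacter G) (hχ : Nat.card {C : ConjClasses G // ∃ g ∈ C.carrier, (χ : G → ℂ) g ≠ 0} = 2) :
    ∃ N : Subgroup G, N.Normal ∧ N ≠ ⊥ ∧ (∀ K : Subgroup G, K.Normal → K ≠ ⊥ → N ≤ K) ∧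
      (∃ p : ℕ, p.Prime ∧ Cfsg.IsElementaryAbelian p N) ∧
      (∀ g : G, (χ : G → ℂ) g ≠ 0 ↔ g ∈ N) ∧
      (∀ x ∈ N, ∀ y ∈ N, x ≠ 1 → y ≠ 1 → ∃ g : G, g * x * g⁻¹ = y) := by
  obtain ⟨g₀, hg₀, hsupp⟩ := gagola_exists_rep χ hχ
  obtain ⟨p, hp, hcomm, hexp⟩ := gagolaN_elementary χ hg₀ hsupp hG
  exact ⟨gagolaN χ, gagolaN_normal χ, gagolaN_ne_bot χ hg₀ hsupp hG,
    fun K hK hK1 => gagolaN_le χ hg₀ hsupp hG K hK hK1, ⟨p, hp, hcomm, hexp⟩,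
    fun g => (mem_gagolaN_iff χ hg₀ hsupp hG g).symm,
    fun x hx y hy hx1 hy1 => gagolaN_conj χ hg₀ hsupp hG x y hx hy hx1 hy1⟩

end Cfsg.Agent.S4835
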