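import Cfsg.Statements.S4836
import Cfsg.Agent.Lib.Helper80.Gagola

set_option autoImplicit false
open Cfsg

namespace Cfsg.Agent.S4836

open Cfsg.Agent.Lib.Helper80

theorem result {G : Type*} [Group G] [Finite G] (hG : 2 < Nat.card G) (χ : Cfsg.IrrCharacter G) (hχ : Nat.card {C : ConjClasses G // ∃ g ∈ C.carrier, (χ : G → ℂ) g ≠ 0} = 2) :
    (∀ g : G, (χ : G → ℂ) g = (χ : G → ℂ) 1 → g = 1) ∧
      (∀ ψ : Cfsg.IrrCharacter G, (∀ g : G, (ψ : G → ℂ) g = (ψ : G → ℂ) 1 → g = 1) → ψ = χ) ∧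
      (∀ ψ : Cfsg.IrrCharacter G, Nat.card {C : ConjClasses G // ∃ g ∈ C.carrier, (ψ : G → ℂ) g ≠ 0} = 2 → ψ = χ) := by
  obtain ⟨g₀, hg₀, hsupp⟩ := gagola_exists_rep χ hχ
  have huniq : ∀ ψ : Cfsg.IrrCharacter G,
      (∀ g : G, (ψ : G → ℂ) g = (ψ : G → ℂ) 1 → g = 1) → ψ = χ := by
    intro ψ hψ
    by_contra hne
    exact hg₀ (hψ g₀ (gagola_other_ker χ hg₀ hsupp hG ψ hne))
  refine ⟨gagola_faithful χ hg₀ hsupp hG, huniq, fun ψ hψ => ?_⟩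
  obtain ⟨g₁, hg₁, hsupp₁⟩ := gagola_exists_rep ψ hψ
  exact huniq ψ (gagola_faithful ψ hg₁ hsupp₁ hG)

end Cfsg.Agent.S4836
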