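import Cfsg.Statements.S4837
import Cfsg.Agent.Lib.Helper80.Gagola2
import Cfsg.Agent.Lib.Helper80.Induced
import Cfsg.Agent.S0193

set_option autoImplicit false
open Cfsg

namespace Cfsg.Agent.S4837

open Cfsg.Agent.Lib.Helper80 Cfsg.Agent.Lib.Helper74
open scoped ComplexConjugate

/-- The stabilizer of a function on a normal subgroup. -/
def stab {G : Type*} [Group G] (N : Subgroup G) [hN : N.Normal] (μ : N → ℂ) : Subgroup G where
  carrier := {g | ∀ h : N, μ ⟨g * h * g⁻¹, hN.conj_mem h h.2 g⟩ = μ h}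
  one_mem' := by
    intro h
    congr 1
    apply Subtype.ext
    simp
  mul_mem' := by
    intro a b ha hb h
    have h1 := ha ⟨b * h * b⁻¹, hN.conj_mem h h.2 b⟩
    rw [hb h] at h1
    rw [← h1]
    congr 1
    apply Subtype.ext
    simp [mul_assoc]
  inv_mem' := by
    intro a ha h
    have h1 := ha ⟨a⁻¹ * h * a⁻¹⁻¹, hN.conj_mem h h.2 a⁻¹⟩
    rw [← h1]
    congr 1
    apply Subtype.ext
    simp [mul_assoc]

theorem supp_of_mem {G : Type*} [Group G] [Finite G] (χ : IrrCharacter G) {g₀ : G}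
    (hsupp : ∀ x, (χ : G → ℂ) x ≠ 0 ↔ x = 1 ∨ IsConj g₀ x) {x : G} (hx : (χ : G → ℂ) x ≠ 0)
    (hx1 : x ≠ 1) : ∀ y, (χ : G → ℂ) y ≠ 0 ↔ y = 1 ∨ IsConj x y := by
  have h1 : IsConj g₀ x := ((hsupp x).1 hx).resolve_left hx1
  intro y
  rw [hsupp y]
  constructor
  · rintro (h | h)
    · exact Or.inl h
    · exact Or.inr (h1.symm.trans h)
  · rintro (h | h)
    · exact Or.inl h
    · exact Or.inr (h1.trans h)

theorem result {G : Type*} [Group G] [Finite G] (hG : 2 < Nat.card G) (χ : Cfsg.IrrCharacter G) (hχ : Nat.card {C : ConjClasses G // ∃ g ∈ C.carrier, (χ : G → ℂ) g ≠ 0} = 2) (p : ℕ) [Fact p.Prime] (N : Subgroup G) [N.Normal] (hN : ∀ g : G, g ∈ N ↔ (χ : G → ℂ) g ≠ 0) (hNp : IsPGroup p N) (hN1 : N ≠ ⊥) :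
    (∀ x ∈ N, x ≠ 1 → ∃ P : Sylow p G, Subgroup.centralizer ({x} : Set G) = P) ∧
      (∀ μ : Cfsg.IrrCharacter N, (μ : N → ℂ) ≠ (fun _ => (1 : ℂ)) → ∃ P : Sylow p G, ∀ g : G, g ∈ (P : Subgroup G) ↔ ∀ n n' : N, (n' : G) = g * n * g⁻¹ → (μ : N → ℂ) n' = (μ : N → ℂ) n) := by
  classical
  have : Fintype G := Fintype.ofFinite G
  have : Fintype N := Fintype.ofFinite N
  obtain ⟨g₀, hg₀, hsupp⟩ := gagola_exists_rep χ hχ
  have hcχ := isCharacter_of_irr χ.2
  constructor
  · intro x hx hx1
    have hs := supp_of_mem χ hsupp ((hN x).1 hx) hx1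
    have hcard := gagola_card_centralizer χ hx1 hs hG p N hN hNp
    exact ⟨Sylow.ofCard _ hcard, rfl⟩
  · intro μ hμ
    have hcμ := isCharacter_of_irr μ.2
    have hNcomm : ∀ a b : N, a * b = b * a := by
      obtain ⟨q, -, hcomm, -⟩ := gagolaN_elementary χ hg₀ hsupp hG
      have hNeq : N = gagolaN χ := by
        ext g; rw [hN, mem_gagolaN_iff χ hg₀ hsupp hG]
      intro a b
      have ha : (a : G) ∈ gagolaN χ := hNeq ▸ a.2
      have hb : (b : G) ∈ gagolaN χ := hNeq ▸ b.2
      have := (isMulCommutative_iff.1 hcomm) ⟨a, ha⟩ ⟨b, hb⟩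
      have h2 : (a : G) * b = b * a := congrArg Subtype.val this
      exact Subtype.ext h2
    have hμ1 : (μ : N → ℂ) 1 = 1 := char_one_eq_one_of_comm hNcomm μ
    set k := Nat.card {x : G // IsConj g₀ x} with hk
    set d := charDegree (χ : G → ℂ) with hd
    have hkpos : 0 < k := gagola_class_pos χ hg₀ hsupp
    have hkC : (k : ℂ) ≠ 0 := by exact_mod_cast hkpos.ne'
    have hNcard : Nat.card N = 1 + k := gagola_card_N χ hg₀ hsupp N hN
    have hval := gagola_val χ hg₀ hsupp hG
    rw [char_one_eq_charDegree hcχ] at hval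
    set v := (χ : G → ℂ) g₀ with hv
    -- sum of conj μ is zero
    have hsum0 : ∑ n : N, conj ((μ : N → ℂ) n) = 0 := by
      have hne : trivIrr N ≠ μ := by
        intro h; apply hμ; rw [← h]; rfl
      have h0 := classInner_irr_ne hne
      unfold classInner at h0
      have hc : ((Nat.card N : ℂ))⁻¹ ≠ 0 := by
        apply inv_ne_zero; exact_mod_cast Nat.card_pos.ne'
      have := (mul_eq_zero.1 h0).resolve_left hc
      simpa [trivIrr] using this
    -- the multiplicity of μ in χ_N
    have hmult : classInner (fun n : N => (χ : G → ℂ) n) (μ : N → ℂ) = (d : ℂ) / k := by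
      unfold classInner
      have h1 : ∀ n : N, (χ : G → ℂ) n * conj ((μ : N → ℂ) n) =
          v * conj ((μ : N → ℂ) n) + (if n = 1 then ((d : ℂ) - v) else 0) := by
        intro n
        by_cases hn : n = 1
        · subst hn
          rw [if_pos rfl, hμ1]
          simp only [Subgroup.coe_one, map_one, mul_one]
          rw [char_one_eq_charDegree hcχ]; ring
        · rw [if_neg hn, add_zero]
          have hn1 : (n : G) ≠ 1 := fun h => hn (Subtype.ext h)
          have hc := ((hsupp n).1 ((hN n).1 n.2)).resolve_left hn1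
          rw [← char_eq_of_isConj hcχ hc]
      rw [Finset.sum_congr rfl (fun n _ => h1 n), Finset.sum_add_distrib, ← Finset.mul_sum, hsum0,
        mul_zero, zero_add, Finset.sum_ite_eq' Finset.univ (1 : N), if_pos (Finset.mem_univ _),
        hNcard]
      have hv' : v = -(d : ℂ) / k := by
        field_simp
        linear_combination hval
      have h1k : ((1 + k : ℕ) : ℂ) ≠ 0 := by exact_mod_cast (by omega : 1 + k ≠ 0)
      rw [hv']
      push_cast at h1k ⊢
      field_simp
      ring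
    -- inner products of the induced character
    have hInd := Cfsg.Agent.Lib.Helper3.isCharacter_indFun N hcμ
    have hIndχ : classInner (indFun N (μ : N → ℂ)) (χ : G → ℂ) = (d : ℂ) / k := by
      rw [Cfsg.Agent.Lib.Helper3.frobenius_reciprocity _ _ (isClassFunction_of_char hcχ),
        ← classInner_conj_symm, hmult]
      simp
    have hIndψ : ∀ ψ : IrrCharacter G, ψ ≠ χ →
        classInner (indFun N (μ : N → ℂ)) (ψ : G → ℂ) = 0 := by
      intro ψ hψ
      rw [Cfsg.Agent.Lib.Helper3.frobenius_reciprocity _ _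
        (isClassFunction_of_char (isCharacter_of_irr ψ.2))]
      have h1 : (fun n : N => (ψ : G → ℂ) n) = (ψ : G → ℂ) 1 • (fun _ : N => (1 : ℂ)) := by
        funext n
        have hn : (n : G) ∈ gagolaN χ := (mem_gagolaN_iff χ hg₀ hsupp hG n).2 ((hN n).1 n.2)
        simp [(mem_gagolaN χ n).1 hn ψ hψ]
      rw [h1, classInner_smul_right]
      have hne : μ ≠ trivIrr N := by
        intro h; apply hμ; rw [h]; rfl
      have := classInner_irr_ne hne
      rw [show ((trivIrr N : IrrCharacter N) : N → ℂ) = fun _ => 1 from rfl] at this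
      rw [this, mul_zero]
    have hnorm : classInner (indFun N (μ : N → ℂ)) (indFun N (μ : N → ℂ)) = ((d : ℂ) / k) ^ 2 := by
      rw [Cfsg.Agent.Lib.Helper3.classInner_eq_sum_coeff (isClassFunction_of_char hInd),
        Finset.sum_eq_single χ]
      · rw [hIndχ, ← classInner_conj_symm, hIndχ]
        simp [sq]
      · intro ψ _ hψ
        rw [hIndψ ψ hψ, zero_mul]
      · intro h; exact absurd (Finset.mem_univ _) h
    have hS := Cfsg.Agent.S0193.result N (μ : N → ℂ) μ.2
    rw [hnorm, hNcard] at hS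
    have hT : Nat.card (stab N (μ : N → ℂ)) =
        Nat.card {g : G // ∀ h : N, (μ : N → ℂ) ⟨g * h * g⁻¹, ‹N.Normal›.conj_mem h h.2 g⟩ =
          (μ : N → ℂ) h} := rfl
    have hord := gagola_order χ hg₀ hsupp hG
    have hTk : k * Nat.card (stab N (μ : N → ℂ)) = Nat.card G := by
      rw [hT]
      have h1 : (k : ℂ) * ((k : ℂ) * (Nat.card {g : G // ∀ h : N, (μ : N → ℂ)
          ⟨g * h * g⁻¹, ‹N.Normal›.conj_mem h h.2 g⟩ = (μ : N → ℂ) h} : ℂ)) =
          (k : ℂ) * (Nat.card G : ℂ) := by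
        rw [← hS]
        have h2 : (k : ℂ) * (Nat.card G : ℂ) = (d : ℂ) ^ 2 * ((k : ℂ) + 1) := by exact_mod_cast hord
        rw [h2]
        push_cast
        field_simp
        ring
      have h3 := mul_left_cancel₀ hkC h1
      exact_mod_cast h3
    have hCk : k * Nat.card (Subgroup.centralizer ({g₀} : Set G)) = Nat.card G :=
      card_conj_mul_card_centralizer g₀
    have hTcard : Nat.card (stab N (μ : N → ℂ)) = p ^ (Nat.card G).factorization p := by
      rw [← gagola_card_centralizer χ hg₀ hsupp hG p N hN hNp]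
      exact Nat.eq_of_mul_eq_mul_left hkpos (hTk.trans hCk.symm)
    refine ⟨Sylow.ofCard _ hTcard, fun g => ?_⟩
    change g ∈ stab N (μ : N → ℂ) ↔ _
    constructor
    · intro hg n n' hn
      have := hg n
      rw [← this]
      have h2 : n' = ⟨g * n * g⁻¹, ‹N.Normal›.conj_mem n n.2 g⟩ := Subtype.ext hn
      rw [h2]
    · intro hg n
      exact hg n _ rfl

end Cfsg.Agent.S4837
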