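import Cfsg.Statements.S4838
import Cfsg.Agent.Lib.Helper80.Gagola2
import Cfsg.Agent.S4837

set_option autoImplicit false
open Cfsg

namespace Cfsg.Agent.S4838

open Cfsg.Agent.Lib.Helper80 Cfsg.Agent.Lib.Helper74
open scoped ComplexConjugate commutatorElement

section
variable {G : Type*} [Group G] [Finite G] (χ : IrrCharacter G) {g₀ : G} (hg₀ : g₀ ≠ 1)
  (hsupp : ∀ x, (χ : G → ℂ) x ≠ 0 ↔ x = 1 ∨ IsConj g₀ x)

include hg₀ hsupp

/-- Part (i): the Camina property in terms of centralizer orders. -/
theorem card_centralizer_quot (hG : 2 < Nat.card G) (N : Subgroup G) [N.Normal]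
    (hN : ∀ g : G, g ∈ N ↔ (χ : G → ℂ) g ≠ 0) (x : G) (hx : x ∉ N) :
    Nat.card (Subgroup.centralizer ({x} : Set G)) =
      Nat.card (Subgroup.centralizer ({(x : G ⧸ N)} : Set (G ⧸ N))) := by
  classical
  have hχx : (χ : G → ℂ) x = 0 := by
    by_contra h; exact hx ((hN x).2 h)
  have h1 := col_orth x x
  rw [if_pos (IsConj.refl _), ← Finset.sum_filter_add_sum_filter_not Finset.univ
    (fun ψ : IrrCharacter G => ∀ n ∈ N, (ψ : G → ℂ) n = (ψ : G → ℂ) 1), col_orth_quot N x x,
    if_pos (IsConj.refl _)] at h1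
  have h2 : ∑ ψ ∈ Finset.univ.filter
      (fun ψ : IrrCharacter G => ¬ ∀ n ∈ N, (ψ : G → ℂ) n = (ψ : G → ℂ) 1),
      (ψ : G → ℂ) x * conj ((ψ : G → ℂ) x) = 0 := by
    apply Finset.sum_eq_zero
    intro ψ hψ
    have hψ' := (Finset.mem_filter.1 hψ).2
    have : ψ = χ := by
      by_contra hne
      apply hψ'
      intro n hn
      have hn' : n ∈ gagolaN χ := (mem_gagolaN_iff χ hg₀ hsupp hG n).2 ((hN n).1 hn)
      exact (mem_gagolaN χ n).1 hn' ψ hne
    rw [this, hχx, zero_mul]
  rw [h2, add_zero] at h1
  exact_mod_cast h1.symm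

end

theorem result {G : Type*} [Group G] [Finite G] (hG : 2 < Nat.card G) (χ : Cfsg.IrrCharacter G) (hχ : Nat.card {C : ConjClasses G // ∃ g ∈ C.carrier, (χ : G → ℂ) g ≠ 0} = 2) (p : ℕ) [Fact p.Prime] (N : Subgroup G) [N.Normal] (hN : ∀ g : G, g ∈ N ↔ (χ : G → ℂ) g ≠ 0) (hNp : IsPGroup p N) (hN1 : N ≠ ⊥) (P : Sylow p G) :
    (∀ x : G, x ∉ N → Nat.card (Subgroup.centralizer ({x} : Set G)) = Nat.card (Subgroup.centralizer ({(x : G ⧸ N)} : Set (G ⧸ N)))) ∧
      ((Subgroup.center ↥(P : Subgroup G)).map (P : Subgroup G).subtype ≤ N ∧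
        ((Subgroup.center ↥(P : Subgroup G)).map (P : Subgroup G).subtype = N ↔ (P : Subgroup G).Normal)) ∧
      (∃ i : ℕ, Subgroup.upperCentralSeries ↥(P : Subgroup G) i = N.subgroupOf (P : Subgroup G)) := by
  classical
  have hp : p.Prime := Fact.out
  obtain ⟨g₀, hg₀, hsupp⟩ := gagola_exists_rep χ hχ
  have hi := card_centralizer_quot χ hg₀ hsupp hG N hN
  have hGpos : Nat.card G ≠ 0 := Nat.card_pos.ne'
  set e := (Nat.card G).factorization p with he
  have hPcard : Nat.card (P : Subgroup G) = p ^ e := P.card_eq_multiplicity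
  have hNP : N ≤ (P : Subgroup G) := hNp.le_sylow_of_normal P
  have hNeq : N = gagolaN χ := by
    ext g; rw [hN, mem_gagolaN_iff χ hg₀ hsupp hG]
  obtain ⟨b, hb⟩ := (IsPGroup.iff_card).1 hNp
  have hpN : p ∣ Nat.card N := by
    rw [hb]
    apply dvd_pow_self
    rintro rfl
    rw [pow_zero] at hb
    exact hN1 ((Subgroup.card_eq_one).1 hb)
  -- a `p`-subgroup `A` of the centralizer of an element outside `N` satisfies `|A| |N| ∣ |P|`
  have hkey : ∀ (x : G), x ∉ N → ∀ A : Subgroup G, A ≤ Subgroup.centralizer ({x} : Set G) →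
      IsPGroup p A → Nat.card A * Nat.card N ∣ Nat.card (P : Subgroup G) := by
    intro x hx A hA hAp
    have h1 : Nat.card A ∣ N.index := by
      refine (Subgroup.card_dvd_of_le hA).trans ?_
      rw [hi x hx]
      exact Subgroup.card_subgroup_dvd_card _
    have h2 : Nat.card A * Nat.card N ∣ Nat.card G := by
      rw [← Subgroup.index_mul_card N]
      exact Nat.mul_dvd_mul_right h1 _
    obtain ⟨a, ha⟩ := (IsPGroup.iff_card).1 hAp
    rw [ha, hb, ← pow_add] at h2 ⊢
    rw [hPcard]
    exact pow_dvd_pow p ((Nat.Prime.pow_dvd_iff_le_factorization hp hGpos).1 h2)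
  have hZN : (Subgroup.center ↥(P : Subgroup G)).map (P : Subgroup G).subtype ≤ N := by
    rintro _ ⟨z, hz, rfl⟩
    by_contra hzN
    have hPle : (P : Subgroup G) ≤ Subgroup.centralizer ({((P : Subgroup G).subtype z)} : Set G) := by
      intro y hy
      rw [Subgroup.mem_centralizer_singleton_iff]
      have := (Subgroup.mem_center_iff.1 hz) ⟨y, hy⟩
      exact congrArg Subtype.val this
    have h1 := hkey _ hzN P hPle P.2
    have h2 : Nat.card (P : Subgroup G) * Nat.card N ≤ Nat.card (P : Subgroup G) :=
      Nat.le_of_dvd Nat.card_pos h1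
    have h3 : 2 ≤ Nat.card N := (hp.two_le).trans (Nat.le_of_dvd Nat.card_pos hpN)
    have h4 : 0 < Nat.card (P : Subgroup G) := Nat.card_pos
    nlinarith
  refine ⟨hi, ⟨hZN, ?_⟩, ?_⟩
  · constructor
    · intro hZ
      obtain ⟨x, hx, hx1⟩ : ∃ x ∈ N, x ≠ 1 := by
        by_contra hcon
        push Not at hcon
        exact hN1 ((Subgroup.eq_bot_iff_forall N).2 hcon)
      have hPcent : (P : Subgroup G) ≤ Subgroup.centralizer (N : Set G) := by
        intro y hy
        rw [Subgroup.mem_centralizer_iff]
        intro n hn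
        have hn' : n ∈ (Subgroup.center ↥(P : Subgroup G)).map (P : Subgroup G).subtype := hZ ▸ hn
        obtain ⟨z, hz, rfl⟩ := hn'
        have := (Subgroup.mem_center_iff.1 hz) ⟨y, hy⟩
        exact (congrArg Subtype.val this).symm
      have hs := Cfsg.Agent.S4837.supp_of_mem χ hsupp ((hN x).1 hx) hx1
      have hcard := gagola_card_centralizer χ hx1 hs hG p N hN hNp
      have hle : Subgroup.centralizer (N : Set G) ≤ Subgroup.centralizer ({x} : Set G) :=
        Subgroup.centralizer_le (by simpa using hx)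
      have hEq : (P : Subgroup G) = Subgroup.centralizer ({x} : Set G) :=
        Subgroup.eq_of_le_of_card_ge (hPcent.trans hle) (by rw [hcard, hPcard])
      have hEq2 : (P : Subgroup G) = Subgroup.centralizer (N : Set G) :=
        le_antisymm hPcent (hEq ▸ hle)
      rw [hEq2]
      infer_instance
    · intro hPn
      apply le_antisymm hZN
      have hnt : Nontrivial (P : Subgroup G) := by
        rw [Subgroup.nontrivial_iff_ne_bot]
        rintro h
        rw [h] at hNP
        exact hN1 (le_bot_iff.1 hNP)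
      have hZ : Nontrivial (Subgroup.center ↥(P : Subgroup G)) := P.2.center_nontrivial
      have hZn : ((Subgroup.center ↥(P : Subgroup G)).map (P : Subgroup G).subtype).Normal :=
        inferInstance
      have hZ1 : (Subgroup.center ↥(P : Subgroup G)).map (P : Subgroup G).subtype ≠ ⊥ := by
        intro h
        rw [(Subgroup.map_eq_bot_iff_of_injective _ (Subgroup.subtype_injective _))] at h
        exact ((Subgroup.nontrivial_iff_ne_bot _).1 hZ) h
      rw [hNeq]
      exact gagolaN_le χ hg₀ hsupp hG _ hZn hZ1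
  · -- upper central series
    have hnil : Group.IsNilpotent (P : Subgroup G) := P.2.isNilpotent
    obtain ⟨n, hn⟩ := hnil.nilpotent'
    set N' := N.subgroupOf (P : Subgroup G) with hN'
    have hN'card : Nat.card N' = Nat.card N := by
      rw [hN']
      exact Nat.card_congr (Subgroup.subgroupOfEquivOfLe hNP).toEquiv
    by_cases hall : ∀ i, Subgroup.upperCentralSeries ↥(P : Subgroup G) i ≤ N'
    · refine ⟨n, le_antisymm (hall n) ?_⟩
      rw [hn]; exact le_top
    · push Not at hall
      have hex : ∃ j, ¬ Subgroup.upperCentralSeries ↥(P : Subgroup G) j ≤ N' := hall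
      set j := Nat.find hex with hj
      have hj1 : ¬ Subgroup.upperCentralSeries ↥(P : Subgroup G) j ≤ N' := Nat.find_spec hex
      have hj0 : j ≠ 0 := by
        intro h0
        rw [h0, Subgroup.upperCentralSeries_zero] at hj1
        exact hj1 bot_le
      obtain ⟨i, hi'⟩ := Nat.exists_eq_succ_of_ne_zero hj0
      have hile : Subgroup.upperCentralSeries ↥(P : Subgroup G) i ≤ N' := by
        by_contra hcon
        have := Nat.find_min' hex hcon
        omega
      refine ⟨i, Subgroup.eq_of_le_of_card_ge hile ?_⟩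
      rw [hi'] at hj1
      obtain ⟨z, hz, hzN⟩ := SetLike.not_le_iff_exists.1 hj1
      have hzN' : (z : G) ∉ N := fun h => hzN (Subgroup.mem_subgroupOf.2 h)
      rw [Nat.succ_eq_add_one, Subgroup.mem_upperCentralSeries_succ_iff] at hz
      -- class of z injects into Z_i
      have hcl : Nat.card {w : ↥(P : Subgroup G) // IsConj z w} ≤
          Nat.card (Subgroup.upperCentralSeries ↥(P : Subgroup G) i) := by
        apply Nat.card_le_card_of_injective
          (fun w : {w : ↥(P : Subgroup G) // IsConj z w} =>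
            (⟨w.1 * z⁻¹, by
              obtain ⟨y, hy⟩ := isConj_iff.1 w.2
              rw [← hy]
              have h1 := (Subgroup.upperCentralSeries ↥(P : Subgroup G) i).inv_mem (hz y)
              have h2 : (⁅z, y⁆)⁻¹ = y * z * y⁻¹ * z⁻¹ := by
                rw [commutatorElement_def]; group
              rwa [h2] at h1⟩ : Subgroup.upperCentralSeries ↥(P : Subgroup G) i))
        intro w₁ w₂ h
        have h1 : w₁.1 * z⁻¹ = w₂.1 * z⁻¹ := congrArg Subtype.val h
        exact Subtype.ext (mul_right_cancel h1)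
      have hcc := card_conj_mul_card_centralizer z
      set A := (Subgroup.centralizer ({z} : Set ↥(P : Subgroup G))).map (P : Subgroup G).subtype
        with hA
      have hAcard : Nat.card A = Nat.card (Subgroup.centralizer ({z} : Set ↥(P : Subgroup G))) :=
        Subgroup.card_map_of_injective (Subgroup.subtype_injective _)
      have hAle : A ≤ Subgroup.centralizer ({(z : G)} : Set G) := by
        rintro _ ⟨y, hy, rfl⟩
        rw [Subgroup.mem_centralizer_singleton_iff]
        have := Subgroup.mem_centralizer_singleton_iff.1 hy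
        exact congrArg Subtype.val this
      have hAp : IsPGroup p A := P.2.to_le (by
        rintro _ ⟨y, -, rfl⟩; exact y.2)
      have h1 := Nat.le_of_dvd Nat.card_pos (hkey z hzN' A hAle hAp)
      rw [hAcard, ← hcc] at h1
      have hpos : 0 < Nat.card (Subgroup.centralizer ({z} : Set ↥(P : Subgroup G))) := Nat.card_pos
      rw [hN'card]
      have h2 : Nat.card (Subgroup.centralizer ({z} : Set ↥(P : Subgroup G))) * Nat.card N ≤
          Nat.card (Subgroup.centralizer ({z} : Set ↥(P : Subgroup G))) *
            Nat.card (Subgroup.upperCentralSeries ↥(P : Subgroup G) i) := by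
        calc _ ≤ Nat.card {w : ↥(P : Subgroup G) // IsConj z w} *
              Nat.card (Subgroup.centralizer ({z} : Set ↥(P : Subgroup G))) := h1
          _ ≤ Nat.card (Subgroup.upperCentralSeries ↥(P : Subgroup G) i) *
              Nat.card (Subgroup.centralizer ({z} : Set ↥(P : Subgroup G))) :=
            Nat.mul_le_mul_right _ hcl
          _ = _ := by ring
      exact Nat.le_of_mul_le_mul_left h2 hpos

end Cfsg.Agent.S4838
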