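import Cfsg.Statements.S4845
import Cfsg.Agent.Lib.Helper77.GalConjP

set_option autoImplicit false
open Cfsg Cfsg.Agent.Lib.Helper77
open Cfsg

namespace Cfsg.Agent.S4845

/-- Let p be a prime and P a finite non-commutative p-group. Then every two irreducible characters of P of the same degree greater than 1 are Galois conjugate (one is obtained from the other by composing with g ↦ g^k for some k prime to the order of P) if and only if the centre of P is cyclic and the derived subgroup of P has order p. -/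
theorem result {P : Type*} [Group P] [Finite P] (p : ℕ) [Fact p.Prime] (hP : IsPGroup p P) (hna : ¬ IsMulCommutative P) :
    (∀ χ ψ : Cfsg.IrrCharacter P, Cfsg.charDegree (χ : P → ℂ) ≠ 1 → Cfsg.charDegree (χ : P → ℂ) = Cfsg.charDegree (ψ : P → ℂ) → ∃ k : ℕ, Nat.Coprime k (Nat.card P) ∧ ∀ g : P, (ψ : P → ℂ) g = (χ : P → ℂ) (g ^ k)) ↔
      (IsCyclic (Subgroup.center P) ∧ Nat.card (commutator P) = p) := by
  have hna' : ¬ ∀ a b : P, a * b = b * a := fun h => hna (isMulCommutative_iff.2 h)
  have hbridge : (∀ χ ψ : Cfsg.IrrCharacter P, Cfsg.charDegree (χ : P → ℂ) ≠ 1 →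
      Cfsg.charDegree (χ : P → ℂ) = Cfsg.charDegree (ψ : P → ℂ) →
      ∃ k : ℕ, Nat.Coprime k (Nat.card P) ∧ ∀ g : P, (ψ : P → ℂ) g = (χ : P → ℂ) (g ^ k)) ↔
      GalConjP.GC P := by
    constructor
    · intro h χ ψ hχ hψ h1 h2
      apply h ⟨χ, hχ⟩ ⟨ψ, hψ⟩
      · intro hd
        apply h1
        rw [Cfsg.Agent.Lib.Helper80.char_one_eq_charDegree (Cfsg.Agent.Lib.Helper15.irr_char hχ)]
        change Cfsg.charDegree χ = 1 at hd
        rw [hd]; simp
      · change Cfsg.charDegree χ = Cfsg.charDegree ψ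
        unfold Cfsg.charDegree
        rw [h2]
    · intro h χ ψ h1 h2
      apply h χ ψ χ.2 ψ.2
      · intro hd
        apply h1
        rw [Cfsg.Agent.Lib.Helper80.char_one_eq_charDegree (Cfsg.Agent.Lib.Helper15.irr_char χ.2)] at hd
        exact_mod_cast hd
      · rw [Cfsg.Agent.Lib.Helper80.char_one_eq_charDegree (Cfsg.Agent.Lib.Helper15.irr_char χ.2),
          Cfsg.Agent.Lib.Helper80.char_one_eq_charDegree (Cfsg.Agent.Lib.Helper15.irr_char ψ.2), h2]
  rw [hbridge]
  constructor
  · intro h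
    have hD := h.card_commutator hP hna'
    exact ⟨h.isCyclic_center hna' hD, hD⟩
  · rintro ⟨hcyc, hD⟩
    exact GalConjP.gc_of_cyclic hP hcyc hD

end Cfsg.Agent.S4845
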