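import Cfsg.Statements.S4866
import Cfsg.Agent.Lib.Helper81.BrauerPerm
import Cfsg.Agent.Lib.Helper95.FixCount

set_option autoImplicit false
open Cfsg

namespace Cfsg.Agent.S4866

open Cfsg.Agent.Lib.Helper74 Cfsg.Agent.Lib.Helper81
open scoped ComplexConjugate

theorem odd_trick {S : Type*} (a b : S → S) (hab : Function.Commute a b)
    (hb : Function.Involutive b) (m : ℕ) (hm : Odd m) (x : S) (hax : a^[m] x = x)
    (h : a (b x) = x) : b x = x ∧ a x = x := by
  have h1 : (a ∘ b)^[m] x = x := Function.iterate_fixed h m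
  rw [hab.comp_iterate, Function.comp_apply, hb.iterate_odd hm] at h1
  have h2 : a^[m] (b x) = b (a^[m] x) := (hab.iterate_left m) x
  rw [h2, hax] at h1
  exact ⟨h1, by rw [h1] at h; exact h⟩

variable {G : Type*} [Group G] (K : Subgroup G) [K.Normal]

/-- The twist of a function on `K` by `g : G`. -/
def tw (g : G) (f : K → ℂ) : K → ℂ := fun k => f (MulAut.conjNormal g⁻¹ k)

theorem tw_one (f : K → ℂ) : tw K 1 f = f := by
  funext k; simp [tw]

theorem tw_mul (g h : G) (f : K → ℂ) : tw K (g * h) f = tw K g (tw K h f) := by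
  funext k; simp [tw, mul_inv_rev, map_mul]

theorem tw_iterate (g : G) (n : ℕ) (f : K → ℂ) : (tw K g)^[n] f = tw K (g ^ n) f := by
  induction n generalizing f with
  | zero => simp [tw_one]
  | succ n ih => rw [Function.iterate_succ_apply, ih, pow_succ, tw_mul]

theorem tw_irr (g : G) {f : K → ℂ} (hf : Cfsg.IsIrrCharacter K f) :
    Cfsg.IsIrrCharacter K (tw K g f) :=
  IsIrrCharacter.comp_surjective hf (MulAut.conjNormal g⁻¹ : K ≃* K).toMonoidHom
    (MulAut.conjNormal g⁻¹ : K ≃* K).surjective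

theorem tw_of_mem {u : G} (hu : u ∈ K) {f : K → ℂ} (hf : Cfsg.IsClassFunction K f) :
    tw K u f = f := by
  funext k
  have : MulAut.conjNormal u⁻¹ k = (⟨u, hu⟩ : K)⁻¹ * k * ((⟨u, hu⟩ : K)⁻¹)⁻¹ := by
    ext; simp
  rw [tw, this, hf]

/-- The real irreducible characters of `K`. -/
abbrev X := {θ : Cfsg.IrrCharacter ↥K // (∀ k : ↥K, ((θ : ↥K → ℂ) k).im = 0)}

instance actX : MulAction G (X K) where
  smul g θ := ⟨⟨tw K g θ.1.1, tw_irr K g θ.1.2⟩, fun k => θ.2 _⟩
  one_smul θ := by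
    apply Subtype.ext; apply Subtype.ext
    exact tw_one K _
  mul_smul g h θ := by
    apply Subtype.ext; apply Subtype.ext
    exact tw_mul K g h _

theorem smul_coe (g : G) (θ : X K) : ((g • θ).1 : K → ℂ) = tw K g θ.1.1 := rfl

/-- The real elements of `K`. -/
abbrev Y := {x : ↥K // IsConj x x⁻¹}

instance actY : MulAction G (Y K) where
  smul g x := ⟨MulAut.conjNormal g x.1, by
    have := MonoidHom.map_isConj (MulAut.conjNormal g : K ≃* K).toMonoidHom x.2
    simpa using this⟩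
  one_smul x := by
    apply Subtype.ext; simp [HSMul.hSMul]
  mul_smul g h x := by
    apply Subtype.ext; simp [HSMul.hSMul]

theorem smulY_coe (g : G) (x : Y K) : ((g • x).1 : K) = MulAut.conjNormal g x.1 := rfl

theorem quotX_card :
    Nat.card (Quot (fun θ η : X K => ∃ g : G, ∀ k k' : ↥K, (k' : G) = g * (k : G) * g⁻¹ →
      (η.1 : ↥K → ℂ) k' = (θ.1 : ↥K → ℂ) k)) = Nat.card (MulAction.orbitRel.Quotient G (X K)) := by
  refine Nat.card_congr (Quot.congrRight fun θ η => ?_)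
  rw [(MulAction.orbitRel G (X K)).comm', MulAction.orbitRel_apply]
  constructor
  · rintro ⟨g, hg⟩
    refine ⟨g, ?_⟩
    apply Subtype.ext; apply Subtype.ext
    funext k'
    change tw K g θ.1.1 k' = η.1.1 k'
    rw [tw]
    refine (hg _ k' ?_).symm
    simp [mul_assoc]
  · rintro ⟨g, rfl⟩
    refine ⟨g, fun k k' hk => ?_⟩
    change tw K g θ.1.1 k' = θ.1.1 k
    have hkk : MulAut.conjNormal g⁻¹ k' = k := by
      ext
      simp [hk, mul_assoc]
    rw [tw, hkk]

theorem quotY_card :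
    Nat.card (Quot (fun x y : Y K => ∃ g : G, (y.1 : G) = g * x.1 * g⁻¹))
      = Nat.card (MulAction.orbitRel.Quotient G (Y K)) := by
  refine Nat.card_congr (Quot.congrRight fun x y => ?_)
  rw [(MulAction.orbitRel G (Y K)).comm', MulAction.orbitRel_apply]
  constructor
  · rintro ⟨g, hg⟩
    refine ⟨g, ?_⟩
    apply Subtype.ext; apply Subtype.ext
    change ((MulAut.conjNormal g x.1 : K) : G) = y.1
    rw [hg]; simp
  · rintro ⟨g, rfl⟩
    refine ⟨g, ?_⟩
    change ((MulAut.conjNormal g x.1 : K) : G) = _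
    simp

/-- The twisted conjugation map on irreducible characters. -/
noncomputable def sig [Finite G] (g : G) (θ : Cfsg.IrrCharacter K) : Cfsg.IrrCharacter K :=
  ⟨fun k => conj (tw K g θ.1 k), IsIrrCharacter.star (tw_irr K g θ.2)⟩

theorem fixedX_card [Finite G] (hodd : Odd K.index) (g : G) :
    Nat.card (MulAction.fixedBy (X K) g) = Nat.card {θ : Cfsg.IrrCharacter K // sig K g θ = θ} := by
  have key : ∀ θ : Cfsg.IrrCharacter K, sig K g θ = θ →
      (∀ k : ↥K, ((θ : ↥K → ℂ) k).im = 0) ∧ tw K g θ.1 = θ.1 := by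
    intro θ hθ
    have h := odd_trick (tw K g) (fun f k => conj (f k)) (fun f => rfl)
      (fun f => by funext k; simp) K.index hodd θ.1
      (by
        rw [tw_iterate]
        exact tw_of_mem K (K.pow_index_mem g)
          (IsCharacter.isClassFunction (IrrCharacter.isCharacter θ)))
      (congrArg Subtype.val hθ)
    exact ⟨fun k => Complex.conj_eq_iff_im.1 (congrFun h.1 k), h.2⟩
  refine Nat.card_congr ⟨fun θ => ⟨θ.1.1, ?_⟩, fun θ => ⟨⟨θ.1, ?_⟩, ?_⟩, ?_, ?_⟩
  · apply Subtype.ext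
    funext k
    have h1 : tw K g θ.1.1.1 = θ.1.1.1 := congrArg (fun z : X K => z.1.1) θ.2
    change conj (tw K g θ.1.1.1 k) = θ.1.1.1 k
    rw [h1]
    exact Complex.conj_eq_iff_im.2 (θ.1.2 k)
  · exact (key θ.1 θ.2).1
  · apply Subtype.ext; apply Subtype.ext
    exact (key θ.1 θ.2).2
  · intro θ; rfl
  · intro θ; rfl

open Classical in
theorem card_subtype_sum {α : Type*} [Fintype α] (p : α → Prop) :
    Nat.card {a // p a} = ∑ a : α, if p a then 1 else 0 := by
  rw [Nat.card_eq_fintype_card, Fintype.card_subtype, Finset.sum_boole]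
  simp

theorem sum_card_comm {α β : Type*} [Fintype α] [Fintype β] (p : α → β → Prop) :
    ∑ a : α, Nat.card {b // p a b} = ∑ b : β, Nat.card {a // p a b} := by
  simp only [card_subtype_sum]
  exact Finset.sum_comm

/-- An element of `K` inverted by some element of `G` is real in `K` (odd index). -/
theorem real_of_inverted (hodd : Odd K.index) (k : K) (h : G) (hh : h * (k : G) * h⁻¹ = (k : G)⁻¹) :
    IsConj k k⁻¹ := by
  obtain ⟨j, hj⟩ := hodd
  have h2 : Commute (h * h) (k : G) := by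
    have e : h * h * (k : G) * (h * h)⁻¹ = k := by
      calc h * h * (k : G) * (h * h)⁻¹ = h * (h * (k : G) * h⁻¹) * h⁻¹ := by group
        _ = h * (k : G)⁻¹ * h⁻¹ := by rw [hh]
        _ = (h * (k : G) * h⁻¹)⁻¹ := by group
        _ = k := by rw [hh, inv_inv]
    exact mul_inv_eq_iff_eq_mul.1 e
  have h3 : Commute ((h * h) ^ j) (k : G) := h2.pow_left j
  have hm : h ^ K.index = (h * h) ^ j * h := by
    rw [hj, pow_succ, pow_mul, pow_two]
  have hmem : (h * h) ^ j * h ∈ K := hm ▸ K.pow_index_mem h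
  rw [isConj_iff]
  refine ⟨⟨_, hmem⟩, ?_⟩
  ext
  simp only [Subgroup.coe_mul, Subgroup.coe_inv]
  calc (h * h) ^ j * h * (k : G) * ((h * h) ^ j * h)⁻¹
      = (h * h) ^ j * (h * (k : G) * h⁻¹) * ((h * h) ^ j)⁻¹ := by group
    _ = (h * h) ^ j * (k : G)⁻¹ * ((h * h) ^ j)⁻¹ := by rw [hh]
    _ = (k : G)⁻¹ := by
      rw [(h3.inv_right).eq]; group

theorem card_inverters (hodd : Odd K.index) (k : K) :
    Nat.card {h : G // h * (k : G) * h⁻¹ = (k : G)⁻¹} =
      Nat.card {g : G // IsConj k k⁻¹ ∧ MulAut.conjNormal g k = k} := by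
  by_cases hk : IsConj k k⁻¹
  · obtain ⟨t, ht⟩ := isConj_iff.1 hk
    have ht' : (t : G) * k * (t : G)⁻¹ = (k : G)⁻¹ := by
      have := congrArg (Subtype.val) ht
      simpa using this
    refine Nat.card_congr ⟨fun h => ⟨(t : G)⁻¹ * h.1, hk, ?_⟩, fun g => ⟨(t : G) * g.1, ?_⟩, ?_, ?_⟩
    · ext
      rw [MulAut.conjNormal_apply]
      calc (t : G)⁻¹ * h.1 * k * ((t : G)⁻¹ * h.1)⁻¹ = (t : G)⁻¹ * (h.1 * k * h.1⁻¹) * t := by group
        _ = (t : G)⁻¹ * ((t : G) * k * (t : G)⁻¹) * t := by rw [h.2, ht']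
        _ = k := by group
    · have hg : g.1 * (k : G) * g.1⁻¹ = k := by
        have := congrArg (Subtype.val) g.2.2
        rwa [MulAut.conjNormal_apply] at this
      calc (t : G) * g.1 * k * ((t : G) * g.1)⁻¹ = (t : G) * (g.1 * k * g.1⁻¹) * (t : G)⁻¹ := by group
        _ = (k : G)⁻¹ := by rw [hg, ht']
    · intro h; ext; simp
    · intro g; ext; simp
  · have e1 : IsEmpty {h : G // h * (k : G) * h⁻¹ = (k : G)⁻¹} :=
      ⟨fun h => hk (real_of_inverted K hodd k h.1 h.2)⟩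
    have e2 : IsEmpty {g : G // IsConj k k⁻¹ ∧ MulAut.conjNormal g k = k} :=
      ⟨fun g => hk g.2.1⟩
    rw [Nat.card_of_isEmpty, Nat.card_of_isEmpty]

theorem sum_fixedY [Fintype G] [Fintype K] :
    ∑ g : G, Nat.card (MulAction.fixedBy (Y K) g) =
      ∑ k : K, Nat.card {g : G // IsConj k k⁻¹ ∧ MulAut.conjNormal g k = k} := by
  rw [← sum_card_comm (fun (g : G) (k : K) => IsConj k k⁻¹ ∧ MulAut.conjNormal g k = k)]
  refine Finset.sum_congr rfl fun g _ => ?_
  refine Nat.card_congr ⟨fun x => ⟨x.1.1, x.1.2, congrArg Subtype.val x.2⟩,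
    fun k => ⟨⟨k.1, k.2.1⟩, Subtype.ext k.2.2⟩, fun x => rfl, fun k => rfl⟩

theorem sum_conjugators [Fintype G] [Fintype K] :
    ∑ g : G, ∑ k : K, Nat.card {u : K // u * k * u⁻¹ = (MulAut.conjNormal g⁻¹ k)⁻¹} =
      Nat.card K * ∑ k : K, Nat.card {h : G // h * (k : G) * h⁻¹ = (k : G)⁻¹} := by
  rw [Finset.sum_comm, Finset.mul_sum]
  refine Finset.sum_congr rfl fun k _ => ?_
  rw [sum_card_comm (fun (g : G) (u : K) => u * k * u⁻¹ = (MulAut.conjNormal g⁻¹ k)⁻¹)]
  have : ∀ u : K, Nat.card {g : G // u * k * u⁻¹ = (MulAut.conjNormal g⁻¹ k)⁻¹}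
      = Nat.card {h : G // h * (k : G) * h⁻¹ = (k : G)⁻¹} := by
    intro u
    refine Nat.card_congr ⟨fun g => ⟨g.1 * u, ?_⟩, fun h => ⟨h.1 * (u : G)⁻¹, ?_⟩, ?_, ?_⟩
    · have h1 : (u : G) * k * (u : G)⁻¹ = (g.1⁻¹ * k * g.1⁻¹⁻¹)⁻¹ := by
        have := congrArg Subtype.val g.2
        simpa using this
      calc g.1 * u * k * (g.1 * u)⁻¹ = g.1 * ((u : G) * k * (u : G)⁻¹) * g.1⁻¹ := by group
        _ = g.1 * (g.1⁻¹ * k * g.1⁻¹⁻¹)⁻¹ * g.1⁻¹ := by rw [h1]
        _ = (k : G)⁻¹ := by group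
    · ext
      simp only [Subgroup.coe_mul, Subgroup.coe_inv, MulAut.conjNormal_apply]
      have h1 := h.2
      calc (u : G) * k * (u : G)⁻¹ = (u : G) * ((h.1⁻¹ * (h.1 * k * h.1⁻¹) * h.1)) * (u : G)⁻¹ := by
            group
        _ = (u : G) * ((h.1⁻¹ * (k : G)⁻¹ * h.1)) * (u : G)⁻¹ := by rw [h1]
        _ = ((h.1 * (u : G)⁻¹)⁻¹ * k * (h.1 * (u : G)⁻¹)⁻¹⁻¹)⁻¹ := by group
    · intro g; ext; simp
    · intro h; ext; simp
  simp only [this]
  simp [Nat.card_eq_fintype_card]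

theorem card_sig_fixed [Finite G] [Fintype K] (g : G) :
    Nat.card K * Nat.card {θ : Cfsg.IrrCharacter K // sig K g θ = θ} =
      ∑ k : K, Nat.card {u : K // u * k * u⁻¹ = (MulAut.conjNormal g⁻¹ k)⁻¹} := by
  have h := card_fixed_irr (G := K) (fun k => (MulAut.conjNormal g⁻¹ k)⁻¹) (sig K g)
    (fun θ k => by
      change conj (θ.1 (MulAut.conjNormal g⁻¹ k)) = _
      rw [IsCharacter.inv (IrrCharacter.isCharacter θ)])
  have hc : (Nat.card K : ℂ) ≠ 0 := by exact_mod_cast (Nat.card_pos (α := K)).ne'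
  have h2 : ((Nat.card K * Nat.card {θ : Cfsg.IrrCharacter K // sig K g θ = θ} : ℕ) : ℂ) =
      ((∑ k : K, Nat.card {u : K // u * k * u⁻¹ = (MulAut.conjNormal g⁻¹ k)⁻¹} : ℕ) : ℂ) := by
    push_cast
    rw [h, ← mul_assoc, mul_inv_cancel₀ hc, one_mul]
  exact_mod_cast h2

/-- Let K be a normal subgroup of odd index in the finite group G. Then G has as many orbits on the real-valued irreducible complex characters of K (acting by conjugation) as it has orbits on the conjugacy classes of K that are real in K; equivalently, the number of G-orbits of real-valued irreducible characters of K equals the number of G-conjugacy classes of elements of K that are conjugate in K to their inverses. -/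
theorem result {G : Type*} [Group G] [Finite G] (K : Subgroup G) [K.Normal] (hodd : Odd K.index) : Nat.card (Quot (fun θ η : {θ : Cfsg.IrrCharacter ↥K // (∀ k : ↥K, ((θ : ↥K → ℂ) k).im = 0)} => ∃ g : G, ∀ k k' : ↥K, (k' : G) = g * (k : G) * g⁻¹ → (η.1 : ↥K → ℂ) k' = (θ.1 : ↥K → ℂ) k)) = Nat.card (Quot (fun x y : {x : ↥K // IsConj x x⁻¹} => ∃ g : G, (y.1 : G) = g * x.1 * g⁻¹)) := by
  have := Fintype.ofFinite G
  have := Fintype.ofFinite K
  rw [quotX_card K, quotY_card K]
  have hG : 0 < Nat.card G := Nat.card_pos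
  have hK : 0 < Nat.card K := Nat.card_pos
  apply Nat.eq_of_mul_eq_mul_right hG
  rw [← Cfsg.Agent.Lib.Helper95.sum_natCard_fixedBy G (X K),
    ← Cfsg.Agent.Lib.Helper95.sum_natCard_fixedBy G (Y K), sum_fixedY K]
  apply Nat.eq_of_mul_eq_mul_left hK
  rw [Finset.mul_sum]
  simp only [fixedX_card K hodd, card_sig_fixed K, ← card_inverters K hodd]
  exact sum_conjugators K

end Cfsg.Agent.S4866
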