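import Cfsg.Statements.S4870
import Cfsg.Agent.Lib.Helper80.MinNormalCount

set_option autoImplicit false
open Cfsg

namespace Cfsg.Agent.S4870

open Cfsg.Agent.Lib.Helper80 Cfsg.Agent.Lib.Helper15

/-- Let G be a finite group with a non-abelian minimal normal subgroup N, and let φ be an irreducible complex character of N with stabilizer I in G (the elements g with φ(g n g⁻¹) = φ(n) for all n ∈ N) such that φ extends to an irreducible character of I. Put d = φ(1)·[G : I]. Then the number of linear characters of G is at most [G : I] times the number of irreducible characters of G of degree d. -/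
theorem result {G : Type*} [Group G] [Finite G] (N : Subgroup G) (hN : N.Normal) (hN1 : N ≠ ⊥) (hmin : ∀ M : Subgroup G, M.Normal → M ≤ N → M = ⊥ ∨ M = N) (hna : ¬ IsMulCommutative ↥N) (φ : Cfsg.IrrCharacter ↥N) (I : Subgroup G) (hI : ∀ g : G, g ∈ I ↔ ∀ n n' : ↥N, (n' : G) = g * (n : G) * g⁻¹ → (φ : ↥N → ℂ) n' = (φ : ↥N → ℂ) n) (hNI : N ≤ I) (hext : ∃ ψ : Cfsg.IrrCharacter ↥I, ∀ n : ↥N, (ψ : ↥I → ℂ) (Subgroup.inclusion hNI n) = (φ : ↥N → ℂ) n) : Nat.card {χ : Cfsg.IrrCharacter G // Cfsg.charDegree (χ : G → ℂ) = 1} ≤ I.index * Nat.card {χ : Cfsg.IrrCharacter G // Cfsg.charDegree (χ : G → ℂ) = Cfsg.charDegree (φ : ↥N → ℂ) * I.index} := by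
  have := Fintype.ofFinite G
  obtain ⟨ψ, hψ⟩ := hext
  have hI' : ∀ g : G, g ∈ I ↔ cj N g (φ : ↥N → ℂ) = (φ : ↥N → ℂ) := by
    intro g
    rw [hI g, cj_eq_iff]
    constructor
    · intro h n
      exact h n _ rfl
    · intro h n n' hn
      rw [← h n]
      exact congrArg _ (Subtype.ext hn)
  have key := main_count φ.2 hI' hNI ψ.2 (funext hψ)
    (linear_trivial_on_minimal_normal N hN hmin hna) (fun _ => True) (fun _ => True)
    (fun _ _ _ _ _ => trivial)
  simp only [and_true] at key
  exact key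

end Cfsg.Agent.S4870
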