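import Mathlib
import Cfsg.Agent.Lib.Helper4.RealAvgB
import Cfsg.Statements.S4871

set_option autoImplicit false
open Cfsg

namespace Cfsg.Agent.S4871

/-- Let G be a finite group that is the semidirect product of a normal elementary abelian subgroup N of odd order by a non-trivial 2-subgroup P, with N the unique minimal normal subgroup of G. Consider the strongly real irreducible complex characters of G (Frobenius–Schur indicator +1) whose degree is 1 or even. Then their average degree is at least 4/3: four times their number is at most three times the sum of their degrees. -/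
theorem result {G : Type*} [Group G] [Finite G] (N P : Subgroup G) (hN : N.Normal) (q : ℕ) [Fact q.Prime] (hq : q ≠ 2) (hNel : Cfsg.IsElementaryAbelian q N) (hP : IsPGroup 2 ↥P) (hP1 : P ≠ ⊥) (hdisj : N ⊓ P = ⊥) (hprod : N ⊔ P = ⊤) (hmin : N ≠ ⊥ ∧ ∀ M : Subgroup G, M.Normal → M ≠ ⊥ → N ≤ M) : 4 * Nat.card {χ : Cfsg.IrrCharacter G // (Cfsg.charDegree (χ : G → ℂ) = 1 ∨ 2 ∣ Cfsg.charDegree (χ : G → ℂ)) ∧ (Nat.card G : ℂ)⁻¹ * ∑ᶠ g : G, (χ : G → ℂ) (g * g) = 1} ≤ 3 * (∑ᶠ χ : {χ : Cfsg.IrrCharacter G // (Cfsg.charDegree (χ : G → ℂ) = 1 ∨ 2 ∣ Cfsg.charDegree (χ : G → ℂ)) ∧ (Nat.card G : ℂ)⁻¹ * ∑ᶠ g : G, (χ : G → ℂ) (g * g) = 1}, Cfsg.charDegree (χ.1 : G → ℂ)) := by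
  classical
  have := Fintype.ofFinite G
  obtain ⟨hN1, hmin'⟩ := hmin
  obtain ⟨hNcomm, hNq⟩ := hNel
  have hNc : ∀ a ∈ N, ∀ b ∈ N, a * b = b * a := by
    intro a ha b hb
    have := hNcomm.is_comm.comm (⟨a, ha⟩ : N) ⟨b, hb⟩
    exact congrArg Subtype.val this
  have hqodd : Odd q := (Fact.out : q.Prime).odd_of_ne_two hq
  obtain ⟨z, hz, hzN⟩ := Lib.Helper4.RealAvg.exists_inverting N P hN hNc hP hP1 hdisj hprod hN1 hmin'
  obtain ⟨χ₀, h0, h01⟩ := Lib.Helper4.RealAvg.exists_nonlinear N P hN hP1 hdisj hprod hN1 hmin'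
  obtain ⟨-, hfs0⟩ := Lib.Helper4.RealAvg.mult_free N P hN hdisj hprod hz hzN χ₀ h0
  obtain ⟨d, hd⟩ : ∃ d, d = charDegree (χ₀ : G → ℂ) := ⟨_, rfl⟩
  have hχ₀c := Lib.Helper3.IsIrrCharacter.isCharacter χ₀.2
  -- `d` is even
  have hd2 : 2 ∣ d := by
    have := hN
    have h1 : d ∣ N.index := hd ▸ Lib.Helper76.charDegree_dvd_index_of_comm N hNc χ₀
    have hcompl : N.IsComplement' P := Lib.Helper4.RealAvg.bijective_mul N P hN hdisj hprod
    have h2 : N.index = Nat.card P := hcompl.symm.index_eq_card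
    obtain ⟨k, hk⟩ := IsPGroup.iff_card.1 hP
    rw [h2, hk] at h1
    obtain ⟨j, -, hj⟩ := (Nat.dvd_prime_pow Nat.prime_two).1 h1
    rcases j with _ | j
    · exfalso
      apply h01
      rw [Lib.Helper80.char_one_eq_charDegree hχ₀c, ← hd, hj]; simp
    · rw [hj]; exact Dvd.intro_left _ rfl
  have hdpos : 0 < d := hd ▸ Lib.Helper80.charDegree_pos_of_irr χ₀.2
  have hd2' : 2 ≤ d := Nat.le_of_dvd hdpos hd2
  -- the predicate
  have hpred : ∀ χ : IrrCharacter G,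
      ((Cfsg.charDegree (χ : G → ℂ) = 1 ∨ 2 ∣ Cfsg.charDegree (χ : G → ℂ)) ∧
        (Nat.card G : ℂ)⁻¹ * ∑ᶠ g : G, (χ : G → ℂ) (g * g) = 1) ↔
      ((Cfsg.charDegree (χ : G → ℂ) = 1 ∨ 2 ∣ Cfsg.charDegree (χ : G → ℂ)) ∧
        Lib.Helper74.fsInd (χ : G → ℂ) = 1) := by
    intro χ
    unfold Lib.Helper74.fsInd
    rw [finsum_eq_sum_of_fintype]
  let T : Finset (IrrCharacter G) := Finset.univ.filter fun χ =>
    ((Cfsg.charDegree (χ : G → ℂ) = 1 ∨ 2 ∣ Cfsg.charDegree (χ : G → ℂ)) ∧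
        (Nat.card G : ℂ)⁻¹ * ∑ᶠ g : G, (χ : G → ℂ) (g * g) = 1)
  have hT : ∀ χ, χ ∈ T ↔ ((Cfsg.charDegree (χ : G → ℂ) = 1 ∨ 2 ∣ Cfsg.charDegree (χ : G → ℂ)) ∧
        (Nat.card G : ℂ)⁻¹ * ∑ᶠ g : G, (χ : G → ℂ) (g * g) = 1) := by
    intro χ; simp [T]
  have hcard : Nat.card {χ : Cfsg.IrrCharacter G // (Cfsg.charDegree (χ : G → ℂ) = 1 ∨
      2 ∣ Cfsg.charDegree (χ : G → ℂ)) ∧
      (Nat.card G : ℂ)⁻¹ * ∑ᶠ g : G, (χ : G → ℂ) (g * g) = 1} = T.card := by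
    rw [Nat.card_eq_fintype_card, Fintype.card_subtype]
  have hsum : (∑ᶠ χ : {χ : Cfsg.IrrCharacter G // (Cfsg.charDegree (χ : G → ℂ) = 1 ∨
      2 ∣ Cfsg.charDegree (χ : G → ℂ)) ∧
      (Nat.card G : ℂ)⁻¹ * ∑ᶠ g : G, (χ : G → ℂ) (g * g) = 1},
      Cfsg.charDegree (χ.1 : G → ℂ)) = ∑ χ ∈ T, Cfsg.charDegree (χ : G → ℂ) := by
    rw [finsum_eq_sum_of_fintype]
    exact (Finset.sum_subtype T hT (fun χ => Cfsg.charDegree (χ : G → ℂ))).symm
  rw [hcard, hsum]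
  let TL : Finset (IrrCharacter G) := T.filter fun χ => Cfsg.charDegree (χ : G → ℂ) = 1
  let TE : Finset (IrrCharacter G) := T.filter fun χ => ¬ Cfsg.charDegree (χ : G → ℂ) = 1
  let Φ : IrrCharacter G → IrrCharacter G := fun l =>
    if h : IsIrrCharacter G ((l : G → ℂ) * (χ₀ : G → ℂ)) then ⟨_, h⟩ else χ₀
  have hTL : ∀ l ∈ TL, (l : G → ℂ) 1 = 1 ∧ (∀ g, (l : G → ℂ) (g * g) = 1) ∧
      ((Φ l : IrrCharacter G) : G → ℂ) = (l : G → ℂ) * (χ₀ : G → ℂ) := by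
    intro l hl
    obtain ⟨hlT, hl1⟩ := Finset.mem_filter.1 hl
    have hlc := Lib.Helper3.IsIrrCharacter.isCharacter l.2
    have h1 : (l : G → ℂ) 1 = 1 := by
      rw [Lib.Helper80.char_one_eq_charDegree hlc, hl1]; simp
    have hfs := ((hpred l).1 ((hT l).1 hlT)).2
    have hsq := Lib.Helper4.RealAvg.lin_sq hlc h1 hfs
    refine ⟨h1, hsq, ?_⟩
    have := Lib.Helper4.RealAvg.lin_mul_irr hlc h1 hsq χ₀.2
    simp only [Φ, dif_pos this]
  have hdegΦ : ∀ l ∈ TL, Cfsg.charDegree ((Φ l : IrrCharacter G) : G → ℂ) = d := by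
    intro l hl
    obtain ⟨h1, -, h3⟩ := hTL l hl
    rw [h3, hd]
    unfold Cfsg.charDegree
    simp [h1]
  let Im : Finset (IrrCharacter G) := TL.image Φ
  have hImd : ∀ ψ ∈ Im, Cfsg.charDegree (ψ : G → ℂ) = d := by
    intro ψ hψ
    obtain ⟨l, hl, rfl⟩ := Finset.mem_image.1 hψ
    exact hdegΦ l hl
  have hImTE : Im ⊆ TE := by
    intro ψ hψ
    have hdψ := hImd ψ hψ
    obtain ⟨l, hl, rfl⟩ := Finset.mem_image.1 hψ
    obtain ⟨h1, hsq, h3⟩ := hTL l hl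
    refine Finset.mem_filter.2 ⟨(hT _).2 ((hpred _).2 ⟨Or.inr (hdψ ▸ hd2), ?_⟩), by omega⟩
    rw [h3, Lib.Helper4.RealAvg.fsInd_lin_mul hsq, hfs0]
  have hfib : TL.card ≤ d * Im.card := by
    apply Finset.card_le_mul_card_image
    intro ψ hψ
    rw [← hImd ψ hψ]
    apply Lib.Helper4.RealAvg.fiber_le N P hN hprod hqodd hNq χ₀ ψ h0
    intro l hl
    obtain ⟨hlTL, hlψ⟩ := Finset.mem_filter.1 hl
    obtain ⟨h1, hsq, h3⟩ := hTL l hlTL
    exact ⟨h1, hsq, by rw [← h3, hlψ]⟩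
  have e1 : T.card = TL.card + TE.card :=
    (Finset.card_filter_add_card_filter_not _).symm
  have e2 : ∑ χ ∈ T, Cfsg.charDegree (χ : G → ℂ) = TL.card + ∑ χ ∈ TE, Cfsg.charDegree (χ : G → ℂ) := by
    rw [← Finset.sum_filter_add_sum_filter_not T (fun χ => Cfsg.charDegree (χ : G → ℂ) = 1)]
    congr 1
    rw [Finset.sum_congr rfl (fun χ hχ => (Finset.mem_filter.1 hχ).2)]
    simp [TL]
  have e3 : ∑ χ ∈ TE, Cfsg.charDegree (χ : G → ℂ) =
      ∑ χ ∈ TE \ Im, Cfsg.charDegree (χ : G → ℂ) + d * Im.card := by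
    rw [← Finset.sum_sdiff hImTE, Finset.sum_congr rfl hImd]
    simp [mul_comm]
  have e4 : TE.card = (TE \ Im).card + Im.card := by
    rw [Finset.card_sdiff_add_card_eq_card hImTE]
  have e5 : 2 * (TE \ Im).card ≤ ∑ χ ∈ TE \ Im, Cfsg.charDegree (χ : G → ℂ) := by
    rw [mul_comm, ← smul_eq_mul, ← Finset.sum_const]
    apply Finset.sum_le_sum
    intro χ hχ
    obtain ⟨hχT, hχ1⟩ := Finset.mem_filter.1 (Finset.mem_sdiff.1 hχ).1
    rcases ((hT χ).1 hχT).1 with h | h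
    · exact absurd h hχ1
    · exact Nat.le_of_dvd (Lib.Helper80.charDegree_pos_of_irr χ.2) h
  have e6 : 2 * Im.card ≤ d * Im.card := Nat.mul_le_mul_right _ hd2'
  rw [e1, e2, e3, e4]
  omega

end Cfsg.Agent.S4871
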