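import Mathlib
import Cfsg.Statements.S4872
import Cfsg.Agent.Lib.Helper74.Indicator
import Cfsg.Agent.Lib.Helper36.AltForm
import Cfsg.Agent.Lib.Helper76.OddIndexReal
import Cfsg.Agent.Lib.Helper78.DefectZero
import Cfsg.Agent.Lib.Helper80.Core
import Cfsg.Agent.S0165
import Cfsg.Agent.S0887

set_option autoImplicit false
set_option linter.style.haveILetI false
open Cfsg
open scoped ComplexConjugate

namespace Cfsg.Agent.S4872

open Cfsg.Agent.Lib.Helper74 Cfsg.Agent.Lib.Helper76 Cfsg.Agent.Lib.Helper78 Cfsg.Agent.Lib.Helper80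

/-- rank of an idempotent complex matrix is its trace -/
theorem rank_eq_of_idem {n : ℕ} (E : Matrix (Fin n) (Fin n) ℂ) (hE : E * E = E) (m : ℕ)
    (hm : E.trace = m) : E.rank = m := by
  have hproj : LinearMap.IsProj (LinearMap.range E.toLin') E.toLin' := by
    refine ⟨fun x => LinearMap.mem_range_self _ x, ?_⟩
    rintro _ ⟨y, rfl⟩
    rw [← LinearMap.comp_apply, ← Matrix.toLin'_mul, hE]
  have h1 := hproj.trace
  rw [Matrix.trace_toLin'_eq, hm] at h1
  have h2 : E.rank = Module.finrank ℂ (LinearMap.range E.toLin') := rfl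
  rw [h2]
  exact_mod_cast h1.symm

theorem even_mult_of_fs_neg_one {G : Type*} [Group G] [Fintype G] (χ : IrrCharacter G)
    (h : (Nat.card G : ℂ)⁻¹ * ∑ s : G, (χ : G → ℂ) (s * s) = -1) (P : Subgroup G) (m : ℕ)
    (hm : (Nat.card P : ℂ)⁻¹ * ∑ᶠ x : P, (χ : G → ℂ) x = m) : Even m := by
  classical
  haveI : Fintype P := Fintype.ofFinite P
  rw [finsum_eq_sum_of_fintype] at hm
  have hreal : ∀ g : G, ((χ : G → ℂ) g).im = 0 := by
    by_contra hcon
    push Not at hcon
    have h0 := (fsInd_eq_zero_iff χ).2 hcon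
    unfold fsInd at h0
    rw [h0] at h
    norm_num at h
  obtain ⟨n, ρ, hirr, hχ⟩ := χ.2
  haveI := hirr
  rw [← hχ] at hreal h hm
  obtain ⟨⟨M, hM0, hM⟩, hall⟩ := Cfsg.Agent.S4475.result n ρ hirr hreal
  have hMt : M.transpose = -M := by
    have := hall M hM
    rw [h] at this
    simpa using this
  have hinv : ∀ g : G, (LinearMap.toMatrix' (ρ g)).transpose * M = M * LinearMap.toMatrix' (ρ g⁻¹) := by
    intro g
    have h1 : LinearMap.toMatrix' (ρ g) * LinearMap.toMatrix' (ρ g⁻¹) = 1 := by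
      rw [← LinearMap.toMatrix'_mul, ← map_mul, mul_inv_cancel, map_one]
      simp
    calc (LinearMap.toMatrix' (ρ g)).transpose * M
        = (LinearMap.toMatrix' (ρ g)).transpose * M *
            (LinearMap.toMatrix' (ρ g) * LinearMap.toMatrix' (ρ g⁻¹)) := by rw [h1, mul_one]
      _ = ((LinearMap.toMatrix' (ρ g)).transpose * M * LinearMap.toMatrix' (ρ g)) *
            LinearMap.toMatrix' (ρ g⁻¹) := by simp only [Matrix.mul_assoc]
      _ = _ := by rw [hM g]
  have hunit : IsUnit M := by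
    refine Cfsg.Agent.S4475.isUnit_of_intertwine_right ρ M
      (fun g => (LinearMap.toMatrix' (ρ g⁻¹)).transpose) ?_ hM0
    intro g
    have := hinv g⁻¹
    rw [inv_inv] at this
    exact this.symm
  have hcP : (Nat.card P : ℂ) ≠ 0 := by exact_mod_cast Nat.card_pos.ne'
  obtain ⟨E, hEdef⟩ : ∃ E : Matrix (Fin n) (Fin n) ℂ,
      E = (Nat.card P : ℂ)⁻¹ • ∑ x : P, LinearMap.toMatrix' (ρ (x : G)) := ⟨_, rfl⟩
  have hmulE : ∀ y : P, LinearMap.toMatrix' (ρ (y : G)) * E = E := by
    intro y
    rw [hEdef, Matrix.mul_smul, Finset.mul_sum]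
    congr 1
    rw [← Equiv.sum_comp (Equiv.mulLeft y) (fun x : P => LinearMap.toMatrix' (ρ (x : G)))]
    refine Finset.sum_congr rfl fun x _ => ?_
    rw [← LinearMap.toMatrix'_mul, ← map_mul]
    rfl
  have hEE : E * E = E := by
    have h1 : E * E = ((Nat.card P : ℂ)⁻¹ • ∑ x : P, LinearMap.toMatrix' (ρ (x : G))) * E := by
      rw [← hEdef]
    rw [h1, Matrix.smul_mul, Finset.sum_mul, Finset.sum_congr rfl (fun y _ => hmulE y)]
    rw [Finset.sum_const, Finset.card_univ, ← Nat.card_eq_fintype_card, ← Nat.cast_smul_eq_nsmul ℂ,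
      smul_smul, inv_mul_cancel₀ hcP, one_smul]
  have htr : E.trace = m := by
    rw [hEdef, Matrix.trace_smul, Matrix.trace_sum, smul_eq_mul, ← hm]
    congr 1
    refine Finset.sum_congr rfl fun x _ => ?_
    rw [Representation.character, LinearMap.trace_eq_matrix_trace ℂ (Pi.basisFun ℂ (Fin n))]
    rfl
  have hrank : E.rank = m := rank_eq_of_idem E hEE m htr
  have hEM : E.transpose * M = M * E := by
    rw [hEdef, Matrix.transpose_smul, Matrix.transpose_sum, Matrix.smul_mul, Finset.sum_mul,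
      Matrix.mul_smul, Finset.mul_sum]
    congr 1
    simp_rw [hinv]
    rw [← Equiv.sum_comp (Equiv.inv P)]
    refine Finset.sum_congr rfl fun x _ => ?_
    simp
  have hA : (M * E).transpose = -(M * E) := by
    rw [Matrix.transpose_mul, hMt, Matrix.mul_neg, hEM]
  have halt : ∀ w : Fin n → ℂ, w ⬝ᵥ ((M * E).mulVec w) = 0 := by
    intro w
    have h1 : w ⬝ᵥ ((M * E).mulVec w) = w ⬝ᵥ ((M * E).transpose.mulVec w) := by
      rw [Matrix.mulVec_transpose, Matrix.dotProduct_mulVec, dotProduct_comm]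
    rw [hA, Matrix.neg_mulVec, dotProduct_neg] at h1
    have h2 : (2 : ℂ) * (w ⬝ᵥ ((M * E).mulVec w)) = 0 := by linear_combination h1
    simpa using h2
  have heven := Cfsg.Agent.Lib.Helper36.even_rank_of_alt_matrix (M * E) halt
  rw [Matrix.rank_mul_eq_right_of_isUnit_det M E ((Matrix.isUnit_iff_isUnit_det M).1 hunit),
    hrank] at heven
  exact heven

theorem mult_eq_one_of_odd {G : Type*} [Group G] [Fintype G] (N : Subgroup G) [N.Normal]
    [Fintype N] (h2 : IsPGroup 2 (G ⧸ N)) (χ : IrrCharacter G) (φ : IrrCharacter N) (e : ℕ)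
    (he : classInner (fun n : N => (χ : G → ℂ) n) (φ : N → ℂ) = e) (hodd : Odd e) : e = 1 := by
  classical
  have he0 : e ≠ 0 := by
    rintro rfl
    exact (Nat.not_odd_iff_even.2 Even.zero) hodd
  have h1 := clifford_degree_orbit N φ χ e he he0
  have hcon : classInner (fun n : N => (χ : G → ℂ) n) (φ : N → ℂ) ≠ 0 := by
    rw [he]; exact_mod_cast he0
  obtain ⟨hd, hdiv⟩ := Cfsg.Agent.S0887.result N (χ : G → ℂ) χ.2 (φ : N → ℂ) φ.2 hcon
    (charDegree (χ : G → ℂ)) (charDegree (φ : N → ℂ)) (irr_one_eq χ) (irr_one_eq φ)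
  have hdpos : 0 < charDegree (φ : N → ℂ) := IsIrrCharacter.charDegree_pos φ.2
  obtain ⟨j, hj⟩ := (IsPGroup.iff_card).1 h2
  have hidx : N.index = 2 ^ j := by rw [Subgroup.index_eq_card, hj]
  have hediv : e ∣ 2 ^ j := by
    rw [← hidx]
    refine dvd_trans ?_ hdiv
    rw [h1, ← mul_assoc, Nat.mul_div_cancel _ hdpos]
    exact dvd_mul_right _ _
  obtain ⟨i, -, hi⟩ := (Nat.dvd_prime_pow Nat.prime_two).1 hediv
  rcases i with _ | i
  · simpa using hi
  · exfalso
    rw [hi] at hodd
    exact (Nat.not_odd_iff_even.2 (by rw [pow_succ]; exact Even.mul_left even_two _) ) hodd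

/-- defect zero characters vanish on 2-singular elements -/
theorem vanish {N : Type*} [Group N] [Finite N] (φ : IrrCharacter N)
    (hdef : 2 ^ (Nat.card N).factorization 2 ∣ charDegree (φ : N → ℂ)) (x : N)
    (hx : 2 ∣ orderOf x) : (φ : N → ℂ) x = 0 := by
  obtain ⟨n, ρ, hirr, hχ⟩ := φ.2
  haveI := hirr
  have hc : Nat.card N ≠ 0 := Nat.card_pos.ne'
  have := Cfsg.Agent.S0165.result ρ 2 ((Nat.card N).factorization 2) Nat.prime_two
    (Nat.ordProj_dvd _ _) (Nat.pow_succ_factorization_not_dvd hc Nat.prime_two)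
    (by
      rw [← hχ, charDegree_rep] at hdef
      simpa using hdef) x hx
  rw [← hχ]; exact this

/-- the key sum identity -/
theorem key_sum {G : Type*} [Group G] [Fintype G] (N P : Subgroup G) [N.Normal] [Fintype N]
    [Fintype P] (hP : IsPGroup 2 P) (φ : N → ℂ)
    (hv : ∀ x : N, 2 ∣ orderOf x → φ x = 0) :
    ∑ χ : IrrCharacter G, classInner (fun n : N => (χ : G → ℂ) n) φ *
      conj (classInner (fun x : P => (χ : G → ℂ) x) (fun _ => (1 : ℂ)))
      = (Nat.card N : ℂ)⁻¹ * (Nat.card P : ℂ)⁻¹ * (conj (φ 1) * Nat.card G) := by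
  classical
  unfold classInner
  have h1 : ∀ χ : IrrCharacter G,
      ((Nat.card N : ℂ)⁻¹ * ∑ g : N, (χ : G → ℂ) g * conj (φ g)) *
        conj ((Nat.card P : ℂ)⁻¹ * ∑ g : P, (χ : G → ℂ) g * conj (1 : ℂ))
      = (Nat.card N : ℂ)⁻¹ * (Nat.card P : ℂ)⁻¹ *
        ∑ n : N, ∑ x : P, conj (φ n) * ((χ : G → ℂ) n * conj ((χ : G → ℂ) x)) := by
    intro χ
    rw [map_mul, map_inv₀, Complex.conj_natCast, map_sum]
    simp only [map_one, mul_one]
    rw [mul_mul_mul_comm, Finset.sum_mul_sum]
    congr 1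
    refine Finset.sum_congr rfl fun n _ => Finset.sum_congr rfl fun x _ => ?_
    ring
  simp_rw [h1]
  rw [← Finset.mul_sum]
  congr 1
  rw [Finset.sum_comm]
  have h2 : ∀ n : N, ∑ χ : IrrCharacter G, ∑ x : P,
      conj (φ n) * ((χ : G → ℂ) n * conj ((χ : G → ℂ) x))
      = if n = 1 then conj (φ 1) * Nat.card G else 0 := by
    intro n
    rw [Finset.sum_comm]
    simp_rw [← Finset.mul_sum, col_orth]
    split_ifs with hn
    · subst hn
      congr 1
      rw [Finset.sum_eq_single (1 : P)]
      · simp only [OneMemClass.coe_one, IsConj.refl, if_true]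
        congr 1
        have : Subgroup.centralizer ({(1 : G)} : Set G) = ⊤ := by
          ext y; simp [Subgroup.mem_centralizer_iff]
        rw [this]; simp
      · intro x _ hx
        rw [if_neg]
        intro hc
        apply hx
        have : (x : G) = 1 := by
          have := isConj_one_right.1 hc
          exact this
        exact Subtype.ext this
      · intro h; exact absurd (Finset.mem_univ _) h
    · by_cases hφ : φ n = 0
      · simp [hφ]
      · have : ∀ x : P, ¬ IsConj (n : G) (x : G) := by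
          intro x hc
          apply hφ
          apply hv
          have ho : orderOf n = orderOf x := by
            rw [← Subgroup.orderOf_coe, ← Subgroup.orderOf_coe]
            obtain ⟨c, hc⟩ := isConj_iff.1 hc
            rw [← hc]
            exact (MulEquiv.orderOf_eq (MulAut.conj c) (n : G)).symm
          obtain ⟨k, hk⟩ := hP x
          have hdvd : orderOf x ∣ 2 ^ k := orderOf_dvd_of_pow_eq_one hk
          obtain ⟨j, -, hj⟩ := (Nat.dvd_prime_pow Nat.prime_two).1 hdvd
          rw [ho, hj]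
          rcases j with _ | j
          · exfalso
            rw [pow_zero] at hj
            rw [hj, orderOf_eq_one_iff] at ho
            exact hn ho
          · exact dvd_pow_self 2 (Nat.succ_ne_zero j)
        apply mul_eq_zero_of_right
        apply Finset.sum_eq_zero
        intro x _
        exact if_neg (this x)
  simp_rw [h2]
  simp

/-- arithmetic: the value of the key sum is odd -/
theorem odd_of_key {cG cN cP d S j : ℕ} (hN0 : cN ≠ 0) (hG : cG = cN * 2 ^ j)
    (hP : cP = 2 ^ cG.factorization 2) (hd : 2 ^ cN.factorization 2 ∣ d) (hdN : d ∣ cN)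
    (hS : S * cN * cP = d * cG) : Odd S := by
  obtain ⟨d', rfl⟩ := hd
  have hfac : cG.factorization 2 = cN.factorization 2 + j := by
    rw [hG, Nat.factorization_mul hN0 (by positivity)]
    simp [Nat.Prime.factorization_pow Nat.prime_two]
  rw [hP, hfac, hG] at hS
  have hS' : S = d' := by
    have h2 : (0 : ℕ) < cN * 2 ^ (cN.factorization 2 + j) := by positivity
    apply Nat.eq_of_mul_eq_mul_right h2
    rw [pow_add] at hS ⊢
    nlinarith [hS]
  rw [hS']
  by_contra hodd
  rw [Nat.not_odd_iff_even] at hodd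
  obtain ⟨r, hr⟩ := hodd
  apply Nat.pow_succ_factorization_not_dvd hN0 Nat.prime_two
  refine dvd_trans ?_ hdN
  refine ⟨r, ?_⟩
  rw [hr, pow_succ]; ring

theorem result {G : Type*} [Group G] [Finite G] (N : Subgroup G) [N.Normal] (h2 : IsPGroup 2 (G ⧸ N)) (φ : Cfsg.IrrCharacter ↥N) (hdef : 2 ^ (Nat.card ↥N).factorization 2 ∣ Cfsg.charDegree (φ : ↥N → ℂ)) (hconj : ∃ g : G, ∀ n n' : ↥N, (n' : G) = g * (n : G) * g⁻¹ → (φ : ↥N → ℂ) n' = (starRingEnd ℂ) ((φ : ↥N → ℂ) n)) : ∃ χ : Cfsg.IrrCharacter G, (Nat.card G : ℂ)⁻¹ * ∑ᶠ g : G, (χ : G → ℂ) (g * g) = 1 ∧ (Nat.card ↥N : ℂ)⁻¹ * ∑ᶠ n : ↥N, (χ : G → ℂ) n * (starRingEnd ℂ) ((φ : ↥N → ℂ) n) = 1 := by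
  classical
  haveI := Fintype.ofFinite G
  haveI : Fintype N := Fintype.ofFinite N
  obtain ⟨P⟩ : Nonempty (Sylow 2 G) := inferInstance
  haveI : Fintype (P : Subgroup G) := Fintype.ofFinite _
  have he : ∀ χ : IrrCharacter G, ∃ e : ℕ,
      classInner (fun n : N => (χ : G → ℂ) n) (φ : N → ℂ) = e :=
    fun χ => IsCharacter.classInner_irr_nat (IsCharacter.restrict (IrrCharacter.isCharacter χ) N) φ
  choose e he using he
  have hm : ∀ χ : IrrCharacter G, ∃ m : ℕ,
      classInner (fun x : (P : Subgroup G) => (χ : G → ℂ) x) (fun _ => (1 : ℂ)) = m :=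
    fun χ => IsCharacter.classInner_irr_nat (IsCharacter.restrict (IrrCharacter.isCharacter χ) (P : Subgroup G))
      ⟨fun _ => 1, isIrrCharacter_one⟩
  choose m hm using hm
  -- the key sum
  have hkey := key_sum N (P : Subgroup G) P.isPGroup' (φ : N → ℂ) (vanish φ hdef)
  simp_rw [he, hm, Complex.conj_natCast] at hkey
  rw [irr_one_eq, Complex.conj_natCast] at hkey
  have hN0 : Nat.card N ≠ 0 := Nat.card_pos.ne'
  have hP0 : Nat.card (P : Subgroup G) ≠ 0 := Nat.card_pos.ne'
  have hS : (∑ χ : IrrCharacter G, e χ * m χ) * Nat.card N * Nat.card (P : Subgroup G)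
      = charDegree (φ : N → ℂ) * Nat.card G := by
    have hN0' : (Nat.card N : ℂ) ≠ 0 := by exact_mod_cast hN0
    have hP0' : (Nat.card (P : Subgroup G) : ℂ) ≠ 0 := by exact_mod_cast hP0
    have : ((∑ χ : IrrCharacter G, e χ * m χ : ℕ) : ℂ) * Nat.card N * Nat.card (P : Subgroup G)
        = charDegree (φ : N → ℂ) * Nat.card G := by
      push_cast
      rw [hkey]
      field_simp
    exact_mod_cast this
  obtain ⟨j, hj⟩ := (IsPGroup.iff_card).1 h2
  have hG : Nat.card G = Nat.card N * 2 ^ j := by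
    rw [← hj, mul_comm, ← Subgroup.index_eq_card, Subgroup.index_mul_card]
  have hodd : Odd (∑ χ : IrrCharacter G, e χ * m χ) :=
    odd_of_key hN0 hG (P.card_eq_multiplicity) hdef (irr_charDegree_dvd_card φ) hS
  -- invariance under complex conjugation
  have hmstar : ∀ χ, m (starIrr χ) = m χ := by
    intro χ
    have h : classInner (fun x : (P : Subgroup G) => ((starIrr χ : IrrCharacter G) : G → ℂ) x)
        (fun _ => (1 : ℂ)) = conj (classInner (fun x : (P : Subgroup G) => (χ : G → ℂ) x)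
        (fun _ => (1 : ℂ))) := by
      unfold classInner
      rw [map_mul, map_sum, map_inv₀, Complex.conj_natCast]
      congr 1
      refine Finset.sum_congr rfl fun x _ => ?_
      rw [map_mul]
      simp [starIrr]
    rw [hm, hm, Complex.conj_natCast] at h
    exact_mod_cast h
  obtain ⟨g, hg⟩ := hconj
  have hestar : ∀ χ, e (starIrr χ) = e χ := by
    intro χ
    let σ : N ≃ N :=
      { toFun := fun n => ⟨g * n * g⁻¹, (inferInstance : N.Normal).conj_mem n n.2 g⟩
        invFun := fun n => ⟨g⁻¹ * n * g, by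
          have := (inferInstance : N.Normal).conj_mem n n.2 g⁻¹
          simpa using this⟩
        left_inv := fun n => by
          apply Subtype.ext
          simp [mul_assoc]
        right_inv := fun n => by
          apply Subtype.ext
          simp [mul_assoc] }
    have hσφ : ∀ n : N, (φ : N → ℂ) (σ n) = conj ((φ : N → ℂ) n) := fun n => hg n (σ n) rfl
    have hσχ : ∀ n : N, (χ : G → ℂ) (σ n) = (χ : G → ℂ) n := fun n =>
      IsCharacter.isClassFunction (IrrCharacter.isCharacter χ) (n : G) g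
    have h1 : ∑ n : N, (χ : G → ℂ) n * conj ((φ : N → ℂ) n)
        = ∑ n : N, (χ : G → ℂ) n * (φ : N → ℂ) n := by
      rw [← Equiv.sum_comp σ (fun n : N => (χ : G → ℂ) n * (φ : N → ℂ) n)]
      refine Finset.sum_congr rfl fun n _ => ?_
      rw [hσφ, hσχ]
    have h : classInner (fun n : N => ((starIrr χ : IrrCharacter G) : G → ℂ) n) (φ : N → ℂ)
        = conj (classInner (fun n : N => (χ : G → ℂ) n) (φ : N → ℂ)) := by
      unfold classInner
      rw [h1, map_mul, map_sum, map_inv₀, Complex.conj_natCast]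
      congr 1
      refine Finset.sum_congr rfl fun x _ => ?_
      rw [map_mul]
      simp [starIrr]
    rw [he, he, Complex.conj_natCast] at h
    exact_mod_cast h
  -- a real character with odd multiplicities
  obtain ⟨χ, hχreal, hχodd⟩ : ∃ χ : IrrCharacter G, starIrr χ = χ ∧ Odd (e χ * m χ) := by
    by_contra hcon
    push Not at hcon
    have hz : ∑ χ : IrrCharacter G, ((e χ * m χ : ℕ) : ZMod 2) = 0 := by
      refine Finset.sum_involution (fun χ _ => starIrr χ) ?_ ?_ (fun _ _ => Finset.mem_univ _)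
        (fun χ _ => starIrr_starIrr χ)
      · intro χ _
        rw [hestar, hmstar]
        exact CharTwo.add_self_eq_zero _
      · intro χ _ hne hfix
        apply hne
        have := hcon χ hfix
        rw [Nat.not_odd_iff_even] at this
        exact (ZMod.natCast_eq_zero_iff_even).2 this
    rw [← Nat.cast_sum, ZMod.natCast_eq_zero_iff_even] at hz
    exact (Nat.not_even_iff_odd.2 hodd) hz
  have heodd : Odd (e χ) := (Nat.odd_mul.1 hχodd).1
  have hmodd : Odd (m χ) := (Nat.odd_mul.1 hχodd).2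
  have he1 : e χ = 1 := mult_eq_one_of_odd N h2 χ φ (e χ) (he χ) heodd
  refine ⟨χ, ?_, ?_⟩
  · rw [finsum_eq_sum_of_fintype]
    rcases fsInd_cases χ with h0 | h1 | hneg
    · exfalso
      obtain ⟨s, hs⟩ := (fsInd_eq_zero_iff χ).1 h0
      apply hs
      have := congrArg (fun ψ : IrrCharacter G => (ψ : G → ℂ) s) hχreal
      simp only [starIrr] at this
      exact Complex.conj_eq_iff_im.1 this
    · exact h1
    · exfalso
      have hE := even_mult_of_fs_neg_one χ hneg (P : Subgroup G) (m χ) (by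
        rw [finsum_eq_sum_of_fintype]
        have := hm χ
        unfold classInner at this
        simpa using this)
      exact (Nat.not_even_iff_odd.2 hmodd) hE
  · rw [finsum_eq_sum_of_fintype]
    have := he χ
    unfold classInner at this
    rw [this, he1]
    simp

end Cfsg.Agent.S4872
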