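import Cfsg.Statements.S4873
import Cfsg.Agent.Lib.Helper76.OddIndexReal

set_option autoImplicit false
open Cfsg Cfsg.Agent.Lib.Helper76 Cfsg.Agent.Lib.Helper74
open scoped ComplexConjugate

namespace Cfsg.Agent.S4873

/-- Let N be a normal subgroup of odd index in the finite group G. Then every irreducible complex character of N with Frobenius–Schur indicator +1 lies under exactly one irreducible character of G with Frobenius–Schur indicator +1. -/
theorem result {G : Type*} [Group G] [Finite G] (N : Subgroup G) [N.Normal] (hodd : Odd N.index) (φ : Cfsg.IrrCharacter ↥N) (hφ : (Nat.card ↥N : ℂ)⁻¹ * ∑ᶠ g : ↥N, (φ : ↥N → ℂ) (g * g) = 1) : ∃! χ : Cfsg.IrrCharacter G, (Nat.card G : ℂ)⁻¹ * ∑ᶠ g : G, (χ : G → ℂ) (g * g) = 1 ∧ (∑ᶠ n : ↥N, (χ : G → ℂ) n * (starRingEnd ℂ) ((φ : ↥N → ℂ) n)) ≠ 0 := by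
  classical
  let _ : Fintype G := Fintype.ofFinite G
  let _ : Fintype N := Fintype.ofFinite N
  simp only [finsum_eq_sum_of_fintype] at hφ ⊢
  have hG : (Nat.card G : ℂ) ≠ 0 := by exact_mod_cast Nat.card_pos.ne'
  have hN : (Nat.card N : ℂ) ≠ 0 := by exact_mod_cast Nat.card_pos.ne'
  have hφ' : ∑ n : N, (φ : N → ℂ) (n * n) = (Nat.card N : ℂ) := by
    rw [inv_mul_eq_iff_eq_mul₀ hN, mul_one] at hφ
    exact hφ
  have hover : ∀ χ : IrrCharacter G, (∑ n : N, (χ : G → ℂ) n * conj ((φ : N → ℂ) n)) ≠ 0 ↔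
      classInner (fun n : N => (χ : G → ℂ) n) (φ : N → ℂ) ≠ 0 := by
    intro χ
    unfold classInner
    rw [mul_ne_zero_iff]
    exact ⟨fun h => ⟨inv_ne_zero hN, h⟩, fun h => h.2⟩
  have hind : IsCharacter G (indFun N (φ : N → ℂ)) :=
    Cfsg.Agent.Lib.Helper15.char_indFun N (IrrCharacter.isCharacter φ)
  have hmex : ∀ χ : IrrCharacter G, ∃ m : ℕ, classInner (indFun N (φ : N → ℂ)) (χ : G → ℂ) = m :=
    fun χ => IsCharacter.classInner_irr_nat hind χ
  choose m hm using hmex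
  have hεex : ∀ χ : IrrCharacter G, ∃ ε : ℤ, ε ≤ 1 ∧
      ∑ g : G, (χ : G → ℂ) (g * g) = (ε : ℂ) * (Nat.card G : ℂ) := by
    intro χ
    rcases Cfsg.Agent.Lib.Helper81.IsIrrCharacter.frobSchur χ.2 with ⟨h, -⟩ | ⟨h | h, -⟩
    · exact ⟨0, by norm_num, by rw [h]; simp⟩
    · exact ⟨1, le_refl _, by rw [h, Nat.card_eq_fintype_card]; simp⟩
    · exact ⟨-1, by norm_num, by rw [h, Nat.card_eq_fintype_card]; simp⟩
  choose ε hε1 hε using hεex
  have hsum : ∑ χ : IrrCharacter G, (m χ : ℤ) * ε χ = 1 := by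
    have h1 := sum_sq_indFun N hodd (φ : N → ℂ)
    rw [hφ', ← Nat.cast_mul, N.index_mul_card] at h1
    have h2 : ∑ g : G, indFun N (φ : N → ℂ) (g * g) =
        ∑ χ : IrrCharacter G, (m χ : ℂ) * ((ε χ : ℂ) * (Nat.card G : ℂ)) := by
      have h3 : ∀ g : G, indFun N (φ : N → ℂ) (g * g) =
          ∑ χ : IrrCharacter G, (m χ : ℂ) * (χ : G → ℂ) (g * g) := by
        intro g
        have := congrFun (IsCharacter.eq_sum_classInner hind) (g * g)
        rw [Finset.sum_apply] at this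
        rw [this]
        refine Finset.sum_congr rfl fun χ _ => ?_
        rw [Pi.smul_apply, smul_eq_mul, hm]
      simp only [h3]
      rw [Finset.sum_comm]
      refine Finset.sum_congr rfl fun χ _ => ?_
      rw [← Finset.mul_sum, hε]
    rw [h2] at h1
    have h4 : ((∑ χ : IrrCharacter G, (m χ : ℤ) * ε χ : ℤ) : ℂ) * (Nat.card G : ℂ) =
        1 * (Nat.card G : ℂ) := by
      rw [one_mul]
      conv_rhs => rw [← h1]
      push_cast
      rw [Finset.sum_mul]
      refine Finset.sum_congr rfl fun χ _ => ?_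
      ring
    have h5 := mul_right_cancel₀ hG h4
    exact_mod_cast h5
  have hex : ∃ χ : IrrCharacter G, 0 < (m χ : ℤ) * ε χ := by
    by_contra hcon
    push Not at hcon
    have := Finset.sum_nonpos (fun χ (_ : χ ∈ Finset.univ) => hcon χ)
    rw [hsum] at this
    norm_num at this
  obtain ⟨χ, hχ⟩ := hex
  have hmpos : 0 < m χ := by
    rcases Nat.eq_zero_or_pos (m χ) with h | h
    · rw [h] at hχ; simp at hχ
    · exact h
  have hεχ : ε χ = 1 := by
    have h1 : 0 < ε χ := by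
      have : (0 : ℤ) < (m χ : ℤ) := by exact_mod_cast hmpos
      exact (mul_pos_iff_of_pos_left this).mp hχ
    have := hε1 χ
    omega
  have hmover : ∀ χ : IrrCharacter G, classInner (fun n : N => (χ : G → ℂ) n) (φ : N → ℂ) = m χ := by
    intro χ
    rw [← hm, Cfsg.Agent.Lib.Helper15.classInner_indFun_left N _ _
      (Cfsg.Agent.Lib.Helper15.irr_cf χ.2),
      Cfsg.Agent.Lib.Helper15.inner_comm_of_char (Cfsg.Agent.Lib.Helper15.irr_char φ.2)
        (Cfsg.Agent.Lib.Helper15.char_restrict (Cfsg.Agent.Lib.Helper15.irr_char χ.2) N)]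
  have hreal : ∀ ψ : IrrCharacter G, (Nat.card G : ℂ)⁻¹ * ∑ g : G, (ψ : G → ℂ) (g * g) = 1 →
      ∀ g, conj ((ψ : G → ℂ) g) = (ψ : G → ℂ) g := by
    intro ψ hψ g
    apply Complex.conj_eq_iff_im.mpr
    apply Cfsg.Agent.Lib.Helper81.IsIrrCharacter.real_of_sum_sq_ne_zero ψ.2
    intro h0
    rw [h0, mul_zero] at hψ
    exact zero_ne_one hψ
  have hχ1 : (Nat.card G : ℂ)⁻¹ * ∑ g : G, (χ : G → ℂ) (g * g) = 1 := by
    rw [hε, hεχ]
    simp
  refine ⟨χ, ⟨hχ1, ?_⟩, ?_⟩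
  · rw [hover, hmover]
    exact_mod_cast hmpos.ne'
  · rintro ψ ⟨hψ1, hψ2⟩
    rw [hover] at hψ2
    apply eq_of_over_of_defl_real N hodd φ ψ χ hψ2
    · rw [hmover]; exact_mod_cast hmpos.ne'
    · intro q
      unfold Cfsg.Agent.Lib.Helper80.defl
      rw [map_mul, map_inv₀, Complex.conj_natCast, map_sum]
      congr 1
      refine Finset.sum_congr rfl fun g _ => ?_
      show conj ((ψ : G → ℂ) g * conj ((χ : G → ℂ) g)) = (ψ : G → ℂ) g * conj ((χ : G → ℂ) g)
      rw [map_mul, Complex.conj_conj, hreal ψ hψ1, hreal χ hχ1]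

end Cfsg.Agent.S4873
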