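import Cfsg.Statements.S4888
import Mathlib
import Cfsg.Agent.Lib.Helper82.IsaacsSmith

set_option autoImplicit false
open Cfsg

namespace Cfsg.Agent.S4888

/-- Let G be a finite group, p a prime and M a maximal ideal of the algebraic integers containing p. Then all height-zero irreducible characters of the principal p-block of G (equivalently, all its characters of degree prime to p) have the same degree if and only if G has a normal p-complement. -/
theorem result {G : Type*} [Group G] [Finite G] (p : ℕ) [Fact p.Prime] (M : Ideal Cfsg.AlgInt) (hM : Cfsg.IsPModular p M) : (∃ d : ℕ, ∀ χ : Cfsg.IrrCharacter G, χ ∈ (Cfsg.principalBlock M G) → Cfsg.blockHeight p (Cfsg.principalBlock M G) (χ : G → ℂ) = 0 → Cfsg.charDegree (χ : G → ℂ) = d) ↔ Cfsg.HasNormalPComplement p G := by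
  have hp : p.Prime := Fact.out
  have hMp := Cfsg.Agent.Lib.Helper78.pmod_isPrime hM
  have htriv : Cfsg.charDegree ((Cfsg.Agent.Lib.Helper78.trivIrr G : Cfsg.IrrCharacter G) : G → ℂ) = 1 := by
    simp [Cfsg.charDegree, Cfsg.Agent.Lib.Helper78.trivIrr]
  have hinf : sInf ((fun χ : Cfsg.IrrCharacter G => (Cfsg.charDegree (χ : G → ℂ)).factorization p) ''
      (Cfsg.principalBlock M G)) = 0 := by
    rw [Nat.sInf_eq_zero]
    left
    refine ⟨Cfsg.Agent.Lib.Helper78.trivIrr G,
      Cfsg.Agent.Lib.Helper78.trivIrr_mem_principalBlock hMp, ?_⟩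
    simp [htriv]
  have hheight : ∀ χ : Cfsg.IrrCharacter G,
      Cfsg.blockHeight p (Cfsg.principalBlock M G) (χ : G → ℂ) = 0 ↔
        ¬ p ∣ Cfsg.charDegree (χ : G → ℂ) := by
    intro χ
    unfold Cfsg.blockHeight
    rw [hinf, Nat.sub_zero, Nat.factorization_eq_zero_iff]
    have h0 : Cfsg.charDegree (χ : G → ℂ) ≠ 0 :=
      (Cfsg.Agent.Lib.Helper80.charDegree_pos_of_irr χ.2).ne'
    constructor
    · rintro (h | h | h)
      · exact absurd hp h
      · exact h
      · exact absurd h h0
    · intro h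
      exact Or.inr (Or.inl h)
  constructor
  · rintro ⟨d, hd⟩
    have hd1 : d = 1 := by
      rw [← hd (Cfsg.Agent.Lib.Helper78.trivIrr G)
        (Cfsg.Agent.Lib.Helper78.trivIrr_mem_principalBlock hMp)
        ((hheight _).2 (by rw [htriv]; exact hp.one_lt.ne' ∘ Nat.dvd_one.1)), htriv]
    apply Cfsg.Agent.Lib.Helper82.hasNormalPComplement_of_linear hM
    intro χ hχ hnd
    rw [hd χ hχ ((hheight χ).2 hnd), hd1]
  · intro h
    refine ⟨1, fun χ hχ hh => ?_⟩
    exact Cfsg.Agent.Lib.Helper82.charDegree_eq_one_of_hasNormalPComplement hM h hχ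
      ((hheight χ).1 hh)

end Cfsg.Agent.S4888
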