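import Cfsg.Statements.S4911
import Cfsg.Agent.Lib.Helper15.RealGl

set_option autoImplicit false
open Cfsg
open Cfsg.Agent.Lib Cfsg.Agent.Lib.Helper15

namespace Cfsg.Agent.S4911

/-- Let P and K be subgroups of a finite group with P a p-group normalizing K and K of order prime to p. Then the number of P-invariant real-valued irreducible complex characters of K equals the number of conjugacy classes of K that are real (closed under inversion) and P-invariant. Moreover, if every real-valued irreducible character of K is P-invariant, then every real element of K (one conjugate in K to its inverse) is conjugate in K to an element centralized by P. -/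
theorem result {G : Type*} [Group G] [Finite G] (p : ℕ) [Fact p.Prime] (P K : Subgroup G) (hP : IsPGroup p ↥P) (hK : ¬ p ∣ Nat.card ↥K) (hPK : P ≤ Subgroup.normalizer (K : Set G)) : Nat.card {θ : Cfsg.IrrCharacter ↥K // (∀ k : ↥K, ((θ : ↥K → ℂ) k).im = 0) ∧ (∀ x ∈ P, ∀ k k' : ↥K, (k' : G) = x * (k : G) * x⁻¹ → (θ : ↥K → ℂ) k' = (θ : ↥K → ℂ) k)} = Nat.card {c : ConjClasses ↥K // (∀ k : ↥K, ConjClasses.mk k = c → IsConj k k⁻¹) ∧ ∀ k : ↥K, ConjClasses.mk k = c → ∀ x ∈ P, ∀ k' : ↥K, (k' : G) = x * (k : G) * x⁻¹ → ConjClasses.mk k' = c} ∧ ((∀ θ : Cfsg.IrrCharacter ↥K, (∀ k : ↥K, ((θ : ↥K → ℂ) k).im = 0) → (∀ x ∈ P, ∀ k k' : ↥K, (k' : G) = x * (k : G) * x⁻¹ → (θ : ↥K → ℂ) k' = (θ : ↥K → ℂ) k)) → ∀ k : ↥K, IsConj k k⁻¹ → ∃ k' : ↥K, IsConj k k' ∧ ∀ x ∈ P, x * (k' : G) * x⁻¹ = (k' : G)) := by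
  classical
  have hp : p.Prime := Fact.out
  have hnorm : ∀ s ∈ P, ∀ g ∈ K, s * g * s⁻¹ ∈ K :=
    fun s hs g hg => (Subgroup.mem_normalizer_iff.1 (hPK hs) g).1 hg
  have hcop : (Nat.card K).Coprime (Nat.card P) := by
    obtain ⟨n, hn⟩ := IsPGroup.iff_card.1 hP
    rw [hn]
    exact Nat.Coprime.pow_right n ((Nat.Prime.coprime_iff_not_dvd hp).2 hK).symm
  have hsolv : Group.IsSolvable P := by
    have := hP.isNilpotent
    infer_instance
  have e1 := card_real_inv_chars K P hnorm hcop p hp hP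
  have e2 := card_real_inv_classes K P hnorm hcop hsolv
  have e3 := Cfsg.Agent.S0160.result (G := ↥(K ⊓ Subgroup.centralizer (P : Set G)))
  have e4 : Nat.card {c : ConjClasses ↥K // (∀ k : ↥K, ConjClasses.mk k = c → IsConj k k⁻¹) ∧
      ∀ k : ↥K, ConjClasses.mk k = c → ∀ x ∈ P, ∀ k' : ↥K, (k' : G) = x * (k : G) * x⁻¹ →
        ConjClasses.mk k' = c}
      = Nat.card {c : ConjClasses ↥K // (∀ k : ↥K, ConjClasses.mk k = c → IsConj k k⁻¹) ∧
        ClsInv K P c} :=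
    Nat.card_congr (Equiv.subtypeEquivRight (fun c => and_congr Iff.rfl
      ⟨fun h s hs g g' hg' hg => h g hg s hs g' hg', fun h k hk x hx k' hk' => h x hx k k' hk' hk⟩))
  have part1 : Nat.card {θ : Cfsg.IrrCharacter ↥K // (∀ k : ↥K, ((θ : ↥K → ℂ) k).im = 0) ∧
      InvUnder K P θ}
      = Nat.card {c : ConjClasses ↥K // (∀ k : ↥K, ConjClasses.mk k = c → IsConj k k⁻¹) ∧
        ClsInv K P c} := e1.trans (e3.trans e2.symm)
  refine ⟨part1.trans e4.symm, ?_⟩
  intro hall k hk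
  have e5 : Nat.card {θ : Cfsg.IrrCharacter ↥K // (∀ k : ↥K, ((θ : ↥K → ℂ) k).im = 0) ∧
      InvUnder K P θ} = Nat.card {θ : Cfsg.IrrCharacter ↥K // ∀ k : ↥K, ((θ : ↥K → ℂ) k).im = 0} :=
    Nat.card_congr (Equiv.subtypeEquivRight (fun θ => ⟨fun h => h.1, fun h => ⟨h, hall θ h⟩⟩))
  have e6 := Cfsg.Agent.S0160.result (G := ↥K)
  have e7 : Nat.card {c : ConjClasses ↥K // ∀ k : ↥K, ConjClasses.mk k = c → IsConj k k⁻¹}
      = Nat.card {c : ConjClasses ↥K // (∀ k : ↥K, ConjClasses.mk k = c → IsConj k k⁻¹) ∧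
        ClsInv K P c} := by
    rw [← e6, ← e5, part1]
  have hbij : Function.Bijective (fun c : {c : ConjClasses ↥K //
      (∀ k : ↥K, ConjClasses.mk k = c → IsConj k k⁻¹) ∧ ClsInv K P c} =>
      (⟨c.1, c.2.1⟩ : {c : ConjClasses ↥K // ∀ k : ↥K, ConjClasses.mk k = c → IsConj k k⁻¹})) := by
    apply Function.Injective.bijective_of_nat_card_le
    · intro c c' h
      apply Subtype.ext
      exact congrArg (fun z : {c : ConjClasses ↥K //
        ∀ k : ↥K, ConjClasses.mk k = c → IsConj k k⁻¹} => z.1) h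
    · exact e7.le
  have hreal : ∀ k' : ↥K, ConjClasses.mk k' = ConjClasses.mk k → IsConj k' k'⁻¹ := by
    intro k' hk'
    have h1 : IsConj k' k := ConjClasses.mk_eq_mk_iff_isConj.1 hk'
    have h3 : IsConj k⁻¹ k'⁻¹ := by
      obtain ⟨y, hy⟩ := isConj_iff.1 h1.symm
      rw [isConj_iff]
      exact ⟨y, by rw [← hy]; group⟩
    exact (h1.trans hk).trans h3
  obtain ⟨⟨c, hc1, hc2⟩, hc⟩ := hbij.2 ⟨ConjClasses.mk k, hreal⟩
  have hc' : c = ConjClasses.mk k := congrArg Subtype.val hc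
  subst hc'
  obtain ⟨x, hx, hxc⟩ := (cls_glauberman K P hnorm hcop hsolv _ hc2).1
  refine ⟨x, (ConjClasses.mk_eq_mk_iff_isConj.1 hx).symm, ?_⟩
  intro s hs
  rw [(Subgroup.mem_centralizer_iff.1 hxc) s hs, mul_inv_cancel_right]

end Cfsg.Agent.S4911
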