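import Cfsg.Statements.S4912
import Cfsg.Agent.Lib.Helper80.MinNormalCount
import Cfsg.Agent.Lib.Helper80.IndMat
import Cfsg.Agent.S4474
import Cfsg.Agent.Lib.Helper25.CyclicTI

set_option autoImplicit false
open Cfsg

namespace Cfsg.Agent.S4912

open Cfsg.Agent.Lib.Helper80 Cfsg.Agent.Lib.Helper15

/-- an irreducible character induced from a character with indicator `1` has indicator `1`. -/
theorem indicator_ind {G : Type*} [Group G] [Fintype G] (I : Subgroup G) [Fintype I]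
    (ψ : IrrCharacter I) (hν : (Nat.card ↥I : ℂ)⁻¹ * ∑ g : ↥I, (ψ : ↥I → ℂ) (g * g) = 1)
    (χ : IrrCharacter G) (hχ : (χ : G → ℂ) = indFun I (ψ : I → ℂ)) :
    (Nat.card G : ℂ)⁻¹ * ∑ g : G, (χ : G → ℂ) (g * g) = 1 := by
  obtain ⟨n, ρ, hρ⟩ := (Cfsg.Agent.S4474.result ψ).1 hν
  obtain ⟨m, σ, hσ⟩ := exists_real_rep_ind I n ρ
  refine (Cfsg.Agent.S4474.result χ).2 ⟨m, σ, fun g => ?_⟩
  rw [hσ, hχ]
  congr 1
  funext h
  exact hρ h

/-- a linear character with indicator `1` has square `1`. -/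
theorem linear_sq {G : Type*} [Group G] [Fintype G] (l : IrrCharacter G) (h1 : (l : G → ℂ) 1 = 1)
    (hν : (Nat.card G : ℂ)⁻¹ * ∑ g : G, (l : G → ℂ) (g * g) = 1) (g : G) :
    (l : G → ℂ) (g * g) = 1 := by
  classical
  obtain ⟨f, hf⟩ := exists_hom_of_degree_one (irr_char l.2) h1
  have h2 := Cfsg.Agent.Lib.Helper25.classInner_linFun (f * f) 1
  have h3 : classInner (Cfsg.Agent.Lib.Helper25.linFun (f * f)) (Cfsg.Agent.Lib.Helper25.linFun 1) = 1 := by
    rw [← hν]
    unfold classInner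
    congr 1
    apply Finset.sum_congr rfl
    intro x _
    rw [hf]
    simp [Cfsg.Agent.Lib.Helper25.linFun]
  rw [h3] at h2
  have h4 : f * f = 1 := by
    by_contra hne
    rw [if_neg hne] at h2
    exact one_ne_zero h2
  rw [hf, map_mul]
  have := congrArg (fun w : G →* ℂˣ => ((w g : ℂˣ) : ℂ)) h4
  simpa using this

/-- Let G be a finite group with a non-abelian minimal normal subgroup N, and let φ be an irreducible complex character of N with stabilizer I in G such that φ extends to an irreducible character of I with Frobenius–Schur indicator +1. Put d = φ(1)·[G : I]. Then the number of linear characters of G with Frobenius–Schur indicator +1 is at most [G : I] times the number of irreducible characters of G of degree d with Frobenius–Schur indicator +1. -/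
theorem result {G : Type*} [Group G] [Finite G] (N : Subgroup G) (hN : N.Normal) (hN1 : N ≠ ⊥) (hmin : ∀ M : Subgroup G, M.Normal → M ≤ N → M = ⊥ ∨ M = N) (hna : ¬ IsMulCommutative ↥N) (φ : Cfsg.IrrCharacter ↥N) (I : Subgroup G) (hI : ∀ g : G, g ∈ I ↔ ∀ n n' : ↥N, (n' : G) = g * (n : G) * g⁻¹ → (φ : ↥N → ℂ) n' = (φ : ↥N → ℂ) n) (hNI : N ≤ I) (hext : ∃ ψ : Cfsg.IrrCharacter ↥I, (Nat.card ↥I : ℂ)⁻¹ * ∑ᶠ g : ↥I, (ψ : ↥I → ℂ) (g * g) = 1 ∧ ∀ n : ↥N, (ψ : ↥I → ℂ) (Subgroup.inclusion hNI n) = (φ : ↥N → ℂ) n) : Nat.card {χ : Cfsg.IrrCharacter G // Cfsg.charDegree (χ : G → ℂ) = 1 ∧ (Nat.card G : ℂ)⁻¹ * ∑ᶠ g : G, (χ : G → ℂ) (g * g) = 1} ≤ I.index * Nat.card {χ : Cfsg.IrrCharacter G // Cfsg.charDegree (χ : G → ℂ) = Cfsg.charDegree (φ : ↥N → ℂ) * I.index ∧ (Nat.card G : ℂ)⁻¹ * ∑ᶠ g : G, (χ : G → ℂ) (g * g) = 1} := by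
  have := Fintype.ofFinite G
  have := Fintype.ofFinite I
  obtain ⟨ψ, hν, hψ⟩ := hext
  rw [finsum_eq_sum_of_fintype] at hν
  have hI' : ∀ g : G, g ∈ I ↔ cj N g (φ : ↥N → ℂ) = (φ : ↥N → ℂ) := by
    intro g
    rw [hI g, cj_eq_iff]
    constructor
    · intro h n
      exact h n _ rfl
    · intro h n n' hn
      rw [← h n]
      exact congrArg _ (Subtype.ext hn)
  have hperf := linear_trivial_on_minimal_normal N hN hmin hna
  -- the induced character `ψ^G`
  have h0 : IsIrrCharacter G (indFun I (ψ : I → ℂ)) := by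
    have := irr_ind_linear_mul φ.2 hI' hNI ψ.2 (funext hψ) (l := fun _ => 1) irr_one rfl
      (fun _ _ => rfl)
    convert this using 2
    funext x
    simp
  have hν0 := indicator_ind I ψ hν ⟨_, h0⟩ rfl
  refine main_count φ.2 hI' hNI ψ.2 (funext hψ) hperf _ _ ?_
  intro l hl1 hlν χ hχ
  rw [finsum_eq_sum_of_fintype] at hlν ⊢
  have hl1' : (l : G → ℂ) 1 = 1 := by
    rw [char_one_eq_charDegree (irr_char l.2), hl1, Nat.cast_one]
  rw [← hν0]
  congr 1
  apply Finset.sum_congr rfl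
  intro g _
  rw [hχ, mul_comm, indFun_mul_restrict I _ (irr_cf l.2), Pi.mul_apply, linear_sq l hl1' hlν g, mul_one]

end Cfsg.Agent.S4912
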