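import Cfsg.Statements.S4916
import Mathlib
import Cfsg.Agent.S0913
import Cfsg.Agent.Lib.Helper74.CharBasic
import Cfsg.Agent.Lib.Helper78.LocalRing

set_option autoImplicit false
open Cfsg Cfsg.Agent.Lib.Helper74 Cfsg.Agent.Lib.Helper78

namespace Cfsg.Agent.S4916

/-- Let G be a finite group, p a prime and M a maximal ideal of the algebraic integers containing p. Then the principal character is the only irreducible character of degree prime to p in the principal p-block of G if and only if p does not divide the order of G. -/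
theorem result {G : Type*} [Group G] [Finite G] (p : ℕ) [Fact p.Prime] (M : Ideal Cfsg.AlgInt) (hM : Cfsg.IsPModular p M) : (∀ χ : Cfsg.IrrCharacter G, χ ∈ Cfsg.principalBlock M G → ¬ p ∣ Cfsg.charDegree (χ : G → ℂ) → (χ : G → ℂ) = fun _ => (1 : ℂ)) ↔ ¬ p ∣ Nat.card G := by
  classical
  have := Fintype.ofFinite G
  have hMp := pmod_isPrime hM
  let one : Cfsg.IrrCharacter G := ⟨fun _ => (1 : ℂ), isIrrCharacter_one⟩
  constructor
  · -- the hypothesis forces `p ∤ |G|`
    intro h hdvd
    have hB : Cfsg.IsPBlock M (Cfsg.principalBlock M G) := ⟨one, rfl⟩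
    have h1 := Cfsg.Agent.S0913.result p M hM (Cfsg.principalBlock M G) hB 1
    have hone : one ∈ Cfsg.principalBlock M G := by
      intro g
      simpa [one] using memLocalIdeal_zero hMp
    -- the sum of squares of degrees
    have hsum : Cfsg.blockCoeff (Cfsg.principalBlock M G) 1 = (Nat.card G : ℂ)⁻¹ *
        ((∑ χ ∈ Finset.univ.filter (fun χ : Cfsg.IrrCharacter G => χ ∈ Cfsg.principalBlock M G),
          Cfsg.charDegree (χ : G → ℂ) ^ 2 : ℕ) : ℂ) := by
      unfold Cfsg.blockCoeff
      congr 1
      rw [finsum_mem_eq_finite_toFinset_sum _ (Set.toFinite _)]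
      push_cast
      refine Finset.sum_congr (by ext; simp) (fun χ _ => ?_)
      rw [← IsCharacter.charDegree_eq (IrrCharacter.isCharacter χ)]
      simp [sq]
    set n : ℕ := ∑ χ ∈ Finset.univ.filter (fun χ : Cfsg.IrrCharacter G => χ ∈ Cfsg.principalBlock M G),
          Cfsg.charDegree (χ : G → ℂ) ^ 2 with hn
    have hG0 : (Nat.card G : ℂ) ≠ 0 := by exact_mod_cast Nat.card_pos.ne'
    have h2 : MemLocalIdeal M (n : ℂ) := by
      have : (n : ℂ) = (Nat.card G : ℂ) * Cfsg.blockCoeff (Cfsg.principalBlock M G) 1 := by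
        rw [hsum, mul_inv_cancel_left₀ hG0]
      rw [this]
      exact MemLocalIdeal.mul_right hMp ((memLocalIdeal_natCast_iff hM _).2 hdvd) h1
    have h3 : p ∣ n := (memLocalIdeal_natCast_iff hM _).1 h2
    have h4 : n = 1 + ∑ χ ∈ (Finset.univ.filter (fun χ : Cfsg.IrrCharacter G => χ ∈ Cfsg.principalBlock M G)).erase one,
          Cfsg.charDegree (χ : G → ℂ) ^ 2 := by
      rw [hn, ← Finset.add_sum_erase _ _ (show one ∈ _ by simpa using hone)]
      congr 1
      simp [one, Cfsg.charDegree]
    have h5 : p ∣ ∑ χ ∈ (Finset.univ.filter (fun χ : Cfsg.IrrCharacter G => χ ∈ Cfsg.principalBlock M G)).erase one,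
          Cfsg.charDegree (χ : G → ℂ) ^ 2 := by
      refine Finset.dvd_sum (fun χ hχ => ?_)
      rw [Finset.mem_erase, Finset.mem_filter] at hχ
      by_contra hnd
      have hnd' : ¬ p ∣ Cfsg.charDegree (χ : G → ℂ) := fun hd => hnd (dvd_pow hd two_ne_zero)
      exact hχ.1 (Subtype.ext (h χ hχ.2.2 hnd'))
    have h6 : p ∣ 1 := by
      rw [h4] at h3
      exact (Nat.dvd_add_left h5).1 h3
    exact (Fact.out : p.Prime).one_lt.ne' (Nat.dvd_one.1 h6)
  · intro hnd χ hχ _
    by_contra hne
    have hne' : χ ≠ one := fun h => hne (congrArg Subtype.val h)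
    have horth := classInner_irr_ne hne'
    have hG0 : (Nat.card G : ℂ) ≠ 0 := by exact_mod_cast Nat.card_pos.ne'
    have hs0 : ∑ g : G, (χ : G → ℂ) g = 0 := by
      simp only [Cfsg.classInner, one, map_one, mul_one] at horth
      rcases mul_eq_zero.1 horth with h | h
      · exact absurd (inv_eq_zero.1 h) hG0
      · exact h
    have hterm : ∀ g : G, MemLocalIdeal M (1 - (χ : G → ℂ) g / (χ : G → ℂ) 1) := by
      intro g
      have hg := hχ g
      set c := (Subgroup.centralizer ({g} : Set G)).index with hc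
      have hcd : ¬ p ∣ c := fun hd => hnd (hd.trans (Subgroup.index_dvd_card _))
      have hc0 : (c : ℂ) ≠ 0 := by
        have : c ≠ 0 := Subgroup.index_ne_zero_of_finite
        exact_mod_cast this
      have : (1 - (χ : G → ℂ) g / (χ : G → ℂ) 1) = (c : ℂ)⁻¹ *
          (Cfsg.centralChar (fun _ : G => (1 : ℂ)) g - Cfsg.centralChar (χ : G → ℂ) g) := by
        simp only [Cfsg.centralChar, ← hc]
        field_simp
      rw [this]
      exact MemLocalIdeal.mul_left hMp (memLocalRing_inv_natCast hM hcd) hg
    have htot := MemLocalIdeal.sum hMp Finset.univ _ (fun g _ => hterm g)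
    rw [Finset.sum_sub_distrib, ← Finset.sum_div, hs0] at htot
    simp only [Finset.sum_const, Finset.card_univ, nsmul_eq_mul, mul_one, zero_div, sub_zero] at htot
    rw [memLocalIdeal_natCast_iff hM, ← Nat.card_eq_fintype_card] at htot
    exact hnd htot

end Cfsg.Agent.S4916
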