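import Cfsg.Statements.S4923
import Mathlib
import Cfsg.Agent.Lib.Helper76.GaloisChar
import Cfsg.Agent.Lib.Helper80.Core
import Cfsg.Agent.Lib.Helper15.CharTools
import Cfsg.Agent.Lib.Helper73.Taussky

set_option autoImplicit false
open Cfsg

namespace Cfsg.Agent.S4923

section A


open Cfsg Cfsg.Agent.Lib
open scoped ComplexConjugate

theorem pow_eq_of_modEq {M : Type*} [Monoid M] (x : M) {m k r : ℕ} (hx : x ^ m = 1)
    (h : k ≡ r [MOD m]) : x ^ k = x ^ r := by
  have h' : k % m = r % m := h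
  rw [← Nat.mod_add_div k m, ← Nat.mod_add_div r m, pow_add, pow_add, pow_mul, pow_mul, hx,
    one_pow, one_pow, h']

/-- the fixed field of an automorphism of `ℂ` -/
def fixF (τ : ℂ ≃+* ℂ) : IntermediateField ℚ ℂ where
  carrier := {z | τ z = z}
  mul_mem' := by
    intro a b ha hb
    show τ (a * b) = a * b
    rw [map_mul, ha, hb]
  one_mem' := map_one τ
  add_mem' := by
    intro a b ha hb
    show τ (a + b) = a + b
    rw [map_add, ha, hb]
  zero_mem' := map_zero τ
  algebraMap_mem' := by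
    intro q
    show τ (algebraMap ℚ ℂ q) = algebraMap ℚ ℂ q
    simp
  inv_mem' := by
    intro a ha
    show τ a⁻¹ = a⁻¹
    rw [map_inv₀, ha]

theorem fixed_of_mem_adjoin (τ : ℂ ≃+* ℂ) (S : Set ℂ) (hS : ∀ z ∈ S, τ z = z) {w : ℂ}
    (hw : w ∈ IntermediateField.adjoin ℚ S) : τ w = w := by
  have : IntermediateField.adjoin ℚ S ≤ fixF τ := by
    rw [IntermediateField.adjoin_le_iff]
    exact hS
  exact this hw

theorem exists_tau {G : Type*} [Group G] [Finite G] (m r : ℕ) (hm : m ∣ Nat.card G)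
    (hr : r.Coprime m) :
    ∃ τ : ℂ ≃+* ℂ, (∀ w : ℂ, w ^ m = 1 → τ w = w ^ r) ∧
      ∀ (χ : G → ℂ), IsCharacter G χ → ∀ g : G, g ^ m = 1 → τ (χ g) = χ (g ^ r) := by
  have : NeZero (Nat.card G) := ⟨Nat.card_pos.ne'⟩
  obtain ⟨v, hv⟩ := ZMod.unitsMap_surjective hm (ZMod.unitOfCoprime r hr)
  set k := (v : ZMod (Nat.card G)).val with hk
  have hkc : k.Coprime (Nat.card G) := ZMod.val_coe_unit_coprime v
  have hkr : k ≡ r [MOD m] := by
    rw [← ZMod.natCast_eq_natCast_iff]
    have h1 := congrArg (fun u : (ZMod m)ˣ => (u : ZMod m)) hv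
    simp only [ZMod.unitsMap_def, Units.coe_map, MonoidHom.coe_coe, ZMod.coe_unitOfCoprime] at h1
    rw [← h1, hk]
    conv_rhs => rw [← ZMod.natCast_zmod_val (v : ZMod (Nat.card G))]
    rw [map_natCast]
  obtain ⟨τ, hτ⟩ := Helper76.exists_ringAut_complex (Nat.card G) Nat.card_pos k hkc
  refine ⟨τ, ?_, ?_⟩
  · intro w hw
    obtain ⟨c, hc⟩ := hm
    rw [hτ w (by rw [hc, pow_mul, hw, one_pow]), pow_eq_of_modEq w hw hkr]
  · intro χ hχ g hg
    have := Helper76.IsCharacter.map_ringHom_apply hχ τ.toRingHom k hτ g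
    rw [← pow_eq_of_modEq g hg hkr]
    exact this

theorem pow_add_pow_mem {K : IntermediateField ℚ ℂ} {x y : ℂ} (h1 : x + y ∈ K) (h2 : x * y ∈ K) :
    ∀ j : ℕ, x ^ j + y ^ j ∈ K ∧ x ^ (j + 1) + y ^ (j + 1) ∈ K := by
  intro j
  induction j with
  | zero =>
    refine ⟨?_, by simpa using h1⟩
    simp only [pow_zero]
    exact K.add_mem K.one_mem K.one_mem
  | succ j ih =>
    refine ⟨ih.2, ?_⟩
    have : x ^ (j + 1 + 1) + y ^ (j + 1 + 1) =
        (x + y) * (x ^ (j + 1) + y ^ (j + 1)) - (x * y) * (x ^ j + y ^ j) := by ring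
    rw [this]
    exact K.sub_mem (K.mul_mem h1 ih.2) (K.mul_mem h2 ih.1)


end A

section B


open Cfsg Cfsg.Agent.Lib
open scoped ComplexConjugate

theorem geom_root (e : ℕ) {r : ℂ} (hr : r ^ e = 1) :
    ∑ j ∈ Finset.range e, r ^ j = if r = 1 then (e : ℂ) else 0 := by
  split_ifs with h
  · subst h; simp
  · rw [geom_sum_eq h, hr, sub_self, zero_div]

theorem exists_mult {G : Type*} [Group G] [Finite G] (g : G) (m : ℕ) (hm : 0 < m) (hg : g ^ m = 1)
    (ζ : ℂ) (hζ : ζ ^ m = 1) (χ : IrrCharacter G) :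
    ∃ c : ℕ, (m : ℂ) * c = ∑ k ∈ Finset.range m, ζ ^ k * conj ((χ : G → ℂ) (g ^ k)) := by
  obtain ⟨n, ρ, -, hρ⟩ := χ.2
  obtain ⟨μ, hμ1, hμ2⟩ := Helper76.exists_char_eigenvalues ρ g m hm hg
  refine ⟨(Finset.univ.filter (fun i => μ i = ζ)).card, ?_⟩
  have hconj : ∀ i, conj (μ i) = (μ i)⁻¹ := by
    intro i
    rw [Complex.inv_eq_conj (Complex.norm_eq_one_of_pow_eq_one (hμ1 i) hm.ne')]
  have hne : ∀ i, μ i ≠ 0 := by
    intro i h
    have := hμ1 i
    rw [h, zero_pow hm.ne'] at this
    exact zero_ne_one this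
  have h1 : ∀ k, ζ ^ k * conj ((χ : G → ℂ) (g ^ k)) = ∑ i, (ζ * (μ i)⁻¹) ^ k := by
    intro k
    rw [← hρ, hμ2, map_sum, Finset.mul_sum]
    apply Finset.sum_congr rfl
    intro i _
    rw [map_pow, hconj, mul_pow]
  simp only [h1]
  rw [Finset.sum_comm]
  have h2 : ∀ i, ∑ k ∈ Finset.range m, (ζ * (μ i)⁻¹) ^ k = if μ i = ζ then (m : ℂ) else 0 := by
    intro i
    rw [geom_root m (by rw [mul_pow, hζ, inv_pow, hμ1]; simp)]
    have : (ζ * (μ i)⁻¹ = 1) ↔ μ i = ζ := by
      rw [mul_inv_eq_one₀ (hne _), eq_comm]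
    simp only [this]
  simp only [h2]
  rw [← Finset.sum_filter, Finset.sum_const, nsmul_eq_mul, mul_comm]

theorem field_eq {G : Type*} [Group G] [Finite G] (g : G) (m : ℕ) (hg : orderOf g = m) (ζ : ℂ)
    (hζ : IsPrimitiveRoot ζ m) (r : ℕ) (hr : r < m) (hr1 : r ≠ 1) (h1m : 1 < m)
    (hconj : ∀ k < m, IsConj g (g ^ k) ↔ (k = 1 ∨ k = r))
    (hε : ∃ q : ℚ, ζ ^ (r + 1) = q) :
    IntermediateField.adjoin ℚ {z : ℂ | ∃ χ : IrrCharacter G, (χ : G → ℂ) g = z} =
      IntermediateField.adjoin ℚ ({ζ + ζ ^ r} : Set ℂ) := by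
  classical
  have := Fintype.ofFinite G
  have hm : 0 < m := by omega
  have hgm : g ^ m = 1 := by rw [← hg]; exact pow_orderOf_eq_one g
  have : NeZero m := ⟨hm.ne'⟩
  apply le_antisymm
  · rw [IntermediateField.adjoin_le_iff]
    rintro z ⟨χ, rfl⟩
    set K := IntermediateField.adjoin ℚ ({ζ + ζ ^ r} : Set ℂ) with hK
    have hx : ζ + ζ ^ r ∈ K := IntermediateField.subset_adjoin ℚ _ (Set.mem_singleton _)
    have hy : ζ * ζ ^ r ∈ K := by
      obtain ⟨q, hq⟩ := hε
      rw [← pow_succ', hq]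
      exact K.algebraMap_mem q
    obtain ⟨n, ρ, -, hρ⟩ := χ.2
    obtain ⟨μ, hμ1, hμ2⟩ := Helper76.exists_char_eigenvalues ρ g m hm hgm
    have h1 : (χ : G → ℂ) (g ^ r) = (χ : G → ℂ) g := by
      obtain ⟨c, hc⟩ := isConj_iff.1 ((hconj r hr).2 (Or.inr rfl))
      rw [← hc]
      exact Helper15.irr_cf χ.2 g c
    have h2 : (χ : G → ℂ) g = (2 : ℂ)⁻¹ * ∑ i, (μ i + μ i ^ r) := by
      rw [Finset.sum_add_distrib, ← hμ2 r, hρ, h1]
      have := hμ2 1
      simp only [pow_one] at this
      rw [← this, hρ]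
      ring
    show (χ : G → ℂ) g ∈ K
    rw [h2]
    apply K.mul_mem
    · have : (2 : ℂ)⁻¹ = algebraMap ℚ ℂ (2⁻¹ : ℚ) := by simp
      rw [this]
      exact K.algebraMap_mem _
    · apply sum_mem
      intro i _
      obtain ⟨j, -, hj⟩ := hζ.eq_pow_of_pow_eq_one (hμ1 i)
      rw [← hj, ← pow_mul, mul_comm j r, pow_mul]
      exact (pow_add_pow_mem hx hy j).1
  · rw [IntermediateField.adjoin_le_iff]
    intro z hz
    rw [Set.mem_singleton_iff] at hz
    subst hz
    set K := IntermediateField.adjoin ℚ {z : ℂ | ∃ χ : IrrCharacter G, (χ : G → ℂ) g = z} with hK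
    choose c hc using exists_mult g m hm hgm ζ hζ.pow_eq_one
    have h1 : (m : ℂ) * ∑ χ : IrrCharacter G, (c χ : ℂ) * (χ : G → ℂ) g =
        (Nat.card (Subgroup.centralizer ({g} : Set G)) : ℂ) * (ζ + ζ ^ r) := by
      rw [Finset.mul_sum]
      have : ∀ χ : IrrCharacter G, (m : ℂ) * ((c χ : ℂ) * (χ : G → ℂ) g) =
          ∑ k ∈ Finset.range m, ζ ^ k * ((χ : G → ℂ) g * conj ((χ : G → ℂ) (g ^ k))) := by
        intro χ
        rw [← mul_assoc, hc, Finset.sum_mul]
        apply Finset.sum_congr rfl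
        intro k _
        ring
      simp only [this]
      rw [Finset.sum_comm]
      simp only [← Finset.mul_sum]
      have h2 : ∀ k ∈ Finset.range m,
          ∑ χ : IrrCharacter G, (χ : G → ℂ) g * conj ((χ : G → ℂ) (g ^ k)) =
          if k ∈ ({1, r} : Finset ℕ) then
            (Nat.card (Subgroup.centralizer ({g} : Set G)) : ℂ) else 0 := by
        intro k hk
        rw [Helper80.col_orth]
        have : IsConj g (g ^ k) ↔ k ∈ ({1, r} : Finset ℕ) := by
          rw [hconj k (Finset.mem_range.1 hk)]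
          simp
        by_cases h : IsConj g (g ^ k)
        · rw [if_pos h, if_pos (this.1 h)]
        · rw [if_neg h, if_neg (fun h' => h (this.2 h'))]
      rw [Finset.sum_congr rfl (fun k hk => by rw [h2 k hk])]
      simp only [mul_ite, mul_zero]
      rw [← Finset.sum_filter]
      have h3 : (Finset.range m).filter (fun k => k ∈ ({1, r} : Finset ℕ)) = {1, r} := by
        ext k
        simp only [Finset.mem_filter, Finset.mem_range, Finset.mem_insert, Finset.mem_singleton]
        constructor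
        · exact fun h => h.2
        · rintro (rfl | rfl)
          · exact ⟨h1m, Or.inl rfl⟩
          · exact ⟨hr, Or.inr rfl⟩
      rw [h3, Finset.sum_pair (Ne.symm hr1), pow_one]
      ring
    have hC0 : (Nat.card (Subgroup.centralizer ({g} : Set G)) : ℂ) ≠ 0 := by
      exact_mod_cast Nat.card_pos.ne'
    have h4 : ζ + ζ ^ r = ((Nat.card (Subgroup.centralizer ({g} : Set G)) : ℂ)⁻¹ * (m : ℂ)) *
        ∑ χ : IrrCharacter G, (c χ : ℂ) * (χ : G → ℂ) g := by
      rw [mul_assoc, h1, ← mul_assoc, inv_mul_cancel₀ hC0, one_mul]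
    show ζ + ζ ^ r ∈ K
    rw [h4]
    apply K.mul_mem
    · apply K.mul_mem
      · apply K.inv_mem
        exact natCast_mem K _
      · exact natCast_mem K _
    · apply sum_mem
      intro χ _
      apply K.mul_mem (natCast_mem K _)
      exact IntermediateField.subset_adjoin ℚ _ ⟨χ, rfl⟩


end B

section C


open Cfsg.Agent.Lib Subgroup
open scoped commutatorElement

theorem conj_pow' {S : Type*} [Group S] (b a : S) (j : ℕ) : b * a ^ j * b⁻¹ = (b * a * b⁻¹) ^ j :=
  (conj_pow (a := b) (b := a) (i := j)).symm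

theorem two_pow_split {n : ℕ} (hn : 3 ≤ n) :
    2 ^ n = 2 * 2 ^ (n - 1) ∧ 2 ^ (n - 1) = 2 * 2 ^ (n - 2) ∧ 2 ^ (n - 2) = 2 * 2 ^ (n - 3) := by
  obtain ⟨k, rfl⟩ : ∃ k, n = k + 3 := ⟨n - 3, by omega⟩
  have e1 : k + 3 - 1 = k + 2 := by omega
  have e2 : k + 3 - 2 = k + 1 := by omega
  have e3 : k + 3 - 3 = k := by omega
  rw [e1, e2, e3]
  refine ⟨by ring, by ring, by ring⟩

/-- basic data of conjugation on a cyclic subgroup of index two -/
theorem conj_data {S : Type*} [Group S] [Finite S] {n : ℕ} (hn : 3 ≤ n) (hcard : Nat.card S = 2 ^ n)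
    (a b : S) (ha : orderOf a = 2 ^ (n - 1)) :
    (zpowers a).index = 2 ∧ ∃ r, r < 2 ^ (n - 1) ∧ b * a * b⁻¹ = a ^ r ∧ r % 2 = 1 := by
  classical
  obtain ⟨e1, e2, e3⟩ := two_pow_split hn
  have hidx : (zpowers a).index = 2 :=
    Helper73.index_zpowers_of_orderOf a _ (by positivity) ha (by rw [hcard, e1])
  refine ⟨hidx, ?_⟩
  have hnorm : (zpowers a).Normal := normal_of_index_eq_two hidx
  have h1 : b * a * b⁻¹ ∈ zpowers a := hnorm.conj_mem a (mem_zpowers a) b
  rw [mem_zpowers_iff_mem_range_orderOf] at h1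
  obtain ⟨r, hr, hr'⟩ := Finset.mem_image.1 h1
  rw [Finset.mem_range, ha] at hr
  refine ⟨r, hr, hr'.symm, ?_⟩
  have h2 : orderOf (a ^ r) = orderOf a := by
    rw [hr']
    exact (MulAut.conj b).orderOf_eq a
  rw [orderOf_pow, ha] at h2
  by_contra hodd
  have h3 : 2 ∣ r := by omega
  have h4 : 2 ∣ Nat.gcd (2 ^ (n - 1)) r := Nat.dvd_gcd (by rw [e2]; exact Dvd.intro _ rfl) h3
  obtain ⟨c, hc⟩ := h4
  have hpos : 0 < 2 ^ (n - 1) := by positivity
  have h5 : Nat.gcd (2 ^ (n - 1)) r ∣ 2 ^ (n - 1) := Nat.gcd_dvd_left _ _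
  have h6 := Nat.div_mul_cancel h5
  rw [h2, hc] at h6
  have hc0 : 0 < c := by
    rcases Nat.eq_zero_or_pos c with h | h
    · rw [h] at h6; omega
    · exact h
  nlinarith

theorem backward {S : Type*} [Group S] [Finite S] {n : ℕ} (hn : 3 ≤ n) (hcard : Nat.card S = 2 ^ n)
    (a b : S) (ha : orderOf a = 2 ^ (n - 1)) (hb : b ∉ zpowers a) (r : ℕ)
    (hr : b * a * b⁻¹ = a ^ r) (h4 : 4 ∣ r + 1) : (commutator S).index = 4 := by
  obtain ⟨e1, e2, e3⟩ := two_pow_split hn
  obtain ⟨hidx, -⟩ := conj_data hn hcard a b ha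
  set m := 2 ^ (n - 1) with hm
  set m2 := 2 ^ (n - 2) with hm2
  have hm2pos : 0 < m2 := by positivity
  have ham : a ^ m = 1 := by rw [← ha]; exact pow_orderOf_eq_one a
  -- upper bound
  have hz : b * a ^ m2 * b⁻¹ = a ^ m2 := by
    rw [conj_pow', hr, ← pow_mul]
    obtain ⟨s, hs⟩ : ∃ s, r = 2 * s + 1 := ⟨r / 2, by omega⟩
    have : r * m2 = m * s + m2 := by rw [hs, e2]; ring
    rw [this, pow_add, pow_mul, ham, one_pow, one_mul]
  have hup := Helper73.card_commutator_mul_le (zpowers a) hidx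
    (fun p hp q hq => by
      obtain ⟨i, rfl⟩ := hp
      obtain ⟨j, rfl⟩ := hq
      exact ((Commute.refl a).zpow_zpow i j)) b hb (zpowers (a ^ m2))
    (zpowers_le.2 (pow_mem (mem_zpowers a) _))
    (by
      intro x hx
      obtain ⟨i, rfl⟩ := hx
      have h1 : Commute (a ^ m2) b := by
        show a ^ m2 * b = b * a ^ m2
        rw [mul_inv_eq_iff_eq_mul] at hz
        exact hz.symm
      exact (h1.zpow_left i))
  have hoz : orderOf (a ^ m2) = 2 := by
    rw [orderOf_pow, ha, e2, Nat.gcd_eq_right (Dvd.intro_left _ rfl)]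
    exact Nat.mul_div_cancel _ hm2pos
  rw [Nat.card_zpowers, Nat.card_zpowers, hoz, ha] at hup
  -- lower bound
  obtain ⟨q, hq⟩ := h4
  have hr1 : r = (r - 1) + 1 := by omega
  have hu : ⁅b, a⁆ = a ^ (r - 1) := by
    rw [commutatorElement_def, hr]
    conv_lhs => rw [hr1, pow_succ]
    group
  have hgcd : Nat.gcd m (r - 1) = 2 := by
    have h1 : Nat.gcd m (r - 1) ∣ 2 ^ (n - 1) := Nat.gcd_dvd_left _ _
    obtain ⟨j, hj, hj'⟩ := (Nat.dvd_prime_pow Nat.prime_two).1 h1
    have h2 : 2 ∣ Nat.gcd m (r - 1) := Nat.dvd_gcd (by rw [e2]; exact Dvd.intro _ rfl) (by omega)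
    have h3 : ¬ 4 ∣ Nat.gcd m (r - 1) := fun h => by
      have := h.trans (Nat.gcd_dvd_right _ _)
      omega
    rw [hj'] at h2 h3 ⊢
    match j with
    | 0 => simp at h2
    | 1 => rfl
    | (j + 2) => exact absurd ⟨2 ^ j, by ring⟩ h3
  have hou : orderOf (⁅b, a⁆) = m2 := by
    rw [hu, orderOf_pow, ha, hgcd, e2]
    exact Nat.mul_div_cancel_left _ (by norm_num)
  have hlow : m2 ≤ Nat.card (commutator S) := by
    rw [← hou, ← Nat.card_zpowers]
    apply Subgroup.card_le_of_le
    rw [zpowers_le]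
    exact Subgroup.commutator_mem_commutator (mem_top b) (mem_top a)
  have hcardc : Nat.card (commutator S) = m2 := by
    rw [e2] at hup
    omega
  have := (commutator S).card_mul_index
  rw [hcardc, hcard, e1, e2] at this
  have h5 : m2 * (commutator S).index = m2 * 4 := by rw [this]; ring
  exact Nat.eq_of_mul_eq_mul_left hm2pos h5

theorem forward {S : Type*} [Group S] [Finite S] {n : ℕ} (hn : 3 ≤ n) (hcard : Nat.card S = 2 ^ n)
    (hidx4 : (commutator S).index = 4) :
    ∃ (a b : S) (r : ℕ), orderOf a = 2 ^ (n - 1) ∧ b ∉ zpowers a ∧ b * a * b⁻¹ = a ^ r ∧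
      r < 2 ^ (n - 1) ∧ 2 ^ (n - 2) ∣ r + 1 ∧ r ≠ 1 := by
  obtain ⟨e1, e2, e3⟩ := two_pow_split hn
  have hS : IsPGroup 2 S := IsPGroup.of_card hcard
  obtain ⟨a, ha⟩ := Helper73.exists_cyclic_index_two _ S hcard hS hidx4
  have hoa : orderOf a = 2 ^ (n - 1) := by
    have := (zpowers a).card_mul_index
    rw [ha, hcard, Nat.card_zpowers, e1] at this
    omega
  obtain ⟨b, hb⟩ : ∃ b, b ∉ zpowers a := by
    by_contra hcon
    push Not at hcon
    have : zpowers a = ⊤ := eq_top_iff.2 (fun x _ => hcon x)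
    rw [this, index_top] at ha
    omega
  obtain ⟨-, r, hr, hbr, hrodd⟩ := conj_data hn hcard a b hoa
  set m := 2 ^ (n - 1) with hm
  set m2 := 2 ^ (n - 2) with hm2
  set m4 := 2 ^ (n - 3) with hm4
  have hm4pos : 0 < m4 := by positivity
  have ham : a ^ m = 1 := by rw [← hoa]; exact pow_orderOf_eq_one a
  have hcardc : Nat.card (commutator S) = m2 := by
    have := (commutator S).card_mul_index
    rw [hidx4, hcard, e1, e2] at this
    omega
  -- `r ≡ 3 mod 4`
  have hr4 : r % 4 = 3 := by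
    by_contra hne
    have h1 : r % 4 = 1 := by omega
    obtain ⟨s, hs⟩ : ∃ s, r = 4 * s + 1 := ⟨r / 4, by omega⟩
    have hz : b * a ^ m4 * b⁻¹ = a ^ m4 := by
      rw [conj_pow', hbr, ← pow_mul]
      have : r * m4 = m * s + m4 := by rw [hs, e2, e3]; ring
      rw [this, pow_add, pow_mul, ham, one_pow, one_mul]
    have hup := Helper73.card_commutator_mul_le (zpowers a) ha
      (fun p hp q hq => by
        obtain ⟨i, rfl⟩ := hp
        obtain ⟨j, rfl⟩ := hq
        exact ((Commute.refl a).zpow_zpow i j)) b hb (zpowers (a ^ m4))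
      (zpowers_le.2 (pow_mem (mem_zpowers a) _))
      (by
        intro x hx
        obtain ⟨i, rfl⟩ := hx
        have h1 : Commute (a ^ m4) b := by
          show a ^ m4 * b = b * a ^ m4
          rw [mul_inv_eq_iff_eq_mul] at hz
          exact hz.symm
        exact (h1.zpow_left i))
    have hoz : orderOf (a ^ m4) = 4 := by
      rw [orderOf_pow, hoa, e2, e3, Nat.gcd_eq_right ⟨4, by ring⟩]
      have : 2 * (2 * m4) = 4 * m4 := by ring
      rw [this]
      exact Nat.mul_div_cancel _ hm4pos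
    rw [Nat.card_zpowers, Nat.card_zpowers, hoz, hoa, hcardc, e2] at hup
    have : 0 < m2 := by positivity
    omega
  refine ⟨a, b, r, hoa, hb, hbr, hr, ?_, by omega⟩
  -- `r ^ 2 ≡ 1`
  have hb2 : b ^ 2 ∈ zpowers a := sq_mem_of_index_two ha b
  have h1 : b ^ 2 * a * (b ^ 2)⁻¹ = a := by
    obtain ⟨i, hi⟩ := hb2
    rw [← hi]
    have : Commute (a ^ i) a := (Commute.refl a).zpow_left i
    rw [this.eq, mul_inv_cancel_right]
  have h2 : b ^ 2 * a * (b ^ 2)⁻¹ = a ^ (r * r) := by
    have : b ^ 2 * a * (b ^ 2)⁻¹ = b * (b * a * b⁻¹) * b⁻¹ := by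
      rw [sq]; group
    rw [this, hbr, conj_pow', hbr, ← pow_mul]
  rw [h1] at h2
  have h3 : r * r ≡ 1 [MOD m] := by
    rw [← hoa, ← pow_eq_pow_iff_modEq, pow_one]
    exact h2.symm
  obtain ⟨s, hs⟩ : ∃ s, r = 4 * s + 3 := ⟨r / 4, by omega⟩
  have h4 : m ∣ r * r - 1 := (Nat.modEq_iff_dvd' (by nlinarith)).1 h3.symm
  have h5 : r * r - 1 = 2 * ((2 * s + 1) * (r + 1)) := by
    have : r * r = 2 * ((2 * s + 1) * (r + 1)) + 1 := by rw [hs]; ring
    omega
  rw [h5, e2] at h4
  have h6 : m2 ∣ (2 * s + 1) * (r + 1) := Nat.dvd_of_mul_dvd_mul_left (by norm_num) h4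
  have h7 : Nat.Coprime m2 (2 * s + 1) := by
    apply Nat.Coprime.pow_left
    rw [Nat.Prime.coprime_iff_not_dvd Nat.prime_two]
    omega
  exact h7.dvd_of_dvd_mul_left h6


end C

section D


open Subgroup

theorem mem_normalizer_of_conj_mem {G : Type*} [Group G] [Finite G] {g x : G}
    (hx : x * g * x⁻¹ ∈ zpowers g) : x ∈ normalizer (zpowers g : Set G) := by
  have h1 : ∀ h ∈ zpowers g, x * h * x⁻¹ ∈ zpowers g := by
    rintro h ⟨j, rfl⟩
    have : x * g ^ j * x⁻¹ = (x * g * x⁻¹) ^ j := (conj_zpow (a := x) (b := g) (i := j)).symm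
    show x * g ^ j * x⁻¹ ∈ zpowers g
    rw [this]
    exact zpow_mem hx j
  let ψ : zpowers g → zpowers g := fun h => ⟨x * h * x⁻¹, h1 h h.2⟩
  have hinj : Function.Injective ψ := by
    intro u v huv
    have : x * (u : G) * x⁻¹ = x * (v : G) * x⁻¹ := congrArg Subtype.val huv
    apply Subtype.ext
    simpa using this
  have hsurj := Finite.injective_iff_surjective.1 hinj
  rw [mem_normalizer_iff]
  intro h
  refine ⟨h1 h, fun hh => ?_⟩
  obtain ⟨u, hu⟩ := hsurj ⟨_, hh⟩
  have : x * (u : G) * x⁻¹ = x * h * x⁻¹ := congrArg Subtype.val hu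
  have h2 : (u : G) = h := by simpa using this
  rw [← h2]
  exact u.2

theorem fusion {G : Type*} [Group G] [Finite G] (P : Sylow 2 G) (g : G) (k : ℕ)
    (hg : orderOf g = 2 ^ k) (hPN : (P : Subgroup G) ≤ normalizer (zpowers g : Set G)) :
    (∀ x : G, x * g * x⁻¹ ∈ zpowers g → ∃ y ∈ (P : Subgroup G), x * g * x⁻¹ = y * g * y⁻¹) ∧
    (∀ b ∈ (P : Subgroup G), b * g * b⁻¹ ≠ g → 2 ∣ (centralizer ({g} : Set G)).index) := by
  have : Fact (Nat.Prime 2) := ⟨Nat.prime_two⟩
  set H := zpowers g with hH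
  set N := normalizer (H : Set G) with hN
  let φ := H.normalizerMonoidHom
  have hφ : ∀ (x : N), ((φ x ⟨g, mem_zpowers g⟩ : H) : G) = x * g * (x : G)⁻¹ := fun x => rfl
  have hAut : IsPGroup 2 (MulAut H) := by
    have h1 : Nat.card (MulAut H) = Nat.totient (2 ^ k) := by
      rw [IsCyclic.card_mulAut, Nat.card_zpowers, hg]
    rcases Nat.eq_zero_or_pos k with rfl | hk
    · exact IsPGroup.of_card (n := 0) (by rw [h1]; simp)
    · exact IsPGroup.of_card (n := k - 1) (by rw [h1, Nat.totient_prime_pow Nat.prime_two hk]; simp)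
  have hrange : IsPGroup 2 φ.range := hAut.to_subgroup _
  constructor
  · intro x hx
    have hxN : x ∈ N := mem_normalizer_of_conj_mem hx
    let PN : Sylow 2 N := P.subtype hPN
    let Q : Sylow 2 φ.range := PN.mapSurjective φ.rangeRestrict_surjective
    have hQ : (Q : Subgroup φ.range) = ⊤ := by
      have := Q.is_maximal' (Q := ⊤) (hrange.to_subgroup _) le_top
      exact this.symm
    have h1 : φ.rangeRestrict ⟨x, hxN⟩ ∈ (Q : Subgroup φ.range) := by rw [hQ]; exact mem_top _
    obtain ⟨y, hy, hyx⟩ : ∃ y ∈ (PN : Subgroup N), φ.rangeRestrict y = φ.rangeRestrict ⟨x, hxN⟩ := h1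
    have hy' : (y : G) ∈ (P : Subgroup G) := hy
    refine ⟨y, hy', ?_⟩
    have h2 : φ y = φ ⟨x, hxN⟩ := congrArg Subtype.val hyx
    have h3 := hφ y
    rw [h2, hφ] at h3
    exact h3
  · intro b hb hbg
    have hker : φ.ker = (centralizer (H : Set G)).subgroupOf N := normalizerMonoidHom_ker H
    have hcent : centralizer (H : Set G) = centralizer ({g} : Set G) := by
      rw [hH, ← centralizer_closure ({g} : Set G), ← zpowers_eq_closure]
    have h1 : Nat.card φ.range = (centralizer ({g} : Set G)).relIndex N := by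
      rw [← Subgroup.index_ker, hker, hcent]
      rfl
    have hle : centralizer ({g} : Set G) ≤ N := by
      rw [← hcent]
      exact centralizer_le_normalizer _
    have h2 := Subgroup.relIndex_mul_index hle
    rw [← h2, ← h1]
    apply Dvd.dvd.mul_right
    have hnt : Nontrivial φ.range := by
      refine ⟨⟨⟨φ ⟨b, hPN hb⟩, ⟨_, rfl⟩⟩, 1, ?_⟩⟩
      intro h
      have h3 : φ ⟨b, hPN hb⟩ = 1 := congrArg Subtype.val h
      have h4 := hφ ⟨b, hPN hb⟩
      rw [h3] at h4
      exact hbg h4.symm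
    obtain ⟨j, hj0, hj⟩ := hrange.nontrivial_iff_card.1 hnt
    rw [hj]
    exact dvd_pow_self 2 hj0.ne'


end D

open Cfsg.Agent.Lib Subgroup
open scoped ComplexConjugate commutatorElement

theorem coe_mem_zpowers {G : Type*} [Group G] {H : Subgroup G} (a u : H) :
    u ∈ zpowers a ↔ (u : G) ∈ zpowers (a : G) := by
  constructor
  · rintro ⟨k, rfl⟩
    exact ⟨k, by simp⟩
  · rintro ⟨k, hk⟩
    exact ⟨k, Subtype.ext (by simpa using hk)⟩

theorem neg_one_of_primitive {ζ : ℂ} {m2 : ℕ} (hm2 : 0 < m2) (hζ : IsPrimitiveRoot ζ (2 * m2)) :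
    ζ ^ m2 = -1 := by
  have h1 : (ζ ^ m2) ^ 2 = 1 := by rw [← pow_mul, mul_comm]; exact hζ.pow_eq_one
  rcases sq_eq_one_iff.1 h1 with h | h
  · exfalso
    have := hζ.dvd_of_pow_eq_one _ h
    have := Nat.le_of_dvd hm2 this
    omega
  · exact h

/-- Let G be a finite group with Sylow 2-subgroup P of order 2^n ≥ 8, and let ζ be a primitive 2^(n−1)-th root of unity in ℂ. Then the commutator subgroup of P has index 4 in P if and only if there is an element g of P whose conjugacy class in G has even size and such that the field generated over ℚ by the values at g of all irreducible complex characters of G equals ℚ(ζ + ζ⁻¹) or ℚ(ζ − ζ⁻¹). -/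
theorem result {G : Type*} [Group G] [Finite G] (P : Sylow 2 G) (n : ℕ) (hn : 3 ≤ n) (hP : Nat.card P = 2 ^ n) (ζ : ℂ) (hζ : IsPrimitiveRoot ζ (2 ^ (n - 1))) :
    (commutator ↥P).index = 4 ↔
      ∃ g : G, g ∈ (P : Subgroup G) ∧ 2 ∣ (Subgroup.centralizer ({g} : Set G)).index ∧
        (IntermediateField.adjoin ℚ {z : ℂ | ∃ χ : Cfsg.IrrCharacter G, (χ : G → ℂ) g = z} = IntermediateField.adjoin ℚ ({ζ + ζ⁻¹} : Set ℂ) ∨
          IntermediateField.adjoin ℚ {z : ℂ | ∃ χ : Cfsg.IrrCharacter G, (χ : G → ℂ) g = z} = IntermediateField.adjoin ℚ ({ζ - ζ⁻¹} : Set ℂ)) := by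
  classical
  have : Fact (Nat.Prime 2) := ⟨Nat.prime_two⟩
  obtain ⟨e1, e2, e3⟩ := two_pow_split hn
  have hP' : Nat.card (P : Subgroup G) = 2 ^ n := hP
  show (commutator (P : Subgroup G)).index = 4 ↔ _
  set m := 2 ^ (n - 1) with hm
  set m2 := 2 ^ (n - 2) with hm2
  have hm2pos : 0 < m2 := by positivity
  have hmG : m ∣ Nat.card G := by
    have h1 : m ∣ 2 ^ n := ⟨2, by rw [e1]; ring⟩
    rw [← hP'] at h1
    exact h1.trans (Subgroup.card_subgroup_dvd_card _)
  have hζ0 : ζ ≠ 0 := hζ.ne_zero (by positivity)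
  constructor
  · intro hidx
    obtain ⟨a, b, r, hoa, hb, hbr, hr, hdvd, hr1⟩ := forward hn hP' hidx
    obtain ⟨hidx2, -⟩ := conj_data hn hP' a b hoa
    have hnorm : (zpowers a).Normal := normal_of_index_eq_two hidx2
    have hog : orderOf (a : G) = m := by rw [Subgroup.orderOf_coe, hoa]
    have hbr' : (b : G) * a * (b : G)⁻¹ = (a : G) ^ r := by
      have := congrArg Subtype.val hbr
      simpa using this
    have hPN : (P : Subgroup G) ≤ normalizer (zpowers (a : G) : Set G) := by
      intro y hy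
      apply mem_normalizer_of_conj_mem
      have h1 := hnorm.conj_mem a (mem_zpowers a) ⟨y, hy⟩
      rw [coe_mem_zpowers] at h1
      simpa using h1
    obtain ⟨hf1, hf2⟩ := fusion P (a : G) (n - 1) hog hPN
    have hbne : (b : G) * a * (b : G)⁻¹ ≠ a := by
      rw [hbr']
      intro h
      have h1 : (a : G) ^ r = (a : G) ^ 1 := by rw [pow_one]; exact h
      rw [pow_eq_pow_iff_modEq, hog] at h1
      have h2 : r % m = 1 % m := h1
      rw [Nat.mod_eq_of_lt hr, Nat.mod_eq_of_lt (by rw [e2]; omega)] at h2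
      exact hr1 h2
    have hconj : ∀ k < m, IsConj (a : G) ((a : G) ^ k) ↔ (k = 1 ∨ k = r) := by
      intro k hk
      constructor
      · intro hc
        obtain ⟨x, hx⟩ := isConj_iff.1 hc
        obtain ⟨y, hy, hxy⟩ := hf1 x (by rw [hx]; exact pow_mem (mem_zpowers _) k)
        have hcase : y * (a : G) * y⁻¹ = a ∨ y * (a : G) * y⁻¹ = (a : G) ^ r := by
          by_cases hyz : (⟨y, hy⟩ : (P : Subgroup G)) ∈ zpowers a
          · left
            obtain ⟨i, hi⟩ := (coe_mem_zpowers a ⟨y, hy⟩).1 hyz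
            have hi' : (a : G) ^ i = y := hi
            rw [← hi']
            have : Commute ((a : G) ^ i) (a : G) := (Commute.refl (a : G)).zpow_left i
            rw [this.eq, mul_inv_cancel_right]
          · right
            have h1 : b⁻¹ * (⟨y, hy⟩ : (P : Subgroup G)) ∈ zpowers a := by
              rw [Subgroup.mul_mem_iff_of_index_two hidx2, inv_mem_iff]
              exact ⟨fun h => absurd h hb, fun h => absurd h hyz⟩
            obtain ⟨i, hi⟩ := (coe_mem_zpowers a _).1 h1
            have hi' : (a : G) ^ i = (b : G)⁻¹ * y := hi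
            have hy2 : y = (b : G) * (a : G) ^ i := by rw [hi']; group
            have : Commute ((a : G) ^ i) (a : G) := (Commute.refl (a : G)).zpow_left i
            rw [← hbr', hy2]
            calc (b : G) * (a : G) ^ i * a * ((b : G) * (a : G) ^ i)⁻¹
                = (b : G) * ((a : G) ^ i * a * ((a : G) ^ i)⁻¹) * (b : G)⁻¹ := by group
              _ = _ := by rw [this.eq, mul_inv_cancel_right]
        rw [← hxy, hx] at hcase
        rcases hcase with h | h
        · left
          have h1 : (a : G) ^ k = (a : G) ^ 1 := by rw [pow_one]; exact h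
          rw [pow_eq_pow_iff_modEq, hog] at h1
          have h2 : k % m = 1 % m := h1
          rwa [Nat.mod_eq_of_lt hk, Nat.mod_eq_of_lt (by rw [e2]; omega)] at h2
        · right
          rw [pow_eq_pow_iff_modEq, hog] at h
          have h2 : k % m = r % m := h
          rwa [Nat.mod_eq_of_lt hk, Nat.mod_eq_of_lt hr] at h2
      · rintro (rfl | rfl)
        · rw [pow_one]
        · rw [isConj_iff]
          exact ⟨b, hbr'⟩
    have hsq : (ζ ^ (r + 1)) ^ 2 = 1 := by
      obtain ⟨c, hc⟩ := hdvd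
      rw [← pow_mul, hc]
      have : m2 * c * 2 = m * c := by rw [e2]; ring
      rw [this, pow_mul, hζ.pow_eq_one, one_pow]
    have hfield := field_eq (a : G) m hog ζ hζ r hr hr1 (by rw [e2]; omega) hconj (by
      rcases sq_eq_one_iff.1 hsq with h | h
      · exact ⟨1, by rw [h]; simp⟩
      · exact ⟨-1, by rw [h]; simp⟩)
    refine ⟨a, a.2, hf2 b b.2 hbne, ?_⟩
    rw [hfield]
    rcases sq_eq_one_iff.1 hsq with h | h
    · left
      have : ζ ^ r = ζ⁻¹ := by
        rw [pow_succ] at h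
        exact eq_inv_of_mul_eq_one_left h
      rw [this]
    · right
      have : ζ ^ r = -ζ⁻¹ := by
        rw [pow_succ] at h
        field_simp
        exact h
      rw [this, sub_eq_add_neg]
  · rintro ⟨g, hgP, h2, hK⟩
    -- some element of `P` does not commute with `g`
    obtain ⟨b, hbP, hbg⟩ : ∃ b ∈ (P : Subgroup G), b * g ≠ g * b := by
      by_contra hcon
      push Not at hcon
      have hle : (P : Subgroup G) ≤ centralizer ({g} : Set G) := by
        intro y hy
        rw [mem_centralizer_singleton_iff]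
        exact hcon y hy
      exact P.not_dvd_index (h2.trans (Subgroup.index_dvd_of_le hle))
    set a : (P : Subgroup G) := ⟨g, hgP⟩ with ha
    set b' : (P : Subgroup G) := ⟨b, hbP⟩ with hb'
    have hab : b' * a ≠ a * b' := fun h => hbg (congrArg Subtype.val h)
    have hnotmem : ∀ c : (P : Subgroup G), (∀ x ∈ zpowers c, ∀ y ∈ zpowers c, x * y = y * x) :=
      fun c x hx y hy => by
        obtain ⟨i, rfl⟩ := hx
        obtain ⟨j, rfl⟩ := hy
        exact ((Commute.refl c).zpow_zpow i j)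
    rcases Nat.eq_or_lt_of_le hn with hn3 | hn4
    · -- order eight
      subst hn3
      have hex : ∃ c : (P : Subgroup G), orderOf c = 4 := by
        by_contra hcon
        push Not at hcon
        apply hab
        apply Helper73.comm_of_sq_eq_one
        intro x
        have h1 : orderOf x ∣ 2 ^ 3 := by rw [← hP']; exact orderOf_dvd_natCard x
        obtain ⟨j, hj, hj'⟩ := (Nat.dvd_prime_pow Nat.prime_two).1 h1
        have hj3 : j ≠ 3 := by
          intro h3
          rw [h3] at hj'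
          have htop : zpowers x = ⊤ := by
            apply Subgroup.eq_top_of_card_eq
            rw [Nat.card_zpowers, hj', hP']
          exact hab (hnotmem x b' (by rw [htop]; exact mem_top _) a (by rw [htop]; exact mem_top _))
        have hj2 : j ≠ 2 := by
          intro h2'
          rw [h2'] at hj'
          exact hcon x hj'
        have hj1 : j ≤ 1 := by omega
        apply orderOf_dvd_iff_pow_eq_one.1
        rw [hj']
        exact pow_dvd_pow 2 hj1
      obtain ⟨c, hc⟩ := hex
      obtain ⟨hidx2, -⟩ := conj_data (le_refl 3) hP' c c hc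
      obtain ⟨d, hd⟩ : ∃ d, d ∉ zpowers c := by
        by_contra hcon
        push Not at hcon
        have : zpowers c = ⊤ := eq_top_iff.2 (fun x _ => hcon x)
        rw [this, index_top] at hidx2
        omega
      obtain ⟨-, r, hr, hdr, hrodd⟩ := conj_data (le_refl 3) hP' c d hc
      have hr' : r < 4 := hr
      have hr13 : r = 1 ∨ r = 3 := by omega
      rcases hr13 with rfl | rfl
      · exfalso
        rw [pow_one, mul_inv_eq_iff_eq_mul] at hdr
        have hup := Helper73.card_commutator_mul_le (zpowers c) hidx2 (hnotmem c) d hd (zpowers c)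
          le_rfl (by
            intro x hx
            obtain ⟨i, rfl⟩ := hx
            have h1 : Commute c d := hdr.symm
            exact (h1.zpow_left i))
        have hpos : 0 < Nat.card (zpowers c) := Nat.card_pos
        have h1 : Nat.card (commutator (P : Subgroup G)) ≤ 1 := by
          by_contra hgt
          push Not at hgt
          nlinarith
        have h3 : commutator (P : Subgroup G) = ⊥ := by
          apply Subgroup.eq_bot_of_card_le
          exact h1
        have h4 : ⁅b', a⁆ ∈ commutator (P : Subgroup G) :=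
          Subgroup.commutator_mem_commutator (mem_top b') (mem_top a)
        rw [h3, mem_bot, commutatorElement_eq_one_iff_mul_comm] at h4
        exact hab h4
      · exact backward (le_refl 3) hP' c d hc hd 3 hdr (by norm_num)
    · -- order at least sixteen
      have h4m2 : 4 ∣ m2 := by
        obtain ⟨k, rfl⟩ : ∃ k, n = k + 4 := ⟨n - 4, by omega⟩
        have : k + 4 - 2 = k + 2 := by omega
        rw [hm2, this]
        exact ⟨2 ^ k, by ring⟩
      obtain ⟨ε, hε, hw⟩ : ∃ ε : ℂ, (ε = 1 ∨ ε = -1) ∧ ζ + ε * ζ⁻¹ ∈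
          IntermediateField.adjoin ℚ {z : ℂ | ∃ χ : Cfsg.IrrCharacter G, (χ : G → ℂ) g = z} := by
        rcases hK with h | h
        · refine ⟨1, Or.inl rfl, ?_⟩
          rw [h, one_mul]
          exact IntermediateField.subset_adjoin ℚ _ (Set.mem_singleton _)
        · refine ⟨-1, Or.inr rfl, ?_⟩
          have h1 : ζ + -1 * ζ⁻¹ = ζ - ζ⁻¹ := by ring
          rw [h, h1]
          exact IntermediateField.subset_adjoin ℚ _ (Set.mem_singleton _)
      have hεsq : ε * ε = 1 := by rcases hε with rfl | rfl <;> norm_num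
      have key : ∀ r : ℕ, r.Coprime m → g ^ m = 1 →
          (∀ χ : Cfsg.IrrCharacter G, (χ : G → ℂ) (g ^ r) = (χ : G → ℂ) g) →
          ζ ^ r + ε * (ζ ^ r)⁻¹ = ζ + ε * ζ⁻¹ := by
        intro r hr hgm hχ
        obtain ⟨τ, hτ1, hτ2⟩ := exists_tau (G := G) m r hmG hr
        have h1 := fixed_of_mem_adjoin τ _ (by
          rintro z ⟨χ, rfl⟩
          rw [hτ2 χ (Helper15.irr_char χ.2) g hgm, hχ]) hw
        rw [map_add, map_mul, map_inv₀, hτ1 ζ hζ.pow_eq_one] at h1
        have : τ ε = ε := by rcases hε with rfl | rfl <;> simp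
        rw [this] at h1
        exact h1
      have hodd_cop : ∀ r : ℕ, r % 2 = 1 → r.Coprime m := by
        intro r hr
        apply Nat.Coprime.pow_right
        rw [Nat.coprime_comm, Nat.Prime.coprime_iff_not_dvd Nat.prime_two]
        omega
      have hζm2 : ζ ^ m2 = -1 := neg_one_of_primitive hm2pos (by rw [← e2]; exact hζ)
      -- step 1
      have hg2 : g ^ m2 ≠ 1 := by
        intro h
        have hgm : g ^ m = 1 := by rw [e2, mul_comm, pow_mul, h, one_pow]
        have h1 := key (1 + m2) (hodd_cop _ (by omega)) hgm (by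
          intro χ
          rw [pow_add, pow_one, h, mul_one])
        rw [pow_add, pow_one, hζm2] at h1
        have h3 : ζ * ζ = -ε := by
          field_simp at h1
          linear_combination (-1 / 2 : ℂ) * h1
        have h4 : ζ ^ 4 = 1 := by
          have : ζ ^ 4 = (ζ * ζ) * (ζ * ζ) := by ring
          rw [this, h3]
          linear_combination hεsq
        have h5 := Nat.le_of_dvd (by norm_num) (hζ.dvd_of_pow_eq_one 4 h4)
        have h6 := Nat.le_of_dvd hm2pos h4m2
        omega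
      -- step 2
      have hoa : orderOf a = m := by
        have h1 : orderOf a ∣ 2 ^ n := by rw [← hP']; exact orderOf_dvd_natCard a
        obtain ⟨j, hj, hj'⟩ := (Nat.dvd_prime_pow Nat.prime_two).1 h1
        have hjn : j ≠ n := by
          intro h3
          rw [h3] at hj'
          have htop : zpowers a = ⊤ := by
            apply Subgroup.eq_top_of_card_eq
            rw [Nat.card_zpowers, hj', hP']
          exact hab (hnotmem a b' (by rw [htop]; exact mem_top _) a (mem_zpowers a))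
        have hj2 : ¬ j ≤ n - 2 := by
          intro hle
          apply hg2
          have h3 : a ^ m2 = 1 := by
            apply orderOf_dvd_iff_pow_eq_one.1
            rw [hj']
            exact pow_dvd_pow 2 hle
          have := congrArg Subtype.val h3
          simpa using this
        have : j = n - 1 := by omega
        rw [hj', this]
      have hgm : g ^ m = 1 := by
        have h3 : a ^ m = 1 := by rw [← hoa]; exact pow_orderOf_eq_one a
        have := congrArg Subtype.val h3
        simpa using this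
      have hbz : b' ∉ zpowers a := fun h => hab (hnotmem a b' h a (mem_zpowers a))
      obtain ⟨-, r, hr, hbr, hrodd⟩ := conj_data hn hP' a b' hoa
      have hbr' : b * g * b⁻¹ = g ^ r := by
        have := congrArg Subtype.val hbr
        simpa using this
      have h1 := key r (hodd_cop r hrodd) hgm (by
        intro χ
        rw [← hbr']
        exact Helper15.irr_cf χ.2 g b)
      have hζr0 : ζ ^ r ≠ 0 := pow_ne_zero _ hζ0
      have h3 : (ζ ^ r - ζ) * (ζ ^ r * ζ - ε) = 0 := by
        field_simp at h1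
        linear_combination h1
      rcases mul_eq_zero.1 h3 with h | h
      · exfalso
        have h4 : ζ ^ r = ζ ^ 1 := by rw [pow_one]; exact sub_eq_zero.1 h
        have h5 := hζ.pow_inj hr (by rw [e2]; omega) h4
        rw [h5, pow_one, mul_inv_eq_iff_eq_mul] at hbr
        exact hab hbr
      · have h4 : ζ ^ (r + 1) = ε := by rw [pow_succ]; exact sub_eq_zero.1 h
        have h5 : ζ ^ ((r + 1) * 2) = 1 := by
          rw [pow_mul, h4, sq, hεsq]
        have h6 := hζ.dvd_of_pow_eq_one _ h5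
        rw [e2, mul_comm] at h6
        have h7 : m2 ∣ r + 1 := Nat.dvd_of_mul_dvd_mul_right (by norm_num) h6
        exact backward hn hP' a b' hoa hbz r hbr (h4m2.trans h7)

end Cfsg.Agent.S4923
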