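import Cfsg.Statements.S4931
import Cfsg.Agent.S0081
import Cfsg.Agent.S0080
import Cfsg.Agent.S4216
import Cfsg.Agent.S0169
import Cfsg.Agent.Lib.Helper80.Inflation
import Cfsg.Agent.Lib.Helper80.Quot
import Cfsg.Agent.Lib.Helper2.PComplement
import Cfsg.Agent.Lib.Helper2.PGroupFrattini

set_option autoImplicit false
open Cfsg

namespace Cfsg.Agent.S4931

open Cfsg.Agent.Lib.Helper80
open scoped commutatorElement

/-- Self-normalising Sylow subgroup, with a normal subgroup `L` meeting `P` exactly in `P'`. -/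
theorem lemA {X : Type*} [Group X] [Finite X] {p : ℕ} [Fact p.Prime] (P : Sylow p X)
    (hN : Subgroup.normalizer ((P : Subgroup X) : Set X) ≤ P)
    (L : Subgroup X) [L.Normal] (hL1 : ⁅(P : Subgroup X), (P : Subgroup X)⁆ ≤ L)
    (hL2 : L ⊓ P ≤ ⁅(P : Subgroup X), (P : Subgroup X)⁆) : HasNormalPComplement p X := by
  have hp : p.Prime := Fact.out
  have h1 : (P : Subgroup X) ⊓ commutator X ≤ ⁅(P : Subgroup X), (P : Subgroup X)⁆ := by
    rw [Cfsg.Agent.S4216.result P]
    apply sup_le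
    · exact inf_le_right.trans (Subgroup.commutator_mono hN hN)
    · apply iSup_le
      intro z
      refine le_trans ?_ hL2
      rw [inf_comm]
      apply inf_le_inf_right
      rintro _ ⟨y, hy, rfl⟩
      exact ‹L.Normal›.conj_mem y (hL1 hy) z
  have hcop : Nat.Coprime (P : Subgroup X).index
      (⁅(P : Subgroup X), (P : Subgroup X)⁆.relIndex (P : Subgroup X)) := by
    obtain ⟨k, hk⟩ := P.2.exists_card_eq
    have h2 : ⁅(P : Subgroup X), (P : Subgroup X)⁆.relIndex (P : Subgroup X) ∣ p ^ k := by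
      rw [← hk]
      exact Subgroup.index_dvd_card _
    apply Nat.Coprime.coprime_dvd_right h2
    apply Nat.Coprime.pow_right
    exact ((Nat.Prime.coprime_iff_not_dvd hp).2 P.not_dvd_index).symm
  obtain ⟨-, M, hMn, hM1, hM2⟩ := Cfsg.Agent.S0080.result (P : Subgroup X) hcop
  have hT : HasNormalPComplement p M := by
    apply Cfsg.Agent.S0081.result P M
    rw [hM1, inf_comm]
    refine h1.trans ?_
    rw [← Subgroup.map_subtype_commutator]
    exact Subgroup.map_mono (Cfsg.Agent.Lib.Helper2.commutator_le_frattini P.2)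
  rw [Cfsg.Agent.Lib.Helper2.hasNormalPComplement_iff] at hT ⊢
  have hres : pResidual p X ≤ M := by
    apply Cfsg.Agent.Lib.Helper2.pResidual_le_of_isPGroup_quotient
    intro q
    obtain ⟨x, rfl⟩ := QuotientGroup.mk'_surjective M q
    have hx : x ∈ ((M ⊔ (P : Subgroup X) : Subgroup X) : Set X) := by
      rw [hM2]; trivial
    rw [Subgroup.normal_mul] at hx
    obtain ⟨m, hm, y, hy, rfl⟩ := hx
    obtain ⟨k, hk⟩ := P.2 ⟨y, hy⟩
    refine ⟨k, ?_⟩
    have h3 : QuotientGroup.mk' M (m * y) = QuotientGroup.mk' M y := by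
      have h6 : QuotientGroup.mk' M m = 1 := (QuotientGroup.eq_one_iff m).2 hm
      rw [map_mul, h6, one_mul]
    rw [h3, ← map_pow]
    have h4 : y ^ p ^ k = 1 := by
      have := congrArg Subtype.val hk
      simpa using this
    rw [h4, map_one]
  have h5 := Cfsg.Agent.Lib.Helper2.map_pResidual_subtype_eq p M hres
  rw [← h5, Subgroup.card_map_of_injective M.subtype_injective]
  exact hT

/-- degrees prime to `p` -/
theorem degree_coprime {Y : Type*} [Group Y] [Finite Y] {p : ℕ} (Q : Subgroup Y) [Q.Normal]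
    (hQ : ¬ p ∣ Q.index) (R : Subgroup Y) [R.Normal] (hR : ⁅Q, Q⁆ ≤ R) (θ : IrrCharacter Y)
    (hθ : ∀ r ∈ R, (θ : Y → ℂ) r = (θ : Y → ℂ) 1) : ¬ p ∣ charDegree (θ : Y → ℂ) := by
  obtain ⟨ψ, ⟨n, ρ, hirr, rfl⟩, hψθ⟩ := exists_deflate_irr R θ.2 hθ
  have hQn : (Q.map (QuotientGroup.mk' R)).Normal :=
    Subgroup.Normal.map inferInstance _ (QuotientGroup.mk'_surjective R)
  have hab : ∀ a ∈ Q.map (QuotientGroup.mk' R), ∀ b ∈ Q.map (QuotientGroup.mk' R),
      a * b = b * a := by
    rintro _ ⟨x, hx, rfl⟩ _ ⟨y, hy, rfl⟩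
    have h1 : ⁅x, y⁆ ∈ R := hR (Subgroup.commutator_mem_commutator hx hy)
    have h2 : QuotientGroup.mk' R ⁅x, y⁆ = 1 := (QuotientGroup.eq_one_iff _).2 h1
    rw [map_commutatorElement, commutatorElement_eq_one_iff_mul_comm] at h2
    exact h2
  have h1 := Cfsg.Agent.S0169.result ρ (Q.map (QuotientGroup.mk' R)) hab
  have h2 : (Q.map (QuotientGroup.mk' R)).index ∣ Q.index :=
    Subgroup.index_map_dvd Q (QuotientGroup.mk'_surjective R)
  have h3 : charDegree (θ : Y → ℂ) = n := by
    have h4 : charDegree (θ : Y → ℂ) = charDegree ρ.character := by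
      unfold charDegree
      rw [← hψθ 1]
      rfl
    rw [h4, charDegree_of_rep]
  rw [h3]
  intro h5
  apply hQ
  refine h5.trans (dvd_trans ?_ h2)
  simpa using h1

/-- If all irreducible characters of `N / R` extend to `G`, then the normal closure of `R` meets
`N` in `R`. -/
theorem lemB {G : Type*} [Group G] [Finite G] (N : Subgroup G) (R : Subgroup N) [R.Normal]
    (hext : ∀ θ : IrrCharacter N, (∀ r ∈ R, (θ : N → ℂ) r = (θ : N → ℂ) 1) →
      ∃ χ : IrrCharacter G, ∀ x : N, (χ : G → ℂ) x = (θ : N → ℂ) x)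
    (x : N) (hx : (x : G) ∈ Subgroup.normalClosure ((R.map N.subtype : Subgroup G) : Set G)) :
    x ∈ R := by
  by_contra hxR
  obtain ⟨θ, hθ1, hθ2⟩ := exists_irr_ker_ne R hxR
  obtain ⟨χ, hχ⟩ := hext θ hθ1
  have hχc := isCharacter_of_irr χ.2
  have hn := charKer_normal hχc
  have hle : Subgroup.normalClosure ((R.map N.subtype : Subgroup G) : Set G) ≤ charKer χ.1 hχc := by
    apply Subgroup.normalClosure_le_normal
    rintro _ ⟨r, hr, rfl⟩
    show (χ : G → ℂ) (r : G) = (χ : G → ℂ) 1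
    rw [hχ r, hθ1 r hr, ← hχ 1]
    rfl
  have h1 : (χ : G → ℂ) (x : G) = (χ : G → ℂ) 1 := hle hx
  apply hθ2
  rw [← hχ x, h1, ← hχ 1]
  rfl

/-- The forward direction. -/
theorem forward {G : Type*} [Group G] [Finite G] (p : ℕ) [Fact p.Prime] (P : Sylow p G)
    (h : ∀ θ : Cfsg.IrrCharacter ↥(Subgroup.normalizer ((P : Subgroup G) : Set G)), ¬ p ∣ Cfsg.charDegree (θ : ↥(Subgroup.normalizer ((P : Subgroup G) : Set G)) → ℂ) →
        ∃ χ : Cfsg.IrrCharacter G, ∀ x : ↥(Subgroup.normalizer ((P : Subgroup G) : Set G)), (χ : G → ℂ) x = (θ : ↥(Subgroup.normalizer ((P : Subgroup G) : Set G)) → ℂ) x) :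
    ∃ K : Subgroup G, K.Normal ∧ K ⊔ Subgroup.normalizer ((P : Subgroup G) : Set G) = ⊤ ∧ K ⊓ Subgroup.normalizer ((P : Subgroup G) : Set G) = ⊥ := by
  have hp : p.Prime := Fact.out
  set N : Subgroup G := Subgroup.normalizer ((P : Subgroup G) : Set G) with hNdef
  have hPN : (P : Subgroup G) ≤ N := Subgroup.le_normalizer
  set P₁ : Subgroup N := (P : Subgroup G).subgroupOf N with hP₁
  have hP₁n : P₁.Normal := Subgroup.normal_in_normalizer
  have hP₁map : P₁.map N.subtype = (P : Subgroup G) := by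
    rw [hP₁, Subgroup.subgroupOf_map_subtype, inf_of_le_left hPN]
  have hidx : ¬ p ∣ P₁.index := by
    intro hd
    apply P.not_dvd_index
    have h1 : P₁.index = (P : Subgroup G).relIndex N := rfl
    rw [← Subgroup.relIndex_mul_index hPN, ← h1]
    exact Dvd.dvd.mul_right hd _
  set R : Subgroup N := ⁅P₁, P₁⁆ with hR
  have hRn : R.Normal := Subgroup.commutator_normal P₁ P₁
  have hRmap : R.map N.subtype = ⁅(P : Subgroup G), (P : Subgroup G)⁆ := by
    rw [hR, Subgroup.map_commutator, hP₁map]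
  have hB1 := lemB N P₁ (fun θ hθ => h θ (degree_coprime P₁ hidx P₁
    (Subgroup.commutator_le_left P₁ P₁) θ hθ))
  have hB2 := lemB N R (fun θ hθ => h θ (degree_coprime P₁ hidx R le_rfl θ hθ))
  rw [hP₁map] at hB1
  rw [hRmap] at hB2
  set G₀ : Subgroup G := Subgroup.normalClosure ((P : Subgroup G) : Set G) with hG₀
  set L : Subgroup G :=
    Subgroup.normalClosure ((⁅(P : Subgroup G), (P : Subgroup G)⁆ : Subgroup G) : Set G) with hL
  have hPG₀ : (P : Subgroup G) ≤ G₀ := Subgroup.le_normalClosure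
  have hG₀n : G₀.Normal := Subgroup.normalClosure_normal
  have hLn : L.Normal := Subgroup.normalClosure_normal
  let P₀ : Sylow p G₀ := P.subtype hPG₀
  have hP₀ : (P₀ : Subgroup G₀) = (P : Subgroup G).subgroupOf G₀ := P.coe_subtype hPG₀
  have hP₀map : (P₀ : Subgroup G₀).map G₀.subtype = (P : Subgroup G) := by
    rw [hP₀, Subgroup.subgroupOf_map_subtype, inf_of_le_left hPG₀]
  have hcomm₀ : (⁅(P₀ : Subgroup G₀), (P₀ : Subgroup G₀)⁆).map G₀.subtype
      = ⁅(P : Subgroup G), (P : Subgroup G)⁆ := by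
    rw [Subgroup.map_commutator, hP₀map]
  have hA : HasNormalPComplement p G₀ := by
    apply lemA P₀ ?_ (L.subgroupOf G₀) ?_ ?_
    · intro x hx
      rw [hP₀, Subgroup.mem_subgroupOf]
      have hxN : (x : G) ∈ N := by
        rw [hNdef, Subgroup.mem_normalizer_iff]
        rw [Subgroup.mem_normalizer_iff] at hx
        intro y
        constructor
        · intro hy
          have h1 := (hx ⟨y, hPG₀ hy⟩).1 (by rw [hP₀, Subgroup.mem_subgroupOf]; exact hy)
          rw [hP₀, Subgroup.mem_subgroupOf] at h1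
          exact h1
        · intro hy
          have hy' : y ∈ G₀ := by
            have h2 := hG₀n.conj_mem _ (hPG₀ hy) (x : G)⁻¹
            have h3 : (x : G)⁻¹ * ((x : G) * y * (x : G)⁻¹) * ((x : G)⁻¹)⁻¹ = y := by group
            rwa [h3] at h2
          have h1 := (hx ⟨y, hy'⟩).2 (by rw [hP₀, Subgroup.mem_subgroupOf]; exact hy)
          rw [hP₀, Subgroup.mem_subgroupOf] at h1
          exact h1
      exact hB1 ⟨x, hxN⟩ x.2
    · intro x hx
      rw [Subgroup.mem_subgroupOf]
      have h1 : (x : G) ∈ (⁅(P₀ : Subgroup G₀), (P₀ : Subgroup G₀)⁆).map G₀.subtype :=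
        Subgroup.mem_map_of_mem G₀.subtype hx
      rw [hcomm₀] at h1
      exact Subgroup.le_normalClosure h1
    · rintro x ⟨hx1, hx2⟩
      have hx2' : (x : G) ∈ (P : Subgroup G) := by
        have : x ∈ (P₀ : Subgroup G₀) := hx2
        rw [hP₀, Subgroup.mem_subgroupOf] at this
        exact this
      have h1 : (⟨x, hPN hx2'⟩ : N) ∈ R := hB2 ⟨x, hPN hx2'⟩ hx1
      have h2 : (x : G) ∈ R.map N.subtype := ⟨_, h1, rfl⟩
      rw [hRmap, ← hcomm₀] at h2
      obtain ⟨y, hy, hyx⟩ := h2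
      have : y = x := Subtype.ext hyx
      rwa [this] at hy
  rw [Cfsg.Agent.Lib.Helper2.hasNormalPComplement_iff] at hA
  refine ⟨(pResidual p G₀).map G₀.subtype, ConjAct.normal_of_characteristic_of_normal, ?_, ?_⟩
  · have h1 := Cfsg.Agent.Lib.Helper2.pResidual_sup_sylow P₀
    have h2 := congrArg (Subgroup.map G₀.subtype) h1
    rw [Subgroup.map_sup, hP₀map, ← MonoidHom.range_eq_map, Subgroup.range_subtype] at h2
    have h3 : N ⊔ G₀ = ⊤ := Sylow.normalizer_sup_eq_top' P hPG₀
    have h4 : G₀ ≤ (pResidual p G₀).map G₀.subtype ⊔ N :=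
      le_trans (le_of_eq h2.symm) (sup_le_sup_left hPN _)
    rw [eq_top_iff]
    exact le_trans (le_of_eq h3.symm) (sup_le le_sup_right h4)
  · rw [eq_bot_iff]
    rintro x ⟨⟨y, hy, rfl⟩, hxN⟩
    have hxP : ((⟨(y : G), hxN⟩ : N)) ∈ P₁ := hB1 ⟨(y : G), hxN⟩ y.2
    have hxP' : (y : G) ∈ (P : Subgroup G) := hxP
    obtain ⟨k, hk⟩ := P.2 ⟨(y : G), hxP'⟩
    have hk' : (y : G) ^ p ^ k = 1 := by
      have := congrArg Subtype.val hk
      simpa using this
    have h1 : orderOf y ∣ Nat.card (pResidual p G₀) := by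
      have := orderOf_dvd_natCard (⟨y, hy⟩ : pResidual p G₀)
      rwa [Subgroup.orderOf_mk] at this
    have h2 : orderOf y ∣ p ^ k := by
      rw [orderOf_dvd_iff_pow_eq_one]
      exact Subtype.ext (by simpa using hk')
    have h3 : orderOf y = 1 :=
      Nat.eq_one_of_dvd_coprimes (Nat.Coprime.pow_right k hA) h1 h2
    rw [orderOf_eq_one_iff] at h3
    rw [h3]
    exact Subgroup.one_mem _

/-- Let G be a finite group, p a prime and P a Sylow p-subgroup of G with normalizer N. Then every irreducible complex character of N of degree not divisible by p is the restriction of an irreducible character of G if and only if there is a normal subgroup K of G with KN = G and K ∩ N = 1. -/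
theorem result {G : Type*} [Group G] [Finite G] (p : ℕ) [Fact p.Prime] (P : Sylow p G) :
    (∀ θ : Cfsg.IrrCharacter ↥(Subgroup.normalizer ((P : Subgroup G) : Set G)), ¬ p ∣ Cfsg.charDegree (θ : ↥(Subgroup.normalizer ((P : Subgroup G) : Set G)) → ℂ) →
        ∃ χ : Cfsg.IrrCharacter G, ∀ x : ↥(Subgroup.normalizer ((P : Subgroup G) : Set G)), (χ : G → ℂ) x = (θ : ↥(Subgroup.normalizer ((P : Subgroup G) : Set G)) → ℂ) x) ↔
      ∃ K : Subgroup G, K.Normal ∧ K ⊔ Subgroup.normalizer ((P : Subgroup G) : Set G) = ⊤ ∧ K ⊓ Subgroup.normalizer ((P : Subgroup G) : Set G) = ⊥ := by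
  refine ⟨forward p P, ?_⟩
  generalize Subgroup.normalizer ((P : Subgroup G) : Set G) = N
  rintro ⟨K, hKn, hK1, hK2⟩ θ -
  have hc : N.IsComplement' K := by
    apply Subgroup.isComplement'_of_disjoint_and_mul_eq_univ
    · rw [disjoint_iff, inf_comm]; exact hK2
    · rw [← Subgroup.mul_normal, sup_comm, hK1]; rfl
  let f : G →* N := (hc.QuotientMulEquiv : G ⧸ K →* N).comp (QuotientGroup.mk' K)
  have hf : Function.Surjective f :=
    hc.QuotientMulEquiv.surjective.comp (QuotientGroup.mk'_surjective K)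
  have hfx : ∀ x : N, f x = x := by
    intro x
    show hc.QuotientMulEquiv (QuotientGroup.mk' K (x : G)) = x
    rw [← MulEquiv.eq_symm_apply]
    rfl
  refine ⟨⟨fun g => (θ : N → ℂ) (f g), isIrrCharacter_comp f hf θ.2⟩, fun x => ?_⟩
  show (θ : N → ℂ) (f x) = _
  rw [hfx]

end Cfsg.Agent.S4931
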