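import Cfsg.Statements.S4969
import Mathlib
import Cfsg.Agent.S0133
import Cfsg.Agent.S0145

set_option autoImplicit false
open Cfsg

namespace Cfsg.Agent.S4969

/-- Let G be a finite group with k conjugacy classes, g ∈ G, and N > 0. Then the sum over the irreducible complex characters χ of G with χ(1) ≥ N of |χ(g)|/χ(1) is at most √(k · #C_G(g)) / N. -/
theorem result {G : Type*} [Group G] [Finite G] (g : G) (N : ℝ) (hN : 0 < N) :
    ∑ᶠ χ : Cfsg.IrrCharacter G, (if N ≤ ‖(χ : G → ℂ) 1‖ then ‖(χ : G → ℂ) g‖ / ‖(χ : G → ℂ) 1‖ else 0) ≤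
      Real.sqrt ((Nat.card (ConjClasses G) : ℝ) * (Nat.card ↥(Subgroup.centralizer ({g} : Set G)) : ℝ)) / N := by
  classical
  have hk : Nat.card (Cfsg.IrrCharacter G) = Nat.card (ConjClasses G) := Cfsg.Agent.S0133.result
  have hfin : Finite (Cfsg.IrrCharacter G) := Nat.finite_of_card_ne_zero (by
    rw [hk]; exact Nat.card_pos.ne')
  have := Fintype.ofFinite (Cfsg.IrrCharacter G)
  have h2 := (Cfsg.Agent.S0145.result g g).1 (IsConj.refl g)
  rw [finsum_eq_sum_of_fintype] at h2 ⊢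
  have h3 : ∑ χ : Cfsg.IrrCharacter G, ‖(χ : G → ℂ) g‖ ^ 2 =
      (Nat.card ↥(Subgroup.centralizer ({g} : Set G)) : ℝ) := by
    have : ((∑ χ : Cfsg.IrrCharacter G, ‖(χ : G → ℂ) g‖ ^ 2 : ℝ) : ℂ) =
        ((Nat.card ↥(Subgroup.centralizer ({g} : Set G)) : ℝ) : ℂ) := by
      push_cast
      rw [← h2]
      refine Finset.sum_congr rfl (fun χ _ => ?_)
      rw [Complex.mul_conj, Complex.normSq_eq_norm_sq]
      push_cast
      rfl
    exact_mod_cast this
  have h4 : ∑ χ : Cfsg.IrrCharacter G, ‖(χ : G → ℂ) g‖ ≤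
      Real.sqrt ((Nat.card (ConjClasses G) : ℝ) * (Nat.card ↥(Subgroup.centralizer ({g} : Set G)) : ℝ)) := by
    apply Real.le_sqrt_of_sq_le
    have := sq_sum_le_card_mul_sum_sq (s := (Finset.univ : Finset (Cfsg.IrrCharacter G)))
      (f := fun χ => ‖(χ : G → ℂ) g‖)
    rw [h3, Finset.card_univ, ← Nat.card_eq_fintype_card, hk] at this
    exact this
  calc ∑ χ : Cfsg.IrrCharacter G, (if N ≤ ‖(χ : G → ℂ) 1‖ then ‖(χ : G → ℂ) g‖ / ‖(χ : G → ℂ) 1‖ else 0)
      ≤ ∑ χ : Cfsg.IrrCharacter G, ‖(χ : G → ℂ) g‖ / N := by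
        refine Finset.sum_le_sum (fun χ _ => ?_)
        split_ifs with h
        · exact div_le_div_of_nonneg_left (norm_nonneg _) hN h
        · positivity
    _ = (∑ χ : Cfsg.IrrCharacter G, ‖(χ : G → ℂ) g‖) / N := by rw [Finset.sum_div]
    _ ≤ _ := by gcongr

end Cfsg.Agent.S4969
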