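import Cfsg.Statements.S5001
import Cfsg.Agent.Lib.Helper76.HeightZeroLin

set_option autoImplicit false
open Cfsg Cfsg.Agent.Lib.Helper76 Cfsg.Agent.Lib.Helper80

namespace Cfsg.Agent.S5001

/-- Let p be a prime, G a finite group and B a p-block of G (relative to a maximal ideal M of the algebraic integers containing p) with defect group D. Let Z be a central p-subgroup of G contained in D and λ a linear character of Z (a homomorphism to the nonzero complex numbers). Say an irreducible character χ of G lies over λ when χ(z) = χ(1)λ(z) for all z ∈ Z. If some irreducible character in B lying over λ has height zero, then λ extends to a linear character of D. -/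
theorem result {G : Type*} [Group G] [Finite G] (p : ℕ) [Fact p.Prime] (M : Ideal Cfsg.AlgInt) (hM : Cfsg.IsPModular p M) (B : Set (Cfsg.IrrCharacter G)) (hB : Cfsg.IsPBlock M B) (D : Subgroup G) (hD : Cfsg.IsDefectGroup p M B D) (Z : Subgroup G) (hZc : Z ≤ Subgroup.center G) (hZp : IsPGroup p ↥Z) (hZD : Z ≤ D) (lam : ↥Z →* ℂˣ) (χ : Cfsg.IrrCharacter G) (hχ : χ ∈ B) (hover : (∀ z : ↥Z, (χ : G → ℂ) z = (χ : G → ℂ) 1 * (lam z : ℂ))) (h0 : Cfsg.blockHeight p B (χ : G → ℂ) = 0) : (∃ μ : ↥D →* ℂˣ, ∀ z : ↥Z, μ ⟨(z : G), hZD z.2⟩ = lam z) := by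
  classical
  let _ : Fintype G := Fintype.ofFinite G
  obtain ⟨g, hg, P, rfl⟩ := hD
  let _ : Fintype (Subgroup.centralizer ({g} : Set G)) := Fintype.ofFinite _
  let _ : Fintype (P : Subgroup (Subgroup.centralizer ({g} : Set G))) := Fintype.ofFinite _
  obtain ⟨ξ, μ, hξ, hμ, hμ1⟩ := exists_linear_of_height_zero hM hB hg P hχ h0
  have hμc := Cfsg.Agent.Lib.Helper80.isCharacter_of_irr μ.2
  obtain ⟨f, hf⟩ := exists_hom_of_degree_one hμc
    (by rw [char_one_eq_charDegree hμc, hμ1, Nat.cast_one])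
  obtain ⟨ω, hω⟩ := irr_central_char χ.2
  obtain ⟨ω', hω'⟩ := irr_central_char ξ.2
  have hχ1 : (χ : G → ℂ) 1 ≠ 0 := char_one_ne_zero_of_irr χ.2
  set e := (P : Subgroup (Subgroup.centralizer ({g} : Set G))).equivMapOfInjective
    (Subgroup.centralizer ({g} : Set G)).subtype (Subgroup.subtype_injective _) with he
  refine ⟨f.comp e.symm.toMonoidHom, fun z => ?_⟩
  obtain ⟨zC, hzP, hzC⟩ := hZD z.2
  have hzC' : (zC : G) = z := hzC
  have hsym : e.symm ⟨(z : G), hZD z.2⟩ = ⟨zC, hzP⟩ := by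
    rw [MulEquiv.symm_apply_eq]
    apply Subtype.ext
    exact hzC.symm
  have hzcen : (z : G) ∈ Subgroup.center G := hZc z.2
  -- `z` acts on `χ` by `lam z`
  have h1 : ∀ h : G, (χ : G → ℂ) ((z : G) * h) = (lam z : ℂ) * (χ : G → ℂ) h := by
    intro h
    have e1 := hω ⟨z, hzcen⟩ 1
    rw [mul_one] at e1
    have e2 : ((ω ⟨z, hzcen⟩ : ℂˣ) : ℂ) = (lam z : ℂ) := by
      have e3 := hover z
      change (χ : G → ℂ) (z : G) = _ at e1
      rw [e1, mul_comm] at e3
      exact mul_left_cancel₀ hχ1 e3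
    rw [← e2]
    exact hω ⟨z, hzcen⟩ h
  have hzCcen : zC ∈ Subgroup.center (Subgroup.centralizer ({g} : Set G)) := by
    rw [Subgroup.mem_center_iff]
    intro x
    apply Subtype.ext
    show (x : G) * (zC : G) = (zC : G) * (x : G)
    rw [hzC']
    exact Subgroup.mem_center_iff.mp hzcen x
  have h2 : (lam z : ℂ) = ((ω' ⟨zC, hzCcen⟩ : ℂˣ) : ℂ) :=
    scalar_eq_of_constituent (z := zC)
      (fun h => by
        show (χ : G → ℂ) ((zC : G) * (h : G)) = _
        rw [hzC']; exact h1 h)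
      (fun h => hω' ⟨zC, hzCcen⟩ h) (hom_mul_conj_eq_one ω' _) hξ
  have h3 : (lam z : ℂ) = ((f ⟨zC, hzP⟩ : ℂˣ) : ℂ) :=
    scalar_eq_of_constituent (z := (⟨zC, hzP⟩ : (P : Subgroup (Subgroup.centralizer ({g} : Set G)))))
      (fun h => by
        show ξ.1 (zC * (h : Subgroup.centralizer ({g} : Set G))) = _
        rw [h2]
        exact hω' ⟨zC, hzCcen⟩ h)
      (fun h => by
        rw [hf, hf, map_mul, Units.val_mul]) (hom_mul_conj_eq_one f _) hμ
  apply Units.ext
  rw [h3]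
  show ((f (e.symm ⟨(z : G), hZD z.2⟩) : ℂˣ) : ℂ) = _
  rw [hsym]

end Cfsg.Agent.S5001
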