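import Mathlib
import Cfsg.Statements.S5112
import Cfsg.Agent.S3116
import Cfsg.Agent.S1896
import Cfsg.Agent.Lib.Helper88.FusAbelian
import Cfsg.Agent.Lib.Helper84.FusionEssential

set_option autoImplicit false
open Cfsg

namespace Cfsg.Agent.S5112

theorem isMetacyclic_of_index_two {X : Type*} [Group X] (x : X) (h : (Subgroup.zpowers x).index = 2) :
    Cfsg.IsMetacyclic X := by
  have hn : (Subgroup.zpowers x).Normal := Subgroup.normal_of_index_eq_two h
  refine ⟨Subgroup.zpowers x, hn, inferInstance, ?_⟩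
  have : Fact (Nat.Prime 2) := ⟨Nat.prime_two⟩
  exact isCyclic_of_prime_card (p := 2) h

/-- If S is a dihedral or generalized quaternion 2-group of order at least 16, then in every saturated fusion system over S (at the prime 2) the automorphism group Aut_F(S) consists of the inner automorphisms of S. -/
theorem result {Ω : Type*} [Group Ω] {S : Subgroup Ω} [Finite S] (n : ℕ) (hn : 4 ≤ n) (hshape : Nonempty (S ≃* DihedralGroup (2 ^ (n - 1))) ∨ Nonempty (S ≃* QuaternionGroup (2 ^ (n - 2)))) (F : Cfsg.FusionSystem S) (hF : F.IsSaturated 2) : F.autGroup S = Cfsg.Inn S := by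
  have : Fact (Nat.Prime 2) := ⟨Nat.prime_two⟩
  obtain ⟨m, rfl⟩ : ∃ m, n = m + 4 := ⟨n - 4, by omega⟩
  have hAut : IsPGroup 2 (MulAut S) := by
    rcases hshape with ⟨⟨e⟩⟩ | ⟨⟨e⟩⟩
    · have hcard : Nat.card S = 2 ^ (m + 4) := by
        rw [Nat.card_congr e.toEquiv, DihedralGroup.nat_card]
        have : m + 4 - 1 = m + 3 := by omega
        rw [this]; ring
      refine Cfsg.Agent.S3116.result (IsPGroup.of_card hcard) (Or.inl ⟨2 ^ (m + 4 - 1), ?_, ⟨e⟩⟩)
      have : m + 4 - 1 = m + 3 := by omega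
      rw [this]
      calc 4 ≤ 2 ^ 3 := by norm_num
        _ ≤ 2 ^ (m + 3) := Nat.pow_le_pow_right (by norm_num) (by omega)
    · have h2 : m + 4 - 2 = m + 2 := by omega
      rw [h2] at e
      have : NeZero (2 ^ (m + 2)) := ⟨by positivity⟩
      have hcard : Nat.card S = 2 ^ (m + 4) := by
        rw [Nat.card_congr e.toEquiv, Nat.card_eq_fintype_card, QuaternionGroup.card]
        ring
      by_contra hA
      have hmeta : Cfsg.IsMetacyclic S := by
        apply isMetacyclic_of_index_two (e.symm (QuaternionGroup.a 1))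
        have h1 := (Subgroup.zpowers (e.symm (QuaternionGroup.a 1))).card_mul_index
        rw [Nat.card_zpowers, MulEquiv.orderOf_eq, QuaternionGroup.orderOf_a_one, hcard] at h1
        have h3 : 2 * 2 ^ (m + 2) * (Subgroup.zpowers (e.symm (QuaternionGroup.a 1))).index
            = 2 * 2 ^ (m + 2) * 2 := by rw [h1]; ring
        exact Nat.eq_of_mul_eq_mul_left (by positivity) h3
      rcases Cfsg.Agent.S1896.result (IsPGroup.of_card hcard) hmeta hA with ⟨⟨e'⟩⟩ | ⟨k, ⟨e'⟩⟩
      · have h1 := Nat.card_congr e'.toEquiv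
        rw [hcard, Nat.card_eq_fintype_card, QuaternionGroup.card] at h1
        have : 2 ^ 4 ≤ 2 ^ (m + 4) := Nat.pow_le_pow_right (by norm_num) (by omega)
        omega
      · have hcomm : ∀ x y : QuaternionGroup (2 ^ (m + 2)), x * y = y * x := by
          intro x y
          apply (e.symm.trans e').injective
          rw [map_mul, map_mul, mul_comm]
        have h1 := hcomm (QuaternionGroup.a 1) (QuaternionGroup.xa 0)
        rw [QuaternionGroup.a_mul_xa, QuaternionGroup.xa_mul_a] at h1
        have h3 : (0 : ZMod (2 * 2 ^ (m + 2))) - 1 = 0 + 1 := by injection h1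
        have h4 : ((2 : ℕ) : ZMod (2 * 2 ^ (m + 2))) = 0 := by
          have : (0 : ZMod (2 * 2 ^ (m + 2))) = 1 + 1 := by
            linear_combination h3
          push_cast
          rw [this]; norm_num
        rw [ZMod.natCast_eq_zero_iff] at h4
        have h5 := Nat.le_of_dvd (by norm_num) h4
        have : 2 ^ 2 ≤ 2 ^ (m + 2) := Nat.pow_le_pow_right (by norm_num) (by omega)
        omega
  obtain ⟨-, R, hR⟩ := Cfsg.Agent.Lib.Helper88.fullyAutomized_top 2 F hF
  have hA2 : IsPGroup 2 (⊤ : Subgroup (F.autGroup S)) :=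
    (hAut.to_subgroup (F.autGroup S)).to_subgroup ⊤
  have hRtop : (⊤ : Subgroup (F.autGroup S)) = R := R.is_maximal' hA2 le_top
  apply le_antisymm
  · intro α hα
    have h1 : (⟨α, hα⟩ : F.autGroup S) ∈ (R : Subgroup (F.autGroup S)) := by
      rw [← hRtop]; trivial
    rw [hR, Subgroup.mem_subgroupOf, Cfsg.Agent.Lib.Helper84.mem_autInducedBy_iff] at h1
    obtain ⟨g, hg, h⟩ := h1
    refine ⟨⟨g, hg⟩, ?_⟩
    ext x
    exact (h x).symm
  · exact Cfsg.Agent.Lib.Helper84.inn_le_autGroup F le_rfl

end Cfsg.Agent.S5112
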