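import Cfsg.Statements.S5125
import Cfsg.Agent.Lib.Helper84.FusionSeries
import Cfsg.Agent.Lib.Helper85.FusBasic

set_option autoImplicit false
open Cfsg

namespace Cfsg.Agent.S5125

open Cfsg.FusionSystem Cfsg.Agent.Lib.Helper84
open scoped commutatorElement

/-- Let F be a saturated fusion system over a finite p-group S and Q a subgroup strongly closed in F. If Q has a subgroup Q₁ that is normal in F, with Q/Q₁ abelian and Aut_F(Q₁) a p-group, then Q is normal in F. -/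
theorem result {Ω : Type*} [Group Ω] {S : Subgroup Ω} [Finite S] (p : ℕ) [Fact p.Prime] (hS : IsPGroup p S) (F : Cfsg.FusionSystem S) (hF : F.IsSaturated p) (Q Q₁ : Subgroup Ω) (hQ : F.StronglyClosed Q) (hQ₁Q : Q₁ ≤ Q) (hQ₁ : F.IsNormal Q₁) (hab : ⁅Q, Q⁆ ≤ Q₁) (hAut : IsPGroup p ↥(F.autGroup Q₁)) : F.IsNormal Q := by
  have hQ₁sc : F.StronglyClosed Q₁ := normal_stronglyClosed hQ₁
  have hQ₁S : Q₁ ≤ S := hQ₁.1
  have hfinQ₁ : Finite Q₁ := finite_of_le hQ₁S
  -- `Q₁` is fully normalized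
  have hfn : F.IsFullyNormalized Q₁ := by
    refine ⟨hQ₁S, fun R hR => ?_⟩
    have hcard := isConj_card_eq hR
    obtain ⟨φ, hφ, rfl⟩ := hR
    have hle : φ.range ≤ Q₁ := by
      rintro _ ⟨x, rfl⟩
      exact hQ₁sc.2 Q₁ le_rfl φ hφ x
    rw [Subgroup.eq_of_le_of_card_ge hle hcard.le]
  have hfa := (sat_fullyNormalized hS hF hfn).2.1
  have hAutS : F.autGroup Q₁ = autInducedBy S Q₁ := autGroup_eq_autInducedBy_of_isPGroup F hfa hAut
  -- subgroups of `Q₁` normal in `S` are strongly closed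
  have hsc : ∀ D : Subgroup Ω, D ≤ Q₁ → S ≤ Subgroup.normalizer (D : Set Ω) →
      F.StronglyClosed D := by
    intro D hD hDn
    refine ⟨hD.trans hQ₁S, fun R hR φ hφ x => ?_⟩
    obtain ⟨ψ, hψ, hψR, hψQ⟩ := hQ₁.2 R φ hφ
    have hM := mor_restrictEquiv F hψ (le_sup_right : Q₁ ≤ R ⊔ Q₁) hψQ
    have hmem : restrictEquiv ψ (F.injective_of_mem hψ) (le_sup_right : Q₁ ≤ R ⊔ Q₁) hψQ ∈
        F.autGroup Q₁ := (mem_autGroup_iff F hQ₁S _).mpr hM
    rw [hAutS] at hmem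
    obtain ⟨s, hs, hsx⟩ := (mem_autInducedBy_iff S Q₁ _).mp hmem
    have h1 := hsx ⟨x, hD (hR x.2)⟩
    rw [restrictEquiv_apply] at h1
    have h2 : ψ ⟨x, (le_sup_right : Q₁ ≤ R ⊔ Q₁) (hD (hR x.2))⟩ = φ x := by
      rw [← hψR]; rfl
    rw [← h2, h1]
    exact conj_mem_of_mem_normalizer (hDn hs) (hR x.2)
  rw [normal_iff_stronglyClosed hS F hF]
  refine ⟨hQ, fun P hc hr => ?_⟩
  have hnil : Group.IsNilpotent S := hS.isNilpotent
  obtain ⟨m, hm⟩ := Group.IsNilpotent.nilpotent S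
  let Zs : ℕ → Subgroup Ω := fun i => (Subgroup.upperCentralSeries S i).map S.subtype
  have hZm : Zs m = S := by
    show (Subgroup.upperCentralSeries S m).map S.subtype = S
    rw [hm, ← MonoidHom.range_eq_map, Subgroup.range_subtype]
  have hZmono : Monotone Zs := fun i j hij => Subgroup.map_mono (Subgroup.upperCentralSeries_mono S hij)
  have hZn : ∀ i, S ≤ Subgroup.normalizer (Zs i : Set Ω) := by
    intro i s hs
    apply mem_normalizer_of_conj_mem
    · rintro _ ⟨z, hz, rfl⟩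
      exact ⟨⟨s, hs⟩ * z * ⟨s, hs⟩⁻¹, (inferInstance : (Subgroup.upperCentralSeries S i).Normal).conj_mem z hz _, rfl⟩
    · rintro _ ⟨z, hz, rfl⟩
      refine ⟨⟨s, hs⟩⁻¹ * z * ⟨s, hs⟩, ?_, rfl⟩
      have := (inferInstance : (Subgroup.upperCentralSeries S i).Normal).conj_mem z hz ⟨s, hs⟩⁻¹
      simpa using this
  have hQ₁n : S ≤ Subgroup.normalizer (Q₁ : Set Ω) := stronglyClosed_le_normalizer hQ₁sc
  have hDn : ∀ i, S ≤ Subgroup.normalizer ((Q₁ ⊓ Zs i : Subgroup Ω) : Set Ω) := by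
    intro i s hs
    apply mem_normalizer_of_conj_mem
    · intro h hh
      exact ⟨conj_mem_of_mem_normalizer (hQ₁n hs) hh.1, conj_mem_of_mem_normalizer (hZn i hs) hh.2⟩
    · intro h hh
      exact ⟨inv_conj_mem_of_mem_normalizer (hQ₁n hs) hh.1,
        inv_conj_mem_of_mem_normalizer (hZn i hs) hh.2⟩
  let Qc : ℕ → Subgroup Ω := fun i => if i ≤ m then Q₁ ⊓ Zs i else Q
  refine series_le_centric_radical hS Qc (m + 1) ?_ ?_ ?_ ?_ ?_ hc hr
  · apply monotone_nat_of_le_succ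
    intro n
    show (if n ≤ m then Q₁ ⊓ Zs n else Q) ≤ (if n + 1 ≤ m then Q₁ ⊓ Zs (n + 1) else Q)
    split_ifs with h1 h2 h2
    · exact inf_le_inf_left _ (hZmono (Nat.le_succ n))
    · exact inf_le_left.trans hQ₁Q
    · omega
    · exact le_rfl
  · show (if 0 ≤ m then Q₁ ⊓ Zs 0 else Q) = ⊥
    rw [if_pos (Nat.zero_le m)]
    show Q₁ ⊓ (Subgroup.upperCentralSeries S 0).map S.subtype = ⊥
    rw [Subgroup.upperCentralSeries_zero, Subgroup.map_bot, inf_bot_eq]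
  · show (if m + 1 ≤ m then Q₁ ⊓ Zs (m + 1) else Q) = Q
    rw [if_neg (by omega)]
  · intro i
    show F.StronglyClosed (if i ≤ m then Q₁ ⊓ Zs i else Q)
    split_ifs with h1
    · exact hsc _ inf_le_left (hDn i)
    · exact hQ
  · intro i
    show ⁅Q, (if i + 1 ≤ m then Q₁ ⊓ Zs (i + 1) else Q)⁆ ≤ (if i ≤ m then Q₁ ⊓ Zs i else Q)
    split_ifs with h1 h2 h2
    · rw [Subgroup.commutator_le]
      intro a ha b hb
      have haS : a ∈ S := hQ.1 ha
      refine ⟨?_, ?_⟩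
      · rw [commutatorElement_def]
        exact Q₁.mul_mem (conj_mem_of_mem_normalizer (hQ₁n haS) hb.1) (Q₁.inv_mem hb.1)
      · obtain ⟨b', hb', hbb⟩ := hb.2
        have h3 := (Subgroup.mem_upperCentralSeries_succ_iff).mp hb' ⟨a, haS⟩
        refine ⟨(⁅b', (⟨a, haS⟩ : S)⁆ : S)⁻¹, Subgroup.inv_mem _ h3, ?_⟩
        rw [commutatorElement_inv]
        show ⁅a, (b' : Ω)⁆ = ⁅a, b⁆
        rw [← hbb]; rfl
    · omega
    · have : i = m := by omega
      rw [this, hZm, inf_eq_left.mpr hQ₁S]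
      exact hab
    · exact hab.trans hQ₁Q

end Cfsg.Agent.S5125
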