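import Cfsg.Statements.S5142
import Cfsg.Agent.Lib.Helper85.PIdxTwo3
import Cfsg.Agent.S5110

set_option autoImplicit false
open Cfsg Cfsg.FusionSystem Cfsg.Agent.Lib.Helper84 Cfsg.Agent.Lib.Helper85

namespace Cfsg.Agent.S5142

/-- Let F be a saturated fusion system over a finite p-group S and E a normal subsystem of F over T. Then the p'-residual subsystem of E (the least saturated subsystem of E over T of index prime to p) is contained in every normal subsystem of F over T; together with its normality in F (the case of a weakly normal E) this makes it the least normal subsystem of F over T. -/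
theorem result {Ω : Type*} [Group Ω] {S : Subgroup Ω} [Finite S] (p : ℕ) [Fact p.Prime] (hS : IsPGroup p S) (F : Cfsg.FusionSystem S) (hF : F.IsSaturated p) {T : Subgroup Ω} (E : Cfsg.FusionSystem T) (hE : E.IsNormalIn F p) (D : Cfsg.FusionSystem T) (hD : E.IsPPrimeResidual p D) : ∀ D' : Cfsg.FusionSystem T, D'.IsNormalIn F p → D.IsSubsystemOf D' := by
  intro D' hD'
  have c₁ := invCtx_of_weaklyNormal hE.1
  have c₂ := invCtx_of_weaklyNormal hD'.1
  have hTS : T ≤ S := c₁.hT.1
  have hfinT : Finite T := finite_of_le hTS
  have hTp : IsPGroup p T := hS.to_le hTS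
  exact residual_le_two hTp c₁ c₂
    (Cfsg.Agent.S5110.result p hTp (twoSystem E D') {P | E.IsCentric P} (fun P hP => hP.1)
      twoSystem_conj (twoSystem_sat hTp c₁ c₂) twoSystem_gen (twoSystem_star hTp c₁ c₂)) hD

end Cfsg.Agent.S5142
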