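import Cfsg.Statements.S5154
import Cfsg.Agent.Lib.Helper85.CompConj.Main

set_option autoImplicit false
open Cfsg

namespace Cfsg.Agent.S5154

/-- Let F be a saturated fusion system over a finite p-group S, C a component of F over T, and γ a map of F with source T. Then the image of C under γ — the fusion system over γ(T) whose maps are the homomorphisms induced along γ by the maps of C — is again a component of F. -/
theorem result {Ω : Type*} [Group Ω] {S : Subgroup Ω} [Finite S] (p : ℕ) [Fact p.Prime] (hS : IsPGroup p S) (F : Cfsg.FusionSystem S) (hF : F.IsSaturated p) {T : Subgroup Ω} (C : Cfsg.FusionSystem T) (hC : C.IsComponentIn F p) (γ : T →* Ω) (hγ : γ ∈ F.Hom T) (E : Cfsg.FusionSystem γ.range) (hE : C.IsFactorSystem ⊥ γ E) : E.IsComponentIn F p := by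
  have hγi : Function.Injective γ := F.injective_of_mem hγ
  have h1 := Cfsg.Agent.Lib.Helper85.CompConj.comp_push hC.1 inferInstance hC.2 γ hγi hγ
  have h2 := Cfsg.Agent.Lib.Helper85.CompConj.same_of_factor C γ hγi E hE
  exact h2.symm.elim (fun T E => E.IsComponentIn F p) h1

end Cfsg.Agent.S5154
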