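import Cfsg.Statements.S5199
import Cfsg.Agent.Lib.Helper86.Restrict

set_option autoImplicit false
open Cfsg

namespace Cfsg.Agent.S5199

open Cfsg.FusionSystem Cfsg.Agent.Lib.Helper84 Cfsg.Agent.Lib.Helper86

/-- Let F be a saturated fusion system over a finite p-group S, E a normal subsystem of F over T, and F₀ a normal subsystem of F over a subgroup U containing both T and the hyperfocal subgroup of F, such that F₀ has p-power index in F. Then E is a subsystem of F₀. -/
theorem result {Ω : Type*} [Group Ω] {S : Subgroup Ω} [Finite S] (p : ℕ) [Fact p.Prime] (hS : IsPGroup p S) (F : Cfsg.FusionSystem S) (hF : F.IsSaturated p) {T U : Subgroup Ω} (E : Cfsg.FusionSystem T) (hE : E.IsNormalIn F p) (F₀ : Cfsg.FusionSystem U) (hF₀ : F₀.IsNormalIn F p) (hU : T ⊔ F.hyperfocalSubgroup p ≤ U) (hidx : F₀.HasPPowerIndexIn F p) : E.IsSubsystemOf F₀ := by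
  obtain ⟨⟨hEsat, -, hinv⟩, -⟩ := hE
  have hEF : ∀ P : Subgroup Ω, E.Hom P ⊆ F.Hom P := hinv.1
  have hTS : T ≤ S := hinv.2.1.1
  have hTU : T ≤ U := le_sup_left.trans hU
  have hfinT : Finite T := finite_of_le hTS
  have hTp : IsPGroup p T := hS.to_le hTS
  have key : E ≤ restrictTo F₀ T hTU := by
    apply alperin hTp E hEsat
    intro P hP
    have hPn : E.IsFullyNormalized P := by
      rcases hP with rfl | hP
      · refine ⟨le_rfl, fun Q _ => ?_⟩
        have h1 : normalizerIn P Q ≤ normalizerIn P P := by
          intro x hx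
          exact ⟨hx.1, Subgroup.le_normalizer hx.1⟩
        have : Finite (normalizerIn P P) := finite_of_le (normalizerIn_le P P)
        exact Subgroup.card_le_of_le h1
      · exact hP.2.1
    have hPT : P ≤ T := hPn.1
    obtain ⟨-, ⟨-, R, hR⟩, -⟩ := sat_fullyNormalized hTp hEsat hPn
    have hfin : Finite (E.autGroup P) := finite_autGroup E hPT
    apply le_of_sylow_le_of_pResidual_le R hR
    · exact inf_le_left.trans (autInducedBy_le_autGroup _ hPT)
    · rw [autGroup_restrictTo F₀ T hTU hPT]
      have hle : E.autGroup P ≤ F.autGroup P := by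
        intro α hα
        rw [mem_autGroup_iff _ (hPT.trans hTS)]
        exact hEF _ ((mem_autGroup_iff _ hPT α).1 hα)
      exact (pResidual_map_mono p hle).trans (hidx.2.2 P (hPT.trans hTU))
  intro P φ hφ
  exact (key P hφ).1

end Cfsg.Agent.S5199
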