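import Mathlib
import Cfsg.Statements.S5214
import Cfsg.Agent.S1137
import Cfsg.Agent.S1138
import Cfsg.Agent.Lib.Helper87.CenIdxEss
import Cfsg.Agent.Lib.Helper87.StabChain
import Cfsg.Agent.Lib.Helper88.FusAutSystem
import Cfsg.Agent.Lib.Helper84.FusionAlperin2
import Cfsg.Agent.Lib.Helper84.FusionEssential

set_option autoImplicit false
open Cfsg

namespace Cfsg.Agent.S5214

open Cfsg.Agent.Lib.Helper84 Cfsg.Agent.Lib.Helper87 Cfsg.Agent.Lib.Helper88

theorem no_essential {Ω : Type*} [Group Ω] {S : Subgroup Ω} [Finite S] (hS : IsPGroup 2 S)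
    (F : Cfsg.FusionSystem S) (hF : F.IsSaturated 2) (hsz : Cfsg.IsSuzukiTwoGroup ↥S)
    (E : Subgroup Ω) (hE : F.IsEssential 2 E) : False := by
  have : Fact (Nat.Prime 2) := ⟨Nat.prime_two⟩
  obtain ⟨h1, h2⟩ := Cfsg.Agent.S1137.result hsz
  obtain ⟨-, h3, -, -⟩ := Cfsg.Agent.S1138.result hsz
  have hES : E ≤ S := hE.1.1
  have hfinE : Finite E :=
    Finite.of_injective (Subgroup.inclusion hES) (Subgroup.inclusion_injective hES)
  have hlt := ess_lt hS hF hE
  obtain ⟨g, hgS, hgE⟩ := SetLike.exists_of_lt hlt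
  have hcen : FusionSystem.centralizerIn S E ≤ E := hE.1.2 E (isConj_refl F hES)
  -- central elements of `S` lie in `E`
  have hZE : ∀ z : S, z ∈ Subgroup.center S → (z : Ω) ∈ E := by
    intro z hz
    apply hcen
    refine Subgroup.mem_inf.2 ⟨z.2, ?_⟩
    rw [Subgroup.mem_centralizer_iff]
    intro x hx
    have := (Subgroup.mem_center_iff.1 hz) ⟨x, hES hx⟩
    exact congrArg Subtype.val this
  have hcomm : ∀ a b : Ω, ∀ (ha : a ∈ S) (hb : b ∈ S),
      (⟨a⁻¹ * b⁻¹ * a * b, S.mul_mem (S.mul_mem (S.mul_mem (S.inv_mem ha) (S.inv_mem hb)) ha) hb⟩ : S)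
        ∈ Subgroup.center S := fun a b ha hb => h3 ⟨a, ha⟩ ⟨b, hb⟩
  have hnorm : ∀ (k : Ω), k ∈ S → ∀ x ∈ E, k * x * k⁻¹ ∈ E := by
    intro k hk x hx
    have h4 := hZE _ (hcomm k⁻¹ x⁻¹ (S.inv_mem hk) (S.inv_mem (hES hx)))
    have h5 := E.mul_mem h4 hx
    simp only [inv_inv] at h5
    have e : k * x * k⁻¹ * x⁻¹ * x = k * x * k⁻¹ := by group
    rwa [e] at h5
  let α : MulAut E :=
    { toFun := fun x => ⟨g * x * g⁻¹, hnorm g hgS x x.2⟩
      invFun := fun x => ⟨g⁻¹ * x * g, by
        have := hnorm g⁻¹ (S.inv_mem hgS) x x.2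
        rwa [inv_inv] at this⟩
      left_inv := fun x => by ext; simp only; group
      right_inv := fun x => by ext; simp only; group
      map_mul' := fun x y => by ext; simp only [Subgroup.coe_mul]; group }
  have hαapp : ∀ x : E, ((α x : E) : Ω) = g * x * g⁻¹ := fun x => rfl
  have hαA : α ∈ F.autGroup E :=
    autInducedBy_le_autGroup F hES ((mem_autInducedBy_iff S E α).2 ⟨g, hgS, hαapp⟩)
  -- the subgroup of central elements
  let ZE : Subgroup E := ((Subgroup.center S).map S.subtype).subgroupOf E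
  have hmemZ : ∀ x : E, x ∈ ZE ↔ (⟨x, hES x.2⟩ : S) ∈ Subgroup.center S := by
    intro x
    constructor
    · rintro ⟨s, hs, hsx⟩
      have : s = ⟨x, hES x.2⟩ := Subtype.ext hsx
      rwa [← this]
    · intro h
      exact ⟨_, h, rfl⟩
  have hZinv : ∀ β : MulAut E, ∀ y ∈ ZE, β y ∈ ZE := by
    intro β y hy
    rw [hmemZ] at hy ⊢
    have hyy : y * y = 1 := by
      have := h2 _ hy
      ext
      exact congrArg (fun s : S => (s : Ω)) this
    have hβ : β y * β y = 1 := by rw [← map_mul, hyy, map_one]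
    by_cases hb1 : β y = 1
    · have : (⟨(β y : E), hES (β y).2⟩ : S) = 1 := by
        ext; simp [hb1]
      rw [this]
      exact Subgroup.one_mem _
    · refine ((h1 ⟨(β y : E), hES (β y).2⟩).1 ⟨?_, ?_⟩).1
      · intro h
        apply hb1
        ext
        exact congrArg (fun s : S => (s : Ω)) h
      · ext
        exact congrArg (fun s : E => (s : Ω)) hβ
  have hmem := mem_pCore_of_stab (hS.to_le hES) (F.autGroup E)
    (fun j => if j = 0 then ⊤ else if j = 1 then ZE else ⊥) 2 (by simp) (by simp)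
    (by
      intro j β _ y hy
      by_cases h0 : j = 0
      · simp [h0]
      by_cases h1' : j = 1
      · subst h1'
        simp only [one_ne_zero, if_false, if_true] at hy ⊢
        exact hZinv β y hy
      · simp only [h0, h1', if_false, Subgroup.mem_bot] at hy ⊢
        rw [hy, map_one]) α hαA
    (by
      intro j y hy
      by_cases h0 : j = 0
      · subst h0
        simp only [zero_add, one_ne_zero, if_false, if_true]
        rw [hmemZ]
        have := hcomm y g⁻¹ (hES y.2) (S.inv_mem hgS)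
        have e : (⟨((y⁻¹ * α y : E) : Ω), hES (y⁻¹ * α y).2⟩ : S) =
            ⟨(y : Ω)⁻¹ * g⁻¹⁻¹ * y * g⁻¹, S.mul_mem (S.mul_mem (S.mul_mem (S.inv_mem (hES y.2))
              (S.inv_mem (S.inv_mem hgS))) (hES y.2)) (S.inv_mem hgS)⟩ := by
          ext
          simp only [Subgroup.coe_mul, Subgroup.coe_inv, hαapp, inv_inv]
          group
        rw [e]
        exact this
      by_cases h1' : j = 1
      · subst h1'
        simp only [one_ne_zero, if_false, if_true, Nat.reduceAdd, OfNat.ofNat_ne_zero,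
          OfNat.ofNat_ne_one, Subgroup.mem_bot] at hy ⊢
        rw [hmemZ] at hy
        have h6 := (Subgroup.mem_center_iff.1 hy) ⟨g, hgS⟩
        have h7 : g * (y : Ω) = y * g := congrArg Subtype.val h6
        ext
        simp only [Subgroup.coe_mul, Subgroup.coe_inv, hαapp, Subgroup.coe_one]
        rw [h7]; group
      · have h2' : j + 1 ≠ 0 := by omega
        have h3' : j + 1 ≠ 1 := by omega
        simp only [h0, h1', h2', h3', if_false, Subgroup.mem_bot] at hy ⊢
        rw [hy, map_one, inv_one, one_mul])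
  rw [(essential_radical hS F hE).2] at hmem
  obtain ⟨h, hh⟩ := hmem
  apply hgE
  have h8 : (h : Ω)⁻¹ * g ∈ E := by
    apply hcen
    refine Subgroup.mem_inf.2 ⟨S.mul_mem (S.inv_mem (hES h.2)) hgS, ?_⟩
    rw [Subgroup.mem_centralizer_iff]
    intro x hx
    have h9 := congrArg (fun β : MulAut E => ((β ⟨x, hx⟩ : E) : Ω)) hh
    simp only [MulAut.conj_apply, Subgroup.coe_mul, Subgroup.coe_inv, hαapp] at h9
    calc x * ((h : Ω)⁻¹ * g) = (h : Ω)⁻¹ * (h * x * (h : Ω)⁻¹) * g := by group
      _ = (h : Ω)⁻¹ * (g * x * g⁻¹) * g := by rw [h9]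
      _ = (h : Ω)⁻¹ * g * x := by group
  have := E.mul_mem h.2 h8
  rwa [mul_inv_cancel_left] at this

/-- Let S be a Suzuki 2-group (a finite nonabelian 2-group with more than one involution admitting a cyclic group of automorphisms permuting its involutions regularly). Then S is normal in every saturated fusion system over S (such a group is resistant). -/
theorem result {Ω : Type*} [Group Ω] {S : Subgroup Ω} [Finite S] (hS : IsPGroup 2 S) (F : Cfsg.FusionSystem S) (hF : F.IsSaturated 2) (hsz : Cfsg.IsSuzukiTwoGroup ↥S) : F.IsNormal S := by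
  have : Fact (Nat.Prime 2) := ⟨Nat.prime_two⟩
  apply isNormal_top_of_le
  apply alperin hS F hF
  rintro P (rfl | hP)
  · rw [autGroup_autSystem]
  · exact (no_essential hS F hF hsz P hP).elim

end Cfsg.Agent.S5214
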