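import Cfsg.Statements.S5219
import Cfsg.Agent.Lib.Helper84.FusionAgemo
import Cfsg.Agent.Lib.Helper84.ExponentCenter

set_option autoImplicit false
open Cfsg

namespace Cfsg.Agent.S5219

/-- Let p be a prime, n a natural number, S a nontrivial finite p-group of nilpotence class at most n(p−1)+1, and F a saturated fusion system over S with no nontrivial normal subgroup (O_p(F) = 1). Then S has exponent dividing p^(n²(p−1)+n). -/
theorem result {Ω : Type*} [Group Ω] {S : Subgroup Ω} [Finite S] (p : ℕ) [Fact p.Prime] (hS : IsPGroup p S) (F : Cfsg.FusionSystem S) (hF : F.IsSaturated p) (n : ℕ) (hS1 : S ≠ ⊥) (hcl : Subgroup.lowerCentralSeries S (n * (p - 1) + 1) = ⊥) (hcore : F.core = ⊥) : Monoid.exponent ↥S ∣ p ^ (n ^ 2 * (p - 1) + n) := by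
  have hV := Cfsg.Agent.Lib.Helper84.agemo_center_normal hS F hF n hcl
  have hVbot : Cfsg.powerClosure p n (S ⊓ Subgroup.centralizer (S : Set Ω)) = ⊥ := by
    rw [← le_bot_iff, ← hcore]
    exact le_sSup hV
  have he : ∀ z ∈ Subgroup.center ↥S, z ^ (p ^ n) = 1 := by
    intro z hz
    have h1 : ((z : Ω)) ^ (p ^ n) ∈ Cfsg.powerClosure p n (S ⊓ Subgroup.centralizer (S : Set Ω)) := by
      apply Subgroup.subset_closure
      refine ⟨z, ⟨z.2, ?_⟩, rfl⟩
      show (z : Ω) ∈ Subgroup.centralizer (S : Set Ω)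
      rw [Subgroup.mem_centralizer_iff]
      intro s hs
      exact congrArg Subtype.val ((Subgroup.mem_center_iff.1 hz) ⟨s, hs⟩)
    rw [hVbot, Subgroup.mem_bot] at h1
    exact Subtype.ext h1
  have htop : Subgroup.upperCentralSeries ↥S (n * (p - 1) + 1) = ⊤ := by
    rw [← Subgroup.lowerCentralSeries_eq_bot_iff_upperCentralSeries_eq_top,
      ← Subgroup.map_subtype_inj, Subgroup.map_bot, Subgroup.top_subtype_lowerCentralSeries]
    exact hcl
  apply Monoid.exponent_dvd_of_forall_pow_eq_one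
  intro x
  have := Cfsg.Agent.Lib.Helper84.pow_eq_one_of_mem_upperCentralSeries he (n * (p - 1) + 1) x
    (htop ▸ Subgroup.mem_top x)
  rw [← pow_mul] at this
  have h2 : n * (n * (p - 1) + 1) = n ^ 2 * (p - 1) + n := by ring
  rwa [h2] at this

end Cfsg.Agent.S5219
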