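import Cfsg.Statements.S5223
import Cfsg.Agent.S5083
import Cfsg.Agent.Lib.Helper87.FusUtil

set_option autoImplicit false
open Cfsg

namespace Cfsg.Agent.S5223

open Cfsg.FusionSystem Cfsg.Agent.Lib.Helper84 Cfsg.Agent.Lib.Helper87

variable {Ω : Type*} [Group Ω] {S : Subgroup Ω}

theorem pow_apply_of_fixed {P : Subgroup Ω} (β : MulAut P) (x y : P) (hx : β x = x * y)
    (hy : β y = y) (m : ℕ) : (β ^ m) x = x * y ^ m := by
  induction m with
  | zero => simp
  | succ m ih =>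
    rw [pow_succ', MulAut.mul_apply, ih, map_mul, map_pow, hx, hy, pow_succ']
    group

theorem key [Finite S] (F : FusionSystem S) (n : ℕ) (Q : Fin (n + 1) → Subgroup Ω)
    (hQn : Q (Fin.last n) = ⊥)
    (hstep : ∀ i : Fin n, Subgroup.closure {y : Ω | ∃ x ∈ Q i.castSucc, ∃ φ ∈ F.Hom (Subgroup.zpowers x), y = x⁻¹ * φ ⟨x, Subgroup.mem_zpowers x⟩} ≤ Q i.succ)
    (k : ℕ) : ∀ i : Fin (n + 1), (i : ℕ) + k = n → ∀ (P : Subgroup Ω), P ≤ S →
      ∀ α ∈ F.autGroup P, ∀ x : P, (x : Ω) ∈ Q i → (α ^ (Nat.card S ^ k)) x = x := by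
  induction k with
  | zero =>
    intro i hi P _ α _ x hx
    have : i = Fin.last n := by
      ext
      simpa using hi
    rw [this, hQn, Subgroup.mem_bot] at hx
    have hx1 : x = 1 := by
      ext
      exact hx
    rw [hx1, map_one]
  | succ k ih =>
    intro i hi P hP α hα x hx
    have hlt : (i : ℕ) < n := by omega
    obtain ⟨i', rfl⟩ : ∃ i' : Fin n, i = i'.castSucc := ⟨⟨i, hlt⟩, rfl⟩
    set β := α ^ (Nat.card S ^ k) with hβ
    have hβF : β ∈ F.autGroup P := Subgroup.pow_mem _ hα _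
    have hβM : Mor F β.toMonoidHom := (mem_autGroup_iff F hP β).1 hβF
    have hxP : Subgroup.zpowers (x : Ω) ≤ P := by
      rw [Subgroup.zpowers_le]
      exact x.2
    have hy : ((x⁻¹ * β x : P) : Ω) ∈ Q i'.succ := by
      apply hstep i'
      apply Subgroup.subset_closure
      exact ⟨x, hx, _, restrict_mem F hβM hxP, rfl⟩
    have hfix : β (x⁻¹ * β x) = x⁻¹ * β x :=
      ih i'.succ (by simp at hi ⊢; omega) P hP α hα _ hy
    have h1 := pow_apply_of_fixed β x (x⁻¹ * β x) (by group) hfix (Nat.card S)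
    have h2 : (x⁻¹ * β x) ^ Nat.card S = 1 := by
      have h3 : (⟨((x⁻¹ * β x : P) : Ω), hP (x⁻¹ * β x).2⟩ : S) ^ Nat.card S = 1 := pow_card_eq_one'
      ext
      exact congrArg (fun z : S => (z : Ω)) h3
    rw [h2, mul_one] at h1
    rw [pow_succ, pow_mul]
    exact h1

/-- Let F be a saturated fusion system over a finite p-group S. Suppose there are subgroups Q₀ = S, Q₁, …, Qₙ = 1 (not required to be nested) such that for each i < n the focal subgroup of Qᵢ (generated by the elements x⁻¹φ(x), x ∈ Qᵢ, φ a map of F defined on the cyclic group generated by x) lies in Qᵢ₊₁. Then F is the inner fusion system of S. -/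
theorem result {Ω : Type*} [Group Ω] {S : Subgroup Ω} [Finite S] (p : ℕ) [Fact p.Prime] (hS : IsPGroup p S) (F : Cfsg.FusionSystem S) (hF : F.IsSaturated p) (n : ℕ) (Q : Fin (n + 1) → Subgroup Ω) (hQ0 : Q 0 = S) (hQn : Q (Fin.last n) = ⊥) (hstep : ∀ i : Fin n, Subgroup.closure {y : Ω | ∃ x ∈ Q i.castSucc, ∃ φ ∈ F.Hom (Subgroup.zpowers x), y = x⁻¹ * φ ⟨x, Subgroup.mem_zpowers x⟩} ≤ Q i.succ) : ∀ P : Subgroup Ω, F.Hom P = (Cfsg.innerFusionSystem S).Hom P := by
  have hall : ∀ P : Subgroup Ω, P ≤ S → IsPGroup p (F.autGroup P) := by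
    intro P hP
    obtain ⟨a, ha⟩ := IsPGroup.iff_card.1 hS
    rintro ⟨α, hα⟩
    refine ⟨a * n, ?_⟩
    ext1
    show α ^ p ^ (a * n) = 1
    ext1 x
    have := key F n Q hQn hstep n 0 (by simp) P hP α hα x (by rw [hQ0]; exact hP x.2)
    rw [ha, ← pow_mul] at this
    exact this
  have := Cfsg.Agent.S5083.result p hS F hF hall
  intro P
  rw [this]

end Cfsg.Agent.S5223
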