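import Cfsg.Statements.S5226
import Cfsg.Agent.S5086
import Cfsg.Agent.S5085
import Cfsg.Agent.Lib.Helper87.FusUtil
import Cfsg.Agent.Lib.Helper87.StabChain
import Cfsg.Agent.Lib.Helper84.FusionEssential

set_option autoImplicit false
open Cfsg

namespace Cfsg.Agent.S5226

open Cfsg.FusionSystem Cfsg.Agent.Lib.Helper84 Cfsg.Agent.Lib.Helper87
open scoped commutatorElement

variable {Ω : Type*} [Group Ω] {S : Subgroup Ω}

/-- a subgroup normal in the system is weakly closed. -/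
theorem weaklyClosed_of_isNormal (F : FusionSystem S) {U : Subgroup Ω} (hU : F.IsNormal U) :
    F.WeaklyClosed U := by
  refine ⟨hU.1, fun φ hφ => ?_⟩
  obtain ⟨ψ, -, hψ1, hψ2⟩ := hU.2 U φ hφ
  refine Eq.trans ?_ hψ2
  ext y
  constructor
  · rintro ⟨x, rfl⟩
    exact ⟨_, x.2, hψ1 x⟩
  · rintro ⟨x, hx, rfl⟩
    exact ⟨⟨x, hx⟩, (hψ1 ⟨x, hx⟩).symm⟩

theorem wc_map_mem {F : FusionSystem S} {U : Subgroup Ω} (hU : F.WeaklyClosed U)
    {P : Subgroup Ω} {φ : P →* Ω} (hφ : φ ∈ F.Hom P) (hUP : U ≤ P) (x : P) (hx : (x : Ω) ∈ U) :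
    φ x ∈ U := by
  have h1 := hU.2 _ (restrict_mem F hφ hUP)
  rw [← h1]
  exact ⟨⟨x, hx⟩, rfl⟩

theorem wc_conj_mem {F : FusionSystem S} {U : Subgroup Ω} (hU : F.WeaklyClosed U)
    {s : Ω} (hs : s ∈ S) {t : Ω} (ht : t ∈ U) : s * t * s⁻¹ ∈ U := by
  have h1 := hU.2 _ (F.conj_mem hU.1 hs)
  rw [← h1]
  exact ⟨⟨t, ht⟩, rfl⟩

theorem wc_le_normalizer {F : FusionSystem S} {U : Subgroup Ω} (hU : F.WeaklyClosed U) :
    S ≤ Subgroup.normalizer (U : Set Ω) := by
  intro s hs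
  apply mem_normalizer_of_conj_mem
  · intro t ht
    exact wc_conj_mem hU hs ht
  · intro t ht
    have := wc_conj_mem hU (S.inv_mem hs) ht
    simpa using this

/-- the key direction, with a chain indexed by `ℕ`. -/
theorem le_of_chain [Finite S] (p : ℕ) [Fact p.Prime] (hS : IsPGroup p S) (F : FusionSystem S)
    (Q : Subgroup Ω) (hQ : F.StronglyClosed Q) (n : ℕ) (C : ℕ → Subgroup Ω) (h0 : C 0 = ⊥)
    (hn : C n = Q) (hmono : Monotone C) (hcomm : ∀ k < n, ⁅C (k + 1), Q⁆ ≤ C k)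
    (hwc : ∀ k < n, F.WeaklyClosed (C k)) (P : Subgroup Ω) (hPc : F.IsCentric P)
    (hPr : F.IsRadical p P) : Q ≤ P := by
  by_contra hQP
  have hPS : P ≤ S := hPc.1
  -- find the first term not inside P
  have hex : ∃ k, k < n ∧ C k ≤ P ∧ ¬ C (k + 1) ≤ P := by
    by_contra hno
    push Not at hno
    have : ∀ k, k ≤ n → C k ≤ P := by
      intro k
      induction k with
      | zero => intro _; rw [h0]; exact bot_le
      | succ k ih => intro hk; exact hno k (by omega) (ih (by omega))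
    exact hQP (hn ▸ this n le_rfl)
  obtain ⟨k, hkn, hkP, hk1P⟩ := hex
  have hk1Q : C (k + 1) ≤ Q := hn ▸ hmono (by omega)
  have hk1N : S ≤ Subgroup.normalizer ((C (k + 1) : Subgroup Ω) : Set Ω) := by
    rcases Nat.lt_or_ge (k + 1) n with h | h
    · exact wc_le_normalizer (hwc _ h)
    · have : k + 1 = n := by omega
      rw [this, hn]
      exact sc_le_normalizer hQ
  obtain ⟨x, hxC, hxN, hxP⟩ := exists_mem_normalizing_not_mem hS (hk1Q.trans hQ.1) hPS
    (hPS.trans hk1N) hk1P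
  have hxQ : x ∈ Q := hk1Q hxC
  have hxS : x ∈ S := hQ.1 hxQ
  have hfinP : Finite P := finite_of_le hPS
  -- the chain in P
  let D : ℕ → Subgroup P := fun j => match j with
    | 0 => ⊤
    | 1 => Q.subgroupOf P
    | (t + 2) => (C (k - t)).subgroupOf P
  have hDm : D (k + 2) = ⊥ := by
    show (C (k - k)).subgroupOf P = ⊥
    rw [Nat.sub_self, h0]
    simp
  have hinv : ∀ j, ∀ α ∈ F.autGroup P, ∀ y ∈ D j, α y ∈ D j := by
    intro j α hα y hy
    have hαM : Mor F α.toMonoidHom := (mem_autGroup_iff F hPS α).1 hα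
    match j, hy with
    | 0, _ => trivial
    | 1, hy => exact sc_map_mem hQ hαM y hy
    | (t + 2), hy =>
      exact wc_map_mem (hwc (k - t) (by omega)) hαM ((hmono (Nat.sub_le k t)).trans hkP) y hy
  have hcF : conjAut P x hxN ∈ F.autGroup P :=
    autInducedBy_le_autGroup F hPS (conjAut_mem_autInducedBy hxN hxS)
  have hstab : ∀ j, ∀ y ∈ D j, y⁻¹ * conjAut P x hxN y ∈ D (j + 1) := by
    intro j y hy
    have hval : ((y⁻¹ * conjAut P x hxN y : P) : Ω) = ⁅(y : Ω)⁻¹, x⁆ := by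
      show (y : Ω)⁻¹ * (x * y * x⁻¹) = _
      rw [commutatorElement_def]
      group
    match j, hy with
    | 0, _ =>
      show ((y⁻¹ * conjAut P x hxN y : P) : Ω) ∈ Q
      show (y : Ω)⁻¹ * (x * y * x⁻¹) ∈ Q
      have h1 : (y : Ω)⁻¹ * x * (y : Ω)⁻¹⁻¹ ∈ Q := sc_conj_mem hQ (S.inv_mem (hPS y.2)) hxQ
      have h2 : (y : Ω)⁻¹ * (x * y * x⁻¹) = ((y : Ω)⁻¹ * x * (y : Ω)⁻¹⁻¹) * x⁻¹ := by group
      rw [h2]
      exact Q.mul_mem h1 (Q.inv_mem hxQ)
    | 1, hy =>
      show ((y⁻¹ * conjAut P x hxN y : P) : Ω) ∈ C (k - 0)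
      rw [hval, Nat.sub_zero]
      apply hcomm k hkn
      rw [Subgroup.commutator_comm]
      exact Subgroup.commutator_mem_commutator (Q.inv_mem hy) hxC
    | (t + 2), hy =>
      show ((y⁻¹ * conjAut P x hxN y : P) : Ω) ∈ C (k - (t + 1))
      rw [hval]
      have hy' : (y : Ω) ∈ C (k - t) := hy
      rcases Nat.lt_or_ge t k with h | h
      · have h1 : k - t = (k - (t + 1)) + 1 := by omega
        rw [h1] at hy'
        apply hcomm (k - (t + 1)) (by omega)
        exact Subgroup.commutator_mem_commutator (Subgroup.inv_mem _ hy') hxQ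
      · have h1 : k - t = 0 := by omega
        rw [h1, h0, Subgroup.mem_bot] at hy'
        rw [hy']
        simp
  have hcore := mem_pCore_of_stab (hS.to_le hPS) (F.autGroup P) D (k + 2) rfl hDm hinv _ hcF hstab
  rw [hPr.2] at hcore
  obtain ⟨y, hy⟩ := hcore
  -- y⁻¹ x centralizes P
  apply hxP
  have hc : (y : Ω)⁻¹ * x ∈ centralizerIn S P := by
    refine ⟨S.mul_mem (S.inv_mem (hPS y.2)) hxS, Subgroup.mem_centralizer_iff.2 fun w hw => ?_⟩
    have h1 := congrArg (fun a : MulAut P => ((a ⟨w, hw⟩ : P) : Ω)) hy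
    have h2 : (y : Ω) * w * (y : Ω)⁻¹ = x * w * x⁻¹ := h1
    calc w * ((y : Ω)⁻¹ * x) = (y : Ω)⁻¹ * ((y : Ω) * w * (y : Ω)⁻¹) * x := by group
      _ = (y : Ω)⁻¹ * (x * w * x⁻¹) * x := by rw [h2]
      _ = (y : Ω)⁻¹ * x * w := by group
  have h3 := hPc.2 P (isConj_refl F hPS) hc
  have : x = y * ((y : Ω)⁻¹ * x) := by group
  rw [this]
  exact P.mul_mem y.2 h3

/-- Let F be a saturated fusion system over a finite p-group S and Q a subgroup of S. Then Q is normal in F (F equals the normalizer system of Q) if and only if Q is strongly closed in F and admits a central series 1 = Q₀ ≤ Q₁ ≤ ⋯ ≤ Qₙ = Q ([Qᵢ₊₁, Q] ≤ Qᵢ) all of whose proper terms are weakly closed in F. -/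
theorem result {Ω : Type*} [Group Ω] {S : Subgroup Ω} [Finite S] (p : ℕ) [Fact p.Prime] (hS : IsPGroup p S) (F : Cfsg.FusionSystem S) (hF : F.IsSaturated p) (Q : Subgroup Ω) : F.IsNormal Q ↔ F.StronglyClosed Q ∧ ∃ (n : ℕ) (C : Fin (n + 1) → Subgroup Ω), C 0 = ⊥ ∧ C (Fin.last n) = Q ∧ Monotone C ∧ (∀ i : Fin n, ⁅C i.succ, Q⁆ ≤ C i.castSucc) ∧ ∀ i : Fin n, F.WeaklyClosed (C i.castSucc) := by
  constructor
  · intro hQ
    refine ⟨((Cfsg.Agent.S5086.result p hS F hF Q).1 hQ).1, ?_⟩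
    have hfinQ : Finite Q := finite_of_le hQ.1
    have hnil : Group.IsNilpotent Q := (hS.to_le hQ.1).isNilpotent
    obtain ⟨n, hn⟩ := hnil.nilpotent'
    refine ⟨n, fun i => (Subgroup.upperCentralSeries Q i).map Q.subtype, ?_, ?_, ?_, ?_, ?_⟩
    · simp
    · show (Subgroup.upperCentralSeries Q n).map Q.subtype = Q
      rw [hn, ← MonoidHom.range_eq_map, Subgroup.range_subtype]
    · intro i j hij
      exact Subgroup.map_mono (Subgroup.upperCentralSeries_mono Q hij)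
    · intro i
      rw [Subgroup.commutator_le]
      rintro _ ⟨a, ha, rfl⟩ b hb
      refine ⟨⁅a, ⟨b, hb⟩⁆, ?_, rfl⟩
      exact Subgroup.mem_upperCentralSeries_succ_iff.1 ha _
    · intro i
      apply weaklyClosed_of_isNormal
      refine Cfsg.Agent.S5085.result F Q _ hQ (Subgroup.map_subtype_le _) ?_
      have : ((Subgroup.upperCentralSeries Q (i.castSucc : ℕ)).map Q.subtype).subgroupOf Q
          = Subgroup.upperCentralSeries Q (i.castSucc : ℕ) := by
        ext x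
        simp [Subgroup.mem_subgroupOf]
      rw [this]
      infer_instance
  · rintro ⟨hQ, n, C, h0, hn, hmono, hcomm, hwc⟩
    rw [Cfsg.Agent.S5086.result p hS F hF Q]
    refine ⟨hQ, fun P hPc hPr => ?_⟩
    refine le_of_chain p hS F Q hQ n (fun k => C ⟨min k n, by omega⟩) ?_ ?_ ?_ ?_ ?_ P hPc hPr
    · show C ⟨min 0 n, _⟩ = ⊥
      rw [← h0]
      congr 1
    · show C ⟨min n n, _⟩ = Q
      rw [← hn]
      congr 1
      ext
      simp
    · intro a b hab
      apply hmono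
      show min a n ≤ min b n
      omega
    · intro k hk
      have h1 := hcomm ⟨k, hk⟩
      have e1 : (⟨min (k + 1) n, by omega⟩ : Fin (n + 1)) = (⟨k, hk⟩ : Fin n).succ := by
        ext
        simp
        omega
      have e2 : (⟨min k n, by omega⟩ : Fin (n + 1)) = (⟨k, hk⟩ : Fin n).castSucc := by
        ext
        simp
        omega
      show ⁅C ⟨min (k + 1) n, _⟩, Q⁆ ≤ C ⟨min k n, _⟩
      rw [e1, e2]
      exact h1
    · intro k hk
      have e2 : (⟨min k n, by omega⟩ : Fin (n + 1)) = (⟨k, hk⟩ : Fin n).castSucc := by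
        ext
        simp
        omega
      show F.WeaklyClosed (C ⟨min k n, _⟩)
      rw [e2]
      exact hwc ⟨k, hk⟩

end Cfsg.Agent.S5226
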