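import Cfsg.Statements.S5245
import Cfsg.Agent.Lib.Helper87.AutSystem
import Cfsg.Agent.Lib.Helper87.StabChain
import Cfsg.Agent.Lib.Helper84.FusionConseq
import Cfsg.Agent.Lib.Lead.Residual
import Mathlib.GroupTheory.Perm.Cycle.Type

set_option autoImplicit false
open Cfsg

namespace Cfsg.Agent.S5245

open Cfsg.FusionSystem Cfsg.Agent.Lib.Helper84 Cfsg.Agent.Lib.Helper87 Cfsg.Agent.Lib.Lead

variable {Ω : Type*} [Group Ω] {S : Subgroup Ω}

theorem pow_mem_inn {P : Type*} [Group P] {α : MulAut P} {q : ℕ} (hα : α ^ q = 1) {a : MulAut P}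
    (ha : a ∈ Inn P ⊔ Subgroup.zpowers α) : a ^ q ∈ Inn P := by
  have ha' : a ∈ ((Inn P ⊔ Subgroup.zpowers α : Subgroup (MulAut P)) : Set (MulAut P)) := ha
  rw [Subgroup.normal_mul] at ha'
  obtain ⟨i, hi, _, ⟨k, rfl⟩, rfl⟩ := ha'
  rw [← QuotientGroup.eq_one_iff]
  have h1 : ((i : MulAut P) : MulAut P ⧸ Inn P) = 1 := (QuotientGroup.eq_one_iff i).2 hi
  show (((i * α ^ k) ^ q : MulAut P) : MulAut P ⧸ Inn P) = 1
  rw [QuotientGroup.mk_pow, QuotientGroup.mk_mul, h1, one_mul, ← QuotientGroup.mk_pow,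
    ← zpow_natCast, ← zpow_mul, mul_comm, zpow_mul, zpow_natCast, hα, one_zpow]
  rfl

/-- the key consequence of extreme sparsity. -/
theorem key [Finite S] (p : ℕ) [Fact p.Prime] (hS : IsPGroup p S) (F : FusionSystem S)
    (hxs : ∀ (T : Subgroup Ω) (E : Cfsg.FusionSystem T), E.IsSaturated p → E.IsSubsystemOf F → (T = S ∧ ∀ P : Subgroup Ω, E.Hom P = F.Hom P) ∨ (∀ P : Subgroup Ω, E.Hom P = (Cfsg.innerFusionSystem T).Hom P))
    {P : Subgroup Ω} (hPS : P ≤ S) {α : MulAut P} (hαF : α ∈ F.autGroup P) {q : ℕ} (hq : q.Prime)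
    (hqp : q ≠ p) (hα : orderOf α = q) :
    P = S ∧ ∀ R : Subgroup Ω,
      (autSystem P (Inn P ⊔ Subgroup.zpowers α) le_sup_left).Hom R = F.Hom R := by
  have hfin : Finite P := finite_of_le hPS
  have hPp : IsPGroup p P := hS.to_le hPS
  have hαq : α ^ q = 1 := hα ▸ pow_orderOf_eq_one α
  have hcop : q.Coprime p := (Nat.coprime_primes hq Fact.out).2 hqp
  have hsat := autSystem_saturated hPp (Inn P ⊔ Subgroup.zpowers α) le_sup_left q hcop
    (fun a ha => pow_mem_inn hαq ha)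
  have hsub := autSystem_isSubsystemOf F hPS (Inn P ⊔ Subgroup.zpowers α) le_sup_left
    (sup_le (inn_le_autGroup F hPS) (by rwa [Subgroup.zpowers_le]))
  rcases hxs P _ hsat hsub with h | h
  · exact h
  · exfalso
    have h1 : resAut α le_rfl ∈ (autSystem P (Inn P ⊔ Subgroup.zpowers α) le_sup_left).Hom P :=
      resAut_mem P _ _ (Subgroup.mem_sup_right (Subgroup.mem_zpowers α)) le_rfl
    rw [h P] at h1
    obtain ⟨-, g, hg, hg'⟩ := h1
    obtain ⟨k, hk⟩ := hPp ⟨g, hg⟩
    have hk' : g ^ p ^ k = 1 := congrArg Subtype.val hk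
    have h2 : α ^ p ^ k = 1 := by
      ext x
      have := autInducedBy_pow (α := α) (g := g) (fun x => hg' x) (p ^ k) x
      rw [hk'] at this
      simpa using this
    have h3 : q ∣ p ^ k := hα ▸ orderOf_dvd_of_pow_eq_one h2
    exact hqp ((Nat.prime_dvd_prime_iff_eq hq Fact.out).1 (hq.dvd_of_dvd_pow h3))

/-- restriction of an automorphism to an invariant finite subgroup. -/
noncomputable def restrictAut {P T : Subgroup Ω} [Finite T] (a : MulAut P) (hTP : T ≤ P)
    (hinv : ∀ x : P, (x : Ω) ∈ T → ((a x : P) : Ω) ∈ T) : MulAut T :=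
  MulEquiv.ofBijective
    ({ toFun := fun x => ⟨a ⟨x, hTP x.2⟩, hinv _ x.2⟩
       map_one' := by
        ext
        show ((a 1 : P) : Ω) = 1
        simp
       map_mul' := by
        intro x y
        ext
        show ((a (⟨x, hTP x.2⟩ * ⟨y, hTP y.2⟩) : P) : Ω) = _
        rw [map_mul]
        rfl } : T →* T)
    (by
      apply Finite.injective_iff_bijective.1
      intro x y hxy
      have h1 : (a ⟨x, hTP x.2⟩ : P) = a ⟨y, hTP y.2⟩ := by
        ext
        exact congrArg (fun z : T => (z : Ω)) hxy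
      have h2 := a.injective h1
      ext
      exact congrArg (fun z : P => (z : Ω)) h2)

theorem restrictAut_apply {P T : Subgroup Ω} [Finite T] (a : MulAut P) (hTP : T ≤ P)
    (hinv : ∀ x : P, (x : Ω) ∈ T → ((a x : P) : Ω) ∈ T) (x : T) :
    ((restrictAut a hTP hinv x : T) : Ω) = (a ⟨x, hTP x.2⟩ : P) := rfl

theorem restrictAut_pow_apply {P T : Subgroup Ω} [Finite T] (a : MulAut P) (hTP : T ≤ P)
    (hinv : ∀ x : P, (x : Ω) ∈ T → ((a x : P) : Ω) ∈ T) (j : ℕ) (x : T) :
    ((((restrictAut a hTP hinv) ^ j) x : T) : Ω) = ((a ^ j) ⟨x, hTP x.2⟩ : P) := by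
  induction j generalizing x with
  | zero => simp
  | succ j ih =>
    rw [pow_succ, pow_succ, MulAut.mul_apply, MulAut.mul_apply, ih]
    rfl

/-- Let F be an extremely sparse fusion system over a finite p-group S (saturated, not the inner system, and every saturated fusion system over any subgroup T of S contained in F is F itself or the inner system of T). Then S is normal in F, the focal and hyperfocal subgroups of F are both S, and Aut_F(S) is generated by the inner automorphisms of S together with a single automorphism of prime order q ≠ p (F is the fusion system of the semidirect product of S by a cyclic group of prime order). -/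
theorem result {Ω : Type*} [Group Ω] {S : Subgroup Ω} [Finite S] (p : ℕ) [Fact p.Prime] (hS : IsPGroup p S) (F : Cfsg.FusionSystem S) (hF : F.IsSaturated p) (hxs : ¬ (∀ P : Subgroup Ω, F.Hom P = (Cfsg.innerFusionSystem S).Hom P) ∧ ∀ (T : Subgroup Ω) (E : Cfsg.FusionSystem T), E.IsSaturated p → E.IsSubsystemOf F → (T = S ∧ ∀ P : Subgroup Ω, E.Hom P = F.Hom P) ∨ (∀ P : Subgroup Ω, E.Hom P = (Cfsg.innerFusionSystem T).Hom P)) : F.IsNormal S ∧ F.focalSubgroup = S ∧ F.hyperfocalSubgroup p = S ∧ ∃ (q : ℕ) (β : MulAut ↥S), q.Prime ∧ q ≠ p ∧ β ∈ F.autGroup S ∧ orderOf β = q ∧ (F.autGroup S : Subgroup (MulAut ↥S)) = Cfsg.Inn ↥S ⊔ Subgroup.zpowers β := by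
  obtain ⟨hni, hxs⟩ := hxs
  -- some automizer is not a p-group
  have h1 : ∃ P : Subgroup Ω, P ≤ S ∧ ¬ IsPGroup p (F.autGroup P) := by
    by_contra hcon
    push Not at hcon
    apply hni
    rw [eq_inner_of_isPGroup hS F hF hcon]
    exact fun _ => rfl
  obtain ⟨P, hPS, hnp⟩ := h1
  have hfinA : Finite (F.autGroup P) := finite_autGroup F hPS
  -- an element of prime order q ≠ p
  have h2 : ∃ q : ℕ, q.Prime ∧ q ≠ p ∧ q ∣ Nat.card (F.autGroup P) := by
    by_contra hcon
    push Not at hcon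
    apply hnp
    rw [IsPGroup.iff_card]
    exact ⟨_, Nat.eq_prime_pow_of_unique_prime_dvd Nat.card_pos.ne' (fun {d} hd hdvd => by
      by_contra hne
      exact hcon d hd hne hdvd)⟩
  obtain ⟨q, hq, hqp, hqdvd⟩ := h2
  have : Fact q.Prime := ⟨hq⟩
  obtain ⟨⟨α, hαF⟩, hα⟩ := exists_prime_orderOf_dvd_card' q hqdvd
  have hα' : orderOf α = q := by
    rw [← hα]
    exact (Subgroup.orderOf_mk α hαF).symm
  obtain ⟨rfl, hEF⟩ := key p hS F hxs hPS hαF hq hqp hα'
  have hαq : α ^ q = 1 := hα' ▸ pow_orderOf_eq_one α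
  have hα1 : α ≠ 1 := by
    intro h
    rw [h, orderOf_one] at hα'
    exact hq.one_lt.ne hα'
  have hαM : Mor F α.toMonoidHom := (mem_autGroup_iff F le_rfl α).1 hαF
  -- the commutator subgroup [S, α]
  set T : Subgroup Ω := Subgroup.closure {y : Ω | ∃ x : P, y = (x : Ω)⁻¹ * (α x : P)} with hT
  have hTP : T ≤ P := by
    rw [hT, Subgroup.closure_le]
    rintro _ ⟨x, rfl⟩
    exact P.mul_mem (P.inv_mem x.2) (α x).2
  have hgen : ∀ x : P, (x : Ω)⁻¹ * (α x : P) ∈ T := fun x => Subgroup.subset_closure ⟨x, rfl⟩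
  have hres : (⟨α, hαF⟩ : F.autGroup P) ∈ pResidual p (F.autGroup P) := by
    apply mem_pResidual_of_coprime
    rw [hα]
    exact (Nat.coprime_primes hq Fact.out).2 hqp
  have hThyp : T ≤ F.hyperfocalSubgroup p := by
    rw [hT, Subgroup.closure_le]
    rintro _ ⟨x, rfl⟩
    exact Subgroup.subset_closure ⟨P, ⟨α, hαF⟩, x, le_rfl, hres, rfl⟩
  have hinv : ∀ x : P, (x : Ω) ∈ T → ((α x : P) : Ω) ∈ T := by
    intro x hx
    have : ((α x : P) : Ω) = x * ((x : Ω)⁻¹ * (α x : P)) := by group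
    rw [this]
    exact T.mul_mem hx (hgen x)
  have hfinT : Finite T := finite_of_le hTP
  have hTS : T = P := by
    set α' := restrictAut α hTP hinv with hα'def
    have hα'F : α' ∈ F.autGroup T := by
      rw [mem_autGroup_iff F hTP]
      exact restrict_mem F hαM hTP
    have hα'q : α' ^ q = 1 := by
      ext x
      rw [restrictAut_pow_apply, hαq]
      rfl
    by_cases h1 : α' = 1
    · exfalso
      apply hα1
      ext1 x
      have hy : α (x⁻¹ * α x) = x⁻¹ * α x := by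
        have h2 := congrArg (fun t : MulAut T => ((t ⟨_, hgen x⟩ : T) : Ω)) h1
        ext
        exact h2
      have h3 := aut_pow_apply_of_fixed α x (x⁻¹ * α x) (by group) hy q
      rw [hαq] at h3
      have h4 : (x⁻¹ * α x) ^ q = 1 := by
        have : x = x * (x⁻¹ * α x) ^ q := h3
        exact (mul_eq_left.1 this.symm)
      obtain ⟨k, hk⟩ := hS (x⁻¹ * α x)
      have h5 : orderOf (x⁻¹ * α x) ∣ Nat.gcd q (p ^ k) :=
        Nat.dvd_gcd (orderOf_dvd_of_pow_eq_one h4) (orderOf_dvd_of_pow_eq_one hk)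
      have h6 : Nat.gcd q (p ^ k) = 1 :=
        Nat.Coprime.pow_right k ((Nat.coprime_primes hq Fact.out).2 hqp)
      rw [h6, Nat.dvd_one, orderOf_eq_one_iff] at h5
      have : α x = x * (x⁻¹ * α x) := by group
      rw [this, h5, mul_one]
      rfl
    · exact (key p hS F hxs hTP hα'F hq hqp (orderOf_eq_prime hα'q h1)).1
  have hhyp_le : F.hyperfocalSubgroup p ≤ P := by
    unfold FusionSystem.hyperfocalSubgroup
    rw [Subgroup.closure_le]
    rintro _ ⟨R, a, x, hR, -, rfl⟩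
    exact hR (R.mul_mem (R.inv_mem x.2) ((a : MulAut R) x).2)
  have hfoc_le : F.focalSubgroup ≤ P := by
    unfold FusionSystem.focalSubgroup
    rw [Subgroup.closure_le]
    rintro _ ⟨R, φ, x, hφ, rfl⟩
    exact P.mul_mem (P.inv_mem ((F.le_of_mem hφ).1 x.2)) ((F.le_of_mem hφ).2 x)
  have hTfoc : T ≤ F.focalSubgroup := by
    rw [hT, Subgroup.closure_le]
    rintro _ ⟨x, rfl⟩
    exact Subgroup.subset_closure ⟨P, _, x, hαM, rfl⟩
  have hPfoc : P ≤ F.focalSubgroup := by
    intro x hx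
    apply hTfoc
    rw [hTS]
    exact hx
  have hPhyp : P ≤ F.hyperfocalSubgroup p := by
    intro x hx
    apply hThyp
    rw [hTS]
    exact hx
  refine ⟨⟨le_rfl, fun R φ hφ => ?_⟩, le_antisymm hfoc_le hPfoc,
    le_antisymm hhyp_le hPhyp, q, α, hq, hqp, hαF, hα', ?_⟩
  · rw [← hEF R] at hφ
    obtain ⟨hR, a, ha, h⟩ := hφ
    have hle : R ⊔ P ≤ P := sup_le hR le_rfl
    refine ⟨resAut a hle, ?_, fun x => (h x).symm, ?_⟩
    · rw [← hEF]
      exact resAut_mem P _ _ ha hle
    · ext y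
      constructor
      · rintro ⟨x, -, rfl⟩
        exact (a _).2
      · intro hy
        refine ⟨⟨(a⁻¹ ⟨y, hy⟩ : P), Subgroup.mem_sup_right (a⁻¹ ⟨y, hy⟩ : P).2⟩,
          (a⁻¹ ⟨y, hy⟩ : P).2, ?_⟩
        show ((a (a⁻¹ ⟨y, hy⟩) : P) : Ω) = y
        simp
  · rw [← autGroup_autSystem_self P (Inn P ⊔ Subgroup.zpowers α) le_sup_left]
    unfold FusionSystem.autGroup
    rw [hEF P]

end Cfsg.Agent.S5245
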