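import Cfsg.Statements.S5251
import Cfsg.Agent.Lib.Helper87.FusClosed2
import Cfsg.Agent.Lib.Helper87.StabChain

set_option autoImplicit false
open Cfsg

namespace Cfsg.Agent.S5251

open Cfsg.FusionSystem Cfsg.Agent.Lib.Helper84 Cfsg.Agent.Lib.Helper87 Cfsg.Agent.Lib.Lead

/-- Let F be a saturated fusion system over a finite p-group S, E a normal subsystem of F over T, and P an F-centric subgroup of S such that P ∩ T is not E-centric. Then some F-conjugate P* of P satisfies Out_S(P*) ∩ O_p(Out_F(P*)) ≠ 1: there is an element of N_S(P*) outside P* whose conjugation action on P* lies in O_p(Aut_F(P*)). In particular P is not both centric and radical in F. -/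
theorem result {Ω : Type*} [Group Ω] {S : Subgroup Ω} [Finite S] (p : ℕ) [Fact p.Prime] (hS : IsPGroup p S) (F : Cfsg.FusionSystem S) (hF : F.IsSaturated p) {T : Subgroup Ω} (E : Cfsg.FusionSystem T) (hE : E.IsNormalIn F p) (P : Subgroup Ω) (hP : F.IsCentric P) (hPT : ¬ E.IsCentric (P ⊓ T)) : (∃ φ ∈ F.Hom P, ∃ x ∈ S ⊓ Subgroup.normalizer (φ.range : Set Ω), x ∉ φ.range ∧ ∃ α ∈ ((Cfsg.pCore p ↥(F.autGroup φ.range)).map (F.autGroup φ.range).subtype : Subgroup (MulAut ↥φ.range)), ∀ y : ↥φ.range, ((α y : ↥φ.range) : Ω) = x * (y : Ω) * x⁻¹) ∧ ¬ F.IsRadical p P := by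
  have hsub : E.IsSubsystemOf F := hE.1.2.2.1
  have hT : F.StronglyClosed T := hE.1.2.2.2.1
  have hPS : P ≤ S := hP.1
  have hTS : T ≤ S := hT.1
  -- a bad conjugate of P ∩ T
  have hbad : ∃ Q, E.IsConj (P ⊓ T) Q ∧ ¬ centralizerIn T Q ≤ Q := by
    by_contra hcon
    push Not at hcon
    exact hPT ⟨inf_le_right, hcon⟩
  obtain ⟨Q, ⟨φ₀, hφ₀, hφ₀Q⟩, hQbad⟩ := hbad
  have hconjQ : F.IsConj (P ⊓ T) Q := ⟨φ₀, hsub _ hφ₀, hφ₀Q⟩
  have hP₀S : P ⊓ T ≤ S := inf_le_left.trans hPS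
  obtain ⟨R, hconjR, hauto, hrec⟩ := hF (P ⊓ T) hP₀S
  obtain ⟨χ₁, hχ₁, -, hχ₁map⟩ := exists_normalizer_hom hS F hauto hrec hconjR
  obtain ⟨χ₂, hχ₂, -, hχ₂map⟩ := exists_normalizer_hom hS F hauto hrec
    (isConj_trans (isConj_symm hconjQ) hconjR)
  have hQS : Q ≤ S := isConj_le_right hconjQ
  -- P normalizes P ∩ T
  have hPN : P ≤ normalizerIn S (P ⊓ T) := by
    intro g hg
    refine ⟨hPS hg, ?_⟩
    apply mem_normalizer_of_conj_mem
    · rintro x ⟨hx1, hx2⟩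
      exact ⟨P.mul_mem (P.mul_mem hg hx1) (P.inv_mem hg), sc_conj_mem hT (hPS hg) hx2⟩
    · rintro x ⟨hx1, hx2⟩
      refine ⟨P.mul_mem (P.mul_mem (P.inv_mem hg) hx1) hg, ?_⟩
      have := sc_conj_mem hT (S.inv_mem (hPS hg)) hx2
      simpa using this
  have hφ := restrict_mem F hχ₁ hPN
  set φ := χ₁.comp (Subgroup.inclusion hPN) with hφdef
  have hφS : φ.range ≤ S := range_le F hφ
  -- φ(P) ∩ T = R
  have hRT : ∀ y, y ∈ φ.range → y ∈ T → y ∈ R := by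
    rintro _ ⟨x, rfl⟩ hy
    -- x ∈ T since the inverse map preserves T
    have hM := (mor_rangeEquiv F hφ).symm
    have h1 := sc_map_mem hT hM ⟨φ x, ⟨x, rfl⟩⟩ hy
    have h2 : (rangeEquiv F hφ).symm ⟨φ x, ⟨x, rfl⟩⟩ = x := by
      rw [MulEquiv.symm_apply_eq]
      rfl
    have h3 : (((rangeEquiv F hφ).symm ⟨φ x, ⟨x, rfl⟩⟩ : P) : Ω) ∈ T := h1
    rw [h2] at h3
    rw [← hχ₁map]
    exact ⟨Subgroup.inclusion hPN x, ⟨x.2, h3⟩, rfl⟩
  have hRle : R ≤ φ.range := by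
    intro y hy
    rw [← hχ₁map] at hy
    obtain ⟨x, hx, rfl⟩ := hy
    exact ⟨⟨x, hx.1⟩, rfl⟩
  have hRT' : R ≤ T := by
    intro y hy
    rw [← hχ₁map] at hy
    obtain ⟨x, hx, rfl⟩ := hy
    exact sc_map_mem hT hχ₁ x hx.2
  -- an element of C_T(R) outside R
  obtain ⟨c, hc, hcQ⟩ := SetLike.not_le_iff_exists.1 hQbad
  have hcN : c ∈ normalizerIn S Q :=
    centralizerIn_le_normalizerIn S Q ⟨hTS hc.1, hc.2⟩
  have hc'C : χ₂ ⟨c, hcN⟩ ∈ centralizerIn T R :=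
    ⟨sc_map_mem hT hχ₂ _ hc.1, (map_mem_centralizerIn F hχ₂ hχ₂map ⟨c, hcN⟩ hc.2).2⟩
  have hc'R : χ₂ ⟨c, hcN⟩ ∉ R := by
    intro h
    rw [← hχ₂map] at h
    obtain ⟨x, hx, hxc⟩ := h
    have := F.injective_of_mem hχ₂ hxc
    apply hcQ
    have h2 : (x : Ω) = c := congrArg Subtype.val this
    rw [← h2]
    exact hx
  -- φ(P) normalizes C_T(R)
  have hRnorm : ∀ g ∈ φ.range, ∀ r ∈ R, g * r * g⁻¹ ∈ R := by
    intro g hg r hr
    exact hRT _ (Subgroup.mul_mem _ (Subgroup.mul_mem _ hg (hRle hr)) (Subgroup.inv_mem _ hg))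
      (sc_conj_mem hT (hφS hg) (hRT' hr))
  have hDconj : ∀ g ∈ φ.range, ∀ d ∈ centralizerIn T R, g * d * g⁻¹ ∈ centralizerIn T R := by
    intro g hg d hd
    refine ⟨sc_conj_mem hT (hφS hg) hd.1, Subgroup.mem_centralizer_iff.2 fun r hr => ?_⟩
    have h1 : g⁻¹ * r * g⁻¹⁻¹ ∈ R := hRnorm g⁻¹ (Subgroup.inv_mem _ hg) r hr
    have h2 := (Subgroup.mem_centralizer_iff.1 hd.2) _ h1
    calc r * (g * d * g⁻¹) = g * ((g⁻¹ * r * g⁻¹⁻¹) * d) * g⁻¹ := by group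
      _ = g * (d * (g⁻¹ * r * g⁻¹⁻¹)) * g⁻¹ := by rw [h2]
      _ = g * d * g⁻¹ * r := by group
  have hDN : φ.range ≤ Subgroup.normalizer ((centralizerIn T R : Subgroup Ω) : Set Ω) := by
    intro g hg
    apply mem_normalizer_of_conj_mem
    · exact hDconj g hg
    · intro d hd
      have := hDconj g⁻¹ (Subgroup.inv_mem _ hg) d hd
      simpa using this
  have hDnle : ¬ centralizerIn T R ≤ φ.range := by
    intro h
    exact hc'R (hRT _ (h hc'C) hc'C.1)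
  obtain ⟨x, hxD, hxN, hxP⟩ := exists_mem_normalizing_not_mem hS
    ((centralizerIn_le T R).trans hTS) hφS hDN hDnle
  have hxS : x ∈ S := hTS hxD.1
  have hfin : Finite φ.range := finite_of_le hφS
  -- the chain
  let D : ℕ → Subgroup φ.range := fun j => match j with
    | 0 => ⊤
    | 1 => R.subgroupOf φ.range
    | (_ + 2) => ⊥
  have hinv : ∀ j, ∀ α ∈ F.autGroup φ.range, ∀ y ∈ D j, α y ∈ D j := by
    intro j α hα y hy
    have hαM : Mor F α.toMonoidHom := (mem_autGroup_iff F hφS α).1 hα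
    match j, hy with
    | 0, _ => trivial
    | 1, hy => exact hRT _ (α y).2 (sc_map_mem hT hαM y (hRT' hy))
    | (t + 2), hy =>
      have hy' : y = 1 := hy
      rw [hy', map_one]
      exact Subgroup.one_mem _
  have hcF : conjAut φ.range x hxN ∈ F.autGroup φ.range :=
    autInducedBy_le_autGroup F hφS (conjAut_mem_autInducedBy hxN hxS)
  have hstab : ∀ j, ∀ y ∈ D j, y⁻¹ * conjAut φ.range x hxN y ∈ D (j + 1) := by
    intro j y hy
    match j, hy with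
    | 0, _ =>
      apply hRT _ (y⁻¹ * conjAut φ.range x hxN y).2
      show (y : Ω)⁻¹ * (x * y * x⁻¹) ∈ T
      have h1 : (y : Ω)⁻¹ * x * (y : Ω)⁻¹⁻¹ ∈ T := sc_conj_mem hT (S.inv_mem (hφS y.2)) hxD.1
      have h2 : (y : Ω)⁻¹ * (x * y * x⁻¹) = ((y : Ω)⁻¹ * x * (y : Ω)⁻¹⁻¹) * x⁻¹ := by group
      rw [h2]
      exact T.mul_mem h1 (T.inv_mem hxD.1)
    | 1, hy =>
      show y⁻¹ * conjAut φ.range x hxN y = 1
      ext
      show (y : Ω)⁻¹ * (x * y * x⁻¹) = 1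
      have h1 := (Subgroup.mem_centralizer_iff.1 hxD.2) y hy
      rw [← h1]
      group
    | (t + 2), hy =>
      have hy' : y = 1 := hy
      show y⁻¹ * conjAut φ.range x hxN y = 1
      rw [hy']
      simp
  have hcore := mem_pCore_of_stab (hS.to_le hφS) (F.autGroup φ.range) D 2 rfl rfl hinv _ hcF hstab
  refine ⟨⟨φ, hφ, x, ⟨hxS, hxN⟩, hxP, _, hcore, fun y => rfl⟩, ?_⟩
  -- P is not radical
  intro hrad
  apply hxP
  have he := mor_rangeEquiv F hφ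
  obtain ⟨a, ha, hax⟩ := hcore
  rw [← pCore_map_equiv (autEquiv he)] at ha
  obtain ⟨b, hb, rfl⟩ := ha
  have hb' : (b : MulAut P) ∈ (pCore p (F.autGroup P)).map (F.autGroup P).subtype := ⟨b, hb, rfl⟩
  rw [hrad.2] at hb'
  obtain ⟨y₀, hy₀⟩ := hb'
  -- conjugation by x equals conjugation by e y₀
  have hconj : ∀ w : φ.range, x * (w : Ω) * x⁻¹ =
      ((rangeEquiv F hφ y₀ : φ.range) : Ω) * w * ((rangeEquiv F hφ y₀ : φ.range) : Ω)⁻¹ := by
    intro w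
    have h1 := congrArg (fun t : MulAut φ.range => ((t w : φ.range) : Ω)) hax
    have h2 : ((((autEquiv he b : F.autGroup φ.range) : MulAut φ.range) w : φ.range) : Ω)
        = x * w * x⁻¹ := h1
    rw [← h2]
    obtain ⟨v, rfl⟩ := (rangeEquiv F hφ).surjective w
    rw [autEquiv_apply, ← hy₀]
    simp
  have hc2 : ((rangeEquiv F hφ y₀ : φ.range) : Ω)⁻¹ * x ∈ centralizerIn S φ.range := by
    refine ⟨S.mul_mem (S.inv_mem (hφS (rangeEquiv F hφ y₀).2)) hxS,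
      Subgroup.mem_centralizer_iff.2 fun w hw => ?_⟩
    have h2 := hconj ⟨w, hw⟩
    set y := ((rangeEquiv F hφ y₀ : φ.range) : Ω) with hy
    have h2' : x * w * x⁻¹ = y * w * y⁻¹ := h2
    calc w * (y⁻¹ * x) = y⁻¹ * (y * w * y⁻¹) * x := by group
      _ = y⁻¹ * (x * w * x⁻¹) * x := by rw [h2']
      _ = y⁻¹ * x * w := by group
  have h3 := hP.2 φ.range ⟨φ, hφ, rfl⟩ hc2
  have : x = ((rangeEquiv F hφ y₀ : φ.range) : Ω) * (((rangeEquiv F hφ y₀ : φ.range) : Ω)⁻¹ * x) := by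
    group
  rw [this]
  exact Subgroup.mul_mem _ (rangeEquiv F hφ y₀).2 h3

end Cfsg.Agent.S5251
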