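import Cfsg.Statements.S5254
import Cfsg.Agent.Lib.Helper85.AbIdxEss2

set_option autoImplicit false
open Cfsg

namespace Cfsg.Agent.S5254

/-- Let p be an odd prime, S a finite nonabelian p-group with a unique abelian subgroup A of index p, and F a saturated fusion system over S. Then every F-essential subgroup P is A, or Z(S)⟨x⟩ for some x ∈ S outside A, or (when the second centre Z₂(S) lies in A) Z₂(S)⟨x⟩ for some x ∈ S outside A; and P has index p in its normalizer in S. -/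
theorem result {Ω : Type*} [Group Ω] {S : Subgroup Ω} [Finite S] (p : ℕ) [Fact p.Prime] (hS : IsPGroup p S) (F : Cfsg.FusionSystem S) (hF : F.IsSaturated p) (hp : p ≠ 2) (hna : ¬ IsMulCommutative ↥S) (A : Subgroup Ω) (hA : A ≤ S ∧ IsMulCommutative ↥A ∧ (A.subgroupOf S).index = p) (huniq : ∀ B : Subgroup Ω, B ≤ S → IsMulCommutative ↥B → (B.subgroupOf S).index = p → B = A) (P : Subgroup Ω) (hP : F.IsEssential p P) : (P = A ∨ (∃ x ∈ S, x ∉ A ∧ P = (S ⊓ Subgroup.centralizer (S : Set Ω)) ⊔ Subgroup.zpowers x) ∨ (((upperCentralSeries ↥S 2).map S.subtype) ≤ A ∧ ∃ x ∈ S, x ∉ A ∧ P = ((upperCentralSeries ↥S 2).map S.subtype) ⊔ Subgroup.zpowers x)) ∧ (P.subgroupOf (S ⊓ Subgroup.normalizer (P : Set Ω))).index = p := by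
  have hab := Lib.Helper85.abIdx_of hna hA
  by_cases hPA : P = A
  · subst hPA
    refine ⟨Or.inl rfl, ?_⟩
    have hSN : S ≤ Subgroup.normalizer (P : Set Ω) := by
      intro s hs
      exact Lib.Helper84.mem_normalizer_of_conj_mem (fun a ha => hab.conj_mem hS hs ha)
        (fun a ha => hab.conj_mem' hS hs ha)
    rw [inf_eq_left.2 hSN]
    exact hA.2.2
  · obtain ⟨x, c⟩ := Lib.Helper85.exists_essCtx hS hF hab hP hPA
    refine ⟨Or.inr ?_, c.index_normalizer⟩
    by_cases h : ∀ y ∈ P, y ∈ A → y ∈ Lib.Helper87.ZS S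
    · exact Or.inl ⟨x, c.xS, c.xA, c.eq_ZS_sup h⟩
    · push Not at h
      obtain ⟨y₃, hy₃P, hy₃A, hy₃⟩ := h
      exact Or.inr ⟨c.Z2_le_A_of hy₃P hy₃A hy₃, x, c.xS, c.xA, c.eq_Z2_sup hy₃P hy₃A hy₃⟩

end Cfsg.Agent.S5254
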