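import Cfsg.Statements.S5284
import Cfsg.Agent.Lib.Helper88.SSMain
import Cfsg.Agent.Lib.Helper64.SSC1
import Cfsg.Agent.Lib.Helper64.SSC2
import Cfsg.Agent.Lib.Helper64.SSC3
import Cfsg.Agent.Lib.Helper64.SSC4

set_option autoImplicit false
open Cfsg

namespace Cfsg.Agent.S5284

open Cfsg.Agent.Lib.Helper88 Cfsg.Agent.Lib.Helper64.SS

/-- Let S be a finite abelian p-group. Every saturated fusion system over S is supersoluble (S has a chain of F-strongly closed subgroups from 1 to S with cyclic steps) if and only if the invariants of S are pairwise distinct, that is, S is not isomorphic to a direct product (Z/p^n × Z/p^n) × H with n ≥ 1. -/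
theorem result {Ω : Type*} [Group Ω] {S : Subgroup Ω} [Finite S] (p : ℕ) [Fact p.Prime] (hS : IsPGroup p ↥S) (hab : IsMulCommutative ↥S) : (∀ F : Cfsg.FusionSystem S, F.IsSaturated p → (∃ (m : ℕ) (c : Fin (m + 1) → Subgroup Ω), c 0 = ⊥ ∧ c (Fin.last m) = S ∧ (∀ i : Fin (m + 1), F.StronglyClosed (c i)) ∧ ∀ i : Fin m, c i.castSucc ≤ c i.succ ∧ ∃ x ∈ S, c i.succ = c i.castSucc ⊔ Subgroup.zpowers x)) ↔ ¬ ∃ (n : ℕ) (H : Type) (_ : CommGroup H), 0 < n ∧ Nonempty (↥S ≃* (Multiplicative (ZMod (p ^ n)) × Multiplicative (ZMod (p ^ n))) × H) := by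
  have habS : ∀ x ∈ S, ∀ y ∈ S, x * y = y * x := fun x hx y hy =>
    congrArg Subtype.val (hab.is_comm.comm ⟨x, hx⟩ ⟨y, hy⟩)
  let instC : CommGroup S :=
    { (inferInstance : Group S) with mul_comm := fun a b => hab.is_comm.comm a b }
  constructor
  · rintro hall ⟨n, K, _, hn, ⟨e⟩⟩
    have hfinK : Finite K := by
      apply Finite.of_injective (fun k : K => e.symm (1, k))
      intro a b h
      have := e.symm.injective h
      exact (Prod.ext_iff.1 this).2
    obtain ⟨H, hH, hbad⟩ := exists_bad_subgroup p n hn K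
    apply hbad
    have hinj : Function.Injective (MulAut.congr e.symm).toMonoidHom := (MulAut.congr e.symm).injective
    have hcard : (Nat.card (H.map (MulAut.congr e.symm).toMonoidHom)).Coprime p := by
      rw [Subgroup.card_map_of_injective hinj]
      exact hH
    obtain ⟨h1, h2⟩ := comm_exp_of_cycChain hS hall _ hcard
    constructor
    · intro a ha b hb
      apply hinj
      rw [map_mul, map_mul]
      exact h1 _ ⟨a, ha, rfl⟩ _ ⟨b, hb, rfl⟩
    · intro h hh
      apply hinj
      rw [map_pow, map_one]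
      exact h2 _ ⟨h, hh, rfl⟩
  · intro hno F hF
    obtain ⟨ι, _, ex, hinj, ⟨e⟩⟩ := exists_iso_pi (P := S) hS hno
    have hD : ∀ k : ℕ, ∀ x y : S, x ^ p = 1 → y ^ p = 1 → (∃ a, x = a ^ (p ^ k)) →
        (∃ b, y = b ^ (p ^ k)) → (¬ ∃ c, x = c ^ (p ^ (k + 1))) →
        ∃ i : ℕ, ∃ c, y * x ^ i = c ^ (p ^ (k + 1)) := by
      intro k x y hx hy hxa hyb hxc
      obtain ⟨a, ha⟩ := hxa
      obtain ⟨b, hb⟩ := hyb
      obtain ⟨i, c, hc⟩ := D_pi ex hinj k (e x) (e y) (by rw [← map_pow, hx, map_one])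
        (by rw [← map_pow, hy, map_one]) ⟨e a, by rw [← map_pow, ← ha]⟩
        ⟨e b, by rw [← map_pow, ← hb]⟩ (by
          rintro ⟨c, hc⟩
          apply hxc
          refine ⟨e.symm c, ?_⟩
          apply e.injective
          rw [map_pow, e.apply_symm_apply, hc])
      refine ⟨i, e.symm c, ?_⟩
      apply e.injective
      rw [map_mul, map_pow, map_pow, e.apply_symm_apply, hc]
    obtain ⟨W, m, hmono, h0, hm, hchar, hstep⟩ := exists_char_chain hS hD
    apply cycChain_of_nat (fun t => (W t).map S.subtype) m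
    · show (W 0).map S.subtype = ⊥
      rw [h0, Subgroup.map_bot]
    · show (W m).map S.subtype = S
      rw [hm, ← MonoidHom.range_eq_map, Subgroup.range_subtype]
    · intro t
      refine ⟨?_, fun R hR φ hφ y => ?_⟩
      · rintro _ ⟨z, -, rfl⟩
        exact z.2
      · obtain ⟨z, hz, hzy⟩ := hR y.2
        obtain ⟨α, -, hα⟩ := burnside_abelian p F hF habS hφ
        have h3 := hα y y.2 (hzy ▸ z.2)
        rw [← h3]
        refine ⟨_, hchar t α _ ?_, rfl⟩
        have : z = ⟨y, hzy ▸ z.2⟩ := Subtype.ext hzy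
        rwa [← this]
    · intro t
      obtain ⟨x, hx⟩ := hstep t
      refine ⟨x, x.2, ?_⟩
      show (W (t + 1)).map S.subtype = (W t).map S.subtype ⊔ _
      rw [hx, Subgroup.map_sup, MonoidHom.map_zpowers]
      rfl

end Cfsg.Agent.S5284
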