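import Mathlib
import Cfsg.Statements.S5291
import Cfsg.Agent.S5106
import Cfsg.Agent.Lib.Helper84.FusionSat2
import Cfsg.Agent.Lib.Helper85.FusNormal

set_option autoImplicit false
open Cfsg

namespace Cfsg.Agent.S5291

open Cfsg.FusionSystem Cfsg.Agent.Lib.Helper84

section aux
variable {Ω : Type*} [Group Ω]

/-- image of `R` under `α ∈ Aut(T)` -/
abbrev img {T : Subgroup Ω} (α : MulAut T) (R : Subgroup Ω) : Subgroup Ω :=
  (R.subgroupOf T).map (T.subtype.comp α.toMonoidHom)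

theorem img_le {T : Subgroup Ω} (α : MulAut T) (R : Subgroup Ω) : img α R ≤ T := by
  rintro _ ⟨y, _, rfl⟩; exact (α y).2

theorem mem_img {T : Subgroup Ω} (α : MulAut T) {R : Subgroup Ω} (x : T) (hx : (x : Ω) ∈ R) :
    ((α x : T) : Ω) ∈ img α R := ⟨x, hx, rfl⟩

theorem isNormal_img {S T : Subgroup Ω} [Finite T] (p : ℕ) [Fact p.Prime] (hT : IsPGroup p T)
    (F : FusionSystem S) (E : FusionSystem T) (hEs : E.IsSaturated p)
    (hinv : ∀ (P : Subgroup Ω) (hPT : P ≤ T) (φ : P →* Ω), φ ∈ E.Hom P → ∀ α ∈ F.autGroup T,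
      ∃ χ ∈ E.Hom ((P.subgroupOf T).map (T.subtype.comp α.toMonoidHom)),
        ∀ (x : P) (hφx : φ x ∈ T)
          (hαx : ((α ⟨x, hPT x.2⟩ : T) : Ω) ∈ (P.subgroupOf T).map (T.subtype.comp α.toMonoidHom)),
          χ ⟨(α ⟨x, hPT x.2⟩ : T), hαx⟩ = ((α ⟨φ x, hφx⟩ : T) : Ω))
    {R : Subgroup Ω} (hR : E.IsNormal R) (α : MulAut T) (hα : α ∈ F.autGroup T) :
    E.IsNormal (img α R) := by
  rw [Cfsg.Agent.S5106.result p hT E hEs _ (img_le α R)]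
  intro P hPR φ hφ
  have hPT : P ≤ T := hPR.trans (img_le α R)
  obtain ⟨χ, hχ, hχa⟩ := hinv P hPT φ hφ α⁻¹ (inv_mem hα)
  have hP'R : (P.subgroupOf T).map (T.subtype.comp (α⁻¹).toMonoidHom) ≤ R := by
    rintro _ ⟨y, hy, rfl⟩
    obtain ⟨z, hz, hzy⟩ := hPR hy
    have h1 : α z = y := Subtype.ext hzy
    show ((α⁻¹ y : T) : Ω) ∈ R
    rw [← h1]
    simpa using Subgroup.mem_subgroupOf.1 hz
  obtain ⟨β, hβ, hβ'⟩ := (Cfsg.Agent.S5106.result p hT E hEs R hR.1).1 hR _ hP'R χ hχ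
  rw [mem_autGroup_iff E hR.1] at hβ
  obtain ⟨χ', hχ', hχ''⟩ := hinv R hR.1 _ hβ α hα
  have hkey : ∀ (r : R), χ' ⟨(α ⟨r, hR.1 r.2⟩ : T), mem_img α _ r.2⟩
      = ((α ⟨(β r : R), hR.1 (β r).2⟩ : T) : Ω) := fun r =>
    hχ'' r (hR.1 (β r).2) (mem_img α _ r.2)
  have hrange : χ'.range = img α R := by
    ext y
    constructor
    · rintro ⟨⟨_, z, hz, rfl⟩, rfl⟩
      have := hkey ⟨z, hz⟩
      have h2 := mem_img α (⟨(β ⟨z, hz⟩ : R), hR.1 (β ⟨z, hz⟩).2⟩ : T) (β ⟨z, hz⟩).2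
      rw [← this] at h2
      exact h2
    · rintro ⟨z, hz, rfl⟩
      have := hkey (β.symm ⟨z, hz⟩)
      refine ⟨_, this.trans ?_⟩
      simp
  refine ⟨equivOfRange χ' (E.injective_of_mem hχ') hrange, ?_, ?_⟩
  · rw [mem_autGroup_iff E (img_le α R)]
    exact mor_equivOfRange E hχ' hrange
  · intro x
    rw [equivOfRange_apply]
    have hx1 : ((α⁻¹ ⟨x, hPT x.2⟩ : T) : Ω) ∈
        (P.subgroupOf T).map (T.subtype.comp (α⁻¹).toMonoidHom) := ⟨⟨x, hPT x.2⟩, x.2, rfl⟩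
    have h1 := hχa x ((E.le_of_mem hφ).2 x) hx1
    have h2 := hβ' ⟨_, hx1⟩
    have h3 := hkey ⟨_, hP'R hx1⟩
    have e1 : (Subgroup.inclusion hPR x : img α R) =
        ⟨(α ⟨((⟨_, hP'R hx1⟩ : R) : Ω), hR.1 (hP'R hx1)⟩ : T), mem_img α _ (hP'R hx1)⟩ := by
      apply Subtype.ext
      show (x : Ω) = ((α (α⁻¹ ⟨x, hPT x.2⟩) : T) : Ω)
      simp
    have e2 : (⟨(β ⟨_, hP'R hx1⟩ : R), hR.1 (β ⟨_, hP'R hx1⟩).2⟩ : T)
        = α⁻¹ ⟨φ x, (E.le_of_mem hφ).2 x⟩ := Subtype.ext (h2.trans h1)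
    rw [e1, h3, e2]
    simp

end aux

theorem result {Ω : Type*} [Group Ω] {S : Subgroup Ω} [Finite S] (p : ℕ) [Fact p.Prime] (hS : IsPGroup p S)
    (F : Cfsg.FusionSystem S) (hF : F.IsSaturated p)
    {T : Subgroup Ω} (E : Cfsg.FusionSystem T) (hE : E.IsWeaklyNormalIn F p)
    (R : Subgroup Ω) (hR : E.IsNormal R) :
    F.IsNormal (Subgroup.closure {x : Ω | ∃ φ ∈ F.Hom R, ∃ r : R, x = φ r}) := by
  obtain ⟨hEs, -, hsub, hsc, hinv, hfrat⟩ := hE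
  have hTS : T ≤ S := hsc.1
  have : Finite T := finite_of_le hTS
  have hT : IsPGroup p T := hS.to_le hTS
  have hRT : R ≤ T := hR.1
  set Rs := Subgroup.closure {x : Ω | ∃ φ ∈ F.Hom R, ∃ r : R, x = φ r} with hRs
  have hwc : ∀ φ₀ ∈ E.Hom R, ∀ r : R, φ₀ r ∈ R := by
    intro φ₀ h r
    obtain ⟨ψ, hψ, h1, h2⟩ := hR.2 R φ₀ h
    rw [← h1 r]
    have h3 : ψ (Subgroup.inclusion le_sup_left r) ∈ (R.subgroupOf (R ⊔ R)).map ψ :=
      ⟨_, Subgroup.mem_subgroupOf.2 r.2, rfl⟩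
    rw [h2] at h3
    exact h3
  have hαmor : ∀ α ∈ F.autGroup T, T.subtype.comp α.toMonoidHom ∈ F.Hom T :=
    fun α hα => (mem_autGroup_iff F hTS α).1 hα
  have hRsT : Rs ≤ T := by
    rw [hRs, Subgroup.closure_le]
    rintro _ ⟨φ, hφ, r, rfl⟩
    exact hsc.2 R hRT φ hφ r
  have hle2 : ∀ α ∈ F.autGroup T, img α R ≤ Rs := by
    rintro α hα _ ⟨z, hz, rfl⟩
    refine Subgroup.subset_closure ⟨_, restrict_mem F (hαmor α hα) hRT, ⟨z, hz⟩, rfl⟩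
  have hEn : E.IsNormal Rs := by
    have h := Cfsg.Agent.Lib.Helper85.sSup_mem_of_finite (S := T)
      (fun Q => E.IsNormal Q ∧ Q ≤ Rs) (fun Q hQ => hQ.1.1)
      ⟨Cfsg.Agent.Lib.Helper85.isNormal_bot E, bot_le⟩
      (fun Q Q' hQ hQ' => ⟨Cfsg.Agent.Lib.Helper85.isNormal_sup E hQ.1 hQ'.1, sup_le hQ.2 hQ'.2⟩)
    have heq : Rs = sSup {Q | E.IsNormal Q ∧ Q ≤ Rs} := by
      apply le_antisymm _ h.2
      conv_lhs => rw [hRs]
      rw [Subgroup.closure_le]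
      rintro _ ⟨φ, hφ, r, rfl⟩
      obtain ⟨α, hα, φ₀, hφ₀, h0⟩ := hfrat R hRT φ hφ
      have h1 : img α R ≤ sSup {Q | E.IsNormal Q ∧ Q ≤ Rs} :=
        le_sSup ⟨isNormal_img p hT F E hEs hinv hR α hα, hle2 α hα⟩
      apply h1
      rw [h0 r (hRT (hwc φ₀ hφ₀ r))]
      exact mem_img α _ (hwc φ₀ hφ₀ r)
    rw [heq]
    exact h.1
  have hinvRs : ∀ α ∈ F.autGroup T, ∀ x : T, (x : Ω) ∈ Rs → ((α x : T) : Ω) ∈ Rs := by
    intro α hα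
    have h1 : Rs ≤ ((Rs.subgroupOf T).comap α.toMonoidHom).map T.subtype := by
      conv_lhs => rw [hRs]
      rw [Subgroup.closure_le]
      rintro _ ⟨φ, hφ, r, rfl⟩
      refine ⟨⟨φ r, hsc.2 R hRT φ hφ r⟩, ?_, rfl⟩
      show ((α ⟨φ r, hsc.2 R hRT φ hφ r⟩ : T) : Ω) ∈ Rs
      refine Subgroup.subset_closure ⟨_, F.comp_mem hφ (hαmor α hα) (hsc.2 R hRT φ hφ), r, rfl⟩
    intro x hx
    obtain ⟨t, ht, htx⟩ := h1 hx
    have : t = x := Subtype.ext htx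
    subst this
    exact ht
  rw [Cfsg.Agent.S5106.result p hS F hF Rs (hRsT.trans hTS)]
  intro P hPRs φ hφ
  obtain ⟨α, hα, φ₀, hφ₀, h0⟩ := hfrat P (hPRs.trans hRsT) φ hφ
  obtain ⟨β, hβ, hβ'⟩ := (Cfsg.Agent.S5106.result p hT E hEs Rs hRsT).1 hEn P hPRs φ₀ hφ₀
  have hmap : (Rs.subgroupOf T).map (T.subtype.comp α.toMonoidHom) = Rs := by
    apply le_antisymm
    · rintro _ ⟨z, hz, rfl⟩
      exact hinvRs α hα z hz
    · intro y hy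
      refine ⟨α⁻¹ ⟨y, hRsT hy⟩, hinvRs α⁻¹ (inv_mem hα) ⟨y, hRsT hy⟩ hy, ?_⟩
      show ((α (α⁻¹ ⟨y, hRsT hy⟩) : T) : Ω) = y
      simp
  refine ⟨restrictEquiv _ (F.injective_of_mem (hαmor α hα)) hRsT hmap * β, mul_mem ?_ ?_, ?_⟩
  · rw [mem_autGroup_iff F (hRsT.trans hTS)]
    exact mor_restrictEquiv F (hαmor α hα) hRsT hmap
  · rw [mem_autGroup_iff F (hRsT.trans hTS)]
    exact hsub _ ((mem_autGroup_iff E hRsT β).1 hβ)
  · intro x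
    rw [MulAut.mul_apply, restrictEquiv_apply, h0 x ((E.le_of_mem hφ₀).2 x)]
    show ((α _ : T) : Ω) = _
    congr 2
    exact Subtype.ext (hβ' x)

end Cfsg.Agent.S5291
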