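import Cfsg.Statements.S5298
import Cfsg.Agent.Lib.Helper84.FusionSmallCyclic

set_option autoImplicit false
universe u
open Cfsg
open scoped commutatorElement

namespace Cfsg.Agent.S5298

/-- Let F be a saturated fusion system over a finite p-group S. If every map of F between cyclic subgroups of the hyperfocal subgroup of F of order p or 4 is conjugation by an element of S, then F is the inner fusion system of S. -/
theorem result {Ω : Type u} [Group Ω] {S : Subgroup Ω} [Finite S] (p : ℕ) [Fact p.Prime] (hS : IsPGroup p S)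
    (F : Cfsg.FusionSystem S) (hF : F.IsSaturated p)
    (h : ∀ A B : Subgroup Ω, A ≤ (F.hyperfocalSubgroup p) → B ≤ (F.hyperfocalSubgroup p) → IsCyclic ↥A → (Nat.card ↥A = p ∨ Nat.card ↥A = 4) → IsCyclic ↥B → (Nat.card ↥B = p ∨ Nat.card ↥B = 4) →
      F.homSet A B ⊆ (Cfsg.innerFusionSystem S).Hom A) :
    ∀ P : Subgroup Ω, F.Hom P = (Cfsg.innerFusionSystem S).Hom P := by
  have hin : F = Cfsg.innerFusionSystem S := by
    apply Cfsg.Agent.Lib.Helper84.eq_inner_of_isPGroup hS F hF
    intro P hPS
    apply Cfsg.Agent.Lib.Helper84.isPGroup_autGroup_of_fix p F hPS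
    intro α hα m hm hαm
    have hfix := Cfsg.Agent.Lib.Helper84.fix_of_small_descent p hS F hPS α hα m hm hαm ?_
      (Nat.card (⊤ : Subgroup P)) ⊤ le_rfl (fun _ _ => trivial)
    · ext1 x
      exact hfix x trivial
    · intro i x hs hxH hαH hxi
      by_cases hx1 : x = 1
      · rw [hx1]; simp
      have hx1' : (x : Ω) ≠ 1 := fun h0 => hx1 (by ext; exact h0)
      have hαx1 : ((α x : P) : Ω) ≠ 1 := by
        intro h0
        apply hx1
        have : α x = 1 := by ext; exact h0
        exact (map_eq_one_iff α α.injective).1 this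
      have hs' : (x : Ω) ^ p = 1 ∨ (p = 2 ∧ (x : Ω) ^ 4 = 1) := by
        rcases hs with hs | ⟨h2, hs⟩
        · left; exact_mod_cast congrArg Subtype.val hs
        · right; exact ⟨h2, by exact_mod_cast congrArg Subtype.val hs⟩
      have hs'' : ((α x : P) : Ω) ^ p = 1 ∨ (p = 2 ∧ ((α x : P) : Ω) ^ 4 = 1) := by
        rcases hs with hs | ⟨h2, hs⟩
        · left
          have : (α x) ^ p = 1 := by rw [← map_pow, hs, map_one]
          exact_mod_cast congrArg Subtype.val this
        · right
          have : (α x) ^ 4 = 1 := by rw [← map_pow, hs, map_one]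
          exact ⟨h2, by exact_mod_cast congrArg Subtype.val this⟩
      have hmem := h (Subgroup.zpowers (x : Ω)) (Subgroup.zpowers ((α x : P) : Ω))
        ((Subgroup.zpowers_le).2 hxH) ((Subgroup.zpowers_le).2 hαH) inferInstance
        (Cfsg.Agent.Lib.Helper84.small_card p hs' hx1') inferInstance
        (Cfsg.Agent.Lib.Helper84.small_card p hs'' hαx1)
        (Cfsg.Agent.Lib.Helper84.restrict_zpowers_mem F hPS hα x)
      obtain ⟨-, s, hsS, hconj⟩ := hmem
      have h1 := hconj ⟨(x : Ω), Subgroup.mem_zpowers _⟩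
      have h2 : ((α x : P) : Ω) = s * (x : Ω) * s⁻¹ := h1
      have h3 : ((x⁻¹ * α x : P) : Ω) = ⁅(x : Ω)⁻¹, s⁆ := by
        push_cast
        rw [h2, commutatorElement_def]
        group
      rw [h3, Subgroup.lowerCentralSeries_succ]
      exact Subgroup.commutator_mem_commutator (Subgroup.inv_mem _ hxi) hsS
  intro P
  rw [hin]

end Cfsg.Agent.S5298
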