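import Cfsg.Statements.S5300
import Cfsg.Agent.Lib.Helper88.CoprimeSmall
import Cfsg.Agent.Lib.Helper84.FusionSat2
import Cfsg.Agent.S5301

set_option autoImplicit false
universe u
open Cfsg

namespace Cfsg.Agent.S5300

open Cfsg.FusionSystem Cfsg.Agent.Lib.Helper84 Cfsg.Agent.Lib.Helper88

section grp

variable {Ω : Type*} [Group Ω]

theorem conj_pow_eq {s x : Ω} {i : ℕ} (h : s * x * s⁻¹ = x ^ i) (j : ℕ) :
    s ^ j * x * (s ^ j)⁻¹ = x ^ (i ^ j) := by
  induction j with
  | zero => simp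
  | succ j ih =>
    calc s ^ (j + 1) * x * (s ^ (j + 1))⁻¹ = s * (s ^ j * x * (s ^ j)⁻¹) * s⁻¹ := by
          rw [pow_succ']; group
      _ = s * x ^ (i ^ j) * s⁻¹ := by rw [ih]
      _ = (s * x * s⁻¹) ^ (i ^ j) := by rw [conj_pow]
      _ = x ^ (i ^ (j + 1)) := by rw [h, ← pow_mul, pow_succ']

/-- a `p`-element normalizing a small cyclic subgroup acts on it trivially or (`p = 2`) by inversion -/
theorem small_conj (p : ℕ) [Fact p.Prime] {s x : Ω} (hs : ∃ k : ℕ, s ^ (p ^ k) = 1)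
    (hx : x ^ p = 1 ∨ (p = 2 ∧ x ^ 4 = 1)) (h : s * x * s⁻¹ ∈ Subgroup.zpowers x) :
    s * x * s⁻¹ = x ∨ (p = 2 ∧ s * x * s⁻¹ = x⁻¹) := by
  have hp : p.Prime := Fact.out
  have hfo : IsOfFinOrder x := by
    rcases hx with hx | ⟨-, hx⟩
    · exact isOfFinOrder_iff_pow_eq_one.2 ⟨p, hp.pos, hx⟩
    · exact isOfFinOrder_iff_pow_eq_one.2 ⟨4, by norm_num, hx⟩
  rw [← hfo.mem_powers_iff_mem_zpowers] at h
  obtain ⟨i, hi⟩ := h
  have hi' : s * x * s⁻¹ = x ^ i := hi.symm
  rcases hx with hx | ⟨hp2, hx⟩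
  · left
    by_cases hx1 : x = 1
    · rw [hx1]; simp
    have hord : orderOf x = p := orderOf_eq_prime hx hx1
    obtain ⟨k, hk⟩ := hs
    have h1 := conj_pow_eq hi' (p ^ k)
    rw [hk] at h1
    simp only [one_mul, inv_one, mul_one] at h1
    have h2 : x ^ 1 = x ^ (i ^ (p ^ k)) := by rw [pow_one]; exact h1
    rw [pow_eq_pow_iff_modEq, hord] at h2
    have h3 : ((i : ℕ) : ZMod p) = 1 := by
      have := (ZMod.natCast_eq_natCast_iff _ _ _).2 h2
      push_cast at this
      rw [ZMod.pow_card_pow] at this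
      exact this.symm
    have h4 : i ≡ 1 [MOD p] := by
      rw [← ZMod.natCast_eq_natCast_iff]; push_cast; exact h3
    rw [hi']
    have : x ^ i = x ^ 1 := by rw [pow_eq_pow_iff_modEq, hord]; exact h4
    rw [this, pow_one]
  · rw [pow_eq_pow_mod i hx] at hi'
    have hlt : i % 4 < 4 := Nat.mod_lt _ (by norm_num)
    have hone : s * x * s⁻¹ = 1 → x = 1 := by
      intro h
      have : x = s⁻¹ * (s * x * s⁻¹) * s := by group
      rw [this, h]; group
    interval_cases (i % 4)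
    · left
      rw [pow_zero] at hi'
      rw [hone hi']; group
    · left; rw [hi', pow_one]
    · left
      have h1 : (s * x * s⁻¹) ^ 2 = 1 := by rw [hi', ← pow_mul]; exact hx
      rw [conj_pow] at h1
      have h2 : x ^ 2 = 1 := by
        have : x ^ 2 = s⁻¹ * (s * x ^ 2 * s⁻¹) * s := by group
        rw [this, h1]; group
      rw [h2] at hi'
      rw [hone hi']; group
    · right
      refine ⟨hp2, ?_⟩
      rw [hi']
      apply eq_inv_of_mul_eq_one_left
      rw [← pow_succ]; exact hx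

end grp

theorem result {Ω : Type u} [Group Ω] {S : Subgroup Ω} [Finite S] (p : ℕ) [Fact p.Prime] (hS : IsPGroup p S)
    (F : Cfsg.FusionSystem S) (hF : F.IsSaturated p)
    (hnorm : ∀ x ∈ F.focalSubgroup, (x ^ p = 1 ∨ (p = 2 ∧ x ^ 4 = 1)) → ∀ s ∈ S, s * x * s⁻¹ ∈ Subgroup.zpowers x) :
    F.IsNormal S := by
  apply Cfsg.Agent.S5301.result p hS F hF
  intro P hfn _ _
  obtain ⟨-, hfa, -⟩ := sat_fullyNormalized hS hF hfn
  obtain ⟨hPS, R, hR⟩ := hfa
  have hfinP : Finite P := finite_of_le hPS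
  have hPp : IsPGroup p P := hS.to_le hPS
  have hfinA : Finite (F.autGroup P) := finite_autGroup F hPS
  set D : Subgroup P := (F.focalSubgroup).subgroupOf P with hD
  -- invariance of `D`
  have hcomm : ∀ α ∈ F.autGroup P, ∀ x : P, x⁻¹ * α x ∈ D := by
    intro α hα x
    exact Subgroup.subset_closure ⟨P, _, x, (mem_autGroup_iff F hPS α).1 hα, rfl⟩
  have hDinv : ∀ α ∈ F.autGroup P, ∀ x ∈ D, α x ∈ D := by
    intro α hα x hx
    have : α x = x * (x⁻¹ * α x) := by group
    rw [this]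
    exact D.mul_mem hx (hcomm α hα x)
  let Good : MulAut P → Prop := fun κ =>
    ∀ x ∈ D, (x ^ p = 1 ∨ (p = 2 ∧ x ^ 4 = 1)) → (κ x = x ∨ (p = 2 ∧ κ x = x⁻¹))
  let G0 : Subgroup (F.autGroup P) :=
    { carrier := {κ | Good (κ : MulAut P)}
      one_mem' := fun x _ _ => Or.inl rfl
      mul_mem' := by
        intro a b ha hb x hx hs
        show ((a : MulAut P) ((b : MulAut P) x) = x ∨ (p = 2 ∧ (a : MulAut P) ((b : MulAut P) x) = x⁻¹))
        rcases hb x hx hs with h | ⟨h2, h⟩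
        · rw [h]; exact ha x hx hs
        · rw [h, map_inv]
          rcases ha x hx hs with h' | ⟨-, h'⟩
          · right; exact ⟨h2, by rw [h']⟩
          · left; rw [h', inv_inv]
      inv_mem' := by
        intro a ha x hx hs
        show (((a : MulAut P)⁻¹) x = x ∨ (p = 2 ∧ ((a : MulAut P)⁻¹) x = x⁻¹))
        rcases ha x hx hs with h | ⟨h2, h⟩
        · left
          conv_lhs => rw [← h]
          simp
        · right
          refine ⟨h2, ?_⟩
          have : (a : MulAut P) x⁻¹ = x := by rw [map_inv, h, inv_inv]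
          conv_lhs => rw [← this]
          simp }
  have hG0n : G0.Normal := by
    constructor
    intro κ hκ α x hx hs
    show ((α : MulAut P) ((κ : MulAut P) (((α : MulAut P)⁻¹) x)) = x ∨
      (p = 2 ∧ (α : MulAut P) ((κ : MulAut P) (((α : MulAut P)⁻¹) x)) = x⁻¹))
    set y := ((α : MulAut P)⁻¹) x with hy
    have hyD : y ∈ D := hDinv _ ((F.autGroup P).inv_mem α.2) x hx
    have hys : y ^ p = 1 ∨ (p = 2 ∧ y ^ 4 = 1) := by
      rcases hs with h | ⟨h2, h⟩
      · left; rw [hy, ← map_pow, h, map_one]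
      · right; exact ⟨h2, by rw [hy, ← map_pow, h, map_one]⟩
    have hαy : (α : MulAut P) y = x := by rw [hy]; simp
    rcases hκ y hyD hys with h | ⟨h2, h⟩
    · left; rw [h, hαy]
    · right; exact ⟨h2, by rw [h, map_inv, hαy]⟩
  have hRG0 : (R : Subgroup (F.autGroup P)) ≤ G0 := by
    intro κ hκ x hx hs
    rw [hR] at hκ
    obtain ⟨s, hsS, hs'⟩ := (mem_autInducedBy_iff S P _).1 hκ
    have hsp : ∃ k : ℕ, s ^ (p ^ k) = 1 := by
      obtain ⟨k, hk⟩ := hS ⟨s, hsS⟩
      exact ⟨k, congrArg Subtype.val hk⟩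
    have hsx : (x : Ω) ^ p = 1 ∨ (p = 2 ∧ (x : Ω) ^ 4 = 1) := by
      rcases hs with h | ⟨h2, h⟩
      · left; exact congrArg Subtype.val h
      · right; exact ⟨h2, congrArg Subtype.val h⟩
    rcases small_conj p hsp hsx (hnorm x hx hsx s hsS) with h | ⟨h2, h⟩
    · left; apply Subtype.ext; exact (hs' x).trans h
    · right; refine ⟨h2, ?_⟩; apply Subtype.ext; exact (hs' x).trans h
  -- elements of `G0` of order prime to `p` are trivial
  have hkey : ∀ β : MulAut P, β ∈ F.autGroup P → Good β → ∀ m : ℕ, m.Coprime p → β ^ m = 1 →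
      β = 1 := by
    intro β hβA hβ m hm hβm
    have hfix : ∀ x ∈ D, (x ^ p = 1 ∨ (p = 2 ∧ x ^ 4 = 1)) → β x = x := by
      intro x hx hs
      rcases hβ x hx hs with h | ⟨h2, h⟩
      · exact h
      · have hodd : Odd m := by
          rw [h2] at hm; exact Nat.Coprime.odd_of_right hm
        obtain ⟨r, rfl⟩ := hodd
        have h3 : ∀ r : ℕ, (β ^ (2 * r)) x = x := by
          intro r
          induction r with
          | zero => simp
          | succ r ih =>
            have : 2 * (r + 1) = 2 * r + 1 + 1 := by ring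
            rw [this, pow_succ, pow_succ, MulAut.mul_apply, MulAut.mul_apply, h, map_inv, h,
              inv_inv, ih]
        have h4 : (β ^ (2 * r + 1)) x = x⁻¹ := by
          rw [pow_succ, MulAut.mul_apply, h, map_inv, h3]
        rw [hβm, MulAut.one_apply] at h4
        rw [h, ← h4]
    have hD1 := fixes_of_fixes_small p β m hm hβm _ D inferInstance (hPp.to_subgroup D) le_rfl
      (hDinv β hβA) hfix
    ext x
    have h1 : β x = x * (x⁻¹ * β x) := by group
    have ht : ∃ k : ℕ, (x⁻¹ * β x) ^ (p ^ k) = 1 := hPp _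
    have := eq_one_of_twist p β m hm hβm h1 (hD1 _ (hcomm β hβA x)) ht
    rw [h1, this]
    simp
  have hG0p : IsPGroup p G0 := by
    rintro ⟨κ, hκ⟩
    have hpos : orderOf κ ≠ 0 := (orderOf_pos κ).ne'
    obtain ⟨a, m, hm, hom⟩ := Nat.exists_eq_pow_mul_and_not_dvd hpos p (Fact.out : p.Prime).ne_one
    refine ⟨a, ?_⟩
    apply Subtype.ext
    apply Subtype.ext
    show (κ : MulAut P) ^ (p ^ a) = 1
    have hmem : κ ^ (p ^ a) ∈ G0 := G0.pow_mem hκ _
    apply hkey _ ((F.autGroup P).pow_mem κ.2 _) hmem m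
    · exact ((Nat.Prime.coprime_iff_not_dvd Fact.out).2 hm).symm
    · rw [← pow_mul, ← hom]
      have := pow_orderOf_eq_one κ
      exact congrArg Subtype.val this
  refine ⟨R, ?_⟩
  have : G0 = R := R.3 hG0p hRG0
  rw [← this]
  exact hG0n

end Cfsg.Agent.S5300
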