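import Mathlib
import Cfsg.Statements.S5329
import Cfsg.Agent.Lib.Helper88.FusTransfer

set_option autoImplicit false
open Cfsg

namespace Cfsg.Agent.S5329

open Cfsg.FusionSystem Cfsg.Agent.Lib.Helper88 Cfsg.Agent.Lib.Helper84
open scoped commutatorElement

/-- For a saturated fusion system F over a finite p-group S, the focal subgroup and the derived subgroup of S meet the centre Z(F) of the system in the same subgroup: foc(F) ∩ Z(F) = S′ ∩ Z(F). -/
theorem result {Ω : Type*} [Group Ω] {S : Subgroup Ω} [Finite S] (p : ℕ) [Fact p.Prime] (hS : IsPGroup p S) (F : Cfsg.FusionSystem S) (hF : F.IsSaturated p) : F.focalSubgroup ⊓ F.center = ⁅(S : Subgroup Ω), (S : Subgroup Ω)⁆ ⊓ F.center := by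
  obtain ⟨L, hL, hst, hpos, m, hm, hpm⟩ := exists_char_list p hS F hF
  have h := isFBiset_XL F L hL hst hpos
  obtain ⟨x₀, -⟩ := exists_base h
  have hidx : (baseSub S x₀).index = m := by
    have h1 := index_baseSub h x₀
    rw [← mark_bot (G := S × S) (XL L), mark_XL, hm] at h1
    exact Nat.eq_of_mul_eq_mul_left Nat.card_pos h1
  have hfoc : ∀ y ∈ F.focalSubgroup, ∃ hy : y ∈ S, fusTransfer h x₀ ⟨y, hy⟩ = 1 := by
    intro y hy
    unfold FusionSystem.focalSubgroup at hy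
    induction hy using Subgroup.closure_induction with
    | mem y hy =>
      obtain ⟨P, φ, x, hφ, rfl⟩ := hy
      have hxS : (x : Ω) ∈ S := (F.le_of_mem hφ).1 x.2
      have hφS : φ x ∈ S := (F.le_of_mem hφ).2 x
      refine ⟨S.mul_mem (S.inv_mem hxS) hφS, ?_⟩
      have e : (⟨(x : Ω)⁻¹ * φ x, S.mul_mem (S.inv_mem hxS) hφS⟩ : S) =
          (⟨x, hxS⟩ : S)⁻¹ * ⟨φ x, hφS⟩ := rfl
      rw [e, map_mul, map_inv, fusTransfer_stable h x₀ hφ x, inv_mul_cancel]
    | one => exact ⟨S.one_mem, map_one _⟩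
    | mul a b _ _ ha hb =>
      obtain ⟨ha, ha'⟩ := ha
      obtain ⟨hb, hb'⟩ := hb
      refine ⟨S.mul_mem ha hb, ?_⟩
      have e : (⟨a * b, S.mul_mem ha hb⟩ : S) = ⟨a, ha⟩ * ⟨b, hb⟩ := rfl
      rw [e, map_mul, ha', hb', one_mul]
    | inv a _ ha =>
      obtain ⟨ha, ha'⟩ := ha
      refine ⟨S.inv_mem ha, ?_⟩
      have e : (⟨a⁻¹, S.inv_mem ha⟩ : S) = (⟨a, ha⟩ : S)⁻¹ := rfl
      rw [e, map_inv, ha', inv_one]
  have hcen := Cfsg.Agent.Lib.Helper85.isCentral_center F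
  apply le_antisymm
  · rintro y ⟨hyf, hyz⟩
    refine ⟨?_, hyz⟩
    obtain ⟨hyS, hy1⟩ := hfoc y hyf
    have hz : ∀ (k : ℕ) (Q : Subgroup Ω) (θ : Q →* Ω), θ ∈ F.Hom Q → ∀ q : Q,
        θ q = ((⟨y, hyS⟩ : S) : Ω) ^ k → (q : Ω) = ((⟨y, hyS⟩ : S) : Ω) ^ k := by
      intro k Q θ hθ q hq
      obtain ⟨ψ, hψ, h1, h2⟩ := hcen.2 Q θ hθ
      have h3 := h2 ⟨y ^ k, Subgroup.pow_mem _ hyz k⟩
      have h4 := h1 q
      rw [hq] at h4
      have h5 := F.injective_of_mem hψ (h4.trans h3.symm)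
      exact congrArg (fun z : ↥(Q ⊔ F.center) => (z : Ω)) h5
    rw [fusTransfer_central h x₀ ⟨y, hyS⟩ hz, hidx] at hy1
    have h6 : Abelianization.of (⟨y, hyS⟩ : S) = 1 := by
      obtain ⟨n, hn⟩ := IsPGroup.iff_card.1 hS
      have h7 : (Abelianization.of (⟨y, hyS⟩ : S)) ^ (p ^ n) = 1 := by
        rw [← map_pow, ← hn, pow_card_eq_one', map_one]
      have h8 := orderOf_dvd_of_pow_eq_one hy1
      have h9 := orderOf_dvd_of_pow_eq_one h7
      have h10 : Nat.Coprime m (p ^ n) :=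
        Nat.Coprime.pow_right n ((Nat.Prime.coprime_iff_not_dvd Fact.out).2 hpm).symm
      have h11 := Nat.dvd_gcd h8 h9
      rw [h10.gcd_eq_one, Nat.dvd_one, orderOf_eq_one_iff] at h11
      exact h11
    rw [← MonoidHom.mem_ker, Abelianization.ker_of] at h6
    have h7 : (commutator S).map S.subtype = ⁅(S : Subgroup Ω), (S : Subgroup Ω)⁆ := by
      rw [commutator_def, Subgroup.map_commutator, ← MonoidHom.range_eq_map,
        Subgroup.range_subtype]
    rw [← h7]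
    exact ⟨⟨y, hyS⟩, h6, rfl⟩
  · refine inf_le_inf_right _ ?_
    rw [Subgroup.commutator_le]
    intro a ha b hb
    apply Subgroup.subset_closure
    refine ⟨S, conjHom S b, ⟨a⁻¹, S.inv_mem ha⟩, F.conj_mem le_rfl hb, ?_⟩
    rw [conjHom_apply, commutatorElement_def]
    simp [mul_assoc]

end Cfsg.Agent.S5329
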