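import Cfsg.Statements.S5330
import Cfsg.Agent.Lib.Helper88.FusAbelian
import Cfsg.Agent.Lib.Helper88.CoprimeAbelian

set_option autoImplicit false
open Cfsg

namespace Cfsg.Agent.S5330

open Cfsg.FusionSystem Cfsg.Agent.Lib.Helper84 Cfsg.Agent.Lib.Helper88

theorem result {Ω : Type*} [Group Ω] {S : Subgroup Ω} [Finite S] (p : ℕ) [Fact p.Prime] (hS : IsPGroup p S) (F : Cfsg.FusionSystem S) (hF : F.IsSaturated p) (hab : ∀ x ∈ S, ∀ y ∈ S, x * y = y * x) : F.center ⊓ F.focalSubgroup = ⊥ ∧ F.center ⊔ F.focalSubgroup = S := by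
  letI : CommGroup S :=
    { (inferInstance : Group S) with mul_comm := fun a b => Subtype.ext (hab a a.2 b b.2) }
  set A := F.autGroup S with hA
  have hcop : (Nat.card A).Coprime (Nat.card S) := by
    obtain ⟨k, hk⟩ := IsPGroup.iff_card.1 hS
    rw [hk]
    exact Nat.Coprime.pow_right k (card_autGroup_coprime_of_abelian p F hF hab)
  have hmemA : ∀ α ∈ A, S.subtype.comp α.toMonoidHom ∈ F.Hom S := fun α hα =>
    (mem_autGroup_iff F le_rfl α).1 hα
  have hC : F.center = (fixedSub A).map S.subtype := by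
    apply le_antisymm
    · apply sSup_le
      intro Q hQ q hq
      refine ⟨⟨q, hQ.1 hq⟩, ?_, rfl⟩
      intro α hα
      obtain ⟨ψ, -, h1, h2⟩ := hQ.2 S _ (hmemA α hα)
      have e1 := h1 ⟨q, hQ.1 hq⟩
      have e2 := h2 ⟨q, hq⟩
      apply Subtype.ext
      show (S.subtype.comp α.toMonoidHom) ⟨q, hQ.1 hq⟩ = q
      rw [← e1]
      exact e2
    · apply le_sSup
      refine ⟨Subgroup.map_subtype_le _, fun P φ hφ => ?_⟩
      obtain ⟨α, hα, hα'⟩ := burnside_abelian p F hF hab hφ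
      have hle : P ⊔ (fixedSub A).map S.subtype ≤ S :=
        sup_le (F.le_of_mem hφ).1 (Subgroup.map_subtype_le _)
      refine ⟨_, restrict_mem F (hmemA α hα) hle, fun x => ?_, ?_⟩
      · exact hα' x x.2 _
      · rintro ⟨_, x, hx, rfl⟩
        exact congrArg Subtype.val (hx α hα)
  have hD : F.focalSubgroup = (commSub A).map S.subtype := by
    apply le_antisymm
    · unfold FusionSystem.focalSubgroup
      rw [Subgroup.closure_le]
      rintro _ ⟨P, φ, x, hφ, rfl⟩
      obtain ⟨α, hα, hα'⟩ := burnside_abelian p F hF hab hφ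
      have hxS : (x : Ω) ∈ S := (F.le_of_mem hφ).1 x.2
      refine ⟨(⟨x, hxS⟩ : S)⁻¹ * α ⟨x, hxS⟩, Subgroup.subset_closure ⟨α, hα, _, rfl⟩, ?_⟩
      show (x : Ω)⁻¹ * ((α ⟨x, hxS⟩ : S) : Ω) = _
      rw [hα' x x.2 hxS]
    · rw [Subgroup.map_le_iff_le_comap]
      unfold commSub
      rw [Subgroup.closure_le]
      rintro _ ⟨α, hα, x, rfl⟩
      exact Subgroup.subset_closure ⟨S, _, x, hmemA α hα, rfl⟩
  constructor
  · rw [hC, hD, ← Subgroup.map_inf_eq _ _ _ S.subtype_injective, fixedSub_inf_commSub A hcop,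
      Subgroup.map_bot]
  · rw [hC, hD, ← Subgroup.map_sup, fixedSub_sup_commSub A hcop, ← MonoidHom.range_eq_map,
      Subgroup.range_subtype]

end Cfsg.Agent.S5330
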