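import Cfsg.Statements.S5331
import Cfsg.Agent.Lib.Helper88.FusAbelian

set_option autoImplicit false
open Cfsg

namespace Cfsg.Agent.S5331

open Cfsg.FusionSystem Cfsg.Agent.Lib.Helper84 Cfsg.Agent.Lib.Helper88

section abstract

variable {G : Type*} [CommGroup G]

/-- `Ω₁(G) ∩ ℧^k(G)` -/
def U (G : Type*) [CommGroup G] (k : ℕ) : Set G := {x | x ^ 2 = 1 ∧ ∃ y, x = y ^ (2 ^ k)}

theorem map_mem_U (β : MulAut G) {k : ℕ} {x : G} (hx : x ∈ U G k) : β x ∈ U G k := by
  obtain ⟨h1, y, rfl⟩ := hx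
  exact ⟨by rw [← map_pow, h1, map_one], β y, map_pow β y _⟩

theorem twist (β : MulAut G) {x t : G} (h1 : β x = x * t) (h2 : β t = t) (j : ℕ) :
    (β ^ j) x = x * t ^ j := by
  induction j with
  | zero => simp
  | succ j ih =>
    rw [pow_succ', MulAut.mul_apply, ih, map_mul, map_pow, h1, h2, pow_succ', mul_assoc]

theorem twist_trivial (β : MulAut G) (m : ℕ) (hm : Odd m) (hβ : β ^ m = 1) {x t : G}
    (h1 : β x = x * t) (h2 : β t = t) (h3 : t ^ 2 = 1) : t = 1 := by
  have h4 := twist β h1 h2 m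
  rw [hβ, MulAut.one_apply] at h4
  have h5 : t ^ m = 1 := by
    have : x * 1 = x * t ^ m := by rw [mul_one]; exact h4
    exact (mul_left_cancel this).symm
  obtain ⟨r, rfl⟩ := hm
  rwa [pow_succ, pow_mul, h3, one_pow, one_mul] at h5

theorem aut_trivial (K : ℕ) (hK : ∀ y : G, y ^ (2 ^ K) = 1)
    (H1 : ∀ k, ∀ x ∈ U G k, ∀ y ∈ U G k, x ∈ U G (k + 1) ∨ y ∈ U G (k + 1) ∨ x * y ∈ U G (k + 1))
    (β : MulAut G) (m : ℕ) (hm : Odd m) (hβ : β ^ m = 1) : β = 1 := by
  -- step 1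
  have step1 : ∀ d k, K ≤ k + d → ∀ x ∈ U G k, β x = x := by
    intro d
    induction d with
    | zero =>
      intro k hk x hx
      obtain ⟨-, y, rfl⟩ := hx
      have : y ^ (2 ^ k) = 1 := by
        obtain ⟨c, rfl⟩ := Nat.exists_eq_add_of_le (show K ≤ k from hk)
        rw [pow_add, pow_mul, hK, one_pow]
      rw [this, map_one]
    | succ d ih =>
      intro k hk x hx
      have ih' := ih (k + 1) (by omega)
      rcases H1 k x hx (β x) (map_mem_U β hx) with h | h | h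
      · exact ih' x h
      · exact β.injective (ih' _ h)
      · have h1 : β x = x * (x * β x) := by
          rw [← mul_assoc, ← pow_two, hx.1, one_mul]
        have := twist_trivial β m hm hβ h1 (ih' _ h) h.1
        rw [h1, this, mul_one]
  have step1' : ∀ x ∈ U G 0, β x = x := fun x hx => step1 K 0 (by omega) x hx
  have step2 : ∀ j, ∀ x : G, x ^ (2 ^ j) = 1 → β x = x := by
    intro j
    induction j with
    | zero => intro x hx; rw [pow_zero, pow_one] at hx; rw [hx, map_one]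
    | succ j ih =>
      intro x hx
      have h1 : β (x ^ 2) = x ^ 2 := ih _ (by rw [← pow_mul, ← pow_succ']; exact hx)
      have h2 : (x⁻¹ * β x) ^ 2 = 1 := by
        rw [mul_pow, ← map_pow, h1, inv_pow, inv_mul_cancel]
      have h3 : x⁻¹ * β x ∈ U G 0 := ⟨h2, x⁻¹ * β x, by simp⟩
      have h4 : β x = x * (x⁻¹ * β x) := by rw [mul_inv_cancel_left]
      have := twist_trivial β m hm hβ h4 (step1' _ h3) h2
      rw [h4, this, mul_one]
  ext x
  exact step2 K x (hK x)

end abstract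

section coords

theorem coord1 (a k : ℕ) (h : a ≠ k + 1) (c u : ZMod (2 ^ a)) (h2 : 2 • c = 0)
    (hu : c = 2 ^ k • u) : ∃ w : ZMod (2 ^ a), c = 2 ^ (k + 1) • w := by
  have : NeZero (2 ^ a) := ⟨by positivity⟩
  obtain ⟨t, rfl⟩ : ∃ t : ℕ, u = (t : ZMod (2 ^ a)) := ⟨u.val, (ZMod.natCast_zmod_val u).symm⟩
  have hc : c = ((2 ^ k * t : ℕ) : ZMod (2 ^ a)) := by rw [hu]; simp
  rcases Nat.lt_or_ge a (k + 1) with hlt | hge
  · refine ⟨0, ?_⟩
    rw [hc, smul_zero, ZMod.natCast_eq_zero_iff]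
    exact Dvd.dvd.mul_right (pow_dvd_pow 2 (by omega)) t
  · have hge2 : k + 2 ≤ a := by omega
    have h3 : 2 ^ a ∣ 2 ^ (k + 1) * t := by
      rw [← ZMod.natCast_eq_zero_iff]
      rw [hc] at h2
      rw [← h2]
      push_cast
      ring
    obtain ⟨b, rfl⟩ := Nat.exists_eq_add_of_le hge2
    have h4 : 2 ^ (k + 1) * 2 ^ (b + 1) ∣ 2 ^ (k + 1) * t := by
      rw [← pow_add]
      have : k + 1 + (b + 1) = k + 2 + b := by ring
      rwa [this]
    have h5 : 2 ^ (b + 1) ∣ t := Nat.dvd_of_mul_dvd_mul_left (by positivity) h4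
    have h6 : 2 ∣ t := Dvd.dvd.trans (dvd_pow_self 2 (by omega)) h5
    obtain ⟨s, rfl⟩ := h6
    refine ⟨(s : ZMod _), ?_⟩
    rw [hc]
    push_cast
    simp only [nsmul_eq_mul]
    push_cast
    ring

theorem coord2 (a k : ℕ) (h : a = k + 1) (c u : ZMod (2 ^ a)) (hu : c = 2 ^ k • u) :
    c = 0 ∨ c = ((2 ^ k : ℕ) : ZMod (2 ^ a)) := by
  subst h
  have : NeZero (2 ^ (k + 1)) := ⟨by positivity⟩
  obtain ⟨t, rfl⟩ : ∃ t : ℕ, u = (t : ZMod (2 ^ (k + 1))) :=
    ⟨u.val, (ZMod.natCast_zmod_val u).symm⟩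
  have hz : ((2 ^ (k + 1) : ℕ) : ZMod (2 ^ (k + 1))) = 0 := ZMod.natCast_self _
  rcases Nat.even_or_odd' t with ⟨s, rfl | rfl⟩
  · left
    rw [hu]
    have : (2 ^ k • ((2 * s : ℕ) : ZMod (2 ^ (k + 1)))) =
        ((2 ^ (k + 1) : ℕ) : ZMod (2 ^ (k + 1))) * s := by
      simp only [nsmul_eq_mul]; push_cast; ring
    rw [this, hz, zero_mul]
  · right
    rw [hu]
    have : (2 ^ k • ((2 * s + 1 : ℕ) : ZMod (2 ^ (k + 1)))) =
        ((2 ^ (k + 1) : ℕ) : ZMod (2 ^ (k + 1))) * s + ((2 ^ k : ℕ) : ZMod (2 ^ (k + 1))) := by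
      simp only [nsmul_eq_mul]; push_cast; ring
    rw [this, hz, zero_mul, zero_add]

theorem coord3 (a k : ℕ) (h : a = k + 1) :
    ((2 ^ k : ℕ) : ZMod (2 ^ a)) + ((2 ^ k : ℕ) : ZMod (2 ^ a)) = 0 := by
  subst h
  have hz : ((2 ^ (k + 1) : ℕ) : ZMod (2 ^ (k + 1))) = 0 := ZMod.natCast_self _
  rw [← hz]; push_cast; ring

variable {n : ℕ} (a : Fin n → ℕ)

theorem mem_U_iff (k : ℕ) (x : Multiplicative ((i : Fin n) → ZMod (2 ^ a i))) :
    x ∈ U (Multiplicative ((i : Fin n) → ZMod (2 ^ a i))) k ↔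
      ∀ i, 2 • (Multiplicative.toAdd x i) = 0 ∧ ∃ u, Multiplicative.toAdd x i = 2 ^ k • u := by
  constructor
  · rintro ⟨h1, y, hy⟩ i
    constructor
    · have := congrArg (fun z : Multiplicative ((i : Fin n) → ZMod (2 ^ a i)) =>
        Multiplicative.toAdd z i) h1
      simpa using this
    · refine ⟨Multiplicative.toAdd y i, ?_⟩
      have := congrArg (fun z : Multiplicative ((i : Fin n) → ZMod (2 ^ a i)) =>
        Multiplicative.toAdd z i) hy
      simpa using this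
  · intro h
    choose h1 u hu using h
    refine ⟨?_, Multiplicative.ofAdd u, ?_⟩
    · apply Multiplicative.toAdd.injective
      funext i
      simpa using h1 i
    · apply Multiplicative.toAdd.injective
      funext i
      simpa using hu i

theorem H1 (ha : StrictMono a) (k : ℕ) (x : Multiplicative ((i : Fin n) → ZMod (2 ^ a i)))
    (hx : x ∈ U _ k) (y : Multiplicative ((i : Fin n) → ZMod (2 ^ a i))) (hy : y ∈ U _ k) :
    x ∈ U _ (k + 1) ∨ y ∈ U _ (k + 1) ∨ x * y ∈ U _ (k + 1) := by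
  rw [mem_U_iff] at hx hy
  simp only [mem_U_iff]
  by_cases hex : ∃ i₀, a i₀ = k + 1
  · obtain ⟨i₀, hi₀⟩ := hex
    have hne : ∀ i, i ≠ i₀ → a i ≠ k + 1 := fun i hi h => hi (ha.injective (h.trans hi₀.symm))
    obtain ⟨u, hu⟩ := (hx i₀).2
    obtain ⟨v, hv⟩ := (hy i₀).2
    rcases coord2 _ k hi₀ _ u hu with h0 | h0
    · left
      intro i
      refine ⟨(hx i).1, ?_⟩
      by_cases hi : i = i₀
      · subst hi; exact ⟨0, by rw [h0]; simp⟩
      · obtain ⟨u', hu'⟩ := (hx i).2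
        exact coord1 _ k (hne i hi) _ u' (hx i).1 hu'
    · rcases coord2 _ k hi₀ _ v hv with h1 | h1
      · right; left
        intro i
        refine ⟨(hy i).1, ?_⟩
        by_cases hi : i = i₀
        · subst hi; exact ⟨0, by rw [h1]; simp⟩
        · obtain ⟨u', hu'⟩ := (hy i).2
          exact coord1 _ k (hne i hi) _ u' (hy i).1 hu'
      · right; right
        intro i
        have e : Multiplicative.toAdd (x * y) i =
            Multiplicative.toAdd x i + Multiplicative.toAdd y i := rfl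
        rw [e]
        refine ⟨by rw [smul_add, (hx i).1, (hy i).1, add_zero], ?_⟩
        by_cases hi : i = i₀
        · subst hi; exact ⟨0, by rw [h0, h1, coord3 _ k hi₀]; simp⟩
        · obtain ⟨u', hu'⟩ := (hx i).2
          obtain ⟨v', hv'⟩ := (hy i).2
          exact coord1 _ k (hne i hi) _ (u' + v')
            (by rw [smul_add, (hx i).1, (hy i).1, add_zero]) (by rw [hu', hv', smul_add])
  · left
    intro i
    refine ⟨(hx i).1, ?_⟩
    obtain ⟨u', hu'⟩ := (hx i).2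
    exact coord1 _ k (fun h => hex ⟨i, h⟩) _ u' (hx i).1 hu'

theorem hK (y : Multiplicative ((i : Fin n) → ZMod (2 ^ a i))) :
    y ^ (2 ^ (Finset.univ.sup a)) = 1 := by
  apply Multiplicative.toAdd.injective
  funext i
  show (2 ^ (Finset.univ.sup a)) • (Multiplicative.toAdd y i) = 0
  have hle : a i ≤ Finset.univ.sup a := Finset.le_sup (Finset.mem_univ i)
  obtain ⟨c, hc⟩ := Nat.exists_eq_add_of_le hle
  rw [hc, pow_add, mul_comm, mul_smul]
  have : (2 ^ a i) • (Multiplicative.toAdd y i) = 0 := by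
    rw [nsmul_eq_mul, ZMod.natCast_self, zero_mul]
  rw [this, smul_zero]

end coords

theorem result {Ω : Type*} [Group Ω] {S : Subgroup Ω} [Finite S] (n : ℕ) (a : Fin n → ℕ) (ha : StrictMono a) (ha1 : ∀ i, 1 ≤ a i) (e : ↥S ≃* Multiplicative ((i : Fin n) → ZMod (2 ^ a i))) (F : Cfsg.FusionSystem S) (hF : F.IsSaturated 2) (P : Subgroup Ω) : F.Hom P = (Cfsg.innerFusionSystem S).Hom P := by
  have : Fact (Nat.Prime 2) := ⟨Nat.prime_two⟩
  have hab : ∀ x ∈ S, ∀ y ∈ S, x * y = y * x := by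
    intro x hx y hy
    have : (⟨x, hx⟩ : S) * ⟨y, hy⟩ = ⟨y, hy⟩ * ⟨x, hx⟩ := by
      apply e.injective
      rw [map_mul, map_mul, mul_comm]
    exact congrArg Subtype.val this
  have hcop := card_autGroup_coprime_of_abelian 2 F hF hab
  have htriv : ∀ α ∈ F.autGroup S, α = 1 := by
    intro α hα
    have h1 : α ^ Nat.card (F.autGroup S) = 1 := by
      have := pow_card_eq_one' (G := F.autGroup S) (x := ⟨α, hα⟩)
      exact congrArg Subtype.val this
    have h2 : (MulAut.congr e α) ^ Nat.card (F.autGroup S) = 1 := by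
      rw [← map_pow, h1, map_one]
    have h3 : Odd (Nat.card (F.autGroup S)) := Nat.Coprime.odd_of_right hcop
    have h4 := aut_trivial _ (hK a) (H1 a ha) _ _ h3 h2
    exact (MulAut.congr e).injective (by rw [h4, map_one])
  ext φ
  constructor
  · intro hφ
    obtain ⟨α, hα, hα'⟩ := burnside_abelian 2 F hF hab hφ
    have hP := (F.le_of_mem hφ).1
    refine ⟨hP, 1, S.one_mem, fun x => ?_⟩
    rw [← hα' x x.2 (hP x.2), htriv α hα]
    simp
  · rintro ⟨hP, g, hg, h⟩
    have : φ = conjHom P g := by ext x; exact h x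
    rw [this]
    exact F.conj_mem hP hg

end Cfsg.Agent.S5331
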