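import Cfsg.Statements.S5342
import Cfsg.Agent.Lib.Helper85.FusConstr

set_option autoImplicit false
open Cfsg

namespace Cfsg.Agent.S5342

open Cfsg.FusionSystem Cfsg.Agent.Lib.Helper85 Cfsg.Agent.Lib.Helper84

theorem aux {Ω : Type*} [Group Ω] {T S : Subgroup Ω} {E : FusionSystem T} {F : FusionSystem S}
    {p : ℕ} (h : E.IsSubnormalIn F p) :
    ∀ [Fact p.Prime] [Finite S], IsPGroup p S → F.IsConstrained p → E.IsConstrained p := by
  induction h with
  | refl F p =>
    intro _ _ _ h
    exact h
  | step h1 h2 ih =>
    intro _ _ hS hF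
    have hU := h2.1.2.2.2.1.1
    exact @ih _ (finite_of_le hU) (hS.to_le hU) (constrained_of_normalIn hS _ hF _ h2)

/-- Let F be a constrained saturated fusion system over a finite p-group S. Then every subsystem of F that is subnormal in F (reached from F by a finite chain of successive normal subsystems) is constrained. -/
theorem result {Ω : Type*} [Group Ω] {S : Subgroup Ω} [Finite S] (p : ℕ) [Fact p.Prime] (hS : IsPGroup p S) (F : Cfsg.FusionSystem S) (hF : F.IsConstrained p) {T : Subgroup Ω} (E : Cfsg.FusionSystem T) (hE : E.IsSubnormalIn F p) : E.IsConstrained p := by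
  exact aux hE hS hF

end Cfsg.Agent.S5342
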