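import Cfsg.Statements.S5521
import Cfsg.Agent.Lib.Helper27.Trans

set_option autoImplicit false
open Cfsg

namespace Cfsg.Agent.S5521

open Cfsg.Agent.Lib.Helper27
open scoped Pointwise

/-- a coded permutation moving a point is not the identity. -/
theorem permOf_ne_one {c : ℕ} (hv : validCode c = true) (i : ℕ) (hi : i < 24)
    (h : Nat.beq (ent c i) i = false) : permOf c ≠ 1 := by
  intro e
  have h1 := idx_permOf_apply hv (pt i)
  rw [e, Equiv.Perm.one_apply, idx_pt hi] at h1
  rw [← h1] at h
  simp at h

/-- a non-identity element fixing the five base points and a further given point. -/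
theorem key (q : GolayPt) : ∃ h ∈ fixer L5, h ≠ 1 ∧ h q = q := by
  by_cases hq : q ∈ unmask 8241104
  · obtain ⟨k, hk, rfl⟩ := trans5 q hq
    have h0 : checkFix L6 972606645568131968584696805283956768 = true := by decide +kernel
    have hm := permOf_mem_fixer h0
    refine ⟨k * permOf 972606645568131968584696805283956768 * k⁻¹,
      (fixer L5).mul_mem ((fixer L5).mul_mem hk (fixer_cons_le L5 (2 ^ 4) hm)) ((fixer L5).inv_mem hk),
      ?_, ?_⟩
    · intro e
      apply permOf_ne_one (valid_of_checkFix h0) 5 (by norm_num) (by decide +kernel)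
      have := congrArg (fun x => k⁻¹ * x * k) e
      simpa [mul_assoc] using this
    · have : permOf 972606645568131968584696805283956768 (pt 4) = pt 4 :=
        fixer_fix hm (by norm_num) (by simp [L6])
      simp [Equiv.Perm.mul_apply, this]
  · have h0 : checkFix (2 ^ 5 :: 2 ^ 14 :: 2 ^ 17 :: L5) 979121071158219704299181131031480352 = true := by
      decide +kernel
    have hm := permOf_mem_fixer h0
    refine ⟨permOf 979121071158219704299181131031480352,
      fixer_cons_le _ _ (fixer_cons_le _ _ (fixer_cons_le _ _ hm)),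
      permOf_ne_one (valid_of_checkFix h0) 4 (by norm_num) (by decide +kernel), ?_⟩
    have hp : ∀ p : GolayPt, p ∉ unmask 8241104 →
      p = pt 23 ∨ p = pt 0 ∨ p = pt 1 ∨ p = pt 2 ∨ p = pt 3 ∨ p = pt 5 ∨ p = pt 14 ∨ p = pt 17 := by
      decide +kernel
    rcases hp q hq with rfl | rfl | rfl | rfl | rfl | rfl | rfl | rfl
    · exact fixer_fix hm (by norm_num) (by simp [L5])
    · exact fixer_fix hm (by norm_num) (by simp [L5])
    · exact fixer_fix hm (by norm_num) (by simp [L5])
    · exact fixer_fix hm (by norm_num) (by simp [L5])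
    · exact fixer_fix hm (by norm_num) (by simp [L5])
    · exact fixer_fix hm (by norm_num) (by simp [L5])
    · exact fixer_fix hm (by norm_num) (by simp [L5])
    · exact fixer_fix hm (by norm_num) (by simp [L5])

theorem six (B : Finset GolayPt) (hB : B.card = 6) :
    ∃ g ∈ M24, g ≠ 1 ∧ ∀ b ∈ B, g b = b := by
  obtain ⟨t, htB, ht⟩ := Finset.exists_subset_card_eq (show 5 ≤ B.card by omega)
  have h1 : (B \ t).card = 1 := by rw [Finset.card_sdiff_of_subset htB]; omega
  obtain ⟨x, hx⟩ := Finset.card_eq_one.1 h1
  let e : Fin 5 ≃ t := (Finset.equivFinOfCardEq ht).symm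
  let y : Fin 5 ↪ GolayPt := ⟨fun i => (e i : GolayPt), fun i j h => e.injective (Subtype.ext h)⟩
  obtain ⟨g, hg, h⟩ := std5' y
  obtain ⟨k, hk, hk1, hkx⟩ := key (g x)
  refine ⟨g⁻¹ * k * g, M24.mul_mem (M24.mul_mem (M24.inv_mem hg) hk.1) hg, ?_, ?_⟩
  · intro e1
    apply hk1
    have := congrArg (fun z => g * z * g⁻¹) e1
    simpa [mul_assoc] using this
  · intro b hb
    have hfix : k (g b) = g b := by
      by_cases hbt : b ∈ t
      · obtain ⟨i, hi⟩ := e.surjective ⟨b, hbt⟩
        have hyi : y i = b := by
          show ((e i : t) : GolayPt) = b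
          rw [hi]
        rw [← hyi, h i]
        fin_cases i
        · exact fixer_fix (i := 23) hk (by norm_num) (by simp [L5])
        · exact fixer_fix (i := 0) hk (by norm_num) (by simp [L5])
        · exact fixer_fix (i := 1) hk (by norm_num) (by simp [L5])
        · exact fixer_fix (i := 2) hk (by norm_num) (by simp [L5])
        · exact fixer_fix (i := 3) hk (by norm_num) (by simp [L5])
      · have : b ∈ B \ t := Finset.mem_sdiff.2 ⟨hb, hbt⟩
        rw [hx, Finset.mem_singleton] at this
        rw [this]; exact hkx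
    simp [Equiv.Perm.mul_apply, hfix]

/-- The Mathieu group M₂₄ in its natural action on the 24 coordinate positions of the binary Golay code has minimal base size exactly 7: every set of at most 6 positions is fixed pointwise by some non-identity element of M₂₄, while some set of 7 positions is fixed pointwise only by the identity. -/
theorem result :
    (∀ B : Finset Cfsg.GolayPt, B.card ≤ 6 → ∃ g ∈ Cfsg.M24, g ≠ 1 ∧ ∀ b ∈ B, g b = b) ∧
    (∃ B : Finset Cfsg.GolayPt, B.card = 7 ∧ ∀ g ∈ Cfsg.M24, (∀ b ∈ B, g b = b) → g = 1) := by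
  constructor
  · intro B hB
    obtain ⟨B', hBB', hB'⟩ := Finset.exists_superset_card_eq hB
      (show 6 ≤ Fintype.card GolayPt by decide +kernel)
    obtain ⟨g, hg, h1, h2⟩ := six B' hB'
    exact ⟨g, hg, h1, fun b hb => h2 b (hBB' hb)⟩
  · refine ⟨unmask 8388671, by rw [card_unmask]; decide +kernel, fun g hg h => ?_⟩
    have : g ∈ fixer L7 := by
      refine ⟨hg, fun m hm => ?_⟩
      have hm' : m = 2 ^ 5 ∨ m = 2 ^ 4 ∨ m = 2 ^ 3 ∨ m = 2 ^ 2 ∨ m = 2 ^ 1 ∨ m = 2 ^ 0 ∨ m = 2 ^ 23 := by
        simpa [L7] using hm
      rcases hm' with rfl | rfl | rfl | rfl | rfl | rfl | rfl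
      · exact (smul_unmask_two_pow (by norm_num) g).2 (h _ (by decide +kernel))
      · exact (smul_unmask_two_pow (by norm_num) g).2 (h _ (by decide +kernel))
      · exact (smul_unmask_two_pow (by norm_num) g).2 (h _ (by decide +kernel))
      · exact (smul_unmask_two_pow (by norm_num) g).2 (h _ (by decide +kernel))
      · exact (smul_unmask_two_pow (by norm_num) g).2 (h _ (by decide +kernel))
      · exact (smul_unmask_two_pow (by norm_num) g).2 (h _ (by decide +kernel))
      · exact (smul_unmask_two_pow (by norm_num) g).2 (h _ (by decide +kernel))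
    rw [fixer_L7] at this
    exact Subgroup.mem_bot.1 this

end Cfsg.Agent.S5521
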