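import Cfsg.Statements.S5529
import Cfsg.Agent.Lib.Helper92.Ree.GenData
import Cfsg.Agent.Lib.Helper92.Ree.NEG

set_option autoImplicit false
open Cfsg

namespace Cfsg.Agent.S5529

theorem prime_cases {p : ℕ} (hp : p.Prime) (h : p ∣ 10200960) :
    p = 2 ∨ p = 3 ∨ p = 5 ∨ p = 7 ∨ p = 11 ∨ p = 23 := by
  have e : (10200960 : ℕ) = 2 ^ 7 * 3 ^ 2 * 5 * 7 * 11 * 23 := by norm_num
  rw [e] at h
  have key : ∀ {a : ℕ}, a.Prime → p ∣ a → p = a := fun ha hd =>
    (Nat.prime_dvd_prime_iff_eq hp ha).mp hd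
  rcases (Nat.Prime.dvd_mul hp).mp h with h | h
  · rcases (Nat.Prime.dvd_mul hp).mp h with h | h
    · rcases (Nat.Prime.dvd_mul hp).mp h with h | h
      · rcases (Nat.Prime.dvd_mul hp).mp h with h | h
        · rcases (Nat.Prime.dvd_mul hp).mp h with h | h
          · exact Or.inl (key (by norm_num) (hp.dvd_of_dvd_pow h))
          · exact Or.inr (Or.inl (key (by norm_num) (hp.dvd_of_dvd_pow h)))
        · exact Or.inr (Or.inr (Or.inl (key (by norm_num) h)))
      · exact Or.inr (Or.inr (Or.inr (Or.inl (key (by norm_num) h))))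
    · exact Or.inr (Or.inr (Or.inr (Or.inr (Or.inl (key (by norm_num) h)))))
  · exact Or.inr (Or.inr (Or.inr (Or.inr (Or.inr (key (by norm_num) h)))))

/-- Generation of the Mathieu group M₂₃ (the stabiliser of a point in the Mathieu group M₂₄ acting on 24 points) by triples of prime orders. Let p ≤ q ≤ r be primes dividing |M₂₃| = 10200960 = 2⁷·3²·5·7·11·23, not both p and q equal to 2. Then M₂₃ contains elements x, y, z of orders p, q, r with xyz = 1 and ⟨x, y⟩ = M₂₃ if and only if (p, q, r) is none of: (2, 3, r) for any r, (2, 5, 5), (2, 5, 7), (3, 3, 3), (3, 3, 5), (3, 3, 7). -/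
theorem result (p q r : ℕ) (hp : p.Prime) (hq : q.Prime)
    (hr : r.Prime) (hpq : p ≤ q) (hqr : q ≤ r) (hp2 : ¬ (p = 2 ∧ q = 2))
    (hdvd : p ∣ 10200960 ∧ q ∣ 10200960 ∧ r ∣ 10200960) :
    (∃ x y z : Cfsg.Spor.M23, orderOf x = p ∧ orderOf y = q ∧ orderOf z = r ∧ x * y * z = 1 ∧
        Subgroup.closure {x, y} = ⊤) ↔
      ¬ ((p = 2 ∧ q = 3) ∨ (p = 2 ∧ q = 5 ∧ r = 5) ∨ (p = 2 ∧ q = 5 ∧ r = 7) ∨ (p = 3 ∧ q = 3 ∧ r ≤ 7)) := by
  constructor
  · rintro ⟨x, y, z, hx, hy, hz, hxyz, hgen⟩ hbad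
    exact Cfsg.Agent.Lib.Helper92.Ree.no_gen p q r hp hq hr x y z hx hy hz hxyz hgen hbad
  · intro hgood
    apply Cfsg.Agent.Lib.Helper92.Ree.exists_gen_all
    rcases prime_cases hp hdvd.1 with rfl | rfl | rfl | rfl | rfl | rfl <;>
    rcases prime_cases hq hdvd.2.1 with rfl | rfl | rfl | rfl | rfl | rfl <;>
    rcases prime_cases hr hdvd.2.2 with rfl | rfl | rfl | rfl | rfl | rfl <;>
    first
      | (exfalso; omega)
      | decide

end Cfsg.Agent.S5529
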