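import Cfsg.Statements.S5562

set_option autoImplicit false
open Cfsg

namespace Cfsg.Agent.S5562

variable {G : Type*} [Group G]

theorem sq_one_of_mem {d a : G} (hd : orderOf d = 2) (ha : a ∈ conjugatesOf d) : a * a = 1 := by
  have ha' : IsConj d a := ha
  rw [isConj_iff] at ha'
  obtain ⟨c, rfl⟩ := ha'
  have h2 : d * d = 1 := by
    have := pow_orderOf_eq_one d
    rw [hd, pow_two] at this
    exact this
  calc c * d * c⁻¹ * (c * d * c⁻¹) = c * (d * d) * c⁻¹ := by group
    _ = 1 := by rw [h2]; group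

theorem conj_mem {d a : G} (c : G) (ha : a ∈ conjugatesOf d) : c * a * c⁻¹ ∈ conjugatesOf d := by
  have ha' : IsConj d a := ha
  exact (ha'.trans (isConj_iff.mpr ⟨c, rfl⟩) : IsConj d (c * a * c⁻¹))

/-- square roots in odd order cyclic groups, as a power -/
theorem exists_pow_sq {u : G} (h : Odd (orderOf u)) : ∃ j : ℕ, (u ^ j) * (u ^ j) = u := by
  obtain ⟨k, hk⟩ := h
  refine ⟨k + 1, ?_⟩
  rw [← pow_add]
  have : k + 1 + (k + 1) = orderOf u + 1 := by omega
  rw [this, pow_add, pow_orderOf_eq_one, one_mul, pow_one]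

theorem inv_pow_conj {e u : G} (he : e * e = 1) (h : e * u * e = u⁻¹) (j : ℕ) :
    e * u ^ j * e = (u ^ j)⁻¹ := by
  induction j with
  | zero => simpa using he
  | succ n ih =>
    have : e * u ^ (n + 1) * e = (e * u ^ n * e) * (e * u * e) := by
      rw [pow_succ]
      calc e * (u ^ n * u) * e = e * u ^ n * 1 * u * e := by group
        _ = e * u ^ n * (e * e) * u * e := by rw [he]
        _ = _ := by group
    rw [this, ih, h, pow_succ, mul_inv_rev]
    have hc : Commute (u ^ n)⁻¹ u⁻¹ := ((Commute.refl u).pow_left n).inv_inv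
    exact hc.eq

/-- Key lemma: two involutions with product of odd order are swapped by a conjugate `e * (e*f)^j`. -/
theorem exists_swap {e f : G} (he : e * e = 1) (hf : f * f = 1) (h : Odd (orderOf (e * f))) :
    ∃ j : ℕ, ∃ v : G, e * (e * f) ^ j = v⁻¹ * e * v ∧
      (e * (e * f) ^ j) * e * (e * (e * f) ^ j) = f := by
  set u := e * f with hu
  have heu : e * u * e = u⁻¹ := by
    rw [hu, mul_inv_rev]
    have e1 : e⁻¹ = e := inv_eq_of_mul_eq_one_left he
    have f1 : f⁻¹ = f := inv_eq_of_mul_eq_one_left hf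
    rw [e1, f1]
    calc e * (e * f) * e = (e * e) * f * e := by group
      _ = f * e := by rw [he, one_mul]
  obtain ⟨j, hj⟩ := exists_pow_sq h
  -- w = u^j, w*w = u
  have hwodd : Odd (orderOf (u ^ j)) := by
    have : orderOf (u ^ j) ∣ orderOf u := orderOf_pow_dvd j
    exact Odd.of_dvd_nat h this
  obtain ⟨i, hi⟩ := exists_pow_sq hwodd
  -- v = w^i, v*v = w
  have hev : e * ((u ^ j) ^ i) * e = ((u ^ j) ^ i)⁻¹ := by
    rw [← pow_mul]
    exact inv_pow_conj he heu _
  refine ⟨j, (u ^ j) ^ i, ?_, ?_⟩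
  · set v := (u ^ j) ^ i with hv
    -- v⁻¹ * e = e * v
    have h1 : v⁻¹ * e = e * v := by
      rw [← hev]
      calc e * v * e * e = e * v * (e * e) := by group
        _ = e * v := by rw [he, mul_one]
    rw [h1, mul_assoc, hi]
  · calc e * u ^ j * e * (e * u ^ j) = e * u ^ j * (e * e) * u ^ j := by group
      _ = e * (u ^ j * u ^ j) := by rw [he]; group
      _ = e * u := by rw [hj]
      _ = (e * e) * f := by rw [hu]; group
      _ = f := by rw [he, one_mul]


theorem exists_swap_mem {d : G} (hd : orderOf d = 2)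
    (hodd : ∀ a ∈ conjugatesOf d, ∀ b ∈ conjugatesOf d, Odd (orderOf (a * b)))
    {e f : G} (he : e ∈ conjugatesOf d) (hf : f ∈ conjugatesOf d) :
    ∃ a ∈ conjugatesOf d, a * e * a = f := by
  obtain ⟨j, v, h1, h2⟩ := exists_swap (sq_one_of_mem hd he) (sq_one_of_mem hd hf) (hodd e he f hf)
  refine ⟨e * (e * f) ^ j, ?_, h2⟩
  rw [h1]
  have := conj_mem v⁻¹ he
  rwa [inv_inv] at this

/-- conjugation by `g` sends `r` to `r` or `r⁻¹` -/
def PM (r g : G) : Prop := g * r * g⁻¹ = r ∨ g * r * g⁻¹ = r⁻¹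

theorem PM.mul {r g h : G} (hg : PM r g) (hh : PM r h) : PM r (g * h) := by
  unfold PM at *
  have e1 : g * h * r * (g * h)⁻¹ = g * (h * r * h⁻¹) * g⁻¹ := by group
  rw [e1]
  rcases hh with hh | hh <;> rcases hg with hg | hg
  · left; rw [hh, hg]
  · right; rw [hh, hg]
  · right
    rw [hh]
    have : g * r⁻¹ * g⁻¹ = (g * r * g⁻¹)⁻¹ := by group
    rw [this, hg]
  · left
    rw [hh]
    have : g * r⁻¹ * g⁻¹ = (g * r * g⁻¹)⁻¹ := by group
    rw [this, hg, inv_inv]

theorem PM.pow {r g : G} (hg : PM r g) (j : ℕ) : PM r (g ^ j) := by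
  induction j with
  | zero => left; simp
  | succ n ih => rw [pow_succ]; exact ih.mul hg

theorem swap_unique {d : G} (hd : orderOf d = 2)
    (hodd : ∀ a ∈ conjugatesOf d, ∀ b ∈ conjugatesOf d, Odd (orderOf (a * b)))
    {e a a' : G} (he : e ∈ conjugatesOf d) (ha : a ∈ conjugatesOf d) (ha' : a' ∈ conjugatesOf d)
    (h : a * e * a = a' * e * a') : a = a' := by
  have hee := sq_one_of_mem hd he
  have haa := sq_one_of_mem hd ha
  have haa' := sq_one_of_mem hd ha'
  have hei : e⁻¹ = e := inv_eq_of_mul_eq_one_left hee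
  have hai : a⁻¹ = a := inv_eq_of_mul_eq_one_left haa
  have hai' : a'⁻¹ = a' := inv_eq_of_mul_eq_one_left haa'
  set r := a * a' with hr
  have hri : r⁻¹ = a' * a := by rw [hr, mul_inv_rev, hai, hai']
  -- e centralizes r
  have her : e * r * e⁻¹ = r := by
    have h1 : r * e * r⁻¹ = e := by
      rw [hri, hr]
      calc a * a' * e * (a' * a) = a * (a' * e * a') * a := by group
        _ = a * (a * e * a) * a := by rw [h]
        _ = (a * a) * e * (a * a) := by group
        _ = e := by rw [haa]; group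
    calc e * r * e⁻¹ = (r * e * r⁻¹) * r * e⁻¹ := by rw [h1]
      _ = r := by group
  have har : a * r * a⁻¹ = r⁻¹ := by
    rw [hri, hai, hr]
    calc a * (a * a') * a = (a * a) * a' * a := by group
      _ = a' * a := by rw [haa, one_mul]
  obtain ⟨j, v, -, h2⟩ := exists_swap hee haa (hodd e he a ha)
  set b := e * (e * a) ^ j with hb
  have hPe : PM r e := Or.inl her
  have hPa : PM r a := Or.inr har
  have hPb : PM r b := hPe.mul ((hPe.mul hPa).pow j)
  have har2 : a * r * a⁻¹ = r := by
    have e1 : a * r * a⁻¹ = b * (e * (b * r * b⁻¹) * e⁻¹) * b⁻¹ := by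
      rw [← h2]; group
    rw [e1]
    rcases hPb with hb1 | hb1
    · rw [hb1, her, hb1]
    · rw [hb1]
      have e2 : e * r⁻¹ * e⁻¹ = (e * r * e⁻¹)⁻¹ := by group
      rw [e2, her]
      have e3 : b * r⁻¹ * b⁻¹ = (b * r * b⁻¹)⁻¹ := by group
      rw [e3, hb1, inv_inv]
  have hrr : r * r = 1 := by
    have : r = r⁻¹ := har2.symm.trans har
    calc r * r = r * r⁻¹ := by rw [← this]
      _ = 1 := mul_inv_cancel r
  have hdvd : orderOf r ∣ 2 := orderOf_dvd_of_pow_eq_one (by rw [pow_two]; exact hrr)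
  have hoddr : Odd (orderOf r) := hodd a ha a' ha'
  have h1 : orderOf r = 1 := by
    rcases (Nat.dvd_prime Nat.prime_two).mp hdvd with h | h
    · exact h
    · rw [h] at hoddr; exact absurd hoddr (by decide)
  have hr1 : r = 1 := orderOf_eq_one_iff.mp h1
  calc a = a'⁻¹ := eq_inv_of_mul_eq_one_left hr1
    _ = a' := hai'

theorem result {G : Type*} [Group G] [Finite G] (d : G) (hd : orderOf d = 2)
    (hodd : ∀ a ∈ conjugatesOf d, ∀ b ∈ conjugatesOf d, Odd (orderOf (a * b)))
    (x : G) (hx : orderOf x = 2) :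
    ∀ e ∈ conjugatesOf d,
      ∃! a : G, a ∈ conjugatesOf d ∧ Commute a x ∧ Commute e (a * x) := by
  intro e he
  have hxx : x * x = 1 := by
    have := pow_orderOf_eq_one x
    rw [hx, pow_two] at this
    exact this
  have hxi : x⁻¹ = x := inv_eq_of_mul_eq_one_left hxx
  have hee : e * e = 1 := sq_one_of_mem hd he
  have hf : x * e * x ∈ conjugatesOf d := by
    have := conj_mem x he
    rwa [hxi] at this
  obtain ⟨a, ha, hae⟩ := exists_swap_mem hd hodd he hf
  have haa : a * a = 1 := sq_one_of_mem hd ha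
  have hafa : a * (x * e * x) * a = e := by
    rw [← hae]
    calc a * (a * e * a) * a = (a * a) * e * (a * a) := by group
      _ = e := by rw [haa]; group
  refine ⟨a, ⟨ha, ?_, ?_⟩, ?_⟩
  · -- Commute a x
    have ha' : x * a * x ∈ conjugatesOf d := by
      have := conj_mem x ha
      rwa [hxi] at this
    have h1 : (x * a * x) * e * (x * a * x) = a * e * a := by
      rw [hae]
      calc x * a * x * e * (x * a * x) = x * (a * (x * e * x) * a) * x := by group
        _ = x * e * x := by rw [hafa]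
    have h2 := swap_unique hd hodd he ha' ha h1
    -- x * a * x = a
    show a * x = x * a
    calc a * x = (x * a * x) * x := by rw [h2]
      _ = x * a * (x * x) := by group
      _ = x * a := by rw [hxx, mul_one]
  · show e * (a * x) = a * x * e
    calc e * (a * x) = (a * (x * e * x) * a) * (a * x) := by rw [hafa]
      _ = a * x * e * (x * (a * a) * x) := by group
      _ = a * x * e := by rw [haa, mul_one, hxx, mul_one]
  · rintro b ⟨hb, hbx, hbe⟩
    have hbb : b * b = 1 := sq_one_of_mem hd hb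
    apply swap_unique hd hodd he hb ha
    rw [hae]
    have h1 : e * (b * x) = b * x * e := hbe
    calc b * e * b = b * (e * (b * x)) * x := by
          calc b * e * b = b * e * b * 1 := by group
            _ = b * e * b * (x * x) := by rw [hxx]
            _ = _ := by group
      _ = b * (b * x * e) * x := by rw [h1]
      _ = (b * b) * x * e * x := by group
      _ = x * e * x := by rw [hbb, one_mul]

end Cfsg.Agent.S5562
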