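import Cfsg.Statements.S5596
import Cfsg.Agent.Lib.Helper93.Singular

set_option autoImplicit false
open Cfsg

namespace Cfsg.Agent.S5596

open Cfsg.Agent.Lib.Helper93

theorem comm_of_sq {A : Type*} [Group A] (h2 : ∀ a : A, a * a = 1) (a b : A) : a * b = b * a := by
  have i : ∀ a : A, a⁻¹ = a := fun a => inv_eq_of_mul_eq_one_left (h2 a)
  calc a * b = (a * b)⁻¹ := (i _).symm
    _ = b⁻¹ * a⁻¹ := by group
    _ = b * a := by rw [i a, i b]

/-- the subgroup `Fix(φ) ∪ d Fix(φ)` -/
def fixSub {A : Type*} [Group A] (h2 : ∀ a : A, a * a = 1) (φ : MulAut A) (d : A) : Subgroup A where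
  carrier := {y | φ y = y ∨ φ (d * y) = d * y}
  one_mem' := Or.inl (map_one φ)
  mul_mem' := by
    rintro a b (ha | ha) (hb | hb)
    · left; rw [map_mul, ha, hb]
    · right
      have e : d * (a * b) = a * (d * b) := by
        rw [← mul_assoc, comm_of_sq h2 d a, mul_assoc]
      rw [e, map_mul, ha, hb]
    · right
      rw [← mul_assoc, map_mul, ha, hb]
    · left
      have e : a * b = (d * a) * (d * b) := by
        calc a * b = (d * d) * (a * b) := by rw [h2 d, one_mul]
          _ = d * (d * a) * b := by group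
          _ = d * (a * d) * b := by rw [comm_of_sq h2 d a]
          _ = _ := by group
      rw [e, map_mul, ha, hb]
  inv_mem' := by
    intro a ha
    have : a⁻¹ = a := inv_eq_of_mul_eq_one_left (h2 a)
    rw [this]; exact ha

theorem aut_mem_of_transvections {A : Type*} [Group A] [Finite A] (h2 : ∀ a : A, a * a = 1)
    (T : Subgroup (MulAut A))
    (hT : ∀ (d : A) (W : Subgroup A) (y : A), d ≠ 1 → d ∈ W → y ∉ W →
      ∃ τ ∈ T, (∀ w ∈ W, τ w = w) ∧ τ y = d * y) :
    ∀ φ : MulAut A, φ ∈ T := by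
  intro φ
  induction hn : {a : A | φ a ≠ a}.ncard using Nat.strong_induction_on generalizing φ with
  | _ n ih =>
  by_cases hall : ∀ a, φ a = a
  · have : φ = 1 := by ext a; exact hall a
    rw [this]; exact T.one_mem
  push Not at hall
  obtain ⟨v, hv⟩ := hall
  have hd : v * φ v ≠ 1 := by
    intro h
    apply hv
    have : φ v = v⁻¹ := (inv_eq_of_mul_eq_one_right h).symm
    rw [this]; exact inv_eq_of_mul_eq_one_left (h2 v)
  have hdv : v * φ v * φ v = v := by rw [mul_assoc, h2, mul_one]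
  have hy : φ v ∉ fixSub h2 φ (v * φ v) := by
    rintro (h | h)
    · exact hv (φ.injective h)
    · rw [hdv] at h; exact hv h
  have hdW : v * φ v ∈ fixSub h2 φ (v * φ v) := Or.inr (by rw [h2, map_one])
  obtain ⟨τ, hτ, hτW, hτy⟩ := hT (v * φ v) (fixSub h2 φ (v * φ v)) (φ v) hd hdW hy
  have hlt : {a : A | (τ * φ) a ≠ a}.ncard < n := by
    rw [← hn]
    apply Set.ncard_lt_ncard _ (Set.toFinite _)
    refine ⟨?_, ?_⟩
    · intro a ha hfa
      apply ha
      rw [MulAut.mul_apply, hfa]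
      exact hτW a (Or.inl hfa)
    · intro hsub
      have : v ∈ {a : A | (τ * φ) a ≠ a} := hsub hv
      apply this
      rw [MulAut.mul_apply, hτy, hdv]
  have hψ : τ * φ ∈ T := ih _ hlt (τ * φ) rfl
  have : φ = τ⁻¹ * (τ * φ) := by group
  rw [this]; exact T.mul_mem (T.inv_mem hτ) hψ

/-- the automorphisms of `U` induced by conjugation by elements of `L` -/
def inducedAut {G : Type*} [Group G] (U L : Subgroup G) : Subgroup (MulAut ↥U) where
  carrier := {τ | ∃ g ∈ L, ∀ u : ↥U, g * (u : G) * g⁻¹ = ((τ u : ↥U) : G)}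
  one_mem' := ⟨1, L.one_mem, fun u => by simp⟩
  mul_mem' := by
    rintro a b ⟨g, hg, hga⟩ ⟨k, hk, hkb⟩
    refine ⟨g * k, L.mul_mem hg hk, fun u => ?_⟩
    rw [MulAut.mul_apply, ← hga, ← hkb]; group
  inv_mem' := by
    rintro a ⟨g, hg, hga⟩
    refine ⟨g⁻¹, L.inv_mem hg, fun u => ?_⟩
    have := hga (a⁻¹ u)
    rw [MulAut.apply_inv_self] at this
    rw [← this]; group

/-- Setting: `z` is an involution of the finite group `G`; for each element `x`, `Q x` is the largest normal 2-subgroup of the centralizer of `x`; `Q z` is extraspecial and contains its own centralizer in `G`. A subgroup `U` is singular when it is elementary abelian, every non-identity element of `U` is conjugate to `z`, and any two non-identity elements `u`, `v` of `U` are orthogonal (`v ∈ Q u`). Write `QU` for the intersection of the `Q u` and `LU` for the join of the `Q u` over the non-identity `u` in `U`. If `U` is singular of order `2 ^ n` with `n ≥ 2`, then `U ≤ QU ≤ LU`, `LU` normalizes `U`,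 and `LU` induces on `U` its full automorphism group (the general linear group of dimension `n` over the field with two elements): every automorphism of `U` is conjugation by some element of `LU`. -/
theorem result {G : Type*} [Group G] [Finite G]
    (Q : G → Subgroup G)
    (hQ : ∀ x : G, Q x = (Cfsg.pCore 2 ↥(Subgroup.centralizer ({x} : Set G))).map (Subgroup.centralizer ({x} : Set G)).subtype)
    (z : G) (hz : orderOf z = 2) (hE : Cfsg.IsExtraspecial 2 ↥(Q z))
    (hC : Subgroup.centralizer ((Q z : Subgroup G) : Set G) ≤ Q z)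
    (U : Subgroup G) (hU2 : ∀ u ∈ U, u * u = 1)
    (hS : ∀ u ∈ U, u ≠ 1 → ∃ g : G, g * z * g⁻¹ = u)
    (hO : ∀ u ∈ U, ∀ v ∈ U, u ≠ 1 → v ≠ 1 → v ∈ Q u)
    (QU LU : Subgroup G) (hQU : QU = ⨅ u ∈ ((U : Set G) \ {1}), Q u) (hLU : LU = ⨆ u ∈ ((U : Set G) \ {1}), Q u)
    (n : ℕ) (hn : 2 ≤ n) (hcard : Nat.card ↥U = 2 ^ n) :
    U ≤ QU ∧ QU ≤ LU ∧ LU ≤ Subgroup.normalizer (U : Set G) ∧
      ∀ φ : ↥U ≃* ↥U, ∃ g ∈ LU, ∀ u : ↥U, g * (u : G) * g⁻¹ = ((φ u : ↥U) : G) := by
  have hQQ : Q = QQ := funext hQ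
  subst hQQ
  have hL := LES.of_hyp hz hE hC
  have hSing : Sing z U := ⟨hU2, hS, hO⟩
  have hQUle : ∀ u ∈ U, u ≠ 1 → QU ≤ QQ u := by
    intro u hu hu1
    rw [hQU]
    exact iInf₂_le u ⟨hu, by simpa using hu1⟩
  have hleLU : ∀ u ∈ U, u ≠ 1 → QQ u ≤ LU := by
    intro u hu hu1
    rw [hLU]
    exact le_iSup₂ (f := fun u (_ : u ∈ ((U : Set G) \ {1})) => QQ u) u ⟨hu, by simpa using hu1⟩
  have hLN : LU ≤ Subgroup.normalizer (U : Set G) := by
    rw [hLU]; exact hSing.iSup_le_normalizer hL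
  obtain ⟨u₀, hu₀, hu₀1⟩ : ∃ u ∈ U, u ≠ 1 := by
    by_contra hcon
    push Not at hcon
    have : U = ⊥ := (Subgroup.eq_bot_iff_forall U).2 hcon
    rw [this] at hcard
    simp only [Subgroup.card_bot] at hcard
    have : 2 ^ 2 ≤ 2 ^ n := Nat.pow_le_pow_right (by norm_num) hn
    omega
  refine ⟨?_, (hQUle u₀ hu₀ hu₀1).trans (hleLU u₀ hu₀ hu₀1), hLN, ?_⟩
  · rw [hQU]
    exact le_iInf₂ fun u hu => hSing.le_QQ hu.1 (by simpa using hu.2)
  · intro φ
    have key := aut_mem_of_transvections (A := ↥U)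
      (fun a => Subtype.ext (hU2 a a.2)) (inducedAut U LU) ?_ φ
    · exact key
    intro d W y hd hdW hyW
    have hd1 : (d : G) ≠ 1 := fun h => hd (Subtype.ext h)
    have hes := (hSing.les hL d.2 hd1).es
    obtain ⟨g, hg, hgW, hgy⟩ := hes.exists_centralizing (W.map U.subtype) ⟨d, hdW, rfl⟩
      ((Subgroup.map_subtype_le W).trans (hSing.le_QQ d.2 hd1)) (hSing.le_QQ d.2 hd1 y.2)
      (by
        rintro ⟨y', hy', hyy⟩
        have : y' = y := Subtype.ext hyy
        exact hyW (this ▸ hy'))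
    have hgN : g ∈ Subgroup.normalizer (U : Set G) := hLN (hleLU d d.2 hd1 hg)
    refine ⟨U.normalizerMonoidHom ⟨g, hgN⟩, ⟨g, hleLU d d.2 hd1 hg, fun u => ?_⟩, fun w hw => ?_, ?_⟩
    · simp
    · apply Subtype.ext
      simp only [Subgroup.normalizerMonoidHom_apply_apply_coe]
      rw [hgW w ⟨w, hw, rfl⟩]; group
    · apply Subtype.ext
      simp only [Subgroup.normalizerMonoidHom_apply_apply_coe, Subgroup.coe_mul]
      rw [hgy]; group

end Cfsg.Agent.S5596
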