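import Cfsg.Statements.S5597
import Cfsg.Agent.Lib.Helper93.Singular

set_option autoImplicit false
open Cfsg

namespace Cfsg.Agent.S5597

open Cfsg.Agent.Lib.Helper93

/-- the subgroup of elements normalising `U` and acting trivially on `QU / U` -/
def trivOn {G : Type*} [Group G] (U QU : Subgroup G) : Subgroup G where
  carrier := {g | g ∈ Subgroup.normalizer (U : Set G) ∧ ∀ x ∈ QU, g * x * g⁻¹ * x⁻¹ ∈ U}
  one_mem' := ⟨Subgroup.one_mem _, fun x _ => by simp⟩
  mul_mem' := by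
    rintro a b ⟨ha, ha'⟩ ⟨hb, hb'⟩
    refine ⟨Subgroup.mul_mem _ ha hb, fun x hx => ?_⟩
    have h1 : a * (b * x * b⁻¹ * x⁻¹) * a⁻¹ ∈ U :=
      (Subgroup.mem_normalizer_iff.mp ha _).1 (hb' x hx)
    have := U.mul_mem h1 (ha' x hx)
    have e : a * b * x * (a * b)⁻¹ * x⁻¹ = a * (b * x * b⁻¹ * x⁻¹) * a⁻¹ * (a * x * a⁻¹ * x⁻¹) := by
      group
    rw [e]; exact this
  inv_mem' := by
    rintro a ⟨ha, ha'⟩
    refine ⟨Subgroup.inv_mem _ ha, fun x hx => ?_⟩
    have h1 : (a * x * a⁻¹ * x⁻¹)⁻¹ ∈ U := U.inv_mem (ha' x hx)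
    have h2 := (Subgroup.mem_normalizer_iff.mp (Subgroup.inv_mem _ ha) _).1 h1
    have e : a⁻¹ * x * a⁻¹⁻¹ * x⁻¹ = a⁻¹ * (a * x * a⁻¹ * x⁻¹)⁻¹ * a⁻¹⁻¹ := by group
    rw [e]; exact h2

/-- Setting: `z` is an involution of the finite group `G`; for each element `x`, `Q x` is the largest normal 2-subgroup of the centralizer of `x`; `Q z` is extraspecial and contains its own centralizer in `G`. A subgroup `U` is singular when it is elementary abelian, every non-identity element of `U` is conjugate to `z`, and any two non-identity elements `u`, `v` of `U` are orthogonal (`v ∈ Q u`). Write `QU` for the intersection of the `Q u` and `LU` for the join of the `Q u` over the non-identity `u` in `U`. If `U` is a non-trivial singular subgroup, then `LU` acts trivially on `QU / U` (every commutator of an element of `LU` with an element of `QU` lies in `U`), and for every `x` in `QU` outside `U` the centralizer of `U` in `LU` permutes the coset `x U` transitively: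 each `x u` with `u ∈ U` is a conjugate of `x` by an element of `LU` centralizing `U`. -/
theorem result {G : Type*} [Group G] [Finite G]
    (Q : G → Subgroup G)
    (hQ : ∀ x : G, Q x = (Cfsg.pCore 2 ↥(Subgroup.centralizer ({x} : Set G))).map (Subgroup.centralizer ({x} : Set G)).subtype)
    (z : G) (hz : orderOf z = 2) (hE : Cfsg.IsExtraspecial 2 ↥(Q z))
    (hC : Subgroup.centralizer ((Q z : Subgroup G) : Set G) ≤ Q z)
    (U : Subgroup G) (hU2 : ∀ u ∈ U, u * u = 1)
    (hS : ∀ u ∈ U, u ≠ 1 → ∃ g : G, g * z * g⁻¹ = u)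
    (hO : ∀ u ∈ U, ∀ v ∈ U, u ≠ 1 → v ≠ 1 → v ∈ Q u)
    (QU LU : Subgroup G) (hQU : QU = ⨅ u ∈ ((U : Set G) \ {1}), Q u) (hLU : LU = ⨆ u ∈ ((U : Set G) \ {1}), Q u)
    (hU : U ≠ ⊥) :
    (∀ g ∈ LU, ∀ x ∈ QU, g * x * g⁻¹ * x⁻¹ ∈ U) ∧
      ∀ x ∈ QU, x ∉ U → ∀ u ∈ U, ∃ g ∈ LU ⊓ Subgroup.centralizer (U : Set G), g * x * g⁻¹ = x * u := by
  have hQQ : Q = QQ := funext hQ
  subst hQQ
  have hL := LES.of_hyp hz hE hC
  have hSing : Sing z U := ⟨hU2, hS, hO⟩
  have hQUle : ∀ u ∈ U, u ≠ 1 → QU ≤ QQ u := by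
    intro u hu hu1
    rw [hQU]
    exact iInf₂_le u ⟨hu, by simpa using hu1⟩
  have hleLU : ∀ u ∈ U, u ≠ 1 → QQ u ≤ LU := by
    intro u hu hu1
    rw [hLU]
    exact le_iSup₂ (f := fun u (_ : u ∈ ((U : Set G) \ {1})) => QQ u) u ⟨hu, by simpa using hu1⟩
  constructor
  · have hle : LU ≤ trivOn U QU := by
      rw [hLU]
      refine iSup₂_le fun u hu => ?_
      have hu1 : u ≠ 1 := by simpa using hu.2
      have hes := (hSing.les hL hu.1 hu1).es
      intro g hg
      refine ⟨hSing.QQ_le_normalizer hL hu.1 hu1 hg, fun x hx => ?_⟩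
      rcases hes.comm g hg x (hQUle u hu.1 hu1 hx) with h2 | h2
      · have : g * x * g⁻¹ * x⁻¹ = 1 := by rw [h2]; group
        rw [this]; exact U.one_mem
      · have : g * x * g⁻¹ * x⁻¹ = u := by rw [h2]; group
        rw [this]; exact hu.1
    intro g hg x hx
    exact (hle hg).2 x hx
  · intro x hx hxU u hu
    by_cases hu1 : u = 1
    · exact ⟨1, Subgroup.one_mem _, by simp [hu1]⟩
    have hes := (hSing.les hL hu hu1).es
    have hxQ := hQUle u hu hu1 hx
    obtain ⟨g, hg, hgU, hgx⟩ := hes.exists_centralizing U hu (hSing.le_QQ hu hu1) hxQ hxU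
    refine ⟨g, Subgroup.mem_inf.2 ⟨hleLU u hu hu1 hg, ?_⟩, ?_⟩
    · rw [Subgroup.mem_centralizer_iff]
      intro s hs
      exact (hgU s hs).symm
    · rw [hgx, hes.z_comm x hxQ]; group

end Cfsg.Agent.S5597
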