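import Cfsg.Statements.S5729
import Cfsg.Agent.Lib.Helper95.FixCount

set_option autoImplicit false
open Cfsg

namespace Cfsg.Agent.S5729

open MulAction Cfsg.Agent.Lib.Helper95

/-- Let a finite group G act faithfully and transitively on a set with n ≥ 3 points. Then either G is a Frobenius permutation group (Frobenius as a permutation group: transitive, some non-identity element fixes a point, and no non-identity element fixes two points) of order n(n − 1) and exactly |G|/n of its elements are derangements (fix no point), or the number of derangements is greater than |G|/n. -/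
theorem result {G Ω : Type*} [Group G] [Finite G] [MulAction G Ω] [FaithfulSMul G Ω] [Fintype Ω] (htr : MulAction.IsPretransitive G Ω) (hn : 3 ≤ Fintype.card Ω) :
    ((MulAction.IsPretransitive G Ω ∧ (∃ g : G, g ≠ 1 ∧ ∃ ω : Ω, g • ω = ω) ∧ ∀ g : G, g ≠ 1 → Nat.card (MulAction.fixedBy Ω g) ≤ 1) ∧ Nat.card G = Fintype.card Ω * (Fintype.card Ω - 1) ∧ Fintype.card Ω * Nat.card {g : G // ∀ ω : Ω, g • ω ≠ ω} = Nat.card G) ∨
    Nat.card G < Fintype.card Ω * Nat.card {g : G // ∀ ω : Ω, g • ω ≠ ω} := by
  classical
  have : Fintype G := Fintype.ofFinite _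
  have hΩ1 : 1 < Fintype.card Ω := by omega
  have : Nontrivial Ω := Fintype.one_lt_card_iff_nontrivial.mp hΩ1
  have hcc := cameron_cohen G Ω
  have hr := two_le_rank G Ω
  have hNpos : 0 < Nat.card G := Nat.card_pos
  rw [← Nat.card_eq_fintype_card] at hn ⊢
  set n := Nat.card Ω with hndef
  set D := Nat.card {g : G // ∀ ω : Ω, g • ω ≠ ω} with hD
  set r := Nat.card (orbitRel.Quotient G (Ω × Ω)) with hrdef
  set N := Nat.card G with hN
  have hle : ∀ g : G, Nat.card (fixedBy Ω g) ≤ n := fun g => natCard_fixedBy_le g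
  have hterm : ∀ g ∈ Finset.univ.filter (fun g : G => Nat.card (fixedBy Ω g) ≠ 0),
      (0 : ℤ) ≤ ((Nat.card (fixedBy Ω g) : ℤ) - 1) * ((n : ℤ) - Nat.card (fixedBy Ω g)) := by
    intro g hg
    have h1 : 1 ≤ Nat.card (fixedBy Ω g) := Nat.one_le_iff_ne_zero.mpr (Finset.mem_filter.mp hg).2
    have h2 := hle g
    apply mul_nonneg
    · have : (1 : ℤ) ≤ Nat.card (fixedBy Ω g) := by exact_mod_cast h1
      linarith
    · have : (Nat.card (fixedBy Ω g) : ℤ) ≤ n := by exact_mod_cast h2
      linarith
  have hone : Nat.card (fixedBy Ω (1 : G)) = n := by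
    rw [fixedBy_one_eq_univ, Nat.card_coe_set_eq, Set.ncard_univ]
  have hlt : ∀ g : G, g ≠ 1 → Nat.card (fixedBy Ω g) < n := by
    intro g hg
    by_contra hcon
    have heq : Nat.card (fixedBy Ω g) = n := le_antisymm (hle g) (not_lt.mp hcon)
    apply hg
    apply FaithfulSMul.eq_of_smul_eq_smul (α := Ω)
    intro x
    rw [one_smul]
    have huniv : fixedBy Ω g = Set.univ := by
      by_contra hne
      have h3 := Set.ncard_lt_ncard (Set.ssubset_univ_iff.mpr hne) (Set.toFinite _)
      rw [Set.ncard_univ, ← Nat.card_coe_set_eq, heq] at h3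
      exact lt_irrefl _ h3
    have : x ∈ fixedBy Ω g := by rw [huniv]; trivial
    exact this
  have hrZ : (2 : ℤ) ≤ r := by exact_mod_cast hr
  have hNZ : (0 : ℤ) < N := by exact_mod_cast hNpos
  by_cases hA : ∃ g : G, g ≠ 1 ∧ 2 ≤ Nat.card (fixedBy Ω g)
  · right
    obtain ⟨g0, hg0, hf0⟩ := hA
    have hl := hlt g0 hg0
    have hmem : g0 ∈ Finset.univ.filter (fun g : G => Nat.card (fixedBy Ω g) ≠ 0) := by
      simp only [Finset.mem_filter, Finset.mem_univ, true_and]; omega
    have h1 := Finset.single_le_sum hterm hmem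
    have h2 : (1 : ℤ) ≤ ((Nat.card (fixedBy Ω g0) : ℤ) - 1) * ((n : ℤ) - Nat.card (fixedBy Ω g0)) := by
      have a1 : (2 : ℤ) ≤ Nat.card (fixedBy Ω g0) := by exact_mod_cast hf0
      have a2 : (Nat.card (fixedBy Ω g0) : ℤ) + 1 ≤ n := by exact_mod_cast hl
      nlinarith
    have h3 : (N : ℤ) < (n : ℤ) * D := by
      rw [hcc]
      nlinarith
    exact_mod_cast h3
  · push Not at hA
    have hsum0 : ∑ g ∈ Finset.univ.filter (fun g : G => Nat.card (fixedBy Ω g) ≠ 0),
        ((Nat.card (fixedBy Ω g) : ℤ) - 1) * ((n : ℤ) - Nat.card (fixedBy Ω g)) = 0 := by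
      apply Finset.sum_eq_zero
      intro g hg
      by_cases hg1 : g = 1
      · subst hg1
        rw [hone]; ring
      · have h1 := hA g hg1
        have h2 := (Finset.mem_filter.mp hg).2
        have h3 : Nat.card (fixedBy Ω g) = 1 := by omega
        rw [h3]; simp
    rw [hsum0, add_zero] at hcc
    by_cases hr3 : 3 ≤ r
    · right
      have hr3Z : (3 : ℤ) ≤ r := by exact_mod_cast hr3
      have h3 : (N : ℤ) < (n : ℤ) * D := by
        rw [hcc]
        nlinarith
      exact_mod_cast h3
    · left
      have hr2 : r = 2 := by omega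
      have hnD : n * D = N := by
        rw [hr2] at hcc
        have : (n : ℤ) * D = N := by rw [hcc]; norm_num
        exact_mod_cast this
      have hNn : N = n * (n - 1) := by
        have s1 := sum_natCard_fixedBy G Ω
        rw [natCard_orbits_of_pretransitive, one_mul] at s1
        have s2 := sum_natCard_fixedBy_sq G Ω
        rw [← hrdef, hr2] at s2
        have s3 : ∑ g : G, (Nat.card (fixedBy Ω g) ^ 2 - Nat.card (fixedBy Ω g)) = n * (n - 1) := by
          rw [Finset.sum_eq_single (1 : G)]
          · rw [hone, sq, Nat.mul_sub_one]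
          · intro g _ hg
            have h1 := hA g hg
            have : Nat.card (fixedBy Ω g) = 0 ∨ Nat.card (fixedBy Ω g) = 1 := by omega
            rcases this with h | h <;> rw [h] <;> norm_num
          · intro h; exact absurd (Finset.mem_univ _) h
        have s4 : ∑ g : G, (Nat.card (fixedBy Ω g) ^ 2 - Nat.card (fixedBy Ω g))
            + ∑ g : G, Nat.card (fixedBy Ω g) = ∑ g : G, Nat.card (fixedBy Ω g) ^ 2 := by
          rw [← Finset.sum_add_distrib]
          apply Finset.sum_congr rfl
          intro g _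
          apply Nat.sub_add_cancel
          exact Nat.le_self_pow (by norm_num) _
        rw [s3, s1, s2] at s4
        omega
      refine ⟨⟨htr, ?_, ?_⟩, hNn, hnD⟩
      · obtain ⟨ω⟩ : Nonempty Ω := inferInstance
        have hidx : (stabilizer G ω).index = n := by
          rw [index_stabilizer, orbit_eq_univ, Set.ncard_univ]
        have hc := Subgroup.card_mul_index (stabilizer G ω)
        rw [hidx, ← hN, hNn, mul_comm] at hc
        have hc' : Nat.card (stabilizer G ω) = n - 1 := Nat.eq_of_mul_eq_mul_left (by omega) hc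
        have hne : stabilizer G ω ≠ ⊥ := by
          rw [← Subgroup.one_lt_card_iff_ne_bot, hc']
          omega
        obtain ⟨g, hg⟩ := Subgroup.ne_bot_iff_exists_ne_one.mp hne
        exact ⟨g.1, fun h => hg (Subtype.ext h), ω, g.2⟩
      · intro g hg
        have := hA g hg
        omega

end Cfsg.Agent.S5729
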