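import Cfsg.Statements.S5739
import Cfsg.Agent.Lib.Helper95.SingerInter

set_option autoImplicit false
open Cfsg

namespace Cfsg.Agent.S5739

open Cfsg.Agent.Lib.Helper95

/-- Let F ⊆ K be finite fields with |F| = q and [K : F] = n ≥ 2, and let M ≤ GL_F(K) be the Singer group of multiplications by non-zero elements of K. If g ∈ GL_F(K) does not normalise M, then the order of M ∩ gMg⁻¹ divides q^r − 1 for some proper divisor r of n. In particular, when n is prime, that order divides q − 1. -/
theorem result {F K : Type*} [Field F] [Fintype F] [Field K] [Fintype K] [Algebra F K] (n : ℕ) (hn : 2 ≤ n) (hdim : Module.finrank F K = n)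
    (g : (Module.End F K)ˣ) (hg : ((Units.map ((Algebra.lmul F K : K →ₐ[F] Module.End F K) : K →* Module.End F K)).range).map (MulAut.conj g).toMonoidHom ≠ (Units.map ((Algebra.lmul F K : K →ₐ[F] Module.End F K) : K →* Module.End F K)).range) :
    ∃ r : ℕ, 1 ≤ r ∧ r ∣ n ∧ r < n ∧ Nat.card ↥(((Units.map ((Algebra.lmul F K : K →ₐ[F] Module.End F K) : K →* Module.End F K)).range).map (MulAut.conj g).toMonoidHom ⊓ (Units.map ((Algebra.lmul F K : K →ₐ[F] Module.End F K) : K →* Module.End F K)).range) ∣ Fintype.card F ^ r - 1 := by
  classical
  have : FiniteDimensional F K := Module.Finite.of_finite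
  have hne := conjField_ne_top g hg
  have hcard := card_inter g
  have hmul := Module.finrank_mul_finrank F (conjField g) K
  refine ⟨Module.finrank F (conjField g), Module.finrank_pos, ?_, ?_, ?_⟩
  · rw [← hdim, ← hmul]
    exact Dvd.intro _ rfl
  · rw [← hdim]
    apply lt_of_le_of_ne
    · exact (conjField g).toSubalgebra.toSubmodule.finrank_le
    · intro h
      apply hne
      rw [← IntermediateField.finrank_eq_one_iff_eq_top]
      rw [← h] at hmul
      have hpos : 0 < Module.finrank F (conjField g) := Module.finrank_pos
      exact Nat.eq_of_mul_eq_mul_left hpos (by rw [hmul, mul_one])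
  · have h2 : Nat.card (conjField g) = Fintype.card F ^ Module.finrank F (conjField g) := by
      rw [Nat.card_eq_fintype_card]
      exact Module.card_eq_pow_finrank
    rw [← h2]
    exact dvd_of_eq hcard

end Cfsg.Agent.S5739
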