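import Cfsg.Statements.S5747

set_option autoImplicit false
open Cfsg

namespace Cfsg.Agent.S5747

variable {G Ω : Type*} [Group G] [MulAction G Ω]

/-- `l` is an irredundant base for the subgroup `H`. -/
def IB : Subgroup G → List Ω → Prop
  | H, [] => H = ⊥
  | H, x :: l => (∃ g ∈ H, g • x ≠ x) ∧ IB (H ⊓ MulAction.stabilizer G x) l

theorem IB_nil (H : Subgroup G) : IB H ([] : List Ω) ↔ H = ⊥ := Iff.rfl

theorem IB_cons (H : Subgroup G) (x : Ω) (l : List Ω) :
    IB H (x :: l) ↔ (∃ g ∈ H, g • x ≠ x) ∧ IB (H ⊓ MulAction.stabilizer G x) l := Iff.rfl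

/-- the tuple version, relative to a subgroup -/
def IBfin (H : Subgroup G) {t : ℕ} (f : Fin t → Ω) : Prop :=
  (∀ g ∈ H, (∀ i : Fin t, g • f i = f i) → g = 1) ∧
    ∀ i : Fin t, ∃ g ∈ H, (∀ j : Fin t, j < i → g • f j = f j) ∧ g • f i ≠ f i

theorem IB_ofFn (t : ℕ) : ∀ (H : Subgroup G) (f : Fin t → Ω), IB H (List.ofFn f) ↔ IBfin H f := by
  induction t with
  | zero =>
    intro H f
    rw [List.ofFn_zero, IB_nil, Subgroup.eq_bot_iff_forall]
    constructor
    · intro h
      exact ⟨fun g hg _ => h g hg, fun i => i.elim0⟩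
    · intro h g hg
      exact h.1 g hg (fun i => i.elim0)
  | succ t ih =>
    intro H f
    rw [List.ofFn_succ, IB_cons, ih]
    constructor
    · rintro ⟨h0, hb, hi⟩
      refine ⟨?_, ?_⟩
      · intro g hg hfix
        exact hb g ⟨hg, hfix 0⟩ (fun i => hfix i.succ)
      · intro i
        refine Fin.cases ?_ ?_ i
        · obtain ⟨g, hg, hne⟩ := h0
          exact ⟨g, hg, fun j hj => absurd hj (Fin.not_lt_zero j), hne⟩
        · intro i'
          obtain ⟨g, hg, hfix, hne⟩ := hi i'
          refine ⟨g, hg.1, ?_, hne⟩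
          intro j
          refine Fin.cases ?_ ?_ j
          · intro _; exact hg.2
          · intro j' hj'
            exact hfix j' (Fin.succ_lt_succ_iff.mp hj')
    · rintro ⟨hb, hi⟩
      refine ⟨?_, ?_, ?_⟩
      · obtain ⟨g, hg, _, hne⟩ := hi 0
        exact ⟨g, hg, hne⟩
      · intro g hg hfix
        refine hb g hg.1 ?_
        intro i
        refine Fin.cases ?_ ?_ i
        · exact hg.2
        · exact hfix
      · intro i
        obtain ⟨g, hg, hfix, hne⟩ := hi i.succ
        refine ⟨g, ⟨hg, hfix 0 (Fin.succ_pos i)⟩, ?_, hne⟩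
        intro j hj
        exact hfix j.succ (Fin.succ_lt_succ_iff.mpr hj)

theorem IB_base : ∀ (l : List Ω) (H : Subgroup G), IB H l → ∀ g ∈ H, (∀ x ∈ l, g • x = x) → g = 1 := by
  intro l
  induction l with
  | nil =>
    intro H h g hg _
    rw [IB_nil] at h
    rw [h] at hg
    exact Subgroup.mem_bot.mp hg
  | cons x l ih =>
    intro H h g hg hfix
    exact ih _ h.2 g ⟨hg, hfix x (List.mem_cons_self)⟩ (fun y hy => hfix y (List.mem_cons_of_mem _ hy))

theorem exists_sublist : ∀ (l : List Ω) (H : Subgroup G), (∀ g ∈ H, (∀ x ∈ l, g • x = x) → g = 1) →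
    ∃ l₀, l₀.Sublist l ∧ IB H l₀ := by
  intro l
  induction l with
  | nil =>
    intro H h
    refine ⟨[], List.Sublist.refl _, ?_⟩
    rw [IB_nil, Subgroup.eq_bot_iff_forall]
    intro g hg
    exact h g hg (by simp)
  | cons x l ih =>
    intro H h
    by_cases hx : ∃ g ∈ H, g • x ≠ x
    · obtain ⟨l₀, hs, hl₀⟩ := ih (H ⊓ MulAction.stabilizer G x) (by
        intro g hg hfix
        refine h g hg.1 ?_
        intro y hy
        rcases List.mem_cons.mp hy with rfl | hy
        · exact hg.2
        · exact hfix y hy)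
      exact ⟨x :: l₀, hs.cons_cons x, hx, hl₀⟩
    · push Not at hx
      obtain ⟨l₀, hs, hl₀⟩ := ih H (by
        intro g hg hfix
        refine h g hg ?_
        intro y hy
        rcases List.mem_cons.mp hy with rfl | hy
        · exact hx g hg
        · exact hfix y hy)
      exact ⟨l₀, hs.cons x, hl₀⟩

theorem IB_nodup : ∀ (l : List Ω) (H : Subgroup G), IB H l → (∀ x ∈ l, ∃ g ∈ H, g • x ≠ x) ∧ l.Nodup := by
  intro l
  induction l with
  | nil => intro H _; simp
  | cons x l ih =>
    intro H h
    obtain ⟨h1, h2⟩ := ih _ h.2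
    refine ⟨?_, ?_⟩
    · intro y hy
      rcases List.mem_cons.mp hy with rfl | hy
      · exact h.1
      · obtain ⟨g, hg, hne⟩ := h1 y hy
        exact ⟨g, hg.1, hne⟩
    · rw [List.nodup_cons]
      refine ⟨?_, h2⟩
      intro hx
      obtain ⟨g, hg, hne⟩ := h1 x hx
      exact hne hg.2

/-- reordering property for `H` -/
def Reord (H : Subgroup G) : Prop := ∀ l l' : List Ω, l.Perm l' → IB H l → IB H l'

theorem Reord_stab (H : Subgroup G) (x : Ω) (hx : ∃ g ∈ H, g • x ≠ x) (hR : Reord (Ω := Ω) H) :
    Reord (Ω := Ω) (H ⊓ MulAction.stabilizer G x) := by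
  intro l l' hp hl
  exact (hR (x :: l) (x :: l') (hp.cons x) ⟨hx, hl⟩).2

theorem same_length [Finite G] (H : Subgroup G) : Reord (Ω := Ω) H → ∀ l l' : List Ω, IB H l → IB H l' →
    l.length = l'.length := by
  induction H using WellFoundedLT.induction with
  | ind H ih =>
    intro hR l l' hl hl'
    match l, l', hl, hl' with
    | [], [], _, _ => rfl
    | [], y :: m', hl, hl' =>
      exfalso
      rw [IB_nil] at hl
      obtain ⟨g, hg, hne⟩ := hl'.1
      rw [hl, Subgroup.mem_bot] at hg
      subst hg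
      exact hne (one_smul _ _)
    | x :: m, [], hl, hl' =>
      exfalso
      rw [IB_nil] at hl'
      obtain ⟨g, hg, hne⟩ := hl.1
      rw [hl', Subgroup.mem_bot] at hg
      subst hg
      exact hne (one_smul _ _)
    | x :: m, y :: m', hl, hl' =>
      have hlt : ∀ z : Ω, (∃ g ∈ H, g • z ≠ z) → H ⊓ MulAction.stabilizer G z < H := by
        rintro z ⟨g, hg, hne⟩
        refine lt_of_le_of_ne inf_le_left ?_
        intro heq
        rw [← heq] at hg
        exact hne hg.2
      have ihx := ih _ (hlt x hl.1) (Reord_stab H x hl.1 hR)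
      have ihy := ih _ (hlt y hl'.1) (Reord_stab H y hl'.1 hR)
      simp only [List.length_cons, add_left_inj]
      by_cases h1 : ∃ g ∈ H ⊓ MulAction.stabilizer G x, g • y ≠ y
      · obtain ⟨m'', _, hm''⟩ := exists_sublist m (H ⊓ MulAction.stabilizer G x ⊓ MulAction.stabilizer G y)
          (fun g hg hfix => IB_base m _ hl.2 g hg.1 hfix)
        have e1 : IB H (x :: y :: m'') := ⟨hl.1, h1, hm''⟩
        have e2 : IB H (y :: x :: m'') := hR _ _ (List.Perm.swap y x m'') e1
        rw [ihx m (y :: m'') hl.2 e1.2, ihy m' (x :: m'') hl'.2 e2.2]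
        simp
      · by_cases h2 : ∃ g ∈ H ⊓ MulAction.stabilizer G y, g • x ≠ x
        · obtain ⟨m'', _, hm''⟩ := exists_sublist m' (H ⊓ MulAction.stabilizer G y ⊓ MulAction.stabilizer G x)
            (fun g hg hfix => IB_base m' _ hl'.2 g hg.1 hfix)
          have e1 : IB H (y :: x :: m'') := ⟨hl'.1, h2, hm''⟩
          have e2 : IB H (x :: y :: m'') := hR _ _ (List.Perm.swap x y m'') e1
          rw [ihx m (y :: m'') hl.2 e2.2, ihy m' (x :: m'') hl'.2 e1.2]
          simp
        · push Not at h1 h2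
          have heq : H ⊓ MulAction.stabilizer G x = H ⊓ MulAction.stabilizer G y := by
            apply le_antisymm
            · intro g hg
              exact ⟨hg.1, h1 g hg⟩
            · intro g hg
              exact ⟨hg.1, h2 g hg⟩
          have hm' := hl'.2
          rw [← heq] at hm'
          exact ihx m m' hl.2 hm'

theorem reord_of_same_length (H : Subgroup G)
    (hS : ∀ l l' : List Ω, IB H l → IB H l' → l.length = l'.length) : Reord (Ω := Ω) H := by
  intro l l' hp hl
  obtain ⟨l₀, hs, hl₀⟩ := exists_sublist l' H (by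
    intro g hg hfix
    exact IB_base l H hl g hg (fun x hx => hfix x (hp.mem_iff.mp hx)))
  have hlen : l₀.length = l'.length := by rw [hS l₀ l hl₀ hl, hp.length_eq]
  rw [← hs.eq_of_length hlen]
  exact hl₀

theorem IBfin_top {t : ℕ} (f : Fin t → Ω) :
    IBfin (⊤ : Subgroup G) f ↔ ((∀ g : G, (∀ i : Fin t, g • f i = f i) → g = 1) ∧ ∀ i : Fin t, ∃ g : G, (∀ j : Fin t, j < i → g • f j = f j) ∧ g • f i ≠ f i) := by
  simp [IBfin]

/-- Let a finite group G act on a finite set Ω. An irredundant base is a sequence of points ω₁, …, ω_t whose pointwise stabiliser is trivial and in which each ω_i is moved by some element fixing ω₁, …, ω_{i−1}. Then all irredundant bases have the same length if and only if every reordering of an irredundant base is again an irredundant base. -/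
theorem result {G Ω : Type*} [Group G] [Finite G] [MulAction G Ω] [Fintype Ω] :
    (∀ (t t' : ℕ) (f : Fin t → Ω) (f' : Fin t' → Ω), ((∀ g : G, (∀ i : Fin t, g • f i = f i) → g = 1) ∧ ∀ i : Fin t, ∃ g : G, (∀ j : Fin t, j < i → g • f j = f j) ∧ g • f i ≠ f i) → ((∀ g : G, (∀ i : Fin t', g • f' i = f' i) → g = 1) ∧ ∀ i : Fin t', ∃ g : G, (∀ j : Fin t', j < i → g • f' j = f' j) ∧ g • f' i ≠ f' i) → t = t') ↔
    (∀ (t : ℕ) (f : Fin t → Ω) (σ : Equiv.Perm (Fin t)), ((∀ g : G, (∀ i : Fin t, g • f i = f i) → g = 1) ∧ ∀ i : Fin t, ∃ g : G, (∀ j : Fin t, j < i → g • f j = f j) ∧ g • f i ≠ f i) → ((∀ g : G, (∀ i : Fin t, g • (f ∘ σ) i = (f ∘ σ) i) → g = 1) ∧ ∀ i : Fin t, ∃ g : G, (∀ j : Fin t, j < i → g • (f ∘ σ) j = (f ∘ σ) j) ∧ g • (f ∘ σ) i ≠ (f ∘ σ) i)) := by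
  simp only [← IBfin_top, ← IB_ofFn]
  constructor
  · intro hS t f σ hf
    have hS' : ∀ l l' : List Ω, IB (⊤ : Subgroup G) l → IB (⊤ : Subgroup G) l' → l.length = l'.length := by
      intro l l' hl hl'
      apply hS l.length l'.length l.get l'.get
      · rwa [List.ofFn_get]
      · rwa [List.ofFn_get]
    exact reord_of_same_length ⊤ hS' _ _ (σ.ofFn_comp_perm f).symm hf
  · intro hR t t' f f' hf hf'
    have hR' : Reord (Ω := Ω) (⊤ : Subgroup G) := by
      intro l l' hp hl
      have hnd := (IB_nodup l ⊤ hl).2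
      have hnd' : l'.Nodup := hp.nodup_iff.mp hnd
      have hlen := hp.length_eq
      have hinj : Function.Injective l.get := List.nodup_iff_injective_get.mp hnd
      have hinj' : Function.Injective l'.get := List.nodup_iff_injective_get.mp hnd'
      -- the permutation
      have hex : ∀ i : Fin l.length, ∃ j : Fin l.length, l.get j = l'.get (Fin.cast hlen i) := by
        intro i
        have : l'.get (Fin.cast hlen i) ∈ l := hp.mem_iff.mpr (List.get_mem _ _)
        obtain ⟨j, hj⟩ := List.get_of_mem this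
        exact ⟨j, hj⟩
      choose s hs using hex
      have hsinj : Function.Injective s := by
        intro i j hij
        have h1 := hs i
        rw [hij, hs j] at h1
        exact Fin.cast_injective hlen (hinj' h1.symm)
      let σ : Equiv.Perm (Fin l.length) := Equiv.ofBijective s (Finite.injective_iff_bijective.mp hsinj)
      have h2 := hR l.length l.get σ (by rwa [List.ofFn_get])
      have h3 : List.ofFn (l.get ∘ σ) = l' := by
        apply List.ext_get
        · rw [List.length_ofFn, hlen]
        · intro n h₁ h₂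
          rw [List.get_ofFn]
          show l.get (s _) = _
          rw [hs]
          rfl
      rwa [h3] at h2
    have := same_length ⊤ hR' _ _ hf hf'
    simpa using this

end Cfsg.Agent.S5747
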