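import Cfsg.Statements.S5754

set_option autoImplicit false
open Cfsg

namespace Cfsg.Agent.S5754

variable {F V : Type*} [Field F] [AddCommGroup V] [Module F V]

theorem aux2 (Q : QuadraticForm F V) (d : V) (hd : Q d ≠ 0) :
    ((Q d)⁻¹ • (QuadraticMap.polarBilin Q).flip d) d = 2 := by
  simp only [LinearMap.smul_apply, LinearMap.flip_apply, QuadraticMap.polarBilin_apply_apply,
    QuadraticMap.polar_self, smul_eq_mul, nsmul_eq_mul]
  field_simp
  norm_num

/-- the reflection in a nonsingular vector `d`, as an isometry. -/
noncomputable def refl (Q : QuadraticForm F V) (d : V) (hd : Q d ≠ 0) : Q.IsometryEquiv Q :=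
  { Module.reflection (aux2 Q d hd) with
    map_app' := by
      intro y
      show Q (Module.reflection (aux2 Q d hd) y) = Q y
      rw [Module.reflection_apply]
      simp only [LinearMap.smul_apply, LinearMap.flip_apply, QuadraticMap.polarBilin_apply_apply,
        smul_eq_mul]
      set c := (Q d)⁻¹ * QuadraticMap.polar Q y d with hc
      have h1 : Q (y - c • d) = Q y + Q (-(c • d)) + QuadraticMap.polar Q y (-(c • d)) := by
        rw [sub_eq_add_neg, QuadraticMap.map_add Q]
      rw [h1, QuadraticMap.map_neg, QuadraticMap.map_smul, QuadraticMap.polar_neg_right,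
        QuadraticMap.polar_smul_right]
      simp only [smul_eq_mul]
      rw [hc]
      field_simp
      ring }

theorem refl_apply (Q : QuadraticForm F V) (d : V) (hd : Q d ≠ 0) (y : V) :
    refl Q d hd y = y - ((Q d)⁻¹ * QuadraticMap.polar Q y d) • d := by
  show Module.reflection (aux2 Q d hd) y = _
  rw [Module.reflection_apply]
  simp

theorem polar_eq (Q : QuadraticForm F V) (a b : V) :
    QuadraticMap.polar Q a b = Q a + Q b - Q (a - b) := by
  have h1 : Q (a - b) = Q a + Q (-b) + QuadraticMap.polar Q a (-b) := by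
    rw [sub_eq_add_neg, QuadraticMap.map_add Q]
  rw [h1, QuadraticMap.map_neg, QuadraticMap.polar_neg_right]
  ring

theorem key (Q : QuadraticForm F V) (hQ : Q.Anisotropic) {ι : Type*} (a a' : ι → V)
    (h1 : ∀ i, Q (a i) = Q (a' i)) (h2 : ∀ i j, QuadraticMap.polar Q (a i) (a j) = QuadraticMap.polar Q (a' i) (a' j))
    (s : Finset ι) : ∃ φ : Q.IsometryEquiv Q, ∀ i ∈ s, φ (a i) = a' i := by
  classical
  induction s using Finset.induction_on with
  | empty => exact ⟨QuadraticMap.IsometryEquiv.refl Q, by simp⟩
  | insert k s hk ih =>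
    obtain ⟨φ, hφ⟩ := ih
    by_cases hb : φ (a k) = a' k
    · refine ⟨φ, ?_⟩
      intro i hi
      rcases Finset.mem_insert.mp hi with rfl | hi
      · exact hb
      · exact hφ i hi
    · have hd : Q (φ (a k) - a' k) ≠ 0 := by
        intro h0
        exact hb (sub_eq_zero.mp (hQ _ h0))
      have hpol : ∀ x y, QuadraticMap.polar Q (φ x) (φ y) = QuadraticMap.polar Q x y := by
        intro x y
        simp only [QuadraticMap.polar, ← map_add, QuadraticMap.IsometryEquiv.map_app]
      refine ⟨φ.trans (refl Q _ hd), ?_⟩
      intro i hi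
      show refl Q _ hd (φ (a i)) = a' i
      rw [refl_apply]
      rcases Finset.mem_insert.mp hi with rfl | hi
      · have e1 : QuadraticMap.polar Q (φ (a i)) (φ (a i) - a' i) = Q (φ (a i) - a' i) := by
          rw [polar_eq Q (φ (a i)) (φ (a i) - a' i)]
          simp only [sub_sub_cancel, QuadraticMap.IsometryEquiv.map_app, h1 i]
          ring
        rw [e1, inv_mul_cancel₀ hd, one_smul]
        abel
      · have e1 : QuadraticMap.polar Q (φ (a i)) (φ (a k) - a' k) = 0 := by
          rw [QuadraticMap.polar_sub_right, hpol, hφ i hi, h2 i k, sub_self]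
        rw [e1, mul_zero, zero_smul, sub_zero, hφ i hi]

/-- Let V be a finite-dimensional vector space over a finite field F carrying an anisotropic quadratic form Q (Q(v) = 0 only for v = 0). Then the group of all maps v ↦ φ(v) + c, with φ an isometry of Q and c ∈ V, acts on V as a binary permutation group: given n ≥ 2 and two n-tuples u, u' of vectors such that every pair of corresponding entries of u is carried to that of u' by such a map, one such map carries u to u'. -/
theorem result {F V : Type*} [Field F] [Finite F] [AddCommGroup V] [Module F V] [Module.Finite F V]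
    (Q : QuadraticForm F V) (hQ : Q.Anisotropic) (n : ℕ) (hn : 2 ≤ n) (u u' : Fin n → V)
    (h2 : ∀ i j : Fin n, i ≠ j → ∃ (φ : Q.IsometryEquiv Q) (c : V), φ (u i) + c = u' i ∧ φ (u j) + c = u' j) :
    ∃ (φ : Q.IsometryEquiv Q) (c : V), ∀ i, φ (u i) + c = u' i := by
  have hd : ∀ i j : Fin n, Q (u i - u j) = Q (u' i - u' j) := by
    intro i j
    by_cases hij : i = j
    · subst hij; simp
    · obtain ⟨φ, c, e1, e2⟩ := h2 i j hij
      rw [← e1, ← e2, add_sub_add_right_eq_sub, ← map_sub, QuadraticMap.IsometryEquiv.map_app]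
  let z : Fin n := ⟨0, by omega⟩
  obtain ⟨φ, hφ⟩ := key Q hQ (fun i => u i - u z) (fun i => u' i - u' z) (fun i => hd i z)
    (by
      intro i j
      rw [polar_eq, polar_eq]
      simp only [sub_sub_sub_cancel_right, hd]) Finset.univ
  refine ⟨φ, u' z - φ (u z), ?_⟩
  intro i
  have := hφ i (Finset.mem_univ i)
  simp only [map_sub] at this
  rw [← sub_eq_zero] at this ⊢
  rw [← this]
  abel

end Cfsg.Agent.S5754
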