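import Cfsg.Statements.S5763
-- import your own Cfsg.Agent.* helpers here

set_option autoImplicit false
open Cfsg

namespace Cfsg.Agent.S5763

/-- The 2-subgroup `2^4 : 2^2` of `S_8`: permutations acting on the four pairs `{2k, 2k+1}` by
a translation `k ↦ k xor c`. -/
def Q : Subgroup (Equiv.Perm (Fin 8)) where
  carrier := {ρ | ∃ c : ℕ, ∀ i : Fin 8, (ρ i).val / 2 = (i.val / 2) ^^^ c}
  mul_mem' := by
    rintro a b ⟨c, hc⟩ ⟨d, hd⟩
    refine ⟨d ^^^ c, fun i => ?_⟩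
    rw [Equiv.Perm.mul_apply, hc, hd, Nat.xor_assoc]
  one_mem' := ⟨0, fun i => by simp⟩
  inv_mem' := by
    rintro a ⟨c, hc⟩
    refine ⟨c, fun i => ?_⟩
    have := hc (a⁻¹ i)
    rw [show a (a⁻¹ i) = i from a.apply_symm_apply i] at this
    rw [this, Nat.xor_assoc, Nat.xor_self, Nat.xor_zero]

theorem Q_pgroup : IsPGroup 2 Q := by
  rintro ⟨ρ, c, hc⟩
  refine ⟨2, ?_⟩
  apply Subtype.ext
  apply Equiv.ext
  intro i
  have hτ : ∀ i : Fin 8, ((ρ * ρ) i).val / 2 = i.val / 2 := by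
    intro i
    rw [Equiv.Perm.mul_apply, hc, hc, Nat.xor_assoc, Nat.xor_self, Nat.xor_zero]
  have h4 : ρ ^ (2 ^ 2) = (ρ * ρ) * (ρ * ρ) := by
    norm_num [pow_succ, mul_assoc]
  show (ρ ^ (2 ^ 2)) i = i
  rw [h4, Equiv.Perm.mul_apply]
  have h1 := hτ i
  have h2 := hτ ((ρ * ρ) i)
  have h3 : (ρ * ρ) ((ρ * ρ) i) = (ρ * ρ) i → (ρ * ρ) i = i := fun h => (ρ * ρ).injective h
  have h5 : (ρ * ρ) i = i → (ρ * ρ) ((ρ * ρ) i) = (ρ * ρ) i := fun h => congrArg _ h
  generalize (ρ * ρ) ((ρ * ρ) i) = k at *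
  generalize (ρ * ρ) i = j at *
  simp only [Fin.ext_iff] at *
  omega

def cands : List (Fin 8 → Fin 8) :=
  [![1, 0, 2, 3, 4, 5, 6, 7],
   ![0, 1, 3, 2, 4, 5, 6, 7],
   ![0, 1, 2, 3, 5, 4, 6, 7],
   ![0, 1, 2, 3, 4, 5, 7, 6],
   ![2, 3, 0, 1, 6, 7, 4, 5],
   ![2, 3, 0, 1, 7, 6, 5, 4],
   ![3, 2, 1, 0, 6, 7, 4, 5],
   ![3, 2, 1, 0, 7, 6, 5, 4],
   ![4, 5, 6, 7, 0, 1, 2, 3],
   ![4, 5, 7, 6, 0, 1, 3, 2],
   ![5, 4, 6, 7, 1, 0, 2, 3],
   ![5, 4, 7, 6, 1, 0, 3, 2],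
   ![6, 7, 4, 5, 2, 3, 0, 1],
   ![6, 7, 5, 4, 3, 2, 0, 1],
   ![7, 6, 4, 5, 2, 3, 1, 0],
   ![7, 6, 5, 4, 3, 2, 1, 0]]

def R : List ℕ := [0, 1, 2, 3]

def t (x y w : ℕ) : Bool := Nat.beq x y && Nat.beq y w

def good (L : Fin 8 → ℕ) : Bool :=
  cands.any fun f => (List.finRange 8).all fun a => Nat.beq (L a ^^^ L (f a)) (L 0 ^^^ L (f 0))

def big : Bool :=
    R.all fun l0 =>
    R.all fun l1 =>
    R.all fun l2 => (t l0 l1 l2) ||
    R.all fun l3 => (t l0 l1 l3 || t l0 l2 l3 || t l1 l2 l3) ||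
    R.all fun l4 => (t l0 l1 l4 || t l0 l2 l4 || t l0 l3 l4 || t l1 l2 l4 || t l1 l3 l4 || t l2 l3 l4) ||
    R.all fun l5 => (t l0 l1 l5 || t l0 l2 l5 || t l0 l3 l5 || t l0 l4 l5 || t l1 l2 l5 || t l1 l3 l5 || t l1 l4 l5 || t l2 l3 l5 || t l2 l4 l5 || t l3 l4 l5) ||
    R.all fun l6 => (t l0 l1 l6 || t l0 l2 l6 || t l0 l3 l6 || t l0 l4 l6 || t l0 l5 l6 || t l1 l2 l6 || t l1 l3 l6 || t l1 l4 l6 || t l1 l5 l6 || t l2 l3 l6 || t l2 l4 l6 || t l2 l5 l6 || t l3 l4 l6 || t l3 l5 l6 || t l4 l5 l6) ||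
    R.all fun l7 => (t l0 l1 l7 || t l0 l2 l7 || t l0 l3 l7 || t l0 l4 l7 || t l0 l5 l7 || t l0 l6 l7 || t l1 l2 l7 || t l1 l3 l7 || t l1 l4 l7 || t l1 l5 l7 || t l1 l6 l7 || t l2 l3 l7 || t l2 l4 l7 || t l2 l5 l7 || t l2 l6 l7 || t l3 l4 l7 || t l3 l5 l7 || t l3 l6 l7 || t l4 l5 l7 || t l4 l6 l7 || t l5 l6 l7) ||
    good ![l0, l1, l2, l3, l4, l5, l6, l7]

set_option maxRecDepth 100000 in
theorem big_true : big = true := by
  decide +kernel

theorem peel {p : ℕ → Bool} (h : R.all p = true) {x : ℕ} (hx : x < 4) : p x = true := by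
  rw [List.all_eq_true] at h
  apply h
  simp only [R, List.mem_cons, List.not_mem_nil, or_false]
  omega

theorem peel_or {a b : Bool} (h : (a || b) = true) (ha : a = false) : b = true := by
  rw [ha] at h
  simpa using h

theorem key (l : Fin 8 → ℕ) (hl : ∀ a, l a < 4)
    (hv : ∀ a b c : Fin 8, a < b → b < c → ¬ (l a = l b ∧ l b = l c)) :
    ∃ f ∈ cands, ∀ a : Fin 8, l a ^^^ l (f a) = l 0 ^^^ l (f 0) := by
  have tri : ∀ a b c : Fin 8, a < b → b < c → t (l a) (l b) (l c) = false := by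
    intro a b c hab hbc
    have := hv a b c hab hbc
    rw [← Bool.not_eq_true, t, Bool.and_eq_true, Nat.beq_eq, Nat.beq_eq]
    exact this
  have a0 := peel big_true (hl 0)
  have a1 := peel a0 (hl 1)
  have a2 := peel a1 (hl 2)
  have b2 := peel_or a2 (by rw [tri 0 1 2 (by decide) (by decide)])
  have a3 := peel b2 (hl 3)
  have b3 := peel_or a3 (by rw [tri 0 1 3 (by decide) (by decide), tri 0 2 3 (by decide) (by decide), tri 1 2 3 (by decide) (by decide)]; rfl)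
  have a4 := peel b3 (hl 4)
  have b4 := peel_or a4 (by rw [tri 0 1 4 (by decide) (by decide), tri 0 2 4 (by decide) (by decide), tri 0 3 4 (by decide) (by decide), tri 1 2 4 (by decide) (by decide), tri 1 3 4 (by decide) (by decide), tri 2 3 4 (by decide) (by decide)]; rfl)
  have a5 := peel b4 (hl 5)
  have b5 := peel_or a5 (by rw [tri 0 1 5 (by decide) (by decide), tri 0 2 5 (by decide) (by decide), tri 0 3 5 (by decide) (by decide), tri 0 4 5 (by decide) (by decide), tri 1 2 5 (by decide) (by decide), tri 1 3 5 (by decide) (by decide), tri 1 4 5 (by decide) (by decide), tri 2 3 5 (by decide) (by decide), tri 2 4 5 (by decide) (by decide), tri 3 4 5 (by decide) (by decide)]; rfl)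
  have a6 := peel b5 (hl 6)
  have b6 := peel_or a6 (by rw [tri 0 1 6 (by decide) (by decide), tri 0 2 6 (by decide) (by decide), tri 0 3 6 (by decide) (by decide), tri 0 4 6 (by decide) (by decide), tri 0 5 6 (by decide) (by decide), tri 1 2 6 (by decide) (by decide), tri 1 3 6 (by decide) (by decide), tri 1 4 6 (by decide) (by decide), tri 1 5 6 (by decide) (by decide), tri 2 3 6 (by decide) (by decide), tri 2 4 6 (by decide) (by decide), tri 2 5 6 (by decide) (by decide), tri 3 4 6 (by decide) (by decide), tri 3 5 6 (by decide) (by decide), tri 4 5 6 (by decide) (by decide)]; rfl)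
  have a7 := peel b6 (hl 7)
  have b7 := peel_or a7 (by rw [tri 0 1 7 (by decide) (by decide), tri 0 2 7 (by decide) (by decide), tri 0 3 7 (by decide) (by decide), tri 0 4 7 (by decide) (by decide), tri 0 5 7 (by decide) (by decide), tri 0 6 7 (by decide) (by decide), tri 1 2 7 (by decide) (by decide), tri 1 3 7 (by decide) (by decide), tri 1 4 7 (by decide) (by decide), tri 1 5 7 (by decide) (by decide), tri 1 6 7 (by decide) (by decide), tri 2 3 7 (by decide) (by decide), tri 2 4 7 (by decide) (by decide), tri 2 5 7 (by decide) (by decide), tri 2 6 7 (by decide) (by decide), tri 3 4 7 (by decide) (by decide), tri 3 5 7 (by decide) (by decide), tri 3 6 7 (by decide) (by decide), tri 4 5 7 (by decide) (by decide), tri 4 6 7 (by decide) (by decide), tri 5 6 7 (by decide) (by decide)]; rfl)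
  have hvec : (![l 0, l 1, l 2, l 3, l 4, l 5, l 6, l 7] : Fin 8 → ℕ) = l := by
    funext a
    fin_cases a <;> rfl
  rw [hvec, good, List.any_eq_true] at b7
  obtain ⟨f, hf, hfa⟩ := b7
  refine ⟨f, hf, fun a => ?_⟩
  rw [List.all_eq_true] at hfa
  exact Nat.eq_of_beq_eq_true (hfa a (List.mem_finRange a))

def spec (f : Fin 8 → Fin 8) : Bool :=
  ((List.finRange 8).all fun a => Nat.beq (f (f a)).val a.val &&
    Nat.beq ((f a).val / 2) ((a.val / 2) ^^^ ((f 0).val / 2))) &&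
  ((List.finRange 8).any fun a => !(Nat.beq (f a).val a.val))

theorem spec_true : cands.all spec = true := by
  decide +kernel

theorem cands_spec : ∀ f ∈ cands, (∀ a, f (f a) = a) ∧
    (∀ i : Fin 8, (f i).val / 2 = (i.val / 2) ^^^ ((f 0).val / 2)) ∧ ∃ a, f a ≠ a := by
  intro f hf
  have h := List.all_eq_true.mp spec_true f hf
  rw [spec, Bool.and_eq_true, List.all_eq_true, List.any_eq_true] at h
  obtain ⟨h1, a, -, h2⟩ := h
  refine ⟨fun a => ?_, fun a => ?_, a, fun h => ?_⟩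
  · have := h1 a (List.mem_finRange a)
    rw [Bool.and_eq_true, Nat.beq_eq, Nat.beq_eq] at this
    exact Fin.ext this.1
  · have := h1 a (List.mem_finRange a)
    rw [Bool.and_eq_true, Nat.beq_eq, Nat.beq_eq] at this
    exact this.2
  · rw [h] at h2
    simp at h2

theorem claim (z : Equiv.Perm (Fin 8)) : ∃ σ ∈ Q, σ ≠ 1 ∧ z * σ * z⁻¹ ∈ Q := by
  have hl : ∀ a : Fin 8, (z a).val / 2 < 4 := fun a => by have := (z a).isLt; omega
  have hv : ∀ a b c : Fin 8, a < b → b < c →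
      ¬ ((z a).val / 2 = (z b).val / 2 ∧ (z b).val / 2 = (z c).val / 2) := by
    intro a b c hab hbc ⟨h1, h2⟩
    have e1 : (z a).val ≠ (z b).val := fun h => (ne_of_lt hab) (z.injective (Fin.ext h))
    have e2 : (z b).val ≠ (z c).val := fun h => (ne_of_lt hbc) (z.injective (Fin.ext h))
    have e3 : (z a).val ≠ (z c).val := fun h => (ne_of_lt (hab.trans hbc)) (z.injective (Fin.ext h))
    omega
  obtain ⟨f, hf, hfa⟩ := key (fun a => (z a).val / 2) hl hv
  obtain ⟨hinv, hc, a₀, ha₀⟩ := cands_spec f hf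
  refine ⟨⟨f, f, hinv, hinv⟩, ⟨_, hc⟩, ?_, ⟨(z 0).val / 2 ^^^ (z (f 0)).val / 2, fun i => ?_⟩⟩
  · intro h
    exact ha₀ (by simpa using congrArg (fun e : Equiv.Perm (Fin 8) => e a₀) h)
  · have := hfa (z⁻¹ i)
    rw [show z (z⁻¹ i) = i from z.apply_symm_apply i] at this
    rw [← this, ← Nat.xor_assoc, Nat.xor_self, Nat.zero_xor]
    rfl


/-- In the symmetric group on 8 letters any two Sylow 2-subgroups have non-trivial intersection: for a Sylow 2-subgroup H and every element x, H ∩ xHx⁻¹ ≠ 1. -/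
theorem result (H : Sylow 2 (Equiv.Perm (Fin 8))) (x : Equiv.Perm (Fin 8)) :
    (H : Subgroup (Equiv.Perm (Fin 8))) ⊓ (H : Subgroup (Equiv.Perm (Fin 8))).map (MulAut.conj x).toMonoidHom ≠ ⊥ := by
  obtain ⟨P, hP⟩ := Q_pgroup.exists_le_sylow
  obtain ⟨g, rfl⟩ := MulAction.exists_smul_eq (Equiv.Perm (Fin 8)) P H
  obtain ⟨σ, hσQ, hσ1, hσz⟩ := claim (g⁻¹ * x⁻¹ * g)
  intro hbot
  have hmem : ∀ τ ∈ Q, g * τ * g⁻¹ ∈ ((g • P : Sylow 2 (Equiv.Perm (Fin 8))) : Subgroup (Equiv.Perm (Fin 8))) := by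
    intro τ hτ
    rw [Sylow.coe_subgroup_smul]
    exact Subgroup.smul_mem_pointwise_smul τ (MulAut.conj g) P (hP hτ)
  have h1 : g * σ * g⁻¹ ∈ ((g • P : Sylow 2 (Equiv.Perm (Fin 8))) : Subgroup (Equiv.Perm (Fin 8))) ⊓
      ((g • P : Sylow 2 (Equiv.Perm (Fin 8))) : Subgroup (Equiv.Perm (Fin 8))).map (MulAut.conj x).toMonoidHom := by
    refine ⟨hmem σ hσQ, ?_⟩
    refine ⟨_, hmem _ hσz, ?_⟩
    simp only [MulEquiv.coe_toMonoidHom, MulAut.conj_apply]
    group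
  rw [hbot, Subgroup.mem_bot] at h1
  apply hσ1
  have : σ = g⁻¹ * (g * σ * g⁻¹) * g := by group
  rw [this, h1]
  group

end Cfsg.Agent.S5763
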