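import Cfsg.Statements.S5885
import Cfsg.Agent.Lib.Helper98.Basic

set_option autoImplicit false
open Cfsg

namespace Cfsg.Agent.S5885

open MulAction
open scoped Pointwise

theorem exists_three_cycle {G : Type*} [Group G] [Finite G] (n : ℕ)
    (hA : ∀ P : Subgroup (Equiv.Perm (Fin n)), MulAction.IsPreprimitive P (Fin n) →
      alternatingGroup (Fin n) ≤ P)
    (M : Subgroup G) (hM : IsCoatom M) (hn : M.index = n) (x y z : G ⧸ M)
    (hxy : x ≠ y) (hxz : x ≠ z) (hyz : y ≠ z) :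
    ∃ g : G, g • x = y ∧ g • y = z ∧ g • z = x ∧
      ∀ w, w ≠ x → w ≠ y → w ≠ z → g • w = w := by
  classical
  have hcard : Nat.card (G ⧸ M) = n := by rw [← Subgroup.index_eq_card]; exact hn
  have : Nontrivial (G ⧸ M) := ⟨⟨x, y, hxy⟩⟩
  have hprim : IsPreprimitive G (G ⧸ M) := by
    rw [← isCoatom_stabilizer_iff_preprimitive G ((1 : G) : G ⧸ M), stabilizer_quotient]
    exact hM
  let e : (G ⧸ M) ≃ Fin n := Finite.equivFinOfCardEq hcard
  let φ : G →* Equiv.Perm (Fin n) :=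
    (e.permCongrHom).toMonoidHom.comp (MulAction.toPermHom G (G ⧸ M))
  have hφ : ∀ (g : G) (w : G ⧸ M), φ g (e w) = e (g • w) := by
    intro g w
    simp [φ, Equiv.permCongrHom]
  let f : (G ⧸ M) →ₑ[φ.rangeRestrict] Fin n :=
    { toFun := e
      map_smul' := by
        intro g w
        change e (g • w) = φ g (e w)
        rw [hφ] }
  have hP : IsPreprimitive φ.range (Fin n) :=
    IsPreprimitive.of_surjective (f := f) e.surjective
  have hle := hA φ.range hP
  have h3 : (Equiv.swap (e x) (e z) * Equiv.swap (e x) (e y)) ∈ alternatingGroup (Fin n) :=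
    (Equiv.Perm.isThreeCycle_swap_mul_swap_same (e.injective.ne hxz) (e.injective.ne hxy)
      (e.injective.ne hyz.symm)).mem_alternatingGroup
  obtain ⟨g, hg⟩ := hle h3
  refine ⟨g, ?_, ?_, ?_, ?_⟩
  · apply e.injective
    rw [← hφ, hg]
    simp [Equiv.swap_apply_of_ne_of_ne (e.injective.ne hxy.symm) (e.injective.ne hyz)]
  · apply e.injective
    rw [← hφ, hg]
    simp
  · apply e.injective
    rw [← hφ, hg]
    simp [Equiv.swap_apply_of_ne_of_ne (e.injective.ne hxz.symm) (e.injective.ne hyz.symm)]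
  · intro w h1 h2 h3
    apply e.injective
    rw [← hφ, hg]
    simp [Equiv.swap_apply_of_ne_of_ne (e.injective.ne h1) (e.injective.ne h2),
      Equiv.swap_apply_of_ne_of_ne (e.injective.ne h1) (e.injective.ne h3)]

open Cfsg.Agent.Lib.Helper98 in
/-- Let n be an odd positive integer such that every primitive permutation group of degree n contains the alternating group (so the symmetric and alternating groups are the only primitive groups of degree n). Let G be a finite group, M a maximal subgroup of G of index n, and H a maximal subgroup of M. Then H is a second maximal subgroup of G: H is maximal in every maximal subgroup K of G containing H. -/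
theorem result {G : Type*} [Group G]
    [Finite G] (n : ℕ) (hodd : Odd n)
    (hA : ∀ P : Subgroup (Equiv.Perm (Fin n)), MulAction.IsPreprimitive P (Fin n) → alternatingGroup (Fin n) ≤ P)
    (M : Subgroup G) (hM : IsCoatom M) (hn : M.index = n) (H : Subgroup G) (hHM : H ≤ M)
    (hmax : IsCoatom (H.subgroupOf M)) (K : Subgroup G) (hK : IsCoatom K) (hHK : H ≤ K) :
    IsCoatom (H.subgroupOf K) := by
  classical
  by_cases hKM : K = M
  · subst hKM; exact hmax
  obtain ⟨hHneM, hmax'⟩ := (isCoatom_subgroupOf_iff hHM).mp hmax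
  have hMK : ¬ M ≤ K := fun h => hKM ((hM.le_iff.mp h).resolve_left hK.1)
  have hKM' : ¬ K ≤ M := fun h => hKM ((hK.le_iff.mp h).resolve_left hM.1).symm
  -- `K ⊓ M = H`
  have hinf : ∀ g, g ∈ K → g ∈ M → g ∈ H := by
    have h1 : K ⊓ M = H := by
      rcases hmax' (K ⊓ M) (le_inf hHK hHM) inf_le_right with h | h
      · exact h
      · exact absurd (inf_eq_right.mp h) hMK
    intro g hgK hgM
    rw [← h1]; exact ⟨hgK, hgM⟩
  set α : G ⧸ M := ((1 : G) : G ⧸ M) with hαdef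
  have hα : ∀ g : G, g • α = α ↔ g ∈ M := by
    intro g
    rw [← mem_stabilizer_iff, stabilizer_quotient]
  rw [isCoatom_subgroupOf_iff hHK]
  refine ⟨fun h => hKM' (h ▸ hHM), ?_⟩
  intro L hHL hLK
  by_contra hcon
  push Not at hcon
  obtain ⟨hLH, hLK'⟩ := hcon
  obtain ⟨l, hlL, hlH⟩ := SetLike.exists_of_lt (lt_of_le_of_ne hHL (Ne.symm hLH))
  obtain ⟨k, hkK, hkL⟩ := SetLike.exists_of_lt (lt_of_le_of_ne hLK hLK')
  -- the block `B = L α`
  let B : Set (G ⧸ M) := {w | ∃ l' ∈ L, l' • α = w}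
  have hαB : α ∈ B := ⟨1, L.one_mem, one_smul _ _⟩
  -- translates of `B` by `k` avoid `B`
  have hdisj : ∀ l₁ ∈ L, ∀ l₂ ∈ L, (k * l₁) • α ≠ l₂ • α := by
    intro l₁ h1 l₂ h2 h
    have h3 : (l₂⁻¹ * (k * l₁)) • α = α := by
      rw [mul_smul, h, inv_smul_smul]
    have h4 : l₂⁻¹ * (k * l₁) ∈ H :=
      hinf _ (K.mul_mem (K.inv_mem (hLK h2)) (K.mul_mem hkK (hLK h1))) ((hα _).mp h3)
    have h5 : l₂ * (l₂⁻¹ * (k * l₁)) * l₁⁻¹ ∈ L :=
      L.mul_mem (L.mul_mem h2 (hHL h4)) (L.inv_mem h1)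
    apply hkL
    simpa [mul_assoc] using h5
  have hnotB : ∀ l₁ ∈ L, (k * l₁) • α ∉ B := by
    rintro l₁ h1 ⟨l₂, h2, h⟩
    exact hdisj l₁ h1 l₂ h2 h.symm
  set β : G ⧸ M := l • α with hβ
  set δ : G ⧸ M := k • α with hδ
  set δ' : G ⧸ M := (k * l) • α with hδ'
  have hβB : β ∈ B := ⟨l, hlL, rfl⟩
  have hδB : δ ∉ B := by
    have := hnotB 1 L.one_mem
    rwa [mul_one] at this
  have hδ'B : δ' ∉ B := hnotB l hlL
  have hαβ : β ≠ α := fun h => hlH (hinf l (hLK hlL) ((hα l).mp h))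
  have hδδ' : δ ≠ δ' := by
    intro h
    apply hαβ
    rw [hδ, hδ', mul_smul] at h
    exact (smul_left_cancel k h).symm
  have hβδ : β ≠ δ := fun h => hδB (h ▸ hβB)
  have hβδ' : β ≠ δ' := fun h => hδ'B (h ▸ hβB)
  have hαδ : α ≠ δ := fun h => hδB (h ▸ hαB)
  have hαδ' : α ≠ δ' := fun h => hδ'B (h ▸ hαB)
  -- the stabiliser of `B` in `M` is `H`
  obtain ⟨t₁, ht1, -, -, ht1'⟩ := exists_three_cycle n hA M hM hn β δ δ' hβδ hβδ' hδδ'
  have ht1M : t₁ ∈ M := (hα t₁).mp (ht1' α hαβ.symm hαδ hαδ')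
  have hle : H ≤ M ⊓ stabilizer G B := by
    refine le_inf hHM ?_
    intro h hh
    rw [mem_stabilizer_set]
    intro a
    constructor
    · rintro ⟨l', hl', h1⟩
      refine ⟨h⁻¹ * l', L.mul_mem (L.inv_mem (hHL hh)) hl', ?_⟩
      rw [mul_smul, h1, inv_smul_smul]
    · rintro ⟨l', hl', rfl⟩
      exact ⟨h * l', L.mul_mem (hHL hh) hl', mul_smul _ _ _⟩
  have hMB : M ⊓ stabilizer G B = H := by
    rcases hmax' (M ⊓ stabilizer G B) hle inf_le_left with h | h
    · exact h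
    · exfalso
      have h1 : t₁ ∈ stabilizer G B := (inf_eq_left.mp h) ht1M
      rw [mem_stabilizer_set] at h1
      exact hδB (ht1 ▸ (h1 β).mpr hβB)
  -- every point is in `B` or in `k B`
  have hcover : ∀ ε : G ⧸ M, ε ∈ B ∨ ε ∈ k • B := by
    intro ε
    by_contra hε
    push Not at hε
    obtain ⟨hεB, hεB'⟩ := hε
    have hδkB : δ ∈ k • B := Set.smul_mem_smul_set hαB
    have hδ'kB : δ' ∈ k • B := by
      rw [hδ', mul_smul]
      exact Set.smul_mem_smul_set hβB
    have hδε : δ ≠ ε := fun h => hεB' (h ▸ hδkB)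
    have hδ'ε : δ' ≠ ε := fun h => hεB' (h ▸ hδ'kB)
    obtain ⟨t₂, ht2, ht2', -, ht2fix⟩ := exists_three_cycle n hA M hM hn δ δ' ε hδδ' hδε hδ'ε
    have hfix : ∀ w ∈ B, t₂ • w = w := by
      intro w hw
      exact ht2fix w (fun h => hδB (h ▸ hw)) (fun h => hδ'B (h ▸ hw)) (fun h => hεB (h ▸ hw))
    have ht2H : t₂ ∈ H := by
      rw [← hMB]
      refine ⟨(hα t₂).mp (hfix α hαB), ?_⟩
      apply fixingSubgroup_le_stabilizer
      rw [mem_fixingSubgroup_iff]
      exact hfix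
    have hcK : k⁻¹ * t₂ * k ∈ K := K.mul_mem (K.mul_mem (K.inv_mem hkK) (hHK ht2H)) hkK
    have hcα : (k⁻¹ * t₂ * k) • α = l • α := by
      rw [mul_smul, mul_smul, ← hδ, ht2, hδ', mul_smul, inv_smul_smul]
    have hcL : k⁻¹ * t₂ * k ∈ L := by
      have h1 : (l⁻¹ * (k⁻¹ * t₂ * k)) • α = α := by
        rw [mul_smul, hcα, inv_smul_smul]
      have h2 : l⁻¹ * (k⁻¹ * t₂ * k) ∈ H :=
        hinf _ (K.mul_mem (K.inv_mem (hLK hlL)) hcK) ((hα _).mp h1)
      have h3 := L.mul_mem hlL (hHL h2)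
      simpa [mul_assoc] using h3
    apply hεB'
    refine ⟨(k⁻¹ * t₂ * k * l) • α, ⟨_, L.mul_mem hcL hlL, rfl⟩, ?_⟩
    change k • ((k⁻¹ * t₂ * k * l) • α) = ε
    rw [← mul_smul]
    have : k * (k⁻¹ * t₂ * k * l) = t₂ * (k * l) := by group
    rw [this, mul_smul, ← hδ', ht2']
  -- counting
  have hdisjoint : Disjoint B (k • B) := by
    rw [Set.disjoint_left]
    rintro w hw ⟨_, ⟨l₁, hl₁, rfl⟩, h⟩
    apply hnotB l₁ hl₁
    rw [mul_smul]
    change k • l₁ • α = w at h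
    rw [h]; exact hw
  have hunion : B ∪ k • B = Set.univ := by
    ext w; simpa using hcover w
  have hcard : (B ∪ k • B).ncard = B.ncard + (k • B).ncard :=
    Set.ncard_union_eq hdisjoint (Set.toFinite _) (Set.toFinite _)
  rw [hunion, Set.ncard_univ, ← Subgroup.index_eq_card, hn, Set.ncard_smul_set] at hcard
  rw [hcard] at hodd
  exact (Nat.not_even_iff_odd.mpr hodd) ⟨_, rfl⟩

end Cfsg.Agent.S5885
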