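import Cfsg.Statements.S5890
import Cfsg.Agent.Lib.Helper98.PGLmC
import Cfsg.Agent.Lib.Helper98.PGLmD

set_option autoImplicit false
open Cfsg

namespace Cfsg.Agent.S5890

/-- Let F be a finite field with q ≥ 4 elements, let L ≤ PGL₂(F) be the image of SL₂(F) (a copy of PSL₂(F), of index gcd(2, q − 1)), and let M be a maximal subgroup of PGL₂(F) that does not contain L. Suppose q ∉ {7, 9, 11} and that q is not a prime congruent to ±11 or ±19 modulo 40. Then M ∩ L is a maximal subgroup of L. (For the excluded q there are maximal subgroups of PGL₂(q) — dihedral groups of order 12 and 16 at q = 7, of order 20 and 16 at q = 9, of order 20 at q = 11, and S₄ at the excluded primes — whose intersection with L is not maximal in L.) -/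
theorem result {F : Type*} [Field F]
    [Fintype F] (h4 : 4 ≤ Fintype.card F) (h7 : Fintype.card F ≠ 7) (h9 : Fintype.card F ≠ 9) (h11 : Fintype.card F ≠ 11)
    (h40 : (Fintype.card F).Prime → Fintype.card F % 40 ∉ ({11, 19, 21, 29} : Finset ℕ))
    (M : Subgroup (Matrix.ProjGenLinGroup (Fin 2) F)) (hM : IsCoatom M)
    (hML : ¬ (Matrix.ProjGenLinGroup.mk.comp Matrix.SpecialLinearGroup.toGL).range ≤ M) :
    IsCoatom ((M ⊓ (Matrix.ProjGenLinGroup.mk.comp Matrix.SpecialLinearGroup.toGL).range).subgroupOf
      (Matrix.ProjGenLinGroup.mk.comp Matrix.SpecialLinearGroup.toGL).range) := by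
  classical
  have hinj := Matrix.ProjectiveSpecialLinearGroup.toPGL_injective (n := Fin 2) (R := F)
  have hR : (Matrix.ProjGenLinGroup.mk.comp Matrix.SpecialLinearGroup.toGL).range =
      (Matrix.ProjectiveSpecialLinearGroup.toPGL (n := Fin 2) (R := F)).range := by
    ext x
    constructor
    · rintro ⟨X, rfl⟩
      exact ⟨QuotientGroup.mk X, rfl⟩
    · rintro ⟨X, rfl⟩
      induction X using QuotientGroup.induction_on with
      | H X => exact ⟨X, rfl⟩
  rw [hR] at hML ⊢
  have hne : M ⊓ (Matrix.ProjectiveSpecialLinearGroup.toPGL (n := Fin 2) (R := F)).range ≠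
      (Matrix.ProjectiveSpecialLinearGroup.toPGL (n := Fin 2) (R := F)).range := by
    intro h
    exact hML (inf_eq_right.1 h)
  apply Cfsg.Agent.Lib.Helper98.PGLm.coatom_subgroupOf _ _ inf_le_right hne
  intro X hKX hXR
  rcases Nat.even_or_odd (Fintype.card F) with heven | hodd
  · -- the range is everything
    have hsurj : Function.Surjective
        (Matrix.ProjectiveSpecialLinearGroup.toPGL (n := Fin 2) (R := F)) := by
      apply Matrix.ProjectiveSpecialLinearGroup.toPGL_surj_of_roots
      intro r
      obtain ⟨a, ha⟩ := heven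
      refine ⟨r ^ a, Units.ext ?_⟩
      rw [Fintype.card_fin, ← pow_mul, Units.val_pow_eq_pow_val]
      have : a * 2 = Fintype.card F := by omega
      rw [this, FiniteField.pow_card]
    have htop := MonoidHom.range_eq_top.2 hsurj
    rw [htop] at hKX ⊢
    rw [inf_top_eq] at hKX ⊢
    rcases hM.le_iff.1 hKX with h | h
    · exact Or.inr h
    · exact Or.inl h
  · have h5 : 5 ≤ Fintype.card F := by
      obtain ⟨a, ha⟩ := hodd
      omega
    obtain ⟨p, hp, hchar⟩ := Cfsg.Agent.Lib.Helper41.Dickson.exists_char_prime F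
    haveI : Fact p.Prime := ⟨hp⟩
    haveI := hchar
    obtain ⟨n, -, hqp⟩ := FiniteField.card F p
    have hK := Cfsg.Agent.Lib.Helper98.PGLm.profileM hodd (by omega) M hM hML
    -- the intersection is a coatom of `PSL₂`
    have hco : IsCoatom (M.comap (Matrix.ProjectiveSpecialLinearGroup.toPGL (n := Fin 2) (R := F))) := by
      apply Cfsg.Agent.Lib.Helper41.Dickson.isCoatom_of_card
      · intro h
        apply hML
        rintro _ ⟨x, rfl⟩
        have : x ∈ M.comap (Matrix.ProjectiveSpecialLinearGroup.toPGL (n := Fin 2) (R := F)) := by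
          rw [h]; trivial
        exact this
      · intro Y hY hYtop
        obtain ⟨Z, hZ, hYZ⟩ := (eq_top_or_exists_le_coatom Y).resolve_left hYtop
        have h1 := Cfsg.Agent.Lib.Helper98.PGLm.compare _ Z (hY.trans hYZ) (Fintype.card F) p n hp
          hqp hodd h5 h7 h9 h11 h40 hK (Cfsg.Agent.Lib.Helper98.PGLm.profileX p hodd h5 Z hZ)
        exact (Nat.card_le_card_of_injective _ (Subgroup.inclusion_injective hYZ)).trans h1
    have hle : M.comap (Matrix.ProjectiveSpecialLinearGroup.toPGL (n := Fin 2) (R := F)) ≤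
        X.comap (Matrix.ProjectiveSpecialLinearGroup.toPGL (n := Fin 2) (R := F)) := by
      intro x hx
      exact hKX ⟨hx, ⟨x, rfl⟩⟩
    rcases hco.le_iff.1 hle with h | h
    · right
      apply le_antisymm hXR
      rintro _ ⟨x, rfl⟩
      have : x ∈ X.comap (Matrix.ProjectiveSpecialLinearGroup.toPGL (n := Fin 2) (R := F)) := by
        rw [h]; trivial
      exact this
    · left
      apply le_antisymm _ hKX
      intro y hy
      obtain ⟨x, rfl⟩ := hXR hy
      have : x ∈ X.comap (Matrix.ProjectiveSpecialLinearGroup.toPGL (n := Fin 2) (R := F)) := hy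
      rw [h] at this
      exact ⟨this, ⟨x, rfl⟩⟩

end Cfsg.Agent.S5890
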