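import Cfsg.Statements.S5891
import Cfsg.Agent.Lib.Helper41.Dickson.PGLMaxCases3

set_option autoImplicit false
set_option linter.style.haveILetI false
open Cfsg

namespace Cfsg.Agent.S5891

open Cfsg.Agent.Lib.Helper41 Cfsg.Agent.Lib.Helper41.Dickson

/-- Let F be a finite field of odd order q > 3 and characteristic p, and let M be a maximal subgroup of PGL₂(F) not containing the image L of SL₂(F) (a copy of PSL₂(F) of index 2). Then one of the following holds: |M| = q(q − 1) (M is the stabiliser of a point of the projective line); q ≠ 5 and M is dihedral of order 2(q − 1); M is dihedral of order 2(q + 1); q = p ≡ ±3 (mod 8) and M ≅ S₄; or q = q₀^r for an odd prime r and M ≅ PGL₂(F₀) with |F₀| = q₀. -/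
theorem result {F : Type*} [Field F] [Fintype F]
    (hodd : Odd (Fintype.card F)) (h3 : 3 < Fintype.card F) (M : Subgroup (Matrix.ProjGenLinGroup (Fin 2) F)) (hM : IsCoatom M)
    (hML : ¬ (Matrix.ProjGenLinGroup.mk.comp Matrix.SpecialLinearGroup.toGL).range ≤ M) :
    Nat.card M = Fintype.card F * (Fintype.card F - 1) ∨
    (Fintype.card F ≠ 5 ∧ Nonempty (M ≃* DihedralGroup (Fintype.card F - 1))) ∨
    Nonempty (M ≃* DihedralGroup (Fintype.card F + 1)) ∨
    ((Fintype.card F).Prime ∧ (Fintype.card F % 8 = 3 ∨ Fintype.card F % 8 = 5) ∧ Nonempty (M ≃* Equiv.Perm (Fin 4))) ∨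
    (∃ (F₀ : Type) (_ : Field F₀) (_ : Fintype F₀) (r : ℕ), r.Prime ∧ Odd r ∧ Fintype.card F = Fintype.card F₀ ^ r ∧
        Nonempty (M ≃* Matrix.ProjGenLinGroup (Fin 2) F₀)) := by
  classical
  obtain ⟨p, hp, hchar⟩ := exists_char_prime F
  haveI : Fact p.Prime := ⟨hp⟩
  haveI := hchar
  haveI := finite_pgl2 (F := F)
  have hML' : ¬ (Matrix.ProjectiveSpecialLinearGroup.toPGL (n := Fin 2) (R := F)).range ≤ M := by
    intro h
    apply hML
    rintro _ ⟨X, rfl⟩
    exact h ⟨QuotientGroup.mk X, rfl⟩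
  have hidx := index_range_toPGL F (by rw [Nat.card_eq_fintype_card]; exact hodd)
  have hinj := Matrix.ProjectiveSpecialLinearGroup.toPGL_injective (n := Fin 2) (R := F)
  haveI : IsSimpleGroup (Matrix.ProjectiveSpecialLinearGroup (Fin 2) F) :=
    Matrix.ProjectiveSpecialLinearGroup.rank_two_simple (by
      rw [Nat.card_eq_fintype_card]; omega)
  have hcard := card_eq_two_mul_comap _ hidx M hM hML' hinj
  rw [← card_map_comap] at hcard
  rcases dickson_pgl p (two_ne_zero_of_odd hodd) M with ⟨hcy, hd⟩ | ⟨k, hkd, ⟨e⟩⟩ | ⟨P, hP⟩ | ⟨⟨e⟩⟩ |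
    ⟨⟨e⟩⟩ | ⟨⟨e⟩⟩ | ⟨K, ⟨⟨e⟩⟩ | ⟨⟨e⟩⟩⟩
  · exact (pgl_cyclic_case p hodd h3 M hM hML' hcy hd).elim
  · rcases pgl_dihedral_case p hodd h3 M hM hML' k hkd e with h | h
    · exact Or.inr (Or.inl h)
    · exact Or.inr (Or.inr (Or.inl h))
  · exact Or.inl (pgl_borel_case p hodd h3 M hM hML' P hP)
  · exact (no_index_two_of_alt _ M (map_comap_le M) e hcard).elim
  · rcases pgl_perm_four_case p hodd h3 M hM hML' e with h | h
    · exact Or.inr (Or.inr (Or.inr (Or.inl h)))
    · exact Or.inr (Or.inr (Or.inr (Or.inr h)))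
  · exact (no_index_two_of_alt _ M (map_comap_le M) e hcard).elim
  · exfalso
    haveI : Fintype K := Fintype.ofFinite _
    obtain ⟨m, hm, hqm, hK2⟩ := subfield_card K
    have hKodd : Odd (Nat.card K) := by
      rw [hqm] at hodd
      rcases Nat.even_or_odd (Nat.card K) with he | ho
      · exact absurd (he.pow_of_ne_zero (by omega : m ≠ 0)) (Nat.not_even_iff_odd.2 hodd)
      · exact ho
    by_cases hK3 : Nat.card K = 3
    · obtain ⟨e2⟩ := Cfsg.Agent.S0251.result (F := K) (by rw [← Nat.card_eq_fintype_card]; exact hK3)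
      exact no_index_two_of_alt _ M (map_comap_le M) (e.trans e2) hcard
    · have hK4 : 4 ≤ Nat.card K := by
        obtain ⟨a, ha⟩ := hKodd
        omega
      haveI : IsSimpleGroup (Matrix.ProjectiveSpecialLinearGroup (Fin 2) K) :=
        Matrix.ProjectiveSpecialLinearGroup.rank_two_simple hK4
      refine no_index_two_of_simple _ M (map_comap_le M) e hcard ?_
      by_contra hcon
      have h1 : Nat.card M = 1 ∨ Nat.card M = 2 := by
        have : 0 < Nat.card M := Nat.card_pos
        omega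
      rcases h1 with h1 | h1
      · exact card_ne_small hodd h3 M hM 0 (by norm_num) (by rw [h1]; norm_num)
      · exact card_ne_small hodd h3 M hM 1 (by norm_num) (by rw [h1]; norm_num)
  · rcases pgl_pgl_case p hodd h3 M hM hML' K e with h | h
    · exact Or.inr (Or.inr (Or.inr (Or.inl h)))
    · exact Or.inr (Or.inr (Or.inr (Or.inr h)))

end Cfsg.Agent.S5891
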