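import Cfsg.Statements.S5896

set_option autoImplicit false
open Cfsg

namespace Cfsg.Agent.S5896

open RegularWreathProduct
open scoped commutatorElement

section general

/-- derived series of a subgroup contained in the `m`-th derived subgroup -/
theorem map_derivedSeries_le {Γ : Type*} [Group Γ] (Y : Subgroup Γ) (m : ℕ)
    (hY : Y ≤ derivedSeries Γ m) (n : ℕ) :
    (derivedSeries Y n).map Y.subtype ≤ derivedSeries Γ (m + n) := by
  induction n with
  | zero =>
    rw [derivedSeries_zero, ← MonoidHom.range_eq_map, Subgroup.range_subtype]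
    exact hY
  | succ n ih =>
    rw [derivedSeries_succ, Subgroup.map_commutator, ← add_assoc, derivedSeries_succ]
    exact Subgroup.commutator_mono ih ih

/-- a section with non-trivial `n`-th derived subgroup -/
theorem derivedSeries_ne_bot_of_section {Γ R D : Type*} [Group Γ] [Group R] [Group D]
    (i : R →* Γ) (hi : Function.Injective i) (ev : R →* D) (hev : Function.Surjective ev) (n : ℕ)
    (hD : derivedSeries D n ≠ ⊥) : derivedSeries Γ n ≠ ⊥ := by
  intro h
  have h1 := map_derivedSeries_le_derivedSeries i n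
  rw [h, le_bot_iff, Subgroup.map_eq_bot_iff_of_injective _ hi] at h1
  apply hD
  rw [← map_derivedSeries_eq hev n, h1, Subgroup.map_bot]

theorem derivedSeries_ne_bot_of_section' {Γ D : Type*} [Group Γ] [Group D] (Y : Subgroup Γ) (m : ℕ)
    (hY : Y ≤ derivedSeries Γ m) (ev : Y →* D) (hev : Function.Surjective ev) (n : ℕ)
    (hD : derivedSeries D n ≠ ⊥) : derivedSeries Γ (m + n) ≠ ⊥ := by
  intro h
  have h1 := map_derivedSeries_le Y m hY n
  rw [h, le_bot_iff, Subgroup.map_eq_bot_iff_of_injective _ Y.subtype_injective] at h1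
  apply hD
  rw [← map_derivedSeries_eq hev n, h1, Subgroup.map_bot]

theorem isSolvable_pi {ι D : Type*} [Group D] [hD : Group.IsSolvable D] :
    Group.IsSolvable (ι → D) := by
  obtain ⟨n, hn⟩ := (Group.isSolvable_def D).mp hD
  rw [Group.isSolvable_def]
  refine ⟨n, ?_⟩
  rw [eq_bot_iff]
  intro x hx
  rw [Subgroup.mem_bot]
  funext j
  have h1 := map_derivedSeries_le_derivedSeries (Pi.evalMonoidHom (fun _ : ι => D) j) n
  have h2 : x j ∈ derivedSeries D n := h1 ⟨x, hx, rfl⟩
  rw [hn, Subgroup.mem_bot] at h2
  exact h2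

/-- preimage of a solvable subgroup under a homomorphism with solvable kernel -/
theorem isSolvable_comap {X Q : Type*} [Group X] [Group Q] (φ : X →* Q)
    [hker : Group.IsSolvable φ.ker] (T : Subgroup Q) [hT : Group.IsSolvable T] :
    Group.IsSolvable (T.comap φ) := by
  have hle : φ.ker ≤ T.comap φ := by
    intro x hx
    change φ x ∈ T
    rw [MonoidHom.mem_ker.mp hx]
    exact T.one_mem
  apply Group.isSolvable_of_ker_le_range (Subgroup.inclusion hle) (φ.subgroupComap T)
  intro x hx
  have h1 : φ x.1 = 1 := congrArg Subtype.val (MonoidHom.mem_ker.mp hx)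
  exact ⟨⟨x.1, h1⟩, rfl⟩

/-- the derived series of a finite group stabilises -/
theorem exists_derivedSeries_stable (X : Type*) [Group X] [Finite X] :
    ∃ N, derivedSeries X (N + 1) = derivedSeries X N := by
  by_contra hcon
  push Not at hcon
  have hlt : ∀ n, Nat.card (derivedSeries X n) + n ≤ Nat.card X := by
    intro n
    induction n with
    | zero => simp
    | succ n ih =>
      have h1 : derivedSeries X (n + 1) < derivedSeries X n :=
        lt_of_le_of_ne (derivedSeries_antitone X (Nat.le_succ n)) (hcon n)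
      have h2 : Nat.card (derivedSeries X (n + 1)) < Nat.card (derivedSeries X n) := by
        by_contra h3
        push Not at h3
        exact h1.ne (Subgroup.eq_of_le_of_card_ge h1.le h3)
      omega
  have := hlt (Nat.card X + 1)
  omega

end general

section wreath

variable {D Q : Type*} [Group D] [Group Q]

/-- evaluation at the coordinate `1` on the base group -/
def ev : (rightHom : D ≀ᵣ Q →* Q).ker →* D where
  toFun w := w.1.left 1
  map_one' := rfl
  map_mul' a b := by
    have ha : a.1.right = 1 := a.2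
    simp [ha]

/-- the base group embeds in the power -/
def baseToPi : (rightHom : D ≀ᵣ Q →* Q).ker →* (Q → D) where
  toFun w := w.1.left
  map_one' := rfl
  map_mul' a b := by
    have ha : a.1.right = 1 := a.2
    funext x
    simp [ha]

theorem isSolvable_ker [Group.IsSolvable D] :
    Group.IsSolvable (rightHom : D ≀ᵣ Q →* Q).ker := by
  have := isSolvable_pi (ι := Q) (D := D)
  apply Group.isSolvable_of_isSolvable_injective (f := baseToPi (D := D) (Q := Q))
  intro a b h
  apply Subtype.ext
  have ha : a.1.right = 1 := a.2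
  have hb : b.1.right = 1 := b.2
  exact RegularWreathProduct.ext h (ha.trans hb.symm)

variable [DecidableEq Q]

/-- the commutator of `d` placed at the coordinate `1` with `q` -/
def c (d : D) (q : Q) : D ≀ᵣ Q := ⁅(⟨Pi.mulSingle 1 d, 1⟩ : D ≀ᵣ Q), inl q⁆

theorem c_right (d : D) (q : Q) : (c d q).right = 1 := by
  simp [c, commutatorElement_def]

theorem c_left (d : D) (q : Q) (hq : q ≠ 1) : (c d q).left 1 = d := by
  have : q⁻¹ ≠ 1 := inv_ne_one.mpr hq
  simp [c, commutatorElement_def, Pi.mulSingle_eq_of_ne this]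

theorem c_mem_commutator (d : D) (q : Q) : c d q ∈ derivedSeries (D ≀ᵣ Q) 1 := by
  rw [derivedSeries_succ, derivedSeries_zero]
  exact Subgroup.commutator_mem_commutator (Subgroup.mem_top _) (Subgroup.mem_top _)

theorem c_mem_normal (Y : Subgroup (D ≀ᵣ Q)) [hY : Y.Normal] (d : D) (q : Q) (hq : inl q ∈ Y) :
    c d q ∈ Y := by
  rw [c, commutatorElement_def]
  exact Y.mul_mem (hY.conj_mem _ hq _) (Y.inv_mem hq)

end wreath

theorem exists_solvable (d : ℕ) : ∃ (S : Type) (_ : Group S) (_ : Finite S),
    Group.IsSolvable S ∧ derivedSeries S d ≠ ⊥ := by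
  induction d with
  | zero =>
    refine ⟨ℤˣ, inferInstance, inferInstance, Group.isSolvable_of_comm mul_comm, ?_⟩
    rw [derivedSeries_zero]
    have : Nontrivial ℤˣ := ⟨⟨1, -1, by decide⟩⟩
    exact top_ne_bot
  | succ d ih =>
    obtain ⟨S, hS, hfin, hsol, hne⟩ := ih
    refine ⟨S ≀ᵣ ℤˣ, inferInstance, inferInstance, ?_, ?_⟩
    · have h1 := isSolvable_ker (D := S) (Q := ℤˣ)
      have h2 : Group.IsSolvable ℤˣ := Group.isSolvable_of_comm mul_comm
      exact Group.isSolvable_of_ker_le_range (rightHom : S ≀ᵣ ℤˣ →* ℤˣ).ker.subtype rightHom (by simp)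
    · rw [add_comm]
      apply derivedSeries_ne_bot_of_section'
        (derivedSeries (S ≀ᵣ ℤˣ) 1 ⊓ (rightHom : S ≀ᵣ ℤˣ →* ℤˣ).ker) 1 inf_le_left
        (ev.comp (Subgroup.inclusion inf_le_right)) ?_ d hne
      intro s
      exact ⟨⟨c s (-1), c_mem_commutator _ _, c_right _ _⟩, c_left _ _ (by decide)⟩

/-- a perfect finite group all of whose proper subgroups are solvable -/
theorem exists_minimal_nonsolvable : ∃ (Q : Type) (_ : Group Q) (_ : Finite Q),
    Nontrivial Q ∧ commutator Q = ⊤ ∧ ∀ T : Subgroup Q, T ≠ ⊤ → Group.IsSolvable T := by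
  classical
  have hex : ∃ m, ∃ B : Subgroup (Equiv.Perm (Fin 5)), ¬ Group.IsSolvable B ∧ Nat.card B = m := by
    refine ⟨_, ⊤, ?_, rfl⟩
    intro h
    apply Equiv.Perm.not_isSolvable_fin_5
    exact Group.isSolvable_of_isSolvable_injective
      (f := (Subgroup.topEquiv (G := Equiv.Perm (Fin 5))).symm.toMonoidHom)
      (Subgroup.topEquiv (G := Equiv.Perm (Fin 5))).symm.injective
  obtain ⟨B, hB, hBcard⟩ := Nat.find_spec hex
  have hBmin : ∀ C : Subgroup (Equiv.Perm (Fin 5)), ¬ Group.IsSolvable C → Nat.card B ≤ Nat.card C :=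
    fun C hC => hBcard ▸ Nat.find_min' hex ⟨C, hC, rfl⟩
  have hprop : ∀ T : Subgroup B, T ≠ ⊤ → Group.IsSolvable T := by
    intro T hT
    by_contra hns
    have h1 : ¬ Group.IsSolvable (T.map B.subtype) := by
      intro h
      apply hns
      exact Group.isSolvable_of_isSolvable_injective
        (f := (T.equivMapOfInjective B.subtype B.subtype_injective).toMonoidHom)
        (T.equivMapOfInjective B.subtype B.subtype_injective).injective
    have h2 := hBmin _ h1
    rw [Subgroup.card_map_of_injective B.subtype_injective] at h2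
    exact hT (Subgroup.eq_top_of_card_eq T (le_antisymm (Subgroup.card_le_card_group T) h2))
  refine ⟨B, inferInstance, inferInstance, ?_, ?_, hprop⟩
  · by_contra hnt
    rw [not_nontrivial_iff_subsingleton] at hnt
    exact hB (Group.isSolvable_of_comm (fun a b => Subsingleton.elim _ _))
  · by_contra hne
    have h1 := hprop _ hne
    apply hB
    have h2 : Group.IsSolvable (B ⧸ commutator B) :=
      Group.isSolvable_of_comm (G := Abelianization B) mul_comm
    exact Group.isSolvable_of_ker_le_range (commutator B).subtype (QuotientGroup.mk' (commutator B))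
      (by simp)

theorem derivedSeries_eq_top_of_perfect {Q : Type*} [Group Q] (h : commutator Q = ⊤) (n : ℕ) :
    derivedSeries Q n = ⊤ := by
  induction n with
  | zero => rfl
  | succ n ih => rw [derivedSeries_succ, ih, ← commutator_def, h]

/-- Finite perfect groups have solvable maximal subgroups of unbounded derived length: for every d there is a finite perfect group G (equal to its commutator subgroup) with a solvable maximal subgroup H whose derived length exceeds d, i.e. the d-th term of the derived series of H is non-trivial. (Take the derived subgroup of a wreath product S ≀ A₅ with S solvable of large derived length, and H the preimage of a maximal subgroup of A₅.) -/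
theorem result (d : ℕ) :
    ∃ (G : Type) (_ : Group G) (_ : Finite G) (H : Subgroup G), commutator G = ⊤ ∧ IsCoatom H ∧ Group.IsSolvable H ∧
      derivedSeries H d ≠ ⊥ := by
  classical
  obtain ⟨S, hS, hSfin, hSsol, hSne⟩ := exists_solvable d
  obtain ⟨Q, hQ, hQfin, hQnt, hQperf, hQprop⟩ := exists_minimal_nonsolvable
  obtain ⟨N, hN⟩ := exists_derivedSeries_stable (S ≀ᵣ Q)
  set Y := derivedSeries (S ≀ᵣ Q) N with hY
  have hYn : Y.Normal := derivedSeries_normal _ _
  have hinl : ∀ q : Q, (inl q : S ≀ᵣ Q) ∈ Y := by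
    intro q
    have h1 := map_derivedSeries_le_derivedSeries (inl : Q →* S ≀ᵣ Q) N
    rw [derivedSeries_eq_top_of_perfect hQperf] at h1
    exact h1 ⟨q, Subgroup.mem_top _, rfl⟩
  obtain ⟨T, hT, -⟩ := (eq_top_or_exists_le_coatom (⊥ : Subgroup Q)).resolve_left bot_ne_top
  have hTsol := hQprop T hT.1
  let π : Y →* Q := (rightHom : S ≀ᵣ Q →* Q).comp Y.subtype
  have hπ : Function.Surjective π := fun q => ⟨⟨inl q, hinl q⟩, rfl⟩
  obtain ⟨q₀, hq₀⟩ := exists_ne (1 : Q)
  refine ⟨Y, inferInstance, inferInstance, T.comap π, ?_, Subgroup.isCoatom_comap_of_surjective hπ hT,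
    ?_, ?_⟩
  · apply Subgroup.map_injective Y.subtype_injective
    rw [commutator_def, Subgroup.map_commutator, ← MonoidHom.range_eq_map, Subgroup.range_subtype,
      hY, ← derivedSeries_succ, hN]
  · have h1 := isSolvable_ker (D := S) (Q := Q)
    have h2 := isSolvable_comap (rightHom : S ≀ᵣ Q →* Q) T
    let j : T.comap π →* T.comap (rightHom : S ≀ᵣ Q →* Q) :=
      { toFun := fun x => ⟨x.1.1, x.2⟩
        map_one' := rfl
        map_mul' := fun _ _ => rfl }
    apply Group.isSolvable_of_isSolvable_injective (f := j)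
    intro a b hab
    apply Subtype.ext
    apply Subtype.ext
    exact congrArg (fun x : T.comap (rightHom : S ≀ᵣ Q →* Q) => x.1) hab
  · let i : ↥(Y ⊓ (rightHom : S ≀ᵣ Q →* Q).ker) →* T.comap π :=
      { toFun := fun x => ⟨⟨x.1, x.2.1⟩, by
          change rightHom x.1 ∈ T
          rw [MonoidHom.mem_ker.mp x.2.2]
          exact T.one_mem⟩
        map_one' := rfl
        map_mul' := fun _ _ => rfl }
    apply derivedSeries_ne_bot_of_section i ?_ (ev.comp (Subgroup.inclusion inf_le_right)) ?_ d hSne
    · intro a b hab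
      apply Subtype.ext
      exact congrArg (fun x => x.1.1) hab
    · intro s
      exact ⟨⟨c s q₀, c_mem_normal Y _ _ (hinl q₀), c_right _ _⟩, c_left _ _ hq₀⟩

end Cfsg.Agent.S5896
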