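import Cfsg.Statements.S5902
import Cfsg.Agent.S5901

set_option autoImplicit false
open Cfsg

namespace Cfsg.Agent.S5902

theorem exists_compl_of_map {G G' : Type*} [Group G] [Group G'] (φ : G ≃* G') (H : Subgroup G)
    (h : ∃ C : Subgroup G', φ.mapSubgroup H ⊔ C = ⊤ ∧ φ.mapSubgroup H ⊓ C = ⊥) :
    ∃ C : Subgroup G, H ⊔ C = ⊤ ∧ H ⊓ C = ⊥ := by
  obtain ⟨C, h1, h2⟩ := h
  refine ⟨φ.mapSubgroup.symm C, ?_, ?_⟩
  · apply φ.mapSubgroup.injective
    rw [map_sup, OrderIso.apply_symm_apply, h1, map_top]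
  · apply φ.mapSubgroup.injective
    rw [map_inf, OrderIso.apply_symm_apply, h2, map_bot]

theorem interval_compl {G : Type*} [Group G] (X : Subgroup G)
    (hK : ComplementedLattice (Subgroup X)) (Y : Subgroup G) (hYX : Y ≤ X) :
    ∃ C : Subgroup G, ⊥ ≤ C ∧ C ≤ X ∧ Y ⊔ C = X ∧ Y ⊓ C = ⊥ := by
  obtain ⟨C', hC'⟩ := hK.exists_isCompl (Y.subgroupOf X)
  refine ⟨C'.map X.subtype, bot_le, ?_, ?_, ?_⟩
  · rintro _ ⟨y, _, rfl⟩
    exact y.2
  · have h1 : ((Y.subgroupOf X) ⊔ C').map X.subtype = X := by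
      rw [hC'.sup_eq_top, ← MonoidHom.range_eq_map, Subgroup.range_subtype]
    rw [Subgroup.map_sup, Subgroup.map_subgroupOf_eq_of_le hYX] at h1
    exact h1
  · have h1 : ((Y.subgroupOf X) ⊓ C').map X.subtype = ⊥ := by
      rw [hC'.inf_eq_bot, Subgroup.map_bot]
    rw [Subgroup.map_inf _ _ _ X.subtype_injective, Subgroup.map_subgroupOf_eq_of_le hYX] at h1
    exact h1

/-- Let G be a finite group, X a subgroup whose own subgroup lattice is complemented, and suppose X lies in exactly one maximal subgroup M of G. Then every subgroup H of G not contained in the normal core of M has a complement in the subgroup lattice of G (some C with H ⊔ C = G and H ⊓ C = 1); in particular the subgroup lattice of G modulo the normal core of M is complemented. -/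
theorem result {G : Type*} [Group G] [Finite G] (X M : Subgroup G)
    (hK : ComplementedLattice (Subgroup X))
    (hM : IsCoatom M) (hXM : X ≤ M) (huniq : ∀ M' : Subgroup G, IsCoatom M' → X ≤ M' → M' = M) :
    (∀ H : Subgroup G, ¬ H ≤ M.normalCore → ∃ C : Subgroup G, H ⊔ C = ⊤ ∧ H ⊓ C = ⊥) ∧
    ComplementedLattice (Subgroup (G ⧸ M.normalCore)) := by
  have hX : X ≠ ⊤ := fun h => hM.1 (top_le_iff.mp (h ▸ hXM))
  have key : ∀ H : Subgroup G, ¬ H ≤ M.normalCore → ∃ C : Subgroup G, H ⊔ C = ⊤ ∧ H ⊓ C = ⊥ := by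
    intro H hH
    obtain ⟨h, hhH, hh⟩ := SetLike.not_le_iff_exists.mp hH
    have : ∃ b : G, b * h * b⁻¹ ∉ M := by
      by_contra hcon
      push Not at hcon
      exact hh hcon
    obtain ⟨b, hb⟩ := this
    apply exists_compl_of_map (MulAut.conj b) H
    apply Cfsg.Agent.S5901.result ⊥ X M bot_le hX
      (fun Y _ hYX => interval_compl X hK Y hYX) hM hXM huniq
    · intro hle
      apply hb
      apply hle
      exact ⟨h, hhH, rfl⟩
    · simp
  refine ⟨key, ⟨fun Hbar => ?_⟩⟩
  by_cases hbot : Hbar = ⊥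
  · subst hbot
    exact ⟨⊤, isCompl_bot_top⟩
  have hsurj : Function.Surjective (QuotientGroup.mk' M.normalCore) := QuotientGroup.mk'_surjective _
  have hH : ¬ Hbar.comap (QuotientGroup.mk' M.normalCore) ≤ M.normalCore := by
    intro hle
    apply hbot
    rw [eq_bot_iff]
    intro x hx
    obtain ⟨g, rfl⟩ := hsurj x
    have : g ∈ M.normalCore := hle hx
    rw [Subgroup.mem_bot]
    exact (QuotientGroup.eq_one_iff g).mpr this
  obtain ⟨C, hC1, hC2⟩ := key _ hH
  refine ⟨C.map (QuotientGroup.mk' M.normalCore), IsCompl.of_eq ?_ ?_⟩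
  · rw [eq_bot_iff]
    rintro _ ⟨hx, c, hc, rfl⟩
    have : c ∈ Hbar.comap (QuotientGroup.mk' M.normalCore) ⊓ C := ⟨hx, hc⟩
    rw [hC2, Subgroup.mem_bot] at this
    rw [this]
    exact Subgroup.one_mem _
  · have h1 : (Hbar.comap (QuotientGroup.mk' M.normalCore) ⊔ C).map (QuotientGroup.mk' M.normalCore) = ⊤ := by
      rw [hC1, Subgroup.map_top_of_surjective _ hsurj]
    rw [Subgroup.map_sup, Subgroup.map_comap_eq_self_of_surjective hsurj] at h1
    exact h1

end Cfsg.Agent.S5902
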