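import Cfsg.Statements.S5903
import Cfsg.Agent.S5902

set_option autoImplicit false
open Cfsg

namespace Cfsg.Agent.S5903

theorem interval_compl {G : Type*} [Group G] (X N : Subgroup G) (hNX : N ≤ X)
    [(N.subgroupOf X).Normal] (hK : ComplementedLattice (Subgroup (X ⧸ N.subgroupOf X)))
    (Y : Subgroup G) (hNY : N ≤ Y) (hYX : Y ≤ X) :
    ∃ C : Subgroup G, N ≤ C ∧ C ≤ X ∧ Y ⊔ C = X ∧ Y ⊓ C = N := by
  set π := QuotientGroup.mk' (N.subgroupOf X) with hπ
  have hsurj : Function.Surjective π := QuotientGroup.mk'_surjective _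
  have hker : π.ker = N.subgroupOf X := QuotientGroup.ker_mk' _
  obtain ⟨Cbar, hC⟩ := hK.exists_isCompl ((Y.subgroupOf X).map π)
  have hY' : ((Y.subgroupOf X).map π).comap π = Y.subgroupOf X := by
    rw [Subgroup.comap_map_eq, hker]
    exact sup_eq_left.mpr (Subgroup.subgroupOf_mono X hNY)
  have hsup : Y.subgroupOf X ⊔ Cbar.comap π = ⊤ := by
    rw [← hY', Subgroup.comap_sup_eq _ _ _ hsurj, hC.sup_eq_top, Subgroup.comap_top]
  have hinf : Y.subgroupOf X ⊓ Cbar.comap π = N.subgroupOf X := by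
    rw [← hY', ← Subgroup.comap_inf, hC.inf_eq_bot]
    exact hker
  refine ⟨(Cbar.comap π).map X.subtype, ?_, ?_, ?_, ?_⟩
  · intro n hn
    refine ⟨⟨n, hNX hn⟩, ?_, rfl⟩
    have : (⟨n, hNX hn⟩ : X) ∈ π.ker := by rw [hker]; exact hn
    change π _ ∈ Cbar
    rw [MonoidHom.mem_ker.mp this]
    exact Cbar.one_mem
  · rintro _ ⟨y, _, rfl⟩
    exact y.2
  · have h1 := congrArg (Subgroup.map X.subtype) hsup
    rw [Subgroup.map_sup, Subgroup.map_subgroupOf_eq_of_le hYX, ← MonoidHom.range_eq_map,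
      Subgroup.range_subtype] at h1
    exact h1
  · have h1 := congrArg (Subgroup.map X.subtype) hinf
    rw [Subgroup.map_inf _ _ _ X.subtype_injective, Subgroup.map_subgroupOf_eq_of_le hYX,
      Subgroup.map_subgroupOf_eq_of_le hNX] at h1
    exact h1

/-- Let G be a finite simple group, X a subgroup lying in exactly one maximal subgroup M of G, and N a subgroup of prime order with N ≤ X that is central in M. If the subgroup lattice of X/N is complemented, then the subgroup lattice of G is complemented. -/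
theorem result {G : Type*} [Group G] [Finite G] [IsSimpleGroup G] (X M N : Subgroup G)
    (hM : IsCoatom M) (hXM : X ≤ M) (huniq : ∀ M' : Subgroup G, IsCoatom M' → X ≤ M' → M' = M)
    (hNX : N ≤ X) (hN : (Nat.card N).Prime) (hcen : ∀ n ∈ N, ∀ m ∈ M, m * n = n * m)
    [(N.subgroupOf X).Normal] (hK : ComplementedLattice (Subgroup (X ⧸ N.subgroupOf X))) :
    ComplementedLattice (Subgroup G) := by
  have hX : X ≠ ⊤ := fun h => hM.1 (top_le_iff.mp (h ▸ hXM))
  refine ⟨fun H => ?_⟩
  by_cases hbot : H = ⊥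
  · subst hbot; exact ⟨⊤, isCompl_bot_top⟩
  by_cases htop : H = ⊤
  · subst htop; exact ⟨⊥, isCompl_top_bot⟩
  have : Fact (Nat.card N).Prime := ⟨hN⟩
  -- a nontrivial element of `N`
  obtain ⟨n₀, hn₀N, hn₀⟩ : ∃ n₀ ∈ N, n₀ ≠ 1 := by
    have : Nontrivial N := Finite.one_lt_card_iff_nontrivial.mp hN.one_lt
    obtain ⟨x, hx⟩ := exists_ne (1 : N)
    exact ⟨x, x.2, fun h => hx (Subtype.ext h)⟩
  -- key: a good conjugate
  have key : ∃ g : G, (∃ h ∈ H, g * h * g⁻¹ ∉ M) ∧ (∃ n ∈ N, g⁻¹ * n * g ∉ H) := by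
    by_contra hcon
    push Not at hcon
    let D : Subgroup G := Subgroup.closure
      {x | ∃ g n, (∀ n ∈ N, g⁻¹ * n * g ∈ H) ∧ n ∈ N ∧ x = g⁻¹ * n * g}
    have hDH : D ≤ H := by
      rw [Subgroup.closure_le]
      rintro _ ⟨g, n, hB, hn, rfl⟩
      exact hB n hn
    have hnc : Subgroup.normalClosure (N : Set G) = ⊤ := by
      rcases (Subgroup.normalClosure_normal (s := (N : Set G))).eq_bot_or_eq_top with h | h
      · exfalso
        have : n₀ ∈ Subgroup.normalClosure (N : Set G) := Subgroup.subset_normalClosure hn₀N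
        rw [h, Subgroup.mem_bot] at this
        exact hn₀ this
      · exact h
    have hDn : D.Normal := by
      rw [← Subgroup.normalizer_eq_top_iff, eq_top_iff, ← hnc, Subgroup.normalClosure,
        Subgroup.closure_le]
      intro c hc
      rw [Group.mem_conjugatesOfSet_iff] at hc
      obtain ⟨n, hn, hc⟩ := hc
      rw [isConj_iff] at hc
      obtain ⟨g', rfl⟩ := hc
      by_cases hA : ∃ h ∈ H, g'⁻¹ * h * g'⁻¹⁻¹ ∉ M
      · have hB := hcon g'⁻¹ hA
        apply Subgroup.le_normalizer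
        apply Subgroup.subset_closure
        exact ⟨g'⁻¹, n, hB, hn, by simp⟩
      · push Not at hA
        have hcomm : ∀ h ∈ H, h * (g' * n * g'⁻¹) = (g' * n * g'⁻¹) * h := by
          intro h hh
          have h1 := hcen n hn _ (hA h hh)
          have h2 : g' * (g'⁻¹ * h * g'⁻¹⁻¹ * n) * g'⁻¹ = g' * (n * (g'⁻¹ * h * g'⁻¹⁻¹)) * g'⁻¹ := by
            rw [h1]
          simpa [mul_assoc] using h2
        change _ ∈ Subgroup.normalizer (D : Set G)
        rw [Subgroup.mem_normalizer_iff]
        intro d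
        constructor
        · intro hd
          rw [← hcomm d (hDH hd), mul_assoc, mul_inv_cancel, mul_one]
          exact hd
        · intro hd
          have h3 := hcomm _ (hDH hd)
          have h4 : (g' * n * g'⁻¹ * d * (g' * n * g'⁻¹)⁻¹) = d := by
            have : g' * n * g'⁻¹ * d * (g' * n * g'⁻¹)⁻¹ * (g' * n * g'⁻¹) =
                g' * n * g'⁻¹ * d := by group
            rw [this] at h3
            have h5 := mul_left_cancel h3
            exact h5.symm
          rw [← h4]; exact hd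
    rcases hDn.eq_bot_or_eq_top with h | h
    · -- no `g` has property B
      have hnoB : ∀ g : G, ∀ h ∈ H, g * h * g⁻¹ ∈ M := by
        intro g
        by_contra hA
        push Not at hA
        have hB := hcon g hA
        have : g⁻¹ * n₀ * g ∈ D := Subgroup.subset_closure ⟨g, n₀, hB, hn₀N, rfl⟩
        rw [h, Subgroup.mem_bot] at this
        apply hn₀
        have h2 : g * (g⁻¹ * n₀ * g) * g⁻¹ = 1 := by rw [this]; simp
        simpa [mul_assoc] using h2
      have hcore : M.normalCore = ⊥ := by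
        rcases (Subgroup.normalCore_normal M).eq_bot_or_eq_top with h | h
        · exact h
        · exact absurd (top_le_iff.mp (h ▸ Subgroup.normalCore_le M)) hM.1
      apply hbot
      rw [eq_bot_iff, ← hcore]
      intro h hh g
      exact hnoB g h hh
    · exact htop (top_le_iff.mp (h ▸ hDH))
  obtain ⟨g, ⟨h, hhH, hh⟩, ⟨n, hnN, hn⟩⟩ := key
  have hex : ∃ C : Subgroup G, H ⊔ C = ⊤ ∧ H ⊓ C = ⊥ := by
    apply Cfsg.Agent.S5902.exists_compl_of_map (MulAut.conj g) H
    apply Cfsg.Agent.S5901.result N X M hNX hX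
      (fun Y hNY hYX => interval_compl X N hNX hK Y hNY hYX) hM hXM huniq
    · intro hle
      exact hh (hle ⟨h, hhH, rfl⟩)
    · rw [eq_bot_iff]
      rintro x ⟨⟨y, hy, rfl⟩, hxN⟩
      rw [Subgroup.mem_bot]
      by_contra hx1
      apply hn
      -- `n` is a power of `x`
      have hx1' : (⟨_, hxN⟩ : N) ≠ 1 := fun h => hx1 (congrArg Subtype.val h)
      have hmem := mem_zpowers_of_prime_card (G := N) rfl hx1' (g' := ⟨n, hnN⟩)
      obtain ⟨k, hk⟩ := Subgroup.mem_zpowers_iff.mp hmem
      have hk' : ((MulAut.conj g) y) ^ k = n := congrArg Subtype.val hk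
      have : g⁻¹ * n * g = y ^ k := by
        rw [← hk', ← map_zpow]
        simp [MulAut.conj_apply, mul_assoc]
      rw [this]
      exact H.zpow_mem hy k
  obtain ⟨C, h1, h2⟩ := hex
  exact ⟨C, IsCompl.of_eq h2 h1⟩

end Cfsg.Agent.S5903
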