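import Cfsg.Statements.S5909
import Cfsg.Agent.S5905

set_option autoImplicit false
open Cfsg

namespace Cfsg.Agent.S5909

open Equiv Equiv.Perm MulAction
open scoped Pointwise
open Cfsg.Agent.S5905 (W mem_W swap_mem_W lift lift_mem_W f_lift closure_eq_W f_swap coords)

variable {Ω : Type*} [Fintype Ω] [DecidableEq Ω]

theorem swap2_mem {β : Type*} (f : Ω → β) {x x' y y' : Ω} (hx : f x = f x') (hy : f y = f y')
    (hxx : x ≠ x') (hyy : y ≠ y') : swap x x' * swap y y' ∈ W f ⊓ alternatingGroup Ω := by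
  refine ⟨(W f).mul_mem (swap_mem_W f hx) (swap_mem_W f hy), ?_⟩
  show swap x x' * swap y y' ∈ alternatingGroup Ω
  rw [mem_alternatingGroup, Perm.sign_mul, sign_swap hxx, sign_swap hyy]
  rfl

theorem exists_in_fibre {a b : ℕ} (f : Ω → Fin b) (hf : ∀ i : Fin b, Nat.card {x : Ω // f x = i} = a)
    (i : Fin b) (s : Finset Ω) (hs : s.card < a) : ∃ z, f z = i ∧ z ∉ s := by
  have h1 : (Finset.univ.filter (fun x => f x = i)).card = a := by
    rw [← hf i, Nat.card_eq_fintype_card, Fintype.card_subtype]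
  obtain ⟨z, hz, hzs⟩ := Finset.exists_mem_notMem_of_card_lt_card (h1.symm ▸ hs)
  exact ⟨z, (Finset.mem_filter.mp hz).2, hzs⟩

theorem exists_label {b : ℕ} (s : Finset (Fin b)) (hs : s.card < b) : ∃ k : Fin b, k ∉ s := by
  have h1 : s.card < (Finset.univ : Finset (Fin b)).card := by simpa using hs
  obtain ⟨z, -, hzs⟩ := Finset.exists_mem_notMem_of_card_lt_card h1
  exact ⟨z, hzs⟩

theorem block_closed {X : Subgroup (Perm Ω)} {B : Set Ω} (hB : IsBlock X B) {w : Perm Ω}
    (hw : w ∈ X) {p : Ω} (hp : p ∈ B) (hwp : w p ∈ B) {q : Ω} (hq : q ∈ B) : w q ∈ B := by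
  have h1 : (⟨w, hw⟩ : X) • B = B := (isBlock_iff_smul_eq_of_mem.mp hB) (g := ⟨w, hw⟩) hp hwp
  have h2 : (⟨w, hw⟩ : X) • q ∈ (⟨w, hw⟩ : X) • B := Set.smul_mem_smul_set hq
  rw [h1] at h2
  exact h2

theorem sign_lift (a b : ℕ) (f : Ω → Fin b) (hf : ∀ i : Fin b, Nat.card {x : Ω // f x = i} = a)
    (σ : Perm (Fin b)) : sign (lift a b f hf σ) = sign σ ^ a := by
  have h1 : σ.prodCongr (Equiv.refl (Fin a)) = prodCongrLeft (fun _ : Fin a => σ) := by
    ext x <;> rfl
  rw [lift, sign_permCongr, h1, sign_prodCongrLeft, Finset.prod_const, Finset.card_univ,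
    Fintype.card_fin]

/-- a nontrivial block of an overgroup of `W₀` is a union of fibres -/
theorem union_of_fibres {a b : ℕ} (ha : 2 ≤ a) (hab : 3 ≤ a ∨ 3 ≤ b) (f : Ω → Fin b)
    (hf : ∀ i : Fin b, Nat.card {x : Ω // f x = i} = a) (X : Subgroup (Perm Ω))
    (hX : W f ⊓ alternatingGroup Ω ≤ X) {B : Set Ω} (hB : IsBlock X B) (hB2 : ¬ B.Subsingleton) :
    ∀ p ∈ B, ∀ p', f p' = f p → p' ∈ B := by
  rw [Set.not_subsingleton_iff] at hB2
  obtain ⟨x, hx, y, hy, hxy⟩ := hB2
  -- two points of `B` in one fibre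
  obtain ⟨y0, y0', h0, h0', hne, hf0⟩ : ∃ y0 y0', y0 ∈ B ∧ y0' ∈ B ∧ y0 ≠ y0' ∧ f y0 = f y0' := by
    by_cases hfxy : f x = f y
    · exact ⟨x, y, hx, hy, hxy, hfxy⟩
    obtain ⟨y', hy', hyy'⟩ := exists_in_fibre f hf (f y) {y} (by simp; omega)
    rw [Finset.mem_singleton] at hyy'
    obtain ⟨z, z', hzz', hfz, hzx, hzx', hzy, hzy'⟩ : ∃ z z', z ≠ z' ∧ f z = f z' ∧ z ≠ x ∧ z' ≠ x ∧
        f z ≠ f y ∧ f z' ≠ f y := by
      rcases hab with h3 | h3
      · obtain ⟨z, hz, hz1⟩ := exists_in_fibre f hf (f x) {x} (by simp; omega)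
        obtain ⟨z', hz', hz1'⟩ := exists_in_fibre f hf (f x) {x, z}
          (lt_of_le_of_lt (Finset.card_insert_le _ _) (by simp; omega))
        simp only [Finset.mem_insert, Finset.mem_singleton, not_or] at hz1 hz1'
        exact ⟨z, z', Ne.symm hz1'.2, hz.trans hz'.symm, hz1, hz1'.1, hz ▸ hfxy, hz' ▸ hfxy⟩
      · obtain ⟨k, hk⟩ := exists_label ({f x, f y} : Finset (Fin b))
          (lt_of_le_of_lt (Finset.card_insert_le _ _) (by simp; omega))
        simp only [Finset.mem_insert, Finset.mem_singleton, not_or] at hk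
        obtain ⟨z, hz, -⟩ := exists_in_fibre f hf k ∅ (by simp; omega)
        obtain ⟨z', hz', hz1'⟩ := exists_in_fibre f hf k {z} (by simp; omega)
        rw [Finset.mem_singleton] at hz1'
        refine ⟨z, z', Ne.symm hz1', hz.trans hz'.symm, ?_, ?_, hz ▸ hk.2, hz' ▸ hk.2⟩
        · rintro rfl; exact hk.1 hz.symm
        · rintro rfl; exact hk.1 hz'.symm
    have hw := hX (swap2_mem f hy'.symm hfz (Ne.symm hyy') hzz')
    have hxy' : x ≠ y' := by rintro rfl; exact hfxy hy'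
    have h1 : (swap y y' * swap z z') x = x := by
      rw [Perm.mul_apply, swap_apply_of_ne_of_ne (Ne.symm hzx) (Ne.symm hzx'),
        swap_apply_of_ne_of_ne hxy hxy']
    have h2 : (swap y y' * swap z z') y = y' := by
      have n1 : y ≠ z := by rintro rfl; exact hzy rfl
      have n2 : y ≠ z' := by rintro rfl; exact hzy' rfl
      rw [Perm.mul_apply, swap_apply_of_ne_of_ne n1 n2, swap_apply_left]
    have h3 := block_closed hB hw hx (h1.symm ▸ hx) hy
    rw [h2] at h3
    exact ⟨y, y', hy, h3, Ne.symm hyy', hy'.symm⟩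
  intro p hp p' hpp'
  by_cases hpe : p' = p
  · rw [hpe]; exact hp
  by_cases hfp : f p = f y0
  · by_cases h1 : p' = y0
    · rw [h1]; exact h0
    by_cases h2 : p' = y0'
    · rw [h2]; exact h0'
    have hw := hX (swap2_mem f hf0 (hfp.symm.trans hpp'.symm) hne (Ne.symm h1))
    have e1 : (swap y0 y0' * swap y0 p') y0' = y0 := by
      rw [Perm.mul_apply, swap_apply_of_ne_of_ne (Ne.symm hne) (Ne.symm h2), swap_apply_right]
    have e2 : (swap y0 y0' * swap y0 p') y0 = p' := by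
      rw [Perm.mul_apply, swap_apply_left, swap_apply_of_ne_of_ne h1 h2]
    have h3 := block_closed hB hw h0' (e1.symm ▸ h0) h0
    rw [e2] at h3
    exact h3
  · have hw := hX (swap2_mem f hf0 hpp'.symm hne (Ne.symm hpe))
    have n1 : y0 ≠ p := by rintro rfl; exact hfp rfl
    have n2 : y0 ≠ p' := by rintro rfl; exact hfp hpp'.symm
    have n3 : y0' ≠ p' := by rintro rfl; exact hfp (hpp'.symm.trans hf0.symm)
    have e1 : (swap y0 y0' * swap p p') y0 = y0' := by
      rw [Perm.mul_apply, swap_apply_of_ne_of_ne n1 n2, swap_apply_left]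
    have e2 : (swap y0 y0' * swap p p') p = p' := by
      rw [Perm.mul_apply, swap_apply_left, swap_apply_of_ne_of_ne (Ne.symm n2) (Ne.symm n3)]
    have h3 := block_closed hB hw h0 (e1.symm ▸ h0') hp
    rw [e2] at h3
    exact h3

theorem trans_W0 {a b : ℕ} (ha : 2 ≤ a) (hb : 2 ≤ b) (f : Ω → Fin b)
    (hf : ∀ i : Fin b, Nat.card {x : Ω // f x = i} = a) (x y : Ω) :
    ∃ w ∈ W f ⊓ alternatingGroup Ω, w x = y := by
  -- first an element of `W`
  obtain ⟨w1, hw1, hw1x⟩ : ∃ w1 ∈ W f, w1 x = y := by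
    have h1 : f (lift a b f hf (swap (f x) (f y)) x) = f y := by
      rw [f_lift a b f hf, swap_apply_left]
    refine ⟨swap (lift a b f hf (swap (f x) (f y)) x) y * lift a b f hf (swap (f x) (f y)),
      (W f).mul_mem (swap_mem_W f h1) (lift_mem_W a b f hf _), ?_⟩
    rw [Perm.mul_apply, swap_apply_left]
  obtain ⟨k, hk⟩ := exists_label ({f y} : Finset (Fin b)) (by simp; omega)
  rw [Finset.mem_singleton] at hk
  obtain ⟨z, hz, -⟩ := exists_in_fibre f hf k ∅ (by simp; omega)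
  obtain ⟨z', hz', hz1'⟩ := exists_in_fibre f hf k {z} (by simp; omega)
  rw [Finset.mem_singleton] at hz1'
  rcases Int.units_eq_one_or (sign w1) with h | h
  · exact ⟨w1, ⟨hw1, h⟩, hw1x⟩
  · refine ⟨swap z z' * w1, ⟨(W f).mul_mem (swap_mem_W f (hz.trans hz'.symm)) hw1, ?_⟩, ?_⟩
    · show swap z z' * w1 ∈ alternatingGroup Ω
      rw [mem_alternatingGroup, Perm.sign_mul, sign_swap (Ne.symm hz1'), h]
      rfl
    · have n1 : y ≠ z := by rintro rfl; exact hk hz.symm
      have n2 : y ≠ z' := by rintro rfl; exact hk hz'.symm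
      rw [Perm.mul_apply, hw1x, swap_apply_of_ne_of_ne n1 n2]

theorem preprimitive {a b : ℕ} (ha : 2 ≤ a) (hb : 2 ≤ b) (hab : 3 ≤ a ∨ 3 ≤ b) (f : Ω → Fin b)
    (hf : ∀ i : Fin b, Nat.card {x : Ω // f x = i} = a) (X : Subgroup (Perm Ω))
    (hX : W f ⊓ alternatingGroup Ω ≤ X) {h : Perm Ω} (hh : h ∈ X) {u v : Ω} (huv : f u = f v)
    (hne : f (h u) ≠ f (h v)) : IsPreprimitive X Ω := by
  have htr : IsPretransitive X Ω := by
    refine ⟨fun x y => ?_⟩
    obtain ⟨w, hw, hwx⟩ := trans_W0 ha hb f hf x y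
    exact ⟨⟨w, hX hw⟩, hwx⟩
  refine { htr with isTrivialBlock_of_isBlock := ?_ }
  intro B hB
  by_cases hs : B.Subsingleton
  · exact Or.inl hs
  have hs' := hs
  rw [Set.not_subsingleton_iff] at hs'
  obtain ⟨y, hy, -⟩ := hs'
  obtain ⟨t, ht⟩ := htr.exists_smul_eq y u
  set g : X := ⟨h, hh⟩ * t with hg
  rw [← IsTrivialBlock.smul_iff g]
  have hB2 : IsBlock X (g • B) := hB.translate g
  have hs2 : ¬ (g • B).Subsingleton := by
    intro hcon
    apply hs
    intro p hp q hq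
    have := hcon (Set.smul_mem_smul_set hp) (Set.smul_mem_smul_set hq)
    exact smul_left_cancel g this
  have hU := union_of_fibres ha hab f hf X hX hB2 hs2
  have hB1 : IsBlock X (t • B) := hB.translate t
  have hs1 : ¬ (t • B).Subsingleton := by
    intro hcon
    apply hs
    intro p hp q hq
    have := hcon (Set.smul_mem_smul_set hp) (Set.smul_mem_smul_set hq)
    exact smul_left_cancel t this
  have hU1 := union_of_fibres ha hab f hf X hX hB1 hs1
  have hu1 : u ∈ t • B := ht ▸ Set.smul_mem_smul_set hy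
  have hv1 : v ∈ t • B := hU1 u hu1 v huv.symm
  have hu2 : h u ∈ g • B := by
    rw [hg, mul_smul]
    exact Set.smul_mem_smul_set (a := (⟨h, hh⟩ : X)) hu1
  have hv2 : h v ∈ g • B := by
    rw [hg, mul_smul]
    exact Set.smul_mem_smul_set (a := (⟨h, hh⟩ : X)) hv1
  right
  rw [Set.eq_univ_iff_forall]
  intro ω
  by_cases h1 : f ω = f (h u)
  · exact hU _ hu2 ω h1
  by_cases h2 : f ω = f (h v)
  · exact hU _ hv2 ω h2
  set σ : Perm (Fin b) := swap (f (h u)) (f (h v)) * swap (f (h v)) (f ω) with hσ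
  have hw : lift a b f hf σ ∈ X := by
    apply hX
    refine ⟨lift_mem_W a b f hf σ, ?_⟩
    show lift a b f hf σ ∈ alternatingGroup Ω
    rw [mem_alternatingGroup, sign_lift, hσ, Perm.sign_mul, sign_swap hne, sign_swap (Ne.symm h2)]
    simp
  have e1 : f (lift a b f hf σ (h u)) = f (h v) := by
    rw [f_lift a b f hf, hσ, Perm.mul_apply, swap_apply_of_ne_of_ne hne (Ne.symm h1),
      swap_apply_left]
  have e2 : f (lift a b f hf σ (h v)) = f ω := by
    rw [f_lift a b f hf, hσ, Perm.mul_apply, swap_apply_left, swap_apply_of_ne_of_ne h1 h2]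
  have h3 := block_closed hB2 hw hu2 (hU _ hv2 _ e1) hv2
  exact hU _ h3 ω e2.symm

theorem three_of_conj (X : Subgroup (Perm Ω)) {p q r r' p1 : Ω} (hpq : p ≠ q)
    (hqr : q ≠ r) (hqr' : q ≠ r') (hrr' : r ≠ r')
    (hs : swap p q * swap r r' ∈ X) {u0 : Perm Ω} (hu0 : u0 ∈ X) (h1 : u0 p = p1) (h2 : u0 q = q)
    (h3 : swap (u0 r) (u0 r') = swap r r') (hp1 : p1 ≠ p) (hp1r : p1 ≠ r) (hp1r' : p1 ≠ r') :
    ∃ c ∈ X, IsThreeCycle c := by
  have hp1q : p1 ≠ q := by
    rintro rfl
    exact hpq (u0.injective (h1.trans h2.symm))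
  refine ⟨swap q p * swap q p1, ?_, isThreeCycle_swap_mul_swap_same (Ne.symm hpq) (Ne.symm hp1q)
    (Ne.symm hp1)⟩
  have e1 : u0 * (swap p q * swap r r') * u0⁻¹ = swap p1 q * swap r r' := by
    have a1 : u0 * swap p q * u0⁻¹ = swap p1 q := by rw [← swap_apply_apply, h1, h2]
    have a2 : u0 * swap r r' * u0⁻¹ = swap r r' := by rw [← swap_apply_apply, h3]
    calc u0 * (swap p q * swap r r') * u0⁻¹
        = (u0 * swap p q * u0⁻¹) * (u0 * swap r r' * u0⁻¹) := by group
      _ = swap p1 q * swap r r' := by rw [a1, a2]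
  have hcomm : Commute (swap r r') (swap p1 q) := by
    apply Disjoint.commute
    apply disjoint_swap_swap
    simp only [List.nodup_cons, List.mem_cons, List.not_mem_nil, or_false, not_or,
      not_false_eq_true, List.nodup_nil, and_true]
    exact ⟨⟨hrr', Ne.symm hp1r, Ne.symm hqr⟩, ⟨Ne.symm hp1r', Ne.symm hqr'⟩, hp1q⟩
  have e2 : swap q p * swap q p1 = (swap p q * swap r r') * (u0 * (swap p q * swap r r') * u0⁻¹) := by
    rw [e1, swap_comm q p, swap_comm q p1]
    calc swap p q * swap p1 q = swap p q * (swap p1 q * (swap r r' * swap r r')) := by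
          rw [swap_mul_self, mul_one]
      _ = swap p q * ((swap p1 q * swap r r') * swap r r') := by rw [mul_assoc]
      _ = swap p q * ((swap r r' * swap p1 q) * swap r r') := by rw [hcomm.eq]
      _ = swap p q * swap r r' * (swap p1 q * swap r r') := by simp only [mul_assoc]
  rw [e2]
  exact X.mul_mem hs (X.mul_mem (X.mul_mem hu0 hs) (X.inv_mem hu0))

theorem three_of_gamma (X : Subgroup (Perm Ω)) {p q pb qb r' : Ω} (hpq : p ≠ q) (hppb : p ≠ pb)
    (hpr' : p ≠ r') (hqpb : q ≠ pb) (hqr' : q ≠ r') (hpbr' : pb ≠ r') (hpbqb : pb ≠ qb)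
    (hr'qb : r' ≠ qb) (hs : swap p q * swap pb r' ∈ X) (hw : swap p q * swap pb qb ∈ X) :
    ∃ c ∈ X, IsThreeCycle c := by
  refine ⟨swap pb r' * swap pb qb, ?_, isThreeCycle_swap_mul_swap_same hpbr' hpbqb hr'qb⟩
  have hcomm : Commute (swap p q) (swap pb r') := by
    apply Disjoint.commute
    apply disjoint_swap_swap
    simp only [List.nodup_cons, List.mem_cons, List.not_mem_nil, or_false, not_or,
      not_false_eq_true, List.nodup_nil, and_true]
    exact ⟨⟨hpq, hppb, hpr'⟩, ⟨hqpb, hqr'⟩, hpbr'⟩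
  have e : swap pb r' * swap pb qb = (swap p q * swap pb r') * (swap p q * swap pb qb) := by
    calc swap pb r' * swap pb qb = swap pb r' * ((swap p q * swap p q) * swap pb qb) := by
          rw [swap_mul_self, one_mul]
      _ = (swap pb r' * swap p q) * (swap p q * swap pb qb) := by simp only [mul_assoc]
      _ = (swap p q * swap pb r') * (swap p q * swap pb qb) := by rw [hcomm.eq]
  rw [e]
  exact X.mul_mem hs hw

theorem fibre_two {b : ℕ} (f : Ω → Fin b) (hf : ∀ i : Fin b, Nat.card {x : Ω // f x = i} = 2)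
    {p pb x : Ω} (h1 : f pb = f p) (h2 : pb ≠ p) (h3 : f x = f p) : x = p ∨ x = pb := by
  by_contra hcon
  push Not at hcon
  have hc : (Finset.univ.filter (fun x => f x = f p)).card = 2 := by
    rw [← hf (f p), Nat.card_eq_fintype_card, Fintype.card_subtype]
  have hsub : ({x, p, pb} : Finset Ω) ⊆ Finset.univ.filter (fun x => f x = f p) := by
    intro y hy
    simp only [Finset.mem_insert, Finset.mem_singleton] at hy
    rw [Finset.mem_filter]
    rcases hy with rfl | rfl | rfl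
    · exact ⟨Finset.mem_univ _, h3⟩
    · exact ⟨Finset.mem_univ _, rfl⟩
    · exact ⟨Finset.mem_univ _, h1⟩
  have h4 := Finset.card_le_card hsub
  rw [hc, Finset.card_eq_three.mpr ⟨x, p, pb, hcon.1, hcon.2, Ne.symm h2, rfl⟩] at h4
  omega

theorem par_mem {b : ℕ} (f : Ω → Fin b) (hf : ∀ i : Fin b, Nat.card {x : Ω // f x = i} = 2)
    {p pb q qb : Ω} (hp : f pb = f p) (hpp : pb ≠ p) (hq : f qb = f q) (hqq : qb ≠ q)
    (hpq : f p ≠ f q) : swap p q * swap pb qb ∈ W f ⊓ alternatingGroup Ω := by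
  have n1 : p ≠ q := by rintro rfl; exact hpq rfl
  have n2 : pb ≠ qb := by rintro rfl; exact hpq (hp.symm.trans hq)
  have n3 : qb ≠ p := by rintro rfl; exact hpq hq
  have n4 : pb ≠ q := by rintro rfl; exact hpq hp.symm
  have key : ∀ x, f ((swap p q * swap pb qb) x) = swap (f p) (f q) (f x) := by
    intro x
    rw [Perm.mul_apply]
    by_cases h1 : x = pb
    · rw [h1, swap_apply_left, swap_apply_of_ne_of_ne n3 hqq, hp, swap_apply_left, hq]
    by_cases h2 : x = qb
    · rw [h2, swap_apply_right, swap_apply_of_ne_of_ne hpp n4, hq, swap_apply_right, hp]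
    rw [swap_apply_of_ne_of_ne h1 h2]
    by_cases h3 : x = p
    · rw [h3, swap_apply_left, swap_apply_left]
    by_cases h4 : x = q
    · rw [h4, swap_apply_right, swap_apply_right]
    rw [swap_apply_of_ne_of_ne h3 h4, swap_apply_of_ne_of_ne]
    · intro h5
      rcases fibre_two f hf hp hpp h5 with h | h
      · exact h3 h
      · exact h1 h
    · intro h5
      rcases fibre_two f hf hq hqq h5 with h | h
      · exact h4 h
      · exact h2 h
  refine ⟨?_, ?_⟩
  · intro x y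
    rw [key, key, (swap (f p) (f q)).injective.eq_iff]
  · show swap p q * swap pb qb ∈ alternatingGroup Ω
    rw [mem_alternatingGroup, Perm.sign_mul, sign_swap n1, sign_swap n2]
    rfl

theorem gamma_case {b : ℕ} (f : Ω → Fin b) (hf : ∀ i : Fin b, Nat.card {x : Ω // f x = i} = 2)
    (X : Subgroup (Perm Ω)) (hX : W f ⊓ alternatingGroup Ω ≤ X) {p q r r' : Ω}
    (hfpq : f p ≠ f q) (hpr : p ≠ r) (hs : swap p q * swap r r' ∈ X)
    (h1 : f r = f p) (h2 : f r' ≠ f p) (h3 : f r' ≠ f q) : ∃ c ∈ X, IsThreeCycle c := by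
  obtain ⟨qb, hqb, hqq⟩ := exists_in_fibre f hf (f q) {q} (by simp)
  rw [Finset.mem_singleton] at hqq
  have hw := hX (par_mem f hf h1 (Ne.symm hpr) hqb hqq hfpq)
  refine three_of_gamma X ?_ hpr ?_ ?_ ?_ ?_ ?_ ?_ hs hw
  · rintro rfl; exact hfpq rfl
  · rintro rfl; exact h2 rfl
  · rintro rfl; exact hfpq h1.symm
  · rintro rfl; exact h3 rfl
  · rintro rfl; exact h2 h1
  · rintro rfl; exact hfpq (h1.symm.trans hqb)
  · rintro rfl; exact h3 hqb

theorem core {b : ℕ} (hb4 : b ≠ 4) (f : Ω → Fin b)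
    (hf : ∀ i : Fin b, Nat.card {x : Ω // f x = i} = 2)
    (X : Subgroup (Perm Ω)) (hX : W f ⊓ alternatingGroup Ω ≤ X) {p q r r' : Ω}
    (hfpq : f p ≠ f q) (hpr : p ≠ r) (hpr' : p ≠ r') (hqr : q ≠ r) (hqr' : q ≠ r') (hrr' : r ≠ r')
    (hs : swap p q * swap r r' ∈ X)
    (hB1 : ¬ ((f r = f p ∧ f r' = f q) ∨ (f r = f q ∧ f r' = f p))) :
    ∃ c ∈ X, IsThreeCycle c := by
  push Not at hB1
  have hpq : p ≠ q := by rintro rfl; exact hfpq rfl
  obtain ⟨pb, hpb, hpp⟩ := exists_in_fibre f hf (f p) {p} (by simp)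
  rw [Finset.mem_singleton] at hpp
  have hqpb : q ≠ pb := by rintro rfl; exact hfpq hpb.symm
  by_cases hA : f r = f r'
  · -- `{r, r'}` is a fibre
    have hfr : f r ≠ f p := by
      intro h
      rcases fibre_two f hf hpb hpp h with h1 | h1
      · exact hpr h1.symm
      rcases fibre_two f hf hpb hpp (hA.symm.trans h) with h2 | h2
      · exact hpr' h2.symm
      · exact hrr' (h1.trans h2.symm)
    have hpbr : pb ≠ r := by rintro rfl; exact hfr hpb
    have hpbr' : pb ≠ r' := by rintro rfl; exact hfr (hA.trans hpb)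
    have hu0 := hX (swap2_mem f hpb.symm hA (Ne.symm hpp) hrr')
    refine three_of_conj X hpq hqr hqr' hrr' hs hu0 (p1 := pb) ?_ ?_ ?_ hpp hpbr hpbr'
    · rw [Perm.mul_apply, swap_apply_of_ne_of_ne hpr hpr', swap_apply_left]
    · rw [Perm.mul_apply, swap_apply_of_ne_of_ne hqr hqr', swap_apply_of_ne_of_ne (Ne.symm hpq) hqpb]
    · rw [Perm.mul_apply, Perm.mul_apply, swap_apply_left, swap_apply_right,
        swap_apply_of_ne_of_ne (Ne.symm hpr') (Ne.symm hpbr'),
        swap_apply_of_ne_of_ne (Ne.symm hpr) (Ne.symm hpbr), swap_comm]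
  by_cases h1 : f r = f p
  · exact gamma_case f hf X hX hfpq hpr hs h1 (fun h => hA (h1.trans h.symm)) (hB1.1 h1)
  by_cases h2 : f r' = f p
  · rw [swap_comm r r'] at hs
    exact gamma_case f hf X hX hfpq hpr' hs h2 h1 (fun h => hB1.2 h h2)
  by_cases h3 : f r = f q
  · rw [swap_comm p q] at hs
    exact gamma_case f hf X hX (Ne.symm hfpq) hqr hs h3 (fun h => hA (h3.trans h.symm)) h2
  by_cases h4 : f r' = f q
  · rw [swap_comm p q, swap_comm r r'] at hs
    exact gamma_case f hf X hX (Ne.symm hfpq) hqr' hs h4 h3 h1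
  -- four distinct fibres
  have hcard : ({f p, f q, f r, f r'} : Finset (Fin b)).card = 4 := by
    rw [Finset.card_insert_of_notMem, Finset.card_insert_of_notMem, Finset.card_insert_of_notMem,
      Finset.card_singleton]
    · simpa using hA
    · simp only [Finset.mem_insert, Finset.mem_singleton, not_or]
      exact ⟨Ne.symm h3, Ne.symm h4⟩
    · simp only [Finset.mem_insert, Finset.mem_singleton, not_or]
      exact ⟨hfpq, Ne.symm h1, Ne.symm h2⟩
  have hb : 4 ≤ b := by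
    have := Finset.card_le_univ ({f p, f q, f r, f r'} : Finset (Fin b))
    rwa [hcard, Fintype.card_fin] at this
  obtain ⟨k, hk⟩ := exists_label ({f p, f q, f r, f r'} : Finset (Fin b)) (by rw [hcard]; omega)
  simp only [Finset.mem_insert, Finset.mem_singleton, not_or] at hk
  obtain ⟨m, hm, -⟩ := exists_in_fibre f hf k ∅ (by simp)
  obtain ⟨m', hm', hmm'⟩ := exists_in_fibre f hf k {m} (by simp)
  rw [Finset.mem_singleton] at hmm'
  have hu0 := hX (swap2_mem f hpb.symm (hm.trans hm'.symm) (Ne.symm hpp) (Ne.symm hmm'))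
  have hpbr : pb ≠ r := by rintro rfl; exact h1 hpb
  have hpbr' : pb ≠ r' := by rintro rfl; exact h2 hpb
  have nm : ∀ x, f x ≠ k → x ≠ m ∧ x ≠ m' := by
    intro x hx
    exact ⟨by rintro rfl; exact hx hm, by rintro rfl; exact hx hm'⟩
  refine three_of_conj X hpq hqr hqr' hrr' hs hu0 (p1 := pb) ?_ ?_ ?_ hpp hpbr hpbr'
  · rw [Perm.mul_apply, swap_apply_of_ne_of_ne (nm p (Ne.symm hk.1)).1 (nm p (Ne.symm hk.1)).2,
      swap_apply_left]
  · rw [Perm.mul_apply, swap_apply_of_ne_of_ne (nm q (Ne.symm hk.2.1)).1 (nm q (Ne.symm hk.2.1)).2,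
      swap_apply_of_ne_of_ne (Ne.symm hpq) hqpb]
  · rw [Perm.mul_apply, Perm.mul_apply,
      swap_apply_of_ne_of_ne (nm r (Ne.symm hk.2.2.1)).1 (nm r (Ne.symm hk.2.2.1)).2,
      swap_apply_of_ne_of_ne (nm r' (Ne.symm hk.2.2.2)).1 (nm r' (Ne.symm hk.2.2.2)).2,
      swap_apply_of_ne_of_ne (Ne.symm hpr) (Ne.symm hpbr),
      swap_apply_of_ne_of_ne (Ne.symm hpr') (Ne.symm hpbr')]

theorem exists_three_two {b : ℕ} (hb3 : 3 ≤ b) (hb4 : b ≠ 4) (f : Ω → Fin b)
    (hf : ∀ i : Fin b, Nat.card {x : Ω // f x = i} = 2)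
    (X : Subgroup (Perm Ω)) (hX : W f ⊓ alternatingGroup Ω ≤ X) {h : Perm Ω} (hh : h ∈ X)
    {u v : Ω} (huv : f u = f v) (hne : f (h u) ≠ f (h v)) : ∃ c ∈ X, IsThreeCycle c := by
  have huv' : u ≠ v := by rintro rfl; exact hne rfl
  obtain ⟨k1, hk1⟩ := exists_label ({f u} : Finset (Fin b)) (by simp; omega)
  obtain ⟨k2, hk2⟩ := exists_label ({f u, k1} : Finset (Fin b))
    (lt_of_le_of_lt (Finset.card_insert_le _ _) (by simp; omega))
  simp only [Finset.mem_insert, Finset.mem_singleton, not_or] at hk1 hk2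
  -- general facts for a fibre `{z, z'}` with label `k ≠ f u`
  have gen : ∀ k : Fin b, k ≠ f u → ∃ z z', f z = k ∧ f z' = k ∧ z ≠ z' ∧
      swap (h u) (h v) * swap (h z) (h z') ∈ X ∧ h u ≠ h z ∧ h u ≠ h z' ∧ h v ≠ h z ∧ h v ≠ h z' := by
    intro k hk
    obtain ⟨z, hz, -⟩ := exists_in_fibre f hf k ∅ (by simp)
    obtain ⟨z', hz', hzz'⟩ := exists_in_fibre f hf k {z} (by simp)
    rw [Finset.mem_singleton] at hzz'
    refine ⟨z, z', hz, hz', Ne.symm hzz', ?_, ?_, ?_, ?_, ?_⟩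
    · have ht := hX (swap2_mem f huv (hz.trans hz'.symm) huv' (Ne.symm hzz'))
      have e : swap (h u) (h v) * swap (h z) (h z') = h * (swap u v * swap z z') * h⁻¹ := by
        rw [swap_apply_apply, swap_apply_apply]
        group
      rw [e]
      exact X.mul_mem (X.mul_mem hh ht) (X.inv_mem hh)
    · intro e; apply hk; rw [← hz, ← h.injective e]
    · intro e; apply hk; rw [← hz', ← h.injective e]
    · intro e; apply hk; rw [← hz, ← h.injective e, huv]
    · intro e; apply hk; rw [← hz', ← h.injective e, huv]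
  obtain ⟨z1, z1', hz1, hz1', hzz1, hs1, a1, a2, a3, a4⟩ := gen k1 hk1
  obtain ⟨z2, z2', hz2, hz2', hzz2, hs2, c1, c2, c3, c4⟩ := gen k2 hk2.1
  by_cases hB1 : (f (h z1) = f (h u) ∧ f (h z1') = f (h v)) ∨ (f (h z1) = f (h v) ∧ f (h z1') = f (h u))
  · -- then the second fibre is good
    refine core hb4 f hf X hX hne c1 c2 c3 c4 (fun e => hzz2 (h.injective e)) hs2 ?_
    intro hB2
    -- some point of the first fibre image lies over `f (h u)`, same for the second
    obtain ⟨x1, hx1, hx1k, hx1u⟩ : ∃ x1, f (h x1) = f (h u) ∧ f x1 = k1 ∧ h u ≠ h x1 := by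
      rcases hB1 with hh1 | hh1
      · exact ⟨z1, hh1.1, hz1, a1⟩
      · exact ⟨z1', hh1.2, hz1', a2⟩
    obtain ⟨x2, hx2, hx2k, hx2u⟩ : ∃ x2, f (h x2) = f (h u) ∧ f x2 = k2 ∧ h u ≠ h x2 := by
      rcases hB2 with hh1 | hh1
      · exact ⟨z2, hh1.1, hz2, c1⟩
      · exact ⟨z2', hh1.2, hz2', c2⟩
    rcases fibre_two f hf hx1 (Ne.symm hx1u) hx2 with e | e
    · exact hx2u e.symm
    · have := h.injective e
      apply hk2.2
      rw [← hx2k, this, hx1k]
  · exact core hb4 f hf X hX hne a1 a2 a3 a4 (fun e => hzz1 (h.injective e)) hs1 hB1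

def PP (τ : Perm (Fin 2 × Fin 2)) : Prop := ∀ x y : Fin 2 × Fin 2, x.1 = y.1 ↔ (τ x).1 = (τ y).1

instance : DecidablePred PP := fun τ => by unfold PP; infer_instance

set_option maxRecDepth 100000 in
theorem four : ∀ h σ : Perm (Fin 2 × Fin 2), sign h = 1 → ¬ PP h → sign σ = 1 →
    PP σ ∨ PP (σ * h⁻¹) ∨ PP (σ * h⁻¹ * h⁻¹) := by
  decide

theorem case_four (f : Ω → Fin 2) (hf : ∀ i : Fin 2, Nat.card {x : Ω // f x = i} = 2)
    (X : Subgroup (Perm Ω)) (hX : W f ⊓ alternatingGroup Ω ≤ X) (hXA : X ≤ alternatingGroup Ω)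
    {h : Perm Ω} (hh : h ∈ X) (hhW : h ∉ W f) : alternatingGroup Ω ≤ X := by
  set e := coords 2 2 f hf with he
  have he1 : ∀ x, (e x).1 = f x := fun x => rfl
  have hiff : ∀ g : Perm Ω, g ∈ W f ↔ PP (e.permCongrHom g) := by
    intro g
    constructor
    · intro hg x y
      rw [Equiv.permCongrHom_coe, Equiv.permCongr_apply, Equiv.permCongr_apply, he1, he1,
        ← hg (e.symm x) (e.symm y), ← he1, ← he1, Equiv.apply_symm_apply, Equiv.apply_symm_apply]
    · intro hg x y
      have := hg (e x) (e y)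
      rw [Equiv.permCongrHom_coe, Equiv.permCongr_apply, Equiv.permCongr_apply, he1, he1,
        Equiv.symm_apply_apply, Equiv.symm_apply_apply, he1, he1] at this
      exact this
  have hsign : ∀ g : Perm Ω, sign (e.permCongrHom g) = sign g := by
    intro g
    rw [Equiv.permCongrHom_coe, sign_permCongr]
  have hhA : sign h = 1 := hXA hh
  intro σ hσ
  have hσ1 : sign σ = 1 := hσ
  have := four (e.permCongrHom h) (e.permCongrHom σ) ((hsign h).trans hhA)
    (fun hc => hhW ((hiff h).mpr hc)) ((hsign σ).trans hσ1)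
  rw [← map_inv, ← map_mul, ← map_mul, ← hiff, ← hiff, ← hiff] at this
  rcases this with h1 | h1 | h1
  · exact hX ⟨h1, hσ⟩
  · have h2 : σ * h⁻¹ ∈ X := by
      apply hX
      refine ⟨h1, ?_⟩
      show σ * h⁻¹ ∈ alternatingGroup Ω
      exact (alternatingGroup Ω).mul_mem hσ ((alternatingGroup Ω).inv_mem (hXA hh))
    have := X.mul_mem h2 hh
    simpa using this
  · have h2 : σ * h⁻¹ * h⁻¹ ∈ X := by
      apply hX
      refine ⟨h1, ?_⟩
      show σ * h⁻¹ * h⁻¹ ∈ alternatingGroup Ω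
      exact (alternatingGroup Ω).mul_mem ((alternatingGroup Ω).mul_mem hσ
        ((alternatingGroup Ω).inv_mem (hXA hh))) ((alternatingGroup Ω).inv_mem (hXA hh))
    have := X.mul_mem (X.mul_mem h2 hh) hh
    simpa using this

theorem main (h8 : Fintype.card Ω ≠ 8) (a b : ℕ) (ha : 2 ≤ a) (hb : 2 ≤ b)
    (f : Ω → Fin b) (hf : ∀ i : Fin b, Nat.card {x : Ω // f x = i} = a)
    (X : Subgroup (Perm Ω)) (hX : W f ⊓ alternatingGroup Ω ≤ X) (hXA : X ≤ alternatingGroup Ω)
    {g : Perm Ω} (hg : g ∈ X) (hgW : g ∉ W f) : alternatingGroup Ω ≤ X := by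
  have hcard : Fintype.card Ω = b * a := by
    rw [Fintype.card_congr (coords a b f hf), Fintype.card_prod, Fintype.card_fin, Fintype.card_fin]
  by_cases hab : 3 ≤ a ∨ 3 ≤ b
  · obtain ⟨h, hh, u, v, huv, hne⟩ : ∃ h ∈ X, ∃ u v, f u = f v ∧ f (h u) ≠ f (h v) := by
      rw [mem_W] at hgW
      push Not at hgW
      obtain ⟨x, y, h | h⟩ := hgW
      · exact ⟨g, hg, x, y, h.1, h.2⟩
      · refine ⟨g⁻¹, X.inv_mem hg, g x, g y, h.2, ?_⟩
        simpa using h.1
    have hprim := preprimitive ha hb hab f hf X hX hh huv hne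
    obtain ⟨c, hc, hc3⟩ : ∃ c ∈ X, IsThreeCycle c := by
      by_cases ha3 : 3 ≤ a
      · obtain ⟨x, hx, -⟩ := exists_in_fibre f hf (f u) ∅ (by simp; omega)
        obtain ⟨y, hy, hy1⟩ := exists_in_fibre f hf (f u) {x} (by simp; omega)
        obtain ⟨z, hz, hz1⟩ := exists_in_fibre f hf (f u) {x, y}
          (lt_of_le_of_lt (Finset.card_insert_le _ _) (by simp; omega))
        simp only [Finset.mem_insert, Finset.mem_singleton, not_or] at hy1 hz1
        exact ⟨swap x y * swap x z,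
          hX (swap2_mem f (hx.trans hy.symm) (hx.trans hz.symm) (Ne.symm hy1) (Ne.symm hz1.1)),
          isThreeCycle_swap_mul_swap_same (Ne.symm hy1) (Ne.symm hz1.1) (Ne.symm hz1.2)⟩
      · have ha2 : a = 2 := by omega
        subst ha2
        have hb3 : 3 ≤ b := by omega
        have hb4 : b ≠ 4 := by
          rintro rfl
          exact h8 hcard
        exact exists_three_two hb3 hb4 f hf X hX hh huv hne
    exact alternatingGroup_le_of_isPreprimitive_of_isThreeCycle_mem hprim hc3 hc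
  · have ha2 : a = 2 := by omega
    have hb2 : b = 2 := by omega
    subst ha2 hb2
    exact case_four f hf X hX hXA hg hgW

theorem W0_ne (a b : ℕ) (ha : 2 ≤ a) (hb : 2 ≤ b)
    (f : Ω → Fin b) (hf : ∀ i : Fin b, Nat.card {x : Ω // f x = i} = a) :
    ∃ c ∈ alternatingGroup Ω, c ∉ W f := by
  obtain ⟨x, hx, -⟩ := exists_in_fibre f hf ⟨0, by omega⟩ ∅ (by simp; omega)
  obtain ⟨y, hy, hy1⟩ := exists_in_fibre f hf ⟨0, by omega⟩ {x} (by simp; omega)
  obtain ⟨z, hz, -⟩ := exists_in_fibre f hf ⟨1, by omega⟩ ∅ (by simp; omega)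
  rw [Finset.mem_singleton] at hy1
  have h01 : (⟨0, by omega⟩ : Fin b) ≠ ⟨1, by omega⟩ := by simp
  have hxz : x ≠ z := by rintro rfl; exact h01 (hx.symm.trans hz)
  have hyz : y ≠ z := by rintro rfl; exact h01 (hy.symm.trans hz)
  refine ⟨swap x y * swap x z, ?_, ?_⟩
  · rw [mem_alternatingGroup, Perm.sign_mul, sign_swap (Ne.symm hy1), sign_swap hxz]
    rfl
  · intro hc
    have h1 := (hc x y).mp (hx.trans hy.symm)
    rw [Perm.mul_apply, Perm.mul_apply, swap_apply_left, swap_apply_of_ne_of_ne hy1 hyz,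
      swap_apply_right, swap_apply_of_ne_of_ne (Ne.symm hxz) (Ne.symm hyz), hz, hx] at h1
    exact h01 h1.symm

/-- Let Ω be a finite set whose size is not 8, and f : Ω → Fin b a labelling with b ≥ 2 whose fibres all have the same size a ≥ 2 (a partition into b blocks of size a). Then the even permutations preserving the partition — the intersection of the imprimitive wreath product S_a ≀ S_b with the alternating group — form a maximal subgroup of the alternating group on Ω. -/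
theorem result {Ω : Type*} [Fintype Ω] [DecidableEq Ω] (h8 : Fintype.card Ω ≠ 8) (a b : ℕ) (ha : 2 ≤ a) (hb : 2 ≤ b)
    (f : Ω → Fin b) (hf : ∀ i : Fin b, Nat.card {x : Ω // f x = i} = a) :
    IsCoatom ((Subgroup.closure {g : Equiv.Perm Ω | ∀ x y : Ω, f x = f y ↔ f (g x) = f (g y)} ⊓ alternatingGroup Ω).subgroupOf (alternatingGroup Ω)) := by
  classical
  rw [closure_eq_W]
  constructor
  · intro htop
    obtain ⟨c, hcA, hcW⟩ := W0_ne a b ha hb f hf
    have h1 : (⟨c, hcA⟩ : alternatingGroup Ω) ∈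
        (W f ⊓ alternatingGroup Ω).subgroupOf (alternatingGroup Ω) := by
      rw [htop]; trivial
    rw [Subgroup.mem_subgroupOf] at h1
    exact hcW h1.1
  · intro Y hY
    obtain ⟨y, hyY, hyW⟩ := SetLike.exists_of_lt hY
    have hX : W f ⊓ alternatingGroup Ω ≤ Y.map (alternatingGroup Ω).subtype := by
      intro w hw
      refine ⟨⟨w, hw.2⟩, hY.le ?_, rfl⟩
      rw [Subgroup.mem_subgroupOf]
      exact hw
    have hXA : Y.map (alternatingGroup Ω).subtype ≤ alternatingGroup Ω := by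
      rintro _ ⟨w, -, rfl⟩
      exact w.2
    have hy1 : (y : Perm Ω) ∈ Y.map (alternatingGroup Ω).subtype := ⟨y, hyY, rfl⟩
    have hy2 : (y : Perm Ω) ∉ W f := by
      intro hc
      apply hyW
      rw [Subgroup.mem_subgroupOf]
      exact ⟨hc, y.2⟩
    have hfin := main h8 a b ha hb f hf _ hX hXA hy1 hy2
    rw [eq_top_iff]
    intro w _
    obtain ⟨w', hw', hww'⟩ := hfin w.2
    have : w' = w := Subtype.ext hww'
    rw [← this]
    exact hw'

end Cfsg.Agent.S5909
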