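import Cfsg.Statements.S5910
import Cfsg.Agent.S5905

set_option autoImplicit false
open Cfsg

namespace Cfsg.Agent.S5910

open Equiv Equiv.Perm

abbrev U := ZMod 2 × ZMod 2
abbrev V := U × ZMod 2

theorem perm2 : ∀ τ : Perm (ZMod 2), (∀ c, τ c = c + τ 0) ∧ sign τ = if τ 0 = 0 then 1 else -1 := by
  decide

theorem permU : ∀ σ : Perm U, ∀ a b c, σ (a + b + c) = σ a + σ b + σ c := by
  decide

theorem funU : ∀ h : U → ZMod 2, (∏ u, (if h u = 0 then (1 : ℤˣ) else -1)) = 1 →
    ∀ a b c, h (a + b + c) = h a + h b + h c := by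
  decide

/-- the affine group of `𝔽₂³` -/
def Aff : Subgroup (Perm V) where
  carrier := {g | ∀ x y z, g (x + y + z) = g x + g y + g z}
  mul_mem' {g h} hg hh x y z := by
    simp only [Perm.mul_apply]
    rw [hh, hg]
  one_mem' x y z := rfl
  inv_mem' {g} hg x y z := by
    apply g.injective
    rw [hg]
    simp

theorem mem_Aff (g : Perm V) : g ∈ Aff ↔ ∀ x y z, g (x + y + z) = g x + g y + g z := Iff.rfl

/-- an even permutation preserving the fibres of the first projection is affine -/
theorem mem_Aff_of_even (g : Perm V) (hg : ∀ x y : V, x.1 = y.1 ↔ (g x).1 = (g y).1)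
    (hs : sign g = 1) : g ∈ Aff := by
  classical
  -- induced permutation on blocks
  have hinj : Function.Injective (fun u : U => (g (u, 0)).1) := by
    intro u u' h
    exact (hg (u, 0) (u', 0)).mpr h
  let gb : Perm U := Equiv.ofBijective _ (Finite.injective_iff_bijective.mp hinj)
  have hgb : ∀ u c, (g (u, c)).1 = gb u := fun u c => (hg (u, c) (u, 0)).mp rfl
  have hinj2 : ∀ u : U, Function.Injective (fun c : ZMod 2 => (g (u, c)).2) := by
    intro u c c' h
    have h1 : g (u, c) = g (u, c') := Prod.ext ((hgb u c).trans (hgb u c').symm) h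
    have := g.injective h1
    exact (Prod.ext_iff.mp this).2
  let τ : U → Perm (ZMod 2) := fun u => Equiv.ofBijective _ (Finite.injective_iff_bijective.mp (hinj2 u))
  have hτ : ∀ u c, (g (u, c)).2 = τ u c := fun u c => rfl
  have hdec : g = prodCongrLeft (fun _ : ZMod 2 => gb) * prodCongrRight τ := by
    ext ⟨u, c⟩ : 1
    apply Prod.ext
    · simp [Perm.mul_apply, prodCongrLeft, prodCongrRight, hgb]
    · simp [Perm.mul_apply, prodCongrLeft, prodCongrRight, hτ]
  have hsign : ∏ u, sign (τ u) = 1 := by
    rw [hdec, Perm.sign_mul, sign_prodCongrLeft, sign_prodCongrRight] at hs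
    have h2 : ∏ _k : ZMod 2, sign gb = 1 := by
      rw [Finset.prod_const]
      have : (Finset.univ : Finset (ZMod 2)).card = 2 := by decide
      rw [this]
      rcases Int.units_eq_one_or (sign gb) with h | h <;> rw [h] <;> decide
    rw [h2, one_mul] at hs
    exact hs
  let h : U → ZMod 2 := fun u => τ u 0
  have hh : (∏ u, (if h u = 0 then (1 : ℤˣ) else -1)) = 1 := by
    refine Eq.trans ?_ hsign
    exact Finset.prod_congr rfl (fun u _ => ((perm2 (τ u)).2).symm)
  have hform : ∀ u c, g (u, c) = (gb u, c + h u) := by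
    intro u c
    apply Prod.ext
    · exact hgb u c
    · rw [hτ]; exact (perm2 (τ u)).1 c
  rintro ⟨a, x⟩ ⟨b, y⟩ ⟨c, z⟩
  show g (a + b + c, x + y + z) = g (a, x) + g (b, y) + g (c, z)
  rw [hform, hform, hform, hform]
  apply Prod.ext
  · exact permU gb a b c
  · show x + y + z + h (a + b + c) = x + h a + (y + h b) + (z + h c)
    rw [funU h hh a b c]
    abel

/-- cyclic shift of the three coordinates -/
def kap : Perm V where
  toFun v := ((v.2, v.1.1), v.1.2)
  invFun v := ((v.1.2, v.2), v.1.1)
  left_inv _ := rfl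
  right_inv _ := rfl

theorem kap_mem : kap ∈ Aff := fun _ _ _ => rfl

theorem kap_sign : sign kap = 1 := by
  have h3 : kap ^ 3 = 1 := by
    ext v : 1
    rfl
  have h4 : sign kap ^ 3 = 1 := by rw [← map_pow, h3, map_one]
  rcases Int.units_eq_one_or (sign kap) with h | h
  · exact h
  · rw [h] at h4
    exact absurd h4 (by decide)

/-- a three-cycle -/
def c3 : Perm V := swap ((0, 0), 0) ((1, 0), 0) * swap ((1, 0), 0) ((0, 0), 1)

theorem c3_sign : sign c3 = 1 := by
  rw [c3, Perm.sign_mul, sign_swap (by decide), sign_swap (by decide)]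
  rfl

theorem c3_not_mem : c3 ∉ Aff := by
  rw [mem_Aff]
  decide

/-- Let Ω be a set with 8 elements and f : Ω → Fin 4 a labelling whose four fibres all have size 2 (a partition of the 8 points into 4 pairs). Then the group of even permutations preserving this partition, (S₂ ≀ S₄) ∩ A₈, is not a maximal subgroup of the alternating group A₈ (it lies in a subgroup isomorphic to the affine group AGL₃(2)). -/
theorem result {Ω : Type*} [Fintype Ω] [DecidableEq Ω] (h8 : Fintype.card Ω = 8)
    (f : Ω → Fin 4) (hf : ∀ i : Fin 4, Nat.card {x : Ω // f x = i} = 2) :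
    ¬ IsCoatom ((Subgroup.closure {g : Equiv.Perm Ω | ∀ x y : Ω, f x = f y ↔ f (g x) = f (g y)} ⊓ alternatingGroup Ω).subgroupOf (alternatingGroup Ω)) := by
  classical
  rw [S5905.closure_eq_W]
  have hU : Fintype.card (Fin 4) = Fintype.card U := by decide
  let e0 : Fin 4 ≃ U := Fintype.equivOfCardEq hU
  let e : Ω ≃ V := (S5905.coords 2 4 f hf).trans (Equiv.prodCongr e0 (Equiv.refl (Fin 2)))
  have he1 : ∀ x, (e x).1 = e0 (f x) := fun x => rfl
  have he : ∀ x y, (e x).1 = (e y).1 ↔ f x = f y := by
    intro x y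
    rw [he1, he1, e0.injective.eq_iff]
  let K : Subgroup (Perm Ω) := Aff.comap e.permCongrHom.toMonoidHom
  have hK : ∀ g : Perm Ω, g ∈ K ↔ e.permCongr g ∈ Aff := fun g => Iff.rfl
  have hWK : S5905.W f ⊓ alternatingGroup Ω ≤ K := by
    rintro g ⟨hgW, hgA⟩
    rw [hK]
    apply mem_Aff_of_even
    · intro x y
      rw [Equiv.permCongr_apply, Equiv.permCongr_apply, he, ← hgW (e.symm x) (e.symm y), ← he,
        Equiv.apply_symm_apply, Equiv.apply_symm_apply]
    · rw [sign_permCongr]
      exact hgA
  rintro ⟨-, hmax⟩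
  have hlt : (S5905.W f ⊓ alternatingGroup Ω).subgroupOf (alternatingGroup Ω) <
      (K ⊓ alternatingGroup Ω).subgroupOf (alternatingGroup Ω) := by
    refine lt_of_le_of_ne ?_ ?_
    · intro x hx
      rw [Subgroup.mem_subgroupOf] at hx ⊢
      exact ⟨hWK hx, hx.2⟩
    · intro heq
      let k : Perm Ω := e.symm.permCongr kap
      have hkA : k ∈ alternatingGroup Ω := by
        rw [mem_alternatingGroup, sign_permCongr, kap_sign]
      have hkK : k ∈ K := by
        rw [hK]
        have : e.permCongr k = kap := by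
          ext v : 1
          simp [k, Equiv.permCongr_apply]
        rw [this]
        exact kap_mem
      have h1 : (⟨k, hkA⟩ : alternatingGroup Ω) ∈
          (K ⊓ alternatingGroup Ω).subgroupOf (alternatingGroup Ω) := by
        rw [Subgroup.mem_subgroupOf]
        exact ⟨hkK, hkA⟩
      rw [← heq, Subgroup.mem_subgroupOf] at h1
      have h2 := (h1.1 (e.symm ((0, 0), 0)) (e.symm ((0, 0), 1)))
      rw [← he, ← he] at h2
      simp only [k, Equiv.permCongr_apply, Equiv.apply_symm_apply, Equiv.symm_symm] at h2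
      exact absurd (h2.mp trivial) (by decide)
  have htop := hmax _ hlt
  let c : Perm Ω := e.symm.permCongr c3
  have hcA : c ∈ alternatingGroup Ω := by
    rw [mem_alternatingGroup, sign_permCongr, c3_sign]
  have h1 : (⟨c, hcA⟩ : alternatingGroup Ω) ∈
      (K ⊓ alternatingGroup Ω).subgroupOf (alternatingGroup Ω) := by
    rw [htop]; trivial
  rw [Subgroup.mem_subgroupOf] at h1
  have h2 : e.permCongr c ∈ Aff := (hK c).mp h1.1
  have : e.permCongr c = c3 := by
    ext v : 1
    simp [c, Equiv.permCongr_apply]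
  rw [this] at h2
  exact c3_not_mem h2

end Cfsg.Agent.S5910
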