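import Cfsg.Statements.S5945

set_option autoImplicit false
open Cfsg
open Equiv Equiv.Perm MulAction
open scoped Pointwise

namespace Cfsg.Agent.S5945

section general
variable {α : Type*} [Fintype α] [DecidableEq α]

lemma five_cycle (hα : Fintype.card α = 6) (c : Perm α) (hc : orderOf c = 5) :
    c.IsCycle ∧ ∃ a, ∀ x, c x = x ↔ x = a := by
  obtain ⟨k, hk⟩ := cycleType_prime_order (σ := c) (by rw [hc]; norm_num)
  have hsum : c.cycleType.sum = c.support.card := sum_cycleType c
  have hle : c.support.card ≤ 6 := hα ▸ Finset.card_le_univ _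
  rw [hk, hc] at hsum
  simp at hsum
  have hk0 : k = 0 := by omega
  subst hk0
  have hcyc : c.IsCycle := by rw [← card_cycleType_eq_one, hk]; simp
  refine ⟨hcyc, ?_⟩
  have hcompl : (c.supportᶜ).card = 1 := by rw [Finset.card_compl, hα, ← hsum]; norm_num
  obtain ⟨a, ha⟩ := Finset.card_eq_one.mp hcompl
  refine ⟨a, fun x => ?_⟩
  have : x ∈ c.supportᶜ ↔ x = a := by rw [ha]; simp
  rw [← this]; simp

lemma card_of_index_six (hα : Fintype.card α = 6) (H : Subgroup (Perm α)) (hH : H.index = 6) :
    Nat.card H = 120 := by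
  have h := H.card_mul_index
  rw [hH, Nat.card_perm, Nat.card_eq_fintype_card (α := α), hα] at h
  have : Nat.factorial 6 = 720 := by decide
  omega

lemma preprimitive_of_trans (hα : Fintype.card α = 6) (H : Subgroup (Perm α)) (hH : H.index = 6)
    [IsPretransitive H α] : IsPreprimitive H α := by
  have hcard := card_of_index_six hα H hH
  haveI : Fact (Nat.Prime 5) := ⟨by norm_num⟩
  obtain ⟨c, hc⟩ := exists_prime_orderOf_dvd_card' (G := H) 5 (by rw [hcard]; norm_num)
  have hc' : orderOf (c : Perm α) = 5 := by rw [Subgroup.orderOf_coe]; exact hc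
  obtain ⟨hcyc, a, ha⟩ := five_cycle hα c hc'
  apply IsPreprimitive.of_isTrivialBlock_base a
  intro B haB hB
  by_cases hsub : B.Subsingleton
  · left; exact hsub
  right
  obtain ⟨x, hxB, hxa⟩ : ∃ x ∈ B, x ≠ a := by
    by_contra h
    push Not at h
    exact hsub (fun u hu v hv => (h u hu).trans (h v hv).symm)
  have hca : c • a = a := (ha a).mpr rfl
  have hcB : c ∈ stabilizer H B := by
    rw [mem_stabilizer_iff]
    exact (isBlock_iff_smul_eq_of_mem.mp hB) haB (by rw [hca]; exact haB)
  ext y
  simp only [Set.mem_univ, iff_true]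
  by_cases hya : y = a
  · rw [hya]; exact haB
  have hsc : SameCycle (c : Perm α) x y :=
    hcyc.sameCycle (by rw [Ne, ha]; exact hxa) (by rw [Ne, ha]; exact hya)
  obtain ⟨k, hk⟩ := hsc
  have hck : c ^ k ∈ stabilizer H B := Subgroup.zpow_mem _ hcB k
  rw [mem_stabilizer_iff] at hck
  rw [← hck, ← hk]
  exact ⟨x, hxB, by simp [Subgroup.smul_def]⟩

lemma index_stabilizer_finset (s : Finset α) :
    (stabilizer (Perm α) (s : Set α)).index = (Fintype.card α).choose s.card := by
  let s' : Set.powersetCard α s.card := ⟨s, rfl⟩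
  have h1 : stabilizer (Perm α) s' = stabilizer (Perm α) (s : Set α) := Set.powersetCard.stabilizer_coe s'
  haveI : IsPretransitive (Perm α) (Set.powersetCard α s.card) := Set.powersetCard.isPretransitive
  rw [← h1, index_stabilizer_of_transitive, Set.powersetCard.card, Nat.card_eq_fintype_card]

lemma eq_stabilizer_of_le (hα : Fintype.card α = 6) (H : Subgroup (Perm α)) (hH : H.index = 6) (a : α)
    (hle : H ≤ stabilizer (Perm α) a) : H = stabilizer (Perm α) a := by
  have h1 : (stabilizer (Perm α) a).index = 6 := by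
    rw [index_stabilizer_of_transitive, Nat.card_eq_fintype_card, hα]
  have h2 := Subgroup.relIndex_mul_index hle
  rw [h1, hH] at h2
  have h3 : H.relIndex (stabilizer (Perm α) a) = 1 := by omega
  exact le_antisymm hle (Subgroup.relIndex_eq_one.mp h3)

lemma lemmaA (hα : Fintype.card α = 6) (H : Subgroup (Perm α)) (hH : H.index = 6)
    (hswap : ∃ g ∈ H, g.IsSwap) : ∃ a : α, H = stabilizer (Perm α) a := by
  by_cases htr : IsPretransitive H α
  · exfalso
    have hprim := preprimitive_of_trans hα H hH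
    obtain ⟨g, hg, hgs⟩ := hswap
    have := subgroup_eq_top_of_isPreprimitive_of_isSwap_mem hprim g hgs hg
    rw [this] at hH
    simp at hH
  · -- some orbit is proper
    have : ∃ a : α, orbit H a ≠ Set.univ := by
      by_contra h
      push Not at h
      apply htr
      haveI : Nonempty α := Fintype.card_pos_iff.mp (by omega)
      obtain ⟨a⟩ := this
      rw [isPretransitive_iff_base a]
      intro y
      have : y ∈ orbit H a := by rw [h a]; trivial
      exact this
    obtain ⟨a, ha⟩ := this
    set s : Finset α := (Set.toFinite (orbit H a)).toFinset with hs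
    have hsco : (s : Set α) = orbit H a := by simp [hs]
    have hle : H ≤ stabilizer (Perm α) (s : Set α) := by
      intro h hh
      rw [mem_stabilizer_iff, hsco]
      exact smul_orbit (⟨h, hh⟩ : H) a
    have hdvd := Subgroup.index_dvd_of_le hle
    rw [index_stabilizer_finset, hα, hH] at hdvd
    have has : a ∈ s := by rw [← Finset.mem_coe, hsco]; exact mem_orbit_self a
    have hpos : 0 < s.card := Finset.card_pos.mpr ⟨a, has⟩
    have hlt : s.card < 6 := by
      rw [← hα]
      obtain ⟨z, hz⟩ := (Set.ne_univ_iff_exists_notMem _).mp ha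
      apply Finset.card_lt_univ_of_notMem (x := z)
      rw [← hsco] at hz
      simpa using hz
    have hk : s.card = 1 ∨ s.card = 5 := by
      generalize s.card = k at *
      interval_cases k <;> simp_all <;> revert hdvd <;> decide
    rcases hk with hk | hk
    · obtain ⟨b, hb⟩ := Finset.card_eq_one.mp hk
      have hab : a = b := by rw [hb] at has; simpa using has
      subst hab
      refine ⟨a, eq_stabilizer_of_le hα H hH a ?_⟩
      intro h hh
      have h1 : h • a ∈ (s : Set α) := by
        rw [hsco]; exact ⟨⟨h, hh⟩, rfl⟩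
      rw [hb] at h1
      simpa using h1
    · have hc : (sᶜ).card = 1 := by rw [Finset.card_compl, hα, hk]
      obtain ⟨b, hb⟩ := Finset.card_eq_one.mp hc
      refine ⟨b, eq_stabilizer_of_le hα H hH b ?_⟩
      intro h hh
      have h1 := hle hh
      rw [mem_stabilizer_iff] at h1 ⊢
      have hbs : b ∉ s := by
        have : b ∈ sᶜ := by rw [hb]; simp
        simpa using this
      have h2 : h • b ∉ s := by
        intro hmem
        have : h • b ∈ h • (s : Set α) := by rw [h1]; exact hmem
        rw [Set.smul_mem_smul_set_iff] at this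
        exact hbs this
      have : h • b ∈ sᶜ := by simpa using h2
      rw [hb] at this
      simpa using this


lemma isSwap_of_isConj {a b : Perm α} (h : IsConj a b) (ha : a.IsSwap) : b.IsSwap := by
  rw [← card_support_eq_two, ← sum_cycleType] at ha ⊢
  rw [← isConj_iff_cycleType_eq.mp h]; exact ha

lemma exists_third (hα : Fintype.card α = 6) (y z : α) : ∃ w : α, w ≠ y ∧ w ≠ z := by
  have h : ({y, z} : Finset α).card < (Finset.univ : Finset α).card := by
    rw [Finset.card_univ, hα]
    exact lt_of_le_of_lt (Finset.card_le_two) (by norm_num)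
  obtain ⟨w, -, hw⟩ := Finset.exists_mem_notMem_of_card_lt_card h
  simp at hw
  exact ⟨w, hw.1, hw.2⟩

end general

local notation "G6" => Perm (Fin 6)

section coset
open Classical

def NoSwap (H : Subgroup G6) : Prop := ∀ g ∈ H, ¬ g.IsSwap

variable (H : Subgroup G6)

lemma phi_injective (hH : H.index = 6) : Function.Injective (toPermHom G6 (G6 ⧸ H)) := by
  rw [← MonoidHom.ker_eq_bot_iff, ← Subgroup.normalCore_eq_ker]
  by_contra hN
  have hN' : Nontrivial H.normalCore := (Subgroup.nontrivial_iff_ne_bot _).mpr hN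
  have hle : alternatingGroup (Fin 6) ≤ H.normalCore := alternatingGroup_le_of_normal (by simp) hN'
  have hdvd := Subgroup.index_dvd_of_le (hle.trans (Subgroup.normalCore_le H))
  rw [alternatingGroup.index_eq_two, hH] at hdvd
  norm_num at hdvd

lemma card_quot (hH : H.index = 6) : Fintype.card (G6 ⧸ H) = 6 := by
  rw [← Nat.card_eq_fintype_card]; exact hH

lemma phi_bijective (hH : H.index = 6) : Function.Bijective (toPermHom G6 (G6 ⧸ H)) := by
  apply (Nat.bijective_iff_injective_and_card _).mpr ⟨phi_injective H hH, ?_⟩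
  rw [Nat.card_perm, Nat.card_perm, Nat.card_fin]
  have : Nat.card (G6 ⧸ H) = 6 := hH
  rw [this]

lemma no_fix (hns : NoSwap H) (g : G6) (hg : g.IsSwap) (x : G6 ⧸ H) : g • x ≠ x := by
  induction x using QuotientGroup.induction_on with
  | H c =>
    intro h
    rw [MulAction.Quotient.smul_mk, QuotientGroup.eq] at h
    apply hns _ h
    have : (g • c)⁻¹ * c = c⁻¹ * g⁻¹ * (c⁻¹)⁻¹ := by simp [mul_assoc]
    rw [this, ← card_support_eq_two, card_support_conj, support_inv, card_support_eq_two]
    exact hg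

lemma cycleType_of_phi_swap (hH : H.index = 6) (hns : NoSwap H) (g : G6)
    (hg : (toPermHom G6 (G6 ⧸ H) g).IsSwap) : g.cycleType = {2, 2, 2} := by
  set φ := toPermHom G6 (G6 ⧸ H) with hφdef
  have hinj := phi_injective H hH
  have hg' := hg
  obtain ⟨y, z, hyz, hφ⟩ := hg
  have hg2 : g ^ 2 = 1 := hinj (by rw [map_pow, hφ, map_one, sq, swap_mul_self])
  have hg1 : g ≠ 1 := by
    rintro rfl
    rw [map_one] at hφ
    have := congrArg (fun f : Perm (G6 ⧸ H) => f y) hφ
    simp at this
    exact hyz this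
  have hord : orderOf g = 2 := orderOf_eq_prime hg2 hg1
  obtain ⟨k, hk⟩ := cycleType_prime_order (σ := g) (by rw [hord]; exact Nat.prime_two)
  rw [hord] at hk
  have hsum := sum_cycleType_le g
  rw [hk] at hsum
  simp at hsum
  have : k = 0 ∨ k = 1 ∨ k = 2 := by omega
  rcases this with rfl | rfl | rfl
  · exfalso
    have hsw : g.IsSwap := by rw [← card_support_eq_two, ← sum_cycleType, hk]; simp
    obtain ⟨w, hwy, hwz⟩ := exists_third (card_quot H hH) y z
    apply no_fix H hns g hsw w
    change φ g w = w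
    rw [hφ, swap_apply_of_ne_of_ne hwy hwz]
  · exfalso
    let u : G6 := swap 0 1 * swap 2 3
    let v : G6 := swap 1 2 * swap 3 4
    have hu : u.cycleType = {2, 2} := by decide
    have hv : v.cycleType = {2, 2} := by decide
    have hgu : IsConj g u := isConj_iff_cycleType_eq.mpr (hk.trans hu.symm)
    have hgv : IsConj g v := isConj_iff_cycleType_eq.mpr (hk.trans hv.symm)
    have hφu : (φ u).IsSwap := isSwap_of_isConj (φ.map_isConj hgu) hg'
    have hφv : (φ v).IsSwap := isSwap_of_isConj (φ.map_isConj hgv) hg'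
    have h5 : orderOf (u * v) = 5 := by
      haveI : Fact (Nat.Prime 5) := ⟨by norm_num⟩
      exact orderOf_eq_prime (by decide) (by decide)
    have h5' : orderOf (φ (u * v)) = 5 := by rw [orderOf_injective φ hinj]; exact h5
    obtain ⟨k', hk'⟩ := cycleType_prime_order (σ := φ (u * v)) (by rw [h5']; norm_num)
    have h1 : 5 ≤ (φ (u * v)).support.card := by
      rw [← sum_cycleType, hk', h5']; simp
    have h2 : (φ (u * v)).support.card ≤ 4 := by
      rw [map_mul]
      calc _ ≤ ((φ u).support ∪ (φ v).support).card := Finset.card_le_card (support_mul_le _ _)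
        _ ≤ (φ u).support.card + (φ v).support.card := Finset.card_union_le _ _
        _ = 2 + 2 := by rw [card_support_eq_two.mpr hφu, card_support_eq_two.mpr hφv]
    omega
  · rw [hk]; rfl

lemma phi_swap_of_cycleType (hH : H.index = 6) (hns : NoSwap H) (g : G6)
    (hg : g.cycleType = {2, 2, 2}) : (toPermHom G6 (G6 ⧸ H) g).IsSwap := by
  obtain ⟨y⟩ : Nonempty (G6 ⧸ H) := ⟨((1 : G6) : G6 ⧸ H)⟩
  obtain ⟨z, hyz, -⟩ := exists_third (card_quot H hH) y y
  obtain ⟨g', hg'⟩ := (phi_bijective H hH).2 (swap y z)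
  have h1 : (toPermHom G6 (G6 ⧸ H) g').IsSwap := ⟨y, z, hyz.symm, hg'⟩
  have h2 := cycleType_of_phi_swap H hH hns g' h1
  have : IsConj g' g := isConj_iff_cycleType_eq.mpr (h2.trans hg.symm)
  exact isSwap_of_isConj ((toPermHom G6 (G6 ⧸ H)).map_isConj this) h1

lemma lemmaC (H₁ H₂ : Subgroup G6) (h₁ : H₁.index = 6) (h₂ : H₂.index = 6)
    (hns₁ : NoSwap H₁) (hns₂ : NoSwap H₂) : ∃ x : G6 ⧸ H₂, H₁ = stabilizer G6 x := by
  set x₀ : G6 ⧸ H₁ := ((1 : G6) : G6 ⧸ H₁) with hx₀
  obtain ⟨y, hy, -⟩ := exists_third (card_quot H₁ h₁) x₀ x₀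
  obtain ⟨z, hz, hzy⟩ := exists_third (card_quot H₁ h₁) x₀ y
  obtain ⟨g, hg⟩ := (phi_bijective H₁ h₁).2 (swap y z)
  have hgH : g ∈ H₁ := by
    have h : g • x₀ = x₀ := by
      change toPermHom G6 (G6 ⧸ H₁) g x₀ = x₀
      rw [hg, swap_apply_of_ne_of_ne hy.symm hz.symm]
    rw [← MulAction.stabilizer_quotient H₁]; exact h
  have hct := cycleType_of_phi_swap H₁ h₁ hns₁ g ⟨y, z, hzy.symm, hg⟩
  have hsw := phi_swap_of_cycleType H₂ h₂ hns₂ g hct
  have hKidx : (H₁.map (toPermHom G6 (G6 ⧸ H₂))).index = 6 := by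
    rw [Subgroup.index_map_of_bijective (phi_bijective H₂ h₂)]; exact h₁
  obtain ⟨x, hx⟩ := lemmaA (card_quot H₂ h₂) _ hKidx ⟨_, Subgroup.mem_map_of_mem _ hgH, hsw⟩
  refine ⟨x, ?_⟩
  ext h
  constructor
  · intro hh
    have : toPermHom G6 (G6 ⧸ H₂) h ∈ H₁.map (toPermHom G6 (G6 ⧸ H₂)) := Subgroup.mem_map_of_mem _ hh
    rw [hx] at this
    exact this
  · intro hh
    have : toPermHom G6 (G6 ⧸ H₂) h ∈ stabilizer (Perm (G6 ⧸ H₂)) x := hh
    rw [← hx] at this
    obtain ⟨h', hh', he⟩ := this
    rw [← phi_injective H₂ h₂ he]; exact hh'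

end coset

section exotic
open Classical

local notation "P5" => Perm (Fin 5)

instance fact5 : Fact (Nat.Prime 5) := ⟨by norm_num⟩

lemma card_P5 : Nat.card P5 = 120 := by
  rw [Nat.card_perm, Nat.card_fin]; decide

lemma card_sylow5 : Nat.card (Sylow 5 P5) = 6 := by
  obtain ⟨P⟩ : Nonempty (Sylow 5 P5) := inferInstance
  have h1 : Nat.card (Sylow 5 P5) ≡ 1 [MOD 5] := card_sylow_modEq_one 5 P5
  have h2 : Nat.card (Sylow 5 P5) ∣ 120 := by
    rw [← card_P5]
    exact (P.card_dvd_index).trans (Subgroup.index_dvd_card _)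
  have h3 : Nat.card (Sylow 5 P5) ≠ 1 := by
    intro h
    haveI : Subsingleton (Sylow 5 P5) := (Nat.card_eq_one_iff_unique.mp h).1
    haveI hn : (P : Subgroup P5).Normal := P.normal_of_subsingleton
    have hne : (P : Subgroup P5) ≠ ⊥ := P.ne_bot_of_dvd_card (by rw [card_P5]; norm_num)
    have hle : alternatingGroup (Fin 5) ≤ (P : Subgroup P5) :=
      alternatingGroup_le_of_normal (by simp) ((Subgroup.nontrivial_iff_ne_bot _).mpr hne)
    have hd := Subgroup.card_dvd_of_le hle
    obtain ⟨k, hk⟩ := (IsPGroup.iff_card.mp P.isPGroup')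
    rw [hk] at hd
    have h60 : Nat.card (alternatingGroup (Fin 5)) = 60 := by
      have := two_mul_nat_card_alternatingGroup (α := Fin 5)
      rw [card_P5] at this
      omega
    rw [h60] at hd
    have : 2 ∣ 5 ^ k := Dvd.dvd.trans (by norm_num) hd
    have := Nat.Prime.dvd_of_dvd_pow Nat.prime_two this
    norm_num at this
  have h4 : Nat.card (Sylow 5 P5) ≤ 120 := Nat.le_of_dvd (by norm_num) h2
  generalize Nat.card (Sylow 5 P5) = n at *
  unfold Nat.ModEq at h1
  interval_cases n <;> simp_all <;> omega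


lemma rho_injective : Function.Injective (toPermHom P5 (Sylow 5 P5)) := by
  rw [← MonoidHom.ker_eq_bot_iff]
  by_contra hN
  have hN' : Nontrivial (toPermHom P5 (Sylow 5 P5)).ker := (Subgroup.nontrivial_iff_ne_bot _).mpr hN
  have hle : alternatingGroup (Fin 5) ≤ (toPermHom P5 (Sylow 5 P5)).ker :=
    alternatingGroup_le_of_normal (by simp) hN'
  obtain ⟨P⟩ : Nonempty (Sylow 5 P5) := inferInstance
  have hle2 : (toPermHom P5 (Sylow 5 P5)).ker ≤ stabilizer P5 P := by
    intro g hg
    rw [MonoidHom.mem_ker] at hg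
    rw [mem_stabilizer_iff]
    have := congrArg (fun f : Perm (Sylow 5 P5) => f P) hg
    exact this
  have hdvd := Subgroup.index_dvd_of_le (hle.trans hle2)
  rw [alternatingGroup.index_eq_two, index_stabilizer_of_transitive, card_sylow5] at hdvd
  norm_num at hdvd

/-- the exotic embedding of `S_5` in `S_6`. -/
noncomputable def rho' : P5 →* G6 :=
  ((Finite.equivFinOfCardEq card_sylow5).permCongrHom.toMonoidHom).comp (toPermHom P5 (Sylow 5 P5))

lemma rho'_injective : Function.Injective rho' := by
  unfold rho'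
  rw [MonoidHom.coe_comp]
  exact (MulEquiv.injective _).comp rho_injective

noncomputable def H0 : Subgroup G6 := rho'.range

lemma H0_index : H0.index = 6 := by
  have h1 : Nat.card H0 = 120 := by
    rw [← card_P5]
    exact (Nat.card_congr (MonoidHom.ofInjective rho'_injective).toEquiv).symm
  have h2 := H0.card_mul_index
  rw [h1, Nat.card_perm, Nat.card_fin] at h2
  have : Nat.factorial 6 = 720 := by decide
  omega

lemma H0_trans (a b : Fin 6) : ∃ h ∈ H0, h a = b := by
  set e := Finite.equivFinOfCardEq card_sylow5 with he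
  obtain ⟨g, hg⟩ := exists_smul_eq P5 (e.symm a) (e.symm b)
  refine ⟨rho' g, ⟨g, rfl⟩, ?_⟩
  change e (g • e.symm a) = b
  rw [hg]; simp

lemma H0_ne_stab (a : Fin 6) : H0 ≠ stabilizer G6 a := by
  intro h
  obtain ⟨b, hb⟩ : ∃ b : Fin 6, b ≠ a := exists_ne a
  obtain ⟨g, hg, hgab⟩ := H0_trans a b
  rw [h, mem_stabilizer_iff] at hg
  exact hb (hgab.symm.trans hg)

lemma H0_noSwap : NoSwap H0 := by
  intro g hg hsw
  obtain ⟨a, ha⟩ := lemmaA (by simp) H0 H0_index ⟨g, hg, hsw⟩
  exact H0_ne_stab a ha

end exotic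

section final
open Classical

lemma iso_S5 (H : Subgroup G6) (hH : H.index = 6) : Nonempty (H ≃* Perm (Fin 5)) := by
  set x₀ : G6 ⧸ H := ((1 : G6) : G6 ⧸ H) with hx₀
  have hfix : ∀ h : H, toPermHom G6 (G6 ⧸ H) (h : G6) x₀ = x₀ := by
    intro h
    have : (h : G6) ∈ stabilizer G6 x₀ := by rw [stabilizer_quotient]; exact h.2
    exact this
  let ρ : H →* Perm {y : G6 ⧸ H // y ≠ x₀} :=
    { toFun := fun h => (toPermHom G6 (G6 ⧸ H) (h : G6)).subtypePerm (fun y =>
        not_congr ⟨fun e => (toPermHom G6 (G6 ⧸ H) (h : G6)).injective (e.trans (hfix h).symm),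
          fun e => e ▸ hfix h⟩)
      map_one' := by ext; simp
      map_mul' := by
        intro a b; ext y
        change ((a : G6) * (b : G6)) • (y : G6 ⧸ H) = (a : G6) • ((b : G6) • (y : G6 ⧸ H))
        exact mul_smul _ _ _ }
  have hinj : Function.Injective ρ := by
    rw [injective_iff_map_eq_one]
    intro h hh
    have h1 : toPermHom G6 (G6 ⧸ H) (h : G6) = 1 := by
      ext y
      by_cases hy : y = x₀
      · rw [hy]; exact hfix h
      · have := congrArg (fun f : Perm {y : G6 ⧸ H // y ≠ x₀} => ((f ⟨y, hy⟩ : {y : G6 ⧸ H // y ≠ x₀}) : G6 ⧸ H)) hh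
        exact this
    have h2 : (h : G6) = 1 := phi_injective H hH (by rw [h1, map_one])
    exact Subtype.ext h2
  have hc5 : Fintype.card {y : G6 ⧸ H // y ≠ x₀} = 5 := by
    have := Set.card_ne_eq x₀
    rw [card_quot H hH] at this
    exact this
  have hbij : Function.Bijective ρ := by
    apply (Nat.bijective_iff_injective_and_card _).mpr ⟨hinj, ?_⟩
    rw [card_of_index_six (by simp) H hH, Nat.card_perm, Nat.card_eq_fintype_card, hc5]
    decide
  exact ⟨(MulEquiv.ofBijective ρ hbij).trans (Fintype.equivFinOfCardEq hc5).permCongrHom⟩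

lemma stab_index (a : Fin 6) : (stabilizer G6 a).index = 6 := by
  rw [index_stabilizer_of_transitive]; simp

lemma stab_index' (x : G6 ⧸ H0) : (stabilizer G6 x).index = 6 := by
  rw [index_stabilizer_of_transitive]; exact H0_index

noncomputable def Psi : Fin 6 ⊕ (G6 ⧸ H0) → {H : Subgroup G6 // H.index = 6}
  | Sum.inl a => ⟨stabilizer G6 a, stab_index a⟩
  | Sum.inr x => ⟨stabilizer G6 x, stab_index' x⟩

lemma Psi_bijective : Function.Bijective Psi := by
  constructor
  · rintro (a | x) (b | y) h
    · have h' : stabilizer G6 a = stabilizer G6 b := congrArg Subtype.val h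
      by_contra hab
      have hab' : a ≠ b := fun e => hab (congrArg Sum.inl e)
      obtain ⟨c, hca, hcb⟩ := exists_third (by simp) a b
      have h1 : swap b c ∈ stabilizer G6 a := by
        rw [mem_stabilizer_iff]; exact swap_apply_of_ne_of_ne hab' hca.symm
      rw [h', mem_stabilizer_iff] at h1
      have : swap b c b = b := h1
      rw [swap_apply_left] at this
      exact hcb this
    · exfalso
      have h' : stabilizer G6 a = stabilizer G6 y := congrArg Subtype.val h
      obtain ⟨b, hba, -⟩ := exists_third (by simp) a a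
      obtain ⟨c, hca, hcb⟩ := exists_third (by simp) a b
      have h1 : swap b c ∈ stabilizer G6 a := by
        rw [mem_stabilizer_iff]; exact swap_apply_of_ne_of_ne hba.symm hca.symm
      rw [h', mem_stabilizer_iff] at h1
      exact no_fix H0 H0_noSwap _ ⟨b, c, hcb.symm, rfl⟩ y h1
    · exfalso
      have h' : stabilizer G6 x = stabilizer G6 b := congrArg Subtype.val h
      obtain ⟨b', hba, -⟩ := exists_third (by simp) b b
      obtain ⟨c, hca, hcb⟩ := exists_third (by simp) b b'
      have h1 : swap b' c ∈ stabilizer G6 b := by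
        rw [mem_stabilizer_iff]; exact swap_apply_of_ne_of_ne hba.symm hca.symm
      rw [← h', mem_stabilizer_iff] at h1
      exact no_fix H0 H0_noSwap _ ⟨b', c, hcb.symm, rfl⟩ x h1
    · have h' : stabilizer G6 x = stabilizer G6 y := congrArg Subtype.val h
      by_contra hxy
      have hxy' : x ≠ y := fun e => hxy (congrArg Sum.inr e)
      obtain ⟨z, hzx, hzy⟩ := exists_third (card_quot H0 H0_index) x y
      obtain ⟨g, hg⟩ := (phi_bijective H0 H0_index).2 (swap y z)
      have h1 : g ∈ stabilizer G6 x := by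
        rw [mem_stabilizer_iff]
        change toPermHom G6 (G6 ⧸ H0) g x = x
        rw [hg]; exact swap_apply_of_ne_of_ne hxy' hzx.symm
      rw [h', mem_stabilizer_iff] at h1
      have : toPermHom G6 (G6 ⧸ H0) g y = y := h1
      rw [hg, swap_apply_left] at this
      exact hzy this
  · rintro ⟨H, hH⟩
    by_cases hsw : ∃ g ∈ H, g.IsSwap
    · obtain ⟨a, ha⟩ := lemmaA (by simp) H hH hsw
      exact ⟨Sum.inl a, Subtype.ext ha.symm⟩
    · have hns : NoSwap H := by
        intro g hg hs; exact hsw ⟨g, hg, hs⟩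
      obtain ⟨x, hx⟩ := lemmaC H H0 hH H0_index hns H0_noSwap
      exact ⟨Sum.inr x, Subtype.ext hx.symm⟩

end final

/-- The symmetric group S_6 has exactly 12 subgroups of index 6; each of them is isomorphic to S_5, and at least one of them is not the stabilizer of any point. -/
theorem result : Nat.card {H : Subgroup (Equiv.Perm (Fin 6)) // H.index = 6} = 12 ∧ (∀ H : Subgroup (Equiv.Perm (Fin 6)), H.index = 6 → Nonempty (H ≃* Equiv.Perm (Fin 5))) ∧ ∃ H : Subgroup (Equiv.Perm (Fin 6)), H.index = 6 ∧ ∀ a : Fin 6, H ≠ MulAction.stabilizer (Equiv.Perm (Fin 6)) a := by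
  refine ⟨?_, iso_S5, H0, H0_index, H0_ne_stab⟩
  rw [← Nat.card_congr (Equiv.ofBijective Psi Psi_bijective), Nat.card_sum, Nat.card_fin]
  have : Nat.card (G6 ⧸ H0) = 6 := H0_index
  rw [this]

end Cfsg.Agent.S5945
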