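import Mathlib
import Cfsg.Statements.S5912
import Cfsg.Agent.S5945

set_option autoImplicit false
open Cfsg
open Equiv Equiv.Perm MulAction

namespace Cfsg.Agent.S5912

/-- the statement, for an abstract group -/
def Stmt (G : Type*) [Group G] : Prop :=
  ∃ H₁ H₂ : Subgroup G, H₁.index = 6 ∧ H₂.index = 6 ∧
      (¬ ∃ g : G, Subgroup.map (MulAut.conj g).toMonoidHom H₁ = H₂) ∧
      ∀ H : Subgroup G, H.index = 6 →
        ∃ g : G, Subgroup.map (MulAut.conj g).toMonoidHom H₁ = H ∨ Subgroup.map (MulAut.conj g).toMonoidHom H₂ = H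

lemma map_conj_map {G G' : Type*} [Group G] [Group G'] (ε : G ≃* G') (H : Subgroup G) (g : G) :
    ((H.map (ε : G →* G')).map (MulAut.conj (ε g)).toMonoidHom)
      = (H.map (MulAut.conj g).toMonoidHom).map (ε : G →* G') := by
  rw [Subgroup.map_map, Subgroup.map_map]
  congr 1
  ext x
  simp

lemma transport {G G' : Type*} [Group G] [Group G'] (ε : G ≃* G') (h : Stmt G) : Stmt G' := by
  obtain ⟨H₁, H₂, h1, h2, hnc, hall⟩ := h
  refine ⟨H₁.map (ε : G →* G'), H₂.map (ε : G →* G'), ?_, ?_, ?_, ?_⟩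
  · rw [Subgroup.index_map_equiv]; exact h1
  · rw [Subgroup.index_map_equiv]; exact h2
  · rintro ⟨g', hg'⟩
    obtain ⟨g, rfl⟩ := ε.surjective g'
    rw [map_conj_map] at hg'
    exact hnc ⟨g, Subgroup.map_injective ε.injective hg'⟩
  · intro H' hH'
    have hH : (H'.map (ε.symm : G' →* G)).index = 6 := by
      rw [Subgroup.index_map_equiv]; exact hH'
    have hback : (H'.map (ε.symm : G' →* G)).map (ε : G →* G') = H' := by
      rw [Subgroup.map_map]
      have : (ε : G →* G').comp (ε.symm : G' →* G) = MonoidHom.id G' := by ext x; simp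
      rw [this, Subgroup.map_id]
    obtain ⟨g, hg⟩ := hall _ hH
    refine ⟨ε g, ?_⟩
    rw [map_conj_map, map_conj_map]
    rcases hg with hg | hg
    · left; rw [hg, hback]
    · right; rw [hg, hback]

lemma stmt_fin6 : Stmt (Perm (Fin 6)) := by
  refine ⟨stabilizer (Perm (Fin 6)) (0 : Fin 6), Cfsg.Agent.S5945.H0, Cfsg.Agent.S5945.stab_index 0,
    Cfsg.Agent.S5945.H0_index, ?_, ?_⟩
  · rintro ⟨g, hg⟩
    have h1 : swap (1 : Fin 6) 2 ∈ stabilizer (Perm (Fin 6)) (0 : Fin 6) := by
      rw [mem_stabilizer_iff]; decide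
    have h2 : g * swap (1 : Fin 6) 2 * g⁻¹ ∈ Cfsg.Agent.S5945.H0 := by
      rw [← hg]; exact ⟨_, h1, rfl⟩
    apply Cfsg.Agent.S5945.H0_noSwap _ h2
    rw [← card_support_eq_two, card_support_conj, card_support_eq_two]
    exact ⟨1, 2, by decide, rfl⟩
  · intro H hH
    obtain ⟨z, hz⟩ := Cfsg.Agent.S5945.Psi_bijective.2 ⟨H, hH⟩
    rcases z with a | x
    · have hz' : stabilizer (Perm (Fin 6)) a = H := congrArg Subtype.val hz
      obtain ⟨g, hg⟩ := exists_smul_eq (Perm (Fin 6)) (0 : Fin 6) a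
      refine ⟨g, Or.inl ?_⟩
      rw [← stabilizer_smul_eq_stabilizer_map_conj, hg, hz']
    · have hz' : stabilizer (Perm (Fin 6)) x = H := congrArg Subtype.val hz
      obtain ⟨g, hg⟩ := exists_smul_eq (Perm (Fin 6))
        (((1 : Perm (Fin 6)) : Perm (Fin 6) ⧸ Cfsg.Agent.S5945.H0)) x
      refine ⟨g, Or.inr ?_⟩
      have := stabilizer_smul_eq_stabilizer_map_conj g
        (((1 : Perm (Fin 6)) : Perm (Fin 6) ⧸ Cfsg.Agent.S5945.H0))
      rw [stabilizer_quotient, hg, hz'] at this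
      exact this.symm

/-- The symmetric group on a 6-element set Ω has exactly two conjugacy classes of subgroups of index 6: there are two non-conjugate subgroups of index 6 (a point stabilizer and a transitive subgroup isomorphic to S₅), and every subgroup of index 6 is conjugate to one of them. -/
theorem result {Ω : Type*} [Fintype Ω] [DecidableEq Ω] (h6 : Fintype.card Ω = 6) :
    ∃ H₁ H₂ : Subgroup (Equiv.Perm Ω), H₁.index = 6 ∧ H₂.index = 6 ∧
      (¬ ∃ g : Equiv.Perm Ω, Subgroup.map (MulAut.conj g).toMonoidHom H₁ = H₂) ∧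
      ∀ H : Subgroup (Equiv.Perm Ω), H.index = 6 →
        ∃ g : Equiv.Perm Ω, Subgroup.map (MulAut.conj g).toMonoidHom H₁ = H ∨ Subgroup.map (MulAut.conj g).toMonoidHom H₂ = H :=
  transport (Fintype.equivFinOfCardEq h6).symm.permCongrHom stmt_fin6

end Cfsg.Agent.S5912
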