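import Cfsg.Statements.S5913

set_option autoImplicit false
open Cfsg

namespace Cfsg.Agent.S5913

/-- In a non-abelian simple group every non-trivial element fails to commute with something. -/
theorem exists_not_commute {S : Type*} [Group S] [IsSimpleGroup S] (hS : ¬ IsMulCommutative S)
    (s : S) (hs : s ≠ 1) : ∃ t : S, s * t ≠ t * s := by
  by_contra hcon
  push Not at hcon
  have hmem : s ∈ Subgroup.center S := by
    rw [Subgroup.mem_center_iff]
    intro g
    exact (hcon g).symm
  rcases (inferInstance : (Subgroup.center S).Normal).eq_bot_or_eq_top with h | h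
  · rw [h, Subgroup.mem_bot] at hmem
    exact hs hmem
  · apply hS
    refine ⟨⟨fun a b => ?_⟩⟩
    have : a ∈ Subgroup.center S := by rw [h]; trivial
    exact ((Subgroup.mem_center_iff.mp this) b).symm

/-- If a normal subgroup `N` of a power of a non-abelian simple group has an element with non-trivial
`i`-th coordinate then it contains the whole `i`-th factor. -/
theorem mulSingle_mem {S : Type*} [Group S] [IsSimpleGroup S] (hS : ¬ IsMulCommutative S)
    {ι : Type*} [DecidableEq ι]
    (N : Subgroup (ι → S)) [hN : N.Normal] (i : ι) (x : ι → S) (hx : x ∈ N) (hxi : x i ≠ 1)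
    (s : S) : Pi.mulSingle i s ∈ N := by
  have hnorm : (N.comap (MonoidHom.mulSingle (fun _ : ι => S) i)).Normal := hN.comap _
  obtain ⟨t, ht⟩ := exists_not_commute hS (x i) hxi
  have hc : x * (Pi.mulSingle i t * x⁻¹ * (Pi.mulSingle i t)⁻¹) ∈ N :=
    N.mul_mem hx (hN.conj_mem _ (N.inv_mem hx) _)
  have hc' : x * (Pi.mulSingle i t * x⁻¹ * (Pi.mulSingle i t)⁻¹) =
      Pi.mulSingle i (x i * (t * (x i)⁻¹ * t⁻¹)) := by
    funext j
    by_cases hj : j = i
    · subst hj
      simp
    · simp [Pi.mulSingle_eq_of_ne hj]
  rw [hc'] at hc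
  rcases hnorm.eq_bot_or_eq_top with h | h
  · exfalso
    have : x i * (t * (x i)⁻¹ * t⁻¹) ∈ N.comap (MonoidHom.mulSingle (fun _ : ι => S) i) := hc
    rw [h, Subgroup.mem_bot] at this
    apply ht
    have h2 : x i * (t * (x i)⁻¹ * t⁻¹) * (t * x i) = t * x i := by rw [this, one_mul]
    rw [← h2]
    group
  · have : s ∈ N.comap (MonoidHom.mulSingle (fun _ : ι => S) i) := by rw [h]; trivial
    exact this

/-- Let S be a non-abelian simple group and n a natural number. Every normal subgroup N of the direct power S^n (functions Fin n → S) is a subproduct: there is a set T of coordinates such that N consists exactly of the elements whose coordinates outside T are trivial. In particular the minimal normal subgroups of S^n are its n factors. -/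
theorem result {S : Type*} [Group S] [IsSimpleGroup S] (hS : ¬ IsMulCommutative S) (n : ℕ)
    (N : Subgroup (Fin n → S)) [N.Normal] :
    ∃ T : Finset (Fin n), ∀ x : Fin n → S, x ∈ N ↔ ∀ i, i ∉ T → x i = 1 := by
  classical
  refine ⟨Finset.univ.filter (fun i => ∃ x ∈ N, x i ≠ 1), fun x => ⟨?_, ?_⟩⟩
  · intro hx i hi
    by_contra hxi
    exact hi (by simpa using ⟨x, hx, hxi⟩)
  · intro h
    rw [← Finset.noncommProd_mulSingle x]
    apply Subgroup.noncommProd_mem
    intro i _
    by_cases hi : i ∈ Finset.univ.filter (fun i => ∃ x ∈ N, x i ≠ 1)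
    · obtain ⟨y, hy, hyi⟩ := (Finset.mem_filter.mp hi).2
      exact mulSingle_mem hS N i y hy hyi (x i)
    · rw [h i hi, Pi.mulSingle_one]
      exact N.one_mem

end Cfsg.Agent.S5913
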