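import Cfsg.Statements.S5914
import Cfsg.Agent.S5913

set_option autoImplicit false
open Cfsg

namespace Cfsg.Agent.S5914

/-- the "transvection" automorphism of a power of a commutative group -/
def transv {S : Type*} [Group S] (hc : ∀ a b : S, a * b = b * a) {ι : Type*} [DecidableEq ι]
    (i j : ι) (hij : j ≠ i) : (ι → S) ≃* (ι → S) where
  toFun y := y * Pi.mulSingle j (y i)
  invFun y := y * Pi.mulSingle j (y i)⁻¹
  left_inv y := by
    funext k
    by_cases hk : k = j
    · subst hk
      simp [Pi.mulSingle_eq_of_ne hij.symm]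
    · simp [Pi.mulSingle_eq_of_ne hk]
  right_inv y := by
    funext k
    by_cases hk : k = j
    · subst hk
      simp [Pi.mulSingle_eq_of_ne hij.symm]
    · simp [Pi.mulSingle_eq_of_ne hk]
  map_mul' y z := by
    funext k
    by_cases hk : k = j
    · subst hk
      simp only [Pi.mul_apply, Pi.mulSingle_eq_same]
      rw [mul_assoc, mul_assoc, ← mul_assoc (z k), hc (z k) (y i)]
      simp only [mul_assoc]
    · simp [Pi.mulSingle_eq_of_ne hk]

/-- A power of a simple group is characteristically simple. -/
theorem pow_char_simple {S : Type*} [Group S] [IsSimpleGroup S] {ι : Type*} [Fintype ι]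
    [DecidableEq ι] (H : Subgroup (ι → S)) (hH : H.Characteristic) (hbot : H ≠ ⊥) : H = ⊤ := by
  classical
  have hHn : H.Normal := Subgroup.normal_of_characteristic H
  have hmap : ∀ (φ : (ι → S) ≃* (ι → S)) (y : ι → S), y ∈ H → φ y ∈ H := by
    intro φ y hy
    have := Subgroup.characteristic_iff_map_le.mp hH φ
    exact this ⟨y, hy, rfl⟩
  obtain ⟨x, hxH, hx1⟩ : ∃ x ∈ H, x ≠ 1 := by
    by_contra hcon
    push Not at hcon
    exact hbot ((Subgroup.eq_bot_iff_forall H).mpr hcon)
  obtain ⟨i, hi⟩ : ∃ i, x i ≠ 1 := by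
    by_contra hcon
    push Not at hcon
    exact hx1 (funext hcon)
  -- some factor is contained in `H`
  have hfac : ∃ j, ∀ s, Pi.mulSingle j s ∈ H := by
    by_cases hS : IsMulCommutative S
    · have hc : ∀ a b : S, a * b = b * a := fun a b => hS.is_comm.comm a b
      have hgen : ∀ j, Pi.mulSingle j (x i) ∈ H → ∀ s, Pi.mulSingle j s ∈ H := by
        intro j hj s
        have hnorm : (H.comap (MonoidHom.mulSingle (fun _ : ι => S) j)).Normal := hHn.comap _
        rcases hnorm.eq_bot_or_eq_top with h | h
        · exfalso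
          have : x i ∈ H.comap (MonoidHom.mulSingle (fun _ : ι => S) j) := hj
          rw [h, Subgroup.mem_bot] at this
          exact hi this
        · have : s ∈ H.comap (MonoidHom.mulSingle (fun _ : ι => S) j) := by rw [h]; trivial
          exact this
      by_cases hj : ∃ j, j ≠ i
      · obtain ⟨j, hj⟩ := hj
        refine ⟨j, hgen j ?_⟩
        have h1 : x⁻¹ * (transv hc i j hj x) ∈ H := H.mul_mem (H.inv_mem hxH) (hmap _ _ hxH)
        have h2 : x⁻¹ * (transv hc i j hj x) = Pi.mulSingle j (x i) := by
          simp [transv]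
        rwa [h2] at h1
      · push Not at hj
        refine ⟨i, hgen i ?_⟩
        have : Pi.mulSingle i (x i) = x := by
          funext k
          rw [hj k]
          simp
        rw [this]; exact hxH
    · exact ⟨i, fun s => Cfsg.Agent.S5913.mulSingle_mem hS H i x hxH hi s⟩
  obtain ⟨j, hj⟩ := hfac
  have hall : ∀ k s, Pi.mulSingle k s ∈ H := by
    intro k s
    have h1 := hmap (MulEquiv.arrowCongr (Equiv.swap j k) (MulEquiv.refl S)) _ (hj s)
    have h2 : (MulEquiv.arrowCongr (Equiv.swap j k) (MulEquiv.refl S)) (Pi.mulSingle j s) =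
        Pi.mulSingle k s := by
      funext l
      simp only [MulEquiv.arrowCongr_apply, MulEquiv.refl_apply, Equiv.symm_swap]
      by_cases hl : l = k
      · subst hl
        simp
      · rw [Pi.mulSingle_eq_of_ne hl, Pi.mulSingle_eq_of_ne]
        intro h
        apply hl
        have := congrArg (Equiv.swap j k) h
        simpa using this
    rwa [h2] at h1
  rw [eq_top_iff]
  intro y _
  rw [← Finset.noncommProd_mulSingle y]
  exact Subgroup.noncommProd_mem _ _ (fun k _ => hall k (y k))

theorem step {G : Type*} [Group G] [Finite G]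
    (hchar : ∀ H : Subgroup G, H.Characteristic → H = ⊥ ∨ H = ⊤)
    (N : Subgroup G) (hNn : N.Normal) (hNbot : N ≠ ⊥)
    (hNmin : ∀ K : Subgroup G, K.Normal → K ≠ ⊥ → Nat.card N ≤ Nat.card K)
    (k : ℕ) (f : (Fin k → N) →* G) (hf : Function.Injective f) (hfn : f.range.Normal)
    (hft : f.range ≠ ⊤) :
    ∃ f' : (Fin (k + 1) → N) →* G, Function.Injective f' ∧ f'.range.Normal := by
  classical
  have hC : (⨆ φ : G ≃* G, N.map φ.toMonoidHom) = ⊤ := by
    have hCchar : (⨆ φ : G ≃* G, N.map φ.toMonoidHom).Characteristic := by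
      rw [Subgroup.characteristic_iff_map_le]
      intro ψ
      rw [Subgroup.map_iSup]
      apply iSup_le
      intro φ
      rw [Subgroup.map_map]
      exact le_iSup (fun φ : G ≃* G => N.map φ.toMonoidHom) (φ.trans ψ)
    rcases hchar _ hCchar with h | h
    · exfalso
      apply hNbot
      rw [eq_bot_iff, ← h]
      have := le_iSup (fun φ : G ≃* G => N.map φ.toMonoidHom) (MulEquiv.refl G)
      refine le_trans ?_ this
      intro x hx
      exact ⟨x, hx, rfl⟩
    · exact h
  obtain ⟨φ, hφ⟩ : ∃ φ : G ≃* G, ¬ N.map φ.toMonoidHom ≤ f.range := by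
    by_contra hcon
    push Not at hcon
    apply hft
    rw [eq_top_iff, ← hC]
    exact iSup_le hcon
  have hN'n : (N.map φ.toMonoidHom).Normal := hNn.map _ φ.surjective
  have hcard : Nat.card (N.map φ.toMonoidHom) = Nat.card N :=
    Subgroup.card_map_of_injective φ.injective
  have hdisj : N.map φ.toMonoidHom ⊓ f.range = ⊥ := by
    by_contra hne
    have h1 := hNmin _ (Subgroup.normal_inf_normal _ _) hne
    rw [← hcard] at h1
    have h2 := Subgroup.eq_of_le_of_card_ge (inf_le_left) h1
    exact hφ (inf_eq_left.mp h2)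
  have hcomm : ∀ (n : N) (y : Fin k → N), Commute (φ n) (f y) := by
    intro n y
    exact Subgroup.commute_of_normal_of_disjoint _ _ hN'n hfn (disjoint_iff.mpr hdisj) _ _
      ⟨n, n.2, rfl⟩ ⟨y, rfl⟩
  let f' : (Fin (k + 1) → N) →* G :=
    { toFun := fun x => φ (x 0) * f (Fin.tail x)
      map_one' := by
        have : Fin.tail (1 : Fin (k + 1) → N) = 1 := rfl
        simp [this]
      map_mul' := by
        intro x y
        have h1 : Fin.tail (x * y) = Fin.tail x * Fin.tail y := rfl
        rw [h1, map_mul, Pi.mul_apply, Subgroup.coe_mul, map_mul]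
        have h2 := (hcomm (y 0) (Fin.tail x)).eq
        calc φ (x 0) * φ (y 0) * (f (Fin.tail x) * f (Fin.tail y))
            = φ (x 0) * (φ (y 0) * f (Fin.tail x)) * f (Fin.tail y) := by group
          _ = φ (x 0) * (f (Fin.tail x) * φ (y 0)) * f (Fin.tail y) := by rw [h2]
          _ = _ := by group }
  have hf'def : ∀ x, f' x = φ (x 0) * f (Fin.tail x) := fun _ => rfl
  refine ⟨f', ?_, ?_⟩
  · rw [injective_iff_map_eq_one]
    intro x hx
    rw [hf'def] at hx
    have h1 : φ (x 0) ∈ N.map φ.toMonoidHom ⊓ f.range := by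
      refine ⟨⟨x 0, (x 0).2, rfl⟩, ?_⟩
      rw [eq_inv_of_mul_eq_one_left hx]
      exact f.range.inv_mem ⟨_, rfl⟩
    rw [hdisj, Subgroup.mem_bot] at h1
    rw [h1, one_mul] at hx
    have h2 : Fin.tail x = 1 := (injective_iff_map_eq_one f).mp hf _ hx
    have h3 : x 0 = 1 := by
      have : ((x 0 : N) : G) = 1 := by
        apply φ.injective
        rw [h1, map_one]
      exact Subtype.ext this
    funext i
    refine Fin.cases h3 (fun j => ?_) i
    exact congrFun h2 j
  · have hrange : f'.range = N.map φ.toMonoidHom ⊔ f.range := by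
      apply le_antisymm
      · rintro _ ⟨x, rfl⟩
        rw [hf'def]
        exact Subgroup.mul_mem_sup ⟨x 0, (x 0).2, rfl⟩ ⟨_, rfl⟩
      · apply sup_le
        · rintro _ ⟨n, hn, rfl⟩
          refine ⟨Fin.cons ⟨n, hn⟩ 1, ?_⟩
          rw [hf'def]
          simp
        · rintro _ ⟨y, rfl⟩
          refine ⟨Fin.cons 1 y, ?_⟩
          rw [hf'def]
          simp
    rw [hrange]
    exact Subgroup.sup_normal _ _

theorem exists_type0 (N : Type*) [Group N] [Finite N] :
    ∃ (S : Type) (_ : Group S), Nonempty (N ≃* S) := by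
  let e : N ≃ {i : ℕ // i < Nat.card N} := (Finite.equivFin N).trans Fin.equivSubtype
  let _ : Group {i : ℕ // i < Nat.card N} := e.symm.group
  exact ⟨{i : ℕ // i < Nat.card N}, inferInstance, ⟨(e.symm.mulEquiv).symm⟩⟩

/-- A non-trivial finite group G is characteristically simple (its only characteristic subgroups are 1 and G) if and only if G is isomorphic to a direct power S^n (n ≥ 1) of some simple group S (possibly cyclic of prime order). -/
theorem result {G : Type*} [Group G] [Finite G] [Nontrivial G] :
    (∀ H : Subgroup G, H.Characteristic → H = ⊥ ∨ H = ⊤) ↔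
    ∃ (S : Type) (_ : Group S) (_ : IsSimpleGroup S) (n : ℕ), 1 ≤ n ∧ Nonempty (G ≃* (Fin n → S)) := by
  classical
  constructor
  · intro hchar
    have hex : ∃ m, ∃ N : Subgroup G, N.Normal ∧ N ≠ ⊥ ∧ Nat.card N = m :=
      ⟨_, ⊤, inferInstance, top_ne_bot, rfl⟩
    obtain ⟨N, hNn, hNbot, hNcard⟩ := Nat.find_spec hex
    have hNmin : ∀ K : Subgroup G, K.Normal → K ≠ ⊥ → Nat.card N ≤ Nat.card K :=
      fun K hK hKb => hNcard ▸ Nat.find_min' hex ⟨K, hK, hKb, rfl⟩
    have hNnt : Nontrivial N := (Subgroup.nontrivial_iff_ne_bot N).mpr hNbot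
    have hbij : ∃ k, ∃ f : (Fin k → N) →* G, Function.Injective f ∧ f.range = ⊤ := by
      by_contra hcon
      push Not at hcon
      have hall : ∀ k, ∃ f : (Fin k → N) →* G, Function.Injective f ∧ f.range.Normal := by
        intro k
        induction k with
        | zero =>
          refine ⟨1, fun a b _ => Subsingleton.elim _ _, ?_⟩
          have : (1 : (Fin 0 → N) →* G).range = ⊥ := by
            rw [eq_bot_iff]
            rintro _ ⟨x, rfl⟩
            simp
          rw [this]
          infer_instance
        | succ k ih =>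
          obtain ⟨f, hf, hfn⟩ := ih
          exact step hchar N hNn hNbot hNmin k f hf hfn (hcon k f hf)
      obtain ⟨f, hf, -⟩ := hall (Nat.card G)
      have h1 := Nat.card_le_card_of_injective f hf
      rw [Nat.card_fun, Nat.card_fin] at h1
      have h2 : 2 ≤ Nat.card N := Finite.one_lt_card
      have h3 : Nat.card G < 2 ^ Nat.card G := Nat.lt_two_pow_self
      have h4 : 2 ^ Nat.card G ≤ Nat.card N ^ Nat.card G := Nat.pow_le_pow_left h2 _
      omega
    obtain ⟨k, f, hf, hft⟩ := hbij
    have hfs : Function.Surjective f := MonoidHom.range_eq_top.mp hft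
    have hk : 1 ≤ k := by
      by_contra hk0
      have hk0 : k = 0 := by omega
      subst hk0
      obtain ⟨a, b, hab⟩ := exists_pair_ne G
      obtain ⟨a', rfl⟩ := hfs a
      obtain ⟨b', rfl⟩ := hfs b
      exact hab (congrArg f (Subsingleton.elim _ _))
    have hsimple : IsSimpleGroup N := by
      refine ⟨fun A hA => ?_⟩
      by_contra hcon
      push Not at hcon
      obtain ⟨hAbot, hAtop⟩ := hcon
      let i0 : Fin k := ⟨0, hk⟩
      have hAn : (A.map (MonoidHom.mulSingle (fun _ : Fin k => N) i0)).Normal := by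
        refine ⟨?_⟩
        rintro _ ⟨a, ha, rfl⟩ y
        refine ⟨y i0 * a * (y i0)⁻¹, hA.conj_mem a ha _, ?_⟩
        funext j
        by_cases hj : j = i0
        · subst hj
          simp
        · simp [Pi.mulSingle_eq_of_ne hj]
      have hAn' := hAn.map f hfs
      have hinj : Function.Injective (MonoidHom.mulSingle (fun _ : Fin k => N) i0) :=
        fun a b h => Pi.mulSingle_injective (M := fun _ : Fin k => N) i0 h
      have hc : Nat.card ((A.map (MonoidHom.mulSingle (fun _ : Fin k => N) i0)).map f) =
          Nat.card A := by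
        rw [Subgroup.card_map_of_injective hf, Subgroup.card_map_of_injective hinj]
      have hne : (A.map (MonoidHom.mulSingle (fun _ : Fin k => N) i0)).map f ≠ ⊥ := by
        intro h
        apply hAbot
        have h1 : Nat.card A = 1 := by
          rw [← hc, h]
          simp
        exact Subgroup.card_eq_one.mp h1
      have h1 := hNmin _ hAn' hne
      rw [hc] at h1
      exact hAtop (Subgroup.eq_top_of_card_eq A (le_antisymm (Subgroup.card_le_card_group A) h1))
    obtain ⟨S, hS, ⟨e⟩⟩ := exists_type0 N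
    refine ⟨S, hS, e.symm.isSimpleGroup, k, hk, ⟨?_⟩⟩
    exact (MulEquiv.ofBijective f ⟨hf, hfs⟩).symm.trans (MulEquiv.piCongrRight (fun _ => e))
  · rintro ⟨S, hS, hSs, n, -, ⟨e⟩⟩ H hH
    by_cases hbot : H = ⊥
    · exact Or.inl hbot
    right
    have hchar : (H.map e.toMonoidHom).Characteristic := by
      rw [Subgroup.characteristic_iff_map_le]
      intro φ
      rintro _ ⟨_, ⟨h, hh, rfl⟩, rfl⟩
      have h1 := Subgroup.characteristic_iff_map_le.mp hH ((e.trans φ).trans e.symm)
      have h2 : e.symm (φ (e h)) ∈ H := h1 ⟨h, hh, rfl⟩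
      exact ⟨_, h2, by simp⟩
    have hne : H.map e.toMonoidHom ≠ ⊥ := by
      intro h
      exact hbot ((Subgroup.map_eq_bot_iff_of_injective H e.injective).mp h)
    have htop := pow_char_simple _ hchar hne
    rw [eq_top_iff]
    intro g _
    have : e g ∈ H.map e.toMonoidHom := by rw [htop]; trivial
    obtain ⟨h, hh, hhe⟩ := this
    have : h = g := e.injective hhe
    exact this ▸ hh

end Cfsg.Agent.S5914
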