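import Cfsg.Statements.S5939
import Cfsg.Agent.Lib.Helper41.Dickson.WitDickson
import Cfsg.Agent.Lib.Helper41.Dickson.A5Exists

set_option autoImplicit false
set_option linter.style.haveILetI false
open Cfsg

namespace Cfsg.Agent.S5939

open Cfsg.Agent.Lib.Helper41.Dickson

theorem mono (a b : ℕ) (h : a ≤ b) : a * (a ^ 2 - 1) ≤ b * (b ^ 2 - 1) :=
  Nat.mul_le_mul h (Nat.sub_le_sub_right (Nat.pow_le_pow_left h 2) 1)

theorem mod5 (p : ℕ) (h : p % 5 = 2 ∨ p % 5 = 3) : (p * (p ^ 2 - 1)) % 5 ≠ 0 := by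
  have h1 : p ^ 2 % 5 = 4 := by
    rw [Nat.pow_mod]
    rcases h with h | h <;> rw [h]
  have h2 : (p ^ 2 - 1) % 5 = 3 := by omega
  rw [Nat.mul_mod, h2]
  rcases h with h | h <;> rw [h] <;> decide

theorem dvd_of_mod (q : ℕ) (h : q % 5 = 1 ∨ q % 5 = 4) : 5 ∣ q * (q ^ 2 - 1) := by
  have h1 : q ^ 2 % 5 = 1 := by
    rw [Nat.pow_mod]
    rcases h with h | h <;> rw [h]
  exact Dvd.dvd.mul_left (by omega) _

/-- Let p be a prime and F a finite field of characteristic p such that either F has p elements and p ≡ ±1 (mod 10), or F has p² elements and p ≡ ±3 (mod 10). Then PSL_2(F) has a maximal subgroup isomorphic to the alternating group A_5. -/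
theorem result {F : Type*} [Field F] [Fintype F] (p : ℕ) [Fact p.Prime] [CharP F p] (h : (Fintype.card F = p ∧ (p % 10 = 1 ∨ p % 10 = 9)) ∨ (Fintype.card F = p ^ 2 ∧ (p % 10 = 3 ∨ p % 10 = 7))) : ∃ H : Subgroup (Matrix.ProjectiveSpecialLinearGroup (Fin 2) F), IsCoatom H ∧ Nonempty (H ≃* alternatingGroup (Fin 5)) := by
  have hpp : p.Prime := Fact.out
  have hp2 : p ≠ 2 := by rintro rfl; omega
  have hpodd : Odd p := hpp.odd_of_ne_two hp2
  have hodd : Odd (Fintype.card F) := by
    rcases h with ⟨h, -⟩ | ⟨h, -⟩ <;> rw [h]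
    · exact hpodd
    · exact hpodd.pow
  have hg := two_mul_card_psl hodd
  have h5 : 5 ∣ Fintype.card F * (Fintype.card F ^ 2 - 1) := by
    apply dvd_of_mod
    rcases h with ⟨h, h'⟩ | ⟨h, h'⟩ <;> rw [h]
    · omega
    · right
      rw [Nat.pow_mod]
      have : p % 5 = 3 ∨ p % 5 = 2 := by omega
      rcases this with h | h <;> rw [h]
  have h9 : 9 ≤ Fintype.card F := by
    rcases h with ⟨h, h'⟩ | ⟨h, h'⟩ <;> rw [h]
    · by_contra hcon
      have : p = 1 := by omega
      exact hpp.one_lt.ne' this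
    · have : 3 ≤ p := by omega
      calc 9 = 3 ^ 2 := by norm_num
        _ ≤ p ^ 2 := Nat.pow_le_pow_left this 2
  obtain ⟨H, ⟨e⟩⟩ := exists_alt_five h5
  have hcH : Nat.card H = 60 := by rw [Nat.card_congr e.toEquiv, natCard_alt_five]
  have hW : Wit H := wit_alt_five.of_injective e.symm.toMonoidHom e.symm.injective
  refine ⟨H, ?_, ⟨e⟩⟩
  apply isCoatom_of_card
  · intro hcon
    have h1 : Nat.card H = Nat.card (Matrix.ProjectiveSpecialLinearGroup (Fin 2) F) := by
      rw [hcon]; exact Subgroup.card_top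
    rw [← h1, hcH] at hg
    have h2 := mono 9 _ h9
    omega
  · intro M hHM hM
    have hle : Nat.card H ≤ Nat.card M := Subgroup.card_le_of_le hHM
    have hdvd : Nat.card H ∣ Nat.card M := Subgroup.card_dvd_of_le hHM
    rw [hcH] at hle hdvd ⊢
    rcases dickson_wit p hp2 M hM (hW.le hHM) with ⟨-, h⟩ | ⟨-, h⟩ | ⟨-, h⟩ |
      ⟨K, m, hm, hqm, hK2, hK⟩
    · omega
    · omega
    · omega
    · exfalso
      rcases h with ⟨h, h'⟩ | ⟨h, h'⟩
      · rw [h] at hqm
        have := (hpp.pow_eq_iff).1 hqm.symm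
        omega
      · rw [h] at hqm
        generalize Nat.card K = q₁ at *
        have h1 : q₁ = p := by
          obtain ⟨b, hb, rfl⟩ := (Nat.dvd_prime_pow hpp).1 (show q₁ ∣ p ^ 2 by
            rw [hqm]; exact dvd_pow_self q₁ (by omega))
          rw [← pow_mul] at hqm
          have h3 : 2 = b * m := Nat.pow_right_injective hpp.two_le hqm
          have hb1 : b = 1 := by
            interval_cases b
            · omega
            · rfl
            · omega
          rw [hb1, pow_one]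
        subst h1
        have h2 := mod5 q₁ (by omega)
        rcases hK with ⟨-, h⟩ | ⟨-, h⟩
        · omega
        · omega

end Cfsg.Agent.S5939
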