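import Cfsg.Statements.S5940
import Cfsg.Agent.Lib.Helper41.Dickson.WitDickson
import Cfsg.Agent.S0802

set_option autoImplicit false
set_option linter.style.haveILetI false
open Cfsg

namespace Cfsg.Agent.S5940

open Cfsg.Agent.Lib.Helper41.Dickson

theorem mod16 (p : ℕ) (h8 : p % 8 = 3 ∨ p % 8 = 5) : (p * (p ^ 2 - 1)) % 16 = 8 := by
  have h1 : p ^ 2 % 16 = 9 := by
    rw [Nat.pow_mod]
    have : p % 16 = 3 ∨ p % 16 = 5 ∨ p % 16 = 11 ∨ p % 16 = 13 := by omega
    rcases this with h | h | h | h <;> rw [h]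
  have h2 : (p ^ 2 - 1) % 16 = 8 := by omega
  rw [Nat.mul_mod, h2]
  have : p % 16 = 3 ∨ p % 16 = 5 ∨ p % 16 = 11 ∨ p % 16 = 13 := by omega
  rcases this with h | h | h | h <;> rw [h]

theorem mod5 (p : ℕ) (h : p % 5 = 2 ∨ p % 5 = 3) : (p * (p ^ 2 - 1)) % 5 ≠ 0 := by
  have h1 : p ^ 2 % 5 = 4 := by
    rw [Nat.pow_mod]
    rcases h with h | h <;> rw [h]
  have h2 : (p ^ 2 - 1) % 5 = 3 := by omega
  rw [Nat.mul_mod, h2]
  rcases h with h | h <;> rw [h] <;> decide

/-- Let p ≥ 5 be a prime with p ≡ ±3 (mod 8) and p ≢ ±1 (mod 10), and F a field with p elements. Then PSL_2(F) has a maximal subgroup isomorphic to the alternating group A_4. -/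
theorem result {F : Type*} [Field F] [Fintype F] (p : ℕ) [Fact p.Prime] (hF : Fintype.card F = p) (h5 : 5 ≤ p) (h8 : p % 8 = 3 ∨ p % 8 = 5) (h10 : p % 10 ≠ 1 ∧ p % 10 ≠ 9) : ∃ H : Subgroup (Matrix.ProjectiveSpecialLinearGroup (Fin 2) F), IsCoatom H ∧ Nonempty (H ≃* alternatingGroup (Fin 4)) := by
  have hpp : p.Prime := Fact.out
  haveI := charP_of_card_prime p hpp hF
  have hp2 : p ≠ 2 := by rintro rfl; omega
  have hodd : Odd (Fintype.card F) := by rw [hF]; exact hpp.odd_of_ne_two hp2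
  have hg := two_mul_card_psl hodd
  rw [hF] at hg
  obtain ⟨H, ⟨e⟩⟩ := (Cfsg.Agent.S0802.result p 1 (by rw [hF, pow_one])).2 (fun h => hp2 h.1)
  have hcH : Nat.card H = 12 := by rw [Nat.card_congr e.toEquiv, natCard_alt_four]
  have hW : Wit H := wit_alt_four.of_injective e.symm.toMonoidHom e.symm.injective
  refine ⟨H, ?_, ⟨e⟩⟩
  apply isCoatom_of_card
  · intro hcon
    have h1 : Nat.card H = Nat.card (Matrix.ProjectiveSpecialLinearGroup (Fin 2) F) := by
      rw [hcon]; exact Subgroup.card_top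
    rw [← h1, hcH] at hg
    have h2 : 5 * (5 ^ 2 - 1) ≤ p * (p ^ 2 - 1) :=
      Nat.mul_le_mul h5 (Nat.sub_le_sub_right (Nat.pow_le_pow_left h5 2) 1)
    omega
  · intro M hHM hM
    have hdvdM : Nat.card M ∣ Nat.card (Matrix.ProjectiveSpecialLinearGroup (Fin 2) F) :=
      Subgroup.card_subgroup_dvd_card M
    have hneM : Nat.card M ≠ Nat.card (Matrix.ProjectiveSpecialLinearGroup (Fin 2) F) :=
      fun h => hM (Subgroup.eq_top_of_card_eq M h)
    rw [hcH]
    generalize Nat.card (Matrix.ProjectiveSpecialLinearGroup (Fin 2) F) = g at *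
    rcases dickson_wit p hp2 M hM (hW.le hHM) with ⟨-, h⟩ | ⟨-, h⟩ | ⟨-, h⟩ |
      ⟨K, m, hm, hqm, -, -⟩
    · omega
    · exfalso
      rw [h] at hdvdM
      have := mod16 p h8
      omega
    · exfalso
      rw [h] at hdvdM hneM
      by_cases hp5 : p = 5
      · subst hp5
        omega
      · have h5' : ¬ 5 ∣ p := by
          intro hd
          exact hp5 ((Nat.prime_dvd_prime_iff_eq Nat.prime_five hpp).1 hd).symm
        have := mod5 p (by omega)
        omega
    · exfalso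
      rw [hF] at hqm
      have := (hpp.pow_eq_iff).1 hqm.symm
      omega

end Cfsg.Agent.S5940
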