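import Cfsg.Statements.S5946

set_option autoImplicit false
open Cfsg

namespace Cfsg.Agent.S5946

/-- Let F ⊆ K be finite fields with [K : F] = n ≥ 2 and regard K as an n-dimensional F-vector space. The Singer group M ≤ GL_F(K) of multiplications by the non-zero elements of K is self-centralizing: every F-linear automorphism of K commuting with all of M lies in M. -/
theorem result {F K : Type*} [Field F] [Fintype F] [Field K] [Fintype K] [Algebra F K] (n : ℕ) (hn : 2 ≤ n) (hdim : Module.finrank F K = n) :
    Subgroup.centralizer (((Units.map ((Algebra.lmul F K : K →ₐ[F] Module.End F K) : K →* Module.End F K)).range : Subgroup (Module.End F K)ˣ) : Set (Module.End F K)ˣ) = (Units.map ((Algebra.lmul F K : K →ₐ[F] Module.End F K) : K →* Module.End F K)).range := by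
  apply le_antisymm
  · intro g hg
    rw [Subgroup.mem_centralizer_iff] at hg
    -- g commutes with all multiplications; then g = mult by g 1
    have key : ∀ x : K, (g : Module.End F K) x = (g : Module.End F K) 1 * x := by
      intro x
      by_cases hx : x = 0
      · simp [hx]
      · have h := hg (Units.map ((Algebra.lmul F K : K →ₐ[F] Module.End F K) : K →* Module.End F K) (Units.mk0 x hx)) ⟨_, rfl⟩
        have h2 := congrArg (fun u : (Module.End F K)ˣ => (u : Module.End F K) 1) h
        simp at h2
        rw [← h2, mul_comm]
    have hne : (g : Module.End F K) 1 ≠ 0 := by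
      intro h0
      have h1 : (g : Module.End F K) = 0 := by
        ext x
        rw [key x, h0]; simp
      have := g.ne_zero
      exact this h1
    refine ⟨Units.mk0 _ hne, ?_⟩
    ext x
    simp
    rw [key x]
  · intro g hg
    rw [Subgroup.mem_centralizer_iff]
    rintro h ⟨b, rfl⟩
    obtain ⟨a, rfl⟩ := hg
    rw [← map_mul, ← map_mul, mul_comm]

end Cfsg.Agent.S5946
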