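import Cfsg.Statements.S5983
import Cfsg.Agent.Lib.Helper44.SpQuad3
import Cfsg.Agent.Lib.Helper94.QuadWrap

set_option autoImplicit false
open scoped MatrixGroups
open Cfsg

namespace Cfsg.Agent.S5983

open Cfsg.Agent.Lib.Helper44

/-- Elements of prime order of PSp_n(q), q even, and the subgroups of orthogonal type. Here `T = Sp_{2d}(F)` for a field `F` of characteristic 2 with `q` elements (`d ≥ 2`, `(d, q) ≠ (2, 2)`), realised as the invertible matrices preserving the standard alternating form; `Q` is a non-degenerate quadratic form on `F^{2d}` whose polar form is that alternating form, and `H` is the subgroup of `T` preserving `Q` up to a scalar (equivalently preserving `Q`) — a subgroup of type O^±_{2d}(q) (maximality is not assumed); `Q` is of plus type when `F^{2d}` contains a `d`-dimensional subspace on which `Q` vanishes, of minus type otherwise. Ω is the set of cosets of `H` in `T`, so an element of `T` of prime order `r` (`x ∈ T` with `x^r` scalar,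 `x` not scalar) fixes a point of Ω exactly when some `T`-conjugate of `x` preserves `Q`. Let `r` be a prime dividing the index of `H`. Then every element of `T` of order `r` fixes a point of Ω if and only if `r = 2` and either `Q` is of plus type or `d` is odd. -/
theorem result {F : Type*} [Field F] [Fintype F] {p : ℕ} [Fact p.Prime] [CharP F p] {q : ℕ} (hq : Fintype.card F = q)
    (hp : p = 2) (d : ℕ) (hd : 2 ≤ d) (hT : (d, q) ≠ (2, 2)) (Q : (Fin d ⊕ Fin d → F) → F) (hQ : Cfsg.Geo.IsNondegenerateQuadraticForm Q)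
    (hQf : ∀ u v, QuadraticMap.polar Q u v = Cfsg.sympForm d F u v)
    (r : ℕ) [Fact r.Prime]
    (hΩ : r ∣ (Cfsg.Geo.quadSimilarityGroup Q).relIndex (Cfsg.spGL d F)) :
    (∀ x ∈ Cfsg.spGL d F, (∃ z : F, ((x ^ r : GL (Fin d ⊕ Fin d) F) : Matrix (Fin d ⊕ Fin d) (Fin d ⊕ Fin d) F) = z • (1 : Matrix (Fin d ⊕ Fin d) (Fin d ⊕ Fin d) F)) →
      (∀ z : F, (x : Matrix (Fin d ⊕ Fin d) (Fin d ⊕ Fin d) F) ≠ z • (1 : Matrix (Fin d ⊕ Fin d) (Fin d ⊕ Fin d) F)) →
      ∃ g ∈ Cfsg.spGL d F, g⁻¹ * x * g ∈ Cfsg.Geo.quadSimilarityGroup Q) ↔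
    (r = 2 ∧ (Cfsg.Geo.IsPlusTypeOn Q ⊤ ∨ Odd d)) := by
  subst hp
  obtain ⟨n, rfl⟩ : ∃ n, d = n + 1 := ⟨d - 1, by omega⟩
  have hι : Fintype.card (Fin (n + 1) ⊕ Fin (n + 1)) = 2 * (n + 1) := by
    simp only [Fintype.card_sum, Fintype.card_fin]; omega
  set P : QuadraticForm F (Fin (n + 1) ⊕ Fin (n + 1) → F) := Cfsg.Agent.Lib.Helper94.quadOf Q hQ
    with hPdef
  have hPQ : ∀ v, P v = Q v := fun v => rfl
  have hP : (QuadraticMap.polarBilin P).Nondegenerate :=
    Cfsg.Agent.Lib.Helper94.pB_quadOf_nondegenerate Q hQ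
  have hpolS : ∀ u v, QuadraticMap.polar P u v = Cfsg.sympForm (n + 1) F u v := hQf
  have hpol : ∀ u v, QuadraticMap.polar P u v = QuadraticMap.polar (plusQF (n + 1) F) u v := by
    intro u v
    rw [plusQF_polar_eq_symp]; exact hQf u v
  have hmemSp : ∀ g : GL (Fin (n + 1) ⊕ Fin (n + 1)) F,
      g ∈ Cfsg.spGL (n + 1) F ↔ glEquiv g ∈ SpL P := by
    intro g
    rw [mem_SpL]
    simp only [hpolS, glEquiv_apply]
    rfl
  -- a pair with non-zero product
  obtain ⟨u₀, v₀, huv⟩ : ∃ u₀ v₀, QuadraticMap.polar P u₀ v₀ ≠ 0 := by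
    have hne : (Pi.single (Sum.inl 0) 1 : Fin (n + 1) ⊕ Fin (n + 1) → F) ≠ 0 := by
      intro h
      have := congrFun h (Sum.inl 0)
      simp at this
    obtain ⟨⟨x, hx⟩, -⟩ := hQ.nondegenerate _ hne
    exact ⟨x, _, hx⟩
  have hmemO : ∀ g ∈ Cfsg.spGL (n + 1) F,
      (g ∈ Cfsg.Geo.quadSimilarityGroup Q ↔ glEquiv g ∈ OQ P) := by
    intro g hg
    constructor
    · rintro ⟨c, hc⟩
      have h1 : QuadraticMap.polar P (glEquiv g u₀) (glEquiv g v₀)
          = (c : F) * QuadraticMap.polar P u₀ v₀ := by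
        simp only [QuadraticMap.polar, glEquiv_apply, hPQ, ← Matrix.mulVec_add, hc]
        ring
      rw [(hmemSp g).1 hg] at h1
      have hc1 : (c : F) = 1 := by
        have : ((c : F) - 1) * QuadraticMap.polar P u₀ v₀ = 0 := by linear_combination -h1
        rcases mul_eq_zero.1 this with h | h
        · linear_combination h
        · exact absurd h huv
      intro v
      rw [glEquiv_apply, hPQ, hc, hc1, one_mul, hPQ]
    · intro h
      refine ⟨1, fun v => ?_⟩
      have := h v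
      rw [glEquiv_apply, hPQ, hPQ] at this
      rw [this]; simp
  have hscal : ∀ (x : GL (Fin (n + 1) ⊕ Fin (n + 1)) F) (z : F), x ∈ Cfsg.spGL (n + 1) F →
      (x : Matrix (Fin (n + 1) ⊕ Fin (n + 1)) (Fin (n + 1) ⊕ Fin (n + 1)) F) = z • 1 → x = 1 := by
    intro x z hx hz
    have h1 := (hmemSp x).1 hx u₀ v₀
    rw [glEquiv_apply, glEquiv_apply, hz, Matrix.smul_mulVec, Matrix.smul_mulVec,
      Matrix.one_mulVec, Matrix.one_mulVec, QuadraticMap.polar_smul_left,
      QuadraticMap.polar_smul_right, smul_eq_mul, smul_eq_mul] at h1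
    have h2 : (z * z - 1) * QuadraticMap.polar P u₀ v₀ = 0 := by linear_combination h1
    have h3 : z * z - 1 = 0 := (mul_eq_zero.1 h2).resolve_right huv
    have h4 : (z - 1) * (z - 1) = 0 := by
      have h5 : (2 : F) = 0 := CharTwo.two_eq_zero
      linear_combination h3 - (z - 1) * h5
    have h6 : z = 1 := by
      have := mul_self_eq_zero.1 h4
      linear_combination this
    apply Units.ext
    rw [hz, h6, one_smul, Units.val_one]
  have hrel : (Cfsg.Geo.quadSimilarityGroup Q).relIndex (Cfsg.spGL (n + 1) F)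
      = (OQ P).relIndex (SpL P) := by
    have e1 : Cfsg.spGL (n + 1) F = (SpL P).comap (glEquiv.toMonoidHom) := by
      ext g
      rw [Subgroup.mem_comap]
      exact hmemSp g
    have e2 : Cfsg.Geo.quadSimilarityGroup Q ⊓ Cfsg.spGL (n + 1) F
        = (OQ P).comap (glEquiv.toMonoidHom) := by
      ext g
      rw [Subgroup.mem_comap, Subgroup.mem_inf]
      constructor
      · rintro ⟨h1, h2⟩
        exact (hmemO g h2).1 h1
      · intro h
        have h2 : g ∈ Cfsg.spGL (n + 1) F := (hmemSp g).2 (OQ_le_SpL P h)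
        exact ⟨(hmemO g h2).2 h, h2⟩
    rw [← Subgroup.inf_relIndex_right, e2, Subgroup.relIndex_comap, e1,
      Subgroup.map_comap_eq_self_of_surjective glEquiv.surjective]
  rw [hrel] at hΩ
  have hAB : (∀ x ∈ Cfsg.spGL (n + 1) F, (∃ z : F, ((x ^ r : GL (Fin (n + 1) ⊕ Fin (n + 1)) F) : Matrix (Fin (n + 1) ⊕ Fin (n + 1)) (Fin (n + 1) ⊕ Fin (n + 1)) F) = z • (1 : Matrix (Fin (n + 1) ⊕ Fin (n + 1)) (Fin (n + 1) ⊕ Fin (n + 1)) F)) →
      (∀ z : F, (x : Matrix (Fin (n + 1) ⊕ Fin (n + 1)) (Fin (n + 1) ⊕ Fin (n + 1)) F) ≠ z • (1 : Matrix (Fin (n + 1) ⊕ Fin (n + 1)) (Fin (n + 1) ⊕ Fin (n + 1)) F)) →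
      ∃ g ∈ Cfsg.spGL (n + 1) F, g⁻¹ * x * g ∈ Cfsg.Geo.quadSimilarityGroup Q) ↔
      (∀ T ∈ SpL P, T ^ r = 1 → T ≠ 1 → ∃ c ∈ SpL P, c * T * c⁻¹ ∈ OQ P) := by
    constructor
    · intro hA T hT hTr hT1
      have hx : glEquiv.symm T ∈ Cfsg.spGL (n + 1) F := by
        rw [hmemSp, MulEquiv.apply_symm_apply]; exact hT
      obtain ⟨g, hg, hgx⟩ := hA (glEquiv.symm T) hx ⟨1, by
        rw [← map_pow, hTr, map_one, Units.val_one, one_smul]⟩ (by
        intro z hz
        apply hT1
        have := hscal _ z hx hz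
        rw [← MulEquiv.apply_symm_apply glEquiv T, this, map_one])
      refine ⟨glEquiv g⁻¹, (hmemSp _).1 (Subgroup.inv_mem _ hg), ?_⟩
      have h1 := (hmemO _ (Subgroup.mul_mem _ (Subgroup.mul_mem _ (Subgroup.inv_mem _ hg) hx)
        hg)).1 hgx
      rw [map_mul, map_mul, MulEquiv.apply_symm_apply] at h1
      rw [map_inv, inv_inv]
      rw [map_inv] at h1
      exact h1
    · intro hB x hx ⟨z, hz⟩ hns
      have hxr : x ^ r = 1 := hscal _ z (Subgroup.pow_mem _ hx r) hz
      obtain ⟨c, hc, hcT⟩ := hB (glEquiv x) ((hmemSp x).1 hx) (by rw [← map_pow, hxr, map_one])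
        (by
          intro h
          apply hns 1
          have : x = 1 := glEquiv.injective (by rw [h, map_one])
          rw [this, Units.val_one, one_smul])
      have hg : glEquiv.symm c⁻¹ ∈ Cfsg.spGL (n + 1) F := by
        rw [hmemSp, MulEquiv.apply_symm_apply]; exact Subgroup.inv_mem _ hc
      refine ⟨glEquiv.symm c⁻¹, hg, ?_⟩
      rw [hmemO _ (Subgroup.mul_mem _ (Subgroup.mul_mem _ (Subgroup.inv_mem _ hg) hx) hg),
        map_mul, map_mul, map_inv, MulEquiv.apply_symm_apply, inv_inv]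
      exact hcT
  rw [hAB]
  constructor
  · intro hB
    have hr2 : r = 2 := eq_two_of_all_conj n P hP hpol r hΩ hB
    refine ⟨hr2, ?_⟩
    by_contra hcon
    push Not at hcon
    obtain ⟨hnp, hno⟩ := hcon
    rw [Nat.not_odd_iff_even] at hno
    obtain ⟨U, hU, hdim⟩ := sing_of_all_conj (n + 1) (by omega) P hpol hno
      (fun T hT h2 h1 => hB T hT (by rw [hr2, pow_two]; exact h2) h1)
    apply hnp
    refine ⟨U, le_top, hU, ?_⟩
    rw [hdim, finrank_top, Module.finrank_fintype_fun_eq_card, hι]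
  · rintro ⟨hr2, hcase⟩ T hT hTr hT1
    refine conj_into_OQ hι P hP ?_ T hT (by rw [← pow_two, ← hr2]; exact hTr) hT1
    rcases hcase with ⟨U, -, hU, hdim⟩ | h
    · left
      refine exc_pos_of_sing hι P hP U hU ?_
      rw [finrank_top, Module.finrank_fintype_fun_eq_card, hι] at hdim
      omega
    · right; exact h

end Cfsg.Agent.S5983
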